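import Cfsg.Statements.S0826
import Mathlib
import Cfsg.Agent.Lib.Classical.Heart
import Cfsg.Agent.Lib.Classical.SympStd
import Cfsg.Agent.Lib.Classical.IsoBridge
import Cfsg.Agent.Lib.Classical.OrderQuad

set_option autoImplicit false
open Cfsg

namespace Cfsg.Agent.S0826

/-- S_2n ≤ Sp_(2n−2)(2) for n ≥ 3: there is an injective homomorphism from the symmetric group on 2n letters into the symplectic group of degree 2n − 2 over the field with two elements. -/
theorem result (n : ℕ) (hn : 3 ≤ n) : ∃ f : Equiv.Perm (Fin (2 * n)) →* Matrix.symplecticGroup (Fin (n - 1)) (ZMod 2), Function.Injective f := by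
  classical
  have hc : Even (Fintype.card (Fin (2 * n))) := by simp
  have hcard : Fintype.card (Fin (2 * n)) = 2 * n := by simp
  have h6 : 6 ≤ Fintype.card (Fin (2 * n)) := by rw [hcard]; omega
  have h2 : 2 ≤ Fintype.card (Fin (2 * n)) := by omega
  let z : Fin (2 * n) := ⟨0, by omega⟩
  have hr := Cfsg.Agent.Lib.Classical.Heart.finrank_heart (α := Fin (2 * n)) h2 z
  have hdim : Module.finrank (ZMod 2) (Cfsg.Agent.Lib.Classical.Heart.heart z) = 2 * (n - 1) := by
    rw [hcard] at hr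
    omega
  obtain ⟨θ, hθ⟩ := Cfsg.Agent.Lib.Classical.exists_symp_isometry
    (Cfsg.Agent.Lib.Classical.Heart.dotB.restrict (Cfsg.Agent.Lib.Classical.Heart.heart z))
    (Cfsg.Agent.Lib.Classical.Heart.dot_nondeg hc h2 z)
    (Cfsg.Agent.Lib.Classical.Heart.dot_alt z) (n - 1) hdim
  let e1 := Cfsg.Agent.Lib.Classical.Abs.isoGCongr θ
    (fun u v : Cfsg.Agent.Lib.Classical.Heart.heart z =>
      Cfsg.Agent.Lib.Classical.Heart.dotB u.1 v.1)
    (Cfsg.sympForm (n - 1) (ZMod 2)) (fun u v => hθ u v)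
  let e2 := Cfsg.Agent.Lib.Classical.Abs.glIsoEquiv (ι := Fin (n - 1) ⊕ Fin (n - 1))
    (Cfsg.sympForm (n - 1) (ZMod 2))
  let e3 := Cfsg.Agent.Lib.Classical.Abs.spEquivGL (n - 1) (ZMod 2)
  refine ⟨(((e3.symm.toMonoidHom.comp e2.symm.toMonoidHom).comp e1.toMonoidHom).comp
    (Cfsg.Agent.Lib.Classical.Heart.heartIso hc z)), ?_⟩
  intro σ τ h
  apply Cfsg.Agent.Lib.Classical.Heart.heartIso_injective hc h6 z
  apply e1.injective
  apply e2.symm.injective
  apply e3.symm.injective
  exact h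

end Cfsg.Agent.S0826
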