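import Cfsg.Statements.S0247
import Mathlib
import Cfsg.Agent.S0826
import Cfsg.Agent.S0245
import Cfsg.Agent.Lib.Classical.RingCongr

set_option autoImplicit false
open Cfsg

namespace Cfsg.Agent.S0247

/-- Sp_4(2) is isomorphic to the symmetric group S_6. -/
theorem result {F : Type*} [Field F] [Fintype F] (hF : Fintype.card F = 2) : Nonempty (Matrix.symplecticGroup (Fin 2) F ≃* Equiv.Perm (Fin 6)) := by
  classical
  let e : ZMod 2 ≃+* F := ZMod.ringEquivOfPrime F Nat.prime_two hF
  obtain ⟨f, hf⟩ := Cfsg.Agent.S0826.result 3 (le_refl _)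
  let f' : Equiv.Perm (Fin 6) →* Matrix.symplecticGroup (Fin 2) (ZMod 2) := f
  have hf' : Function.Injective f' := hf
  have hc : Nat.card (Matrix.symplecticGroup (Fin 2) (ZMod 2)) = 720 := by
    have := Cfsg.Agent.S0245.result (F := ZMod 2) (q := 2) (by simp) 2
    rw [this]
    decide
  have hp : Nat.card (Equiv.Perm (Fin 6)) = 720 := by
    rw [Nat.card_perm]
    simp [Nat.factorial]
  have hb : Function.Bijective f' := by
    haveI : Finite (Matrix.symplecticGroup (Fin 2) (ZMod 2)) := Nat.finite_of_card_ne_zero (by omega)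
    apply hf'.bijective_of_nat_card_le
    omega
  exact ⟨(Cfsg.Agent.Lib.Classical.RC.spCongr 2 e).symm.trans (MulEquiv.ofBijective f' hb).symm⟩

end Cfsg.Agent.S0247
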