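import Cfsg.Statements.S4931
import Mathlib
import Cfsg.Agent.Lib.Degree.NCompl
import Cfsg.Agent.Lib.Techniques.Goldschmidt

set_option autoImplicit false
open Cfsg
open scoped commutatorElement
open Cfsg.Agent.Lib.Block Cfsg.Agent.Lib.Char Cfsg.Agent.Lib.Degree Cfsg.Agent.Lib.Transfer

namespace Cfsg.Agent.S4931


section

variable {G : Type*} [Group G] [Finite G] {p : ℕ} [hp : Fact p.Prime]

theorem backward_aux (N K : Subgroup G) (hK : K.Normal) (hsup : K ⊔ N = ⊤) (hinf : K ⊓ N = ⊥)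
    (θ : Cfsg.IrrCharacter ↥N) : ∃ χ : Cfsg.IrrCharacter G, ∀ x : ↥N, (χ : G → ℂ) x = (θ : ↥N → ℂ) x := by
  let f : ↥N →* G ⧸ K := (QuotientGroup.mk' K).comp N.subtype
  have hf1 : Function.Injective f := by
    rw [injective_iff_map_eq_one]
    intro x hx
    have h1 : ((x : G)) ∈ K := (QuotientGroup.eq_one_iff _).mp hx
    have h2 : (x : G) ∈ K ⊓ N := ⟨h1, x.2⟩
    rw [hinf] at h2
    exact Subtype.ext h2
  have hf2 : Function.Surjective f := by
    intro q
    obtain ⟨g, rfl⟩ := QuotientGroup.mk_surjective q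
    have hg : g ∈ ((K ⊔ N : Subgroup G) : Set G) := by rw [hsup]; trivial
    rw [Subgroup.normal_mul] at hg
    obtain ⟨a, ha, b, hb, rfl⟩ := Set.mem_mul.mp hg
    refine ⟨⟨b, hb⟩, ?_⟩
    show ((b : G) : G ⧸ K) = ((a * b : G) : G ⧸ K)
    rw [QuotientGroup.mk_mul, (QuotientGroup.eq_one_iff a).mpr ha, one_mul]
  let e : ↥N ≃* G ⧸ K := MulEquiv.ofBijective f ⟨hf1, hf2⟩
  have hirr : IsIrrCharacter (G ⧸ K) ((θ : ↥N → ℂ) ∘ e.symm.toMonoidHom) :=
    isIrr_comp_surjective e.symm.toMonoidHom e.symm.surjective θ.2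
  have hirr2 : IsIrrCharacter G (((θ : ↥N → ℂ) ∘ e.symm.toMonoidHom) ∘ (QuotientGroup.mk' K)) :=
    isIrr_comp_surjective (QuotientGroup.mk' K) (QuotientGroup.mk'_surjective K) hirr
  refine ⟨⟨_, hirr2⟩, fun x => ?_⟩
  show (θ : ↥N → ℂ) (e.symm (QuotientGroup.mk' K (x : G))) = _
  have h3 : QuotientGroup.mk' K (x : G) = e x := rfl
  rw [h3, e.symm_apply_apply]

theorem forward_aux (P : Sylow p G) (N : Subgroup G) (hNdef : N = Subgroup.normalizer ((P : Subgroup G) : Set G))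
    (h : ∀ θ : Cfsg.IrrCharacter ↥N, ¬ p ∣ Cfsg.charDegree (θ : ↥N → ℂ) →
        ∃ χ : Cfsg.IrrCharacter G, ∀ x : ↥N, (χ : G → ℂ) x = (θ : ↥N → ℂ) x) :
    ∃ K : Subgroup G, K.Normal ∧ K ⊔ N = ⊤ ∧ K ⊓ N = ⊥ := by
  classical
  have hpp : p.Prime := Fact.out
  have := Fintype.ofFinite G
  have hPN : (P : Subgroup G) ≤ N := by
    rw [hNdef]
    exact Subgroup.le_normalizer
  let A : Subgroup ↥N := (P : Subgroup G).subgroupOf N
  have hAn : A.Normal := by
    subst hNdef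
    exact Subgroup.normal_in_normalizer
  have hAp : IsPGroup p A := Cfsg.Agent.Lib.FF.isPGroup_subgroupOf P.isPGroup'
  have hidx : ¬ p ∣ A.index := by
    intro hd
    apply P.not_dvd_index
    have h1 := Subgroup.relIndex_mul_index hPN
    rw [← h1]
    exact hd.trans (dvd_mul_right _ _)
  have hmemA : ∀ x : ↥N, x ∈ A ↔ (x : G) ∈ (P : Subgroup G) := fun x => Subgroup.mem_subgroupOf
  let S : Set (IrrCharacter G) := {χ | ∃ θ : IrrCharacter ↥N, ¬ p ∣ charDegree (θ : ↥N → ℂ) ∧ ∀ x : ↥N, (χ : G → ℂ) x = (θ : ↥N → ℂ) x}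
  let S₀ : Set (IrrCharacter G) := {χ | ∃ θ : IrrCharacter ↥N, (∀ a ∈ A, (θ : ↥N → ℂ) a = (θ : ↥N → ℂ) 1) ∧ ∀ x : ↥N, (χ : G → ℂ) x = (θ : ↥N → ℂ) x}
  have hdegker : ∀ θ : IrrCharacter ↥N, (∀ a ∈ A, (θ : ↥N → ℂ) a = (θ : ↥N → ℂ) 1) → ¬ p ∣ charDegree (θ : ↥N → ℂ) :=
    fun θ hθ hd => hidx (hd.trans (degree_dvd_index_of_ker A θ hθ))
  have hS₀S : S₀ ⊆ S := by
    rintro χ ⟨θ, h1, h2⟩
    exact ⟨θ, hdegker θ h1, h2⟩
  have hone : ∀ (χ : IrrCharacter G) (θ : IrrCharacter ↥N), (∀ x : ↥N, (χ : G → ℂ) x = (θ : ↥N → ℂ) x) →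
      (χ : G → ℂ) 1 = (θ : ↥N → ℂ) 1 := fun χ θ hx => by
    have := hx 1
    simpa using this
  have hdegS : ∀ χ ∈ S, ¬ p ∣ charDegree (χ : G → ℂ) := by
    rintro χ ⟨θ, h1, h2⟩
    have h3 : charDegree (χ : G → ℂ) = charDegree (θ : ↥N → ℂ) := by
      unfold charDegree
      rw [hone χ θ h2]
    rwa [h3]
  let K₁ := kerSet S
  let R := kerSet S₀
  have hK₁R : K₁ ≤ R := kerSet_anti hS₀S
  have hPR : (P : Subgroup G) ≤ R := by
    intro u hu
    rintro χ ⟨θ, h1, h2⟩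
    rw [hone χ θ h2, ← h1 ⟨u, hPN hu⟩ ((hmemA _).mpr hu)]
    exact h2 ⟨u, hPN hu⟩
  have hRN : ∀ x ∈ R, ∀ hx : x ∈ N, x ∈ (P : Subgroup G) := by
    intro x hxR hxN
    have h1 : (⟨x, hxN⟩ : ↥N) ∈ A := by
      apply mem_of_char A
      intro θ hθ
      obtain ⟨χ, hχ⟩ := h θ (hdegker θ hθ)
      have h2 : χ ∈ S₀ := ⟨θ, hθ, hχ⟩
      rw [← hone χ θ hχ, ← hχ]
      exact hxR χ h2
    exact (hmemA _).mp h1
  have hK₁N : ∀ x ∈ K₁, ∀ hx : x ∈ N, x ∈ (⁅(P : Subgroup G), (P : Subgroup G)⁆ : Subgroup G) := by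
    intro x hxK hxN
    have hxP := hRN x (hK₁R hxK) hxN
    have hxA : (⟨x, hxN⟩ : ↥N) ∈ A := (hmemA _).mpr hxP
    have h1 : (⟨⟨x, hxN⟩, hxA⟩ : ↥A) ∈ commutator ↥A := by
      apply mem_commutator_of_char A hidx
      intro θ hθ
      obtain ⟨χ, hχ⟩ := h θ hθ
      have h2 : χ ∈ S := ⟨θ, hθ, hχ⟩
      rw [← hone χ θ hχ]
      show (θ : ↥N → ℂ) ⟨x, hxN⟩ = _
      rw [← hχ]
      exact hxK χ h2
    let ι : ↥A →* G := N.subtype.comp A.subtype
    have h3 : (commutator ↥A).map ι ≤ ⁅(P : Subgroup G), (P : Subgroup G)⁆ := by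
      rw [commutator_def, Subgroup.map_commutator]
      have h4 : (⊤ : Subgroup ↥A).map ι ≤ (P : Subgroup G) := by
        rintro _ ⟨u, -, rfl⟩
        exact (hmemA _).mp u.2
      exact Subgroup.commutator_mono h4 h4
    exact h3 ⟨_, h1, rfl⟩
  have hcomm : (⁅(P : Subgroup G), (P : Subgroup G)⁆ : Subgroup G) ≤ K₁ := by
    rw [Subgroup.commutator_le]
    intro u hu v hv
    rintro χ ⟨θ, h1, h2⟩
    let u' : ↥A := ⟨⟨u, hPN hu⟩, (hmemA _).mpr hu⟩
    let v' : ↥A := ⟨⟨v, hPN hv⟩, (hmemA _).mpr hv⟩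
    have h3 : ⁅u', v'⁆ ∈ commutator ↥A :=
      Subgroup.commutator_mem_commutator (Subgroup.mem_top _) (Subgroup.mem_top _)
    have h4 := char_commutator_of_not_dvd A hAp θ h1 h3
    have h5 : (((⁅u', v'⁆ : ↥A) : ↥N) : G) = ⁅u, v⁆ := rfl
    rw [hone χ θ h2, ← h4, ← h5]
    exact h2 _
  -- the quotient
  let π : G →* G ⧸ K₁ := QuotientGroup.mk' K₁
  have hπ : Function.Surjective π := QuotientGroup.mk'_surjective K₁
  have : Fintype (G ⧸ K₁) := Fintype.ofFinite _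
  let Q : Sylow p (G ⧸ K₁) := P.mapSurjective hπ
  have hQ : (Q : Subgroup (G ⧸ K₁)) = (P : Subgroup G).map π := rfl
  have hRn : R.Normal := inferInstance
  have hRhat : (R.map π).Normal := hRn.map π hπ
  let Ŝ : Set (IrrCharacter (G ⧸ K₁)) := {c | inflate K₁ c ∈ S}
  have hT : ∀ y : G, π y ∈ (Q : Subgroup (G ⧸ K₁)) → y ∈ (P : Subgroup G) ⊔ K₁ := by
    intro y hy
    rw [hQ] at hy
    obtain ⟨u, hu, huy⟩ := hy
    have h1 : u⁻¹ * y ∈ K₁ := by
      rw [← QuotientGroup.eq]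
      exact huy
    have h2 : y = u * (u⁻¹ * y) := by group
    rw [h2]
    exact Subgroup.mul_mem_sup hu h1
  have hT' : ∀ y ∈ (P : Subgroup G) ⊔ K₁, π y ∈ (Q : Subgroup (G ⧸ K₁)) := by
    intro y hy
    have h1 : (P : Subgroup G) ⊔ K₁ ≤ (Q : Subgroup (G ⧸ K₁)).comap π := by
      refine sup_le ?_ ?_
      · intro u hu
        exact ⟨u, hu, rfl⟩
      · intro u hu
        have h5 : π u = 1 := (QuotientGroup.eq_one_iff u).mpr hu
        rw [Subgroup.mem_comap, h5]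
        exact Subgroup.one_mem _
    exact h1 hy
  have hmain : R.map π = (Q : Subgroup (G ⧸ K₁)) := by
    apply eq_sylow_of_selfNorm Q ?_ (R.map π) ?_ ?_ Ŝ ?_ ?_
    · rintro _ ⟨u, hu, rfl⟩ _ ⟨v, hv, rfl⟩
      have h1 : ⁅u, v⁆ ∈ K₁ := hcomm (Subgroup.commutator_mem_commutator hu hv)
      have h2 : π ⁅u, v⁆ = 1 := (QuotientGroup.eq_one_iff _).mpr h1
      rw [map_commutatorElement, commutatorElement_eq_one_iff_mul_comm] at h2
      exact h2
    · exact Subgroup.map_mono hPR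
    · rintro _ ⟨y, hy, rfl⟩ hynorm
      have hSylow : Cfsg.Agent.Lib.Techniques.SylowIn p (P : Subgroup G) ((P : Subgroup G) ⊔ K₁) := by
        refine ⟨le_sup_left, P.isPGroup', ?_⟩
        intro hd
        apply P.not_dvd_index
        rw [← Subgroup.relIndex_mul_index (le_sup_left : (P : Subgroup G) ≤ (P : Subgroup G) ⊔ K₁)]
        exact hd.trans (dvd_mul_right _ _)
      have hnT : Cfsg.Agent.Lib.Techniques.conjS y ((P : Subgroup G) ⊔ K₁) = (P : Subgroup G) ⊔ K₁ := by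
        rw [← Cfsg.Agent.Lib.Techniques.mem_normalizer_iff_conjS, Subgroup.mem_normalizer_iff]
        intro h
        constructor
        · intro hh
          apply hT
          have h1 := hT' h hh
          have h2 := (Subgroup.mem_normalizer_iff.mp hynorm _).mp h1
          simpa [map_mul, map_inv] using h2
        · intro hh
          apply hT
          have h1 := hT' _ hh
          have h2 : π y * π h * (π y)⁻¹ ∈ (Q : Subgroup (G ⧸ K₁)) := by
            simpa [map_mul, map_inv] using h1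
          exact (Subgroup.mem_normalizer_iff.mp hynorm _).mpr h2
      obtain ⟨k, hk, hkn⟩ := Cfsg.Agent.Lib.Techniques.frattini_in hSylow hnT
      have hkR : k ∈ R := (sup_le hPR hK₁R) hk
      have hnP := hRN _ (R.mul_mem (R.inv_mem hkR) hy) (by rw [hNdef]; exact hkn)
      apply hT'
      have h3 : y = k * (k⁻¹ * y) := by group
      rw [h3]
      exact Subgroup.mul_mem _ hk (Subgroup.mem_sup_left hnP)
    · intro c hc
      have h1 := hdegS _ hc
      have h3 : charDegree ((inflate K₁ c : IrrCharacter G) : G → ℂ) = charDegree (c : G ⧸ K₁ → ℂ) := by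
        unfold charDegree
        simp
      rwa [h3] at h1
    · intro q hq
      obtain ⟨x, rfl⟩ := QuotientGroup.mk_surjective q
      rw [QuotientGroup.eq_one_iff]
      intro χ hχ
      have hker : KerContains K₁ (χ : G → ℂ) := fun n hn => hn χ hχ
      obtain ⟨c, hc⟩ := exists_inflate K₁ hker
      have hcS : c ∈ Ŝ := by
        show inflate K₁ c ∈ S
        rw [hc]
        exact hχ
      have h1 := hq c hcS
      rw [← hc]
      simpa using h1
  have hRle : R ≤ (P : Subgroup G) ⊔ K₁ := by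
    intro y hy
    apply hT
    rw [← hmain]
    exact ⟨y, hy, rfl⟩
  have htop : K₁ ⊔ N = ⊤ := by
    have h1 : N ⊔ R = ⊤ := by
      rw [hNdef]
      exact Sylow.normalizer_sup_eq_top' (N := R) P hPR
    rw [eq_top_iff, ← h1]
    refine sup_le le_sup_right (hRle.trans (sup_le (hPN.trans le_sup_right) le_sup_left))
  -- Tate
  have hΦ : K₁ ⊓ (P : Subgroup G) ≤ (frattini (P : Subgroup G)).map (P : Subgroup G).subtype := by
    rintro x ⟨hxK, hxP⟩
    have h1 := hK₁N x hxK (hPN hxP)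
    rw [← (P : Subgroup G).map_subtype_commutator] at h1
    exact Subgroup.map_mono (commutator_le_frattini P.isPGroup') h1
  let W : Subgroup G := (pResidual p ↥K₁).map K₁.subtype
  have hWn : W.Normal := residual_map_normal (p := p) K₁
  have hWK : W ≤ K₁ := Subgroup.map_subtype_le _
  have hWP : W ⊓ (P : Subgroup G) = ⊥ := tate_core P W (residual_map_residual K₁) ((inf_le_inf_right _ hWK).trans hΦ)
  refine ⟨W, hWn, ?_, ?_⟩
  · rw [eq_top_iff, ← htop]
    refine sup_le ?_ le_sup_right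
    have h1 := Cfsg.Agent.Lib.FF.le_sup_oUpper (Cfsg.Agent.Lib.FF.inf_normal_isSylowIn P K₁)
    refine h1.trans (sup_le ?_ ?_)
    · exact inf_le_left.trans (hPN.trans le_sup_right)
    · refine le_trans ?_ le_sup_left
      unfold Cfsg.Agent.Lib.FF.oUpper
      rw [Subgroup.closure_le]
      rintro g ⟨hg, hgc⟩
      refine ⟨⟨g, hg⟩, mem_pResidual_of_coprime ?_, rfl⟩
      rwa [Subgroup.orderOf_mk]
  · rw [eq_bot_iff, ← hWP]
    rintro x ⟨hxW, hxN⟩
    refine ⟨hxW, ?_⟩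
    have h1 := hK₁N x (hWK hxW) hxN
    rw [← (P : Subgroup G).map_subtype_commutator] at h1
    exact Subgroup.map_subtype_le _ h1

end

/-- Let G be a finite group, p a prime and P a Sylow p-subgroup of G with normalizer N. Then every irreducible complex character of N of degree not divisible by p is the restriction of an irreducible character of G if and only if there is a normal subgroup K of G with KN = G and K ∩ N = 1. -/
theorem result {G : Type*} [Group G] [Finite G] (p : ℕ) [Fact p.Prime] (P : Sylow p G) :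
    (∀ θ : Cfsg.IrrCharacter ↥(Subgroup.normalizer ((P : Subgroup G) : Set G)), ¬ p ∣ Cfsg.charDegree (θ : ↥(Subgroup.normalizer ((P : Subgroup G) : Set G)) → ℂ) →
        ∃ χ : Cfsg.IrrCharacter G, ∀ x : ↥(Subgroup.normalizer ((P : Subgroup G) : Set G)), (χ : G → ℂ) x = (θ : ↥(Subgroup.normalizer ((P : Subgroup G) : Set G)) → ℂ) x) ↔
      ∃ K : Subgroup G, K.Normal ∧ K ⊔ Subgroup.normalizer ((P : Subgroup G) : Set G) = ⊤ ∧ K ⊓ Subgroup.normalizer ((P : Subgroup G) : Set G) = ⊥ := by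

  exact ⟨fun h => forward_aux P _ rfl h, fun ⟨K, hK, hsup, hinf⟩ θ _ => backward_aux _ K hK hsup hinf θ⟩

end Cfsg.Agent.S4931
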