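import Cfsg.Statements.S1137
import Mathlib
import Cfsg.Agent.Lib.Suz2.Central

set_option autoImplicit false
open Cfsg

namespace Cfsg.Agent.S1137

/-- In a Suzuki 2-group `P` (a finite non-abelian 2-group with more than one involution admitting a cyclic group of automorphisms regular on its involutions) the involutions are exactly the non-identity central elements, and `Z(P)` is elementary abelian. -/
theorem result {P : Type*} [Group P] (hP : Cfsg.IsSuzukiTwoGroup P) :
    (∀ x : P, (x ≠ 1 ∧ x * x = 1) ↔ (x ∈ Subgroup.center P ∧ x ≠ 1)) ∧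
      ∀ z ∈ Subgroup.center P, z * z = 1 := by
  obtain ⟨hfin, htwo, ⟨a, b, hab⟩, hinv, K, hK, hreg⟩ := hP
  have hS : Cfsg.Agent.Suz2.Sz2 K.subtype :=
    { fin := hfin
      two := htwo
      invs := hinv
      reg := hreg
      comm := by
        intro x y
        haveI : IsCyclic K := hK
        exact (IsCyclic.exists_generator (α := K)).elim fun g hg => by
          obtain ⟨i, hi⟩ := Subgroup.mem_zpowers_iff.mp (hg x)
          obtain ⟨j, hj⟩ := Subgroup.mem_zpowers_iff.mp (hg y)
          rw [← hi, ← hj]
          exact (Commute.zpow_zpow_self g i j) }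
  have hcent : ∀ z ∈ Subgroup.center P, z * z = 1 := by
    intro z hz
    by_contra hne
    exact hab (Cfsg.Agent.Suz2.abelian_of_central (Nat.card P) P K.subtype hS rfl ⟨z, hz, hne⟩ a b)
  refine ⟨fun x => ⟨fun h => ⟨Cfsg.Agent.Suz2.invol_central hS h.1 h.2, h.1⟩,
    fun h => ⟨h.2, hcent x h.1⟩⟩, hcent⟩

end Cfsg.Agent.S1137
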