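import Cfsg.Statements.S1138
import Mathlib
import Cfsg.Agent.Lib.Suz2.Order2

set_option autoImplicit false
open Cfsg

namespace Cfsg.Agent.S1138

/-- Let `P` be a Suzuki 2-group with `|Z(P)| = q`. Then every square lies in `Z(P)` and `P/Z(P)` is abelian (so elementary abelian), `|P| = q²` or `|P| = q³`, and `P` has exponent 4. -/
theorem result {P : Type*} [Group P] (hP : Cfsg.IsSuzukiTwoGroup P) :
    (∀ x : P, x * x ∈ Subgroup.center P) ∧ (∀ x y : P, x⁻¹ * y⁻¹ * x * y ∈ Subgroup.center P) ∧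
      (Nat.card P = Nat.card (Subgroup.center P) ^ 2 ∨ Nat.card P = Nat.card (Subgroup.center P) ^ 3) ∧
      Monoid.exponent P = 4 := by
  obtain ⟨hfin, htwo, ⟨a, b, hab⟩, hinv, K, hK, hreg⟩ := hP
  have hS : Cfsg.Agent.Suz2.Sz2 K.subtype :=
    { fin := hfin
      two := htwo
      invs := hinv
      reg := hreg
      comm := by
        intro x y
        haveI : IsCyclic K := hK
        exact (IsCyclic.exists_generator (α := K)).elim fun g hg => by
          obtain ⟨i, hi⟩ := Subgroup.mem_zpowers_iff.mp (hg x)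
          obtain ⟨j, hj⟩ := Subgroup.mem_zpowers_iff.mp (hg y)
          rw [← hi, ← hj]
          exact (Commute.zpow_zpow_self g i j) }
  have hcent : ∀ z ∈ Subgroup.center P, z * z = 1 := by
    intro z hz
    by_contra hne
    exact hab (Cfsg.Agent.Suz2.abelian_of_central (Nat.card P) P K.subtype hS rfl ⟨z, hz, hne⟩ a b)
  have hce : Subgroup.center P = Cfsg.Agent.Suz2.Om hS := by
    apply le_antisymm
    · intro z hz
      exact hcent z hz
    · exact Cfsg.Agent.Suz2.Om_le_center hS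
  rw [hce]
  obtain ⟨h1, h2⟩ := Cfsg.Agent.Suz2.elem_general hS ⟨a, b, hab⟩
  exact ⟨h1, h2, Cfsg.Agent.Suz2.card_general hS ⟨a, b, hab⟩, Cfsg.Agent.Suz2.exponent_general hS ⟨a, b, hab⟩⟩

end Cfsg.Agent.S1138
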