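import Cfsg.Statements.S3922
import Mathlib
import Cfsg.Agent.Lib.PGroup.ItoOmega
-- import your own Cfsg.Agent.* helpers here

set_option autoImplicit false
open Cfsg

namespace Cfsg.Agent.S3922

open Cfsg.Agent.Lib.PGroup.Ito

/-- A finite group whose conjugacy classes have exactly three distinct sizes (1 and two further values) is solvable. -/
theorem result {G : Type*} [Group G] [Finite G] (n₁ n₂ : ℕ) (h12 : n₂ < n₁) (h2 : 1 < n₂)
    (h : ∀ x : G, (Subgroup.centralizer ({x} : Set G)).index = 1 ∨ (Subgroup.centralizer ({x} : Set G)).index = n₂ ∨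
      (Subgroup.centralizer ({x} : Set G)).index = n₁)
    (h₁ : ∃ x : G, (Subgroup.centralizer ({x} : Set G)).index = n₁) (h₂ : ∃ x : G, (Subgroup.centralizer ({x} : Set G)).index = n₂) :
    Group.IsSolvable G := by
  by_contra hns
  classical
  have h3 : ∀ p q : ℕ, ∃ l, l.Prime ∧ l ≠ p ∧ l ≠ q ∧ ∃ e : G, PE l e ∧ e ∉ Subgroup.center G := by
    by_contra hno
    push Not at hno
    obtain ⟨p, q, hpq⟩ := hno
    obtain ⟨p', hp', hpp⟩ : ∃ p', p'.Prime ∧ (p.Prime → p' = p) := by
      by_cases hp : p.Prime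
      · exact ⟨p, hp, fun _ => rfl⟩
      · exact ⟨2, Nat.prime_two, fun h => absurd h hp⟩
    obtain ⟨q', hq', hqq⟩ : ∃ q', q'.Prime ∧ (q.Prime → q' = q) := by
      by_cases hq : q.Prime
      · exact ⟨q, hq, fun _ => rfl⟩
      · exact ⟨2, Nat.prime_two, fun h => absurd h hq⟩
    have hquot : Group.IsSolvable (G ⧸ Subgroup.center G) := by
      refine solvable_quot_of_primes (MonoidHom.id G) (fun y => ⟨y, rfl⟩) (Subgroup.center G) hp' hq' ?_
      intro l hl hl1 hl2 y hy
      refine hpq l hl ?_ ?_ y hy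
      · intro e
        exact hl1 (by rw [e, hpp (e ▸ hl)])
      · intro e
        exact hl2 (by rw [e, hqq (e ▸ hl)])
    have hZ : Group.IsSolvable (Subgroup.center G) := by
      apply isSolvable_of_comm
      rintro ⟨a, ha⟩ ⟨b, hb⟩
      exact Subtype.ext (Subgroup.mem_center_iff.mp hb a)
    exact hns (solvable_ext (Subgroup.center G) hZ hquot)
  obtain ⟨x₁, hx₁⟩ := h₁
  obtain ⟨x₂, hx₂⟩ := h₂
  by_cases hdvd : n₂ ∣ n₁
  · obtain ⟨d, rfl⟩ := hdvd
    have hd : 1 < d := by
      by_contra hd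
      have hd' : d ≤ 1 := by omega
      have : n₂ * d ≤ n₂ * 1 := Nat.mul_le_mul_left _ hd'
      omega
    have hII : CaseII G n₂ d := ⟨fun x => h x, h2, hd⟩
    exact hns (caseII_main hII hx₂ h3)
  · have hn₁ : 1 < n₁ := by omega
    have hab : ¬ n₁ ∣ n₂ := fun hd => by
      have := Nat.le_of_dvd (by omega) hd
      omega
    have hI : CaseI G n₁ n₂ := ⟨fun x => by
      rcases h x with h1 | h1 | h1
      · exact Or.inl h1
      · exact Or.inr (Or.inr h1)
      · exact Or.inr (Or.inl h1), hn₁, h2, hab, hdvd⟩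
    exact hns (caseI_main hI hx₁ hx₂ h3)

end Cfsg.Agent.S3922
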