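import Cfsg.Statements.S0175
import Cfsg.Agent.Lib.Char.Constituent
import Cfsg.Agent.Lib.Char.Complete
import Cfsg.Agent.Lib.Char.Induced
import Cfsg.Agent.Lib.Char.Burnside

set_option autoImplicit false
open Cfsg

namespace Cfsg.Agent.S0175

theorem mem_of_ind_one_eq {G : Type*} [Group G] [Fintype G] (H : Subgroup G) (g : G)
    (h : Cfsg.indFun H (fun _ => (1 : ℂ)) g = Cfsg.indFun H (fun _ => (1 : ℂ)) 1) : g ∈ H := by
  classical
  by_contra hg
  have h1 : Cfsg.indFun H (fun _ => (1 : ℂ)) g =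
      (Nat.card H : ℂ)⁻¹ * ((∑ x : G, if x⁻¹ * g * x ∈ H then 1 else 0 : ℕ) : ℂ) := by
    rw [Cfsg.Agent.Lib.Char.indFun_apply]
    congr 1
    push_cast
    refine Finset.sum_congr rfl fun x _ => ?_
    by_cases hx : x⁻¹ * g * x ∈ H
    · rw [if_pos hx]
      have := Cfsg.Agent.Lib.Char.extendByZero_coe H (fun _ => (1 : ℂ)) ⟨_, hx⟩
      simpa using this
    · rw [if_neg hx]
      exact Cfsg.Agent.Lib.Char.extendByZero_of_not_mem H _ hx
  have h2 : Cfsg.indFun H (fun _ => (1 : ℂ)) 1 =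
      (Nat.card H : ℂ)⁻¹ * ((∑ _x : G, 1 : ℕ) : ℂ) := by
    rw [Cfsg.Agent.Lib.Char.indFun_apply]
    congr 1
    push_cast
    refine Finset.sum_congr rfl fun x _ => ?_
    have : x⁻¹ * 1 * x = ((1 : H) : G) := by simp
    rw [this]
    have := Cfsg.Agent.Lib.Char.extendByZero_coe H (fun _ => (1 : ℂ)) 1
    simpa using this
  rw [h1, h2] at h
  have hne : (Nat.card H : ℂ)⁻¹ ≠ 0 := inv_ne_zero (by exact_mod_cast Nat.card_pos.ne')
  have h3 := mul_left_cancel₀ hne h
  have h4 : (∑ x : G, if x⁻¹ * g * x ∈ H then 1 else 0 : ℕ) = ∑ _x : G, 1 := by exact_mod_cast h3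
  have h5 : (∑ x : G, if x⁻¹ * g * x ∈ H then 1 else 0 : ℕ) < ∑ _x : G, 1 := by
    refine Finset.sum_lt_sum (fun x _ => ?_) ⟨1, Finset.mem_univ _, ?_⟩
    · split_ifs <;> omega
    · have : (1 : G)⁻¹ * g * 1 ∉ H := by simpa using hg
      rw [if_neg this]
      omega
  omega

theorem taketa_aux {G : Type*} [Group G] [Fintype G]
    (hM : ∀ χ : G → ℂ, Cfsg.IsIrrCharacter G χ →
      ∃ (H : Subgroup G) (lam : H →* ℂˣ), χ = Cfsg.indFun H (fun h => (lam h : ℂ))) :
    ∀ (d : ℕ) (χ : G → ℂ), Cfsg.IsIrrCharacter G χ → Cfsg.charDegree χ ≤ d →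
      ∀ g ∈ derivedSeries G d, χ g = χ 1 := by
  classical
  intro d
  induction d with
  | zero =>
    intro χ hχ hd
    have := Cfsg.Agent.Lib.Char.charDegree_pos_of_irr hχ
    omega
  | succ d ih =>
    intro χ hχ hdeg g hg
    by_cases hle : Cfsg.charDegree χ ≤ d
    · refine ih χ hχ hle g ?_
      rw [derivedSeries_succ] at hg
      exact Subgroup.commutator_le_self _ hg
    have hdeg' : Cfsg.charDegree χ = d + 1 := by omega
    obtain ⟨H, lam, rfl⟩ := hM χ hχ
    have hone : (fun _ : H => (1 : ℂ)) = fun _ : H => (1 : ℂ) := rfl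
    have hψchar : Cfsg.IsCharacter G (Cfsg.indFun H (fun _ => (1 : ℂ))) :=
      Cfsg.Agent.Lib.Char.indFun_isCharacter H Cfsg.Agent.Lib.Char.IsCharacter.one
    have hψ1 : Cfsg.charDegree (Cfsg.indFun H (fun _ => (1 : ℂ))) = d + 1 := by
      rw [← hdeg']
      simp [Cfsg.charDegree, Cfsg.Agent.Lib.Char.indFun_one]
    have hcl := Cfsg.Agent.Lib.Char.IsCharacter.isClassFunction hψchar
    set ψ := Cfsg.indFun H (fun _ => (1 : ℂ)) with hψdef
    let one : Cfsg.IrrCharacter G := ⟨fun _ => 1, Cfsg.Agent.Lib.Char.isIrrCharacter_one⟩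
    have hψone : Cfsg.classInner ψ (fun _ => 1) = 1 := by
      rw [hψdef, Cfsg.Agent.Lib.Char.frobenius_reciprocity _ _ _
        (Cfsg.Agent.Lib.Char.IsCharacter.isClassFunction Cfsg.Agent.Lib.Char.IsCharacter.one)]
      exact Cfsg.Agent.Lib.Char.classInner_irr_self Cfsg.Agent.Lib.Char.isIrrCharacter_one
    have hNker : ∀ n ∈ derivedSeries G d, ψ n = ψ 1 := by
      intro n hn
      have hφ : ∀ φ : Cfsg.IrrCharacter G, Cfsg.classInner ψ (φ : G → ℂ) ≠ 0 →
          (φ : G → ℂ) n = (φ : G → ℂ) 1 := by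
        intro φ hφ
        by_cases hφ1 : φ = one
        · rw [hφ1]
        · refine ih φ φ.2 ?_ n hn
          have hsub := Cfsg.Agent.Lib.Char.isCharacter_sub_of_constituent hψchar φ.2 hφ
          have h2 : Cfsg.classInner (ψ - (φ : G → ℂ)) (fun _ => 1) ≠ 0 := by
            rw [Cfsg.Agent.Lib.Char.classInner_sub_left, hψone,
              Cfsg.Agent.Lib.Char.classInner_irr_of_ne φ.2 Cfsg.Agent.Lib.Char.isIrrCharacter_one
                (fun h => hφ1 (Subtype.ext h))]
            simp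
          have h3 := Cfsg.Agent.Lib.Char.charDegree_le_of_constituent hsub
            Cfsg.Agent.Lib.Char.isIrrCharacter_one h2
          have h4 := Cfsg.Agent.Lib.Char.charDegree_add hsub
            (Cfsg.Agent.Lib.Char.IsIrrCharacter.isCharacter φ.2)
          rw [sub_add_cancel, hψ1] at h4
          have h5 : Cfsg.charDegree (fun _ : G => (1 : ℂ)) = 1 := by
            simp [Cfsg.charDegree]
          omega
      have hs := Cfsg.Agent.Lib.Char.classFunction_eq_sum ψ hcl
      have h1 : ∀ y, ψ y = ∑ φ : Cfsg.IrrCharacter G,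
          Cfsg.classInner ψ (φ : G → ℂ) * (φ : G → ℂ) y := by
        intro y
        conv_lhs => rw [hs]
        simp [Finset.sum_apply]
      rw [h1 n, h1 1]
      refine Finset.sum_congr rfl fun φ _ => ?_
      by_cases h0 : Cfsg.classInner ψ (φ : G → ℂ) = 0
      · simp [h0]
      · rw [hφ φ h0]
    have hNH : derivedSeries G d ≤ H := fun n hn => mem_of_ind_one_eq H n (hNker n hn)
    have hcomm : derivedSeries G (d + 1) ≤ (lam.ker).map H.subtype := by
      rw [derivedSeries_succ, Subgroup.commutator_le]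
      intro a ha b hb
      refine ⟨(⟨a, hNH ha⟩ : H) * ⟨b, hNH hb⟩ * (⟨a, hNH ha⟩ : H)⁻¹ * (⟨b, hNH hb⟩ : H)⁻¹, ?_, rfl⟩
      simp only [SetLike.mem_coe, MonoidHom.mem_ker]
      rw [map_mul, map_mul, map_mul, map_inv, map_inv]
      simp [mul_comm]
    have hnorm : (derivedSeries G (d + 1)).Normal := derivedSeries_normal _ _
    rw [Cfsg.Agent.Lib.Char.indFun_apply, Cfsg.Agent.Lib.Char.indFun_apply]
    congr 1
    refine Finset.sum_congr rfl fun x _ => ?_
    have hm : x⁻¹ * g * x ∈ derivedSeries G (d + 1) := by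
      have := hnorm.conj_mem g hg x⁻¹
      simpa using this
    obtain ⟨y, hy, hyg⟩ := hcomm hm
    have h1 : x⁻¹ * 1 * x = ((1 : H) : G) := by simp
    rw [h1, ← hyg]
    have hy1 : lam y = 1 := hy
    simp only [Subgroup.coe_subtype]
    rw [Cfsg.Agent.Lib.Char.extendByZero_coe, Cfsg.Agent.Lib.Char.extendByZero_coe]
    simp [hy1]

/-- Taketa's Theorem on M-groups: if every irreducible complex character of a finite group is induced from a linear character (a homomorphism to ℂˣ) of some subgroup, the group is solvable. -/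
theorem result {G : Type*} [Group G] [Fintype G] (hM : ∀ χ : G → ℂ, Cfsg.IsIrrCharacter G χ → ∃ (H : Subgroup G) (lam : H →* ℂˣ), χ = Cfsg.indFun H (fun h => (lam h : ℂ))) : Group.IsSolvable G := by

  classical
  have h1 := taketa_aux hM (Nat.card G) 
  rw [Group.isSolvable_def]
  refine ⟨Nat.card G, ?_⟩
  rw [eq_bot_iff]
  intro g hg
  have h2 : IsConj g 1 := by
    rw [Cfsg.Agent.Lib.Char.isConj_iff_forall_irr]
    intro χ
    refine h1 χ χ.2 ?_ g hg
    exact Nat.le_of_dvd Nat.card_pos (Cfsg.Agent.Lib.Char.charDegree_dvd_card χ.2)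
  rw [Subgroup.mem_bot]
  exact isConj_one_right.mp h2.symm

end Cfsg.Agent.S0175
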