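import Cfsg.Statements.S4458
import Cfsg.Agent.Lib.Coprime.TwoDegrees
import Cfsg.Agent.Lib.Coprime.TaketaStep
import Mathlib

set_option autoImplicit false
open Cfsg

namespace Cfsg.Agent.S4458

open Cfsg.Agent.Lib.Coprime Cfsg.Agent.Lib.Char
open scoped commutatorElement

/-- If a finite group has exactly two irreducible character degrees, 1 and m with m ≠ 1, then its commutator subgroup is abelian. -/
theorem result {G : Type*} [Group G] [Finite G] (m : ℕ) (hcd : ∀ χ : Cfsg.IrrCharacter G, Cfsg.charDegree (χ : G → ℂ) = 1 ∨ Cfsg.charDegree (χ : G → ℂ) = m) (hm : ∃ χ : Cfsg.IrrCharacter G, Cfsg.charDegree (χ : G → ℂ) = m) (hm1 : m ≠ 1) : ∀ a ∈ commutator G, ∀ b ∈ commutator G, a * b = b * a := by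
  classical
  rcases two_deg_structure hcd hm hm1 with ⟨C, hn, hi, hc, hG⟩ | ⟨p, e, hp, he, P, A, hPn, hAn, hPp, hAc, hd, hs⟩
  · have hle : commutator G ≤ C := by
      rw [commutator_def, Subgroup.commutator_le]
      intro g _ h _
      exact hG g h
    intro a ha b hb
    exact hc a (hle ha) b (hle hb)
  · haveI := hPn
    haveI := hAn
    haveI : Fact p.Prime := ⟨hp⟩
    obtain ⟨φ, hφ1, hφ2⟩ := exists_retraction hd hs
    have hφs : Function.Surjective φ := fun x => ⟨x, hφ1 x⟩
    haveI hnil : Group.IsNilpotent P := IsPGroup.isNilpotent hPp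
    have hcdP : ∀ χ : Cfsg.IrrCharacter P, Cfsg.charDegree (χ : P → ℂ) = 1 ∨
        Cfsg.charDegree (χ : P → ℂ) = m := by
      intro χ
      have h1 := hcd ⟨_, isIrr_comp_surjective φ hφs χ.2⟩
      simpa only [charDegree_comp_monoidHom] using h1
    have h2 := derivedSeries_two_of_nilpotent_two_deg hcdP
    -- the commutator subgroup lies in `P`
    have hcP : commutator G ≤ P := by
      rw [commutator_def, Subgroup.commutator_le]
      intro g _ h _
      have h1 : g ∈ P ⊔ A := by rw [hs]; exact Subgroup.mem_top g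
      have h3 : h ∈ P ⊔ A := by rw [hs]; exact Subgroup.mem_top h
      obtain ⟨y, hy, z, hz, rfl⟩ := Subgroup.mem_sup_of_normal_right.mp h1
      obtain ⟨y', hy', z', hz', rfl⟩ := Subgroup.mem_sup_of_normal_right.mp h3
      rw [← QuotientGroup.eq_one_iff]
      have h4 : ((y : G) : G ⧸ P) = 1 := (QuotientGroup.eq_one_iff y).mpr hy
      have h5 : ((y' : G) : G ⧸ P) = 1 := (QuotientGroup.eq_one_iff y').mpr hy'
      simp only [commutatorElement_def, QuotientGroup.mk_mul, QuotientGroup.mk_inv, h4, h5, one_mul, mul_inv_rev, inv_one, mul_one]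
      rw [← QuotientGroup.mk_mul, hAc z hz z' hz']
      rw [QuotientGroup.mk_mul]
      group
    have hφc : commutator G ≤ (commutator P).comap φ := by
      rw [commutator_def, Subgroup.commutator_le]
      intro g _ h _
      rw [Subgroup.mem_comap, map_commutatorElement]
      exact Subgroup.commutator_mem_commutator (Subgroup.mem_top _) (Subgroup.mem_top _)
    intro a ha b hb
    have h3 : ⁅φ a, φ b⁆ ∈ derivedSeries P 2 := by
      rw [show derivedSeries P 2 = ⁅derivedSeries P 1, derivedSeries P 1⁆ from rfl]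
      exact Subgroup.commutator_mem_commutator (hφc ha) (hφc hb)
    rw [h2, Subgroup.mem_bot, commutatorElement_eq_one_iff_mul_comm] at h3
    have h4 := hφ1 ⟨a, hcP ha⟩
    have h5 := hφ1 ⟨b, hcP hb⟩
    have h6 := congrArg Subtype.val h3
    simp only [Subgroup.coe_mul] at h6
    have h7 : (φ a : G) = a := congrArg Subtype.val h4
    have h8 : (φ b : G) = b := congrArg Subtype.val h5
    rwa [h7, h8] at h6

end Cfsg.Agent.S4458
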