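import Cfsg.Statements.S5911
import Mathlib

set_option autoImplicit false

namespace Cfsg.Agent.S5911

open Equiv Equiv.Perm

section Swaps

variable {X : Type*} [Fintype X] [DecidableEq X]

theorem six_swaps (a b c d : X) (hab : a ≠ b) (hcd : c ≠ d) :
    (swap a b * swap c d) ^ 6 = 1 := by
  by_cases hac : a = c
  · subst hac
    by_cases hbd : b = d
    · subst hbd
      simp
    · have h3 := (isThreeCycle_swap_mul_swap_same hab hcd hbd).orderOf
      have := pow_orderOf_eq_one (swap a b * swap a d)
      rw [h3] at this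
      calc (swap a b * swap a d) ^ 6 = ((swap a b * swap a d) ^ 3) ^ 2 := by rw [← pow_mul]
        _ = 1 := by rw [this, one_pow]
  by_cases had : a = d
  · subst had
    rw [swap_comm c a]
    by_cases hbc : b = c
    · subst hbc
      simp
    · have h3 := (isThreeCycle_swap_mul_swap_same hab (Ne.symm hcd) hbc).orderOf
      have := pow_orderOf_eq_one (swap a b * swap a c)
      rw [h3] at this
      calc (swap a b * swap a c) ^ 6 = ((swap a b * swap a c) ^ 3) ^ 2 := by rw [← pow_mul]
        _ = 1 := by rw [this, one_pow]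
  by_cases hbc : b = c
  · subst hbc
    rw [swap_comm a b]
    have h3 := (isThreeCycle_swap_mul_swap_same (Ne.symm hab) hcd
      (fun h => had h)).orderOf
    have := pow_orderOf_eq_one (swap b a * swap b d)
    rw [h3] at this
    calc (swap b a * swap b d) ^ 6 = ((swap b a * swap b d) ^ 3) ^ 2 := by rw [← pow_mul]
      _ = 1 := by rw [this, one_pow]
  by_cases hbd : b = d
  · subst hbd
    rw [swap_comm a b, swap_comm c b]
    have h3 := (isThreeCycle_swap_mul_swap_same (Ne.symm hab) (Ne.symm hcd)
      (fun h => hac h)).orderOf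
    have := pow_orderOf_eq_one (swap b a * swap b c)
    rw [h3] at this
    calc (swap b a * swap b c) ^ 6 = ((swap b a * swap b c) ^ 3) ^ 2 := by rw [← pow_mul]
      _ = 1 := by rw [this, one_pow]
  have hcomm : Commute (swap a b) (swap c d) := by
    apply Equiv.Perm.Disjoint.commute
    intro x
    by_cases hx : x = a
    · subst hx
      right
      exact swap_apply_of_ne_of_ne hac had
    by_cases hx' : x = b
    · subst hx'
      right
      exact swap_apply_of_ne_of_ne hbc hbd
    left
    exact swap_apply_of_ne_of_ne hx hx'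
  have h2 : (swap a b * swap c d) ^ 2 = 1 := by
    rw [hcomm.mul_pow]
    simp [pow_two]
  calc (swap a b * swap c d) ^ 6 = ((swap a b * swap c d) ^ 2) ^ 3 := by rw [← pow_mul]
    _ = 1 := by rw [h2, one_pow]

end Swaps

section Key

variable {X : Type*} [Fintype X] [DecidableEq X]

theorem key_swap (hn5 : 5 ≤ Fintype.card X) (hn6 : Fintype.card X ≠ 6) (x : Perm X)
    (hx : x * x = 1) (hx1 : x ≠ 1)
    (H : ∀ σ : Perm X, (x * (σ * x * σ⁻¹)) ^ 6 = 1) : x.IsSwap := by
  have hxx : ∀ y, x (x y) = y := fun y => by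
    have := congrArg (fun f : Perm X => f y) hx
    simpa using this
  obtain ⟨a, ha⟩ : ∃ a, x a ≠ a := by
    by_contra hcon
    push Not at hcon
    exact hx1 (Equiv.ext hcon)
  obtain ⟨b, hb⟩ : ∃ b, x a = b := ⟨_, rfl⟩
  rw [hb] at ha
  have hba : x b = a := by rw [← hb, hxx]
  by_cases hsw : ∀ y, y ≠ a → y ≠ b → x y = y
  · refine ⟨a, b, Ne.symm ha, Equiv.ext fun y => ?_⟩
    by_cases h1 : y = a
    · subst h1; simp [hb]
    by_cases h2 : y = b
    · subst h2; simp [hba]
    rw [hsw y h1 h2, swap_apply_of_ne_of_ne h1 h2]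
  exfalso
  push Not at hsw
  obtain ⟨c, hca, hcb, hc⟩ := hsw
  obtain ⟨d, hd⟩ : ∃ d, x c = d := ⟨_, rfl⟩
  rw [hd] at hc
  have hdc : x d = c := by rw [← hd, hxx]
  by_cases hfix : ∃ e, x e = e
  · obtain ⟨e, he⟩ := hfix
    have hnd : [a, b, c, d, e].Nodup := by
      simp only [List.nodup_cons, List.mem_cons, List.not_mem_nil, or_false, not_or,
        List.nodup_nil, and_true, not_false_eq_true]
      grind
    set σ : Perm X := List.formPerm [a, b, c, d, e] with hσ
    have s1 : σ a = b :=
      List.formPerm_apply_getElem [a, b, c, d, e] hnd 0 (by simp)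
    have s2 : σ b = c :=
      List.formPerm_apply_getElem [a, b, c, d, e] hnd 1 (by simp)
    have s3 : σ c = d :=
      List.formPerm_apply_getElem [a, b, c, d, e] hnd 2 (by simp)
    have s4 : σ d = e :=
      List.formPerm_apply_getElem [a, b, c, d, e] hnd 3 (by simp)
    have s5 : σ e = a :=
      (List.formPerm_apply_getElem [a, b, c, d, e] hnd 4 (by simp)).trans (by simp)
    have i1 : σ⁻¹ b = a := by rw [inv_eq_iff_eq, s1]
    have i2 : σ⁻¹ c = b := by rw [inv_eq_iff_eq, s2]
    have i3 : σ⁻¹ d = c := by rw [inv_eq_iff_eq, s3]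
    have i4 : σ⁻¹ e = d := by rw [inv_eq_iff_eq, s4]
    have i5 : σ⁻¹ a = e := by rw [inv_eq_iff_eq, s5]
    set z := x * (σ * x * σ⁻¹) with hz
    have z1 : z a = b := by simp only [hz, mul_apply, i5, he, s5, hb]
    have z2 : z b = d := by simp only [hz, mul_apply, i1, hb, s2, hd]
    have z3 : z d = e := by simp only [hz, mul_apply, i3, hd, s4, he]
    have z4 : z e = c := by simp only [hz, mul_apply, i4, hdc, s3]
    have z5 : z c = a := by simp only [hz, mul_apply, i2, hba, s1]
    have h1 : (z ^ 6) a = a := by rw [H σ]; rfl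
    have h6 : (z ^ 6) a = b := by
      have : z ^ 6 = z * z * z * z * z * z := by simp [pow_succ]
      rw [this]
      simp only [mul_apply, z1, z2, z3, z4, z5]
    rw [h6] at h1
    exact ha h1
  · push Not at hfix
    obtain ⟨e, hea, heb, hec, hed⟩ : ∃ e, e ≠ a ∧ e ≠ b ∧ e ≠ c ∧ e ≠ d := by
      by_contra hcon
      push Not at hcon
      have : (Finset.univ : Finset X) ⊆ {a, b, c, d} := by
        intro y _
        by_cases h1 : y = a
        · simp [h1]
        by_cases h2 : y = b
        · simp [h2]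
        by_cases h3 : y = c
        · simp [h3]
        simp [hcon y h1 h2 h3]
      have := Finset.card_le_card this
      have h4 : ({a, b, c, d} : Finset X).card ≤ 4 := Finset.card_le_four
      rw [Finset.card_univ] at this
      omega
    obtain ⟨f, hf⟩ : ∃ f, x e = f := ⟨_, rfl⟩
    have hfe' : x f = e := by rw [← hf, hxx]
    have hnd6 : [a, b, c, d, e, f].Nodup := by
      simp only [List.nodup_cons, List.mem_cons, List.not_mem_nil, or_false, not_or,
        List.nodup_nil, and_true, not_false_eq_true]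
      grind
    obtain ⟨g, hg⟩ : ∃ g, g ∉ [a, b, c, d, e, f] := by
      by_contra hcon
      push Not at hcon
      have h7 : [a, b, c, d, e, f].toFinset = Finset.univ := by
        ext y
        simpa using hcon y
      have h8 := List.toFinset_card_of_nodup hnd6
      rw [h7, Finset.card_univ] at h8
      exact hn6 (by simpa using h8)
    obtain ⟨h, hh⟩ : ∃ h, x g = h := ⟨_, rfl⟩
    have hhg : x h = g := by rw [← hh, hxx]
    simp only [List.mem_cons, List.not_mem_nil, or_false, not_or] at hg
    have hnd : [a, b, c, d, e, f, g, h].Nodup := by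
      simp only [List.nodup_cons, List.mem_cons, List.not_mem_nil, or_false, not_or,
        List.nodup_nil, and_true, not_false_eq_true] at hnd6 ⊢
      grind
    set σ : Perm X := List.formPerm [a, b, c, d, e, f, g, h] with hσ
    have s1 : σ a = b :=
      List.formPerm_apply_getElem [a, b, c, d, e, f, g, h] hnd 0 (by simp)
    have s2 : σ b = c :=
      List.formPerm_apply_getElem [a, b, c, d, e, f, g, h] hnd 1 (by simp)
    have s3 : σ c = d :=
      List.formPerm_apply_getElem [a, b, c, d, e, f, g, h] hnd 2 (by simp)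
    have s4 : σ d = e :=
      List.formPerm_apply_getElem [a, b, c, d, e, f, g, h] hnd 3 (by simp)
    have s5 : σ e = f :=
      List.formPerm_apply_getElem [a, b, c, d, e, f, g, h] hnd 4 (by simp)
    have s6 : σ f = g :=
      List.formPerm_apply_getElem [a, b, c, d, e, f, g, h] hnd 5 (by simp)
    have s7 : σ g = h :=
      List.formPerm_apply_getElem [a, b, c, d, e, f, g, h] hnd 6 (by simp)
    have s8 : σ h = a :=
      (List.formPerm_apply_getElem [a, b, c, d, e, f, g, h] hnd 7 (by simp)).trans (by simp)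
    have i1 : σ⁻¹ c = b := by rw [inv_eq_iff_eq, s2]
    have i2 : σ⁻¹ e = d := by rw [inv_eq_iff_eq, s4]
    have i3 : σ⁻¹ g = f := by rw [inv_eq_iff_eq, s6]
    have i4 : σ⁻¹ a = h := by rw [inv_eq_iff_eq, s8]
    set z := x * (σ * x * σ⁻¹) with hz
    have z1 : z a = g := by simp only [hz, mul_apply, i4, hhg, s7]
    have z2 : z g = e := by simp only [hz, mul_apply, i3, hfe', s5]
    have z3 : z e = c := by simp only [hz, mul_apply, i2, hdc, s3]
    have z4 : z c = a := by simp only [hz, mul_apply, i1, hba, s1]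
    have h1 : (z ^ 6) a = a := by rw [H σ]; rfl
    have h6 : (z ^ 6) a = e := by
      have : z ^ 6 = z * z * z * z * z * z := by simp [pow_succ]
      rw [this]
      simp only [mul_apply, z1, z2, z3, z4]
    rw [h6] at h1
    exact hea h1

end Key

section Main

variable {Ω : Type*} [Fintype Ω] [DecidableEq Ω]

open MulAction

/-- if all transpositions avoiding `a` lie in `H`, the stabilizer of `a` lies in `H`. -/
theorem stab_le_of_swaps (H : Subgroup (Perm Ω)) (a : Ω)
    (hH : ∀ u v, u ≠ a → v ≠ a → u ≠ v → swap u v ∈ H) :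
    stabilizer (Perm Ω) a ≤ H := by
  intro g hg
  have hga : g a = a := hg
  have hmem : ∀ y, y ∈ ({y | y ≠ a} : Set Ω) ↔ g y ∈ ({y | y ≠ a} : Set Ω) := by
    intro y
    simp only [Set.mem_setOf_eq, ne_eq]
    constructor
    · intro h h'
      apply h
      apply g.injective
      rw [h', hga]
    · intro h h'
      apply h
      rw [h', hga]
  let g' : Perm {y // y ≠ a} := (g.subtypePerm (fun y => (hmem y).symm))
  have hg' : g = ofSubtype g' := by
    ext y
    by_cases hy : y = a
    · subst hy
      rw [hga, ofSubtype_apply_of_not_mem]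
      simp
    · rw [ofSubtype_apply_of_mem g' hy]
      rfl
  rw [hg']
  clear_value g'
  clear hg' hmem hga hg g
  induction g' using Equiv.Perm.swap_induction_on with
  | one => simp
  | swap_mul f x y hxy ih =>
    rw [map_mul]
    refine H.mul_mem ?_ ih
    rw [ofSubtype_swap_eq]
    exact hH _ _ x.2 y.2 (fun h => hxy (Subtype.ext h))

theorem eq_stab_of_le (H : Subgroup (Perm Ω)) (a : Ω)
    (hH : H.index = Fintype.card Ω) (hle : stabilizer (Perm Ω) a ≤ H) :
    H = stabilizer (Perm Ω) a := by
  have h1 : (stabilizer (Perm Ω) a).index = Fintype.card Ω := by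
    rw [index_stabilizer_of_transitive, Nat.card_eq_fintype_card]
  have h2 := Subgroup.relIndex_mul_index hle
  rw [h1, hH] at h2
  have h3 : 0 < Fintype.card Ω := Fintype.card_pos_iff.2 ⟨a⟩
  have h4 : (stabilizer (Perm Ω) a).relIndex H = 1 := by
    apply Nat.eq_of_mul_eq_mul_right h3
    rw [h2, one_mul]
  exact le_antisymm (Subgroup.relIndex_eq_one.1 h4) hle

/-- intersecting family argument -/
theorem exists_point (hn4 : 4 ≤ Fintype.card Ω) (H : Subgroup (Perm Ω)) (hH1 : H ≠ ⊤)
    (hint : ∀ a b c d, a ≠ b → c ≠ d → swap a b ∉ H → swap c d ∉ H →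
      a = c ∨ a = d ∨ b = c ∨ b = d) :
    ∃ x : Ω, ∀ u v, u ≠ x → v ≠ x → u ≠ v → swap u v ∈ H := by
  -- a transposition outside `H`
  obtain ⟨a, b, hab, hτ⟩ : ∃ a b : Ω, a ≠ b ∧ swap a b ∉ H := by
    by_contra hcon
    push Not at hcon
    apply hH1
    rw [eq_top_iff, ← Equiv.Perm.closure_isSwap, Subgroup.closure_le]
    rintro g ⟨u, v, huv, rfl⟩
    exact hcon u v huv
  by_contra hcon
  push Not at hcon
  obtain ⟨u, v, hua, hva, huv, h1⟩ := hcon a
  obtain ⟨u', v', hub, hvb, huv', h2⟩ := hcon b
  -- `{u, v}` contains `b`; `{u', v'}` contains `a`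
  have h3 := hint a b u v hab huv hτ h1
  have h4 := hint a b u' v' hab huv' hτ h2
  obtain ⟨c, hcb, hca, hc⟩ : ∃ c, c ≠ b ∧ c ≠ a ∧ swap b c ∉ H := by
    rcases h3 with h | h | h | h
    · exact absurd h.symm hua
    · exact absurd h.symm hva
    · subst h; exact ⟨v, Ne.symm huv, hva, h1⟩
    · subst h; exact ⟨u, huv, hua, by rwa [swap_comm]⟩
  obtain ⟨c', hcb', hca', hc'⟩ : ∃ c', c' ≠ b ∧ c' ≠ a ∧ swap a c' ∉ H := by
    rcases h4 with h | h | h | h
    · subst h; exact ⟨v', hvb, Ne.symm huv', h2⟩
    · subst h; exact ⟨u', hub, huv', by rwa [swap_comm]⟩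
    · exact absurd h.symm hub
    · exact absurd h.symm hvb
  have hcc : c' = c := by
    rcases hint a c' b c (Ne.symm hca') (Ne.symm hcb) hc' hc with h | h | h | h
    · exact absurd h hab
    · exact absurd h.symm hca
    · exact absurd h hcb'
    · exact h
  subst hcc
  obtain ⟨d, hda, hdb, hdc⟩ : ∃ d, d ≠ a ∧ d ≠ b ∧ d ≠ c' := by
    by_contra hcon
    push Not at hcon
    have : (Finset.univ : Finset Ω) ⊆ {a, b, c'} := by
      intro y _
      by_cases h1 : y = a
      · simp [h1]
      by_cases h2 : y = b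
      · simp [h2]
      simp [hcon y h1 h2]
    have := Finset.card_le_card this
    have h4 : ({a, b, c'} : Finset Ω).card ≤ 3 := Finset.card_le_three
    rw [Finset.card_univ] at this
    omega
  have had : swap a d ∈ H := by
    by_contra h
    rcases hint a d b c' (Ne.symm hda) (Ne.symm hcb') h hc with h | h | h | h
    · exact hab h
    · exact hca' h.symm
    · exact hdb h
    · exact hdc h
  have hbd : swap b d ∈ H := by
    by_contra h
    rcases hint b d a c' (Ne.symm hdb) (Ne.symm hca') h hc' with h | h | h | h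
    · exact hab h.symm
    · exact hcb' h.symm
    · exact hda h
    · exact hdc h
  apply hτ
  have : swap a b = swap d a * swap b d * swap d a := by
    rw [swap_mul_swap_mul_swap (Ne.symm hdb) (Ne.symm hab)]
  rw [this, swap_comm d a]
  exact H.mul_mem (H.mul_mem had hbd) had

theorem fixed_small_4 (hn : Fintype.card Ω = 4) (H : Subgroup (Perm Ω)) (hH : H.index = 4) :
    ∃ a : Ω, H ≤ stabilizer (Perm Ω) a := by
  have hcard : Nat.card H = 6 := by
    have h1 := Subgroup.card_mul_index H
    rw [hH, Nat.card_perm, Nat.card_eq_fintype_card (α := Ω), hn] at h1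
    simp only [Nat.factorial] at h1
    omega
  haveI : Fact (Nat.Prime 3) := ⟨by norm_num⟩
  obtain ⟨c, hc⟩ := exists_prime_orderOf_dvd_card' (G := H) 3 (by rw [hcard]; norm_num)
  have hc' : orderOf (c : Perm Ω) = 3 := by rw [Subgroup.orderOf_coe, hc]
  let C : Subgroup (Perm Ω) := Subgroup.zpowers (c : Perm Ω)
  have hCcard : Nat.card C = 3 := by
    show Nat.card (Subgroup.zpowers (c : Perm Ω)) = 3
    rw [Nat.card_zpowers, hc']
  have hCH : C ≤ H := by
    show Subgroup.zpowers (c : Perm Ω) ≤ H
    rw [Subgroup.zpowers_le]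
    exact c.2
  have hP : IsPGroup 3 C := IsPGroup.of_card (n := 1) (by rw [hCcard]; norm_num)
  have hmod := hP.card_modEq_card_fixedPoints Ω
  rw [Nat.card_eq_fintype_card (α := Ω), hn] at hmod
  have hle : Nat.card (fixedPoints C Ω) ≤ 4 := by
    rw [← hn, ← Nat.card_eq_fintype_card]
    exact Finite.card_subtype_le _
  have hcases : Nat.card (fixedPoints C Ω) = 1 ∨ Nat.card (fixedPoints C Ω) = 4 := by
    have : Nat.card (fixedPoints C Ω) % 3 = 1 := by
      have := hmod.symm
      unfold Nat.ModEq at this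
      omega
    omega
  have hfix : ∀ a ∈ fixedPoints C Ω, (c : Perm Ω) a = a := by
    intro a ha
    exact ha ⟨c, Subgroup.mem_zpowers _⟩
  have hne4 : Nat.card (fixedPoints C Ω) ≠ 4 := by
    intro h4
    have huniv : fixedPoints C Ω = Set.univ := by
      apply Set.eq_of_subset_of_ncard_le (Set.subset_univ _)
      rw [Set.ncard_univ, Nat.card_eq_fintype_card, hn]
      rw [← h4, Nat.card_coe_set_eq]
    have : (c : Perm Ω) = 1 := by
      ext y
      apply hfix
      rw [huniv]
      trivial
    rw [this, orderOf_one] at hc'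
    omega
  have h1 : Nat.card (fixedPoints C Ω) = 1 := by
    rcases hcases with h | h
    · exact h
    · exact absurd h hne4
  obtain ⟨hsub, ⟨⟨a, ha⟩⟩⟩ := Nat.card_eq_one_iff_unique.1 h1
  refine ⟨a, ?_⟩
  -- normality of `C` in `H`
  have hN : (C.subgroupOf H).Normal := by
    apply Subgroup.normal_of_index_eq_two
    have h2 := Subgroup.card_mul_index (C.subgroupOf H)
    have h3 : Nat.card (C.subgroupOf H) = 3 := by
      rw [Nat.card_congr (Subgroup.subgroupOfEquivOfLe hCH).toEquiv, hCcard]
    rw [h3, hcard] at h2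
    omega
  intro h hh
  have hfixed : (⟨h, hh⟩ : H) • a ∈ fixedPoints C Ω := by
    rintro ⟨z, hz⟩
    have hz' : (⟨z, hCH hz⟩ : H) ∈ C.subgroupOf H := by
      rw [Subgroup.mem_subgroupOf]
      exact hz
    have h5 := hN.conj_mem _ hz' ((⟨h, hh⟩ : H)⁻¹)
    rw [Subgroup.mem_subgroupOf] at h5
    have h6 : (h⁻¹ * z * h) • a = a := ha ⟨_, by simpa using h5⟩
    show z • (h • a) = h • a
    have : z • (h • a) = h • ((h⁻¹ * z * h) • a) := by
      simp [mul_smul]
    rw [this, h6]
  have := hsub.elim ⟨_, hfixed⟩ ⟨a, ha⟩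
  have h7 : (⟨h, hh⟩ : H) • a = a := congrArg Subtype.val this
  exact h7

theorem fixed_small (hn1 : 1 ≤ Fintype.card Ω) (hn : Fintype.card Ω ≤ 4) (H : Subgroup (Perm Ω))
    (hH : H.index = Fintype.card Ω) : ∃ a : Ω, H ≤ stabilizer (Perm Ω) a := by
  have hne : Nonempty Ω := Fintype.card_pos_iff.1 hn1
  have hm := Subgroup.card_mul_index H
  rw [hH, Nat.card_perm, Nat.card_eq_fintype_card (α := Ω)] at hm
  obtain h | h | h | h : Fintype.card Ω = 1 ∨ Fintype.card Ω = 2 ∨ Fintype.card Ω = 3 ∨
    Fintype.card Ω = 4 := by omega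
  · rw [h] at hm
    have : H = ⊥ := (Subgroup.eq_bot_of_card_eq H (by simpa using hm))
    obtain ⟨a⟩ := hne
    exact ⟨a, by rw [this]; exact bot_le⟩
  · rw [h] at hm
    have : H = ⊥ := (Subgroup.eq_bot_of_card_eq H (by simpa [Nat.factorial] using hm))
    obtain ⟨a⟩ := hne
    exact ⟨a, by rw [this]; exact bot_le⟩
  · rw [h] at hm
    have hcard : Nat.card H = 2 := by
      simp only [Nat.factorial] at hm
      omega
    haveI : Fact (Nat.Prime 2) := ⟨by norm_num⟩
    have hP : IsPGroup 2 H := IsPGroup.of_card (n := 1) (by rw [hcard]; norm_num)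
    obtain ⟨a, ha⟩ := hP.nonempty_fixed_point_of_prime_not_dvd_card Ω (by
      rw [Nat.card_eq_fintype_card, h]; norm_num)
    exact ⟨a, fun g hg => ha ⟨g, hg⟩⟩
  · exact fixed_small_4 h H (by rw [hH, h])

theorem main_large (hn5 : 5 ≤ Fintype.card Ω) (hn6 : Fintype.card Ω ≠ 6)
    (H : Subgroup (Perm Ω)) (hH : H.index = Fintype.card Ω) :
    ∃ x : Ω, H = stabilizer (Perm Ω) x := by
  classical
  let X := Perm Ω ⧸ H
  haveI : Finite X := inferInstance
  haveI : Fintype X := Fintype.ofFinite X
  have hcardX : Fintype.card X = Fintype.card Ω := by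
    rw [← Nat.card_eq_fintype_card, ← hH]
    rfl
  let φ : Perm Ω →* Perm X := MulAction.toPermHom (Perm Ω) X
  let o : X := ((1 : Perm Ω) : X)
  have hφo : ∀ g : Perm Ω, φ g o = ((g : Perm Ω) : X) := by
    intro g
    show g • ((1 : Perm Ω) : X) = _
    rw [MulAction.Quotient.smul_coe]
    simp
  have hmem : ∀ g : Perm Ω, g ∈ H ↔ φ g o = o := by
    intro g
    rw [hφo]
    show g ∈ H ↔ ((g : Perm Ω) : X) = ((1 : Perm Ω) : X)
    rw [QuotientGroup.eq]
    simp [H.inv_mem_iff]
  have hkerH : φ.ker ≤ H := by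
    intro g hg
    rw [hmem, MonoidHom.mem_ker.1 hg]
    rfl
  have hinj : Function.Injective φ := by
    rw [injective_iff_map_eq_one]
    by_contra hcon
    push Not at hcon
    obtain ⟨g, hg, hg1⟩ := hcon
    have hnt : Nontrivial φ.ker := by
      refine ⟨⟨⟨g, hg⟩, 1, fun h => hg1 ?_⟩⟩
      exact congrArg Subtype.val h
    have hA := Equiv.Perm.alternatingGroup_le_of_normal
      (by rw [Nat.card_eq_fintype_card]; exact hn5) hnt
    have hdvd := Subgroup.index_dvd_of_le (hA.trans hkerH)
    have h2 : (alternatingGroup Ω).index = 2 := by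
      have hnt2 : Nontrivial Ω := Fintype.one_lt_card_iff_nontrivial.1 (by omega)
      exact alternatingGroup.index_eq_two
    rw [h2, hH] at hdvd
    have := Nat.le_of_dvd (by norm_num) hdvd
    omega
  have hbij : Function.Bijective φ := by
    apply hinj.bijective_of_nat_card_le
    rw [Nat.card_perm, Nat.card_perm, Nat.card_eq_fintype_card, Nat.card_eq_fintype_card, hcardX]
  have hswap : ∀ a b : Ω, a ≠ b → (φ (swap a b)).IsSwap := by
    intro a b hab
    apply key_swap (by omega) (by omega)
    · rw [← map_mul]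
      simp
    · intro h
      have := hinj (h.trans (map_one φ).symm)
      have h2 := congrArg (fun f : Perm Ω => f a) this
      simp at h2
      exact hab h2.symm
    · intro σ
      obtain ⟨s, rfl⟩ := hbij.2 σ
      have : φ (swap a b) * (φ s * φ (swap a b) * (φ s)⁻¹) =
          φ (swap a b * swap (s a) (s b)) := by
        rw [swap_apply_apply, map_mul, map_mul, map_mul, map_inv]
      rw [this, ← map_pow, six_swaps _ _ _ _ hab (fun h => hab (s.injective h)), map_one]
  have hmove : ∀ g : Perm Ω, (φ g).IsSwap → φ g o ≠ o → φ g = swap o (φ g o) := by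
    intro g hg ho
    obtain ⟨u, v, huv, huv'⟩ := hg
    rw [huv'] at ho ⊢
    by_cases hu : o = u
    · subst hu
      simp
    by_cases hv : o = v
    · subst hv
      simp [swap_comm]
    rw [swap_apply_of_ne_of_ne hu hv] at ho
    exact absurd rfl ho
  have hint : ∀ a b c d : Ω, a ≠ b → c ≠ d → swap a b ∉ H → swap c d ∉ H →
      a = c ∨ a = d ∨ b = c ∨ b = d := by
    intro a b c d hab hcd h1 h2
    by_contra hcon
    push Not at hcon
    obtain ⟨hac, had, hbc, hbd⟩ := hcon
    rw [hmem] at h1 h2
    have hx := hmove _ (hswap a b hab) h1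
    have hy := hmove _ (hswap c d hcd) h2
    set x := φ (swap a b) with hxdef
    set y := φ (swap c d) with hydef
    have hcomm : x * y = y * x := by
      rw [hxdef, hydef, ← map_mul, ← map_mul]
      congr 1
      apply Equiv.Perm.Disjoint.commute
      intro t
      by_cases ht : t = a
      · subst ht
        right
        exact swap_apply_of_ne_of_ne hac had
      by_cases ht' : t = b
      · subst ht'
        right
        exact swap_apply_of_ne_of_ne hbc hbd
      left
      exact swap_apply_of_ne_of_ne ht ht'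
    have hxy : x ≠ y := by
      intro h
      have h3 := congrArg (fun f : Perm Ω => f a) (hinj h)
      simp only [swap_apply_left] at h3
      rw [swap_apply_of_ne_of_ne hac had] at h3
      exact hab h3.symm
    have hne : y o ≠ x o := by
      intro h
      apply hxy
      rw [hx, hy, h]
    have h4 : x (y o) = y o := by
      rw [hx]
      exact swap_apply_of_ne_of_ne h2 hne
    have h5 : y (x o) = x o := by
      rw [hy]
      exact swap_apply_of_ne_of_ne h1 (Ne.symm hne)
    have h6 := congrArg (fun f : Perm X => f o) hcomm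
    simp only [mul_apply] at h6
    rw [h4, h5] at h6
    exact hne h6
  have hH1 : H ≠ ⊤ := by
    intro h
    rw [h, Subgroup.index_top] at hH
    omega
  obtain ⟨x, hx⟩ := exists_point (by omega) H hH1 hint
  exact ⟨x, eq_stab_of_le H x hH (stab_le_of_swaps H x hx)⟩

end Main

theorem result {Ω : Type*} [Fintype Ω] [DecidableEq Ω] (h6 : Fintype.card Ω ≠ 6)
    (H : Subgroup (Equiv.Perm Ω)) (hH : H.index = Fintype.card Ω) :
    ∃ x : Ω, H = MulAction.stabilizer (Equiv.Perm Ω) x := by
  by_cases h5 : 5 ≤ Fintype.card Ω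
  · exact main_large h5 h6 H hH
  have h1 : 1 ≤ Fintype.card Ω := by
    rw [← hH]
    exact Nat.one_le_iff_ne_zero.2 (Subgroup.index_ne_zero_of_finite)
  obtain ⟨a, ha⟩ := fixed_small h1 (by omega) H hH
  refine ⟨a, le_antisymm ha ?_⟩
  have h2 : (MulAction.stabilizer (Equiv.Perm Ω) a).index = Fintype.card Ω := by
    rw [MulAction.index_stabilizer_of_transitive, Nat.card_eq_fintype_card]
  have h3 := Subgroup.relIndex_mul_index ha
  rw [h2, hH] at h3
  have h4 : H.relIndex (MulAction.stabilizer (Equiv.Perm Ω) a) = 1 := by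
    apply Nat.eq_of_mul_eq_mul_right (by omega : 0 < Fintype.card Ω)
    rw [h3, one_mul]
  exact Subgroup.relIndex_eq_one.1 h4

end Cfsg.Agent.S5911
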