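import Cfsg.Statements.S0236
import Mathlib
import Cfsg.Agent.Lib.Invol.Basic

set_option autoImplicit false
open Cfsg

namespace Cfsg.Agent.S0236

/-- If x is an involution, the number of ordered pairs (u, v) of involutions with uv = x, plus one, equals the number of involutions in the centralizer of x. -/
theorem result {G : Type*} [Group G] [Finite G] (x : G) (hx : orderOf x = 2) : Nat.card {p : G × G // orderOf p.1 = 2 ∧ orderOf p.2 = 2 ∧ p.1 * p.2 = x} + 1 = Nat.card {t : G // orderOf t = 2 ∧ Commute t x} := by
  open Cfsg.Agent.Lib.Invol in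
  classical
  have hx' := mul_self_of_order_two hx
  have hxi := inv_eq_of_mul_self hx'
  rw [← Finite.card_option]
  apply Nat.card_congr
  refine ⟨fun o => o.elim ⟨x, hx, Commute.refl x⟩ (fun p => ⟨p.1.1, p.2.1, ?_⟩),
    fun t => if h : t.1 = x then none else some ⟨(t.1, t.1 * x), t.2.1, ?_, ?_⟩, ?_, ?_⟩
  · obtain ⟨⟨u, v⟩, hu, hv, hp⟩ := p
    dsimp only at *
    have hu' := mul_self_of_order_two hu
    have hv' := mul_self_of_order_two hv
    subst hp
    show u * (u * v) = (u * v) * u
    rw [← mul_assoc, hu', one_mul]
    have h1 : (u * v) * (u * v) = 1 := hx'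
    have h2 : (u * v)⁻¹ = v * u := mul_inv_pair hu' hv'
    rw [inv_eq_of_mul_self h1] at h2
    rw [h2, mul_assoc, hu', mul_one]
  · obtain ⟨t, ht, htx⟩ := t
    dsimp only at h ⊢
    have ht' := mul_self_of_order_two ht
    apply order_two_of_mul_self
    · calc t * x * (t * x) = (t * t) * (x * x) := by
            have : x * t = t * x := htx.eq.symm
            rw [mul_assoc, ← mul_assoc x, this]; simp only [mul_assoc]
        _ = 1 := by rw [ht', hx', one_mul]
    · intro h1
      apply h
      have := eq_inv_of_mul_eq_one_left h1
      rwa [hxi] at this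
  · dsimp only
    rw [← mul_assoc, mul_self_of_order_two t.2.1, one_mul]
  · rintro (_ | ⟨⟨u, v⟩, hu, hv, hp⟩)
    · simp
    · dsimp only at *
      have hu' := mul_self_of_order_two hu
      have hv' := mul_self_of_order_two hv
      have hne : u ≠ x := by
        rintro rfl
        have : v = 1 := by
          have := hp
          rwa [mul_eq_left] at this
        rw [this] at hv; simp at hv
      refine (dif_neg hne).trans (congrArg some (Subtype.ext (Prod.ext rfl ?_)))
      have hp' : u * v = x := hp
      have hu'' : u * u = 1 := hu'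
      show u * x = v
      rw [← hp', ← mul_assoc, hu'', one_mul]
  · rintro ⟨t, ht, htx⟩
    by_cases h : t = x
    · subst h; simp
    · simp [h]

end Cfsg.Agent.S0236
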