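import Cfsg.Statements.S0238
import Mathlib
import Cfsg.Agent.S0236
import Cfsg.Agent.Lib.Invol.Basic

set_option autoImplicit false
open Cfsg

namespace Cfsg.Agent.S0238

/-- For every x in a finite group G, the number c of ordered pairs (u, v) of involutions with uv = x is at most |C_G(x)|; c = 0 when x is not conjugate to x⁻¹; and c + 2 ≤ |C_G(x)| when x is an involution. -/
theorem result {G : Type*} [Group G] [Finite G] (x : G) : Nat.card {p : G × G // orderOf p.1 = 2 ∧ orderOf p.2 = 2 ∧ p.1 * p.2 = x} ≤ Nat.card (Subgroup.centralizer ({x} : Set G)) ∧ (¬ IsConj x x⁻¹ → Nat.card {p : G × G // orderOf p.1 = 2 ∧ orderOf p.2 = 2 ∧ p.1 * p.2 = x} = 0) ∧ (orderOf x = 2 → Nat.card {p : G × G // orderOf p.1 = 2 ∧ orderOf p.2 = 2 ∧ p.1 * p.2 = x} + 2 ≤ Nat.card (Subgroup.centralizer ({x} : Set G))) := by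
  open Cfsg.Agent.Lib.Invol in
  classical
  have hcons : ¬ IsConj x x⁻¹ → Nat.card {p : G × G // orderOf p.1 = 2 ∧ orderOf p.2 = 2 ∧ p.1 * p.2 = x} = 0 := by
    intro hn
    rw [Nat.card_eq_zero]
    left
    constructor
    rintro ⟨⟨u, v⟩, hu, hv, hp⟩
    apply hn
    rw [isConj_iff]
    refine ⟨u, ?_⟩
    dsimp only at *
    subst hp
    have hu' := mul_self_of_order_two hu
    have hv' := mul_self_of_order_two hv
    rw [inv_eq_of_mul_self hu']
    exact left_inverts hu' hv'
  refine ⟨?_, hcons, ?_⟩
  · by_cases hc : Nonempty {p : G × G // orderOf p.1 = 2 ∧ orderOf p.2 = 2 ∧ p.1 * p.2 = x}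
    · obtain ⟨⟨⟨u₀, v₀⟩, hu₀, hv₀, hp₀⟩⟩ := hc
      dsimp only at *
      have hu₀' := mul_self_of_order_two hu₀
      have hv₀' := mul_self_of_order_two hv₀
      refine Nat.card_le_card_of_injective (fun p => (⟨u₀ * p.1.1, ?_⟩ : Subgroup.centralizer ({x} : Set G))) ?_
      · obtain ⟨⟨u, v⟩, hu, hv, hp⟩ := p
        dsimp only at *
        have hu' := mul_self_of_order_two hu
        have hv' := mul_self_of_order_two hv
        rw [Subgroup.mem_centralizer_singleton_iff]
        have h1 : u * x * u = x⁻¹ := by rw [← hp]; exact left_inverts hu' hv'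
        have h2 : u₀ * x * u₀ = x⁻¹ := by rw [← hp₀]; exact left_inverts hu₀' hv₀'
        have h3 : u * x = x⁻¹ * u := by
          calc u * x = u * x * u * u := by rw [mul_assoc _ u u, hu', mul_one]
            _ = x⁻¹ * u := by rw [h1]
        have h4 : u₀ * x⁻¹ = x * u₀ := by
          calc u₀ * x⁻¹ = u₀ * (u₀ * x * u₀) := by rw [h2]
            _ = x * u₀ := by simp only [← mul_assoc]; rw [hu₀', one_mul]
        rw [mul_assoc, h3, ← mul_assoc, h4, mul_assoc]
      · rintro ⟨⟨u, v⟩, hu, hv, hp⟩ ⟨⟨u', v'⟩, hu', hv', hp'⟩ h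
        simp only [Subtype.mk.injEq, mul_right_inj] at h
        subst h
        have : v = v' := mul_left_cancel (hp.trans hp'.symm)
        subst this
        rfl
    · rw [not_nonempty_iff] at hc
      rw [Nat.card_of_isEmpty]
      exact Nat.zero_le _
  · intro hx
    have h1 := Cfsg.Agent.S0236.result x hx
    have h2 : Nat.card {t : G // orderOf t = 2 ∧ Commute t x} + 1 ≤ Nat.card (Subgroup.centralizer ({x} : Set G)) := by
      rw [← Finite.card_option]
      refine Nat.card_le_card_of_injective (fun o => o.elim (1 : Subgroup.centralizer ({x} : Set G))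
        (fun t => ⟨t.1, Subgroup.mem_centralizer_singleton_iff.2 t.2.2.eq⟩)) ?_
      rintro (_ | ⟨t, ht, htx⟩) (_ | ⟨t', ht', htx'⟩) h
      · rfl
      · exfalso
        have : (1 : G) = t' := congrArg Subtype.val h
        rw [← this] at ht'
        simp at ht'
      · exfalso
        have : t = 1 := congrArg Subtype.val h
        rw [this] at ht
        simp at ht
      · have : t = t' := congrArg Subtype.val h
        subst this
        rfl
    omega

end Cfsg.Agent.S0238
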