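import Cfsg.Statements.S0825
import Mathlib
import Cfsg.Agent.S0287
import Cfsg.Agent.Lib.Classical.Heart8
import Cfsg.Agent.Lib.Classical.RingCongr

set_option autoImplicit false
open Cfsg

namespace Cfsg.Agent.S0825

/-- O⁺_6(2) ≅ S_8: the isometry group of the hyperbolic form x_1y_1 + x_2y_2 + x_3y_3 over the field with 2 elements is isomorphic to the symmetric group on 8 letters. -/
theorem result {F : Type*} [Field F] [Fintype F] (hF : Fintype.card F = 2) : Nonempty (↥(Cfsg.isometryGroup F (Cfsg.quadFormPlus 3 F)) ≃* Equiv.Perm (Fin 8)) := by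
  classical
  let e : ZMod 2 ≃+* F := ZMod.ringEquivOfPrime F Nat.prime_two hF
  let e1 := Cfsg.Agent.Lib.Classical.Heart.heartIsoQ (7 : Fin 8)
  let e2 := Cfsg.Agent.Lib.Classical.Abs.isoGCongr Cfsg.Agent.Lib.Classical.Heart.thetaEquiv.symm
    (fun u _ : Cfsg.Agent.Lib.Classical.Heart.heart (7 : Fin 8) => Cfsg.Agent.Lib.Classical.Heart.Q8 u.1)
    (fun u _ : Fin 3 ⊕ Fin 3 → ZMod 2 => Cfsg.quadFormPlus 3 (ZMod 2) u) (by
      intro u _
      have := Cfsg.Agent.Lib.Classical.Heart.Q8_theta (Cfsg.Agent.Lib.Classical.Heart.thetaEquiv.symm u)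
      rw [LinearEquiv.apply_symm_apply] at this
      exact this.symm)
  let e3 := (Cfsg.Agent.Lib.Classical.Abs.isometryEquiv (Cfsg.quadFormPlus 3 (ZMod 2))).symm
  let e4 : Cfsg.isometryGroup (ZMod 2) (Cfsg.quadFormPlus 3 (ZMod 2)) ≃* Cfsg.isometryGroup F (Cfsg.quadFormPlus 3 F) :=
    Cfsg.Agent.Lib.Classical.RC.isometryCongr e _ _ (by
      intro u
      simp [Cfsg.quadFormPlus, Cfsg.Agent.Lib.Classical.RC.vecCongr, map_sum])
  let f : Equiv.Perm (Fin 8) →* Cfsg.isometryGroup F (Cfsg.quadFormPlus 3 F) :=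
    ((e4.toMonoidHom.comp e3.toMonoidHom).comp e2.toMonoidHom).comp e1
  have hf : Function.Injective f := by
    intro σ τ h
    apply Cfsg.Agent.Lib.Classical.Heart.heartIsoQ_injective (7 : Fin 8)
    apply e2.injective
    apply e3.injective
    apply e4.injective
    exact h
  have hc : Nat.card (Cfsg.isometryGroup F (Cfsg.quadFormPlus 3 F)) = 40320 := by
    rw [Cfsg.Agent.S0287.result hF 3 (by norm_num)]
    decide
  have hp : Nat.card (Equiv.Perm (Fin 8)) = 40320 := by
    rw [Nat.card_perm]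
    simp [Nat.factorial]
  have hb : Function.Bijective f := by
    haveI : Finite (Cfsg.isometryGroup F (Cfsg.quadFormPlus 3 F)) := Nat.finite_of_card_ne_zero (by omega)
    apply hf.bijective_of_nat_card_le
    omega
  exact ⟨(MulEquiv.ofBijective f hb).symm⟩

end Cfsg.Agent.S0825
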