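import Cfsg.Statements.S0256
import Mathlib
import Cfsg.Agent.S0825
import Cfsg.Agent.Lib.Classical.Klein
import Cfsg.Agent.Lib.Classical.Basic
import Cfsg.Agent.Lib.Classical.Transvection
import Cfsg.Agent.Lib.Classical.SmallIso
import Cfsg.Agent.Lib.Classical.RingCongr
import Cfsg.Agent.Lib.Classical.IsoBridge

set_option autoImplicit false
open Cfsg

namespace Cfsg.Agent.S0256

lemma aux5 : Cfsg.Agent.Lib.Classical.Klein.rhoK (Matrix.transvection (0 : Fin 4) 1 (1 : ZMod 2))
    (fun i => if i = Sum.inr 2 then 1 else 0) (Sum.inl 1) ≠ (if (Sum.inl 1 : Fin 3 ⊕ Fin 3) = Sum.inr 2 then 1 else 0) := by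
  decide +kernel

lemma hcen : Nat.card (Subgroup.center (Matrix.SpecialLinearGroup (Fin 4) (ZMod 2))) = 1 := by
  rw [Cfsg.Agent.Lib.Classical.card_center_SL 4 (by norm_num)]
  simp [ZMod.card]

lemma hc1 : Nat.card (Matrix.ProjectiveSpecialLinearGroup (Fin 4) (ZMod 2)) = 20160 := by
  have h := Cfsg.Agent.Lib.Classical.card_PSL (F := ZMod 2) (q := 2) (ZMod.card 2) 4 (by norm_num)
  rw [Fin.prod_univ_four] at h
  have e1 : Nat.gcd 4 (2 - 1) = 1 := by norm_num
  have e2 : 2 - 1 = 1 := by norm_num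
  rw [e1, e2, one_mul, one_mul] at h
  rw [h]
  norm_num

lemma hc : 2 * Nat.card (Matrix.ProjectiveSpecialLinearGroup (Fin 4) (ZMod 2)) = Nat.factorial 8 := by
  rw [hc1]
  norm_num [Nat.factorial]

lemma hcen1 (x : Matrix.SpecialLinearGroup (Fin 4) (ZMod 2)) (hx : x ∈ Subgroup.center (Matrix.SpecialLinearGroup (Fin 4) (ZMod 2))) : x = 1 := by
  have h1 : (⟨x, hx⟩ : Subgroup.center _) = 1 :=
    (Nat.card_eq_one_iff_unique.mp hcen).1.elim _ _
  exact congrArg Subtype.val h1

noncomputable def transv : Matrix.SpecialLinearGroup (Fin 4) (ZMod 2) :=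
  ⟨Matrix.transvection 0 1 1, Matrix.det_transvection_of_ne _ _ (by decide) _⟩

lemma transv_nontriv : Cfsg.Agent.Lib.Classical.Klein.kleinHom transv ≠ 1 := by
  intro h3
  have h4 : ∀ w, Cfsg.Agent.Lib.Classical.Klein.rhoK transv.1 w = w := by
    intro w
    rw [← Cfsg.Agent.Lib.Classical.Klein.kleinHom_apply, h3]
    rfl
  exact aux5 (congrFun (h4 (fun i => if i = Sum.inr 2 then 1 else 0)) (Sum.inl 1))

lemma main (e8 : ↥(Cfsg.isometryGroup (ZMod 2) (Cfsg.quadFormPlus 3 (ZMod 2))) ≃* Equiv.Perm (Fin 8)) :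
    Nonempty (Matrix.ProjectiveSpecialLinearGroup (Fin 4) (ZMod 2) ≃* alternatingGroup (Fin 8)) := by
  let e3 := (Cfsg.Agent.Lib.Classical.Abs.isometryEquiv (Cfsg.quadFormPlus 3 (ZMod 2))).symm
  let ρ : Matrix.SpecialLinearGroup (Fin 4) (ZMod 2) →* Equiv.Perm (Fin 8) :=
    (e8.toMonoidHom.comp e3.toMonoidHom).comp Cfsg.Agent.Lib.Classical.Klein.kleinHom
  let φ : Matrix.ProjectiveSpecialLinearGroup (Fin 4) (ZMod 2) →* Equiv.Perm (Fin 8) :=
    QuotientGroup.lift _ ρ (by
      intro x hx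
      rw [hcen1 x hx]
      exact one_mem _)
  have hs : IsSimpleGroup (Matrix.ProjectiveSpecialLinearGroup (Fin 4) (ZMod 2)) :=
    Cfsg.Agent.Lib.Classical.PSL_isSimple (by simp)
  have hinj : Function.Injective φ := by
    rw [← MonoidHom.ker_eq_bot_iff]
    rcases hs.eq_bot_or_eq_top_of_normal φ.ker inferInstance with h | h
    · exact h
    · exfalso
      have h1 : φ (transv : Matrix.ProjectiveSpecialLinearGroup (Fin 4) (ZMod 2)) = 1 := by
        apply MonoidHom.mem_ker.mp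
        rw [h]; trivial
      have h2 : ρ transv = 1 := by
        rw [← h1]
        exact (QuotientGroup.lift_mk _ _ _).symm
      apply transv_nontriv
      apply e3.injective
      apply e8.injective
      rw [map_one, map_one]
      exact h2
  exact Cfsg.Agent.Lib.Classical.Small.alt_of_injective φ hinj 8 (by simp) (by norm_num) hc

/-- PSL_4(2) is isomorphic to A_8. -/
theorem result {F : Type*} [Field F] [Fintype F] (hF : Fintype.card F = 2) : Nonempty (Matrix.ProjectiveSpecialLinearGroup (Fin 4) F ≃* alternatingGroup (Fin 8)) := by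
  classical
  let e : ZMod 2 ≃+* F := ZMod.ringEquivOfPrime F Nat.prime_two hF
  suffices h : Nonempty (Matrix.ProjectiveSpecialLinearGroup (Fin 4) (ZMod 2) ≃* alternatingGroup (Fin 8)) by
    obtain ⟨h⟩ := h
    exact ⟨(Cfsg.Agent.Lib.Classical.RC.pslCongr e).symm.trans h⟩
  obtain ⟨e8⟩ := Cfsg.Agent.S0825.result (F := ZMod 2) (by simp)
  exact main e8

end Cfsg.Agent.S0256
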