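import Cfsg.Statements.S1524
import Mathlib
import Cfsg.Agent.Lib.OddChar.FrobAbelian
import Cfsg.Agent.Lib.OddChar.FrobComp

set_option autoImplicit false
open Cfsg

namespace Cfsg.Agent.S1524

open Cfsg.Agent.Lib.Char Cfsg.Agent.Lib.OddChar in
theorem sylow_eq {G : Type*} [Group G] [Finite G] {p : ℕ} [Fact p.Prime] (H L : Subgroup G)
    (hHL : H ≤ L) (hN : Subgroup.normalizer (H : Set G) = L) (hH1 : H ≠ ⊥) (hpg : IsPGroup p H)
    [hK : (H.subgroupOf L).Normal] (hcop : Nat.Coprime (Nat.card (H.subgroupOf L)) (H.subgroupOf L).index)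
    (Q : Sylow p G) (hHQ : H ≤ (Q : Subgroup G)) : H = (Q : Subgroup G) := by
  classical
  by_contra hne
  have hlt : H.subgroupOf (Q : Subgroup G) < ⊤ := by
    refine lt_top_iff_ne_top.mpr fun h => hne (le_antisymm hHQ ?_)
    intro x hx
    have h1 : (⟨x, hx⟩ : (Q : Subgroup G)) ∈ H.subgroupOf (Q : Subgroup G) := by rw [h]; trivial
    exact Subgroup.mem_subgroupOf.mp h1
  haveI : Group.IsNilpotent (Q : Subgroup G) := Q.isPGroup'.isNilpotent
  have hcond := Group.normalizerCondition_of_isNilpotent (G := (Q : Subgroup G)) _ hlt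
  obtain ⟨x, hx, hxn⟩ := SetLike.exists_of_lt hcond
  rw [Subgroup.mem_set_normalizer_iff] at hx
  have hxL : (x : G) ∈ L := by
    rw [← hN, Subgroup.mem_set_normalizer_iff]
    intro g
    constructor
    · intro hg
      have h1 := (hx ⟨g, hHQ hg⟩).mp (Subgroup.mem_subgroupOf.mpr hg)
      exact Subgroup.mem_subgroupOf.mp h1
    · intro hg
      have hgQ : g ∈ (Q : Subgroup G) := by
        have h1 := hHQ hg
        have h2 : g = (x : G)⁻¹ * ((x : G) * g * (x : G)⁻¹) * (x : G) := by group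
        rw [h2]
        exact Subgroup.mul_mem _ (Subgroup.mul_mem _ (Subgroup.inv_mem _ x.2) h1) x.2
      have h1 := (hx ⟨g, hgQ⟩).mpr (Subgroup.mem_subgroupOf.mpr hg)
      exact Subgroup.mem_subgroupOf.mp h1
  -- the image in the quotient
  let y : L := ⟨x, hxL⟩
  have hyp : ∃ a : ℕ, y ^ p ^ a = 1 := by
    obtain ⟨a, ha⟩ := (IsPGroup.iff_orderOf.mp Q.isPGroup') x
    refine ⟨a, ?_⟩
    have h1 : x ^ p ^ a = 1 := by rw [← ha]; exact pow_orderOf_eq_one x
    apply Subtype.ext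
    have h2 := congrArg Subtype.val h1
    exact h2
  obtain ⟨a, ha⟩ := hyp
  let q : L ⧸ H.subgroupOf L := (QuotientGroup.mk' (H.subgroupOf L)) y
  have hq1 : orderOf q ∣ p ^ a := orderOf_dvd_of_pow_eq_one (by
    have : q ^ p ^ a = (QuotientGroup.mk' (H.subgroupOf L)) (y ^ p ^ a) := by
      rw [map_pow]
    rw [this, ha, map_one])
  have hq2 : orderOf q ∣ (H.subgroupOf L).index := by
    have h1 := orderOf_dvd_natCard q
    rwa [← Subgroup.index_eq_card] at h1
  have hpk : p ∣ Nat.card (H.subgroupOf L) := by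
    have h1 : Nat.card (H.subgroupOf L) = Nat.card H := Nat.card_congr (Subgroup.subgroupOfEquivOfLe hHL).toEquiv
    rw [h1]
    obtain ⟨m, hm⟩ := IsPGroup.iff_card.mp hpg
    rw [hm]
    refine dvd_pow_self _ ?_
    rintro rfl
    apply hH1
    exact Subgroup.eq_bot_of_card_eq H (by rw [hm, pow_zero])
  have hpidx : Nat.Coprime p (H.subgroupOf L).index :=
    Nat.Coprime.coprime_dvd_left hpk hcop
  have hq3 : orderOf q = 1 := by
    have h1 : Nat.Coprime (p ^ a) (H.subgroupOf L).index := Nat.Coprime.pow_left a hpidx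
    exact Nat.eq_one_of_dvd_coprimes h1 hq1 hq2
  have hq4 : q = 1 := orderOf_eq_one_iff.mp hq3
  have hy : y ∈ H.subgroupOf L := (QuotientGroup.eq_one_iff y).mp hq4
  apply hxn
  refine Subgroup.mem_subgroupOf.mpr ?_
  exact Subgroup.mem_subgroupOf.mp hy

/-- Let G be a finite group and H ≤ L subgroups with L of odd order, H ≠ ⊥ nilpotent and normal in L with a nontrivial complement W₁ in L (H ⊓ W₁ = ⊥, H ⊔ W₁ = L) acting on H without non-identity fixed points (L is a Frobenius group with kernel H), and suppose the underlying set of H is a TI-subset of G whose normaliser is L. Let S be the set of functions on L induced from the non-principal irreducible characters of H. Then (S, L minus 1, induction to G) is coherent. -/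
theorem result {G : Type*} [Group G] [Fintype G] (H L W₁ : Subgroup G) [Fintype L] (hodd : Odd (Nat.card L)) (hHL : H ≤ L) (hW₁L : W₁ ≤ L) (hH1 : H ≠ ⊥) (hW1 : W₁ ≠ ⊥) (hnil : Group.IsNilpotent H) (hHn : ∀ x ∈ L, ∀ h ∈ H, x * h * x⁻¹ ∈ H) (hinf : H ⊓ W₁ = ⊥) (hsup : H ⊔ W₁ = L) (hfpf : ∀ w ∈ W₁, w ≠ 1 → ∀ h ∈ H, w * h = h * w → h = 1) (hTI : Cfsg.IsTISubset (H : Set G)) (hN : Subgroup.normalizer (H : Set G) = L) : Cfsg.IsCoherent (Cfsg.inducedIrrAbove (H.subgroupOf L) ⊥) {1}ᶜ (fun α : L → ℂ => Cfsg.indFun L α) := by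

  open Cfsg.Agent.Lib.Char Cfsg.Agent.Lib.OddChar in
  classical
  haveI hKn : (H.subgroupOf L).Normal := by
    refine ⟨fun n hn g => Subgroup.mem_subgroupOf.mpr ?_⟩
    exact hHn _ g.2 _ (Subgroup.mem_subgroupOf.mp hn)
  set K := H.subgroupOf L with hK
  letI : Fintype K := Fintype.ofFinite _
  have hKmem : ∀ x : L, x ∈ K ↔ (x : G) ∈ H := fun x => Subgroup.mem_subgroupOf
  have hW₁mem : ∀ x : L, x ∈ W₁.subgroupOf L ↔ (x : G) ∈ W₁ := fun x => Subgroup.mem_subgroupOf
  have hsupL : K ⊔ W₁.subgroupOf L = ⊤ := by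
    rw [eq_top_iff]
    intro x _
    have h1 : Subgroup.map L.subtype (H.subgroupOf L ⊔ W₁.subgroupOf L) = H ⊔ W₁ := by
      rw [Subgroup.map_sup, Subgroup.map_subgroupOf_eq_of_le hHL, Subgroup.map_subgroupOf_eq_of_le hW₁L]
    have h2 : (x : G) ∈ Subgroup.map L.subtype (H.subgroupOf L ⊔ W₁.subgroupOf L) := by
      rw [h1]
      exact hsup.ge x.2
    obtain ⟨y, hy, hyx⟩ := h2
    have : y = x := Subtype.ext hyx
    exact this ▸ hy
  have hC : ∀ n ∈ K, n ≠ 1 → Subgroup.centralizer ({n} : Set L) ≤ K :=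
    centralizers_of_complement hsupL (fun w hw hw1 h hh hwh => by
      apply Subtype.ext
      refine hfpf _ ((hW₁mem w).mp hw) (fun h1 => hw1 (Subtype.ext h1)) _ ((hKmem h).mp hh) ?_
      exact congrArg Subtype.val hwh)
  have hti : ∀ g : G, g ∉ L → ∀ s ∈ H, g * s * g⁻¹ ∈ H → s = 1 := by
    rw [← hN]
    exact hTI
  obtain ⟨R, hS⟩ := exists_system hHL hti hodd hH1 hC
  have hKcard : Nat.card K = Nat.card H := Nat.card_congr (Subgroup.subgroupOfEquivOfLe hHL).toEquiv
  have hnilK : Group.IsNilpotent K := by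
    have e : K ≃* H := Subgroup.subgroupOfEquivOfLe hHL
    exact (Group.isNilpotent_congr e).mpr hnil
  have hK1 : K ≠ ⊥ := by
    intro h
    apply hH1
    rw [eq_bot_iff]
    intro x hx
    have h1 : (⟨x, hHL hx⟩ : L) ∈ K := (hKmem _).mpr hx
    rw [h, Subgroup.mem_bot] at h1
    exact Subgroup.mem_bot.mpr (congrArg Subtype.val h1)
  have hKL : K < ⊤ := by
    refine lt_top_iff_ne_top.mpr fun h => hW1 ?_
    rw [eq_bot_iff, ← hinf]
    intro w hw
    refine ⟨?_, hw⟩
    have h1 : (⟨w, hW₁L hw⟩ : L) ∈ K := by rw [h]; trivial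
    exact (hKmem _).mp h1
  by_cases hpp : ∃ p m : ℕ, p.Prime ∧ Nat.card K = p ^ m
  · obtain ⟨p, m, hp, hm⟩ := hpp
    haveI : Fact p.Prime := ⟨hp⟩
    have hHp : IsPGroup p H := IsPGroup.of_card (n := m) (by rw [← hKcard, hm])
    obtain ⟨Q, hQ⟩ := hHp.exists_le_sylow
    have hHQ := sylow_eq H L hHL hN hH1 hHp (coprime_of_centralizers hC) Q hQ
    subst hHQ
    exact sibley_coherent Q hTI (by rw [hN]; exact hodd) hN.symm rfl hH1 hC
  · have hnil' : Group.IsNilpotent (↥K ⧸ (⊥ : Subgroup L).subgroupOf K) :=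
      Group.nilpotent_of_surjective (QuotientGroup.mk' _) (QuotientGroup.mk'_surjective _)
    have hsolv : Group.IsSolvable K := inferInstance
    have hH₁K : ⁅K, K⁆ < K := commutator_lt_of_solvable hsolv hK1
    exact coh_frob hsolv hS hodd ⊥ bot_le hnil' ⁅K, K⁆ (by simp) hH₁K hKL
      (fun k hk hk2 x hx => frob_mod_commutator hC hk hk2 hx)
      (Or.inr (Or.inr (Or.inl (by
        rintro ⟨p, m, hp, hm⟩
        rw [Subgroup.relIndex_bot_left] at hm
        exact hpp ⟨p, m, hp, hm⟩))))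

end Cfsg.Agent.S1524
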