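import Cfsg.Statements.S0729
import Mathlib
import Cfsg.Agent.Lib.Perm.SharpEven
import Cfsg.Agent.S0728

set_option autoImplicit false
open Cfsg

namespace Cfsg.Agent.S0729

/-- In a sharply triply transitive group of even degree at least 6, the two-point stabiliser `H = G_{a,b}` has a normal subgroup of index 2 that is normalised by the element `s` interchanging `a, b` and fixing a third point `c`. -/
theorem result {α : Type*} [Fintype α] [DecidableEq α] (heven : Even (Fintype.card α)) (h6 : 6 ≤ Fintype.card α) (G : Subgroup (Equiv.Perm α)) (h3 : MulAction.IsMultiplyPretransitive G α 3) (hsharp : ∀ x : Fin 3 ↪ α, MulAction.stabilizer G x = ⊥) {a b c : α} (hab : a ≠ b) (hac : a ≠ c) (hbc : b ≠ c) (s : G) (hsa : s • a = b) (hsb : s • b = a) (hsc : s • c = c) : ∃ N : Subgroup G, N ≤ MulAction.stabilizer G a ⊓ MulAction.stabilizer G b ∧ (N.subgroupOf (MulAction.stabilizer G a ⊓ MulAction.stabilizer G b)).Normal ∧ N.relIndex (MulAction.stabilizer G a ⊓ MulAction.stabilizer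 G b) = 2 ∧ ∀ n ∈ N, s * n * s⁻¹ ∈ N := by
  classical
  have htri : ∀ (a b c : α), a ≠ b → a ≠ c → b ≠ c → ∃ x : Fin 3 ↪ α, x 0 = a ∧ x 1 = b ∧ x 2 = c := by
    intro a b c hab hac hbc
    refine ⟨⟨![a, b, c], ?_⟩, rfl, rfl, rfl⟩
    intro i j h
    fin_cases i <;> fin_cases j <;> simp_all
  have hT : ∀ a b c a' b' c' : α, a ≠ b → a ≠ c → b ≠ c → a' ≠ b' → a' ≠ c' → b' ≠ c' →
      ∃ g ∈ G, g a = a' ∧ g b = b' ∧ g c = c' := by
    intro a b c a' b' c' h1 h2 h3' h4 h5 h6
    obtain ⟨x, hx0, hx1, hx2⟩ := htri a b c h1 h2 h3'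
    obtain ⟨y, hy0, hy1, hy2⟩ := htri a' b' c' h4 h5 h6
    obtain ⟨g, hg⟩ := MulAction.IsPretransitive.exists_smul_eq (M := G) x y
    refine ⟨g, g.2, ?_, ?_, ?_⟩
    · rw [← hx0, ← hy0, ← hg]; rfl
    · rw [← hx1, ← hy1, ← hg]; rfl
    · rw [← hx2, ← hy2, ← hg]; rfl
  have hS : ∀ g ∈ G, ∀ a b c : α, a ≠ b → a ≠ c → b ≠ c → g a = a → g b = b → g c = c → g = 1 := by
    intro g hg a b c h1 h2 h3' h4 h5 h6
    obtain ⟨x, hx0, hx1, hx2⟩ := htri a b c h1 h2 h3'
    have hmem : (⟨g, hg⟩ : G) ∈ MulAction.stabilizer G x := by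
      rw [MulAction.mem_stabilizer_iff]
      ext i
      fin_cases i
      · show g (x 0) = x 0
        rw [hx0, h4]
      · show g (x 1) = x 1
        rw [hx1, h5]
      · show g (x 2) = x 2
        rw [hx2, h6]
    rw [hsharp x, Subgroup.mem_bot] at hmem
    exact congrArg Subtype.val hmem
  obtain ⟨nf, hA, hB⟩ := Cfsg.Agent.Lib.Perm.SharpEven.exists_nearField_setup (G := G) (inf := a) hT hS (by omega)
  have hcardX : Fintype.card {x : α // x ≠ a} + 1 = Fintype.card α := by
    have := Fintype.card_congr (Equiv.optionSubtypeNe a)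
    rwa [Fintype.card_option] at this
  have hodd : Odd (Nat.card {x : α // x ≠ a}) := by
    rw [Nat.card_eq_fintype_card]
    rcases heven with ⟨k, hk⟩
    exact ⟨k - 1, by omega⟩
  set H₀ : Subgroup G := MulAction.stabilizer G a ⊓ MulAction.stabilizer G b with hH₀
  obtain ⟨N₀, hN₀⟩ := Cfsg.Agent.Lib.Perm.SharpEven.exists_index_two_stabilizer hab G hA hB hodd (by
    intro A B hA3 hB3
    have h1 : A.map H₀.subtype = B.map H₀.subtype := by
      apply Cfsg.Agent.S0728.result heven h6 G h3 hsharp hab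
      · exact Subgroup.map_subtype_le A
      · exact Subgroup.map_subtype_le B
      · rw [Nat.card_congr (A.equivMapOfInjective H₀.subtype H₀.subtype_injective).toEquiv.symm]
        exact hA3
      · rw [Nat.card_congr (B.equivMapOfInjective H₀.subtype H₀.subtype_injective).toEquiv.symm]
        exact hB3
    exact Subgroup.map_injective H₀.subtype_injective h1)
  have hsa' : (s : Equiv.Perm α) a = b := hsa
  have hsb' : (s : Equiv.Perm α) b = a := hsb
  have hsc' : (s : Equiv.Perm α) c = c := hsc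
  have hss : s * s = 1 := by
    apply Subtype.ext
    exact hS _ (s * s).2 a b c hab hac hbc (by
      show (s : Equiv.Perm α) ((s : Equiv.Perm α) a) = a
      rw [hsa', hsb']) (by
      show (s : Equiv.Perm α) ((s : Equiv.Perm α) b) = b
      rw [hsb', hsa']) (by
      show (s : Equiv.Perm α) ((s : Equiv.Perm α) c) = c
      rw [hsc', hsc'])
  have hsi : s⁻¹ = s := inv_eq_of_mul_eq_one_left hss
  have hconj : ∀ h ∈ H₀, s * h * s⁻¹ ∈ H₀ := by
    intro h hh
    have h1 : (h : Equiv.Perm α) a = a := hh.1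
    have h2 : (h : Equiv.Perm α) b = b := hh.2
    rw [hsi]
    constructor
    · show (s : Equiv.Perm α) ((h : Equiv.Perm α) ((s : Equiv.Perm α) a)) = a
      rw [hsa', h2, hsb']
    · show (s : Equiv.Perm α) ((h : Equiv.Perm α) ((s : Equiv.Perm α) b)) = b
      rw [hsb', h1, hsa']
  let σ : H₀ →* H₀ :=
    { toFun := fun h => ⟨s * h * s⁻¹, hconj h h.2⟩
      map_one' := by
        apply Subtype.ext
        simp
      map_mul' := fun x y => by
        apply Subtype.ext
        show s * ((x : G) * (y : G)) * s⁻¹ = (s * x * s⁻¹) * (s * y * s⁻¹)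
        group }
  have hσ : ∀ x, σ (σ x) = x := by
    intro x
    apply Subtype.ext
    show s * (s * x * s⁻¹) * s⁻¹ = x
    rw [hsi]
    calc s * (s * x * s) * s = (s * s) * x * (s * s) := by group
      _ = x := by rw [hss]; simp
  obtain ⟨N₁, hN₁, hst⟩ := Cfsg.Agent.Lib.Perm.SharpEven.stable_index_two σ hσ N₀ hN₀
  have hsub : (N₁.map H₀.subtype).subgroupOf H₀ = N₁ := Subgroup.comap_map_eq_self_of_injective H₀.subtype_injective N₁
  refine ⟨N₁.map H₀.subtype, Subgroup.map_subtype_le N₁, ?_, ?_, ?_⟩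
  · rw [hsub]
    exact Subgroup.normal_of_index_eq_two hN₁
  · show ((N₁.map H₀.subtype).subgroupOf H₀).index = 2
    rw [hsub]
    exact hN₁
  · rintro _ ⟨h, hh, rfl⟩
    exact ⟨σ h, hst h hh, rfl⟩

end Cfsg.Agent.S0729
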