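import Cfsg.Statements.S3056
import Cfsg.Agent.Lib.FF.Isolated
import Mathlib

set_option autoImplicit false
open Cfsg

namespace Cfsg.Agent.S3056

open Cfsg.Agent.Lib.FF

variable {G : Type*} [Group G]

/-- Adjacency in the Sylow graph. -/
def Adj (p : ℕ) (S T : Sylow p G) : Prop :=
  S ≠ T ∧ (S : Subgroup G) ⊓ (T : Subgroup G) ≠ ⊥

theorem adj_symm {p : ℕ} {S T : Sylow p G} (h : Adj p S T) : Adj p T S :=
  ⟨h.1.symm, by rw [inf_comm]; exact h.2⟩

/-- Connected by a path. -/
abbrev Conn (p : ℕ) (S T : Sylow p G) : Prop := Relation.ReflTransGen (Adj p) S T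

theorem conn_symm {p : ℕ} {S T : Sylow p G} (h : Conn p S T) : Conn p T S := by
  induction h with
  | refl => exact Relation.ReflTransGen.refl
  | tail _ hb ih => exact Relation.ReflTransGen.head (adj_symm hb) ih

variable [Finite G] {p : ℕ} [Fact p.Prime]

theorem adj_smul {S T : Sylow p G} (g : G) (h : Adj p S T) : Adj p (g • S) (g • T) := by
  refine ⟨fun e => h.1 (smul_left_cancel g e), fun e => h.2 ?_⟩
  rw [coe_smul_sylow, coe_smul_sylow] at e
  rw [eq_bot_iff]
  intro x hx
  have : g * x * g⁻¹ ∈ (⊥ : Subgroup G) := by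
    rw [← e]
    exact ⟨conj_mem_conj hx.1, conj_mem_conj hx.2⟩
  have h2 : g * x * g⁻¹ = 1 := by simpa using this
  have : x = g⁻¹ * (g * x * g⁻¹) * g := by group
  rw [this, h2]; simp

theorem conn_smul {S T : Sylow p G} (g : G) (h : Conn p S T) : Conn p (g • S) (g • T) := by
  induction h with
  | refl => exact Relation.ReflTransGen.refl
  | tail _ hb ih => exact Relation.ReflTransGen.tail ih (adj_smul g hb)

/-- Paths give chains. -/
theorem exists_chain_of_conn {S T : Sylow p G} (h : Conn p S T) :
    ∃ (n : ℕ) (c : Fin (n + 1) → Sylow p G), c 0 = S ∧ c (Fin.last n) = T ∧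
      ∀ i : Fin n, c i.castSucc ≠ c i.succ ∧ (c i.castSucc : Subgroup G) ⊓ (c i.succ : Subgroup G) ≠ ⊥ := by
  induction h with
  | refl => exact ⟨0, fun _ => S, rfl, rfl, fun i => i.elim0⟩
  | @tail b d _ hb ih =>
    obtain ⟨n, c, h0, hl, hi⟩ := ih
    refine ⟨n + 1, Fin.snoc c d, ?_, ?_, ?_⟩
    · have : (0 : Fin (n + 1 + 1)) = Fin.castSucc (0 : Fin (n + 1)) := rfl
      rw [this, Fin.snoc_castSucc, h0]
    · rw [Fin.snoc_last]
    · intro i
      induction i using Fin.lastCases with
      | last =>
        rw [Fin.succ_last, Fin.snoc_last, Fin.snoc_castSucc, hl]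
        exact hb
      | cast i =>
        have e2 : i.castSucc.succ = Fin.castSucc i.succ := rfl
        rw [e2, Fin.snoc_castSucc, Fin.snoc_castSucc]
        exact hi i

theorem connected_of_conn {S T : Sylow p G} (h : Conn p S T) :
    ∃ (n : ℕ) (c : Fin (n + 1) → Sylow p G), c 0 = S ∧ c (Fin.last n) = T ∧
    (∀ i : Fin (n + 1), (S : Subgroup G) ⊓ (T : Subgroup G) ≤ (c i : Subgroup G)) ∧
    ∀ i : Fin n, c i.castSucc ≠ c i.succ ∧ (c i.castSucc : Subgroup G) ⊓ (c i.succ : Subgroup G) ≠ ⊥ := by
  by_cases hne : (S : Subgroup G) ⊓ (T : Subgroup G) = ⊥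
  · obtain ⟨n, c, h0, hl, hi⟩ := exists_chain_of_conn h
    exact ⟨n, c, h0, hl, fun i => by rw [hne]; exact bot_le, hi⟩
  · by_cases hST : S = T
    · subst hST
      exact ⟨0, fun _ => S, rfl, rfl, fun _ => inf_le_left, fun i => i.elim0⟩
    · refine ⟨1, ![S, T], rfl, rfl, ?_, ?_⟩
      · intro i
        fin_cases i
        · exact inf_le_left
        · exact inf_le_right
      · intro i
        fin_cases i
        exact ⟨hST, hne⟩

/-- Every element of a strongly embedded subgroup: normalizers of nontrivial `p`-subgroups of `H` lie in `H`. -/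
theorem normalizer_le_of_embedded {H : Subgroup G}
    (hse : ∀ g : G, g ∉ H → ¬ p ∣ Nat.card ↥(H ⊓ H.map (MulAut.conj g).toMonoidHom))
    (U : Subgroup G) (hU : IsPGroup p U) (hne : U ≠ ⊥) (hUH : U ≤ H) :
    Subgroup.normalizer (U : Set G) ≤ H := by
  intro g hg
  by_contra hgH
  apply hse g hgH
  have hle : U ≤ H ⊓ H.map (MulAut.conj g).toMonoidHom :=
    le_inf hUH (by
      rw [← mem_normalizer_iff_conj.mp hg]
      exact Subgroup.map_mono hUH)
  exact (dvd_card_of_isPGroup_of_ne_bot hU hne).trans (Subgroup.card_dvd_of_le hle)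

/-- Let G be a finite group and p a prime. Join two Sylow p-subgroups when they are distinct and meet nontrivially. This graph on the Sylow p-subgroups is disconnected (the Sylow p-subgroups are not chain-connected through nontrivial intersections) if and only if G has a strongly p-embedded subgroup in the classical sense: a proper subgroup H of order divisible by p such that H ∩ gHg⁻¹ has order prime to p for every g outside H. -/
theorem result {G : Type*} [Group G] [Finite G]
    (p : ℕ) [Fact p.Prime] :
    ¬ Cfsg.IsSylowChainConnected p G ↔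
      ∃ H : Subgroup G, H ≠ ⊤ ∧ p ∣ Nat.card H ∧
        ∀ g : G, g ∉ H → ¬ p ∣ Nat.card ↥(H ⊓ H.map (MulAut.conj g).toMonoidHom) := by
  classical
  constructor
  · intro hnot
    -- two Sylow subgroups which are not connected
    have hex : ∃ S T : Sylow p G, ¬ Conn p S T := by
      by_contra hcon
      push Not at hcon
      apply hnot
      intro S T
      exact connected_of_conn (hcon S T)
    obtain ⟨S, T, hST⟩ := hex
    -- the stabilizer of the component of `S`
    let H : Subgroup G :=
      { carrier := {g | Conn p S (g • S)}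
        mul_mem' := by
          intro a b ha hb
          have h1 := conn_smul a hb
          show Conn p S ((a * b) • S)
          rw [mul_smul]
          exact ha.trans h1
        one_mem' := by
          show Conn p S ((1 : G) • S)
          rw [one_smul]
        inv_mem' := by
          intro a ha
          have h1 := conn_smul a⁻¹ ha
          rw [inv_smul_smul] at h1
          exact conn_symm h1 }
    have hmem : ∀ g : G, g ∈ H ↔ Conn p S (g • S) := fun g => Iff.rfl
    have hQH : ∀ Q : Sylow p G, Conn p S Q → (Q : Subgroup G) ≤ H := by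
      intro Q hQ x hx
      rw [hmem]
      have h1 := conn_smul x hQ
      have hxQ : x • Q = Q := Sylow.smul_eq_iff_mem_normalizer.mpr (Subgroup.le_normalizer hx)
      rw [hxQ] at h1
      exact hQ.trans (conn_symm h1)
    have hHne : H ≠ ⊤ := by
      intro htop
      obtain ⟨g, hg⟩ := MulAction.exists_smul_eq G S T
      have h1 : g ∈ H := by rw [htop]; trivial
      rw [hmem, hg] at h1
      exact hST h1
    have hSH : (S : Subgroup G) ≤ H := hQH S Relation.ReflTransGen.refl
    have hSne : (S : Subgroup G) ≠ ⊥ := by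
      intro h
      apply hST
      have hST' : S = T := by
        obtain ⟨g, hg⟩ := MulAction.exists_smul_eq G S T
        apply Sylow.ext
        rw [← hg, coe_smul_sylow, h]
        simp
      rw [hST']
    refine ⟨H, hHne, (dvd_card_of_isPGroup_of_ne_bot S.isPGroup' hSne).trans (Subgroup.card_dvd_of_le hSH), ?_⟩
    intro g hg hdvd
    obtain ⟨x, hx⟩ := exists_prime_orderOf_dvd_card' p hdvd
    have hx1 : (x : G) ≠ 1 := by
      intro h
      have h1 : x = 1 := Subtype.ext h
      rw [h1, orderOf_one] at hx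
      exact (Fact.out : p.Prime).one_lt.ne hx
    have hxo : orderOf (x : G) = p := by rw [Subgroup.orderOf_coe]; exact hx
    have hxH : (x : G) ∈ H := x.2.1
    have hxHg : g⁻¹ * x * g ∈ H := mem_conj_iff.mp x.2.2
    have hlem : ∀ y ∈ H, (∃ k : ℕ, y ^ p ^ k = 1) → ∃ h ∈ H, y ∈ ((h • S : Sylow p G) : Subgroup G) := by
      rintro y hy ⟨k, hk⟩
      obtain ⟨S₁, hS₁, hS₁H⟩ := exists_isSylowIn_of_le (isPGroup_zpowers_of_pow_eq_one hk)
        (Subgroup.zpowers_le.mpr hy)
      obtain ⟨h, hh, hh2⟩ := (isSylowIn_of_sylow_le S hSH).exists_conj hS₁H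
      refine ⟨h, hh, ?_⟩
      rw [coe_smul_sylow, hh2]
      exact hS₁ (Subgroup.mem_zpowers y)
    have hxp : (x : G) ^ p ^ 1 = 1 := by
      rw [pow_one, ← hxo, pow_orderOf_eq_one]
    obtain ⟨h₁, hh₁, hx₁⟩ := hlem x hxH ⟨1, hxp⟩
    obtain ⟨h₂, hh₂, hx₂⟩ := hlem (g⁻¹ * x * g) hxHg ⟨1, by
      rw [pow_one]
      have : g⁻¹ * x * g = g⁻¹ * x * g⁻¹⁻¹ := by group
      have hxpp : (x : G) ^ p = 1 := by rw [← hxo, pow_orderOf_eq_one]
      rw [this, conj_pow, hxpp]
      group⟩
    have hx₃ : (x : G) ∈ (((g * h₂) • S : Sylow p G) : Subgroup G) := by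
      rw [mul_smul, coe_smul_sylow, mem_conj_iff]
      exact hx₂
    have hadj : Conn p (h₁ • S) ((g * h₂) • S) := by
      by_cases e : h₁ • S = (g * h₂) • S
      · rw [e]
      · refine Relation.ReflTransGen.single ⟨e, fun hb => hx1 ?_⟩
        have : (x : G) ∈ ((h₁ • S : Sylow p G) : Subgroup G) ⊓ (((g * h₂) • S : Sylow p G) : Subgroup G) :=
          ⟨hx₁, hx₃⟩
        rw [hb] at this
        simpa using this
    have h3 : g * h₂ ∈ H := (show Conn p S ((g * h₂) • S) from (hh₁ : Conn p S (h₁ • S)).trans hadj)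
    apply hg
    have h4 := H.mul_mem h3 (H.inv_mem hh₂)
    simpa using h4
  · rintro ⟨H, hne, hpH, hse⟩ hconn
    have hnorm := normalizer_le_of_embedded hse
    obtain ⟨x, hx⟩ := exists_prime_orderOf_dvd_card' p hpH
    have hxne : (x : G) ≠ 1 := by
      intro h
      have h1 : x = 1 := Subtype.ext h
      rw [h1, orderOf_one] at hx
      exact (Fact.out : p.Prime).one_lt.ne hx
    have hxp : IsPGroup p (Subgroup.zpowers (x : G)) := by
      apply IsPGroup.of_card (n := 1)
      rw [Nat.card_zpowers, pow_one]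
      simpa [Subgroup.orderOf_coe] using hx
    obtain ⟨P, hP⟩ := hxp.exists_le_sylow
    have hxP : (x : G) ∈ (P : Subgroup G) := hP (Subgroup.mem_zpowers _)
    have hPH : (P : Subgroup G) ≤ H := by
      apply le_of_normalizer_le P.isPGroup' hnorm
      intro h
      have : (x : G) ∈ (P : Subgroup G) ⊓ H := ⟨hxP, x.2⟩
      rw [h] at this
      exact hxne (by simpa using this)
    have hall : ∀ T : Sylow p G, (T : Subgroup G) ≤ H := by
      intro T
      obtain ⟨n, c, h0, hl, -, hi⟩ := hconn P T
      have h1 : ∀ i : Fin (n + 1), (c i : Subgroup G) ≤ H := by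
        intro i
        induction i using Fin.induction with
        | zero => rw [h0]; exact hPH
        | succ i ih =>
          apply le_of_normalizer_le (c i.succ).isPGroup' hnorm
          intro hb
          apply (hi i).2
          rw [eq_bot_iff, ← hb]
          exact le_inf inf_le_right (inf_le_left.trans ih)
      rw [← hl]
      exact h1 _
    apply hne
    rw [eq_top_iff]
    intro g _
    by_contra hg
    apply hse g hg
    have h1 : ((g • P : Sylow p G) : Subgroup G) ≤ H ⊓ H.map (MulAut.conj g).toMonoidHom :=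
      le_inf (hall _) (by rw [coe_smul_sylow]; exact Subgroup.map_mono hPH)
    have hne' : ((g • P : Sylow p G) : Subgroup G) ≠ ⊥ := by
      intro hb
      rw [coe_smul_sylow] at hb
      have : g * x * g⁻¹ ∈ (⊥ : Subgroup G) := by
        rw [← hb]
        exact conj_mem_conj hxP
      have h2 : g * x * g⁻¹ = 1 := by simpa using this
      apply hxne
      have h3 : (x : G) = g⁻¹ * (g * x * g⁻¹) * g := by group
      rw [h3, h2]; simp
    exact (dvd_card_of_isPGroup_of_ne_bot (g • P).isPGroup' hne').trans (Subgroup.card_dvd_of_le h1)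

end Cfsg.Agent.S3056
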