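import Cfsg.Statements.S3058
import Cfsg.Agent.S3056
import Cfsg.Agent.Lib.Amalgam.Embedded
import Cfsg.Agent.Lib.Hall.Generation
import Cfsg.Agent.Lib.FF.Misc
import Cfsg.Agent.Lib.FF.CharP
import Cfsg.Agent.Lib.Core.Factor
import Cfsg.Agent.Lib.PSolv.Basic
import Mathlib

set_option autoImplicit false
open Cfsg

namespace Cfsg.Agent.S3058

open Subgroup Cfsg.Agent.Lib.FF

/-- Let p be a prime and G a finite group whose Sylow p-subgroups are not chain-connected through nontrivial intersections (so G has a strongly p-embedded subgroup). If N and M are normal subgroups of G whose orders are both divisible by p, then the order of N ∩ M is divisible by p. Consequently, among the normal subgroups of G whose order is divisible by p there is a smallest one (the intersection of all of them). -/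
theorem result {G : Type*} [Group G] [Finite G]
    (p : ℕ) [Fact p.Prime] (hG : ¬ Cfsg.IsSylowChainConnected p G)
    (N M : Subgroup G) [N.Normal] [M.Normal] (hN : p ∣ Nat.card N) (hM : p ∣ Nat.card M) :
    p ∣ Nat.card ↥(N ⊓ M) := by
  classical
  have hp' : p.Prime := Fact.out
  by_contra hD
  obtain ⟨H, hHtop, hpH, hH⟩ := (Cfsg.Agent.S3056.result p).mp hG
  have hc : Cfsg.Agent.Lib.Amalgam.NormalizerClosed p H := Cfsg.Agent.Lib.Amalgam.normalizerClosed_of_ti hH
  obtain ⟨P, hPH⟩ := Cfsg.Agent.Lib.Amalgam.exists_sylow_le_of_normalizerClosed hc hpH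
  have hPg : IsPGroup p (P : Subgroup G) := P.2
  set D := N ⊓ M with hDdef
  have hDcop : p.Coprime (Nat.card D) := (Nat.Prime.coprime_iff_not_dvd hp').mpr hD
  have hPD : ∀ x ∈ (P : Subgroup G), x ∈ D → x = 1 := by
    intro x hxP hxD
    refine eq_one_of_mem_isPGroup_of_coprime hPg hxP ?_
    have h1 : orderOf x ∣ Nat.card D := by
      have := Subgroup.orderOf_dvd_natCard D hxD
      exact this
    exact (Nat.Coprime.coprime_dvd_left h1 hDcop.symm)
  have hel : ∀ K : Subgroup G, K.Normal → p ∣ Nat.card K →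
      ∃ x ∈ (P : Subgroup G), x ∈ K ∧ orderOf x = p := by
    intro K hK hpK
    have hne : (P : Subgroup G) ⊓ K ≠ ⊥ := by
      intro hb
      have h1 := (inf_normal_isSylowIn P K).not_dvd
      rw [hb, Subgroup.relIndex_bot_left] at h1
      exact h1 hpK
    have hpg : IsPGroup p ↥((P : Subgroup G) ⊓ K) := IsPGroup.to_le hPg inf_le_left
    obtain ⟨x, hx⟩ := exists_prime_orderOf_dvd_card' p (dvd_card_of_isPGroup_of_ne_bot hpg hne)
    refine ⟨x, x.2.1, x.2.2, ?_⟩
    exact (Subgroup.orderOf_coe x).trans hx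
  obtain ⟨a, haP, haN, hao⟩ := hel N inferInstance hN
  obtain ⟨b, hbP, hbM, hbo⟩ := hel M inferInstance hM
  have hab : a * b = b * a := by
    have h1 : a * b * a⁻¹ * b⁻¹ ∈ N := by
      have e : a * b * a⁻¹ * b⁻¹ = a * (b * a⁻¹ * b⁻¹) := by group
      rw [e]
      exact N.mul_mem haN (‹N.Normal›.conj_mem a⁻¹ (N.inv_mem haN) b)
    have h2 : a * b * a⁻¹ * b⁻¹ ∈ M :=
      M.mul_mem (‹M.Normal›.conj_mem b hbM a) (M.inv_mem hbM)
    have h3 : a * b * a⁻¹ * b⁻¹ ∈ (P : Subgroup G) :=
      Subgroup.mul_mem _ (Subgroup.mul_mem _ (Subgroup.mul_mem _ haP hbP) (Subgroup.inv_mem _ haP))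
        (Subgroup.inv_mem _ hbP)
    have h4 := hPD _ h3 ⟨h1, h2⟩
    calc a * b = (a * b * a⁻¹ * b⁻¹) * (b * a) := by group
      _ = b * a := by rw [h4, one_mul]
  have hap : a ^ p = 1 := by rw [← hao]; exact pow_orderOf_eq_one a
  have hbp : b ^ p = 1 := by rw [← hbo]; exact pow_orderOf_eq_one b
  have hinf : zpowers a ⊓ zpowers b = ⊥ := by
    rw [eq_bot_iff]
    rintro x ⟨hx1, hx2⟩
    exact hPD x ((Subgroup.zpowers_le.mpr haP) hx1)
      ⟨(Subgroup.zpowers_le.mpr haN) hx1, (Subgroup.zpowers_le.mpr hbM) hx2⟩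
  set E := zpowers a ⊔ zpowers b with hE
  have hEcard : Nat.card E = p ^ 2 := card_sup_zpowers_of_commute hab hao hbo hinf
  have hEexp : ∀ x ∈ E, x ^ p = 1 := fun x hx => pow_eq_one_of_mem_sup_zpowers hab hap hbp hx
  have hEP : E ≤ P := sup_le (Subgroup.zpowers_le.mpr haP) (Subgroup.zpowers_le.mpr hbP)
  have hDnorm : D.Normal := inferInstance
  have hgen := Cfsg.Agent.Lib.Hall.generation_elementary hp' hEcard hEexp (Nat.card D) D le_rfl
    (by rw [Subgroup.normalizer_eq_top_iff.mpr hDnorm]; exact le_top) hDcop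
  have hnorm_el : ∀ e ∈ (P : Subgroup G), e ≠ 1 → normalizer ((zpowers e : Subgroup G) : Set G) ≤ H := by
    intro e heP he1
    refine hc (zpowers e) ((Subgroup.zpowers_le.mpr heP).trans hPH)
      (IsPGroup.to_le hPg (Subgroup.zpowers_le.mpr heP)) ?_
    intro hb
    exact he1 (Subgroup.zpowers_eq_bot.mp hb)
  have hDH : D ≤ H := by
    rw [← hgen]
    refine iSup₂_le ?_
    rintro e ⟨heE, he1⟩ x ⟨-, hxC⟩
    refine hnorm_el e (hEP heE) he1 ?_
    have hxe : x * e = e * x := Subgroup.mem_centralizer_singleton_iff.mp hxC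
    rw [Subgroup.mem_normalizer_iff]
    have hz : ∀ y ∈ zpowers e, x * y * x⁻¹ = y := by
      rintro _ ⟨i, rfl⟩
      have : Commute x (e ^ i) := Commute.zpow_right hxe i
      show x * e ^ i * x⁻¹ = e ^ i
      rw [this.eq]; group
    intro y
    constructor
    · intro hy
      rw [hz y hy]; exact hy
    · intro hy
      have h2 := hz _ hy
      have h3 : x * y * x⁻¹ = y := by
        have h4 : x * (x * y * x⁻¹) = x * y := by
          calc x * (x * y * x⁻¹) = x * (x * y * x⁻¹) * x⁻¹ * x := by group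
            _ = x * y * x⁻¹ * x := by rw [h2]
            _ = x * y := by group
        exact mul_left_cancel h4
      rwa [h3] at hy
  -- the Frattini argument
  have hFr : H ⊔ N = ⊤ := by
    have hSyl := inf_normal_isSylowIn P N
    have h1 := Sylow.normalizer_sup_eq_top (N := N) hSyl.toSylow
    have h2 : ((hSyl.toSylow : Sylow p N) : Subgroup N).map N.subtype = (P : Subgroup G) ⊓ N := by
      rw [IsSylowIn.coe_toSylow, Subgroup.subgroupOf_map_subtype, inf_assoc, inf_idem]
    have h3 : normalizer (((hSyl.toSylow : Sylow p N) : Subgroup N).map N.subtype : Set G) ≤ H := by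
      rw [h2]
      refine hc _ (inf_le_left.trans hPH) (IsPGroup.to_le hPg inf_le_left) ?_
      intro hb
      have h4 := hSyl.not_dvd
      rw [hb, Subgroup.relIndex_bot_left] at h4
      exact h4 hN
    rw [eq_top_iff, ← h1]
    exact sup_le_sup_right h3 N
  -- `N ≤ H`
  have hNH : N ≤ H := by
    intro n hn
    set U := zpowers b with hU
    have hUcard : Nat.card U = p := by rw [hU, Nat.card_zpowers, hbo]
    have hUinf : U ⊓ D = ⊥ := by
      rw [eq_bot_iff]
      rintro x ⟨hx1, hx2⟩
      exact hPD x ((Subgroup.zpowers_le.mpr hbP) hx1) hx2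
    set Y := U ⊔ D with hY
    have hUpg : IsPGroup p U := IsPGroup.to_le hPg (Subgroup.zpowers_le.mpr hbP)
    have hSyl : IsSylowIn p U Y := by
      refine ⟨le_sup_left, hUpg, ?_⟩
      have h1 := Cfsg.Agent.Lib.PSolv.card_sup_mul_card_inf U D
      rw [hUinf, Subgroup.card_bot, mul_one] at h1
      have h2 := relIndex_mul_card (le_sup_left : U ≤ Y)
      have h3 : U.relIndex Y = Nat.card D := by
        have hpos : 0 < Nat.card U := Nat.card_pos
        rw [← hY] at h1
        rw [h1, mul_comm (Nat.card U)] at h2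
        exact Nat.eq_of_mul_eq_mul_right hpos h2
      rw [h3]
      exact hD
    have hconjb : n * b * n⁻¹ ∈ Y := by
      have h1 : n * b * n⁻¹ * b⁻¹ ∈ D := by
        refine ⟨?_, ?_⟩
        · have e : n * b * n⁻¹ * b⁻¹ = n * (b * n⁻¹ * b⁻¹) := by group
          rw [e]
          exact N.mul_mem hn (‹N.Normal›.conj_mem n⁻¹ (N.inv_mem hn) b)
        · exact M.mul_mem (‹M.Normal›.conj_mem b hbM n) (M.inv_mem hbM)
      have e : n * b * n⁻¹ = (n * b * n⁻¹ * b⁻¹) * b := by group
      rw [e]
      exact Y.mul_mem (Subgroup.mem_sup_right h1) (Subgroup.mem_sup_left (Subgroup.mem_zpowers b))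
    have hU'le : U.map (MulAut.conj n).toMonoidHom ≤ Y := by
      rw [hU, MonoidHom.map_zpowers, Subgroup.zpowers_le]
      exact hconjb
    have hU'pg : IsPGroup p ↥(U.map (MulAut.conj n).toMonoidHom) := hUpg.map _
    have hSyl' := hSyl.of_card_eq hU'le hU'pg (card_conj U n)
    obtain ⟨l, hl, hlU⟩ := hSyl.exists_conj hSyl'
    have hl' : l ∈ D ⊔ U := by rw [sup_comm]; exact hl
    obtain ⟨d, hd, u, hu, hldu⟩ := Cfsg.Agent.Lib.Core.exists_mul_of_mem_sup_normal_left hl'
    have hkey : d⁻¹ * n ∈ normalizer (U : Set G) := by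
      rw [mem_normalizer_iff_conj]
      calc U.map (MulAut.conj (d⁻¹ * n)).toMonoidHom
          = (U.map (MulAut.conj n).toMonoidHom).map (MulAut.conj d⁻¹).toMonoidHom := (conj_mul_conj U _ _).symm
        _ = (U.map (MulAut.conj l).toMonoidHom).map (MulAut.conj d⁻¹).toMonoidHom := by rw [hlU]
        _ = U.map (MulAut.conj (d⁻¹ * l)).toMonoidHom := conj_mul_conj U _ _
        _ = U.map (MulAut.conj u).toMonoidHom := by rw [hldu]; congr 4; group
        _ = U := conj_eq_of_mem hu
    have hb1 : b ≠ 1 := by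
      intro h
      rw [h, orderOf_one] at hbo
      exact hp'.one_lt.ne hbo
    have h5 := hnorm_el b hbP hb1 hkey
    have : n = d * (d⁻¹ * n) := by group
    rw [this]
    exact H.mul_mem (hDH hd) h5
  apply hHtop
  rw [← hFr, sup_eq_left.mpr hNH]

end Cfsg.Agent.S3058
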