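import Cfsg.Statements.S1526
import Mathlib
import Cfsg.Agent.Lib.OddChar.PartMain

set_option autoImplicit false
open Cfsg

namespace Cfsg.Agent.S1526

open Cfsg.Agent.Lib.Char Cfsg.Agent.Lib.OddChar in
/-- The real form of the partition identity. -/
theorem partition_real {G : Type*} [Group G] [Fintype G] {ι : Type*} [Fintype ι] (L H : ι → Subgroup G)
    [∀ i, Fintype (L i)] (hHL : ∀ i, H i ≤ L i) (hHn : ∀ i, ∀ x ∈ L i, ∀ h ∈ H i, x * h * x⁻¹ ∈ H i)
    (hti : ∀ i, ∀ g : G, g ∉ L i → ∀ s ∈ H i, g * s * g⁻¹ ∈ H i → s = 1)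
    (hcop : ∀ i j, i ≠ j → Nat.Coprime (Nat.card (H i)) (Nat.card (H j)))
    (hcover : ∀ g : G, g ≠ 1 → ∃ i, ∃ x : G, x * g * x⁻¹ ∈ H i)
    (f : G → ℝ) (hf : ∀ g h : G, f (h * g * h⁻¹) = f g) :
    (Nat.card G : ℝ)⁻¹ * ∑ g, f g = (Nat.card G : ℝ)⁻¹ * f 1 +
      ∑ i, (Nat.card (L i) : ℝ)⁻¹ * ∑ x : L i, maskR (H i) (L i) x * f x := by
  have h1 := partition_identity L H hHL hHn hti hcop hcover (fun g => ((f g : ℝ) : ℂ))
    (fun g h => by simp only [hf])
  apply Complex.ofReal_injective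
  push_cast
  simp only [maskFun_eq] at h1
  exact h1

open Cfsg.Agent.Lib.Char Cfsg.Agent.Lib.OddChar in
/-- The main argument. -/
theorem main {G : Type*} [Group G] [Fintype G] (hodd : Odd (Nat.card G)) {ι : Type*} [Fintype ι]
    (hι : Nonempty ι) (L H : ι → Subgroup G) [∀ i, Fintype (L i)] (hHL : ∀ i, H i < L i)
    (hH1 : ∀ i, H i ≠ ⊥) (hHn : ∀ i, ∀ x ∈ L i, ∀ h ∈ H i, x * h * x⁻¹ ∈ H i)
    (hfrob : ∀ i, ∀ h ∈ H i, h ≠ 1 → L i ⊓ Subgroup.centralizer ({h} : Set G) ≤ H i)
    (hcop : ∀ i j, i ≠ j → Nat.Coprime (Nat.card (H i)) (Nat.card (H j)))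
    (hTI : ∀ i, Cfsg.IsTISubset (H i : Set G) ∧ Subgroup.normalizer (H i : Set G) = L i)
    (hcover : ∀ g : G, g ≠ 1 → ∃ i, ∃ x : G, x * g * x⁻¹ ∈ H i) : False := by
  classical
  have hex := fun i => exists_pairData hodd (H i) (L i) (hHL i) (hH1 i) (hHn i) (hfrob i) (hTI i).1 (hTI i).2
  choose Gen ψ Φ v ε e n hD using hex
  have hti : ∀ i, ∀ g : G, g ∉ L i → ∀ s ∈ H i, g * s * g⁻¹ ∈ H i → s = 1 := by
    intro i
    rw [← (hTI i).2]
    exact (hTI i).1
  -- the index with the smallest kernel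
  obtain ⟨i, -, hi⟩ := Finset.exists_min_image (Finset.univ : Finset ι) (fun l => Nat.card (H l))
    ⟨hι.some, Finset.mem_univ _⟩
  have hDi := hD i
  set h := Nat.card (H i) with hhdef
  have hhcast : (h : ℝ) = 1 + (n i : ℝ) * e i := by exact_mod_cast hDi.card_H
  have hLcard : ∀ l, (Nat.card (L l) : ℝ) = (Nat.card (H l) : ℝ) * e l := fun l => by
    exact_mod_cast (hD l).card_L
  have hHcard : ∀ l, (Nat.card (H l) : ℝ) = 1 + (n l : ℝ) * e l := fun l => by
    exact_mod_cast (hD l).card_H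
  have hepos : ∀ l, (0 : ℝ) < e l := fun l => by
    have := (hD l).three_le
    exact_mod_cast (by omega : 0 < e l)
  have hnpos : ∀ l, (0 : ℝ) < n l := fun l => by
    have := (hD l).two_le
    exact_mod_cast (by omega : 0 < n l)
  have hHpos : ∀ l, (0 : ℝ) < (Nat.card (H l) : ℝ) := fun l => by
    rw [hHcard]
    have := hepos l
    have := hnpos l
    positivity
  have hLpos : ∀ l, (0 : ℝ) < (Nat.card (L l) : ℝ) := fun l => by
    rw [hLcard]
    exact mul_pos (hHpos l) (hepos l)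
  -- the weights
  let W : ι → ℝ := fun l => (n l : ℝ) / (Nat.card (H l) : ℝ)
  have hWmask : ∀ l, (Nat.card (L l) : ℝ)⁻¹ * ∑ x : L l, maskR (H l) (L l) x = W l := by
    intro l
    rw [sum_mask_one (hHL l).le, hLcard, hHcard]
    simp only [W]
    rw [hHcard]
    have h1 := hepos l
    have h2 : (1 + (n l : ℝ) * e l) ≠ 0 := by
      have := hnpos l
      positivity
    field_simp
    ring
  have hWpos : ∀ l, 0 ≤ W l := fun l => div_nonneg (hnpos l).le (hHpos l).le
  -- the whole group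
  have hGpos : (0 : ℝ) < Nat.card G := by exact_mod_cast Nat.card_pos (α := G)
  have hone := partition_real L H (fun l => (hHL l).le) hHn hti hcop hcover (fun _ => 1) (fun _ _ => rfl)
  simp only [mul_one, Finset.sum_const, Finset.card_univ, nsmul_eq_mul] at hone
  rw [← Nat.card_eq_fintype_card, inv_mul_cancel₀ hGpos.ne', Finset.sum_congr rfl fun l _ => hWmask l] at hone
  -- the character
  have hψirr := hDi.irr
  set ξ : G → ℂ := ε i • ψ i with hξ
  have hξclass : IsClassFunction G ξ := IsCharacter.isClassFunction (IsIrrCharacter.isCharacter hψirr)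
  have hψclass : IsClassFunction G (ψ i) := PM.isClass (hDi.gen_pm _ hDi.mem)
  have hnorm := partition_real L H (fun l => (hHL l).le) hHn hti hcop hcover (fun g => ‖ξ g‖ ^ 2)
    (fun g y => by simp only [hξclass g y])
  have hsumξ : (Nat.card G : ℝ)⁻¹ * ∑ g, ‖ξ g‖ ^ 2 = 1 := by
    have h1 := classInner_irr_self hψirr
    rw [classInner_def] at h1
    have h2 : ((∑ g, ‖ξ g‖ ^ 2 : ℝ) : ℂ) = ∑ g, ξ g * (starRingEnd ℂ) (ξ g) := by
      push_cast
      refine Finset.sum_congr rfl fun x _ => ?_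
      rw [Complex.mul_conj, Complex.normSq_eq_norm_sq]
      push_cast
      rfl
    rw [← h2] at h1
    have h3 : (((Nat.card G : ℝ)⁻¹ * ∑ g, ‖ξ g‖ ^ 2 : ℝ) : ℂ) = ((1 : ℝ) : ℂ) := by
      push_cast
      push_cast at h1
      exact h1
    exact_mod_cast h3
  rw [hsumξ] at hnorm
  -- the terms
  let A : ι → ℝ := fun l => (Nat.card (L l) : ℝ)⁻¹ * ∑ x : L l, maskR (H l) (L l) x * ‖ξ x‖ ^ 2
  have hAnn : ∀ l, 0 ≤ A l := by
    intro l
    refine mul_nonneg (inv_nonneg.mpr (hLpos l).le) (Finset.sum_nonneg fun x _ => ?_)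
    refine mul_nonneg ?_ (sq_nonneg _)
    simp only [maskR]
    split_ifs <;> norm_num
  have hAi : 1 - (e i : ℝ) / h ≤ A i := hDi.row_self
  have hcross : ∀ l, l ≠ i → ∀ w ∈ Gen l, classInner (ψ i) w = 0 := fun l hl w hw =>
    cross_orth hDi (hD l) (hcop i l hl.symm) _ hDi.mem w hw
  let In : Finset ι := Finset.univ.filter fun l => l ≠ i ∧ classInner (ψ i) (Φ l) ≠ 0
  let Out : Finset ι := Finset.univ.filter fun l => l ≠ i ∧ classInner (ψ i) (Φ l) = 0
  have hAIn : ∀ l ∈ In, W l ≤ A l := by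
    intro l hl
    obtain ⟨hli, hne⟩ := (Finset.mem_filter.mp hl).2
    obtain ⟨c, hc⟩ := classInner_isGeneralized_int (PM.isGeneralized (hDi.gen_pm _ hDi.mem)) (hD l).pi_gen
    have hnorm1 := norm_ge_one_of_int hc hne
    have hconst := (hD l).row_other (ψ i) hψclass (hcross l hli)
    simp only [A]
    rw [← hWmask l]
    refine mul_le_mul_of_nonneg_left ?_ (inv_nonneg.mpr (hLpos l).le)
    refine Finset.sum_le_sum fun x _ => ?_
    simp only [maskR]
    by_cases hx : (x : G) ∈ H l ∧ (x : G) ≠ 1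
    · rw [if_pos hx, one_mul]
      have h1 := hconst _ hx.1 hx.2
      have h2 : ‖ξ x‖ = ‖classInner (ψ i) (Φ l)‖ := by
        rw [hξ]
        simp only [Pi.smul_apply, smul_eq_mul, norm_mul]
        rw [h1]
        rcases hDi.eps with h3 | h3 <;> rw [h3] <;> simp
      rw [h2]
      exact one_le_pow₀ hnorm1
    · rw [if_neg hx]
      simp
  have hOutprop : ∀ l ∈ Out, l ≠ i ∧ classInner (Φ i) (ψ l) ≠ 0 := by
    intro l hl
    obtain ⟨hli, h0⟩ := (Finset.mem_filter.mp hl).2
    refine ⟨hli, ?_⟩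
    rcases parity_pair hodd hDi (hD l) (hcop i l hli.symm) with h1 | h1
    · exact h1
    · exact absurd h0 h1
  have hbudget := budget Gen H L ψ Φ v ε e n hD hcop i Out hOutprop
  -- splitting the sums
  have hsplit : ∀ f : ι → ℝ, ∑ l, f l = f i + ∑ l ∈ In, f l + ∑ l ∈ Out, f l := by
    intro f
    rw [← Finset.add_sum_erase _ _ (Finset.mem_univ i), add_assoc]
    congr 1
    rw [← Finset.sum_union]
    · refine Finset.sum_congr ?_ fun _ _ => rfl
      ext l
      simp only [Finset.mem_erase, Finset.mem_univ, and_true, Finset.mem_union, In, Out,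
        Finset.mem_filter, true_and]
      tauto
    · rw [Finset.disjoint_left]
      intro l hl hl'
      exact (Finset.mem_filter.mp hl).2.2 (Finset.mem_filter.mp hl').2.2
  -- the bound over `In`
  have hIn : ∑ l ∈ In, W l ≤ (e i : ℝ) / h := by
    have h1 : ∑ l, A l ≤ 1 := by
      have h2 : 0 ≤ (Nat.card G : ℝ)⁻¹ * ‖ξ 1‖ ^ 2 :=
        mul_nonneg (inv_nonneg.mpr hGpos.le) (sq_nonneg _)
      have h3 : ∑ l, A l = ∑ l, (Nat.card (L l) : ℝ)⁻¹ * ∑ x : L l, maskR (H l) (L l) x * ‖ξ x‖ ^ 2 := rfl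
      linarith
    have h4 := hsplit A
    have h5 : 0 ≤ ∑ l ∈ Out, A l := Finset.sum_nonneg fun l _ => hAnn l
    have h6 : ∑ l ∈ In, W l ≤ ∑ l ∈ In, A l := Finset.sum_le_sum hAIn
    linarith
  -- the bound over `Out`
  have hhl : ∀ l, l ≠ i → h + 1 ≤ Nat.card (H l) := by
    intro l hl
    have h1 := hi l (Finset.mem_univ l)
    have h2 : h ≠ Nat.card (H l) := by
      intro h3
      have h4 := hcop i l hl.symm
      rw [← hhdef, h3, Nat.coprime_self] at h4
      have h5 := Finite.one_lt_card_iff_nontrivial.mpr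
        ((Subgroup.nontrivial_iff_ne_bot (H l)).mpr (hH1 l))
      omega
    have h1' : h ≤ Nat.card (H l) := h1
    omega
  have hOut : ∑ l ∈ Out, W l ≤ ((e i : ℝ) - 1) / (1 + n i * e i + 1) := by
    have h1 : ∀ l ∈ Out, W l ≤ (n l : ℝ) / (1 + n i * e i + 1) := by
      intro l hl
      have h2 := hhl l (Finset.mem_filter.mp hl).2.1
      have h3 : (1 + (n i : ℝ) * e i + 1) ≤ (Nat.card (H l) : ℝ) := by
        rw [← hhcast]
        exact_mod_cast h2
      exact div_le_div_of_nonneg_left (hnpos l).le (by positivity) h3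
    have h4 : ∑ l ∈ Out, W l ≤ ∑ l ∈ Out, (n l : ℝ) / (1 + n i * e i + 1) := Finset.sum_le_sum h1
    rw [← Finset.sum_div] at h4
    refine h4.trans ?_
    refine div_le_div_of_nonneg_right ?_ (by positivity)
    linarith
  -- the size of the group
  have hhg : Nat.card (H i) ∣ Nat.card G := Subgroup.card_subgroup_dvd_card _
  have hGh : (1 + (n i : ℝ) * e i) ≤ Nat.card G := by
    rw [← hhcast]
    exact_mod_cast Nat.le_of_dvd Nat.card_pos hhg
  have hGout : ∑ l ∈ Out, W l = 0 ∨ (1 + (n i : ℝ) * e i) * (1 + n i * e i + 1) ≤ Nat.card G := by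
    by_cases hE : Out = ∅
    · left
      rw [hE, Finset.sum_empty]
    · right
      obtain ⟨l, hl⟩ := Finset.nonempty_iff_ne_empty.mpr hE
      have hli := (Finset.mem_filter.mp hl).2.1
      have h1 : Nat.card (H i) * Nat.card (H l) ∣ Nat.card G :=
        Nat.Coprime.mul_dvd_of_dvd_of_dvd (hcop i l hli.symm) hhg (Subgroup.card_subgroup_dvd_card _)
      have h2 := Nat.le_of_dvd Nat.card_pos h1
      have h3 := hhl l hli
      have h4 : h * (h + 1) ≤ Nat.card G :=
        (Nat.mul_le_mul_left _ h3).trans h2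
      have h5 : ((h * (h + 1) : ℕ) : ℝ) ≤ Nat.card G := by exact_mod_cast h4
      push_cast at h5
      rw [hhcast] at h5
      exact h5
  -- the identity for the weights
  have hsum := hsplit W
  have hWi : W i = (n i : ℝ) / (1 + n i * e i) := by
    simp only [W]
    rw [← hhdef, hhcast]
  have h1 : (1 : ℝ) = 1 / (Nat.card G : ℝ) + (n i : ℝ) / (1 + n i * e i) + ∑ l ∈ In, W l + ∑ l ∈ Out, W l := by
    have h2 : (1 : ℝ) = (Nat.card G : ℝ)⁻¹ + ∑ l, W l := hone
    rw [one_div, ← hWi]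
    linarith
  rw [hhcast] at hIn
  exact final_numeric (hD i).two_le (hD i).three_le hGh h1 hIn hOut hGout

/-- Let G be a finite group of odd order and (L i, H i), i in a finite index type with at least two elements, pairs of subgroups with H i a nontrivial proper normal subgroup of L i such that every non-identity element of H i has its centraliser within L i contained in H i (L i is a Frobenius group with kernel H i), the orders of the H i pairwise coprime, and the underlying set of each H i a TI-subset of G with normaliser L i. If every non-identity element of G is conjugate to an element of some H i, we reach a contradiction. -/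
theorem result {G : Type*} [Group G] [Finite G] (hodd : Odd (Nat.card G)) {ι : Type*} [Fintype ι] (hι : 2 ≤ Fintype.card ι) (L H : ι → Subgroup G) (hHL : ∀ i, H i < L i) (hH1 : ∀ i, H i ≠ ⊥) (hHn : ∀ i, ∀ x ∈ L i, ∀ h ∈ H i, x * h * x⁻¹ ∈ H i) (hfrob : ∀ i, ∀ h ∈ H i, h ≠ 1 → L i ⊓ Subgroup.centralizer ({h} : Set G) ≤ H i) (hcop : ∀ i j, i ≠ j → Nat.Coprime (Nat.card (H i)) (Nat.card (H j))) (hTI : ∀ i, Cfsg.IsTISubset (H i : Set G) ∧ Subgroup.normalizer (H i : Set G) = L i) (hcover : ∀ g : G, g ≠ 1 → ∃ i, ∃ x : G, x * g * x⁻¹ ∈ H i) : False := by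

  classical
  letI : Fintype G := Fintype.ofFinite G
  letI : ∀ i, Fintype (L i) := fun i => Fintype.ofFinite _
  have hι' : Nonempty ι := by
    have h : 0 < Fintype.card ι := by omega
    exact Fintype.card_pos_iff.mp h
  exact main hodd hι' L H hHL hH1 hHn hfrob hcop hTI hcover

end Cfsg.Agent.S1526
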