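import Cfsg.Statements.S0183
import Mathlib
import Cfsg.Agent.S1526
import Cfsg.Agent.Lib.OddLocal.CN6

set_option autoImplicit false
open Cfsg

namespace Cfsg.Agent.S0183

universe u

open Cfsg.Agent.Lib.OddLocal Cfsg.Agent.Lib.Techniques Cfsg.Agent.Lib.OddChar in
/-- There is no minimal simple group of odd order all of whose centralizers of nonidentity elements
are nilpotent. -/
theorem no_minSimple {G : Type*} [Group G] [Finite G] (hG : Cfsg.IsMinSimpleOddOrder G)
    (hCN : Cfsg.IsCNGroup G) : False := by
  classical
  letI : Fintype G := Fintype.ofFinite G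
  have hodd := hG.1
  haveI : IsSimpleGroup G := hG.2.1
  haveI : Nontrivial G := IsSimpleGroup.toNontrivial
  -- representatives of the conjugacy classes of maximal subgroups
  let Coat := {M : Subgroup G // IsCoatom M}
  let r : Setoid Coat :=
    { r := fun M M' => ∃ g : G, M'.1 = M.1.map (MulAut.conj g).toMonoidHom
      iseqv := by
        refine ⟨fun M => ⟨1, ?_⟩, ?_, ?_⟩
        · ext x
          simp
        · rintro M M' ⟨g, hg⟩
          refine ⟨g⁻¹, ?_⟩
          rw [hg]
          ext x
          simp only [Subgroup.mem_map, MulEquiv.coe_toMonoidHom, MulAut.conj_apply, exists_exists_and_eq_and]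
          constructor
          · intro hx
            exact ⟨x, hx, by group⟩
          · rintro ⟨a, ha, rfl⟩
            convert ha using 1
            group
        · rintro M M' M'' ⟨g, hg⟩ ⟨g', hg'⟩
          refine ⟨g' * g, ?_⟩
          rw [hg', hg, Subgroup.map_map]
          congr 1
          ext x
          simp [mul_assoc] }
  let ι := Quotient r
  letI : Fintype ι := Fintype.ofFinite _
  let e := Fintype.equivFin ι
  let Mrep : Fin (Fintype.card ι) → Subgroup G := fun i => (Quotient.out (e.symm i)).1
  have hmax : ∀ i, IsCoatom (Mrep i) := fun i => (Quotient.out (e.symm i)).2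
  have hnc : ∀ i j, i ≠ j → ∀ g : G, Mrep j ≠ (Mrep i).map (MulAut.conj g).toMonoidHom := by
    intro i j hij g h
    apply hij
    have h1 : (Quotient.out (e.symm i)) ≈ (Quotient.out (e.symm j)) := ⟨g, h⟩
    have h2 : e.symm i = e.symm j := by
      have h3 := Quotient.sound h1
      rwa [Quotient.out_eq, Quotient.out_eq] at h3
    exact e.symm.injective h2
  have hall : ∀ M : Subgroup G, IsCoatom M → ∃ i, ∃ g : G, M = (Mrep i).map (MulAut.conj g).toMonoidHom := by
    intro M hM
    refine ⟨e (Quotient.mk r ⟨M, hM⟩), ?_⟩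
    have h1 : (Quotient.out (Quotient.mk r (⟨M, hM⟩ : Coat))) ≈ (⟨M, hM⟩ : Coat) := Quotient.mk_out _
    obtain ⟨g, hg⟩ := h1
    refine ⟨g, ?_⟩
    simp only [Mrep, Equiv.symm_apply_apply]
    exact hg
  obtain ⟨hcop, -, hcover⟩ := s1484_main hG hCN _ Mrep hmax hnc hall
  have hd : ∀ i, ∃ E, CoatomData (Mrep i) E := fun i => coatom_struct hG hCN (hmax i)
  choose E hE using hd
  have hK : ∀ i, IsMaxNil (fittingHallOf (Mrep i)) := fun i => coatom_maxNil hG hCN (hmax i) (hE i)
  have hnorm : ∀ i, Subgroup.normalizer (fittingHallOf (Mrep i) : Set G) = Mrep i :=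
    fun i => coatom_normalizer hG hCN (hmax i) (hE i)
  have hle : ∀ i, fittingHallOf (Mrep i) ≤ Mrep i := fun i => Subgroup.map_subtype_le _
  have hne : Nonempty (Fin (Fintype.card ι)) := by
    obtain ⟨M, hM, -⟩ := (eq_top_or_exists_le_coatom (⊥ : Subgroup G)).resolve_left bot_ne_top
    obtain ⟨i, -⟩ := hall M hM
    exact ⟨i⟩
  letI : ∀ i, Fintype (Mrep i) := fun i => Fintype.ofFinite _
  refine Cfsg.Agent.S1526.main hodd hne Mrep (fun i => fittingHallOf (Mrep i)) ?_ (fun i => (hE i).ne_bot) ?_ ?_
    hcop ?_ ?_
  · intro i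
    refine lt_of_le_of_ne (hle i) fun h => ?_
    apply (hE i).E_ne
    rw [eq_bot_iff, ← (hE i).inf_bot]
    refine le_inf ?_ le_rfl
    rw [h]
    exact (hE i).E_le
  · intro i x hx h hh
    have h1 : x ∈ Subgroup.normalizer (fittingHallOf (Mrep i) : Set G) := by
      rw [hnorm]
      exact hx
    exact (Subgroup.mem_set_normalizer_iff.mp h1 h).mp hh
  · rintro i h hh hh1 x ⟨-, hx⟩
    exact centralizer_le_maxNil hG hCN (hK i) hh hh1 hx
  · intro i
    refine ⟨?_, hnorm i⟩
    intro g hg x hx hgx
    have h1 : conjS g (fittingHallOf (Mrep i)) ≠ fittingHallOf (Mrep i) := by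
      intro h2
      exact hg (mem_normalizer_iff_conjS.2 h2)
    have h3 := maxNil_ti hG hCN (hK i) g h1
    have h4 : g * x * g⁻¹ ∈ fittingHallOf (Mrep i) ⊓ conjS g (fittingHallOf (Mrep i)) :=
      ⟨hgx, conj_mem_conjS hx⟩
    rw [h3, Subgroup.mem_bot] at h4
    have h5 : x = g⁻¹ * (g * x * g⁻¹) * g := by group
    rw [h5, h4]
    group
  · intro g _
    exact hcover g

open Cfsg.Agent.Lib.OddLocal in
/-- The theorem, by induction on the order of the group. -/
theorem aux : ∀ (n : ℕ) (G : Type u) [Group G] [Finite G], Nat.card G = n → Odd (Nat.card G) →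
    Cfsg.IsCNGroup G → Group.IsSolvable G := by
  intro n
  induction n using Nat.strong_induction_on with
  | _ n ih =>
    intro G _ _ hn hodd hCN
    by_contra hns
    have hsub : ∀ K : Subgroup G, K ≠ ⊤ → Group.IsSolvable K := by
      intro K hK
      refine ih (Nat.card K) ?_ K rfl (Odd.of_dvd_nat hodd (Subgroup.card_subgroup_dvd_card K))
        (isCN_subgroup hCN K)
      rw [← hn, ← Subgroup.card_mul_index K]
      have h3 : 1 < K.index := by
        have h4 : K.index ≠ 0 := Subgroup.index_ne_zero_of_finite
        have h5 : K.index ≠ 1 := fun h => hK (Subgroup.index_eq_one.mp h)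
        omega
      have h6 : 0 < Nat.card K := Nat.card_pos
      nlinarith
    have hnt : Nontrivial G := by
      rcases subsingleton_or_nontrivial G with h | h
      · exact absurd (by haveI := h; infer_instance : Group.IsSolvable G) hns
      · exact h
    have hsimple : IsSimpleGroup G := by
      refine ⟨?_⟩
      intro N hN
      by_contra hcon
      push Not at hcon
      obtain ⟨h1, h2⟩ := hcon
      have hNs := hsub N h2
      have hQ : Cfsg.IsCNGroup (G ⧸ N) := cn_quotient_of_solvable _ G hCN N hNs rfl
      have hcardQ : Nat.card (G ⧸ N) < n := by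
        rw [← hn, ← Subgroup.index_eq_card, ← Subgroup.card_mul_index N]
        have h3 : 1 < Nat.card N :=
          Finite.one_lt_card_iff_nontrivial.mpr ((Subgroup.nontrivial_iff_ne_bot N).mpr h1)
        have h4 : 0 < N.index := Nat.pos_of_ne_zero Subgroup.index_ne_zero_of_finite
        nlinarith
      have hoddQ : Odd (Nat.card (G ⧸ N)) := by
        rw [← Subgroup.index_eq_card]
        exact Odd.of_dvd_nat hodd (Subgroup.index_dvd_card N)
      have hsQ := ih _ hcardQ (G ⧸ N) rfl hoddQ hQ
      exact hns (Group.isSolvable_of_ker_le_range N.subtype (QuotientGroup.mk' N) (by simp))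
    have hnc : ¬ IsMulCommutative G := by
      intro hc
      apply hns
      letI : CommGroup G := { (inferInstance : Group G) with mul_comm := hc.1.1 }
      infer_instance
    exact no_minSimple ⟨hodd, hsimple, hnc, hsub⟩ hCN

/-- The CN-Theorem for odd order: a finite group of odd order in which every non-identity element has a nilpotent centralizer (a CN-group) is solvable. -/
theorem result {G : Type*} [Group G] [Finite G] (hodd : Odd (Nat.card G)) (hCN : Cfsg.IsCNGroup G) : Group.IsSolvable G := by

  exact aux _ _ rfl hodd hCN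

end Cfsg.Agent.S0183
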