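import Cfsg.Statements.S0344
import Mathlib
import Cfsg.Agent.Lib.ZassEven.Sharp
import Cfsg.Agent.Lib.Perm.ZassPSL
import Cfsg.Agent.Lib.InvCent.Trivial

set_option autoImplicit false
open Cfsg

namespace Cfsg.Agent.S0344

/-- A finite simple Zassenhaus group with a two-point stabiliser of even order is isomorphic to `PSL₂(F)` for a finite
field `F` with more than three elements. -/
theorem result {G Ω : Type*} [Group G] [Finite G] [MulAction G Ω] [Finite Ω]
    (hZ : Cfsg.IsZassenhausGroup G Ω) [IsSimpleGroup G]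
    {a b : Ω} (hab : a ≠ b) (heven : Even (Nat.card ↥(MulAction.stabilizer G a ⊓ MulAction.stabilizer G b))) :
    ∃ (F : Type) (_ : Field F) (_ : Fintype F), 3 < Fintype.card F ∧ Nonempty (G ≃* Matrix.ProjectiveSpecialLinearGroup (Fin 2) F) := by
  classical
  haveI := Fintype.ofFinite Ω
  set E : Subgroup G := MulAction.stabilizer G a ⊓ MulAction.stabilizer G b with hE
  have hd0 : 0 < Nat.card E := Nat.card_pos
  have hd2 : 2 ≤ Nat.card E := by
    obtain ⟨k, hk⟩ := heven
    omega
  have h1 : Fintype.card Ω - 2 ≤ 2 * Nat.card E := Lib.Perm.two_mul_card_ge hZ hab heven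
  -- a semiregular action
  let S0 : Finset Ω := (Finset.univ.erase a).erase b
  have hS0 : S0.card = Fintype.card Ω - 2 := by
    rw [Finset.card_erase_of_mem (Finset.mem_erase.mpr ⟨Ne.symm hab, Finset.mem_univ _⟩),
      Finset.card_erase_of_mem (Finset.mem_univ _), Finset.card_univ]
    omega
  have hmem : ∀ x, x ∈ (S0 : Set Ω) ↔ x ≠ b ∧ x ≠ a := by
    intro x
    simp [S0, and_comm]
  have hdvd : Nat.card E ∣ Fintype.card Ω - 2 := by
    have h2 := Lib.InvCent.card_dvd_of_free (H := E) (X := Ω) (S0 : Set Ω)
      (by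
        intro k x hx
        rw [hmem] at hx ⊢
        constructor
        · intro h0
          apply hx.1
          apply smul_left_cancel (k : G)
          exact h0.trans (show (k : G) • b = b from k.2.2).symm
        · intro h0
          apply hx.2
          apply smul_left_cancel (k : G)
          exact h0.trans (show (k : G) • a = a from k.2.1).symm)
      (by
        intro k x hx h0
        rw [hmem] at hx
        apply Subtype.ext
        exact hZ.2.2.1 (k : G) a b x hab (Ne.symm hx.1) (Ne.symm hx.2) k.2.1 k.2.2 h0)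
    have h3 : Nat.card (S0 : Set Ω) = S0.card := by
      rw [Nat.card_eq_fintype_card]
      simp
    rwa [h3, hS0] at h2
  obtain ⟨k, hk⟩ := hdvd
  have hk2 : k ≤ 2 := by
    by_contra hcon
    have h2 : 3 ≤ k := by omega
    have h3 : Nat.card E * 3 ≤ Nat.card E * k := Nat.mul_le_mul_left _ h2
    omega
  -- a non-trivial element moves a third point
  have hk0 : k ≠ 0 := by
    rintro rfl
    rw [mul_zero] at hk
    haveI : Nontrivial E := Finite.one_lt_card_iff_nontrivial.1 (by omega)
    obtain ⟨⟨e, he⟩, he1⟩ := exists_ne (1 : E)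
    have he1' : e ≠ 1 := fun h0 => he1 (Subtype.ext h0)
    apply he1'
    haveI : FaithfulSMul G Ω := hZ.1
    apply FaithfulSMul.eq_of_smul_eq_smul (α := Ω)
    intro x
    rw [one_smul]
    by_cases hxa : x = a
    · rw [hxa]
      exact he.1
    · by_cases hxb : x = b
      · rw [hxb]
        exact he.2
      · exfalso
        have h3 : S0.card = 0 := by rw [hS0, hk]
        rw [Finset.card_eq_zero] at h3
        have h4 : x ∈ (S0 : Set Ω) := (hmem x).2 ⟨hxb, hxa⟩
        rw [h3] at h4
        simp at h4
  have hk12 : k = 1 ∨ k = 2 := by omega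
  have hn3 : 3 ≤ Fintype.card Ω := by
    have h2 : Nat.card E * 1 ≤ Nat.card E * k := Nat.mul_le_mul_left _ (by omega)
    omega
  rcases hk12 with rfl | rfl
  · exfalso
    rw [mul_one] at hk
    exact Lib.ZassEven.false_of_sharp hZ hab heven (show Fintype.card Ω = Nat.card E + 2 by omega)
  · obtain ⟨p, f, K, iF, iT, hp, hp2, hK, hΩ, hnon⟩ := Lib.Perm.ZP.main hZ hab heven
      (show 2 * Nat.card E ≤ Fintype.card Ω - 2 by omega)
    refine ⟨K, iF, iT, ?_, hnon⟩
    rw [hK]
    omega

end Cfsg.Agent.S0344
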