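import Cfsg.Statements.S0345
import Mathlib
import Cfsg.Agent.Lib.ZassEven.Even
import Cfsg.Agent.S0739
import Cfsg.Agent.S0740

set_option autoImplicit false
open Cfsg

namespace Cfsg.Agent.S0345

/-- In a finite simple Zassenhaus group the stabiliser `H` of two points `a ≠ b` is cyclic, and some involution
interchanging `a` and `b` inverts every element of `H`. -/
theorem result {G Ω : Type*} [Group G] [Finite G] [MulAction G Ω] [Finite Ω]
    (hZ : Cfsg.IsZassenhausGroup G Ω) [IsSimpleGroup G]
    {a b : Ω} (hab : a ≠ b) :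
    IsCyclic ↥(MulAction.stabilizer G a ⊓ MulAction.stabilizer G b) ∧
      ∃ v : G, orderOf v = 2 ∧ v • a = b ∧ v • b = a ∧ ∀ h ∈ MulAction.stabilizer G a ⊓ MulAction.stabilizer G b, v * h * v⁻¹ = h⁻¹ := by
  classical
  haveI := Fintype.ofFinite Ω
  set E : Subgroup G := MulAction.stabilizer G a ⊓ MulAction.stabilizer G b with hE
  rcases Nat.even_or_odd (Nat.card E) with heven | hodd
  · have hn := Lib.ZassEven.card_eq_of_even hZ hab heven
    obtain ⟨hc, hs⟩ := Lib.ZassEven.isCyclic_of_even hZ hab heven hn
    refine ⟨hc, ?_⟩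
    obtain ⟨s, hsa, hsb⟩ := Lib.Char.zass_two_trans hZ a b b a hab (Ne.symm hab)
    obtain ⟨h1, h2⟩ := hs s hsa hsb
    refine ⟨s, ?_, hsa, hsb, h2⟩
    apply orderOf_eq_prime (p := 2)
    · rw [pow_two, h1]
    · rintro rfl
      rw [one_smul] at hsa
      exact hab hsa
  · have hnil : ∀ q : ℕ, q.Prime → q ∣ Nat.card E →
        ¬ ∃ N : Subgroup G, N.Normal ∧ N.index = q ^ (Nat.card G).factorization q := by
      rintro q hq hqd ⟨N, hN, hNi⟩
      have hcard := Lib.Char.zass_card hZ hab
      rw [← hE] at hcard
      have hqG : q ∣ Nat.card G := by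
        rw [← hcard]
        exact Dvd.dvd.mul_right (Dvd.dvd.mul_right hqd _) _
      have hGpos : Nat.card G ≠ 0 := Nat.card_pos.ne'
      rcases IsSimpleGroup.eq_bot_or_eq_top_of_normal N hN with h | h
      · rw [h, Subgroup.index_bot] at hNi
        -- `G` is a `q`-group
        set k := (Nat.card G).factorization q with hk
        set n := Fintype.card Ω with hn
        have hd2 : 2 ≤ Nat.card E := by
          have h1 := Nat.le_of_dvd Nat.card_pos hqd
          have := hq.two_le
          omega
        obtain ⟨c, hca, hcb⟩ := Lib.ZassEven.exists_third hZ hab hd2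
        have h4 : ({a, b, c} : Finset Ω).card = 3 := by
          rw [Finset.card_eq_three]
          exact ⟨a, b, c, hab, Ne.symm hca, Ne.symm hcb, rfl⟩
        have h5 : 3 ≤ n := by
          rw [← h4]
          exact Finset.card_le_univ _
        have hd1 : n ∣ q ^ k := by
          rw [← hNi, ← hcard]
          exact Dvd.dvd.mul_right (Dvd.intro_left _ rfl) _
        have hd3 : n - 1 ∣ q ^ k := by
          rw [← hNi, ← hcard]
          exact Dvd.intro_left _ rfl
        obtain ⟨i, -, hi⟩ := (Nat.dvd_prime_pow hq).1 hd1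
        obtain ⟨j, -, hj⟩ := (Nat.dvd_prime_pow hq).1 hd3
        have hi0 : i ≠ 0 := by
          rintro rfl
          rw [pow_zero] at hi
          omega
        have hj0 : j ≠ 0 := by
          rintro rfl
          rw [pow_zero] at hj
          omega
        have h6 : q ∣ n := by
          rw [hi]
          exact dvd_pow_self q hi0
        have h7 : q ∣ n - 1 := by
          rw [hj]
          exact dvd_pow_self q hj0
        have h8 : q ∣ 1 := by
          have h9 := Nat.dvd_sub h6 h7
          have h10 : n - (n - 1) = 1 := by omega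
          rwa [h10] at h9
        exact hq.one_lt.ne' (Nat.dvd_one.mp h8)
      · rw [h, Subgroup.index_top] at hNi
        have h1 : (Nat.card G).factorization q ≠ 0 := by
          have := (hq.dvd_iff_one_le_factorization hGpos).1 hqG
          omega
        have h2 : 1 < q ^ (Nat.card G).factorization q := Nat.one_lt_pow h1 hq.one_lt
        omega
    obtain ⟨hc, -, hs⟩ := Cfsg.Agent.S0739.result hZ hab hodd hnil
    obtain ⟨⟨s, hso, hsa, hsb⟩, -, -⟩ := Cfsg.Agent.S0740.result hZ hab
    exact ⟨hc, s, hso, hsa, hsb, hs s hsa hsb⟩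

end Cfsg.Agent.S0345
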