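import Cfsg.Statements.S0435
import Mathlib
import Cfsg.Agent.Lib.SmallSimple.InvVal
import Cfsg.Agent.Lib.SmallSimple.BlockApply
import Cfsg.Agent.Lib.BR.BlockExt
import Cfsg.Agent.Lib.BR.Data
import Cfsg.Agent.Lib.BR.Fix
import Cfsg.Agent.Lib.BR.Even
import Cfsg.Agent.Lib.GS1.EqOrd

set_option autoImplicit false
open Cfsg

namespace Cfsg.Agent.S0435

open Subgroup
open Cfsg.Agent.Lib.Block (oneIrr)
open scoped ComplexConjugate

theorem sum_split {ι R : Type*} [DecidableEq ι] [AddCommMonoid R] (T : Finset ι) (deg : ι → ℕ) {p q r : ℕ}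
    (hpq : p ≠ q) (hpr : p ≠ r) (hqr : q ≠ r) (h : ∀ χ ∈ T, deg χ = p ∨ deg χ = q ∨ deg χ = r) (f : ι → R) :
    ∑ χ ∈ T, f χ = ∑ χ ∈ T.filter (fun χ => deg χ = p), f χ + ∑ χ ∈ T.filter (fun χ => deg χ = q), f χ +
      ∑ χ ∈ T.filter (fun χ => deg χ = r), f χ := by
  have h1 := Finset.sum_fiberwise_of_maps_to (s := T) (t := ({p, q, r} : Finset ℕ)) (g := deg)
    (by simpa using h) f
  rw [← h1, Finset.sum_insert (by simp [hpq, hpr]), Finset.sum_insert (by simp [hqr]),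
    Finset.sum_singleton, add_assoc]

theorem p_dvd_outside {G : Type*} [Group G] [Fintype G] {p : ℕ} [hp : Fact p.Prime] {z : G}
    {M : Ideal Cfsg.AlgInt} (hM : IsPModular p M) (hz : orderOf z = p)
    (hC : centralizer ({z} : Set G) = zpowers z) (hsyl : ¬ p ^ 2 ∣ Nat.card G)
    (χ : IrrCharacter G) (hχ : χ ∉ principalBlock M G) {d : ℕ} (hd : (χ : G → ℂ) 1 = d) : p ∣ d := by
  classical
  have h1 := Lib.BR.fx_sum χ (zpowers z)
  rw [Finset.sum_eq_single (1 : G)] at h1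
  · rw [hd, Nat.card_zpowers, hz] at h1
    exact ⟨_, by exact_mod_cast h1⟩
  · intro u hu hu1
    rw [Finset.mem_filter] at hu
    exact Lib.BR.vanish_outside hM hz hC hsyl χ hχ hu.2 hu1
  · intro h0
    simp [one_mem] at h0

theorem x11 {G : Type*} [Group G] [Fintype G] [IsSimpleGroup G] (h : Nat.card G = 7920) :
    Nat.card (Sylow 11 G) = 144 ∧ ∃ x : G, orderOf x = 11 ∧ centralizer ({x} : Set G) = zpowers x ∧
      Nat.card (normalizer ((zpowers x : Subgroup G) : Set G)) =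
        5 * Nat.card (centralizer ({x} : Set G)) := by
  classical
  have hnc : ¬ IsMulCommutative G := Lib.SmallSimple.not_comm_of_not_prime (by rw [h]; norm_num)
  haveI hf : Fact (Nat.Prime 11) := ⟨by norm_num⟩
  obtain ⟨h1, h2, h3, h4, h5⟩ := Lib.SmallSimple.sylow_facts (G := G) hnc 11 1 720
    (by rw [h]; norm_num) (by norm_num) (by norm_num)
  have hsyl : ¬ 11 ^ 2 ∣ Nat.card G := by rw [h]; norm_num
  have hn : Nat.card (Sylow 11 G) = 12 ∨ Nat.card (Sylow 11 G) = 45 ∨ Nat.card (Sylow 11 G) = 144 := by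
    have key : ∀ n, n ≤ 720 → n ∣ 720 → n % 11 = 1 → n ≠ 1 → n = 12 ∨ n = 45 ∨ n = 144 := by decide +kernel
    exact key _ (Nat.le_of_dvd (by norm_num) h1) h1 h2 h3
  obtain ⟨P⟩ : Nonempty (Sylow 11 G) := inferInstance
  obtain ⟨hP, hN⟩ := h5 P
  rw [pow_one] at hP
  obtain ⟨x, hx, hz⟩ := Lib.SmallSimple.BA.exists_gen P hP
  obtain ⟨e, he, he1, hNe⟩ := Lib.SmallSimple.BA.norm_data hnc P hP hx hz
  rw [← hz, h] at hN
  have hxC : x ∈ centralizer ({x} : Set G) := by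
    rw [mem_centralizer_singleton_iff]
  have hpd : 11 ∣ Nat.card (centralizer ({x} : Set G)) := by
    have := orderOf_dvd_natCard (⟨x, hxC⟩ : centralizer ({x} : Set G))
    rwa [Subgroup.orderOf_mk, hx] at this
  have he10 : e ∣ 10 := he
  have hee : e = 2 ∨ e = 5 ∨ e = 10 := by
    have : ∀ e, e ≤ 10 → e ∣ 10 → e ≠ 1 → e = 2 ∨ e = 5 ∨ e = 10 := by decide
    exact this e (Nat.le_of_dvd (by norm_num) he10) he10 he1
  obtain ⟨k, hk⟩ := hpd
  rcases hn with hn | hn | hn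
  · exfalso
    have hC := Lib.SmallSimple.BA.card_centralizer_of_succ (p := 11) (by rw [hn]) P hx hz hsyl
    rw [hn, hNe, hC] at hN
    rcases hee with rfl | rfl | rfl <;> omega
  · exfalso
    rw [hn, hNe, hk] at hN
    have hek : e = 2 ∧ k = 8 := by
      rcases hee with rfl | rfl | rfl <;> omega
    obtain ⟨rfl, rfl⟩ := hek
    obtain ⟨d, d₀, σ, hσ, hd, hd₀, hd1, hd₀1, hc1, hc2, hrel⟩ :=
      Lib.SmallSimple.BA.two_wrapper hnc hx hsyl hNe (by norm_num) (by rw [hk]; norm_num)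
    rw [h] at hd hd₀
    have hc1' : (d : ℤ) % 11 = σ % 11 := by exact_mod_cast hc1
    have key : ∀ d, d ≤ 89 → d ∣ 7920 → 22 ≤ d →
        (d % 11 = 1 → ¬ (d + 1) ∣ 7920) ∧ (d % 11 = 10 → ¬ (d - 1) ∣ 7920) := by decide +kernel
    have hbd : ∀ m : ℕ, m ∣ 7920 → (m + 1) ∣ 7920 → m ≤ 88 := by
      intro m h6 h7
      have h8 : m * (m + 1) ∣ 7920 := Nat.Coprime.mul_dvd_of_dvd_of_dvd (by simp) h6 h7
      have h9 := Nat.le_of_dvd (by norm_num) h8
      by_contra h10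
      push Not at h10
      nlinarith
    rcases hσ with rfl | rfl
    · have h6 : d₀ = d + 1 := by omega
      subst h6
      have hk' := key d (by have := hbd d hd hd₀; omega) hd (by omega)
      exact hk'.1 (by omega) hd₀
    · have h6 : d₀ = d - 1 := by omega
      subst h6
      have hk' := key d (by
        have := hbd (d - 1) hd₀ (by rwa [show d - 1 + 1 = d by omega])
        omega) hd (by omega)
      exact hk'.2 (by omega) hd₀
  · rw [hn] at hN ⊢
    refine ⟨rfl, ?_⟩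
    have hN' := hN
    rw [hNe, hk] at hN'
    have hek : e = 5 ∧ k = 1 := by
      rcases hee with rfl | rfl | rfl <;> omega
    obtain ⟨rfl, rfl⟩ := hek
    refine ⟨x, hx, ?_, hNe⟩
    symm
    apply Subgroup.eq_of_le_of_card_ge
    · intro y hy
      obtain ⟨m, rfl⟩ := Subgroup.mem_zpowers_iff.mp hy
      rw [mem_centralizer_singleton_iff]
      exact (Commute.zpow_left (Commute.refl x) m)
    · rw [Nat.card_zpowers, hx, hk]

theorem key_arith : ∀ a ∈ Finset.range 5, ∀ b ∈ Finset.range 5, ∀ c ∈ Finset.range 5, a + b + c = 4 →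
    (1 - 10 * (a : ℤ) + 12 * (b : ℤ) + 45 * (c : ℤ)).natAbs ∣ 7920 →
    1 + 100 * a + 144 * b + 2025 * c + 2 * (1 - 10 * (a : ℤ) + 12 * (b : ℤ) + 45 * (c : ℤ)).natAbs ^ 2 ≤ 7920 →
    (a = 3 ∧ b = 0 ∧ c = 1) ∨ (a = 2 ∧ b = 2 ∧ c = 0) := by
  decide +kernel

theorem deg_ge_two {G : Type*} [Group G] [Fintype G] [IsSimpleGroup G]
    (hper : ∀ β : G →* ℂˣ, β = 1) {t : G} (ht : orderOf t = 2)
    (χ : IrrCharacter G) (hχ : χ ≠ oneIrr G) {d : ℕ} (hd : (χ : G → ℂ) 1 = d) : 2 ≤ d := by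
  have ht2 : t ^ 2 = 1 := by rw [← ht]; exact pow_orderOf_eq_one t
  have ht1 : t ≠ 1 := by
    rintro rfl
    simp at ht
  obtain ⟨a, d', hd', ha, hev, hle⟩ := Lib.SmallSimple.BB.exists_even_of_involution
    (Lib.Char.IsIrrCharacter.isCharacter χ.2) hper ht2
  have hdd : d' = d := by
    rw [hd] at hd'
    exact_mod_cast hd'.symm
  subst hdd
  have hne := Lib.SmallSimple.BB.ne_of_involution χ hχ ht1
  have ha0 : a ≠ 0 := by
    rintro rfl
    apply hne
    have : (χ : G → ℂ) 1 - (χ : G → ℂ) t = 0 := by simpa using ha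
    exact (sub_eq_zero.mp this).symm
  obtain ⟨b, rfl⟩ := hev
  omega

set_option maxHeartbeats 1000000 in
theorem block11 {G : Type*} [Group G] [Fintype G] [IsSimpleGroup G] (h : Nat.card G = 7920) :
    ∃ (deg : IrrCharacter G → ℕ) (A B C D θ₁ θ₂ : IrrCharacter G),
      (∀ χ : IrrCharacter G, (χ : G → ℂ) 1 = deg χ ∧ deg χ ≠ 0 ∧ deg χ ∣ 7920) ∧
      (∀ χ : IrrCharacter G, χ = oneIrr G ∨ χ = A ∨ χ = B ∨ χ = C ∨ χ = D ∨ χ = θ₁ ∨ χ = θ₂ ∨ 11 ∣ deg χ) ∧
      θ₁ ≠ θ₂ ∧ A ≠ B ∧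
      ((deg A = 10 ∧ deg B = 10 ∧ deg C = 10 ∧ deg D = 45 ∧ deg θ₁ = 16 ∧ deg θ₂ = 16 ∧ A ≠ C ∧ B ≠ C ∧
        ∀ g : G, ¬ 11 ∣ orderOf g →
          (θ₁ : G → ℂ) g = 1 - (A : G → ℂ) g - (B : G → ℂ) g - (C : G → ℂ) g + (D : G → ℂ) g ∧
          (θ₂ : G → ℂ) g = (θ₁ : G → ℂ) g) ∨
       (deg A = 10 ∧ deg B = 10 ∧ deg C = 12 ∧ deg D = 12 ∧ deg θ₁ = 5 ∧ deg θ₂ = 5 ∧ C ≠ D)) := by
  classical
  obtain ⟨-, x, hx, hCx, hNx⟩ := x11 h
  have hnc : ¬ IsMulCommutative G := Lib.SmallSimple.not_comm_of_not_prime (by rw [h]; norm_num)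
  haveI hf : Fact (Nat.Prime 11) := ⟨by norm_num⟩
  have hp : Nat.Prime 11 := hf.out
  have hsyl : ¬ 11 ^ 2 ∣ Nat.card G := by rw [h]; norm_num
  haveI hf2 : Fact (Nat.Prime 2) := ⟨by norm_num⟩
  obtain ⟨t₀, ht₀⟩ := exists_prime_orderOf_dvd_card' (G := G) 2 (by rw [h]; norm_num)
  obtain ⟨M, hM⟩ := Lib.Char.exists_isPModular 11 hp
  obtain ⟨X, Y, δ, ε, deg, hdeg, hB, hdisj, hXc, hYc, he0, hXd, hε, hYd, hYY, hYrel, -⟩ :=
    Lib.BR.block_ext hM hx hsyl 5 hNx
  have hper := Lib.SmallSimple.BA.perfect_of_simple hnc (G := G)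
  haveI hMp : M.IsPrime := hM.2.1.isPrime
  have hone : oneIrr G ∈ principalBlock M G := Lib.Block.mem_blockOf_self (oneIrr G)
  have hone1 : deg (oneIrr G) = 1 := by
    have h0 := (hdeg (oneIrr G)).1
    have h6 : (((oneIrr G : IrrCharacter G) : G → ℂ) 1) = 1 := rfl
    rw [h6] at h0
    exact_mod_cast h0.symm
  have h8s : ∑ χ : IrrCharacter G, (deg χ) ^ 2 = 7920 := by
    have h6 := Lib.Char.sum_degree_sq (G := G)
    have h7 : ∀ χ : IrrCharacter G, (χ : G → ℂ) 1 ^ 2 = ((deg χ ^ 2 : ℕ) : ℂ) := by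
      intro χ
      rw [(hdeg χ).1]
      push_cast
      rfl
    simp only [h7] at h6
    rw [← h]
    exact_mod_cast h6
  have hdegsq : ∀ χ : IrrCharacter G, deg χ ≤ 88 := by
    intro χ
    have h9 := Finset.single_le_sum (f := fun χ : IrrCharacter G => (deg χ) ^ 2)
      (fun χ _ => Nat.zero_le _) (Finset.mem_univ χ)
    rw [h8s] at h9
    by_contra hlt
    push Not at hlt
    have h10 : 89 ^ 2 ≤ deg χ ^ 2 := Nat.pow_le_pow_left hlt 2
    norm_num at h10
    omega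
  have hdvdG : ∀ θ : IrrCharacter G, deg θ ∣ 7920 := fun θ => h ▸ (hdeg θ).2.2
  have hI : (centralizer ({x} : Set G)).index = 720 := by
    have h6 := index_mul_card (centralizer ({x} : Set G))
    rw [hCx, Nat.card_zpowers, hx, h] at h6
    rw [hCx]
    omega
  have hx1 : x ≠ 1 := by
    rintro rfl
    rw [orderOf_one] at hx
    omega
  have h1X : oneIrr G ∈ X := by
    rcases (hB _).mp hone with h6 | h6
    · exact h6
    · exfalso
      have h7 := hYd _ h6
      rw [hone1] at h7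
      have h8 : ((1 : ℕ) : ℤ) % 11 = (ε * ((5 : ℕ) : ℤ)) % 11 := h7
      rcases hε with rfl | rfl <;> omega
  have hδ1 : δ (oneIrr G) = 1 := by
    have h6 := (hXd _ h1X).2.2 x (mem_zpowers x) hx1
    have h7 : (((oneIrr G : IrrCharacter G) : G → ℂ) x) = 1 := rfl
    rw [h7] at h6
    exact_mod_cast h6.symm
  -- the non-exceptional degrees
  have hT : ∀ χ ∈ X.erase (oneIrr G), (deg χ = 10 ∧ δ χ = -1) ∨ (deg χ = 12 ∧ δ χ = 1) ∨ (deg χ = 45 ∧ δ χ = 1) := by
    intro χ hχ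
    obtain ⟨h8, h9⟩ := Finset.mem_erase.mp hχ
    obtain ⟨h6, h7, h10⟩ := hXd χ h9
    have h11 := h10 x (mem_zpowers x) hx1
    have h12 := Lib.SmallSimple.BB.deg_dvd_of_value χ (hdeg χ).1 (hdeg χ).2.1 x (v := 1) (by
      rcases h6 with h6 | h6
      · left
        rw [h11, h6]
        simp
      · right
        rw [h11, h6]
        simp)
    rw [hI, mul_one] at h12
    have h13 := deg_ge_two hper ht₀ χ h8 (hdeg χ).1
    have key : ∀ d, d ≤ 88 → 2 ≤ d → d ∣ 720 → (d % 11 = 1 ∨ d % 11 = 10) → d = 10 ∨ d = 12 ∨ d = 45 := by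
      decide +kernel
    have h14 : (deg χ : ℤ) % 11 = δ χ % 11 := h7
    have h15 : deg χ % 11 = 1 ∨ deg χ % 11 = 10 := by
      rcases h6 with h6 | h6 <;> rw [h6] at h14 <;> omega
    rcases key _ (hdegsq χ) h13 h12 h15 with h16 | h16 | h16
    · left
      refine ⟨h16, ?_⟩
      rw [h16] at h14
      rcases h6 with h6 | h6
      · rw [h6] at h14
        omega
      · exact h6
    · right; left
      refine ⟨h16, ?_⟩
      rw [h16] at h14
      rcases h6 with h6 | h6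
      · exact h6
      · rw [h6] at h14
        omega
    · right; right
      refine ⟨h16, ?_⟩
      rw [h16] at h14
      rcases h6 with h6 | h6
      · exact h6
      · rw [h6] at h14
        omega
  set T := X.erase (oneIrr G) with hTdef
  have hT' : ∀ χ ∈ T, deg χ = 10 ∨ deg χ = 12 ∨ deg χ = 45 := by
    intro χ hχ
    rcases hT χ hχ with h6 | h6 | h6
    · exact Or.inl h6.1
    · exact Or.inr (Or.inl h6.1)
    · exact Or.inr (Or.inr h6.1)
  set T10 := T.filter (fun χ => deg χ = 10) with hT10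
  set T12 := T.filter (fun χ => deg χ = 12) with hT12
  set T45 := T.filter (fun χ => deg χ = 45) with hT45
  have hsplit : ∀ {R : Type} [AddCommMonoid R] (f : IrrCharacter G → R),
      ∑ χ ∈ T, f χ = ∑ χ ∈ T10, f χ + ∑ χ ∈ T12, f χ + ∑ χ ∈ T45, f χ := by
    intro R _ f
    exact sum_split T deg (by norm_num) (by norm_num) (by norm_num) hT' f
  have hδ10 : ∀ χ ∈ T10, δ χ = -1 := by
    intro χ hχ
    obtain ⟨h6, h7⟩ := Finset.mem_filter.mp hχ
    rcases hT χ h6 with h8 | h8 | h8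
    · exact h8.2
    · omega
    · omega
  have hδ12 : ∀ χ ∈ T12, δ χ = 1 := by
    intro χ hχ
    obtain ⟨h6, h7⟩ := Finset.mem_filter.mp hχ
    rcases hT χ h6 with h8 | h8 | h8
    · omega
    · exact h8.2
    · omega
  have hδ45 : ∀ χ ∈ T45, δ χ = 1 := by
    intro χ hχ
    obtain ⟨h6, h7⟩ := Finset.mem_filter.mp hχ
    rcases hT χ h6 with h8 | h8 | h8
    · omega
    · omega
    · exact h8.2
  have hsum : ∀ f : IrrCharacter G → ℂ, ∑ χ ∈ X, (δ χ : ℂ) * f χ =
      f (oneIrr G) - ∑ χ ∈ T10, f χ + ∑ χ ∈ T12, f χ + ∑ χ ∈ T45, f χ := by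
    intro f
    rw [← Finset.add_sum_erase X _ h1X, hδ1, hsplit]
    have e1 : ∑ χ ∈ T10, (δ χ : ℂ) * f χ = - ∑ χ ∈ T10, f χ := by
      rw [← Finset.sum_neg_distrib]
      refine Finset.sum_congr rfl fun χ hχ => ?_
      rw [hδ10 χ hχ]
      push_cast
      ring
    have e2 : ∑ χ ∈ T12, (δ χ : ℂ) * f χ = ∑ χ ∈ T12, f χ := by
      refine Finset.sum_congr rfl fun χ hχ => ?_
      rw [hδ12 χ hχ]
      push_cast
      ring
    have e3 : ∑ χ ∈ T45, (δ χ : ℂ) * f χ = ∑ χ ∈ T45, f χ := by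
      refine Finset.sum_congr rfl fun χ hχ => ?_
      rw [hδ45 χ hχ]
      push_cast
      ring
    rw [e1, e2, e3]
    push_cast
    ring
  have hcard : T10.card + T12.card + T45.card = 4 := by
    have h6 : T.card = 4 := by
      rw [hTdef, Finset.card_erase_of_mem h1X, hXc]
    rw [← h6, Finset.card_eq_sum_ones T, hsplit, ← Finset.card_eq_sum_ones, ← Finset.card_eq_sum_ones,
      ← Finset.card_eq_sum_ones]
  have hY2 : Y.card = 2 := by omega
  have hdegval : ∀ (S : Finset (IrrCharacter G)) (d : ℕ), (∀ χ ∈ S, deg χ = d) →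
      ∑ χ ∈ S, (χ : G → ℂ) 1 = (S.card : ℂ) * (d : ℂ) := by
    intro S d hS
    rw [Finset.sum_congr rfl (g := fun _ => (d : ℂ)), Finset.sum_const, nsmul_eq_mul]
    intro χ hχ
    rw [(hdeg χ).1, hS χ hχ]
  have hrel : ∀ θ ∈ Y, ε * (deg θ : ℤ) =
      1 - 10 * (T10.card : ℤ) + 12 * (T12.card : ℤ) + 45 * (T45.card : ℤ) := by
    intro θ hθ
    have h6 := hYrel θ hθ 1 (by
      rw [orderOf_one]
      norm_num)
    rw [(hdeg θ).1, hsum (fun χ => (χ : G → ℂ) 1), hdegval T10 10 (fun χ hχ => (Finset.mem_filter.mp hχ).2),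
      hdegval T12 12 (fun χ hχ => (Finset.mem_filter.mp hχ).2),
      hdegval T45 45 (fun χ hχ => (Finset.mem_filter.mp hχ).2)] at h6
    have h7 : (((oneIrr G : IrrCharacter G) : G → ℂ) 1) = 1 := rfl
    rw [h7] at h6
    push_cast at h6
    have h8 : ((ε * (deg θ : ℤ) : ℤ) : ℂ) =
        ((1 - 10 * (T10.card : ℤ) + 12 * (T12.card : ℤ) + 45 * (T45.card : ℤ) : ℤ) : ℂ) := by
      push_cast
      rw [h6]
      ring
    exact_mod_cast h8
  have hYne : Y.Nonempty := by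
    rw [← Finset.card_pos]
    omega
  obtain ⟨θ₀, hθ₀⟩ := hYne
  have hna : (1 - 10 * (T10.card : ℤ) + 12 * (T12.card : ℤ) + 45 * (T45.card : ℤ)).natAbs = deg θ₀ := by
    rw [← hrel θ₀ hθ₀, Int.natAbs_mul]
    rcases hε with rfl | rfl <;> simp
  have hYdeg : ∀ θ ∈ Y, deg θ = deg θ₀ := by
    intro θ hθ
    have h6 := hrel θ hθ
    rw [← hrel θ₀ hθ₀] at h6
    rcases hε with rfl | rfl <;> omega
  have hsqbd : 1 + 100 * T10.card + 144 * T12.card + 2025 * T45.card + 2 * (deg θ₀) ^ 2 ≤ 7920 := by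
    have h6 : ∑ χ ∈ X ∪ Y, (deg χ) ^ 2 ≤ 7920 := by
      rw [← h8s]
      exact Finset.sum_le_sum_of_subset (Finset.subset_univ _)
    rw [Finset.sum_union hdisj, ← Finset.add_sum_erase X _ h1X, hsplit, hone1] at h6
    have e1 : ∑ χ ∈ T10, (deg χ) ^ 2 = 100 * T10.card := by
      rw [Finset.sum_congr rfl (g := fun _ => 100), Finset.sum_const, smul_eq_mul, mul_comm]
      intro χ hχ
      rw [(Finset.mem_filter.mp hχ).2]
      norm_num
    have e2 : ∑ χ ∈ T12, (deg χ) ^ 2 = 144 * T12.card := by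
      rw [Finset.sum_congr rfl (g := fun _ => 144), Finset.sum_const, smul_eq_mul, mul_comm]
      intro χ hχ
      rw [(Finset.mem_filter.mp hχ).2]
      norm_num
    have e3 : ∑ χ ∈ T45, (deg χ) ^ 2 = 2025 * T45.card := by
      rw [Finset.sum_congr rfl (g := fun _ => 2025), Finset.sum_const, smul_eq_mul, mul_comm]
      intro χ hχ
      rw [(Finset.mem_filter.mp hχ).2]
      norm_num
    have e4 : ∑ χ ∈ Y, (deg χ) ^ 2 = 2 * (deg θ₀) ^ 2 := by
      rw [Finset.sum_congr rfl (g := fun _ => (deg θ₀) ^ 2), Finset.sum_const, smul_eq_mul, hY2]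
      intro χ hχ
      rw [hYdeg χ hχ]
    rw [e1, e2, e3, e4] at h6
    simp only [one_pow] at h6
    omega
  have hkey := key_arith T10.card (Finset.mem_range.mpr (by omega)) T12.card (Finset.mem_range.mpr (by omega))
    T45.card (Finset.mem_range.mpr (by omega)) hcard (by rw [hna]; exact hdvdG θ₀) (by rw [hna]; exact hsqbd)
  obtain ⟨θ₁, θ₂, hθ₁₂, hYe⟩ := Finset.card_eq_two.mp hY2
  have hLall : ∀ χ : IrrCharacter G, χ = oneIrr G ∨ χ ∈ T10 ∨ χ ∈ T12 ∨ χ ∈ T45 ∨ χ = θ₁ ∨ χ = θ₂ ∨ 11 ∣ deg χ := by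
    intro χ
    by_cases hχ : χ ∈ principalBlock M G
    · rcases (hB χ).mp hχ with h6 | h6
      · by_cases h7 : χ = oneIrr G
        · exact Or.inl h7
        · have h8 : χ ∈ T := Finset.mem_erase.mpr ⟨h7, h6⟩
          rcases hT' χ h8 with h9 | h9 | h9
          · exact Or.inr (Or.inl (Finset.mem_filter.mpr ⟨h8, h9⟩))
          · exact Or.inr (Or.inr (Or.inl (Finset.mem_filter.mpr ⟨h8, h9⟩)))
          · exact Or.inr (Or.inr (Or.inr (Or.inl (Finset.mem_filter.mpr ⟨h8, h9⟩))))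
      · rw [hYe] at h6
        simp only [Finset.mem_insert, Finset.mem_singleton] at h6
        rcases h6 with h6 | h6
        · exact Or.inr (Or.inr (Or.inr (Or.inr (Or.inl h6))))
        · exact Or.inr (Or.inr (Or.inr (Or.inr (Or.inr (Or.inl h6)))))
    · exact Or.inr (Or.inr (Or.inr (Or.inr (Or.inr (Or.inr
        (p_dvd_outside hM hx hCx hsyl χ hχ (hdeg χ).1))))))
  have hθ₁Y : θ₁ ∈ Y := by rw [hYe]; simp
  have hθ₂Y : θ₂ ∈ Y := by rw [hYe]; simp
  rcases hkey with ⟨ha, hb, hc⟩ | ⟨ha, hb, hc⟩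
  · -- degrees 10, 10, 10, 45 and 16, 16
    obtain ⟨A, B, C, hAB, hAC, hBC, hT10e⟩ := Finset.card_eq_three.mp ha
    obtain ⟨D, hT45e⟩ := Finset.card_eq_one.mp hc
    have hT12e : T12 = ∅ := Finset.card_eq_zero.mp hb
    have hAd : deg A = 10 := (Finset.mem_filter.mp (show A ∈ T10 by rw [hT10e]; simp)).2
    have hBd : deg B = 10 := (Finset.mem_filter.mp (show B ∈ T10 by rw [hT10e]; simp)).2
    have hCd : deg C = 10 := (Finset.mem_filter.mp (show C ∈ T10 by rw [hT10e]; simp)).2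
    have hDd : deg D = 45 := (Finset.mem_filter.mp (show D ∈ T45 by rw [hT45e]; simp)).2
    have hε1 : ∀ θ ∈ Y, ε * (deg θ : ℤ) = 16 := by
      intro θ hθ
      rw [hrel θ hθ, ha, hb, hc]
      norm_num
    have hε' : ε = 1 ∧ ∀ θ ∈ Y, deg θ = 16 := by
      have h6 := hε1 θ₀ hθ₀
      have h7 : ε = 1 := by
        rcases hε with rfl | rfl
        · rfl
        · omega
      subst h7
      refine ⟨rfl, fun θ hθ => ?_⟩
      have h8 := hε1 θ hθ
      omega
    obtain ⟨rfl, hY16⟩ := hε'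
    refine ⟨deg, A, B, C, D, θ₁, θ₂, fun χ => ⟨(hdeg χ).1, (hdeg χ).2.1, hdvdG χ⟩, ?_, hθ₁₂, hAB, Or.inl ⟨hAd, hBd, hCd, hDd,
      hY16 _ hθ₁Y, hY16 _ hθ₂Y, hAC, hBC, ?_⟩⟩
    · intro χ
      rcases hLall χ with h6 | h6 | h6 | h6 | h6 | h6 | h6
      · exact Or.inl h6
      · rw [hT10e] at h6
        simp only [Finset.mem_insert, Finset.mem_singleton] at h6
        rcases h6 with h6 | h6 | h6
        · exact Or.inr (Or.inl h6)
        · exact Or.inr (Or.inr (Or.inl h6))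
        · exact Or.inr (Or.inr (Or.inr (Or.inl h6)))
      · rw [hT12e] at h6
        simp at h6
      · rw [hT45e] at h6
        simp only [Finset.mem_singleton] at h6
        exact Or.inr (Or.inr (Or.inr (Or.inr (Or.inl h6))))
      · exact Or.inr (Or.inr (Or.inr (Or.inr (Or.inr (Or.inl h6)))))
      · exact Or.inr (Or.inr (Or.inr (Or.inr (Or.inr (Or.inr (Or.inl h6))))))
      · exact Or.inr (Or.inr (Or.inr (Or.inr (Or.inr (Or.inr (Or.inr h6))))))
    · intro g hg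
      have h6 := hYrel θ₁ hθ₁Y g hg
      rw [hsum (fun χ => (χ : G → ℂ) g), hT10e, hT12e, hT45e, Finset.sum_insert (by simp [hAB, hAC]),
        Finset.sum_insert (by simp [hBC]), Finset.sum_singleton, Finset.sum_singleton, Finset.sum_empty] at h6
      have h7 : (((oneIrr G : IrrCharacter G) : G → ℂ) g) = 1 := rfl
      rw [h7] at h6
      have h8 : ((1 : ℤ) : ℂ) = 1 := by norm_num
      rw [h8, one_mul] at h6
      refine ⟨?_, hYY θ₂ hθ₂Y θ₁ hθ₁Y g hg⟩
      rw [h6]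
      ring
  · -- degrees 10, 10, 12, 12 and 5, 5
    obtain ⟨A, B, hAB, hT10e⟩ := Finset.card_eq_two.mp ha
    obtain ⟨C, D, hCD, hT12e⟩ := Finset.card_eq_two.mp hb
    have hT45e : T45 = ∅ := Finset.card_eq_zero.mp hc
    have hAd : deg A = 10 := (Finset.mem_filter.mp (show A ∈ T10 by rw [hT10e]; simp)).2
    have hBd : deg B = 10 := (Finset.mem_filter.mp (show B ∈ T10 by rw [hT10e]; simp)).2
    have hCd : deg C = 12 := (Finset.mem_filter.mp (show C ∈ T12 by rw [hT12e]; simp)).2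
    have hDd : deg D = 12 := (Finset.mem_filter.mp (show D ∈ T12 by rw [hT12e]; simp)).2
    have hY5 : ∀ θ ∈ Y, deg θ = 5 := by
      intro θ hθ
      have h6 := hrel θ hθ
      rw [ha, hb, hc] at h6
      rcases hε with rfl | rfl <;> omega
    refine ⟨deg, A, B, C, D, θ₁, θ₂, fun χ => ⟨(hdeg χ).1, (hdeg χ).2.1, hdvdG χ⟩, ?_, hθ₁₂, hAB, Or.inr ⟨hAd, hBd, hCd, hDd,
      hY5 _ hθ₁Y, hY5 _ hθ₂Y, hCD⟩⟩
    intro χ
    rcases hLall χ with h6 | h6 | h6 | h6 | h6 | h6 | h6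
    · exact Or.inl h6
    · rw [hT10e] at h6
      simp only [Finset.mem_insert, Finset.mem_singleton] at h6
      rcases h6 with h6 | h6
      · exact Or.inr (Or.inl h6)
      · exact Or.inr (Or.inr (Or.inl h6))
    · rw [hT12e] at h6
      simp only [Finset.mem_insert, Finset.mem_singleton] at h6
      rcases h6 with h6 | h6
      · exact Or.inr (Or.inr (Or.inr (Or.inl h6)))
      · exact Or.inr (Or.inr (Or.inr (Or.inr (Or.inl h6))))
    · rw [hT45e] at h6
      simp at h6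
    · exact Or.inr (Or.inr (Or.inr (Or.inr (Or.inr (Or.inl h6)))))
    · exact Or.inr (Or.inr (Or.inr (Or.inr (Or.inr (Or.inr (Or.inl h6))))))
    · exact Or.inr (Or.inr (Or.inr (Or.inr (Or.inr (Or.inr (Or.inr h6))))))

theorem key5 : ∀ k ∈ Finset.range 1585, k ∣ 1584 → k % 2 ≠ 0 → k % 11 ≠ 0 →
    (1584 / (2 * k)) % 5 ≠ 1 ∧ ((1584 / (4 * k)) % 5 = 1 → k = 1) := by decide +kernel

theorem z5 {G : Type*} [Group G] [Fintype G] [IsSimpleGroup G] (h : Nat.card G = 7920) :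
    ∃ (z : G) (e : ℕ), orderOf z = 5 ∧ (e = 2 ∨ e = 4) ∧
      Nat.card (normalizer ((zpowers z : Subgroup G) : Set G)) = e * Nat.card (centralizer ({z} : Set G)) ∧
      ((∃ t : G, orderOf t = 2 ∧ t ∈ centralizer ({z} : Set G)) ∨
        (e = 4 ∧ centralizer ({z} : Set G) = zpowers z)) := by
  classical
  have hnc : ¬ IsMulCommutative G := Lib.SmallSimple.not_comm_of_not_prime (by rw [h]; norm_num)
  haveI hf5 : Fact (Nat.Prime 5) := ⟨by norm_num⟩
  haveI hf11 : Fact (Nat.Prime 11) := ⟨by norm_num⟩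
  haveI hf2 : Fact (Nat.Prime 2) := ⟨by norm_num⟩
  obtain ⟨hn11, -⟩ := x11 h
  obtain ⟨h1, h2, h3, h4, h5⟩ := Lib.SmallSimple.sylow_facts (G := G) hnc 5 1 1584
    (by rw [h]; norm_num) (by norm_num) (by norm_num)
  obtain ⟨P⟩ : Nonempty (Sylow 5 G) := inferInstance
  obtain ⟨hP, hN⟩ := h5 P
  rw [pow_one] at hP
  obtain ⟨z, hz, hzP⟩ := Lib.SmallSimple.BA.exists_gen P hP
  obtain ⟨e, he, he1, hNe⟩ := Lib.SmallSimple.BA.norm_data hnc P hP hz hzP
  rw [← hzP, h] at hN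
  have hzC : z ∈ centralizer ({z} : Set G) := by
    rw [mem_centralizer_singleton_iff]
  have h5C : 5 ∣ Nat.card (centralizer ({z} : Set G)) := by
    have := orderOf_dvd_natCard (⟨z, hzC⟩ : centralizer ({z} : Set G))
    rwa [Subgroup.orderOf_mk, hz] at this
  have he4 : e ∣ 4 := he
  have hee : e = 2 ∨ e = 4 := by
    have : ∀ e, e ≤ 4 → e ∣ 4 → e ≠ 1 → e = 2 ∨ e = 4 := by decide
    exact this e (Nat.le_of_dvd (by norm_num) he4) he4 he1
  have h11 : ¬ 11 ∣ Nat.card (centralizer ({z} : Set G)) := by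
    intro h6
    obtain ⟨y, hy⟩ := exists_prime_orderOf_dvd_card' (G := centralizer ({z} : Set G)) 11 h6
    have hy' : orderOf (y : G) = 11 := by rw [Subgroup.orderOf_coe]; exact hy
    have hpg : IsPGroup 11 (zpowers (y : G)) :=
      IsPGroup.of_card (n := 1) (by rw [Nat.card_zpowers, hy', pow_one])
    obtain ⟨Q, hQ⟩ := hpg.exists_le_sylow
    obtain ⟨-, -, -, -, h11s⟩ := Lib.SmallSimple.sylow_facts (G := G) hnc 11 1 720
      (by rw [h]; norm_num) (by norm_num) (by norm_num)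
    obtain ⟨hQc, hQN⟩ := h11s Q
    rw [pow_one] at hQc
    obtain ⟨x', hx', hzQ⟩ := Lib.SmallSimple.BA.exists_gen Q hQc
    obtain ⟨e', -, he'1, hNe'⟩ := Lib.SmallSimple.BA.norm_data hnc Q hQc hx' hzQ
    rw [← hzQ, h, hn11, hNe'] at hQN
    have hyz : (y : G) ∈ zpowers x' := by
      rw [hzQ]
      exact hQ (mem_zpowers _)
    have hy1 : (y : G) ≠ 1 := by
      intro h0
      rw [h0, orderOf_one] at hy'
      omega
    have hCe := Lib.SmallSimple.BB.centralizer_eq (by norm_num) hx' hyz hy1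
    have hzC' : z ∈ centralizer ({x'} : Set G) := by
      rw [← hCe, mem_centralizer_singleton_iff]
      exact (mem_centralizer_singleton_iff.mp y.2).symm
    have hxC' : x' ∈ centralizer ({x'} : Set G) := by
      rw [mem_centralizer_singleton_iff]
    have d5 : 5 ∣ Nat.card (centralizer ({x'} : Set G)) := by
      have := orderOf_dvd_natCard (⟨z, hzC'⟩ : centralizer ({x'} : Set G))
      rwa [Subgroup.orderOf_mk, hz] at this
    have d11 : 11 ∣ Nat.card (centralizer ({x'} : Set G)) := by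
      have := orderOf_dvd_natCard (⟨x', hxC'⟩ : centralizer ({x'} : Set G))
      rwa [Subgroup.orderOf_mk, hx'] at this
    have d55 : 5 * 11 ∣ Nat.card (centralizer ({x'} : Set G)) :=
      Nat.Coprime.mul_dvd_of_dvd_of_dvd (by norm_num) d5 d11
    obtain ⟨m, hm⟩ := d55
    rw [hm] at hQN
    have h7 : e' * m = 1 := by
      have : 144 * (e' * (5 * 11 * m)) = 7920 * (e' * m) := by ring
      omega
    exact he'1 (Nat.dvd_one.mp ⟨m, h7.symm⟩)
  refine ⟨z, e, hz, hee, hNe, ?_⟩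
  by_cases hev : 2 ∣ Nat.card (centralizer ({z} : Set G))
  · left
    obtain ⟨t₀, ht₀⟩ := exists_prime_orderOf_dvd_card' (G := centralizer ({z} : Set G)) 2 hev
    exact ⟨t₀, by rw [Subgroup.orderOf_coe]; exact ht₀, t₀.2⟩
  · right
    obtain ⟨k, hk⟩ := h5C
    rw [hk] at hev h11
    rw [hNe, hk] at hN
    have hn' : Nat.card (Sylow 5 G) * (e * k) = 1584 := by
      have : Nat.card (Sylow 5 G) * (e * (5 * k)) = 5 * (Nat.card (Sylow 5 G) * (e * k)) := by ring
      omega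
    have hk0 : 0 < k := by
      rcases Nat.eq_zero_or_pos k with h0 | h0
      · rw [h0] at hn'
        simp at hn'
      · exact h0
    have hkd : k ∣ 1584 := ⟨Nat.card (Sylow 5 G) * e, by rw [← hn']; ring⟩
    have hk2 := key5 k (Finset.mem_range.mpr (Nat.lt_succ_of_le (Nat.le_of_dvd (by norm_num) hkd))) hkd (by omega) (by omega)
    have hq : 1584 / (e * k) = Nat.card (Sylow 5 G) :=
      Nat.div_eq_of_eq_mul_left (by rcases hee with rfl | rfl <;> omega) hn'.symm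
    rcases hee with rfl | rfl
    · exact absurd (by rw [hq]; exact h2) hk2.1
    · have hk1 := hk2.2 (by rw [hq]; exact h2)
      subst hk1
      refine ⟨rfl, ?_⟩
      symm
      apply Subgroup.eq_of_le_of_card_ge
      · intro y hy
        obtain ⟨m, rfl⟩ := Subgroup.mem_zpowers_iff.mp hy
        rw [mem_centralizer_singleton_iff]
        exact (Commute.zpow_left (Commute.refl z) m)
      · rw [Nat.card_zpowers, hz, hk]

theorem no_five {G : Type*} [Group G] [Fintype G] [IsSimpleGroup G] (h : Nat.card G = 7920) {z t : G}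
    (hz : orderOf z = 5) (ht : orderOf t = 2) (htz : t ∈ centralizer ({z} : Set G)) (θ : IrrCharacter G)
    (hθ : (θ : G → ℂ) 1 = ((5 : ℕ) : ℂ)) : False := by
  classical
  have hnc : ¬ IsMulCommutative G := Lib.SmallSimple.not_comm_of_not_prime (by rw [h]; norm_num)
  have hper := Lib.SmallSimple.BA.perfect_of_simple hnc (G := G)
  have ht2 : t ^ 2 = 1 := by rw [← ht]; exact pow_orderOf_eq_one t
  have ht1 : t ≠ 1 := by
    rintro rfl
    simp at ht
  have hθ1 : θ ≠ oneIrr G := by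
    rintro rfl
    have h6 : (((oneIrr G : IrrCharacter G) : G → ℂ) 1) = 1 := rfl
    rw [h6] at hθ
    norm_num at hθ
  obtain ⟨a, d', hd', ha, hev, hle⟩ := Lib.SmallSimple.BB.exists_even_of_involution
    (Lib.Char.IsIrrCharacter.isCharacter θ.2) hper ht2
  have hdd : d' = 5 := by
    rw [hθ] at hd'
    exact_mod_cast hd'.symm
  subst hdd
  have hne := Lib.SmallSimple.BB.ne_of_involution θ hθ1 ht1
  have ha0 : a ≠ 0 := by
    rintro rfl
    apply hne
    have : (θ : G → ℂ) 1 - (θ : G → ℂ) t = 0 := by simpa using ha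
    exact (sub_eq_zero.mp this).symm
  have hI := index_mul_card (centralizer ({t} : Set G))
  rw [h] at hI
  have hzC : z ∈ centralizer ({t} : Set G) := by
    rw [mem_centralizer_singleton_iff]
    exact (mem_centralizer_singleton_iff.mp htz).symm
  have h5C : 5 ∣ Nat.card (centralizer ({t} : Set G)) := by
    have := orderOf_dvd_natCard (⟨z, hzC⟩ : centralizer ({t} : Set G))
    rwa [Subgroup.orderOf_mk, hz] at this
  have h5I : 5 ∣ (centralizer ({t} : Set G)).index := by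
    rw [hθ] at ha
    have ha' : a = 2 ∨ a = 4 := by
      obtain ⟨b, rfl⟩ := hev
      omega
    rcases ha' with rfl | rfl
    · have hv : (θ : G → ℂ) t = ((1 : ℕ) : ℂ) := by
        push_cast at ha ⊢
        linear_combination -ha
      have h6 := Lib.SmallSimple.BB.deg_dvd_of_value θ hθ (by norm_num) t (v := 1) (Or.inl hv)
      simpa using h6
    · have hv : (θ : G → ℂ) t = -((3 : ℕ) : ℂ) := by
        push_cast at ha ⊢
        linear_combination -ha
      have h6 := Lib.SmallSimple.BB.deg_dvd_of_value θ hθ (by norm_num) t (v := 3) (Or.inr hv)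
      exact Nat.Coprime.dvd_of_dvd_mul_right (by norm_num) h6
  obtain ⟨i, hi⟩ := h5I
  obtain ⟨j, hj⟩ := h5C
  rw [hi, hj] at hI
  have : 5 * i * (5 * j) = 25 * (i * j) := by ring
  omega

set_option maxHeartbeats 1000000 in
theorem no_even_opt1 {G : Type*} [Group G] [Fintype G] [IsSimpleGroup G] (h : Nat.card G = 7920) {z t : G} {e : ℕ}
    (hz : orderOf z = 5) (he : e = 2 ∨ e = 4)
    (hNe : Nat.card (normalizer ((zpowers z : Subgroup G) : Set G)) = e * Nat.card (centralizer ({z} : Set G)))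
    (ht : orderOf t = 2) (htz : t ∈ centralizer ({z} : Set G))
    (deg : IrrCharacter G → ℕ) (A B C D θ₁ θ₂ : IrrCharacter G)
    (hdeg : ∀ χ : IrrCharacter G, (χ : G → ℂ) 1 = deg χ ∧ deg χ ≠ 0 ∧ deg χ ∣ 7920)
    (hlist : ∀ χ : IrrCharacter G, χ = oneIrr G ∨ χ = A ∨ χ = B ∨ χ = C ∨ χ = D ∨ χ = θ₁ ∨ χ = θ₂ ∨ 11 ∣ deg χ)
    (hA : deg A = 10) (hB' : deg B = 10) (hC : deg C = 10) (hD : deg D = 45) (hθ₁ : deg θ₁ = 16) (hθ₂ : deg θ₂ = 16) :
    False := by
  classical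
  have hnc : ¬ IsMulCommutative G := Lib.SmallSimple.not_comm_of_not_prime (by rw [h]; norm_num)
  have hper := Lib.SmallSimple.BA.perfect_of_simple hnc (G := G)
  haveI hf : Fact (Nat.Prime 5) := ⟨by norm_num⟩
  have hp : Nat.Prime 5 := hf.out
  have hsyl : ¬ 5 ^ 2 ∣ Nat.card G := by rw [h]; norm_num
  obtain ⟨M, hM⟩ := Lib.Char.exists_isPModular 5 hp
  obtain ⟨X, Y, δ, ε, deg', hdeg', hB, hdisj, hXc, hYc, he0, hXd, hε, hYd, hYY, hYrel, -⟩ :=
    Lib.BR.block_ext hM hz hsyl e hNe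
  have hdd : ∀ χ, deg' χ = deg χ := by
    intro χ
    have h6 := (hdeg' χ).1
    rw [(hdeg χ).1] at h6
    exact_mod_cast h6.symm
  have hz1 : z ≠ 1 := by
    rintro rfl
    rw [orderOf_one] at hz
    omega
  haveI hMp : M.IsPrime := hM.2.1.isPrime
  have hone : oneIrr G ∈ principalBlock M G := Lib.Block.mem_blockOf_self (oneIrr G)
  have hone1 : deg (oneIrr G) = 1 := by
    have h0 := (hdeg (oneIrr G)).1
    have h6 : (((oneIrr G : IrrCharacter G) : G → ℂ) 1) = 1 := rfl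
    rw [h6] at h0
    exact_mod_cast h0.symm
  have hI : (centralizer ({z} : Set G)).index ∣ 3960 := by
    have h6 := index_mul_card (centralizer ({z} : Set G))
    rw [h] at h6
    have h2C : 2 ∣ Nat.card (centralizer ({z} : Set G)) := by
      have := orderOf_dvd_natCard (⟨t, htz⟩ : centralizer ({z} : Set G))
      rwa [Subgroup.orderOf_mk, ht] at this
    obtain ⟨m, hm⟩ := h2C
    rw [hm] at h6
    refine ⟨m, ?_⟩
    have : (centralizer ({z} : Set G)).index * (2 * m) = 2 * ((centralizer ({z} : Set G)).index * m) := by ring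
    omega
  have hXdv : ∀ χ ∈ X, χ ≠ oneIrr G → 11 ∣ deg χ := by
    intro χ hχ hχ1
    obtain ⟨h6, h7, h8⟩ := hXd χ hχ
    have h9 := h8 z (mem_zpowers z) hz1
    have h10 := Lib.SmallSimple.BB.deg_dvd_of_value χ (hdeg χ).1 (hdeg χ).2.1 z (v := 1) (by
      rcases h6 with h6 | h6
      · left
        rw [h9, h6]
        simp
      · right
        rw [h9, h6]
        simp)
    rw [mul_one] at h10
    have h11 : (deg χ : ℤ) % 5 = δ χ % 5 := by
      have h12 := h7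
      rw [hdd] at h12
      exact h12
    have hmod : deg χ % 5 = 1 ∨ deg χ % 5 = 4 := by
      rcases h6 with h6 | h6 <;> rw [h6] at h11 <;> omega
    rcases hlist χ with h12 | h12 | h12 | h12 | h12 | h12 | h12 | h12
    · exact absurd h12 hχ1
    · rw [h12, hA] at hmod
      omega
    · rw [h12, hB'] at hmod
      omega
    · rw [h12, hC] at hmod
      omega
    · rw [h12, hD] at hmod
      omega
    · exfalso
      rw [h12, hθ₁] at h10
      have := h10.trans hI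
      revert this
      decide
    · exfalso
      rw [h12, hθ₂] at h10
      have := h10.trans hI
      revert this
      decide
    · exact h12
  have hrel : ∀ θ ∈ Y, ε * (deg θ : ℤ) = ∑ χ ∈ X, δ χ * (deg χ : ℤ) := by
    intro θ hθ
    have h6 := hYrel θ hθ 1 (by
      rw [orderOf_one]
      norm_num)
    rw [(hdeg θ).1] at h6
    have h7 : ∀ χ ∈ X, (δ χ : ℂ) * (χ : G → ℂ) 1 = ((δ χ * (deg χ : ℤ) : ℤ) : ℂ) := by
      intro χ _
      rw [(hdeg χ).1]
      push_cast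
      rfl
    rw [Finset.sum_congr rfl h7] at h6
    exact_mod_cast h6
  have h1X : oneIrr G ∈ X := by
    rcases (hB _).mp hone with h6 | h6
    · exact h6
    · exfalso
      have h7 := hrel _ h6
      rw [hone1] at h7
      have h8 : (11 : ℤ) ∣ ∑ χ ∈ X, δ χ * (deg χ : ℤ) := by
        apply Finset.dvd_sum
        intro χ hχ
        have h9 : χ ≠ oneIrr G := by
          rintro rfl
          exact (Finset.disjoint_left.mp hdisj hχ) h6
        obtain ⟨m, hm⟩ := hXdv χ hχ h9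
        rw [hm]
        exact ⟨δ χ * m, by push_cast; ring⟩
      rw [← h7] at h8
      rcases hε with rfl | rfl <;> omega
  have hδ1 : δ (oneIrr G) = 1 := by
    have h6 := (hXd _ h1X).2.2 z (mem_zpowers z) hz1
    have h7 : (((oneIrr G : IrrCharacter G) : G → ℂ) z) = 1 := rfl
    rw [h7] at h6
    exact_mod_cast h6.symm
  have hYc' : Y.card * e = 4 := hYc
  have hYne : Y.Nonempty := by
    rw [Finset.nonempty_iff_ne_empty]
    rintro rfl
    simp at hYc'
  obtain ⟨θ, hθ⟩ := hYne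
  have h7 := hrel θ hθ
  rw [← Finset.add_sum_erase X _ h1X, hδ1, hone1] at h7
  have h8 : (11 : ℤ) ∣ ∑ χ ∈ X.erase (oneIrr G), δ χ * (deg χ : ℤ) := by
    apply Finset.dvd_sum
    intro χ hχ
    obtain ⟨h9, h10⟩ := Finset.mem_erase.mp hχ
    obtain ⟨m, hm⟩ := hXdv χ h10 h9
    rw [hm]
    exact ⟨δ χ * m, by push_cast; ring⟩
  obtain ⟨k, hk⟩ := h8
  rw [hk] at h7
  have h9 := hYd θ hθ
  rw [hdd] at h9
  have h10 : (deg θ : ℤ) % 5 = (ε * (e : ℤ)) % 5 := h9
  have hmod : deg θ % 5 ≠ 0 := by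
    rcases hε with rfl | rfl <;> rcases he with rfl | rfl <;> omega
  rcases hlist θ with h12 | h12 | h12 | h12 | h12 | h12 | h12 | h12
  · exact (Finset.disjoint_left.mp hdisj h1X) (h12 ▸ hθ)
  · rw [h12, hA] at hmod
    omega
  · rw [h12, hB'] at hmod
    omega
  · rw [h12, hC] at hmod
    omega
  · rw [h12, hD] at hmod
    omega
  · rw [h12, hθ₁] at h7
    rcases hε with rfl | rfl <;> omega
  · rw [h12, hθ₂] at h7
    rcases hε with rfl | rfl <;> omega
  · obtain ⟨m, hm⟩ := h12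
    rw [hm] at h7
    push_cast at h7
    rcases hε with rfl | rfl <;> omega

theorem block5 {G : Type*} [Group G] [Fintype G] [IsSimpleGroup G] (h : Nat.card G = 7920) {z : G}
    (hz : orderOf z = 5)
    (hNe : Nat.card (normalizer ((zpowers z : Subgroup G) : Set G)) = 4 * Nat.card (centralizer ({z} : Set G)))
    (hCz : centralizer ({z} : Set G) = zpowers z)
    (deg : IrrCharacter G → ℕ) (hdeg : ∀ χ : IrrCharacter G, (χ : G → ℂ) 1 = deg χ) :
    ∃ (B : Finset (IrrCharacter G)) (s : IrrCharacter G → ℤ), B.card = 5 ∧ oneIrr G ∈ B ∧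
      (∀ χ, χ ∉ B → 5 ∣ deg χ) ∧
      (∀ χ ∈ B, (s χ = 1 ∨ s χ = -1) ∧ (deg χ : ℤ) % 5 = s χ % 5) ∧
      (∀ g : G, ¬ 5 ∣ orderOf g → ∑ χ ∈ B, (s χ : ℂ) * (χ : G → ℂ) g = 0) := by
  classical
  haveI hf : Fact (Nat.Prime 5) := ⟨by norm_num⟩
  have hp : Nat.Prime 5 := hf.out
  have hsyl : ¬ 5 ^ 2 ∣ Nat.card G := by rw [h]; norm_num
  obtain ⟨M, hM⟩ := Lib.Char.exists_isPModular 5 hp
  obtain ⟨X, Y, δ, ε, deg', hdeg', hB, hdisj, hXc, hYc, he0, hXd, hε, hYd, hYY, hYrel, -⟩ :=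
    Lib.BR.block_ext hM hz hsyl 4 hNe
  have hdd : ∀ χ, deg' χ = deg χ := by
    intro χ
    have h6 := (hdeg' χ).1
    rw [hdeg χ] at h6
    exact_mod_cast h6.symm
  haveI hMp : M.IsPrime := hM.2.1.isPrime
  have hone : oneIrr G ∈ principalBlock M G := Lib.Block.mem_blockOf_self (oneIrr G)
  have hY1 : Y.card = 1 := by omega
  obtain ⟨θ, hYe⟩ := Finset.card_eq_one.mp hY1
  have hθ : θ ∈ Y := by rw [hYe]; simp
  have hθX : θ ∉ X := fun h6 => (Finset.disjoint_left.mp hdisj h6) hθ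
  refine ⟨X ∪ Y, fun χ => if χ ∈ X then δ χ else -ε, ?_, ?_, ?_, ?_, ?_⟩
  · rw [Finset.card_union_of_disjoint hdisj, hXc, hY1]
  · exact Finset.mem_union.mpr ((hB _).mp hone)
  · intro χ hχ
    have h6 : χ ∉ principalBlock M G := fun h7 => hχ (Finset.mem_union.mpr ((hB χ).mp h7))
    exact p_dvd_outside hM hz hCz hsyl χ h6 (hdeg χ)
  · intro χ hχ
    rcases Finset.mem_union.mp hχ with h6 | h6
    · simp only [if_pos h6]
      obtain ⟨h7, h8, -⟩ := hXd χ h6
      rw [hdd] at h8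
      exact ⟨h7, h8⟩
    · have h7 : χ ∉ X := fun h8 => (Finset.disjoint_left.mp hdisj h8) h6
      simp only [if_neg h7]
      have h8 := hYd χ h6
      rw [hdd] at h8
      have h9 : (deg χ : ℤ) % 5 = (ε * ((4 : ℕ) : ℤ)) % 5 := h8
      refine ⟨?_, ?_⟩
      · rcases hε with rfl | rfl <;> simp
      · rcases hε with rfl | rfl <;> omega
  · intro g hg
    rw [Finset.sum_union hdisj, hYe, Finset.sum_singleton]
    have h6 := hYrel θ hθ g hg
    have h7 : ∑ χ ∈ X, (((if χ ∈ X then δ χ else -ε : ℤ) : ℤ) : ℂ) * (χ : G → ℂ) g =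
        ∑ χ ∈ X, (δ χ : ℂ) * (χ : G → ℂ) g := by
      refine Finset.sum_congr rfl fun χ hχ => ?_
      rw [if_pos hχ]
    rw [h7, ← h6]
    show (ε : ℂ) * (θ : G → ℂ) g + (((if θ ∈ X then δ θ else -ε : ℤ) : ℤ) : ℂ) * (θ : G → ℂ) g = 0
    rw [if_neg hθX]
    push_cast
    ring

theorem table {G : Type*} [Group G] [Fintype G] [IsSimpleGroup G] (h : Nat.card G = 7920) {z : G}
    (hz : orderOf z = 5)
    (hNe : Nat.card (normalizer ((zpowers z : Subgroup G) : Set G)) = 4 * Nat.card (centralizer ({z} : Set G)))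
    (hCz : centralizer ({z} : Set G) = zpowers z)
    (deg : IrrCharacter G → ℕ) (A B C D θ₁ θ₂ : IrrCharacter G)
    (hdeg : ∀ χ : IrrCharacter G, (χ : G → ℂ) 1 = deg χ ∧ deg χ ≠ 0 ∧ deg χ ∣ 7920)
    (hlist : ∀ χ : IrrCharacter G, χ = oneIrr G ∨ χ = A ∨ χ = B ∨ χ = C ∨ χ = D ∨ χ = θ₁ ∨ χ = θ₂ ∨ 11 ∣ deg χ)
    (hθ₁₂ : θ₁ ≠ θ₂) (hAB : A ≠ B) (hAC : A ≠ C) (hBC : B ≠ C)
    (hA : deg A = 10) (hB : deg B = 10) (hC : deg C = 10) (hD : deg D = 45) (hθ₁ : deg θ₁ = 16) (hθ₂ : deg θ₂ = 16) :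
    ∃ E F W : IrrCharacter G, deg E = 11 ∧ deg F = 44 ∧ deg W = 55 ∧
      (∀ {R : Type} [CommRing R] (f : IrrCharacter G → R), ∑ χ, f χ = f (oneIrr G) + f A + f B + f C + f D + f θ₁ + f θ₂ + f E + f F + f W) ∧
      (∀ g : G, ¬ 5 ∣ orderOf g → 1 + (θ₁ : G → ℂ) g + (θ₂ : G → ℂ) g + (E : G → ℂ) g - (F : G → ℂ) g = 0) := by
  classical
  have hdegc : ∀ χ : IrrCharacter G, (χ : G → ℂ) 1 = deg χ := fun χ => (hdeg χ).1
  obtain ⟨B₅, s, hc, h1B, hout, hmod, hsum⟩ := block5 h hz hNe hCz deg hdegc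
  have hone1 : deg (oneIrr G) = 1 := by
    have h0 := (hdeg (oneIrr G)).1
    have h6 : (((oneIrr G : IrrCharacter G) : G → ℂ) 1) = 1 := rfl
    rw [h6] at h0
    exact_mod_cast h0.symm
  have h8s : ∑ χ : IrrCharacter G, (deg χ) ^ 2 = 7920 := by
    have h6 := Lib.Char.sum_degree_sq (G := G)
    have h7 : ∀ χ : IrrCharacter G, (χ : G → ℂ) 1 ^ 2 = ((deg χ ^ 2 : ℕ) : ℂ) := by
      intro χ
      rw [(hdeg χ).1]
      push_cast
      rfl
    simp only [h7] at h6
    rw [← h]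
    exact_mod_cast h6
  have hdegsq : ∀ χ : IrrCharacter G, deg χ ≤ 88 := by
    intro χ
    have h9 := Finset.single_le_sum (f := fun χ : IrrCharacter G => (deg χ) ^ 2)
      (fun χ _ => Nat.zero_le _) (Finset.mem_univ χ)
    rw [h8s] at h9
    by_contra hlt
    push Not at hlt
    have h10 : 89 ^ 2 ≤ deg χ ^ 2 := Nat.pow_le_pow_left hlt 2
    norm_num at h10
    omega
  have hne : ∀ χ χ' : IrrCharacter G, deg χ ≠ deg χ' → χ ≠ χ' := fun χ χ' h6 h7 => h6 (by rw [h7])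
  have hs1 : s (oneIrr G) = 1 := by
    obtain ⟨h6, h7⟩ := hmod _ h1B
    rw [hone1] at h7
    rcases h6 with h6 | h6
    · exact h6
    · rw [h6] at h7
      omega
  have hθ₁B : θ₁ ∈ B₅ := by
    by_contra h6
    have h7 := hout _ h6
    rw [hθ₁] at h7
    omega
  have hθ₂B : θ₂ ∈ B₅ := by
    by_contra h6
    have h7 := hout _ h6
    rw [hθ₂] at h7
    omega
  have hsθ₁ : s θ₁ = 1 := by
    obtain ⟨h6, h7⟩ := hmod _ hθ₁B
    rw [hθ₁] at h7
    rcases h6 with h6 | h6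
    · exact h6
    · rw [h6] at h7
      omega
  have hsθ₂ : s θ₂ = 1 := by
    obtain ⟨h6, h7⟩ := hmod _ hθ₂B
    rw [hθ₂] at h7
    rcases h6 with h6 | h6
    · exact h6
    · rw [h6] at h7
      omega
  have n1 : oneIrr G ≠ θ₁ := hne _ _ (by rw [hone1, hθ₁]; norm_num)
  have n2 : oneIrr G ≠ θ₂ := hne _ _ (by rw [hone1, hθ₂]; norm_num)
  have hS₃ : ({oneIrr G, θ₁, θ₂} : Finset (IrrCharacter G)) ⊆ B₅ := by
    intro χ hχ
    simp only [Finset.mem_insert, Finset.mem_singleton] at hχ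
    rcases hχ with rfl | rfl | rfl
    · exact h1B
    · exact hθ₁B
    · exact hθ₂B
  have hS₃c : ({oneIrr G, θ₁, θ₂} : Finset (IrrCharacter G)).card = 3 :=
    Finset.card_eq_three.mpr ⟨_, _, _, n1, n2, hθ₁₂, rfl⟩
  have hUc : (B₅ \ {oneIrr G, θ₁, θ₂}).card = 2 := by
    have := Finset.card_sdiff_add_card_eq_card hS₃
    omega
  obtain ⟨E₀, F₀, hEF, hUe⟩ := Finset.card_eq_two.mp hUc
  have hU : ∀ u ∈ B₅ \ {oneIrr G, θ₁, θ₂}, 11 ∣ deg u := by
    intro u hu
    obtain ⟨h6, h7⟩ := Finset.mem_sdiff.mp hu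
    simp only [Finset.mem_insert, Finset.mem_singleton, not_or] at h7
    obtain ⟨h8, h9, h10⟩ := h7
    obtain ⟨h11, h12⟩ := hmod u h6
    have h13 : deg u % 5 = 1 ∨ deg u % 5 = 4 := by
      rcases h11 with h11 | h11 <;> rw [h11] at h12 <;> omega
    rcases hlist u with h14 | h14 | h14 | h14 | h14 | h14 | h14 | h14
    · exact absurd h14 h8
    · rw [h14, hA] at h13
      omega
    · rw [h14, hB] at h13
      omega
    · rw [h14, hC] at h13
      omega
    · rw [h14, hD] at h13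
      omega
    · exact absurd h14 h9
    · exact absurd h14 h10
    · exact h14
  have hmemU : ∀ u, u = E₀ ∨ u = F₀ → u ∈ B₅ \ {oneIrr G, θ₁, θ₂} := by
    intro u hu
    rw [hUe]
    simpa using hu
  have main : ∀ E F : IrrCharacter G, B₅ \ {oneIrr G, θ₁, θ₂} = {E, F} → E ≠ F → deg E = 11 → s E = 1 →
      deg F = 44 → s F = -1 →
      ∃ E F W : IrrCharacter G, deg E = 11 ∧ deg F = 44 ∧ deg W = 55 ∧
      (∀ {R : Type} [CommRing R] (f : IrrCharacter G → R), ∑ χ, f χ = f (oneIrr G) + f A + f B + f C + f D + f θ₁ + f θ₂ + f E + f F + f W) ∧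
      (∀ g : G, ¬ 5 ∣ orderOf g → 1 + (θ₁ : G → ℂ) g + (θ₂ : G → ℂ) g + (E : G → ℂ) g - (F : G → ℂ) g = 0) := by
    intro E F hUE hEF' hE hsE hF hsF
    have noA : oneIrr G ≠ A := hne _ _ (by rw [hone1, hA]; norm_num)
    have noB : oneIrr G ≠ B := hne _ _ (by rw [hone1, hB]; norm_num)
    have noC : oneIrr G ≠ C := hne _ _ (by rw [hone1, hC]; norm_num)
    have noD : oneIrr G ≠ D := hne _ _ (by rw [hone1, hD]; norm_num)
    have nox : oneIrr G ≠ θ₁ := hne _ _ (by rw [hone1, hθ₁]; norm_num)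
    have noy : oneIrr G ≠ θ₂ := hne _ _ (by rw [hone1, hθ₂]; norm_num)
    have noE : oneIrr G ≠ E := hne _ _ (by rw [hone1, hE]; norm_num)
    have noF : oneIrr G ≠ F := hne _ _ (by rw [hone1, hF]; norm_num)
    have nAB : A ≠ B := hAB
    have nAC : A ≠ C := hAC
    have nAD : A ≠ D := hne _ _ (by rw [hA, hD]; norm_num)
    have nAx : A ≠ θ₁ := hne _ _ (by rw [hA, hθ₁]; norm_num)
    have nAy : A ≠ θ₂ := hne _ _ (by rw [hA, hθ₂]; norm_num)
    have nAE : A ≠ E := hne _ _ (by rw [hA, hE]; norm_num)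
    have nAF : A ≠ F := hne _ _ (by rw [hA, hF]; norm_num)
    have nBC : B ≠ C := hBC
    have nBD : B ≠ D := hne _ _ (by rw [hB, hD]; norm_num)
    have nBx : B ≠ θ₁ := hne _ _ (by rw [hB, hθ₁]; norm_num)
    have nBy : B ≠ θ₂ := hne _ _ (by rw [hB, hθ₂]; norm_num)
    have nBE : B ≠ E := hne _ _ (by rw [hB, hE]; norm_num)
    have nBF : B ≠ F := hne _ _ (by rw [hB, hF]; norm_num)
    have nCD : C ≠ D := hne _ _ (by rw [hC, hD]; norm_num)
    have nCx : C ≠ θ₁ := hne _ _ (by rw [hC, hθ₁]; norm_num)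
    have nCy : C ≠ θ₂ := hne _ _ (by rw [hC, hθ₂]; norm_num)
    have nCE : C ≠ E := hne _ _ (by rw [hC, hE]; norm_num)
    have nCF : C ≠ F := hne _ _ (by rw [hC, hF]; norm_num)
    have nDx : D ≠ θ₁ := hne _ _ (by rw [hD, hθ₁]; norm_num)
    have nDy : D ≠ θ₂ := hne _ _ (by rw [hD, hθ₂]; norm_num)
    have nDE : D ≠ E := hne _ _ (by rw [hD, hE]; norm_num)
    have nDF : D ≠ F := hne _ _ (by rw [hD, hF]; norm_num)
    have nxy : θ₁ ≠ θ₂ := hθ₁₂
    have nxE : θ₁ ≠ E := hne _ _ (by rw [hθ₁, hE]; norm_num)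
    have nxF : θ₁ ≠ F := hne _ _ (by rw [hθ₁, hF]; norm_num)
    have nyE : θ₂ ≠ E := hne _ _ (by rw [hθ₂, hE]; norm_num)
    have nyF : θ₂ ≠ F := hne _ _ (by rw [hθ₂, hF]; norm_num)
    have nEF : E ≠ F := hne _ _ (by rw [hE, hF]; norm_num)
    have hBsum : ∀ {R : Type} [AddCommMonoid R] (f : IrrCharacter G → R), ∑ χ ∈ B₅, f χ =
        f E + f F + (f (oneIrr G) + (f θ₁ + f θ₂)) := by
      intro R _ f
      rw [← Finset.sum_sdiff hS₃, hUE, Finset.sum_pair hEF', Finset.sum_insert (by simp [n1, n2]),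
        Finset.sum_pair hθ₁₂]
    have hSsum : ∀ {R : Type} [AddCommMonoid R] (f : IrrCharacter G → R),
        ∑ χ ∈ ({oneIrr G, A, B, C, D, θ₁, θ₂, E, F} : Finset (IrrCharacter G)), f χ =
        f (oneIrr G) + (f A + (f B + (f C + (f D + (f θ₁ + (f θ₂ + (f E + f F))))))) := by
      intro R _ f
      rw [Finset.sum_insert (by simp only [Finset.mem_insert, Finset.mem_singleton, not_or]; exact ⟨noA, noB, noC, noD, nox, noy, noE, noF⟩), Finset.sum_insert (by simp only [Finset.mem_insert, Finset.mem_singleton, not_or]; exact ⟨nAB, nAC, nAD, nAx, nAy, nAE, nAF⟩), Finset.sum_insert (by simp only [Finset.mem_insert, Finset.mem_singleton, not_or]; exact ⟨nBC, nBD, nBx, nBy, nBE, nBF⟩), Finset.sum_insert (by simp only [Finset.mem_insert, Finset.mem_singleton, not_or]; exact ⟨nCD, nCx, nCy, nCE, nCF⟩), Finset.sum_insert (by simp only [Finset.mem_insert, Finset.mem_singleton, not_or]; exact ⟨nDx, nDy, nDE, nDF⟩), Finset.sum_insert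 (by simp only [Finset.mem_insert, Finset.mem_singleton, not_or]; exact ⟨nxy, nxE, nxF⟩), Finset.sum_insert (by simp only [Finset.mem_insert, Finset.mem_singleton, not_or]; exact ⟨nyE, nyF⟩), Finset.sum_pair nEF]
    have hRsum : ∑ χ ∈ Finset.univ \ ({oneIrr G, A, B, C, D, θ₁, θ₂, E, F} : Finset (IrrCharacter G)), (deg χ) ^ 2 = 3025 := by
      have h6 := Finset.sum_sdiff (f := fun χ : IrrCharacter G => (deg χ) ^ 2)
        (Finset.subset_univ ({oneIrr G, A, B, C, D, θ₁, θ₂, E, F} : Finset (IrrCharacter G)))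
      rw [h8s, hSsum] at h6
      simp only [hone1, hA, hB, hC, hD, hθ₁, hθ₂, hE, hF] at h6
      omega
    have hR55 : ∀ χ ∈ Finset.univ \ ({oneIrr G, A, B, C, D, θ₁, θ₂, E, F} : Finset (IrrCharacter G)), 55 ≤ deg χ ∧ 55 ∣ deg χ := by
      intro χ hχ
      have h6 := (Finset.mem_sdiff.mp hχ).2
      simp only [Finset.mem_insert, Finset.mem_singleton, not_or] at h6
      obtain ⟨h1, hnA, hnB, hnC, hnD, hnx, hny, hnE, hnF⟩ := h6
      have h11 : 11 ∣ deg χ := by
        rcases hlist χ with h14 | h14 | h14 | h14 | h14 | h14 | h14 | h14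
        · exact absurd h14 h1
        · exact absurd h14 hnA
        · exact absurd h14 hnB
        · exact absurd h14 hnC
        · exact absurd h14 hnD
        · exact absurd h14 hnx
        · exact absurd h14 hny
        · exact h14
      have h5 : 5 ∣ deg χ := by
        apply hout
        intro h7
        by_cases h8 : χ ∈ ({oneIrr G, θ₁, θ₂} : Finset (IrrCharacter G))
        · simp only [Finset.mem_insert, Finset.mem_singleton] at h8
          rcases h8 with h8 | h8 | h8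
          · exact h1 h8
          · exact hnx h8
          · exact hny h8
        · have h9 : χ ∈ B₅ \ {oneIrr G, θ₁, θ₂} := Finset.mem_sdiff.mpr ⟨h7, h8⟩
          rw [hUE] at h9
          simp only [Finset.mem_insert, Finset.mem_singleton] at h9
          rcases h9 with h9 | h9
          · exact hnE h9
          · exact hnF h9
      have h55 : 5 * 11 ∣ deg χ := Nat.Coprime.mul_dvd_of_dvd_of_dvd (by norm_num) h5 h11
      exact ⟨Nat.le_of_dvd (Nat.pos_of_ne_zero (hdeg χ).2.1) h55, h55⟩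
    have hRc : (Finset.univ \ ({oneIrr G, A, B, C, D, θ₁, θ₂, E, F} : Finset (IrrCharacter G))).card = 1 := by
      have h6 := Finset.card_nsmul_le_sum (Finset.univ \ ({oneIrr G, A, B, C, D, θ₁, θ₂, E, F} : Finset (IrrCharacter G)))
        (fun χ => (deg χ) ^ 2) 3025 (fun χ hχ => by
          have h7 := (hR55 χ hχ).1
          calc 3025 = 55 ^ 2 := by norm_num
            _ ≤ (deg χ) ^ 2 := Nat.pow_le_pow_left h7 2)
      rw [hRsum, smul_eq_mul] at h6
      have h7 : (Finset.univ \ ({oneIrr G, A, B, C, D, θ₁, θ₂, E, F} : Finset (IrrCharacter G))).card ≠ 0 := by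
        intro h8
        rw [Finset.card_eq_zero] at h8
        rw [h8] at hRsum
        simp at hRsum
      omega
    obtain ⟨W, hWe⟩ := Finset.card_eq_one.mp hRc
    have hW : W ∈ Finset.univ \ ({oneIrr G, A, B, C, D, θ₁, θ₂, E, F} : Finset (IrrCharacter G)) := by
      rw [hWe]
      simp
    have hWd : deg W = 55 := by
      obtain ⟨h6, m, hm⟩ := hR55 W hW
      have h7 := hdegsq W
      have hm1 : m = 1 := by omega
      rw [hm, hm1]
    refine ⟨E, F, W, hE, hF, hWd, ?_, ?_⟩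
    · intro R _ f
      have h6 := Finset.sum_sdiff (f := f)
        (Finset.subset_univ ({oneIrr G, A, B, C, D, θ₁, θ₂, E, F} : Finset (IrrCharacter G)))
      rw [hWe, Finset.sum_singleton, hSsum] at h6
      rw [← h6]
      ring
    · intro g hg
      have h6 := hsum g hg
      rw [hBsum] at h6
      rw [hs1, hsθ₁, hsθ₂, hsE, hsF] at h6
      have h7 : (((oneIrr G : IrrCharacter G) : G → ℂ) g) = 1 := rfl
      rw [h7] at h6
      push_cast at h6
      linear_combination h6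
  -- the signs
  have hval1 := hsum 1 (by
    rw [orderOf_one]
    norm_num)
  have hBsum0 : ∑ χ ∈ B₅, s χ * (deg χ : ℤ) = s E₀ * (deg E₀ : ℤ) + s F₀ * (deg F₀ : ℤ) + (s (oneIrr G) * (deg (oneIrr G) : ℤ) + (s θ₁ * (deg θ₁ : ℤ) + s θ₂ * (deg θ₂ : ℤ))) := by
    rw [← Finset.sum_sdiff hS₃, hUe, Finset.sum_pair hEF, Finset.sum_insert (by simp [n1, n2]),
      Finset.sum_pair hθ₁₂]
  have hB0 : ∑ χ ∈ B₅, s χ * (deg χ : ℤ) = 0 := by
    have h6 : ∀ χ ∈ B₅, (s χ : ℂ) * (χ : G → ℂ) 1 = ((s χ * (deg χ : ℤ) : ℤ) : ℂ) := by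
      intro χ _
      rw [(hdeg χ).1]
      push_cast
      rfl
    rw [Finset.sum_congr rfl h6] at hval1
    exact_mod_cast hval1
  rw [hBsum0, hs1, hsθ₁, hsθ₂, hone1, hθ₁, hθ₂] at hB0
  have hE0 := hmemU E₀ (Or.inl rfl)
  have hF0 := hmemU F₀ (Or.inr rfl)
  obtain ⟨hEs, hEm⟩ := hmod E₀ (Finset.mem_sdiff.mp hE0).1
  obtain ⟨hFs, hFm⟩ := hmod F₀ (Finset.mem_sdiff.mp hF0).1
  obtain ⟨m, hm⟩ := hU E₀ hE0
  obtain ⟨m', hm'⟩ := hU F₀ hF0
  have hEl := hdegsq E₀
  have hFl := hdegsq F₀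
  have hcases : (deg E₀ = 11 ∧ s E₀ = 1 ∧ deg F₀ = 44 ∧ s F₀ = -1) ∨
      (deg E₀ = 44 ∧ s E₀ = -1 ∧ deg F₀ = 11 ∧ s F₀ = 1) := by
    rw [hm] at hB0 hEm hEl ⊢
    rw [hm'] at hB0 hFm hFl ⊢
    push_cast at hB0 hEm hFm
    rcases hEs with hEs | hEs <;> rcases hFs with hFs | hFs <;> rw [hEs] at hB0 hEm ⊢ <;> rw [hFs] at hB0 hFm ⊢ <;>
      omega
  rcases hcases with ⟨h6, h7, h8, h9⟩ | ⟨h6, h7, h8, h9⟩
  · exact main E₀ F₀ hUe hEF h6 h7 h8 h9
  · exact main F₀ E₀ (by rw [hUe, Finset.pair_comm]) hEF.symm h8 h9 h6 h7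

def NN (a b c x v : ℤ) : ℤ :=
  1 + a * a + b * b + c * c + 2 * (x * x) + v * v + (1 + v + 2 * x) * (1 + v + 2 * x) +
    (x + a + b + c - 1) * (x + a + b + c - 1) + (-(a + b + c) - v - 3 * x) * (-(a + b + c) - v - 3 * x)

def II (a b c x v : ℤ) : ℤ := 7920 / NN a b c x v

abbrev PP (a b c x v : ℤ) : Prop :=
  NN a b c x v ∣ 7920 → II a b c x v ≤ 218 → (10 : ℤ) ∣ II a b c x v * a → (10 : ℤ) ∣ II a b c x v * b →
    (10 : ℤ) ∣ II a b c x v * c → (16 : ℤ) ∣ II a b c x v * x → (11 : ℤ) ∣ II a b c x v * v →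
    (44 : ℤ) ∣ II a b c x v * (1 + v + 2 * x) → (45 : ℤ) ∣ II a b c x v * (x + a + b + c - 1) →
    (55 : ℤ) ∣ II a b c x v * (-(a + b + c) - v - 3 * x) → NN a b c x v = 48

theorem search : ∀ ba ∈ Finset.range 6, ∀ bb ∈ Finset.range 6, ∀ bc ∈ Finset.range 6, ∀ bx ∈ Finset.range 9,
    ∀ bv ∈ Finset.range 6,
    PP (10 - 4 * (ba : ℤ)) (10 - 4 * (bb : ℤ)) (10 - 4 * (bc : ℤ)) (16 - 4 * (bx : ℤ)) (11 - 4 * (bv : ℤ)) := by
  decide +kernel

theorem dvd_val {G : Type*} [Group G] [Fintype G] (χ : IrrCharacter G) {d : ℕ} (hd : (χ : G → ℂ) 1 = d) (hd0 : d ≠ 0)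
    (t : G) (n : ℤ) (hn : (χ : G → ℂ) t = (n : ℂ)) :
    (d : ℤ) ∣ ((centralizer ({t} : Set G)).index : ℤ) * n := by
  have h6 := Lib.SmallSimple.BB.deg_dvd_of_value χ hd hd0 t (v := n.natAbs) (by
    rcases Int.natAbs_eq n with h7 | h7
    · left
      rw [hn]
      conv_lhs => rw [h7]
      simp
    · right
      rw [hn]
      conv_lhs => rw [h7]
      simp)
  have h7 : (d : ℤ) ∣ ((centralizer ({t} : Set G)).index : ℤ) * (n.natAbs : ℤ) := by
    exact_mod_cast h6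
  exact h7.trans (mul_dvd_mul_left _ (Int.natAbs_dvd.mpr (dvd_refl n)))

set_option maxHeartbeats 2000000 in
theorem final {G : Type*} [Group G] [Fintype G] [IsSimpleGroup G] (h : Nat.card G = 7920)
    (deg : IrrCharacter G → ℕ) (A B C D θ₁ θ₂ E F W : IrrCharacter G)
    (hdeg : ∀ χ : IrrCharacter G, (χ : G → ℂ) 1 = deg χ ∧ deg χ ≠ 0 ∧ deg χ ∣ 7920)
    (hA : deg A = 10) (hB : deg B = 10) (hC : deg C = 10) (hD : deg D = 45) (hθ₁ : deg θ₁ = 16) (hθ₂ : deg θ₂ = 16)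
    (hE : deg E = 11) (hF : deg F = 44) (hW : deg W = 55)
    (hsum : ∀ f : IrrCharacter G → ℤ, ∑ χ, f χ = f (oneIrr G) + f A + f B + f C + f D + f θ₁ + f θ₂ + f E + f F + f W)
    (hrel : ∀ g : G, ¬ 11 ∣ orderOf g →
          (θ₁ : G → ℂ) g = 1 - (A : G → ℂ) g - (B : G → ℂ) g - (C : G → ℂ) g + (D : G → ℂ) g ∧
          (θ₂ : G → ℂ) g = (θ₁ : G → ℂ) g)
    (hrel5 : ∀ g : G, ¬ 5 ∣ orderOf g → 1 + (θ₁ : G → ℂ) g + (θ₂ : G → ℂ) g + (E : G → ℂ) g - (F : G → ℂ) g = 0)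
    (t : G) (ht : orderOf t = 2) : Nat.card (centralizer ({t} : Set G)) = 48 := by
  classical
  have hnc : ¬ IsMulCommutative G := Lib.SmallSimple.not_comm_of_not_prime (by rw [h]; norm_num)
  have hper := Lib.SmallSimple.BA.perfect_of_simple hnc (G := G)
  have ht2 : t ^ 2 = 1 := by rw [← ht]; exact pow_orderOf_eq_one t
  have ht1 : t ≠ 1 := by
    rintro rfl
    simp at ht
  have hone1 : deg (oneIrr G) = 1 := by
    have h0 := (hdeg (oneIrr G)).1
    have h6 : (((oneIrr G : IrrCharacter G) : G → ℂ) 1) = 1 := rfl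
    rw [h6] at h0
    exact_mod_cast h0.symm
  have hv : ∀ χ : IrrCharacter G, ∃ b : ℕ,
      (χ : G → ℂ) t = (((deg χ : ℤ) - 4 * (b : ℤ) : ℤ) : ℂ) ∧ 2 * b ≤ deg χ := by
    intro χ
    obtain ⟨a, d', hd', ha, ⟨b, hb⟩, hle⟩ := Lib.SmallSimple.BB.exists_even_of_involution
      (Lib.Char.IsIrrCharacter.isCharacter χ.2) hper ht2
    have hdd : d' = deg χ := by
      rw [(hdeg χ).1] at hd'
      exact_mod_cast hd'.symm
    subst hdd
    refine ⟨b, ?_, by omega⟩
    rw [(hdeg χ).1] at ha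
    subst hb
    push_cast at ha ⊢
    linear_combination -ha
  choose b hbv hble using hv
  have hVd : ∃ V : IrrCharacter G → ℤ, ∀ χ, V χ = (deg χ : ℤ) - 4 * (b χ : ℤ) := ⟨_, fun _ => rfl⟩
  obtain ⟨V, hVd⟩ := hVd
  have hV : ∀ χ : IrrCharacter G, (χ : G → ℂ) t = (V χ : ℂ) := by
    intro χ
    rw [hVd, hbv]
  have o1 : ∑ χ : IrrCharacter G, V χ * V χ = (Nat.card (centralizer ({t} : Set G)) : ℤ) := by
    have h6 := Lib.Char.second_orthogonality' t t
    rw [if_pos (IsConj.refl t)] at h6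
    have h7 : ∀ χ : IrrCharacter G, (χ : G → ℂ) t * conj ((χ : G → ℂ) t) = ((V χ * V χ : ℤ) : ℂ) := by
      intro χ
      rw [hV χ, map_intCast]
      push_cast
      ring
    simp only [h7] at h6
    exact_mod_cast h6
  have o2 : ∑ χ : IrrCharacter G, V χ * (deg χ : ℤ) = 0 := by
    have h6 := Lib.Char.second_orthogonality' t 1
    rw [if_neg (by rw [isConj_one_left]; exact ht1)] at h6
    have h7 : ∀ χ : IrrCharacter G, (χ : G → ℂ) t * conj ((χ : G → ℂ) 1) = ((V χ * (deg χ : ℤ) : ℤ) : ℂ) := by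
      intro χ
      rw [hV χ, (hdeg χ).1, map_natCast]
      push_cast
      ring
    simp only [h7] at h6
    exact_mod_cast h6
  have hV1 : V (oneIrr G) = 1 := by
    have h6 := hV (oneIrr G)
    have h7 : ((oneIrr G : IrrCharacter G) : G → ℂ) t = 1 := rfl
    rw [h7] at h6
    exact_mod_cast h6.symm
  rw [hsum (fun χ => V χ * V χ)] at o1
  rw [hsum (fun χ => V χ * (deg χ : ℤ))] at o2
  have r11 := hrel t (by rw [ht]; norm_num)
  have r5 := hrel5 t (by rw [ht]; norm_num)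
  rw [hV θ₁, hV θ₂, hV A, hV B, hV C, hV D] at r11
  rw [hV θ₁, hV θ₂, hV E, hV F] at r5
  have e1 : V θ₁ = 1 - V A - V B - V C + V D := by exact_mod_cast r11.1
  have e2 : V θ₂ = V θ₁ := by exact_mod_cast r11.2
  have e3 : 1 + V θ₁ + V θ₂ + V E - V F = 0 := by exact_mod_cast r5
  simp only [hone1, hA, hB, hC, hD, hθ₁, hθ₂, hE, hF, hW, hV1] at o2
  push_cast at o2
  have eD : V D = V θ₁ + V A + V B + V C - 1 := by linarith
  have eF : V F = 1 + V E + 2 * V θ₁ := by linarith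
  have eW : V W = -(V A + V B + V C) - V E - 3 * V θ₁ := by
    rw [eD, eF, e2] at o2
    linarith
  rw [hV1, eD, eF, e2, eW] at o1
  have hN : NN (V A) (V B) (V C) (V θ₁) (V E) = (Nat.card (centralizer ({t} : Set G)) : ℤ) := by
    rw [← o1]
    unfold NN
    ring
  -- the index
  have hI := index_mul_card (centralizer ({t} : Set G))
  rw [h] at hI
  have hI' : ((centralizer ({t} : Set G)).index : ℤ) * NN (V A) (V B) (V C) (V θ₁) (V E) = 7920 := by
    rw [hN]
    exact_mod_cast hI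
  have hcpos : 0 < Nat.card (centralizer ({t} : Set G)) := Nat.card_pos
  have hII : II (V A) (V B) (V C) (V θ₁) (V E) = ((centralizer ({t} : Set G)).index : ℤ) := by
    unfold II
    rw [hN]
    apply Int.ediv_eq_of_eq_mul_left
    · exact_mod_cast hcpos.ne'
    · rw [← hN]
      exact hI'.symm
  have hFS : (centralizer ({t} : Set G)).index ≤ 218 := by
    have h6 := Lib.BR.card_sq_one_le deg (fun χ => (hdeg χ).1)
    have h7 : ((∑ χ : IrrCharacter G, deg χ : ℕ) : ℤ) = 218 := by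
      push_cast
      rw [hsum (fun χ => (deg χ : ℤ))]
      simp only [hone1, hA, hB, hC, hD, hθ₁, hθ₂, hE, hF, hW]
      norm_num
    have h8 : ∑ χ : IrrCharacter G, deg χ = 218 := by exact_mod_cast h7
    rw [h8] at h6
    rw [← Lib.GS1.ncard_conj_eq_index t]
    refine le_trans ?_ h6
    rw [← Set.ncard_coe_finset]
    apply Set.ncard_le_ncard _ (Finset.finite_toSet _)
    intro u hu
    have h9 : IsConj (u ^ 2) (t ^ 2) := IsConj.pow 2 hu
    rw [ht2, isConj_one_left] at h9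
    have h10 : u * u = 1 := by
      rw [← pow_two]
      exact h9
    simpa using h10
  -- the bounds
  have hbA := hble A
  have hbB := hble B
  have hbC := hble C
  have hbx := hble θ₁
  have hbE := hble E
  rw [hA] at hbA
  rw [hB] at hbB
  rw [hC] at hbC
  rw [hθ₁] at hbx
  rw [hE] at hbE
  have hS := search (b A) (Finset.mem_range.mpr (by omega)) (b B) (Finset.mem_range.mpr (by omega))
    (b C) (Finset.mem_range.mpr (by omega)) (b θ₁) (Finset.mem_range.mpr (by omega))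
    (b E) (Finset.mem_range.mpr (by omega))
  have hVA : V A = 10 - 4 * (b A : ℤ) := by rw [hVd, hA]; norm_num
  have hVB : V B = 10 - 4 * (b B : ℤ) := by rw [hVd, hB]; norm_num
  have hVC : V C = 10 - 4 * (b C : ℤ) := by rw [hVd, hC]; norm_num
  have hVx : V θ₁ = 16 - 4 * (b θ₁ : ℤ) := by rw [hVd, hθ₁]; norm_num
  have hVE : V E = 11 - 4 * (b E : ℤ) := by rw [hVd, hE]; norm_num
  rw [← hVA, ← hVB, ← hVC, ← hVx, ← hVE] at hS
  have hdv : ∀ (χ : IrrCharacter G) (d : ℕ), deg χ = d → (d : ℤ) ∣ ((centralizer ({t} : Set G)).index : ℤ) * V χ := by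
    intro χ d hd
    have h6 := (hdeg χ).1
    rw [hd] at h6
    exact dvd_val χ h6 (by
      have h7 := (hdeg χ).2.1
      rw [hd] at h7
      exact h7) t (V χ) (hV χ)
  have hres := hS ⟨_, hI'.symm.trans (mul_comm _ _)⟩ (by rw [hII]; exact_mod_cast hFS)
    (by rw [hII]; exact_mod_cast hdv A 10 hA) (by rw [hII]; exact_mod_cast hdv B 10 hB)
    (by rw [hII]; exact_mod_cast hdv C 10 hC) (by rw [hII]; exact_mod_cast hdv θ₁ 16 hθ₁)
    (by rw [hII]; exact_mod_cast hdv E 11 hE)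
    (by
      rw [hII]
      have h6 := hdv F 44 hF
      rw [eF] at h6
      exact_mod_cast h6)
    (by
      rw [hII]
      have h6 := hdv D 45 hD
      rw [eD] at h6
      exact_mod_cast h6)
    (by
      rw [hII]
      have h6 := hdv W 55 hW
      rw [eW] at h6
      exact_mod_cast h6)
  rw [hN] at hres
  exact_mod_cast hres

/-- Involution centralisers in a simple group of order 7920 have order 48. -/
theorem result {G : Type*} [Group G] [Finite G] (hG : Cfsg.IsM11 G) (x : G) (hx : orderOf x = 2) : Nat.card (Subgroup.centralizer ({x} : Set G)) = 48 := by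
  classical
  haveI : Fintype G := Fintype.ofFinite G
  obtain ⟨hsimple, h⟩ := hG
  haveI := hsimple
  obtain ⟨deg, A, B, C, D, θ₁, θ₂, hdeg, hlist, hθ₁₂, hAB, hopt⟩ := block11 h
  obtain ⟨z, e, hz, he, hNe, hcase⟩ := z5 h
  have hdegc : ∀ χ : IrrCharacter G, (χ : G → ℂ) 1 = deg χ := fun χ => (hdeg χ).1
  rcases hopt with ⟨hA, hB, hC, hD, hθ1, hθ2, hAC, hBC, hrel⟩ | ⟨hA, hB, hC, hD, hθ1, hθ2, hCD⟩
  · rcases hcase with ⟨t, ht, htz⟩ | ⟨rfl, hCz⟩
    · exact (no_even_opt1 h hz he hNe ht htz deg A B C D θ₁ θ₂ hdeg hlist hA hB hC hD hθ1 hθ2).elim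
    · obtain ⟨E, F, W, hE, hF, hW, hsum, hrel5⟩ :=
        table h hz hNe hCz deg A B C D θ₁ θ₂ hdeg hlist hθ₁₂ hAB hAC hBC hA hB hC hD hθ1 hθ2
      exact final h deg A B C D θ₁ θ₂ E F W hdeg hA hB hC hD hθ1 hθ2 hE hF hW (fun f => hsum f) hrel hrel5 x hx
  · rcases hcase with ⟨t, ht, htz⟩ | ⟨rfl, hCz⟩
    · exact (no_five h hz ht htz θ₁ (by rw [hdegc, hθ1])).elim
    · exfalso
      obtain ⟨B₅, s, hc, h1, hout, hmod, -⟩ := block5 h hz hNe hCz deg hdegc
      have hCB : C ∈ B₅ := by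
        by_contra h6
        have h7 := hout _ h6
        rw [hC] at h7
        omega
      obtain ⟨h6, h7⟩ := hmod C hCB
      rw [hC] at h7
      rcases h6 with h6 | h6 <;> rw [h6] at h7 <;> omega

end Cfsg.Agent.S0435
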