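import Cfsg.Statements.S0434
import Mathlib
import Cfsg.Agent.S0435
import Cfsg.Agent.Lib.Block.GroupAlg
import Cfsg.Agent.Lib.Block.Central
import Cfsg.Agent.Lib.Degree.Sums
import Cfsg.Agent.Lib.Char.Integral

set_option autoImplicit false
open Cfsg

namespace Cfsg.Agent.S0434

open Subgroup
open Cfsg.Agent.Lib.Block (oneIrr)
open Cfsg.Agent.S0435 (NN II dvd_val)
open scoped ComplexConjugate

section
open Cfsg.Agent.Lib.Block MonoidAlgebra Cfsg.Agent.Lib.Char

theorem sum_sq_div {G : Type*} [Group G] [Fintype G] {z w : G} (hz : z * z = 1) (hreal : ¬ IsConj w w⁻¹) :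
    ∑ χ : IrrCharacter G, ((χ : G → ℂ) z) ^ 2 / (χ : G → ℂ) 1 * conj ((χ : G → ℂ) w) = 0 := by
  classical
  set E : MonoidAlgebra ℂ G := classSum z * classSum z with hE
  set n : ℂ := ((Subgroup.centralizer ({z} : Set G)).index : ℂ) with hn
  have hn0 : n ≠ 0 := by
    rw [hn]
    exact_mod_cast (Subgroup.index_ne_zero_of_finite)
  have htr : ∀ χ : IrrCharacter G, tr (χ : G → ℂ) E = n ^ 2 * (((χ : G → ℂ) z) ^ 2 / (χ : G → ℂ) 1) := by
    intro χ
    have h1 := om_mul χ.2 (isCentralElt_classSum z) (classSum z)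
    have hcl := IsCharacter.isClassFunction (IsIrrCharacter.isCharacter χ.2)
    rw [om_classSum hcl] at h1
    have h2 := isIrr_one_ne_zero χ.2
    unfold om at h1
    rw [div_eq_iff h2] at h1
    rw [hE, h1]
    unfold centralChar
    field_simp
    rw [hn]
    ring
  have hcoef : ∀ g : G, E.coeff g * ∑ χ : IrrCharacter G, (χ : G → ℂ) g * conj ((χ : G → ℂ) w) = 0 := by
    intro g
    by_cases hc : IsConj g w
    · have h0 : E.coeff g = 0 := by
        by_contra hne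
        rw [hE, coeff_mul_eq] at hne
        obtain ⟨s, _, hs⟩ := Finset.exists_ne_zero_of_sum_ne_zero hne
        rw [coeff_classSum, coeff_classSum] at hs
        have hs1 : IsConj z s := by
          by_contra hcon
          rw [if_neg hcon] at hs
          simp at hs
        have hs2 : IsConj z (s⁻¹ * g) := by
          by_contra hcon
          rw [if_neg hcon] at hs
          simp at hs
        have hinv : ∀ t, IsConj z t → t * t = 1 := by
          intro t ht
          obtain ⟨c, rfl⟩ := isConj_iff.1 ht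
          calc c * z * c⁻¹ * (c * z * c⁻¹) = c * (z * z) * c⁻¹ := by group
            _ = 1 := by rw [hz]; group
        have hss := hinv s hs1
        have htt := hinv _ hs2
        have hsg : s * g * s⁻¹ = g⁻¹ := by
          have hsi : s⁻¹ = s := inv_eq_of_mul_eq_one_left hss
          have e1 : g⁻¹ = (s⁻¹ * g)⁻¹ * s⁻¹ := by group
          have hti : (s⁻¹ * g)⁻¹ = s⁻¹ * g := inv_eq_of_mul_eq_one_left htt
          rw [e1, hti, hsi]
        obtain ⟨c, hcc⟩ := isConj_iff.1 hc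
        apply hreal
        rw [isConj_iff]
        refine ⟨c * s * c⁻¹, ?_⟩
        rw [← hcc]
        have e2 : c * s * c⁻¹ * (c * g * c⁻¹) * (c * s * c⁻¹)⁻¹ = c * (s * g * s⁻¹) * c⁻¹ := by group
        rw [e2, hsg]
        group
      rw [h0, zero_mul]
    · have h5 := second_orthogonality' g w
      rw [if_neg hc] at h5
      rw [h5, mul_zero]
  have hsum : (n ^ 2) * ∑ χ : IrrCharacter G, ((χ : G → ℂ) z) ^ 2 / (χ : G → ℂ) 1 * conj ((χ : G → ℂ) w) = 0 := by
    rw [Finset.mul_sum]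
    have h1 : ∀ χ : IrrCharacter G, n ^ 2 * (((χ : G → ℂ) z) ^ 2 / (χ : G → ℂ) 1 * conj ((χ : G → ℂ) w)) =
        ∑ g : G, E.coeff g * ((χ : G → ℂ) g * conj ((χ : G → ℂ) w)) := by
      intro χ
      rw [← mul_assoc, ← htr χ, tr, Finset.sum_mul]
      refine Finset.sum_congr rfl fun g _ => ?_
      ring
    simp only [h1]
    rw [Finset.sum_comm]
    refine Finset.sum_eq_zero fun g _ => ?_
    rw [← Finset.mul_sum]
    exact hcoef g
  exact (mul_eq_zero.1 hsum).resolve_left (pow_ne_zero 2 hn0)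

end

/-- The character table data. -/
structure Tbl (G : Type*) [Group G] [Fintype G] where
  deg : IrrCharacter G → ℕ
  A : IrrCharacter G
  B : IrrCharacter G
  C : IrrCharacter G
  D : IrrCharacter G
  θ₁ : IrrCharacter G
  θ₂ : IrrCharacter G
  E : IrrCharacter G
  F : IrrCharacter G
  W : IrrCharacter G
  hdeg : ∀ χ : IrrCharacter G, (χ : G → ℂ) 1 = deg χ ∧ deg χ ≠ 0 ∧ deg χ ∣ 7920
  hA : deg A = 10
  hB : deg B = 10
  hC : deg C = 10
  hD : deg D = 45
  hθ₁ : deg θ₁ = 16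
  hθ₂ : deg θ₂ = 16
  hE : deg E = 11
  hF : deg F = 44
  hW : deg W = 55
  hsumZ : ∀ f : IrrCharacter G → ℤ, ∑ χ, f χ = f (oneIrr G) + f A + f B + f C + f D + f θ₁ + f θ₂ + f E + f F + f W
  hsumC : ∀ f : IrrCharacter G → ℂ, ∑ χ, f χ = f (oneIrr G) + f A + f B + f C + f D + f θ₁ + f θ₂ + f E + f F + f W
  hrel : ∀ g : G, ¬ 11 ∣ orderOf g →
          (θ₁ : G → ℂ) g = 1 - (A : G → ℂ) g - (B : G → ℂ) g - (C : G → ℂ) g + (D : G → ℂ) g ∧
          (θ₂ : G → ℂ) g = (θ₁ : G → ℂ) g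
  hrel5 : ∀ g : G, ¬ 5 ∣ orderOf g → 1 + (θ₁ : G → ℂ) g + (θ₂ : G → ℂ) g + (E : G → ℂ) g - (F : G → ℂ) g = 0

theorem exists_tbl {G : Type*} [Group G] [Fintype G] [IsSimpleGroup G] (h : Nat.card G = 7920) : Nonempty (Tbl G) := by
  classical
  obtain ⟨deg, A, B, C, D, θ₁, θ₂, hdeg, hlist, hθ₁₂, hAB, hopt⟩ := Cfsg.Agent.S0435.block11 h
  obtain ⟨z, e, hz, he, hNe, hcase⟩ := Cfsg.Agent.S0435.z5 h
  have hdegc : ∀ χ : IrrCharacter G, (χ : G → ℂ) 1 = deg χ := fun χ => (hdeg χ).1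
  rcases hopt with ⟨hA, hB, hC, hD, hθ1, hθ2, hAC, hBC, hrel⟩ | ⟨hA, hB, hC, hD, hθ1, hθ2, hCD⟩
  · rcases hcase with ⟨t, ht, htz⟩ | ⟨rfl, hCz⟩
    · exact (Cfsg.Agent.S0435.no_even_opt1 h hz he hNe ht htz deg A B C D θ₁ θ₂ hdeg hlist hA hB hC hD hθ1 hθ2).elim
    · obtain ⟨E, F, W, hE, hF, hW, hsum, hrel5⟩ :=
        Cfsg.Agent.S0435.table h hz hNe hCz deg A B C D θ₁ θ₂ hdeg hlist hθ₁₂ hAB hAC hBC hA hB hC hD hθ1 hθ2
      exact ⟨⟨deg, A, B, C, D, θ₁, θ₂, E, F, W, hdeg, hA, hB, hC, hD, hθ1, hθ2, hE, hF, hW,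
        fun f => hsum f, fun f => hsum f, hrel, hrel5⟩⟩
  · rcases hcase with ⟨t, ht, htz⟩ | ⟨rfl, hCz⟩
    · exact (Cfsg.Agent.S0435.no_five h hz ht htz θ₁ (by rw [hdegc, hθ1])).elim
    · exfalso
      obtain ⟨B₅, s, hc, h1, hout, hmod, -⟩ := Cfsg.Agent.S0435.block5 h hz hNe hCz deg hdegc
      have hCB : C ∈ B₅ := by
        by_contra h6
        have h7 := hout _ h6
        rw [hC] at h7
        omega
      obtain ⟨h6, h7⟩ := hmod C hCB
      rw [hC] at h7
      rcases h6 with h6 | h6 <;> rw [h6] at h7 <;> omega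

abbrev PT (a b c x v : ℤ) : Prop :=
  NN a b c x v ∣ 7920 → II a b c x v ≤ 218 → (10 : ℤ) ∣ II a b c x v * a → (10 : ℤ) ∣ II a b c x v * b →
    (10 : ℤ) ∣ II a b c x v * c → (16 : ℤ) ∣ II a b c x v * x → (11 : ℤ) ∣ II a b c x v * v →
    (44 : ℤ) ∣ II a b c x v * (1 + v + 2 * x) → (45 : ℤ) ∣ II a b c x v * (x + a + b + c - 1) →
    (55 : ℤ) ∣ II a b c x v * (-(a + b + c) - v - 3 * x) →
    a * a = 4 ∧ b * b = 4 ∧ c * c = 4 ∧ a + b + c = -2 ∧ x = 0 ∧ v = 3

theorem search_t : ∀ ba ∈ Finset.range 6, ∀ bb ∈ Finset.range 6, ∀ bc ∈ Finset.range 6, ∀ bx ∈ Finset.range 9,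
    ∀ bv ∈ Finset.range 6,
    PT (10 - 4 * (ba : ℤ)) (10 - 4 * (bb : ℤ)) (10 - 4 * (bc : ℤ)) (16 - 4 * (bx : ℤ)) (11 - 4 * (bv : ℤ)) := by
  decide +kernel

set_option maxHeartbeats 2000000 in
theorem tdata {G : Type*} [Group G] [Fintype G] [IsSimpleGroup G] (h : Nat.card G = 7920)
    (T : Tbl G) (t : G) (ht : orderOf t = 2) :
    ∃ V : IrrCharacter G → ℤ, (∀ χ : IrrCharacter G, (χ : G → ℂ) t = (V χ : ℂ)) ∧ V (oneIrr G) = 1 ∧
      V T.A * V T.A = 4 ∧ V T.B * V T.B = 4 ∧ V T.C * V T.C = 4 ∧ V T.θ₁ = 0 ∧ V T.θ₂ = 0 ∧ V T.E = 3 ∧ V T.F = 4 ∧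
      V T.D = -3 ∧ V T.W = -1 := by
  obtain ⟨deg, A, B, C, D, θ₁, θ₂, E, F, W, hdeg, hA, hB, hC, hD, hθ₁, hθ₂, hE, hF, hW, hsum, -, hrel, hrel5⟩ := T
  show ∃ V : IrrCharacter G → ℤ, (∀ χ : IrrCharacter G, (χ : G → ℂ) t = (V χ : ℂ)) ∧ V (oneIrr G) = 1 ∧
      V A * V A = 4 ∧ V B * V B = 4 ∧ V C * V C = 4 ∧ V θ₁ = 0 ∧ V θ₂ = 0 ∧ V E = 3 ∧ V F = 4 ∧
      V D = -3 ∧ V W = -1
  classical
  have hnc : ¬ IsMulCommutative G := Lib.SmallSimple.not_comm_of_not_prime (by rw [h]; norm_num)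
  have hper := Lib.SmallSimple.BA.perfect_of_simple hnc (G := G)
  have ht2 : t ^ 2 = 1 := by rw [← ht]; exact pow_orderOf_eq_one t
  have ht1 : t ≠ 1 := by
    rintro rfl
    simp at ht
  have hone1 : deg (oneIrr G) = 1 := by
    have h0 := (hdeg (oneIrr G)).1
    have h6 : (((oneIrr G : IrrCharacter G) : G → ℂ) 1) = 1 := rfl
    rw [h6] at h0
    exact_mod_cast h0.symm
  have hv : ∀ χ : IrrCharacter G, ∃ b : ℕ,
      (χ : G → ℂ) t = (((deg χ : ℤ) - 4 * (b : ℤ) : ℤ) : ℂ) ∧ 2 * b ≤ deg χ := by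
    intro χ
    obtain ⟨a, d', hd', ha, ⟨b, hb⟩, hle⟩ := Lib.SmallSimple.BB.exists_even_of_involution
      (Lib.Char.IsIrrCharacter.isCharacter χ.2) hper ht2
    have hdd : d' = deg χ := by
      rw [(hdeg χ).1] at hd'
      exact_mod_cast hd'.symm
    subst hdd
    refine ⟨b, ?_, by omega⟩
    rw [(hdeg χ).1] at ha
    subst hb
    push_cast at ha ⊢
    linear_combination -ha
  choose b hbv hble using hv
  have hVd : ∃ V : IrrCharacter G → ℤ, ∀ χ, V χ = (deg χ : ℤ) - 4 * (b χ : ℤ) := ⟨_, fun _ => rfl⟩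
  obtain ⟨V, hVd⟩ := hVd
  have hV : ∀ χ : IrrCharacter G, (χ : G → ℂ) t = (V χ : ℂ) := by
    intro χ
    rw [hVd, hbv]
  have o1 : ∑ χ : IrrCharacter G, V χ * V χ = (Nat.card (centralizer ({t} : Set G)) : ℤ) := by
    have h6 := Lib.Char.second_orthogonality' t t
    rw [if_pos (IsConj.refl t)] at h6
    have h7 : ∀ χ : IrrCharacter G, (χ : G → ℂ) t * conj ((χ : G → ℂ) t) = ((V χ * V χ : ℤ) : ℂ) := by
      intro χ
      rw [hV χ, map_intCast]
      push_cast
      ring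
    simp only [h7] at h6
    exact_mod_cast h6
  have o2 : ∑ χ : IrrCharacter G, V χ * (deg χ : ℤ) = 0 := by
    have h6 := Lib.Char.second_orthogonality' t 1
    rw [if_neg (by rw [isConj_one_left]; exact ht1)] at h6
    have h7 : ∀ χ : IrrCharacter G, (χ : G → ℂ) t * conj ((χ : G → ℂ) 1) = ((V χ * (deg χ : ℤ) : ℤ) : ℂ) := by
      intro χ
      rw [hV χ, (hdeg χ).1, map_natCast]
      push_cast
      ring
    simp only [h7] at h6
    exact_mod_cast h6
  have hV1 : V (oneIrr G) = 1 := by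
    have h6 := hV (oneIrr G)
    have h7 : ((oneIrr G : IrrCharacter G) : G → ℂ) t = 1 := rfl
    rw [h7] at h6
    exact_mod_cast h6.symm
  rw [hsum (fun χ => V χ * V χ)] at o1
  rw [hsum (fun χ => V χ * (deg χ : ℤ))] at o2
  have r11 := hrel t (by rw [ht]; norm_num)
  have r5 := hrel5 t (by rw [ht]; norm_num)
  rw [hV θ₁, hV θ₂, hV A, hV B, hV C, hV D] at r11
  rw [hV θ₁, hV θ₂, hV E, hV F] at r5
  have e1 : V θ₁ = 1 - V A - V B - V C + V D := by exact_mod_cast r11.1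
  have e2 : V θ₂ = V θ₁ := by exact_mod_cast r11.2
  have e3 : 1 + V θ₁ + V θ₂ + V E - V F = 0 := by exact_mod_cast r5
  simp only [hone1, hA, hB, hC, hD, hθ₁, hθ₂, hE, hF, hW, hV1] at o2
  push_cast at o2
  have eD : V D = V θ₁ + V A + V B + V C - 1 := by linarith
  have eF : V F = 1 + V E + 2 * V θ₁ := by linarith
  have eW : V W = -(V A + V B + V C) - V E - 3 * V θ₁ := by
    rw [eD, eF, e2] at o2
    linarith
  rw [hV1, eD, eF, e2, eW] at o1
  have hN : NN (V A) (V B) (V C) (V θ₁) (V E) = (Nat.card (centralizer ({t} : Set G)) : ℤ) := by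
    rw [← o1]
    unfold NN
    ring
  -- the index
  have hI := index_mul_card (centralizer ({t} : Set G))
  rw [h] at hI
  have hI' : ((centralizer ({t} : Set G)).index : ℤ) * NN (V A) (V B) (V C) (V θ₁) (V E) = 7920 := by
    rw [hN]
    exact_mod_cast hI
  have hcpos : 0 < Nat.card (centralizer ({t} : Set G)) := Nat.card_pos
  have hII : II (V A) (V B) (V C) (V θ₁) (V E) = ((centralizer ({t} : Set G)).index : ℤ) := by
    unfold II
    rw [hN]
    apply Int.ediv_eq_of_eq_mul_left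
    · exact_mod_cast hcpos.ne'
    · rw [← hN]
      exact hI'.symm
  have hFS : (centralizer ({t} : Set G)).index ≤ 218 := by
    have h6 := Lib.BR.card_sq_one_le deg (fun χ => (hdeg χ).1)
    have h7 : ((∑ χ : IrrCharacter G, deg χ : ℕ) : ℤ) = 218 := by
      push_cast
      rw [hsum (fun χ => (deg χ : ℤ))]
      simp only [hone1, hA, hB, hC, hD, hθ₁, hθ₂, hE, hF, hW]
      norm_num
    have h8 : ∑ χ : IrrCharacter G, deg χ = 218 := by exact_mod_cast h7
    rw [h8] at h6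
    rw [← Lib.GS1.ncard_conj_eq_index t]
    refine le_trans ?_ h6
    rw [← Set.ncard_coe_finset]
    apply Set.ncard_le_ncard _ (Finset.finite_toSet _)
    intro u hu
    have h9 : IsConj (u ^ 2) (t ^ 2) := IsConj.pow 2 hu
    rw [ht2, isConj_one_left] at h9
    have h10 : u * u = 1 := by
      rw [← pow_two]
      exact h9
    simpa using h10
  -- the bounds
  have hbA := hble A
  have hbB := hble B
  have hbC := hble C
  have hbx := hble θ₁
  have hbE := hble E
  rw [hA] at hbA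
  rw [hB] at hbB
  rw [hC] at hbC
  rw [hθ₁] at hbx
  rw [hE] at hbE
  have hS := search_t (b A) (Finset.mem_range.mpr (by omega)) (b B) (Finset.mem_range.mpr (by omega))
    (b C) (Finset.mem_range.mpr (by omega)) (b θ₁) (Finset.mem_range.mpr (by omega))
    (b E) (Finset.mem_range.mpr (by omega))
  have hVA : V A = 10 - 4 * (b A : ℤ) := by rw [hVd, hA]; norm_num
  have hVB : V B = 10 - 4 * (b B : ℤ) := by rw [hVd, hB]; norm_num
  have hVC : V C = 10 - 4 * (b C : ℤ) := by rw [hVd, hC]; norm_num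
  have hVx : V θ₁ = 16 - 4 * (b θ₁ : ℤ) := by rw [hVd, hθ₁]; norm_num
  have hVE : V E = 11 - 4 * (b E : ℤ) := by rw [hVd, hE]; norm_num
  rw [← hVA, ← hVB, ← hVC, ← hVx, ← hVE] at hS
  have hdv : ∀ (χ : IrrCharacter G) (d : ℕ), deg χ = d → (d : ℤ) ∣ ((centralizer ({t} : Set G)).index : ℤ) * V χ := by
    intro χ d hd
    have h6 := (hdeg χ).1
    rw [hd] at h6
    exact dvd_val χ h6 (by
      have h7 := (hdeg χ).2.1
      rw [hd] at h7
      exact h7) t (V χ) (hV χ)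
  obtain ⟨ra, rb, rc, rs, rx, rE⟩ := hS ⟨_, hI'.symm.trans (mul_comm _ _)⟩ (by rw [hII]; exact_mod_cast hFS)
    (by rw [hII]; exact_mod_cast hdv A 10 hA) (by rw [hII]; exact_mod_cast hdv B 10 hB)
    (by rw [hII]; exact_mod_cast hdv C 10 hC) (by rw [hII]; exact_mod_cast hdv θ₁ 16 hθ₁)
    (by rw [hII]; exact_mod_cast hdv E 11 hE)
    (by
      rw [hII]
      have h6 := hdv F 44 hF
      rw [eF] at h6
      exact_mod_cast h6)
    (by
      rw [hII]
      have h6 := hdv D 45 hD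
      rw [eD] at h6
      exact_mod_cast h6)
    (by
      rw [hII]
      have h6 := hdv W 55 hW
      rw [eW] at h6
      exact_mod_cast h6)
  refine ⟨V, hV, hV1, ra, rb, rc, rx, by rw [e2, rx], rE, by rw [eF, rE, rx]; norm_num, ?_, ?_⟩
  · rw [eD, rx]
    have : V A + V B + V C = -2 := rs
    linarith
  · rw [eW, rx, rE, rs]
    norm_num


theorem fx3 {G : Type*} [Group G] [Fintype G] {y : G} (hy : orderOf y = 3) (χ : IrrCharacter G) {d : ℕ}
    (hd : (χ : G → ℂ) 1 = d) :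
    ∃ n : ℕ, n ≤ d ∧ (χ : G → ℂ) y + (χ : G → ℂ) y⁻¹ = ((3 * (n : ℤ) - (d : ℤ) : ℤ) : ℂ) := by
  classical
  have hy3 : y ^ 3 = 1 := by
    rw [← hy]
    exact pow_orderOf_eq_one y
  have hy2 : y ^ 2 = y⁻¹ := eq_inv_of_mul_eq_one_left (by rw [← pow_succ]; exact hy3)
  have hy1 : y ≠ 1 := by
    rintro rfl
    rw [orderOf_one] at hy
    omega
  have hyy : y ≠ y⁻¹ := by
    intro h6
    apply hy1
    have h7 : y ^ 2 = y := by rw [hy2, ← h6]
    have h8 : y ^ 2 = y * y := pow_two y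
    rw [h8] at h7
    exact mul_eq_left.mp h7
  have hfilter : Finset.univ.filter (fun g : G => g ∈ zpowers y) = {1, y, y⁻¹} := by
    ext g
    simp only [Finset.mem_filter, Finset.mem_univ, true_and, Finset.mem_insert, Finset.mem_singleton]
    constructor
    · intro hg
      obtain ⟨k, rfl⟩ := Subgroup.mem_zpowers_iff.mp hg
      have h2 := zpow_mod_orderOf y k
      rw [hy] at h2
      have h3 : k % ((3 : ℕ) : ℤ) = 0 ∨ k % ((3 : ℕ) : ℤ) = 1 ∨ k % ((3 : ℕ) : ℤ) = 2 := by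
        push_cast
        omega
      rcases h3 with h3 | h3 | h3 <;> rw [h3] at h2 <;> rw [← h2]
      · left
        simp
      · right
        left
        simp
      · right
        right
        rw [← hy2]
        norm_cast
    · rintro (rfl | rfl | rfl)
      · exact one_mem _
      · exact mem_zpowers _
      · exact inv_mem (mem_zpowers _)
  have h1 := Lib.BR.fx_sum χ (zpowers y)
  rw [hfilter, Finset.sum_insert (by
    simp only [Finset.mem_insert, Finset.mem_singleton, not_or]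
    exact ⟨hy1.symm, fun h6 => hy1 (inv_eq_one.mp h6.symm)⟩), Finset.sum_pair hyy, Nat.card_zpowers, hy, hd] at h1
  have h4 := Lib.BR.fx_anti χ (bot_le : (⊥ : Subgroup G) ≤ zpowers y)
  have h5 := Lib.BR.fx_sum χ (⊥ : Subgroup G)
  have hf2 : Finset.univ.filter (fun g : G => g ∈ (⊥ : Subgroup G)) = {1} := by
    ext g
    simp
  rw [hf2, Finset.sum_singleton, hd, Subgroup.card_bot] at h5
  have h6 : Lib.BR.fx χ (⊥ : Subgroup G) = d := by
    have : ((d : ℕ) : ℂ) = (Lib.BR.fx χ (⊥ : Subgroup G) : ℂ) := by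
      rw [h5]
      simp
    exact_mod_cast this.symm
  refine ⟨Lib.BR.fx χ (zpowers y), by rw [← h6]; exact h4, ?_⟩
  push_cast at h1 ⊢
  linear_combination h1

theorem dvd_f {G : Type*} [Group G] [Fintype G] (χ : IrrCharacter G) {d : ℕ} (hd : (χ : G → ℂ) 1 = d) (hd0 : d ≠ 0)
    (y : G) (m : ℤ) (hm : (χ : G → ℂ) y + (χ : G → ℂ) y⁻¹ = (m : ℂ)) :
    (d : ℤ) ∣ ((centralizer ({y} : Set G)).index : ℤ) * m := by
  have h1 := Cfsg.Agent.Lib.Block.isIntegral_centralChar χ.2 y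
  have h2 := Cfsg.Agent.Lib.Block.isIntegral_centralChar χ.2 y⁻¹
  unfold Cfsg.centralChar at h1 h2
  rw [hd] at h1 h2
  have hc : centralizer ({y⁻¹} : Set G) = centralizer ({y} : Set G) := by
    ext g
    rw [mem_centralizer_singleton_iff, mem_centralizer_singleton_iff]
    constructor
    · intro h6
      calc g * y = y * (y⁻¹ * g) * y := by group
        _ = y * (g * y⁻¹) * y := by rw [h6]
        _ = y * g := by group
    · intro h6
      calc g * y⁻¹ = y⁻¹ * (y * g) * y⁻¹ := by group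
        _ = y⁻¹ * (g * y) * y⁻¹ := by rw [h6]
        _ = y⁻¹ * g := by group
  rw [hc] at h2
  have h3 := h1.add h2
  have h4 : ((centralizer ({y} : Set G)).index : ℂ) * (χ : G → ℂ) y / (d : ℂ) +
      ((centralizer ({y} : Set G)).index : ℂ) * (χ : G → ℂ) y⁻¹ / (d : ℂ) =
      ((centralizer ({y} : Set G)).index : ℂ) * (m : ℂ) / (d : ℂ) := by
    rw [← hm]
    ring
  rw [h4] at h3
  have h5 : d ∣ (centralizer ({y} : Set G)).index * m.natAbs := by
    apply Cfsg.Agent.Lib.Char.nat_dvd_of_isIntegral_div hd0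
    push_cast
    rcases Int.natAbs_eq m with h6 | h6
    · have h7 : ((m.natAbs : ℕ) : ℂ) = (m : ℂ) := by
        conv_rhs => rw [h6]
        simp
      rw [h7]
      exact h3
    · have h7 : ((m.natAbs : ℕ) : ℂ) = -(m : ℂ) := by
        conv_rhs => rw [h6]
        simp
      rw [h7]
      have h8 : ((centralizer ({y} : Set G)).index : ℂ) * (-(m : ℂ)) / (d : ℂ) =
          -(((centralizer ({y} : Set G)).index : ℂ) * (m : ℂ) / (d : ℂ)) := by ring
      rw [h8]
      exact h3.neg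
  have h7 : (d : ℤ) ∣ ((centralizer ({y} : Set G)).index : ℤ) * (m.natAbs : ℤ) := by
    exact_mod_cast h5
  exact h7.trans (mul_dvd_mul_left _ (Int.natAbs_dvd.mpr (dvd_refl m)))

def SS (x E : ℤ) : ℤ := -(8 + 4 * E + 3 * x) / 2
def FF (x E : ℤ) : ℤ := 2 + 2 * x + E
def DD (x E : ℤ) : ℤ := x + SS x E - 2
def WW (x E : ℤ) : ℤ := -SS x E - E - 3 * x
def RR (x E : ℤ) : ℤ := 4 + 2 * (x * x) + E * E + FF x E * FF x E + DD x E * DD x E + WW x E * WW x E

abbrev PN (x E I : ℤ) : Prop :=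
  ¬ ((8 + 4 * E + 3 * x) % 2 = 0 ∧ RR x E ≤ 2 * (7920 / I) ∧ (16 : ℤ) ∣ I * x ∧ (11 : ℤ) ∣ I * E ∧
    (44 : ℤ) ∣ I * FF x E ∧ (45 : ℤ) ∣ I * DD x E ∧ (55 : ℤ) ∣ I * WW x E)

theorem search_nr : ∀ nx ∈ Finset.range 17, ∀ nE ∈ Finset.range 12,
    ∀ I ∈ ([1, 2, 4, 5, 8, 10, 11, 16, 20, 22, 40, 44, 55, 80, 88, 110, 176, 220, 440, 880] : List ℕ),
    PN (3 * (nx : ℤ) - 16) (3 * (nE : ℤ) - 11) (I : ℤ) := by
  decide +kernel

theorem list880 : ∀ I, I ≤ 880 → I ∣ 880 →
    I ∈ ([1, 2, 4, 5, 8, 10, 11, 16, 20, 22, 40, 44, 55, 80, 88, 110, 176, 220, 440, 880] : List ℕ) := by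
  decide +kernel

set_option maxHeartbeats 2000000 in
/-- Elements of order three are real. -/
theorem real3 {G : Type*} [Group G] [Fintype G] [IsSimpleGroup G] (h : Nat.card G = 7920) (T : Tbl G) {y : G}
    (hy : orderOf y = 3) (h9 : 9 ∣ Nat.card (centralizer ({y} : Set G))) : IsConj y y⁻¹ := by
  classical
  by_contra hreal
  haveI hf2 : Fact (Nat.Prime 2) := ⟨by norm_num⟩
  obtain ⟨t, ht⟩ := exists_prime_orderOf_dvd_card' (G := G) 2 (by rw [h]; norm_num)
  obtain ⟨V, hV, hV1, hVA, hVB, hVC, hVx, hVy, hVE, hVF, hVD, hVW⟩ := tdata h T t ht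
  obtain ⟨deg, A, B, C, D, θ₁, θ₂, E, F, W, hdeg, hA, hB, hC, hD, hθ₁, hθ₂, hE, hF, hW, hsumZ, hsumC, hrel, hrel5⟩ := T
  simp only at hVA hVB hVC hVx hVy hVE hVF hVD hVW
  have hy1 : y ≠ 1 := by
    rintro rfl
    rw [orderOf_one] at hy
    omega
  have hyi : ¬ IsConj y⁻¹ y⁻¹⁻¹ := by
    rw [inv_inv]
    exact fun h6 => hreal h6.symm
  have ht2 : t * t = 1 := by
    rw [← pow_two, ← ht]
    exact pow_orderOf_eq_one t
  have s1 := sum_sq_div ht2 hreal
  have s2 := sum_sq_div ht2 hyi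
  have hinv : ∀ χ : IrrCharacter G, conj ((χ : G → ℂ) y) = (χ : G → ℂ) y⁻¹ :=
    fun χ => (Cfsg.Agent.Lib.Degree.irr_map_inv χ y).symm
  have hinv' : ∀ χ : IrrCharacter G, conj ((χ : G → ℂ) y⁻¹) = (χ : G → ℂ) y := fun χ => by
    rw [← hinv χ, Complex.conj_conj]
  choose n hnle hnf using fun χ : IrrCharacter G => fx3 hy χ (hdeg χ).1
  obtain ⟨f, hfd⟩ : ∃ f : IrrCharacter G → ℤ, ∀ χ, f χ = 3 * (n χ : ℤ) - (deg χ : ℤ) := ⟨_, fun _ => rfl⟩
  have hFv : ∀ χ : IrrCharacter G, (χ : G → ℂ) y + (χ : G → ℂ) y⁻¹ = (f χ : ℂ) := fun χ => by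
    rw [hfd]
    exact hnf χ
  have oS : ∑ χ : IrrCharacter G, ((χ : G → ℂ) t) ^ 2 / (χ : G → ℂ) 1 * (f χ : ℂ) = 0 := by
    have h6 : ∀ χ : IrrCharacter G, ((χ : G → ℂ) t) ^ 2 / (χ : G → ℂ) 1 * (f χ : ℂ) =
        ((χ : G → ℂ) t) ^ 2 / (χ : G → ℂ) 1 * conj ((χ : G → ℂ) y) +
        ((χ : G → ℂ) t) ^ 2 / (χ : G → ℂ) 1 * conj ((χ : G → ℂ) y⁻¹) := by
      intro χ
      rw [hinv, hinv', ← hFv]
      ring
    simp only [h6]
    rw [Finset.sum_add_distrib, s1, s2, add_zero]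
  have o0 : ∑ χ : IrrCharacter G, f χ * (deg χ : ℤ) = 0 := by
    have h6 := Lib.Char.second_orthogonality' y 1
    rw [if_neg (by rw [isConj_one_left]; exact hy1)] at h6
    have h7 := Lib.Char.second_orthogonality' y⁻¹ 1
    rw [if_neg (by rw [isConj_one_left]; simpa using hy1)] at h7
    have h8 : ∑ χ : IrrCharacter G, ((f χ * (deg χ : ℤ) : ℤ) : ℂ) = 0 := by
      have h9 : ∀ χ : IrrCharacter G, ((f χ * (deg χ : ℤ) : ℤ) : ℂ) =
          (χ : G → ℂ) y * conj ((χ : G → ℂ) 1) + (χ : G → ℂ) y⁻¹ * conj ((χ : G → ℂ) 1) := by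
        intro χ
        rw [(hdeg χ).1, map_natCast]
        push_cast
        rw [← hFv]
        ring
      simp only [h9]
      rw [Finset.sum_add_distrib, h6, h7, add_zero]
    exact_mod_cast h8
  have hcc : centralizer ({y⁻¹} : Set G) = centralizer ({y} : Set G) := by
    ext g
    rw [mem_centralizer_singleton_iff, mem_centralizer_singleton_iff]
    constructor
    · intro h6
      calc g * y = y * (y⁻¹ * g) * y := by group
        _ = y * (g * y⁻¹) * y := by rw [h6]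
        _ = y * g := by group
    · intro h6
      calc g * y⁻¹ = y⁻¹ * (y * g) * y⁻¹ := by group
        _ = y⁻¹ * (g * y) * y⁻¹ := by rw [h6]
        _ = y⁻¹ * g := by group
  have o1 : ∑ χ : IrrCharacter G, f χ * f χ = 2 * (Nat.card (centralizer ({y} : Set G)) : ℤ) := by
    have a1 := Lib.Char.second_orthogonality' y y
    have a2 := Lib.Char.second_orthogonality' y⁻¹ y⁻¹
    have a3 := Lib.Char.second_orthogonality' y y⁻¹
    have a4 := Lib.Char.second_orthogonality' y⁻¹ y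
    rw [if_pos (IsConj.refl _)] at a1 a2
    rw [if_neg hreal] at a3
    rw [if_neg (fun h6 => hreal h6.symm)] at a4
    rw [hcc] at a2
    have h8 : ∑ χ : IrrCharacter G, ((f χ * f χ : ℤ) : ℂ) = 2 * (Nat.card (centralizer ({y} : Set G)) : ℂ) := by
      have h9 : ∀ χ : IrrCharacter G, ((f χ * f χ : ℤ) : ℂ) =
          (χ : G → ℂ) y * conj ((χ : G → ℂ) y) + (χ : G → ℂ) y⁻¹ * conj ((χ : G → ℂ) y⁻¹) +
          (χ : G → ℂ) y * conj ((χ : G → ℂ) y⁻¹) + (χ : G → ℂ) y⁻¹ * conj ((χ : G → ℂ) y) := by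
        intro χ
        rw [hinv, hinv']
        push_cast
        rw [← hFv]
        ring
      simp only [h9]
      rw [Finset.sum_add_distrib, Finset.sum_add_distrib, Finset.sum_add_distrib, a1, a2, a3, a4]
      ring
    exact_mod_cast h8
  have r1 := hrel y (by rw [hy]; norm_num)
  have r2 := hrel y⁻¹ (by rw [orderOf_inv, hy]; norm_num)
  have r5 := hrel5 y (by rw [hy]; norm_num)
  have r6 := hrel5 y⁻¹ (by rw [orderOf_inv, hy]; norm_num)
  have e1 : f θ₁ = 2 - f A - f B - f C + f D := by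
    have h6 : ((f θ₁ : ℤ) : ℂ) = ((2 - f A - f B - f C + f D : ℤ) : ℂ) := by
      push_cast
      rw [← hFv, ← hFv, ← hFv, ← hFv, ← hFv, r1.1, r2.1]
      ring
    exact_mod_cast h6
  have e2 : f θ₂ = f θ₁ := by
    have h6 : ((f θ₂ : ℤ) : ℂ) = ((f θ₁ : ℤ) : ℂ) := by
      rw [← hFv, ← hFv, r1.2, r2.2]
    exact_mod_cast h6
  have e3 : 2 + f θ₁ + f θ₂ + f E - f F = 0 := by
    have h6 : ((2 + f θ₁ + f θ₂ + f E - f F : ℤ) : ℂ) = 0 := by
      push_cast
      rw [← hFv, ← hFv, ← hFv, ← hFv]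
      linear_combination r5 + r6
    exact_mod_cast h6
  have f1 : f (oneIrr G) = 2 := by
    have h6 := hFv (oneIrr G)
    have h7 : ∀ g : G, ((oneIrr G : IrrCharacter G) : G → ℂ) g = 1 := fun _ => rfl
    rw [h7, h7] at h6
    have h8 : ((f (oneIrr G) : ℤ) : ℂ) = ((2 : ℤ) : ℂ) := by
      rw [← h6]
      norm_num
    exact_mod_cast h8
  have hone1 : deg (oneIrr G) = 1 := by
    have h0 := (hdeg (oneIrr G)).1
    have h6 : (((oneIrr G : IrrCharacter G) : G → ℂ) 1) = 1 := rfl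
    rw [h6] at h0
    exact_mod_cast h0.symm
  rw [hsumZ (fun χ => f χ * (deg χ : ℤ))] at o0
  rw [hsumZ (fun χ => f χ * f χ)] at o1
  rw [hsumC (fun χ => ((χ : G → ℂ) t) ^ 2 / (χ : G → ℂ) 1 * (f χ : ℂ))] at oS
  simp only [hone1, hA, hB, hC, hD, hθ₁, hθ₂, hE, hF, hW, f1] at o0
  push_cast at o0
  have csq : ∀ (χ : IrrCharacter G) (m : ℤ), V χ * V χ = m → ((χ : G → ℂ) t) ^ 2 = (m : ℂ) := by
    intro χ m hm
    rw [hV χ, pow_two, ← hm]
    push_cast
    ring
  have hd' : ∀ (χ : IrrCharacter G) (d : ℕ), deg χ = d → (χ : G → ℂ) 1 = (d : ℂ) := by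
    intro χ d hd
    rw [(hdeg χ).1, hd]
  have t1 : (((oneIrr G : IrrCharacter G) : G → ℂ) t) ^ 2 / ((oneIrr G : IrrCharacter G) : G → ℂ) 1 = 1 := by
    have h7 : ∀ g : G, ((oneIrr G : IrrCharacter G) : G → ℂ) g = 1 := fun _ => rfl
    rw [h7, h7]
    norm_num
  have tA : ((A : G → ℂ) t) ^ 2 / (A : G → ℂ) 1 = 4 / 10 := by
    rw [csq A 4 hVA, hd' A 10 hA]
    norm_num
  have tB : ((B : G → ℂ) t) ^ 2 / (B : G → ℂ) 1 = 4 / 10 := by
    rw [csq B 4 hVB, hd' B 10 hB]
    norm_num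
  have tC : ((C : G → ℂ) t) ^ 2 / (C : G → ℂ) 1 = 4 / 10 := by
    rw [csq C 4 hVC, hd' C 10 hC]
    norm_num
  have tD : ((D : G → ℂ) t) ^ 2 / (D : G → ℂ) 1 = 9 / 45 := by
    rw [csq D 9 (by rw [hVD]; norm_num), hd' D 45 hD]
    norm_num
  have tx : ((θ₁ : G → ℂ) t) ^ 2 / (θ₁ : G → ℂ) 1 = 0 := by
    rw [csq θ₁ 0 (by rw [hVx]; norm_num)]
    norm_num
  have ty : ((θ₂ : G → ℂ) t) ^ 2 / (θ₂ : G → ℂ) 1 = 0 := by
    rw [csq θ₂ 0 (by rw [hVy]; norm_num)]
    norm_num
  have tE : ((E : G → ℂ) t) ^ 2 / (E : G → ℂ) 1 = 9 / 11 := by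
    rw [csq E 9 (by rw [hVE]; norm_num), hd' E 11 hE]
    norm_num
  have tF : ((F : G → ℂ) t) ^ 2 / (F : G → ℂ) 1 = 16 / 44 := by
    rw [csq F 16 (by rw [hVF]; norm_num), hd' F 44 hF]
    norm_num
  have tW : ((W : G → ℂ) t) ^ 2 / (W : G → ℂ) 1 = 1 / 55 := by
    rw [csq W 1 (by rw [hVW]; norm_num), hd' W 55 hW]
    norm_num
  simp only [t1, tA, tB, tC, tD, tx, ty, tE, tF, tW, f1] at oS
  have oS' : (1980 + 396 * (f A + f B + f C) + 198 * f D + 810 * f E + 360 * f F + 18 * f W : ℤ) = 0 := by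
    have h6 : ((1980 + 396 * (f A + f B + f C) + 198 * f D + 810 * f E + 360 * f F + 18 * f W : ℤ) : ℂ) = 0 := by
      push_cast
      push_cast at oS
      linear_combination 990 * oS
    exact_mod_cast h6
  rw [f1] at o1
  -- the index
  have hI := index_mul_card (centralizer ({y} : Set G))
  rw [h] at hI
  obtain ⟨k, hk⟩ := h9
  have hIk : (centralizer ({y} : Set G)).index * k = 880 := by
    rw [hk] at hI
    have : (centralizer ({y} : Set G)).index * (9 * k) = 9 * ((centralizer ({y} : Set G)).index * k) := by ring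
    omega
  have hId : (centralizer ({y} : Set G)).index ∣ 880 := ⟨k, hIk.symm⟩
  have hlist := list880 _ (Nat.le_of_dvd (by norm_num) hId) hId
  have hnx := hnle θ₁
  have hnE := hnle E
  rw [hθ₁] at hnx
  rw [hE] at hnE
  have hS := search_nr (n θ₁) (Finset.mem_range.mpr (by omega)) (n E) (Finset.mem_range.mpr (by omega)) _ hlist
  have hfx : f θ₁ = 3 * (n θ₁ : ℤ) - 16 := by rw [hfd, hθ₁]; norm_num
  have hfE : f E = 3 * (n E : ℤ) - 11 := by rw [hfd, hE]; norm_num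
  rw [← hfx, ← hfE] at hS
  have eF : f F = 2 + 2 * f θ₁ + f E := by linarith
  have es : 2 * (f A + f B + f C) = -(8 + 4 * f E + 3 * f θ₁) := by
    have eD : f D = f θ₁ + f A + f B + f C - 2 := by linarith
    have eW : 55 * f W = -(11 * 2 * 0 + 55 * (f A + f B + f C) + 55 * f E + 165 * f θ₁) := by
      rw [eD, eF, e2] at o0
      linarith
    rw [eD, eF] at oS'
    have : 18 * f W = -(18 * (f A + f B + f C) + 18 * f E + 54 * f θ₁) := by linarith
    linarith
  have hss : SS (f θ₁) (f E) = f A + f B + f C := by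
    unfold SS
    omega
  have eD : f D = DD (f θ₁) (f E) := by
    unfold DD
    rw [hss]
    linarith
  have eF' : f F = FF (f θ₁) (f E) := by
    unfold FF
    linarith
  have eW : f W = WW (f θ₁) (f E) := by
    unfold WW
    rw [hss]
    rw [eD, eF', e2] at o0
    unfold DD FF at o0
    rw [hss] at o0
    linarith
  have hdv : ∀ (χ : IrrCharacter G) (d : ℕ), deg χ = d → (d : ℤ) ∣ ((centralizer ({y} : Set G)).index : ℤ) * f χ := by
    intro χ d hd
    have h6 := (hdeg χ).1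
    rw [hd] at h6
    exact dvd_f χ h6 (by
      have h7 := (hdeg χ).2.1
      rw [hd] at h7
      exact h7) y (f χ) (hFv χ)
  apply hS
  refine ⟨by omega, ?_, by exact_mod_cast hdv θ₁ 16 hθ₁, by exact_mod_cast hdv E 11 hE, ?_, ?_, ?_⟩
  · have hq : (7920 : ℤ) / ((centralizer ({y} : Set G)).index : ℤ) = (Nat.card (centralizer ({y} : Set G)) : ℤ) := by
      apply Int.ediv_eq_of_eq_mul_right
      · have h6 : (centralizer ({y} : Set G)).index ≠ 0 := by
          intro h7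
          rw [h7] at hI
          omega
        exact_mod_cast h6
      · exact_mod_cast hI.symm
    rw [hq]
    unfold RR
    rw [← eF', ← eD, ← eW]
    rw [e2] at o1
    nlinarith [mul_self_nonneg (f A), mul_self_nonneg (f B), mul_self_nonneg (f C)]
  · rw [← eF']
    exact_mod_cast hdv F 44 hF
  · rw [← eD]
    exact_mod_cast hdv D 45 hD
  · rw [← eW]
    exact_mod_cast hdv W 55 hW

abbrev PRR (a b c x v : ℤ) : Prop :=
  NN a b c x v ∣ 7920 → (9 : ℤ) ∣ NN a b c x v → (10 : ℤ) ∣ II a b c x v * a → (10 : ℤ) ∣ II a b c x v * b →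
    (10 : ℤ) ∣ II a b c x v * c → (16 : ℤ) ∣ II a b c x v * x → (11 : ℤ) ∣ II a b c x v * v →
    (44 : ℤ) ∣ II a b c x v * (1 + v + 2 * x) → (45 : ℤ) ∣ II a b c x v * (x + a + b + c - 1) →
    (55 : ℤ) ∣ II a b c x v * (-(a + b + c) - v - 3 * x) →
    a = 1 ∧ b = 1 ∧ c = 1 ∧ x = -2 ∧ v = 2

set_option synthInstance.maxHeartbeats 2000000 in
set_option synthInstance.maxSize 100000 in
theorem search3 : ∀ ba ∈ Finset.range 6, ∀ bb ∈ Finset.range 6, ∀ bc ∈ Finset.range 6, ∀ bx ∈ Finset.range 9,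
    ∀ bv ∈ Finset.range 6,
    PRR (10 - 3 * (ba : ℤ)) (10 - 3 * (bb : ℤ)) (10 - 3 * (bc : ℤ)) (16 - 3 * (bx : ℤ)) (11 - 3 * (bv : ℤ)) := by
  decide +kernel

set_option maxHeartbeats 2000000 in
theorem val3 {G : Type*} [Group G] [Fintype G] [IsSimpleGroup G] (h : Nat.card G = 7920) (T : Tbl G) {y : G}
    (hy : orderOf y = 3) (h9 : 9 ∣ Nat.card (centralizer ({y} : Set G))) :
    Nat.card (centralizer ({y} : Set G)) = 18 ∧
    ∃ g : IrrCharacter G → ℤ, (∀ χ : IrrCharacter G, (χ : G → ℂ) y = (g χ : ℂ)) ∧ g (oneIrr G) = 1 ∧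
      g T.A = 1 ∧ g T.B = 1 ∧ g T.C = 1 ∧ g T.D = 0 ∧ g T.θ₁ = -2 ∧ g T.θ₂ = -2 ∧ g T.E = 2 ∧ g T.F = -1 ∧ g T.W = 1 := by
  classical
  have hreal := real3 h T hy h9
  obtain ⟨deg, A, B, C, D, θ₁, θ₂, E, F, W, hdeg, hA, hB, hC, hD, hθ₁, hθ₂, hE, hF, hW, hsum, -, hrel, hrel5⟩ := T
  show Nat.card (centralizer ({y} : Set G)) = 18 ∧
    ∃ g : IrrCharacter G → ℤ, (∀ χ : IrrCharacter G, (χ : G → ℂ) y = (g χ : ℂ)) ∧ g (oneIrr G) = 1 ∧
      g A = 1 ∧ g B = 1 ∧ g C = 1 ∧ g D = 0 ∧ g θ₁ = -2 ∧ g θ₂ = -2 ∧ g E = 2 ∧ g F = -1 ∧ g W = 1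
  have hy1 : y ≠ 1 := by
    rintro rfl
    rw [orderOf_one] at hy
    omega
  have hone1 : deg (oneIrr G) = 1 := by
    have h0 := (hdeg (oneIrr G)).1
    have h6 : (((oneIrr G : IrrCharacter G) : G → ℂ) 1) = 1 := rfl
    rw [h6] at h0
    exact_mod_cast h0.symm
  have hcl : ∀ χ : IrrCharacter G, (χ : G → ℂ) y⁻¹ = (χ : G → ℂ) y := by
    intro χ
    obtain ⟨c, hc⟩ := isConj_iff.1 hreal
    rw [← hc]
    exact (Lib.Char.IsCharacter.isClassFunction (Lib.Char.IsIrrCharacter.isCharacter χ.2)) y c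
  have hv : ∀ χ : IrrCharacter G, ∃ (g : ℤ) (b : ℕ), (χ : G → ℂ) y = (g : ℂ) ∧ g = (deg χ : ℤ) - 3 * (b : ℤ) ∧
      2 * b ≤ deg χ := by
    intro χ
    obtain ⟨n, hn, hm⟩ := fx3 hy χ (hdeg χ).1
    rw [hcl χ] at hm
    have hInt : IsIntegral ℤ ((χ : G → ℂ) y) := by
      obtain ⟨k, ρ, hρ⟩ := Lib.Char.IsIrrCharacter.isCharacter χ.2
      rw [← hρ]
      exact Lib.Char.isIntegral_character ρ y (isOfFinOrder_of_finite y)
    obtain ⟨m, hmd⟩ : ∃ m : ℤ, m = 3 * (n : ℤ) - (deg χ : ℤ) := ⟨_, rfl⟩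
    rw [← hmd] at hm
    have h2 : (m : ℂ) = 2 * (χ : G → ℂ) y := by
      rw [← hm]
      ring
    have hp : 2 ∣ m.natAbs := by
      apply Lib.Char.nat_dvd_of_isIntegral_div (two_ne_zero)
      push_cast
      rcases Int.natAbs_eq m with h6 | h6
      · have h7 : ((m.natAbs : ℕ) : ℂ) = (m : ℂ) := by
          conv_rhs => rw [h6]
          simp
        rw [h7, h2]
        have h8 : 2 * (χ : G → ℂ) y / 2 = (χ : G → ℂ) y := by ring
        rw [h8]
        exact hInt
      · have h7 : ((m.natAbs : ℕ) : ℂ) = -(m : ℂ) := by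
          conv_rhs => rw [h6]
          simp
        rw [h7, h2]
        have h8 : -(2 * (χ : G → ℂ) y) / 2 = -(χ : G → ℂ) y := by ring
        rw [h8]
        exact hInt.neg
    obtain ⟨g, hg⟩ : (2 : ℤ) ∣ m := Int.natCast_dvd.mpr hp
    refine ⟨g, (deg χ - n) / 2, ?_, by omega, by omega⟩
    have h3 : (2 : ℂ) * (χ : G → ℂ) y = 2 * (g : ℂ) := by
      rw [← h2, hg]
      push_cast
      ring
    exact mul_left_cancel₀ two_ne_zero h3
  choose g b hV hgb hble using hv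
  have o1 : ∑ χ : IrrCharacter G, g χ * g χ = (Nat.card (centralizer ({y} : Set G)) : ℤ) := by
    have h6 := Lib.Char.second_orthogonality' y y
    rw [if_pos (IsConj.refl y)] at h6
    have h7 : ∀ χ : IrrCharacter G, (χ : G → ℂ) y * conj ((χ : G → ℂ) y) = ((g χ * g χ : ℤ) : ℂ) := by
      intro χ
      rw [hV χ, map_intCast]
      push_cast
      ring
    simp only [h7] at h6
    exact_mod_cast h6
  have o2 : ∑ χ : IrrCharacter G, g χ * (deg χ : ℤ) = 0 := by
    have h6 := Lib.Char.second_orthogonality' y 1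
    rw [if_neg (by rw [isConj_one_left]; exact hy1)] at h6
    have h7 : ∀ χ : IrrCharacter G, (χ : G → ℂ) y * conj ((χ : G → ℂ) 1) = ((g χ * (deg χ : ℤ) : ℤ) : ℂ) := by
      intro χ
      rw [hV χ, (hdeg χ).1, map_natCast]
      push_cast
      ring
    simp only [h7] at h6
    exact_mod_cast h6
  have hV1 : g (oneIrr G) = 1 := by
    have h6 := hV (oneIrr G)
    have h7 : ((oneIrr G : IrrCharacter G) : G → ℂ) y = 1 := rfl
    rw [h7] at h6
    exact_mod_cast h6.symm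
  rw [hsum (fun χ => g χ * g χ)] at o1
  rw [hsum (fun χ => g χ * (deg χ : ℤ))] at o2
  have r11 := hrel y (by rw [hy]; norm_num)
  have r5 := hrel5 y (by rw [hy]; norm_num)
  rw [hV θ₁, hV θ₂, hV A, hV B, hV C, hV D] at r11
  rw [hV θ₁, hV θ₂, hV E, hV F] at r5
  have e1 : g θ₁ = 1 - g A - g B - g C + g D := by exact_mod_cast r11.1
  have e2 : g θ₂ = g θ₁ := by exact_mod_cast r11.2
  have e3 : 1 + g θ₁ + g θ₂ + g E - g F = 0 := by exact_mod_cast r5
  simp only [hone1, hA, hB, hC, hD, hθ₁, hθ₂, hE, hF, hW, hV1] at o2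
  push_cast at o2
  have eD : g D = g θ₁ + g A + g B + g C - 1 := by linarith
  have eF : g F = 1 + g E + 2 * g θ₁ := by linarith
  have eW : g W = -(g A + g B + g C) - g E - 3 * g θ₁ := by
    rw [eD, eF, e2] at o2
    linarith
  rw [hV1, eD, eF, e2, eW] at o1
  have hN : NN (g A) (g B) (g C) (g θ₁) (g E) = (Nat.card (centralizer ({y} : Set G)) : ℤ) := by
    rw [← o1]
    unfold NN
    ring
  have hI := index_mul_card (centralizer ({y} : Set G))
  rw [h] at hI
  have hI' : ((centralizer ({y} : Set G)).index : ℤ) * NN (g A) (g B) (g C) (g θ₁) (g E) = 7920 := by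
    rw [hN]
    exact_mod_cast hI
  have hcpos : 0 < Nat.card (centralizer ({y} : Set G)) := Nat.card_pos
  have hII : II (g A) (g B) (g C) (g θ₁) (g E) = ((centralizer ({y} : Set G)).index : ℤ) := by
    unfold II
    rw [hN]
    apply Int.ediv_eq_of_eq_mul_left
    · exact_mod_cast hcpos.ne'
    · rw [← hN]
      exact hI'.symm
  have hbA := hble A
  have hbB := hble B
  have hbC := hble C
  have hbx := hble θ₁
  have hbE := hble E
  rw [hA] at hbA
  rw [hB] at hbB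
  rw [hC] at hbC
  rw [hθ₁] at hbx
  rw [hE] at hbE
  have hS := search3 (b A) (Finset.mem_range.mpr (by omega)) (b B) (Finset.mem_range.mpr (by omega))
    (b C) (Finset.mem_range.mpr (by omega)) (b θ₁) (Finset.mem_range.mpr (by omega))
    (b E) (Finset.mem_range.mpr (by omega))
  have hVA : g A = 10 - 3 * (b A : ℤ) := by rw [hgb, hA]; norm_num
  have hVB : g B = 10 - 3 * (b B : ℤ) := by rw [hgb, hB]; norm_num
  have hVC : g C = 10 - 3 * (b C : ℤ) := by rw [hgb, hC]; norm_num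
  have hVx : g θ₁ = 16 - 3 * (b θ₁ : ℤ) := by rw [hgb, hθ₁]; norm_num
  have hVE : g E = 11 - 3 * (b E : ℤ) := by rw [hgb, hE]; norm_num
  rw [← hVA, ← hVB, ← hVC, ← hVx, ← hVE] at hS
  have hdv : ∀ (χ : IrrCharacter G) (d : ℕ), deg χ = d → (d : ℤ) ∣ ((centralizer ({y} : Set G)).index : ℤ) * g χ := by
    intro χ d hd
    have h6 := (hdeg χ).1
    rw [hd] at h6
    exact dvd_val χ h6 (by
      have h7 := (hdeg χ).2.1
      rw [hd] at h7
      exact h7) y (g χ) (hV χ)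
  obtain ⟨ra, rb, rc, rx, rE⟩ := hS ⟨_, hI'.symm.trans (mul_comm _ _)⟩ (by rw [hN]; exact_mod_cast h9)
    (by rw [hII]; exact_mod_cast hdv A 10 hA) (by rw [hII]; exact_mod_cast hdv B 10 hB)
    (by rw [hII]; exact_mod_cast hdv C 10 hC) (by rw [hII]; exact_mod_cast hdv θ₁ 16 hθ₁)
    (by rw [hII]; exact_mod_cast hdv E 11 hE)
    (by
      rw [hII]
      have h6 := hdv F 44 hF
      rw [eF] at h6
      exact_mod_cast h6)
    (by
      rw [hII]
      have h6 := hdv D 45 hD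
      rw [eD] at h6
      exact_mod_cast h6)
    (by
      rw [hII]
      have h6 := hdv W 55 hW
      rw [eW] at h6
      exact_mod_cast h6)
  refine ⟨?_, g, hV, hV1, ra, rb, rc, ?_, rx, by rw [e2, rx], rE, ?_, ?_⟩
  · rw [ra, rb, rc, rx, rE] at hN
    have h6 : NN 1 1 1 (-2) 2 = 18 := by
      unfold NN
      norm_num
    rw [h6] at hN
    exact_mod_cast hN.symm
  · rw [eD, ra, rb, rc, rx]
    norm_num
  · rw [eF, rE, rx]
    norm_num
  · rw [eW, ra, rb, rc, rE, rx]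
    norm_num

/-- Involution centralisers have order 48, and the count. -/
theorem result {G : Type*} [Group G] [Finite G] (hG : Cfsg.IsM11 G) (P : Sylow 3 G) : Nat.card (Subgroup.normalizer ((P : Subgroup G) : Set G)) = 144 := by
  classical
  haveI : Fintype G := Fintype.ofFinite G
  have hG' := hG
  obtain ⟨hsimple, h⟩ := hG
  haveI := hsimple
  obtain ⟨T⟩ := exists_tbl h
  have hnc : ¬ IsMulCommutative G := Lib.SmallSimple.not_comm_of_not_prime (by rw [h]; norm_num)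
  haveI hf3 : Fact (Nat.Prime 3) := ⟨by norm_num⟩
  haveI hf2 : Fact (Nat.Prime 2) := ⟨by norm_num⟩
  obtain ⟨h1, h2, h3, h4, h5⟩ := Lib.SmallSimple.sylow_facts (G := G) hnc 3 2 880
    (by rw [h]; norm_num) (by norm_num) (by norm_num)
  have hcardS : ∀ Q : Sylow 3 G, Nat.card (Q : Subgroup G) = 9 := fun Q => by
    have := (h5 Q).1
    rw [this]
    norm_num
  -- Sylow subgroups lie in the centralizers of their elements
  have hle : ∀ (y : G) (Q : Sylow 3 G), y ∈ (Q : Subgroup G) → (Q : Subgroup G) ≤ centralizer ({y} : Set G) := by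
    intro y Q hyQ q hq
    rw [mem_centralizer_singleton_iff]
    have hc := IsPGroup.commutative_of_card_eq_prime_sq (p := 3) (G := (Q : Subgroup G)) (by rw [hcardS Q]; norm_num)
      ⟨q, hq⟩ ⟨y, hyQ⟩
    exact congrArg Subtype.val hc
  have hex : ∀ y : G, orderOf y = 3 → ∃ Q : Sylow 3 G, y ∈ (Q : Subgroup G) := by
    intro y hy
    have hpg : IsPGroup 3 (zpowers y) := IsPGroup.of_card (n := 1) (by rw [Nat.card_zpowers, hy, pow_one])
    obtain ⟨Q, hQ⟩ := hpg.exists_le_sylow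
    exact ⟨Q, hQ (mem_zpowers y)⟩
  have h9 : ∀ y : G, orderOf y = 3 → 9 ∣ Nat.card (centralizer ({y} : Set G)) := by
    intro y hy
    obtain ⟨Q, hQ⟩ := hex y hy
    rw [← hcardS Q]
    exact Subgroup.card_dvd_of_le (hle y Q hQ)
  have hval := fun (y : G) (hy : orderOf y = 3) => val3 h T hy (h9 y hy)
  have hconj : ∀ y y' : G, orderOf y = 3 → orderOf y' = 3 → IsConj y y' := by
    intro y y' hy hy'
    by_contra hc
    obtain ⟨-, g, hg, g1, gA, gB, gC, gD, gx, gy, gE, gF, gW⟩ := hval y hy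
    obtain ⟨-, g', hg', g1', gA', gB', gC', gD', gx', gy', gE', gF', gW'⟩ := hval y' hy'
    have h6 := Lib.Char.second_orthogonality' y y'
    rw [if_neg hc] at h6
    have h7 : ∀ χ : IrrCharacter G, (χ : G → ℂ) y * conj ((χ : G → ℂ) y') = ((g χ * g' χ : ℤ) : ℂ) := by
      intro χ
      rw [hg χ, hg' χ, map_intCast]
      push_cast
      ring
    simp only [h7] at h6
    have h8 : ∑ χ : IrrCharacter G, g χ * g' χ = 0 := by exact_mod_cast h6
    rw [T.hsumZ (fun χ => g χ * g' χ)] at h8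
    simp only [g1, gA, gB, gC, gD, gx, gy, gE, gF, gW, g1', gA', gB', gC', gD', gx', gy', gE', gF', gW'] at h8
    norm_num at h8
  -- no elements of order nine
  have hno9 : ∀ g : G, orderOf g ≠ 9 := by
    intro g hg
    have hy : orderOf (g ^ 3) = 3 := by
      rw [orderOf_pow' g (by norm_num), hg]
      norm_num
    obtain ⟨hC18, -⟩ := hval _ hy
    have hgC : g ∈ centralizer ({g ^ 3} : Set G) := by
      rw [mem_centralizer_singleton_iff]
      exact (Commute.pow_right (Commute.refl g) 3).eq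
    have hzle : zpowers g ≤ centralizer ({g ^ 3} : Set G) := by
      rw [zpowers_le]
      exact hgC
    obtain ⟨s₀, hs₀⟩ := exists_prime_orderOf_dvd_card' (G := centralizer ({g ^ 3} : Set G)) 2 (by rw [hC18]; norm_num)
    have hH : ((zpowers g).subgroupOf (centralizer ({g ^ 3} : Set G))).index = 2 := by
      have h6 := Subgroup.card_mul_index ((zpowers g).subgroupOf (centralizer ({g ^ 3} : Set G)))
      have h7 : Nat.card ((zpowers g).subgroupOf (centralizer ({g ^ 3} : Set G))) = 9 := by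
        rw [Nat.card_congr (Subgroup.subgroupOfEquivOfLe hzle).toEquiv, Nat.card_zpowers, hg]
      rw [h7, hC18] at h6
      omega
    haveI hn := Subgroup.normal_of_index_eq_two hH
    have h6 := hn.conj_mem ⟨g, hgC⟩ (by
      rw [Subgroup.mem_subgroupOf]
      exact mem_zpowers g) s₀
    rw [Subgroup.mem_subgroupOf] at h6
    have h7 : (s₀ : G) * g * (s₀ : G)⁻¹ ∈ zpowers g := h6
    rw [mem_zpowers_iff_mem_range_orderOf, hg, Finset.mem_image] at h7
    obtain ⟨k, hk9, hk⟩ := h7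
    rw [Finset.mem_range] at hk9
    have hs2 : ((s₀ : G)) ^ 2 = 1 := by
      have : orderOf (s₀ : G) = 2 := by
        rw [Subgroup.orderOf_coe]
        exact hs₀
      rw [← this]
      exact pow_orderOf_eq_one _
    have hcy : (s₀ : G) * g ^ 3 * (s₀ : G)⁻¹ = g ^ 3 := by
      have := mem_centralizer_singleton_iff.mp s₀.2
      rw [this]
      group
    have hpw : ∀ j : ℕ, (s₀ : G) * g ^ j * (s₀ : G)⁻¹ = g ^ (k * j) := by
      intro j
      rw [pow_mul, hk]
      exact (conj_pow).symm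
    have e1 : g ^ (k * 3) = g ^ 3 := by
      rw [← hpw 3, hcy]
    have e2 : g ^ (k * k) = g := by
      rw [← hpw k, hk]
      calc (s₀ : G) * ((s₀ : G) * g * (s₀ : G)⁻¹) * (s₀ : G)⁻¹
          = ((s₀ : G) * (s₀ : G)) * g * ((s₀ : G) * (s₀ : G))⁻¹ := by group
        _ = g := by rw [← pow_two, hs2]; group
    have e1' := pow_inj_mod.mp e1
    rw [hg] at e1'
    have e2' : (k * k) % 9 = 1 := by
      have := pow_inj_mod.mp (e2.trans (pow_one g).symm)
      rw [hg] at this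
      simpa using this
    have hk1 : k = 1 := by
      interval_cases k <;> omega
    subst hk1
    have hsg : (s₀ : G) * g = g * (s₀ : G) := by
      have h8 : (s₀ : G) * g * (s₀ : G)⁻¹ = g := by rw [← hk, pow_one]
      calc (s₀ : G) * g = (s₀ : G) * g * (s₀ : G)⁻¹ * (s₀ : G) := by group
        _ = g * (s₀ : G) := by rw [h8]
    have hgs : g ∈ centralizer ({(s₀ : G)} : Set G) := by
      rw [mem_centralizer_singleton_iff]
      exact hsg.symm
    have h8 := orderOf_dvd_natCard (⟨g, hgs⟩ : centralizer ({(s₀ : G)} : Set G))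
    rw [Subgroup.orderOf_mk, hg, Cfsg.Agent.S0435.result hG' (s₀ : G) (by
      rw [Subgroup.orderOf_coe]
      exact hs₀)] at h8
    omega
  -- trivial intersections
  have hTI : ∀ y : G, orderOf y = 3 → ∀ Q₁ Q₂ : Sylow 3 G, y ∈ (Q₁ : Subgroup G) → y ∈ (Q₂ : Subgroup G) → Q₁ = Q₂ := by
    intro y hy Q₁ Q₂ h₁ h₂
    obtain ⟨hC18, -⟩ := hval y hy
    have hH : ((Q₁ : Subgroup G).subgroupOf (centralizer ({y} : Set G))).index = 2 := by
      have h6 := Subgroup.card_mul_index ((Q₁ : Subgroup G).subgroupOf (centralizer ({y} : Set G)))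
      have h7 : Nat.card ((Q₁ : Subgroup G).subgroupOf (centralizer ({y} : Set G))) = 9 := by
        rw [Nat.card_congr (Subgroup.subgroupOfEquivOfLe (hle y Q₁ h₁)).toEquiv, hcardS Q₁]
      rw [h7, hC18] at h6
      omega
    haveI hn := Subgroup.normal_of_index_eq_two hH
    have hsub : (Q₂ : Subgroup G) ≤ (Q₁ : Subgroup G) := by
      intro q hq
      have hqC := hle y Q₂ h₂ hq
      have h6 := Subgroup.pow_index_mem ((Q₁ : Subgroup G).subgroupOf (centralizer ({y} : Set G))) (⟨q, hqC⟩ : centralizer ({y} : Set G))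
      rw [hH, Subgroup.mem_subgroupOf] at h6
      have h7 : q ^ 2 ∈ (Q₁ : Subgroup G) := h6
      have h8 : q ^ 9 = 1 := by
        have := pow_card_eq_one' (G := (Q₂ : Subgroup G)) (x := ⟨q, hq⟩)
        rw [hcardS Q₂] at this
        exact congrArg Subtype.val this
      have h9' : q = (q ^ 2) ^ 5 := by
        rw [← pow_mul]
        show q = q ^ (9 + 1)
        rw [pow_succ, h8, one_mul]
      rw [h9']
      exact pow_mem h7 5
    have heq : (Q₂ : Subgroup G) = (Q₁ : Subgroup G) :=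
      Subgroup.eq_of_le_of_card_ge hsub (by rw [hcardS Q₁, hcardS Q₂])
    exact (Sylow.ext heq).symm
  -- the count
  obtain ⟨y₀, hy₀⟩ := exists_prime_orderOf_dvd_card' (G := G) 3 (by rw [h]; norm_num)
  letI : Fintype (Sylow 3 G) := Fintype.ofFinite _
  have hΩ : (Finset.univ.filter (fun g : G => orderOf g = 3)).card = 440 := by
    have e1 : ((Finset.univ.filter (fun g : G => orderOf g = 3) : Finset G) : Set G) = {b : G | IsConj b y₀} := by
      ext b
      simp only [Finset.coe_filter, Finset.mem_univ, true_and, Set.mem_setOf_eq]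
      constructor
      · intro hb
        exact hconj b y₀ hb hy₀
      · intro hb
        obtain ⟨c, hc⟩ := isConj_iff.1 hb.symm
        rw [← hc, ← MulAut.conj_apply, MulEquiv.orderOf_eq, hy₀]
    have e2 := Lib.GS1.ncard_conj_eq_index y₀
    rw [← e1, Set.ncard_coe_finset] at e2
    obtain ⟨hC18, -⟩ := hval y₀ hy₀
    have h6 := index_mul_card (centralizer ({y₀} : Set G))
    rw [h, hC18] at h6
    omega
  have hcount := Finset.sum_card_bipartiteAbove_eq_sum_card_bipartiteBelow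
    (s := Finset.univ.filter (fun g : G => orderOf g = 3)) (t := (Finset.univ : Finset (Sylow 3 G)))
    (fun (g : G) (Q : Sylow 3 G) => g ∈ (Q : Subgroup G))
  have hL : ∀ g ∈ Finset.univ.filter (fun g : G => orderOf g = 3),
      ((Finset.univ : Finset (Sylow 3 G)).bipartiteAbove (fun (g : G) (Q : Sylow 3 G) => g ∈ (Q : Subgroup G)) g).card = 1 := by
    intro g hg
    have hg3 : orderOf g = 3 := (Finset.mem_filter.mp hg).2
    obtain ⟨Q₀, hQ₀⟩ := hex g hg3
    rw [Finset.card_eq_one]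
    refine ⟨Q₀, ?_⟩
    ext Q
    simp only [Finset.bipartiteAbove, Finset.mem_filter, Finset.mem_univ, true_and, Finset.mem_singleton]
    exact ⟨fun hq => hTI g hg3 Q Q₀ hq hQ₀, fun hq => hq ▸ hQ₀⟩
  have hR : ∀ Q ∈ (Finset.univ : Finset (Sylow 3 G)),
      ((Finset.univ.filter (fun g : G => orderOf g = 3)).bipartiteBelow (fun (g : G) (Q : Sylow 3 G) => g ∈ (Q : Subgroup G)) Q).card = 8 := by
    intro Q _
    have e1 : (Finset.univ.filter (fun g : G => orderOf g = 3)).bipartiteBelow (fun (g : G) (Q : Sylow 3 G) => g ∈ (Q : Subgroup G)) Q =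
        (Finset.univ.filter (fun g : G => g ∈ (Q : Subgroup G))).erase 1 := by
      ext g
      simp only [Finset.bipartiteBelow, Finset.mem_filter, Finset.mem_univ, true_and, Finset.mem_erase]
      constructor
      · rintro ⟨hg3, hgQ⟩
        refine ⟨?_, hgQ⟩
        rintro rfl
        rw [orderOf_one] at hg3
        omega
      · rintro ⟨hg1, hgQ⟩
        refine ⟨?_, hgQ⟩
        have h6 := orderOf_dvd_natCard (⟨g, hgQ⟩ : (Q : Subgroup G))
        rw [Subgroup.orderOf_mk, hcardS Q] at h6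
        have h7 : orderOf g = 1 ∨ orderOf g = 3 ∨ orderOf g = 9 := by
          have key : ∀ d, d ≤ 9 → d ∣ 9 → d = 1 ∨ d = 3 ∨ d = 9 := by decide
          exact key _ (Nat.le_of_dvd (by norm_num) h6) h6
        rcases h7 with h7 | h7 | h7
        · exact absurd (orderOf_eq_one_iff.mp h7) hg1
        · exact h7
        · exact absurd h7 (hno9 g)
    rw [e1, Finset.card_erase_of_mem (by simp [one_mem])]
    have e2 : (Finset.univ.filter (fun g : G => g ∈ (Q : Subgroup G))).card = 9 := by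
      rw [← hcardS Q, Nat.card_eq_fintype_card, Fintype.card_subtype]
    rw [e2]
  rw [Finset.sum_congr rfl hL, Finset.sum_congr rfl hR] at hcount
  simp only [Finset.sum_const, smul_eq_mul, mul_one, hΩ, Finset.card_univ] at hcount
  rw [← Nat.card_eq_fintype_card] at hcount
  have hn55 : Nat.card (Sylow 3 G) = 55 := by omega
  have h6 := (h5 P).2
  rw [hn55, h] at h6
  omega

end Cfsg.Agent.S0434
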