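import Cfsg.Statements.S0436
import Mathlib
import Cfsg.Agent.Lib.Golay.ThreeTrans

set_option autoImplicit false
open Cfsg

namespace Cfsg.Agent.S0436

/-- For distinct commuting members a, b of a set of 3-transpositions E, a member e of E centralises the product a * b if and only if it centralises both a and b. -/
theorem result {G : Type*} [Group G] {E : Set G} (hE : Cfsg.IsThreeTranspositionSet E) {a b e : G} (ha : a ∈ E) (hb : b ∈ E) (he : e ∈ E) (hab : a ≠ b) (hcomm : Commute a b) : Commute e (a * b) ↔ (Commute e a ∧ Commute e b) := by
  exact Cfsg.Agent.Lib.Golay.ThreeTrans.commute_mul_iff hE ha hb he hab hcomm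

end Cfsg.Agent.S0436
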