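import Cfsg.Statements.S0497
import Mathlib
import Cfsg.Agent.S0254
import Cfsg.Agent.S0344
import Cfsg.Agent.S0991
import Cfsg.Agent.Lib.SmallSimple.Tools
import Cfsg.Agent.Lib.Classical.Basic

set_option autoImplicit false
open Cfsg

namespace Cfsg.Agent.S0497

open Subgroup

section
variable {G : Type*} [Group G] [Finite G] [IsSimpleGroup G]

lemma index_ge (hnc : ¬ IsMulCommutative G) (h : Nat.card G = 360) (H : Subgroup G) (hH : H ≠ ⊤) :
    6 ≤ H.index := by
  have h1 := Lib.Cl.two_mul_card_dvd_factorial_index (Lib.SmallSimple.two_lt_card hnc) H hH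
  rw [h] at h1
  by_contra hlt
  push Not at hlt
  have h2 : H.index ≤ 5 := by omega
  have h3 : H.index.factorial ≤ 120 := by
    calc _ ≤ (5).factorial := Nat.factorial_le h2
      _ = 120 := rfl
  have := Nat.le_of_dvd (Nat.factorial_pos _) h1
  omega

/-- A subgroup of index six gives the isomorphism. -/
lemma iso_of_index_six (hnc : ¬ IsMulCommutative G) (h : Nat.card G = 360) (H : Subgroup G)
    (hH : H.index = 6) : Nonempty (G ≃* alternatingGroup (Fin 6)) := by
  have hne : H ≠ ⊤ := by
    rintro rfl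
    simp at hH
  obtain ⟨f, hf⟩ := Cfsg.Agent.S0991.result hnc H hne
  have key : ∀ k, k = 6 → (∃ f : G →* ↥(alternatingGroup (Fin k)), Function.Injective f) →
      ∃ f : G →* ↥(alternatingGroup (Fin 6)), Function.Injective f := by
    rintro k rfl h
    exact h
  obtain ⟨f', hf'⟩ := key _ hH ⟨f, hf⟩
  have hc : Nat.card (alternatingGroup (Fin 6)) = 360 := by
    rw [Nat.card_eq_fintype_card]
    have := two_mul_card_alternatingGroup (α := Fin 6)
    rw [Fintype.card_perm, Fintype.card_fin] at this
    have h720 : (6).factorial = 720 := rfl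
    omega
  have hb : Function.Bijective f' := by
    rw [Nat.bijective_iff_injective_and_card]
    exact ⟨hf', by rw [h, hc]⟩
  exact ⟨MulEquiv.ofBijective f' hb⟩

lemma sylow_comm (P : Sylow 3 G) (hP : Nat.card (P : Subgroup G) = 9) {x y : G}
    (hx : x ∈ (P : Subgroup G)) (hy : y ∈ (P : Subgroup G)) : x * y = y * x := by
  haveI : Fact (Nat.Prime 3) := ⟨by norm_num⟩
  have hp : Nat.card (P : Subgroup G) = 3 ^ 2 := by rw [hP]; norm_num
  letI := IsPGroup.commGroupOfCardEqPrimeSq hp
  have := mul_comm (⟨x, hx⟩ : (P : Subgroup G)) ⟨y, hy⟩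
  simpa using congrArg Subtype.val this

/-- Distinct Sylow 3-subgroups meet trivially. -/
lemma sylow3_ti (hnc : ¬ IsMulCommutative G) (h : Nat.card G = 360)
    (hc3 : ∀ R : Sylow 3 G, Nat.card (R : Subgroup G) = 9)
    (hT8 : ∀ R : Sylow 2 G, Nat.card (R : Subgroup G) = 8)
    (P Q : Sylow 3 G) (hne : P ≠ Q) : (P : Subgroup G) ⊓ (Q : Subgroup G) = ⊥ := by
  classical
  by_contra hD
  haveI : Fact (Nat.Prime 3) := ⟨by norm_num⟩
  haveI : Fact (Nat.Prime 2) := ⟨by norm_num⟩
  obtain ⟨z, hz, hz1⟩ := (Subgroup.bot_or_exists_ne_one _).resolve_left hD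
  have hzP : z ∈ (P : Subgroup G) := hz.1
  have hzQ : z ∈ (Q : Subgroup G) := hz.2
  set X : Subgroup G := centralizer ({z} : Set G) with hX
  have hPX : (P : Subgroup G) ≤ X := by
    intro x hx
    rw [hX, mem_centralizer_singleton_iff]
    exact sylow_comm P (hc3 P) hx hzP
  have hQX : (Q : Subgroup G) ≤ X := by
    intro x hx
    rw [hX, mem_centralizer_singleton_iff]
    exact sylow_comm Q (hc3 Q) hx hzQ
  have hXne : X ≠ ⊤ := Lib.SmallSimple.centralizer_ne_top hnc hz1
  have hidx := index_ge hnc h X hXne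
  have hmul : X.index * Nat.card X = 360 := by rw [← h]; exact X.index_mul_card
  have h36 := Lib.SmallSimple.card_ge_of_two_sylow X P Q hne hPX hQX
  rw [hc3 P] at h36
  have h9 : 9 ∣ Nat.card X := by
    rw [← hc3 P]
    exact Subgroup.card_dvd_of_le hPX
  have hX360 : Nat.card X ∣ 360 := ⟨X.index, by rw [← hmul]; ring⟩
  have hle60 : Nat.card X ≤ 60 := by
    by_contra hlt
    push Not at hlt
    have : 6 * 61 ≤ X.index * Nat.card X := Nat.mul_le_mul hidx hlt
    omega
  have hcases : Nat.card X = 36 ∨ Nat.card X = 45 := by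
    have : ∀ n, n ≤ 60 → 36 ≤ n → 9 ∣ n → n ∣ 360 → n = 36 ∨ n = 45 := by decide +kernel
    exact this _ hle60 (by omega) h9 hX360
  let P' : Sylow 3 X := P.subtype hPX
  let Q' : Sylow 3 X := Q.subtype hQX
  have hne' : P' ≠ Q' := by
    intro h
    apply hne
    apply Sylow.ext
    have h1 : (P' : Subgroup X).map X.subtype = (Q' : Subgroup X).map X.subtype := by rw [h]
    have h2 : ∀ (S : Sylow 3 G) (hS : (S : Subgroup G) ≤ X),
        (((S.subtype hS : Sylow 3 X) : Subgroup X)).map X.subtype = (S : Subgroup G) := by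
      intro S hS
      show ((S : Subgroup G).subgroupOf X).map X.subtype = S
      rw [Subgroup.map_subgroupOf_eq_of_le hS]
    rw [h2 P hPX, h2 Q hQX] at h1
    exact h1
  have hn1 : Nat.card (Sylow 3 X) ≠ 1 := by
    intro h1
    haveI := (Nat.card_eq_one_iff_unique.mp h1).1
    exact hne' (Subsingleton.elim _ _)
  have hn3 : Nat.card (Sylow 3 X) % 3 = 1 := by
    have := card_sylow_modEq_one 3 X
    exact this
  have hP'c : Nat.card (P' : Subgroup X) = 9 := by
    have h6 : Nat.card (P' : Subgroup X) = Nat.card (P : Subgroup G) :=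
      Nat.card_congr (Subgroup.subgroupOfEquivOfLe hPX).toEquiv
    rw [h6, hc3 P]
  have hndvd : Nat.card (Sylow 3 X) ∣ (P' : Subgroup X).index := P'.card_dvd_index
  have hidx' : (P' : Subgroup X).index * 9 = Nat.card X := by
    have := (P' : Subgroup X).index_mul_card
    rwa [hP'c] at this
  have hX36 : Nat.card X = 36 := by
    rcases hcases with hc | hc
    · exact hc
    · exfalso
      have hi5 : (P' : Subgroup X).index = 5 := by omega
      rw [hi5] at hndvd
      have : ∀ n, n ≤ 5 → n ∣ 5 → n % 3 = 1 → n = 1 := by decide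
      exact hn1 (this _ (Nat.le_of_dvd (by norm_num) hndvd) hndvd hn3)
  have hi4 : (P' : Subgroup X).index = 4 := by omega
  have hn4 : Nat.card (Sylow 3 X) = 4 := by
    rw [hi4] at hndvd
    have : ∀ n, n ≤ 4 → n ∣ 4 → n % 3 = 1 → n ≠ 1 → n = 4 := by decide
    exact this _ (Nat.le_of_dvd (by norm_num) hndvd) hndvd hn3 hn1
  have hNc : Nat.card (normalizer ((P' : Subgroup X) : Set X)) = 9 := by
    have h1 : Nat.card (Sylow 3 X) * Nat.card (normalizer ((P' : Subgroup X) : Set X)) = Nat.card X := by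
      rw [P'.card_eq_index_normalizer]
      exact Subgroup.index_mul_card _
    rw [hn4, hX36] at h1
    omega
  have hNP : normalizer ((P' : Subgroup X) : Set X) = (P' : Subgroup X) := by
    symm
    apply Subgroup.eq_of_le_of_card_ge Subgroup.le_normalizer
    rw [hNc, hP'c]
  have hbur : normalizer ((P' : Subgroup X) : Set X) ≤ centralizer ((P' : Subgroup X) : Set X) := by
    rw [hNP]
    intro x hx
    rw [mem_centralizer_iff]
    intro y hy
    apply Subtype.ext
    have hx' : (x : G) ∈ (P : Subgroup G) := hx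
    have hy' : (y : G) ∈ (P : Subgroup G) := hy
    exact sylow_comm P (hc3 P) hy' hx'
  obtain ⟨P'', N, hNn, hcomp⟩ := Cfsg.Agent.Lib.Transfer.hasNormalPComplement_of_burnside P' hbur
  have hP''c : Nat.card (P'' : Subgroup X) = 9 := by
    rw [P''.card_eq_multiplicity, ← P'.card_eq_multiplicity, hP'c]
  have hNcard : Nat.card N = 4 := by
    have := hcomp.card_mul_card
    rw [hP''c, hX36] at this
    omega
  let V : Subgroup G := N.map X.subtype
  have hVc : Nat.card V = 4 := by
    rw [Subgroup.card_map_of_injective X.subtype_injective]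
    exact hNcard
  have hXN : X ≤ normalizer (V : Set G) := by
    intro x hx
    rw [mem_normalizer_iff]
    intro v
    constructor
    · rintro ⟨n, hn, rfl⟩
      refine ⟨(⟨x, hx⟩ : X) * n * (⟨x, hx⟩ : X)⁻¹, hNn.conj_mem n hn _, ?_⟩
      simp
    · rintro ⟨n, hn, hv⟩
      have hv' : v = (X.subtype ((⟨x, hx⟩ : X)⁻¹ * n * (⟨x, hx⟩ : X))) := by
        have h5 : (X.subtype n) = x * v * x⁻¹ := hv
        simp only [map_mul, map_inv, h5]
        simp [mul_assoc]
      rw [hv']
      exact ⟨_, by
        have := hNn.conj_mem n hn (⟨x, hx⟩ : X)⁻¹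
        simpa using this, rfl⟩
  have hV2 : IsPGroup 2 V := IsPGroup.of_card (n := 2) (by rw [hVc]; norm_num)
  obtain ⟨T, hVT⟩ := hV2.exists_le_sylow
  have hTc := hT8 T
  have hTN : (T : Subgroup G) ≤ normalizer (V : Set G) := by
    have hrel : (V.subgroupOf T).index = 2 := by
      have h1 := (V.subgroupOf (T : Subgroup G)).index_mul_card
      have h2 : Nat.card (V.subgroupOf (T : Subgroup G)) = 4 := by
        rw [← hVc]
        exact Nat.card_congr (Subgroup.subgroupOfEquivOfLe hVT).toEquiv
      rw [h2, hTc] at h1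
      omega
    haveI hnorm : (V.subgroupOf (T : Subgroup G)).Normal := Subgroup.normal_of_index_eq_two hrel
    intro t ht
    rw [mem_normalizer_iff]
    intro v
    constructor
    · intro hv
      have h3 := hnorm.conj_mem (⟨v, hVT hv⟩ : (T : Subgroup G))
        (by rw [Subgroup.mem_subgroupOf]; exact hv) (⟨t, ht⟩ : (T : Subgroup G))
      rw [Subgroup.mem_subgroupOf] at h3
      simpa using h3
    · intro hv
      have hvT : v ∈ (T : Subgroup G) := by
        have h5 := (T : Subgroup G).mul_mem ((T : Subgroup G).mul_mem ((T : Subgroup G).inv_mem ht) (hVT hv)) ht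
        simpa [mul_assoc] using h5
      have h3 := hnorm.conj_mem (⟨t * v * t⁻¹, (T : Subgroup G).mul_mem ((T : Subgroup G).mul_mem ht hvT) ((T : Subgroup G).inv_mem ht)⟩ : (T : Subgroup G))
        (by rw [Subgroup.mem_subgroupOf]; exact hv) (⟨t, ht⟩⁻¹ : (T : Subgroup G))
      rw [Subgroup.mem_subgroupOf] at h3
      simpa [mul_assoc] using h3
  have hd36 : 36 ∣ Nat.card (normalizer (V : Set G)) := by
    rw [← hX36]
    exact Subgroup.card_dvd_of_le hXN
  have hd8 : 8 ∣ Nat.card (normalizer (V : Set G)) := by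
    rw [← hTc]
    exact Subgroup.card_dvd_of_le hTN
  have hd72 : 72 ∣ Nat.card (normalizer (V : Set G)) :=
    Nat.Coprime.mul_dvd_of_dvd_of_dvd (m := 9) (n := 8) (by norm_num)
      (Dvd.dvd.trans (by norm_num) hd36) hd8
  have hNtop : normalizer (V : Set G) = ⊤ := by
    by_contra hne2
    have h1 := index_ge hnc h _ hne2
    have h2 : (normalizer (V : Set G)).index * Nat.card (normalizer (V : Set G)) = 360 := by
      rw [← h]; exact Subgroup.index_mul_card _
    have h3 : 72 ≤ Nat.card (normalizer (V : Set G)) := Nat.le_of_dvd (by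
      by_contra h0
      have : Nat.card (normalizer (V : Set G)) = 0 := by omega
      rw [this] at h2
      omega) hd72
    have : 6 * 72 ≤ (normalizer (V : Set G)).index * Nat.card (normalizer (V : Set G)) :=
      Nat.mul_le_mul h1 h3
    omega
  have hVn : V.Normal := Subgroup.normalizer_eq_top_iff.mp hNtop
  rcases IsSimpleGroup.eq_bot_or_eq_top_of_normal V hVn with h0 | h0
  · rw [h0, Subgroup.card_bot] at hVc
    omega
  · rw [h0, Subgroup.card_top, h] at hVc
    omega

end

/-- The double count: a group of order 360 acting on 10 points with point stabilizers of order 36,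
two-point stabilizers of order 4, and 144 elements without fixed points: no non-identity element
fixes three points. -/
lemma no_three {G Ω : Type*} [Group G] [Fintype G] [DecidableEq G] [MulAction G Ω] [Fintype Ω]
    [DecidableEq Ω]
    (hΩ : Fintype.card Ω = 10) (hG : Fintype.card G = 360)
    (hs : ∀ a : Ω, (Finset.univ.filter (fun g : G => g • a = a)).card = 36)
    (hs2 : ∀ a b : Ω, a ≠ b → (Finset.univ.filter (fun g : G => g • a = a ∧ g • b = b)).card = 4)
    (A : Finset G) (hA : 144 ≤ A.card) (hA' : ∀ g ∈ A, ∀ a : Ω, g • a ≠ a)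
    (g : G) (a b c : Ω) (hab : a ≠ b) (hbc : b ≠ c) (hac : a ≠ c)
    (ha : g • a = a) (hb : g • b = b) (hc : g • c = c) : g = 1 := by
  by_contra hg1
  let f : G → ℕ := fun g => (Finset.univ.filter (fun a : Ω => g • a = a)).card
  have S1 : ∑ g, f g = 360 := by
    have h1 : ∑ g, f g = ∑ a : Ω, (Finset.univ.filter (fun g : G => g • a = a)).card := by
      simp only [f, Finset.card_filter]
      exact Finset.sum_comm
    rw [h1]
    simp [hs, hΩ]
  have S2 : ∑ g, f g * f g = 720 := by
    have h1 : ∑ g, f g * f g =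
        ∑ a : Ω, ∑ b : Ω, (Finset.univ.filter (fun g : G => g • a = a ∧ g • b = b)).card := by
      simp only [f, Finset.card_filter, Finset.sum_mul_sum]
      rw [Finset.sum_comm]
      refine Finset.sum_congr rfl (fun a _ => ?_)
      rw [Finset.sum_comm]
      refine Finset.sum_congr rfl (fun b _ => Finset.sum_congr rfl (fun g _ => ?_))
      by_cases h1 : g • a = a <;> by_cases h2 : g • b = b <;> simp [h1, h2]
    have hrow : ∀ a : Ω, ∑ b : Ω, (Finset.univ.filter (fun g : G => g • a = a ∧ g • b = b)).card = 72 := by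
      intro a
      have h2 : ∀ b : Ω, (Finset.univ.filter (fun g : G => g • a = a ∧ g • b = b)).card =
          4 + (if b = a then 32 else 0) := by
        intro b
        split_ifs with hb
        · subst hb
          simp [hs]
        · simp [hs2 a b (Ne.symm hb)]
      simp only [h2, Finset.sum_add_distrib, Finset.sum_const, Finset.card_univ, hΩ,
        Finset.sum_ite_eq', Finset.mem_univ, if_true, smul_eq_mul]
    rw [h1]
    simp [hrow, hΩ]
  let w : G → ℤ := fun g => ((f g : ℤ) - 1) * ((f g : ℤ) - 2)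
  have Sw : ∑ g, w g = 360 := by
    have h1 : ∀ g, w g = ((f g * f g : ℕ) : ℤ) - 3 * (f g : ℤ) + 2 := by
      intro g
      push_cast
      simp only [w]
      ring
    simp only [h1, Finset.sum_add_distrib, Finset.sum_sub_distrib, ← Finset.mul_sum,
      ← Nat.cast_sum, S1, S2, Finset.sum_const, Finset.card_univ, hG]
    norm_num
  have hw0 : ∀ g, 0 ≤ w g := by
    intro g
    simp only [w]
    rcases Nat.lt_or_ge (f g) 1 with h1 | h1
    · have : f g = 0 := by omega
      rw [this]
      norm_num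
    · rcases Nat.lt_or_ge (f g) 2 with h2 | h2
      · have : f g = 1 := by omega
        rw [this]
        norm_num
      · have h3 : (2 : ℤ) ≤ f g := by exact_mod_cast h2
        have h4 : (0 : ℤ) ≤ (f g : ℤ) - 1 := by linarith
        have h5 : (0 : ℤ) ≤ (f g : ℤ) - 2 := by linarith
        exact mul_nonneg h4 h5
  have hf1 : f 1 = 10 := by
    simp [f, hΩ]
  have hw1 : w 1 = 72 := by
    simp only [w, hf1]
    norm_num
  have hfg : 3 ≤ f g := by
    have h1 : ({a, b, c} : Finset Ω) ⊆ Finset.univ.filter (fun a : Ω => g • a = a) := by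
      intro x hx
      simp only [Finset.mem_insert, Finset.mem_singleton] at hx
      rcases hx with rfl | rfl | rfl <;> simp [*]
    have h2 := Finset.card_le_card h1
    rw [Finset.card_eq_three.mpr ⟨a, b, c, hab, hac, hbc, rfl⟩] at h2
    exact h2
  have hwg : 2 ≤ w g := by
    simp only [w]
    have h3 : (3 : ℤ) ≤ f g := by exact_mod_cast hfg
    nlinarith
  have hwA : ∀ x ∈ A, w x = 2 := by
    intro x hx
    have h1 : f x = 0 := by
      simp only [f, Finset.card_eq_zero]
      apply Finset.filter_eq_empty_iff.mpr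
      intro y _
      exact hA' x hx y
    simp only [w, h1]
    norm_num
  have h1A : (1 : G) ∉ A := fun h1 => hA' 1 h1 a (one_smul G a)
  have hgA : g ∉ A := fun h1 => hA' g h1 a ha
  have hle : ∑ x ∈ insert 1 (insert g A), w x ≤ ∑ x, w x :=
    Finset.sum_le_sum_of_subset_of_nonneg (Finset.subset_univ _) (fun x _ _ => hw0 x)
  have hg1' : (1 : G) ∉ insert g A := by
    simp only [Finset.mem_insert, not_or]
    exact ⟨fun h => hg1 h.symm, h1A⟩
  rw [Finset.sum_insert hg1', Finset.sum_insert hgA, hw1, Sw,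
    Finset.sum_congr rfl hwA, Finset.sum_const, nsmul_eq_mul] at hle
  have h144 : (144 : ℤ) ≤ A.card := by exact_mod_cast hA
  linarith

lemma card_nine {F : Type*} [Field F] [Fintype F] (hq : 3 < Fintype.card F)
    (hcardP : Nat.card (Matrix.ProjectiveSpecialLinearGroup (Fin 2) F) = 360) :
    Fintype.card F = 9 := by
  have h1 := Cfsg.Agent.Lib.Classical.card_PSL (F := F) rfl 2 (by norm_num)
  rw [hcardP, Fin.prod_univ_two] at h1
  simp only [Fin.val_zero, Fin.val_one, pow_zero, pow_one] at h1
  generalize Fintype.card F = q at h1 hq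
  obtain ⟨r, rfl⟩ : ∃ r, q = r + 1 := ⟨q - 1, by omega⟩
  have e1 : (r + 1) ^ 2 - 1 = r * (r + 2) := by
    rw [Nat.sub_eq_iff_eq_add (Nat.one_le_pow _ _ (by omega))]
    ring
  have e2 : (r + 1) ^ 2 - (r + 1) = r * (r + 1) := by
    rw [Nat.sub_eq_iff_eq_add (by nlinarith)]
    ring
  rw [e1, e2, Nat.add_sub_cancel] at h1
  have hr3 : 3 ≤ r := by omega
  have h2 : Nat.gcd 2 r * 360 = (r + 2) * (r * (r + 1)) := by
    have hr0 : 0 < r := by omega
    apply Nat.eq_of_mul_eq_mul_left hr0
    rw [← mul_assoc] at h1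
    nlinarith
  have h3 : Nat.gcd 2 r ≤ 2 := Nat.gcd_le_left r (by norm_num)
  have hr8 : r ≤ 8 := by
    by_contra hlt
    push Not at hlt
    have : 9 ≤ r := hlt
    nlinarith
  interval_cases r <;> simp_all

section
variable {G : Type*} [Group G] [Finite G]

lemma trans_compl (hc3 : ∀ R : Sylow 3 G, Nat.card (R : Subgroup G) = 9)
    (hn10 : Nat.card (Sylow 3 G) = 10)
    (hTI : ∀ P Q : Sylow 3 G, P ≠ Q → (P : Subgroup G) ⊓ (Q : Subgroup G) = ⊥)
    (P Q Q' : Sylow 3 G) (hQ : Q ≠ P) (hQ' : Q' ≠ P) :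
    ∃ x ∈ (P : Subgroup G), x • Q = Q' := by
  classical
  haveI : Fact (Nat.Prime 3) := ⟨by norm_num⟩
  have hstab : MulAction.stabilizer (P : Subgroup G) Q = ⊥ := by
    rw [eq_bot_iff]
    intro u hu
    have h4 : (u : G) • Q = Q := hu
    have hnorm : (u : G) ∈ normalizer ((Q : Subgroup G) : Set G) :=
      Sylow.smul_eq_iff_mem_normalizer.mp h4
    have hpg : IsPGroup 3 (zpowers (u : G)) :=
      P.isPGroup'.to_le (by rw [zpowers_le]; exact u.2)
    have h5 : zpowers (u : G) ⊓ normalizer ((Q : Subgroup G) : Set G) =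
        zpowers (u : G) ⊓ (Q : Subgroup G) := hpg.inf_normalizer_sylow Q
    have h6 : (u : G) ∈ (Q : Subgroup G) := by
      have h7 : (u : G) ∈ zpowers (u : G) ⊓ normalizer ((Q : Subgroup G) : Set G) :=
        ⟨mem_zpowers _, hnorm⟩
      rw [h5] at h7
      exact h7.2
    have h7 : (u : G) ∈ (P : Subgroup G) ⊓ (Q : Subgroup G) := ⟨u.2, h6⟩
    rw [hTI P Q hQ.symm] at h7
    rw [Subgroup.mem_bot]
    exact Subtype.ext h7
  have horb : (MulAction.orbit (P : Subgroup G) Q).ncard = 9 := by
    have h3 := MulAction.index_stabilizer (P : Subgroup G) Q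
    rw [hstab, Subgroup.index_bot, hc3 P] at h3
    exact h3.symm
  have hsub : MulAction.orbit (P : Subgroup G) Q ⊆ {R : Sylow 3 G | R ≠ P} := by
    rintro _ ⟨x, rfl⟩ h1
    have h2 : (x : G) • P = P := by
      rw [Sylow.smul_eq_iff_mem_normalizer]
      exact Subgroup.le_normalizer x.2
    have h3 : (x : G) • Q = (x : G) • P := by
      rw [h2]
      exact h1
    exact hQ (smul_left_cancel _ h3)
  have hcompl : ({R : Sylow 3 G | R ≠ P}).ncard = 9 := by
    have h1 : ({R : Sylow 3 G | R ≠ P}) = ({P} : Set (Sylow 3 G))ᶜ := by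
      ext R
      simp
    rw [h1, Set.ncard_compl]
    · rw [Set.ncard_singleton, hn10]
  have heq := Set.eq_of_subset_of_ncard_le hsub (by rw [horb, hcompl]) (Set.toFinite _)
  have hQ'' : Q' ∈ MulAction.orbit (P : Subgroup G) Q := by
    rw [heq]
    exact hQ'
  obtain ⟨x, hx⟩ := hQ''
  exact ⟨x, x.2, hx⟩

end

set_option maxHeartbeats 1000000 in
/-- A simple group of order 360 is isomorphic to the alternating group of degree 6. -/
theorem result {G : Type*} [Group G] [Finite G] [IsSimpleGroup G]
    (h : Nat.card G = 360) : Nonempty (G ≃* alternatingGroup (Fin 6)) := by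
  classical
  haveI : Fintype G := Fintype.ofFinite G
  have hnc : ¬ IsMulCommutative G := Lib.SmallSimple.not_comm_of_not_prime (by rw [h]; norm_num)
  haveI : Fact (Nat.Prime 2) := ⟨by norm_num⟩
  haveI : Fact (Nat.Prime 3) := ⟨by norm_num⟩
  haveI : Fact (Nat.Prime 5) := ⟨by norm_num⟩
  obtain ⟨a1, a2, a3, -, a5⟩ := Lib.SmallSimple.sylow_facts (G := G) hnc 5 1 72
    (by rw [h]; norm_num) (by norm_num) (by norm_num)
  have hn5 : Nat.card (Sylow 5 G) = 6 ∨ Nat.card (Sylow 5 G) = 36 := by
    have : ∀ n, n ≤ 72 → n ∣ 72 → n % 5 = 1 → n ≠ 1 → n = 6 ∨ n = 36 := by decide +kernel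
    exact this _ (Nat.le_of_dvd (by norm_num) a1) a1 a2 a3
  rcases hn5 with h6 | h36
  · obtain ⟨P⟩ : Nonempty (Sylow 5 G) := inferInstance
    exact iso_of_index_six hnc h (normalizer ((P : Subgroup G) : Set G))
      ((P.card_eq_index_normalizer).symm.trans h6)
  obtain ⟨b1, b2, b3, b4, b5⟩ := Lib.SmallSimple.sylow_facts (G := G) hnc 3 2 40
    (by rw [h]; norm_num) (by norm_num) (by norm_num)
  obtain ⟨-, -, -, -, c5⟩ := Lib.SmallSimple.sylow_facts (G := G) hnc 2 3 45
    (by rw [h]; norm_num) (by norm_num) (by norm_num)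
  have hc3 : ∀ R : Sylow 3 G, Nat.card (R : Subgroup G) = 9 := fun R => by
    rw [(b5 R).1]; norm_num
  have hT8 : ∀ R : Sylow 2 G, Nat.card (R : Subgroup G) = 8 := fun R => by
    rw [(c5 R).1]; norm_num
  have hn10 : Nat.card (Sylow 3 G) = 10 := by
    have : ∀ n, n ≤ 40 → n ∣ 40 → n % 3 = 1 → n ≠ 1 → n = 4 ∨ n = 10 ∨ n = 40 := by decide +kernel
    rcases this _ (Nat.le_of_dvd (by norm_num) b1) b1 b2 b3 with h1 | h1 | h1
    · rw [h1, h] at b4
      exact absurd (Nat.le_of_dvd (by decide) b4) (by decide)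
    · exact h1
    · exfalso
      obtain ⟨P⟩ : Nonempty (Sylow 3 G) := inferInstance
      have hN := (b5 P).2
      rw [h1, h] at hN
      have hNc : Nat.card (normalizer ((P : Subgroup G) : Set G)) = 9 := by omega
      have hNP : normalizer ((P : Subgroup G) : Set G) = (P : Subgroup G) := by
        symm
        apply Subgroup.eq_of_le_of_card_ge Subgroup.le_normalizer
        rw [hNc, hc3 P]
      refine Lib.SmallSimple.false_of_normalizer_le_centralizer hnc (p := 3)
        (by rw [h]; norm_num) P ?_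
      rw [hNP]
      intro x hx
      rw [mem_centralizer_iff]
      intro y hy
      exact sylow_comm P (hc3 P) hy hx
  have hTI := sylow3_ti hnc h hc3 hT8
  have hNc : ∀ R : Sylow 3 G, Nat.card (normalizer ((R : Subgroup G) : Set G)) = 36 := by
    intro R
    have hN := (b5 R).2
    rw [hn10, h] at hN
    omega
  haveI : Fintype (Sylow 3 G) := Fintype.ofFinite _
  have hΩ : Fintype.card (Sylow 3 G) = 10 := by rw [← Nat.card_eq_fintype_card, hn10]
  have hG : Fintype.card G = 360 := by rw [← Nat.card_eq_fintype_card, h]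
  have hs : ∀ a : Sylow 3 G, (Finset.univ.filter (fun g : G => g • a = a)).card = 36 := by
    intro a
    rw [← hNc a]
    symm
    apply Nat.subtype_card
    intro x
    simp [Sylow.smul_eq_iff_mem_normalizer]
  have hs2c : ∀ a b : Sylow 3 G, a ≠ b → Nat.card {g : G // g • a = a ∧ g • b = b} = 4 := by
    intro a b hab
    let H : Subgroup G := normalizer ((a : Subgroup G) : Set G)
    have hHc : Nat.card H = 36 := hNc a
    have horb : (MulAction.orbit H b).ncard = 9 := by
      have heq : MulAction.orbit H b = ({a} : Set (Sylow 3 G))ᶜ := by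
        ext R
        constructor
        · rintro ⟨x, rfl⟩ h1
          have h2 : (x : G) • a = a := Sylow.smul_eq_iff_mem_normalizer.mpr x.2
          have h3 : (x : G) • b = (x : G) • a := by
            rw [h2]
            exact h1
          exact hab (smul_left_cancel _ h3).symm
        · intro hR
          obtain ⟨x, hx, hxb⟩ := trans_compl hc3 hn10 hTI a b R hab.symm hR
          exact ⟨⟨x, Subgroup.le_normalizer hx⟩, hxb⟩
      rw [heq, Set.ncard_compl, Set.ncard_singleton, hn10]
    have h3 := MulAction.index_stabilizer H b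
    have h4 := (MulAction.stabilizer H b).index_mul_card
    rw [h3, horb, hHc] at h4
    have h5 : Nat.card (MulAction.stabilizer H b) = Nat.card {g : G // g • a = a ∧ g • b = b} :=
      Nat.card_congr
        { toFun := fun x => ⟨x.1.1, Sylow.smul_eq_iff_mem_normalizer.mpr x.1.2, x.2⟩
          invFun := fun y => ⟨⟨y.1, Sylow.smul_eq_iff_mem_normalizer.mp y.2.1⟩, y.2.2⟩
          left_inv := fun x => rfl
          right_inv := fun y => rfl }
    omega
  have hs2 : ∀ a b : Sylow 3 G, a ≠ b →
      (Finset.univ.filter (fun g : G => g • a = a ∧ g • b = b)).card = 4 := by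
    intro a b hab
    rw [← hs2c a b hab]
    symm
    apply Nat.subtype_card
    intro x
    simp
  haveI : Fintype (Sylow 5 G) := Fintype.ofFinite _
  have hord : ∀ Q : Sylow 5 G, ∀ g ∈ (Q : Subgroup G), g ≠ 1 → zpowers g = (Q : Subgroup G) := by
    intro Q g hg hg1
    have hQc : Nat.card (Q : Subgroup G) = 5 := by rw [(a5 Q).1]; norm_num
    apply Subgroup.eq_of_le_of_card_ge (by rw [zpowers_le]; exact hg)
    rw [Nat.card_zpowers, hQc]
    have h1 : orderOf g ∣ 5 := by
      rw [← hQc]
      exact Subgroup.orderOf_dvd_natCard _ hg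
    have h2 : orderOf g ≠ 1 := by
      rw [Ne, orderOf_eq_one_iff]
      exact hg1
    rcases (Nat.dvd_prime (by norm_num : Nat.Prime 5)).mp h1 with h3 | h3
    · exact absurd h3 h2
    · exact h3.ge
  let T : Sylow 5 G → Finset G := fun Q => Finset.univ.filter (fun g : G => g ∈ (Q : Subgroup G) ∧ g ≠ 1)
  have hTc : ∀ Q, (T Q).card = 4 := by
    intro Q
    have hQc : Nat.card (Q : Subgroup G) = 5 := by rw [(a5 Q).1]; norm_num
    have h1 : (Finset.univ.filter (fun g : G => g ∈ (Q : Subgroup G))).erase 1 = T Q := by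
      ext x
      simp [T, and_comm]
    rw [← h1, Finset.card_erase_of_mem (by simp [one_mem])]
    have h2 : (Finset.univ.filter (fun g : G => g ∈ (Q : Subgroup G))).card = 5 := by
      refine Eq.trans ?_ hQc
      symm
      apply Nat.subtype_card
      intro x
      simp
    rw [h2]
  let A : Finset G := Finset.univ.biUnion T
  have hAc : 144 ≤ A.card := by
    have h1 : A.card = ∑ Q : Sylow 5 G, (T Q).card := by
      apply Finset.card_biUnion
      intro Q _ Q' _ hne
      show Disjoint (T Q) (T Q')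
      rw [Finset.disjoint_left]
      intro x hx hx'
      have h3 : x ∈ (Q : Subgroup G) ∧ x ≠ 1 := by simpa [T] using hx
      have h4 : x ∈ (Q' : Subgroup G) ∧ x ≠ 1 := by simpa [T] using hx'
      apply hne
      apply Sylow.ext
      rw [← hord Q x h3.1 h3.2, ← hord Q' x h4.1 h4.2]
    rw [h1]
    simp only [hTc, Finset.sum_const, Finset.card_univ, smul_eq_mul]
    rw [← Nat.card_eq_fintype_card, h36]
  have hA' : ∀ g ∈ A, ∀ a : Sylow 3 G, g • a ≠ a := by
    intro g hg a hga
    obtain ⟨Q, -, hQ⟩ := Finset.mem_biUnion.mp hg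
    have hQ' : g ∈ (Q : Subgroup G) ∧ g ≠ 1 := by simpa [T] using hQ
    have h1 : orderOf g = 5 := by
      have h2 := hord Q g hQ'.1 hQ'.2
      have h3 : Nat.card (zpowers g) = 5 := by
        rw [h2, (a5 Q).1]
        norm_num
      rwa [Nat.card_zpowers] at h3
    have h2 : g ∈ normalizer ((a : Subgroup G) : Set G) := Sylow.smul_eq_iff_mem_normalizer.mp hga
    have h3 := Subgroup.orderOf_dvd_natCard _ h2
    rw [h1, hNc a] at h3
    omega
  obtain ⟨a₀, b₀, hab₀⟩ : ∃ a b : Sylow 3 G, a ≠ b :=
    Fintype.one_lt_card_iff.mp (by rw [hΩ]; norm_num)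
  obtain ⟨g₀, hg₀, hg₀1⟩ : ∃ g ∈ Finset.univ.filter (fun g : G => g • a₀ = a₀ ∧ g • b₀ = b₀), g ≠ 1 :=
    Finset.exists_mem_ne (by rw [hs2 a₀ b₀ hab₀]; norm_num) 1
  have hg₀' : g₀ • a₀ = a₀ ∧ g₀ • b₀ = b₀ := by simpa using hg₀
  have hZ : Cfsg.IsZassenhausGroup G (Sylow 3 G) := by
    refine ⟨?_, ?_, ?_, ⟨g₀, hg₀1, a₀, b₀, hab₀, hg₀'.1, hg₀'.2⟩, ?_⟩
    · constructor
      intro g₁ g₂ hh
      let K : Subgroup G := (MulAction.toPermHom G (Sylow 3 G)).ker
      have hmem : ∀ g : G, g ∈ K ↔ ∀ a : Sylow 3 G, g • a = a := by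
        intro g
        rw [MonoidHom.mem_ker]
        constructor
        · intro h1 a
          have h2 := congrArg (fun s : Equiv.Perm (Sylow 3 G) => s a) h1
          simpa using h2
        · intro h1
          ext1 a
          simpa using h1 a
      rcases IsSimpleGroup.eq_bot_or_eq_top_of_normal K inferInstance with h0 | h0
      · have h1 : g₁⁻¹ * g₂ ∈ K := by
          rw [hmem]
          intro a
          rw [mul_smul, ← hh a, inv_smul_smul]
        rw [h0, Subgroup.mem_bot] at h1
        exact (inv_mul_eq_one.mp h1)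
      · exfalso
        have h1 : ∀ g : G, g • a₀ = a₀ := fun g => (hmem g).mp (by rw [h0]; trivial) a₀
        have h2 := hs a₀
        rw [Finset.filter_true_of_mem (fun g _ => h1 g), Finset.card_univ, hG] at h2
        omega
    · rw [MulAction.is_two_pretransitive_iff]
      intro a b c d hab hcd
      obtain ⟨g₁, hg₁⟩ := MulAction.exists_smul_eq G a c
      have h1 : g₁ • b ≠ c := by
        intro h1
        rw [← hg₁] at h1
        exact hab (smul_left_cancel _ h1).symm
      obtain ⟨x, hx, hxb⟩ := trans_compl hc3 hn10 hTI c (g₁ • b) d h1 hcd.symm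
      refine ⟨x * g₁, ?_, ?_⟩
      · rw [mul_smul, hg₁]
        exact Sylow.smul_eq_iff_mem_normalizer.mpr (Subgroup.le_normalizer hx)
      · rw [mul_smul, hxb]
    · intro g a b c hab hbc hac ha hb hc
      exact no_three hΩ hG hs hs2 A hAc hA' g a b c hab hbc hac ha hb hc
    · intro N hN htr
      rcases IsSimpleGroup.eq_bot_or_eq_top_of_normal N hN with h0 | h0
      · exfalso
        obtain ⟨x, hx⟩ := htr.exists_smul_eq a₀ b₀
        have h1 : (x : G) = 1 := Subgroup.mem_bot.mp (h0.le x.2)
        have h2 : (x : G) • a₀ = b₀ := hx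
        rw [h1, one_smul] at h2
        exact hab₀ h2
      · refine ⟨a₀, ?_⟩
        intro hbot
        have hmem : (⟨g₀, by rw [h0]; trivial⟩ : N) ∈ MulAction.stabilizer N a₀ := hg₀'.1
        rw [hbot, Subgroup.mem_bot] at hmem
        exact hg₀1 (congrArg Subtype.val hmem)
  have heven : Even (Nat.card ↥(MulAction.stabilizer G a₀ ⊓ MulAction.stabilizer G b₀)) := by
    have h1 : Nat.card ↥(MulAction.stabilizer G a₀ ⊓ MulAction.stabilizer G b₀) =
        Nat.card {g : G // g • a₀ = a₀ ∧ g • b₀ = b₀} :=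
      Nat.card_congr (Equiv.subtypeEquivRight (fun x => Iff.rfl))
    rw [h1, hs2c a₀ b₀ hab₀]
    exact ⟨2, by norm_num⟩
  obtain ⟨F, iF, iT, hq, ⟨e⟩⟩ := Cfsg.Agent.S0344.result hZ hab₀ heven
  have hcardP : Nat.card (Matrix.ProjectiveSpecialLinearGroup (Fin 2) F) = 360 := by
    rw [← Nat.card_congr e.toEquiv, h]
  have hq9 : Fintype.card F = 9 := card_nine hq hcardP
  exact ⟨e.trans (Classical.choice (Cfsg.Agent.S0254.result hq9))⟩

end Cfsg.Agent.S0497
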