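import Cfsg.Statements.S0730
import Mathlib
import Cfsg.Agent.Lib.Perm.SharpOdd

set_option autoImplicit false
open Cfsg

namespace Cfsg.Agent.S0730

/-- A sharply triply transitive group of degree `p^f + 1`, `p` an odd prime and `f` odd, is isomorphic to the projective general linear group of degree 2 over the field with `p^f` elements (for even `f` there is a second, twisted, group). -/
theorem result {α : Type*} [Fintype α] [DecidableEq α] {p f : ℕ} (hp : p.Prime) (hp2 : p ≠ 2) (hfo : Odd f) (hα : Fintype.card α = p ^ f + 1) (G : Subgroup (Equiv.Perm α)) (h3 : MulAction.IsMultiplyPretransitive G α 3) (hsharp : ∀ x : Fin 3 ↪ α, MulAction.stabilizer G x = ⊥) : ∃ (F : Type) (_ : Field F) (_ : Fintype F), Fintype.card F = p ^ f ∧ Nonempty (G ≃* Matrix.ProjGenLinGroup (Fin 2) F) := by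
  classical
  let e : α ≃ Fin (p ^ f + 1) := Fintype.equivFinOfCardEq hα
  let κ : Equiv.Perm α ≃* Equiv.Perm (Fin (p ^ f + 1)) := e.permCongrHom
  have hκ : ∀ (g : Equiv.Perm α) (z : Fin (p ^ f + 1)), κ g z = e (g (e.symm z)) := fun _ _ => rfl
  have h3' : MulAction.IsMultiplyPretransitive ↥(G.map κ.toMonoidHom) (Fin (p ^ f + 1)) 3 := by
    refine ⟨fun x y => ?_⟩
    obtain ⟨g, hg⟩ := MulAction.IsPretransitive.exists_smul_eq (M := G) (x.trans e.symm.toEmbedding)
      (y.trans e.symm.toEmbedding)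
    refine ⟨⟨κ g, ⟨g, g.2, rfl⟩⟩, ?_⟩
    ext i
    have h1 := congrArg (fun w : Fin 3 ↪ α => w i) hg
    have h2 : (g : Equiv.Perm α) (e.symm (x i)) = e.symm (y i) := h1
    show ((κ g (x i) : Fin (p ^ f + 1)) : ℕ) = _
    rw [hκ, h2]
    simp
  have hsharp' : ∀ x : Fin 3 ↪ Fin (p ^ f + 1), MulAction.stabilizer ↥(G.map κ.toMonoidHom) x = ⊥ := by
    intro x
    rw [Subgroup.eq_bot_iff_forall]
    rintro ⟨_, g, hg, rfl⟩ hx
    have h0 : (⟨g, hg⟩ : G) ∈ MulAction.stabilizer G (x.trans e.symm.toEmbedding) := by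
      rw [MulAction.mem_stabilizer_iff]
      ext i
      have h1 := congrArg (fun w : Fin 3 ↪ Fin (p ^ f + 1) => w i) (MulAction.mem_stabilizer_iff.mp hx)
      have h2 : κ g (x i) = x i := h1
      rw [hκ] at h2
      show g (e.symm (x i)) = e.symm (x i)
      rw [Equiv.eq_symm_apply]
      exact h2
    rw [hsharp, Subgroup.mem_bot] at h0
    have h4 : g = 1 := congrArg Subtype.val h0
    apply Subtype.ext
    show κ g = 1
    rw [h4, map_one]
  obtain ⟨F, i1, i2, hF, ⟨φ⟩⟩ := Cfsg.Agent.Lib.Perm.SharpOdd.main_odd hp hp2 hfo (Fintype.card_fin _)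
    (G.map κ.toMonoidHom) h3' hsharp'
  exact ⟨F, i1, i2, hF, ⟨(κ.subgroupMap G).trans φ⟩⟩

end Cfsg.Agent.S0730
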