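import Cfsg.Statements.S0732
import Mathlib
import Cfsg.Agent.S0730
import Cfsg.Agent.S0727
import Cfsg.Agent.Lib.Perm.DegPrimeFour

set_option autoImplicit false
open Cfsg

namespace Cfsg.Agent.S0732

/-- A transitive permutation group on `p + 1` points (`p` prime) of order `(p+1) p d` with `d < p` is isomorphic to `PGL(2,p)` with `d = p - 1`, or to `PSL(2,p)` with `2d = p - 1`, or else `p + 1 = 2^q` for a prime `q`, `d = 1` or `d = q`, and the group is permutation-isomorphic to a group of semi-affine maps `x ↦ a φ(x) + b` of the field with `2^q` elements. -/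
theorem result {α : Type*} [Fintype α] [DecidableEq α] {p d : ℕ} (hp : p.Prime) (hα : Fintype.card α = p + 1) (G : Subgroup (Equiv.Perm α)) [MulAction.IsPretransitive G α] (hG : Nat.card G = (p + 1) * p * d) (hd : d < p) : (d = p - 1 ∧ Nonempty (G ≃* Matrix.ProjGenLinGroup (Fin 2) (ZMod p))) ∨ (2 * d = p - 1 ∧ Nonempty (G ≃* Matrix.ProjectiveSpecialLinearGroup (Fin 2) (ZMod p))) ∨ (∃ q : ℕ, q.Prime ∧ p + 1 = 2 ^ q ∧ (d = 1 ∨ d = q) ∧ ∃ e : α ≃ GaloisField 2 q, ∀ g : G, (e.symm.trans (((g : Equiv.Perm α)).trans e)) ∈ Cfsg.semiaffineGroup (GaloisField 2 q)) := by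
  classical
  haveI : Fintype G := Fintype.ofFinite _
  haveI : Fact p.Prime := ⟨hp⟩
  have htr : ∀ x y : α, ∃ g : G, g • x = y := fun x y => MulAction.IsPretransitive.exists_smul_eq x y
  have hp2 := hp.two_le
  have h2 : 1 < Fintype.card α := by omega
  obtain ⟨a, b, hab⟩ := Fintype.one_lt_card_iff_nontrivial.mp h2
  obtain ⟨F, hFa, hFcard, hFfix, hFn⟩ := Lib.Perm.DP.exists_kernel (G := G) htr hp hα hG hd a
  have S : Lib.Perm.DP.Pre G α p a b F :=
    ⟨hp, inferInstance, htr, hab, hFa, hFcard, hα, hFfix, hFn⟩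
  have hE := S.card_E hG
  have hd0 : d ≠ 0 := by
    rintro rfl
    have : 0 < Nat.card G := Nat.card_pos
    simp at hG
  by_cases hd1 : d = p - 1
  · left
    refine ⟨hd1, ?_⟩
    obtain ⟨h3, hsharp⟩ := S.sharply_three hE hd1
    have hK : ∃ (K : Type) (_ : Field K) (_ : Fintype K), Fintype.card K = p ∧
        Nonempty (G ≃* Matrix.ProjGenLinGroup (Fin 2) K) := by
      by_cases hp2' : p = 2
      · subst hp2'
        obtain ⟨K, iF, iT, hK, hnon⟩ := Cfsg.Agent.S0727.result (f := 1) le_rfl (by rw [hα]; norm_num) G h3 hsharp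
        exact ⟨K, iF, iT, by rw [hK]; norm_num, hnon⟩
      · obtain ⟨K, iF, iT, hK, hnon⟩ := Cfsg.Agent.S0730.result (f := 1) hp hp2' odd_one (by rw [hα, pow_one]) G h3 hsharp
        exact ⟨K, iF, iT, by rw [hK, pow_one], hnon⟩
    obtain ⟨K, iF, iT, hK, ⟨φ⟩⟩ := hK
    exact ⟨φ.trans (Lib.Perm.DP.pglCongr (ZMod.ringEquivOfPrime K hp hK)).symm⟩
  · right
    by_cases hreg : ∃ M : Subgroup G, M.Normal ∧ (∀ x y : α, ∃ m ∈ M, m • x = y) ∧
        ∀ m ∈ M, ∀ x : α, m • x = x → m = 1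
    · right
      obtain ⟨M, hMn, hr₁, hr₂⟩ := hreg
      have hpne : p ≠ 2 := by
        rintro rfl
        omega
      obtain ⟨q, hq, hpow, hdq, e, he⟩ := S.third hG hpne M hMn hr₁ hr₂
      refine ⟨q, hq, hpow, hdq, e, fun g => ?_⟩
      obtain ⟨a', b', φ, h⟩ := he g
      exact ⟨a', b', φ, h⟩
    · left
      have hd2 : d ≠ 1 := by
        rintro rfl
        exact hreg (S.regular_of_trivial hE)
      exact S.psl hE hd2 hd1 hreg

end Cfsg.Agent.S0732
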