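import Cfsg.Statements.S0974
import Mathlib
import Cfsg.Agent.Lib.SmallSimple.BrauerLemma

set_option autoImplicit false
open Cfsg

namespace Cfsg.Agent.S0974

/-- No finite simple group has order 3648 = 2^6 * 3 * 19. -/
theorem result {G : Type*} [Group G] [Finite G] [IsSimpleGroup G] : Nat.card G ≠ 3648 := by
  intro h
  classical
  haveI : Fintype G := Fintype.ofFinite G
  have hnc : ¬ IsMulCommutative G := Lib.SmallSimple.not_comm_of_not_prime (by rw [h]; norm_num)
  haveI : Fact (Nat.Prime 19) := ⟨by norm_num⟩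
  obtain ⟨h1, h2, h3, h4, h5⟩ := Lib.SmallSimple.sylow_facts (G := G) hnc 19 1 192
    (by rw [h]; norm_num) (by norm_num) (by norm_num)
  have hn : Nat.card (Sylow 19 G) = 96 := by
    have : ∀ n, n ≤ 192 → n ∣ 192 → n % 19 = 1 → n ≠ 1 → n = 96 := by decide +kernel
    exact this _ (Nat.le_of_dvd (by norm_num) h1) h1 h2 h3
  obtain ⟨P⟩ : Nonempty (Sylow 19 G) := inferInstance
  obtain ⟨hP, hN⟩ := h5 P
  rw [hn, h] at hN
  have hN' : Nat.card (Subgroup.normalizer ((P : Subgroup G) : Set G)) = 2 * 19 := by omega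
  obtain ⟨y, hs, hNy⟩ := Lib.SmallSimple.BL.exists_setup hnc P (by simpa using hP) Nat.prime_two hN'
  have hG : Nat.card G = 19 * 192 := by rw [h]

  obtain ⟨d, d₀, δ, ε, hδ, hε, hd, hd₀, hd1, hc1, hc2, hrel⟩ :=
    Lib.SmallSimple.BL.brauer_two hnc hs hNy (by norm_num)
  have hnd : ¬ 19 ∣ d := Lib.SmallSimple.BL.not_dvd_of_modEq hc1 (by
    rcases hδ with rfl | rfl <;> norm_num)
  have hnd₀ : ¬ 19 ∣ d₀ := Lib.SmallSimple.BL.not_dvd_of_modEq hc2 (by
    rcases hε with rfl | rfl <;> norm_num)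
  have hd' : d ∣ 192 := Lib.SmallSimple.BL.dvd_cofactor (by norm_num) (hG ▸ hd) hnd
  have hd₀' : d₀ ∣ 192 := Lib.SmallSimple.BL.dvd_cofactor (by norm_num) (hG ▸ hd₀) hnd₀
  have hc1' : (d : ℤ) % 19 = δ % 19 := by exact_mod_cast hc1

  have key : ∀ d, d ≤ 192 → d ∣ 192 → 1 < d → (d % 19 = 1 ∨ d % 19 = 18) → d = 96 := by decide +kernel
  have hd96 : d = 96 := key d (Nat.le_of_dvd (by norm_num) hd') hd' hd1 (by
    rcases hδ with rfl | rfl <;> omega)
  subst hd96
  rcases hδ with rfl | rfl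
  · rcases hε with rfl | rfl
    · have : d₀ = 97 := by omega
      subst this
      revert hd₀'
      decide
    · omega
  · omega

end Cfsg.Agent.S0974
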