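import Cfsg.Statements.S0976
import Mathlib
import Cfsg.Agent.Lib.SmallSimple.Order4032

set_option autoImplicit false
open Cfsg

namespace Cfsg.Agent.S0976

theorem exists_factor {n : ℕ} (h : n ∣ 4032) : ∃ a < 7, ∃ b < 3, ∃ c < 2, n = 2 ^ a * 3 ^ b * 7 ^ c := by
  have h1 : n ∣ 2 ^ 6 * (3 ^ 2 * 7 ^ 1) := by simpa using h
  obtain ⟨y, z, hy, hz, rfl⟩ := (Nat.dvd_mul).mp h1
  obtain ⟨u, v, hu, hv, rfl⟩ := (Nat.dvd_mul).mp hz
  obtain ⟨a, ha, rfl⟩ := (Nat.dvd_prime_pow Nat.prime_two).mp hy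
  obtain ⟨b, hb, rfl⟩ := (Nat.dvd_prime_pow (by norm_num : Nat.Prime 3)).mp hu
  obtain ⟨c, hc, rfl⟩ := (Nat.dvd_prime_pow (by norm_num : Nat.Prime 7)).mp hv
  exact ⟨a, by omega, b, by omega, c, by omega, by ring⟩

set_option synthInstance.maxSize 2048 in
set_option synthInstance.maxHeartbeats 400000 in
theorem deg_key {d : ℕ} (h : d ∣ 4032) :
    (d % 7 = 1 → (d + 1) ∣ 4032 → d = 1 ∨ d = 8) ∧ (d % 7 = 6 → ¬ (d - 1) ∣ 4032) := by
  obtain ⟨a, ha, b, hb, c, hc, rfl⟩ := exists_factor h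
  have : ∀ a < 7, ∀ b < 3, ∀ c < 2,
      ((2 ^ a * 3 ^ b * 7 ^ c) % 7 = 1 → (2 ^ a * 3 ^ b * 7 ^ c + 1) ∣ 4032 →
        2 ^ a * 3 ^ b * 7 ^ c = 1 ∨ 2 ^ a * 3 ^ b * 7 ^ c = 8) ∧
      ((2 ^ a * 3 ^ b * 7 ^ c) % 7 = 6 → ¬ (2 ^ a * 3 ^ b * 7 ^ c - 1) ∣ 4032) := by decide +kernel
  exact this a ha b hb c hc

set_option synthInstance.maxSize 2048 in
set_option synthInstance.maxHeartbeats 400000 in
theorem key_576 : ∀ n, n ≤ 576 → n ∣ 576 → n % 7 = 1 → n ≠ 1 → n = 8 ∨ n = 36 ∨ n = 64 ∨ n = 288 := by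
  decide +kernel

theorem key_448 : ∀ n, n ≤ 448 → n ∣ 448 → n % 3 = 1 → n ≠ 1 → n ≠ 448 → n ≤ 112 := by decide +kernel

open Subgroup
open Cfsg.Agent.Lib.SmallSimple
open Cfsg.Agent.Lib.SmallSimple.O4032

/-- With `64` Sylow `7`-subgroups, the centralizer of an element of order three has index a power
of two. -/
theorem no_64 {G : Type*} [Group G] [Finite G] [IsSimpleGroup G] (h : Nat.card G = 4032) {x : G}
    (hx : orderOf x = 7)
    (hN : Nat.card (normalizer ((zpowers x : Subgroup G) : Set G)) = 63)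
    (hC : Nat.card (centralizer ({x} : Set G)) = 21) : False := by
  haveI : Fact (Nat.Prime 3) := ⟨by norm_num⟩
  obtain ⟨y₀, hy₀⟩ := exists_prime_orderOf_dvd_card' (G := centralizer ({x} : Set G)) 3
    (by rw [hC]; norm_num)
  have hy : orderOf (y₀ : G) = 3 := by rw [Subgroup.orderOf_coe]; exact hy₀
  set y : G := (y₀ : G) with hydef
  have hyC : y ∈ centralizer ({x} : Set G) := y₀.2
  have hyN : y ∈ normalizer ((zpowers x : Subgroup G) : Set G) := by
    have hle : centralizer ({x} : Set G) ≤ normalizer ((zpowers x : Subgroup G) : Set G) := by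
      rw [← BA.centralizer_zpowers' x]
      exact Subgroup.centralizer_le_normalizer _
    exact hle hyC
  set N : Subgroup G := normalizer ((zpowers x : Subgroup G) : Set G) with hNdef
  let y' : N := ⟨y, hyN⟩
  have hy' : orderOf y' = 3 := by rw [Subgroup.orderOf_mk]; exact hy
  have hpg : IsPGroup 3 (zpowers y') :=
    IsPGroup.of_card (n := 1) (by rw [Nat.card_zpowers, hy', pow_one])
  obtain ⟨S, hS⟩ := hpg.exists_le_sylow
  have hf : (Nat.card N).factorization 3 = 2 := by
    rw [hN]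
    have hp3 : Nat.Prime 3 := by norm_num
    apply le_antisymm
    · by_contra hc
      have : 3 ≤ (63 : ℕ).factorization 3 := by omega
      have := (hp3.pow_dvd_iff_le_factorization (by norm_num)).mpr this
      norm_num at this
    · exact (hp3.pow_dvd_iff_le_factorization (by norm_num)).mp (by norm_num)
  have hcS : Nat.card (S : Subgroup N) = 3 ^ 2 := by
    rw [S.card_eq_multiplicity, hf]
  have hcomm : ∀ a b : (S : Subgroup N), a * b = b * a :=
    IsPGroup.commutative_of_card_eq_prime_sq (p := 3) hcS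
  have hyS : y' ∈ (S : Subgroup N) := hS (mem_zpowers y')
  let S' : Subgroup G := (S : Subgroup N).map N.subtype
  have hcS' : Nat.card S' = 9 := by
    have : Nat.card S' = Nat.card (S : Subgroup N) :=
      Subgroup.card_map_of_injective (Subgroup.subtype_injective N)
    rw [this, hcS]
    norm_num
  have hS'le : S' ≤ centralizer ({y} : Set G) := by
    rintro a ⟨a', ha', rfl⟩
    rw [Subgroup.mem_centralizer_singleton_iff]
    have := hcomm ⟨a', ha'⟩ ⟨y', hyS⟩
    have h2 := congrArg (fun z : (S : Subgroup N) => ((z : N) : G)) this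
    exact h2
  have h9 : 9 ∣ Nat.card (centralizer ({y} : Set G)) := by
    rw [← hcS']
    exact Subgroup.card_dvd_of_le hS'le
  have hxle : zpowers x ≤ centralizer ({y} : Set G) := by
    rw [zpowers_le, Subgroup.mem_centralizer_singleton_iff]
    rw [Subgroup.mem_centralizer_singleton_iff] at hyC
    exact hyC.symm
  have h7 : 7 ∣ Nat.card (centralizer ({y} : Set G)) := by
    have := Subgroup.card_dvd_of_le hxle
    rwa [Nat.card_zpowers, hx] at this
  have h63 : 63 ∣ Nat.card (centralizer ({y} : Set G)) :=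
    (by norm_num : Nat.Coprime 9 7).mul_dvd_of_dvd_of_dvd h9 h7 |> fun h => by simpa using h
  obtain ⟨j, hj⟩ := h63
  have hidx := (centralizer ({y} : Set G)).index_mul_card
  rw [h, hj] at hidx
  have h64 : (centralizer ({y} : Set G)).index ∣ 2 ^ 6 := by
    refine ⟨j, ?_⟩
    have : (centralizer ({y} : Set G)).index * j * 63 = 64 * 63 := by
      rw [show (64 * 63 : ℕ) = 4032 by norm_num, ← hidx]
      ring
    have h3 := Nat.eq_of_mul_eq_mul_right (by norm_num) this
    rw [h3]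
    norm_num
  obtain ⟨k, -, hk⟩ := (Nat.dvd_prime_pow Nat.prime_two).mp h64
  have hy1 : y ≠ 1 := by
    intro h1
    rw [h1, orderOf_one] at hy
    omega
  have hp := Cfsg.Agent.Lib.Char.prime_card_of_conjClass_prime_pow 2 k Nat.prime_two y hy1 hk
  rw [h] at hp
  norm_num at hp

/-- The case of `288` Sylow `7`-subgroups. -/
theorem no_288 {G : Type*} [Group G] [Finite G] [IsSimpleGroup G] (hnc : ¬ IsMulCommutative G)
    (h : Nat.card G = 4032) (hn : Nat.card (Sylow 7 G) = 288) [Fact (Nat.Prime 7)]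
    (hP : ∀ P : Sylow 7 G, Nat.card (P : Subgroup G) = 7)
    (hNP : ∀ P : Sylow 7 G, Nat.card (Sylow 7 G) *
      Nat.card (normalizer ((P : Subgroup G) : Set G)) = Nat.card G) {x : G}
    (hx : orderOf x = 7)
    (hNe : Nat.card (normalizer ((zpowers x : Subgroup G) : Set G)) =
      2 * Nat.card (centralizer ({x} : Set G))) : False := by
  classical
  haveI : Fintype G := Fintype.ofFinite G
  haveI : Fact (Nat.Prime 3) := ⟨by norm_num⟩
  have hsyl : ¬ 7 ^ 2 ∣ Nat.card G := by rw [h]; norm_num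
  -- centralizers of elements of order seven
  have hC7 : ∀ u : G, orderOf u = 7 → Nat.card (centralizer ({u} : Set G)) = 7 := by
    intro u hu
    have hpg : IsPGroup 7 (zpowers u) :=
      IsPGroup.of_card (n := 1) (by rw [Nat.card_zpowers, hu, pow_one])
    obtain ⟨P', hP'⟩ := hpg.exists_le_sylow
    have hz' : zpowers u = (P' : Subgroup G) := by
      apply Subgroup.eq_of_le_of_card_ge hP'
      rw [hP P', Nat.card_zpowers, hu]
    obtain ⟨e, he, he1, hNe'⟩ := BA.norm_data hnc P' (hP P') hu hz'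
    have hN' := hNP P'
    rw [← hz', hn, h, hNe'] at hN'
    have huC : u ∈ centralizer ({u} : Set G) := by
      rw [Subgroup.mem_centralizer_singleton_iff]
    have hpd : 7 ∣ Nat.card (centralizer ({u} : Set G)) := by
      have := orderOf_dvd_natCard (⟨u, huC⟩ : centralizer ({u} : Set G))
      rwa [Subgroup.orderOf_mk, hu] at this
    obtain ⟨j, hj⟩ := hpd
    rw [hj] at hN' ⊢
    have he6 : e ∣ 6 := he
    have hee : e = 2 ∨ e = 3 ∨ e = 6 := by
      have : ∀ e, e ≤ 6 → e ∣ 6 → e ≠ 1 → e = 2 ∨ e = 3 ∨ e = 6 := by decide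
      exact this e (Nat.le_of_dvd (by norm_num) he6) he6 he1
    have hj1 : j = 1 := by
      rcases hee with rfl | rfl | rfl <;> omega
    rw [hj1]
  -- the characters
  obtain ⟨M, hM⟩ := Cfsg.Agent.Lib.Char.exists_isPModular 7 (by norm_num)
  obtain ⟨deg, σ, ξ, χ₀, hdeg, hσ, hξB, hχB, hξ1, hχ1, hc1, hc2, hrel, hreg⟩ :=
    BB.block_two (M := M) hM hx hsyl hNe (by norm_num)
  have hd1 : deg ξ ≠ 1 := by
    intro h1
    apply BL.degree_ne_one hnc ξ hξ1
    rw [(hdeg ξ).1, h1]
    norm_num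
  have hd₀1 : deg χ₀ ≠ 1 := by
    intro h1
    apply BL.degree_ne_one hnc χ₀ hχ1
    rw [(hdeg χ₀).1, h1]
    norm_num
  have hdd := (hdeg ξ).2.2
  have hdd₀ := (hdeg χ₀).2.2
  have hd0 := (hdeg χ₀).2.1
  rw [h] at hdd hdd₀
  have hk := deg_key hdd
  have hc1' : ((deg ξ : ℕ) : ℤ) % 7 = σ % 7 := by exact_mod_cast hc1
  have hvals : deg ξ = 8 ∧ deg χ₀ = 9 ∧ σ = 1 := by
    rcases hσ with rfl | rfl
    · have h6 : deg χ₀ = deg ξ + 1 := by omega
      rw [h6] at hdd₀
      have := hk.1 (by omega) hdd₀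
      refine ⟨?_, ?_, rfl⟩ <;> omega
    · have h6 : deg χ₀ = deg ξ - 1 := by omega
      rw [h6] at hdd₀
      exact absurd hdd₀ (hk.2 (by omega))
  obtain ⟨hv8, hv9, rfl⟩ := hvals
  have hχ1v : (χ₀ : G → ℂ) 1 = 9 := by
    rw [(hdeg χ₀).1, hv9]
    norm_num
  -- Sylow 3
  obtain ⟨h1, h2, h3, -, h5⟩ := Lib.SmallSimple.sylow_facts (G := G) hnc 3 2 448
    (by rw [h]; norm_num) (by norm_num) (by norm_num)
  have hQ : ∀ Q : Sylow 3 G, Nat.card (Q : Subgroup G) = 9 := fun Q => by
    rw [(h5 Q).1]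
    norm_num
  have hn448 : Nat.card (Sylow 3 G) ≠ 448 := by
    intro h448
    obtain ⟨Q⟩ : Nonempty (Sylow 3 G) := inferInstance
    have hNQ := (h5 Q).2
    rw [h448, h] at hNQ
    have hNQ9 : Nat.card (normalizer ((Q : Subgroup G) : Set G)) = 9 := by omega
    have heq : normalizer ((Q : Subgroup G) : Set G) = (Q : Subgroup G) := by
      symm
      apply Subgroup.eq_of_le_of_card_ge Subgroup.le_normalizer
      rw [hNQ9, hQ Q]
    refine Lib.SmallSimple.false_of_normalizer_le_centralizer hnc (p := 3)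
      (by rw [h]; norm_num) Q ?_
    rw [heq]
    intro a ha
    rw [Subgroup.mem_centralizer_iff]
    intro b hb
    have hcomm : ∀ a b : (Q : Subgroup G), a * b = b * a :=
      IsPGroup.commutative_of_card_eq_prime_sq (p := 3) (by rw [hQ Q]; norm_num)
    exact congrArg Subtype.val (hcomm ⟨b, hb⟩ ⟨a, ha⟩)
  have hn3 : Nat.card (Sylow 3 G) ≤ 112 := by
    exact key_448 _ (Nat.le_of_dvd (by norm_num) h1) h1 h2 h3 hn448
  have hf3 : (Nat.card G).factorization 3 ≤ 2 := by
    rw [h]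
    have hp3 : Nat.Prime 3 := by norm_num
    by_contra hc
    have : 3 ≤ (4032 : ℕ).factorization 3 := by omega
    have := (hp3.pow_dvd_iff_le_factorization (by norm_num)).mpr this
    norm_num at this
  have hdeg9 : charDegree ((χ₀ : G → ℂ)) = 9 := by
    simp only [charDegree, hχ1v]
    norm_num
  have hper := BA.perfect_of_simple hnc (G := G)
  have hχc : IsCharacter G (χ₀ : G → ℂ) := Cfsg.Agent.Lib.Char.IsIrrCharacter.isCharacter χ₀.2
  have D : Data (χ₀ : G → ℂ) (ξ : G → ℂ) :=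
    { hξ := Cfsg.Agent.Lib.Char.IsIrrCharacter.isCharacter ξ.2
      hχ := hχc
      hrel := fun g hg => by
        have := hreg g hg
        simpa using this
      hzero := fun g hg => Cfsg.Agent.Lib.Char.irr_eq_zero_of_full_ppart χ₀ 3 (by norm_num)
        (by rw [hdeg9]; exact (pow_dvd_pow 3 hf3).trans (by norm_num)) hg
      h1 := hχ1v
      hinv := fun t ht ht1 => by
        obtain ⟨a, d, hd, ha, hev, hle⟩ := BB.exists_even_of_involution hχc hper
          (t := t) (by rw [pow_two, ht])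
        have hd9 : d = 9 := by
          have : (d : ℂ) = 9 := by rw [← hd, hχ1v]
          exact_mod_cast this
        subst hd9
        refine ⟨a, ?_, hev, ?_, hle⟩
        · rw [hχ1v] at ha
          linear_combination -ha
        · rintro rfl
          apply BB.ne_of_involution χ₀ hχ1 ht1
          have : (χ₀ : G → ℂ) 1 - (χ₀ : G → ℂ) t = 0 := by simpa using ha
          exact (sub_eq_zero.mp this).symm }
  have hirr : ∑ g : G, Complex.normSq ((χ₀ : G → ℂ) g) = 4032 := by
    have h9 := Cfsg.Agent.Lib.Char.classInner_irr_self χ₀.2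
    simp only [classInner, h, Complex.mul_conj] at h9
    have h10 : ((∑ g : G, Complex.normSq ((χ₀ : G → ℂ) g) : ℝ) : ℂ) = 4032 := by
      push_cast at h9 ⊢
      field_simp at h9
      linear_combination h9
    exact_mod_cast h10
  exact main_count D h hC7 hQ hP hn hn3 hirr

/-- No finite simple group has order 4032 = 2^6 * 3^2 * 7. -/
theorem result {G : Type*} [Group G] [Finite G] [IsSimpleGroup G] : Nat.card G ≠ 4032 := by
  intro h
  have hnc : ¬ IsMulCommutative G := Lib.SmallSimple.not_comm_of_not_prime (by rw [h]; norm_num)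
  haveI : Fact (Nat.Prime 7) := ⟨by norm_num⟩
  obtain ⟨h1, h2, h3, h4, h5⟩ := Lib.SmallSimple.sylow_facts (G := G) hnc 7 1 576
    (by rw [h]; norm_num) (by norm_num) (by norm_num)
  have hsyl : ¬ 7 ^ 2 ∣ Nat.card G := by rw [h]; norm_num
  have hn : Nat.card (Sylow 7 G) = 8 ∨ Nat.card (Sylow 7 G) = 36 ∨ Nat.card (Sylow 7 G) = 64 ∨
      Nat.card (Sylow 7 G) = 288 := by
    exact key_576 _ (Nat.le_of_dvd (by norm_num) h1) h1 h2 h3
  obtain ⟨P⟩ : Nonempty (Sylow 7 G) := inferInstance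
  obtain ⟨hP, hN⟩ := h5 P
  rw [pow_one] at hP
  obtain ⟨x, hx, hz⟩ := Lib.SmallSimple.BA.exists_gen P hP
  obtain ⟨e, he, he1, hNe⟩ := Lib.SmallSimple.BA.norm_data hnc P hP hx hz
  rw [← hz, h] at hN
  have hxC : x ∈ Subgroup.centralizer ({x} : Set G) := by
    rw [Subgroup.mem_centralizer_singleton_iff]
  have hpd : 7 ∣ Nat.card (Subgroup.centralizer ({x} : Set G)) := by
    have := orderOf_dvd_natCard (⟨x, hxC⟩ : Subgroup.centralizer ({x} : Set G))
    rwa [Subgroup.orderOf_mk, hx] at this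
  have he6 : e ∣ 6 := he
  have hee : e = 2 ∨ e = 3 ∨ e = 6 := by
    have : ∀ e, e ≤ 6 → e ∣ 6 → e ≠ 1 → e = 2 ∨ e = 3 ∨ e = 6 := by decide
    exact this e (Nat.le_of_dvd (by norm_num) he6) he6 he1
  rcases hn with hn | hn | hn | hn
  · have hC := Lib.SmallSimple.BA.card_centralizer_of_succ (p := 7) (by rw [hn]) P hx hz hsyl
    rw [hn, hNe, hC] at hN
    rcases hee with rfl | rfl | rfl <;> omega
  · rw [hn] at hN
    have hC : e = 2 ∧ Nat.card (Subgroup.centralizer ({x} : Set G)) = 56 := by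
      rw [hNe] at hN
      rcases hee with rfl | rfl | rfl <;> omega
    obtain ⟨rfl, hC⟩ := hC
    obtain ⟨d, d₀, σ, hσ, hd, hd₀, hd1, hd₀1, hc1, hc2, hrel⟩ :=
      Lib.SmallSimple.BA.two_wrapper hnc hx hsyl hNe (by norm_num) (by rw [hC]; norm_num)
    rw [h] at hd hd₀
    have hc1' : (d : ℤ) % 7 = σ % 7 := by exact_mod_cast hc1
    have hk := deg_key hd
    rcases hσ with rfl | rfl
    · have h6 : d₀ = d + 1 := by omega
      subst h6
      have := hk.1 (by omega) hd₀
      omega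
    · have h6 : d₀ = d - 1 := by omega
      subst h6
      exact hk.2 (by omega) hd₀
  · rw [hn] at hN
    have hC : e = 3 ∧ Nat.card (Subgroup.centralizer ({x} : Set G)) = 21 := by
      rw [hNe] at hN
      rcases hee with rfl | rfl | rfl <;> omega
    obtain ⟨rfl, hC⟩ := hC
    exact no_64 h hx (by rw [hNe, hC]) hC
  · have hN' := hN
    rw [hn] at hN'
    have hC : e = 2 := by
      rw [hNe] at hN'
      obtain ⟨j, hj⟩ := hpd
      rw [hj] at hN'
      rcases hee with rfl | rfl | rfl <;> first | rfl | omega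
    subst hC
    refine no_288 hnc h hn (fun Q => ?_) (fun Q => (h5 Q).2) hx hNe
    have := (h5 Q).1
    rwa [pow_one] at this

end Cfsg.Agent.S0976
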