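import Cfsg.Statements.S0978
import Mathlib
import Cfsg.Agent.S0434

set_option autoImplicit false
open Cfsg

namespace Cfsg.Agent.S0978

open Subgroup
open Cfsg.Agent.Lib.Block (oneIrr)
open Cfsg.Agent.S0434 (fx3 dvd_f)
open Cfsg.Agent.S0435 (p_dvd_outside deg_ge_two)
open scoped ComplexConjugate

/-- The multiplicity congruence at an element of order three commuting with `x`. -/
theorem fx21 {G : Type*} [Group G] [Fintype G] {M : Ideal Cfsg.AlgInt} [hp : Fact (Nat.Prime 7)] {x y : G}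
    (hM : IsPModular 7 M) (hx : orderOf x = 7) (hy : orderOf y = 3) (hyc : y ∈ centralizer ({x} : Set G))
    (hsyl : ¬ 7 ^ 2 ∣ Nat.card G) (χ : IrrCharacter G) (hχ : χ ∈ principalBlock M G) {d : ℕ}
    (hd : (χ : G → ℂ) 1 = d) :
    ∃ n : ℕ, n ≤ d ∧ (χ : G → ℂ) y + (χ : G → ℂ) y⁻¹ = ((3 * (n : ℤ) - (d : ℤ) : ℤ) : ℂ) ∧
      (7 : ℤ) ∣ (d : ℤ) - (n : ℤ) := by
  classical
  have hpr : Nat.Prime 7 := hp.out
  obtain ⟨n₀, hn₀, hv₀⟩ := fx3 hy χ hd
  refine ⟨n₀, hn₀, hv₀, ?_⟩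
  have hy3 : y ^ 3 = 1 := by
    rw [← hy]
    exact pow_orderOf_eq_one y
  have hy2 : y ^ 2 = y⁻¹ := eq_inv_of_mul_eq_one_left (by rw [← pow_succ]; exact hy3)
  have hy1 : y ≠ 1 := by
    rintro rfl
    rw [orderOf_one] at hy
    omega
  have hyy : y ≠ y⁻¹ := by
    intro h6
    apply hy1
    have h7 : y ^ 2 = y := by rw [hy2, ← h6]
    have h8 : y ^ 2 = y * y := pow_two y
    rw [h8] at h7
    exact mul_eq_left.mp h7
  -- constancy on the section
  have hconst : ∀ (u : zpowers x) (v : G), v = y ∨ v = y⁻¹ → (u : G) ≠ 1 →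
      (χ : G → ℂ) ((u : G) * v) = (χ : G → ℂ) u := by
    intro u v hv hu
    have hv3 : v ^ 3 = 1 := by
      rcases hv with rfl | rfl
      · exact hy3
      · rw [inv_pow, hy3, inv_one]
    have hvc : v ∈ centralizer ({x} : Set G) := by
      rcases hv with rfl | rfl
      · exact hyc
      · exact inv_mem hyc
    have huo := Lib.SmallSimple.BB.orderOf_of_mem hpr hx u.2 hu
    refine Lib.Block.irr_mul_of_principal hM ⟨1, by rw [huo, pow_one]⟩ ?_ χ hχ
    obtain ⟨N, hN, hN', hidx, -⟩ := Lib.SmallSimple.BB.exists_complement (p := 7) (x := (u : G)) huo hsyl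
    have htu : v ∈ centralizer ({(u : G)} : Set G) := by
      rw [Lib.SmallSimple.BB.centralizer_eq hpr hx u.2 hu]
      exact hvc
    refine ⟨⟨v, htu⟩, ?_, rfl⟩
    have h1 := Cfsg.Agent.Lib.Core.le_pPrimeCore hN
      (((Nat.Prime.coprime_iff_not_dvd hpr).mpr hN').symm)
    apply h1
    have h2 := Subgroup.pow_index_mem N (⟨v, htu⟩ : centralizer ({(u : G)} : Set G))
    rw [hidx] at h2
    have h3 : (⟨v, htu⟩ : centralizer ({(u : G)} : Set G)) ^ 7 = ⟨v, htu⟩ := by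
      apply Subtype.ext
      show v ^ 7 = v
      calc v ^ 7 = (v ^ 3) ^ 2 * v := by group
        _ = v := by rw [hv3]; simp
    rwa [h3] at h2
  haveI : Fintype (zpowers x) := Fintype.ofFinite _
  haveI : Fintype (zpowers y) := Fintype.ofFinite _
  have hZ : ∀ s : zpowers y, (s : G) = 1 ∨ (s : G) = y ∨ (s : G) = y⁻¹ := by
    rintro ⟨s, hs⟩
    obtain ⟨k, rfl⟩ := Subgroup.mem_zpowers_iff.mp hs
    show y ^ k = 1 ∨ y ^ k = y ∨ y ^ k = y⁻¹
    have h2 := zpow_mod_orderOf y k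
    rw [hy] at h2
    have h3 : k % ((3 : ℕ) : ℤ) = 0 ∨ k % ((3 : ℕ) : ℤ) = 1 ∨ k % ((3 : ℕ) : ℤ) = 2 := by
      push_cast
      omega
    rcases h3 with h3 | h3 | h3 <;> rw [h3] at h2 <;> rw [← h2]
    · left
      simp
    · right
      left
      simp
    · right
      right
      rw [← hy2]
      norm_cast
  have hcomm : ∀ (u : zpowers x) (s : zpowers y), Commute (u : G) (s : G) := by
    intro u s
    obtain ⟨k, hk⟩ := Subgroup.mem_zpowers_iff.mp u.2
    obtain ⟨j, hj⟩ := Subgroup.mem_zpowers_iff.mp s.2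
    have hc : Commute y x := Subgroup.mem_centralizer_singleton_iff.mp hyc
    rw [← hk, ← hj]
    exact (hc.zpow_zpow j k).symm
  let φ : zpowers x × zpowers y →* G :=
    MonoidHom.noncommCoprod (zpowers x).subtype (zpowers y).subtype (fun u s => hcomm u s)
  have hφ : ∀ (u : zpowers x) (s : zpowers y), φ (u, s) = (u : G) * s := fun u s => rfl
  obtain ⟨n, hn⟩ := Lib.Char.classInner_isCharacter_nat (Lib.Char.IsCharacter.comp φ (Lib.Char.IsIrrCharacter.isCharacter χ.2))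
    (Lib.Char.IsIrrCharacter.isCharacter (Lib.Char.isIrrCharacter_one (G := zpowers x × zpowers y)))
  obtain ⟨m, hm⟩ := Lib.Char.classInner_isCharacter_nat
    (Lib.Char.IsCharacter.restrict (zpowers x) (Lib.Char.IsIrrCharacter.isCharacter χ.2))
    (Lib.Char.IsIrrCharacter.isCharacter (Lib.Char.isIrrCharacter_one (G := zpowers x)))
  have hp0 : ((7 : ℕ) : ℂ) ≠ 0 := by norm_num
  have hcardH : Nat.card (zpowers x × zpowers y) = 7 * 3 := by
    rw [Nat.card_prod, Nat.card_zpowers, Nat.card_zpowers, hx, hy]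
  have hsumZ : ∀ f : G → ℂ, ∑ s : zpowers y, f s = f 1 + f y + f y⁻¹ := by
    intro f
    have e1 : ∑ s : zpowers y, f s = ∑ g ∈ (Finset.univ.filter (fun g : G => g ∈ zpowers y)), f g := by
      refine Finset.sum_bij (fun (s : zpowers y) _ => (s : G)) (fun s _ => by simp) (fun a _ b _ h => Subtype.ext h)
        (fun b hb => ⟨⟨b, by simpa using hb⟩, Finset.mem_univ _, rfl⟩) (fun _ _ => rfl)
    have hfilter : Finset.univ.filter (fun g : G => g ∈ zpowers y) = {1, y, y⁻¹} := by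
      ext g
      simp only [Finset.mem_filter, Finset.mem_univ, true_and, Finset.mem_insert, Finset.mem_singleton]
      constructor
      · intro hg
        exact hZ ⟨g, hg⟩
      · rintro (rfl | rfl | rfl)
        · exact one_mem _
        · exact mem_zpowers _
        · exact inv_mem (mem_zpowers _)
    rw [e1, hfilter, Finset.sum_insert (by
      simp only [Finset.mem_insert, Finset.mem_singleton, not_or]
      exact ⟨hy1.symm, fun h6 => hy1 (inv_eq_one.mp h6.symm)⟩), Finset.sum_pair hyy]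
    ring
  have h1 : ∑ u : zpowers x, ((χ : G → ℂ) ((u : G) * 1) + (χ : G → ℂ) ((u : G) * y) + (χ : G → ℂ) ((u : G) * y⁻¹)) =
      ((7 * 3 : ℕ) : ℂ) * n := by
    rw [Lib.Char.classInner_def, hcardH] at hn
    have h2 : ((7 * 3 : ℕ) : ℂ) ≠ 0 := by norm_num
    rw [inv_mul_eq_iff_eq_mul₀ h2, Fintype.sum_prod_type] at hn
    rw [← hn]
    refine Finset.sum_congr rfl fun u _ => ?_
    have h3 := hsumZ (fun g => (χ : G → ℂ) ((u : G) * g))
    rw [← h3]
    refine Finset.sum_congr rfl fun s _ => ?_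
    simp [hφ]
  have h2 : ∑ u : zpowers x, (χ : G → ℂ) u = ((7 : ℕ) : ℂ) * m := by
    rw [Lib.Char.classInner_def, Nat.card_zpowers, hx, inv_mul_eq_iff_eq_mul₀ hp0] at hm
    rw [← hm]
    refine Finset.sum_congr rfl fun u _ => ?_
    simp
  have h3 : ∑ u : zpowers x, ((χ : G → ℂ) ((u : G) * y) + (χ : G → ℂ) ((u : G) * y⁻¹) - 2 * (χ : G → ℂ) u) =
      (χ : G → ℂ) y + (χ : G → ℂ) y⁻¹ - 2 * (χ : G → ℂ) 1 := by
    rw [Finset.sum_eq_single (1 : zpowers x)]
    · simp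
    · intro u _ hu
      have hu' : (u : G) ≠ 1 := fun h0 => hu (Subtype.ext h0)
      rw [hconst u y (Or.inl rfl) hu', hconst u y⁻¹ (Or.inr rfl) hu']
      ring
    · intro h0
      exact absurd (Finset.mem_univ _) h0
  have h4 : (((d : ℤ) - (n₀ : ℤ) : ℤ) : ℂ) = ((7 * ((m : ℤ) - (n : ℤ)) : ℤ) : ℂ) := by
    have h5 : ∑ u : zpowers x, ((χ : G → ℂ) ((u : G) * 1) + (χ : G → ℂ) ((u : G) * y) + (χ : G → ℂ) ((u : G) * y⁻¹)) =
        3 * ∑ u : zpowers x, (χ : G → ℂ) u +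
          ∑ u : zpowers x, ((χ : G → ℂ) ((u : G) * y) + (χ : G → ℂ) ((u : G) * y⁻¹) - 2 * (χ : G → ℂ) u) := by
      rw [Finset.mul_sum, ← Finset.sum_add_distrib]
      refine Finset.sum_congr rfl fun u _ => ?_
      rw [mul_one]
      ring
    rw [h1, h2, h3, hv₀, hd] at h5
    push_cast at h5 ⊢
    have h6 : (3 : ℂ) ≠ 0 := by norm_num
    apply mul_left_cancel₀ h6
    linear_combination h5
  have h5 : (d : ℤ) - (n₀ : ℤ) = 7 * ((m : ℤ) - (n : ℤ)) := by exact_mod_cast h4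
  exact ⟨_, h5⟩

/-- The fixed space of an element of order three is proper. -/
theorem fix_ne {G : Type*} [Group G] [Fintype G] [IsSimpleGroup G] {y : G} (hy : orderOf y = 3) (χ : IrrCharacter G)
    (hχ1 : χ ≠ oneIrr G) {d : ℕ} (hd : (χ : G → ℂ) 1 = d)
    (hv : (χ : G → ℂ) y + (χ : G → ℂ) y⁻¹ = ((2 * (d : ℤ) : ℤ) : ℂ)) : False := by
  have hy1 : y ≠ 1 := by
    rintro rfl
    rw [orderOf_one] at hy
    omega
  apply Lib.SmallSimple.BB.ne_of_involution χ hχ1 hy1
  have hn := Lib.Char.IsCharacter.norm_le' (Lib.Char.IsIrrCharacter.isCharacter χ.2) y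
  rw [hd] at hn
  simp only [Complex.natCast_re] at hn
  have hinv := Cfsg.Agent.Lib.Degree.irr_map_inv χ y
  rw [hinv] at hv
  have hre : ((χ : G → ℂ) y).re = d := by
    have h6 := congrArg Complex.re hv
    simp only [Complex.add_re, Complex.conj_re] at h6
    push_cast at h6
    simp only [Complex.mul_re, Complex.natCast_re, Complex.natCast_im, Complex.re_ofNat, Complex.im_ofNat] at h6
    linarith
  have him : ((χ : G → ℂ) y).im = 0 := by
    have h6 := Complex.sq_norm ((χ : G → ℂ) y)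
    rw [Complex.normSq_apply, hre] at h6
    have h7 : ‖(χ : G → ℂ) y‖ ^ 2 ≤ (d : ℝ) ^ 2 := by
      apply pow_le_pow_left₀ (norm_nonneg _) hn
    nlinarith [mul_self_nonneg ((χ : G → ℂ) y).im]
  rw [hd]
  apply Complex.ext
  · rw [hre]
    simp
  · rw [him]
    simp

theorem key_two : ∀ d ∈ Finset.range 71, (14 ≤ d ∧ d ∣ 5040 ∧ d % 7 = 6 ∧ (d - 1) ∣ 5040 ∧ 14 ≤ d - 1) → d = 0 := by decide +kernel

/-- Two characters in the block, with an involution in the centralizer. -/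
theorem two_even {G : Type*} [Group G] [Fintype G] [IsSimpleGroup G] (h : Nat.card G = 5040) {x : G}
    (hx : orderOf x = 7) (hNe : Nat.card (normalizer ((zpowers x : Subgroup G) : Set G)) =
      2 * Nat.card (centralizer ({x} : Set G))) (hinv : 2 ∣ Nat.card (centralizer ({x} : Set G))) : False := by
  classical
  have hnc : ¬ IsMulCommutative G := Lib.SmallSimple.not_comm_of_not_prime (by rw [h]; norm_num)
  haveI hf : Fact (Nat.Prime 7) := ⟨by norm_num⟩
  haveI hf2 : Fact (Nat.Prime 2) := ⟨by norm_num⟩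
  have hp : Nat.Prime 7 := hf.out
  have hsyl : ¬ 7 ^ 2 ∣ Nat.card G := by rw [h]; norm_num
  obtain ⟨M, hM⟩ := Lib.Char.exists_isPModular 7 hp
  have hper := Lib.SmallSimple.BA.perfect_of_simple hnc (G := G)
  obtain ⟨deg, σ, ξ, χ₀, hdeg, hσ, hξB, hχB, hξ1, hχ1, hc1, hc2, hrel, hrelg⟩ :=
    Lib.SmallSimple.BB.block_two (M := M) hM hx hsyl hNe (by norm_num)
  obtain ⟨t₀, ht₀⟩ := exists_prime_orderOf_dvd_card' (G := centralizer ({x} : Set G)) 2 hinv
  have ht' : orderOf (t₀ : G) = 2 := by rw [Subgroup.orderOf_coe]; exact ht₀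
  set t : G := (t₀ : G) with ht
  have hd14 := Lib.SmallSimple.BB.two_p_le_deg hper hM hx hsyl (by norm_num) ht' t₀.2 ξ hξB hξ1 (hdeg ξ).1
  have hd14' := Lib.SmallSimple.BB.two_p_le_deg hper hM hx hsyl (by norm_num) ht' t₀.2 χ₀ hχB hχ1 (hdeg χ₀).1
  have hsqs : ∑ χ : IrrCharacter G, (deg χ) ^ 2 = 5040 := by
    have h6 := Lib.Char.sum_degree_sq (G := G)
    have h7 : ∀ χ : IrrCharacter G, (χ : G → ℂ) 1 ^ 2 = ((deg χ ^ 2 : ℕ) : ℂ) := by
      intro χ
      rw [(hdeg χ).1]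
      push_cast
      rfl
    simp only [h7] at h6
    rw [← h]
    exact_mod_cast h6
  have hdegsq : ∀ χ : IrrCharacter G, deg χ ≤ 70 := by
    intro χ
    have h9 := Finset.single_le_sum (f := fun χ : IrrCharacter G => (deg χ) ^ 2)
      (fun χ _ => Nat.zero_le _) (Finset.mem_univ χ)
    rw [hsqs] at h9
    by_contra hlt
    push Not at hlt
    have h10 : 71 ^ 2 ≤ deg χ ^ 2 := Nat.pow_le_pow_left hlt 2
    norm_num at h10
    omega
  have hdvdG : ∀ θ : IrrCharacter G, deg θ ∣ 5040 := fun θ => h ▸ (hdeg θ).2.2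
  have hdd : deg ξ = 15 ∧ deg χ₀ = 16 ∧ σ = 1 := by
    have key1 : ∀ d, d ≤ 70 → 14 ≤ d → d ∣ 5040 → d % 7 = 1 → (d + 1) ∣ 5040 → d = 15 := by decide +kernel
    have key2 := key_two
    have hc1' : (deg ξ : ℤ) % 7 = σ % 7 := hc1
    rcases hσ with rfl | rfl
    · have h6 : deg χ₀ = deg ξ + 1 := by omega
      have h7 := key1 (deg ξ) (hdegsq ξ) hd14 (hdvdG ξ) (by omega) (h6 ▸ hdvdG χ₀)
      exact ⟨h7, by omega, rfl⟩
    · have h6 : deg χ₀ = deg ξ - 1 := by omega
      have h7 := key2 (deg ξ) (Finset.mem_range.mpr (by have := hdegsq ξ; omega)) ⟨hd14, hdvdG ξ, by omega, h6 ▸ hdvdG χ₀, by omega⟩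
      omega
  obtain ⟨hξd, hχd, rfl⟩ := hdd
  -- values at the involution
  obtain ⟨a₁, ha₁, h14₁, ha₁0, ha₁le⟩ := Lib.SmallSimple.BB.invol_value hper hM hx hsyl (by norm_num) ht'
    t₀.2 ξ hξB hξ1 (hdeg ξ).1
  obtain ⟨a₂, ha₂, h14₂, ha₂0, ha₂le⟩ := Lib.SmallSimple.BB.invol_value hper hM hx hsyl (by norm_num) ht'
    t₀.2 χ₀ hχB hχ1 (hdeg χ₀).1
  rw [hξd] at ha₁le
  rw [hχd] at ha₂le
  have ha₁14 : a₁ = 14 := by
    obtain ⟨q, rfl⟩ := h14₁
    have hq : q = 1 := by omega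
    rw [hq]
  have ha₂14 : a₂ = 14 := by
    obtain ⟨q, rfl⟩ := h14₂
    have hq : q = 1 := by omega
    rw [hq]
  have hv₁ : (ξ : G → ℂ) t = -((13 : ℕ) : ℂ) := by
    rw [(hdeg ξ).1, hξd, ha₁14] at ha₁
    push_cast at ha₁ ⊢
    linear_combination -ha₁
  have hv₂ : (χ₀ : G → ℂ) t = -((12 : ℕ) : ℂ) := by
    rw [(hdeg χ₀).1, hχd, ha₂14] at ha₂
    push_cast at ha₂ ⊢
    linear_combination -ha₂
  have hd₁ := Lib.SmallSimple.BB.deg_dvd_of_value ξ (hdeg ξ).1 (hdeg ξ).2.1 t (v := 13) (Or.inr hv₁)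
  have hd₂ := Lib.SmallSimple.BB.deg_dvd_of_value χ₀ (hdeg χ₀).1 (hdeg χ₀).2.1 t (v := 12) (Or.inr hv₂)
  rw [hξd] at hd₁
  rw [hχd] at hd₂
  have h15 : 15 ∣ (centralizer ({t} : Set G)).index :=
    Nat.Coprime.dvd_of_dvd_mul_right (by norm_num : Nat.Coprime 15 13) hd₁
  have h4 : 4 ∣ (centralizer ({t} : Set G)).index :=
    Nat.Coprime.dvd_of_dvd_mul_right (by norm_num : Nat.Coprime 4 3) (by
      have : 16 ∣ (centralizer ({t} : Set G)).index * 12 := hd₂
      obtain ⟨c, hc⟩ := this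
      exact ⟨c, by omega⟩)
  have h60 : 60 ∣ (centralizer ({t} : Set G)).index :=
    Nat.Coprime.mul_dvd_of_dvd_of_dvd (m := 15) (n := 4) (by norm_num) h15 h4
  have hmC : (centralizer ({t} : Set G)).index * Nat.card (centralizer ({t} : Set G)) = 5040 := by
    rw [← h]
    exact index_mul_card _
  have horth := Lib.Char.second_orthogonality' (t : G) t
  rw [if_pos (IsConj.refl _)] at horth
  simp only [Complex.mul_conj] at horth
  have hreal : ∑ χ : IrrCharacter G, Complex.normSq ((χ : G → ℂ) t) =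
      (Nat.card (centralizer ({t} : Set G)) : ℝ) := by
    have h6 : ((∑ χ : IrrCharacter G, Complex.normSq ((χ : G → ℂ) t) : ℝ) : ℂ) =
        ((Nat.card (centralizer ({t} : Set G)) : ℝ) : ℂ) := by
      push_cast
      exact horth
    exact Complex.ofReal_inj.mp h6
  have hne : ξ ≠ χ₀ := by
    rintro rfl
    omega
  have hlow : (313 : ℝ) ≤ ∑ χ : IrrCharacter G, Complex.normSq ((χ : G → ℂ) t) := by
    have h6 : ∑ χ ∈ ({ξ, χ₀} : Finset (IrrCharacter G)), Complex.normSq ((χ : G → ℂ) t) ≤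
        ∑ χ : IrrCharacter G, Complex.normSq ((χ : G → ℂ) t) :=
      Finset.sum_le_sum_of_subset_of_nonneg (Finset.subset_univ _) (fun _ _ _ => Complex.normSq_nonneg _)
    rw [Finset.sum_pair hne, hv₁, hv₂] at h6
    have e1 : -(((13 : ℕ) : ℂ)) = ((-13 : ℝ) : ℂ) := by push_cast; ring
    have e2 : -(((12 : ℕ) : ℂ)) = ((-12 : ℝ) : ℂ) := by push_cast; ring
    rw [e1, e2, Complex.normSq_ofReal, Complex.normSq_ofReal] at h6
    norm_num at h6
    linarith
  rw [hreal] at hlow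
  have hC : 313 ≤ Nat.card (centralizer ({t} : Set G)) := by exact_mod_cast hlow
  have hm60 : 60 ≤ (centralizer ({t} : Set G)).index := Nat.le_of_dvd (by
    rcases Nat.eq_zero_or_pos (centralizer ({t} : Set G)).index with h0 | h0
    · rw [h0] at hmC
      omega
    · exact h0) h60
  have := Nat.mul_le_mul hm60 hC
  omega

theorem count4 {ι : Type*} [DecidableEq ι] (f : ι → ℤ) (X : Finset ι) (p q r s : ℤ)
    (hX : ∀ χ ∈ X, f χ = p ∨ f χ = q ∨ f χ = r ∨ f χ = s) :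
    ∃ a b c d : ℕ, a + b + c + d = X.card ∧ ∑ χ ∈ X, f χ = (a : ℤ) * p + (b : ℤ) * q + (c : ℤ) * r + (d : ℤ) * s := by
  induction X using Finset.induction_on with
  | empty => exact ⟨0, 0, 0, 0, by simp⟩
  | insert χ₀ S hχ ih =>
    obtain ⟨a, b, c, d, h1, h2⟩ := ih (fun χ hc => hX χ (Finset.mem_insert_of_mem hc))
    rw [Finset.sum_insert hχ, Finset.card_insert_of_notMem hχ, h2]
    rcases hX χ₀ (Finset.mem_insert_self _ _) with e | e | e | e
    · exact ⟨a + 1, b, c, d, by omega, by rw [e]; push_cast; ring⟩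
    · exact ⟨a, b + 1, c, d, by omega, by rw [e]; push_cast; ring⟩
    · exact ⟨a, b, c + 1, d, by omega, by rw [e]; push_cast; ring⟩
    · exact ⟨a, b, c, d + 1, by omega, by rw [e]; push_cast; ring⟩

/-- The principal block package. -/
theorem pack {G : Type*} [Group G] [Fintype G] {M : Ideal Cfsg.AlgInt} {p : ℕ} [hp : Fact p.Prime] {x : G}
    (hM : IsPModular p M) (hx : orderOf x = p) (hsyl : ¬ p ^ 2 ∣ Nat.card G) (e : ℕ)
    (hN : Nat.card (normalizer ((zpowers x : Subgroup G) : Set G)) = e * Nat.card (centralizer ({x} : Set G))) :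
    ∃ (X Y : Finset (IrrCharacter G)) (δ : IrrCharacter G → ℤ) (ε : ℤ) (deg : IrrCharacter G → ℕ),
      (∀ χ : IrrCharacter G, (χ : G → ℂ) 1 = deg χ ∧ deg χ ≠ 0 ∧ deg χ ∣ Nat.card G) ∧
      (∀ χ : IrrCharacter G, χ ∈ principalBlock M G ↔ χ ∈ X ∨ χ ∈ Y) ∧ Disjoint X Y ∧ X.card = e ∧
      Y.card * e = p - 1 ∧ 0 < e ∧ (ε = 1 ∨ ε = -1) ∧ deg (oneIrr G) = 1 ∧ (oneIrr G ∈ X ∨ oneIrr G ∈ Y) ∧
      (∀ χ ∈ X, (δ χ = 1 ∨ δ χ = -1) ∧ (deg χ : ℤ) % p = δ χ % p ∧ deg χ ∣ (centralizer ({x} : Set G)).index) ∧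
      (∀ θ ∈ Y, (deg θ : ℤ) % p = (ε * (e : ℤ)) % p) ∧
      (∀ θ ∈ Y, ε * (deg θ : ℤ) = ∑ χ ∈ X, δ χ * (deg χ : ℤ)) ∧
      (oneIrr G ∈ X → δ (oneIrr G) = 1) := by
  classical
  have hpr : Nat.Prime p := hp.out
  obtain ⟨X, Y, δ, ε, deg, hdeg, hB, hdisj, hXc, hYc, he0, hX, hε, hYd, hYY, hYrel, -⟩ :=
    Lib.BR.block_ext hM hx hsyl e hN
  haveI hMp : M.IsPrime := hM.2.1.isPrime
  have hone : oneIrr G ∈ principalBlock M G := Lib.Block.mem_blockOf_self (oneIrr G)
  have hone1 : deg (oneIrr G) = 1 := by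
    have h0 := (hdeg (oneIrr G)).1
    have h6 : (((oneIrr G : IrrCharacter G) : G → ℂ) 1) = 1 := rfl
    rw [h6] at h0
    exact_mod_cast h0.symm
  have hx1 : x ≠ 1 := by
    rintro rfl
    rw [orderOf_one] at hx
    have := hpr.two_le
    omega
  refine ⟨X, Y, δ, ε, deg, hdeg, hB, hdisj, hXc, hYc, he0, hε, hone1, (hB _).mp hone, ?_, ?_, ?_, ?_⟩
  · intro χ hχ
    obtain ⟨h6, h7, h8⟩ := hX χ hχ
    refine ⟨h6, h7, ?_⟩
    have h9 := h8 x (mem_zpowers x) hx1
    have h10 := Lib.SmallSimple.BB.deg_dvd_of_value χ (hdeg χ).1 (hdeg χ).2.1 x (v := 1) (by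
      rcases h6 with h6 | h6
      · left
        rw [h9, h6]
        simp
      · right
        rw [h9, h6]
        simp)
    simpa using h10
  · intro θ hθ
    exact hYd θ hθ
  · intro θ hθ
    have h6 := hYrel θ hθ 1 (by
      rw [orderOf_one]
      intro h7
      exact hpr.one_lt.ne' (Nat.dvd_one.mp h7))
    rw [(hdeg θ).1] at h6
    have h7 : ∀ χ ∈ X, (δ χ : ℂ) * (χ : G → ℂ) 1 = ((δ χ * (deg χ : ℤ) : ℤ) : ℂ) := by
      intro χ _
      rw [(hdeg χ).1]
      push_cast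
      rfl
    rw [Finset.sum_congr rfl h7] at h6
    exact_mod_cast h6
  · intro h1X
    have h6 := (hX _ h1X).2.2 x (mem_zpowers x) hx1
    have h7 : (((oneIrr G : IrrCharacter G) : G → ℂ) x) = 1 := rfl
    rw [h7] at h6
    exact_mod_cast h6.symm

theorem deg_le_seventy {G : Type*} [Group G] [Fintype G] (h : Nat.card G = 5040) (deg : IrrCharacter G → ℕ)
    (hdeg : ∀ χ : IrrCharacter G, (χ : G → ℂ) 1 = deg χ) (χ : IrrCharacter G) : deg χ ≤ 70 := by
  have hsqs : ∑ χ : IrrCharacter G, (deg χ) ^ 2 = 5040 := by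
    have h6 := Lib.Char.sum_degree_sq (G := G)
    have h7 : ∀ χ : IrrCharacter G, (χ : G → ℂ) 1 ^ 2 = ((deg χ ^ 2 : ℕ) : ℂ) := by
      intro χ
      rw [hdeg χ]
      push_cast
      rfl
    simp only [h7] at h6
    rw [← h]
    exact_mod_cast h6
  have h9 := Finset.single_le_sum (f := fun χ : IrrCharacter G => (deg χ) ^ 2)
    (fun χ _ => Nat.zero_le _) (Finset.mem_univ χ)
  rw [hsqs] at h9
  by_contra hlt
  push Not at hlt
  have h10 : 71 ^ 2 ≤ deg χ ^ 2 := Nat.pow_le_pow_left hlt 2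
  norm_num at h10
  omega

theorem key_three : ∀ a ∈ Finset.range 3, ∀ b ∈ Finset.range 3, ∀ c ∈ Finset.range 3,
    a + b + c = 2 → (1 + 15 * (a : ℤ) - 20 * (b : ℤ) + 36 * (c : ℤ)).natAbs ∣ 5040 →
    (1 + 15 * (a : ℤ) - 20 * (b : ℤ) + 36 * (c : ℤ)).natAbs < 14 := by
  decide +kernel

theorem key_three_deg : ∀ d ∈ Finset.range 71, (14 ≤ d ∧ d ∣ 360 ∧ (d % 7 = 1 ∨ d % 7 = 6)) → d = 15 ∨ d = 20 ∨ d = 36 := by
  decide +kernel

/-- Three characters in the block, with an involution in the centralizer. -/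
theorem three_even {G : Type*} [Group G] [Fintype G] [IsSimpleGroup G] (h : Nat.card G = 5040) {x : G}
    (hx : orderOf x = 7) (hNe : Nat.card (normalizer ((zpowers x : Subgroup G) : Set G)) =
      3 * Nat.card (centralizer ({x} : Set G))) (hinv : 2 ∣ Nat.card (centralizer ({x} : Set G)))
    (hI : (centralizer ({x} : Set G)).index ∣ 360) : False := by
  classical
  have hnc : ¬ IsMulCommutative G := Lib.SmallSimple.not_comm_of_not_prime (by rw [h]; norm_num)
  haveI hf : Fact (Nat.Prime 7) := ⟨by norm_num⟩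
  haveI hf2 : Fact (Nat.Prime 2) := ⟨by norm_num⟩
  have hp : Nat.Prime 7 := hf.out
  have hsyl : ¬ 7 ^ 2 ∣ Nat.card G := by rw [h]; norm_num
  obtain ⟨M, hM⟩ := Lib.Char.exists_isPModular 7 hp
  have hper := Lib.SmallSimple.BA.perfect_of_simple hnc (G := G)
  obtain ⟨X, Y, δ, ε, deg, hdeg, hB, hdisj, hXc, hYc, he0, hε, hone1, h1XY, hXd, hYd, hrel, hδ1⟩ :=
    pack hM hx hsyl 3 hNe
  obtain ⟨t₀, ht₀⟩ := exists_prime_orderOf_dvd_card' (G := centralizer ({x} : Set G)) 2 hinv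
  have ht' : orderOf (t₀ : G) = 2 := by rw [Subgroup.orderOf_coe]; exact ht₀
  have hdvdG : ∀ θ : IrrCharacter G, deg θ ∣ 5040 := fun θ => h ▸ (hdeg θ).2.2
  have hle := deg_le_seventy h deg (fun χ => (hdeg χ).1)
  have h1X : oneIrr G ∈ X := by
    rcases h1XY with h6 | h6
    · exact h6
    · exfalso
      have h7 := hYd _ h6
      rw [hone1] at h7
      have h8 : ((1 : ℕ) : ℤ) % ((7 : ℕ) : ℤ) = (ε * ((3 : ℕ) : ℤ)) % ((7 : ℕ) : ℤ) := h7
      rcases hε with rfl | rfl <;> omega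
  have hT : ∀ χ ∈ X.erase (oneIrr G), δ χ * (deg χ : ℤ) = 15 ∨ δ χ * (deg χ : ℤ) = -20 ∨
      δ χ * (deg χ : ℤ) = 36 ∨ δ χ * (deg χ : ℤ) = 36 := by
    intro χ hχ
    obtain ⟨h8, h9⟩ := Finset.mem_erase.mp hχ
    obtain ⟨h6, h7, h10⟩ := hXd χ h9
    have h14 := Lib.SmallSimple.BB.two_p_le_deg hper hM hx hsyl (by norm_num) ht' t₀.2 χ
      ((hB χ).mpr (Or.inl h9)) h8 (hdeg χ).1
    have h15 : (deg χ : ℤ) % 7 = δ χ % 7 := h7
    have h16 : deg χ % 7 = 1 ∨ deg χ % 7 = 6 := by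
      rcases h6 with h6 | h6 <;> rw [h6] at h15 <;> omega
    rcases key_three_deg _ (Finset.mem_range.mpr (by have := hle χ; omega)) ⟨h14, h10.trans hI, h16⟩ with h17 | h17 | h17 <;>
      rw [h17] at h15 ⊢ <;> rcases h6 with h6 | h6 <;> rw [h6] at h15 ⊢ <;> first | omega | norm_num
  obtain ⟨a, b, c, d, habcd, hsum⟩ := count4 (fun χ => δ χ * (deg χ : ℤ)) (X.erase (oneIrr G)) 15 (-20) 36 36 hT
  rw [Finset.card_erase_of_mem h1X, hXc] at habcd
  have hYne : Y.Nonempty := by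
    rw [Finset.nonempty_iff_ne_empty]
    rintro rfl
    simp at hYc
  obtain ⟨θ₀, hθ₀⟩ := hYne
  have h6 := hrel θ₀ hθ₀
  rw [← Finset.add_sum_erase X _ h1X, hδ1 h1X, hone1, hsum] at h6
  have hθ1 : θ₀ ≠ oneIrr G := by
    rintro rfl
    exact (Finset.disjoint_left.mp hdisj h1X) hθ₀
  have h14 := Lib.SmallSimple.BB.two_p_le_deg hper hM hx hsyl (by norm_num) ht' t₀.2 θ₀
    ((hB θ₀).mpr (Or.inr hθ₀)) hθ1 (hdeg θ₀).1
  have hna : (1 + 15 * ((a : ℤ)) - 20 * (b : ℤ) + 36 * ((c + d : ℕ) : ℤ)).natAbs = deg θ₀ := by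
    have h7 : (1 + 15 * ((a : ℤ)) - 20 * (b : ℤ) + 36 * ((c + d : ℕ) : ℤ)) = ε * (deg θ₀ : ℤ) := by
      rw [h6]
      push_cast
      ring
    rw [h7, Int.natAbs_mul]
    rcases hε with rfl | rfl <;> simp
  have h8 := key_three a (Finset.mem_range.mpr (by omega)) b (Finset.mem_range.mpr (by omega))
    (c + d) (Finset.mem_range.mpr (by omega)) (by omega) (by rw [hna]; exact hdvdG θ₀)
  rw [hna] at h8
  omega

theorem key_six_deg : ∀ d ∈ Finset.range 71, (14 ≤ d ∧ d ∣ 90 ∧ (d % 7 = 1 ∨ d % 7 = 6)) → d = 15 := by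
  decide +kernel

/-- Six characters in the block, with index 90. -/
theorem six_even {G : Type*} [Group G] [Fintype G] [IsSimpleGroup G] (h : Nat.card G = 5040) {x : G}
    (hx : orderOf x = 7) (hNe : Nat.card (normalizer ((zpowers x : Subgroup G) : Set G)) =
      6 * Nat.card (centralizer ({x} : Set G))) (hinv : 2 ∣ Nat.card (centralizer ({x} : Set G)))
    (hI : (centralizer ({x} : Set G)).index = 90) : False := by
  classical
  have hnc : ¬ IsMulCommutative G := Lib.SmallSimple.not_comm_of_not_prime (by rw [h]; norm_num)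
  haveI hf : Fact (Nat.Prime 7) := ⟨by norm_num⟩
  haveI hf2 : Fact (Nat.Prime 2) := ⟨by norm_num⟩
  have hp : Nat.Prime 7 := hf.out
  have hsyl : ¬ 7 ^ 2 ∣ Nat.card G := by rw [h]; norm_num
  obtain ⟨M, hM⟩ := Lib.Char.exists_isPModular 7 hp
  have hper := Lib.SmallSimple.BA.perfect_of_simple hnc (G := G)
  obtain ⟨X, Y, δ, ε, deg, hdeg, hB, hdisj, hXc, hYc, he0, hε, hone1, h1XY, hXd, hYd, hrel, hδ1⟩ :=
    pack hM hx hsyl 6 hNe
  obtain ⟨t₀, ht₀⟩ := exists_prime_orderOf_dvd_card' (G := centralizer ({x} : Set G)) 2 hinv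
  have ht' : orderOf (t₀ : G) = 2 := by rw [Subgroup.orderOf_coe]; exact ht₀
  have hdvdG : ∀ θ : IrrCharacter G, deg θ ∣ 5040 := fun θ => h ▸ (hdeg θ).2.2
  have hle := deg_le_seventy h deg (fun χ => (hdeg χ).1)
  have hT : ∀ χ ∈ X, χ ≠ oneIrr G → δ χ * (deg χ : ℤ) = 15 := by
    intro χ h9 h8
    obtain ⟨h6, h7, h10⟩ := hXd χ h9
    have h14 := Lib.SmallSimple.BB.two_p_le_deg hper hM hx hsyl (by norm_num) ht' t₀.2 χ
      ((hB χ).mpr (Or.inl h9)) h8 (hdeg χ).1
    have h15 : (deg χ : ℤ) % 7 = δ χ % 7 := h7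
    have h16 : deg χ % 7 = 1 ∨ deg χ % 7 = 6 := by
      rcases h6 with h6 | h6 <;> rw [h6] at h15 <;> omega
    have h17 := key_six_deg _ (Finset.mem_range.mpr (by have := hle χ; omega)) ⟨h14, h10.trans hI.dvd, h16⟩
    rw [h17] at h15 ⊢
    rcases h6 with h6 | h6 <;> rw [h6] at h15 ⊢ <;> first | omega | norm_num
  have hYne : Y.Nonempty := by
    rw [Finset.nonempty_iff_ne_empty]
    rintro rfl
    simp at hYc
  obtain ⟨θ₀, hθ₀⟩ := hYne
  by_cases h1X : oneIrr G ∈ X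
  · have h6 := hrel θ₀ hθ₀
    rw [← Finset.add_sum_erase X _ h1X, hδ1 h1X, hone1] at h6
    have h7 : ∑ χ ∈ X.erase (oneIrr G), δ χ * (deg χ : ℤ) = 75 := by
      rw [Finset.sum_congr rfl (g := fun _ => (15 : ℤ))]
      · rw [Finset.sum_const, Finset.card_erase_of_mem h1X, hXc]
        norm_num
      · intro χ hχ
        obtain ⟨h8, h9⟩ := Finset.mem_erase.mp hχ
        exact hT χ h9 h8
    rw [h7] at h6
    have h8 := hdvdG θ₀
    have h10 : deg θ₀ = 76 := by
      rcases hε with rfl | rfl <;> omega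
    rw [h10] at h8
    revert h8
    norm_num
  · have h1Y : oneIrr G ∈ Y := h1XY.resolve_left h1X
    have h6 := hrel _ h1Y
    rw [hone1] at h6
    have h7 : ∑ χ ∈ X, δ χ * (deg χ : ℤ) = 90 := by
      rw [Finset.sum_congr rfl (g := fun _ => (15 : ℤ))]
      · rw [Finset.sum_const, hXc]
        norm_num
      · intro χ hχ
        exact hT χ hχ (fun h8 => h1X (h8 ▸ hχ))
    rw [h7] at h6
    rcases hε with rfl | rfl <;> omega

theorem nine_dvd {G : Type*} [Group G] [Fintype G] [IsSimpleGroup G] (h : Nat.card G = 5040) {y : G}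
    (hy : orderOf y = 3) : 9 ∣ Nat.card (centralizer ({y} : Set G)) := by
  have hnc : ¬ IsMulCommutative G := Lib.SmallSimple.not_comm_of_not_prime (by rw [h]; norm_num)
  haveI hf3 : Fact (Nat.Prime 3) := ⟨by norm_num⟩
  obtain ⟨h1, h2, h3, h4, h5⟩ := Lib.SmallSimple.sylow_facts (G := G) hnc 3 2 560
    (by rw [h]; norm_num) (by norm_num) (by norm_num)
  have hcardS : ∀ Q : Sylow 3 G, Nat.card (Q : Subgroup G) = 9 := fun Q => by
    have := (h5 Q).1
    rw [this]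
    norm_num
  have hpg : IsPGroup 3 (zpowers y) := IsPGroup.of_card (n := 1) (by rw [Nat.card_zpowers, hy, pow_one])
  obtain ⟨Q, hQ⟩ := hpg.exists_le_sylow
  have hyQ : y ∈ (Q : Subgroup G) := hQ (mem_zpowers y)
  rw [← hcardS Q]
  apply Subgroup.card_dvd_of_le
  intro q hq
  rw [mem_centralizer_singleton_iff]
  have hc := (IsPGroup.isMulCommutative_of_card_eq_prime_sq (p := 3) (G := (Q : Subgroup G)) (by rw [hcardS Q]; norm_num)).is_comm.comm
    ⟨q, hq⟩ ⟨y, hyQ⟩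
  exact congrArg Subtype.val hc

theorem key_18 : ∀ n ∈ Finset.range 19, (n ∣ 18 ∧ n % 7 = 1) → n = 1 := by decide +kernel

theorem le_norm {G : Type*} [Group G] [Finite G] (K : Subgroup G) {x : G} (hx : orderOf x = 7) (hxK : x ∈ K)
    (hK : Nat.card K = 63 ∨ Nat.card K = 126) : K ≤ normalizer ((zpowers x : Subgroup G) : Set G) := by
  classical
  haveI hf : Fact (Nat.Prime 7) := ⟨by norm_num⟩
  have hzK : zpowers x ≤ K := by
    rw [zpowers_le]
    exact hxK
  have hQc : Nat.card ((zpowers x).subgroupOf K) = 7 := by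
    rw [Nat.card_congr (Subgroup.subgroupOfEquivOfLe hzK).toEquiv, Nat.card_zpowers, hx]
  have hQP : IsPGroup 7 ((zpowers x).subgroupOf K) := IsPGroup.of_card (n := 1) (by rw [hQc, pow_one])
  obtain ⟨P', hP'⟩ := hQP.exists_le_sylow
  have hPc : Nat.card (P' : Subgroup K) = 7 := by
    obtain ⟨m, hm⟩ := IsPGroup.iff_card.mp P'.isPGroup'
    have h1 : Nat.card ((zpowers x).subgroupOf K) ∣ Nat.card (P' : Subgroup K) := Subgroup.card_dvd_of_le hP'
    have h2 : Nat.card (P' : Subgroup K) ∣ Nat.card K := Subgroup.card_subgroup_dvd_card _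
    rw [hQc, hm] at h1
    rw [hm] at h2 ⊢
    have hm1 : m = 1 := by
      rcases m with _ | _ | m
      · norm_num at h1
      · rfl
      · exfalso
        have h3 : 7 ^ 2 ∣ Nat.card K := dvd_trans (pow_dvd_pow 7 (by omega)) h2
        rcases hK with hK | hK <;> rw [hK] at h3 <;> revert h3 <;> norm_num
    rw [hm1, pow_one]
  have hidx : (P' : Subgroup K).index ∣ 18 := by
    have h6 := Subgroup.card_mul_index (P' : Subgroup K)
    rw [hPc] at h6
    rcases hK with hK | hK <;> rw [hK] at h6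
    · have : (P' : Subgroup K).index = 9 := by omega
      rw [this]
      norm_num
    · have : (P' : Subgroup K).index = 18 := by omega
      rw [this]
  have hn1 : Nat.card (Sylow 7 K) = 1 := by
    have h1 := (Sylow.card_dvd_index P').trans hidx
    have h2 := card_sylow_modEq_one 7 K
    have h3 : Nat.card (Sylow 7 K) % 7 = 1 := h2
    exact key_18 _ (Finset.mem_range.mpr (by have := Nat.le_of_dvd (by norm_num) h1; omega)) ⟨h1, h3⟩
  haveI hsub : Subsingleton (Sylow 7 K) := by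
    obtain ⟨a, ha⟩ := Nat.card_eq_one_iff_unique.mp hn1
    exact a
  have hnorm : (P' : Subgroup K).Normal := Sylow.normal_of_subsingleton P'
  have hEq : (zpowers x).subgroupOf K = (P' : Subgroup K) :=
    Subgroup.eq_of_le_of_card_ge hP' (by rw [hPc, hQc])
  haveI : ((zpowers x).subgroupOf K).Normal := by
    rw [hEq]
    exact hnorm
  exact le_normalizer_of_normal_subgroupOf hzK

theorem key23a : ∀ d ∈ Finset.range 71, (2 ≤ d ∧ d ∣ 5040 ∧ d % 7 = 1 ∧ (d + 1) ∣ 5040) → d = 8 ∨ d = 15 := by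
  decide +kernel

theorem key23b : ∀ d ∈ Finset.range 71, (2 ≤ d ∧ d ∣ 5040 ∧ d % 7 = 6 ∧ (d - 1) ∣ 5040) → d = 6 := by
  decide +kernel

/-- Two characters in the block, with `|C(x)| = 21`. -/
theorem case23 {G : Type*} [Group G] [Fintype G] [IsSimpleGroup G] (h : Nat.card G = 5040) {x : G}
    (hx : orderOf x = 7) (hNe : Nat.card (normalizer ((zpowers x : Subgroup G) : Set G)) =
      2 * Nat.card (centralizer ({x} : Set G))) (hC : Nat.card (centralizer ({x} : Set G)) = 21) : False := by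
  classical
  have hnc : ¬ IsMulCommutative G := Lib.SmallSimple.not_comm_of_not_prime (by rw [h]; norm_num)
  haveI hf : Fact (Nat.Prime 7) := ⟨by norm_num⟩
  haveI hf2 : Fact (Nat.Prime 2) := ⟨by norm_num⟩
  haveI hf3 : Fact (Nat.Prime 3) := ⟨by norm_num⟩
  have hp : Nat.Prime 7 := hf.out
  have hsyl : ¬ 7 ^ 2 ∣ Nat.card G := by rw [h]; norm_num
  obtain ⟨M, hM⟩ := Lib.Char.exists_isPModular 7 hp
  have hper := Lib.SmallSimple.BA.perfect_of_simple hnc (G := G)
  obtain ⟨deg, σ, ξ, χ₀, hdeg, hσ, hξB, hχB, hξ1, hχ1, hc1, hc2, hrel, hrelg⟩ :=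
    Lib.SmallSimple.BB.block_two (M := M) hM hx hsyl hNe (by norm_num)
  obtain ⟨t, ht⟩ := exists_prime_orderOf_dvd_card' (G := G) 2 (by rw [h]; norm_num)
  obtain ⟨y₀, hy₀⟩ := exists_prime_orderOf_dvd_card' (G := centralizer ({x} : Set G)) 3 (by rw [hC]; norm_num)
  have hy : orderOf (y₀ : G) = 3 := by rw [Subgroup.orderOf_coe]; exact hy₀
  have hyc : (y₀ : G) ∈ centralizer ({x} : Set G) := y₀.2
  set y : G := (y₀ : G) with hydef
  have hd2 := deg_ge_two hper ht ξ hξ1 (hdeg ξ).1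
  have hd2' := deg_ge_two hper ht χ₀ hχ1 (hdeg χ₀).1
  have hdvdG : ∀ θ : IrrCharacter G, deg θ ∣ 5040 := fun θ => h ▸ (hdeg θ).2.2
  have hle := deg_le_seventy h deg (fun χ => (hdeg χ).1)
  have hF : ∀ χ : IrrCharacter G, χ ∈ principalBlock M G → χ ≠ oneIrr G → ∃ n : ℕ, n < deg χ ∧
      (χ : G → ℂ) y + (χ : G → ℂ) y⁻¹ = ((3 * (n : ℤ) - (deg χ : ℤ) : ℤ) : ℂ) ∧ (7 : ℤ) ∣ (deg χ : ℤ) - (n : ℤ) := by
    intro χ hχ hχ1
    obtain ⟨n, hn, hv, hd⟩ := fx21 hM hx hy hyc hsyl χ hχ (hdeg χ).1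
    refine ⟨n, lt_of_le_of_ne hn ?_, hv, hd⟩
    rintro rfl
    refine fix_ne hy χ hχ1 (hdeg χ).1 ?_
    rw [hv]
    push_cast
    ring
  have hdd : (deg ξ = 6 ∧ deg χ₀ = 5) ∨ (deg ξ = 8 ∧ deg χ₀ = 9) ∨ (deg ξ = 15 ∧ deg χ₀ = 16) := by
    have hc1' : (deg ξ : ℤ) % 7 = σ % 7 := hc1
    rcases hσ with rfl | rfl
    · have h6 : deg χ₀ = deg ξ + 1 := by omega
      rcases key23a (deg ξ) (Finset.mem_range.mpr (by have := hle ξ; omega)) ⟨hd2, hdvdG ξ, by omega, h6 ▸ hdvdG χ₀⟩ with h7 | h7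
      · exact Or.inr (Or.inl ⟨h7, by omega⟩)
      · exact Or.inr (Or.inr ⟨h7, by omega⟩)
    · have h6 : deg χ₀ = deg ξ - 1 := by omega
      have h7 := key23b (deg ξ) (Finset.mem_range.mpr (by have := hle ξ; omega)) ⟨hd2, hdvdG ξ, by omega, h6 ▸ hdvdG χ₀⟩
      exact Or.inl ⟨h7, by omega⟩
  have h9C := nine_dvd h hy
  have hI := index_mul_card (centralizer ({y} : Set G))
  rw [h] at hI
  obtain ⟨c9, hc9⟩ := h9C
  rcases hdd with ⟨h1, h2⟩ | ⟨h1, h2⟩ | ⟨h1, h2⟩
  · obtain ⟨n, hn, -, ⟨c, hc⟩⟩ := hF χ₀ hχB hχ1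
    rw [h2] at hn hc
    push_cast at hc
    omega
  · obtain ⟨n, hn, hv, ⟨c, hc⟩⟩ := hF χ₀ hχB hχ1
    rw [h2] at hn hc hv
    push_cast at hc
    have hn2 : n = 2 := by omega
    subst hn2
    have h6 := dvd_f χ₀ (hdeg χ₀).1 (hdeg χ₀).2.1 y _ hv
    rw [h2] at h6
    obtain ⟨w, hw⟩ := h6
    push_cast at hw
    have h3I : 3 ∣ (centralizer ({y} : Set G)).index := by omega
    obtain ⟨i, hi⟩ := h3I
    rw [hi, hc9] at hI
    have h7 : 27 * (i * c9) = 5040 := by
      rw [← hI]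
      ring
    omega
  · -- degrees 15 and 16
    have h5I : 5 ∣ (centralizer ({y} : Set G)).index := by
      obtain ⟨n, hn, hv, ⟨c, hc⟩⟩ := hF ξ hξB hξ1
      rw [h1] at hn hc hv
      push_cast at hc
      have h6 := dvd_f ξ (hdeg ξ).1 (hdeg ξ).2.1 y _ hv
      rw [h1] at h6
      obtain ⟨w, hw⟩ := h6
      push_cast at hw
      have hn2 : n = 1 ∨ n = 8 := by omega
      rcases hn2 with rfl | rfl <;> norm_num at hw <;> omega
    have h8I : 8 ∣ (centralizer ({y} : Set G)).index := by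
      obtain ⟨n, hn, hv, ⟨c, hc⟩⟩ := hF χ₀ hχB hχ1
      rw [h2] at hn hc hv
      push_cast at hc
      have h6 := dvd_f χ₀ (hdeg χ₀).1 (hdeg χ₀).2.1 y _ hv
      rw [h2] at h6
      obtain ⟨w, hw⟩ := h6
      push_cast at hw
      have hn2 : n = 2 ∨ n = 9 := by omega
      rcases hn2 with rfl | rfl <;> norm_num at hw <;> omega
    have h40 : 40 ∣ (centralizer ({y} : Set G)).index :=
      Nat.Coprime.mul_dvd_of_dvd_of_dvd (m := 5) (n := 8) (by norm_num) h5I h8I
    have hxC : x ∈ centralizer ({y} : Set G) := by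
      rw [mem_centralizer_singleton_iff]
      exact (mem_centralizer_singleton_iff.mp hyc).symm
    have h7C : 7 ∣ Nat.card (centralizer ({y} : Set G)) := by
      have := orderOf_dvd_natCard (⟨x, hxC⟩ : centralizer ({y} : Set G))
      rwa [Subgroup.orderOf_mk, hx] at this
    have hcc : Nat.card (centralizer ({y} : Set G)) = 63 ∨ Nat.card (centralizer ({y} : Set G)) = 126 := by
      obtain ⟨i, hi⟩ := h40
      obtain ⟨c7, hc7⟩ := h7C
      rw [hi, hc9] at hI
      have h8 : i * c9 = 14 := by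
        have : 40 * 9 * (i * c9) = 5040 := by
          rw [← hI]
          ring
        omega
      have hi0 : i ≠ 0 := by
        rintro rfl
        omega
      have h10 : 7 ∣ c9 := by
        have : 7 ∣ 9 * c9 := ⟨c7, by rw [← hc9, hc7]⟩
        omega
      obtain ⟨c', rfl⟩ := h10
      have h11 : i * c' = 2 := by
        have : 7 * (i * c') = 14 := by
          rw [← h8]
          ring
        omega
      have h12 : c' = 1 ∨ c' = 2 := by
        have h13 : c' ∣ 2 := ⟨i, by rw [mul_comm]; exact h11.symm⟩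
        have := Nat.le_of_dvd (by norm_num) h13
        interval_cases c'
        · omega
        · exact Or.inl rfl
        · exact Or.inr rfl
      rcases h12 with rfl | rfl
      · left
        rw [hc9]
      · right
        rw [hc9]
    have hKle := le_norm (centralizer ({y} : Set G)) hx hxC hcc
    have h6 := Subgroup.card_le_of_le hKle
    rw [hNe, hC] at h6
    rcases hcc with h7 | h7 <;> rw [h7] at h6 <;> omega

theorem hmod7_of {G : Type*} [Group G] [Fintype G] (h : Nat.card G = 5040) {x : G}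
    (hx : orderOf x = 7) (hNe : Nat.card (normalizer ((zpowers x : Subgroup G) : Set G)) =
      6 * Nat.card (centralizer ({x} : Set G))) (hCx : centralizer ({x} : Set G) = zpowers x)
    (χ : IrrCharacter G) {d : ℕ} (hd : (χ : G → ℂ) 1 = d) : d % 7 = 0 ∨ d % 7 = 1 ∨ d % 7 = 6 := by
  classical
  haveI hf : Fact (Nat.Prime 7) := ⟨by norm_num⟩
  have hp : Nat.Prime 7 := hf.out
  have hsyl : ¬ 7 ^ 2 ∣ Nat.card G := by rw [h]; norm_num
  obtain ⟨M, hM⟩ := Lib.Char.exists_isPModular 7 hp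
  obtain ⟨X, Y, δ, ε, deg, hdeg, hB, hdisj, hXc, hYc, he0, hε, hone1, h1XY, hXd, hYd, hrel, hδ1⟩ :=
    pack hM hx hsyl 6 hNe
  have hdd : deg χ = d := by
    have := (hdeg χ).1
    rw [hd] at this
    exact_mod_cast this.symm
  by_cases hχ : χ ∈ principalBlock M G
  · rcases (hB χ).mp hχ with h9 | h9
    · obtain ⟨h6, h7, -⟩ := hXd χ h9
      have h15 : (deg χ : ℤ) % 7 = δ χ % 7 := h7
      rw [hdd] at h15
      rcases h6 with h6 | h6 <;> rw [h6] at h15 <;> omega
    · have h7 := hYd χ h9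
      have h15 : (deg χ : ℤ) % 7 = (ε * ((6 : ℕ) : ℤ)) % 7 := h7
      rw [hdd] at h15
      rcases hε with rfl | rfl <;> omega
  · have h6 := p_dvd_outside hM hx hCx hsyl χ hχ hd
    omega

theorem key_deg5a : ∀ d ∈ Finset.range 71, (10 ≤ d ∧ d ∣ 504 ∧ (d % 5 = 1 ∨ d % 5 = 4) ∧
    (d % 7 = 0 ∨ d % 7 = 1 ∨ d % 7 = 6)) → d = 14 ∨ d = 21 ∨ d = 36 ∨ d = 56 := by
  decide +kernel

theorem key_deg5b : ∀ d ∈ Finset.range 71, (2 ≤ d ∧ d ∣ 112 ∧ (d % 5 = 1 ∨ d % 5 = 4) ∧
    (d % 7 = 0 ∨ d % 7 = 1 ∨ d % 7 = 6)) → d = 14 ∨ d = 56 := by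
  decide +kernel

theorem key_v : ∀ a ∈ Finset.range 4, ∀ b ∈ Finset.range 4, ∀ c ∈ Finset.range 4, ∀ d ∈ Finset.range 4,
    (a + b + c + d = 1 ∨ a + b + c + d = 3) →
    (1 + ((a : ℤ) * (-14) + (b : ℤ) * 21 + (c : ℤ) * 36 + (d : ℤ) * 56)).natAbs ∣ 5040 →
    (1 + ((a : ℤ) * (-14) + (b : ℤ) * 21 + (c : ℤ) * 36 + (d : ℤ) * 56)).natAbs < 10 ∧ a + b + c + d = 3 := by
  decide +kernel

theorem key_w : ∀ a ∈ Finset.range 5, ∀ b ∈ Finset.range 5, ∀ c ∈ Finset.range 5, ∀ d ∈ Finset.range 5,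
    (a + b + c + d = 2 ∨ a + b + c + d = 4) →
    ((a : ℤ) * (-14) + (b : ℤ) * 21 + (c : ℤ) * 36 + (d : ℤ) * 56).natAbs ≠ 1 := by
  decide +kernel

theorem key_k : ∀ k ∈ Finset.range 505, ∀ e ∈ ({2, 4} : Finset ℕ), (e * k) ∣ 1008 → (1008 / (e * k)) % 5 = 1 →
    k % 7 ≠ 0 → (k % 2 = 1 → e = 2 ∧ k = 9) ∧ (k % 2 = 0 → (1008 / k) ∣ 504) := by
  decide +kernel

/-- Six characters in the block, with `C(x) = ⟨x⟩`. -/
theorem case61 {G : Type*} [Group G] [Fintype G] [IsSimpleGroup G] (h : Nat.card G = 5040) {x : G}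
    (hx : orderOf x = 7) (hNe : Nat.card (normalizer ((zpowers x : Subgroup G) : Set G)) =
      6 * Nat.card (centralizer ({x} : Set G))) (hC : Nat.card (centralizer ({x} : Set G)) = 7)
    (hn7 : Nat.card (Sylow 7 G) = 120) : False := by
  classical
  have hnc : ¬ IsMulCommutative G := Lib.SmallSimple.not_comm_of_not_prime (by rw [h]; norm_num)
  haveI hf5 : Fact (Nat.Prime 5) := ⟨by norm_num⟩
  haveI hf7 : Fact (Nat.Prime 7) := ⟨by norm_num⟩
  haveI hf2 : Fact (Nat.Prime 2) := ⟨by norm_num⟩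
  have hCx : centralizer ({x} : Set G) = zpowers x := by
    symm
    apply Subgroup.eq_of_le_of_card_ge
    · intro y hy
      obtain ⟨m, rfl⟩ := Subgroup.mem_zpowers_iff.mp hy
      rw [mem_centralizer_singleton_iff]
      exact (Commute.zpow_left (Commute.refl x) m)
    · rw [Nat.card_zpowers, hx, hC]
  have hm7 : ∀ (χ : IrrCharacter G) (d : ℕ), (χ : G → ℂ) 1 = d → d % 7 = 0 ∨ d % 7 = 1 ∨ d % 7 = 6 :=
    fun χ d hd => hmod7_of h hx hNe hCx χ hd
  obtain ⟨h1, h2, h3, h4, h5⟩ := Lib.SmallSimple.sylow_facts (G := G) hnc 5 1 1008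
    (by rw [h]; norm_num) (by norm_num) (by norm_num)
  obtain ⟨P⟩ : Nonempty (Sylow 5 G) := inferInstance
  obtain ⟨hP, hN⟩ := h5 P
  rw [pow_one] at hP
  obtain ⟨z, hz, hzP⟩ := Lib.SmallSimple.BA.exists_gen P hP
  obtain ⟨e, he, he1, hNe₅⟩ := Lib.SmallSimple.BA.norm_data hnc P hP hz hzP
  rw [← hzP, h] at hN
  have hzC : z ∈ centralizer ({z} : Set G) := by
    rw [mem_centralizer_singleton_iff]
  have h5C : 5 ∣ Nat.card (centralizer ({z} : Set G)) := by
    have := orderOf_dvd_natCard (⟨z, hzC⟩ : centralizer ({z} : Set G))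
    rwa [Subgroup.orderOf_mk, hz] at this
  have he4 : e ∣ 4 := he
  have hee : e = 2 ∨ e = 4 := by
    have : ∀ e, e ≤ 4 → e ∣ 4 → e ≠ 1 → e = 2 ∨ e = 4 := by decide
    exact this e (Nat.le_of_dvd (by norm_num) he4) he4 he1
  have h11 : ¬ 7 ∣ Nat.card (centralizer ({z} : Set G)) := by
    intro h6
    obtain ⟨y, hy⟩ := exists_prime_orderOf_dvd_card' (G := centralizer ({z} : Set G)) 7 h6
    have hy' : orderOf (y : G) = 7 := by rw [Subgroup.orderOf_coe]; exact hy
    have hpg : IsPGroup 7 (zpowers (y : G)) :=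
      IsPGroup.of_card (n := 1) (by rw [Nat.card_zpowers, hy', pow_one])
    obtain ⟨Q, hQ⟩ := hpg.exists_le_sylow
    obtain ⟨-, -, -, -, h11s⟩ := Lib.SmallSimple.sylow_facts (G := G) hnc 7 1 720
      (by rw [h]; norm_num) (by norm_num) (by norm_num)
    obtain ⟨hQc, hQN⟩ := h11s Q
    rw [pow_one] at hQc
    obtain ⟨x', hx', hzQ⟩ := Lib.SmallSimple.BA.exists_gen Q hQc
    obtain ⟨e', -, he'1, hNe'⟩ := Lib.SmallSimple.BA.norm_data hnc Q hQc hx' hzQ
    rw [← hzQ, h, hn7, hNe'] at hQN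
    have hyz : (y : G) ∈ zpowers x' := by
      rw [hzQ]
      exact hQ (mem_zpowers _)
    have hy1 : (y : G) ≠ 1 := by
      intro h0
      rw [h0, orderOf_one] at hy'
      omega
    have hCe := Lib.SmallSimple.BB.centralizer_eq (by norm_num) hx' hyz hy1
    have hzC' : z ∈ centralizer ({x'} : Set G) := by
      rw [← hCe, mem_centralizer_singleton_iff]
      exact (mem_centralizer_singleton_iff.mp y.2).symm
    have hxC' : x' ∈ centralizer ({x'} : Set G) := by
      rw [mem_centralizer_singleton_iff]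
    have d5 : 5 ∣ Nat.card (centralizer ({x'} : Set G)) := by
      have := orderOf_dvd_natCard (⟨z, hzC'⟩ : centralizer ({x'} : Set G))
      rwa [Subgroup.orderOf_mk, hz] at this
    have d11 : 7 ∣ Nat.card (centralizer ({x'} : Set G)) := by
      have := orderOf_dvd_natCard (⟨x', hxC'⟩ : centralizer ({x'} : Set G))
      rwa [Subgroup.orderOf_mk, hx'] at this
    have d55 : 5 * 7 ∣ Nat.card (centralizer ({x'} : Set G)) :=
      Nat.Coprime.mul_dvd_of_dvd_of_dvd (by norm_num) d5 d11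
    obtain ⟨m, hm⟩ := d55
    rw [hm] at hQN
    have h7 : 120 * (e' * (5 * 7 * m)) = 4200 * (e' * m) := by ring
    omega
  obtain ⟨k, hk⟩ := h5C
  rw [hk] at h11
  have hIdx := index_mul_card (centralizer ({z} : Set G))
  rw [h, hk] at hIdx
  rw [hNe₅, hk] at hN
  have hn' : Nat.card (Sylow 5 G) * (e * k) = 1008 := by
    have : Nat.card (Sylow 5 G) * (e * (5 * k)) = 5 * (Nat.card (Sylow 5 G) * (e * k)) := by ring
    omega
  have hk0 : 0 < k := by
    rcases Nat.eq_zero_or_pos k with h0 | h0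
    · rw [h0] at hn'
      simp at hn'
    · exact h0
  have hek0 : 0 < e * k := by
    rcases hee with rfl | rfl <;> omega
  have hq : 1008 / (e * k) = Nat.card (Sylow 5 G) :=
    Nat.div_eq_of_eq_mul_left hek0 hn'.symm
  have hkd : e * k ∣ 1008 := ⟨Nat.card (Sylow 5 G), by rw [← hn']; ring⟩
  have hkle : k ≤ 504 := by
    have := Nat.le_of_dvd (by norm_num) hkd
    rcases hee with rfl | rfl <;> omega
  have hkey := key_k k (Finset.mem_range.mpr (by omega)) e (by rcases hee with rfl | rfl <;> simp) hkd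
    (by rw [hq]; exact h2) (by omega)
  have hIk : (centralizer ({z} : Set G)).index = 1008 / k := by
    symm
    apply Nat.div_eq_of_eq_mul_left hk0
    have : (centralizer ({z} : Set G)).index * (5 * k) = 5 * ((centralizer ({z} : Set G)).index * k) := by ring
    omega
  have hp5 : Nat.Prime 5 := hf5.out
  have hsyl5 : ¬ 5 ^ 2 ∣ Nat.card G := by rw [h]; norm_num
  obtain ⟨M, hM⟩ := Lib.Char.exists_isPModular 5 hp5
  have hper := Lib.SmallSimple.BA.perfect_of_simple hnc (G := G)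
  obtain ⟨X, Y, δ, ε, deg, hdeg, hB, hdisj, hXc, hYc, he0, hε, hone1, h1XY, hXd, hYd, hrel, hδ1⟩ :=
    pack hM hz hsyl5 e hNe₅
  have hdvdG : ∀ θ : IrrCharacter G, deg θ ∣ 5040 := fun θ => h ▸ (hdeg θ).2.2
  have hle := deg_le_seventy h deg (fun χ => (hdeg χ).1)
  obtain ⟨s, hs⟩ := exists_prime_orderOf_dvd_card' (G := G) 2 (by rw [h]; norm_num)
  have hT : ∀ χ ∈ X, χ ≠ oneIrr G → δ χ * (deg χ : ℤ) = -14 ∨ δ χ * (deg χ : ℤ) = 21 ∨
      δ χ * (deg χ : ℤ) = 36 ∨ δ χ * (deg χ : ℤ) = 56 := by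
    intro χ h9 h8
    obtain ⟨h6, h7, h10⟩ := hXd χ h9
    have h15 : (deg χ : ℤ) % 5 = δ χ % 5 := h7
    have h16 : deg χ % 5 = 1 ∨ deg χ % 5 = 4 := by
      rcases h6 with h6 | h6 <;> rw [h6] at h15 <;> omega
    have h17 := hm7 χ _ (hdeg χ).1
    have hall : deg χ = 14 ∨ deg χ = 21 ∨ deg χ = 36 ∨ deg χ = 56 := by
      rcases Nat.mod_two_eq_zero_or_one k with hev | hod
      · have h2k : 2 ∣ Nat.card (centralizer ({z} : Set G)) := by
          rw [hk]
          exact Dvd.dvd.mul_left (Nat.dvd_of_mod_eq_zero hev) 5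
        obtain ⟨t₀, ht₀⟩ := exists_prime_orderOf_dvd_card' (G := centralizer ({z} : Set G)) 2 h2k
        have ht' : orderOf (t₀ : G) = 2 := by rw [Subgroup.orderOf_coe]; exact ht₀
        have h14 := Lib.SmallSimple.BB.two_p_le_deg hper hM hz hsyl5 (by norm_num) ht' t₀.2 χ
          ((hB χ).mpr (Or.inl h9)) h8 (hdeg χ).1
        have hI504 : (centralizer ({z} : Set G)).index ∣ 504 := by
          rw [hIk]
          exact hkey.2 hev
        exact key_deg5a _ (Finset.mem_range.mpr (by have := hle χ; omega)) ⟨h14, h10.trans hI504, h16, h17⟩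
      · obtain ⟨-, hk9⟩ := hkey.1 hod
        subst hk9
        have hI112 : (centralizer ({z} : Set G)).index = 112 := by
          rw [hIk]
        have h14 := deg_ge_two hper hs χ h8 (hdeg χ).1
        rcases key_deg5b _ (Finset.mem_range.mpr (by have := hle χ; omega)) ⟨h14, h10.trans hI112.dvd, h16, h17⟩ with h18 | h18
        · exact Or.inl h18
        · exact Or.inr (Or.inr (Or.inr h18))
    rcases hall with h18 | h18 | h18 | h18 <;> rw [h18] at h15 ⊢ <;> rcases h6 with h6 | h6 <;> rw [h6] at h15 ⊢ <;>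
      first | omega | norm_num
  rcases h1XY with h1X | h1Y
  · obtain ⟨a, b, c, d, habcd, hsum⟩ := count4 (fun χ => δ χ * (deg χ : ℤ)) (X.erase (oneIrr G)) (-14) 21 36 56
      (fun χ hχ => by
        obtain ⟨h8, h9⟩ := Finset.mem_erase.mp hχ
        exact hT χ h9 h8)
    rw [Finset.card_erase_of_mem h1X, hXc] at habcd
    have hYne : Y.Nonempty := by
      rw [Finset.nonempty_iff_ne_empty]
      rintro rfl
      simp at hYc
    obtain ⟨θ₀, hθ₀⟩ := hYne
    have h6 := hrel θ₀ hθ₀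
    rw [← Finset.add_sum_erase X _ h1X, hδ1 h1X, hone1, hsum] at h6
    have hθ1 : θ₀ ≠ oneIrr G := by
      rintro rfl
      exact (Finset.disjoint_left.mp hdisj h1X) hθ₀
    have hna : (1 + ((a : ℤ) * (-14) + (b : ℤ) * 21 + (c : ℤ) * 36 + (d : ℤ) * 56)).natAbs = deg θ₀ := by
      have h7 : (1 + ((a : ℤ) * (-14) + (b : ℤ) * 21 + (c : ℤ) * 36 + (d : ℤ) * 56)) = ε * (deg θ₀ : ℤ) := by
        rw [h6]
        push_cast
        ring
      rw [h7, Int.natAbs_mul]
      rcases hε with rfl | rfl <;> simp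
    have hsum3 : a + b + c + d = 1 ∨ a + b + c + d = 3 := by
      rcases hee with rfl | rfl <;> omega
    have hbd : a + b + c + d ≤ 3 := by
      rcases hee with rfl | rfl <;> omega
    obtain ⟨h8, h9⟩ := key_v a (Finset.mem_range.mpr (by omega)) b (Finset.mem_range.mpr (by omega))
      c (Finset.mem_range.mpr (by omega)) d (Finset.mem_range.mpr (by omega)) hsum3 (by rw [hna]; exact hdvdG θ₀)
    rw [hna] at h8
    have he4' : e = 4 := by
      rcases hee with rfl | rfl <;> omega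
    subst he4'
    have hev : k % 2 = 0 := by
      rcases Nat.mod_two_eq_zero_or_one k with hev | hod
      · exact hev
      · have := (hkey.1 hod).1
        omega
    have h2k : 2 ∣ Nat.card (centralizer ({z} : Set G)) := by
      rw [hk]
      exact Dvd.dvd.mul_left (Nat.dvd_of_mod_eq_zero hev) 5
    obtain ⟨t₀, ht₀⟩ := exists_prime_orderOf_dvd_card' (G := centralizer ({z} : Set G)) 2 h2k
    have ht' : orderOf (t₀ : G) = 2 := by rw [Subgroup.orderOf_coe]; exact ht₀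
    have h14 := Lib.SmallSimple.BB.two_p_le_deg hper hM hz hsyl5 (by norm_num) ht' t₀.2 θ₀
      ((hB θ₀).mpr (Or.inr hθ₀)) hθ1 (hdeg θ₀).1
    omega
  · have h1X : oneIrr G ∉ X := fun h6 => (Finset.disjoint_left.mp hdisj h6) h1Y
    obtain ⟨a, b, c, d, habcd, hsum⟩ := count4 (fun χ => δ χ * (deg χ : ℤ)) X (-14) 21 36 56
      (fun χ hχ => hT χ hχ (fun h8 => h1X (h8 ▸ hχ)))
    rw [hXc] at habcd
    have h6 := hrel _ h1Y
    rw [hone1, hsum] at h6
    have hbd : a + b + c + d ≤ 4 := by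
      rcases hee with rfl | rfl <;> omega
    have h8 := key_w a (Finset.mem_range.mpr (by omega)) b (Finset.mem_range.mpr (by omega))
      c (Finset.mem_range.mpr (by omega)) d (Finset.mem_range.mpr (by omega)) (by rcases hee with rfl | rfl <;> omega)
    apply h8
    rw [← h6]
    rcases hε with rfl | rfl <;> simp

theorem key7 : ∀ n ∈ Finset.range 721, (n ∣ 720 ∧ n % 7 = 1 ∧ n ≠ 1) → n = 8 ∨ n = 15 ∨ n = 36 ∨ n = 120 := by
  decide +kernel

/-- No finite simple group has order 5040. -/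
theorem result {G : Type*} [Group G] [Finite G] [IsSimpleGroup G] : Nat.card G ≠ 5040 := by
  intro h
  classical
  haveI : Fintype G := Fintype.ofFinite G
  have hnc : ¬ IsMulCommutative G := Lib.SmallSimple.not_comm_of_not_prime (by rw [h]; norm_num)
  haveI hf : Fact (Nat.Prime 7) := ⟨by norm_num⟩
  obtain ⟨h1, h2, h3, h4, h5⟩ := Lib.SmallSimple.sylow_facts (G := G) hnc 7 1 720
    (by rw [h]; norm_num) (by norm_num) (by norm_num)
  have hsyl : ¬ 7 ^ 2 ∣ Nat.card G := by rw [h]; norm_num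
  have hn := key7 _ (Finset.mem_range.mpr (by have := Nat.le_of_dvd (by norm_num) h1; omega)) ⟨h1, h2, h3⟩
  obtain ⟨P⟩ : Nonempty (Sylow 7 G) := inferInstance
  obtain ⟨hP, hN⟩ := h5 P
  rw [pow_one] at hP
  obtain ⟨x, hx, hz⟩ := Lib.SmallSimple.BA.exists_gen P hP
  obtain ⟨e, he, he1, hNe⟩ := Lib.SmallSimple.BA.norm_data hnc P hP hx hz
  rw [← hz, h] at hN
  have hxC : x ∈ centralizer ({x} : Set G) := by
    rw [mem_centralizer_singleton_iff]
  have hpd : 7 ∣ Nat.card (centralizer ({x} : Set G)) := by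
    have := orderOf_dvd_natCard (⟨x, hxC⟩ : centralizer ({x} : Set G))
    rwa [Subgroup.orderOf_mk, hx] at this
  have he6 : e ∣ 6 := he
  have hee : e = 2 ∨ e = 3 ∨ e = 6 := by
    have : ∀ e, e ≤ 6 → e ∣ 6 → e ≠ 1 → e = 2 ∨ e = 3 ∨ e = 6 := by decide
    exact this e (Nat.le_of_dvd (by norm_num) he6) he6 he1
  obtain ⟨k, hk⟩ := hpd
  have hIdx := index_mul_card (centralizer ({x} : Set G))
  rw [h, hk] at hIdx
  have hev : ∀ c, k = 2 * c → 2 ∣ Nat.card (centralizer ({x} : Set G)) := by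
    rintro c rfl
    rw [hk]
    exact ⟨7 * c, by ring⟩
  rcases hn with hn | hn | hn | hn
  · have hC := Lib.SmallSimple.BA.card_centralizer_of_succ (p := 7) (by rw [hn]) P hx hz hsyl
    rw [hn, hNe, hC] at hN
    rcases hee with rfl | rfl | rfl <;> omega
  · rw [hn, hNe, hk] at hN
    rcases hee with rfl | rfl | rfl
    · have hk' : k = 24 := by omega
      exact two_even h hx hNe (hev 12 (by omega))
    · have hk' : k = 16 := by omega
      subst hk'
      have hI : (centralizer ({x} : Set G)).index = 45 := by omega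
      exact three_even h hx hNe (hev 8 (by omega)) (by rw [hI]; norm_num)
    · have hk' : k = 8 := by omega
      subst hk'
      have hI : (centralizer ({x} : Set G)).index = 90 := by omega
      exact six_even h hx hNe (hev 4 (by omega)) hI
  · rw [hn, hNe, hk] at hN
    rcases hee with rfl | rfl | rfl
    · have hk' : k = 10 := by omega
      exact two_even h hx hNe (hev 5 (by omega))
    · omega
    · omega
  · have hN' := hN
    rw [hn, hNe, hk] at hN'
    rcases hee with rfl | rfl | rfl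
    · have hk' : k = 3 := by omega
      subst hk'
      exact case23 h hx hNe (by rw [hk])
    · have hk' : k = 2 := by omega
      subst hk'
      have hI : (centralizer ({x} : Set G)).index = 360 := by omega
      exact three_even h hx hNe (hev 1 (by omega)) (by rw [hI])
    · have hk' : k = 1 := by omega
      subst hk'
      exact case61 h hx hNe (by rw [hk]) hn

end Cfsg.Agent.S0978
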