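import Cfsg.Statements.S0980
import Mathlib
import Cfsg.Agent.S0978

set_option autoImplicit false
open Cfsg

namespace Cfsg.Agent.S0980

open Subgroup
open Cfsg.Agent.Lib.Block (oneIrr)
open Cfsg.Agent.S0434 (fx3 dvd_f)
open Cfsg.Agent.S0435 (p_dvd_outside deg_ge_two)
open Cfsg.Agent.S0978 (pack count4 fix_ne)
open scoped ComplexConjugate

/-- The multiplicity congruence at an element of order three commuting with `x`. -/
theorem fx5 {G : Type*} [Group G] [Fintype G] {M : Ideal Cfsg.AlgInt} [hp : Fact (Nat.Prime 5)] {x y : G}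
    (hM : IsPModular 5 M) (hx : orderOf x = 5) (hy : orderOf y = 3) (hyc : y ∈ centralizer ({x} : Set G))
    (hsyl : ¬ 5 ^ 2 ∣ Nat.card G) (χ : IrrCharacter G) (hχ : χ ∈ principalBlock M G) {d : ℕ}
    (hd : (χ : G → ℂ) 1 = d) :
    ∃ n : ℕ, n ≤ d ∧ (χ : G → ℂ) y + (χ : G → ℂ) y⁻¹ = ((3 * (n : ℤ) - (d : ℤ) : ℤ) : ℂ) ∧
      (5 : ℤ) ∣ (d : ℤ) - (n : ℤ) := by
  classical
  have hpr : Nat.Prime 5 := hp.out
  obtain ⟨n₀, hn₀, hv₀⟩ := fx3 hy χ hd
  refine ⟨n₀, hn₀, hv₀, ?_⟩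
  have hy3 : y ^ 3 = 1 := by
    rw [← hy]
    exact pow_orderOf_eq_one y
  have hy2 : y ^ 2 = y⁻¹ := eq_inv_of_mul_eq_one_left (by rw [← pow_succ]; exact hy3)
  have hy1 : y ≠ 1 := by
    rintro rfl
    rw [orderOf_one] at hy
    omega
  have hyy : y ≠ y⁻¹ := by
    intro h6
    apply hy1
    have h7 : y ^ 2 = y := by rw [hy2, ← h6]
    have h8 : y ^ 2 = y * y := pow_two y
    rw [h8] at h7
    exact mul_eq_left.mp h7
  -- constancy on the section
  have hconst : ∀ (u : zpowers x) (v : G), v = y ∨ v = y⁻¹ → (u : G) ≠ 1 →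
      (χ : G → ℂ) ((u : G) * v) = (χ : G → ℂ) u := by
    intro u v hv hu
    have hv3 : v ^ 3 = 1 := by
      rcases hv with rfl | rfl
      · exact hy3
      · rw [inv_pow, hy3, inv_one]
    have hvc : v ∈ centralizer ({x} : Set G) := by
      rcases hv with rfl | rfl
      · exact hyc
      · exact inv_mem hyc
    have huo := Lib.SmallSimple.BB.orderOf_of_mem hpr hx u.2 hu
    refine Lib.Block.irr_mul_of_principal hM ⟨1, by rw [huo, pow_one]⟩ ?_ χ hχ
    obtain ⟨N, hN, hN', hidx, -⟩ := Lib.SmallSimple.BB.exists_complement (p := 5) (x := (u : G)) huo hsyl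
    have htu : v ∈ centralizer ({(u : G)} : Set G) := by
      rw [Lib.SmallSimple.BB.centralizer_eq hpr hx u.2 hu]
      exact hvc
    refine ⟨⟨v, htu⟩, ?_, rfl⟩
    have h1 := Cfsg.Agent.Lib.Core.le_pPrimeCore hN
      (((Nat.Prime.coprime_iff_not_dvd hpr).mpr hN').symm)
    apply h1
    have h2 := Subgroup.pow_index_mem N (⟨v, htu⟩ : centralizer ({(u : G)} : Set G))
    rw [hidx] at h2
    have h3 : ((⟨v, htu⟩ : centralizer ({(u : G)} : Set G)) ^ 5) ^ 2 = ⟨v, htu⟩ := by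
      apply Subtype.ext
      show (v ^ 5) ^ 2 = v
      calc (v ^ 5) ^ 2 = (v ^ 3) ^ 3 * v := by group
        _ = v := by rw [hv3]; simp
    have h4 := pow_mem h2 2
    rwa [h3] at h4
  haveI : Fintype (zpowers x) := Fintype.ofFinite _
  haveI : Fintype (zpowers y) := Fintype.ofFinite _
  have hZ : ∀ s : zpowers y, (s : G) = 1 ∨ (s : G) = y ∨ (s : G) = y⁻¹ := by
    rintro ⟨s, hs⟩
    obtain ⟨k, rfl⟩ := Subgroup.mem_zpowers_iff.mp hs
    show y ^ k = 1 ∨ y ^ k = y ∨ y ^ k = y⁻¹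
    have h2 := zpow_mod_orderOf y k
    rw [hy] at h2
    have h3 : k % ((3 : ℕ) : ℤ) = 0 ∨ k % ((3 : ℕ) : ℤ) = 1 ∨ k % ((3 : ℕ) : ℤ) = 2 := by
      push_cast
      omega
    rcases h3 with h3 | h3 | h3 <;> rw [h3] at h2 <;> rw [← h2]
    · left
      simp
    · right
      left
      simp
    · right
      right
      rw [← hy2]
      norm_cast
  have hcomm : ∀ (u : zpowers x) (s : zpowers y), Commute (u : G) (s : G) := by
    intro u s
    obtain ⟨k, hk⟩ := Subgroup.mem_zpowers_iff.mp u.2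
    obtain ⟨j, hj⟩ := Subgroup.mem_zpowers_iff.mp s.2
    have hc : Commute y x := Subgroup.mem_centralizer_singleton_iff.mp hyc
    rw [← hk, ← hj]
    exact (hc.zpow_zpow j k).symm
  let φ : zpowers x × zpowers y →* G :=
    MonoidHom.noncommCoprod (zpowers x).subtype (zpowers y).subtype (fun u s => hcomm u s)
  have hφ : ∀ (u : zpowers x) (s : zpowers y), φ (u, s) = (u : G) * s := fun u s => rfl
  obtain ⟨n, hn⟩ := Lib.Char.classInner_isCharacter_nat (Lib.Char.IsCharacter.comp φ (Lib.Char.IsIrrCharacter.isCharacter χ.2))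
    (Lib.Char.IsIrrCharacter.isCharacter (Lib.Char.isIrrCharacter_one (G := zpowers x × zpowers y)))
  obtain ⟨m, hm⟩ := Lib.Char.classInner_isCharacter_nat
    (Lib.Char.IsCharacter.restrict (zpowers x) (Lib.Char.IsIrrCharacter.isCharacter χ.2))
    (Lib.Char.IsIrrCharacter.isCharacter (Lib.Char.isIrrCharacter_one (G := zpowers x)))
  have hp0 : ((5 : ℕ) : ℂ) ≠ 0 := by norm_num
  have hcardH : Nat.card (zpowers x × zpowers y) = 5 * 3 := by
    rw [Nat.card_prod, Nat.card_zpowers, Nat.card_zpowers, hx, hy]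
  have hsumZ : ∀ f : G → ℂ, ∑ s : zpowers y, f s = f 1 + f y + f y⁻¹ := by
    intro f
    have e1 : ∑ s : zpowers y, f s = ∑ g ∈ (Finset.univ.filter (fun g : G => g ∈ zpowers y)), f g := by
      refine Finset.sum_bij (fun (s : zpowers y) _ => (s : G)) (fun s _ => by simp) (fun a _ b _ h => Subtype.ext h)
        (fun b hb => ⟨⟨b, by simpa using hb⟩, Finset.mem_univ _, rfl⟩) (fun _ _ => rfl)
    have hfilter : Finset.univ.filter (fun g : G => g ∈ zpowers y) = {1, y, y⁻¹} := by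
      ext g
      simp only [Finset.mem_filter, Finset.mem_univ, true_and, Finset.mem_insert, Finset.mem_singleton]
      constructor
      · intro hg
        exact hZ ⟨g, hg⟩
      · rintro (rfl | rfl | rfl)
        · exact one_mem _
        · exact mem_zpowers _
        · exact inv_mem (mem_zpowers _)
    rw [e1, hfilter, Finset.sum_insert (by
      simp only [Finset.mem_insert, Finset.mem_singleton, not_or]
      exact ⟨hy1.symm, fun h6 => hy1 (inv_eq_one.mp h6.symm)⟩), Finset.sum_pair hyy]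
    ring
  have h1 : ∑ u : zpowers x, ((χ : G → ℂ) ((u : G) * 1) + (χ : G → ℂ) ((u : G) * y) + (χ : G → ℂ) ((u : G) * y⁻¹)) =
      ((5 * 3 : ℕ) : ℂ) * n := by
    rw [Lib.Char.classInner_def, hcardH] at hn
    have h2 : ((5 * 3 : ℕ) : ℂ) ≠ 0 := by norm_num
    rw [inv_mul_eq_iff_eq_mul₀ h2, Fintype.sum_prod_type] at hn
    rw [← hn]
    refine Finset.sum_congr rfl fun u _ => ?_
    have h3 := hsumZ (fun g => (χ : G → ℂ) ((u : G) * g))
    rw [← h3]
    refine Finset.sum_congr rfl fun s _ => ?_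
    simp [hφ]
  have h2 : ∑ u : zpowers x, (χ : G → ℂ) u = ((5 : ℕ) : ℂ) * m := by
    rw [Lib.Char.classInner_def, Nat.card_zpowers, hx, inv_mul_eq_iff_eq_mul₀ hp0] at hm
    rw [← hm]
    refine Finset.sum_congr rfl fun u _ => ?_
    simp
  have h3 : ∑ u : zpowers x, ((χ : G → ℂ) ((u : G) * y) + (χ : G → ℂ) ((u : G) * y⁻¹) - 2 * (χ : G → ℂ) u) =
      (χ : G → ℂ) y + (χ : G → ℂ) y⁻¹ - 2 * (χ : G → ℂ) 1 := by
    rw [Finset.sum_eq_single (1 : zpowers x)]
    · simp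
    · intro u _ hu
      have hu' : (u : G) ≠ 1 := fun h0 => hu (Subtype.ext h0)
      rw [hconst u y (Or.inl rfl) hu', hconst u y⁻¹ (Or.inr rfl) hu']
      ring
    · intro h0
      exact absurd (Finset.mem_univ _) h0
  have h4 : (((d : ℤ) - (n₀ : ℤ) : ℤ) : ℂ) = ((5 * ((m : ℤ) - (n : ℤ)) : ℤ) : ℂ) := by
    have h5 : ∑ u : zpowers x, ((χ : G → ℂ) ((u : G) * 1) + (χ : G → ℂ) ((u : G) * y) + (χ : G → ℂ) ((u : G) * y⁻¹)) =
        3 * ∑ u : zpowers x, (χ : G → ℂ) u +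
          ∑ u : zpowers x, ((χ : G → ℂ) ((u : G) * y) + (χ : G → ℂ) ((u : G) * y⁻¹) - 2 * (χ : G → ℂ) u) := by
      rw [Finset.mul_sum, ← Finset.sum_add_distrib]
      refine Finset.sum_congr rfl fun u _ => ?_
      rw [mul_one]
      ring
    rw [h1, h2, h3, hv₀, hd] at h5
    push_cast at h5 ⊢
    have h6 : (3 : ℂ) ≠ 0 := by norm_num
    apply mul_left_cancel₀ h6
    linear_combination h5
  have h5 : (d : ℤ) - (n₀ : ℤ) = 5 * ((m : ℤ) - (n : ℤ)) := by exact_mod_cast h4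
  exact ⟨_, h5⟩

theorem deg_le {G : Type*} [Group G] [Fintype G] (h : Nat.card G = 5760) (deg : IrrCharacter G → ℕ)
    (hdeg : ∀ χ : IrrCharacter G, (χ : G → ℂ) 1 = deg χ) (χ : IrrCharacter G) : deg χ ≤ 75 := by
  have hsqs : ∑ χ : IrrCharacter G, (deg χ) ^ 2 = 5760 := by
    have h6 := Lib.Char.sum_degree_sq (G := G)
    have h7 : ∀ χ : IrrCharacter G, (χ : G → ℂ) 1 ^ 2 = ((deg χ ^ 2 : ℕ) : ℂ) := by
      intro χ
      rw [hdeg χ]
      push_cast
      rfl
    simp only [h7] at h6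
    rw [← h]
    exact_mod_cast h6
  have h9 := Finset.single_le_sum (f := fun χ : IrrCharacter G => (deg χ) ^ 2)
    (fun χ _ => Nat.zero_le _) (Finset.mem_univ χ)
  rw [hsqs] at h9
  by_contra hlt
  push Not at hlt
  have h10 : 76 ^ 2 ≤ deg χ ^ 2 := Nat.pow_le_pow_left hlt 2
  norm_num at h10
  omega

theorem nine_dvd {G : Type*} [Group G] [Fintype G] [IsSimpleGroup G] (h : Nat.card G = 5760) {y : G}
    (hy : orderOf y = 3) : 9 ∣ Nat.card (centralizer ({y} : Set G)) := by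
  have hnc : ¬ IsMulCommutative G := Lib.SmallSimple.not_comm_of_not_prime (by rw [h]; norm_num)
  haveI hf3 : Fact (Nat.Prime 3) := ⟨by norm_num⟩
  obtain ⟨h1, h2, h3, h4, h5⟩ := Lib.SmallSimple.sylow_facts (G := G) hnc 3 2 640
    (by rw [h]; norm_num) (by norm_num) (by norm_num)
  have hcardS : ∀ Q : Sylow 3 G, Nat.card (Q : Subgroup G) = 9 := fun Q => by
    have := (h5 Q).1
    rw [this]
    norm_num
  have hpg : IsPGroup 3 (zpowers y) := IsPGroup.of_card (n := 1) (by rw [Nat.card_zpowers, hy, pow_one])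
  obtain ⟨Q, hQ⟩ := hpg.exists_le_sylow
  have hyQ : y ∈ (Q : Subgroup G) := hQ (mem_zpowers y)
  rw [← hcardS Q]
  apply Subgroup.card_dvd_of_le
  intro q hq
  rw [mem_centralizer_singleton_iff]
  have hc := (IsPGroup.isMulCommutative_of_card_eq_prime_sq (p := 3) (G := (Q : Subgroup G)) (by rw [hcardS Q]; norm_num)).is_comm.comm
    ⟨q, hq⟩ ⟨y, hyQ⟩
  exact congrArg Subtype.val hc

theorem key_two5a : ∀ d ∈ Finset.range 76, (10 ≤ d ∧ d ∣ 5760 ∧ d % 5 = 1 ∧ (d + 1) ∣ 5760) → d = 0 := by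
  decide +kernel

theorem key_two5b : ∀ d ∈ Finset.range 76, (10 ≤ d ∧ d ∣ 5760 ∧ d % 5 = 4 ∧ (d - 1) ∣ 5760 ∧ 10 ≤ d - 1) → d = 0 := by
  decide +kernel

/-- Two characters in the block, with an involution in the centralizer. -/
theorem two_even {G : Type*} [Group G] [Fintype G] [IsSimpleGroup G] (h : Nat.card G = 5760) {x : G}
    (hx : orderOf x = 5) (hNe : Nat.card (normalizer ((zpowers x : Subgroup G) : Set G)) =
      2 * Nat.card (centralizer ({x} : Set G))) (hinv : 2 ∣ Nat.card (centralizer ({x} : Set G))) : False := by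
  classical
  have hnc : ¬ IsMulCommutative G := Lib.SmallSimple.not_comm_of_not_prime (by rw [h]; norm_num)
  haveI hf : Fact (Nat.Prime 5) := ⟨by norm_num⟩
  haveI hf2 : Fact (Nat.Prime 2) := ⟨by norm_num⟩
  have hp : Nat.Prime 5 := hf.out
  have hsyl : ¬ 5 ^ 2 ∣ Nat.card G := by rw [h]; norm_num
  obtain ⟨M, hM⟩ := Lib.Char.exists_isPModular 5 hp
  have hper := Lib.SmallSimple.BA.perfect_of_simple hnc (G := G)
  obtain ⟨deg, σ, ξ, χ₀, hdeg, hσ, hξB, hχB, hξ1, hχ1, hc1, hc2, hrel, hrelg⟩ :=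
    Lib.SmallSimple.BB.block_two (M := M) hM hx hsyl hNe (by norm_num)
  obtain ⟨t₀, ht₀⟩ := exists_prime_orderOf_dvd_card' (G := centralizer ({x} : Set G)) 2 hinv
  have ht' : orderOf (t₀ : G) = 2 := by rw [Subgroup.orderOf_coe]; exact ht₀
  have hd14 := Lib.SmallSimple.BB.two_p_le_deg hper hM hx hsyl (by norm_num) ht' t₀.2 ξ hξB hξ1 (hdeg ξ).1
  have hd14' := Lib.SmallSimple.BB.two_p_le_deg hper hM hx hsyl (by norm_num) ht' t₀.2 χ₀ hχB hχ1 (hdeg χ₀).1
  have hdvdG : ∀ θ : IrrCharacter G, deg θ ∣ 5760 := fun θ => h ▸ (hdeg θ).2.2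
  have hle := deg_le h deg (fun χ => (hdeg χ).1)
  have hc1' : (deg ξ : ℤ) % 5 = σ % 5 := hc1
  rcases hσ with rfl | rfl
  · have h6 : deg χ₀ = deg ξ + 1 := by omega
    have h7 := key_two5a (deg ξ) (Finset.mem_range.mpr (by have := hle ξ; omega)) ⟨hd14, hdvdG ξ, by omega, h6 ▸ hdvdG χ₀⟩
    omega
  · have h6 : deg χ₀ = deg ξ - 1 := by omega
    have h7 := key_two5b (deg ξ) (Finset.mem_range.mpr (by have := hle ξ; omega)) ⟨hd14, hdvdG ξ, by omega, h6 ▸ hdvdG χ₀, by omega⟩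
    omega

theorem key_four_deg : ∀ d ∈ Finset.range 76, (10 ≤ d ∧ d ∣ 576 ∧ (d % 5 = 1 ∨ d % 5 = 4)) →
    d = 16 ∨ d = 24 ∨ d = 36 ∨ d = 64 := by
  decide +kernel

theorem key_four : ∀ a ∈ Finset.range 4, ∀ b ∈ Finset.range 4, ∀ c ∈ Finset.range 4, ∀ d ∈ Finset.range 4,
    a + b + c + d = 3 →
    (1 + ((a : ℤ) * 16 + (b : ℤ) * (-24) + (c : ℤ) * 36 + (d : ℤ) * (-64))).natAbs ∣ 5760 →
    (1 + ((a : ℤ) * 16 + (b : ℤ) * (-24) + (c : ℤ) * 36 + (d : ℤ) * (-64))).natAbs < 10 := by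
  decide +kernel

/-- Four characters in the block, with an involution in the centralizer. -/
theorem four_even {G : Type*} [Group G] [Fintype G] [IsSimpleGroup G] (h : Nat.card G = 5760) {x : G}
    (hx : orderOf x = 5) (hNe : Nat.card (normalizer ((zpowers x : Subgroup G) : Set G)) =
      4 * Nat.card (centralizer ({x} : Set G))) (hinv : 2 ∣ Nat.card (centralizer ({x} : Set G)))
    (hI : (centralizer ({x} : Set G)).index ∣ 576) : False := by
  classical
  have hnc : ¬ IsMulCommutative G := Lib.SmallSimple.not_comm_of_not_prime (by rw [h]; norm_num)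
  haveI hf : Fact (Nat.Prime 5) := ⟨by norm_num⟩
  haveI hf2 : Fact (Nat.Prime 2) := ⟨by norm_num⟩
  have hp : Nat.Prime 5 := hf.out
  have hsyl : ¬ 5 ^ 2 ∣ Nat.card G := by rw [h]; norm_num
  obtain ⟨M, hM⟩ := Lib.Char.exists_isPModular 5 hp
  have hper := Lib.SmallSimple.BA.perfect_of_simple hnc (G := G)
  obtain ⟨X, Y, δ, ε, deg, hdeg, hB, hdisj, hXc, hYc, he0, hε, hone1, h1XY, hXd, hYd, hrel, hδ1⟩ :=
    pack hM hx hsyl 4 hNe
  obtain ⟨t₀, ht₀⟩ := exists_prime_orderOf_dvd_card' (G := centralizer ({x} : Set G)) 2 hinv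
  have ht' : orderOf (t₀ : G) = 2 := by rw [Subgroup.orderOf_coe]; exact ht₀
  have hdvdG : ∀ θ : IrrCharacter G, deg θ ∣ 5760 := fun θ => h ▸ (hdeg θ).2.2
  have hle := deg_le h deg (fun χ => (hdeg χ).1)
  have hT : ∀ χ ∈ X, χ ≠ oneIrr G → δ χ * (deg χ : ℤ) = 16 ∨ δ χ * (deg χ : ℤ) = -24 ∨
      δ χ * (deg χ : ℤ) = 36 ∨ δ χ * (deg χ : ℤ) = -64 := by
    intro χ h9 h8
    obtain ⟨h6, h7, h10⟩ := hXd χ h9
    have h14 := Lib.SmallSimple.BB.two_p_le_deg hper hM hx hsyl (by norm_num) ht' t₀.2 χ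
      ((hB χ).mpr (Or.inl h9)) h8 (hdeg χ).1
    have h15 : (deg χ : ℤ) % 5 = δ χ % 5 := h7
    have h16 : deg χ % 5 = 1 ∨ deg χ % 5 = 4 := by
      rcases h6 with h6 | h6 <;> rw [h6] at h15 <;> omega
    rcases key_four_deg _ (Finset.mem_range.mpr (by have := hle χ; omega)) ⟨h14, h10.trans hI, h16⟩ with h17 | h17 | h17 | h17 <;>
      rw [h17] at h15 ⊢ <;> rcases h6 with h6 | h6 <;> rw [h6] at h15 ⊢ <;> first | omega | norm_num
  rcases h1XY with h1X | h1Y
  · obtain ⟨a, b, c, d, habcd, hsum⟩ := count4 (fun χ => δ χ * (deg χ : ℤ)) (X.erase (oneIrr G)) 16 (-24) 36 (-64)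
      (fun χ hχ => by
        obtain ⟨h8, h9⟩ := Finset.mem_erase.mp hχ
        exact hT χ h9 h8)
    rw [Finset.card_erase_of_mem h1X, hXc] at habcd
    have hYne : Y.Nonempty := by
      rw [Finset.nonempty_iff_ne_empty]
      rintro rfl
      simp at hYc
    obtain ⟨θ₀, hθ₀⟩ := hYne
    have h6 := hrel θ₀ hθ₀
    rw [← Finset.add_sum_erase X _ h1X, hδ1 h1X, hone1, hsum] at h6
    have hθ1 : θ₀ ≠ oneIrr G := by
      rintro rfl
      exact (Finset.disjoint_left.mp hdisj h1X) hθ₀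
    have h14 := Lib.SmallSimple.BB.two_p_le_deg hper hM hx hsyl (by norm_num) ht' t₀.2 θ₀
      ((hB θ₀).mpr (Or.inr hθ₀)) hθ1 (hdeg θ₀).1
    have hna : (1 + ((a : ℤ) * 16 + (b : ℤ) * (-24) + (c : ℤ) * 36 + (d : ℤ) * (-64))).natAbs = deg θ₀ := by
      have h7 : (1 + ((a : ℤ) * 16 + (b : ℤ) * (-24) + (c : ℤ) * 36 + (d : ℤ) * (-64))) = ε * (deg θ₀ : ℤ) := by
        rw [h6]
        push_cast
        ring
      rw [h7, Int.natAbs_mul]
      rcases hε with rfl | rfl <;> simp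
    have h8 := key_four a (Finset.mem_range.mpr (by omega)) b (Finset.mem_range.mpr (by omega))
      c (Finset.mem_range.mpr (by omega)) d (Finset.mem_range.mpr (by omega)) (by omega) (by rw [hna]; exact hdvdG θ₀)
    rw [hna] at h8
    omega
  · have h1X : oneIrr G ∉ X := fun h6 => (Finset.disjoint_left.mp hdisj h6) h1Y
    obtain ⟨a, b, c, d, habcd, hsum⟩ := count4 (fun χ => δ χ * (deg χ : ℤ)) X 16 (-24) 36 (-64)
      (fun χ hχ => hT χ hχ (fun h8 => h1X (h8 ▸ hχ)))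
    have h6 := hrel _ h1Y
    rw [hone1, hsum] at h6
    push_cast at h6
    rcases hε with rfl | rfl <;> omega

theorem key_b_deg : ∀ d ∈ Finset.range 76, (2 ≤ d ∧ d ∣ 384 ∧ (d % 5 = 1 ∨ d % 5 = 4)) →
    d = 4 ∨ d = 6 ∨ d = 16 ∨ d = 24 ∨ d = 64 := by
  decide +kernel

theorem key_b : ∀ a ∈ Finset.range 4, ∀ b ∈ Finset.range 4, ∀ c ∈ Finset.range 4, ∀ d ∈ Finset.range 4,
    a + b + c + d = 3 →
    (1 + ((a : ℤ) * 6 + (b : ℤ) * 16 + (c : ℤ) * (-24) + (d : ℤ) * (-64))).natAbs ∣ 5760 →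
    (1 + ((a : ℤ) * 6 + (b : ℤ) * 16 + (c : ℤ) * (-24) + (d : ℤ) * (-64))).natAbs = 1 ∨
    (1 + ((a : ℤ) * 6 + (b : ℤ) * 16 + (c : ℤ) * (-24) + (d : ℤ) * (-64))).natAbs = 9 := by
  decide +kernel

/-- Four characters in the block, with `|C(z)| = 15`. -/
theorem caseB {G : Type*} [Group G] [Fintype G] [IsSimpleGroup G] (h : Nat.card G = 5760) {x : G}
    (hx : orderOf x = 5) (hNe : Nat.card (normalizer ((zpowers x : Subgroup G) : Set G)) =
      4 * Nat.card (centralizer ({x} : Set G))) (hC : Nat.card (centralizer ({x} : Set G)) = 15) : False := by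
  classical
  have hnc : ¬ IsMulCommutative G := Lib.SmallSimple.not_comm_of_not_prime (by rw [h]; norm_num)
  haveI hf : Fact (Nat.Prime 5) := ⟨by norm_num⟩
  haveI hf2 : Fact (Nat.Prime 2) := ⟨by norm_num⟩
  haveI hf3 : Fact (Nat.Prime 3) := ⟨by norm_num⟩
  have hp : Nat.Prime 5 := hf.out
  have hsyl : ¬ 5 ^ 2 ∣ Nat.card G := by rw [h]; norm_num
  obtain ⟨M, hM⟩ := Lib.Char.exists_isPModular 5 hp
  have hper := Lib.SmallSimple.BA.perfect_of_simple hnc (G := G)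
  obtain ⟨X, Y, δ, ε, deg, hdeg, hB, hdisj, hXc, hYc, he0, hε, hone1, h1XY, hXd, hYd, hrel, hδ1⟩ :=
    pack hM hx hsyl 4 hNe
  obtain ⟨t, ht⟩ := exists_prime_orderOf_dvd_card' (G := G) 2 (by rw [h]; norm_num)
  obtain ⟨y₀, hy₀⟩ := exists_prime_orderOf_dvd_card' (G := centralizer ({x} : Set G)) 3 (by rw [hC]; norm_num)
  have hy : orderOf (y₀ : G) = 3 := by rw [Subgroup.orderOf_coe]; exact hy₀
  have hyc : (y₀ : G) ∈ centralizer ({x} : Set G) := y₀.2
  set y : G := (y₀ : G) with hydef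
  have hdvdG : ∀ θ : IrrCharacter G, deg θ ∣ 5760 := fun θ => h ▸ (hdeg θ).2.2
  have hle := deg_le h deg (fun χ => (hdeg χ).1)
  have hF : ∀ χ : IrrCharacter G, χ ∈ principalBlock M G → χ ≠ oneIrr G → ∃ n : ℕ, n < deg χ ∧
      (χ : G → ℂ) y + (χ : G → ℂ) y⁻¹ = ((3 * (n : ℤ) - (deg χ : ℤ) : ℤ) : ℂ) ∧ (5 : ℤ) ∣ (deg χ : ℤ) - (n : ℤ) := by
    intro χ hχ hχ1
    obtain ⟨n, hn, hv, hd⟩ := fx5 hM hx hy hyc hsyl χ hχ (hdeg χ).1
    refine ⟨n, lt_of_le_of_ne hn ?_, hv, hd⟩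
    rintro rfl
    refine fix_ne hy χ hχ1 (hdeg χ).1 ?_
    rw [hv]
    push_cast
    ring
  have hI384 : (centralizer ({x} : Set G)).index = 384 := by
    have h6 := index_mul_card (centralizer ({x} : Set G))
    rw [h, hC] at h6
    omega
  have hT : ∀ χ ∈ X, χ ≠ oneIrr G → δ χ * (deg χ : ℤ) = 6 ∨ δ χ * (deg χ : ℤ) = 16 ∨
      δ χ * (deg χ : ℤ) = -24 ∨ δ χ * (deg χ : ℤ) = -64 := by
    intro χ h9 h8
    obtain ⟨h6, h7, h10⟩ := hXd χ h9
    have h14 := deg_ge_two hper ht χ h8 (hdeg χ).1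
    have h15 : (deg χ : ℤ) % 5 = δ χ % 5 := h7
    have h16 : deg χ % 5 = 1 ∨ deg χ % 5 = 4 := by
      rcases h6 with h6 | h6 <;> rw [h6] at h15 <;> omega
    rw [hI384] at h10
    rcases key_b_deg _ (Finset.mem_range.mpr (by have := hle χ; omega)) ⟨h14, h10, h16⟩ with h17 | h17 | h17 | h17 | h17
    · exfalso
      obtain ⟨n, hn, -, ⟨c, hc⟩⟩ := hF χ ((hB χ).mpr (Or.inl h9)) h8
      rw [h17] at hn hc
      push_cast at hc
      omega
    all_goals
      rw [h17] at h15 ⊢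
      rcases h6 with h6 | h6 <;> rw [h6] at h15 ⊢ <;> first | omega | norm_num
  rcases h1XY with h1X | h1Y
  · obtain ⟨a, b, c, d, habcd, hsum⟩ := count4 (fun χ => δ χ * (deg χ : ℤ)) (X.erase (oneIrr G)) 6 16 (-24) (-64)
      (fun χ hχ => by
        obtain ⟨h8, h9⟩ := Finset.mem_erase.mp hχ
        exact hT χ h9 h8)
    rw [Finset.card_erase_of_mem h1X, hXc] at habcd
    have hYne : Y.Nonempty := by
      rw [Finset.nonempty_iff_ne_empty]
      rintro rfl
      simp at hYc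
    obtain ⟨θ₀, hθ₀⟩ := hYne
    have h6 := hrel θ₀ hθ₀
    rw [← Finset.add_sum_erase X _ h1X, hδ1 h1X, hone1, hsum] at h6
    have hθ1 : θ₀ ≠ oneIrr G := by
      rintro rfl
      exact (Finset.disjoint_left.mp hdisj h1X) hθ₀
    have h14 := deg_ge_two hper ht θ₀ hθ1 (hdeg θ₀).1
    have hna : (1 + ((a : ℤ) * 6 + (b : ℤ) * 16 + (c : ℤ) * (-24) + (d : ℤ) * (-64))).natAbs = deg θ₀ := by
      have h7 : (1 + ((a : ℤ) * 6 + (b : ℤ) * 16 + (c : ℤ) * (-24) + (d : ℤ) * (-64))) = ε * (deg θ₀ : ℤ) := by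
        rw [h6]
        push_cast
        ring
      rw [h7, Int.natAbs_mul]
      rcases hε with rfl | rfl <;> simp
    have h8 := key_b a (Finset.mem_range.mpr (by omega)) b (Finset.mem_range.mpr (by omega))
      c (Finset.mem_range.mpr (by omega)) d (Finset.mem_range.mpr (by omega)) (by omega) (by rw [hna]; exact hdvdG θ₀)
    rw [hna] at h8
    have h9 : deg θ₀ = 9 := by omega
    obtain ⟨n, hn, hv, ⟨c', hc⟩⟩ := hF θ₀ ((hB θ₀).mpr (Or.inr hθ₀)) hθ1
    rw [h9] at hn hc hv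
    push_cast at hc
    have hn2 : n = 4 := by omega
    subst hn2
    have h10 := dvd_f θ₀ (hdeg θ₀).1 (hdeg θ₀).2.1 y _ hv
    rw [h9] at h10
    obtain ⟨w, hw⟩ := h10
    push_cast at hw
    have h3I : 3 ∣ (centralizer ({y} : Set G)).index := by omega
    obtain ⟨i, hi⟩ := h3I
    obtain ⟨c9, hc9⟩ := nine_dvd h hy
    have hI := index_mul_card (centralizer ({y} : Set G))
    rw [h, hi, hc9] at hI
    have h7 : 27 * (i * c9) = 5760 := by
      rw [← hI]
      ring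
    omega
  · have h1X : oneIrr G ∉ X := fun h6 => (Finset.disjoint_left.mp hdisj h6) h1Y
    obtain ⟨a, b, c, d, habcd, hsum⟩ := count4 (fun χ => δ χ * (deg χ : ℤ)) X 6 16 (-24) (-64)
      (fun χ hχ => hT χ hχ (fun h8 => h1X (h8 ▸ hχ)))
    have h6 := hrel _ h1Y
    rw [hone1, hsum] at h6
    push_cast at h6
    rcases hε with rfl | rfl <;> omega

section
open Cfsg.Agent.Lib.Block MonoidAlgebra Cfsg.Agent.Lib.Char

/-- The class-algebra constants are natural numbers. -/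
theorem class_formula {G : Type*} [Group G] [Fintype G] (z w : G) :
    ∃ c : ℕ, (((centralizer ({z} : Set G)).index : ℂ)) ^ 2 *
      ∑ χ : IrrCharacter G, ((χ : G → ℂ) z) ^ 2 / (χ : G → ℂ) 1 * conj ((χ : G → ℂ) w) = (Nat.card G : ℂ) * c := by
  classical
  set E : MonoidAlgebra ℂ G := classSum z * classSum z with hE
  set n : ℂ := ((Subgroup.centralizer ({z} : Set G)).index : ℂ) with hn
  have htr : ∀ χ : IrrCharacter G, tr (χ : G → ℂ) E = n ^ 2 * (((χ : G → ℂ) z) ^ 2 / (χ : G → ℂ) 1) := by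
    intro χ
    have h1 := om_mul χ.2 (isCentralElt_classSum z) (classSum z)
    have hcl := IsCharacter.isClassFunction (IsIrrCharacter.isCharacter χ.2)
    rw [om_classSum hcl] at h1
    have h2 := isIrr_one_ne_zero χ.2
    unfold om at h1
    rw [div_eq_iff h2] at h1
    rw [hE, h1]
    unfold centralChar
    field_simp
    rw [hn]
    ring
  have hcoef : ∀ g : G, E.coeff g = (((Finset.univ.filter (fun s : G => IsConj z s ∧ IsConj z (s⁻¹ * g))).card : ℕ) : ℂ) := by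
    intro g
    rw [hE, coeff_mul_eq, Finset.card_filter]
    push_cast
    refine Finset.sum_congr rfl fun s _ => ?_
    rw [coeff_classSum, coeff_classSum]
    by_cases h1 : IsConj z s <;> by_cases h2 : IsConj z (s⁻¹ * g)
    · rw [if_pos h1, if_pos h2, if_pos ⟨h1, h2⟩]
      simp
    · rw [if_pos h1, if_neg h2, if_neg (fun h : IsConj z s ∧ IsConj z (s⁻¹ * g) => h2 h.2)]
      simp
    · rw [if_neg h1, if_neg (fun h : IsConj z s ∧ IsConj z (s⁻¹ * g) => h1 h.1)]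
      simp
    · rw [if_neg h1, if_neg (fun h : IsConj z s ∧ IsConj z (s⁻¹ * g) => h1 h.1)]
      simp
  set c : ℕ := (Finset.univ.filter (fun s : G => IsConj z s ∧ IsConj z (s⁻¹ * w))).card with hc
  have hconst : ∀ g : G, IsConj g w → E.coeff g = (c : ℂ) := by
    intro g hg
    rw [hcoef, hc]
    obtain ⟨a, ha⟩ := isConj_iff.mp hg
    congr 1
    refine Finset.card_bij (fun s _ => a * s * a⁻¹) ?_ ?_ ?_
    · intro s hs
      obtain ⟨h1, h2⟩ := (Finset.mem_filter.mp hs).2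
      refine Finset.mem_filter.mpr ⟨Finset.mem_univ _, ?_, ?_⟩
      · exact h1.trans (isConj_iff.mpr ⟨a, rfl⟩)
      · have : (a * s * a⁻¹)⁻¹ * w = a * (s⁻¹ * g) * a⁻¹ := by
          rw [← ha]
          group
        rw [this]
        exact h2.trans (isConj_iff.mpr ⟨a, rfl⟩)
    · intro s _ s' _ hss
      exact mul_left_cancel (mul_right_cancel hss)
    · intro s hs
      obtain ⟨h1, h2⟩ := (Finset.mem_filter.mp hs).2
      refine ⟨a⁻¹ * s * a, Finset.mem_filter.mpr ⟨Finset.mem_univ _, ?_, ?_⟩, by group⟩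
      · refine h1.trans (isConj_iff.mpr ⟨a⁻¹, by group⟩)
      · have : (a⁻¹ * s * a)⁻¹ * g = a⁻¹ * (s⁻¹ * w) * a := by
          rw [← ha]
          group
        rw [this]
        exact h2.trans (isConj_iff.mpr ⟨a⁻¹, by group⟩)
  refine ⟨c, ?_⟩
  rw [Finset.mul_sum]
  have h1 : ∀ χ : IrrCharacter G, n ^ 2 * (((χ : G → ℂ) z) ^ 2 / (χ : G → ℂ) 1 * conj ((χ : G → ℂ) w)) =
      ∑ g : G, E.coeff g * ((χ : G → ℂ) g * conj ((χ : G → ℂ) w)) := by
    intro χ
    rw [← mul_assoc, ← htr χ, tr, Finset.sum_mul]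
    refine Finset.sum_congr rfl fun g _ => ?_
    ring
  simp only [h1]
  rw [Finset.sum_comm]
  have h2 : ∀ g : G, ∑ χ : IrrCharacter G, E.coeff g * ((χ : G → ℂ) g * conj ((χ : G → ℂ) w)) =
      if IsConj g w then (c : ℂ) * (Nat.card (centralizer ({w} : Set G)) : ℂ) else 0 := by
    intro g
    rw [← Finset.mul_sum, second_orthogonality' g w]
    by_cases hg : IsConj g w
    · rw [if_pos hg, if_pos hg, hconst g hg]
    · rw [if_neg hg, if_neg hg, mul_zero]
  simp only [h2]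
  rw [← Finset.sum_filter, Finset.sum_const, nsmul_eq_mul]
  have h3 : (Finset.univ.filter (fun g : G => IsConj g w)).card = (centralizer ({w} : Set G)).index := by
    rw [← Lib.GS1.ncard_conj_eq_index w, ← Set.ncard_coe_finset]
    congr 1
    ext g
    simp
  rw [h3]
  have h4 : ((centralizer ({w} : Set G)).index : ℂ) * (Nat.card (centralizer ({w} : Set G)) : ℂ) = (Nat.card G : ℂ) := by
    exact_mod_cast index_mul_card (centralizer ({w} : Set G))
  rw [← h4]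
  ring

end

theorem exists_invol {G : Type*} [Group G] [Fintype G] [IsSimpleGroup G] (h : Nat.card G = 5760) :
    ∃ t : G, orderOf t = 2 ∧ 128 ∣ Nat.card (centralizer ({t} : Set G)) := by
  classical
  have hnc : ¬ IsMulCommutative G := Lib.SmallSimple.not_comm_of_not_prime (by rw [h]; norm_num)
  haveI hf2 : Fact (Nat.Prime 2) := ⟨by norm_num⟩
  obtain ⟨-, -, -, -, h5⟩ := Lib.SmallSimple.sylow_facts (G := G) hnc 2 7 45
    (by rw [h]; norm_num) (by norm_num) (by norm_num)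
  obtain ⟨S⟩ : Nonempty (Sylow 2 G) := inferInstance
  have hS : Nat.card (S : Subgroup G) = 128 := by
    rw [(h5 S).1]
    norm_num
  haveI : Nontrivial (S : Subgroup G) := Finite.one_lt_card_iff_nontrivial.mp (by rw [hS]; norm_num)
  have hPG : IsPGroup 2 (S : Subgroup G) := S.isPGroup'
  haveI hnt : Nontrivial (center (S : Subgroup G)) := hPG.center_nontrivial
  have h2 : 2 ∣ Nat.card (center (S : Subgroup G)) := by
    have h3 : Nat.card (center (S : Subgroup G)) ∣ 128 := by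
      rw [← hS]
      exact Subgroup.card_subgroup_dvd_card _
    have h4 : Nat.card (center (S : Subgroup G)) ≠ 1 := by
      intro h6
      have := Finite.one_lt_card_iff_nontrivial.mpr hnt
      omega
    have key : ∀ d, d ≤ 128 → d ∣ 128 → d ≠ 1 → 2 ∣ d := by decide +kernel
    exact key _ (Nat.le_of_dvd (by norm_num) h3) h3 h4
  obtain ⟨u, hu⟩ := exists_prime_orderOf_dvd_card' (G := center (S : Subgroup G)) 2 h2
  refine ⟨((u : (S : Subgroup G)) : G), ?_, ?_⟩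
  · rw [Subgroup.orderOf_coe, Subgroup.orderOf_coe]
    exact hu
  · rw [← hS]
    apply Subgroup.card_dvd_of_le
    intro s hs
    rw [mem_centralizer_singleton_iff]
    have h6 := Subgroup.mem_center_iff.mp u.2 ⟨s, hs⟩
    exact (congrArg Subtype.val h6)

theorem key_a_deg : ∀ d ∈ Finset.range 76, (2 ≤ d ∧ d ∣ 1152) → (d % 5 = 1 → ¬ (d + 1) ∣ 5760) ∧
    (d % 5 = 4 → (d - 1) ∣ 5760 → d = 4 ∨ d = 9) := by
  decide +kernel

theorem key_a : ∀ n ∈ ({1, 3, 5, 9, 15, 45} : Finset ℕ), ∀ D ∈ ({4, 9} : Finset ℕ), ∀ b ∈ Finset.range 5, b ≠ 0 → 2 * b ≤ D →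
    ¬ (((D : ℤ) * ((D : ℤ) - 1) * 5760) ∣ (n : ℤ) ^ 2 * ((D : ℤ) * ((D : ℤ) - 1) - ((D : ℤ) - 1) * ((D : ℤ) - 4 * (b : ℤ)) ^ 2 +
      (D : ℤ) * ((D : ℤ) - 4 * (b : ℤ) - 1) ^ 2)) := by
  decide +kernel

theorem key_45 : ∀ n ∈ Finset.range 46, n ∣ 45 → n ∈ ({1, 3, 5, 9, 15, 45} : Finset ℕ) := by
  decide +kernel

/-- Two characters in the block, with `C(z) = ⟨z⟩`. -/
theorem caseA {G : Type*} [Group G] [Fintype G] [IsSimpleGroup G] (h : Nat.card G = 5760) {x : G}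
    (hx : orderOf x = 5) (hNe : Nat.card (normalizer ((zpowers x : Subgroup G) : Set G)) =
      2 * Nat.card (centralizer ({x} : Set G))) (hC : Nat.card (centralizer ({x} : Set G)) = 5) : False := by
  classical
  have hnc : ¬ IsMulCommutative G := Lib.SmallSimple.not_comm_of_not_prime (by rw [h]; norm_num)
  haveI hf : Fact (Nat.Prime 5) := ⟨by norm_num⟩
  haveI hf2 : Fact (Nat.Prime 2) := ⟨by norm_num⟩
  have hp : Nat.Prime 5 := hf.out
  have hsyl : ¬ 5 ^ 2 ∣ Nat.card G := by rw [h]; norm_num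
  have hCx : centralizer ({x} : Set G) = zpowers x := by
    symm
    apply Subgroup.eq_of_le_of_card_ge
    · intro y hy
      obtain ⟨m, rfl⟩ := Subgroup.mem_zpowers_iff.mp hy
      rw [mem_centralizer_singleton_iff]
      exact (Commute.zpow_left (Commute.refl x) m)
    · rw [Nat.card_zpowers, hx, hC]
  obtain ⟨M, hM⟩ := Lib.Char.exists_isPModular 5 hp
  have hper := Lib.SmallSimple.BA.perfect_of_simple hnc (G := G)
  obtain ⟨X, Y, δ, ε, deg, hdeg, hB, hdisj, hXc, hYc, he0, hX, hε, hYd, hYY, hYrel, -⟩ :=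
    Lib.BR.block_ext hM hx hsyl 2 hNe
  haveI hMp : M.IsPrime := hM.2.1.isPrime
  have hone : oneIrr G ∈ principalBlock M G := Lib.Block.mem_blockOf_self (oneIrr G)
  have hval1 : ∀ g : G, (((oneIrr G : IrrCharacter G) : G → ℂ) g) = 1 := fun _ => rfl
  have hone1 : deg (oneIrr G) = 1 := by
    have h0 := (hdeg (oneIrr G)).1
    rw [hval1] at h0
    exact_mod_cast h0.symm
  have hx1 : x ≠ 1 := by
    rintro rfl
    rw [orderOf_one] at hx
    omega
  have hI : (centralizer ({x} : Set G)).index = 1152 := by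
    have h6 := index_mul_card (centralizer ({x} : Set G))
    rw [h, hC] at h6
    omega
  have h1X : oneIrr G ∈ X := by
    rcases (hB _).mp hone with h6 | h6
    · exact h6
    · exfalso
      have h7 := hYd _ h6
      rw [hone1] at h7
      have h8 : ((1 : ℕ) : ℤ) % ((5 : ℕ) : ℤ) = (ε * ((2 : ℕ) : ℤ)) % ((5 : ℕ) : ℤ) := h7
      rcases hε with rfl | rfl <;> omega
  have hδ1 : δ (oneIrr G) = 1 := by
    have h6 := (hX _ h1X).2.2 x (mem_zpowers x) hx1
    rw [hval1] at h6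
    exact_mod_cast h6.symm
  have herase : (X.erase (oneIrr G)).card = 1 := by rw [Finset.card_erase_of_mem h1X, hXc]
  obtain ⟨ξ, hξe⟩ := Finset.card_eq_one.mp herase
  have hξm : ξ ∈ X.erase (oneIrr G) := by
    rw [hξe]
    simp
  obtain ⟨hξ1, hξX⟩ := Finset.mem_erase.mp hξm
  obtain ⟨hδξ, hξmod, hξval⟩ := hX ξ hξX
  have hYc2 : Y.card = 2 := by
    have : Y.card * 2 = 5 - 1 := hYc
    omega
  have hYne : Y.Nonempty := by
    rw [← Finset.card_pos]
    omega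
  obtain ⟨θ₀, hθ₀⟩ := hYne
  have hXsum : ∀ f : IrrCharacter G → ℂ, ∑ χ ∈ X, f χ = f (oneIrr G) + f ξ := by
    intro f
    rw [← Finset.add_sum_erase X f h1X, hξe, Finset.sum_singleton]
  have hrelg : ∀ θ ∈ Y, ∀ g : G, ¬ 5 ∣ orderOf g → (ε : ℂ) * (θ : G → ℂ) g = 1 + (δ ξ : ℂ) * (ξ : G → ℂ) g := by
    intro θ hθ g hg
    rw [hYrel θ hθ g hg, hXsum, hδ1, hval1]
    push_cast
    ring
  have hrelθ : ∀ θ ∈ Y, ε * (deg θ : ℤ) = 1 + δ ξ * (deg ξ : ℤ) := by
    intro θ hθ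
    have h6 := hrelg θ hθ 1 (by
      rw [orderOf_one]
      norm_num)
    rw [(hdeg θ).1, (hdeg ξ).1] at h6
    exact_mod_cast h6
  obtain ⟨s₀, hs₀⟩ := exists_prime_orderOf_dvd_card' (G := G) 2 (by rw [h]; norm_num)
  have hd2 := deg_ge_two hper hs₀ ξ hξ1 (hdeg ξ).1
  have hd75 := deg_le h deg (fun χ => (hdeg χ).1) ξ
  have hx1v : (ξ : G → ℂ) x = (δ ξ : ℂ) := hξval x (mem_zpowers x) hx1
  have hdI : deg ξ ∣ 1152 := by
    have h10 := Lib.SmallSimple.BB.deg_dvd_of_value ξ (hdeg ξ).1 (hdeg ξ).2.1 x (v := 1) (by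
      rcases hδξ with h6 | h6
      · left
        rw [hx1v, h6]
        simp
      · right
        rw [hx1v, h6]
        simp)
    rw [hI] at h10
    simpa using h10
  have hk := key_a_deg (deg ξ) (Finset.mem_range.mpr (by omega)) ⟨hd2, hdI⟩
  have hdvdθ : deg θ₀ ∣ 5760 := h ▸ (hdeg θ₀).2.2
  have hθ₀r := hrelθ θ₀ hθ₀
  have hξmod' : (deg ξ : ℤ) % ((5 : ℕ) : ℤ) = δ ξ % ((5 : ℕ) : ℤ) := hξmod
  have hmain : δ ξ = -1 ∧ ε = -1 ∧ (deg ξ = 4 ∨ deg ξ = 9) := by
    rcases hδξ with h6 | h6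
    · exfalso
      rw [h6] at hθ₀r hξmod'
      have h7 : deg ξ % 5 = 1 := by
        push_cast at hξmod'
        omega
      have h8 : deg θ₀ = deg ξ + 1 := by
        rcases hε with rfl | rfl <;> omega
      exact hk.1 h7 (h8 ▸ hdvdθ)
    · rw [h6] at hθ₀r hξmod'
      have h7 : deg ξ % 5 = 4 := by
        push_cast at hξmod'
        omega
      have h8 : deg θ₀ + 1 = deg ξ ∧ ε = -1 := by
        rcases hε with rfl | rfl
        · omega
        · exact ⟨by omega, rfl⟩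
      have h9 : deg θ₀ = deg ξ - 1 := by omega
      exact ⟨h6, h8.2, hk.2 h7 (h9 ▸ hdvdθ)⟩
  obtain ⟨hδm, rfl, hD⟩ := hmain
  set D : ℕ := deg ξ with hDdef
  have hDY : ∀ θ ∈ Y, deg θ + 1 = D := by
    intro θ hθ
    have h6 := hrelθ θ hθ
    rw [hδm] at h6
    omega
  have hD0 : (D : ℂ) ≠ 0 := by
    rcases hD with h6 | h6 <;> rw [h6] <;> norm_num
  have hD1 : (D : ℂ) - 1 ≠ 0 := by
    rcases hD with h6 | h6 <;> rw [h6] <;> norm_num
  have hθ1c : ∀ θ ∈ Y, (θ : G → ℂ) 1 = (D : ℂ) - 1 := by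
    intro θ hθ
    rw [(hdeg θ).1, ← hDY θ hθ]
    push_cast
    ring
  have hξ1c : (ξ : G → ℂ) 1 = (D : ℂ) := (hdeg ξ).1
  have hξx : (ξ : G → ℂ) x = -1 := by
    rw [hx1v, hδm]
    simp
  -- the sum over the block
  have hS : ∀ F : IrrCharacter G → ℂ, (∀ χ : IrrCharacter G, (χ : G → ℂ) x = 0 → F χ = 0) →
      ∑ χ, F χ = F (oneIrr G) + F ξ + ∑ θ ∈ Y, F θ := by
    intro F hF
    rw [← hXsum, ← Finset.sum_union hdisj]
    symm
    apply Finset.sum_subset (Finset.subset_univ _)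
    intro χ _ hχ
    apply hF
    apply Lib.BR.vanish_outside hM hx hCx hsyl χ _ (mem_zpowers x) hx1
    intro h6
    rcases (hB χ).mp h6 with h7 | h7
    · exact hχ (Finset.mem_union_left _ h7)
    · exact hχ (Finset.mem_union_right _ h7)
  -- the sum of the exceptional values
  have hS₀ : ∑ θ ∈ Y, conj ((θ : G → ℂ) x) = 1 := by
    have h6 := Lib.Char.second_orthogonality' (1 : G) x
    rw [if_neg (by rw [isConj_one_right]; exact hx1), hS (fun χ => (χ : G → ℂ) 1 * conj ((χ : G → ℂ) x)) (by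
      intro χ h0
      simp [h0])] at h6
    rw [hval1, hval1, hξ1c, hξx] at h6
    have h7 : ∑ θ ∈ Y, (θ : G → ℂ) 1 * conj ((θ : G → ℂ) x) = ((D : ℂ) - 1) * ∑ θ ∈ Y, conj ((θ : G → ℂ) x) := by
      rw [Finset.mul_sum]
      refine Finset.sum_congr rfl fun θ hθ => ?_
      rw [hθ1c θ hθ]
    rw [h7] at h6
    simp only [map_one, map_neg] at h6
    apply mul_left_cancel₀ hD1
    linear_combination h6
  -- the involution
  obtain ⟨t, ht, h128⟩ := exists_invol h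
  have ht2 : t ^ 2 = 1 := by rw [← ht]; exact pow_orderOf_eq_one t
  have ht1 : t ≠ 1 := by
    rintro rfl
    simp at ht
  obtain ⟨a, d', hd', ha, ⟨b, hb⟩, hle⟩ := Lib.SmallSimple.BB.exists_even_of_involution
    (Lib.Char.IsIrrCharacter.isCharacter ξ.2) hper ht2
  have hdd : d' = D := by
    rw [hξ1c] at hd'
    exact_mod_cast hd'.symm
  subst hdd
  subst hb
  have hne := Lib.SmallSimple.BB.ne_of_involution ξ hξ1 ht1
  have hb0 : b ≠ 0 := by
    rintro rfl
    apply hne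
    have : (ξ : G → ℂ) 1 - (ξ : G → ℂ) t = 0 := by simpa using ha
    exact (sub_eq_zero.mp this).symm
  have hξt : (ξ : G → ℂ) t = (((D : ℤ) - 4 * (b : ℤ) : ℤ) : ℂ) := by
    rw [hξ1c] at ha
    push_cast at ha ⊢
    linear_combination -ha
  set W : ℤ := (D : ℤ) - 4 * (b : ℤ) with hW
  have hθt : ∀ θ ∈ Y, (θ : G → ℂ) t = (W : ℂ) - 1 := by
    intro θ hθ
    have h6 := hrelg θ hθ t (by rw [ht]; norm_num)
    rw [hξt, hδm] at h6
    push_cast at h6
    linear_combination -h6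
  obtain ⟨c, hc⟩ := class_formula t x
  rw [hS _ (by
    intro χ h0
    simp [h0])] at hc
  rw [hval1, hval1, hval1, hξt, hξ1c, hξx] at hc
  have h7 : ∑ θ ∈ Y, (θ : G → ℂ) t ^ 2 / (θ : G → ℂ) 1 * conj ((θ : G → ℂ) x) =
      ((W : ℂ) - 1) ^ 2 / ((D : ℂ) - 1) * ∑ θ ∈ Y, conj ((θ : G → ℂ) x) := by
    rw [Finset.mul_sum]
    refine Finset.sum_congr rfl fun θ hθ => ?_
    rw [hθt θ hθ, hθ1c θ hθ]
  rw [h7, hS₀, h] at hc
  simp only [map_one, map_neg] at hc
  set n : ℕ := (centralizer ({t} : Set G)).index with hn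
  have hZc : ((n : ℂ)) ^ 2 * ((D : ℂ) * ((D : ℂ) - 1) - ((D : ℂ) - 1) * (W : ℂ) ^ 2 + (D : ℂ) * ((W : ℂ) - 1) ^ 2) =
      (D : ℂ) * ((D : ℂ) - 1) * 5760 * (c : ℂ) := by
    have e1 : ((n : ℂ)) ^ 2 * ((D : ℂ) * ((D : ℂ) - 1) - ((D : ℂ) - 1) * (W : ℂ) ^ 2 + (D : ℂ) * ((W : ℂ) - 1) ^ 2) =
        (D : ℂ) * ((D : ℂ) - 1) * ((n : ℂ) ^ 2 * (1 ^ 2 / 1 * 1 + (W : ℂ) ^ 2 / (D : ℂ) * -1 + ((W : ℂ) - 1) ^ 2 / ((D : ℂ) - 1) * 1)) := by
      field_simp
      ring
    rw [e1, hc]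
    push_cast
    ring
  have hZ : (n : ℤ) ^ 2 * ((D : ℤ) * ((D : ℤ) - 1) - ((D : ℤ) - 1) * W ^ 2 + (D : ℤ) * (W - 1) ^ 2) =
      (D : ℤ) * ((D : ℤ) - 1) * 5760 * (c : ℤ) := by
    exact_mod_cast hZc
  have hn45 : n ∣ 45 := by
    obtain ⟨m, hm⟩ := h128
    have h8 : n * Nat.card (centralizer ({t} : Set G)) = 5760 := by
      rw [← h]
      exact index_mul_card _
    rw [hm] at h8
    have h9 : n * (128 * m) = 128 * (n * m) := by ring
    rw [h9] at h8
    exact ⟨m, by omega⟩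
  have hn46 := key_45 n (Finset.mem_range.mpr (by have := Nat.le_of_dvd (by norm_num) hn45; omega)) hn45
  have hbr : b ∈ Finset.range 5 := Finset.mem_range.mpr (by
    rcases hD with h6 | h6 <;> omega)
  refine key_a n hn46 D (by rcases hD with h6 | h6 <;> simp [h6]) b hbr hb0 (by omega) ?_
  rw [← hW, hZ]
  exact ⟨c, by ring⟩

theorem key5 : ∀ n ∈ Finset.range 1153, (n ∣ 1152 ∧ n % 5 = 1 ∧ n ≠ 1 ∧ n ≠ 6) → n = 16 ∨ n = 36 ∨ n = 96 ∨ n = 576 := by
  decide +kernel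

/-- No finite simple group has order 5760 = 2^7 * 3^2 * 5. -/
theorem result {G : Type*} [Group G] [Finite G] [IsSimpleGroup G] : Nat.card G ≠ 5760 := by
  intro h
  classical
  haveI : Fintype G := Fintype.ofFinite G
  have hnc : ¬ IsMulCommutative G := Lib.SmallSimple.not_comm_of_not_prime (by rw [h]; norm_num)
  haveI hf : Fact (Nat.Prime 5) := ⟨by norm_num⟩
  obtain ⟨h1, h2, h3, h4, h5⟩ := Lib.SmallSimple.sylow_facts (G := G) hnc 5 1 1152
    (by rw [h]; norm_num) (by norm_num) (by norm_num)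
  have hsyl : ¬ 5 ^ 2 ∣ Nat.card G := by rw [h]; norm_num
  have hn6 : Nat.card (Sylow 5 G) ≠ 6 := by
    intro h6
    rw [h6, h] at h4
    have h7 := Nat.le_of_dvd (by decide) h4
    have h8 : Nat.factorial 6 = 720 := by decide
    omega
  have hn := key5 _ (Finset.mem_range.mpr (by have := Nat.le_of_dvd (by norm_num) h1; omega)) ⟨h1, h2, h3, hn6⟩
  obtain ⟨P⟩ : Nonempty (Sylow 5 G) := inferInstance
  obtain ⟨hP, hN⟩ := h5 P
  rw [pow_one] at hP
  obtain ⟨x, hx, hz⟩ := Lib.SmallSimple.BA.exists_gen P hP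
  obtain ⟨e, he, he1, hNe⟩ := Lib.SmallSimple.BA.norm_data hnc P hP hx hz
  rw [← hz, h] at hN
  have hxC : x ∈ centralizer ({x} : Set G) := by
    rw [mem_centralizer_singleton_iff]
  have hpd : 5 ∣ Nat.card (centralizer ({x} : Set G)) := by
    have := orderOf_dvd_natCard (⟨x, hxC⟩ : centralizer ({x} : Set G))
    rwa [Subgroup.orderOf_mk, hx] at this
  have he4 : e ∣ 4 := he
  have hee : e = 2 ∨ e = 4 := by
    have : ∀ e, e ≤ 4 → e ∣ 4 → e ≠ 1 → e = 2 ∨ e = 4 := by decide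
    exact this e (Nat.le_of_dvd (by norm_num) he4) he4 he1
  obtain ⟨k, hk⟩ := hpd
  have hIdx := index_mul_card (centralizer ({x} : Set G))
  rw [h, hk] at hIdx
  have hev : ∀ c, k = 2 * c → 2 ∣ Nat.card (centralizer ({x} : Set G)) := by
    rintro c rfl
    rw [hk]
    exact ⟨5 * c, by ring⟩
  rw [hNe, hk] at hN
  rcases hn with hn | hn | hn | hn <;> rw [hn] at hN <;> rcases hee with rfl | rfl
  · exact two_even h hx hNe (hev 18 (by omega))
  · have hk' : k = 18 := by omega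
    subst hk'
    have hI : (centralizer ({x} : Set G)).index = 64 := by omega
    exact four_even h hx hNe (hev 9 (by omega)) (by rw [hI]; norm_num)
  · exact two_even h hx hNe (hev 8 (by omega))
  · have hk' : k = 8 := by omega
    subst hk'
    have hI : (centralizer ({x} : Set G)).index = 144 := by omega
    exact four_even h hx hNe (hev 4 (by omega)) (by rw [hI]; norm_num)
  · exact two_even h hx hNe (hev 3 (by omega))
  · have hk' : k = 3 := by omega
    subst hk'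
    exact caseB h hx hNe (by rw [hk])
  · have hk' : k = 1 := by omega
    subst hk'
    exact caseA h hx hNe (by rw [hk])
  · omega

end Cfsg.Agent.S0980
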