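import Cfsg.Statements.S0977
import Mathlib
import Cfsg.Agent.S0980

set_option autoImplicit false
open Cfsg

namespace Cfsg.Agent.S0977

open Subgroup
open Cfsg.Agent.Lib.Block (oneIrr)
open Cfsg.Agent.S0434 (fx3 dvd_f)
open Cfsg.Agent.S0435 (p_dvd_outside deg_ge_two dvd_val)
open Cfsg.Agent.S0978 (pack count4 fix_ne)
open Cfsg.Agent.S0980 (fx5 class_formula)
open scoped ComplexConjugate

theorem deg_le {G : Type*} [Group G] [Fintype G] (h : Nat.card G = 4320) (deg : IrrCharacter G → ℕ)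
    (hdeg : ∀ χ : IrrCharacter G, (χ : G → ℂ) 1 = deg χ) (χ : IrrCharacter G) : deg χ ≤ 65 := by
  have hsqs : ∑ χ : IrrCharacter G, (deg χ) ^ 2 = 4320 := by
    have h6 := Lib.Char.sum_degree_sq (G := G)
    have h7 : ∀ χ : IrrCharacter G, (χ : G → ℂ) 1 ^ 2 = ((deg χ ^ 2 : ℕ) : ℂ) := by
      intro χ
      rw [hdeg χ]
      push_cast
      rfl
    simp only [h7] at h6
    rw [← h]
    exact_mod_cast h6
  have h9 := Finset.single_le_sum (f := fun χ : IrrCharacter G => (deg χ) ^ 2)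
    (fun χ _ => Nat.zero_le _) (Finset.mem_univ χ)
  rw [hsqs] at h9
  by_contra hlt
  push Not at hlt
  have h10 : 66 ^ 2 ≤ deg χ ^ 2 := Nat.pow_le_pow_left hlt 2
  norm_num at h10
  omega

theorem key_two5a : ∀ d ∈ Finset.range 66, (10 ≤ d ∧ d ∣ 4320 ∧ d % 5 = 1 ∧ (d + 1) ∣ 4320) → d = 0 := by
  decide +kernel

theorem key_two5b : ∀ d ∈ Finset.range 66, (10 ≤ d ∧ d ∣ 4320 ∧ d % 5 = 4 ∧ (d - 1) ∣ 4320 ∧ 10 ≤ d - 1) → d = 0 := by
  decide +kernel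

/-- Two characters in the block, with an involution in the centralizer. -/
theorem two_even {G : Type*} [Group G] [Fintype G] [IsSimpleGroup G] (h : Nat.card G = 4320) {x : G}
    (hx : orderOf x = 5) (hNe : Nat.card (normalizer ((zpowers x : Subgroup G) : Set G)) =
      2 * Nat.card (centralizer ({x} : Set G))) (hinv : 2 ∣ Nat.card (centralizer ({x} : Set G))) : False := by
  classical
  have hnc : ¬ IsMulCommutative G := Lib.SmallSimple.not_comm_of_not_prime (by rw [h]; norm_num)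
  haveI hf : Fact (Nat.Prime 5) := ⟨by norm_num⟩
  haveI hf2 : Fact (Nat.Prime 2) := ⟨by norm_num⟩
  have hp : Nat.Prime 5 := hf.out
  have hsyl : ¬ 5 ^ 2 ∣ Nat.card G := by rw [h]; norm_num
  obtain ⟨M, hM⟩ := Lib.Char.exists_isPModular 5 hp
  have hper := Lib.SmallSimple.BA.perfect_of_simple hnc (G := G)
  obtain ⟨deg, σ, ξ, χ₀, hdeg, hσ, hξB, hχB, hξ1, hχ1, hc1, hc2, hrel, hrelg⟩ :=
    Lib.SmallSimple.BB.block_two (M := M) hM hx hsyl hNe (by norm_num)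
  obtain ⟨t₀, ht₀⟩ := exists_prime_orderOf_dvd_card' (G := centralizer ({x} : Set G)) 2 hinv
  have ht' : orderOf (t₀ : G) = 2 := by rw [Subgroup.orderOf_coe]; exact ht₀
  have hd14 := Lib.SmallSimple.BB.two_p_le_deg hper hM hx hsyl (by norm_num) ht' t₀.2 ξ hξB hξ1 (hdeg ξ).1
  have hd14' := Lib.SmallSimple.BB.two_p_le_deg hper hM hx hsyl (by norm_num) ht' t₀.2 χ₀ hχB hχ1 (hdeg χ₀).1
  have hdvdG : ∀ θ : IrrCharacter G, deg θ ∣ 4320 := fun θ => h ▸ (hdeg θ).2.2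
  have hle := deg_le h deg (fun χ => (hdeg χ).1)
  have hc1' : (deg ξ : ℤ) % 5 = σ % 5 := hc1
  rcases hσ with rfl | rfl
  · have h6 : deg χ₀ = deg ξ + 1 := by omega
    have h7 := key_two5a (deg ξ) (Finset.mem_range.mpr (by have := hle ξ; omega)) ⟨hd14, hdvdG ξ, by omega, h6 ▸ hdvdG χ₀⟩
    omega
  · have h6 : deg χ₀ = deg ξ - 1 := by omega
    have h7 := key_two5b (deg ξ) (Finset.mem_range.mpr (by have := hle ξ; omega)) ⟨hd14, hdvdG ξ, by omega, h6 ▸ hdvdG χ₀, by omega⟩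
    omega

theorem exists_invol {G : Type*} [Group G] [Fintype G] [IsSimpleGroup G] (h : Nat.card G = 4320) :
    ∃ t : G, orderOf t = 2 ∧ 32 ∣ Nat.card (centralizer ({t} : Set G)) := by
  classical
  have hnc : ¬ IsMulCommutative G := Lib.SmallSimple.not_comm_of_not_prime (by rw [h]; norm_num)
  haveI hf2 : Fact (Nat.Prime 2) := ⟨by norm_num⟩
  obtain ⟨-, -, -, -, h5⟩ := Lib.SmallSimple.sylow_facts (G := G) hnc 2 5 135
    (by rw [h]; norm_num) (by norm_num) (by norm_num)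
  obtain ⟨S⟩ : Nonempty (Sylow 2 G) := inferInstance
  have hS : Nat.card (S : Subgroup G) = 32 := by
    rw [(h5 S).1]
    norm_num
  haveI : Nontrivial (S : Subgroup G) := Finite.one_lt_card_iff_nontrivial.mp (by rw [hS]; norm_num)
  have hPG : IsPGroup 2 (S : Subgroup G) := S.isPGroup'
  haveI hnt : Nontrivial (center (S : Subgroup G)) := hPG.center_nontrivial
  have h2 : 2 ∣ Nat.card (center (S : Subgroup G)) := by
    have h3 : Nat.card (center (S : Subgroup G)) ∣ 32 := by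
      rw [← hS]
      exact Subgroup.card_subgroup_dvd_card _
    have h4 : Nat.card (center (S : Subgroup G)) ≠ 1 := by
      intro h6
      have := Finite.one_lt_card_iff_nontrivial.mpr hnt
      omega
    have key : ∀ d, d ≤ 32 → d ∣ 32 → d ≠ 1 → 2 ∣ d := by decide +kernel
    exact key _ (Nat.le_of_dvd (by norm_num) h3) h3 h4
  obtain ⟨u, hu⟩ := exists_prime_orderOf_dvd_card' (G := center (S : Subgroup G)) 2 h2
  refine ⟨((u : (S : Subgroup G)) : G), ?_, ?_⟩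
  · rw [Subgroup.orderOf_coe, Subgroup.orderOf_coe]
    exact hu
  · rw [← hS]
    apply Subgroup.card_dvd_of_le
    intro s hs
    rw [mem_centralizer_singleton_iff]
    have h6 := Subgroup.mem_center_iff.mp u.2 ⟨s, hs⟩
    exact (congrArg Subtype.val h6)

theorem key_four_deg : ∀ d ∈ Finset.range 66, (10 ≤ d ∧ d ∣ 144 ∧ (d % 5 = 1 ∨ d % 5 = 4)) →
    d = 16 ∨ d = 24 ∨ d = 36 := by
  decide +kernel

theorem key_four : ∀ a ∈ Finset.range 4, ∀ b ∈ Finset.range 4, ∀ c ∈ Finset.range 4, ∀ d ∈ Finset.range 4,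
    a + b + c + d = 3 →
    (1 + ((a : ℤ) * 16 + (b : ℤ) * (-24) + (c : ℤ) * 36 + (d : ℤ) * 36)).natAbs ∣ 4320 →
    (1 + ((a : ℤ) * 16 + (b : ℤ) * (-24) + (c : ℤ) * 36 + (d : ℤ) * 36)).natAbs < 10 := by
  decide +kernel

/-- Four characters in the block, with an involution in the centralizer. -/
theorem four_even {G : Type*} [Group G] [Fintype G] [IsSimpleGroup G] (h : Nat.card G = 4320) {x : G}
    (hx : orderOf x = 5) (hNe : Nat.card (normalizer ((zpowers x : Subgroup G) : Set G)) =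
      4 * Nat.card (centralizer ({x} : Set G))) (hinv : 2 ∣ Nat.card (centralizer ({x} : Set G)))
    (hI : (centralizer ({x} : Set G)).index ∣ 144) : False := by
  classical
  have hnc : ¬ IsMulCommutative G := Lib.SmallSimple.not_comm_of_not_prime (by rw [h]; norm_num)
  haveI hf : Fact (Nat.Prime 5) := ⟨by norm_num⟩
  haveI hf2 : Fact (Nat.Prime 2) := ⟨by norm_num⟩
  have hp : Nat.Prime 5 := hf.out
  have hsyl : ¬ 5 ^ 2 ∣ Nat.card G := by rw [h]; norm_num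
  obtain ⟨M, hM⟩ := Lib.Char.exists_isPModular 5 hp
  have hper := Lib.SmallSimple.BA.perfect_of_simple hnc (G := G)
  obtain ⟨X, Y, δ, ε, deg, hdeg, hB, hdisj, hXc, hYc, he0, hε, hone1, h1XY, hXd, hYd, hrel, hδ1⟩ :=
    pack hM hx hsyl 4 hNe
  obtain ⟨t₀, ht₀⟩ := exists_prime_orderOf_dvd_card' (G := centralizer ({x} : Set G)) 2 hinv
  have ht' : orderOf (t₀ : G) = 2 := by rw [Subgroup.orderOf_coe]; exact ht₀
  have hdvdG : ∀ θ : IrrCharacter G, deg θ ∣ 4320 := fun θ => h ▸ (hdeg θ).2.2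
  have hle := deg_le h deg (fun χ => (hdeg χ).1)
  have hT : ∀ χ ∈ X, χ ≠ oneIrr G → δ χ * (deg χ : ℤ) = 16 ∨ δ χ * (deg χ : ℤ) = -24 ∨
      δ χ * (deg χ : ℤ) = 36 ∨ δ χ * (deg χ : ℤ) = 36 := by
    intro χ h9 h8
    obtain ⟨h6, h7, h10⟩ := hXd χ h9
    have h14 := Lib.SmallSimple.BB.two_p_le_deg hper hM hx hsyl (by norm_num) ht' t₀.2 χ
      ((hB χ).mpr (Or.inl h9)) h8 (hdeg χ).1
    have h15 : (deg χ : ℤ) % 5 = δ χ % 5 := h7
    have h16 : deg χ % 5 = 1 ∨ deg χ % 5 = 4 := by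
      rcases h6 with h6 | h6 <;> rw [h6] at h15 <;> omega
    rcases key_four_deg _ (Finset.mem_range.mpr (by have := hle χ; omega)) ⟨h14, h10.trans hI, h16⟩ with h17 | h17 | h17 <;>
      rw [h17] at h15 ⊢ <;> rcases h6 with h6 | h6 <;> rw [h6] at h15 ⊢ <;> first | omega | norm_num
  rcases h1XY with h1X | h1Y
  · obtain ⟨a, b, c, d, habcd, hsum⟩ := count4 (fun χ => δ χ * (deg χ : ℤ)) (X.erase (oneIrr G)) 16 (-24) 36 36
      (fun χ hχ => by
        obtain ⟨h8, h9⟩ := Finset.mem_erase.mp hχ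
        exact hT χ h9 h8)
    rw [Finset.card_erase_of_mem h1X, hXc] at habcd
    have hYne : Y.Nonempty := by
      rw [Finset.nonempty_iff_ne_empty]
      rintro rfl
      simp at hYc
    obtain ⟨θ₀, hθ₀⟩ := hYne
    have h6 := hrel θ₀ hθ₀
    rw [← Finset.add_sum_erase X _ h1X, hδ1 h1X, hone1, hsum] at h6
    have hθ1 : θ₀ ≠ oneIrr G := by
      rintro rfl
      exact (Finset.disjoint_left.mp hdisj h1X) hθ₀
    have h14 := Lib.SmallSimple.BB.two_p_le_deg hper hM hx hsyl (by norm_num) ht' t₀.2 θ₀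
      ((hB θ₀).mpr (Or.inr hθ₀)) hθ1 (hdeg θ₀).1
    have hna : (1 + ((a : ℤ) * 16 + (b : ℤ) * (-24) + (c : ℤ) * 36 + (d : ℤ) * 36)).natAbs = deg θ₀ := by
      have h7 : (1 + ((a : ℤ) * 16 + (b : ℤ) * (-24) + (c : ℤ) * 36 + (d : ℤ) * 36)) = ε * (deg θ₀ : ℤ) := by
        rw [h6]
        push_cast
        ring
      rw [h7, Int.natAbs_mul]
      rcases hε with rfl | rfl <;> simp
    have h8 := key_four a (Finset.mem_range.mpr (by omega)) b (Finset.mem_range.mpr (by omega))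
      c (Finset.mem_range.mpr (by omega)) d (Finset.mem_range.mpr (by omega)) (by omega) (by rw [hna]; exact hdvdG θ₀)
    rw [hna] at h8
    omega
  · have h1X : oneIrr G ∉ X := fun h6 => (Finset.disjoint_left.mp hdisj h6) h1Y
    obtain ⟨a, b, c, d, habcd, hsum⟩ := count4 (fun χ => δ χ * (deg χ : ℤ)) X 16 (-24) 36 36
      (fun χ hχ => hT χ hχ (fun h8 => h1X (h8 ▸ hχ)))
    have h6 := hrel _ h1Y
    rw [hone1, hsum] at h6
    push_cast at h6
    rcases hε with rfl | rfl <;> omega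

theorem key16 : ∀ d ∈ Finset.range 66, (2 ≤ d ∧ d ∣ 32 ∧ (d % 5 = 1 ∨ d % 5 = 4)) → d = 4 ∨ d = 16 := by
  decide +kernel

/-- Two characters in the block, with `|C(z)| = 135`. -/
theorem case16 {G : Type*} [Group G] [Fintype G] [IsSimpleGroup G] (h : Nat.card G = 4320) {x : G}
    (hx : orderOf x = 5) (hNe : Nat.card (normalizer ((zpowers x : Subgroup G) : Set G)) =
      2 * Nat.card (centralizer ({x} : Set G))) (hC : Nat.card (centralizer ({x} : Set G)) = 135) : False := by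
  classical
  have hnc : ¬ IsMulCommutative G := Lib.SmallSimple.not_comm_of_not_prime (by rw [h]; norm_num)
  haveI hf : Fact (Nat.Prime 5) := ⟨by norm_num⟩
  haveI hf2 : Fact (Nat.Prime 2) := ⟨by norm_num⟩
  haveI hf3 : Fact (Nat.Prime 3) := ⟨by norm_num⟩
  have hp : Nat.Prime 5 := hf.out
  have hsyl : ¬ 5 ^ 2 ∣ Nat.card G := by rw [h]; norm_num
  obtain ⟨M, hM⟩ := Lib.Char.exists_isPModular 5 hp
  have hper := Lib.SmallSimple.BA.perfect_of_simple hnc (G := G)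
  obtain ⟨X, Y, δ, ε, deg, hdeg, hB, hdisj, hXc, hYc, he0, hε, hone1, h1XY, hXd, hYd, hrel, hδ1⟩ :=
    pack hM hx hsyl 2 hNe
  obtain ⟨t, ht⟩ := exists_prime_orderOf_dvd_card' (G := G) 2 (by rw [h]; norm_num)
  obtain ⟨y₀, hy₀⟩ := exists_prime_orderOf_dvd_card' (G := centralizer ({x} : Set G)) 3 (by rw [hC]; norm_num)
  have hy : orderOf (y₀ : G) = 3 := by rw [Subgroup.orderOf_coe]; exact hy₀
  have hyc : (y₀ : G) ∈ centralizer ({x} : Set G) := y₀.2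
  have hdvdG : ∀ θ : IrrCharacter G, deg θ ∣ 4320 := fun θ => h ▸ (hdeg θ).2.2
  have hle := deg_le h deg (fun χ => (hdeg χ).1)
  have hF : ∀ χ : IrrCharacter G, χ ∈ principalBlock M G → χ ≠ oneIrr G → ∃ n : ℕ, n < deg χ ∧
      (5 : ℤ) ∣ (deg χ : ℤ) - (n : ℤ) := by
    intro χ hχ hχ1
    obtain ⟨n, hn, hv, hd⟩ := fx5 hM hx hy hyc hsyl χ hχ (hdeg χ).1
    refine ⟨n, lt_of_le_of_ne hn ?_, hd⟩
    rintro rfl
    refine fix_ne hy χ hχ1 (hdeg χ).1 ?_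
    rw [hv]
    push_cast
    ring
  have hI32 : (centralizer ({x} : Set G)).index = 32 := by
    have h6 := index_mul_card (centralizer ({x} : Set G))
    rw [h, hC] at h6
    omega
  have h1X : oneIrr G ∈ X := by
    rcases h1XY with h6 | h6
    · exact h6
    · exfalso
      have h7 := hYd _ h6
      rw [hone1] at h7
      have h8 : ((1 : ℕ) : ℤ) % ((5 : ℕ) : ℤ) = (ε * ((2 : ℕ) : ℤ)) % ((5 : ℕ) : ℤ) := h7
      rcases hε with rfl | rfl <;> omega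
  have herase : (X.erase (oneIrr G)).card = 1 := by rw [Finset.card_erase_of_mem h1X, hXc]
  obtain ⟨ξ, hξe⟩ := Finset.card_eq_one.mp herase
  have hξm : ξ ∈ X.erase (oneIrr G) := by
    rw [hξe]
    simp
  obtain ⟨hξ1, hξX⟩ := Finset.mem_erase.mp hξm
  obtain ⟨h6, h7, h10⟩ := hXd ξ hξX
  have h14 := deg_ge_two hper ht ξ hξ1 (hdeg ξ).1
  have h15 : (deg ξ : ℤ) % 5 = δ ξ % 5 := h7
  have h16 : deg ξ % 5 = 1 ∨ deg ξ % 5 = 4 := by
    rcases h6 with h6 | h6 <;> rw [h6] at h15 <;> omega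
  rw [hI32] at h10
  have hYne : Y.Nonempty := by
    rw [Finset.nonempty_iff_ne_empty]
    rintro rfl
    simp at hYc
  obtain ⟨θ₀, hθ₀⟩ := hYne
  have hθ1 : θ₀ ≠ oneIrr G := by
    rintro rfl
    exact (Finset.disjoint_left.mp hdisj h1X) hθ₀
  have hr := hrel θ₀ hθ₀
  rw [← Finset.add_sum_erase X _ h1X, hδ1 h1X, hone1, hξe, Finset.sum_singleton] at hr
  have hdθ := hdvdG θ₀
  rcases key16 _ (Finset.mem_range.mpr (by have := hle ξ; omega)) ⟨h14, h10, h16⟩ with h17 | h17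
  · rw [h17] at h15 hr
    have h18 : δ ξ = -1 := by
      rcases h6 with h6 | h6
      · rw [h6] at h15
        omega
      · exact h6
    rw [h18] at hr
    have h19 : deg θ₀ = 3 := by
      rcases hε with rfl | rfl <;> push_cast at hr <;> omega
    obtain ⟨n, hn, ⟨c, hc⟩⟩ := hF θ₀ ((hB θ₀).mpr (Or.inr hθ₀)) hθ1
    rw [h19] at hn hc
    push_cast at hc
    omega
  · rw [h17] at h15 hr
    have h18 : δ ξ = 1 := by
      rcases h6 with h6 | h6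
      · exact h6
      · rw [h6] at h15
        omega
    rw [h18] at hr
    have h19 : deg θ₀ = 17 := by
      rcases hε with rfl | rfl <;> push_cast at hr <;> omega
    rw [h19] at hdθ
    revert hdθ
    norm_num

abbrev LL : Finset ℕ := {4, 6, 9, 16, 24, 36, 54}

def sg (d : ℕ) : ℤ := if d % 5 = 1 then 1 else -1

def XV (d b : ℕ) : ℤ := (d : ℤ) - 4 * (b : ℤ)

def X4 (d₁ d₂ d₃ : ℕ) (s₄ : ℤ) (b₁ b₂ b₃ : ℕ) : ℤ :=
  -s₄ * (1 + sg d₁ * XV d₁ b₁ + sg d₂ * XV d₂ b₂ + sg d₃ * XV d₃ b₃)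

def KK (d₁ d₂ d₃ d₄ : ℕ) (s₄ x₁ x₂ x₃ x₄ : ℤ) : ℤ :=
  (d₁ : ℤ) * d₂ * d₃ * d₄ + sg d₁ * (x₁ * x₁) * d₂ * d₃ * d₄ + sg d₂ * (x₂ * x₂) * d₁ * d₃ * d₄ +
    sg d₃ * (x₃ * x₃) * d₁ * d₂ * d₄ + s₄ * (x₄ * x₄) * d₁ * d₂ * d₃

abbrev RR (d₁ d₂ d₃ d₄ : ℕ) (s₄ : ℤ) (b₁ b₂ b₃ n : ℕ) : Prop :=
  ¬ (((n : ℤ) * XV d₁ b₁) % (d₁ : ℤ) = 0 ∧ ((n : ℤ) * XV d₂ b₂) % (d₂ : ℤ) = 0 ∧
     ((n : ℤ) * XV d₃ b₃) % (d₃ : ℤ) = 0 ∧ ((n : ℤ) * X4 d₁ d₂ d₃ s₄ b₁ b₂ b₃) % (d₄ : ℤ) = 0 ∧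
     (n : ℤ) * (1 + XV d₁ b₁ * XV d₁ b₁ + XV d₂ b₂ * XV d₂ b₂ + XV d₃ b₃ * XV d₃ b₃ +
        X4 d₁ d₂ d₃ s₄ b₁ b₂ b₃ * X4 d₁ d₂ d₃ s₄ b₁ b₂ b₃) ≤ 4320 ∧
     ((n : ℤ) * n * KK d₁ d₂ d₃ d₄ s₄ (XV d₁ b₁) (XV d₂ b₂) (XV d₃ b₃) (X4 d₁ d₂ d₃ s₄ b₁ b₂ b₃)) %
        (4320 * ((d₁ : ℤ) * d₂ * d₃ * d₄)) = 0)

theorem searchC : ∀ d₁ ∈ LL, ∀ d₂ ∈ LL, ∀ d₃ ∈ LL, ∀ s₄ ∈ ({1, -1} : Finset ℤ), ∀ d₄ ∈ Finset.range 66,
    (1 + sg d₁ * (d₁ : ℤ) + sg d₂ * (d₂ : ℤ) + sg d₃ * (d₃ : ℤ) + s₄ * (d₄ : ℤ) = 0 ∧ 2 ≤ d₄ ∧ d₄ ∣ 4320) →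
    ∀ b₁ ∈ Finset.range 28, (b₁ ≠ 0 ∧ 2 * b₁ ≤ d₁) → ∀ b₂ ∈ Finset.range 28, (b₂ ≠ 0 ∧ 2 * b₂ ≤ d₂) →
    ∀ b₃ ∈ Finset.range 28, (b₃ ≠ 0 ∧ 2 * b₃ ≤ d₃) → ∀ n ∈ ({5, 15, 45, 135} : Finset ℕ),
    RR d₁ d₂ d₃ d₄ s₄ b₁ b₂ b₃ n := by
  decide +kernel

open scoped Pointwise in
theorem five_not_dvd {G : Type*} [Group G] [Fintype G] {x : G} (hx : orderOf x = 5)
    (hCx : centralizer ({x} : Set G) = zpowers x) [hf : Fact (Nat.Prime 5)] (P : Sylow 5 G)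
    (hz : zpowers x = (P : Subgroup G)) {t : G} (ht : orderOf t = 2) :
    ¬ 5 ∣ Nat.card (centralizer ({t} : Set G)) := by
  classical
  intro h5
  obtain ⟨u₀, hu₀⟩ := exists_prime_orderOf_dvd_card' (G := centralizer ({t} : Set G)) 5 h5
  have hu : orderOf (u₀ : G) = 5 := by rw [Subgroup.orderOf_coe]; exact hu₀
  have hpg : IsPGroup 5 (zpowers (u₀ : G)) := IsPGroup.of_card (n := 1) (by rw [Nat.card_zpowers, hu, pow_one])
  obtain ⟨Q, hQ⟩ := hpg.exists_le_sylow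
  obtain ⟨g, hg⟩ := MulAction.exists_smul_eq G P Q
  have huQ' : (u₀ : G) ∈ MulAut.conj g • (P : Subgroup G) := by
    have h6 := hQ (mem_zpowers (u₀ : G))
    rw [← hg] at h6
    exact h6
  obtain ⟨s, hs, hsu⟩ := (Subgroup.mem_smul_pointwise_iff_exists _ _ _).mp huQ'
  have hsu' : g * s * g⁻¹ = (u₀ : G) := hsu
  have hsx : s ∈ zpowers x := by
    rw [hz]
    exact hs
  have hs1 : s ≠ 1 := by
    rintro rfl
    rw [mul_one, mul_inv_cancel] at hsu'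
    rw [← hsu', orderOf_one] at hu
    omega
  have hCe := Lib.SmallSimple.BB.centralizer_eq (by norm_num) hx hsx hs1
  have hcomm : (g * s * g⁻¹) * t = t * (g * s * g⁻¹) := by
    rw [hsu']
    exact mem_centralizer_singleton_iff.mp u₀.2
  have hwc : g⁻¹ * t * g ∈ centralizer ({x} : Set G) := by
    rw [← hCe, mem_centralizer_singleton_iff]
    calc g⁻¹ * t * g * s = g⁻¹ * (t * (g * s * g⁻¹)) * g := by group
      _ = g⁻¹ * ((g * s * g⁻¹) * t) * g := by rw [hcomm]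
      _ = s * (g⁻¹ * t * g) := by group
  rw [hCx] at hwc
  have h7 : orderOf (g⁻¹ * t * g) ∣ 5 := hx ▸ orderOf_dvd_of_mem_zpowers hwc
  have ht2 : t ^ 2 = 1 := by rw [← ht]; exact pow_orderOf_eq_one t
  have h8 : orderOf (g⁻¹ * t * g) ∣ 2 := by
    apply orderOf_dvd_of_pow_eq_one
    calc (g⁻¹ * t * g) ^ 2 = g⁻¹ * (t * t) * g := by
          rw [pow_two]
          group
      _ = 1 := by
          rw [← pow_two, ht2]
          group
  have h9 : orderOf (g⁻¹ * t * g) ∣ 1 := by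
    have := Nat.dvd_gcd h7 h8
    simpa using this
  have h10 := orderOf_eq_one_iff.mp (Nat.dvd_one.mp h9)
  have h11 : t = 1 := by
    have : t = g * (g⁻¹ * t * g) * g⁻¹ := by group
    rw [this, h10]
    group
  rw [h11, orderOf_one] at ht
  omega

theorem keyC : ∀ d ∈ Finset.range 66, (2 ≤ d ∧ d ∣ 864 ∧ (d % 5 = 1 ∨ d % 5 = 4)) → d ∈ LL := by
  decide +kernel

theorem keyLL : ∀ d ∈ LL, d ≤ 54 := by decide

theorem key135 : ∀ n ∈ Finset.range 136, (n ∣ 135 ∧ n % 5 = 0) → n ∈ ({5, 15, 45, 135} : Finset ℕ) := by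
  decide +kernel

theorem sg_of {d : ℕ} {δ : ℤ} (h6 : δ = 1 ∨ δ = -1) (h15 : (d : ℤ) % 5 = δ % 5) : δ = sg d := by
  unfold sg
  split_ifs with h17
  · rcases h6 with h6 | h6
    · exact h6
    · rw [h6] at h15
      omega
  · rcases h6 with h6 | h6
    · rw [h6] at h15
      omega
    · exact h6

set_option maxHeartbeats 1000000 in
/-- Four characters in the block, with `C(z) = ⟨z⟩`. -/
theorem caseC {G : Type*} [Group G] [Fintype G] [IsSimpleGroup G] (h : Nat.card G = 4320) {x : G}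
    (hx : orderOf x = 5) [hf : Fact (Nat.Prime 5)] (P : Sylow 5 G) (hz : zpowers x = (P : Subgroup G))
    (hNe : Nat.card (normalizer ((zpowers x : Subgroup G) : Set G)) =
      4 * Nat.card (centralizer ({x} : Set G))) (hC : Nat.card (centralizer ({x} : Set G)) = 5) : False := by
  classical
  have hnc : ¬ IsMulCommutative G := Lib.SmallSimple.not_comm_of_not_prime (by rw [h]; norm_num)
  haveI hf2 : Fact (Nat.Prime 2) := ⟨by norm_num⟩
  have hp : Nat.Prime 5 := hf.out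
  have hsyl : ¬ 5 ^ 2 ∣ Nat.card G := by rw [h]; norm_num
  have hCx : centralizer ({x} : Set G) = zpowers x := by
    symm
    apply Subgroup.eq_of_le_of_card_ge
    · intro y hy
      obtain ⟨m, rfl⟩ := Subgroup.mem_zpowers_iff.mp hy
      rw [mem_centralizer_singleton_iff]
      exact (Commute.zpow_left (Commute.refl x) m)
    · rw [Nat.card_zpowers, hx, hC]
  obtain ⟨M, hM⟩ := Lib.Char.exists_isPModular 5 hp
  have hper := Lib.SmallSimple.BA.perfect_of_simple hnc (G := G)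
  obtain ⟨X, Y, δ, ε, deg, hdeg, hB, hdisj, hXc, hYc, he0, hX, hε, hYd, hYY, hYrel, -⟩ :=
    Lib.BR.block_ext hM hx hsyl 4 hNe
  haveI hMp : M.IsPrime := hM.2.1.isPrime
  have hone : oneIrr G ∈ principalBlock M G := Lib.Block.mem_blockOf_self (oneIrr G)
  have hval1 : ∀ g : G, (((oneIrr G : IrrCharacter G) : G → ℂ) g) = 1 := fun _ => rfl
  have hone1 : deg (oneIrr G) = 1 := by
    have h0 := (hdeg (oneIrr G)).1
    rw [hval1] at h0
    exact_mod_cast h0.symm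
  have hx1 : x ≠ 1 := by
    rintro rfl
    rw [orderOf_one] at hx
    omega
  have hI : (centralizer ({x} : Set G)).index = 864 := by
    have h6 := index_mul_card (centralizer ({x} : Set G))
    rw [h, hC] at h6
    omega
  obtain ⟨s₀, hs₀⟩ := exists_prime_orderOf_dvd_card' (G := G) 2 (by rw [h]; norm_num)
  have hdle := deg_le h deg (fun χ => (hdeg χ).1)
  have hdvdG : ∀ θ : IrrCharacter G, deg θ ∣ 4320 := fun θ => h ▸ (hdeg θ).2.2
  have hYc1 : Y.card = 1 := by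
    have : Y.card * 4 = 5 - 1 := hYc
    omega
  obtain ⟨θ, hYe⟩ := Finset.card_eq_one.mp hYc1
  have hθY : θ ∈ Y := by
    rw [hYe]
    simp
  have hXi : ∀ χ ∈ X, χ ≠ oneIrr G → deg χ ∈ LL ∧ δ χ = sg (deg χ) ∧ (χ : G → ℂ) x = (sg (deg χ) : ℂ) := by
    intro χ h9 h8
    obtain ⟨h6, h7, h10⟩ := hX χ h9
    have hv := h10 x (mem_zpowers x) hx1
    have h11 := Lib.SmallSimple.BB.deg_dvd_of_value χ (hdeg χ).1 (hdeg χ).2.1 x (v := 1) (by
      rcases h6 with h6 | h6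
      · left
        rw [hv, h6]
        simp
      · right
        rw [hv, h6]
        simp)
    rw [hI, mul_one] at h11
    have h14 := deg_ge_two hper hs₀ χ h8 (hdeg χ).1
    have h15 : (deg χ : ℤ) % 5 = δ χ % 5 := h7
    have h16 : deg χ % 5 = 1 ∨ deg χ % 5 = 4 := by
      rcases h6 with h6 | h6 <;> rw [h6] at h15 <;> omega
    have hmem := keyC _ (Finset.mem_range.mpr (by have := hdle χ; omega)) ⟨h14, h11, h16⟩
    have hsg : δ χ = sg (deg χ) := sg_of h6 h15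
    exact ⟨hmem, hsg, by rw [hv, hsg]⟩
  have hU : ∀ F : IrrCharacter G → ℂ, (∀ χ : IrrCharacter G, (χ : G → ℂ) x = 0 → F χ = 0) →
      ∑ χ, F χ = ∑ χ ∈ X, F χ + ∑ χ ∈ Y, F χ := by
    intro F hF
    rw [← Finset.sum_union hdisj]
    symm
    apply Finset.sum_subset (Finset.subset_univ _)
    intro χ _ hχ
    apply hF
    apply Lib.BR.vanish_outside hM hx hCx hsyl χ _ (mem_zpowers x) hx1
    intro h6
    rcases (hB χ).mp h6 with h7 | h7
    · exact hχ (Finset.mem_union_left _ h7)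
    · exact hχ (Finset.mem_union_right _ h7)
  obtain ⟨P₁, P₂, P₃, P₄, s₄, hs₄, hn1, hn2, hn3, hn4, h12, h13, h14, h23, h24, h34, hL1, hL2, hL3, hv1, hv2, hv3,
      hrelU, hSU⟩ : ∃ (P₁ P₂ P₃ P₄ : IrrCharacter G) (s₄ : ℤ), (s₄ = 1 ∨ s₄ = -1) ∧ P₁ ≠ oneIrr G ∧ P₂ ≠ oneIrr G ∧
      P₃ ≠ oneIrr G ∧ P₄ ≠ oneIrr G ∧ P₁ ≠ P₂ ∧ P₁ ≠ P₃ ∧ P₁ ≠ P₄ ∧ P₂ ≠ P₃ ∧ P₂ ≠ P₄ ∧ P₃ ≠ P₄ ∧
      deg P₁ ∈ LL ∧ deg P₂ ∈ LL ∧ deg P₃ ∈ LL ∧
      (P₁ : G → ℂ) x = (sg (deg P₁) : ℂ) ∧ (P₂ : G → ℂ) x = (sg (deg P₂) : ℂ) ∧ (P₃ : G → ℂ) x = (sg (deg P₃) : ℂ) ∧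
      (∀ g : G, ¬ 5 ∣ orderOf g → 1 + (sg (deg P₁) : ℂ) * (P₁ : G → ℂ) g + (sg (deg P₂) : ℂ) * (P₂ : G → ℂ) g +
        (sg (deg P₃) : ℂ) * (P₃ : G → ℂ) g + (s₄ : ℂ) * (P₄ : G → ℂ) g = 0) ∧
      (∀ F : IrrCharacter G → ℂ, (∀ χ : IrrCharacter G, (χ : G → ℂ) x = 0 → F χ = 0) →
        ∑ χ, F χ = F (oneIrr G) + F P₁ + F P₂ + F P₃ + F P₄) := by
    rcases (hB _).mp hone with h1X | h1Y
    · have hδ1 : δ (oneIrr G) = 1 := by
        have h6 := (hX _ h1X).2.2 x (mem_zpowers x) hx1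
        rw [hval1] at h6
        exact_mod_cast h6.symm
      have hc3 : (X.erase (oneIrr G)).card = 3 := by rw [Finset.card_erase_of_mem h1X, hXc]
      obtain ⟨A, B, C', hAB, hAC, hBC, hE⟩ := Finset.card_eq_three.mp hc3
      have hAm : A ∈ X.erase (oneIrr G) := by
        rw [hE]
        simp
      have hBm : B ∈ X.erase (oneIrr G) := by
        rw [hE]
        simp
      have hCm : C' ∈ X.erase (oneIrr G) := by
        rw [hE]
        simp
      obtain ⟨hA1, hAX⟩ := Finset.mem_erase.mp hAm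
      obtain ⟨hB1, hBX⟩ := Finset.mem_erase.mp hBm
      obtain ⟨hC1, hCX⟩ := Finset.mem_erase.mp hCm
      have hnX : ∀ χ ∈ X, χ ≠ θ := by
        rintro χ hχ rfl
        exact (Finset.disjoint_left.mp hdisj hχ) hθY
      have hXs : ∀ {R : Type} [AddCommMonoid R] (F : IrrCharacter G → R),
          ∑ χ ∈ X, F χ = F (oneIrr G) + (F A + (F B + F C')) := by
        intro R _ F
        rw [← Finset.add_sum_erase X F h1X, hE, Finset.sum_insert (by simp [hAB, hAC]), Finset.sum_pair hBC]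
      refine ⟨A, B, C', θ, -ε, ?_, hA1, hB1, hC1, ?_, hAB, hAC, hnX A hAX, hBC, hnX B hBX, hnX C' hCX,
        (hXi A hAX hA1).1, (hXi B hBX hB1).1, (hXi C' hCX hC1).1, (hXi A hAX hA1).2.2, (hXi B hBX hB1).2.2,
        (hXi C' hCX hC1).2.2, ?_, ?_⟩
      · rcases hε with rfl | rfl <;> simp
      · exact (hnX _ h1X).symm
      · intro g hg
        have h6 := hYrel θ hθY g hg
        rw [hXs, hδ1, hval1, (hXi A hAX hA1).2.1, (hXi B hBX hB1).2.1, (hXi C' hCX hC1).2.1] at h6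
        push_cast at h6 ⊢
        linear_combination -h6
      · intro F hF
        rw [hU F hF, hXs, hYe, Finset.sum_singleton]
        ring
    · have hθ1 : oneIrr G = θ := by
        rw [hYe] at h1Y
        simpa using h1Y
      have hε1 : ε = -1 := by
        have h7 := hYd _ h1Y
        rw [hone1] at h7
        have h8 : ((1 : ℕ) : ℤ) % ((5 : ℕ) : ℤ) = (ε * ((4 : ℕ) : ℤ)) % ((5 : ℕ) : ℤ) := h7
        rcases hε with rfl | rfl
        · omega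
        · rfl
      have h1X : ∀ χ ∈ X, χ ≠ oneIrr G := by
        rintro χ hχ rfl
        exact (Finset.disjoint_left.mp hdisj hχ) h1Y
      have hXne : X.Nonempty := by
        rw [← Finset.card_pos, hXc]
        norm_num
      obtain ⟨A, hAX⟩ := hXne
      have hc3 : (X.erase A).card = 3 := by rw [Finset.card_erase_of_mem hAX, hXc]
      obtain ⟨B, C', E, hBC, hBE, hCE, hE⟩ := Finset.card_eq_three.mp hc3
      have hBm : B ∈ X.erase A := by
        rw [hE]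
        simp
      have hCm : C' ∈ X.erase A := by
        rw [hE]
        simp
      have hEm : E ∈ X.erase A := by
        rw [hE]
        simp
      obtain ⟨hAB, hBX⟩ := Finset.mem_erase.mp hBm
      obtain ⟨hAC, hCX⟩ := Finset.mem_erase.mp hCm
      obtain ⟨hAE, hEX⟩ := Finset.mem_erase.mp hEm
      have hXs : ∀ {R : Type} [AddCommMonoid R] (F : IrrCharacter G → R),
          ∑ χ ∈ X, F χ = F A + (F B + (F C' + F E)) := by
        intro R _ F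
        rw [← Finset.add_sum_erase X F hAX, hE, Finset.sum_insert (by simp [hBC, hBE]), Finset.sum_pair hCE]
      refine ⟨A, B, C', E, sg (deg E), ?_, h1X A hAX, h1X B hBX, h1X C' hCX, h1X E hEX, hAB.symm, hAC.symm, hAE.symm,
        hBC, hBE, hCE, (hXi A hAX (h1X A hAX)).1, (hXi B hBX (h1X B hBX)).1, (hXi C' hCX (h1X C' hCX)).1,
        (hXi A hAX (h1X A hAX)).2.2, (hXi B hBX (h1X B hBX)).2.2, (hXi C' hCX (h1X C' hCX)).2.2, ?_, ?_⟩
      · unfold sg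
        split_ifs
        · exact Or.inl rfl
        · exact Or.inr rfl
      · intro g hg
        have h6 := hYrel _ h1Y g hg
        rw [hXs, hε1, hval1, (hXi A hAX (h1X A hAX)).2.1, (hXi B hBX (h1X B hBX)).2.1, (hXi C' hCX (h1X C' hCX)).2.1,
          (hXi E hEX (h1X E hEX)).2.1] at h6
        push_cast at h6 ⊢
        linear_combination -h6
      · intro F hF
        rw [hU F hF, hXs, hYe, Finset.sum_singleton, ← hθ1]
        ring
  set d₁ : ℕ := deg P₁ with hd₁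
  set d₂ : ℕ := deg P₂ with hd₂
  set d₃ : ℕ := deg P₃ with hd₃
  set d₄ : ℕ := deg P₄ with hd₄
  have e₁ : (P₁ : G → ℂ) 1 = (d₁ : ℂ) := (hdeg P₁).1
  have e₂ : (P₂ : G → ℂ) 1 = (d₂ : ℂ) := (hdeg P₂).1
  have e₃ : (P₃ : G → ℂ) 1 = (d₃ : ℂ) := (hdeg P₃).1
  have e₄ : (P₄ : G → ℂ) 1 = (d₄ : ℂ) := (hdeg P₄).1
  have hr1 : 1 + sg d₁ * (d₁ : ℤ) + sg d₂ * (d₂ : ℤ) + sg d₃ * (d₃ : ℤ) + s₄ * (d₄ : ℤ) = 0 := by
    have h6 := hrelU 1 (by
      rw [orderOf_one]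
      norm_num)
    rw [e₁, e₂, e₃, e₄] at h6
    exact_mod_cast h6
  have hr1c : (1 : ℂ) + (sg d₁ : ℂ) * (d₁ : ℂ) + (sg d₂ : ℂ) * (d₂ : ℂ) + (sg d₃ : ℂ) * (d₃ : ℂ) + (s₄ : ℂ) * (d₄ : ℂ) = 0 := by
    exact_mod_cast hr1
  have hd40 : (d₄ : ℂ) ≠ 0 := by exact_mod_cast (hdeg P₄).2.1
  have hd30 : (d₃ : ℂ) ≠ 0 := by exact_mod_cast (hdeg P₃).2.1
  have hd20 : (d₂ : ℂ) ≠ 0 := by exact_mod_cast (hdeg P₂).2.1
  have hd10 : (d₁ : ℂ) ≠ 0 := by exact_mod_cast (hdeg P₁).2.1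
  have hS₄ : conj ((P₄ : G → ℂ) x) = (s₄ : ℂ) := by
    have h6 := Lib.Char.second_orthogonality' (1 : G) x
    rw [if_neg (by rw [isConj_one_right]; exact hx1), hSU (fun χ => (χ : G → ℂ) 1 * conj ((χ : G → ℂ) x)) (by
      intro χ h0
      simp [h0])] at h6
    simp only [hval1, e₁, e₂, e₃, e₄, hv1, hv2, hv3, map_one, map_intCast] at h6
    apply mul_left_cancel₀ hd40
    linear_combination h6 - hr1c
  -- the involution
  obtain ⟨t, ht, h32⟩ := exists_invol h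
  have ht2 : t ^ 2 = 1 := by rw [← ht]; exact pow_orderOf_eq_one t
  have ht1 : t ≠ 1 := by
    rintro rfl
    simp at ht
  set n : ℕ := (centralizer ({t} : Set G)).index with hn
  have hnC : n * Nat.card (centralizer ({t} : Set G)) = 4320 := by
    rw [← h]
    exact index_mul_card _
  have hn5 : n ∈ ({5, 15, 45, 135} : Finset ℕ) := by
    have h5C := five_not_dvd hx hCx P hz ht
    obtain ⟨m, hm⟩ := h32
    rw [hm] at hnC h5C
    have h9 : n * (32 * m) = 32 * (n * m) := by ring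
    rw [h9] at hnC
    have h10 : n * m = 135 := by omega
    have h11 : ¬ 5 ∣ m := by
      intro h12
      exact h5C (Dvd.dvd.mul_left h12 32)
    have h12 : 5 ∣ n := by
      have h13 : 5 ∣ n * m := by rw [h10]; norm_num
      exact ((Nat.Prime.dvd_mul hp).mp h13).resolve_right h11
    refine key135 n (Finset.mem_range.mpr ?_) ⟨⟨m, h10.symm⟩, Nat.mod_eq_zero_of_dvd h12⟩
    have := Nat.le_of_dvd (by norm_num) (⟨m, h10.symm⟩ : n ∣ 135)
    omega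
  have hv : ∀ χ : IrrCharacter G, ∃ b : ℕ,
      (χ : G → ℂ) t = (XV (deg χ) b : ℂ) ∧ 2 * b ≤ deg χ := by
    intro χ
    obtain ⟨a, d', hd', ha, ⟨b, hb⟩, hle⟩ := Lib.SmallSimple.BB.exists_even_of_involution
      (Lib.Char.IsIrrCharacter.isCharacter χ.2) hper ht2
    have hdd : d' = deg χ := by
      rw [(hdeg χ).1] at hd'
      exact_mod_cast hd'.symm
    subst hdd
    refine ⟨b, ?_, by omega⟩
    rw [(hdeg χ).1] at ha
    subst hb
    unfold XV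
    push_cast at ha ⊢
    linear_combination -ha
  choose b hbv hble using hv
  have hb0 : ∀ χ : IrrCharacter G, χ ≠ oneIrr G → b χ ≠ 0 := by
    intro χ hχ h0
    apply Lib.SmallSimple.BB.ne_of_involution χ hχ ht1
    rw [hbv χ, (hdeg χ).1, h0]
    unfold XV
    push_cast
    ring
  set V : IrrCharacter G → ℤ := fun χ => XV (deg χ) (b χ) with hVdef
  have hV : ∀ χ : IrrCharacter G, (χ : G → ℂ) t = (V χ : ℂ) := hbv
  have hV1 : V (oneIrr G) = 1 := by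
    have h6 := hV (oneIrr G)
    rw [hval1] at h6
    exact_mod_cast h6.symm
  have o1 : ∑ χ : IrrCharacter G, V χ * V χ = (Nat.card (centralizer ({t} : Set G)) : ℤ) := by
    have h6 := Lib.Char.second_orthogonality' t t
    rw [if_pos (IsConj.refl t)] at h6
    have h7 : ∀ χ : IrrCharacter G, (χ : G → ℂ) t * conj ((χ : G → ℂ) t) = ((V χ * V χ : ℤ) : ℂ) := by
      intro χ
      rw [hV χ, map_intCast]
      push_cast
      ring
    simp only [h7] at h6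
    exact_mod_cast h6
  have hlow : 1 + V P₁ * V P₁ + V P₂ * V P₂ + V P₃ * V P₃ + V P₄ * V P₄ ≤
      (Nat.card (centralizer ({t} : Set G)) : ℤ) := by
    have h6 : ∑ χ ∈ ({oneIrr G, P₁, P₂, P₃, P₄} : Finset (IrrCharacter G)), V χ * V χ ≤
        ∑ χ : IrrCharacter G, V χ * V χ :=
      Finset.sum_le_sum_of_subset_of_nonneg (Finset.subset_univ _) (fun χ _ _ => mul_self_nonneg _)
    rw [o1, Finset.sum_insert (by simp [hn1.symm, hn2.symm, hn3.symm, hn4.symm]),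
      Finset.sum_insert (by simp [h12, h13, h14]), Finset.sum_insert (by simp [h23, h24]),
      Finset.sum_pair h34, hV1] at h6
    linarith
  have hV₄ : V P₄ = X4 d₁ d₂ d₃ s₄ (b P₁) (b P₂) (b P₃) := by
    have h6 := hrelU t (by rw [ht]; norm_num)
    rw [hV P₁, hV P₂, hV P₃, hV P₄] at h6
    have h7 : 1 + sg d₁ * V P₁ + sg d₂ * V P₂ + sg d₃ * V P₃ + s₄ * V P₄ = 0 := by
      exact_mod_cast h6
    have hV₁' : V P₁ = XV d₁ (b P₁) := rfl
    have hV₂' : V P₂ = XV d₂ (b P₂) := rfl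
    have hV₃' : V P₃ = XV d₃ (b P₃) := rfl
    rw [hV₁', hV₂', hV₃'] at h7
    unfold X4
    rcases hs₄ with rfl | rfl <;> linarith
  have hV₁' : V P₁ = XV d₁ (b P₁) := rfl
  have hV₂' : V P₂ = XV d₂ (b P₂) := rfl
  have hV₃' : V P₃ = XV d₃ (b P₃) := rfl
  obtain ⟨c, hc⟩ := class_formula t x
  rw [hSU _ (by
    intro χ h0
    simp [h0])] at hc
  simp only [hval1, hV P₁, hV P₂, hV P₃, hV P₄, e₁, e₂, e₃, e₄, hv1, hv2, hv3, hS₄, map_one, map_intCast, h] at hc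
  have hZc : ((n : ℂ)) * n * ((d₁ : ℂ) * d₂ * d₃ * d₄ + (sg d₁ : ℂ) * ((V P₁ : ℂ) * V P₁) * d₂ * d₃ * d₄ +
      (sg d₂ : ℂ) * ((V P₂ : ℂ) * V P₂) * d₁ * d₃ * d₄ + (sg d₃ : ℂ) * ((V P₃ : ℂ) * V P₃) * d₁ * d₂ * d₄ +
      (s₄ : ℂ) * ((V P₄ : ℂ) * V P₄) * d₁ * d₂ * d₃) = 4320 * ((d₁ : ℂ) * d₂ * d₃ * d₄) * (c : ℂ) := by
    have e1 : ((n : ℂ)) * n * ((d₁ : ℂ) * d₂ * d₃ * d₄ + (sg d₁ : ℂ) * ((V P₁ : ℂ) * V P₁) * d₂ * d₃ * d₄ +
        (sg d₂ : ℂ) * ((V P₂ : ℂ) * V P₂) * d₁ * d₃ * d₄ + (sg d₃ : ℂ) * ((V P₃ : ℂ) * V P₃) * d₁ * d₂ * d₄ +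
        (s₄ : ℂ) * ((V P₄ : ℂ) * V P₄) * d₁ * d₂ * d₃) =
        ((d₁ : ℂ) * d₂ * d₃ * d₄) * ((n : ℂ) ^ 2 * (1 ^ 2 / 1 * 1 + (V P₁ : ℂ) ^ 2 / (d₁ : ℂ) * (sg d₁ : ℂ) +
          (V P₂ : ℂ) ^ 2 / (d₂ : ℂ) * (sg d₂ : ℂ) + (V P₃ : ℂ) ^ 2 / (d₃ : ℂ) * (sg d₃ : ℂ) +
          (V P₄ : ℂ) ^ 2 / (d₄ : ℂ) * (s₄ : ℂ))) := by
      field_simp
    rw [e1, hc]
    push_cast
    ring
  have hZ : (n : ℤ) * n * KK d₁ d₂ d₃ d₄ s₄ (V P₁) (V P₂) (V P₃) (V P₄) = 4320 * ((d₁ : ℤ) * d₂ * d₃ * d₄) * (c : ℤ) := by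
    unfold KK
    exact_mod_cast hZc
  have hdv : ∀ (χ : IrrCharacter G), ((n : ℤ) * V χ) % (deg χ : ℤ) = 0 := by
    intro χ
    exact Int.emod_eq_zero_of_dvd (dvd_val χ (hdeg χ).1 (hdeg χ).2.1 t (V χ) (hV χ))
  have hd₁54 := keyLL _ hL1
  have hd₂54 := keyLL _ hL2
  have hd₃54 := keyLL _ hL3
  have hb₁ := hble P₁
  have hb₂ := hble P₂
  have hb₃ := hble P₃
  refine searchC d₁ hL1 d₂ hL2 d₃ hL3 s₄ (by rcases hs₄ with rfl | rfl <;> simp)
    d₄ (Finset.mem_range.mpr (by have := hdle P₄; omega)) ⟨hr1, deg_ge_two hper hs₀ P₄ hn4 (hdeg P₄).1, hdvdG P₄⟩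
    (b P₁) (Finset.mem_range.mpr (by omega)) ⟨hb0 P₁ hn1, hb₁⟩
    (b P₂) (Finset.mem_range.mpr (by omega)) ⟨hb0 P₂ hn2, hb₂⟩
    (b P₃) (Finset.mem_range.mpr (by omega)) ⟨hb0 P₃ hn3, hb₃⟩ n hn5 ?_
  rw [← hV₁', ← hV₂', ← hV₃', ← hV₄]
  refine ⟨hdv P₁, hdv P₂, hdv P₃, hdv P₄, ?_, ?_⟩
  · have hn0 : (0 : ℤ) ≤ (n : ℤ) := Int.natCast_nonneg n
    have h6 := mul_le_mul_of_nonneg_left hlow hn0
    have h7 : (n : ℤ) * (Nat.card (centralizer ({t} : Set G)) : ℤ) = 4320 := by exact_mod_cast hnC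
    rw [h7] at h6
    linarith
  · exact Int.emod_eq_zero_of_dvd ⟨(c : ℤ), hZ⟩

theorem key5 : ∀ n ∈ Finset.range 865, (n ∣ 864 ∧ n % 5 = 1 ∧ n ≠ 1 ∧ n ≠ 6) → n = 16 ∨ n = 36 ∨ n = 96 ∨ n = 216 := by
  decide +kernel

/-- No finite simple group has order 4320 = 2^5 * 3^3 * 5. -/
theorem result {G : Type*} [Group G] [Finite G] [IsSimpleGroup G] : Nat.card G ≠ 4320 := by
  intro h
  classical
  haveI : Fintype G := Fintype.ofFinite G
  have hnc : ¬ IsMulCommutative G := Lib.SmallSimple.not_comm_of_not_prime (by rw [h]; norm_num)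
  haveI hf : Fact (Nat.Prime 5) := ⟨by norm_num⟩
  obtain ⟨h1, h2, h3, h4, h5⟩ := Lib.SmallSimple.sylow_facts (G := G) hnc 5 1 864
    (by rw [h]; norm_num) (by norm_num) (by norm_num)
  have hsyl : ¬ 5 ^ 2 ∣ Nat.card G := by rw [h]; norm_num
  have hn6 : Nat.card (Sylow 5 G) ≠ 6 := by
    intro h6
    rw [h6, h] at h4
    have h7 := Nat.le_of_dvd (by decide) h4
    have h8 : Nat.factorial 6 = 720 := by decide
    omega
  have hn := key5 _ (Finset.mem_range.mpr (by have := Nat.le_of_dvd (by norm_num) h1; omega)) ⟨h1, h2, h3, hn6⟩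
  obtain ⟨P⟩ : Nonempty (Sylow 5 G) := inferInstance
  obtain ⟨hP, hN⟩ := h5 P
  rw [pow_one] at hP
  obtain ⟨x, hx, hz⟩ := Lib.SmallSimple.BA.exists_gen P hP
  obtain ⟨e, he, he1, hNe⟩ := Lib.SmallSimple.BA.norm_data hnc P hP hx hz
  rw [← hz, h] at hN
  have hxC : x ∈ centralizer ({x} : Set G) := by
    rw [mem_centralizer_singleton_iff]
  have hpd : 5 ∣ Nat.card (centralizer ({x} : Set G)) := by
    have := orderOf_dvd_natCard (⟨x, hxC⟩ : centralizer ({x} : Set G))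
    rwa [Subgroup.orderOf_mk, hx] at this
  have he4 : e ∣ 4 := he
  have hee : e = 2 ∨ e = 4 := by
    have : ∀ e, e ≤ 4 → e ∣ 4 → e ≠ 1 → e = 2 ∨ e = 4 := by decide
    exact this e (Nat.le_of_dvd (by norm_num) he4) he4 he1
  obtain ⟨k, hk⟩ := hpd
  have hIdx := index_mul_card (centralizer ({x} : Set G))
  rw [h, hk] at hIdx
  have hev : ∀ c, k = 2 * c → 2 ∣ Nat.card (centralizer ({x} : Set G)) := by
    rintro c rfl
    rw [hk]
    exact ⟨5 * c, by ring⟩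
  rw [hNe, hk] at hN
  rcases hn with hn | hn | hn | hn <;> rw [hn] at hN <;> rcases hee with rfl | rfl
  · have hk' : k = 27 := by omega
    subst hk'
    exact case16 h hx hNe (by rw [hk])
  · omega
  · exact two_even h hx hNe (hev 6 (by omega))
  · have hk' : k = 6 := by omega
    subst hk'
    have hI : (centralizer ({x} : Set G)).index = 144 := by omega
    exact four_even h hx hNe (hev 3 (by omega)) (by rw [hI])
  · omega
  · omega
  · exact two_even h hx hNe (hev 1 (by omega))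
  · have hk' : k = 1 := by omega
    subst hk'
    exact caseC h hx P hz hNe (by rw [hk])

end Cfsg.Agent.S0977
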