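import Cfsg.Statements.S0981
import Mathlib
import Cfsg.Agent.Lib.SmallSimple.QCommon

set_option autoImplicit false
open Cfsg

namespace Cfsg.Agent.S0981

/-- A simple group of order 4080 is isomorphic to the projective special linear group of dimension 2 over the field with 16 elements. -/
theorem result {G : Type*} [Group G] [Finite G] [IsSimpleGroup G] (h : Nat.card G = 4080) {F : Type*} [Field F] [Fintype F] (hF : Fintype.card F = 16) : Nonempty (G ≃* Matrix.ProjectiveSpecialLinearGroup (Fin 2) F) := by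
  classical
  open Lib.SmallSimple in
  haveI : Fintype G := Fintype.ofFinite G
  have hnc : ¬ IsMulCommutative G := Lib.SmallSimple.not_comm_of_not_prime (by rw [h]; norm_num)
  haveI : Fact (Nat.Prime 17) := ⟨by norm_num⟩
  have hp17 : Nat.Prime 17 := by norm_num
  obtain ⟨h1, h2, h3, -, h5⟩ := Lib.SmallSimple.sylow_facts (G := G) hnc 17 1 240
    (by rw [h]; norm_num) (by norm_num) (by norm_num)
  have hn : Nat.card (Sylow 17 G) = 120 := by
    have : ∀ n, n ≤ 240 → n ∣ 240 → n % 17 = 1 → n ≠ 1 → n = 120 := by decide +kernel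
    exact this _ (Nat.le_of_dvd (by norm_num) h1) h1 h2 h3
  have hsyl' : ∀ Q : Sylow 17 G, Nat.card (Q : Subgroup G) = 17 := fun Q => by
    simpa using (h5 Q).1
  have hnorm : ∀ Q : Sylow 17 G, Nat.card (Subgroup.normalizer ((Q : Subgroup G) : Set G)) = 2 * 17 := by
    intro Q
    have := (h5 Q).2
    rw [hn, h] at this
    omega
  have hC : ∀ y : G, orderOf y = 17 → Nat.card (Subgroup.centralizer ({y} : Set G)) = 17 :=
    fun y hy => (Lib.SmallSimple.QC.card_cent_of_norm hnc hsyl' hnorm hy).1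
  obtain ⟨P⟩ : Nonempty (Sylow 17 G) := inferInstance
  obtain ⟨x, hx, hz⟩ := Lib.SmallSimple.BA.exists_gen P (hsyl' P)
  have hN := (Lib.SmallSimple.QC.card_cent_of_norm hnc hsyl' hnorm hx).2
  have hsyl : ¬ 17 ^ 2 ∣ Nat.card G := by rw [h]; norm_num
  obtain ⟨M, hM⟩ := Lib.Char.exists_isPModular 17 hp17
  obtain ⟨deg, σ, ξ, S, hdeg, hσ, hξ1, hS1, hSξ, hc, hD, hval, hS⟩ :=
    Lib.SmallSimple.BB.block_two_all (M := M) hM hx hsyl hN (by norm_num)
  have hScard : 8 ≤ S.card := by omega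
  obtain ⟨χ₀, hχ₀⟩ : S.Nonempty := by
    rw [← Finset.card_pos]
    omega
  have hne1 : ∀ χ : Cfsg.IrrCharacter G, χ ≠ Lib.Block.oneIrr G → deg χ ≠ 1 := by
    intro χ hχ hd
    apply Lib.SmallSimple.QC.deg_ne_one hnc hχ
    rw [(hdeg χ).1, hd]
    simp
  have hdξ := hne1 ξ hξ1
  have hdχ₀ := hne1 χ₀ (hS1 χ₀ hχ₀)
  have hdvd1 : deg ξ ∣ 4080 := by rw [← h]; exact (hdeg ξ).2.2
  have hdvd2 : deg χ₀ ∣ 4080 := by rw [← h]; exact (hdeg χ₀).2.2
  have hD0 := hD χ₀ hχ₀
  have hcm : (deg ξ : ℤ) % 17 = σ % 17 := by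
    have := hc
    unfold Int.ModEq at this
    push_cast at this
    exact this
  have hσd : σ = -1 ∧ deg ξ = 16 := by
    rcases hσ with rfl | rfl
    · exfalso
      have e1 : deg χ₀ = deg ξ + 1 := by omega
      rw [e1] at hdvd2
      have e2 : deg ξ % 17 = 1 := by omega
      have e3 : deg ξ ∣ 240 := by
        have e0 : Nat.Coprime (deg ξ) 17 := ((Nat.Prime.coprime_iff_not_dvd hp17).2 (by omega)).symm
        exact e0.dvd_of_dvd_mul_right (by norm_num; exact hdvd1)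
      have : ∀ d, d ≤ 240 → d ∣ 240 → d % 17 = 1 → d ≠ 1 → (d + 1) ∣ 4080 → False := by
        decide +kernel
      exact this _ (Nat.le_of_dvd (by norm_num) e3) e3 e2 hdξ hdvd2
    · refine ⟨rfl, ?_⟩
      have e0 : 1 ≤ deg ξ := Nat.pos_of_ne_zero (hdeg ξ).2.1
      have e1 : deg χ₀ + 1 = deg ξ := by omega
      have e2 : deg ξ % 17 = 16 := by omega
      have e3 : (deg ξ - 1) ∣ 4080 := by
        have : deg ξ - 1 = deg χ₀ := by omega
        rw [this]
        exact hdvd2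
      have e4 : deg ξ - 1 ≠ 1 := by omega
      have e5 : deg ξ ∣ 240 := by
        have e0 : Nat.Coprime (deg ξ) 17 := ((Nat.Prime.coprime_iff_not_dvd hp17).2 (by omega)).symm
        exact e0.dvd_of_dvd_mul_right (by norm_num; exact hdvd1)
      have : ∀ d, d ≤ 240 → d ∣ 240 → d % 17 = 16 → (d - 1) ∣ 4080 → d - 1 ≠ 1 → d = 16 := by
        decide +kernel
      exact this _ (Nat.le_of_dvd (by norm_num) e5) e5 e2 e3 e4
  obtain ⟨rfl, hd16⟩ := hσd
  have hdS : ∀ χ ∈ S, deg χ = 15 := by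
    intro χ hχ
    have := hD χ hχ
    rw [hd16] at this
    push_cast at this
    omega
  have h2c : Nat.card G = 2 ^ 4 * 255 := by rw [h]; norm_num
  have h3c : Nat.card G = 3 ^ 1 * 1360 := by rw [h]; norm_num
  have h5c : Nat.card G = 5 ^ 1 * 816 := by rw [h]; norm_num
  have hξv : ∀ g : G, 2 ∣ orderOf g → (ξ : G → ℂ) g = 0 := by
    intro g hg
    exact Lib.SmallSimple.QC.vanish_of_dvd ξ (hdeg ξ).1 Nat.prime_two h2c (by norm_num)
      (by rw [hd16]; norm_num) hg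
  have h17 : ∀ g : G, 2 ∣ orderOf g → ¬ 17 ∣ orderOf g := fun g hg hg' =>
    Lib.SmallSimple.QC.no_two_p hp17 (by norm_num) hC g hg hg'
  have hSv : ∀ χ ∈ S, ∀ g : G, 2 ∣ orderOf g → (χ : G → ℂ) g = ((-1 : ℤ) : ℂ) := by
    intro χ hχ g hg
    rw [hval χ hχ g (h17 g hg), hξv g hg, zero_add]
  have hmix : ∀ (g : G) (r : ℕ), r.Prime → r ≠ 2 → 2 ∣ orderOf g → ¬ r ∣ orderOf g := by
    intro g r hr hr2 hg hrg
    have hrd : r ∣ 4080 := by
      rw [← h]
      exact hrg.trans (orderOf_dvd_natCard g)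
    have hrr : r = 3 ∨ r = 5 ∨ r = 17 := by
      have e1 : (2 : ℕ) ^ 4 * (3 * (5 * 17)) = 4080 := by norm_num
      rw [← e1] at hrd
      rcases (Nat.Prime.dvd_mul hr).1 hrd with e2 | e2
      · exact absurd ((Nat.prime_dvd_prime_iff_eq hr Nat.prime_two).1 (hr.dvd_of_dvd_pow e2)) hr2
      rcases (Nat.Prime.dvd_mul hr).1 e2 with e2 | e2
      · exact Or.inl ((Nat.prime_dvd_prime_iff_eq hr (by norm_num)).1 e2)
      rcases (Nat.Prime.dvd_mul hr).1 e2 with e2 | e2
      · exact Or.inr (Or.inl ((Nat.prime_dvd_prime_iff_eq hr (by norm_num)).1 e2))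
      · exact Or.inr (Or.inr ((Nat.prime_dvd_prime_iff_eq hr (by norm_num)).1 e2))
    have hval' := hSv χ₀ hχ₀ g hg
    rcases hrr with rfl | rfl | rfl
    · have := Lib.SmallSimple.QC.vanish_of_dvd χ₀ (hdeg χ₀).1 (by norm_num : Nat.Prime 3) h3c (by norm_num)
        (by rw [hdS χ₀ hχ₀]; norm_num) hrg
      rw [this] at hval'
      norm_num at hval'
    · have := Lib.SmallSimple.QC.vanish_of_dvd χ₀ (hdeg χ₀).1 (by norm_num : Nat.Prime 5) h5c (by norm_num)
        (by rw [hdS χ₀ hχ₀]; norm_num) hrg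
      rw [this] at hval'
      norm_num at hval'
    · exact h17 g hg hrg
  have hinv := Lib.SmallSimple.QC.inv_cent_of_block 4 255 h2c (by norm_num) deg (fun χ => (hdeg χ).1)
    (-1) (Or.inr rfl) ξ S hξ1 hS1 hSξ 15 hdS hξv hSv hmix (by omega) (by
      push_cast
      omega)
  refine Lib.SmallSimple.QC.psl_of_inv_cent hnc (by rw [h]; decide) hinv ?_
  intro f hf2 hf
  rw [h] at hf
  rw [hF]
  have hfl : f < 12 := by
    by_contra hcon
    push Not at hcon
    have e1 : 2 ^ 12 ≤ 2 ^ f := Nat.pow_le_pow_right (by norm_num) hcon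
    have e2 : 1 ≤ (2 ^ f) ^ 2 - 1 := by
      have : 2 ^ 12 * 1 ≤ 2 ^ f * 2 ^ f := Nat.mul_le_mul e1 (Nat.one_le_two_pow)
      have e3 : (2 ^ f) ^ 2 = 2 ^ f * 2 ^ f := by ring
      omega
    have e3 : 2 ^ f * 1 ≤ 2 ^ f * ((2 ^ f) ^ 2 - 1) := Nat.mul_le_mul_left _ e2
    omega
  interval_cases f <;> omega

end Cfsg.Agent.S0981
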