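import Cfsg.Statements.S1011
import Mathlib
import Cfsg.Agent.Lib.SmallSimple.QCommon

set_option autoImplicit false
open Cfsg

namespace Cfsg.Agent.S1011

/-- A simple group of order 504 is isomorphic to the projective special linear group of dimension 2 over the field with 8 elements. -/
theorem result {G : Type*} [Group G] [Finite G] [IsSimpleGroup G] (h : Nat.card G = 504) {F : Type*} [Field F] [Fintype F] (hF : Fintype.card F = 8) : Nonempty (G ≃* Matrix.ProjectiveSpecialLinearGroup (Fin 2) F) := by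
  classical
  haveI : Fintype G := Fintype.ofFinite G
  have hnc : ¬ IsMulCommutative G := Lib.SmallSimple.not_comm_of_not_prime (by rw [h]; norm_num)
  haveI : Fact (Nat.Prime 7) := ⟨by norm_num⟩
  have hp7 : Nat.Prime 7 := by norm_num
  obtain ⟨h1, h2, h3, -, h5⟩ := Lib.SmallSimple.sylow_facts (G := G) hnc 7 1 72
    (by rw [h]; norm_num) (by norm_num) (by norm_num)
  have hsyl' : ∀ Q : Sylow 7 G, Nat.card (Q : Subgroup G) = 7 := fun Q => by
    simpa using (h5 Q).1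
  have hn : Nat.card (Sylow 7 G) = 8 ∨ Nat.card (Sylow 7 G) = 36 := by
    have : ∀ n, n ≤ 72 → n ∣ 72 → n % 7 = 1 → n ≠ 1 → n = 8 ∨ n = 36 := by decide +kernel
    exact this _ (Nat.le_of_dvd (by norm_num) h1) h1 h2 h3
  obtain ⟨P⟩ : Nonempty (Sylow 7 G) := inferInstance
  obtain ⟨x₀, hx₀, hz₀⟩ := Lib.SmallSimple.BA.exists_gen P (hsyl' P)
  have hn36 : Nat.card (Sylow 7 G) = 36 := by
    rcases hn with hn | hn
    · exfalso
      obtain ⟨e, he, he1, hNe⟩ := Lib.SmallSimple.BA.norm_data hnc P (hsyl' P) hx₀ hz₀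
      have hN := (h5 P).2
      rw [hn, h, ← hz₀, hNe] at hN
      have hxC : x₀ ∈ Subgroup.centralizer ({x₀} : Set G) := by
        rw [Subgroup.mem_centralizer_singleton_iff]
      have hpd : 7 ∣ Nat.card (Subgroup.centralizer ({x₀} : Set G)) := by
        have := orderOf_dvd_natCard (⟨x₀, hxC⟩ : Subgroup.centralizer ({x₀} : Set G))
        rwa [Subgroup.orderOf_mk, hx₀] at this
      obtain ⟨k, hk⟩ := hpd
      rw [hk] at hN
      have he6 : e ∣ 6 := he
      have hek : e * k = 9 := by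
        have : 8 * (e * (7 * k)) = 8 * 7 * (e * k) := by ring
        omega
      have he3 : e = 3 := by
        have : ∀ e, e ≤ 6 → e ∣ 6 → e ≠ 1 → e ∣ 9 → e = 3 := by decide
        exact this e (Nat.le_of_dvd (by norm_num) he6) he6 he1 ⟨k, hek.symm⟩
      subst he3
      have hk3 : k = 3 := by omega
      subst hk3
      haveI : Fact (Nat.Prime 3) := ⟨by norm_num⟩
      obtain ⟨y, hy⟩ := exists_prime_orderOf_dvd_card' (G := Subgroup.centralizer ({x₀} : Set G)) 3
        (by rw [hk]; norm_num)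
      have hy' : orderOf (y : G) = 3 := by rw [Subgroup.orderOf_coe]; exact hy
      have e1 := Lib.SmallSimple.BA.fix_modEq_sylow (p := 7) hy'
      have e2 := Lib.SmallSimple.BA.fix_modEq_one P hx₀ hz₀ y.2
      have e3 := Lib.SmallSimple.BA.card_fix_le (p := 7) (y := (y : G))
      rw [hn] at e1 e3
      have e5 : Nat.card {Q : Sylow 7 G // (y : G) • Q = Q} = 8 := by
        have e6 : Nat.card {Q : Sylow 7 G // (y : G) • Q = Q} % 3 = 8 % 3 := e1
        have e7 : Nat.card {Q : Sylow 7 G // (y : G) • Q = Q} % 7 = 1 := e2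
        omega
      have e6 := Lib.SmallSimple.BA.forall_fix_of_card (p := 7) (y := (y : G)) (e5.trans hn.symm)
      have e7 := Lib.SmallSimple.BA.eq_one_of_fix_all (p := 7) h3 e6
      rw [e7, orderOf_one] at hy'
      omega
    · exact hn
  have hnorm : ∀ Q : Sylow 7 G, Nat.card (Subgroup.normalizer ((Q : Subgroup G) : Set G)) = 2 * 7 := by
    intro Q
    have := (h5 Q).2
    rw [hn36, h] at this
    omega
  have hC : ∀ y : G, orderOf y = 7 → Nat.card (Subgroup.centralizer ({y} : Set G)) = 7 :=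
    fun y hy => (Lib.SmallSimple.QC.card_cent_of_norm hnc hsyl' hnorm hy).1
  have hN := (Lib.SmallSimple.QC.card_cent_of_norm hnc hsyl' hnorm hx₀).2
  have hsyl : ¬ 7 ^ 2 ∣ Nat.card G := by rw [h]; norm_num
  obtain ⟨M, hM⟩ := Lib.Char.exists_isPModular 7 hp7
  obtain ⟨deg, σ, ξ, S, hdeg, hσ, hξ1, hS1, hSξ, hc, hD, hval, hS⟩ :=
    Lib.SmallSimple.BB.block_two_all (M := M) hM hx₀ hsyl hN (by norm_num)
  have hScard : 3 ≤ S.card := by omega
  obtain ⟨χ₀, hχ₀⟩ : S.Nonempty := by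
    rw [← Finset.card_pos]
    omega
  have hne1 : ∀ χ : Cfsg.IrrCharacter G, χ ≠ Lib.Block.oneIrr G → deg χ ≠ 1 := by
    intro χ hχ hd
    apply Lib.SmallSimple.QC.deg_ne_one hnc hχ
    rw [(hdeg χ).1, hd]
    simp
  have hdξ := hne1 ξ hξ1
  have hdχ₀ := hne1 χ₀ (hS1 χ₀ hχ₀)
  have hdvd1 : deg ξ ∣ 504 := by rw [← h]; exact (hdeg ξ).2.2
  have hdvd2 : deg χ₀ ∣ 504 := by rw [← h]; exact (hdeg χ₀).2.2
  have hD0 := hD χ₀ hχ₀
  have hcm : (deg ξ : ℤ) % 7 = σ % 7 := by
    have := hc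
    unfold Int.ModEq at this
    push_cast at this
    exact this
  have hσd : σ = 1 ∧ deg ξ = 8 := by
    rcases hσ with rfl | rfl
    · refine ⟨rfl, ?_⟩
      have e1 : deg χ₀ = deg ξ + 1 := by omega
      rw [e1] at hdvd2
      have e2 : deg ξ % 7 = 1 := by omega
      have : ∀ d, d ≤ 504 → d ∣ 504 → d % 7 = 1 → d ≠ 1 → (d + 1) ∣ 504 → d = 8 := by
        decide +kernel
      exact this _ (Nat.le_of_dvd (by norm_num) hdvd1) hdvd1 e2 hdξ hdvd2
    · exfalso
      have e0 : 1 ≤ deg ξ := Nat.pos_of_ne_zero (hdeg ξ).2.1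
      have e1 : deg χ₀ + 1 = deg ξ := by omega
      have e2 : deg ξ % 7 = 6 := by omega
      have e3 : (deg ξ - 1) ∣ 504 := by
        have : deg ξ - 1 = deg χ₀ := by omega
        rw [this]
        exact hdvd2
      have e4 : deg ξ - 1 ≠ 1 := by omega
      have : ∀ d, d ≤ 504 → d ∣ 504 → d % 7 = 6 → (d - 1) ∣ 504 → d - 1 ≠ 1 → False := by
        decide +kernel
      exact this _ (Nat.le_of_dvd (by norm_num) hdvd1) hdvd1 e2 e3 e4
  obtain ⟨rfl, hd8⟩ := hσd
  have hdS : ∀ χ ∈ S, deg χ = 9 := by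
    intro χ hχ
    have := hD χ hχ
    rw [hd8] at this
    push_cast at this
    omega
  have h2c : Nat.card G = 2 ^ 3 * 63 := by rw [h]; norm_num
  have h3c : Nat.card G = 3 ^ 2 * 56 := by rw [h]; norm_num
  have hξv : ∀ g : G, 2 ∣ orderOf g → (ξ : G → ℂ) g = 0 := by
    intro g hg
    exact Lib.SmallSimple.QC.vanish_of_dvd ξ (hdeg ξ).1 Nat.prime_two h2c (by norm_num)
      (by rw [hd8]; norm_num) hg
  have h7 : ∀ g : G, 2 ∣ orderOf g → ¬ 7 ∣ orderOf g := fun g hg hg' =>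
    Lib.SmallSimple.QC.no_two_p hp7 (by norm_num) hC g hg hg'
  have hSv : ∀ χ ∈ S, ∀ g : G, 2 ∣ orderOf g → (χ : G → ℂ) g = ((1 : ℤ) : ℂ) := by
    intro χ hχ g hg
    rw [hval χ hχ g (h7 g hg), hξv g hg, zero_add]
  have hmix : ∀ (g : G) (r : ℕ), r.Prime → r ≠ 2 → 2 ∣ orderOf g → ¬ r ∣ orderOf g := by
    intro g r hr hr2 hg hrg
    have hrd : r ∣ 504 := by
      rw [← h]
      exact hrg.trans (orderOf_dvd_natCard g)
    have hrr : r = 3 ∨ r = 7 := by
      have e1 : (2 : ℕ) ^ 3 * (3 ^ 2 * 7) = 504 := by norm_num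
      rw [← e1] at hrd
      rcases (Nat.Prime.dvd_mul hr).1 hrd with e2 | e2
      · exact absurd ((Nat.prime_dvd_prime_iff_eq hr Nat.prime_two).1 (hr.dvd_of_dvd_pow e2)) hr2
      rcases (Nat.Prime.dvd_mul hr).1 e2 with e2 | e2
      · exact Or.inl ((Nat.prime_dvd_prime_iff_eq hr (by norm_num)).1 (hr.dvd_of_dvd_pow e2))
      · exact Or.inr ((Nat.prime_dvd_prime_iff_eq hr (by norm_num)).1 e2)
    have hval' := hSv χ₀ hχ₀ g hg
    rcases hrr with rfl | rfl
    · have := Lib.SmallSimple.QC.vanish_of_dvd χ₀ (hdeg χ₀).1 (by norm_num : Nat.Prime 3) h3c (by norm_num)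
        (by rw [hdS χ₀ hχ₀]; norm_num) hrg
      rw [this] at hval'
      norm_num at hval'
    · exact h7 g hg hrg
  have hinv := Lib.SmallSimple.QC.inv_cent_of_block 3 63 h2c (by norm_num) deg (fun χ => (hdeg χ).1)
    1 (Or.inl rfl) ξ S hξ1 hS1 hSξ 9 hdS hξv hSv hmix (by omega) (by
      push_cast
      omega)
  refine Lib.SmallSimple.QC.psl_of_inv_cent hnc (by rw [h]; decide) hinv ?_
  intro f hf2 hf
  rw [h] at hf
  rw [hF]
  have hfl : f < 10 := by
    by_contra hcon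
    push Not at hcon
    have e1 : 2 ^ 10 ≤ 2 ^ f := Nat.pow_le_pow_right (by norm_num) hcon
    have e2 : 1 ≤ (2 ^ f) ^ 2 - 1 := by
      have : 2 ^ 10 * 1 ≤ 2 ^ f * 2 ^ f := Nat.mul_le_mul e1 (Nat.one_le_two_pow)
      have e3 : (2 ^ f) ^ 2 = 2 ^ f * 2 ^ f := by ring
      omega
    have e3 : 2 ^ f * 1 ≤ 2 ^ f * ((2 ^ f) ^ 2 - 1) := Nat.mul_le_mul_left _ e2
    omega
  interval_cases f <;> omega

end Cfsg.Agent.S1011
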