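import Cfsg.Statements.S1255
import Mathlib
import Cfsg.Agent.Lib.Invol.Dih
import Cfsg.Agent.Lib.Invol.Cen
import Cfsg.Agent.Lib.Invol.DihedralKlein
import Cfsg.Prelude.Def_TwoFusion

set_option autoImplicit false
open Cfsg

namespace Cfsg.Agent.S1255


open Cfsg.Agent.Lib.Invol Cfsg.Agent.Lib.Techniques

section
variable {X : Type*} [Group X] [Finite X]

/-- Elements of odd order act trivially when the index of the centralizer is a power of `2`. -/
lemma mem_centralizer_of_rel {Q : Subgroup X} {k : ℕ}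
    (hrel : (Subgroup.centralizer (Q : Set X)).relIndex (Subgroup.normalizer (Q : Set X)) = 2 ^ k) {g : X}
    (hg : g ∈ Subgroup.normalizer (Q : Set X)) (hcop : Nat.Coprime (orderOf g) 2) : g ∈ Subgroup.centralizer (Q : Set X) := by
  let φ := Q.normalizerMonoidHom
  have h1 : orderOf (φ ⟨g, hg⟩) ∣ orderOf g := by
    rw [← Subgroup.orderOf_mk g hg]
    exact orderOf_map_dvd φ _
  have h2 : orderOf (φ ⟨g, hg⟩) ∣ 2 ^ k := by
    have h3 : orderOf (φ.rangeRestrict ⟨g, hg⟩) ∣ Nat.card φ.range := orderOf_dvd_natCard _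
    have h4 : Nat.card φ.range = 2 ^ k := by
      rw [← Subgroup.index_ker, Subgroup.normalizerMonoidHom_ker]
      exact hrel
    rw [h4] at h3
    have h5 : orderOf (φ.rangeRestrict ⟨g, hg⟩) = orderOf (φ ⟨g, hg⟩) := Subgroup.orderOf_mk _ _
    rwa [h5] at h3
  have h3 := Nat.eq_one_of_dvd_coprimes (Nat.Coprime.pow_right k hcop) h1 h2
  have h5 : (⟨g, hg⟩ : Subgroup.normalizer (Q : Set X)) ∈ φ.ker := orderOf_eq_one_iff.1 h3
  rw [Subgroup.normalizerMonoidHom_ker] at h5
  exact h5

lemma two_pow_of_not_three {n : ℕ} (h1 : n ∣ 6) (h2 : ¬ 3 ∣ n) : ∃ k, n = 2 ^ k := by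
  have h3 := Nat.le_of_dvd (by norm_num) h1
  interval_cases n
  · omega
  · exact ⟨0, rfl⟩
  · exact ⟨1, rfl⟩
  · omega
  · omega
  · omega
  · omega

/-- All involutions are conjugate when `3` divides all the indices. -/
lemma all_conj {S : Sylow 2 X} {a : ℕ} {x y : (S : Subgroup X)} (h : DH a x y)
    (hB : ∀ U : Subgroup X, U ≤ S → IsKleinFour U → 3 ∣ (Subgroup.centralizer (U : Set X)).relIndex (Subgroup.normalizer (U : Set X)))
    (t : X) (ht : orderOf t = 2) : IsConj t ((x ^ (a : ℤ) : (S : Subgroup X)) : X) := by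
  obtain ⟨s, hs⟩ := exists_conj_into S t (k := 1) (by rw [ht, pow_one])
  have hos : orderOf s = 2 := by
    have h1 : orderOf (s : X) = 2 := by rw [← orderOf_of_isConj hs, ht]
    rwa [Subgroup.orderOf_coe] at h1
  have hs2 : s * s = 1 := by
    have := pow_orderOf_eq_one s
    rwa [hos, pow_two] at this
  have hs1 : s ≠ 1 := by
    rintro rfl
    simp at hos
  rcases h.hform s with ⟨i, rfl⟩ | ⟨i, rfl⟩
  · rw [h.eq_z_of_sq hs2 hs1] at hs
    exact hs
  · obtain ⟨T, hT, hl, hz⟩ := h.exists_klein_refl i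
    have e1 : T ≃* (T.map (S : Subgroup X).subtype) := T.equivMapOfInjective _ (S : Subgroup X).subtype_injective
    have hU : IsKleinFour (T.map (S : Subgroup X).subtype) :=
      IsKleinFour.mk (by rw [← Nat.card_congr e1.toEquiv]; exact hT.card_four)
        (by rw [← Monoid.exponent_eq_of_mulEquiv e1]; exact hT.exponent_two)
    obtain ⟨g, -, hg⟩ := klein_trans_three hU (hB _ (upS_le T) hU) (t₁ := ((x ^ i * y : (S : Subgroup X)) : X))
      (t₂ := ((x ^ (a : ℤ) : (S : Subgroup X)) : X)) ⟨_, hl, rfl⟩ ⟨_, hz, rfl⟩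
      (fun h0 => h.refl_ne_one i (Subtype.ext h0)) (fun h0 => h.z_ne_one (Subtype.ext h0))
    exact hs.trans (isConj_of_conj hg)

lemma left_of_all {S : Sylow 2 X} {a : ℕ} {x y : (S : Subgroup X)} (h : DH a x y)
    (hA : ∀ a b : X, orderOf a = 2 → orderOf b = 2 → IsConj a b) :
    (∀ H : Subgroup X, H.index ≠ 2) ∧ (∀ z : X, ¬ Cfsg.IsIsolatedInvolution z) := by
  have hzo : orderOf ((x ^ (a : ℤ) : (S : Subgroup X)) : X) = 2 := by
    rw [Subgroup.orderOf_coe, h.orderOf_z]
  have hrefl : ∀ i : ℤ, orderOf ((x ^ i * y : (S : Subgroup X)) : X) = 2 := fun i => by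
    rw [Subgroup.orderOf_coe, h.orderOf_refl]
  constructor
  · intro H hH
    haveI hn : H.Normal := Subgroup.normal_of_index_eq_two hH
    have hall : ∀ t : X, orderOf t = 2 → (t ∈ H ↔ ((x ^ (a : ℤ) : (S : Subgroup X)) : X) ∈ H) := by
      intro t ht
      obtain ⟨c, hc⟩ := isConj_iff.1 (hA t _ ht hzo)
      rw [← hc]
      constructor
      · intro h1
        exact hn.conj_mem _ h1 c
      · intro h1
        have h2 := hn.conj_mem _ h1 c⁻¹
        have e : c⁻¹ * (c * t * c⁻¹) * c⁻¹⁻¹ = t := by group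
        rwa [e] at h2
    by_cases hz : ((x ^ (a : ℤ) : (S : Subgroup X)) : X) ∈ H
    · -- all involutions lie in `H`
      have hx : ∀ i : ℤ, ((x ^ i * y : (S : Subgroup X)) : X) ∈ H := fun i => (hall _ (hrefl i)).2 hz
      have hle : (S : Subgroup X) ≤ H := by
        intro s hs
        have hy0 := hx 0
        rcases h.hform ⟨s, hs⟩ with ⟨i, hi⟩ | ⟨i, hi⟩
        · have e : s = ((x ^ i * y : (S : Subgroup X)) : X) * ((x ^ (0 : ℤ) * y : (S : Subgroup X)) : X) := by
            have h1 := h.zpow_mul_y_mul_zpow_mul_y i 0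
            have h2 : ((x ^ i * y) * (x ^ (0 : ℤ) * y) : (S : Subgroup X)) = ⟨s, hs⟩ := by
              rw [h1, hi]
              simp
            exact (congrArg Subtype.val h2).symm
          rw [e]
          exact H.mul_mem (hx i) hy0
        · have e : s = ((x ^ i * y : (S : Subgroup X)) : X) := congrArg Subtype.val hi
          rw [e]
          exact hx i
      have h1 := Subgroup.index_dvd_of_le hle
      rw [hH] at h1
      exact S.not_dvd_index h1
    · -- all involutions lie outside `H`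
      have hy0 : ((x ^ (0 : ℤ) * y : (S : Subgroup X)) : X) ∉ H := fun h1 => hz ((hall _ (hrefl 0)).1 h1)
      have hy1 : ((x ^ ((a : ℤ) + 0) * y : (S : Subgroup X)) : X) ∉ H := fun h1 => hz ((hall _ (hrefl _)).1 h1)
      have h2 : ((x ^ (a : ℤ) : (S : Subgroup X)) : X) * ((x ^ (0 : ℤ) * y : (S : Subgroup X)) : X) ∈ H := by
        rw [Subgroup.mul_mem_iff_of_index_two hH]
        tauto
      have e : ((x ^ (a : ℤ) : (S : Subgroup X)) : X) * ((x ^ (0 : ℤ) * y : (S : Subgroup X)) : X) =
          ((x ^ ((a : ℤ) + 0) * y : (S : Subgroup X)) : X) := congrArg Subtype.val (h.zpow_mul_zpow_mul_y _ _)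
      rw [e] at h2
      exact hy1 h2
  · rintro z ⟨hz, hiso⟩
    obtain ⟨g, hg⟩ := isConj_iff.1 (hA z _ hz hzo)
    obtain ⟨g', hg'⟩ := isConj_iff.1 (hA z _ hz (hrefl 0))
    set z₀ := ((x ^ (a : ℤ) : (S : Subgroup X)) : X) with hz₀
    set y₀ := ((x ^ (0 : ℤ) * y : (S : Subgroup X)) : X) with hy₀
    have hcomm : y₀ * z₀ = z₀ * y₀ := congrArg Subtype.val (h.z_comm _)
    have h1 : Commute z ((g⁻¹ * g') * z * (g⁻¹ * g')⁻¹) := by
      have e : (g⁻¹ * g') * z * (g⁻¹ * g')⁻¹ = g⁻¹ * y₀ * g := by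
        rw [← hg']; group
      rw [e]
      have e2 : z = g⁻¹ * z₀ * g := by
        rw [← hg]; group
      show z * (g⁻¹ * y₀ * g) = (g⁻¹ * y₀ * g) * z
      rw [e2]
      calc g⁻¹ * z₀ * g * (g⁻¹ * y₀ * g) = g⁻¹ * (z₀ * y₀) * g := by group
        _ = g⁻¹ * (y₀ * z₀) * g := by rw [hcomm]
        _ = g⁻¹ * y₀ * g * (g⁻¹ * z₀ * g) := by group
    have h2 := hiso _ h1
    have e : (g⁻¹ * g') * z * (g⁻¹ * g')⁻¹ = g⁻¹ * y₀ * g := by
      rw [← hg']; group
    rw [e] at h2
    have h3 : y₀ = z₀ := by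
      rw [← hg, ← h2]
      group
    have h4 : x ^ (0 : ℤ) * y = x ^ (a : ℤ) := Subtype.ext h3
    exact h.hne _ _ h4

lemma index_two_of_frob {S : Sylow 2 X} {a k : ℕ} {x y : (S : Subgroup X)} (h : DH a x y) (hk : a = 2 ^ k)
    (hK : ∀ U : Subgroup X, IsKleinFour U → U ≤ S → ¬ 3 ∣ (Subgroup.centralizer (U : Set X)).relIndex (Subgroup.normalizer (U : Set X))) :
    ∃ H : Subgroup X, H.index = 2 := by
  have hF := h.frob_of hk (fun U hU hUS g hg hcop => by
    obtain ⟨j, hj⟩ := two_pow_of_not_three (klein_relIndex_dvd hU) (hK U hU hUS)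
    exact mem_centralizer_of_rel hj hg hcop)
  obtain ⟨N, hN, hc⟩ := Cfsg.Agent.Lib.Transfer.frobenius S hF
  exact exists_index_two_of_complement ⟨S, N, hN, hc⟩ ⟨_, by rw [Subgroup.orderOf_coe]; exact h.orderOf_y⟩

/-- `2` divides the index for a proper Klein four-subgroup. -/
lemma two_dvd_rel {S : Sylow 2 X} {m : ℕ} [NeZero m] (eS : (S : Subgroup X) ≃* DihedralGroup m) {T : Subgroup X} (hT : IsKleinFour T) (hTS : T ≤ S)
    (h4 : 4 < Nat.card S) : 2 ∣ (Subgroup.centralizer (T : Set X)).relIndex (Subgroup.normalizer (T : Set X)) := by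
  have hlt : T < (S : Subgroup X) := by
    refine lt_of_le_of_ne hTS ?_
    intro he
    have h1 := hT.card_four
    rw [he] at h1
    have h2 : Nat.card S = 4 := h1
    omega
  have h1 := Cfsg.Agent.Lib.Techniques.lt_inf_normalizer S.isPGroup' hlt
  obtain ⟨g, hg, hgT⟩ := SetLike.exists_of_lt h1
  obtain ⟨k, hk⟩ := two_element_of_mem (P := S) hg.1
  refine klein_two_dvd hT hg.2 hk ?_
  intro hgc
  apply hgT
  have e1 : T.subgroupOf (S : Subgroup X) ≃* T := Subgroup.subgroupOfEquivOfLe hTS
  have hK : IsKleinFour (T.subgroupOf (S : Subgroup X)) :=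
    IsKleinFour.mk (by rw [Nat.card_congr e1.toEquiv]; exact hT.card_four)
      (by rw [Monoid.exponent_eq_of_mulEquiv e1]; exact hT.exponent_two)
  have h3 := klein_centralizer_of_mulEquiv eS (dihedral_klein_centralizer) _ hK
  have h4 : (⟨g, hg.1⟩ : (S : Subgroup X)) ∈ Subgroup.centralizer (((T.subgroupOf (S : Subgroup X)) : Subgroup _) : Set (S : Subgroup X)) := by
    rw [Subgroup.mem_centralizer_iff]
    intro t ht
    apply Subtype.ext
    exact (Subgroup.mem_centralizer_iff.1 hgc) _ ht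
  rw [h3] at h4
  exact h4

lemma index_two_of_class {S : Sylow 2 X} {a k : ℕ} {x y : (S : Subgroup X)} (h : DH a x y) (hk : a = 2 ^ k) (ε : ℤ)
    (hK : ∀ U : Subgroup X, IsKleinFour U → U ≤ S → 3 ∣ (Subgroup.centralizer (U : Set X)).relIndex (Subgroup.normalizer (U : Set X)) → U ≤ h.M' ε) :
    ∃ H : Subgroup X, H.index = 2 := by
  have hgood : ∀ T : Subgroup X, T ≤ S → ∀ g : X, conjS g T ≤ S → GoodM (h.M' ε) (T : Set X) g := by
    refine h.family_dh hk (goodM_groupoid _) (goodM_centralizer _) (h.goodM_P ε) ?_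
    intro U hU hUS h3 g hg t ht
    have h1 : g * t * g⁻¹ ∈ U := (Subgroup.mem_normalizer_iff.1 hg t).1 ht
    exact hK U hU hUS h3 (U.mul_mem (U.inv_mem ht) h1)
  obtain ⟨K, -, -, hK2⟩ := h.exists_K ε hgood
  exact ⟨K, hK2⟩

lemma odd_rel_of_comm {S : Sylow 2 X} {U : Subgroup X} (hS : (S : Subgroup X) ≤ Subgroup.centralizer (U : Set X)) :
    ¬ 2 ∣ (Subgroup.centralizer (U : Set X)).relIndex (Subgroup.normalizer (U : Set X)) := by
  intro h2
  have hCN : Subgroup.centralizer (U : Set X) ≤ Subgroup.normalizer (U : Set X) := Subgroup.centralizer_le_normalizer _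
  have h1 : (Subgroup.centralizer (U : Set X)).relIndex (Subgroup.normalizer (U : Set X)) ∣ (S : Subgroup X).relIndex (Subgroup.normalizer (U : Set X)) :=
    Subgroup.relIndex_dvd_of_le_left _ hS
  have h3 : (S : Subgroup X).relIndex (Subgroup.normalizer (U : Set X)) ∣ (S : Subgroup X).index := by
    have := Subgroup.relIndex_mul_index (hS.trans hCN)
    exact Dvd.intro _ this
  exact S.not_dvd_index (h2.trans (h1.trans h3))

end


/-- Let X be a finite group whose Sylow 2-subgroup S is dihedral of order 2m ≥ 4. Then X has no subgroup of index 2 and no isolated involution if and only if either all involutions of X are conjugate, or for every Klein four-subgroup U ≤ S the index |N_X(U) : C_X(U)| equals 3 when |S| = 4 and equals 6 when |S| > 4. -/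
theorem result {X : Type*} [Group X] [Finite X] (S : Sylow 2 X) (m : ℕ) (hm : 2 ≤ m) (eS : (S : Subgroup X) ≃* DihedralGroup m) : ((∀ H : Subgroup X, H.index ≠ 2) ∧ (∀ z : X, ¬ Cfsg.IsIsolatedInvolution z)) ↔ ((∀ a b : X, orderOf a = 2 → orderOf b = 2 → IsConj a b) ∨ (∀ U : Subgroup X, U ≤ S → IsKleinFour U → (Subgroup.centralizer (U : Set X)).relIndex (Subgroup.normalizer (U : Set X)) = (if Nat.card S = 4 then 3 else 6))) := by
  obtain ⟨k, x, y, h, hmk⟩ := exists_DH S.isPGroup' hm eS
  haveI : NeZero m := ⟨by omega⟩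
  have hcS := h.hc
  constructor
  · rintro ⟨hno, -⟩
    right
    intro U hUS hU
    by_cases h4 : Nat.card S = 4
    · rw [if_pos h4]
      have hk0 : k = 0 := by
        by_contra h0
        have h1 : 2 ≤ 2 ^ k := by
          calc 2 = 2 ^ 1 := rfl
            _ ≤ 2 ^ k := Nat.pow_le_pow_right (by norm_num) (by omega)
        omega
      have hK : ∀ U' : Subgroup X, IsKleinFour U' → U' ≤ S → U' = S := by
        intro U' hU' hU'S
        apply Subgroup.eq_of_le_of_card_ge hU'S
        rw [hU'.card_four]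
        exact h4.le
      by_cases h3 : 3 ∣ (Subgroup.centralizer (U : Set X)).relIndex (Subgroup.normalizer (U : Set X))
      · have hd := klein_relIndex_dvd hU
        have hodd : ¬ 2 ∣ (Subgroup.centralizer (U : Set X)).relIndex (Subgroup.normalizer (U : Set X)) := by
          apply odd_rel_of_comm (S := S)
          rw [← hK U hU hUS]
          intro t ht
          rw [Subgroup.mem_centralizer_iff]
          intro u hu
          exact klein_comm_of_mem hU hu ht
        have hle := Nat.le_of_dvd (by norm_num) hd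
        revert h3 hd hodd hle
        generalize (Subgroup.centralizer (U : Set X)).relIndex (Subgroup.normalizer (U : Set X)) = n
        intro h3 hd hodd hle
        interval_cases n <;> omega
      · exfalso
        obtain ⟨H, hH⟩ := index_two_of_frob h rfl (fun U' hU' hU'S => by
          rw [hK U' hU' hU'S, ← hK U hU hUS]
          exact h3)
        exact hno H hH
    · rw [if_neg h4]
      have hgt : 4 < Nat.card S := by
        rw [hcS] at h4 ⊢
        have := Nat.one_le_two_pow (n := k)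
        omega
      have hk : 1 ≤ k := by
        by_contra h0
        have hk0 : k = 0 := by omega
        rw [hk0, pow_zero] at hcS
        omega
      have ha : (2 : ℤ) ∣ ((2 ^ k : ℕ) : ℤ) := by
        obtain ⟨j, rfl⟩ : ∃ j, k = j + 1 := ⟨k - 1, by omega⟩
        exact ⟨2 ^ j, by push_cast; ring⟩
      obtain ⟨T₀, hT₀, hT₀P, hT₀M⟩ := h.exists_klein_M ha 0
      obtain ⟨T₁, hT₁, hT₁P, hT₁M⟩ := h.exists_klein_M ha 1
      have hrel : ∀ U' : Subgroup X, IsKleinFour U' → U' ≤ S →
          (U' ≤ h.M' 0 ∧ (Subgroup.centralizer (U' : Set X)).relIndex (Subgroup.normalizer (U' : Set X)) = (Subgroup.centralizer (T₀ : Set X)).relIndex (Subgroup.normalizer (T₀ : Set X))) ∨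
          (U' ≤ h.M' 1 ∧ (Subgroup.centralizer (U' : Set X)).relIndex (Subgroup.normalizer (U' : Set X)) = (Subgroup.centralizer (T₁ : Set X)).relIndex (Subgroup.normalizer (T₁ : Set X))) := by
        intro U' hU' hU'S
        rcases h.klein_cases ha hU' hU'S with h1 | h1
        · exact Or.inl ⟨h1, h.rel_eq hU' hU'S hT₀ hT₀P h1 hT₀M⟩
        · exact Or.inr ⟨h1, h.rel_eq hU' hU'S hT₁ hT₁P h1 hT₁M⟩
      by_cases hp0 : 3 ∣ (Subgroup.centralizer (T₀ : Set X)).relIndex (Subgroup.normalizer (T₀ : Set X)) <;>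
        by_cases hp1 : 3 ∣ (Subgroup.centralizer (T₁ : Set X)).relIndex (Subgroup.normalizer (T₁ : Set X))
      · have h3 : 3 ∣ (Subgroup.centralizer (U : Set X)).relIndex (Subgroup.normalizer (U : Set X)) := by
          rcases hrel U hU hUS with ⟨-, h1⟩ | ⟨-, h1⟩
          · rw [h1]; exact hp0
          · rw [h1]; exact hp1
        rcases eq_two_or_six (klein_relIndex_dvd hU) (two_dvd_rel eS hU hUS hgt) with h1 | h1
        · rw [h1] at h3
          omega
        · exact h1
      · exfalso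
        obtain ⟨H, hH⟩ := index_two_of_class h rfl 0 (fun U' hU' hU'S h3 => by
          rcases hrel U' hU' hU'S with ⟨h1, -⟩ | ⟨-, h1⟩
          · exact h1
          · rw [h1] at h3
            exact absurd h3 hp1)
        exact hno H hH
      · exfalso
        obtain ⟨H, hH⟩ := index_two_of_class h rfl 1 (fun U' hU' hU'S h3 => by
          rcases hrel U' hU' hU'S with ⟨-, h1⟩ | ⟨h1, -⟩
          · rw [h1] at h3
            exact absurd h3 hp0
          · exact h1)
        exact hno H hH
      · exfalso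
        obtain ⟨H, hH⟩ := index_two_of_frob h rfl (fun U' hU' hU'S h3 => by
          rcases hrel U' hU' hU'S with ⟨-, h1⟩ | ⟨-, h1⟩
          · rw [h1] at h3
            exact hp0 h3
          · rw [h1] at h3
            exact hp1 h3)
        exact hno H hH
  · rintro (hA | hB)
    · exact left_of_all h hA
    · apply left_of_all h
      have hB' : ∀ U : Subgroup X, U ≤ S → IsKleinFour U → 3 ∣ (Subgroup.centralizer (U : Set X)).relIndex (Subgroup.normalizer (U : Set X)) := by
        intro U hUS hU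
        rw [hB U hUS hU]
        split_ifs <;> omega
      intro a b ha hb
      exact (all_conj h hB' a ha).trans (all_conj h hB' b hb).symm

end Cfsg.Agent.S1255
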