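import Cfsg.Statements.S1307
import Mathlib
import Cfsg.Agent.Lib.FStar.Basic
import Cfsg.Agent.Lib.ZStar.Center
import Cfsg.Agent.Lib.Perm.RegIdx
import Cfsg.Agent.S0016
import Cfsg.Agent.Lib.Core.Basic
import Cfsg.Agent.Lib.OddLocal.Omega

set_option autoImplicit false
open Cfsg

namespace Cfsg.Agent.S1307

open Subgroup in
theorem eq_of_commute_order_two {Y : Type*} [Group Y] [Finite Y] (hrk : PRankLE 2 1 Y) {a z : Y}
    (ha : orderOf a = 2) (hz : orderOf z = 2) (hc : a * z = z * a) : a = z := by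
  have hE : IsElementaryAbelian 2 (zpowers z) := by
    refine ⟨⟨⟨fun x y => ?_⟩⟩, ?_⟩
    · obtain ⟨m, hm⟩ := Subgroup.mem_zpowers_iff.mp x.2
      obtain ⟨n, hn⟩ := Subgroup.mem_zpowers_iff.mp y.2
      apply Subtype.ext
      show (x : Y) * y = y * x
      rw [← hm, ← hn, ← zpow_add, ← zpow_add, add_comm]
    · intro w hw
      obtain ⟨m, rfl⟩ := Subgroup.mem_zpowers_iff.mp hw
      rw [← zpow_natCast, zpow_comm, zpow_natCast, ← hz, pow_orderOf_eq_one, one_zpow]
  have hE2 := Cfsg.Agent.Lib.OddLocal.isElementaryAbelian_sup_zpowers hE (x := a) (by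
    rw [mem_centralizer_iff]
    intro y hy
    obtain ⟨m, rfl⟩ := Subgroup.mem_zpowers_iff.mp hy
    have h1 : Commute z a := hc.symm
    exact (h1.zpow_left m).eq) (by rw [← ha]; exact pow_orderOf_eq_one a)
  have hcard := hrk _ hE2.1 hE2.2
  have h1 : zpowers z = zpowers z ⊔ zpowers a := by
    apply Subgroup.eq_of_le_of_card_ge le_sup_left
    rw [Nat.card_zpowers, hz]
    simpa using hcard
  have h2 : a ∈ zpowers z := by
    rw [h1]
    exact Subgroup.mem_sup_right (mem_zpowers a)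
  obtain ⟨k, hk⟩ := Subgroup.mem_zpowers_iff.mp h2
  rw [← zpow_mod_orderOf, hz] at hk
  rcases Int.emod_two_eq_zero_or_one k with h | h
  · rw [show ((2 : ℕ) : ℤ) = 2 from rfl, h, zpow_zero] at hk
    rw [← hk, orderOf_one] at ha
    omega
  · rw [show ((2 : ℕ) : ℤ) = 2 from rfl, h, zpow_one] at hk
    exact hk.symm

open Subgroup in
/-- The subgroups of order two of a Sylow 2-subgroup, in a group of 2-rank one. -/
theorem unique_order_two {Y : Type*} [Group Y] [Finite Y] (hrk : PRankLE 2 1 Y) (S : Sylow 2 Y) :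
    ∀ H K : Subgroup (S : Subgroup Y), Nat.card H = 2 → Nat.card K = 2 → H = K := by
  classical
  haveI : Fact (Nat.Prime 2) := ⟨Nat.prime_two⟩
  intro H K hH hK
  have hSne : Nontrivial (S : Subgroup Y) := by
    have h1 : 1 < Nat.card H := by omega
    have h2 : Nontrivial H := Finite.one_lt_card_iff_nontrivial.mp h1
    obtain ⟨a, b, hab⟩ := h2
    exact ⟨(a : (S : Subgroup Y)), b, fun h => hab (Subtype.ext h)⟩
  have hZ : Nontrivial (center (S : Subgroup Y)) := S.isPGroup'.center_nontrivial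
  have hd : 2 ∣ Nat.card (center (S : Subgroup Y)) := by
    obtain ⟨n, hn⟩ := IsPGroup.iff_card.mp (IsPGroup.to_subgroup S.isPGroup' (center (S : Subgroup Y)))
    rw [hn]
    have h3 : 1 < Nat.card (center (S : Subgroup Y)) := Finite.one_lt_card_iff_nontrivial.mpr hZ
    rw [hn] at h3
    have h4 : n ≠ 0 := by
      rintro rfl
      simp at h3
    exact dvd_pow_self 2 h4
  obtain ⟨z, hz⟩ := exists_prime_orderOf_dvd_card' (G := center (S : Subgroup Y)) 2 hd
  have key : ∀ H : Subgroup (S : Subgroup Y), Nat.card H = 2 → H = zpowers ((z : center (S : Subgroup Y)) : (S : Subgroup Y)) := by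
    intro H hH
    obtain ⟨a, ha⟩ := exists_prime_orderOf_dvd_card' (G := H) 2 (by rw [hH])
    have hHa : H = zpowers (a : (S : Subgroup Y)) := by
      symm
      apply Subgroup.eq_of_le_of_card_ge ((Subgroup.zpowers_le).mpr a.2)
      rw [hH, Nat.card_zpowers, Subgroup.orderOf_coe, ha]
    have h1 : ((a : (S : Subgroup Y)) : Y) = (((z : center (S : Subgroup Y)) : (S : Subgroup Y)) : Y) := by
      apply eq_of_commute_order_two hrk
      · rw [Subgroup.orderOf_coe, Subgroup.orderOf_coe, ha]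
      · rw [Subgroup.orderOf_coe, Subgroup.orderOf_coe, hz]
      · have := Subgroup.mem_center_iff.mp z.2 (a : (S : Subgroup Y))
        exact congrArg Subtype.val this
    have h2 : (a : (S : Subgroup Y)) = ((z : center (S : Subgroup Y)) : (S : Subgroup Y)) := Subtype.ext h1
    rw [hHa, h2]
  rw [key H hH, key K hK]

open Subgroup in
/-- In a perfect group of 2-rank one and even order Sylow 2-subgroups are generalized quaternion. -/
theorem quaternion_of_rank_one {Y : Type*} [Group Y] [Finite Y] (hperf : commutator Y = ⊤)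
    (heven : 2 ∣ Nat.card Y) (hrk : PRankLE 2 1 Y) (S : Sylow 2 Y) :
    ∃ n : ℕ, Nonempty ((S : Subgroup Y) ≃* QuaternionGroup (2 ^ (n + 1))) := by
  classical
  haveI : Fact (Nat.Prime 2) := ⟨Nat.prime_two⟩
  -- not cyclic
  have hnc : ¬ IsCyclic (S : Subgroup Y) := by
    intro hc
    obtain ⟨N, hN⟩ := Cfsg.Agent.Lib.Perm.RegIdx.index_two_of_sylow_cyclic heven S hc
    haveI hNn : N.Normal := Subgroup.normal_of_index_eq_two hN
    have h1 : commutator Y ≤ N := by
      rw [commutator_def, Subgroup.commutator_le]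
      intro a _ b _
      haveI : Fact (Nat.card (Y ⧸ N)).Prime := ⟨by
        rw [← Subgroup.index_eq_card, hN]; exact Nat.prime_two⟩
      haveI : IsCyclic (Y ⧸ N) := isCyclic_of_prime_card rfl
      letI := IsCyclic.commGroup (α := Y ⧸ N)
      rw [← QuotientGroup.eq_one_iff, commutatorElement_def, QuotientGroup.mk_mul, QuotientGroup.mk_mul, QuotientGroup.mk_mul,
        QuotientGroup.mk_inv, QuotientGroup.mk_inv]
      exact (by
        have h3 : ((a : Y ⧸ N) * (b : Y ⧸ N)) = (b : Y ⧸ N) * (a : Y ⧸ N) := mul_comm _ _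
        rw [h3]
        group)
    rw [hperf, top_le_iff] at h1
    rw [h1, Subgroup.index_top] at hN
    omega
  rcases Cfsg.Agent.S0016.result 2 S.isPGroup' (unique_order_two hrk S) with h | ⟨-, n, ⟨e⟩⟩
  · exact absurd h hnc
  · rcases n with _ | n
    · exfalso
      apply hnc
      haveI := QuaternionGroup.quaternionGroup_one_isCyclic
      exact isCyclic_of_surjective e.symm e.symm.surjective
    · exact ⟨n, ⟨e⟩⟩

open Subgroup Cfsg.Agent.Lib.FStar Cfsg.Agent.Lib.Core in
/-- A central involution in a quasisimple group of even order and 2-rank one. -/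
theorem exists_central_involution {Y : Type*} [Group Y] [Finite Y] (hq : IsQuasisimple Y)
    (heven : 2 ∣ Nat.card Y) (hrk : PRankLE 2 1 Y) :
    ∃ t ∈ center Y, orderOf t = 2 ∧ ∃ S : Sylow 2 Y, t ∈ (S : Subgroup Y) ∧
      ∃ n : ℕ, Nonempty ((S : Subgroup Y) ≃* QuaternionGroup (2 ^ (n + 1))) := by
  classical
  haveI : Fact (Nat.Prime 2) := ⟨Nat.prime_two⟩
  have hperf := qs_commutator hq
  obtain ⟨S⟩ : Nonempty (Sylow 2 Y) := inferInstance
  obtain ⟨n, ⟨e⟩⟩ := quaternion_of_rank_one hperf heven hrk S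
  -- `O(Y)` is central
  have hOc : pPrimeCore 2 Y ≤ center Y := by
    rcases qs_normal_eq_top_or_le_center hq (pPrimeCore 2 Y) with h | h
    · exfalso
      have h1 := pPrimeCore_coprime 2 Y
      rw [h, Subgroup.card_top] at h1
      have h2 : 2 ∣ Nat.gcd (Nat.card Y) 2 := Nat.dvd_gcd heven dvd_rfl
      rw [h1] at h2
      omega
    · exact h
  set π := QuotientGroup.mk' (pPrimeCore 2 Y) with hπ
  have hπs : Function.Surjective π := QuotientGroup.mk'_surjective _
  have hinj : Function.Injective (π.subgroupMap (S : Subgroup Y)) := by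
    rw [injective_iff_map_eq_one]
    intro x hx
    have h1 : π (x : Y) = 1 := congrArg Subtype.val hx
    have h2 : (x : Y) ∈ pPrimeCore 2 Y := (QuotientGroup.eq_one_iff _).mp h1
    apply Subtype.ext
    have h3 := orderOf_dvd_natCard (⟨x, h2⟩ : pPrimeCore 2 Y)
    rw [Subgroup.orderOf_mk] at h3
    have h4 := orderOf_dvd_natCard x
    rw [Subgroup.orderOf_coe] at h3
    obtain ⟨k, hk⟩ := IsPGroup.iff_card.mp S.isPGroup'
    rw [hk] at h4
    have h5 : (Nat.card (pPrimeCore 2 Y)).Coprime (2 ^ k) := Nat.Coprime.pow_right k (pPrimeCore_coprime 2 Y)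
    have h6 := Nat.eq_one_of_dvd_coprimes h5 h3 h4
    have h7 := orderOf_eq_one_iff.mp h6
    exact congrArg Subtype.val h7
  let e₁ : (S : Subgroup Y) ≃* ((S.mapSurjective hπs : Sylow 2 (Y ⧸ pPrimeCore 2 Y)) : Subgroup (Y ⧸ pPrimeCore 2 Y)) :=
    MulEquiv.ofBijective (π.subgroupMap (S : Subgroup Y)) ⟨hinj, π.subgroupMap_surjective _⟩
  have hk0 : 2 ^ n ≠ 0 := by positivity
  have hcard := Cfsg.Agent.Lib.ZStar.center_of_quaternionGroup (S.mapSurjective hπs) hk0
    ((e₁.symm.trans e).trans (by rw [pow_succ']))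
    (fun N hN hodd => by
      have h1 : (Nat.card N).Coprime 2 := Nat.coprime_two_right.mpr hodd
      have h2 := le_pPrimeCore hN h1
      rw [pPrimeCore_quotient_eq_bot] at h2
      exact le_bot_iff.mp h2)
  -- the element of the centre
  obtain ⟨c, hc⟩ := exists_prime_orderOf_dvd_card' (G := center (Y ⧸ pPrimeCore 2 Y)) 2 (by rw [hcard])
  have hc2 : orderOf (c : Y ⧸ pPrimeCore 2 Y) = 2 := by rwa [Subgroup.orderOf_coe]
  have hcS : (c : Y ⧸ pPrimeCore 2 Y) ∈ ((S.mapSurjective hπs : Sylow 2 (Y ⧸ pPrimeCore 2 Y)) : Subgroup (Y ⧸ pPrimeCore 2 Y)) := by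
    have h1 : zpowers (c : Y ⧸ pPrimeCore 2 Y) ≤ pCore 2 (Y ⧸ pPrimeCore 2 Y) := by
      apply le_pCore
      · constructor
        intro x hx g
        obtain ⟨m, rfl⟩ := Subgroup.mem_zpowers_iff.mp hx
        have h3 : Commute g ((c : Y ⧸ pPrimeCore 2 Y) ^ m) :=
          ((show Commute g (c : Y ⧸ pPrimeCore 2 Y) from Subgroup.mem_center_iff.mp c.2 g).zpow_right m)
        rw [h3.eq, mul_inv_cancel_right]
        exact zpow_mem (mem_zpowers _) m
      · exact IsPGroup.iff_card.mpr ⟨1, by rw [Nat.card_zpowers, hc2, pow_one]⟩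
    exact pCore_le_sylow _ (h1 (mem_zpowers _))
  rw [Sylow.coe_mapSurjective] at hcS
  obtain ⟨t', ht'S, ht'c⟩ := hcS
  have ht'Z : t' ∈ center Y := by
    have h1 := comap_center_of_surjective hperf π hπs (by
      rw [hπ, QuotientGroup.ker_mk']
      exact hOc)
    rw [← h1, mem_comap]
    change π t' ∈ _
    rw [show π t' = (c : Y ⧸ pPrimeCore 2 Y) from ht'c]
    exact c.2
  have ht'1 : t' ≠ 1 := by
    rintro rfl
    rw [map_one] at ht'c
    rw [← ht'c, orderOf_one] at hc2
    omega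
  -- take a power of order 2
  have hp : IsPGroup 2 (zpowers t') := S.isPGroup'.to_le (Subgroup.zpowers_le.mpr ht'S)
  obtain ⟨k, hk⟩ := IsPGroup.iff_card.mp hp
  rw [Nat.card_zpowers] at hk
  have hk0' : k ≠ 0 := by
    rintro rfl
    rw [pow_zero] at hk
    exact ht'1 (orderOf_eq_one_iff.mp hk)
  obtain ⟨j, rfl⟩ := Nat.exists_eq_succ_of_ne_zero hk0'
  refine ⟨t' ^ 2 ^ j, Subgroup.pow_mem _ ht'Z _, ?_, S, Subgroup.pow_mem _ ht'S _, n, ⟨e⟩⟩
  rw [orderOf_pow_of_dvd (pow_ne_zero _ two_ne_zero) (by rw [hk]; exact pow_dvd_pow 2 (Nat.le_succ j)), hk]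
  rw [pow_succ, Nat.mul_div_cancel_left _ (by positivity)]

/-- Let G be finite, x an involution and L ≤ C_G(x) a component of C_G(x) of even order and 2-rank 1, such that L is a component of C_G(y) for every involution y ∈ C_G(L). Then some involution of L is a classical involution of G. -/
theorem result {G : Type*} [Group G] [Finite G] (x : G) (hx : orderOf x = 2) (L : Subgroup G) (hLx : L ≤ Subgroup.centralizer ({x} : Set G)) (hL : Cfsg.IsComponent (L.subgroupOf (Subgroup.centralizer ({x} : Set G)))) (heven : Even (Nat.card ↥L)) (hrk : Cfsg.PRankLE 2 1 ↥L) (hne : ∀ y : G, orderOf y = 2 → y ∈ Subgroup.centralizer (L : Set G) → L ≤ Subgroup.centralizer ({y} : Set G) ∧ Cfsg.IsComponent (L.subgroupOf (Subgroup.centralizer ({y} : Set G)))) : ∃ t ∈ L, Cfsg.IsClassicalInvolution t := by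
  obtain ⟨t, htZ, hto, S, htS, n, he⟩ := exists_central_involution
    ((Cfsg.Agent.Lib.FStar.qs_iff_of_mulEquiv (Subgroup.subgroupOfEquivOfLe hLx)).mp hL.2)
    (even_iff_two_dvd.mp heven) hrk
  have htC : (t : G) ∈ Subgroup.centralizer (L : Set G) := by
    rw [Subgroup.mem_centralizer_iff]
    intro l hl
    have := Subgroup.mem_center_iff.mp htZ ⟨l, hl⟩
    exact congrArg Subtype.val this
  have hto' : orderOf (t : G) = 2 := by rwa [Subgroup.orderOf_coe]
  obtain ⟨h1, h2⟩ := hne t hto' htC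
  exact ⟨t, t.2, hto', L, h1, t.2, h2.1, S, n, he⟩

end Cfsg.Agent.S1307
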