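import Cfsg.Statements.S1892
import Mathlib
import Cfsg.Agent.Lib.Techniques.QuadChief
import Cfsg.Agent.Lib.Techniques.Constrained
import Cfsg.Agent.Lib.PSolv.Basic

set_option autoImplicit false
open Cfsg

namespace Cfsg.Agent.S1892

open Cfsg.Agent.Lib.Techniques
open scoped commutatorElement


/-- Let S be a finite p-solvable group with no nontrivial normal subgroup of order prime to p, A a p-subgroup of S, and Q a nontrivial A-invariant subgroup of order prime to p with [A, Q] = Q. Then the commutator [O_p(S), A, Q] is nontrivial. -/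
theorem result {S : Type*} [Group S] [Finite S] {p : ℕ} [Fact p.Prime]
    (hS : Cfsg.IsPSolvable p S) (hred : Cfsg.pPrimeCore p S = ⊥)
    (A Q : Subgroup S) (hA : IsPGroup p A) (hQ : ¬ p ∣ Nat.card Q) (hQ1 : Q ≠ ⊥)
    (hinv : ∀ a ∈ A, ∀ x ∈ Q, a * x * a⁻¹ ∈ Q) (hAQ : ⁅A, Q⁆ = Q) :
    ⁅⁅Cfsg.pCore p S, A⁆, Q⁆ ≠ ⊥ := by
  classical
  intro hbot
  set P := Cfsg.pCore p S with hP
  haveI hPn : P.Normal := Cfsg.Agent.Lib.Core.pCore_normal p S
  have hPp : IsPGroup p P := Cfsg.Agent.Lib.Core.pCore_isPGroup p S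
  have hCP : Subgroup.centralizer (P : Set S) ≤ P :=
    Cfsg.Agent.Lib.PSolv.centralizer_pCore_le (Cfsg.Agent.Lib.PSolv.pStep_of_isPSolvable Fact.out hS) hred
  have hQc : (Nat.card Q).Coprime p :=
    ((Nat.Prime.coprime_iff_not_dvd Fact.out).2 hQ).symm
  set B : Subgroup S := ⁅P, A⁆ with hB
  have hBP : B ≤ P := by
    rw [hB, Subgroup.commutator_le]
    intro u hu a _
    have e : ⁅u, a⁆ = u * (a * u⁻¹ * a⁻¹) := by
      simp only [commutatorElement_def]
      group
    rw [e]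
    exact mul_mem hu (hPn.conj_mem _ (inv_mem hu) a)
  have hQB : ∀ q ∈ Q, ∀ b ∈ B, q * b = b * q := by
    intro q hq b hb
    have h1 : ⁅b, q⁆ = 1 := by
      have : ⁅b, q⁆ ∈ ⁅B, Q⁆ := Subgroup.commutator_mem_commutator hb hq
      rw [hbot] at this
      simpa using this
    have h2 : b * q * b⁻¹ * q⁻¹ = 1 := by simpa [commutatorElement_def] using h1
    have h3 : b * q * b⁻¹ = q := mul_inv_eq_one.1 h2
    calc q * b = b * q * b⁻¹ * b := by rw [h3]
      _ = b * q := by group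
  have hAB : ∀ a ∈ A, ∀ b ∈ B, a * b * a⁻¹ ∈ B := by
    intro a ha b hb
    have hbP := hBP hb
    have e : a * b * a⁻¹ = ⁅a, b⁆ * b := by
      simp only [commutatorElement_def]
      group
    rw [e]
    refine mul_mem ?_ hb
    have e2 : ⁅a, b⁆ = ⁅b, a⁆⁻¹ := by
      simp only [commutatorElement_def]
      group
    rw [e2]
    exact inv_mem (Subgroup.commutator_mem_commutator hbP ha)
  have hAu : ∀ a ∈ A, ∀ u ∈ P, a * u * a⁻¹ * u⁻¹ ∈ B := by
    intro a ha u hu
    have e2 : a * u * a⁻¹ * u⁻¹ = ⁅u, a⁆⁻¹ := by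
      simp only [commutatorElement_def]
      group
    rw [e2]
    exact inv_mem (Subgroup.commutator_mem_commutator hu ha)
  have hAu' : ∀ a ∈ A, ∀ u ∈ P, u⁻¹ * (a⁻¹ * u * a) ∈ B := by
    intro a ha u hu
    have e2 : u⁻¹ * (a⁻¹ * u * a) = ⁅u⁻¹, a⁻¹⁆ := by
      simp only [commutatorElement_def]
      group
    rw [e2]
    exact Subgroup.commutator_mem_commutator (inv_mem hu) (inv_mem ha)
  -- the commutators `[a, q]` centralize `P`
  have key : ∀ a ∈ A, ∀ q ∈ Q, ⁅a, q⁆ ∈ Subgroup.centralizer (P : Set S) := by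
    intro a ha q hq
    set y := ⁅a, q⁆ with hy
    have hyQ : y ∈ Q := by
      have e : y = (a * q * a⁻¹) * q⁻¹ := by
        simp only [hy, commutatorElement_def]
      rw [e]
      exact mul_mem (hinv a ha q hq) (inv_mem hq)
    have hyo : (orderOf y).Coprime p :=
      Nat.Coprime.coprime_dvd_left (Subgroup.orderOf_dvd_natCard Q hyQ) hQc
    refine Subgroup.mem_centralizer_iff.2 fun u hu => ?_
    -- `y u y⁻¹ ∈ u B`
    have hstep : u⁻¹ * (y * u * y⁻¹) ∈ B := by
      set u₁ := q⁻¹ * u * q with hu₁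
      have hu₁P : u₁ ∈ P := by
        have := hPn.conj_mem _ hu q⁻¹
        simpa [hu₁] using this
      set b₁ := u₁⁻¹ * (a⁻¹ * u₁ * a) with hb₁
      have hb₁B : b₁ ∈ B := hAu' a ha u₁ hu₁P
      have h1 : q * (a⁻¹ * u₁ * a) * q⁻¹ = u * b₁ := by
        have e : a⁻¹ * u₁ * a = u₁ * b₁ := by rw [hb₁]; group
        have hq1 : q * b₁ = b₁ * q := hQB q hq b₁ hb₁B
        rw [e]
        have hq2 : q * b₁ * q⁻¹ = b₁ := by rw [hq1]; group
        calc q * (u₁ * b₁) * q⁻¹ = (q * u₁ * q⁻¹) * (q * b₁ * q⁻¹) := by group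
          _ = u * b₁ := by rw [hq2, hu₁]; group
      have h2 : y * u * y⁻¹ = a * (u * b₁) * a⁻¹ := by
        rw [← h1, hy]
        simp only [commutatorElement_def]
        rw [hu₁]
        group
      have hab := hAB a ha b₁ hb₁B
      have h3 : u⁻¹ * (y * u * y⁻¹) = ⁅u⁻¹, a⁆ * (a * b₁ * a⁻¹) := by
        rw [h2]
        simp only [commutatorElement_def]
        group
      rw [h3]
      exact mul_mem (Subgroup.commutator_mem_commutator (inv_mem hu) ha) hab
    have ht : ⁅y, u⁻¹⁆ = (u⁻¹ * (y * u * y⁻¹))⁻¹ := by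
      simp only [commutatorElement_def]
      group
    have htB : ⁅y, u⁻¹⁆ ∈ B := by
      rw [ht]; exact inv_mem hstep
    have hyt := hQB y hyQ _ htB
    have htp : ∃ n : ℕ, ⁅y, u⁻¹⁆ ^ (p ^ n) = 1 := by
      obtain ⟨n, hn⟩ := hPp ⟨_, hBP htB⟩
      exact ⟨n, by simpa using congrArg Subtype.val hn⟩
    have h1 := comm_eq_one_of_coprime hyo htp hyt
    have h2 : y * u⁻¹ * y⁻¹ * (u⁻¹)⁻¹ = 1 := by simpa [commutatorElement_def] using h1
    have h3 : y * u⁻¹ * y⁻¹ = u⁻¹ := mul_inv_eq_one.1 h2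
    have h4 : y * u⁻¹ = u⁻¹ * y := by
      calc y * u⁻¹ = y * u⁻¹ * y⁻¹ * y := by group
        _ = u⁻¹ * y := by rw [h3]
    have h5 : u * y = y * u := by
      calc u * y = u * (y * u⁻¹) * u := by group
        _ = u * (u⁻¹ * y) * u := by rw [h4]
        _ = y * u := by group
    exact h5
  have hQC : Q ≤ Subgroup.centralizer (P : Set S) := by
    rw [← hAQ, Subgroup.commutator_le]
    intro a ha q hq
    exact key a ha q hq
  apply hQ1
  rw [eq_bot_iff]
  intro x hx
  rw [Subgroup.mem_bot]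
  exact eq_one_of_mem_isPGroup_of_mem_coprime hPp hQc (hCP (hQC hx)) hx

end Cfsg.Agent.S1892
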