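import Cfsg.Statements.S1894
import Mathlib
import Cfsg.Agent.Lib.Techniques.PGroupStep
import Cfsg.Prelude.Def_OddOrderLocal

set_option autoImplicit false
open Cfsg

namespace Cfsg.Agent.S1894

open scoped commutatorElement


/-- Let P be a finite p-group, A a normal subgroup of P and B an abelian subgroup of A that is normal in P. Then some subgroup C of A containing B is normal in P and is self-centralizing and normal in A (C ∈ SCN(A)). -/
theorem result {P : Type*} [Group P] [Finite P] {p : ℕ} [Fact p.Prime] (hP : IsPGroup p P)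
    (A : Subgroup P) [A.Normal] (B : Subgroup P) [B.Normal] (hBA : B ≤ A) (hB : IsMulCommutative B) :
    ∃ C : Subgroup P, C.Normal ∧ B ≤ C ∧ Cfsg.IsSCN A C := by
  let 𝒞 : Set (Subgroup P) := {C | C.Normal ∧ B ≤ C ∧ C ≤ A ∧ IsMulCommutative C}
  have h0 : B ∈ 𝒞 := ⟨inferInstance, le_rfl, hBA, hB⟩
  obtain ⟨C, -, hC⟩ := Set.Finite.exists_le_maximal (Set.toFinite 𝒞) h0
  obtain ⟨⟨hCn, hBC, hCA, hCc⟩, hmax⟩ := hC
  refine ⟨C, hCn, hBC, hCA, Subgroup.le_normalizer_of_normal, ?_⟩
  by_contra hne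
  have hCcomm : ∀ a ∈ C, ∀ b ∈ C, a * b = b * a := by
    intro a ha b hb
    have := hCc.is_comm.comm ⟨a, ha⟩ ⟨b, hb⟩
    simpa using congrArg Subtype.val this
  have hle : C ≤ A ⊓ Subgroup.centralizer (C : Set P) :=
    le_inf hCA (fun a ha => Subgroup.mem_centralizer_iff.2 (fun b hb => hCcomm b hb a ha))
  have hDn : (A ⊓ Subgroup.centralizer (C : Set P)).Normal := by
    haveI : (Subgroup.centralizer (C : Set P)).Normal := Subgroup.normal_centralizer
    infer_instance
  have hnot : ¬ (A ⊓ Subgroup.centralizer (C : Set P)) ≤ C := fun h => hne (le_antisymm h hle)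
  obtain ⟨x, hx, hxC, hxcom⟩ := Cfsg.Agent.Lib.Techniques.exists_mem_not_mem_commutator_mem_of_normal hP C _ hnot
  have hxA : x ∈ A := hx.1
  have hxcen : ∀ c ∈ C, c * x = x * c := fun c hc => Subgroup.mem_centralizer_iff.1 hx.2 c hc
  set E := C ⊔ Subgroup.zpowers x with hE
  have hmemE : ∀ u ∈ E, ∃ c ∈ C, ∃ k : ℤ, u = c * x ^ k := by
    intro u hu
    obtain ⟨c, hc, z, hz, rfl⟩ := Subgroup.mem_sup_of_normal_left.1 hu
    obtain ⟨k, rfl⟩ := Subgroup.mem_zpowers_iff.1 hz
    exact ⟨c, hc, k, rfl⟩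
  have hxE : x ∈ E := (le_sup_right : Subgroup.zpowers x ≤ E) (Subgroup.mem_zpowers x)
  have hconjx : ∀ g : P, g * x * g⁻¹ ∈ E := by
    intro g
    have h1 : ⁅x, g⁆ ∈ C := hxcom g
    have e : g * x * g⁻¹ = ⁅x, g⁆⁻¹ * x := by
      rw [commutatorElement_def]; group
    rw [e]
    exact E.mul_mem ((le_sup_left : C ≤ E) (C.inv_mem h1)) hxE
  have hEn : E.Normal := by
    constructor
    intro u hu g
    obtain ⟨c, hc, k, rfl⟩ := hmemE u hu
    have e : g * (c * x ^ k) * g⁻¹ = (g * c * g⁻¹) * (g * x * g⁻¹) ^ k := by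
      rw [conj_zpow]; group
    rw [e]
    exact E.mul_mem ((le_sup_left : C ≤ E) (hCn.conj_mem c hc g)) (E.zpow_mem (hconjx g) k)
  have hEc : IsMulCommutative E := by
    constructor
    constructor
    rintro ⟨u, hu⟩ ⟨v, hv⟩
    obtain ⟨c, hc, k, rfl⟩ := hmemE u hu
    obtain ⟨d, hd, l, rfl⟩ := hmemE v hv
    apply Subtype.ext
    show c * x ^ k * (d * x ^ l) = d * x ^ l * (c * x ^ k)
    have h1 : Commute c d := hCcomm c hc d hd
    have h2 : Commute c (x ^ l) := (show Commute c x from hxcen c hc).zpow_right l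
    have h3 : Commute (x ^ k) d := ((show Commute d x from hxcen d hd).zpow_right k).symm
    have h4 : Commute (x ^ k) (x ^ l) := (Commute.refl x).zpow_zpow k l
    exact ((h1.mul_right h2).mul_left (h3.mul_right h4)).eq
  have hEmem : E ∈ 𝒞 := ⟨hEn, hBC.trans le_sup_left, sup_le hCA ((Subgroup.zpowers_le).2 hxA), hEc⟩
  have := hmax hEmem le_sup_left
  exact hxC (this hxE)

end Cfsg.Agent.S1894
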