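import Cfsg.Statements.S1895
import Mathlib
import Cfsg.Agent.Lib.Techniques.RankTwo

set_option autoImplicit false
open Cfsg

namespace Cfsg.Agent.S1895

open Subgroup

/-- Let p be an odd prime and G a finite p-solvable group with no elementary abelian subgroup of order p³. Then every chief factor H/K of G (H, K normal in G with no normal subgroup of G strictly between them) whose order is a power of p has order p or p². -/
theorem result {G : Type*} [Group G] [Finite G] {p : ℕ} [Fact p.Prime] (hp : p ≠ 2)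
    (hG : Cfsg.IsPSolvable p G) (hr : Cfsg.PRankLE p 2 G)
    (H K : Subgroup G) [H.Normal] [K.Normal] (hKH : K < H) (hpow : ∃ n : ℕ, K.relIndex H = p ^ n)
    (hchief : ∀ L : Subgroup G, L.Normal → K ≤ L → L ≤ H → L = K ∨ L = H) :
    K.relIndex H = p ∨ K.relIndex H = p ^ 2 := by

  classical
  obtain ⟨S₁⟩ : Nonempty (Sylow p H) := inferInstance
  obtain ⟨S, hS⟩ : ∃ S : Subgroup G, S = (S₁ : Subgroup H).map H.subtype := ⟨_, rfl⟩
  have hSH : S ≤ H := by rw [hS]; exact map_subtype_le _
  have hSp : IsPGroup p S := by rw [hS]; exact (S₁.isPGroup').map H.subtype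
  obtain ⟨n, hn⟩ := hpow
  have hSK : S ⊔ K = H := by
    apply le_antisymm (sup_le hSH hKH.le)
    have h1 : (S ⊔ K).relIndex H ∣ p ^ n := by
      rw [← hn]
      exact Subgroup.relIndex_dvd_of_le_left H le_sup_right
    have h2 : (S₁ : Subgroup H) ≤ (S ⊔ K).subgroupOf H := by
      intro x hx
      rw [mem_subgroupOf]
      apply (le_sup_left : S ≤ S ⊔ K)
      rw [hS]
      exact ⟨x, hx, rfl⟩
    have h3 : ¬ p ∣ ((S ⊔ K).subgroupOf H).index := by
      intro hd
      exact S₁.not_dvd_index (hd.trans (Subgroup.index_dvd_of_le h2))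
    obtain ⟨j, -, hj⟩ := (Nat.dvd_prime_pow (Fact.out : p.Prime)).1 h1
    have hj0 : j = 0 := by
      by_contra hj0
      apply h3
      show p ∣ (S ⊔ K).relIndex H
      rw [hj]
      exact dvd_pow_self p hj0
    rw [hj0, pow_zero] at hj
    have h4 : ((S ⊔ K).subgroupOf H).index = 1 := hj
    rw [Subgroup.index_eq_one, Subgroup.subgroupOf_eq_top] at h4
    exact h4
  obtain ⟨N, hN⟩ : ∃ N : Subgroup G, N = Subgroup.normalizer (S : Set G) := ⟨_, rfl⟩
  have hSN : S ≤ N := by rw [hN]; exact Subgroup.le_normalizer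
  have htop : N ⊔ K = ⊤ := by
    have h1 := Sylow.normalizer_sup_eq_top S₁
    rw [← hS, ← hN] at h1
    rw [← h1, ← hSK, ← sup_assoc, sup_eq_left.2 hSN]
  obtain ⟨R, hR⟩ : ∃ R : Subgroup N, R = S.subgroupOf N := ⟨_, rfl⟩
  obtain ⟨R₀, hR₀⟩ : ∃ R₀ : Subgroup N, R₀ = K.subgroupOf N ⊓ R := ⟨_, rfl⟩
  have hRn : R.Normal := by
    rw [hR, hN]
    exact Subgroup.normal_in_normalizer
  have hR₀n : R₀.Normal := by
    rw [hR₀]
    haveI := hRn
    haveI : (K.subgroupOf N).Normal := Subgroup.Normal.subgroupOf inferInstance N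
    exact Subgroup.normal_inf_normal _ _
  have hRmem : ∀ x : N, x ∈ R ↔ (x : G) ∈ S := by
    intro x; rw [hR, mem_subgroupOf]
  have hR₀mem : ∀ x : N, x ∈ R₀ ↔ (x : G) ∈ K ∧ (x : G) ∈ S := by
    intro x; rw [hR₀, mem_inf, mem_subgroupOf, hRmem]
  have hRp : IsPGroup p R := by
    intro x
    obtain ⟨k, hk⟩ := hSp ⟨(x : N).1, (hRmem _).1 x.2⟩
    refine ⟨k, Subtype.ext (Subtype.ext ?_)⟩
    simpa using congrArg Subtype.val hk
  have hle : R₀ ≤ R := by rw [hR₀]; exact inf_le_right
  have hne : R₀ ≠ R := by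
    intro h
    apply hKH.ne
    apply le_antisymm hKH.le
    rw [← hSK]
    refine sup_le ?_ le_rfl
    intro x hx
    have h1 : (⟨x, hSN hx⟩ : N) ∈ R := (hRmem _).2 hx
    rw [← h] at h1
    exact ((hR₀mem _).1 h1).1
  have hrank : ∀ A : Subgroup N, A ≤ R → (∀ a ∈ A, ∀ b ∈ A, a * b = b * a) → (∀ a ∈ A, a ^ p = 1) →
      Nat.card A ≤ p ^ 2 := by
    intro A _ hc he
    have e : Nat.card (A.map N.subtype) = Nat.card A :=
      Subgroup.card_map_of_injective N.subtype_injective
    rw [← e]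
    apply hr
    · refine ⟨⟨fun a b => ?_⟩⟩
      obtain ⟨_, u, hu, rfl⟩ := a
      obtain ⟨_, v, hv, rfl⟩ := b
      apply Subtype.ext
      have h5 := congrArg (fun w : N => (w : G)) (hc u hu v hv)
      simpa using h5
    · rintro _ ⟨u, hu, rfl⟩
      exact congrArg Subtype.val (he u hu)
  have hirr : ∀ L : Subgroup N, L.Normal → L ≤ R → L ≤ R₀ ∨ L ⊔ R₀ = R := by
    intro L hLn hLR
    obtain ⟨U, hU⟩ : ∃ U : Subgroup G, U = L.map N.subtype ⊔ K := ⟨_, rfl⟩
    have hLS : L.map N.subtype ≤ S := by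
      rintro _ ⟨x, hx, rfl⟩
      exact (hRmem x).1 (hLR hx)
    have hconj : ∀ g : G, (∀ l ∈ L.map N.subtype, g * l * g⁻¹ ∈ U) → (∀ k ∈ K, g * k * g⁻¹ ∈ U) →
        ∀ u ∈ U, g * u * g⁻¹ ∈ U := by
      intro g h1 h2 u hu
      have h3 : U ≤ U.comap (MulAut.conj g).toMonoidHom := by
        conv_lhs => rw [hU]
        refine sup_le ?_ ?_
        · intro l hl
          exact h1 l hl
        · intro k hk
          exact h2 k hk
      exact h3 hu
    have hKU : K ≤ U := by rw [hU]; exact le_sup_right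
    have hnorm : ∀ g : G, (∀ u ∈ U, g * u * g⁻¹ ∈ U) → (∀ u ∈ U, g⁻¹ * u * g⁻¹⁻¹ ∈ U) →
        g ∈ Subgroup.normalizer (U : Set G) := by
      intro g h1 h2
      rw [Subgroup.mem_normalizer_iff]
      intro u
      constructor
      · exact h1 u
      · intro h3
        have := h2 _ h3
        simpa [mul_assoc] using this
    have hNP : N ≤ Subgroup.normalizer (U : Set G) := by
      have key : ∀ g ∈ N, ∀ u ∈ U, g * u * g⁻¹ ∈ U := by
        intro g hg
        apply hconj
        · rintro _ ⟨l, hl, rfl⟩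
          have h1 := hLn.conj_mem l hl ⟨g, hg⟩
          rw [hU]
          exact mem_sup_left ⟨_, h1, rfl⟩
        · intro k hk
          exact hKU ((inferInstance : K.Normal).conj_mem k hk g)
      intro g hg
      exact hnorm g (key g hg) (key g⁻¹ (inv_mem hg))
    have hKP : K ≤ Subgroup.normalizer (U : Set G) := by
      have key : ∀ g ∈ K, ∀ u ∈ U, g * u * g⁻¹ ∈ U := by
        intro g hg
        apply hconj
        · intro l hl
          have e : g * l * g⁻¹ = (g * (l * g⁻¹ * l⁻¹)) * l := by group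
          rw [e]
          refine mul_mem (hKU (mul_mem hg ((inferInstance : K.Normal).conj_mem _ (inv_mem hg) l))) ?_
          rw [hU]
          exact mem_sup_left hl
        · intro k hk
          exact hKU (mul_mem (mul_mem hg hk) (inv_mem hg))
      intro g hg
      exact hnorm g (key g hg) (key g⁻¹ (inv_mem hg))
    have hUn : U.Normal := by
      rw [← Subgroup.normalizer_eq_top_iff, eq_top_iff, ← htop]
      exact sup_le hNP hKP
    have hUH : U ≤ H := by
      rw [hU]
      exact sup_le (hLS.trans hSH) hKH.le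
    rcases hchief U hUn hKU hUH with h | h
    · left
      intro x hx
      have h1 : (x : G) ∈ U := by
        rw [hU]; exact mem_sup_left ⟨x, hx, rfl⟩
      rw [h] at h1
      exact (hR₀mem x).2 ⟨h1, (hRmem x).1 (hLR hx)⟩
    · right
      apply le_antisymm (sup_le hLR hle)
      intro r hr'
      have h1 : (r : G) ∈ U := by
        rw [h]; exact hSH ((hRmem r).1 hr')
      rw [hU] at h1
      obtain ⟨_, ⟨l, hl, rfl⟩, k, hk, hlk⟩ := Subgroup.mem_sup_of_normal_right.1 h1
      have hkS : k ∈ S := by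
        have e : k = ((l : N) : G)⁻¹ * (r : G) := by
          rw [← hlk]; simp
        rw [e]
        exact mul_mem (inv_mem ((hRmem l).1 (hLR hl))) ((hRmem r).1 hr')
      have e : r = l * ⟨k, hSN hkS⟩ := Subtype.ext (by simpa using hlk.symm)
      rw [e]
      exact mul_mem (mem_sup_left hl) (mem_sup_right ((hR₀mem _).2 ⟨hk, hkS⟩))
  have hmain := Cfsg.Agent.Lib.Techniques.RankTwo.index_le hp R R₀ hRn hR₀n hRp hle hne hrank hirr
  have hconv : R₀.relIndex R = K.relIndex H := by
    rw [hR₀, Subgroup.inf_relIndex_right, ← hSK, Subgroup.relIndex_sup_right, hR]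
    show (K.comap N.subtype).relIndex _ = _
    rw [Subgroup.relIndex_comap, Subgroup.map_subgroupOf_eq_of_le hSN]
  rw [hconv, hn] at hmain
  have hn2 : n ≤ 2 := (Nat.pow_le_pow_iff_right (Fact.out : p.Prime).one_lt).1 hmain
  have hn0 : n ≠ 0 := by
    rintro rfl
    rw [pow_zero, Subgroup.relIndex_eq_one] at hn
    exact absurd hn (not_le_of_gt hKH)
  rw [hn]
  interval_cases n
  · exact absurd rfl hn0
  · left; exact pow_one p
  · right; rfl


end Cfsg.Agent.S1895
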