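import Cfsg.Statements.S1897
import Cfsg.Agent.S0279
import Cfsg.Agent.Lib.Classical.RingCongr3
import Cfsg.Agent.Lib.SmallSimple.PSLSeven
import Cfsg.Agent.Lib.SmallSimple.Recognize

set_option autoImplicit false
open Cfsg

namespace Cfsg.Agent.S1897

open scoped Matrix

/-- The field with nine elements, coded `a + 3 b` for `a + b i`, `i ^ 2 = -1`. -/
def K9 : Type := Fin 9

instance : DecidableEq K9 := inferInstanceAs (DecidableEq (Fin 9))
instance : Fintype K9 := inferInstanceAs (Fintype (Fin 9))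

def cd (x : ℕ) : K9 := (⟨Nat.mod x 9, Nat.mod_lt _ (by norm_num)⟩ : Fin 9)

def add9 (a b : K9) : K9 :=
  cd (Nat.add (Nat.mod (Nat.add (Nat.mod a.1 3) (Nat.mod b.1 3)) 3)
    (Nat.mul 3 (Nat.mod (Nat.add (Nat.div a.1 3) (Nat.div b.1 3)) 3)))

def mulAux (a0 a1 b0 b1 : ℕ) : K9 :=
  cd (Nat.add (Nat.mod (Nat.add (Nat.mul a0 b0) (Nat.mul 2 (Nat.mul a1 b1))) 3)
    (Nat.mul 3 (Nat.mod (Nat.add (Nat.mul a0 b1) (Nat.mul a1 b0)) 3)))

def mul9 (a b : K9) : K9 := mulAux (Nat.mod a.1 3) (Nat.div a.1 3) (Nat.mod b.1 3) (Nat.div b.1 3)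

def neg9 (a : K9) : K9 :=
  cd (Nat.add (Nat.mod (Nat.mul 2 (Nat.mod a.1 3)) 3) (Nat.mul 3 (Nat.mod (Nat.mul 2 (Nat.div a.1 3)) 3)))

def invL : List ℕ := [0, 1, 2, 6, 5, 4, 3, 8, 7]

def inv9 (a : K9) : K9 := cd (invL.getD a.1 0)

def z9 : K9 := cd 0
def o9 : K9 := cd 1

theorem add_assoc9 : ∀ a b c : K9, add9 (add9 a b) c = add9 a (add9 b c) := by decide +kernel
theorem zero_add9 : ∀ a : K9, add9 z9 a = a := by decide +kernel
theorem add_zero9 : ∀ a : K9, add9 a z9 = a := by decide +kernel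
theorem neg_add9 : ∀ a : K9, add9 (neg9 a) a = z9 := by decide +kernel
theorem add_comm9 : ∀ a b : K9, add9 a b = add9 b a := by decide +kernel
theorem mul_assoc9 : ∀ a b c : K9, mul9 (mul9 a b) c = mul9 a (mul9 b c) := by decide +kernel
theorem one_mul9 : ∀ a : K9, mul9 o9 a = a := by decide +kernel
theorem mul_one9 : ∀ a : K9, mul9 a o9 = a := by decide +kernel
theorem zero_mul9 : ∀ a : K9, mul9 z9 a = z9 := by decide +kernel
theorem mul_zero9 : ∀ a : K9, mul9 a z9 = z9 := by decide +kernel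
theorem mul_comm9 : ∀ a b : K9, mul9 a b = mul9 b a := by decide +kernel
theorem distrib9 : ∀ a b c : K9, mul9 a (add9 b c) = add9 (mul9 a b) (mul9 a c) := by decide +kernel
theorem mul_inv9 : ∀ a : K9, a ≠ z9 → mul9 a (inv9 a) = o9 := by decide +kernel
theorem inv_zero9 : inv9 z9 = z9 := by decide +kernel
theorem ne9 : z9 ≠ o9 := by decide +kernel

instance : Add K9 := ⟨add9⟩
instance : Mul K9 := ⟨mul9⟩
instance : Zero K9 := ⟨z9⟩
instance : One K9 := ⟨o9⟩
instance : Neg K9 := ⟨neg9⟩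
instance : Inv K9 := ⟨inv9⟩

instance instK9 : Field K9 where
  add_assoc := add_assoc9
  zero_add := zero_add9
  add_zero := add_zero9
  nsmul := nsmulRec
  zsmul := zsmulRec
  neg_add_cancel := neg_add9
  add_comm := add_comm9
  left_distrib := distrib9
  right_distrib := fun a b c => by
    show mul9 (add9 a b) c = add9 (mul9 a c) (mul9 b c)
    rw [mul_comm9, distrib9, mul_comm9 c a, mul_comm9 c b]
  zero_mul := zero_mul9
  mul_zero := mul_zero9
  mul_assoc := mul_assoc9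
  one_mul := one_mul9
  mul_one := mul_one9
  mul_comm := mul_comm9
  exists_pair_ne := ⟨z9, o9, ne9⟩
  mul_inv_cancel := mul_inv9
  inv_zero := inv_zero9
  nnqsmul := _
  qsmul := _

theorem card_K9 : Fintype.card K9 = 3 ^ 2 := by decide +kernel

abbrev herm := Cfsg.hermForm 3 K9 3
abbrev VV := Fin 3 → K9
abbrev SS := ↥(Cfsg.SU 3 K9 3)

/-- The matrix of an element. -/
def mat (g : SS) : Matrix (Fin 3) (Fin 3) K9 :=
  ((g : Matrix.SpecialLinearGroup (Fin 3) K9) : Matrix (Fin 3) (Fin 3) K9)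

lemma mat_mul (g h : SS) : mat (g * h) = mat g * mat h := rfl
lemma mat_one : mat (1 : SS) = 1 := rfl
lemma mat_pow (g : SS) (n : ℕ) : mat (g ^ n) = mat g ^ n := by
  induction n with
  | zero => simp [mat_one]
  | succ n ih => rw [pow_succ, pow_succ, mat_mul, ih]

lemma eq_of_mat {g h : SS} (h1 : mat g = mat h) : g = h := by
  apply Subtype.ext
  apply Subtype.ext
  exact h1

lemma pow3_add : ∀ a b : K9, (a + b) ^ 3 = a ^ 3 + b ^ 3 := by decide +kernel

/-- Unitary matrices preserve the form. -/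
lemma unitary_pres (A : Matrix (Fin 3) (Fin 3) K9) (h : A.transpose * A.map (· ^ 3) = 1) (u v : VV) :
    herm (A *ᵥ u) (A *ᵥ v) = herm u v := by
  have h1 : ∀ w : VV, (fun i => (A *ᵥ w) i ^ 3) = A.map (· ^ 3) *ᵥ (fun i => w i ^ 3) := by
    intro w
    funext i
    simp only [Matrix.mulVec, dotProduct, Fin.sum_univ_three, pow3_add, mul_pow, Matrix.map_apply]
  have h2 : ∀ x y : VV, herm x y = x ⬝ᵥ (fun i => y i ^ 3) := fun x y => rfl
  rw [h2, h2, h1, Matrix.dotProduct_mulVec]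
  congr 1
  rw [← Matrix.vecMul_transpose, Matrix.vecMul_vecMul, h, Matrix.vecMul_one]

/-- A matrix from a code, four bits per entry. -/
def mk (c : ℕ) : Matrix (Fin 3) (Fin 3) K9 :=
  Matrix.of fun i j => cd (Nat.mod (Nat.shiftRight c (Nat.mul 4 (Nat.add (Nat.mul 3 i.1) j.1))) 16)

def Ma : Matrix (Fin 3) (Fin 3) K9 := mk 24380736
def Mb : Matrix (Fin 3) (Fin 3) K9 := mk 50464256

theorem Ma_u : Ma.transpose * Ma.map (· ^ 3) = 1 := by decide +kernel
theorem Mb_u : Mb.transpose * Mb.map (· ^ 3) = 1 := by decide +kernel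
theorem Ma_d : Ma.det = 1 := by rw [Matrix.det_fin_three]; decide +kernel
theorem Mb_d : Mb.det = 1 := by rw [Matrix.det_fin_three]; decide +kernel

def gA : SS := ⟨⟨Ma, Ma_d⟩, fun u v => unitary_pres Ma Ma_u u v⟩
def gB : SS := ⟨⟨Mb, Mb_d⟩, fun u v => unitary_pres Mb Mb_u u v⟩

lemma mat_gA : mat gA = Ma := rfl
lemma mat_gB : mat gB = Mb := rfl

theorem Ma7 : Ma ^ 7 = 1 := by decide +kernel
theorem Mb2 : Mb ^ 2 = 1 := by decide +kernel

theorem gA7 : gA ^ 7 = 1 := eq_of_mat (by rw [mat_pow, mat_gA, Ma7, mat_one])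
theorem gB2 : gB ^ 2 = 1 := eq_of_mat (by rw [mat_pow, mat_gB, Mb2, mat_one])

def CsL : List ℕ := [4295032833, 24380736, 50464256, 22551097957, 25770344584, 35707682822, 10290078338, 2290312246, 102760544, 26173723760, 1996784128, 10774337570, 18089214790, 1619036164, 19058927728, 8589959216, 27757056804, 22033084501, 269484034, 34937712712, 14063903511, 34430530371, 36241113448, 810579719, 13496746792, 1429209175, 38208592, 31782761299, 9955591954, 30152867872, 31138518912, 536883968, 1208447232, 13272237440, 14012335155, 6046627619, 30183530882, 13559670545, 1465279795, 18528491047, 14278685731, 30367040786, 32215549460, 12885250165, 9470939506, 9972245767, 17254338576, 10323493175, 2220884036, 23631036419, 18042065205, 30657359988, 6483747173, 30356824343, 22331789588, 26430740513, 17775603847, 21780244004, 26114155126, 1967200273, 6216364309, 21592474885, 5221201942, 1148266273, 22051979633, 18827470373, 14867240968, 5975930688,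 23121514817, 35266267235, 5190551632, 1950443313, 5996287075, 4681979008, 4631660368, 34916758145, 2270258225, 26376149027, 10572097288, 34651706903, 4648433728, 21565354838, 34729199458, 30620742230, 6195020113, 26395083541, 34494350344, 5390938664, 36022198823, 1165060145, 13293000275, 13760739430, 13776725009, 31729328696, 26864726631, 30928937092, 13828843139, 30893631000, 18846191735, 19329599079, 31409198692, 10757825540, 18003333428, 34951278661, 30200312690, 26164471366, 35435742821, 14332010776, 31710519863, 10035356932, 5658317416, 13242687875, 17315598962, 9269674807, 9249948468, 35184132689, 27167577715, 36077388115, 17465562146, 9538306612, 27969094934, 23356143208, 27705890102, 22069522520, 17298830210, 5170865510, 17549444450, 27935529014, 15091123846, 27505616502, 27449955617, 14805250404, 26946643717, 27471066979, 4698752368, 9520157043, 21543531346, 10339099270, 6498043505, 10505835811, 13816172866, 5695886977,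 17752817987, 21844490338, 27520016978, 22384038470, 1484875057, 15069250850, 23186470758, 28025360933, 13508224790, 9766987781, 34445013826, 9198633781, 9218360120, 5409632833, 6228571713, 14261897011, 10840466439, 27674088229, 5426415185, 36010292099, 22300164982, 30434153570, 13997515544, 9686893590, 17485357604, 27135210514]

def T (i : Fin 168) : Matrix (Fin 3) (Fin 3) K9 := mk (CsL.getD i.val 0)

def nxAL : List ℕ := [1, 3, 5, 6, 8, 9, 11, 13, 14, 16, 18, 19, 21, 22, 24, 26, 27, 29, 30, 32, 34, 35, 37, 39, 40, 31, 42, 38, 45, 33, 47, 49, 0, 50, 51, 53, 55, 56, 43, 58, 54, 61, 62, 2, 64, 65, 67, 68, 15, 70, 71, 73, 75, 76, 59, 78, 74, 81, 82, 4, 84, 85, 87, 23, 89, 91, 93, 94, 92, 86, 97, 99, 101, 102, 79, 104, 100, 107, 108, 7, 110, 111, 113, 36, 115, 117, 119, 118, 112, 121, 122, 123, 95, 124, 126, 10, 128, 129, 46, 125, 105, 131, 130, 134, 135, 12, 137, 138, 140, 52, 28, 141, 44, 142, 139, 144, 145, 146, 48, 147, 149,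 150, 151, 80, 77, 17, 153, 66, 120, 148, 132, 156, 20, 158, 159, 155, 72, 41, 127, 60, 160, 162, 63, 154, 163, 152, 106, 103, 25, 143, 88, 164, 90, 157, 161, 167, 165, 98, 57, 69, 83, 96, 133, 114, 116, 166, 136, 109]
def nxBL : List ℕ := [2, 4, 0, 7, 1, 10, 12, 3, 15, 17, 5, 20, 6, 23, 25, 8, 28, 9, 31, 33, 11, 36, 38, 13, 41, 14, 43, 44, 16, 46, 48, 18, 49, 19, 52, 54, 21, 57, 22, 59, 60, 24, 63, 26, 27, 66, 29, 69, 30, 32, 72, 74, 34, 77, 35, 79, 80, 37, 83, 39, 40, 86, 88, 42, 90, 92, 45, 95, 96, 47, 98, 100, 50, 103, 51, 105, 106, 53, 109, 55, 56, 112, 114, 58, 116, 118, 61, 120, 62, 99, 64, 108, 65, 125, 127, 67, 68, 130, 70, 89, 71, 132, 133, 73, 136, 75, 76, 139, 91, 78, 122, 142, 81, 143, 82, 129, 84, 135, 85, 148, 87, 146, 110, 134, 152, 93, 154, 94, 155, 115, 97, 157, 101, 102, 123, 117, 104, 145, 160, 107, 161, 156, 111, 113, 162, 137, 121, 164, 119, 165, 166, 158, 124, 163, 126, 128, 141, 131, 151, 167, 138, 140,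 144, 153, 147, 149, 150, 159]
def parL : List ℕ := [0, 0, 0, 1, 1, 2, 3, 3, 4, 5, 5, 6, 6, 7, 8, 8, 9, 9, 10, 11, 11, 12, 13, 13, 14, 14, 15, 16, 16, 17, 18, 18, 19, 19, 20, 21, 21, 22, 22, 23, 24, 24, 26, 26, 27, 28, 29, 30, 30, 31, 33, 34, 34, 35, 35, 36, 37, 37, 39, 39, 40, 41, 42, 42, 44, 45, 45, 46, 47, 47, 49, 50, 50, 51, 51, 52, 53, 53, 55, 55, 56, 57, 58, 58, 60, 61, 61, 62, 62, 64, 64, 65, 65, 66, 67, 67, 68, 70, 70, 71, 71, 72, 73, 73, 75, 75, 76, 77, 78, 78, 80, 81, 81, 82, 82, 84, 84, 85, 85, 86, 87, 89, 90, 91, 93, 93, 94, 94, 96, 97, 97, 101, 101, 102, 103, 104, 104, 106, 107, 107, 108, 111, 111, 113, 115, 116, 117, 119, 119, 120, 121, 122, 124, 126, 126, 128, 131, 131, 133, 134, 138, 140, 141, 144, 147, 149, 150, 155]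
def genL : List ℕ := [0, 0, 1, 0, 1, 0, 0, 1, 0, 0, 1, 0, 1, 0, 0, 1, 0, 1, 0, 0, 1, 0, 0, 1, 0, 1, 0, 0, 1, 0, 0, 1, 0, 1, 0, 0, 1, 0, 1, 0, 0, 1, 0, 1, 1, 0, 1, 0, 1, 0, 0, 0, 1, 0, 1, 0, 0, 1, 0, 1, 1, 0, 0, 1, 0, 0, 1, 0, 0, 1, 0, 0, 1, 0, 1, 0, 0, 1, 0, 1, 1, 0, 0, 1, 0, 0, 1, 0, 1, 0, 1, 0, 1, 0, 0, 1, 1, 0, 1, 0, 1, 0, 0, 1, 0, 1, 1, 0, 0, 1, 0, 0, 1, 0, 1, 0, 1, 0, 1, 0, 1, 0, 0, 0, 0, 1, 0, 1, 0, 0, 1, 0, 1, 1, 0, 0, 1, 0, 0, 1, 0, 0, 1, 1, 0, 0, 0, 0, 1, 0, 0, 0, 1, 0, 1, 1, 0, 1, 0, 0, 1, 1, 0, 0, 1, 1, 1, 0]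
def cjRL : List ℕ := [0, 0, 1, 0, 2, 2, 3, 4, 4, 4, 0, 0, 0, 0, 0, 1, 0, 0, 1, 3, 3, 3, 3, 3, 3, 3, 3, 3, 3, 3, 3, 4, 3, 4, 4, 4, 2, 4, 4, 2, 4, 2, 2, 2, 0, 2, 0, 2, 0, 2, 2, 2, 4, 2, 2, 4, 2, 2, 4, 1, 4, 2, 4, 1, 4, 2, 3, 1, 4, 3, 1, 1, 4, 1, 1, 4, 1, 0, 4, 2, 1, 0, 4, 3, 1, 0, 2, 4, 2, 1, 4, 0, 4, 2, 3, 2, 4, 2, 2, 2, 2, 2, 2, 4, 2, 4, 4, 4, 2, 2, 4, 4, 2, 2, 2, 4, 4, 4, 2, 2, 4, 4, 4, 4, 2, 4, 2, 4, 4, 4, 4, 0, 0, 3, 1, 0, 4, 3, 1, 0, 0, 1, 0, 4, 3, 4, 1, 0, 0, 4, 3, 4, 4, 4, 4, 1, 1, 4, 2, 4, 1, 4, 4, 2, 4, 3, 2, 3]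
def cjHL : List ℕ := [0, 0, 0, 120, 0, 2, 0, 0, 43, 2, 2, 122, 48, 15, 26, 25, 30, 87, 31, 122, 112, 44, 110, 62, 28, 85, 87, 81, 2, 88, 118, 26, 120, 8, 14, 87, 115, 118, 15, 73, 48, 97, 102, 71, 110, 129, 13, 130, 43, 99, 125, 17, 132, 29, 50, 20, 33, 93, 29, 32, 72, 136, 33, 148, 101, 72, 27, 49, 73, 16, 1, 3, 85, 6, 19, 84, 11, 81, 115, 32, 17, 85, 96, 30, 29, 88, 31, 128, 25, 33, 25, 112, 120, 49, 48, 126, 30, 3, 153, 6, 19, 157, 11, 131, 98, 32, 104, 69, 46, 84, 126, 86, 131, 119, 101, 153, 31, 119, 94, 127, 10, 157, 49, 136, 66, 11, 132, 46, 18, 6, 19, 22, 118, 38, 20, 16, 130, 43, 100, 44, 27, 105, 38, 92, 13, 70, 12, 28, 62, 95, 22, 97, 129, 102, 68, 46, 98, 61, 70, 98, 129, 47, 67, 148, 148, 15, 20, 26]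
def repL : List ℕ := [1, 2, 4, 6, 7]

def nxA (i : Fin 168) : Fin 168 := Fin.ofNat 168 (nxAL.getD i.val 0)
def nxB (i : Fin 168) : Fin 168 := Fin.ofNat 168 (nxBL.getD i.val 0)
def par (i : Fin 168) : Fin 168 := Fin.ofNat 168 (parL.getD i.val 0)
def gen (i : Fin 168) : Matrix (Fin 3) (Fin 3) K9 := if genL.getD i.val 0 = 0 then Ma else Mb
def cjR (i : Fin 168) : Fin 5 := Fin.ofNat 5 (cjRL.getD i.val 0)
def cjH (i : Fin 168) : Fin 168 := Fin.ofNat 168 (cjHL.getD i.val 0)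
def rep (k : Fin 5) : Fin 168 := Fin.ofNat 168 (repL.getD k.val 0)

def certAL : List (List (ℕ × ℕ)) := [[(0, 1)], [(0, 2), (3, 74), (11, 73)], [(47, 114), (65, 57)], [(0, 6), (96, 19)], [(5, 122), (18, 128)]]
def certBL : List (List (ℕ × ℕ)) := [[(4, 48), (15, 13)], [(0, 2)], [(8, 86), (8, 86)], [(0, 6), (41, 20)], [(1, 105), (62, 60)]]

def certA (k : Fin 5) : List (Fin 168 × Fin 168) :=
  (certAL.getD k.val []).map fun p => (Fin.ofNat 168 p.1, Fin.ofNat 168 p.2)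
def certB (k : Fin 5) : List (Fin 168 × Fin 168) :=
  (certBL.getD k.val []).map fun p => (Fin.ofNat 168 p.1, Fin.ofNat 168 p.2)

theorem T0 : T 0 = 1 := by decide +kernel
theorem chkA : ∀ i : Fin 168, T i * Ma = T (nxA i) := by decide +kernel
theorem chkB : ∀ i : Fin 168, T i * Mb = T (nxB i) := by decide +kernel
theorem chkPar : ∀ i : Fin 168, i.val ≠ 0 → (par i).val < i.val ∧ T i = T (par i) * gen i := by decide +kernel
theorem chkInj : ∀ i j : Fin 168, T i = T j → i = j := by decide +kernel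
theorem chkConj : ∀ i : Fin 168, i.val ≠ 0 → T (cjH i) * T i = T (rep (cjR i)) * T (cjH i) := by decide +kernel
theorem chkCA' : ∀ k : Fin 5, (certA k).all (fun p => decide (T p.1 * T (rep k) = T p.2 * T p.1)) = true := by decide +kernel
theorem chkCB' : ∀ k : Fin 5, (certB k).all (fun p => decide (T p.1 * T (rep k) = T p.2 * T p.1)) = true := by decide +kernel
theorem chkPA : ∀ k : Fin 5, ((certA k).map fun p => T p.2).prod = Ma := by decide +kernel
theorem chkPB : ∀ k : Fin 5, ((certB k).map fun p => T p.2).prod = Mb := by decide +kernel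

theorem chkCA : ∀ k : Fin 5, ∀ p ∈ certA k, T p.1 * T (rep k) = T p.2 * T p.1 := by
  intro k p hp
  have := List.all_eq_true.mp (chkCA' k) p hp
  simpa using this

theorem chkCB : ∀ k : Fin 5, ∀ p ∈ certB k, T p.1 * T (rep k) = T p.2 * T p.1 := by
  intro k p hp
  have := List.all_eq_true.mp (chkCB' k) p hp
  simpa using this

/-- The subgroup. -/
def H : Subgroup SS := Subgroup.closure {gA, gB}

theorem gA_mem : gA ∈ H := Subgroup.subset_closure (Or.inl rfl)
theorem gB_mem : gB ∈ H := Subgroup.subset_closure (Or.inr rfl)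

/-- Every table entry comes from `H`. -/
theorem exists_elt : ∀ i : Fin 168, ∃ x ∈ H, mat x = T i := by
  intro i
  induction' hn : i.val using Nat.strong_induction_on with n ih generalizing i
  by_cases h0 : i.val = 0
  · have hi : i = 0 := Fin.ext h0
    exact ⟨1, one_mem _, by rw [mat_one, hi, T0]⟩
  · obtain ⟨h1, h2⟩ := chkPar i h0
    obtain ⟨x, hx, hm⟩ := ih (par i).val (hn ▸ h1) (par i) rfl
    by_cases hg : genL.getD i.val 0 = 0
    · refine ⟨x * gA, mul_mem hx gA_mem, ?_⟩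
      rw [mat_mul, hm, mat_gA, h2, show gen i = Ma from if_pos hg]
    · refine ⟨x * gB, mul_mem hx gB_mem, ?_⟩
      rw [mat_mul, hm, mat_gB, h2, show gen i = Mb from if_neg hg]

/-- Every element of `H` is in the table. -/
theorem mem_table {x : SS} (hx : x ∈ H) : ∃ i : Fin 168, mat x = T i := by
  have stepA : ∀ y : SS, (∃ i, mat y = T i) → ∃ i, mat (y * gA) = T i := by
    rintro y ⟨i, hi⟩
    exact ⟨nxA i, by rw [mat_mul, hi, mat_gA, chkA]⟩
  have stepB : ∀ y : SS, (∃ i, mat y = T i) → ∃ i, mat (y * gB) = T i := by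
    rintro y ⟨i, hi⟩
    exact ⟨nxB i, by rw [mat_mul, hi, mat_gB, chkB]⟩
  have stepAn : ∀ n : ℕ, ∀ y : SS, (∃ i, mat y = T i) → ∃ i, mat (y * gA ^ n) = T i := by
    intro n
    induction n with
    | zero =>
      intro y hy
      simpa using hy
    | succ n ih =>
      intro y hy
      rw [pow_succ, ← mul_assoc]
      exact stepA _ (ih y hy)
  have hinvA : gA⁻¹ = gA ^ 6 := by
    apply inv_eq_of_mul_eq_one_right
    rw [← pow_succ', gA7]
  have hinvB : gB⁻¹ = gB := by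
    apply inv_eq_of_mul_eq_one_right
    rw [← pow_two, gB2]
  induction hx using Subgroup.closure_induction_right with
  | one => exact ⟨0, by rw [mat_one, T0]⟩
  | mul_right y _ z hz hy =>
    rcases hz with rfl | rfl
    · exact stepA _ hy
    · exact stepB _ hy
  | mul_inv_cancel y _ z hz hy =>
    rcases hz with rfl | rfl
    · rw [hinvA]
      exact stepAn 6 _ hy
    · rw [hinvB]
      exact stepB _ hy

theorem card_H : Nat.card H = 168 := by
  choose e he hm using exists_elt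
  let f : Fin 168 → H := fun i => ⟨e i, he i⟩
  have hf : Function.Bijective f := by
    constructor
    · intro i j hij
      apply chkInj
      rw [← hm, ← hm]
      exact congrArg (fun z : H => mat (z : SS)) hij
    · rintro ⟨x, hx⟩
      obtain ⟨i, hi⟩ := mem_table hx
      refine ⟨i, Subtype.ext (eq_of_mat ?_)⟩
      show mat (e i) = mat x
      rw [hm, hi]
  rw [← Nat.card_eq_of_bijective f hf]
  simp

/-- A conjugation relation from the table. -/
theorem conj_of_table {h x c : SS} (H1 : mat h * mat x = mat c * mat h) : h * x * h⁻¹ = c := by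
  have h2 : h * x = c * h := eq_of_mat (by rw [mat_mul, mat_mul, H1])
  rw [h2]
  group

section simple

variable {N : Subgroup SS} (hNH : N ≤ H) (hN : ∀ h ∈ H, ∀ y ∈ N, h * y * h⁻¹ ∈ N)
include hNH hN

theorem prod_mem_of_cert {k : Fin 168} {r : SS} (hr : r ∈ N) (hrk : mat r = T k) :
    ∀ L : List (Fin 168 × Fin 168), (∀ p ∈ L, T p.1 * T k = T p.2 * T p.1) →
      ∃ y ∈ N, mat y = (L.map fun p => T p.2).prod := by
  intro L
  induction L with
  | nil =>
    intro _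
    exact ⟨1, one_mem _, by simp [mat_one]⟩
  | cons p L ih =>
    intro hL
    obtain ⟨y, hy, hm⟩ := ih fun q hq => hL q (List.mem_cons_of_mem _ hq)
    obtain ⟨u, hu, hum⟩ := exists_elt p.1
    obtain ⟨c, hc, hcm⟩ := exists_elt p.2
    have h1 := hL p List.mem_cons_self
    have h2 : u * r * u⁻¹ = c := conj_of_table (by rw [hum, hrk, hcm, h1])
    have h3 : c ∈ N := h2 ▸ hN u hu r hr
    refine ⟨c * y, mul_mem h3 hy, ?_⟩
    rw [mat_mul, hcm, hm, List.map_cons, List.prod_cons]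

theorem gens_mem {x : SS} (hx : x ∈ N) (hx1 : x ≠ 1) : gA ∈ N ∧ gB ∈ N := by
  obtain ⟨i, hi⟩ := mem_table (hNH hx)
  have h0 : i.val ≠ 0 := by
    intro h0
    have hi0 : i = 0 := Fin.ext h0
    apply hx1
    apply eq_of_mat
    rw [hi, hi0, T0, mat_one]
  obtain ⟨u, hu, hum⟩ := exists_elt (cjH i)
  obtain ⟨r, hr, hrm⟩ := exists_elt (rep (cjR i))
  have h1 : u * x * u⁻¹ = r := conj_of_table (by rw [hum, hi, hrm, chkConj i h0])
  have h2 : r ∈ N := h1 ▸ hN u hu x hx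
  constructor
  · obtain ⟨y, hy, hm⟩ := prod_mem_of_cert hNH hN h2 hrm (certA (cjR i)) (chkCA _)
    rw [chkPA] at hm
    have : y = gA := eq_of_mat hm
    exact this ▸ hy
  · obtain ⟨y, hy, hm⟩ := prod_mem_of_cert hNH hN h2 hrm (certB (cjR i)) (chkCB _)
    rw [chkPB] at hm
    have : y = gB := eq_of_mat hm
    exact this ▸ hy

end simple

theorem simple_of_gens {S : Type*} [Group S] {H₀ : Subgroup S} [Nontrivial H₀]
    (hgen : ∀ N' : Subgroup S, N' ≤ H₀ → (∀ h ∈ H₀, ∀ y ∈ N', h * y * h⁻¹ ∈ N') → ∀ x ∈ N', x ≠ 1 → H₀ ≤ N') :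
    IsSimpleGroup H₀ := by
  refine ⟨fun N hN => ?_⟩
  by_cases hb : N = ⊥
  · exact Or.inl hb
  · right
    obtain ⟨x, hx, hx1⟩ := (Subgroup.bot_or_exists_ne_one N).resolve_left hb
    have hle := hgen (N.map H₀.subtype) (Subgroup.map_subtype_le N) (by
      rintro h hh _ ⟨y, hy, rfl⟩
      exact ⟨⟨h, hh⟩ * y * ⟨h, hh⟩⁻¹, hN.conj_mem y hy ⟨h, hh⟩, by simp⟩) x ⟨x, hx, rfl⟩
      (fun h => hx1 (Subtype.ext h))
    rw [eq_top_iff]
    rintro z -
    obtain ⟨w, hw, hwz⟩ := hle z.2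
    have : w = z := Subtype.ext hwz
    exact this ▸ hw

theorem simple_H : IsSimpleGroup H := by
  haveI : Nontrivial H := Finite.one_lt_card_iff_nontrivial.mp (by rw [card_H]; norm_num)
  refine simple_of_gens fun N' hNH hN' x hx hx1 => ?_
  obtain ⟨h1, h2⟩ := gens_mem hNH hN' hx hx1
  refine (Subgroup.closure_le _).mpr ?_
  rintro z (rfl | rfl)
  · exact h1
  · exact h2

/-- The projective special unitary group PSU₃(3) (realised over the field with 9 elements) has a subgroup isomorphic to PSL₂(7). -/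
theorem result {F : Type*} [Field F] [Fintype F] (hF : Fintype.card F = 9)
    {K : Type*} [Field K] [Fintype K] (hK : Fintype.card K = 7) :
    ∃ H : Subgroup (Cfsg.PSU 3 F 3), Nonempty (H ≃* Matrix.ProjectiveSpecialLinearGroup (Fin 2) K) := by
  have hc : Fintype.card F = Fintype.card K9 := by
    rw [hF, card_K9]
    norm_num
  have hcen : Subgroup.center (Cfsg.SU 3 K9 3) = ⊥ := by
    apply Subgroup.eq_bot_of_card_eq
    rw [Cfsg.Agent.S0279.result (F := K9) (q := 3) card_K9 3 (by norm_num)]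
    norm_num
  let e : Cfsg.PSU 3 F 3 ≃* SS :=
    (Cfsg.Agent.Lib.Classical.RC.psuCongr (FiniteField.ringEquivOfCardEq hc) 3 3).trans
      ((QuotientGroup.quotientMulEquivOfEq hcen).trans QuotientGroup.quotientBot)
  haveI : IsSimpleGroup H := simple_H
  haveI : Fact (Nat.Prime 7) := ⟨by norm_num⟩
  have h1 : Nonempty (H ≃* Matrix.ProjectiveSpecialLinearGroup (Fin 2) (ZMod 7)) :=
    Cfsg.Agent.Lib.SmallSimple.psl_of_card_168 card_H
  obtain ⟨e2⟩ := Cfsg.Agent.Lib.SmallSimple.psl_congr_of_card hK h1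
  exact ⟨H.map e.symm.toMonoidHom, ⟨(e.symm.subgroupMap H).symm.trans e2⟩⟩

end Cfsg.Agent.S1897
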