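import Cfsg.Statements.S1898
import Mathlib
import Cfsg.Agent.Lib.Techniques.Ito
import Cfsg.Agent.Lib.FStar.Constrained

set_option autoImplicit false
open Cfsg

namespace Cfsg.Agent.S1898

open Cfsg.Agent.Lib.Techniques
open scoped commutatorElement


/-- Let X be a finite 2-group whose derived subgroup is elementary abelian and central. Then the subgroup generated by the elements of order dividing 4 has exponent dividing 4, and every automorphism of X fixing each element of order dividing 4 has 2-power order. -/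
theorem result {X : Type*} [Group X] [Finite X] (hX : IsPGroup 2 X)
    (hel : Cfsg.IsElementaryAbelian 2 (commutator X)) (hcen : commutator X ≤ Subgroup.center X) :
    (∀ x ∈ Subgroup.closure {g : X | g ^ 4 = 1}, x ^ 4 = 1) ∧
      ∀ φ : MulAut X, (∀ g : X, g ^ 4 = 1 → φ g = g) → ∃ k : ℕ, φ ^ (2 ^ k) = 1 := by
  classical
  haveI : Fact (Nat.Prime 2) := ⟨Nat.prime_two⟩
  have hcomm : ∀ x y : X, ⁅y, x⁆ ^ 2 = 1 ∧ ⁅y, x⁆ ∈ Subgroup.center X := by
    intro x y
    have hm : ⁅y, x⁆ ∈ commutator X := Subgroup.commutator_mem_commutator (Subgroup.mem_top _) (Subgroup.mem_top _)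
    exact ⟨hel.2 _ hm, hcen hm⟩
  have hmul : ∀ x y : X, (x * y) ^ 4 = x ^ 4 * y ^ 4 := by
    intro x y
    have hc := (hcomm x y).2
    have hcx : Commute ⁅y, x⁆ x := (Subgroup.mem_center_iff.1 hc x).symm
    have hcy : Commute ⁅y, x⁆ y := (Subgroup.mem_center_iff.1 hc y).symm
    have hform := Cfsg.Agent.Lib.Transfer.mul_pow_class2 hcx hcy 4
    have h6 : Nat.choose 4 2 = 2 * 3 := by decide
    rw [hform, h6, pow_mul, (hcomm x y).1, one_pow, mul_one]
  constructor
  · intro x hx
    induction hx using Subgroup.closure_induction with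
    | mem x hx => exact hx
    | one => exact one_pow _
    | mul x y _ _ hx hy => rw [hmul, hx, hy, one_mul]
    | inv x _ hx => rw [inv_pow, hx, inv_one]
  · intro φ hφ
    obtain ⟨k, hk⟩ := Cfsg.Agent.Lib.FStar.exists_pow_orderOf_coprime (p := 2) φ
    refine ⟨k, ?_⟩
    refine aut_eq_one_of_small hX _ hk ?_
    intro g hg
    have h4 : g ^ 4 = 1 := by
      rcases hg with h | ⟨-, h⟩
      · have : g ^ 4 = (g ^ 2) ^ 2 := by group
        rw [this, h, one_pow]
      · exact h
    have key : ∀ n : ℕ, (φ ^ n) g = g := by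
      intro n
      induction n with
      | zero => simp
      | succ n ih =>
        rw [pow_succ]
        show (φ ^ n) (φ g) = g
        rw [hφ g h4, ih]
    exact key _

end Cfsg.Agent.S1898
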