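import Cfsg.Statements.S1899
import Mathlib

set_option autoImplicit false
open Cfsg

namespace Cfsg.Agent.S1899

/-- Let a dihedral group of order 2n, n odd and n > 1, act on a finite abelian 2-group A through automorphisms d and t with d^n = 1, t² = 1 and t d t⁻¹ = d⁻¹, and suppose that d fixes only the identity. Then A is the internal direct product of C_A(t) and its image under d. -/
theorem result {A : Type*} [CommGroup A] [Finite A] (hA : IsPGroup 2 A)
    {n : ℕ} (hn : Odd n) (hn1 : 1 < n) (d t : MulAut A) (hd : d ^ n = 1) (ht : t ^ 2 = 1) (hdt : t * d * t⁻¹ = d⁻¹)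
    (hfix : ∀ a : A, d a = a → a = 1) :
    (MulEquiv.toMonoidHom t).eqLocus (MonoidHom.id A) ⊓ ((MulEquiv.toMonoidHom t).eqLocus (MonoidHom.id A)).map d.toMonoidHom = ⊥ ∧
      (MulEquiv.toMonoidHom t).eqLocus (MonoidHom.id A) ⊔ ((MulEquiv.toMonoidHom t).eqLocus (MonoidHom.id A)).map d.toMonoidHom = ⊤ := by
  classical
  set C : Subgroup A := (MulEquiv.toMonoidHom t).eqLocus (MonoidHom.id A) with hC
  have hCmem : ∀ a : A, a ∈ C ↔ t a = a := fun a => Iff.rfl
  have htt : ∀ a : A, t (t a) = a := by
    intro a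
    have : (t ^ 2) a = a := by rw [ht]; rfl
    simpa [pow_two] using this
  obtain ⟨m, hm⟩ := hn
  -- `g ^ 2 = d`
  have hdd : ∀ a : A, d (d⁻¹ a) = a := fun a => by
    show (d * d⁻¹) a = a
    simp
  have htd : t * d = d⁻¹ * t := by
    have : t * d * t⁻¹ * t = d⁻¹ * t := by rw [hdt]
    simpa using this
  set g : MulAut A := d ^ (m + 1) with hg
  have hg2 : g * g = d := by
    rw [hg, ← pow_add]
    have : m + 1 + (m + 1) = n + 1 := by omega
    rw [this, pow_succ, hd, one_mul]
  have htg : t * g = g⁻¹ * t := by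
    rw [hg]
    have key : ∀ j : ℕ, t * d ^ j = (d⁻¹) ^ j * t := by
      intro j
      induction j with
      | zero => simp
      | succ j ih =>
        rw [pow_succ, ← mul_assoc, ih, mul_assoc, htd, pow_succ, mul_assoc]
    rw [key, inv_pow]
  have htg' : t * g⁻¹ = g * t := by
    have h1 : t * g * t⁻¹ = g⁻¹ := by
      calc t * g * t⁻¹ = g⁻¹ * t * t⁻¹ := by rw [htg]
        _ = g⁻¹ := by simp
    have h2 : t * g⁻¹ * t⁻¹ = g := by
      have : (t * g * t⁻¹)⁻¹ = t * g⁻¹ * t⁻¹ := by group
      rw [← this, h1, inv_inv]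
    calc t * g⁻¹ = t * g⁻¹ * t⁻¹ * t := by group
      _ = g * t := by rw [h2]
  have htga : ∀ a : A, t (g a) = g⁻¹ (t a) := fun a => congrArg (fun f : MulAut A => f a) htg
  have htgia : ∀ a : A, t (g⁻¹ a) = g (t a) := fun a => congrArg (fun f : MulAut A => f a) htg'
  have hgfix : ∀ a : A, g a = g⁻¹ a → a = 1 := by
    intro a ha
    apply hfix
    have h1 : (g * g) a = g (g a) := rfl
    have h2 : g (g⁻¹ a) = a := by
      show (g * g⁻¹) a = a
      simp
    rw [← hg2, h1, ha, h2]
  -- the map `e`
  let e : A →* A :=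
    { toFun := fun a => g a * (g⁻¹ a)⁻¹
      map_one' := by simp
      map_mul' := by
        intro a b
        simp only [map_mul, mul_inv]
        exact mul_mul_mul_comm _ _ _ _ }
  have hecalc : ∀ a, e a = g a * (g⁻¹ a)⁻¹ := fun a => rfl
  have heinj : Function.Injective e := by
    rw [injective_iff_map_eq_one]
    intro a ha
    apply hgfix
    rw [hecalc] at ha
    exact mul_inv_eq_one.1 ha
  -- the map `f`
  let f : A →* A :=
    { toFun := fun a => a⁻¹ * t a
      map_one' := by simp
      map_mul' := by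
        intro a b
        simp only [map_mul, mul_inv]
        exact mul_mul_mul_comm _ _ _ _ }
  have hfcalc : ∀ a, f a = a⁻¹ * t a := fun a => rfl
  have hfker : f.ker = C := by
    ext a
    rw [MonoidHom.mem_ker, hCmem, hfcalc, inv_mul_eq_one]
    exact eq_comm
  -- `N = {x : t x = x⁻¹}`
  let N : Subgroup A :=
    { carrier := {x | t x = x⁻¹}
      mul_mem' := by
        intro a b ha hb
        show t (a * b) = (a * b)⁻¹
        rw [map_mul, ha, hb, mul_inv]
      one_mem' := by
        show t 1 = 1⁻¹
        simp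
      inv_mem' := by
        intro a ha
        show t a⁻¹ = a⁻¹⁻¹
        rw [map_inv, ha] }
  have hfN : f.range ≤ N := by
    rintro _ ⟨a, rfl⟩
    show t (f a) = (f a)⁻¹
    rw [hfcalc, map_mul, map_inv, htt, mul_inv, inv_inv]
    exact mul_comm _ _
  have heN : ∀ x ∈ N, e x ∈ C := by
    intro x hx
    have hx' : t x = x⁻¹ := hx
    rw [hCmem, hecalc, map_mul, map_inv, htga, htgia, hx', map_inv, map_inv, inv_inv]
    exact mul_comm _ _
  have hNC : Nat.card N ≤ Nat.card C := by
    refine Nat.card_le_card_of_injective (fun x : N => (⟨e x, heN x x.2⟩ : C)) ?_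
    intro x y hxy
    exact Subtype.ext (heinj (congrArg Subtype.val hxy))
  have hcard : Nat.card A ≤ Nat.card C * Nat.card C := by
    have h1 := Subgroup.card_eq_card_quotient_mul_card_subgroup f.ker
    have h2 : Nat.card (A ⧸ f.ker) = Nat.card f.range :=
      Nat.card_congr (QuotientGroup.quotientKerEquivRange f).toEquiv
    have h3 : Nat.card f.range ≤ Nat.card N := Subgroup.card_le_of_le hfN
    rw [h1, h2, hfker, mul_comm]
    exact Nat.mul_le_mul_left _ (h3.trans hNC)
  -- disjointness
  have hdisj : ∀ c ∈ C, d c ∈ C → c = 1 := by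
    intro c hc hdc
    apply hfix
    -- `d (d c) = c`
    have h1 : t (d c) = d⁻¹ c := by
      have := congrArg (fun φ : MulAut A => φ c) htd
      have h2 : (d⁻¹ * t) c = d⁻¹ (t c) := rfl
      have h3 : (t * d) c = t (d c) := rfl
      have h4 : t (d c) = d⁻¹ (t c) := this
      rw [(hCmem c).1 hc] at h4
      exact h4
    rw [(hCmem _).1 hdc] at h1
    have h2 : d (d c) = c := by
      rw [h1]
      show (d * d⁻¹) c = c
      simp
    have h3 : ∀ j : ℕ, (d ^ (2 * j)) c = c := by
      intro j
      induction j with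
      | zero => simp
      | succ j ih =>
        rw [show 2 * (j + 1) = 2 * j + 2 by ring, pow_add, pow_two]
        show (d ^ (2 * j)) (d (d c)) = c
        rw [h2, ih]
    have h4 := h3 (m + 1)
    rw [show 2 * (m + 1) = n + 1 by omega, pow_succ, hd, one_mul] at h4
    exact h4
  -- the product map
  let φ : (C × C) →* A :=
    { toFun := fun q => (q.1 : A) * d (q.2 : A)
      map_one' := by simp
      map_mul' := by
        intro a b
        simp only [Prod.fst_mul, Prod.snd_mul, Subgroup.coe_mul, map_mul]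
        exact mul_mul_mul_comm _ _ _ _ }
  have hφinj : Function.Injective φ := by
    rw [injective_iff_map_eq_one]
    rintro ⟨a, b⟩ h
    have h1 : (a : A) * d (b : A) = 1 := h
    have h2 : d (b : A) = (a : A)⁻¹ := eq_inv_of_mul_eq_one_right h1
    have hb : (b : A) = 1 := hdisj b b.2 (by rw [h2]; exact inv_mem a.2)
    have ha : (a : A) = 1 := by
      rw [hb, map_one, mul_one] at h1
      exact h1
    ext <;> simp [ha, hb]
  have hφsurj : Function.Surjective φ := by
    have hb := (Nat.bijective_iff_injective_and_card φ).2 ⟨hφinj, by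
      rw [Nat.card_prod]
      refine le_antisymm ?_ hcard
      have := Nat.card_le_card_of_injective φ hφinj
      rwa [Nat.card_prod] at this⟩
    exact hb.2
  constructor
  · rw [eq_bot_iff]
    rintro x ⟨hx, c, hc, hce⟩
    have h1 : d c ∈ C := by
      have : d c = x := hce
      rw [this]; exact hx
    have h2 := hdisj c hc h1
    have : x = d c := hce.symm
    rw [this, h2, map_one]
    exact one_mem _
  · rw [eq_top_iff]
    intro x _
    obtain ⟨⟨a, b⟩, rfl⟩ := hφsurj x
    exact mul_mem (Subgroup.mem_sup_left a.2) (Subgroup.mem_sup_right ⟨b, b.2, rfl⟩)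

end Cfsg.Agent.S1899
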