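import Cfsg.Statements.S1900
import Mathlib
import Cfsg.Agent.Lib.Techniques.TwoFixed

set_option autoImplicit false
open Cfsg

namespace Cfsg.Agent.S1900

/-- Let S = PQ be a finite group with P a normal Sylow p-subgroup and Q elementary abelian of order q², q a prime different from p. If exactly two subgroups X₁, X₂ of order q in Q have a nontrivial centralizer in P, then P is the internal direct product of C_P(X₁) and C_P(X₂): they commute elementwise, meet trivially and generate P. -/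
theorem result {S : Type*} [Group S] [Finite S] {p q : ℕ} [Fact p.Prime] [Fact q.Prime] (hpq : p ≠ q)
    (P : Sylow p S) [(P : Subgroup S).Normal] (Q : Subgroup S) (hQ : Cfsg.IsElementaryAbelian q Q) (hQc : Nat.card Q = q ^ 2)
    (hS : (P : Subgroup S) ⊔ Q = ⊤)
    (X₁ X₂ : Subgroup S) (h₁ : X₁ ≤ Q) (h₂ : X₂ ≤ Q) (h₁₂ : X₁ ≠ X₂) (hc₁ : Nat.card X₁ = q) (hc₂ : Nat.card X₂ = q)
    (hf₁ : (P : Subgroup S) ⊓ Subgroup.centralizer (X₁ : Set S) ≠ ⊥)
    (hf₂ : (P : Subgroup S) ⊓ Subgroup.centralizer (X₂ : Set S) ≠ ⊥)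
    (honly : ∀ X : Subgroup S, X ≤ Q → Nat.card X = q →
      (P : Subgroup S) ⊓ Subgroup.centralizer (X : Set S) ≠ ⊥ → X = X₁ ∨ X = X₂) :
    ⁅(P : Subgroup S) ⊓ Subgroup.centralizer (X₁ : Set S), (P : Subgroup S) ⊓ Subgroup.centralizer (X₂ : Set S)⁆ = ⊥ ∧
      ((P : Subgroup S) ⊓ Subgroup.centralizer (X₁ : Set S)) ⊓ ((P : Subgroup S) ⊓ Subgroup.centralizer (X₂ : Set S)) = ⊥ ∧
      ((P : Subgroup S) ⊓ Subgroup.centralizer (X₁ : Set S)) ⊔ ((P : Subgroup S) ⊓ Subgroup.centralizer (X₂ : Set S)) = P := by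
  classical
  have hzp : ∀ {X : Subgroup S}, Nat.card X = q → ∀ {y : S}, y ∈ X → y ≠ 1 → Subgroup.zpowers y = X := by
    intro X hX y hy hy1
    have hle : Subgroup.zpowers y ≤ X := (Subgroup.zpowers_le).2 hy
    have hd : Nat.card (Subgroup.zpowers y) ∣ q := by
      rw [← hX]; exact Subgroup.card_dvd_of_le hle
    have hq' : (q : ℕ).Prime := Fact.out
    rcases (Nat.dvd_prime hq').1 hd with h | h
    · exfalso
      rw [Nat.card_zpowers, orderOf_eq_one_iff] at h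
      exact hy1 h
    · exact Subgroup.eq_of_le_of_card_ge hle (by rw [hX, h])
  have hq' : (q : ℕ).Prime := Fact.out
  haveI : Fact (1 < q) := ⟨hq'.one_lt⟩
  obtain ⟨x₁, hx₁, hx₁1⟩ : ∃ y ∈ X₁, y ≠ 1 := by
    by_contra h
    push Not at h
    have : X₁ = ⊥ := (Subgroup.eq_bot_iff_forall _).2 h
    rw [this, Subgroup.card_bot] at hc₁
    exact hq'.one_lt.ne hc₁
  obtain ⟨x₂, hx₂, hx₂1⟩ : ∃ y ∈ X₂, y ≠ 1 := by
    by_contra h
    push Not at h
    have : X₂ = ⊥ := (Subgroup.eq_bot_iff_forall _).2 h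
    rw [this, Subgroup.card_bot] at hc₂
    exact hq'.one_lt.ne hc₂
  have hX₁ := hzp hc₁ hx₁ hx₁1
  have hX₂ := hzp hc₂ hx₂ hx₂1
  have hpow : ∀ y ∈ Q, y ^ q = 1 := hQ.2
  have hcom : ∀ y ∈ Q, ∀ z ∈ Q, y * z = z * y := by
    intro y hy z hz
    have := hQ.1.is_comm.comm (⟨y, hy⟩ : ↥Q) ⟨z, hz⟩
    exact congrArg Subtype.val this
  have hx : x₁ * x₂ = x₂ * x₁ := hcom _ (h₁ hx₁) _ (h₂ hx₂)
  have hle21 : ∀ y ∈ X₁, y ∈ X₂ → y = 1 := by
    intro y hy hy2
    by_contra h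
    apply h₁₂
    rw [← hzp hc₁ hy h, hzp hc₂ hy2 h]
  have hfree : ∀ j : ℕ, 0 < j → j < q → ∀ v ∈ (P : Subgroup S), (x₁ * x₂ ^ j) * v = v * (x₁ * x₂ ^ j) → v = 1 := by
    intro j hj0 hjq v hvP hv
    by_contra hv1
    set γ : S := x₁ * x₂ ^ j with hγ
    have hγQ : γ ∈ Q := mul_mem (h₁ hx₁) (pow_mem (h₂ hx₂) _)
    have hx2j : x₂ ^ j ∈ X₂ := pow_mem hx₂ _
    have hx2j1 : x₂ ^ j ≠ 1 := by
      intro h
      have h3 : orderOf x₂ ∣ j := orderOf_dvd_of_pow_eq_one h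
      have h4 : orderOf x₂ = q := by
        have := (Nat.dvd_prime hq').1 (orderOf_dvd_of_pow_eq_one (hpow _ (h₂ hx₂)))
        rcases this with h5 | h5
        · exact absurd (orderOf_eq_one_iff.1 h5) hx₂1
        · exact h5
      rw [h4] at h3
      exact absurd (Nat.le_of_dvd hj0 h3) (by omega)
    have hγ1 : γ ≠ 1 := by
      intro h
      have h3 : x₁ = (x₂ ^ j)⁻¹ := eq_inv_of_mul_eq_one_left h
      exact hx₁1 (hle21 x₁ hx₁ (h3 ▸ inv_mem hx2j))
    have hγo : orderOf γ = q := by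
      have := (Nat.dvd_prime hq').1 (orderOf_dvd_of_pow_eq_one (hpow _ hγQ))
      rcases this with h5 | h5
      · exact absurd (orderOf_eq_one_iff.1 h5) hγ1
      · exact h5
    have hXc : Nat.card (Subgroup.zpowers γ) = q := by rw [Nat.card_zpowers, hγo]
    have hne : (P : Subgroup S) ⊓ Subgroup.centralizer ((Subgroup.zpowers γ : Subgroup S) : Set S) ≠ ⊥ := by
      intro h
      apply hv1
      have h3 : v ∈ (P : Subgroup S) ⊓ Subgroup.centralizer ((Subgroup.zpowers γ : Subgroup S) : Set S) := by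
        refine Subgroup.mem_inf.2 ⟨hvP, ?_⟩
        rw [Subgroup.mem_centralizer_iff]
        rintro _ ⟨k, rfl⟩
        exact ((show Commute γ v from hv).zpow_left k).eq
      rw [h] at h3
      exact (Subgroup.mem_bot).1 h3
    rcases honly _ ((Subgroup.zpowers_le).2 hγQ) hXc hne with h | h
    · have h3 : γ ∈ X₁ := by rw [← h]; exact Subgroup.mem_zpowers γ
      have h4 : x₂ ^ j ∈ X₁ := by
        have : x₂ ^ j = x₁⁻¹ * γ := by rw [hγ]; group
        rw [this]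
        exact mul_mem (inv_mem hx₁) h3
      exact hx2j1 (hle21 _ h4 hx2j)
    · have h3 : γ ∈ X₂ := by rw [← h]; exact Subgroup.mem_zpowers γ
      have h4 : x₁ ∈ X₂ := by
        have : x₁ = γ * (x₂ ^ j)⁻¹ := by rw [hγ]; group
        rw [this]
        exact mul_mem h3 (inv_mem hx2j)
      exact hx₁1 (hle21 _ hx₁ h4)
  obtain ⟨hmain1, hmain2⟩ := Cfsg.Agent.Lib.Techniques.two_fixed_main (S := S) (p := p) (q := q) (P := (P : Subgroup S))
    P.isPGroup' hpq (hpow _ (h₁ hx₁)) (hpow _ (h₂ hx₂)) hx hfree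
  have hC : ∀ {x : S} {X : Subgroup S}, Subgroup.zpowers x = X → ∀ v, v ∈ Subgroup.centralizer (X : Set S) ↔ x * v = v * x := by
    intro x X hX v
    subst hX
    rw [Subgroup.mem_centralizer_iff]
    constructor
    · intro h
      exact h x (Subgroup.mem_zpowers x)
    · rintro h _ ⟨k, rfl⟩
      exact ((show Commute x v from h).zpow_left k).eq
  refine ⟨?_, ?_, ?_⟩
  · rw [Subgroup.commutator_eq_bot_iff_le_centralizer]
    intro a ha
    rw [Subgroup.mem_centralizer_iff]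
    intro b hb
    obtain ⟨ha1, ha2⟩ := Subgroup.mem_inf.1 ha
    obtain ⟨hb1, hb2⟩ := Subgroup.mem_inf.1 hb
    exact (hmain1 a ha1 b hb1 ((hC hX₁ a).1 ha2) ((hC hX₂ b).1 hb2)).symm
  · rw [eq_bot_iff]
    intro v hv
    obtain ⟨hv1, hv2⟩ := Subgroup.mem_inf.1 hv
    obtain ⟨h3, h4⟩ := Subgroup.mem_inf.1 hv1
    obtain ⟨_, h5⟩ := Subgroup.mem_inf.1 hv2
    have h6 := (hC hX₁ v).1 h4
    have h7 := (hC hX₂ v).1 h5
    refine (Subgroup.mem_bot).2 (hfree 1 one_pos hq'.one_lt v h3 ?_)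
    rw [pow_one]
    calc x₁ * x₂ * v = x₁ * (x₂ * v) := by group
      _ = x₁ * (v * x₂) := by rw [h7]
      _ = (x₁ * v) * x₂ := by group
      _ = (v * x₁) * x₂ := by rw [h6]
      _ = v * (x₁ * x₂) := by group
  · apply le_antisymm
    · exact sup_le inf_le_left inf_le_left
    · intro g hg
      obtain ⟨a, ha, b, hb, h3, h4, rfl⟩ := hmain2 g hg
      exact Subgroup.mul_mem_sup (Subgroup.mem_inf.2 ⟨ha, (hC hX₁ a).2 h3⟩) (Subgroup.mem_inf.2 ⟨hb, (hC hX₂ b).2 h4⟩)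


end Cfsg.Agent.S1900
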