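import Cfsg.Statements.S1901
import Mathlib
import Cfsg.Agent.Lib.Techniques.QuadChief
import Cfsg.Agent.Lib.Techniques.MinFailure
import Cfsg.Agent.Lib.PSolv.Basic

set_option autoImplicit false
open Cfsg

namespace Cfsg.Agent.S1901

open Cfsg.Agent.Lib.Techniques
open scoped commutatorElement

universe u

theorem map_mem_norm {G X : Type*} [Group G] [Group X] (π : G →* X) (hπ : Function.Surjective π) {K : Subgroup G} {y : G}
    (h : y ∈ Subgroup.normalizer (K : Set G)) : π y ∈ Subgroup.normalizer ((K.map π : Subgroup X) : Set X) := by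
  rw [Subgroup.mem_normalizer_iff]
  intro z
  obtain ⟨z, rfl⟩ := hπ z
  constructor
  · rintro ⟨a, ha, e⟩
    refine ⟨y * a * y⁻¹, (Subgroup.mem_normalizer_iff.1 h a).1 ha, ?_⟩
    rw [map_mul, map_mul, map_inv, e]
  · rintro ⟨a, ha, e⟩
    refine ⟨y⁻¹ * a * y, ?_, ?_⟩
    · have h1 := (Subgroup.mem_normalizer_iff.1 (inv_mem h) a).1 ha
      simpa using h1
    · rw [map_mul, map_mul, map_inv, e]
      group

theorem aux {p : ℕ} [Fact p.Prime] : ∀ (n : ℕ) (G : Type u) [Group G] [Finite G],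
    Cfsg.Agent.Lib.PSolv.PStep p G → ∀ (Q : Subgroup G), (Nat.card Q).Coprime p →
    ∀ P : Subgroup G, SylowIn p P ⊤ → Q ≤ Subgroup.normalizer (P : Set G) →
    ∀ x ∈ Subgroup.normalizer (Q : Set G), ∀ k : ℕ, x ^ p ^ k = 1 → Nat.card G = n →
    x ∈ Subgroup.centralizer (Q : Set G) := by
  intro n
  induction n using Nat.strong_induction_on with
  | _ n ih =>
  intro G _ _ hG Q hQ P hP hQP x hx k hxk hn
  by_cases htriv : (⊥ : Subgroup G) = ⊤
  · refine Subgroup.mem_centralizer_iff.2 fun q _ => ?_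
    have h1 : x ∈ (⊥ : Subgroup G) := by rw [htriv]; trivial
    rw [Subgroup.mem_bot] at h1
    rw [h1]; group
  obtain ⟨D, hDn, hD1, -, hDt⟩ := hG ⊥ ⊤ inferInstance inferInstance (bot_lt_iff_ne_bot.2 (Ne.symm htriv) |> fun h => by
    exact lt_of_le_of_ne bot_le htriv)
  have hDne : D ≠ ⊥ := (bot_lt_iff_ne_bot.1 hD1)
  haveI := hDn
  rw [Subgroup.relIndex_bot_left] at hDt
  let π := QuotientGroup.mk' D
  have hπ : Function.Surjective π := QuotientGroup.mk'_surjective D
  have hker : ∀ {z : G}, π z = 1 ↔ z ∈ D := by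
    intro z
    exact QuotientGroup.eq_one_iff z
  have hlt : Nat.card (G ⧸ D) < n := by
    have h1 := Subgroup.card_eq_card_quotient_mul_card_subgroup D
    have h2 : 1 < Nat.card D := by
      have : Nontrivial D := (Subgroup.nontrivial_iff_ne_bot D).2 hDne
      exact Finite.one_lt_card
    rw [← hn, h1]
    exact lt_mul_of_one_lt_right Nat.card_pos h2
  have hQbarc : (Nat.card (Q.map π)).Coprime p :=
    Nat.Coprime.coprime_dvd_left (Subgroup.card_map_dvd _ _) hQ
  have hPbar : SylowIn p (P.map π) ⊤ := sylowIn_map_top π hπ hP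
  have hQPbar : Q.map π ≤ Subgroup.normalizer ((P.map π : Subgroup (G ⧸ D)) : Set (G ⧸ D)) := by
    rintro _ ⟨q, hq, rfl⟩
    exact map_mem_norm π hπ (hQP hq)
  have hIH : π x ∈ Subgroup.centralizer ((Q.map π : Subgroup (G ⧸ D)) : Set (G ⧸ D)) :=
    ih _ hlt (G ⧸ D) (hG.quotient D) (Q.map π) hQbarc (P.map π) hPbar hQPbar (π x) (map_mem_norm π hπ hx) k
      (by rw [← map_pow, hxk, map_one]) rfl
  have hbD : ∀ q ∈ Q, ⁅x, q⁆ ∈ D := by
    intro q hq
    apply hker.1
    have h1 := (Subgroup.mem_centralizer_iff.1 hIH) (π q) (Subgroup.mem_map_of_mem π hq)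
    simp only [commutatorElement_def, map_mul, map_inv]
    rw [← h1]
    group
  have hbQ : ∀ q ∈ Q, ⁅x, q⁆ ∈ Q := by
    intro q hq
    have e : ⁅x, q⁆ = (x * q * x⁻¹) * q⁻¹ := by simp only [commutatorElement_def]
    rw [e]
    exact mul_mem ((Subgroup.mem_normalizer_iff.1 hx q).1 hq) (inv_mem hq)
  have hfinish : (∀ q ∈ Q, ⁅x, q⁆ = 1) → x ∈ Subgroup.centralizer (Q : Set G) := by
    intro hall
    refine Subgroup.mem_centralizer_iff.2 fun q hq => ?_
    have h2 : x * q * x⁻¹ * q⁻¹ = 1 := by simpa [commutatorElement_def] using hall q hq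
    have h3 : x * q * x⁻¹ = q := mul_inv_eq_one.1 h2
    calc q * x = x * q * x⁻¹ * x := by rw [h3]
      _ = x * q := by group
  rcases hDt with ⟨m, hm⟩ | hDc
  · -- `D` is a `p`-group
    have hDp : IsPGroup p D := IsPGroup.of_card hm
    exact hfinish fun q hq => eq_one_of_mem_isPGroup_of_mem_coprime hDp hQ (hbD q hq) (hbQ q hq)
  · -- `D` is a `p'`-group
    let Q₀ : Subgroup G := Q ⊓ D
    have hPC : P ≤ Subgroup.centralizer (Q₀ : Set G) := by
      intro t ht
      refine Subgroup.mem_centralizer_iff.2 fun h hh => ?_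
      have hh' := Subgroup.mem_inf.1 hh
      have h1 : h * t * h⁻¹ ∈ P := (Subgroup.mem_normalizer_iff.1 (hQP hh'.1) t).1 ht
      have h2 : (h * t * h⁻¹) * t⁻¹ ∈ P := mul_mem h1 (inv_mem ht)
      have h3 : (h * t * h⁻¹) * t⁻¹ ∈ D := by
        have e : (h * t * h⁻¹) * t⁻¹ = h * (t * h⁻¹ * t⁻¹) := by group
        rw [e]
        exact mul_mem hh'.2 (hDn.conj_mem _ (inv_mem hh'.2) t)
      have h4 := eq_one_of_mem_isPGroup_of_mem_coprime hP.2.1 hDc h2 h3
      have h5 : h * t * h⁻¹ = t := mul_inv_eq_one.1 h4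
      calc h * t = h * t * h⁻¹ * h := by group
        _ = t * h := by rw [h5]
    have hxQ₀ : x ∈ Subgroup.normalizer (Q₀ : Set G) := by
      rw [Subgroup.mem_normalizer_iff]
      intro z
      constructor
      · intro hz
        have hz' := Subgroup.mem_inf.1 hz
        exact Subgroup.mem_inf.2 ⟨(Subgroup.mem_normalizer_iff.1 hx z).1 hz'.1, hDn.conj_mem _ hz'.2 x⟩
      · intro hz
        have hz' := Subgroup.mem_inf.1 hz
        refine Subgroup.mem_inf.2 ⟨(Subgroup.mem_normalizer_iff.1 hx z).2 hz'.1, ?_⟩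
        have e : z = x⁻¹ * (x * z * x⁻¹) * x⁻¹⁻¹ := by group
        rw [e]
        exact hDn.conj_mem _ hz'.2 x⁻¹
    let C : Subgroup G := Subgroup.centralizer (Q₀ : Set G)
    have hxC : x ∈ Subgroup.normalizer (C : Set G) := by
      rw [mem_normalizer_iff_conjS]
      show conjS x (Subgroup.centralizer (Q₀ : Set G)) = _
      rw [← conj_centralizer_subgroup, mem_normalizer_iff_conjS.1 hxQ₀]
    let L : Subgroup G := C ⊔ Subgroup.zpowers x
    have hLN : L ≤ Subgroup.normalizer (C : Set G) := by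
      refine sup_le Subgroup.le_normalizer ?_
      rw [Subgroup.zpowers_le]
      exact hxC
    have hPL : SylowIn p P L := hP.of_le (hPC.trans le_sup_left) le_top
    have hxz : IsPGroup p (Subgroup.zpowers x) := by
      obtain ⟨j, -, hj⟩ := (Nat.dvd_prime_pow Fact.out).1 (orderOf_dvd_of_pow_eq_one hxk)
      exact isPGroup_zpowers_of_orderOf j hj
    obtain ⟨u, hu, hule⟩ := hPL.exists_conj_le le_sup_right hxz
    have h1 : u * x * u⁻¹ ∈ C := hPC (hule (conj_mem_conjS (Subgroup.mem_zpowers x)))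
    have h2 : x ∈ C := by
      have h3 := (Subgroup.mem_normalizer_iff.1 (inv_mem (hLN hu)) _).1 h1
      have e : u⁻¹ * (u * x * u⁻¹) * u⁻¹⁻¹ = x := by group
      rwa [e] at h3
    refine hfinish fun q hq => ?_
    set b := ⁅x, q⁆ with hb
    have hbQ₀ : b ∈ Q₀ := Subgroup.mem_inf.2 ⟨hbQ q hq, hbD q hq⟩
    have hxb : x * b = b * x := (Subgroup.mem_centralizer_iff.1 h2 b hbQ₀).symm
    have h3 : x * q * x⁻¹ = b * q := by
      rw [hb]
      simp only [commutatorElement_def]
      group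
    have h4 : ∀ j : ℕ, x ^ j * q * (x ^ j)⁻¹ = b ^ j * q := by
      intro j
      induction j with
      | zero => simp
      | succ j ihj =>
        have e : x ^ (j + 1) * q * (x ^ (j + 1))⁻¹ = x * (x ^ j * q * (x ^ j)⁻¹) * x⁻¹ := by
          rw [pow_succ']; group
        rw [e, ihj]
        have hc : Commute x (b ^ j) := Commute.pow_right hxb j
        calc x * (b ^ j * q) * x⁻¹ = (x * b ^ j) * q * x⁻¹ := by group
          _ = b ^ j * x * q * x⁻¹ := by rw [hc.eq]
          _ = b ^ j * (x * q * x⁻¹) := by group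
          _ = b ^ (j + 1) * q := by rw [h3, pow_succ]; group
    have h5 := h4 (p ^ k)
    rw [hxk] at h5
    have h6 : b ^ p ^ k = 1 := by
      have : q = b ^ p ^ k * q := by simpa using h5
      exact (mul_eq_right.1 this.symm)
    have hbp : IsPGroup p (Subgroup.zpowers b) := by
      obtain ⟨j, -, hj⟩ := (Nat.dvd_prime_pow Fact.out).1 (orderOf_dvd_of_pow_eq_one h6)
      exact isPGroup_zpowers_of_orderOf j hj
    exact eq_one_of_mem_isPGroup_of_mem_coprime hbp hQ (Subgroup.mem_zpowers b) (hbQ q hq)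

/-- Let G be a finite p-solvable group and Q a subgroup of order prime to p such that p divides the index of C_G(Q) in N_G(Q). Then Q normalizes no Sylow p-subgroup of G. -/
theorem result {G : Type*} [Group G] [Finite G] {p : ℕ} [Fact p.Prime]
    (hG : Cfsg.IsPSolvable p G) (Q : Subgroup G) (hQ : ¬ p ∣ Nat.card Q)
    (hA : p ∣ (Subgroup.centralizer (Q : Set G)).relIndex (Subgroup.normalizer (Q : Set G)))
    (P : Sylow p G) : ¬ Q ≤ Subgroup.normalizer ((P : Subgroup G) : Set G) := by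
  classical
  intro hQP
  have hPT : SylowIn p (P : Subgroup G) ⊤ := sylowIn_top_of_sylow P
  have hQc : (Nat.card Q).Coprime p := ((Nat.Prime.coprime_iff_not_dvd Fact.out).2 hQ).symm
  obtain ⟨T, hT⟩ := exists_sylowIn (p := p) (Subgroup.normalizer (Q : Set G))
  have hTC : T ≤ Subgroup.centralizer (Q : Set G) := by
    intro x hx
    obtain ⟨k, hk⟩ := hT.2.1 ⟨x, hx⟩
    have hxk : x ^ p ^ k = 1 := by simpa using congrArg Subtype.val hk
    exact aux (Nat.card G) G (Cfsg.Agent.Lib.PSolv.pStep_of_isPSolvable Fact.out hG) Q hQc P hPT hQP x (hT.1 hx) k hxk rfl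
  apply hT.2.2
  exact hA.trans (Subgroup.relIndex_dvd_of_le_left _ hTC)

end Cfsg.Agent.S1901
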