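import Cfsg.Statements.S1905
import Mathlib

set_option autoImplicit false
open Cfsg

namespace Cfsg.Agent.S1905


open scoped Pointwise

section aux
variable {S : Type*} [Group S]

theorem ord_conj (b x : S) : orderOf (b * x * b⁻¹) = orderOf x :=
  orderOf_injective (MulAut.conj b).toMonoidHom (MulAut.conj b).injective x

theorem inv_conj_cp {i j : S} (hi : i * i = 1) (hj : j * j = 1) (k : ℕ) :
    i * (i * j) ^ k = (j * i) ^ k * i := by
  have h1 : i * (i * j) * i⁻¹ = j * i := by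
    have : i⁻¹ = i := inv_eq_of_mul_eq_one_left hi
    rw [this, ← mul_assoc, hi, one_mul]
  have h2 : i * (i * j) ^ k * i⁻¹ = (j * i) ^ k := by rw [← conj_pow, h1]
  calc i * (i * j) ^ k = (i * (i * j) ^ k * i⁻¹) * i := by group
    _ = (j * i) ^ k * i := by rw [h2]

theorem ji_eq_inv {i j : S} (hi : i * i = 1) (hj : j * j = 1) : j * i = (i * j)⁻¹ := by
  have h1 : i⁻¹ = i := inv_eq_of_mul_eq_one_left hi
  have h2 : j⁻¹ = j := inv_eq_of_mul_eq_one_left hj
  rw [mul_inv_rev, h1, h2]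

theorem dih_odd [Finite S] {i j : S} (hi : i * i = 1) (hj : j * j = 1) (hodd : Odd (orderOf (i * j))) :
    ∃ b : S, b * b = 1 ∧ b * i * b⁻¹ = j := by
  obtain ⟨k, hk⟩ := hodd
  set c := i * j with hc
  have hinv : j * i = c⁻¹ := ji_eq_inv hi hj
  have hcn : c ^ (2 * k + 1) = 1 := by rw [← hk]; exact pow_orderOf_eq_one c
  have hcomm : i * c ^ k = (c⁻¹) ^ k * i := by rw [← hinv]; exact inv_conj_cp hi hj k
  have hbb : (c ^ k * i) * (c ^ k * i) = 1 := by
    calc (c ^ k * i) * (c ^ k * i) = c ^ k * (i * c ^ k) * i := by group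
      _ = c ^ k * ((c⁻¹) ^ k * i) * i := by rw [hcomm]
      _ = 1 := by
        rw [mul_assoc, mul_assoc, hi, mul_one, inv_pow]; group
  refine ⟨c ^ k * i, hbb, ?_⟩
  have hbinv : (c ^ k * i)⁻¹ = c ^ k * i := inv_eq_of_mul_eq_one_left hbb
  rw [hbinv]
  have h2k : c ^ k * c ^ k = c⁻¹ := by
    have : c ^ k * c ^ k * c = 1 := by rw [← hcn, pow_succ, two_mul, pow_add]
    exact eq_inv_of_mul_eq_one_left this
  calc c ^ k * i * i * (c ^ k * i) = c ^ k * (i * i) * (c ^ k * i) := by group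
    _ = (c ^ k * c ^ k) * i := by rw [hi]; group
    _ = c⁻¹ * i := by rw [h2k]
    _ = j * i * i := by rw [hinv]
    _ = j := by rw [mul_assoc, hi, mul_one]

theorem dih_even [Finite S] {i j : S} (hi : i * i = 1) (hj : j * j = 1) (heven : Even (orderOf (i * j))) :
    ∃ z : S, orderOf z = 2 ∧ z * i = i * z ∧ z * j = j * z := by
  set c := i * j with hc
  have hn0 : orderOf c ≠ 0 := (orderOf_pos c).ne'
  have h2 : 2 ∣ orderOf c := heven.two_dvd
  have hz : orderOf (c ^ (orderOf c / 2)) = 2 := orderOf_pow_orderOf_div hn0 h2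
  set z := c ^ (orderOf c / 2) with hzdef
  have hzz : z * z = 1 := by
    have := pow_orderOf_eq_one z
    rw [hz, pow_two] at this; exact this
  have hzinv : z⁻¹ = z := inv_eq_of_mul_eq_one_left hzz
  have hinv : j * i = c⁻¹ := ji_eq_inv hi hj
  have h3 : i * z = z⁻¹ * i := by
    have := inv_conj_cp hi hj (orderOf c / 2)
    rw [hinv, inv_pow] at this
    exact this
  have h4 : j * z = z⁻¹ * j := by
    have h5 : c = i * j := rfl
    have h6 : j * (j * i) ^ (orderOf c / 2) = (i * j) ^ (orderOf c / 2) * j := inv_conj_cp hj hi _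
    have h7 : (j * i) ^ (orderOf c / 2) = z⁻¹ := by rw [hinv, inv_pow]
    -- `j * z⁻¹ = z * j`, hence the claim
    rw [h7] at h6
    rw [hzinv] at h6 ⊢
    rw [← hc] at h6
    exact h6
  refine ⟨z, hz, ?_, ?_⟩
  · rw [h3, hzinv]
  · rw [h4, hzinv]

end aux


/-- Let M be a subgroup of even order of a finite group S such that M contains the centralizer in S of each of its involutions and the normal core of M in S has odd order. Then all involutions of S are conjugate. If moreover N_S(X) ≤ M for a Sylow 2-subgroup X of M and I is an involution in the centre of X, then all involutions of M are conjugate in M and M = M₀ C_M(I) for some subgroup M₀ of M of odd order. -/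
theorem result {S : Type*} [Group S] [Finite S] (M : Subgroup S) (hM : Even (Nat.card M))
    (hC : ∀ i ∈ M, orderOf i = 2 → Subgroup.centralizer ({i} : Set S) ≤ M) (hcore : Odd (Nat.card M.normalCore)) :
    (∀ x y : S, orderOf x = 2 → orderOf y = 2 → IsConj x y) ∧
      ∀ (X : Sylow 2 M) (I : M), I ∈ (Subgroup.center ↥(X : Subgroup ↥M)).map (X : Subgroup ↥M).subtype → orderOf I = 2 →
        Subgroup.normalizer (((X : Subgroup M).map M.subtype : Subgroup S) : Set S) ≤ M →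
        (∀ x y : M, orderOf x = 2 → orderOf y = 2 → IsConj x y) ∧
          ∃ M₀ : Subgroup M, Odd (Nat.card M₀) ∧
            ∀ m : M, ∃ a ∈ M₀, ∃ c ∈ Subgroup.centralizer ({I} : Set M), m = a * c := by

  classical
  have hinvol : ∀ x : S, orderOf x = 2 → x * x = 1 := by
    intro x hx
    have := pow_orderOf_eq_one x
    rw [hx, pow_two] at this; exact this
  -- an involution of `M`
  have h2M : 2 ∣ Nat.card M := hM.two_dvd
  haveI : Fact (Nat.Prime 2) := ⟨Nat.prime_two⟩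
  obtain ⟨i₀', hi₀'⟩ := exists_prime_orderOf_dvd_card' (G := M) 2 h2M
  have hi₀o : orderOf ((i₀' : M) : S) = 2 := by rw [Subgroup.orderOf_coe]; exact hi₀'
  set i₀ : S := (i₀' : S) with hi₀
  have hi₀M : i₀ ∈ M := i₀'.2
  -- either in `M` or conjugate to a given involution of `M`
  have hA : ∀ i ∈ M, orderOf i = 2 → ∀ j : S, orderOf j = 2 → j ∈ M ∨ IsConj i j := by
    intro i hiM hio j hjo
    rcases Nat.even_or_odd (orderOf (i * j)) with he | ho
    · left
      obtain ⟨z, hz, hzi, hzj⟩ := dih_even (hinvol i hio) (hinvol j hjo) he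
      have hzM : z ∈ M := hC i hiM hio (Subgroup.mem_centralizer_singleton_iff.2 hzi)
      exact hC z hzM hz (Subgroup.mem_centralizer_singleton_iff.2 hzj.symm)
    · right
      obtain ⟨b, -, hb⟩ := dih_odd (hinvol i hio) (hinvol j hjo) ho
      exact isConj_iff.2 ⟨b, hb⟩
  have hconj : ∀ x : S, orderOf x = 2 → IsConj i₀ x := by
    intro x hx
    by_contra hnc
    have hcore' : x ∈ M.normalCore := by
      intro b
      have hob : orderOf (b * x * b⁻¹) = 2 := by
        rw [← hx]; exact ord_conj b x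
      rcases hA i₀ hi₀M hi₀o _ hob with h | h
      · exact h
      · exfalso
        apply hnc
        exact h.trans (isConj_iff.2 ⟨b⁻¹, by group⟩)
    have hord : orderOf (⟨x, hcore'⟩ : M.normalCore) = 2 := by
      rw [← Subgroup.orderOf_coe]; exact hx
    have h2 : 2 ∣ Nat.card M.normalCore := by
      rw [← hord]; exact orderOf_dvd_natCard _
    obtain ⟨k, hk⟩ := hcore
    omega
  refine ⟨fun x y hx hy => (hconj x hx).symm.trans (hconj y hy), ?_⟩
  intro X I hI hIo hN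
  have hIoS : orderOf (I : S) = 2 := by rw [Subgroup.orderOf_coe]; exact hIo
  set X' : Subgroup S := (X : Subgroup M).map M.subtype with hX'
  -- `I` commutes with `X`
  obtain ⟨Iz, hIz, hIzeq⟩ := Subgroup.mem_map.1 hI
  have hIX : ∀ x ∈ X', (I : S) * x = x * (I : S) := by
    intro x hx
    obtain ⟨y, hy, rfl⟩ := Subgroup.mem_map.1 hx
    have hIz' : I = ((Iz : ↥(X : Subgroup M)) : M) := hIzeq.symm
    have h1 : Iz * ⟨y, hy⟩ = ⟨y, hy⟩ * Iz := (Subgroup.mem_center_iff.1 hIz ⟨y, hy⟩).symm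
    have h2 := congrArg (fun t : ↥(X : Subgroup M) => (((t : M) : S))) h1
    simp only [Subgroup.coe_mul] at h2
    rw [hIz']
    exact h2
  -- (a): every involution of `M` is `M`-conjugate to `I`
  have hconjM : ∀ k : S, k ∈ M → orderOf k = 2 → ∃ g ∈ M, g * k * g⁻¹ = (I : S) := by
    intro k hkM hko
    -- move `k` into `X`
    have hk2 : IsPGroup 2 (Subgroup.zpowers (⟨k, hkM⟩ : M)) := by
      apply IsPGroup.of_card (n := 1)
      rw [Nat.card_zpowers, pow_one, ← Subgroup.orderOf_coe]; exact hko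
    obtain ⟨Pk, hPk⟩ := hk2.exists_le_sylow
    obtain ⟨m₁, hm₁⟩ := MulAction.exists_smul_eq M Pk X
    have hk1 : m₁ * (⟨k, hkM⟩ : M) * m₁⁻¹ ∈ (X : Subgroup M) := by
      have h0 : ((m₁ • Pk : Sylow 2 M) : Subgroup M) = MulAut.conj m₁ • (Pk : Subgroup M) := rfl
      rw [← hm₁, h0]
      exact Subgroup.smul_mem_pointwise_smul _ (MulAut.conj m₁) (Pk : Subgroup M) (hPk (Subgroup.mem_zpowers _))
    set k' : M := m₁ * (⟨k, hkM⟩ : M) * m₁⁻¹ with hk'
    have hk'o : orderOf (k' : S) = 2 := by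
      have : ((k' : M) : S) = (m₁ : S) * k * (m₁ : S)⁻¹ := rfl
      rw [this, ord_conj]; exact hko
    -- conjugate `I` to `k'`
    obtain ⟨g, hg⟩ : ∃ g : S, g * (k' : S) * g⁻¹ = (I : S) := by
      have := (hconj _ hk'o).symm.trans (hconj _ hIoS)
      exact isConj_iff.1 this
    -- `g⁻¹ X' g` centralizes `k'`
    have hcent : X'.map (MulAut.conj g⁻¹).toMonoidHom ≤ Subgroup.centralizer ({(k' : S)} : Set S) := by
      rintro _ ⟨x, hx, rfl⟩
      rw [Subgroup.mem_centralizer_singleton_iff]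
      simp only [MulEquiv.coe_toMonoidHom, MulAut.conj_apply, inv_inv]
      have h1 := hIX x hx
      rw [← hg] at h1
      have : g⁻¹ * x * g * (k' : S) * (g⁻¹ * x * g)⁻¹ = k' := by
        have h2 : x * (g * (k' : S) * g⁻¹) * x⁻¹ = g * (k' : S) * g⁻¹ := by
          rw [← h1]; group
        calc g⁻¹ * x * g * (k' : S) * (g⁻¹ * x * g)⁻¹ = g⁻¹ * (x * (g * (k' : S) * g⁻¹) * x⁻¹) * g := by group
          _ = k' := by rw [h2]; group
      calc g⁻¹ * x * g * (k' : S) = (g⁻¹ * x * g * (k' : S) * (g⁻¹ * x * g)⁻¹) * (g⁻¹ * x * g) := by group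
        _ = (k' : S) * (g⁻¹ * x * g) := by rw [this]
    have hleM : X'.map (MulAut.conj g⁻¹).toMonoidHom ≤ M := hcent.trans (hC _ k'.2 hk'o)
    -- so it is a Sylow subgroup of `M`
    let Y : Subgroup M := (X'.map (MulAut.conj g⁻¹).toMonoidHom).subgroupOf M
    have hYmap : Y.map M.subtype = X'.map (MulAut.conj g⁻¹).toMonoidHom :=
      Subgroup.map_subgroupOf_eq_of_le hleM
    have hcardX' : Nat.card X' = Nat.card (X : Subgroup M) :=
      Nat.card_congr ((X : Subgroup M).equivMapOfInjective M.subtype M.subtype_injective).symm.toEquiv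
    have hcardY : Nat.card Y = Nat.card (X : Subgroup M) := by
      have h1 : Nat.card Y = Nat.card (Y.map M.subtype) :=
        Nat.card_congr (Y.equivMapOfInjective M.subtype M.subtype_injective).toEquiv
      rw [h1, hYmap, ← hcardX']
      exact Nat.card_congr ((X'.equivMapOfInjective _ (MulAut.conj g⁻¹).injective).symm.toEquiv)
    have hYp : IsPGroup 2 Y := by
      obtain ⟨n, hn⟩ := IsPGroup.iff_card.1 X.isPGroup'
      exact IsPGroup.of_card (n := n) (by rw [hcardY, hn])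
    obtain ⟨Q, hQ⟩ := hYp.exists_le_sylow
    have hQX : Nat.card (Q : Subgroup M) = Nat.card (X : Subgroup M) := by
      rw [Sylow.card_eq_multiplicity, Sylow.card_eq_multiplicity]
    have hYQ : Y = Q := Subgroup.eq_of_le_of_card_ge hQ (by rw [hQX, hcardY])
    obtain ⟨m₂, hm₂⟩ := MulAction.exists_smul_eq M Q X
    -- `m₂ g⁻¹` normalizes `X'`
    have hnorm : (m₂ : S) * g⁻¹ ∈ Subgroup.normalizer ((X' : Subgroup S) : Set S) := by
      rw [Subgroup.mem_normalizer_iff]
      have hmapX : X' = (Y.map (MulAut.conj m₂).toMonoidHom).map M.subtype := by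
        have h1 : (Y.map (MulAut.conj m₂).toMonoidHom) = (X : Subgroup M) := by
          rw [hYQ, ← hm₂]; rfl
        rw [h1]
      have hchar : ∀ x, x ∈ X' ↔ ∃ y ∈ X', x = (m₂ : S) * (g⁻¹ * y * g) * (m₂ : S)⁻¹ := by
        intro x
        constructor
        · intro hx
          rw [hmapX] at hx
          obtain ⟨y, hy, rfl⟩ := Subgroup.mem_map.1 hx
          obtain ⟨y', hy', rfl⟩ := Subgroup.mem_map.1 hy
          have hy'' : (y' : S) ∈ Y.map M.subtype := Subgroup.mem_map_of_mem _ hy'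
          rw [hYmap] at hy''
          obtain ⟨u, hu, hue⟩ := Subgroup.mem_map.1 hy''
          refine ⟨u, hu, ?_⟩
          simp only [MulEquiv.coe_toMonoidHom, MulAut.conj_apply, inv_inv] at hue
          simp only [Subgroup.subtype_apply, MulEquiv.coe_toMonoidHom, MulAut.conj_apply, Subgroup.coe_mul, InvMemClass.coe_inv]
          rw [hue]
        · rintro ⟨y, hy, rfl⟩
          have h1 : g⁻¹ * y * g ∈ X'.map (MulAut.conj g⁻¹).toMonoidHom :=
            ⟨y, hy, by simp⟩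
          rw [← hYmap] at h1
          obtain ⟨u, hu, hue⟩ := Subgroup.mem_map.1 h1
          rw [hmapX]
          refine Subgroup.mem_map.2 ⟨m₂ * u * m₂⁻¹, Subgroup.mem_map.2 ⟨u, hu, rfl⟩, ?_⟩
          simp only [Subgroup.subtype_apply, Subgroup.coe_mul, InvMemClass.coe_inv] at hue ⊢
          rw [hue]
      intro y
      constructor
      · intro hy
        exact (hchar _).2 ⟨y, hy, by group⟩
      · intro hy
        obtain ⟨u, hu, hue⟩ := (hchar _).1 hy
        have : y = u := by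
          have h1 : (m₂ : S) * g⁻¹ * y * ((m₂ : S) * g⁻¹)⁻¹ = (m₂ : S) * g⁻¹ * u * ((m₂ : S) * g⁻¹)⁻¹ := by
            rw [hue]; group
          calc y = ((m₂ : S) * g⁻¹)⁻¹ * ((m₂ : S) * g⁻¹ * y * ((m₂ : S) * g⁻¹)⁻¹) * ((m₂ : S) * g⁻¹) := by group
            _ = ((m₂ : S) * g⁻¹)⁻¹ * ((m₂ : S) * g⁻¹ * u * ((m₂ : S) * g⁻¹)⁻¹) * ((m₂ : S) * g⁻¹) := by rw [h1]
            _ = u := by group
        rw [this]; exact hu
    have hgM : g ∈ M := by
      have h1 := hN hnorm
      have h2 : g⁻¹ ∈ M := by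
        have := M.mul_mem (M.inv_mem m₂.2) h1
        simpa using this
      simpa using M.inv_mem h2
    refine ⟨g * (m₁ : S), M.mul_mem hgM m₁.2, ?_⟩
    have : ((k' : M) : S) = (m₁ : S) * k * (m₁ : S)⁻¹ := rfl
    rw [← hg, this]; group
  have hconjM' : ∀ x y : M, orderOf x = 2 → orderOf y = 2 → IsConj x y := by
    intro x y hx hy
    obtain ⟨g₁, hg₁, he₁⟩ := hconjM x x.2 (by rw [Subgroup.orderOf_coe]; exact hx)
    obtain ⟨g₂, hg₂, he₂⟩ := hconjM y y.2 (by rw [Subgroup.orderOf_coe]; exact hy)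
    rw [isConj_iff]
    refine ⟨⟨g₂, hg₂⟩⁻¹ * ⟨g₁, hg₁⟩, ?_⟩
    apply Subtype.ext
    simp only [Subgroup.coe_mul, InvMemClass.coe_inv, mul_inv_rev, inv_inv]
    have : (x : S) = g₁⁻¹ * (I : S) * g₁ := by rw [← he₁]; group
    rw [this]
    have h2 : (y : S) = g₂⁻¹ * (I : S) * g₂ := by rw [← he₂]; group
    rw [h2]
    group
  refine ⟨hconjM', ?_⟩
  -- `M` is proper
  obtain ⟨g, hg⟩ : ∃ g : S, g ∉ M := by
    by_contra hall
    push Not at hall
    have hcoreTop : M.normalCore = ⊤ := by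
      rw [eq_top_iff]; intro x _ b; exact hall _
    rw [hcoreTop, Subgroup.card_top] at hcore
    have hMtop : M = ⊤ := eq_top_iff.2 (fun x _ => hall x)
    rw [hMtop, Subgroup.card_top] at hM
    exact (Nat.not_even_iff_odd.2 hcore) hM
  -- strong embedding
  have hSE : ∀ t ∈ M, orderOf t = 2 → g⁻¹ * t * g ∉ M := by
    intro t htM hto hgt
    obtain ⟨m, hm, hme⟩ := hconjM t htM hto
    have h2 : orderOf (g⁻¹ * t * g) = 2 := by
      have := ord_conj g⁻¹ t
      rw [inv_inv] at this; rw [this]; exact hto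
    obtain ⟨m', hm', hme'⟩ := hconjM _ hgt h2
    have hc : m' * g⁻¹ * m⁻¹ ∈ Subgroup.centralizer ({(I : S)} : Set S) := by
      rw [Subgroup.mem_centralizer_singleton_iff]
      have h3 : (I : S) = m * t * m⁻¹ := hme.symm
      have h4 : (I : S) = m' * (g⁻¹ * t * g) * m'⁻¹ := hme'.symm
      have h5 : m' * g⁻¹ * m⁻¹ * (I : S) * (m' * g⁻¹ * m⁻¹)⁻¹ = (I : S) := by
        nth_rewrite 1 [h3]
        rw [h4]; group
      calc m' * g⁻¹ * m⁻¹ * (I : S) = (m' * g⁻¹ * m⁻¹ * (I : S) * (m' * g⁻¹ * m⁻¹)⁻¹) * (m' * g⁻¹ * m⁻¹) := by group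
        _ = (I : S) * (m' * g⁻¹ * m⁻¹) := by rw [h5]
    have h6 := hC _ I.2 hIoS hc
    apply hg
    have h7 : g⁻¹ = m'⁻¹ * (m' * g⁻¹ * m⁻¹) * m := by group
    have h8 : g⁻¹ ∈ M := by
      rw [h7]; exact M.mul_mem (M.mul_mem (M.inv_mem hm') h6) hm
    simpa using M.inv_mem h8
  set a : S := g * (I : S) * g⁻¹ with ha
  have hao : orderOf a = 2 := by rw [ha, ord_conj]; exact hIoS
  have haM : a ∉ M := by
    intro haM
    have := hSE a haM hao
    apply this
    have h1 : g⁻¹ * a * g = (I : S) := by rw [ha]; group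
    rw [h1]; exact I.2
  -- the reflections
  have hrefl : ∀ i ∈ M, orderOf i = 2 → ∃ u ∈ M, (g * u) * (g * u) = 1 ∧ (g * u) * i * (g * u)⁻¹ = a := by
    intro i hiM hio
    have hodd : Odd (orderOf (i * a)) := by
      rw [← Nat.not_even_iff_odd]
      intro he
      obtain ⟨z, hz, hzi, hza⟩ := dih_even (hinvol i hio) (hinvol a hao) he
      have hzM : z ∈ M := hC i hiM hio (Subgroup.mem_centralizer_singleton_iff.2 hzi)
      exact haM (hC z hzM hz (Subgroup.mem_centralizer_singleton_iff.2 hza.symm))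
    obtain ⟨b, hbb, hb⟩ := dih_odd (hinvol i hio) (hinvol a hao) hodd
    -- `g⁻¹ b ∈ M`
    obtain ⟨m, hm, hme⟩ := hconjM i hiM hio
    have hc : g⁻¹ * b * m⁻¹ ∈ Subgroup.centralizer ({(I : S)} : Set S) := by
      rw [Subgroup.mem_centralizer_singleton_iff]
      have h3 : i = m⁻¹ * (I : S) * m := by rw [← hme]; group
      have h5 : g⁻¹ * b * m⁻¹ * (I : S) * (g⁻¹ * b * m⁻¹)⁻¹ = (I : S) := by
        have h6 : b * i * b⁻¹ = g * (I : S) * g⁻¹ := hb
        rw [h3] at h6
        calc g⁻¹ * b * m⁻¹ * (I : S) * (g⁻¹ * b * m⁻¹)⁻¹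
            = g⁻¹ * (b * (m⁻¹ * (I : S) * m) * b⁻¹) * g := by group
          _ = (I : S) := by rw [h6]; group
      calc g⁻¹ * b * m⁻¹ * (I : S) = (g⁻¹ * b * m⁻¹ * (I : S) * (g⁻¹ * b * m⁻¹)⁻¹) * (g⁻¹ * b * m⁻¹) := by group
        _ = (I : S) * (g⁻¹ * b * m⁻¹) := by rw [h5]
    have h6 := hC _ I.2 hIoS hc
    have h7 : g⁻¹ * b ∈ M := by
      have := M.mul_mem h6 hm
      simpa using this
    refine ⟨g⁻¹ * b, h7, ?_, ?_⟩
    · rw [mul_inv_cancel_left]; exact hbb
    · rw [mul_inv_cancel_left]; exact hb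
  -- the two point stabilizer
  let M₀' : Subgroup S := M ⊓ M.map (MulAut.conj g).toMonoidHom
  let M₀ : Subgroup M := M₀'.subgroupOf M
  have hmem₀ : ∀ x : M, x ∈ M₀ ↔ g⁻¹ * (x : S) * g ∈ M := by
    intro x
    show (x : S) ∈ M₀' ↔ _
    constructor
    · rintro ⟨-, y, hy, hye⟩
      have hye' : g * y * g⁻¹ = (x : S) := hye
      rw [← hye']
      have : g⁻¹ * (g * y * g⁻¹) * g = y := by group
      rw [this]; exact hy
    · intro h
      refine ⟨x.2, g⁻¹ * (x : S) * g, h, ?_⟩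
      show g * (g⁻¹ * (x : S) * g) * g⁻¹ = x
      group
  refine ⟨M₀, ?_, ?_⟩
  · -- odd order
    rw [← Nat.not_even_iff_odd]
    intro he
    obtain ⟨t, ht⟩ := exists_prime_orderOf_dvd_card' (G := M₀) 2 he.two_dvd
    have hto : orderOf ((t : M) : S) = 2 := by
      rw [Subgroup.orderOf_coe, Subgroup.orderOf_coe]; exact ht
    exact hSE _ (t : M).2 hto ((hmem₀ _).1 t.2)
  · intro m
    -- `w I w⁻¹ = m I m⁻¹`
    have hio : orderOf ((m : S) * (I : S) * (m : S)⁻¹) = 2 := by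
      rw [ord_conj]; exact hIoS
    have hiM : (m : S) * (I : S) * (m : S)⁻¹ ∈ M := M.mul_mem (M.mul_mem m.2 I.2) (M.inv_mem m.2)
    obtain ⟨u₁, hu₁, hb₁, he₁⟩ := hrefl _ I.2 hIoS
    obtain ⟨u₂, hu₂, hb₂, he₂⟩ := hrefl _ hiM hio
    have hbinv₁ : (g * u₁)⁻¹ = g * u₁ := inv_eq_of_mul_eq_one_left hb₁
    have hbinv₂ : (g * u₂)⁻¹ = g * u₂ := inv_eq_of_mul_eq_one_left hb₂
    -- the element `w = b₂ b₁`
    let w : S := (g * u₂) * (g * u₁)
    have hw1 : w = u₂⁻¹ * u₁ := by
      have h1 : g * u₂ = (g * u₂)⁻¹ := hbinv₂.symm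
      show (g * u₂) * (g * u₁) = _
      rw [h1]; group
    have hwM : w ∈ M := by rw [hw1]; exact M.mul_mem (M.inv_mem hu₂) hu₁
    have hw2 : g⁻¹ * w * g = u₂ * u₁⁻¹ := by
      have h1 : g * u₁ = (g * u₁)⁻¹ := hbinv₁.symm
      show g⁻¹ * ((g * u₂) * (g * u₁)) * g = _
      rw [h1]; group
    have hwM₀ : (⟨w, hwM⟩ : M) ∈ M₀ := by
      rw [hmem₀]
      show g⁻¹ * w * g ∈ M
      rw [hw2]; exact M.mul_mem hu₂ (M.inv_mem hu₁)
    have hwI : w * (I : S) * w⁻¹ = (m : S) * (I : S) * (m : S)⁻¹ := by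
      -- `b₁ I b₁ = a`, `b₂ (m I m⁻¹) b₂ = a`
      have h1 : (g * u₁) * (I : S) * (g * u₁) = a := by
        have := he₁; rw [hbinv₁] at this; exact this
      have h2 : (g * u₂) * ((m : S) * (I : S) * (m : S)⁻¹) * (g * u₂) = a := by
        have := he₂; rw [hbinv₂] at this; exact this
      have h3 : (g * u₂) * a * (g * u₂) = (m : S) * (I : S) * (m : S)⁻¹ := by
        rw [← h2]
        calc (g * u₂) * ((g * u₂) * ((m : S) * (I : S) * (m : S)⁻¹) * (g * u₂)) * (g * u₂)
            = ((g * u₂) * (g * u₂)) * ((m : S) * (I : S) * (m : S)⁻¹) * ((g * u₂) * (g * u₂)) := by group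
          _ = _ := by rw [hb₂]; group
      show (g * u₂) * (g * u₁) * (I : S) * ((g * u₂) * (g * u₁))⁻¹ = _
      rw [mul_inv_rev, hbinv₁, hbinv₂, ← h3, ← h1]
      group
    refine ⟨⟨w, hwM⟩, hwM₀, ⟨w, hwM⟩⁻¹ * m, ?_, by group⟩
    rw [Subgroup.mem_centralizer_singleton_iff]
    apply Subtype.ext
    simp only [Subgroup.coe_mul, InvMemClass.coe_inv]
    have h5 : (m : S) * (I : S) = w * (I : S) * w⁻¹ * (m : S) := by rw [hwI]; group
    calc w⁻¹ * (m : S) * (I : S) = w⁻¹ * ((m : S) * (I : S)) := by group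
      _ = w⁻¹ * (w * (I : S) * w⁻¹ * (m : S)) := by rw [h5]
      _ = (I : S) * (w⁻¹ * (m : S)) := by group


end Cfsg.Agent.S1905
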