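import Cfsg.Statements.S1907
import Mathlib
import Cfsg.Agent.Lib.Techniques.TraceSplit
import Cfsg.Agent.Lib.Techniques.NormChief

set_option autoImplicit false
open Cfsg

namespace Cfsg.Agent.S1907

open Cfsg.Agent.Lib.Techniques


/-- Let P be a Sylow p-subgroup of a finite group G, H = P ∩ O_{p',p}(G), N = N_G(H) and D = O_{p'}(G). (a) If y is an element of p-power order of N and d ∈ D with d⁻¹ y d ∈ N, then d = d₁ d₂ with d₁ ∈ C_D(y) and d₂ ∈ C_D(H). (b) Two elements of P that are conjugate in G are conjugate in N. -/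
theorem result {G : Type*} [Group G] [Finite G] {p : ℕ} [Fact p.Prime] (P : Sylow p G) :
    (∀ y ∈ Subgroup.normalizer (((P : Subgroup G) ⊓ Cfsg.pPrimePCore p G : Subgroup G) : Set G), (∃ k : ℕ, orderOf y = p ^ k) →
      ∀ d ∈ Cfsg.pPrimeCore p G, d⁻¹ * y * d ∈ Subgroup.normalizer (((P : Subgroup G) ⊓ Cfsg.pPrimePCore p G : Subgroup G) : Set G) →
        ∃ d₁ ∈ Cfsg.pPrimeCore p G ⊓ Subgroup.centralizer ({y} : Set G),
          ∃ d₂ ∈ Cfsg.pPrimeCore p G ⊓ Subgroup.centralizer (((P : Subgroup G) ⊓ Cfsg.pPrimePCore p G : Subgroup G) : Set G), d = d₁ * d₂) ∧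
    ∀ x y : G, x ∈ (P : Subgroup G) → y ∈ (P : Subgroup G) → IsConj x y →
      ∃ n ∈ Subgroup.normalizer (((P : Subgroup G) ⊓ Cfsg.pPrimePCore p G : Subgroup G) : Set G), n * x * n⁻¹ = y := by
  classical
  set D := Cfsg.pPrimeCore p G with hDdef
  set E := Cfsg.pPrimePCore p G with hEdef
  set H : Subgroup G := (P : Subgroup G) ⊓ E with hHdef
  set N : Subgroup G := Subgroup.normalizer (H : Set G) with hNdef
  haveI hDn : D.Normal := Cfsg.Agent.Lib.Core.pPrimeCore_normal p G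
  have hDc : (Nat.card D).Coprime p := Cfsg.Agent.Lib.Core.pPrimeCore_coprime p G
  let π := QuotientGroup.mk' D
  have hπ : Function.Surjective π := QuotientGroup.mk'_surjective D
  have hker : ∀ {x : G}, π x = 1 ↔ x ∈ D := by
    intro x
    exact QuotientGroup.eq_one_iff x
  haveI hEn : E.Normal := (Cfsg.Agent.Lib.Core.pCore_normal p (G ⧸ D)).comap π
  have hDE : D ≤ E := by
    intro x hx
    show π x ∈ Cfsg.pCore p (G ⧸ D)
    rw [hker.2 hx]
    exact one_mem _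
  have hPp : IsPGroup p (P : Subgroup G) := P.isPGroup'
  have hST : SylowIn p (P : Subgroup G) ⊤ := sylowIn_top_of_sylow P
  have hHS : SylowIn p H E := hST.inf_of_normal le_top (fun g _ => by
    rw [Subgroup.mem_normalizer_iff]
    intro x
    constructor
    · exact fun hx => hEn.conj_mem x hx g
    · intro hx
      have e : x = g⁻¹ * (g * x * g⁻¹) * g⁻¹⁻¹ := by group
      rw [e]
      exact hEn.conj_mem _ hx g⁻¹)
  have hHD : ∀ {x : G}, x ∈ H → x ∈ D → x = 1 := fun hx hd =>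
    eq_one_of_mem_isPGroup_of_mem_coprime hPp hDc hx.1 hd
  have hDN_C : ∀ c ∈ D, c ∈ N → c ∈ Subgroup.centralizer (H : Set G) := by
    intro c hcD hcN
    refine Subgroup.mem_centralizer_iff.2 fun h hh => ?_
    have h1 : c * h * c⁻¹ ∈ H := (Subgroup.mem_normalizer_iff.1 hcN h).1 hh
    have h2 : (c * h * c⁻¹) * h⁻¹ ∈ H := mul_mem h1 (inv_mem hh)
    have h3 : (c * h * c⁻¹) * h⁻¹ ∈ D := by
      have e : (c * h * c⁻¹) * h⁻¹ = c * (h * c⁻¹ * h⁻¹) := by group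
      rw [e]
      exact mul_mem hcD (hDn.conj_mem _ (inv_mem hcD) h)
    have h4 := hHD h2 h3
    have h5 : c * h * c⁻¹ = h := mul_inv_eq_one.1 h4
    calc h * c = c * h * c⁻¹ * c := by rw [h5]
      _ = c * h := by group
  have hC_N : ∀ c, c ∈ Subgroup.centralizer (H : Set G) → c ∈ N := fun c hc =>
    Subgroup.centralizer_le_normalizer _ hc
  have hPN : (P : Subgroup G) ≤ N := by
    intro x hx
    rw [hNdef, Subgroup.mem_normalizer_iff]
    intro h
    constructor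
    · intro hh
      obtain ⟨h1, h2⟩ := Subgroup.mem_inf.1 hh
      exact Subgroup.mem_inf.2 ⟨mul_mem (mul_mem hx h1) (inv_mem hx), hEn.conj_mem _ h2 x⟩
    · intro hh
      obtain ⟨h1, h2⟩ := Subgroup.mem_inf.1 hh
      have e : h = x⁻¹ * (x * h * x⁻¹) * x := by group
      refine Subgroup.mem_inf.2 ⟨?_, ?_⟩
      · rw [e]; exact mul_mem (mul_mem (inv_mem hx) h1) hx
      · rw [e]
        have := hEn.conj_mem _ h2 x⁻¹
        simpa using this
  -- part (a)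
  have keyA : ∀ y ∈ N, (∃ k : ℕ, orderOf y = p ^ k) → ∀ d ∈ D, d⁻¹ * y * d ∈ N →
      ∃ d₁ ∈ D ⊓ Subgroup.centralizer ({y} : Set G), ∃ d₂ ∈ D ⊓ Subgroup.centralizer (H : Set G), d = d₁ * d₂ := by
    rintro y hyN ⟨k, hk⟩ d hd hyd
    set y' := d⁻¹ * y * d with hy'
    let C₀ : Subgroup G := D ⊓ N
    have hC₀c : (Nat.card C₀).Coprime p :=
      Nat.Coprime.coprime_dvd_left (Subgroup.card_dvd_of_le inf_le_left) hDc
    let Y : Subgroup G := Subgroup.zpowers y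
    have hYp : IsPGroup p Y := isPGroup_zpowers_of_orderOf k hk
    have hyC₀ : ∀ c ∈ C₀, y * c * y⁻¹ ∈ C₀ := fun c hc =>
      Subgroup.mem_inf.2 ⟨hDn.conj_mem _ (Subgroup.mem_inf.1 hc).1 y, mul_mem (mul_mem hyN (Subgroup.mem_inf.1 hc).2) (inv_mem hyN)⟩
    have hYN : Y ≤ Subgroup.normalizer (C₀ : Set G) := by
      rw [Subgroup.zpowers_le, Subgroup.mem_normalizer_iff]
      intro c
      refine ⟨hyC₀ c, fun hc => ?_⟩
      have h1 : y⁻¹ * (y * c * y⁻¹) * y = c := by group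
      rw [← h1]
      have hc' := Subgroup.mem_inf.1 hc
      refine Subgroup.mem_inf.2 ⟨?_, mul_mem (mul_mem (inv_mem hyN) hc'.2) hyN⟩
      have := hDn.conj_mem _ hc'.1 y⁻¹
      simpa using this
    let L : Subgroup G := Y ⊔ C₀
    have hLmem : ∀ x ∈ L, ∃ a ∈ Y, ∃ b ∈ C₀, x = a * b := fun x hx => by
      have hx' : x ∈ C₀ ⊔ Y := by rw [sup_comm]; exact hx
      obtain ⟨m, hm, t, ht, hab⟩ := mem_sup_of_le_normalizer hYN hx'
      refine ⟨t, ht, t⁻¹ * m * t, ?_, by rw [hab]; group⟩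
      have h1 := (Subgroup.mem_normalizer_iff.1 (hYN (inv_mem ht)) m).1 hm
      simpa using h1
    have hYC : ∀ {x : G}, x ∈ Y → x ∈ C₀ → x = 1 := fun hx hc =>
      eq_one_of_mem_isPGroup_of_mem_coprime hYp hC₀c hx hc
    have hYS : SylowIn p Y L := by
      obtain ⟨T, hYT, hT⟩ := exists_sylowIn_ge (le_sup_left : Y ≤ L) hYp
      have hTY : T ≤ Y := by
        intro t ht
        obtain ⟨a, ha, b, hb, hab⟩ := hLmem t (hT.1 ht)
        have h1 : b = a⁻¹ * t := by rw [hab]; group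
        have hbT : b ∈ T := by rw [h1]; exact mul_mem (inv_mem (hYT ha)) ht
        have hb1 : b = 1 := eq_one_of_mem_isPGroup_of_mem_coprime hT.2.1 hC₀c hbT hb
        rw [hab, hb1, mul_one]
        exact ha
      have : T = Y := le_antisymm hTY hYT
      rwa [← this]
    -- `y'` lies in `C₀ y`
    have hc₀ : y' * y⁻¹ ∈ C₀ := by
      refine Subgroup.mem_inf.2 ⟨?_, ?_⟩
      · have e : y' * y⁻¹ = d⁻¹ * (y * d * y⁻¹) := by rw [hy']; group
        rw [e]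
        exact mul_mem (inv_mem hd) (hDn.conj_mem _ hd y)
      · exact mul_mem hyd (inv_mem hyN)
    have hy'L : y' ∈ L := by
      have e : y' = (y' * y⁻¹) * y := by group
      rw [e]
      exact mul_mem (Subgroup.mem_sup_right hc₀) (Subgroup.mem_sup_left (Subgroup.mem_zpowers y))
    have hy'p : IsPGroup p (Subgroup.zpowers y') := by
      refine isPGroup_zpowers_of_orderOf k ?_
      rw [hy', ← hk]
      have := orderOf_conj_eq d⁻¹ y
      simpa using this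
    obtain ⟨u, hu, hule⟩ := hYS.exists_conj_le (by rw [Subgroup.zpowers_le]; exact hy'L) hy'p
    have huy : u * y' * u⁻¹ ∈ Y := hule (conj_mem_conjS (Subgroup.mem_zpowers y'))
    obtain ⟨a, ha, b, hb, rfl⟩ := hLmem u hu
    have hz : b * y' * b⁻¹ ∈ Y := by
      have e : b * y' * b⁻¹ = a⁻¹ * ((a * b) * y' * (a * b)⁻¹) * a := by group
      rw [e]
      exact mul_mem (mul_mem (inv_mem ha) huy) ha
    have hz2 : (b * y' * b⁻¹) * y⁻¹ ∈ C₀ := by
      have e : (b * y' * b⁻¹) * y⁻¹ = b * (y' * y⁻¹) * (y * b⁻¹ * y⁻¹) := by group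
      rw [e]
      exact mul_mem (mul_mem hb hc₀) (hyC₀ _ (inv_mem hb))
    have hz3 : (b * y' * b⁻¹) * y⁻¹ = 1 :=
      hYC (mul_mem hz (inv_mem (Subgroup.mem_zpowers y))) hz2
    have hz4 : b * y' * b⁻¹ = y := mul_inv_eq_one.1 hz3
    have hb' := Subgroup.mem_inf.1 hb
    refine ⟨d * b⁻¹, Subgroup.mem_inf.2 ⟨mul_mem hd (inv_mem hb'.1), ?_⟩, b, Subgroup.mem_inf.2 ⟨hb'.1, hDN_C b hb'.1 hb'.2⟩, by group⟩
    rw [Subgroup.mem_centralizer_singleton_iff]
    have e : d * b⁻¹ * y * (d * b⁻¹)⁻¹ = y := by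
      calc d * b⁻¹ * y * (d * b⁻¹)⁻¹ = d * b⁻¹ * (b * y' * b⁻¹) * (d * b⁻¹)⁻¹ := by rw [hz4]
        _ = d * y' * d⁻¹ := by group
        _ = y := by rw [hy']; group
    calc d * b⁻¹ * y = d * b⁻¹ * y * (d * b⁻¹)⁻¹ * (d * b⁻¹) := by group
      _ = y * (d * b⁻¹) := by rw [e]
  refine ⟨keyA, ?_⟩
  -- part (b)
  intro x y hx hy hconj
  obtain ⟨g, hg⟩ := isConj_iff.1 hconj
  -- `G = N D`
  have hfr : ∃ n ∈ N, ∃ d ∈ D, g = n * d := by
    obtain ⟨k, hk, hkg⟩ := frattini_in (y := g) hHS (by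
      apply le_antisymm
      · rintro _ ⟨x, hx, rfl⟩
        exact hEn.conj_mem _ hx g
      · intro z hz
        refine ⟨g⁻¹ * z * g, ?_, by simp [MulAut.conj_apply]; group⟩
        have := hEn.conj_mem _ hz g⁻¹
        simpa using this)
    -- `k = t * d'`
    have hSbar : SylowIn p ((P : Subgroup G).map π) ⊤ := sylowIn_map_top π hπ hST
    have hOS : Cfsg.pCore p (G ⧸ D) ≤ (P : Subgroup G).map π := pCore_le_of_sylowIn hSbar
    obtain ⟨t, ht, hte⟩ := hOS (show π k ∈ Cfsg.pCore p (G ⧸ D) from hk)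
    have hd' : t⁻¹ * k ∈ D := by
      apply hker.1
      rw [map_mul, map_inv, ← hte, inv_mul_cancel]
    have htE : t ∈ E := by
      have e : t = k * (t⁻¹ * k)⁻¹ := by group
      rw [e]
      exact mul_mem hk (inv_mem (hDE hd'))
    have htN : t ∈ N := hPN ht
    set n' := k⁻¹ * g with hn'
    refine ⟨t * n', mul_mem htN hkg, n'⁻¹ * (t⁻¹ * k) * n', ?_, ?_⟩
    · have := hDn.conj_mem _ hd' n'⁻¹
      simpa using this
    · rw [hn']; group
  obtain ⟨n, hn, d, hd, rfl⟩ := hfr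
  have hxord : ∃ k : ℕ, orderOf x = p ^ k := by
    obtain ⟨k, hk⟩ := hPp ⟨x, hx⟩
    have h1 : x ^ p ^ k = 1 := by simpa using congrArg Subtype.val hk
    obtain ⟨j, -, hj⟩ := (Nat.dvd_prime_pow Fact.out).1 (orderOf_dvd_of_pow_eq_one h1)
    exact ⟨j, hj⟩
  have hy2 : d * x * d⁻¹ = n⁻¹ * y * n := by
    rw [← hg]; group
  have hmem : d⁻¹⁻¹ * x * d⁻¹ ∈ N := by
    rw [inv_inv, hy2]
    exact mul_mem (mul_mem (inv_mem hn) (hPN hy)) hn
  obtain ⟨d₁, hd₁, d₂, hd₂, he⟩ := keyA x (hPN hx) hxord d⁻¹ (inv_mem hd) hmem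
  have hd₁c : d₁ * x = x * d₁ := Subgroup.mem_centralizer_singleton_iff.1 (Subgroup.mem_inf.1 hd₁).2
  refine ⟨n * d₂⁻¹, mul_mem hn (inv_mem (hC_N _ (Subgroup.mem_inf.1 hd₂).2)), ?_⟩
  have hd' : d = d₂⁻¹ * d₁⁻¹ := by
    have : d = (d₁ * d₂)⁻¹ := by rw [← he, inv_inv]
    rw [this]; group
  rw [← hg, hd']
  have h3 : d₁⁻¹ * x * d₁ = x := by
    calc d₁⁻¹ * x * d₁ = d₁⁻¹ * (x * d₁) := by group
      _ = d₁⁻¹ * (d₁ * x) := by rw [hd₁c]
      _ = x := by group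
  calc n * d₂⁻¹ * x * (n * d₂⁻¹)⁻¹ = n * d₂⁻¹ * (d₁⁻¹ * x * d₁) * (n * d₂⁻¹)⁻¹ := by rw [h3]
    _ = n * (d₂⁻¹ * d₁⁻¹) * x * (n * (d₂⁻¹ * d₁⁻¹))⁻¹ := by group

end Cfsg.Agent.S1907
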