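import Cfsg.Statements.S1924
import Mathlib

set_option autoImplicit false
open Cfsg

namespace Cfsg.Agent.S1924

open Subgroup

section Perm

variable {Ω : Type*} [Fintype Ω] [DecidableEq Ω]

/-- A semiregular permutation of `2`-power order with an odd number of cycles is odd. -/
theorem sign_eq_neg_one (σ : Equiv.Perm Ω) (c : ℕ) (hc : 0 < c)
    (hfree : ∀ (k : ℕ) (ω : Ω), (σ ^ k) ω = ω → 2 ^ c ∣ k) (hσ : σ ^ 2 ^ c = 1) (m : ℕ) (hm : Odd m)
    (hcard : Fintype.card Ω = 2 ^ c * m) : Equiv.Perm.sign σ = -1 := by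
  have hmem : ∀ n ∈ σ.cycleType, n = 2 ^ c := by
    intro n hn
    apply Nat.dvd_antisymm
    · exact (Equiv.Perm.dvd_of_mem_cycleType hn).trans (orderOf_dvd_of_pow_eq_one hσ)
    · obtain ⟨c', τ, h1, h2, h3, h4⟩ := Equiv.Perm.mem_cycleType_iff.mp hn
      have hsupp : c'.support.Nonempty := by
        rw [← Finset.card_pos, h4]
        have := Equiv.Perm.two_le_of_mem_cycleType hn
        omega
      obtain ⟨ω, hω⟩ := hsupp
      apply hfree n ω
      rw [h1, h2.commute.mul_pow, Equiv.Perm.mul_apply]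
      have hτ : (τ ^ n) ω = ω := by
        rcases h2 ω with h | h
        · exact absurd h (Equiv.Perm.mem_support.mp hω)
        · exact Equiv.Perm.pow_apply_eq_self_of_apply_eq_self h n
      rw [hτ, ← h4, ← h3.orderOf, pow_orderOf_eq_one]
      rfl
  have hsupp : σ.support = Finset.univ := by
    apply Finset.eq_univ_of_forall
    intro ω
    rw [Equiv.Perm.mem_support]
    intro h
    have := hfree 1 ω (by simpa using h)
    have h2 : 2 ∣ 2 ^ c := dvd_pow_self 2 hc.ne'
    have h3 := h2.trans this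
    omega
  have hrep := Multiset.eq_replicate_card.mpr hmem
  have hsum := Equiv.Perm.sum_cycleType σ
  rw [hsupp, Finset.card_univ, hcard, hrep, Multiset.sum_replicate, smul_eq_mul] at hsum
  have hcm : Multiset.card σ.cycleType = m := by
    have hpos : 0 < 2 ^ c := by positivity
    apply Nat.eq_of_mul_eq_mul_left hpos
    rw [← hsum]
    ring
  rw [Equiv.Perm.sign_of_cycleType]
  have hsum' : σ.cycleType.sum = 2 ^ c * m := by
    rw [hrep, Multiset.sum_replicate, smul_eq_mul]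
    exact hsum.symm ▸ (by ring)
  rw [hsum', hcm]
  have : Odd (2 ^ c * m + m) := by
    have h2 : Even (2 ^ c * m) := (Nat.even_pow.mpr ⟨even_two, hc.ne'⟩).mul_right m
    exact h2.add_odd hm
  exact this.neg_one_pow

end Perm

section Grp

variable {G : Type*} [Group G] [Finite G]

/-- The subgroup generated by the elements of odd order. -/
def oddGen (G : Type*) [Group G] : Subgroup G := Subgroup.closure {g | Odd (orderOf g)}

theorem card_subgroupOf_of_le {M X : Subgroup G} (h : M ≤ X) : Nat.card (M.subgroupOf X) = Nat.card M :=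
  Nat.card_congr (Subgroup.subgroupOfEquivOfLe h).toEquiv

/-- A subgroup `X₁` of index two in `X` from a semiregular element on the cosets of `M`. -/
theorem exists_index_two {X M : Subgroup G} (hMX : M ≤ X) {y : G} (hy : y ∈ X) (c : ℕ) (hc : 0 < c)
    (hy2 : y ^ 2 ^ c = 1)
    (hfree : ∀ (k : ℕ) (g : G), g⁻¹ * y ^ k * g ∈ M → 2 ^ c ∣ k) (m : ℕ) (hm : Odd m)
    (hcard : Nat.card X = Nat.card M * (2 ^ c * m)) :
    ∃ X₁ : Subgroup G, X₁ ≤ X ∧ y ∉ X₁ ∧ (∀ g ∈ X, Odd (orderOf g) → g ∈ X₁) ∧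
      (∀ a ∈ X, ∀ b ∈ X, b ∉ X₁ → (a * b ∈ X₁ ↔ a ∉ X₁)) := by
  classical
  haveI : Fintype (↥X ⧸ M.subgroupOf X) := Fintype.ofFinite _
  let χ : ↥X →* ℤˣ := (Equiv.Perm.sign).comp (MulAction.toPermHom ↥X (↥X ⧸ M.subgroupOf X))
  have hχ : χ ⟨y, hy⟩ = -1 := by
    apply sign_eq_neg_one _ c hc _ _ m hm
    · have h1 := Subgroup.card_mul_index (M.subgroupOf X)
      rw [card_subgroupOf_of_le hMX, hcard] at h1
      have hpos : 0 < Nat.card M := Nat.card_pos
      have h2 := Nat.eq_of_mul_eq_mul_left hpos h1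
      rw [← h2, Subgroup.index, Nat.card_eq_fintype_card]
    · intro k ω h
      obtain ⟨g, rfl⟩ := QuotientGroup.mk_surjective ω
      have h1 : ((((⟨y, hy⟩ : X) ^ k * g : X) : X) : ↥X ⧸ M.subgroupOf X) = g := by
        have e : ((MulAction.toPermHom (↥X) (↥X ⧸ M.subgroupOf X)) ⟨y, hy⟩ ^ k) (g : ↥X ⧸ M.subgroupOf X) =
            ((⟨y, hy⟩ : X) ^ k) • (g : ↥X ⧸ M.subgroupOf X) := by
          rw [← map_pow]; rfl
        rw [e] at h
        exact h
      have h2 := QuotientGroup.eq.mp h1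
      rw [Subgroup.mem_subgroupOf] at h2
      apply hfree k (g : G)
      have e3 : (g : G)⁻¹ * y ^ k * g = (((((⟨y, hy⟩ : X) ^ k * g)⁻¹ * g : X) : G))⁻¹ := by
        simp [mul_assoc]
      rw [e3]
      exact M.inv_mem h2
    · rw [← map_pow]
      have : (⟨y, hy⟩ : X) ^ 2 ^ c = 1 := Subtype.ext (by simpa using hy2)
      rw [this, map_one]
  refine ⟨χ.ker.map X.subtype, ?_, ?_, ?_, ?_⟩
  · rintro _ ⟨x, -, rfl⟩
    exact x.2
  · rintro ⟨x, hx, e⟩
    have hx' : x = ⟨y, hy⟩ := Subtype.ext e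
    rw [hx'] at hx
    have hx2 : χ ⟨y, hy⟩ = 1 := hx
    rw [hχ] at hx2
    exact absurd hx2 (by decide)
  · intro g hg hodd
    refine ⟨⟨g, hg⟩, ?_, rfl⟩
    show χ ⟨g, hg⟩ = 1
    have h1 : (χ ⟨g, hg⟩) ^ orderOf g = 1 := by
      rw [← map_pow]
      have : (⟨g, hg⟩ : X) ^ orderOf g = 1 := Subtype.ext (by simpa using pow_orderOf_eq_one g)
      rw [this, map_one]
    rcases Int.units_eq_one_or (χ ⟨g, hg⟩) with h | h
    · exact h
    · rw [h, hodd.neg_one_pow] at h1
      exact absurd h1 (by decide)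
  · intro a ha b hb hb1
    have hmemiff : ∀ (x : G) (hx : x ∈ X), x ∈ χ.ker.map X.subtype ↔ χ ⟨x, hx⟩ = 1 := by
      intro x hx
      constructor
      · rintro ⟨w, hw, e⟩
        have : w = ⟨x, hx⟩ := Subtype.ext e
        rw [← this]
        exact hw
      · intro h
        exact ⟨⟨x, hx⟩, h, rfl⟩
    rw [hmemiff _ (X.mul_mem ha hb), hmemiff a ha]
    rw [hmemiff b hb] at hb1
    have hb2 : χ ⟨b, hb⟩ = -1 := (Int.units_eq_one_or _).resolve_left hb1
    have e : χ ⟨a * b, X.mul_mem ha hb⟩ = χ ⟨a, ha⟩ * χ ⟨b, hb⟩ := by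
      rw [← map_mul]
      rfl
    rw [e, hb2]
    rcases Int.units_eq_one_or (χ ⟨a, ha⟩) with h | h
    · rw [h]; decide
    · rw [h]; decide

/-- Index two within a subgroup. -/
theorem card_inf_of_index_two {A X X₁ : Subgroup G} (hAX : A ≤ X) {a₀ : G} (ha₀ : a₀ ∈ A) (ha₁ : a₀ ∉ X₁)
    (hH2 : ∀ a ∈ X, ∀ b ∈ X, b ∉ X₁ → (a * b ∈ X₁ ↔ a ∉ X₁)) :
    2 * Nat.card ↥(A ⊓ X₁) = Nat.card A := by
  have h1 : (X₁.subgroupOf A).index = 2 := by
    rw [Subgroup.index_eq_two_iff]
    refine ⟨⟨a₀, ha₀⟩, ?_⟩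
    intro b
    rw [Subgroup.mem_subgroupOf, Subgroup.mem_subgroupOf]
    have h2 := hH2 (b : G) (hAX b.2) a₀ (hAX ha₀) ha₁
    show Xor ((b : G) * a₀ ∈ X₁) ((b : G) ∈ X₁)
    by_cases h3 : (b : G) ∈ X₁
    · exact Or.inr ⟨h3, fun h4 => (h2.mp h4) h3⟩
    · exact Or.inl ⟨h2.mpr h3, h3⟩
  have h2 := Subgroup.card_mul_index (X₁.subgroupOf A)
  rw [h1] at h2
  have h3 : Nat.card (X₁.subgroupOf A) = Nat.card ↥(A ⊓ X₁) := by
    rw [← Subgroup.inf_subgroupOf_right X₁ A, card_subgroupOf_of_le inf_le_right, inf_comm]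
  rw [← h3, mul_comm]
  exact h2

/-- The product of two subgroups with trivial intersection. -/
theorem card_mul_le_of_inf_eq_bot {A B : Subgroup G} (h : A ⊓ B = ⊥) :
    Nat.card A * Nat.card B ≤ Nat.card ↥(A ⊔ B) := by
  rw [← Nat.card_prod]
  apply Nat.card_le_card_of_injective
    (fun p : A × B => (⟨(p.1 : G) * p.2, Subgroup.mul_mem_sup p.1.2 p.2.2⟩ : ↥(A ⊔ B)))
  rintro ⟨a, b⟩ ⟨a', b'⟩ e
  have e1 : (a : G) * b = a' * b' := congrArg (fun x : ↥(A ⊔ B) => (x : G)) e
  have e2 : (a' : G)⁻¹ * a = b' * (b : G)⁻¹ := by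
    rw [inv_mul_eq_iff_eq_mul, ← mul_assoc, ← e1]
    group
  have hm : (a' : G)⁻¹ * a ∈ A ⊓ B := ⟨A.mul_mem (A.inv_mem a'.2) a.2, e2 ▸ B.mul_mem b'.2 (B.inv_mem b.2)⟩
  rw [h, Subgroup.mem_bot] at hm
  have h3 : (a : G) = a' := by
    rwa [inv_mul_eq_one, eq_comm] at hm
  have h4 : (b : G) = b' := by
    rw [h3] at e1
    exact mul_left_cancel e1
  rw [Subtype.ext h3, Subtype.ext h4]

/-- The cyclic stage. -/
theorem cyc_stage (T : Subgroup G) (hT : T ≤ oddGen G) : ∀ (c : ℕ) (X : Subgroup G) (y : G) (r : ℕ),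
    oddGen G ≤ X → y ∈ X → orderOf y = 2 ^ c → Nat.card X = Nat.card T * (2 ^ c * r) → Odd r →
    (∀ v ∈ Subgroup.zpowers y, orderOf v = 2 → ∀ g : G, g * v * g⁻¹ ∈ T → False) →
    ∀ k : ℕ, y ^ k ∈ oddGen G → y ^ k = 1 := by
  intro c
  induction c with
  | zero =>
    intro X y r _ _ hy _ _ _ k _
    rw [pow_zero, orderOf_eq_one_iff] at hy
    rw [hy, one_pow]
  | succ c ih =>
    intro X y r hKX hyX hy hcard hr h2 k hk
    have hfree : ∀ (k : ℕ) (g : G), g⁻¹ * y ^ k * g ∈ T → 2 ^ (c + 1) ∣ k := by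
      intro k g hg
      rw [← hy, orderOf_dvd_iff_pow_eq_one]
      by_contra hne
      have hdv : orderOf (y ^ k) ∣ 2 ^ (c + 1) := by
        rw [← hy]; exact orderOf_dvd_of_pow_eq_one (by rw [← pow_mul, mul_comm, pow_mul, pow_orderOf_eq_one, one_pow])
      obtain ⟨e, -, he⟩ := (Nat.dvd_prime_pow Nat.prime_two).mp hdv
      have he0 : e ≠ 0 := by
        rintro rfl
        rw [pow_zero, orderOf_eq_one_iff] at he
        exact hne he
      obtain ⟨e', rfl⟩ := Nat.exists_eq_succ_of_ne_zero he0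
      have hv : orderOf ((y ^ k) ^ 2 ^ e') = 2 := by
        rw [orderOf_pow_of_dvd (by positivity) (by rw [he]; exact pow_dvd_pow 2 (Nat.le_succ e')), he]
        rw [Nat.succ_eq_add_one, pow_succ, Nat.mul_div_cancel_left _ (by positivity)]
      apply h2 _ (Subgroup.pow_mem _ (Subgroup.npow_mem_zpowers y k) _) hv g⁻¹
      rw [inv_inv]
      have e1 : g⁻¹ * (y ^ k) ^ 2 ^ e' * g = (g⁻¹ * y ^ k * g) ^ 2 ^ e' := by
        have := conj_pow (a := g⁻¹) (b := y ^ k) (i := 2 ^ e')
        rw [inv_inv] at this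
        exact this.symm
      rw [e1]
      exact T.pow_mem hg _
    have hy2 : y ^ 2 ^ (c + 1) = 1 := by
      rw [← hy, pow_orderOf_eq_one]
    obtain ⟨X₁, hX₁, hyX₁, hodd, hH2⟩ := exists_index_two (hT.trans hKX) hyX (c + 1) (Nat.succ_pos c)
      hy2 hfree r hr hcard
    have hKX₁ : oddGen G ≤ X₁ := by
      rw [oddGen, Subgroup.closure_le]
      intro g hg
      exact hodd g (hKX (Subgroup.subset_closure hg)) hg
    have hyy : y ^ 2 ∈ X₁ := by
      rw [pow_two]
      exact (hH2 y hyX y hyX hyX₁).mpr hyX₁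
    have hcard₁ : 2 * Nat.card X₁ = Nat.card X := by
      have := card_inf_of_index_two (le_refl X) hyX hyX₁ hH2
      rwa [inf_eq_right.mpr hX₁] at this
    have hordy : orderOf (y ^ 2) = 2 ^ c := by
      rw [orderOf_pow_of_dvd (by norm_num) (by rw [hy]; exact dvd_pow_self 2 (Nat.succ_ne_zero c)), hy, pow_succ]
      exact Nat.mul_div_cancel _ (by norm_num)
    have hcard₂ : Nat.card X₁ = Nat.card T * (2 ^ c * r) := by
      have : 2 * Nat.card X₁ = 2 * (Nat.card T * (2 ^ c * r)) := by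
        rw [hcard₁, hcard]
        ring
      omega
    have h2' : ∀ v ∈ Subgroup.zpowers (y ^ 2), orderOf v = 2 → ∀ g : G, g * v * g⁻¹ ∈ T → False := by
      intro v hv
      apply h2 v
      have hle : Subgroup.zpowers (y ^ 2) ≤ Subgroup.zpowers y := by
        rw [Subgroup.zpowers_le]
        exact Subgroup.npow_mem_zpowers y 2
      exact hle hv
    have hih := ih X₁ (y ^ 2) r hKX₁ hyy hordy hcard₂ hr h2'
    -- `k` is even
    rcases Nat.even_or_odd' k with ⟨j, rfl | rfl⟩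
    · rw [pow_mul] at hk ⊢
      exact hih j hk
    · exfalso
      have h1 : y ^ (2 * j + 1) ∈ X₁ := hKX₁ hk
      rw [pow_succ, pow_mul] at h1
      have hm : (y ^ 2) ^ j ∈ X₁ := X₁.pow_mem hyy j
      have := (hH2 _ (hX₁ hm) y hyX hyX₁).mp h1
      exact this hm

/-- The dihedral stage. -/
theorem dih_stage (T : Subgroup G) (hT : T ≤ oddGen G) : ∀ (n : ℕ) (X D C : Subgroup G) (r : ℕ),
    Nat.card D = n → oddGen G ≤ X → D ≤ X → C ≤ D → IsPGroup 2 ↥(T ⊔ D) → T ⊓ D = ⊥ →
    Nat.card X = Nat.card T * Nat.card D * r → Odd r → IsCyclic C → C.relIndex D = 2 →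
    (∀ d ∈ D, d ∉ C → orderOf d = 2) →
    (∀ x ∈ D, x ∉ C → orderOf x = 2 → ∀ g : G, g * x * g⁻¹ ∈ T ⊔ C → False) →
    (∀ c ∈ C, orderOf c = 2 → ∀ g : G, g * c * g⁻¹ ∈ T → False) → oddGen G ⊓ D = ⊥ := by
  intro n
  induction n using Nat.strong_induction_on with
  | _ n ih =>
    intro X D C r hn hKX hDX hCD hpg hTD hcard hr hCc hrel hsq h1 h2
    haveI : Fact (Nat.Prime 2) := ⟨Nat.prime_two⟩
    obtain ⟨x, hxD, hxC⟩ : ∃ x ∈ D, x ∉ C := by
      by_contra hcon
      push Not at hcon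
      have : C.relIndex D = 1 := Subgroup.relIndex_eq_one.mpr hcon
      omega
    have hDC : Nat.card D = 2 * Nat.card C := by
      have h3 := Subgroup.card_mul_index (C.subgroupOf D)
      rw [card_subgroupOf_of_le hCD] at h3
      have h4 : (C.subgroupOf D).index = 2 := hrel
      rw [h4] at h3
      omega
    have hxord := hsq x hxD hxC
    have hx2 : x ^ 2 ^ 1 = 1 := by
      rw [pow_one, ← hxord, pow_orderOf_eq_one]
    have hXTD : T ⊔ D ≤ X := sup_le (hT.trans hKX) hDX
    have hTp : IsPGroup 2 T := hpg.to_le le_sup_left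
    have hDp : IsPGroup 2 D := hpg.to_le le_sup_right
    have hCp : IsPGroup 2 C := hDp.to_le hCD
    obtain ⟨s, hs⟩ := IsPGroup.iff_card.mp hpg
    obtain ⟨t, ht⟩ := IsPGroup.iff_card.mp hTp
    obtain ⟨d, hd⟩ := IsPGroup.iff_card.mp hDp
    obtain ⟨e, he⟩ := IsPGroup.iff_card.mp hCp
    have hSge := card_mul_le_of_inf_eq_bot hTD
    have hSeq : Nat.card ↥(T ⊔ D) = Nat.card T * Nat.card D := by
      apply le_antisymm _ hSge
      have h3 : Nat.card ↥(T ⊔ D) ∣ Nat.card X := Subgroup.card_dvd_of_le hXTD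
      rw [hcard] at h3
      have h4 : Nat.card ↥(T ⊔ D) ∣ Nat.card T * Nat.card D := by
        apply Nat.Coprime.dvd_of_dvd_mul_right _ h3
        rw [hs]
        exact Nat.Coprime.pow_left s (Nat.coprime_two_left.mpr hr)
      exact Nat.le_of_dvd (Nat.mul_pos Nat.card_pos Nat.card_pos) h4
    have hTC : T ⊓ C = ⊥ := eq_bot_iff.mpr (hTD ▸ inf_le_inf_left T hCD)
    have hMS : T ⊔ C ≤ T ⊔ D := sup_le_sup_left hCD T
    have hxM : x ∉ T ⊔ C := by
      intro hm
      apply h1 x hxD hxC hxord 1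
      simpa using hm
    have hMp : IsPGroup 2 ↥(T ⊔ C) := hpg.to_le hMS
    have hMcard : Nat.card ↥(T ⊔ C) = Nat.card T * Nat.card C := by
      apply le_antisymm _ (card_mul_le_of_inf_eq_bot hTC)
      obtain ⟨u, hu⟩ := IsPGroup.iff_card.mp hMp
      have h3 : Nat.card ↥(T ⊔ C) ∣ Nat.card ↥(T ⊔ D) := Subgroup.card_dvd_of_le hMS
      have hne : Nat.card ↥(T ⊔ C) ≠ Nat.card ↥(T ⊔ D) := by
        intro h4
        have h5 : T ⊔ C = T ⊔ D := Subgroup.eq_of_le_of_card_ge hMS h4.ge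
        exact hxM (h5 ▸ Subgroup.mem_sup_right hxD)
      rw [hu, hs] at h3 hne
      have hus : u < s := by
        have h5 := (Nat.pow_dvd_pow_iff_le_right (by norm_num : 1 < 2)).mp h3
        rcases h5.lt_or_eq with h6 | h6
        · exact h6
        · exact absurd (by rw [h6]) hne
      have h6 : 2 * 2 ^ u ≤ 2 ^ s := by
        rw [← pow_succ']
        exact Nat.pow_le_pow_right (by norm_num) hus
      rw [hu]
      have h7 : 2 * 2 ^ u ≤ Nat.card T * (2 * Nat.card C) := by
        rw [← hDC, ← hSeq, hs]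
        exact h6
      have h8 : Nat.card T * (2 * Nat.card C) = 2 * (Nat.card T * Nat.card C) := by ring
      omega
    have hMX : T ⊔ C ≤ X := hMS.trans hXTD
    have hcardM : Nat.card X = Nat.card ↥(T ⊔ C) * (2 ^ 1 * r) := by
      rw [hcard, hMcard, hDC]
      ring
    have hfree : ∀ (k : ℕ) (g : G), g⁻¹ * x ^ k * g ∈ T ⊔ C → 2 ^ 1 ∣ k := by
      intro k g hg
      rw [pow_one]
      by_contra hk
      have hk' : Odd k := Nat.not_even_iff_odd.mp (fun h => hk h.two_dvd)
      obtain ⟨j, rfl⟩ := hk'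
      have hxk : x ^ (2 * j + 1) = x := by
        rw [pow_succ, pow_mul]
        rw [pow_one] at hx2
        rw [hx2, one_pow, one_mul]
      rw [hxk] at hg
      apply h1 x hxD hxC hxord g⁻¹
      rwa [inv_inv]
    obtain ⟨X₁, hX₁, hxX₁, hodd, hH2⟩ := exists_index_two hMX (hDX hxD) 1 Nat.one_pos hx2 hfree r hr hcardM
    have hKX₁ : oddGen G ≤ X₁ := by
      rw [oddGen, Subgroup.closure_le]
      intro g hg
      exact hodd g (hKX (Subgroup.subset_closure hg)) hg
    have hcard₁ : 2 * Nat.card X₁ = Nat.card X := by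
      have := card_inf_of_index_two (le_refl X) (hDX hxD) hxX₁ hH2
      rwa [inf_eq_right.mpr hX₁] at this
    have hD₁ := card_inf_of_index_two hDX hxD hxX₁ hH2
    have hC₁ : Nat.card X₁ = Nat.card T * Nat.card C * r := by
      have h3 : 2 * Nat.card X₁ = 2 * (Nat.card T * Nat.card C * r) := by
        rw [hcard₁, hcard, hDC]
        ring
      omega
    by_cases hCX : C ≤ X₁
    · -- `D ∩ X₁ = C`
      have hle : C ≤ D ⊓ X₁ := le_inf hCD hCX
      have heq : C = D ⊓ X₁ := by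
        apply Subgroup.eq_of_le_of_card_ge hle
        omega
      obtain ⟨y, hy⟩ := IsCyclic.exists_generator (α := C)
      have hyord : orderOf (y : G) = 2 ^ e := by
        rw [Subgroup.orderOf_coe, orderOf_eq_card_of_forall_mem_zpowers hy, he]
      have hle2 : Subgroup.zpowers (y : G) ≤ C := by
        rw [Subgroup.zpowers_le]; exact y.2
      have hc := cyc_stage T hT e X₁ (y : G) r hKX₁ (hCX y.2) hyord (by rw [hC₁, he]; ring) hr
        (fun v hv => h2 v (hle2 hv))
      rw [eq_bot_iff]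
      rintro z ⟨hzK, hzD⟩
      have hzC : z ∈ C := by
        rw [heq]; exact ⟨hzD, hKX₁ hzK⟩
      obtain ⟨k, hk⟩ := mem_powers_iff_mem_zpowers.mpr (hy ⟨z, hzC⟩)
      have hk' : (y : G) ^ k = z := congrArg (fun w : C => (w : G)) hk
      rw [Subgroup.mem_bot, ← hk']
      exact hc k (hk' ▸ hzK)
    · obtain ⟨c₀, hc₀, hc₀X⟩ : ∃ c₀ ∈ C, c₀ ∉ X₁ := by
        by_contra hcon
        push Not at hcon
        exact hCX hcon
      have hCC := card_inf_of_index_two (hCD.trans hDX) hc₀ hc₀X hH2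
      have hlt : Nat.card ↥(D ⊓ X₁) < n := by
        have : 0 < Nat.card ↥(D ⊓ X₁) := Nat.card_pos
        omega
      have hsub : C ⊓ X₁ ≤ D ⊓ X₁ := inf_le_inf_right X₁ hCD
      have hK := ih _ hlt X₁ (D ⊓ X₁) (C ⊓ X₁) r rfl hKX₁ inf_le_right hsub
        (hpg.to_le (sup_le_sup_left inf_le_left T))
        (eq_bot_iff.mpr (hTD ▸ inf_le_inf_left T inf_le_left))
        (by
          have h3 : 2 * Nat.card X₁ = 2 * (Nat.card T * Nat.card ↥(D ⊓ X₁) * r) := by
            rw [hcard₁, hcard, ← hD₁]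
            ring
          omega)
        hr
        (isCyclic_of_injective (Subgroup.inclusion (inf_le_left : C ⊓ X₁ ≤ C)) (Subgroup.inclusion_injective _))
        (by
          have h3 := Subgroup.card_mul_index ((C ⊓ X₁).subgroupOf (D ⊓ X₁))
          rw [card_subgroupOf_of_le hsub] at h3
          have h4 : Nat.card ↥(D ⊓ X₁) = 2 * Nat.card ↥(C ⊓ X₁) := by omega
          rw [h4] at h3
          have hpos : 0 < Nat.card ↥(C ⊓ X₁) := Nat.card_pos
          have h5 : Nat.card ↥(C ⊓ X₁) * ((C ⊓ X₁).subgroupOf (D ⊓ X₁)).index = Nat.card ↥(C ⊓ X₁) * 2 := by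
            rw [h3]; ring
          exact Nat.eq_of_mul_eq_mul_left hpos h5)
        (fun d hd hdC => hsq d hd.1 (fun h => hdC ⟨h, hd.2⟩))
        (fun x' hx' hxC' hxo g hg => h1 x' hx'.1 (fun h => hxC' ⟨h, hx'.2⟩) hxo g
          ((sup_le_sup_left inf_le_left T) hg))
        (fun c' hc' => h2 c' hc'.1)
      rw [eq_bot_iff]
      rintro z ⟨hzK, hzD⟩
      have : z ∈ oddGen G ⊓ (D ⊓ X₁) := ⟨hzK, hzD, hKX₁ hzK⟩
      rwa [hK] at this

/-- Elements outside a cyclic subgroup of index two in a dihedral group are involutions. -/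
theorem dih_outside {D C : Subgroup G} {n : ℕ} (hn : 2 ≤ n) (φ : ↥D ≃* DihedralGroup n) (hCD : C ≤ D)
    (hC : IsCyclic C) (hrel : C.relIndex D = 2) : ∀ d ∈ D, d ∉ C → orderOf d = 2 := by
  intro d hd hdC
  haveI : NeZero n := ⟨by omega⟩
  have hord : orderOf d = orderOf (φ ⟨d, hd⟩) := by
    rw [MulEquiv.orderOf_eq, Subgroup.orderOf_mk]
  rw [hord]
  have hinj : ∀ x : D, φ x = 1 → x = 1 := fun x hx => (map_eq_one_iff φ φ.injective).mp hx
  rcases h : φ ⟨d, hd⟩ with i | i
  · -- a rotation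
    have hd1 : φ ⟨d, hd⟩ ≠ 1 := by
      intro h1
      have h2 := hinj _ h1
      have h3 : d = 1 := congrArg (fun x : D => (x : G)) h2
      exact hdC (h3 ▸ C.one_mem)
    rw [h] at hd1
    rcases hn.lt_or_eq with hn3 | rfl
    · exfalso
      have h3 := Subgroup.card_mul_index (C.subgroupOf D)
      rw [card_subgroupOf_of_le hCD] at h3
      have h4 : (C.subgroupOf D).index = 2 := hrel
      rw [h4, Nat.card_congr φ.toEquiv, DihedralGroup.nat_card] at h3
      have hCn : Nat.card C = n := by omega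
      obtain ⟨g, hg⟩ := IsCyclic.exists_generator (α := C)
      have hgo : orderOf g = n := by
        rw [orderOf_eq_card_of_forall_mem_zpowers hg, hCn]
      have hgo' : orderOf (φ ⟨g, hCD g.2⟩) = n := by
        rw [MulEquiv.orderOf_eq, Subgroup.orderOf_mk, Subgroup.orderOf_coe, hgo]
      rcases hgr : φ ⟨g, hCD g.2⟩ with j | j
      · rw [hgr, DihedralGroup.orderOf_r] at hgo'
        have hgcd : Nat.gcd n j.val = 1 := by
          have hdvd := Nat.gcd_dvd_left n j.val
          have hpos : 0 < Nat.gcd n j.val := Nat.gcd_pos_of_pos_left _ (by omega)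
          have h5 := Nat.div_mul_cancel hdvd
          rw [hgo'] at h5
          have hnpos : 0 < n := by omega
          exact Nat.eq_of_mul_eq_mul_left hnpos (by rw [h5, mul_one])
        have hunit : IsUnit ((j.val : ℕ) : ZMod n) :=
          (ZMod.isUnit_iff_coprime _ _).mpr ((Nat.coprime_comm).mp hgcd)
        rw [ZMod.natCast_zmod_val] at hunit
        obtain ⟨u, hu⟩ := hunit
        have hpw : (DihedralGroup.r j) ^ ((i * ↑u⁻¹ : ZMod n).val) = DihedralGroup.r i := by
          rw [DihedralGroup.r_pow, ZMod.natCast_zmod_val, ← hu, mul_comm i, ← mul_assoc, Units.mul_inv, one_mul]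
        have h5 : φ ((⟨g, hCD g.2⟩ : D) ^ ((i * ↑u⁻¹ : ZMod n).val)) = φ ⟨d, hd⟩ := by
          rw [map_pow, hgr, hpw, h]
        have h6 := φ.injective h5
        have h7 : (g : G) ^ ((i * ↑u⁻¹ : ZMod n).val) = d := congrArg (fun x : D => (x : G)) h6
        exact hdC (h7 ▸ C.pow_mem g.2 _)
      · rw [hgr, DihedralGroup.orderOf_sr] at hgo'
        omega
    · apply orderOf_eq_prime
      · rw [DihedralGroup.r_pow]
        have h2 : (i * ((2 : ℕ) : ZMod 2)) = 0 := by
          have : ((2 : ℕ) : ZMod 2) = 0 := by decide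
          rw [this, mul_zero]
        rw [h2]
        rfl
      · exact hd1
  · exact DihedralGroup.orderOf_sr i

theorem oddGen_normal : (oddGen G).Normal := by
  constructor
  intro x hx g
  induction hx using Subgroup.closure_induction with
  | mem x hx =>
    apply Subgroup.subset_closure
    have : orderOf (g * x * g⁻¹) = orderOf x := by
      rw [← MulAut.conj_apply, MulEquiv.orderOf_eq]
    show Odd (orderOf (g * x * g⁻¹))
    rw [this]
    exact hx
  | one => simp
  | mul x y _ _ hx hy =>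
    have : g * (x * y) * g⁻¹ = (g * x * g⁻¹) * (g * y * g⁻¹) := by group
    rw [this]
    exact Subgroup.mul_mem _ hx hy
  | inv x _ hx =>
    have : g * x⁻¹ * g⁻¹ = (g * x * g⁻¹)⁻¹ := by group
    rw [this]
    exact Subgroup.inv_mem _ hx

/-- The quotient by `oddGen G` is a `2`-group. -/
theorem isPGroup_quotient_oddGen [h : (oddGen G).Normal] : IsPGroup 2 (G ⧸ oddGen G) := by
  intro q
  obtain ⟨g, rfl⟩ := QuotientGroup.mk_surjective q
  obtain ⟨a, m, hm, hn⟩ := Nat.exists_eq_pow_mul_and_not_dvd (orderOf_pos g).ne' 2 (by norm_num)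
  refine ⟨a, ?_⟩
  rw [← QuotientGroup.mk_pow]
  apply (QuotientGroup.eq_one_iff _).mpr
  apply Subgroup.subset_closure
  show Odd (orderOf (g ^ 2 ^ a))
  rw [orderOf_pow_of_dvd (by positivity) (Dvd.intro _ hn.symm), hn, Nat.mul_div_cancel_left _ (by positivity)]
  exact Nat.odd_iff.mpr (by omega)

end Grp

/-- A consequence of Thompson's transfer lemma. Let G be a finite group, L a subgroup with O²(L) = L, T a Sylow 2-subgroup of L and S a Sylow 2-subgroup of G containing T. Suppose D ≤ S is a dihedral subgroup of order at least 4 (the four-group counts) with D ∩ T = 1 and S = TD as a set of products (so |S| = |T|·|D|), and C ≤ D is cyclic of index 2 in D. If no involution of D outside C is G-conjugate to an involution of the subgroup generated by T and C, and the involution of C is not G-conjugate to any involution of T, then G has a normal subgroup K, containing every Sylow 2-subgroup of L as a Sylow 2-subgroup, with G = KD. -/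
theorem result {G : Type*} [Group G] [Finite G] (L T S D C : Subgroup G) (hL : Cfsg.pResidual 2 ↥L = ⊤)
    (hTL : T ≤ L) (hT2 : IsPGroup 2 T) (hTsyl : ¬ 2 ∣ T.relIndex L)
    (hS2 : IsPGroup 2 S) (hSsyl : ¬ 2 ∣ S.index) (hTS : T ≤ S)
    (hDS : D ≤ S) (hDih : ∃ n : ℕ, 2 ≤ n ∧ Nonempty (↥D ≃* DihedralGroup n)) (hDT : D ⊓ T = ⊥) (hTD : T ⊔ D = S) (hTDc : Nat.card T * Nat.card D = Nat.card S)
    (hCD : C ≤ D) (hC : IsCyclic ↥C) (hCi : C.relIndex D = 2)
    (h1 : ∀ x ∈ D, x ∉ C → orderOf x = 2 → ∀ g : G, g * x * g⁻¹ ∈ T ⊔ C → False)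
    (h2 : ∀ c ∈ C, orderOf c = 2 → ∀ g : G, g * c * g⁻¹ ∈ T → False) :
    ∃ K : Subgroup G, K.Normal ∧ K ⊔ D = ⊤ ∧
      ∀ T' : Subgroup G, T' ≤ L → IsPGroup 2 T' → ¬ 2 ∣ T'.relIndex L → T' ≤ K ∧ ¬ 2 ∣ T'.relIndex K := by
  classical
  haveI : Fact (Nat.Prime 2) := ⟨Nat.prime_two⟩
  haveI hKn : (oddGen G).Normal := oddGen_normal
  have hLK : L ≤ oddGen G := by
    have h1 : Cfsg.pResidual 2 ↥L ≤ (oddGen G).subgroupOf L := by
      rw [Cfsg.pResidual, Subgroup.closure_le]
      intro g hg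
      rw [SetLike.mem_coe, Subgroup.mem_subgroupOf]
      apply Subgroup.subset_closure
      show Odd (orderOf (g : G))
      rw [Subgroup.orderOf_coe]
      exact Nat.coprime_two_right.mp hg
    rw [hL] at h1
    intro l hl
    have h2 := h1 (Subgroup.mem_top (⟨l, hl⟩ : L))
    rwa [Subgroup.mem_subgroupOf] at h2
  have hTK : T ≤ oddGen G := hTL.trans hLK
  have hr : Odd S.index := Nat.odd_iff.mpr (by omega)
  have hG : Nat.card G = Nat.card T * Nat.card D * S.index := by
    rw [hTDc, Subgroup.card_mul_index]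
  obtain ⟨n, hn, ⟨φ⟩⟩ := hDih
  have hKD : oddGen G ⊓ D = ⊥ := by
    apply dih_stage T hTK (Nat.card D) ⊤ D C S.index rfl le_top le_top hCD (by rw [hTD]; exact hS2)
      (by rw [inf_comm]; exact hDT) (by rw [Subgroup.card_top]; exact hG) hr hC hCi
      (dih_outside hn φ hCD hC hCi) h1 h2
  have hKS : oddGen G ⊔ S = ⊤ := by
    have h3 : (oddGen G ⊔ S).index ∣ S.index := Subgroup.index_dvd_of_le le_sup_right
    have h4 : (oddGen G ⊔ S).index ∣ (oddGen G).index := Subgroup.index_dvd_of_le le_sup_left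
    obtain ⟨q, hq⟩ := IsPGroup.iff_card.mp (isPGroup_quotient_oddGen (G := G))
    rw [show (oddGen G).index = Nat.card (G ⧸ oddGen G) from rfl, hq] at h4
    obtain ⟨j, -, hj⟩ := (Nat.dvd_prime_pow Nat.prime_two).mp h4
    have hj0 : j = 0 := by
      by_contra hne
      rw [hj] at h3
      have : 2 ∣ S.index := (dvd_pow_self 2 hne).trans h3
      exact hSsyl this
    rw [hj0, pow_zero] at hj
    exact Subgroup.index_eq_one.mp hj
  have hKDtop : oddGen G ⊔ D = ⊤ := by
    rw [eq_top_iff, ← hKS]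
    apply sup_le le_sup_left
    rw [← hTD]
    exact sup_le (hTK.trans le_sup_left) le_sup_right
  refine ⟨oddGen G, hKn, hKDtop, ?_⟩
  intro T' hT'L hT'2 hT'odd
  refine ⟨hT'L.trans hLK, ?_⟩
  -- orders
  have hcardK : Nat.card ↥(oddGen G) * Nat.card D = Nat.card G := by
    apply le_antisymm
    · have := card_mul_le_of_inf_eq_bot hKD
      rwa [hKDtop, Subgroup.card_top] at this
    · have hsurj : Function.Surjective (fun d : D => ((d : G) : G ⧸ oddGen G)) := by
        intro q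
        obtain ⟨g, rfl⟩ := QuotientGroup.mk_surjective q
        have hg : g ∈ oddGen G ⊔ D := by rw [hKDtop]; trivial
        obtain ⟨k, hk, d, hd, rfl⟩ := Subgroup.mem_sup_of_normal_left.mp hg
        refine ⟨⟨d, hd⟩, ?_⟩
        apply QuotientGroup.eq.mpr
        have h5 := hKn.conj_mem k hk d⁻¹
        rw [inv_inv] at h5
        show ((d : G))⁻¹ * (k * d) ∈ oddGen G
        rw [← mul_assoc]
        exact h5
      have h3 := Nat.card_le_card_of_surjective _ hsurj
      rw [← Subgroup.card_mul_index (oddGen G)]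
      exact Nat.mul_le_mul_left _ h3
  have hKcard : Nat.card ↥(oddGen G) = Nat.card T * S.index := by
    have hpos : 0 < Nat.card D := Nat.card_pos
    apply Nat.eq_of_mul_eq_mul_right hpos
    rw [hcardK, hG]
    ring
  have hTT' : Nat.card T' = Nat.card T := by
    have e1 := Subgroup.card_mul_index (T.subgroupOf L)
    have e2 := Subgroup.card_mul_index (T'.subgroupOf L)
    rw [card_subgroupOf_of_le hTL] at e1
    rw [card_subgroupOf_of_le hT'L] at e2
    have e3 : (T.subgroupOf L).index = T.relIndex L := rfl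
    have e4 : (T'.subgroupOf L).index = T'.relIndex L := rfl
    rw [e3] at e1
    rw [e4] at e2
    obtain ⟨a, ha⟩ := IsPGroup.iff_card.mp hT2
    obtain ⟨b, hb⟩ := IsPGroup.iff_card.mp hT'2
    apply Nat.dvd_antisymm
    · have h3 : Nat.card T' ∣ Nat.card T * T.relIndex L := by
        rw [e1, ← e2]; exact Dvd.intro _ rfl
      apply Nat.Coprime.dvd_of_dvd_mul_right _ h3
      rw [hb]
      exact Nat.Coprime.pow_left b (Nat.coprime_two_left.mpr (Nat.odd_iff.mpr (by omega)))
    · have h3 : Nat.card T ∣ Nat.card T' * T'.relIndex L := by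
        rw [e2, ← e1]; exact Dvd.intro _ rfl
      apply Nat.Coprime.dvd_of_dvd_mul_right _ h3
      rw [ha]
      exact Nat.Coprime.pow_left a (Nat.coprime_two_left.mpr (Nat.odd_iff.mpr (by omega)))
  have e5 := Subgroup.card_mul_index (T'.subgroupOf (oddGen G))
  rw [card_subgroupOf_of_le (hT'L.trans hLK), hKcard, hTT'] at e5
  have hpos : 0 < Nat.card T := Nat.card_pos
  have e6 := Nat.eq_of_mul_eq_mul_left hpos e5
  have e7 : T'.relIndex (oddGen G) = S.index := e6
  rw [e7]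
  exact hSsyl

end Cfsg.Agent.S1924
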