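import Cfsg.Statements.S1940
import Mathlib

set_option autoImplicit false
open Cfsg

namespace Cfsg.Agent.S1940

/-- Let the finite group L act by automorphisms on the finite abelian group M, and let N be an L-invariant subgroup of M such that M/N is a p-group on which L acts trivially (every l • m lies in the coset mN). If every element of M is a product of an element of N and an element fixed by a Sylow p-subgroup T of L, then every element of M is a product of an element of N and an element fixed by all of L. -/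
theorem result {L : Type*} [Group L] [Finite L] {M : Type*} [CommGroup M] [Finite M] [MulDistribMulAction L M]
    {p : ℕ} [Fact p.Prime] (N : Subgroup M) (hN : ∀ (l : L) (m : M), m ∈ N → l • m ∈ N)
    (hquot : IsPGroup p (M ⧸ N)) (htriv : ∀ (l : L) (m : M), (l • m) * m⁻¹ ∈ N) (T : Sylow p L)
    (hT : ∀ m : M, ∃ n ∈ N, ∃ c : M, (∀ t ∈ (T : Subgroup L), t • c = c) ∧ m = n * c) :
    ∀ m : M, ∃ n ∈ N, ∃ c : M, (∀ l : L, l • c = c) ∧ m = n * c := by
  classical
  have hT' := T
  intro m
  obtain ⟨n, hn, c, hc, rfl⟩ := hT m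
  -- the transfer-type product
  let q : L ⧸ (T : Subgroup L) → L := Quotient.out
  haveI : Fintype (L ⧸ (T : Subgroup L)) := Fintype.ofFinite _
  let F : M := ∏ x : L ⧸ (T : Subgroup L), q x • c
  have hFfix : ∀ l : L, l • F = F := by
    intro l
    simp only [F, Finset.smul_prod']
    refine Fintype.prod_equiv (MulAction.toPerm l : _ ≃ _) _ _ ?_
    intro x
    -- `l * q x` and `q (l • x)` lie in the same coset of `T`
    show l • q x • c = q (l • x) • c
    have e1 : ((l * q x : L) : L ⧸ (T : Subgroup L)) = l • x := by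
      have hx : x = ((q x : L) : L ⧸ (T : Subgroup L)) := (QuotientGroup.out_eq' x).symm
      conv_rhs => rw [hx]
      rfl
    have e2 : ((q (l • x) : L) : L ⧸ (T : Subgroup L)) = l • x := QuotientGroup.out_eq' _
    have hrel : (q (l • x))⁻¹ * (l * q x) ∈ (T : Subgroup L) :=
      QuotientGroup.eq.1 (e2.trans e1.symm)
    have h3 := hc _ hrel
    calc l • q x • c = (l * q x) • c := (mul_smul _ _ _).symm
      _ = (q (l • x) * ((q (l • x))⁻¹ * (l * q x))) • c := by rw [mul_inv_cancel_left]
      _ = q (l • x) • (((q (l • x))⁻¹ * (l * q x)) • c) := mul_smul _ _ _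
      _ = q (l • x) • c := by rw [h3]
  -- the image in the quotient
  have hpi : ∀ (l : L) (y : M), (QuotientGroup.mk' N) (l • y) = (QuotientGroup.mk' N) y := by
    intro l y
    have := htriv l y
    rw [QuotientGroup.mk'_apply, QuotientGroup.mk'_apply, QuotientGroup.eq]
    have e : ((l • y)⁻¹ * y) = (l • y * y⁻¹)⁻¹ := by
      rw [mul_inv_rev, inv_inv, mul_comm]
    rw [e]
    exact N.inv_mem this
  have hFpi : (QuotientGroup.mk' N) F = ((QuotientGroup.mk' N) c) ^ Fintype.card (L ⧸ (T : Subgroup L)) := by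
    simp only [F, map_prod, hpi, Finset.prod_const, Finset.card_univ]
  obtain ⟨k, hk⟩ := (IsPGroup.iff_orderOf.1 hquot) ((QuotientGroup.mk' N) c)
  have hcop : (Fintype.card (L ⧸ (T : Subgroup L))).Coprime (orderOf ((QuotientGroup.mk' N) c)) := by
    rw [hk]
    apply Nat.Coprime.pow_right
    apply Nat.Coprime.symm
    rw [Nat.Prime.coprime_iff_not_dvd (Fact.out)]
    rw [← Nat.card_eq_fintype_card, ← Subgroup.index_eq_card]
    exact T.not_dvd_index
  obtain ⟨j, hj⟩ := exists_pow_eq_self_of_coprime hcop
  refine ⟨n * (c * (F ^ j)⁻¹), N.mul_mem hn ?_, F ^ j, ?_, ?_⟩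
  · rw [← QuotientGroup.eq_one_iff]
    show (QuotientGroup.mk' N) (c * (F ^ j)⁻¹) = 1
    rw [map_mul, map_inv, map_pow, hFpi, hj, mul_inv_cancel]
  · intro l
    rw [smul_pow', hFfix]
  · rw [mul_assoc, mul_assoc, inv_mul_cancel, mul_one]

end Cfsg.Agent.S1940
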