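import Cfsg.Statements.S1941
import Mathlib
import Cfsg.Agent.Lib.FStar.Constrained
import Cfsg.Agent.Lib.FStar.GenFitting
import Cfsg.Agent.Lib.Core.Basic

set_option autoImplicit false
open Cfsg

namespace Cfsg.Agent.S1941

/-- Let G be a finite group with no nontrivial normal subgroup of order prime to p, T a Sylow p-subgroup of G and E(G) the layer of G (the subgroup generated by its components). An automorphism of G of p-power order that fixes T and E(G) elementwise is inner. -/
theorem result {G : Type*} [Group G] [Finite G] {p : ℕ} [Fact p.Prime] (hcore : Cfsg.pPrimeCore p G = ⊥)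
    (T : Sylow p G) (α : MulAut G) (hα : ∃ j : ℕ, orderOf α = p ^ j) (hfixT : ∀ x ∈ (T : Subgroup G), α x = x)
    (hfixE : ∀ x ∈ Cfsg.layer G, α x = x) : ∃ g : G, ∀ x : G, α x = g * x * g⁻¹ := by

  classical
  letI := Fintype.ofFinite G
  have hfit : fittingSubgroup G = pCore p G := Lib.FStar.fitting_eq_pCore_of_pPrimeCore_bot hcore
  have hOT : pCore p G ≤ (T : Subgroup G) := Lib.Core.pCore_le_sylow T
  -- `α` fixes `F*`
  let Fs : Subgroup G := generalizedFittingSubgroup G
  have hFn : Fs.Normal := Lib.FStar.gen_normal G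
  have hfixF : ∀ x ∈ Fs, α x = x := by
    intro x hx
    have hle : Fs ≤ (MonoidHom.eqLocus (α : G →* G) (MonoidHom.id G)) := by
      refine sup_le ?_ ?_
      · intro y hy; exact hfixE y hy
      · intro y hy
        rw [hfit] at hy
        exact hfixT y (hOT hy)
    exact hle hx
  let Z : Subgroup G := Fs ⊓ Subgroup.centralizer (Fs : Set G)
  have hCn : (Subgroup.centralizer (Fs : Set G)).Normal := Subgroup.normal_centralizer
  have hZn : Z.Normal := Subgroup.normal_inf_normal Fs _
  have hZc : ∀ a ∈ Z, ∀ b ∈ Z, a * b = b * a := by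
    intro a ha b hb
    exact (Subgroup.mem_centralizer_iff.1 (Subgroup.mem_inf.1 hb).2 a (Subgroup.mem_inf.1 ha).1)
  letI : CommGroup ↥Z :=
    { (inferInstance : Group ↥Z) with
      mul_comm := fun a b => Subtype.ext (hZc a a.2 b b.2) }
  have hZnil : Group.IsNilpotent ↥Z := by
    haveI : IsMulCommutative ↥Z := ⟨⟨fun a b => Subtype.ext (hZc a a.2 b b.2)⟩⟩
    infer_instance
  have hZO : Z ≤ pCore p G := by
    rw [← hfit]; exact Lib.Core.le_fittingSubgroup hZn hZnil
  have hZp : IsPGroup p ↥Z := (Lib.Core.pCore_isPGroup p G).to_le hZO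
  -- the cocycle
  have hcZ : ∀ h : G, α h * h⁻¹ ∈ Z := by
    intro h
    have hC : α h * h⁻¹ ∈ Subgroup.centralizer (Fs : Set G) := by
      rw [Subgroup.mem_centralizer_iff]
      intro y hy
      have hx : h⁻¹ * y * h ∈ Fs := by
        have := hFn.conj_mem y hy h⁻¹
        simpa using this
      have h1 : α (h * (h⁻¹ * y * h) * h⁻¹) = h * (h⁻¹ * y * h) * h⁻¹ :=
        hfixF _ (hFn.conj_mem _ hx h)
      rw [map_mul, map_mul, hfixF _ hx] at h1
      have h2 : h * (h⁻¹ * y * h) * h⁻¹ = y := by group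
      rw [h2, map_inv] at h1
      calc y * (α h * h⁻¹) = (α h * (h⁻¹ * y * h) * (α h)⁻¹) * (α h * h⁻¹) := by rw [h1]
        _ = α h * h⁻¹ * y := by group
    exact Subgroup.mem_inf.2 ⟨Lib.FStar.centralizer_gen_le hC, hC⟩
  let c : G → ↥Z := fun h => ⟨α h * h⁻¹, hcZ h⟩
  let cj : G → (↥Z →* ↥Z) := fun h =>
    { toFun := fun a => ⟨h * a * h⁻¹, hZn.conj_mem a a.2 h⟩
      map_one' := by apply Subtype.ext; simp
      map_mul' := by
        intro a b; apply Subtype.ext
        show h * ((a : G) * b) * h⁻¹ = h * a * h⁻¹ * (h * b * h⁻¹)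
        group }
  have hcmul : ∀ g h, c (g * h) = c g * cj g (c h) := by
    intro g h
    apply Subtype.ext
    show α (g * h) * (g * h)⁻¹ = α g * g⁻¹ * (g * (α h * h⁻¹) * g⁻¹)
    rw [map_mul]; group
  have hcT : ∀ t ∈ (T : Subgroup G), c t = 1 := by
    intro t ht
    apply Subtype.ext
    show α t * t⁻¹ = 1
    rw [hfixT t ht]; group
  have hcj1 : ∀ g, cj g 1 = 1 := fun g => map_one _
  let T' : Subgroup G := T
  haveI : Fintype (G ⧸ T') := Fintype.ofFinite _
  let m : ℕ := T'.index
  have hcard : Fintype.card (G ⧸ T') = m := by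
    rw [← Nat.card_eq_fintype_card]; rfl
  have hpm : Nat.Coprime p m := (Nat.Prime.coprime_iff_not_dvd (Fact.out)).2 T.not_dvd_index
  let s : ↥Z := ∏ q : G ⧸ T', c (Quotient.out q)
  have hinv : ∀ (h : G) (q : G ⧸ T'), cj h (c (Quotient.out q)) = (c h)⁻¹ * c (Quotient.out (h • q)) := by
    intro h q
    have hq : (Quotient.out (h • q))⁻¹ * (h * Quotient.out q) ∈ T' := by
      have h1 : ((h * Quotient.out q : G) : G ⧸ T') = h • q := by
        have h3 : ((h • Quotient.out q : G) : G ⧸ T') = h • q :=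
          MulAction.Quotient.coe_smul_out (X := G) (H := T') (b := h) (q := q)
        simpa [smul_eq_mul] using h3
      have h2 : ((Quotient.out (h • q) : G) : G ⧸ T') = h • q := QuotientGroup.out_eq' _
      exact QuotientGroup.eq.1 (h2.trans h1.symm)
    have heq : h * Quotient.out q = Quotient.out (h • q) * ((Quotient.out (h • q))⁻¹ * (h * Quotient.out q)) := by
      group
    have h1 := hcmul h (Quotient.out q)
    rw [heq, hcmul, hcT _ hq, map_one, mul_one] at h1
    rw [h1]; simp
  have hconj : ∀ h : G, cj h s = (c h)⁻¹ ^ m * s := by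
    intro h
    show cj h (∏ q : G ⧸ T', c (Quotient.out q)) = (c h)⁻¹ ^ m * ∏ q : G ⧸ T', c (Quotient.out q)
    rw [map_prod]
    simp only [hinv]
    rw [Finset.prod_mul_distrib, Finset.prod_const, Finset.card_univ, hcard]
    congr 1
    exact (MulAction.toPerm h : Equiv.Perm (G ⧸ T')).prod_comp
      (Finset.univ) (fun q => c (Quotient.out q)) (by simp)
  -- `m`-th roots
  obtain ⟨z, hz⟩ : ∃ z : ↥Z, z ^ m = s := ⟨(hZp.powEquiv hpm).symm s, by
    exact (hZp.powEquiv hpm).apply_symm_apply s⟩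
  have hinj : Function.Injective (fun a : ↥Z => a ^ m) := (hZp.powEquiv hpm).injective
  refine ⟨(z : G), fun h => ?_⟩
  have hkey : cj h z = (c h)⁻¹ * z := by
    apply hinj
    show (cj h z) ^ m = ((c h)⁻¹ * z) ^ m
    rw [← map_pow, hz, hconj, mul_pow, hz]
  have h1 : (h : G) * (z : G) * h⁻¹ = (α h * h⁻¹)⁻¹ * z := congrArg Subtype.val hkey
  have h2 : α h * h⁻¹ * (h * (z : G) * h⁻¹) = z := by
    rw [h1]; group
  have h3 : α h * (z : G) * h⁻¹ = z := by
    calc α h * (z : G) * h⁻¹ = α h * h⁻¹ * (h * (z : G) * h⁻¹) := by group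
      _ = z := h2
  calc α h = (α h * (z : G) * h⁻¹) * h * (z : G)⁻¹ := by group
    _ = (z : G) * h * (z : G)⁻¹ := by rw [h3]


end Cfsg.Agent.S1941
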