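import Cfsg.Statements.S1945
import Mathlib
import Cfsg.Agent.Lib.Techniques.TraceSplit
import Cfsg.Agent.Lib.Techniques.WeakK
import Cfsg.Agent.Lib.Geo.PrimSolvable

set_option autoImplicit false
open Cfsg

namespace Cfsg.Agent.S1945

open Cfsg.Agent.Lib.Techniques


/-- Let S be a Sylow p-subgroup of the finite group G, and assume that p is odd or that G is solvable. The elements of S each of which is its only G-conjugate in S form a subgroup W of Z(S); W is then a direct factor of Z(S): there is a subgroup K of Z(S) with W ∩ K = 1 and WK = Z(S). (For p = 2 and G not solvable this can fail.) -/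
theorem result {G : Type*} [Group G] [Finite G] {p : ℕ} [Fact p.Prime] (S : Sylow p G) (h : p ≠ 2 ∨ Group.IsSolvable G) :
    ∃ W K : Subgroup G, (∀ x : G, x ∈ W ↔ (x ∈ (S : Subgroup G) ∧ ∀ g : G, g * x * g⁻¹ ∈ (S : Subgroup G) → g * x * g⁻¹ = x)) ∧
      K ≤ ((S : Subgroup G) ⊓ Subgroup.centralizer ((S : Subgroup G) : Set G)) ∧ W ⊓ K = ⊥ ∧ W ⊔ K = ((S : Subgroup G) ⊓ Subgroup.centralizer ((S : Subgroup G) : Set G)) := by
  classical
  rcases h with hp | hsol
  · -- odd `p`: work inside the normalizer of `K∞(S)`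
    set T : Subgroup G := (S : Subgroup G) with hT
    have hST : SylowIn p T ⊤ := sylowIn_top_of_sylow S
    have hTp : IsPGroup p T := hST.2.1
    have hW := isConjugacyFunctor_induced (X := G) (isCharPFunctor_kInfLower (p := p))
    set K₀ : Subgroup G := Cfsg.inducedFunctor Cfsg.kInfLower T with hK₀
    have hK₀T : K₀ ≤ T := (hW T hTp).1
    let N : Subgroup G := Subgroup.normalizer ((K₀ : Subgroup G) : Set G)
    have hTN : T ≤ N := Subgroup.le_normalizer.trans (normalizer_le_normalizer_functor hW hTp)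
    have hSN : SylowIn p T N := hST.of_le hTN le_top
    have hZK : T ⊓ Subgroup.centralizer (T : Set G) ≤ K₀ := kInf_hwz T hTp
    let A : Subgroup G := K₀ ⊓ Subgroup.centralizer (K₀ : Set G)
    have hAT : A ≤ T := fun a ha => hK₀T ha.1
    have hZA : T ⊓ Subgroup.centralizer (T : Set G) ≤ A := by
      intro z hz
      refine ⟨hZK hz, Subgroup.mem_centralizer_iff.2 fun k hk => ?_⟩
      exact (Subgroup.mem_centralizer_iff.1 hz.2) k (hK₀T hk)
    have hAn : ∀ h ∈ N, ∀ a ∈ A, h * a * h⁻¹ ∈ A := by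
      intro h hh a ha
      refine ⟨(Subgroup.mem_normalizer_iff.1 hh _).1 ha.1, Subgroup.mem_centralizer_iff.2 fun o ho => ?_⟩
      have h1 : h⁻¹ * o * h ∈ K₀ := by
        have h2 := (Subgroup.mem_normalizer_iff.1 (inv_mem hh) o).1 ho
        simpa using h2
      have h2 := (Subgroup.mem_centralizer_iff.1 ha.2) _ h1
      calc o * (h * a * h⁻¹) = h * ((h⁻¹ * o * h) * a) * h⁻¹ := by group
        _ = h * (a * (h⁻¹ * o * h)) * h⁻¹ := by rw [h2]
        _ = h * a * h⁻¹ * o := by group
    obtain ⟨K, hK1, hK2, hK3⟩ := trace_split hSN hAT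
      (fun a ha b hb => ((Subgroup.mem_centralizer_iff.1 ha.2) b hb.1).symm) hAn hZA
    have hWmem : ∀ x : G, x ∈ T ⊓ Subgroup.centralizer (N : Set G) ↔ (x ∈ T ∧
        ∀ g : G, g * x * g⁻¹ ∈ T → g * x * g⁻¹ = x) := by
      intro x
      constructor
      · rintro ⟨hx, hxc⟩
        refine ⟨hx, fun g hg => ?_⟩
        refine wc_main hW kInf_hwz (kInf_chief hp) _ ⊤ T rfl hST x hx ?_ g trivial hg
        intro c hc
        have := (Subgroup.mem_centralizer_iff.1 hxc) c hc.2
        rw [this]; group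
      · rintro ⟨hx, hw⟩
        have hxZ : x ∈ T ⊓ Subgroup.centralizer (T : Set G) := by
          refine ⟨hx, Subgroup.mem_centralizer_iff.2 fun s hs => ?_⟩
          have := hw s (mul_mem (mul_mem hs hx) (inv_mem hs))
          calc s * x = s * x * s⁻¹ * s := by group
            _ = x * s := by rw [this]
        refine ⟨hx, Subgroup.mem_centralizer_iff.2 fun n hn => ?_⟩
        have h1 := hw n (hAT (hAn n hn x (hZA hxZ)))
        calc n * x = n * x * n⁻¹ * n := by group
          _ = x * n := by rw [h1]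
    have hWZ : T ⊓ Subgroup.centralizer (N : Set G) ≤ T ⊓ Subgroup.centralizer (T : Set G) := by
      intro x hx
      refine ⟨hx.1, Subgroup.mem_centralizer_iff.2 fun s hs => ?_⟩
      exact (Subgroup.mem_centralizer_iff.1 hx.2) s (hTN hs)
    refine ⟨T ⊓ Subgroup.centralizer (N : Set G), K, hWmem, hK1, ?_, ?_⟩
    · rw [eq_bot_iff]
      rintro x ⟨hx, hxK⟩
      exact hK2 x hx hxK
    · refine le_antisymm (sup_le hWZ hK1) ?_
      intro z hz
      obtain ⟨w, hw, k, hk, rfl⟩ := hK3 z hz
      exact mul_mem (Subgroup.mem_sup_left hw) (Subgroup.mem_sup_right hk)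
  · refine split_of_le_core S ?_
    -- `Z(S) ≤ O_{p',p}(G)` for solvable `G`
    rintro z ⟨hzS, hzc⟩
    set D := Cfsg.pPrimeCore p G with hDdef
    haveI hDn : D.Normal := Cfsg.Agent.Lib.Core.pPrimeCore_normal p G
    let π := QuotientGroup.mk' D
    have hπ : Function.Surjective π := QuotientGroup.mk'_surjective D
    have hSbar : SylowIn p ((S : Subgroup G).map π) ⊤ := sylowIn_map_top π hπ (sylowIn_top_of_sylow S)
    have hOS : Cfsg.pCore p (G ⧸ D) ≤ (S : Subgroup G).map π := pCore_le_of_sylowIn hSbar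
    haveI : Group.IsSolvable (G ⧸ D) := inferInstance
    have hF := Cfsg.Agent.Lib.FStar.fitting_eq_pCore_of_pPrimeCore_bot (p := p) (Q := G ⧸ D)
      Cfsg.Agent.Lib.Core.pPrimeCore_quotient_eq_bot
    have hC := Cfsg.Agent.Lib.Geo.centralizer_fitting_le_of_solvable (G := G ⧸ D)
    rw [hF] at hC
    show π z ∈ Cfsg.pCore p (G ⧸ D)
    refine hC (Subgroup.mem_centralizer_iff.2 fun o ho => ?_)
    obtain ⟨s, hs, rfl⟩ := hOS ho
    have := (Subgroup.mem_centralizer_iff.1 hzc) s hs
    rw [← map_mul, ← map_mul]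
    show π (s * z) = π (z * s)
    rw [this]

end Cfsg.Agent.S1945
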