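import Cfsg.Statements.S1946
import Mathlib
import Cfsg.Agent.Lib.Techniques.Ito
import Cfsg.Agent.Lib.Transfer.Comp

set_option autoImplicit false
open Cfsg

namespace Cfsg.Agent.S1946

open Cfsg.Agent.Lib.Techniques
open scoped commutatorElement


/-- Let P be a Sylow p-subgroup of the finite group G. Then G has a normal p-complement if and only if P controls the fusion of its elements of order dividing p (dividing 4 when p = 2): whenever such an element a of P has a G-conjugate g a g⁻¹ in P, that conjugate is already x a x⁻¹ for some x in P. -/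
theorem result {G : Type*} [Group G] [Finite G] {p : ℕ} [Fact p.Prime] (P : Sylow p G) :
    Cfsg.HasNormalPComplement p G ↔
      ∀ a ∈ (P : Subgroup G), (a ^ p = 1 ∨ (p = 2 ∧ a ^ 4 = 1)) → ∀ g : G, g * a * g⁻¹ ∈ (P : Subgroup G) →
        ∃ x ∈ (P : Subgroup G), g * a * g⁻¹ = x * a * x⁻¹ := by
  classical
  have hP : IsPGroup p (P : Subgroup G) := P.isPGroup'
  constructor
  · rintro ⟨P₀, N, hN, hc⟩ a ha _ g hg
    have hcard : Nat.card N * Nat.card (P : Subgroup G) = Nat.card G := by
      have h1 := hc.card_mul_card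
      rw [Sylow.card_eq_multiplicity P₀] at h1
      rw [Sylow.card_eq_multiplicity P]
      exact h1
    have hNc : (Nat.card N).Coprime p := Cfsg.Agent.Lib.Transfer.complement_card_coprime hc
    have hcop : (Nat.card N).Coprime (Nat.card (P : Subgroup G)) := by
      obtain ⟨k, hk⟩ := hP.exists_card_eq
      rw [hk]
      exact hNc.pow_right k
    have hcP : N.IsComplement' (P : Subgroup G) := Subgroup.isComplement'_of_coprime hcard hcop
    have hNP : ∀ {x : G}, x ∈ N → x ∈ (P : Subgroup G) → x = 1 := by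
      intro x hx hxP
      exact Cfsg.Agent.Lib.Techniques.eq_one_of_mem_isPGroup_of_mem_coprime hP hNc hxP hx
    -- write `g = t * n`
    obtain ⟨⟨n₀, t⟩, hgt⟩ : ∃ q : ↥N × ↥(P : Subgroup G), (q.1 : G) * (q.2 : G) = g := by
      obtain ⟨q, hq, -⟩ := hcP.existsUnique g
      exact ⟨q, hq⟩
    simp only at hgt
    set n : G := (t : G)⁻¹ * n₀ * t with hn
    have hnN : n ∈ N := by
      have := hN.conj_mem _ n₀.2 (t : G)⁻¹
      simpa [hn] using this
    have hg' : g = t * n := by rw [hn, ← hgt]; group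
    have hy : n * a * n⁻¹ ∈ (P : Subgroup G) := by
      have e : n * a * n⁻¹ = (t : G)⁻¹ * (g * a * g⁻¹) * t := by rw [hg']; group
      rw [e]
      exact mul_mem (mul_mem (inv_mem t.2) hg) t.2
    have h1 : n * a * n⁻¹ * a⁻¹ ∈ N := by
      have e : n * a * n⁻¹ * a⁻¹ = n * (a * n⁻¹ * a⁻¹) := by group
      rw [e]
      exact mul_mem hnN (hN.conj_mem _ (inv_mem hnN) a)
    have h2 : n * a * n⁻¹ = a :=
      mul_inv_eq_one.1 (hNP h1 (mul_mem hy (inv_mem ha)))
    refine ⟨t, t.2, ?_⟩
    rw [hg']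
    calc (t : G) * n * a * ((t : G) * n)⁻¹ = t * (n * a * n⁻¹) * (t : G)⁻¹ := by group
      _ = t * a * (t : G)⁻¹ := by rw [h2]
  · intro hctl
    have hF : Cfsg.Agent.Lib.Transfer.FrobeniusHyp p (P : Subgroup G) := by
      refine frobeniusHyp_of_small hP ?_
      intro U hU g hg hgc hs
      have hUp : IsPGroup p U := hP.to_le hU
      have hnil : Group.IsNilpotent ↥(P : Subgroup G) := hP.isNilpotent
      obtain ⟨n, hn⟩ := Group.IsNilpotent.nilpotent' (G := ↥(P : Subgroup G))
      let Z : ℕ → Subgroup ↥(P : Subgroup G) := fun i => Subgroup.upperCentralSeries ↥(P : Subgroup G) i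
      have key := comm_of_chain hUp hg hgc (fun i => {a : G | ∃ h : a ∈ (P : Subgroup G), (⟨a, h⟩ : ↥(P : Subgroup G)) ∈ Z i})
        (by
          rintro a ⟨h, ha⟩
          have : (⟨a, h⟩ : ↥(P : Subgroup G)) = 1 := by simpa [Z] using ha
          exact congrArg Subtype.val this)
        (by
          rintro i a haU ⟨haP, ha⟩
          obtain ⟨x, hx, hxe⟩ := hctl a haP (hs a haU) g (hU ((Subgroup.mem_normalizer_iff.mp hg a).mp haU))
          have e : ⁅g, a⁆ = x * a * x⁻¹ * a⁻¹ := by
            simp only [commutatorElement_def]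
            rw [hxe]
          have h1 := (Subgroup.mem_upperCentralSeries_succ_iff (G := ↥(P : Subgroup G)) (n := i) (x := ⟨a, haP⟩)).1 ha ⟨x, hx⟩
          have hm : x * a * x⁻¹ * a⁻¹ ∈ (P : Subgroup G) :=
            mul_mem (mul_mem (mul_mem hx haP) (inv_mem hx)) (inv_mem haP)
          refine ⟨by rw [e]; exact hm, ?_⟩
          have h3 : (⟨⁅g, a⁆, by rw [e]; exact hm⟩ : ↥(P : Subgroup G)) = ⁅(⟨a, haP⟩ : ↥(P : Subgroup G)), ⟨x, hx⟩⁆⁻¹ := by
            apply Subtype.ext
            show ⁅g, a⁆ = (a * x * a⁻¹ * x⁻¹)⁻¹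
            rw [e]
            group
          rw [h3]
          exact inv_mem h1)
      refine Subgroup.mem_centralizer_iff.2 fun u hu => ?_
      have hu' := key n u hu ⟨hU hu, by
        have : (⟨u, hU hu⟩ : ↥(P : Subgroup G)) ∈ (⊤ : Subgroup ↥(P : Subgroup G)) := trivial
        rw [← hn] at this
        exact this⟩
      exact hu'.symm
    obtain ⟨N, hN, hc⟩ := Cfsg.Agent.Lib.Transfer.frobenius P hF
    exact ⟨P, N, hN, hc⟩

end Cfsg.Agent.S1946
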