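import Cfsg.Statements.S1947
import Mathlib
import Cfsg.Agent.Lib.Techniques.Ito

set_option autoImplicit false
open Cfsg

namespace Cfsg.Agent.S1947

open Cfsg.Agent.Lib.Techniques
open scoped commutatorElement


/-- Let G be a finite group and p a prime. If every element of G of order dividing p (dividing 4 when p = 2) lies in some fixed term Z_n(G) of the upper central series, then G has a normal p-complement. -/
theorem result {G : Type*} [Group G] [Finite G] {p : ℕ} [Fact p.Prime] (n : ℕ)
    (h : ∀ a : G, (a ^ p = 1 ∨ (p = 2 ∧ a ^ 4 = 1)) → a ∈ Subgroup.upperCentralSeries G n) : Cfsg.HasNormalPComplement p G := by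
  classical
  obtain ⟨P⟩ : Nonempty (Sylow p G) := inferInstance
  have hP : IsPGroup p (P : Subgroup G) := P.isPGroup'
  have hF : Cfsg.Agent.Lib.Transfer.FrobeniusHyp p (P : Subgroup G) := by
    refine frobeniusHyp_of_small hP ?_
    intro U hU g hg hgc hs
    have hUp : IsPGroup p U := hP.to_le hU
    have key := comm_of_chain hUp hg hgc (fun i => (Subgroup.upperCentralSeries G i : Set G))
      (by
        intro a ha
        simpa using ha)
      (by
        intro i a _ ha
        have h1 := (Subgroup.mem_upperCentralSeries_succ_iff (G := G) (n := i) (x := a)).1 ha g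
        have e : ⁅g, a⁆ = (a * g * a⁻¹ * g⁻¹)⁻¹ := by
          simp only [commutatorElement_def]
          group
        rw [e]
        exact inv_mem h1)
    refine Subgroup.mem_centralizer_iff.2 fun u hu => ?_
    have hu' := key n u hu (h u (hs u hu))
    exact hu'.symm
  obtain ⟨N, hN, hc⟩ := Cfsg.Agent.Lib.Transfer.frobenius P hF
  exact ⟨P, N, hN, hc⟩

end Cfsg.Agent.S1947
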