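import Cfsg.Statements.S1948
import Mathlib
import Cfsg.Agent.Lib.Techniques.Constrained

set_option autoImplicit false
open Cfsg

namespace Cfsg.Agent.S1948

open Cfsg.Agent.Lib.Techniques Cfsg.Agent.Lib.Core


/-- Let S be a Sylow p-subgroup of the finite group G. Then G = N_G(S)·O_{p'}(G) if and only if G is p-constrained and N_G(S) controls fusion in S, in the sense that whenever a subgroup Q of S has a conjugate g Q g⁻¹ inside S, the element g is a product n c with n normalizing S and c centralizing Q. -/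
theorem result {G : Type*} [Group G] [Finite G] {p : ℕ} [Fact p.Prime] (S : Sylow p G) :
    Subgroup.normalizer ((S : Subgroup G) : Set G) ⊔ Cfsg.pPrimeCore p G = ⊤ ↔
      (Cfsg.IsPConstrained p G ∧
        ∀ Q : Subgroup G, Q ≤ (S : Subgroup G) → ∀ g : G, Q.map (MulAut.conj g).toMonoidHom ≤ (S : Subgroup G) →
          ∃ n ∈ Subgroup.normalizer ((S : Subgroup G) : Set G), ∃ c ∈ Subgroup.centralizer (Q : Set G), g = n * c) := by
  set D := pPrimeCore p G with hD
  set H := pPrimePCore p G with hH
  haveI hHn : H.Normal := pPrimePCore_normal p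
  haveI hDn : D.Normal := pPrimeCore_normal p G
  have hSs := sylowIn_top_of_sylow S
  constructor
  · intro hsup
    -- the image of `S` is a normal Sylow subgroup of `G / D`
    let π := QuotientGroup.mk' D
    have hπ : Function.Surjective π := QuotientGroup.mk'_surjective D
    set Sb := (S : Subgroup G).map π with hSb
    have hSbn : Sb.Normal := by
      constructor
      rintro _ ⟨s, hs, rfl⟩ y
      obtain ⟨g, rfl⟩ := hπ y
      have hg : g ∈ Subgroup.normalizer ((S : Subgroup G) : Set G) ⊔ D := by rw [hsup]; trivial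
      obtain ⟨n, hn, d, hd, rfl⟩ := Subgroup.mem_sup_of_normal_right.1 hg
      have hd1 : π d = 1 := (QuotientGroup.eq_one_iff d).2 hd
      refine ⟨n * s * n⁻¹, (Subgroup.mem_normalizer_iff.1 hn s).1 hs, ?_⟩
      simp [hd1]
    have hSbs : SylowIn p Sb ⊤ := by
      refine ⟨le_top, S.isPGroup'.map _, ?_⟩
      rw [Subgroup.relIndex_top_right]
      intro hd
      apply S.not_dvd_index
      have h1 : Sb.index = (Sb.comap π).index := (Subgroup.index_comap_of_surjective Sb hπ).symm
      have h2 : (S : Subgroup G) ≤ Sb.comap π := fun s hs => ⟨s, hs, rfl⟩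
      rw [h1] at hd
      exact hd.trans (Subgroup.index_dvd_of_le h2)
    have hcen : IsPGroup p (Subgroup.centralizer (Sb : Set (G ⧸ D))) :=
      isPGroup_centralizer_of_normal_sylow pPrimeCore_quotient_eq_bot hSbs hSbn
    have hCH : Subgroup.centralizer ((S : Subgroup G) : Set G) ≤ H := by
      intro x hx
      show π x ∈ pCore p (G ⧸ D)
      haveI : (Subgroup.centralizer (Sb : Set (G ⧸ D))).Normal := Subgroup.normal_centralizer
      refine le_pCore inferInstance hcen ?_
      rw [Subgroup.mem_centralizer_iff]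
      rintro _ ⟨s, hs, rfl⟩
      have := Subgroup.mem_centralizer_iff.1 hx s hs
      rw [← map_mul, ← map_mul, this]
    have hSH : (S : Subgroup G) ≤ H := by
      intro s hs
      show π s ∈ pCore p (G ⧸ D)
      exact le_pCore hSbn (S.isPGroup'.map _) ⟨s, hs, rfl⟩
    have hSsH : SylowIn p (S : Subgroup G) H := hSs.of_le hSH le_top
    constructor
    · intro P
      have hT := sylowIn_of_sylow P
      obtain ⟨h, hh, hc⟩ := hSsH.exists_conj_eq hT
      rw [← hc, conj_centralizer_subgroup]
      exact (conjS_mono h hCH).trans (conjS_eq_of_mem hh).le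
    · intro Q hQ g hg
      have hg' : g ∈ Subgroup.normalizer ((S : Subgroup G) : Set G) ⊔ D := by rw [hsup]; trivial
      obtain ⟨n, hn, d, hd, rfl⟩ := Subgroup.mem_sup_of_normal_right.1 hg'
      refine ⟨n, hn, d, ?_, rfl⟩
      rw [Subgroup.mem_centralizer_iff]
      intro x hx
      -- `[d, x] ∈ S ∩ D = 1`
      have h1 : (n * d) * x * (n * d)⁻¹ ∈ (S : Subgroup G) := hg ⟨x, hx, rfl⟩
      have h2 : d * x * d⁻¹ ∈ (S : Subgroup G) := by
        have := (Subgroup.mem_normalizer_iff.1 (Subgroup.inv_mem _ hn) _).1 h1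
        have e : n⁻¹ * (n * d * x * (n * d)⁻¹) * n⁻¹⁻¹ = d * x * d⁻¹ := by group
        rwa [e] at this
      have h3 : d * x * d⁻¹ * x⁻¹ ∈ (S : Subgroup G) := Subgroup.mul_mem _ h2 (Subgroup.inv_mem _ (hQ hx))
      have h4 : d * x * d⁻¹ * x⁻¹ ∈ D := by
        have := hDn.conj_mem d⁻¹ (D.inv_mem hd) x
        have e : d * x * d⁻¹ * x⁻¹ = d * (x * d⁻¹ * x⁻¹) := by group
        rw [e]
        exact D.mul_mem hd this
      have h5 : d * x * d⁻¹ * x⁻¹ = 1 := by
        exact eq_one_of_mem_isPGroup_of_mem_coprime S.isPGroup' (pPrimeCore_coprime p G) h3 h4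
      have e : d * x = d * x * d⁻¹ * x⁻¹ * (x * d) := by group
      rw [h5, one_mul] at e
      exact e.symm
  · rintro ⟨hcon, hfus⟩
    have hTs : SylowIn p ((S : Subgroup G) ⊓ H) H :=
      hSs.inf_of_normal le_top Subgroup.le_normalizer_of_normal
    have hTle : (S : Subgroup G) ⊓ H ≤ Subgroup.normalizer ((S : Subgroup G) : Set G) :=
      inf_le_left.trans Subgroup.le_normalizer
    have hHle : H ≤ Subgroup.normalizer ((S : Subgroup G) : Set G) ⊔ D :=
      (pPrimePCore_le_sup hTs).trans (sup_le_sup_right hTle _)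
    have hCT : Subgroup.centralizer (((S : Subgroup G) ⊓ H : Subgroup G) : Set G) ≤ H := by
      have := hcon hTs.toSylow
      have e : ((hTs.toSylow : Subgroup H).map H.subtype) = (S : Subgroup G) ⊓ H := by
        ext x
        constructor
        · rintro ⟨y, hy, rfl⟩
          exact hy
        · intro hx
          exact ⟨⟨x, hx.2⟩, hx, rfl⟩
      rwa [e] at this
    rw [eq_top_iff]
    intro g _
    -- Frattini
    have hgs : SylowIn p (conjS g ((S : Subgroup G) ⊓ H)) H := by
      have := hTs.conj g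
      rwa [conjS_of_normal g H] at this
    obtain ⟨h, hh, hc⟩ := hgs.exists_conj_eq hTs
    have hy : conjS (h * g) ((S : Subgroup G) ⊓ H) = (S : Subgroup G) ⊓ H := by
      rw [conjS_mul, hc]
    obtain ⟨n, hn, c, hc', e⟩ := hfus _ inf_le_left (h * g) (by
      have : Subgroup.map (MulAut.conj (h * g)).toMonoidHom ((S : Subgroup G) ⊓ H) = (S : Subgroup G) ⊓ H := hy
      rw [this]; exact inf_le_left)
    have e2 : g = h⁻¹ * (n * c) := by rw [← e]; group
    rw [e2]
    refine Subgroup.mul_mem _ (hHle (H.inv_mem hh)) (Subgroup.mul_mem _ ?_ (hHle (hCT hc')))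
    exact (le_sup_left : Subgroup.normalizer ((S : Subgroup G) : Set G) ≤ _) hn

end Cfsg.Agent.S1948
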