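import Cfsg.Statements.S1949
import Mathlib
import Cfsg.Agent.Lib.Techniques.CritG

set_option autoImplicit false
open Cfsg

namespace Cfsg.Agent.S1949

/-- Let P be a finite p-group and G a group of automorphisms of P containing the inner automorphisms. Then there is a G-invariant subgroup D of P, contained in the subgroup generated by the elements x⁻¹α(x) with x in P and α in O^p(G), of exponent dividing p when p is odd and dividing 4 when p = 2, with [D, P] ≤ Z(D), such that every automorphism in G of order prime to p that fixes D elementwise is the identity; moreover every maximal abelian subgroup A of D is normal in P and every automorphism in G fixing A elementwise has p-power order. -/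
theorem result {P : Type*} [Group P] [Finite P] {p : ℕ} [Fact p.Prime] (hP : IsPGroup p P)
    (G : Subgroup (MulAut P)) (hG : Cfsg.Inn P ≤ G) :
    ∃ D : Subgroup P,
      (∀ α ∈ G, D.map α.toMonoidHom = D) ∧
      D ≤ Subgroup.closure {y : P | ∃ α ∈ Cfsg.pResidual p ↥G, ∃ x : P, y = x⁻¹ * (α : MulAut P) x} ∧
      (∀ d ∈ D, d ^ p = 1 ∨ (p = 2 ∧ d ^ 4 = 1)) ∧
      ⁅D, (⊤ : Subgroup P)⁆ ≤ D ⊓ Subgroup.centralizer (D : Set P) ∧
      (∀ α ∈ G, (orderOf α).Coprime p → (∀ d ∈ D, α d = d) → α = 1) ∧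
      ∀ A : Subgroup P, A ≤ D → IsMulCommutative ↥A →
        (∀ B : Subgroup P, A ≤ B → B ≤ D → IsMulCommutative ↥B → B = A) →
        A.Normal ∧ ∀ α ∈ G, (∀ a ∈ A, α a = a) → ∃ k : ℕ, orderOf α = p ^ k := by
  classical
  obtain ⟨T, hTd⟩ : ∃ T : Subgroup P, T = Subgroup.closure {y : P | ∃ α ∈ Cfsg.pResidual p ↥G, ∃ x : P, y = x⁻¹ * (α : MulAut P) x} := ⟨_, rfl⟩
  have hTinv : Cfsg.Agent.Lib.Techniques.CritG.Inv G T := by
    intro β hβ w hw
    rw [hTd] at hw ⊢
    induction hw using Subgroup.closure_induction with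
    | mem y hy =>
      obtain ⟨α, hα, x, rfl⟩ := hy
      apply Subgroup.subset_closure
      obtain ⟨b, hb⟩ : ∃ b : ↥G, (b : MulAut P) = β := ⟨⟨β, hβ⟩, rfl⟩
      have hm : b * α * b⁻¹ ∈ Cfsg.pResidual p ↥G :=
        (Cfsg.Agent.Lib.Techniques.pResidual_normal _ p).conj_mem α hα b
      refine ⟨b * α * b⁻¹, hm, β x, ?_⟩
      have e : ((b * α * b⁻¹ : ↥G) : MulAut P) = β * (α : MulAut P) * β⁻¹ := by
        rw [← hb]; rfl
      rw [e, map_mul, map_inv, MulAut.mul_apply, MulAut.mul_apply, MulAut.inv_apply_self]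
    | one => rw [map_one]; exact Subgroup.one_mem _
    | mul a b _ _ ha hb => rw [map_mul]; exact Subgroup.mul_mem _ ha hb
    | inv a _ ha => rw [map_inv]; exact Subgroup.inv_mem _ ha
  have hres : ∀ α ∈ G, (orderOf α).Coprime p → ∀ x, x⁻¹ * α x ∈ T := by
    intro α hα hc x
    rw [hTd]
    apply Subgroup.subset_closure
    refine ⟨⟨α, hα⟩, Subgroup.subset_closure ?_, x, rfl⟩
    show Nat.Coprime (orderOf (⟨α, hα⟩ : ↥G)) p
    rw [Subgroup.orderOf_mk]
    exact hc
  obtain ⟨D, h1, h2, h3, h4, h5, h6⟩ := Cfsg.Agent.Lib.Techniques.CritG.main hP hG T hTinv hres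
  refine ⟨D, fun α hα => h1.map_eq hα, ?_, h3, h4, h5, h6⟩
  rw [← hTd]
  exact h2

end Cfsg.Agent.S1949
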