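import Cfsg.Statements.S1952
import Mathlib
import Cfsg.Agent.Lib.Techniques.ChainAction
import Cfsg.Agent.Lib.Techniques.ChiefAction
import Cfsg.Agent.Lib.Techniques.ConjFamily

set_option autoImplicit false
open Cfsg

namespace Cfsg.Agent.S1952


open Cfsg.Agent.Lib.Techniques in
theorem iter_le_of_card {P : Type*} [Group P] [Finite P] {p : ℕ} [hp : Fact p.Prime] (hP : IsPGroup p P)
    (K₀ : Subgroup P) [hK : K₀.Normal] :
    ∀ (m : ℕ) (L : Subgroup P) [hL : L.Normal], K₀ ≤ L → Nat.card L ≤ p ^ m * Nat.card K₀ →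
      Cfsg.iterCommutator L ⊤ m ≤ K₀ := by
  intro m
  induction m with
  | zero =>
    intro L hL hKL hc
    have h1 : L ≤ K₀ := by
      have := Subgroup.eq_of_le_of_card_ge hKL (by simpa using hc)
      rw [this]
    exact h1
  | succ m ih =>
    intro L hL hKL hc
    by_cases hLK : L ≤ K₀
    · exact (iterCommutator_le_self (m + 1)).trans hLK
    · set L' : Subgroup P := ⁅L, ⊤⁆ ⊔ K₀ with hL'
      haveI hL'n : L'.Normal := Subgroup.sup_normal _ _
      have hL'L : L' ≤ L := sup_le (Subgroup.commutator_le_left _ _) hKL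
      -- strictness
      have hne : L' ≠ L := by
        intro he
        apply hLK
        haveI : Group.IsNilpotent P := hP.isNilpotent
        obtain ⟨n, hn⟩ := (Subgroup.nilpotent_iff_lowerCentralSeries (G := P)).1 hP.isNilpotent
        have hall : ∀ i, L ≤ Subgroup.lowerCentralSeries (⊤ : Subgroup P) i ⊔ K₀ := by
          intro i
          induction i with
          | zero => exact le_sup_of_le_left le_top
          | succ i ih2 =>
            rw [← he]
            refine sup_le ?_ le_sup_right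
            refine (Subgroup.commutator_mono ih2 le_rfl).trans ?_
            exact commutator_sup_normal_le
        have := hall n
        rwa [hn, bot_sup_eq] at this
      have hcdvd : Nat.card L' ∣ Nat.card L := Subgroup.card_dvd_of_le hL'L
      have hlt : Nat.card L' < Nat.card L := card_lt_of_lt' (lt_of_le_of_ne hL'L hne)
      obtain ⟨a, ha⟩ := IsPGroup.iff_card.1 (hP.to_subgroup L)
      obtain ⟨b, hb⟩ := IsPGroup.iff_card.1 (hP.to_subgroup L')
      have hp1 : 1 < p := hp.out.one_lt
      have hab : b < a := by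
        rw [ha, hb] at hlt
        exact (Nat.pow_lt_pow_iff_right hp1).1 hlt
      have hcL' : Nat.card L' ≤ p ^ m * Nat.card K₀ := by
        have h3 : p * Nat.card L' ≤ Nat.card L := by
          rw [ha, hb, ← pow_succ']
          exact Nat.pow_le_pow_right hp1.le hab
        have h4 : p * Nat.card L' ≤ p * (p ^ m * Nat.card K₀) := by
          calc p * Nat.card L' ≤ Nat.card L := h3
            _ ≤ p ^ (m + 1) * Nat.card K₀ := hc
            _ = p * (p ^ m * Nat.card K₀) := by ring
        exact Nat.le_of_mul_le_mul_left h4 hp.out.pos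
      have h5 := ih L' le_sup_right hcL'
      refine le_trans ?_ h5
      have hshift : ∀ (X : Subgroup P) (j : ℕ), Cfsg.iterCommutator X ⊤ (j + 1) = Cfsg.iterCommutator ⁅X, ⊤⁆ ⊤ j := by
        intro X j
        induction j with
        | zero => rfl
        | succ j ih3 =>
          show ⁅Cfsg.iterCommutator X ⊤ (j + 1), ⊤⁆ = ⁅Cfsg.iterCommutator ⁅X, ⊤⁆ ⊤ j, ⊤⁆
          rw [ih3]
      rw [hshift]
      exact iterCommutator_mono_left le_sup_left m

theorem exists_linear_ne {M : Type*} [AddCommGroup M] {p : ℕ} [hp : Fact p.Prime] [Module (ZMod p) M] (d : M) (hd : d ≠ 0) :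
    ∃ φ : M →+ ZMod p, φ d ≠ 0 := by
  obtain ⟨φ, hφ⟩ : ∃ φ : Module.Dual (ZMod p) M, φ d ≠ 0 := by
    by_contra hcon
    push Not at hcon
    exact hd ((Module.forall_dual_apply_eq_zero_iff (ZMod p) _).1 hcon)
  exact ⟨φ.toAddMonoidHom, hφ⟩

theorem exists_hom_ne_of_exponent {V : Type*} [CommGroup V] {p : ℕ} [hp : Fact p.Prime] (hexp : ∀ v : V, v ^ p = 1)
    (d : V) (hd : d ≠ 1) : ∃ ψ : V →* Multiplicative (ZMod p), ψ d ≠ 1 := by
  classical
  have hexp' : ∀ x : Additive V, p • x = 0 := by
    intro x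
    exact congrArg Additive.ofMul (hexp (Additive.toMul x))
  letI : Module (ZMod p) (Additive V) := AddCommGroup.zmodModule hexp'
  have hD' : Additive.ofMul d ≠ 0 := by
    intro h
    exact hd (Additive.ofMul.injective h)
  obtain ⟨φ, hφ⟩ := exists_linear_ne (p := p) (Additive.ofMul d) hD'
  refine ⟨MonoidHom.mk' (fun a => Multiplicative.ofAdd (φ (Additive.ofMul a))) (by
    intro a b
    rw [ofMul_mul, map_add, ofAdd_add]), ?_⟩
  intro h
  apply hφ
  exact Multiplicative.ofAdd.injective h

theorem exists_hyperplane_of_ne {P : Type*} [Group P] [Finite P] {p : ℕ} [hp : Fact p.Prime] {A : Subgroup P}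
    (hA : Cfsg.IsElementaryAbelian p A) {D : P} (hD : D ∈ A) (hD1 : D ≠ 1) :
    ∃ K : Subgroup P, K ≤ A ∧ D ∉ K ∧ Nat.card A = p * Nat.card K := by
  classical
  letI : CommGroup ↥A := { (inferInstance : Group ↥A) with mul_comm := hA.1.is_comm.comm }
  obtain ⟨ψ, hψ⟩ := exists_hom_ne_of_exponent (p := p) (V := ↥A) (by
    intro v
    apply Subtype.ext
    exact hA.2 _ v.2) ⟨D, hD⟩ (by
    intro h
    exact hD1 (congrArg Subtype.val h))
  refine ⟨ψ.ker.map A.subtype, Subgroup.map_subtype_le _, ?_, ?_⟩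
  · rintro ⟨a, ha, hae⟩
    have : a = ⟨D, hD⟩ := Subtype.ext hae
    rw [this] at ha
    exact hψ ha
  · have h1 : Nat.card ↥(ψ.ker.map A.subtype) = Nat.card ψ.ker :=
      Subgroup.card_map_of_injective A.subtype_injective
    rw [h1, ← ψ.ker.index_mul_card, Subgroup.index_ker]
    congr 1
    -- the range has prime order
    have h2 : Nat.card ψ.range ∣ Nat.card (Multiplicative (ZMod p)) := Subgroup.card_subgroup_dvd_card _
    have h3 : Nat.card (Multiplicative (ZMod p)) = p := by
      rw [Nat.card_congr Multiplicative.toAdd, Nat.card_zmod]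
    rw [h3] at h2
    rcases (Nat.dvd_prime hp.out).1 h2 with h4 | h4
    · exfalso
      have h5 : ψ.range = ⊥ := (Subgroup.eq_bot_iff_card _).2 h4
      have h6 : ψ ⟨D, hD⟩ ∈ ψ.range := ⟨_, rfl⟩
      rw [h5, Subgroup.mem_bot] at h6
      exact hψ h6
    · exact h4

theorem chiefNrm_eq_list {P : Type*} [Group P] (x y : P) (n : ℕ) :
    Cfsg.Agent.Lib.Techniques.chiefNrm y⁻¹ x n = ((List.range n).map (fun i => (y ^ i)⁻¹ * x * y ^ i)).prod := by
  induction n with
  | zero => rfl
  | succ n ih =>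
    rw [List.range_succ, List.map_append, List.prod_append, ← ih]
    simp [Cfsg.Agent.Lib.Techniques.chiefNrm, inv_pow]

theorem iterCommutator_mono_right' {P : Type*} [Group P] {X B C : Subgroup P} (h : B ≤ C) (k : ℕ) :
    Cfsg.iterCommutator X B k ≤ Cfsg.iterCommutator X C k := by
  induction k with
  | zero => exact le_rfl
  | succ k ih => exact Subgroup.commutator_mono ih h

theorem factorization_factorial_sq {p : ℕ} (hp : p.Prime) : ((p ^ 2).factorial).factorization p = p + 1 := by
  haveI : Fact p.Prime := ⟨hp⟩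
  rw [Nat.factorization_def _ hp]
  have hlog : Nat.log p (p ^ 2) < 3 := by
    rw [Nat.log_pow hp.one_lt]
    omega
  rw [padicValNat_factorial hlog]
  have e : Finset.Ico 1 3 = {1, 2} := rfl
  rw [e, Finset.sum_pair (by norm_num)]
  have h1 : p ^ 2 / p ^ 1 = p := by
    rw [pow_one, pow_two, Nat.mul_div_cancel _ hp.pos]
  have h2 : p ^ 2 / p ^ 2 = 1 := Nat.div_self (by have := hp.pos; positivity)
  rw [h1, h2]



/-- Let P be a finite p-group with a normal elementary abelian subgroup A of index p, and let x ∈ A and y ∈ P with y outside A. If the product of the p conjugates y^(-i) x y^i (i = 0, …, p−1) is not the identity, then the wreath product Z_p ≀ Z_p, realised as a Sylow p-subgroup of the symmetric group of degree p², is a homomorphic image of P. -/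
theorem result {P : Type*} [Group P] [Finite P] {p : ℕ} [Fact p.Prime] (hP : IsPGroup p P) (A : Subgroup P) [A.Normal]
    (hA : Cfsg.IsElementaryAbelian p A) (hidx : A.index = p) (x y : P) (hx : x ∈ A) (hy : y ∉ A)
    (hprod : ((List.range p).map (fun i => (y ^ i)⁻¹ * x * y ^ i)).prod ≠ 1) :
    ∃ (Q : Sylow p (Equiv.Perm (Fin (p ^ 2)))) (f : P →* ↥(Q : Subgroup (Equiv.Perm (Fin (p ^ 2))))), Function.Surjective f := by
  classical
  set D : P := ((List.range p).map (fun i => (y ^ i)⁻¹ * x * y ^ i)).prod with hD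
  have hp1 : 1 < p := (Fact.out : p.Prime).one_lt
  have hp0 : 0 < p := (Fact.out : p.Prime).pos
  have hDnrm : Cfsg.Agent.Lib.Techniques.chiefNrm y⁻¹ x p = D := chiefNrm_eq_list x y p
  have hDA : D ∈ A := by
    rw [← hDnrm]
    exact Cfsg.Agent.Lib.Techniques.chiefNrm_mem _ _ hx _
  obtain ⟨K, hKA, hDK, hKc⟩ := exists_hyperplane_of_ne hA hDA hprod
  have hcP : Nat.card P = p * Nat.card A := by
    rw [← A.index_mul_card, hidx]
  have hKpos : 0 < Nat.card K := Nat.card_pos
  have hKidx : K.index = p ^ 2 := by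
    apply Nat.eq_of_mul_eq_mul_right hKpos
    rw [K.index_mul_card, hcP, hKc]
    ring
  let e : P ⧸ K ≃ Fin (p ^ 2) := Finite.equivFinOfCardEq hKidx
  let f₁ : P →* Equiv.Perm (Fin (p ^ 2)) :=
    (Equiv.permCongrHom e).toMonoidHom.comp (MulAction.toPermHom P (P ⧸ K))
  have hker : f₁.ker = K.normalCore := by
    rw [Subgroup.normalCore_eq_ker]
    ext g
    simp only [MonoidHom.mem_ker]
    constructor
    · intro h
      have h2 : (Equiv.permCongrHom e) (MulAction.toPermHom P (P ⧸ K) g) = 1 := h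
      have h3 := (Equiv.permCongrHom e).injective (h2.trans (map_one _).symm)
      exact h3
    · intro h
      show (Equiv.permCongrHom e) (MulAction.toPermHom P (P ⧸ K) g) = 1
      rw [h, map_one]
  set K₀ : Subgroup P := K.normalCore with hK₀
  haveI hK₀n : K₀.Normal := Subgroup.normalCore_normal K
  have hK₀K : K₀ ≤ K := Subgroup.normalCore_le K
  have hK₀A : K₀ ≤ A := hK₀K.trans hKA
  have hlow : ¬ (Nat.card A ≤ p ^ (p - 1) * Nat.card K₀) := by
    intro hc
    have h1 := iter_le_of_card hP K₀ (p - 1) A hK₀A hc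
    have h2 : Cfsg.iterCommutator A (Subgroup.zpowers y⁻¹) (p - 1) ≤ K₀ :=
      (iterCommutator_mono_right' le_top _).trans h1
    have hab : ⁅A, A⁆ ≤ K₀ := by
      rw [Subgroup.commutator_le]
      intro a ha b hb
      have h3 : a * b = b * a := by
        have := hA.1.is_comm.comm (⟨a, ha⟩ : ↥A) ⟨b, hb⟩
        exact congrArg Subtype.val this
      have h4 : a * b * a⁻¹ * b⁻¹ = 1 := by
        rw [h3]; group
      show a * b * a⁻¹ * b⁻¹ ∈ K₀
      rw [h4]
      exact K₀.one_mem
    have hexp : ∀ z ∈ A, z ^ p ∈ K₀ := by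
      intro z hz
      rw [hA.2 z hz]
      exact K₀.one_mem
    have h3 := Cfsg.Agent.Lib.Techniques.chiefNrm_mem_of_iter hab hexp y⁻¹ h2 x hx
    rw [hDnrm] at h3
    exact hDK (hK₀K h3)
  have hK₀pos : 0 < Nat.card K₀ := Nat.card_pos
  have hidxcard : K₀.index * Nat.card K₀ = p * Nat.card A := by
    rw [K₀.index_mul_card, hcP]
  have hidxgt : p ^ p < K₀.index := by
    push Not at hlow
    have h1 : p ^ p * Nat.card K₀ < K₀.index * Nat.card K₀ := by
      rw [hidxcard]
      have h2 : p ^ p = p * p ^ (p - 1) := by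
        rw [← pow_succ', Nat.sub_add_cancel hp1.le]
      rw [h2, mul_assoc]
      exact Nat.mul_lt_mul_of_pos_left hlow hp0
    exact Nat.lt_of_mul_lt_mul_right h1
  have hrange : Nat.card f₁.range = K₀.index := by
    rw [← Subgroup.index_ker, hker]
  obtain ⟨n, hn⟩ := IsPGroup.iff_card.1 (hP.to_quotient K₀)
  have hidxn : K₀.index = p ^ n := hn
  have hnlow : p < n := by
    rw [hidxn] at hidxgt
    exact (Nat.pow_lt_pow_iff_right hp1).1 hidxgt
  have hcardPerm : Nat.card (Equiv.Perm (Fin (p ^ 2))) = (p ^ 2).factorial := by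
    rw [Nat.card_eq_fintype_card, Fintype.card_perm, Fintype.card_fin]
  have hdvd : p ^ n ∣ (p ^ 2).factorial := by
    rw [← hidxn, ← hrange, ← hcardPerm]
    exact Subgroup.card_subgroup_dvd_card _
  have hfac := factorization_factorial_sq (Fact.out : p.Prime)
  have hnup : n ≤ p + 1 := by
    rw [← hfac]
    exact ((Fact.out : p.Prime).pow_dvd_iff_le_factorization (Nat.factorial_ne_zero _)).1 hdvd
  have hnval : n = p + 1 := by omega
  have hcardR : Nat.card f₁.range = p ^ (Nat.card (Equiv.Perm (Fin (p ^ 2)))).factorization p := by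
    rw [hrange, hidxn, hcardPerm, hfac, hnval]
  let Q : Sylow p (Equiv.Perm (Fin (p ^ 2))) := Sylow.ofCard f₁.range hcardR
  have hQ : (Q : Subgroup (Equiv.Perm (Fin (p ^ 2)))) = f₁.range := Sylow.coe_ofCard _ _
  refine ⟨Q, f₁.codRestrict (Q : Subgroup (Equiv.Perm (Fin (p ^ 2)))) (fun z => by
    rw [hQ]
    exact ⟨z, rfl⟩), ?_⟩
  rintro ⟨q, hq⟩
  have hq2 : q ∈ f₁.range := by
    rw [← hQ]
    exact hq
  obtain ⟨z, rfl⟩ := hq2
  exact ⟨z, Subtype.ext rfl⟩


end Cfsg.Agent.S1952
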