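import Cfsg.Statements.S1954
import Mathlib
import Cfsg.Agent.Lib.Techniques.ExtCtl

set_option autoImplicit false
open Cfsg

namespace Cfsg.Agent.S1954

open Cfsg.Agent.Lib.Techniques

/-- Let N be a normal subgroup of the finite group G, P a Sylow p-subgroup of G, and V a subgroup of P ∩ N normal in P ∩ N such that N_N(V) controls strong fusion in P ∩ N with respect to N (whenever a subgroup A of P ∩ N has n A n⁻¹ ≤ P ∩ N for some n in N, then n = h c with h in N_N(V) and c in C_N(A)). Let W be the subgroup generated by the conjugates of V under N_G(P ∩ N). Then N_G(W) controls strong fusion in P with respect to G. -/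
theorem result {G : Type*} [Group G] [Finite G] {p : ℕ} [Fact p.Prime] (N : Subgroup G) [N.Normal] (P : Sylow p G) (V : Subgroup G)
    (hV : V ≤ (P : Subgroup G) ⊓ N) (hVn : ∀ x ∈ (P : Subgroup G) ⊓ N, V.map (MulAut.conj x).toMonoidHom = V)
    (hctrl : ∀ A : Subgroup G, A ≤ (P : Subgroup G) ⊓ N → ∀ n ∈ N, A.map (MulAut.conj n).toMonoidHom ≤ (P : Subgroup G) ⊓ N →
      ∃ h ∈ N ⊓ Subgroup.normalizer (V : Set G), ∃ c ∈ N ⊓ Subgroup.centralizer (A : Set G), n = h * c)
    (W : Subgroup G) (hW : W = Subgroup.closure (⋃ x ∈ Subgroup.normalizer (((P : Subgroup G) ⊓ N : Subgroup G) : Set G),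
      ((V.map (MulAut.conj x).toMonoidHom : Subgroup G) : Set G))) :
    ∀ A : Subgroup G, A ≤ (P : Subgroup G) → ∀ g : G, A.map (MulAut.conj g).toMonoidHom ≤ (P : Subgroup G) →
        ∃ h ∈ Subgroup.normalizer (W : Set G), ∃ c ∈ Subgroup.centralizer (A : Set G), g = h * c := by
  classical
  intro A hA g hgA
  set Q : Subgroup G := (P : Subgroup G) ⊓ N with hQ
  have hPs := sylowIn_top_of_sylow P
  have hsyl : SylowIn p Q N := hPs.inf_of_normal le_top (by
    rw [Subgroup.normalizer_eq_top_iff.2 ‹N.Normal›])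
  have hPN : (P : Subgroup G) ≤ Subgroup.normalizer (N : Set G) := by
    rw [Subgroup.normalizer_eq_top_iff.2 ‹N.Normal›]
    exact le_top
  have hPQ : (P : Subgroup G) ≤ Subgroup.normalizer (Q : Set G) := fun r hr =>
    inf_mem_normalizer (Subgroup.le_normalizer hr) (hPN hr)
  -- elements normalizing every conjugate normalize `W`
  have hnW : ∀ z : G, (∀ x ∈ Subgroup.normalizer (Q : Set G), conjS z (conjS x V) = conjS x V) →
      z ∈ Subgroup.normalizer (W : Set G) := by
    intro z hz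
    apply mem_normalizer_of_conjS_le
    rw [hW, conjS_le_iff, Subgroup.closure_le]
    intro s hs
    simp only [Set.mem_iUnion] at hs
    obtain ⟨x, hx, hs⟩ := hs
    have h1 : z * s * z⁻¹ ∈ conjS z (conjS x V) := conj_mem_conjS hs
    rw [hz x hx] at h1
    rw [SetLike.mem_coe, mem_conjS, inv_inv]
    apply Subgroup.subset_closure
    simp only [Set.mem_iUnion]
    exact ⟨x, hx, h1⟩
  have hQW : Subgroup.normalizer (Q : Set G) ≤ Subgroup.normalizer (W : Set G) := by
    intro z hz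
    apply mem_normalizer_of_conjS_le
    rw [hW, conjS_le_iff, Subgroup.closure_le]
    intro s hs
    simp only [Set.mem_iUnion] at hs
    obtain ⟨x, hx, hs⟩ := hs
    rw [SetLike.mem_coe, mem_conjS, inv_inv]
    apply Subgroup.subset_closure
    simp only [Set.mem_iUnion]
    refine ⟨z * x, Subgroup.mul_mem _ hz hx, ?_⟩
    rw [SetLike.mem_coe]
    show z * s * z⁻¹ ∈ conjS (z * x) V
    rw [conjS_mul]
    exact conj_mem_conjS hs
  -- control by each conjugate
  have hctlx : ∀ x ∈ Subgroup.normalizer (Q : Set G), ∀ A' : Subgroup G, A' ≤ Q → ∀ n ∈ N, conjS n A' ≤ Q →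
      ∃ h ∈ N ⊓ Subgroup.normalizer ((conjS x V : Subgroup G) : Set G), ∃ c ∈ N ⊓ Subgroup.centralizer (A' : Set G), n = h * c := by
    intro x hx A' hA' n hn hc
    have hxQ : conjS x Q = Q := mem_normalizer_iff_conjS.1 hx
    have h1 : conjS x⁻¹ A' ≤ Q := by
      have := conjS_mono x⁻¹ hA'
      rwa [mem_normalizer_iff_conjS.1 (Subgroup.inv_mem _ hx)] at this
    have hn' : x⁻¹ * n * x⁻¹⁻¹ ∈ N := (inferInstance : N.Normal).conj_mem _ hn _
    have h2 : conjS (x⁻¹ * n * x⁻¹⁻¹) (conjS x⁻¹ A') ≤ Q := by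
      have e : conjS (x⁻¹ * n * x⁻¹⁻¹) (conjS x⁻¹ A') = conjS x⁻¹ (conjS n A') := by
        rw [← conjS_mul, ← conjS_mul]
        congr 1
        group
      rw [e]
      have := conjS_mono x⁻¹ hc
      rwa [mem_normalizer_iff_conjS.1 (Subgroup.inv_mem _ hx)] at this
    obtain ⟨h, hh, c, hc', e⟩ := hctrl _ h1 _ hn' h2
    refine ⟨x * h * x⁻¹, ⟨(inferInstance : N.Normal).conj_mem _ hh.1 _, ?_⟩, x * c * x⁻¹, ⟨(inferInstance : N.Normal).conj_mem _ hc'.1 _, ?_⟩, ?_⟩
    · show x * h * x⁻¹ ∈ Subgroup.normalizer ((conjS x V : Subgroup G) : Set G)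
      rw [mem_normalizer_iff_conjS]
      have h3 : conjS h V = V := mem_normalizer_iff_conjS.1 hh.2
      rw [← conjS_mul]
      have e2 : x * h * x⁻¹ * x = x * h := by group
      rw [e2, conjS_mul, h3]
    · show x * c * x⁻¹ ∈ Subgroup.centralizer (A' : Set G)
      rw [Subgroup.mem_centralizer_iff]
      intro a ha
      have h3 := Subgroup.mem_centralizer_iff.1 hc'.2 (x⁻¹ * a * x⁻¹⁻¹) (conj_mem_conjS ha)
      calc a * (x * c * x⁻¹) = x * ((x⁻¹ * a * x⁻¹⁻¹) * c) * x⁻¹ := by group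
        _ = x * (c * (x⁻¹ * a * x⁻¹⁻¹)) * x⁻¹ := by rw [h3]
        _ = _ := by group
    · have e2 : n = x * (x⁻¹ * n * x⁻¹⁻¹) * x⁻¹ := by group
      rw [e2, e]
      group
  have hVx : ∀ x ∈ Subgroup.normalizer (Q : Set G), conjS x V ≤ Q := by
    intro x hx
    have := conjS_mono x hV
    rwa [mem_normalizer_iff_conjS.1 hx] at this
  have hQVx : ∀ x ∈ Subgroup.normalizer (Q : Set G), Q ≤ Subgroup.normalizer ((conjS x V : Subgroup G) : Set G) := by
    intro x hx q hq
    rw [mem_normalizer_iff_conjS]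
    have h1 : x⁻¹ * q * x⁻¹⁻¹ ∈ Q := (Subgroup.mem_normalizer_iff.1 (Subgroup.inv_mem _ hx) q).1 hq
    have h2 : conjS (x⁻¹ * q * x⁻¹⁻¹) V = V := hVn _ h1
    rw [← conjS_mul]
    have e : q * x = x * (x⁻¹ * q * x⁻¹⁻¹) := by group
    rw [e, conjS_mul, h2]
  -- the ladder
  have ladder : ∀ S : Finset G, (∀ x ∈ S, x ∈ Subgroup.normalizer (Q : Set G)) → ∀ A' : Subgroup G, A' ≤ Q → ∀ n ∈ N,
      conjS n A' ≤ Q → ∃ h ∈ N, (∀ x ∈ S, h ∈ Subgroup.normalizer ((conjS x V : Subgroup G) : Set G)) ∧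
        ∃ c ∈ N ⊓ Subgroup.centralizer (A' : Set G), n = h * c := by
    intro S
    induction S using Finset.induction_on with
    | empty =>
      intro _ A' _ n hn _
      exact ⟨n, hn, by simp, 1, Subgroup.one_mem _, by simp⟩
    | insert x S hxS ih =>
      intro hS A' hA' n hn hc
      have hx : x ∈ Subgroup.normalizer (Q : Set G) := hS x (Finset.mem_insert_self x S)
      have hS' : ∀ z ∈ S, z ∈ Subgroup.normalizer (Q : Set G) := fun z hz => hS z (Finset.mem_insert_of_mem hz)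
      obtain ⟨h₁, hh₁, c₁, hc₁, rfl⟩ := hctlx x hx A' hA' n hn hc
      set Vx : Subgroup G := conjS x V with hVxd
      have hAV : A' ⊔ Vx ≤ Q := sup_le hA' (hVx x hx)
      have hA₁ : conjS h₁ A' = conjS (h₁ * c₁) A' := by
        rw [conjS_mul, conjS_eq_of_centralizer hc₁.2]
      have hc₂ : conjS h₁ (A' ⊔ Vx) ≤ Q := by
        rw [conjS_sup, mem_normalizer_iff_conjS.1 hh₁.2, hA₁]
        exact sup_le hc (hVx x hx)
      obtain ⟨h₂, hh₂, hh₂S, c₂, hc₂', e⟩ := ih hS' (A' ⊔ Vx) hAV h₁ hh₁.1 hc₂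
      have hc₂V : c₂ ∈ Subgroup.centralizer (Vx : Set G) :=
        Subgroup.centralizer_le (fun z hz => Subgroup.mem_sup_right hz) hc₂'.2
      have hc₂A : c₂ ∈ Subgroup.centralizer (A' : Set G) :=
        Subgroup.centralizer_le (fun z hz => Subgroup.mem_sup_left hz) hc₂'.2
      refine ⟨h₂, hh₂, ?_, c₂ * c₁, ⟨N.mul_mem hc₂'.1 hc₁.1, Subgroup.mul_mem _ hc₂A hc₁.2⟩, ?_⟩
      · intro z hz
        rcases Finset.mem_insert.1 hz with rfl | hz
        · have e2 : h₂ = h₁ * c₂⁻¹ := by rw [e]; group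
          rw [e2]
          exact Subgroup.mul_mem _ hh₁.2 (Subgroup.inv_mem _ (Subgroup.centralizer_le_normalizer _ hc₂V))
        · exact hh₂S z hz
      · rw [e]
        group
  set H : Subgroup G := N ⊓ Subgroup.normalizer (W : Set G) with hH
  have hy : ExtHyp p N (P : Subgroup G) H := by
    refine ⟨hPs.2.1, hPN, hsyl, inf_le_left, ?_, ?_, ?_⟩
    · intro q hq
      exact ⟨hq.2, hQW (Subgroup.le_normalizer hq)⟩
    · intro r hr
      exact inf_mem_normalizer (hPN hr) (normalizer_mem_normalizer (hQW (hPQ hr)))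
    · intro A' hA' n hn hc
      have hfin : (Subgroup.normalizer (Q : Set G) : Set G).Finite := Set.toFinite _
      obtain ⟨h, hh, hhS, c, hc', e⟩ := ladder hfin.toFinset (fun x hx => by simpa using hx) A' hA' n hn hc
      refine ⟨h, ⟨hh, hnW h fun x hx => ?_⟩, c, hc', e⟩
      exact mem_normalizer_iff_conjS.1 (hhS x (by simpa using hx))
  exact ext_global (L := ⊤) hy le_top (by
    rw [Subgroup.normalizer_eq_top_iff.2 ‹N.Normal›]) inf_le_right (hPQ.trans hQW) (by
    intro x hx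
    exact hQW hx.2) hA (Subgroup.mem_top g) hgA

end Cfsg.Agent.S1954
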