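import Cfsg.Statements.S1956
import Mathlib
import Cfsg.Agent.Lib.Techniques.Fusion

set_option autoImplicit false
open Cfsg

namespace Cfsg.Agent.S1956

/-- Let P be a Sylow p-subgroup of the finite group G such that every element of P of order dividing p (dividing 4 when p = 2) is central in P. Then the fusion of these elements is controlled by N_G(P): if such an element a of P has g a g⁻¹ in P, then g = n c with n normalizing P and c commuting with a. -/
theorem result {G : Type*} [Group G] [Finite G] {p : ℕ} [Fact p.Prime] (P : Sylow p G)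
    (hcen : ∀ a ∈ (P : Subgroup G), (a ^ p = 1 ∨ (p = 2 ∧ a ^ 4 = 1)) → ∀ y ∈ (P : Subgroup G), a * y = y * a) :
    ∀ a ∈ (P : Subgroup G), (a ^ p = 1 ∨ (p = 2 ∧ a ^ 4 = 1)) → ∀ g : G, g * a * g⁻¹ ∈ (P : Subgroup G) →
      ∃ n ∈ Subgroup.normalizer ((P : Subgroup G) : Set G), ∃ c : G, c * a = a * c ∧ g = n * c := by
  intro a ha hap g hg
  have hS := Cfsg.Agent.Lib.Techniques.sylowIn_top_of_sylow P
  have hap' : ((g * a * g⁻¹) ^ p = 1 ∨ (p = 2 ∧ (g * a * g⁻¹) ^ 4 = 1)) := by
    rcases hap with h | ⟨h1, h2⟩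
    · left; rw [conj_pow, h]; group
    · right; exact ⟨h1, by rw [conj_pow, h2]; group⟩
  obtain ⟨n, hn, hne⟩ := Cfsg.Agent.Lib.Techniques.burnside_fusion (g := g) hS
    (fun z hz => (hcen a ha hap z hz).symm) (fun z hz => (hcen _ hg hap' z hz).symm) rfl
  refine ⟨n, hn, n⁻¹ * g, ?_, by group⟩
  calc n⁻¹ * g * a = n⁻¹ * (g * a * g⁻¹) * g := by group
    _ = n⁻¹ * (n * a * n⁻¹) * g := by rw [hne]
    _ = a * (n⁻¹ * g) := by group

end Cfsg.Agent.S1956
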