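import Cfsg.Statements.S1988
import Mathlib
import Cfsg.Agent.S1990
import Cfsg.Agent.Lib.Techniques.KStable
import Cfsg.Agent.Lib.PGroup.MaxNormal
import Cfsg.Agent.Lib.Techniques.KSeq

set_option autoImplicit false
universe u
open Cfsg

namespace Cfsg.Agent.S1988

open Cfsg.Agent.Lib.Techniques


/-- Let p be an odd prime, G a finite group with Sylow p-subgroup S and K the lower K-infinity subgroup of S. If N_G(K) has a normal p-complement, or if N_G(K)/C_G(K) is a p-group (every element of N_G(K) of order prime to p centralizes K), then G has a normal p-complement. -/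
theorem result {G : Type u} [Group G] [Finite G] {p : ℕ} [Fact p.Prime] (hp : p ≠ 2) (S : Sylow p G) (h : Cfsg.HasNormalPComplement p ↥(Subgroup.normalizer ((Cfsg.inducedFunctor Cfsg.kInfLower (S : Subgroup G) : Subgroup G) : Set G)) ∨ ∀ g ∈ Subgroup.normalizer ((Cfsg.inducedFunctor Cfsg.kInfLower (S : Subgroup G) : Subgroup G) : Set G), (orderOf g).Coprime p → g ∈ Subgroup.centralizer ((Cfsg.inducedFunctor Cfsg.kInfLower (S : Subgroup G) : Subgroup G) : Set G)) : Cfsg.HasNormalPComplement p G := by
  have hmain : HasNormalPComplement p ↥(Subgroup.normalizer ((inducedFunctor kInfLower (S : Subgroup G) : Subgroup G) : Set G)) →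
      HasNormalPComplement p G := fun h1 =>
    Cfsg.Agent.S1990.result hp kInfLower isCharPFunctor_kInfLower S h1 (fun K R _ hst T =>
      (kInf_controls_strong hst T).1)
  rcases h with h | h
  · exact hmain h
  · apply hmain
    rw [Cfsg.Agent.Lib.FrobThm.hasNormalPComplement_iff_pNil]
    set U : Subgroup G := inducedFunctor kInfLower (S : Subgroup G) with hU
    have hS := sylowIn_top_of_sylow S
    have hSself : (S : Subgroup G) ⊓ Subgroup.centralizer (U : Set G) ≤ U := by
      haveI : Group.IsNilpotent ↥(S : Subgroup G) := S.isPGroup'.isNilpotent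
      obtain ⟨D, hDn, hDc, hDs⟩ := Cfsg.Agent.Lib.PGroup.exists_normal_abelian_self_centralizing (G := ↥(S : Subgroup G))
      haveI := hDn
      have hDk : D ≤ kInfLower ↥(S : Subgroup G) := by
        have h1 : D ≤ kSeqEven ↥(S : Subgroup G) 0 := le_sSup (normal_abelian_mem_kLower D hDc _)
        exact h1.trans (le_iSup (fun n => kSeqEven ↥(S : Subgroup G) n) 0)
      rintro s ⟨hs1, hs2⟩
      have hsc : (⟨s, hs1⟩ : ↥(S : Subgroup G)) ∈ Subgroup.centralizer (D : Set ↥(S : Subgroup G)) := by
        rw [Subgroup.mem_centralizer_iff]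
        intro d hd
        apply Subtype.ext
        exact Subgroup.mem_centralizer_iff.1 hs2 _ ⟨d, hDk hd, rfl⟩
      exact ⟨_, hDk (hDs hsc), rfl⟩
    set C : Subgroup G := Subgroup.centralizer (U : Set G) with hC
    have hCN : C ≤ Subgroup.normalizer (U : Set G) := Subgroup.centralizer_le_normalizer _
    have hSN : (S : Subgroup G) ≤ Subgroup.normalizer (U : Set G) := le_normW isCharPFunctor_kInfLower S.isPGroup'
    have hSy : SylowIn p (S : Subgroup G) (Subgroup.normalizer (U : Set G)) := hS.of_le hSN le_top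
    have hNC : Subgroup.normalizer (U : Set G) ≤ Subgroup.normalizer (C : Set G) := by
      intro n hn
      rw [Subgroup.mem_normalizer_iff]
      intro c
      constructor
      · intro hc
        refine Subgroup.mem_centralizer_iff.2 fun a ha => ?_
        have h1 : n⁻¹ * a * n ∈ U := by
          have := (Subgroup.mem_normalizer_iff.1 (Subgroup.inv_mem _ hn) a).1 ha
          simpa using this
        have h2 := Subgroup.mem_centralizer_iff.1 hc _ h1
        calc a * (n * c * n⁻¹) = n * ((n⁻¹ * a * n) * c) * n⁻¹ := by group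
          _ = n * (c * (n⁻¹ * a * n)) * n⁻¹ := by rw [h2]
          _ = _ := by group
      · intro hc
        refine Subgroup.mem_centralizer_iff.2 fun a ha => ?_
        have h1 : n * a * n⁻¹ ∈ U := (Subgroup.mem_normalizer_iff.1 hn a).1 ha
        have h2 := Subgroup.mem_centralizer_iff.1 hc _ h1
        have h3 : n * (a * c) * n⁻¹ = n * (c * a) * n⁻¹ := by
          calc n * (a * c) * n⁻¹ = (n * a * n⁻¹) * (n * c * n⁻¹) := by group
            _ = (n * c * n⁻¹) * (n * a * n⁻¹) := h2
            _ = _ := by group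
        exact mul_left_cancel (mul_right_cancel h3)
    have hsyl : SylowIn p ((S : Subgroup G) ⊓ C) C := hSy.inf_of_normal hCN hNC
    let P : Sylow p ↥C := hsyl.toSylow
    have hP : Subgroup.normalizer ((P : Subgroup ↥C) : Set ↥C) ≤ Subgroup.centralizer ((P : Subgroup ↥C) : Set ↥C) := by
      intro x _
      rw [Subgroup.mem_centralizer_iff]
      intro a ha
      have ha' : (a : G) ∈ (S : Subgroup G) ⊓ C := ha
      have h1 : (a : G) ∈ U := hSself ha'
      apply Subtype.ext
      exact Subgroup.mem_centralizer_iff.1 x.2 a h1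
    obtain ⟨K, hKn, hKc, hKm⟩ := exists_ker_of_normalizer_le_centralizer P hP
    intro x hx y hy hx' hy'
    have hxC : x ∈ C := h x hx hx'
    have hyC : y ∈ C := h y hy hy'
    have h1 : (⟨x, hxC⟩ : ↥C) ∈ K := (hKm _).2 (by rwa [Subgroup.orderOf_mk])
    have h2 : (⟨y, hyC⟩ : ↥C) ∈ K := (hKm _).2 (by rwa [Subgroup.orderOf_mk])
    have h3 := (hKm _).1 (K.mul_mem h1 h2)
    rwa [← Subgroup.orderOf_coe] at h3


end Cfsg.Agent.S1988
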