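import Cfsg.Statements.S2001
import Mathlib
import Cfsg.Agent.Lib.Techniques.CentricFocal
import Cfsg.Agent.Lib.Techniques.NormChief

set_option autoImplicit false
open Cfsg

namespace Cfsg.Agent.S2001

/-- Let p be a prime dividing the order of the finite group G, P a Sylow p-subgroup, W a conjugacy functor for p on G with Z(H) ≤ W(H) for every nontrivial p-subgroup H, and V a central functor: a conjugacy functor with V(H) ≤ Z(H), and V(H) ≤ V(K) whenever Z(H) ≤ Z(K), for nontrivial p-subgroups H, K. Say that W with V controls transfer in a subgroup L when some Sylow p-subgroup Q of L satisfies Q ∩ L' = (Q ∩ (N_L(W(Q)))')·(Q ∩ (C_L(V(Q)))') as a product of two subgroups. If W with V controls transfer in N_G(H) for every subgroup H with Z(P) ≤ H ≤ P, then W with V controls transfer in G. -/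
theorem result {G : Type*} [Group G] [Finite G] {p : ℕ} [Fact p.Prime] (hdiv : p ∣ Nat.card G) (P : Sylow p G) (W V : Subgroup G → Subgroup G) (hW : Cfsg.IsConjugacyFunctor p W) (hV : Cfsg.IsConjugacyFunctor p V) (hWZ : ∀ H : Subgroup G, IsPGroup p ↥H → H ⊓ Subgroup.centralizer ((H : Subgroup G) : Set G) ≤ W H) (hVZ : ∀ H : Subgroup G, IsPGroup p ↥H → V H ≤ H ⊓ Subgroup.centralizer ((H : Subgroup G) : Set G)) (hVmono : ∀ H K : Subgroup G, IsPGroup p ↥H → IsPGroup p ↥K → H ≠ ⊥ → K ≠ ⊥ → H ⊓ Subgroup.centralizer ((H : Subgroup G) : Set G) ≤ K ⊓ Subgroup.centralizer ((K : Subgroup G) : Set G) → V H ≤ V K) (hloc : ∀ H : Subgroup G, (P : Subgroup G) ⊓ Subgroup.centralizer (((P : Subgroup G) : Subgroup G) : Set G) ≤ H → H ≤ (P : Subgroup G) → ∃ Q : Subgroup G, Q ≤ Subgroup.normalizer ((H : Subgroup G) : Set G) ∧ IsPGroup p ↥Q ∧ ¬ p ∣ (Q).relIndex (Subgroup.normalizer ((H : Subgroup G) : Set G)) ∧ ∀ x : G, x ∈ Q ⊓ ⁅Subgroup.normalizer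 ((H : Subgroup G) : Set G), Subgroup.normalizer ((H : Subgroup G) : Set G)⁆ ↔ ∃ a ∈ Q ⊓ ⁅Subgroup.normalizer ((H : Subgroup G) : Set G) ⊓ Subgroup.normalizer ((W Q : Subgroup G) : Set G), Subgroup.normalizer ((H : Subgroup G) : Set G) ⊓ Subgroup.normalizer ((W Q : Subgroup G) : Set G)⁆, ∃ b ∈ Q ⊓ ⁅Subgroup.normalizer ((H : Subgroup G) : Set G) ⊓ Subgroup.centralizer ((V Q : Subgroup G) : Set G), Subgroup.normalizer ((H : Subgroup G) : Set G) ⊓ Subgroup.centralizer ((V Q : Subgroup G) : Set G)⁆, x = a * b) : ∃ Q : Subgroup G, IsPGroup p ↥Q ∧ ¬ p ∣ Q.index ∧ ∀ x : G, x ∈ Q ⊓ commutator G ↔ ∃ a ∈ Q ⊓ ⁅Subgroup.normalizer ((W Q : Subgroup G) : Set G), Subgroup.normalizer ((W Q : Subgroup G) : Set G)⁆, ∃ b ∈ Q ⊓ ⁅Subgroup.centralizer ((V Q : Subgroup G) : Set G), Subgroup.centralizer ((V Q : Subgroup G) : Set G)⁆, x = a * b := by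
  classical
  have hSs : Cfsg.Agent.Lib.Techniques.SylowIn p (P : Subgroup G) ⊤ := Cfsg.Agent.Lib.Techniques.sylowIn_top_of_sylow P
  have hS1 : (P : Subgroup G) ≠ ⊥ := P.ne_bot_of_dvd_card hdiv
  have hPp : IsPGroup p (P : Subgroup G) := P.isPGroup'
  have hloc' : ∀ H : Subgroup G, (P : Subgroup G) ⊓ Subgroup.centralizer ((P : Subgroup G) : Set G) ≤ H → H ≤ (P : Subgroup G) →
      ∃ Q₀ : Subgroup G, Cfsg.Agent.Lib.Techniques.SylowIn p Q₀ (Subgroup.normalizer (H : Set G)) ∧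
        Cfsg.Agent.Lib.Techniques.LocFoc W V H Q₀ := by
    intro H h1 h2
    obtain ⟨Q, hQ1, hQ2, hQ3, hQ4⟩ := hloc H h1 h2
    refine ⟨Q, ⟨hQ1, hQ2, hQ3⟩, ?_⟩
    intro x hx
    obtain ⟨a, ha, b, hb, e⟩ := (hQ4 x).1 hx
    refine ⟨a, ?_, b, ?_, e⟩
    · exact inf_le_inf_left _ (Subgroup.commutator_mono inf_le_right inf_le_right) ha
    · exact inf_le_inf_left _ (Subgroup.commutator_mono inf_le_right inf_le_right) hb
  have hmain := Cfsg.Agent.Lib.Techniques.focal_main hW hV hWZ hVmono hSs hS1 hloc'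
  set F : Subgroup G := Cfsg.Agent.Lib.Techniques.focA W (P : Subgroup G) ⊔ Cfsg.Agent.Lib.Techniques.focB V (P : Subgroup G) with hF
  have hPN : (P : Subgroup G) ≤ Subgroup.normalizer ((W (P : Subgroup G) : Subgroup G) : Set G) :=
    Subgroup.le_normalizer.trans (Cfsg.Agent.Lib.Techniques.normalizer_le_normalizer_functor hW hPp)
  have hPC : (P : Subgroup G) ≤ Subgroup.centralizer ((V (P : Subgroup G) : Subgroup G) : Set G) := by
    intro t ht
    rw [Subgroup.mem_centralizer_iff]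
    intro v hv
    have h3 := hVZ _ hPp hv
    exact ((Subgroup.mem_centralizer_iff.1 h3.2) t ht).symm
  have hconjc : ∀ (K : Subgroup G) {t : G}, t ∈ K → Cfsg.Agent.Lib.Techniques.conjS t ⁅K, K⁆ = ⁅K, K⁆ := by
    intro K t ht
    rw [Cfsg.Agent.Lib.Techniques.conjS_commutator, Cfsg.Agent.Lib.Techniques.conjS_eq_of_mem ht]
  have hA : ∀ t ∈ (P : Subgroup G), Cfsg.Agent.Lib.Techniques.conjS t (Cfsg.Agent.Lib.Techniques.focA W (P : Subgroup G)) =
      Cfsg.Agent.Lib.Techniques.focA W (P : Subgroup G) := by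
    intro t ht
    rw [Cfsg.Agent.Lib.Techniques.focA, Cfsg.Agent.Lib.Techniques.conjS_inf, Cfsg.Agent.Lib.Techniques.conjS_eq_of_mem ht,
      hconjc _ (hPN ht)]
  have hB : ∀ t ∈ (P : Subgroup G), Cfsg.Agent.Lib.Techniques.conjS t (Cfsg.Agent.Lib.Techniques.focB V (P : Subgroup G)) =
      Cfsg.Agent.Lib.Techniques.focB V (P : Subgroup G) := by
    intro t ht
    rw [Cfsg.Agent.Lib.Techniques.focB, Cfsg.Agent.Lib.Techniques.conjS_inf, Cfsg.Agent.Lib.Techniques.conjS_eq_of_mem ht,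
      hconjc _ (hPC ht)]
  have hFN : (P : Subgroup G) ≤ Subgroup.normalizer (F : Set G) := by
    intro t ht
    rw [Cfsg.Agent.Lib.Techniques.mem_normalizer_iff_conjS]
    have e : Cfsg.Agent.Lib.Techniques.conjS t F = Cfsg.Agent.Lib.Techniques.conjS t (Cfsg.Agent.Lib.Techniques.focA W (P : Subgroup G)) ⊔
        Cfsg.Agent.Lib.Techniques.conjS t (Cfsg.Agent.Lib.Techniques.focB V (P : Subgroup G)) := Subgroup.map_sup _ _ _
    rw [e, hA t ht, hB t ht]
  have hFP : F ≤ (P : Subgroup G) := sup_le inf_le_left inf_le_left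
  have hcomm : ⁅(P : Subgroup G), (P : Subgroup G)⁆ ≤ F := by
    refine le_trans (le_inf ?_ (Subgroup.commutator_mono hPN hPN)) (le_sup_left : Cfsg.Agent.Lib.Techniques.focA W (P : Subgroup G) ≤ F)
    exact Subgroup.commutator_le_self _
  have hstable : ∀ x ∈ (P : Subgroup G), ∀ g : G, g * x * g⁻¹ ∈ (P : Subgroup G) → g * x * g⁻¹ * x⁻¹ ∈ F := by
    intro x hx g hg
    have hT : Subgroup.zpowers x ≤ (P : Subgroup G) := (Subgroup.zpowers_le).2 hx
    have hTg : Cfsg.Agent.Lib.Techniques.conjS g (Subgroup.zpowers x) ≤ (P : Subgroup G) := by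
      rintro _ ⟨y, ⟨k, rfl⟩, rfl⟩
      have e : (MulAut.conj g).toMonoidHom (x ^ k) = (g * x * g⁻¹) ^ k := by
        show g * x ^ k * g⁻¹ = _
        rw [conj_zpow]
      show (MulAut.conj g).toMonoidHom (x ^ k) ∈ (P : Subgroup G)
      rw [e]
      exact zpow_mem hg k
    exact (hmain _ hT g hTg).2.2 x (Subgroup.mem_zpowers x)
  have hfocal := Cfsg.Agent.Lib.Techniques.focal_le hSs F hFP hFN hcomm hstable
  refine ⟨(P : Subgroup G), hPp, P.not_dvd_index, ?_⟩
  intro x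
  constructor
  · intro hx
    have hxF : x ∈ F := hfocal hx
    have hBN : Cfsg.Agent.Lib.Techniques.focB V (P : Subgroup G) ≤
        Subgroup.normalizer ((Cfsg.Agent.Lib.Techniques.focA W (P : Subgroup G) : Subgroup G) : Set G) := by
      intro t ht
      rw [Cfsg.Agent.Lib.Techniques.mem_normalizer_iff_conjS]
      exact hA t ht.1
    obtain ⟨a, ha, b, hb, e⟩ := Cfsg.Agent.Lib.Techniques.mem_sup_of_le_normalizer hBN hxF
    exact ⟨a, ha, b, hb, e⟩
  · rintro ⟨a, ha, b, hb, rfl⟩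
    refine Subgroup.mem_inf.2 ⟨mul_mem ha.1 hb.1, mul_mem ?_ ?_⟩
    · exact Subgroup.commutator_mono le_top le_top ha.2
    · exact Subgroup.commutator_mono le_top le_top hb.2


end Cfsg.Agent.S2001
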