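import Cfsg.Statements.S2002
import Mathlib
import Cfsg.Agent.Lib.Techniques.CentricFusion

set_option autoImplicit false
open Cfsg

namespace Cfsg.Agent.S2002

/-- Let p be a prime dividing the order of the finite group G, P a Sylow p-subgroup, W a conjugacy functor for p on G with Z(H) ≤ W(H) for every nontrivial p-subgroup H, and V a central functor (a conjugacy functor with V(H) ≤ Z(H), and V(H) ≤ V(K) whenever Z(H) ≤ Z(K)). Say that W with V controls strong fusion in a subgroup L when some Sylow p-subgroup Q of L has the property: whenever X ⊆ Q and a ∈ L with a⁻¹Xa ⊆ Q, then a = c b with c ∈ C_L(X) and b = b₁ ⋯ bₙ a product of elements each in N_L(W(Q)) or in C_L(V(Q)) such that every partial conjugate (b₁ ⋯ bₖ)⁻¹ X (b₁ ⋯ bₖ) lies in Q. If W with V controls strong fusion in N_G(H) for every subgroup H with Z(P) ≤ H ≤ P, then W with V controls strong fusion in G. -/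
theorem result {G : Type*} [Group G] [Finite G] {p : ℕ} [Fact p.Prime] (hdiv : p ∣ Nat.card G) (P : Sylow p G) (W V : Subgroup G → Subgroup G) (hW : Cfsg.IsConjugacyFunctor p W) (hV : Cfsg.IsConjugacyFunctor p V) (hWZ : ∀ H : Subgroup G, IsPGroup p ↥H → H ⊓ Subgroup.centralizer ((H : Subgroup G) : Set G) ≤ W H) (hVZ : ∀ H : Subgroup G, IsPGroup p ↥H → V H ≤ H ⊓ Subgroup.centralizer ((H : Subgroup G) : Set G)) (hVmono : ∀ H K : Subgroup G, IsPGroup p ↥H → IsPGroup p ↥K → H ≠ ⊥ → K ≠ ⊥ → H ⊓ Subgroup.centralizer ((H : Subgroup G) : Set G) ≤ K ⊓ Subgroup.centralizer ((K : Subgroup G) : Set G) → V H ≤ V K) (hloc : ∀ H : Subgroup G, (P : Subgroup G) ⊓ Subgroup.centralizer (((P : Subgroup G) : Subgroup G) : Set G) ≤ H → H ≤ (P : Subgroup G) → ∃ Q : Subgroup G, Q ≤ Subgroup.normalizer ((H : Subgroup G) : Set G) ∧ IsPGroup p ↥Q ∧ ¬ p ∣ (Q).relIndex (Subgroup.normalizer ((H : Subgroup G) : Set G)) ∧ ∀ (X : Set G) (a : G), X ⊆ Q → a ∈ Subgroup.normalizer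 ((H : Subgroup G) : Set G) → (fun x => a⁻¹ * x * a) '' X ⊆ Q → ∃ c ∈ Subgroup.normalizer ((H : Subgroup G) : Set G) ⊓ Subgroup.centralizer X, ∃ (n : ℕ) (b : Fin n → G), (∀ i, b i ∈ Subgroup.normalizer ((H : Subgroup G) : Set G) ⊓ Subgroup.normalizer ((W Q : Subgroup G) : Set G) ∨ b i ∈ Subgroup.normalizer ((H : Subgroup G) : Set G) ⊓ Subgroup.centralizer ((V Q : Subgroup G) : Set G)) ∧ a = c * (List.ofFn b).prod ∧ ∀ k : ℕ, k ≤ n → (fun x => (((List.ofFn b).take k).prod)⁻¹ * x * ((List.ofFn b).take k).prod) '' ((fun x => c⁻¹ * x * c) '' X) ⊆ Q) : ∃ Q : Subgroup G, IsPGroup p ↥Q ∧ ¬ p ∣ Q.index ∧ ∀ (X : Set G) (a : G), X ⊆ Q → (fun x => a⁻¹ * x * a) '' X ⊆ Q → ∃ c ∈ Subgroup.centralizer X, ∃ (n : ℕ) (b : Fin n → G), (∀ i, b i ∈ ⊤ ⊓ Subgroup.normalizer ((W Q : Subgroup G) : Set G) ∨ b i ∈ ⊤ ⊓ Subgroup.centralizer ((V Q : Subgroup G) : Set G)) ∧ a = c * (List.ofFn b).prod ∧ ∀ k : ℕ, k ≤ n → (fun x => (((List.ofFn b).take k).prod)⁻¹ * x * ((List.ofFn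 b).take k).prod) '' ((fun x => c⁻¹ * x * c) '' X) ⊆ Q := by
  classical
  have hSs : Cfsg.Agent.Lib.Techniques.SylowIn p (P : Subgroup G) ⊤ := Cfsg.Agent.Lib.Techniques.sylowIn_top_of_sylow P
  have hS1 : (P : Subgroup G) ≠ ⊥ := P.ne_bot_of_dvd_card hdiv
  have hloc' : ∀ H : Subgroup G, (P : Subgroup G) ⊓ Subgroup.centralizer ((P : Subgroup G) : Set G) ≤ H → H ≤ (P : Subgroup G) →
      ∃ Q₀ : Subgroup G, Cfsg.Agent.Lib.Techniques.SylowIn p Q₀ (Subgroup.normalizer (H : Set G)) ∧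
        Cfsg.Agent.Lib.Techniques.LocCtl W V H Q₀ := by
    intro H h1 h2
    obtain ⟨Q, hQ1, hQ2, hQ3, hQ4⟩ := hloc H h1 h2
    refine ⟨Q, ⟨hQ1, hQ2, hQ3⟩, ?_⟩
    intro A g hA hg hgA
    obtain ⟨c, hc, n, b, hb, hab, hpart⟩ := hQ4 A g⁻¹ hA (inv_mem hg) (by
      rintro _ ⟨a, ha, rfl⟩
      have := hgA ⟨a, ha, rfl⟩
      simpa using this)
    have hcA : (fun x => c⁻¹ * x * c) '' A = A := by
      ext x
      constructor
      · rintro ⟨a, ha, rfl⟩
        have : a * c = c * a := (Subgroup.mem_centralizer_iff.1 hc.2) a ha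
        have e : c⁻¹ * a * c = a := by rw [mul_assoc, this]; group
        simpa [e] using ha
      · intro hx
        refine ⟨x, hx, ?_⟩
        have : x * c = c * x := (Subgroup.mem_centralizer_iff.1 hc.2) x hx
        show c⁻¹ * x * c = x
        rw [mul_assoc, this]; group
    rw [hcA] at hpart
    refine ⟨((List.ofFn b).prod)⁻¹, Cfsg.Agent.Lib.Techniques.fchain_of_list b ?_ hpart, ?_⟩
    · intro i
      rcases hb i with h3 | h3
      · exact ⟨inv_mem h3.1, Or.inl (inv_mem h3.2)⟩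
      · exact ⟨inv_mem h3.1, Or.inr (inv_mem h3.2)⟩
    · intro a ha
      have e : ((List.ofFn b).prod)⁻¹ = g * c := by
        have : (List.ofFn b).prod = c⁻¹ * g⁻¹ := by
          rw [hab]; group
        rw [this]; group
      have h3 : a * c = c * a := (Subgroup.mem_centralizer_iff.1 hc.2) a ha
      rw [e]
      calc g * c * a * (g * c)⁻¹ = g * (c * a) * c⁻¹ * g⁻¹ := by group
        _ = g * (a * c) * c⁻¹ * g⁻¹ := by rw [h3]
        _ = g * a * g⁻¹ := by group
  have hmain := Cfsg.Agent.Lib.Techniques.goodF_main hW hV hWZ hVmono hSs hS1 hloc'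
  refine ⟨(P : Subgroup G), P.isPGroup', P.not_dvd_index, ?_⟩
  intro X a hX hXa
  -- the subgroup generated by `X`
  have hT : Subgroup.closure X ≤ (P : Subgroup G) := (Subgroup.closure_le _).2 hX
  have hTa : Cfsg.Agent.Lib.Techniques.conjS a⁻¹ (Subgroup.closure X) ≤ (P : Subgroup G) := by
    rw [Cfsg.Agent.Lib.Techniques.conjS, MonoidHom.map_closure, Subgroup.closure_le]
    rintro _ ⟨x, hx, rfl⟩
    have := hXa ⟨x, hx, rfl⟩
    simpa using this
  obtain ⟨g', hch, hact⟩ := hmain _ hT a⁻¹ hTa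
  have hch' : Cfsg.Agent.Lib.Techniques.FChain (P : Subgroup G) (Cfsg.Agent.Lib.Techniques.stepSet W V (P : Subgroup G)) X g' :=
    hch.mono_set Subgroup.subset_closure
  obtain ⟨n, b, hb, hprod, hpart⟩ := Cfsg.Agent.Lib.Techniques.list_of_fchain
    (fun x hx => Cfsg.Agent.Lib.Techniques.stepSet_inv hx) hch'
  have hc : a * g' ∈ Subgroup.centralizer X := by
    rw [Subgroup.mem_centralizer_iff]
    intro x hx
    have h3 := hact x (Subgroup.subset_closure hx)
    have h4 : g' * x = a⁻¹ * x * a * g' := by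
      rw [← mul_inv_eq_iff_eq_mul, h3]; group
    calc x * (a * g') = a * (a⁻¹ * x * a * g') := by group
      _ = a * (g' * x) := by rw [h4]
      _ = a * g' * x := by group
  refine ⟨a * g', hc, n, b, ?_, ?_, ?_⟩
  · intro i
    rcases hb i with h3 | h3
    · exact Or.inl ⟨trivial, h3⟩
    · exact Or.inr ⟨trivial, h3⟩
  · have : (List.ofFn b).prod = g'⁻¹ := by rw [← hprod]; group
    rw [this]; group
  · intro k hk
    have hcA : (fun x => (a * g')⁻¹ * x * (a * g')) '' X = X := by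
      ext x
      constructor
      · rintro ⟨y, hy, rfl⟩
        have : y * (a * g') = (a * g') * y := (Subgroup.mem_centralizer_iff.1 hc) y hy
        have e : (a * g')⁻¹ * y * (a * g') = y := by rw [mul_assoc, this]; group
        show (a * g')⁻¹ * y * (a * g') ∈ X
        rw [e]
        exact hy
      · intro hx
        refine ⟨x, hx, ?_⟩
        have : x * (a * g') = (a * g') * x := (Subgroup.mem_centralizer_iff.1 hc) x hx
        show (a * g')⁻¹ * x * (a * g') = x
        rw [mul_assoc, this]; group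
    rw [hcA]
    exact hpart k hk


end Cfsg.Agent.S2002
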