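import Cfsg.Statements.S2015
import Mathlib
import Cfsg.Agent.Lib.Techniques.KFour

set_option autoImplicit false
universe u
open Cfsg

namespace Cfsg.Agent.S2015

open Cfsg.Agent.Lib.Techniques


/-- For p ≥ 5, every finite p-group P has a characteristic subgroup K containing Z(P), depending only on P, whose normalizer controls transfer wherever P is a Sylow subgroup: for every finite group G and every embedding ι of P onto a Sylow p-subgroup of G, the intersection of ι(P) with the derived subgroup of G equals its intersection with the derived subgroup of N_G(ι(K)). -/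
theorem result (p : ℕ) [Fact p.Prime] (hp : 5 ≤ p) (P : Type u) [Group P] [Finite P] (hP : IsPGroup p P) : ∃ K : Subgroup P, K.Characteristic ∧ Subgroup.center P ≤ K ∧ ∀ (G : Type u) [Group G] [Finite G] (ι : P →* G), Function.Injective ι → (∃ T : Sylow p G, (T : Subgroup G) = ι.range) → ι.range ⊓ commutator G = ι.range ⊓ (commutator ↥(Subgroup.normalizer ((K.map ι : Subgroup G) : Set G))).map (Subgroup.normalizer ((K.map ι : Subgroup G) : Set G)).subtype := by
  classical
  refine ⟨kInfLower P, ?_, ?_, ?_⟩
  · rw [Subgroup.characteristic_iff_map_eq]
    intro φ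
    exact kInfLower_map_equiv φ
  · obtain ⟨h1, h2, -⟩ := Cfsg.Agent.S1978.result hP
    exact h2.trans h1
  · intro G _ _ ι hι ⟨T, hT⟩
    have hR : SylowIn p ι.range ⊤ := by
      rw [← hT]
      exact sylowIn_top_of_sylow T
    have hK : (kInfLower P).map ι = inducedFunctor kInfLower ι.range := by
      let φ : P ≃* ↥ι.range := MonoidHom.ofInjective hι
      have h1 := kInfLower_map_equiv φ
      unfold inducedFunctor
      rw [← h1, Subgroup.map_map]
      rfl
    have h2 := ctrlTransfer_at (isConjugacyFunctor_induced isCharPFunctor_kInfLower)
      (kInf_controls_transfer (G := G) hp).1 hR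
    rw [hK]
    have e1 : commutator G = ⁅(⊤ : Subgroup G), ⊤⁆ := rfl
    have e2 : (commutator ↥(Subgroup.normalizer ((inducedFunctor kInfLower ι.range : Subgroup G) : Set G))).map
        (Subgroup.normalizer ((inducedFunctor kInfLower ι.range : Subgroup G) : Set G)).subtype =
        ⁅Subgroup.normalizer ((inducedFunctor kInfLower ι.range : Subgroup G) : Set G),
          Subgroup.normalizer ((inducedFunctor kInfLower ι.range : Subgroup G) : Set G)⁆ := by
      rw [commutator_def, Subgroup.map_commutator, ← MonoidHom.range_eq_map, Subgroup.range_subtype]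
    rw [e1, e2, h2, top_inf_eq]


end Cfsg.Agent.S2015
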