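import Cfsg.Statements.S2162
import Mathlib
import Cfsg.Agent.Lib.KnownSimple.SqZero

set_option autoImplicit false
open Cfsg

namespace Cfsg.Agent.S2162

open Module Cfsg.Agent.Lib.KnownSimple

variable {F : Type*} [Field F] [CharP F 2] {n : ℕ}

theorem add_self_matrix (M : Matrix (Fin n) (Fin n) F) : M + M = 0 := by
  ext i j
  simp [CharTwo.add_self_eq_zero]

theorem sq_zero_of_order_two (a : Matrix.SpecialLinearGroup (Fin n) F) (ha : orderOf a = 2) :
    ((a : Matrix (Fin n) (Fin n) F) - 1) * ((a : Matrix (Fin n) (Fin n) F) - 1) = 0 := by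
  have h1 : a ^ 2 = 1 := by rw [← ha]; exact pow_orderOf_eq_one a
  rw [pow_two] at h1
  have h2 : (a : Matrix (Fin n) (Fin n) F) * a = 1 := congrArg Subtype.val h1
  calc ((a : Matrix (Fin n) (Fin n) F) - 1) * ((a : Matrix (Fin n) (Fin n) F) - 1)
      = (a : Matrix (Fin n) (Fin n) F) * a + 1 - ((a : Matrix (Fin n) (Fin n) F) + a) := by noncomm_ring
    _ = 1 + 1 - ((a : Matrix (Fin n) (Fin n) F) + a) := by rw [h2]
    _ = 0 := by rw [add_self_matrix, add_self_matrix, sub_zero]

theorem rank_eq_finrank (M : Matrix (Fin n) (Fin n) F) :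
    M.rank = finrank F (LinearMap.range (Matrix.toLin' M)) := by
  rw [Matrix.toLin'_apply']; rfl

/-- Conjugacy of involutions in the special linear group over a finite field of characteristic two, in dimension at least 3: two elements of order 2 of SL_n(F) are conjugate in SL_n(F) exactly when the matrices a − 1 and b − 1 have the same rank (the rank of a − 1 is the dimension of the commutator space [V, a]). -/
theorem result {F : Type*} [Field F] [Fintype F] [CharP F 2] {n : ℕ} (hn : 3 ≤ n) (a b : Matrix.SpecialLinearGroup (Fin n) F) (ha : orderOf a = 2) (hb : orderOf b = 2) :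
    IsConj a b ↔ ((a : Matrix (Fin n) (Fin n) F) - 1).rank = ((b : Matrix (Fin n) (Fin n) F) - 1).rank := by
  classical
  constructor
  · intro h
    obtain ⟨c, hc⟩ := isConj_iff.mp h
    have hdet1 : IsUnit ((c : Matrix (Fin n) (Fin n) F).det) := by
      rw [c.2]; exact isUnit_one
    have hdet2 : IsUnit (((c⁻¹ : Matrix.SpecialLinearGroup (Fin n) F) : Matrix (Fin n) (Fin n) F).det) := by
      rw [(c⁻¹ : Matrix.SpecialLinearGroup (Fin n) F).2]; exact isUnit_one
    have h1 : (b : Matrix (Fin n) (Fin n) F) - 1 = (c : Matrix (Fin n) (Fin n) F) * ((a : Matrix (Fin n) (Fin n) F) - 1) * ((c⁻¹ : Matrix.SpecialLinearGroup (Fin n) F) : Matrix (Fin n) (Fin n) F) := by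
      have h2 : (c : Matrix (Fin n) (Fin n) F) * (a : Matrix (Fin n) (Fin n) F) * ((c⁻¹ : Matrix.SpecialLinearGroup (Fin n) F) : Matrix (Fin n) (Fin n) F) = b := by
        rw [← hc]; rfl
      have h3 : (c : Matrix (Fin n) (Fin n) F) * ((c⁻¹ : Matrix.SpecialLinearGroup (Fin n) F) : Matrix (Fin n) (Fin n) F) = 1 := by
        have := congrArg Subtype.val (mul_inv_cancel c)
        exact this
      rw [mul_sub, sub_mul, h2, mul_one, h3]
    rw [h1, Matrix.rank_mul_eq_left_of_isUnit_det _ _ hdet2, Matrix.rank_mul_eq_right_of_isUnit_det _ _ hdet1]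
  · intro hrank
    set V := Fin n → F
    let Ta : V →ₗ[F] V := Matrix.toLin' ((a : Matrix (Fin n) (Fin n) F) - 1)
    let Tb : V →ₗ[F] V := Matrix.toLin' ((b : Matrix (Fin n) (Fin n) F) - 1)
    have hTa : Ta ∘ₗ Ta = 0 := by
      simp only [Ta]
      rw [← Matrix.toLin'_mul, sq_zero_of_order_two a ha, map_zero]
    have hTb : Tb ∘ₗ Tb = 0 := by
      simp only [Tb]
      rw [← Matrix.toLin'_mul, sq_zero_of_order_two b hb, map_zero]
    obtain ⟨r, s, e, hr, h1, h2⟩ := exists_basis_of_sq_zero Ta hTa
    obtain ⟨r', s', e', hr', h1', h2'⟩ := exists_basis_of_sq_zero Tb hTb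
    have hrr : r = r' := by
      rw [hr, hr']
      rw [← rank_eq_finrank, ← rank_eq_finrank]
      exact hrank
    subst hrr
    have hss : s = s' := by
      have h3 := Module.finrank_eq_card_basis e
      have h4 := Module.finrank_eq_card_basis e'
      simp only [Fintype.card_sum, Fintype.card_fin] at h3 h4
      omega
    subst hss
    -- r ≥ 1
    have hrpos : 0 < r := by
      rcases Nat.eq_zero_or_pos r with h0 | h0
      · exfalso
        have h3 : LinearMap.range Ta = ⊥ := by
          apply Submodule.finrank_eq_zero.mp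
          rw [← hr, h0]
        have h4 : Ta = 0 := LinearMap.range_eq_bot.mp h3
        have h5 : (a : Matrix (Fin n) (Fin n) F) - 1 = 0 := by
          apply Matrix.toLin'.injective
          rw [map_zero]; exact h4
        have h6 : a = 1 := Subtype.ext (sub_eq_zero.mp h5)
        rw [h6, orderOf_one] at ha
        omega
      · exact h0
    let i0 : Fin r := ⟨0, hrpos⟩
    let P : V ≃ₗ[F] V := e.equiv e' (Equiv.refl _)
    have hPe : ∀ k, P (e k) = e' k := by
      intro k
      simp [P, Basis.equiv_apply]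
    haveI : Fact (Nat.Prime 2) := ⟨Nat.prime_two⟩
    haveI : PerfectRing F 2 := PerfectRing.ofFiniteOfIsReduced 2 F
    let σ : F ≃+* F := frobeniusEquiv F 2
    have hσ : ∀ c : F, σ c = c ^ 2 := fun c => rfl
    let c : F := σ.symm (LinearMap.det (P : V →ₗ[F] V))⁻¹
    have hc2 : c * c = (LinearMap.det (P : V →ₗ[F] V))⁻¹ := by
      have : σ c = (LinearMap.det (P : V →ₗ[F] V))⁻¹ := by simp [c]
      rw [← this, hσ]; ring
    let w : Fin r ⊕ (Fin r ⊕ Fin s) → F :=
      Sum.elim (fun i => if i = i0 then c else 1) (Sum.elim (fun i => if i = i0 then c else 1) (fun _ => 1))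
    let C : V →ₗ[F] V := e.constr F (fun k => w k • e k)
    have hCe : ∀ k, C (e k) = w k • e k := by
      intro k
      simp [C, Basis.constr_basis]
    have hCdet : LinearMap.det C = c * c := by
      rw [← LinearMap.det_toMatrix e C]
      have h3 : LinearMap.toMatrix e e C = Matrix.diagonal w := by
        ext i j
        rw [LinearMap.toMatrix_apply, hCe, Matrix.diagonal_apply]
        simp only [map_smul, Basis.repr_self, Finsupp.smul_single, smul_eq_mul, mul_one, Finsupp.single_apply]
        by_cases hij : j = i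
        · subst hij; simp
        · have : i ≠ j := fun e => hij e.symm
          simp [hij, this]
      rw [h3, Matrix.det_diagonal, Fintype.prod_sum_type, Fintype.prod_sum_type]
      simp [w, i0, Finset.prod_ite_eq']
    let Φ : V →ₗ[F] V := (P : V →ₗ[F] V) ∘ₗ C
    have hPdet : LinearMap.det (P : V →ₗ[F] V) ≠ 0 := (LinearEquiv.isUnit_det' P).ne_zero
    have hΦdet : LinearMap.det Φ = 1 := by
      simp only [Φ]
      rw [LinearMap.det_comp, hCdet, hc2]
      field_simp
    have hΦcomm : Tb ∘ₗ Φ = Φ ∘ₗ Ta := by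
      apply e.ext
      rintro (i | k)
      · simp only [LinearMap.comp_apply, Φ, LinearEquiv.coe_coe, h1 i, hCe, map_smul, hPe, h1' i]
        rfl
      · simp only [LinearMap.comp_apply, Φ, LinearEquiv.coe_coe, h2 k, hCe, map_smul, hPe, h2' k, map_zero, smul_zero]
    let g : Matrix (Fin n) (Fin n) F := LinearMap.toMatrix' Φ
    have hgdet : g.det = 1 := by
      simp only [g]
      rw [LinearMap.det_toMatrix', hΦdet]
    let g₀ : Matrix.SpecialLinearGroup (Fin n) F := ⟨g, hgdet⟩
    have hgcomm : g * ((a : Matrix (Fin n) (Fin n) F) - 1) = ((b : Matrix (Fin n) (Fin n) F) - 1) * g := by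
      apply Matrix.toLin'.injective
      rw [Matrix.toLin'_mul, Matrix.toLin'_mul]
      simp only [g, Matrix.toLin'_toMatrix']
      exact hΦcomm.symm
    have hgcomm2 : g * (a : Matrix (Fin n) (Fin n) F) = (b : Matrix (Fin n) (Fin n) F) * g := by
      rw [mul_sub, sub_mul, mul_one, one_mul, sub_left_inj] at hgcomm
      exact hgcomm
    rw [isConj_iff]
    refine ⟨g₀, ?_⟩
    rw [mul_inv_eq_iff_eq_mul]
    exact Subtype.ext hgcomm2

end Cfsg.Agent.S2162
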