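import Cfsg.Statements.S2163
import Mathlib
import Cfsg.Agent.Lib.KnownSimple.RankHelpers

set_option autoImplicit false
open Cfsg

namespace Cfsg.Agent.S2163

open Cfsg.Agent.Lib.KnownSimple

/-- Over a finite field of characteristic two and for n ≥ 3: for every ℓ with 1 ≤ ℓ and 2ℓ ≤ n, the matrix j_ℓ that is the identity plus the entries 1 in positions (n − ℓ + i, i) for i < ℓ (an identity block of size ℓ in the lower left corner) lies in SL_n(F), has order 2, and j_ℓ − 1 has rank ℓ. Together with the conjugacy criterion by rank, these matrices represent the conjugacy classes of involutions of SL_n(F). -/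
theorem result {F : Type*} [Field F] [Fintype F] [CharP F 2] {n : ℕ} (hn : 3 ≤ n) (ℓ : ℕ) (h1 : 1 ≤ ℓ) (h2 : 2 * ℓ ≤ n) :
    ∃ a : Matrix.SpecialLinearGroup (Fin n) F, (a : Matrix (Fin n) (Fin n) F) = 1 + Matrix.of (fun i j : Fin n => if j.val < ℓ ∧ i.val = j.val + (n - ℓ) then (1 : F) else 0) ∧ orderOf a = 2 ∧ ((a : Matrix (Fin n) (Fin n) F) - 1).rank = ℓ := by
  classical
  set N : Matrix (Fin n) (Fin n) F := Matrix.of (fun i j : Fin n => if j.val < ℓ ∧ i.val = j.val + (n - ℓ) then (1 : F) else 0) with hN
  have hNN : N * N = 0 := by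
    ext i j
    simp only [Matrix.mul_apply, hN, Matrix.of_apply, Matrix.zero_apply]
    apply Finset.sum_eq_zero
    intro k _
    by_cases h3 : k.val < ℓ ∧ i.val = k.val + (n - ℓ)
    · by_cases h4 : j.val < ℓ ∧ k.val = j.val + (n - ℓ)
      · omega
      · simp [h4]
    · simp [h3]
  have hNN2 : N + N = 0 := by
    ext i j
    simp [CharTwo.add_self_eq_zero]
  have hdet : (1 + N).det = 1 := by
    rw [Matrix.det_of_isLowerTriangular]
    · apply Finset.prod_eq_one
      intro i _
      simp only [Matrix.add_apply, Matrix.one_apply_eq, hN, Matrix.of_apply]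
      have : ¬ (i.val < ℓ ∧ i.val = i.val + (n - ℓ)) := by omega
      rw [if_neg this, add_zero]
    · intro i j hij
      have hij' : i < j := hij
      have hij2 : i.val < j.val := hij'
      have hne : i ≠ j := ne_of_lt hij'
      have : ¬ (j.val < ℓ ∧ i.val = j.val + (n - ℓ)) := by omega
      simp [hN, hne, this]
  let a : Matrix.SpecialLinearGroup (Fin n) F := ⟨1 + N, hdet⟩
  refine ⟨a, rfl, ?_, ?_⟩
  · apply orderOf_eq_prime
    · rw [pow_two]
      apply Subtype.ext
      show (1 + N) * (1 + N) = 1
      calc (1 + N) * (1 + N) = 1 + (N + N) + N * N := by noncomm_ring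
        _ = 1 := by rw [hNN, hNN2]; simp
    · intro h
      have h3 : 1 + N = 1 := congrArg Subtype.val h
      have h4 : N = 0 := by simpa using h3
      have h5 := congrFun (congrFun h4 ⟨n - ℓ, by omega⟩) ⟨0, by omega⟩
      simp [hN] at h5
      omega
  · show (1 + N - 1).rank = ℓ
    rw [add_sub_cancel_left]
    apply le_antisymm
    · refine rank_le_of_eq_mul N (Matrix.of fun i k => if i.val = k.val + (n - ℓ) then 1 else 0)
        (Matrix.of fun k j => if j.val = k.val then 1 else 0) ?_
      ext i j
      simp only [Matrix.mul_apply, hN, Matrix.of_apply]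
      by_cases h3 : j.val < ℓ
      · rw [Finset.sum_eq_single (⟨j.val, h3⟩ : Fin ℓ)]
        · simp [h3]
        · intro b _ hb
          have : j.val ≠ b.val := fun e => hb (Fin.ext e.symm)
          simp [this]
        · simp
      · rw [if_neg (by tauto), Finset.sum_eq_zero]
        intro k _
        have : j.val ≠ k.val := by have := k.2; omega
        simp [this]
    · refine le_rank_of_submatrix_eq_one N (fun k => ⟨k.val + (n - ℓ), by have := k.2; omega⟩) (fun k => ⟨k.val, by have := k.2; omega⟩) ?_
      ext i j
      simp only [Matrix.submatrix_apply, hN, Matrix.of_apply, Matrix.one_apply]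
      by_cases h3 : i = j
      · subst h3
        have := i.2
        simp [this]
      · have h4 : i.val ≠ j.val := fun e => h3 (Fin.ext e)
        have : ¬ (j.val < ℓ ∧ i.val + (n - ℓ) = j.val + (n - ℓ)) := by omega
        simp only [h3, if_false]
        rw [if_neg this]

end Cfsg.Agent.S2163
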