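import Cfsg.Statements.S2165
import Mathlib
import Cfsg.Agent.Lib.KnownSimple.RankHelpers

set_option autoImplicit false
open Cfsg

namespace Cfsg.Agent.S2165

open Cfsg.Agent.Lib.KnownSimple

variable {n ℓ : ℕ}

/-- The involution exchanging `i` and `n - ℓ + i` for `i < ℓ`. -/
def swapFun (n ℓ : ℕ) (h2 : 2 * ℓ ≤ n) (i : Fin n) : Fin n :=
  if h : i.val < ℓ then ⟨i.val + (n - ℓ), by omega⟩
  else if h' : n - ℓ ≤ i.val then ⟨i.val - (n - ℓ), by omega⟩ else i

theorem swapFun_val (h2 : 2 * ℓ ≤ n) (i : Fin n) :
    (swapFun n ℓ h2 i).val = if i.val < ℓ then i.val + (n - ℓ) else if n - ℓ ≤ i.val then i.val - (n - ℓ) else i.val := by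
  unfold swapFun
  split_ifs <;> rfl

theorem swapFun_swapFun (h2 : 2 * ℓ ≤ n) (h1 : 1 ≤ ℓ) (i : Fin n) : swapFun n ℓ h2 (swapFun n ℓ h2 i) = i := by
  apply Fin.ext
  rw [swapFun_val, swapFun_val]
  have := i.2
  split_ifs <;> omega

theorem of_eq_swap {F : Type*} [Field F] (h2 : 2 * ℓ ≤ n) (h1 : 1 ≤ ℓ) (i j : Fin n) :
    (if (j.val < ℓ ∧ i.val = j.val + (n - ℓ)) ∨ (i.val < ℓ ∧ j.val = i.val + (n - ℓ)) ∨ (i = j ∧ ℓ ≤ i.val ∧ i.val < n - ℓ) then (1 : F) else 0)
      = if i = swapFun n ℓ h2 j then 1 else 0 := by
  have h : ((j.val < ℓ ∧ i.val = j.val + (n - ℓ)) ∨ (i.val < ℓ ∧ j.val = i.val + (n - ℓ)) ∨ (i = j ∧ ℓ ≤ i.val ∧ i.val < n - ℓ)) ↔ i = swapFun n ℓ h2 j := by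
    rw [Fin.ext_iff (a := i) (b := swapFun n ℓ h2 j), swapFun_val, Fin.ext_iff (a := i) (b := j)]
    have := i.2
    have := j.2
    split_ifs <;> omega
  simp only [h]

/-- The auxiliary incidence matrix in the rank computation. -/
def incid (F : Type*) [Field F] (n ℓ : ℕ) (i : Fin n) (k : Fin ℓ) : F :=
  if i.val = k.val ∨ i.val = k.val + (n - ℓ) then 1 else 0

/-- In SU_n(q), q even, n ≥ 3 (matrices of determinant 1 over the field with q² elements preserving Σ u_i v_i^q): for every ℓ with 1 ≤ ℓ and 2ℓ ≤ n, the permutation matrix of the involution of {0, …, n−1} exchanging i and n − ℓ + i for each i < ℓ lies in SU_n(q), has order 2, and differs from the identity by a matrix of rank ℓ. So every rank between 1 and n/2 occurs for involutions of SU_n(q). -/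
theorem result {F : Type*} [Field F] [Fintype F] [CharP F 2] {n q : ℕ} (hF : Fintype.card F = q ^ 2) (hn : 3 ≤ n) (ℓ : ℕ) (h1 : 1 ≤ ℓ) (h2 : 2 * ℓ ≤ n) :
    ∃ a : ↥(Cfsg.SU n F q), (((a : Matrix.SpecialLinearGroup (Fin n) F) : Matrix (Fin n) (Fin n) F) = Matrix.of (fun i j : Fin n => if (j.val < ℓ ∧ i.val = j.val + (n - ℓ)) ∨ (i.val < ℓ ∧ j.val = i.val + (n - ℓ)) ∨ (i = j ∧ ℓ ≤ i.val ∧ i.val < n - ℓ) then (1 : F) else 0)) ∧ orderOf a = 2 ∧ ((((a : Matrix.SpecialLinearGroup (Fin n) F) : Matrix (Fin n) (Fin n) F)) - 1).rank = ℓ := by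
  classical
  set A : Matrix (Fin n) (Fin n) F := Matrix.of (fun i j : Fin n => if (j.val < ℓ ∧ i.val = j.val + (n - ℓ)) ∨ (i.val < ℓ ∧ j.val = i.val + (n - ℓ)) ∨ (i = j ∧ ℓ ≤ i.val ∧ i.val < n - ℓ) then (1 : F) else 0) with hA
  set s := swapFun n ℓ h2 with hs
  have hss : ∀ i, s (s i) = i := swapFun_swapFun h2 h1
  have hAij : ∀ i j, A i j = if i = s j then 1 else 0 := fun i j => of_eq_swap h2 h1 i j
  have hAA : A * A = 1 := by
    ext i j
    rw [Matrix.mul_apply, Finset.sum_eq_single (s i)]
    · rw [hAij, hAij, Matrix.one_apply]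
      by_cases h : i = j
      · subst h; simp [hss]
      · have : s i ≠ s j := fun e => h (by rw [← hss i, e, hss])
        simp [h, this, hss]
    · intro b _ hb
      have : i ≠ s b := fun e => hb (by rw [e, hss])
      rw [hAij i b]; simp [this]
    · simp
  have hdet : A.det = 1 := by
    have h3 : A.det * A.det = 1 := by rw [← Matrix.det_mul, hAA, Matrix.det_one]
    have h4 : (A.det + 1) * (A.det + 1) = 0 := by
      have : (A.det + 1) * (A.det + 1) = A.det * A.det + 1 + (A.det + A.det) := by ring
      rw [this, h3, CharTwo.add_self_eq_zero, CharTwo.add_self_eq_zero, add_zero]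
    have h5 : A.det + 1 = 0 := by simpa using h4
    have h6 : A.det = -1 := eq_neg_of_add_eq_zero_left h5
    rw [h6, CharTwo.neg_eq]
  let a₀ : Matrix.SpecialLinearGroup (Fin n) F := ⟨A, hdet⟩
  have hmul : ∀ u : Fin n → F, A.mulVec u = fun i => u (s i) := by
    intro u
    ext i
    rw [Matrix.mulVec, dotProduct, Finset.sum_eq_single (s i)]
    · rw [hAij]; simp [hss]
    · intro b _ hb
      have : i ≠ s b := fun e => hb (by rw [e, hss])
      rw [hAij i b]; simp [this]
    · simp
  have hequiv : Function.Bijective s := by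
    refine Function.Involutive.bijective hss
  have hmem : a₀ ∈ Cfsg.SU n F q := by
    intro u v
    show Cfsg.hermForm n F q (A.mulVec u) (A.mulVec v) = Cfsg.hermForm n F q u v
    rw [hmul, hmul]
    unfold Cfsg.hermForm
    exact Function.Bijective.sum_comp hequiv (fun i => u i * v i ^ q)
  let a : ↥(Cfsg.SU n F q) := ⟨a₀, hmem⟩
  refine ⟨a, rfl, ?_, ?_⟩
  · apply orderOf_eq_prime
    · rw [pow_two]
      apply Subtype.ext
      apply Subtype.ext
      exact hAA
    · intro h
      have h3 : A = 1 := congrArg (fun x : ↥(Cfsg.SU n F q) => ((x : Matrix.SpecialLinearGroup (Fin n) F) : Matrix (Fin n) (Fin n) F)) h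
      have h4 := congrFun (congrFun h3 ⟨0, by omega⟩) ⟨0, by omega⟩
      simp [hA] at h4
      omega
  · show (A - 1).rank = ℓ
    apply le_antisymm
    · refine rank_le_of_eq_mul (A - 1) (Matrix.of (incid F n ℓ)) (Matrix.of fun k j => incid F n ℓ j k) ?_
      ext i j
      rw [Matrix.sub_apply, Matrix.mul_apply]
      simp only [Matrix.of_apply]
      rw [hAij, Matrix.one_apply]
      have hneg : (0 : F) - 1 = 1 := by rw [zero_sub, CharTwo.neg_eq]
      have hi := i.2
      have hj := j.2
      -- evaluate the sum
      have hR : ∀ (x : Fin n) (k : Fin ℓ), incid F n ℓ x k = if x.val = k.val ∨ x.val = k.val + (n - ℓ) then 1 else 0 := fun _ _ => rfl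
      by_cases hmid : ℓ ≤ i.val ∧ i.val < n - ℓ
      · rw [Finset.sum_eq_zero]
        · by_cases hij : i = j
          · subst hij
            have : i = s i := by
              apply Fin.ext
              rw [hs, swapFun_val]
              split_ifs <;> omega
            rw [← this]; simp
          · have : i ≠ s j := by
              intro e
              apply hij
              apply Fin.ext
              have e2 := congrArg Fin.val e
              rw [hs, swapFun_val] at e2
              split_ifs at e2 <;> omega
            simp [this, hij]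
        · intro k _
          have hk := k.2
          rw [hR i k, if_neg (by omega), zero_mul]
      · -- `i` has a unique partner index
        let t : ℕ := if i.val < ℓ then i.val else i.val - (n - ℓ)
        have ht : t < ℓ := by
          show (if i.val < ℓ then i.val else i.val - (n - ℓ)) < ℓ
          split_ifs <;> omega
        rw [Finset.sum_eq_single (⟨t, ht⟩ : Fin ℓ)]
        · have h5 : incid F n ℓ i ⟨t, ht⟩ = 1 := by
            rw [hR, if_pos]
            show i.val = (if i.val < ℓ then i.val else i.val - (n - ℓ)) ∨ i.val = (if i.val < ℓ then i.val else i.val - (n - ℓ)) + (n - ℓ)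
            split_ifs <;> omega
          rw [h5, one_mul, hR]
          show _ = if j.val = (if i.val < ℓ then i.val else i.val - (n - ℓ)) ∨ j.val = (if i.val < ℓ then i.val else i.val - (n - ℓ)) + (n - ℓ) then (1 : F) else 0
          by_cases hij : i = j
          · subst hij
            have h6 : i ≠ s i := by
              intro e
              have e2 := congrArg Fin.val e
              rw [hs, swapFun_val] at e2
              split_ifs at e2 <;> omega
            rw [if_neg h6, if_pos rfl, if_pos, hneg]
            split_ifs <;> omega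
          · have hij' : i.val ≠ j.val := fun e => hij (Fin.ext e)
            rw [if_neg hij, sub_zero]
            by_cases h7 : i = s j
            · rw [if_pos h7, if_pos]
              have e2 := congrArg Fin.val h7
              rw [hs, swapFun_val] at e2
              split_ifs at e2 ⊢ <;> omega
            · rw [if_neg h7, if_neg]
              intro h8
              apply h7
              apply Fin.ext
              rw [hs, swapFun_val]
              split_ifs at h8 ⊢ <;> omega
        · intro b _ hb
          have hb2 := b.2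
          have : b.val ≠ t := fun e => hb (Fin.ext e)
          rw [hR i b, if_neg, zero_mul]
          intro h8
          apply this
          show b.val = if i.val < ℓ then i.val else i.val - (n - ℓ)
          split_ifs <;> omega
        · simp
    · refine le_rank_of_submatrix_eq_one (A - 1) (fun k => ⟨k.val, by have := k.2; omega⟩) (fun k => ⟨k.val, by have := k.2; omega⟩) ?_
      ext i j
      simp only [Matrix.submatrix_apply, Matrix.sub_apply]
      have hneg : (0 : F) - 1 = 1 := by rw [zero_sub, CharTwo.neg_eq]
      have hi := i.2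
      have hj := j.2
      rw [hAij]
      have h3 : ∀ x y : Fin ℓ, ((⟨x.val, by have := x.2; omega⟩ : Fin n) = ⟨y.val, by have := y.2; omega⟩) ↔ x = y := by
        intro x y; simp [Fin.ext_iff]
      have h4 : ¬ ((⟨i.val, by omega⟩ : Fin n) = s ⟨j.val, by omega⟩) := by
        intro e
        have e2 := congrArg Fin.val e
        rw [hs, swapFun_val] at e2
        simp only at e2
        split_ifs at e2 <;> omega
      rw [if_neg h4]
      by_cases hij : i = j
      · subst hij; simp [hneg]
      · simp [Fin.ext_iff] at hij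
        simp [Matrix.one_apply, Fin.ext_iff, hij]

end Cfsg.Agent.S2165
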