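import Cfsg.Statements.S2164
import Mathlib
import Cfsg.Agent.S2165
import Cfsg.Agent.Lib.UConj.Unip

set_option autoImplicit false
open Cfsg

open Matrix Cfsg.Agent.Lib.Classical Cfsg.Agent.Lib.KS2.IsoCl Cfsg.Agent.Lib.UConj

namespace Cfsg.Agent.S2164
variable {F : Type*} [Field F] [Fintype F] [CharP F 2] {n q : ℕ}

/-- `g` in SU as a matrix. -/
local notation "mat" g => (((g : Matrix.SpecialLinearGroup (Fin n) F) : Matrix (Fin n) (Fin n) F))

lemma sq_zero_of_order (a : ↥(Cfsg.SU n F q)) (ha : orderOf a = 2) : ((mat (a : Matrix.SpecialLinearGroup (Fin n) F)) - 1) ^ 2 = 0 := by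
  have h1 : a ^ 2 = 1 := by rw [← ha]; exact pow_orderOf_eq_one a
  have h2 : (mat (a : Matrix.SpecialLinearGroup (Fin n) F)) ^ 2 = 1 := by
    have := congrArg (fun y : ↥(Cfsg.SU n F q) => mat (y : Matrix.SpecialLinearGroup (Fin n) F)) h1
    simpa using this
  have h3 : ((mat (a : Matrix.SpecialLinearGroup (Fin n) F)) - 1) ^ 2 = (mat (a : Matrix.SpecialLinearGroup (Fin n) F)) ^ 2 + 1 - (2 : F) • (mat (a : Matrix.SpecialLinearGroup (Fin n) F)) := by
    have hc : Commute (mat (a : Matrix.SpecialLinearGroup (Fin n) F)) (1 : Matrix (Fin n) (Fin n) F) := Commute.one_right _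
    rw [hc.sub_sq, pow_two, mul_one, one_pow, two_smul, two_mul]
    abel
  have h4 : (2 : F) = 0 := by exact_mod_cast CharP.cast_eq_zero F 2
  have h5 : (1 : Matrix (Fin n) (Fin n) F) + 1 = (2 : F) • (1 : Matrix (Fin n) (Fin n) F) := by rw [two_smul]
  rw [h3, h2, h4, zero_smul, sub_zero, h5, h4, zero_smul]

lemma rank_le (a : ↥(Cfsg.SU n F q)) (ha : orderOf a = 2) :
    2 * ((mat (a : Matrix.SpecialLinearGroup (Fin n) F)) - 1).rank ≤ n := by
  have h := sq_zero_of_order a ha
  rw [pow_two] at h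
  have := Matrix.rank_add_rank_le_card_of_mul_eq_zero h
  simp only [Fintype.card_fin] at this
  omega

lemma rank_pos (a : ↥(Cfsg.SU n F q)) (ha : orderOf a = 2) :
    1 ≤ ((mat (a : Matrix.SpecialLinearGroup (Fin n) F)) - 1).rank := by
  by_contra h
  have h0 : ((mat (a : Matrix.SpecialLinearGroup (Fin n) F)) - 1).rank = 0 := by omega
  have h1 : (mat (a : Matrix.SpecialLinearGroup (Fin n) F)) - 1 = 0 := by
    have h6 : LinearMap.range ((mat (a : Matrix.SpecialLinearGroup (Fin n) F)) - 1).mulVecLin = ⊥ := Submodule.finrank_eq_zero.mp h0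
    have h7 := LinearMap.range_eq_bot.1 h6
    ext i j
    have h8 := congrFun (congrArg (fun f => f (Pi.single j 1)) h7) i
    have h9 : (1 : Matrix (Fin n) (Fin n) F) i j = (Pi.single j 1 : Fin n → F) i := by
      simp [Matrix.one_apply, Pi.single_apply]
    rw [Matrix.sub_apply, Matrix.zero_apply, h9]
    simpa using h8
  have h2 : a = 1 := by
    apply Subtype.ext
    apply Subtype.ext
    exact sub_eq_zero.1 h1
  rw [h2, orderOf_one] at ha
  omega

/-- Each involution of SU is conjugate to the standard one of the same rank. -/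
lemma conj_std (hF : Fintype.card F = q ^ 2) (hn : 3 ≤ n) (a t : ↥(Cfsg.SU n F q)) (ha : orderOf a = 2)
    (ℓ : ℕ) (h1 : 1 ≤ ℓ) (h2 : 2 * ℓ ≤ n) (hr : ((mat (a : Matrix.SpecialLinearGroup (Fin n) F)) - 1).rank = ℓ)
    (htm : (mat (t : Matrix.SpecialLinearGroup (Fin n) F)) = Matrix.of (fun i j : Fin n => if (j.val < ℓ ∧ i.val = j.val + (n - ℓ)) ∨ (i.val < ℓ ∧ j.val = i.val + (n - ℓ)) ∨ (i = j ∧ ℓ ≤ i.val ∧ i.val < n - ℓ) then (1 : F) else 0))
    (hto : orderOf t = 2) (htr : ((mat (t : Matrix.SpecialLinearGroup (Fin n) F)) - 1).rank = ℓ) : IsConj a t := by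
  classical
  have hq0 : 0 < q := by
    rcases Nat.eq_zero_or_pos q with rfl | h
    · have := Fintype.card_pos (α := F)
      simp [hF] at this
    · exact h
  have hq2 : 2 ∣ q := by
    have h3 : 2 ∣ q ^ 2 := by
      rw [← hF]
      have h4 : ((Fintype.card F : ℕ) : F) = 0 := Nat.cast_card_eq_zero F
      exact (CharP.cast_eq_zero_iff F 2 _).1 h4
    exact Nat.Prime.dvd_of_dvd_pow Nat.prime_two h3
  set A := mat (a : Matrix.SpecialLinearGroup (Fin n) F) with hA
  set T := mat (t : Matrix.SpecialLinearGroup (Fin n) F) with hT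
  have hAu : hAdj hF A * A = 1 := hAdj_mul_self hF A a.2
  have hTu : hAdj hF T * T = 1 := hAdj_mul_self hF T t.2
  have hAs := sq_zero_of_order a ha
  have hTs := sq_zero_of_order t hto
  -- conjugacy in GL
  have hdetA : IsUnit A.det := by
    have : A.det = 1 := (a : Matrix.SpecialLinearGroup (Fin n) F).2
    rw [this]; exact isUnit_one
  have hdetT : IsUnit T.det := by
    have : T.det = 1 := (t : Matrix.SpecialLinearGroup (Fin n) F).2
    rw [this]; exact isUnit_one
  let gA : GL (Fin n) F := Matrix.GeneralLinearGroup.mk'' A hdetA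
  let gT : GL (Fin n) F := Matrix.GeneralLinearGroup.mk'' T hdetT
  have hconj : IsConj gA gT := by
    apply isConj_of_rank_eq
    · exact ⟨2, hAs⟩
    · exact ⟨2, hTs⟩
    · intro k
      show ((A - 1) ^ k).rank = ((T - 1) ^ k).rank
      rcases k with _ | _ | k
      · simp
      · simp only [zero_add, pow_one]
        rw [hr, htr]
      · have e1 : (A - 1) ^ (k + 1 + 1) = 0 := by
          rw [show k + 1 + 1 = 2 + k by ring, pow_add, hAs, zero_mul]
        have e2 : (T - 1) ^ (k + 1 + 1) = 0 := by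
          rw [show k + 1 + 1 = 2 + k by ring, pow_add, hTs, zero_mul]
        rw [e1, e2]
  obtain ⟨c, hc⟩ := isConj_iff.1 hconj
  have hc' : (c : Matrix (Fin n) (Fin n) F) * A = T * (c : Matrix (Fin n) (Fin n) F) := by
    have h3 : c * gA = gT * c := by
      rw [← hc]; group
    exact congrArg (fun x : GL (Fin n) F => (x : Matrix (Fin n) (Fin n) F)) h3
  have hcdet : (c : Matrix (Fin n) (Fin n) F).det ≠ 0 :=
    ((Matrix.isUnit_iff_isUnit_det _).mp c.isUnit).ne_zero
  obtain ⟨c₁, hc₁u, hc₁⟩ := exists_unitary_conj hF A T (c : Matrix (Fin n) (Fin n) F) hAu hTu hcdet hc'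
  -- the determinant
  set δ := c₁.det with hδ
  have hδn : δ ^ q * δ = 1 := by
    have h3 := congrArg Matrix.det hc₁u
    rwa [Matrix.det_mul, det_hAdj, Matrix.det_one, conjQ_apply] at h3
  have hδ0 : δ ≠ 0 := by
    intro h0
    rw [h0, mul_zero] at hδn
    exact zero_ne_one hδn
  obtain ⟨r, hrq⟩ := hq2
  set ν := δ⁻¹ with hν
  have hνn : ν ^ (q + 1) = 1 := by
    rw [hν, inv_pow, pow_succ, hδn, inv_one]
  set ε := ν ^ (r + 1) with hε
  have hε2 : ε ^ 2 = ν := by
    rw [hε, ← pow_mul, show (r + 1) * 2 = (q + 1) + 1 by omega, pow_succ, hνn, one_mul]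
  have hεn : ε ^ q * ε = 1 := by
    rw [← pow_succ, hε, ← pow_mul, mul_comm, pow_mul, hνn, one_pow]
  -- the correcting diagonal matrix
  let d : Fin n → F := fun i => if i.val = 0 ∨ i.val = n - ℓ then ε else 1
  let s := Cfsg.Agent.S2165.swapFun n ℓ h2
  have hds : ∀ j, d (s j) = d j := by
    intro j
    simp only [d, s]
    rw [Cfsg.Agent.S2165.swapFun_val]
    have := j.2
    by_cases h3 : j.val < ℓ
    · rw [if_pos h3]
      by_cases h4 : j.val = 0
      · rw [if_pos (Or.inr (by omega)), if_pos (Or.inl h4)]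
      · rw [if_neg (by omega), if_neg (by omega)]
    · rw [if_neg h3]
      by_cases h5 : n - ℓ ≤ j.val
      · rw [if_pos h5]
        by_cases h4 : j.val = n - ℓ
        · rw [if_pos (Or.inl (by omega)), if_pos (Or.inr h4)]
        · rw [if_neg (by omega), if_neg (by omega)]
      · rw [if_neg h5]
  have hTij : ∀ i j, T i j = if i = s j then 1 else 0 := fun i j => by
    have h9 := Cfsg.Agent.S2165.of_eq_swap (F := F) h2 h1 i j
    rw [htm]
    exact h9
  have hDT : Matrix.diagonal d * T = T * Matrix.diagonal d := by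
    ext i j
    rw [Matrix.diagonal_mul, Matrix.mul_diagonal, hTij]
    by_cases h3 : i = s j
    · rw [if_pos h3, h3, hds]
      ring
    · rw [if_neg h3]
      ring
  have hDu : hAdj hF (Matrix.diagonal d) * Matrix.diagonal d = 1 := by
    ext i j
    rw [Matrix.mul_diagonal, hAdj_apply]
    by_cases h3 : i = j
    · subst h3
      rw [Matrix.diagonal_apply_eq, Matrix.one_apply_eq]
      simp only [d]
      split_ifs
      · exact hεn
      · simp
    · rw [Matrix.diagonal_apply_ne _ (Ne.symm h3), Matrix.one_apply_ne h3, zero_pow hq0.ne', zero_mul]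
  have hDdet : (Matrix.diagonal d).det = ν := by
    rw [Matrix.det_diagonal]
    have hn1 : n - ℓ < n := by omega
    have h0n : 0 < n := by omega
    rw [Finset.prod_eq_mul (⟨0, h0n⟩ : Fin n) (⟨n - ℓ, hn1⟩ : Fin n)]
    · have e1 : d ⟨0, h0n⟩ = ε := if_pos (Or.inl rfl)
      have e2 : d ⟨n - ℓ, hn1⟩ = ε := if_pos (Or.inr rfl)
      rw [e1, e2, ← pow_two, hε2]
    · intro h3
      have := congrArg Fin.val h3
      simp only at this
      omega
    · intro c _ hc3
      simp only [d]
      rw [if_neg]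
      rintro (h4 | h4)
      · exact hc3.1 (Fin.ext h4)
      · exact hc3.2 (Fin.ext h4)
    · intro h3; exact absurd (Finset.mem_univ _) h3
    · intro h3; exact absurd (Finset.mem_univ _) h3
  -- the conjugating element
  set S := Matrix.diagonal d * c₁ with hS
  have hSu : hAdj hF S * S = 1 := by
    rw [hS, hAdj_mul]
    calc hAdj hF c₁ * hAdj hF (Matrix.diagonal d) * (Matrix.diagonal d * c₁)
        = hAdj hF c₁ * (hAdj hF (Matrix.diagonal d) * Matrix.diagonal d) * c₁ := by simp only [mul_assoc]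
      _ = 1 := by rw [hDu, mul_one, hc₁u]
  have hSc : S * A = T * S := by
    rw [hS, mul_assoc, hc₁, ← mul_assoc, hDT, mul_assoc]
  have hSdet : S.det = 1 := by
    rw [hS, Matrix.det_mul, hDdet, hν, inv_mul_cancel₀ hδ0]
  let S₁ : Matrix.SpecialLinearGroup (Fin n) F := ⟨S, hSdet⟩
  have hS₁ : S₁ ∈ Cfsg.SU n F q := by
    intro u v
    show Cfsg.hermForm n F q (S *ᵥ u) (S *ᵥ v) = Cfsg.hermForm n F q u v
    rw [herm_adj hF, Matrix.mulVec_mulVec, hSu, Matrix.one_mulVec]
  let S₂ : ↥(Cfsg.SU n F q) := ⟨S₁, hS₁⟩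
  refine isConj_iff.2 ⟨S₂, ?_⟩
  have h3 : S₂ * a = t * S₂ := by
    apply Subtype.ext
    apply Subtype.ext
    exact hSc
  rw [h3, mul_inv_cancel_right]

/-- Conjugacy of involutions in the special unitary group SU_n(q), q even, n ≥ 3, realised over the field F with q² elements as the matrices of determinant 1 preserving the form Σ u_i v_i^q: for two elements of order 2 of SU_n(q) the following are equivalent — they are conjugate in SU_n(q); they are conjugate in SL_n(F); the matrices a − 1 and b − 1 have the same rank. -/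
theorem result {F : Type*} [Field F] [Fintype F] [CharP F 2] {n q : ℕ} (hF : Fintype.card F = q ^ 2) (hn : 3 ≤ n) (a b : ↥(Cfsg.SU n F q)) (ha : orderOf a = 2) (hb : orderOf b = 2) :
    (IsConj a b ↔ IsConj (a : Matrix.SpecialLinearGroup (Fin n) F) (b : Matrix.SpecialLinearGroup (Fin n) F)) ∧
    (IsConj a b ↔ (((a : Matrix.SpecialLinearGroup (Fin n) F) : Matrix (Fin n) (Fin n) F) - 1).rank = (((b : Matrix.SpecialLinearGroup (Fin n) F) : Matrix (Fin n) (Fin n) F) - 1).rank) := by
  have hmap1 : ∀ x y : ↥(Cfsg.SU n F q), IsConj x y → IsConj (x : Matrix.SpecialLinearGroup (Fin n) F) (y : Matrix.SpecialLinearGroup (Fin n) F) := by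
    intro x y h
    exact MonoidHom.map_isConj (Cfsg.SU n F q).subtype h
  have hrank : ∀ x y : Matrix.SpecialLinearGroup (Fin n) F, IsConj x y → ((x : Matrix (Fin n) (Fin n) F) - 1).rank = ((y : Matrix (Fin n) (Fin n) F) - 1).rank := by
    intro x y h
    obtain ⟨c, hc⟩ := isConj_iff.1 h
    subst hc
    have hcu : IsUnit ((c : Matrix (Fin n) (Fin n) F)) := by
      rw [Matrix.isUnit_iff_isUnit_det, c.2]
      exact isUnit_one
    have hci : IsUnit (((c⁻¹ : Matrix.SpecialLinearGroup (Fin n) F) : Matrix (Fin n) (Fin n) F)) := by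
      rw [Matrix.isUnit_iff_isUnit_det, (c⁻¹).2]
      exact isUnit_one
    have h1 : ((c * x * c⁻¹ : Matrix.SpecialLinearGroup (Fin n) F) : Matrix (Fin n) (Fin n) F) - 1
        = (c : Matrix (Fin n) (Fin n) F) * ((x : Matrix (Fin n) (Fin n) F) - 1) * ((c⁻¹ : Matrix.SpecialLinearGroup (Fin n) F) : Matrix (Fin n) (Fin n) F) := by
      have h2 : (c : Matrix (Fin n) (Fin n) F) * ((c⁻¹ : Matrix.SpecialLinearGroup (Fin n) F) : Matrix (Fin n) (Fin n) F) = 1 := by
        rw [← Matrix.SpecialLinearGroup.coe_mul, mul_inv_cancel, Matrix.SpecialLinearGroup.coe_one]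
      rw [mul_sub, sub_mul, mul_one, h2]
      simp only [Matrix.SpecialLinearGroup.coe_mul]
    rw [h1, Matrix.rank_mul_eq_left_of_isUnit_det, Matrix.rank_mul_eq_right_of_isUnit_det]
    · rw [← Matrix.isUnit_iff_isUnit_det]; exact hcu
    · rw [← Matrix.isUnit_iff_isUnit_det]; exact hci
  have hkey : ((((a : Matrix.SpecialLinearGroup (Fin n) F) : Matrix (Fin n) (Fin n) F) - 1).rank = (((b : Matrix.SpecialLinearGroup (Fin n) F) : Matrix (Fin n) (Fin n) F) - 1).rank) → IsConj a b := by
    intro hr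
    have h1 := rank_pos a ha
    have h2 := rank_le a ha
    obtain ⟨t, htm, hto, htr⟩ := Cfsg.Agent.S2165.result hF hn _ h1 h2
    have e1 := conj_std hF hn a t ha _ h1 h2 rfl htm hto htr
    have e2 := conj_std hF hn b t hb _ h1 h2 hr.symm htm hto htr
    exact e1.trans e2.symm
  constructor
  · exact ⟨hmap1 a b, fun h => hkey (hrank _ _ h)⟩
  · exact ⟨fun h => hrank _ _ (hmap1 a b h), hkey⟩

end Cfsg.Agent.S2164
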