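import Cfsg.Statements.S2167
import Mathlib
import Cfsg.Agent.Lib.KnownSimple.AltRank

set_option autoImplicit false
open Cfsg

namespace Cfsg.Agent.S2167

open Matrix Module

variable {F : Type*} [Field F] {m : ℕ}

theorem sympForm_self (v : Fin m ⊕ Fin m → F) : Cfsg.sympForm m F v v = 0 := by
  classical
  unfold Cfsg.sympForm Matrix.J
  rw [dotProduct, Fintype.sum_sum_type]
  simp only [Matrix.mulVec, dotProduct, Fintype.sum_sum_type, Matrix.fromBlocks_apply₁₁, Matrix.fromBlocks_apply₁₂,
    Matrix.fromBlocks_apply₂₁, Matrix.fromBlocks_apply₂₂, Matrix.zero_apply, zero_mul, Finset.sum_const_zero, zero_add, add_zero,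
    Matrix.neg_apply, Matrix.one_apply, neg_mul, ite_mul, one_mul, Finset.sum_neg_distrib, Finset.sum_ite_eq, Finset.mem_univ, if_true]
  rw [← Finset.sum_add_distrib]
  apply Finset.sum_eq_zero
  intro i _
  ring

/-- The symplectic form as a bilinear map. -/
theorem sympForm_add_left (u v w : Fin m ⊕ Fin m → F) :
    Cfsg.sympForm m F (u + v) w = Cfsg.sympForm m F u w + Cfsg.sympForm m F v w := by
  unfold Cfsg.sympForm; rw [add_dotProduct]

theorem sympForm_add_right (u v w : Fin m ⊕ Fin m → F) :
    Cfsg.sympForm m F u (v + w) = Cfsg.sympForm m F u v + Cfsg.sympForm m F u w := by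
  unfold Cfsg.sympForm; rw [Matrix.mulVec_add, dotProduct_add]

theorem sympForm_smul_left (c : F) (u w : Fin m ⊕ Fin m → F) :
    Cfsg.sympForm m F (c • u) w = c * Cfsg.sympForm m F u w := by
  unfold Cfsg.sympForm; rw [smul_dotProduct, smul_eq_mul]

theorem sympForm_smul_right (c : F) (u w : Fin m ⊕ Fin m → F) :
    Cfsg.sympForm m F u (c • w) = c * Cfsg.sympForm m F u w := by
  unfold Cfsg.sympForm; rw [Matrix.mulVec_smul, dotProduct_smul, smul_eq_mul]

theorem sympForm_skew (u v : Fin m ⊕ Fin m → F) :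
    Cfsg.sympForm m F u v = - Cfsg.sympForm m F v u := by
  have h := sympForm_self (u + v)
  rw [sympForm_add_left, sympForm_add_right, sympForm_add_right, sympForm_self, sympForm_self,
    zero_add, add_zero] at h
  exact eq_neg_of_add_eq_zero_left h

theorem sympForm_preserved (A : Matrix (Fin m ⊕ Fin m) (Fin m ⊕ Fin m) F) (hA : A ∈ Matrix.symplecticGroup (Fin m) F)
    (u v : Fin m ⊕ Fin m → F) :
    Cfsg.sympForm m F (A.mulVec u) (A.mulVec v) = Cfsg.sympForm m F u v := by
  unfold Cfsg.sympForm
  have h := SymplecticGroup.mem_iff'.mp hA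
  rw [Matrix.mulVec_mulVec, Matrix.dotProduct_mulVec, Matrix.vecMul_mulVec, ← Matrix.dotProduct_mulVec]
  congr 2
  rw [← Matrix.mul_assoc]
  exact h

/-- For an involution t of the symplectic group Sp_{2m}(F), m ≥ 2, F a finite field of characteristic two (matrices A with A J Aᵀ = J acting on column vectors, alternating form f(u, v) = u ⬝ (J v)): the set V(t) of vectors v with f(v, t v) = 0 has either q^{2m} or q^{2m−1} elements, q the order of F (it is a subspace of codimension at most 1), and if it is the whole space then t − 1 has even rank. -/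
theorem result {F : Type*} [Field F] [Fintype F] [CharP F 2] {m : ℕ} (hm : 2 ≤ m) (a : ↥(Matrix.symplecticGroup (Fin m) F)) (ha : orderOf a = 2) :
    (Nat.card {v : Fin m ⊕ Fin m → F // Cfsg.sympForm m F v (Matrix.mulVec ((a : ↥(Matrix.symplecticGroup (Fin m) F)) : Matrix (Fin m ⊕ Fin m) (Fin m ⊕ Fin m) F) v) = 0} = Fintype.card F ^ (2 * m) ∨ Nat.card {v : Fin m ⊕ Fin m → F // Cfsg.sympForm m F v (Matrix.mulVec ((a : ↥(Matrix.symplecticGroup (Fin m) F)) : Matrix (Fin m ⊕ Fin m) (Fin m ⊕ Fin m) F) v) = 0} * Fintype.card F = Fintype.card F ^ (2 * m)) ∧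
    ((∀ v : Fin m ⊕ Fin m → F, Cfsg.sympForm m F v (Matrix.mulVec ((a : ↥(Matrix.symplecticGroup (Fin m) F)) : Matrix (Fin m ⊕ Fin m) (Fin m ⊕ Fin m) F) v) = 0) → Even (((a : ↥(Matrix.symplecticGroup (Fin m) F)) : Matrix (Fin m ⊕ Fin m) (Fin m ⊕ Fin m) F) - 1).rank) := by
  classical
  set A : Matrix (Fin m ⊕ Fin m) (Fin m ⊕ Fin m) F := (a : Matrix (Fin m ⊕ Fin m) (Fin m ⊕ Fin m) F) with hAdef
  have hAmem : A ∈ Matrix.symplecticGroup (Fin m) F := a.2
  have hAA : A * A = 1 := by
    have h1 : a ^ 2 = 1 := by rw [← ha]; exact pow_orderOf_eq_one a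
    rw [pow_two] at h1
    exact congrArg Subtype.val h1
  have hAAv : ∀ v, A.mulVec (A.mulVec v) = v := by
    intro v
    rw [Matrix.mulVec_mulVec, hAA, Matrix.one_mulVec]
  set φ : (Fin m ⊕ Fin m → F) → F := fun v => Cfsg.sympForm m F v (A.mulVec v) with hφ
  have hsym : ∀ u v, Cfsg.sympForm m F v u = Cfsg.sympForm m F u v := by
    intro u v
    rw [sympForm_skew u v, CharTwo.neg_eq]
  have hφadd : ∀ u v, φ (u + v) = φ u + φ v := by
    intro u v
    simp only [hφ]
    rw [Matrix.mulVec_add, sympForm_add_left, sympForm_add_right, sympForm_add_right]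
    have h2 : Cfsg.sympForm m F v (A.mulVec u) = Cfsg.sympForm m F u (A.mulVec v) := by
      have h3 := sympForm_preserved A hAmem v (A.mulVec u)
      rw [hAAv] at h3
      rw [← h3, hsym]
    rw [h2]
    have h4 := CharTwo.add_self_eq_zero (Cfsg.sympForm m F u (A.mulVec v))
    linear_combination h4
  have hφsmul : ∀ (c : F) v, φ (c • v) = c ^ 2 * φ v := by
    intro c v
    simp only [hφ]
    rw [Matrix.mulVec_smul, sympForm_smul_left, sympForm_smul_right]
    ring
  haveI : Fact (Nat.Prime 2) := ⟨Nat.prime_two⟩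
  haveI : PerfectRing F 2 := PerfectRing.ofFiniteOfIsReduced 2 F
  let σ : F ≃+* F := frobeniusEquiv F 2
  have hσ : ∀ c : F, σ c = c ^ 2 := fun c => rfl
  let ψ : (Fin m ⊕ Fin m → F) →ₗ[F] F :=
    { toFun := fun v => σ.symm (φ v)
      map_add' := by
        intro u v
        show σ.symm (φ (u + v)) = σ.symm (φ u) + σ.symm (φ v)
        rw [hφadd, map_add]
      map_smul' := by
        intro c v
        show σ.symm (φ (c • v)) = c * σ.symm (φ v)
        rw [hφsmul, ← hσ, map_mul, RingEquiv.symm_apply_apply] }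
  have hψ : ∀ v, ψ v = 0 ↔ φ v = 0 := by
    intro v
    show σ.symm (φ v) = 0 ↔ _
    exact map_eq_zero_iff _ σ.symm.injective
  constructor
  · have hcard : Nat.card {v : Fin m ⊕ Fin m → F // φ v = 0} = Nat.card (LinearMap.ker ψ) := by
      apply Nat.card_congr
      exact Equiv.subtypeEquivRight (fun v => by rw [LinearMap.mem_ker, hψ])
    have hq : Nat.card F = Fintype.card F := Nat.card_eq_fintype_card
    have hcard2 : Nat.card (LinearMap.ker ψ) = Fintype.card F ^ finrank F (LinearMap.ker ψ) := by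
      rw [Module.natCard_eq_pow_finrank (K := F), hq]
    have hdim : finrank F (Fin m ⊕ Fin m → F) = 2 * m := by
      simp [Module.finrank_pi]; omega
    have hrn := LinearMap.finrank_range_add_finrank_ker ψ
    rw [hdim] at hrn
    have hrange : finrank F (LinearMap.range ψ) ≤ 1 := by
      have := Submodule.finrank_le (LinearMap.range ψ)
      simpa using this
    have hq0 : 0 < Fintype.card F := Fintype.card_pos
    rw [hcard, hcard2]
    by_cases h0 : finrank F (LinearMap.range ψ) = 0
    · left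
      congr 1
      omega
    · right
      have h1 : finrank F (LinearMap.range ψ) = 1 := by omega
      have h2 : 2 * m = finrank F (LinearMap.ker ψ) + 1 := by omega
      rw [h2, pow_succ]
  · intro hall
    have hJ : IsUnit (Matrix.J (Fin m) F).det := Matrix.isUnit_det_J (Fin m) F
    rw [← Matrix.rank_mul_eq_right_of_isUnit_det (Matrix.J (Fin m) F) (A - 1) hJ]
    apply Cfsg.Agent.Lib.KnownSimple.even_rank_of_alternating
    intro v
    have h5 := hall v
    have h6 := sympForm_self v
    unfold Cfsg.sympForm at h5 h6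
    rw [← Matrix.mulVec_mulVec, Matrix.sub_mulVec, Matrix.mulVec_sub, dotProduct_sub, h5]
    simp only [Matrix.one_mulVec, h6, sub_zero]

end Cfsg.Agent.S2167
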