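import Cfsg.Statements.S2166
import Mathlib
import Cfsg.Agent.Lib.InvC2.SpMat
import Cfsg.Agent.S2167

set_option autoImplicit false
open Cfsg

open Cfsg.Agent.Lib.InvC2

namespace Cfsg.Agent.S2166


/-- Conjugacy of involutions in the symplectic group Sp_{2m}(F), F a finite field of characteristic two, m ≥ 2 (Sp taken as the matrices A with A J Aᵀ = J, acting on column vectors, with the alternating form f(u, v) = u ⬝ (J v)). For an involution t write V(t) for the set of vectors v with f(v, t v) = 0 (a subspace). Two involutions a, b are conjugate in Sp_{2m}(F) exactly when a − 1 and b − 1 have the same rank and, in case that rank is even, V(a) and V(b) have the same number of elements. -/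
theorem result {F : Type*} [Field F] [Fintype F] [CharP F 2] {m : ℕ} (hm : 2 ≤ m) (a b : ↥(Matrix.symplecticGroup (Fin m) F)) (ha : orderOf a = 2) (hb : orderOf b = 2) :
    IsConj a b ↔ ((((a : ↥(Matrix.symplecticGroup (Fin m) F)) : Matrix (Fin m ⊕ Fin m) (Fin m ⊕ Fin m) F) - 1).rank = (((b : ↥(Matrix.symplecticGroup (Fin m) F)) : Matrix (Fin m ⊕ Fin m) (Fin m ⊕ Fin m) F) - 1).rank ∧
      (Even (((a : ↥(Matrix.symplecticGroup (Fin m) F)) : Matrix (Fin m ⊕ Fin m) (Fin m ⊕ Fin m) F) - 1).rank → Nat.card {v : Fin m ⊕ Fin m → F // Cfsg.sympForm m F v (Matrix.mulVec ((a : ↥(Matrix.symplecticGroup (Fin m) F)) : Matrix (Fin m ⊕ Fin m) (Fin m ⊕ Fin m) F) v) = 0} = Nat.card {v : Fin m ⊕ Fin m → F // Cfsg.sympForm m F v (Matrix.mulVec ((b : ↥(Matrix.symplecticGroup (Fin m) F)) : Matrix (Fin m ⊕ Fin m) (Fin m ⊕ Fin m) F) v) = 0})) := by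
  classical
  have ha' := sq_of_order ha
  have hb' := sq_of_order hb
  rw [sp_conj_iff a b ha' hb']
  have hc1 := Cfsg.Agent.S2167.result hm a ha
  have hc2 := Cfsg.Agent.S2167.result hm b hb
  have hcardV : Nat.card (Fin m ⊕ Fin m → F) = Fintype.card F ^ (2 * m) := by
    rw [Nat.card_eq_fintype_card, Fintype.card_fun]
    simp [two_mul]
  have hq : 0 < Fintype.card F := Fintype.card_pos
  have ea := chi_all_iff_card a
  have eb := chi_all_iff_card b
  change _ ↔ _ ∧ (_ → Nat.card {v // chi a v = 0} = Nat.card {v // chi b v = 0})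
  constructor
  · rintro ⟨h1, h3⟩
    refine ⟨h1, fun _ => ?_⟩
    have hc1' : Nat.card {v // chi a v = 0} = Fintype.card F ^ (2 * m) ∨ Nat.card {v // chi a v = 0} * Fintype.card F = Fintype.card F ^ (2 * m) := hc1.1
    have hc2' : Nat.card {v // chi b v = 0} = Fintype.card F ^ (2 * m) ∨ Nat.card {v // chi b v = 0} * Fintype.card F = Fintype.card F ^ (2 * m) := hc2.1
    by_cases hall : ∀ v, chi a v = 0
    · rw [ea.1 hall, eb.1 (h3.1 hall)]
    · have hall' : ¬ ∀ v, chi b v = 0 := fun h => hall (h3.2 h)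
      rw [ea, hcardV] at hall
      rw [eb, hcardV] at hall'
      have e1 := hc1'.resolve_left hall
      have e2 := hc2'.resolve_left hall'
      exact Nat.eq_of_mul_eq_mul_right hq (e1.trans e2.symm)
  · rintro ⟨h1, h3⟩
    refine ⟨h1, ?_⟩
    by_cases hev : Even ((a : Matrix (Fin m ⊕ Fin m) (Fin m ⊕ Fin m) F) - 1).rank
    · rw [ea, eb, h3 hev]
    · have h4 : ¬ ∀ v, chi a v = 0 := fun h => hev (even_rank_of_chi a h)
      have h5 : ¬ ∀ v, chi b v = 0 := fun h => hev (h1 ▸ even_rank_of_chi b h)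
      exact ⟨fun h => absurd h h4, fun h => absurd h h5⟩

end Cfsg.Agent.S2166
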