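import Cfsg.Statements.S2172
import Mathlib
import Cfsg.Agent.Lib.InvC2.Split

set_option autoImplicit false
open Cfsg

open Cfsg.Agent.Lib.InvC2 Cfsg.Agent.Lib.Classical Cfsg.Agent.Lib.Classical.Abs Cfsg.Agent.Lib.Classical.Orth Cfsg.Agent.Lib.Known3.OmegaTrans Cfsg.Agent.Lib.Known3.OmegaCalc Cfsg.Agent.Lib.Known3.Spinor Module

namespace Cfsg.Agent.S2172


/-- Splitting of involution classes from O to Ω for the hyperbolic quadratic form Q = Σ x_i y_i in dimension 2m over a finite field F of characteristic two, m ≥ 4. Let t, s be involutions of the commutator subgroup Ω that are conjugate in the full isometry group O. If it is not the case that t − 1 has rank m and Q(v + t v) = 0 for every vector v, then t and s are conjugate by an element of Ω. If t − 1 has rank m and Q(v + t v) = 0 for all v, then t and s are conjugate by an element of Ω exactly when the intersection of the images of t − 1 and s − 1 has even dimension (so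 the class of t in O meets at most two classes of Ω). -/
theorem result {F : Type*} [Field F] [Fintype F] [CharP F 2] {m : ℕ} (hm : 4 ≤ m) (t s : ↥(Cfsg.isometryGroup F (Cfsg.quadFormPlus m F))) (ht : orderOf t = 2) (hs : orderOf s = 2) (htO : t ∈ Cfsg.Omega F (Cfsg.quadFormPlus m F)) (hsO : s ∈ Cfsg.Omega F (Cfsg.quadFormPlus m F)) (hconj : IsConj t s) :
    (¬ (((((t : ↥(Cfsg.isometryGroup F (Cfsg.quadFormPlus m F))) : GL (Fin m ⊕ Fin m) F) : Matrix (Fin m ⊕ Fin m) (Fin m ⊕ Fin m) F) - 1).rank = m ∧ ∀ v : Fin m ⊕ Fin m → F, Cfsg.quadFormPlus m F (v + Matrix.mulVec (((t : ↥(Cfsg.isometryGroup F (Cfsg.quadFormPlus m F))) : GL (Fin m ⊕ Fin m) F) : Matrix (Fin m ⊕ Fin m) (Fin m ⊕ Fin m) F) v) = 0) →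
      ∃ g ∈ Cfsg.Omega F (Cfsg.quadFormPlus m F), g * t * g⁻¹ = s) ∧
    ((((((t : ↥(Cfsg.isometryGroup F (Cfsg.quadFormPlus m F))) : GL (Fin m ⊕ Fin m) F) : Matrix (Fin m ⊕ Fin m) (Fin m ⊕ Fin m) F) - 1).rank = m ∧ ∀ v : Fin m ⊕ Fin m → F, Cfsg.quadFormPlus m F (v + Matrix.mulVec (((t : ↥(Cfsg.isometryGroup F (Cfsg.quadFormPlus m F))) : GL (Fin m ⊕ Fin m) F) : Matrix (Fin m ⊕ Fin m) (Fin m ⊕ Fin m) F) v) = 0) →
      ((∃ g ∈ Cfsg.Omega F (Cfsg.quadFormPlus m F), g * t * g⁻¹ = s) ↔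
        Even (Module.finrank F ↥(LinearMap.range (Matrix.toLin' ((((t : ↥(Cfsg.isometryGroup F (Cfsg.quadFormPlus m F))) : GL (Fin m ⊕ Fin m) F) : Matrix (Fin m ⊕ Fin m) (Fin m ⊕ Fin m) F) - 1)) ⊓ LinearMap.range (Matrix.toLin' ((((s : ↥(Cfsg.isometryGroup F (Cfsg.quadFormPlus m F))) : GL (Fin m ⊕ Fin m) F) : Matrix (Fin m ⊕ Fin m) (Fin m ⊕ Fin m) F) - 1)))))) := by
  classical
  have h2 : (2 : F) = 0 := CharTwo.two_eq_zero
  have hq := coe_Qplus (F := F) m
  have hQ := Qplus_nondeg (F := F) m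
  have hV : finrank F (Fin m ⊕ Fin m → F) = 2 * m := by
    rw [Module.finrank_fintype_fun_eq_card]
    simp
    omega
  have hfin : Fintype.card F ≠ 2 ∨ finrank F (Fin m ⊕ Fin m → F) ≠ 4 := Or.inr (by omega)
  revert t s
  rw [← hq]
  intro t s ht hs htO hsO hconj
  obtain ⟨g, hg⟩ := exists_conj_of_isConj hconj
  have hrk : rk (toOG _ t) = (((t : Matrix.GeneralLinearGroup (Fin m ⊕ Fin m) F) : Matrix (Fin m ⊕ Fin m) (Fin m ⊕ Fin m) F) - 1).rank := rk_toOG _ t
  have hQv : ∀ v : Fin m ⊕ Fin m → F, (Qplus m F) (v + Matrix.mulVec ((t : Matrix.GeneralLinearGroup (Fin m ⊕ Fin m) F) : Matrix (Fin m ⊕ Fin m) (Fin m ⊕ Fin m) F) v) = (Qplus m F) ((toOG _ t).1 v - v) := by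
    intro v
    rw [vec_sub h2, toOG_apply, add_comm]
  constructor
  · intro hnot
    rcases exists_fixed_nonsing h2 hQ (toOG _ t) (toOG_mul_self ht) with ⟨u, hu, htu⟩ | ⟨h3, h4⟩
    · exact omega_of_OG (omega_conj_of_fixed h2 hQ hfin _ _ g hg hu htu)
    · exfalso
      apply hnot
      refine ⟨?_, fun v => by rw [hQv, h4]⟩
      rw [← hrk]
      omega
  · rintro ⟨h3, h4⟩ 
    have hL : IsLagr (Qplus m F) m (Rg (toOG _ t)) := by
      refine ⟨?_, ?_⟩
      · change rk _ = _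
        rw [hrk, h3]
      · intro w hw
        obtain ⟨a, rfl⟩ := mem_Rg.1 hw
        rw [← hQv, h4]
    have hm : Even m := by
      rw [← h3]
      exact (Cfsg.Agent.Lib.InvC2.mem_Omega_iff_rank _ h2 hQ hfin t).1 htO
    have h5 := omega_conj_lagr h2 hQ hfin hV hm _ _ g hg hL
    rw [Rg_toOG, Rg_toOG] at h5
    rw [← h5]
    exact ⟨fun h => OG_of_omega h, fun h => omega_of_OG h⟩

end Cfsg.Agent.S2172
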