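import Cfsg.Statements.S2173
import Mathlib
import Cfsg.Agent.Lib.InvC2.Split

set_option autoImplicit false
open Cfsg

open Cfsg.Agent.Lib.InvC2 Cfsg.Agent.Lib.Classical Cfsg.Agent.Lib.Classical.Abs Cfsg.Agent.Lib.Classical.Orth Cfsg.Agent.Lib.Known3.OmegaTrans Cfsg.Agent.Lib.Known3.OmegaCalc Cfsg.Agent.Lib.Known3.Spinor Module

namespace Cfsg.Agent.S2173


/-- For the quadratic form Σ x_i y_i + (z₁² + c z₁ z₂ + d z₂²) in dimension 2m with anisotropic binary part over a finite field F of characteristic two, m ≥ 4 (minus type): two involutions of the commutator subgroup Ω that are conjugate in the full isometry group O are conjugate by an element of Ω (no class of involutions of O inside Ω splits). -/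
theorem result {F : Type*} [Field F] [Fintype F] [CharP F 2] {m : ℕ} (hm : 4 ≤ m) (c d : F) (hcd : ∀ z₁ z₂ : F, z₁ ^ 2 + c * z₁ * z₂ + d * z₂ ^ 2 = 0 → z₁ = 0 ∧ z₂ = 0) (t s : ↥(Cfsg.isometryGroup F (Cfsg.quadFormMinus (m - 1) F c d))) (ht : orderOf t = 2) (hs : orderOf s = 2) (htO : t ∈ Cfsg.Omega F (Cfsg.quadFormMinus (m - 1) F c d)) (hsO : s ∈ Cfsg.Omega F (Cfsg.quadFormMinus (m - 1) F c d)) (hconj : IsConj t s) :
    ∃ g ∈ Cfsg.Omega F (Cfsg.quadFormMinus (m - 1) F c d), g * t * g⁻¹ = s := by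
  classical
  have h2 : (2 : F) = 0 := CharTwo.two_eq_zero
  have hm1 : 1 ≤ m := by omega
  have hq := coe_Qminus (F := F) (m - 1) c d
  have hQ := Qminus_nondeg hcd (m - 1)
  have hV : finrank F ((Fin (m - 1) ⊕ Fin (m - 1)) ⊕ Fin 2 → F) = 2 * m := by
    rw [Module.finrank_fintype_fun_eq_card]
    simp
    omega
  have hfin : Fintype.card F ≠ 2 ∨ finrank F ((Fin (m - 1) ⊕ Fin (m - 1)) ⊕ Fin 2 → F) ≠ 4 := Or.inr (by omega)
  revert t s
  rw [← hq]
  intro t s ht hs htO hsO hconj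
  obtain ⟨g, hg⟩ := exists_conj_of_isConj hconj
  rcases exists_fixed_nonsing h2 hQ (toOG _ t) (toOG_mul_self ht) with ⟨u, hu, htu⟩ | ⟨h3, h4⟩
  · exact omega_of_OG (omega_conj_of_fixed h2 hQ hfin _ _ g hg hu htu)
  · exfalso
    have h5 := Cfsg.Agent.Lib.Known3.Witt.finrank_le_of_singular_minus (m - 1) c d hcd (Rg (toOG _ t)) (by
      intro w hw
      obtain ⟨a, rfl⟩ := mem_Rg.1 hw
      rw [← hq]
      exact h4 a)
    have h6 : finrank F (Rg (toOG _ t)) = rk (toOG _ t) := rfl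
    omega

end Cfsg.Agent.S2173
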