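import Cfsg.Statements.S2178
import Mathlib
import Cfsg.Agent.Lib.BNSt.CentRoot
import Cfsg.Agent.Lib.Chev.T3F4

set_option autoImplicit false
open Cfsg

namespace Cfsg.Agent.S2178

open Cfsg.Agent.Lib.BNSt Cfsg.Agent.Lib.Chev

theorem chk47 : chkCR digF4.tbl 47 3 = true := by decide +kernel

theorem chk44 : chkCR digF4.tbl 44 0 = true := by decide +kernel

/-- Centralizers of the long and the short root involutions in the Chevalley group G of type F₄ over a finite field F of characteristic two (this problem's root numbering for type F₄, from the Chevalley data module: fundamental roots p₁, p₂ short, p₃, p₄ long, with indices 33, 27, 25, 24, their negatives 14, 20, 22, 23; highest root 47, highest short root 44; U the subgroup generated by the positive root subgroups). For an element t of G with matrix x_47(1): the centralizer of t in G is the subgroup generated by U and the root subgroups X_{−p₁}, X_{−p₂}, X_{−p₃} (the unipotent radical of the maximal parabolic subgroup whose Levi factor has fundamental roots p₁, p₂, p₃, together with that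 Levi factor's root subgroups; the Levi factor is of type C₃). For an element u of G with matrix x_44(1): the centralizer of u in G is generated by U and X_{−p₂}, X_{−p₃}, X_{−p₄} (the same construction for the Levi factor with fundamental roots p₂, p₃, p₄, of type B₃). -/
theorem result {F : Type*} [Field F] [Fintype F] [CharP F 2] (t u : GL Cfsg.Lie.chevF4.Idx F) (ht : (t : Matrix Cfsg.Lie.chevF4.Idx Cfsg.Lie.chevF4.Idx F) = Cfsg.Lie.chevF4.x F 47 1) (hu : (u : Matrix Cfsg.Lie.chevF4.Idx Cfsg.Lie.chevF4.Idx F) = Cfsg.Lie.chevF4.x F 44 1) :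
    Cfsg.Lie.chevF4.group F ⊓ Subgroup.centralizer {t} = Cfsg.Lie.chevF4.posUnipotent F ⊔ Cfsg.Lie.chevF4.rootSubgroup F 14 ⊔ Cfsg.Lie.chevF4.rootSubgroup F 20 ⊔ Cfsg.Lie.chevF4.rootSubgroup F 22 ∧
    Cfsg.Lie.chevF4.group F ⊓ Subgroup.centralizer {u} = Cfsg.Lie.chevF4.posUnipotent F ⊔ Cfsg.Lie.chevF4.rootSubgroup F 20 ⊔ Cfsg.Lie.chevF4.rootSubgroup F 22 ⊔ Cfsg.Lie.chevF4.rootSubgroup F 23 := by
  constructor
  · rw [cent_eq_of_chk good3F4 chk47 t ht]
    apply le_antisymm
    · refine (Subgroup.closure_le _).2 ?_
      rintro g ⟨r, c, hr | ⟨j, hj, hne, rfl⟩, e⟩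
      · exact Subgroup.mem_sup_left (Subgroup.mem_sup_left (Subgroup.mem_sup_left (Subgroup.subset_closure ⟨r, c, hr, e⟩)))
      · have hj' : j < 4 := hj
        interval_cases j
        · exact Subgroup.mem_sup_left (Subgroup.mem_sup_left (Subgroup.mem_sup_right (Subgroup.subset_closure ⟨c, e⟩)))
        · exact Subgroup.mem_sup_left (Subgroup.mem_sup_right (Subgroup.subset_closure ⟨c, e⟩))
        · exact Subgroup.mem_sup_right (Subgroup.subset_closure ⟨c, e⟩)
        · exact absurd rfl hne
    · refine sup_le (sup_le (sup_le (U_le_centK _) ?_) ?_) ?_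
      · refine (Subgroup.closure_le _).2 ?_
        rintro g ⟨c, e⟩
        exact Subgroup.subset_closure ⟨14, c, Or.inr ⟨0, by decide, by decide, by decide +kernel⟩, e⟩
      · refine (Subgroup.closure_le _).2 ?_
        rintro g ⟨c, e⟩
        exact Subgroup.subset_closure ⟨20, c, Or.inr ⟨1, by decide, by decide, by decide +kernel⟩, e⟩
      · refine (Subgroup.closure_le _).2 ?_
        rintro g ⟨c, e⟩
        exact Subgroup.subset_closure ⟨22, c, Or.inr ⟨2, by decide, by decide, by decide +kernel⟩, e⟩
  · rw [cent_eq_of_chk good3F4 chk44 u hu]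
    apply le_antisymm
    · refine (Subgroup.closure_le _).2 ?_
      rintro g ⟨r, c, hr | ⟨j, hj, hne, rfl⟩, e⟩
      · exact Subgroup.mem_sup_left (Subgroup.mem_sup_left (Subgroup.mem_sup_left (Subgroup.subset_closure ⟨r, c, hr, e⟩)))
      · have hj' : j < 4 := hj
        interval_cases j
        · exact absurd rfl hne
        · exact Subgroup.mem_sup_left (Subgroup.mem_sup_left (Subgroup.mem_sup_right (Subgroup.subset_closure ⟨c, e⟩)))
        · exact Subgroup.mem_sup_left (Subgroup.mem_sup_right (Subgroup.subset_closure ⟨c, e⟩))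
        · exact Subgroup.mem_sup_right (Subgroup.subset_closure ⟨c, e⟩)
    · refine sup_le (sup_le (sup_le (U_le_centK _) ?_) ?_) ?_
      · refine (Subgroup.closure_le _).2 ?_
        rintro g ⟨c, e⟩
        exact Subgroup.subset_closure ⟨20, c, Or.inr ⟨1, by decide, by decide, by decide +kernel⟩, e⟩
      · refine (Subgroup.closure_le _).2 ?_
        rintro g ⟨c, e⟩
        exact Subgroup.subset_closure ⟨22, c, Or.inr ⟨2, by decide, by decide, by decide +kernel⟩, e⟩
      · refine (Subgroup.closure_le _).2 ?_
        rintro g ⟨c, e⟩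
        exact Subgroup.subset_closure ⟨23, c, Or.inr ⟨3, by decide, by decide, by decide +kernel⟩, e⟩

end Cfsg.Agent.S2178
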