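import Cfsg.Statements.S2179
import Mathlib
import Cfsg.Agent.Lib.BNSt.CentTbl

set_option autoImplicit false
open Cfsg

namespace Cfsg.Agent.S2179

open Cfsg.Agent.Lib.BNSt Cfsg.Agent.Lib.Chev

/-- Centralizers of the two remaining classes of involutions in the Chevalley group G of type F₄ over a finite field F of characteristic two (this problem's root numbering for type F₄, from the Chevalley data module: p₁, p₂ short, p₃, p₄ long with indices 33, 27, 25, 24 and negatives 14, 20, 22, 23; U generated by the positive root subgroups). For an element of G with matrix x_47(1)x_44(1) (highest root times highest short root): its centralizer in G is generated by U, X_{−p₂} and X_{−p₃}. For an element of G with matrix x_39(1)x_45(1) (roots (1,2,2,1) and (2,4,2,1), an orthogonal short/long pair): its centralizer in G is generated by X_{p₁}, X_{−p₁}, X_{p₄}, X_{−p₄} and the root subgroups of all positive roots other than p₂ (27), p₃ (25), p₁ + p₂ (34) and p₃ + p₄ (26). -/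
theorem result {F : Type*} [Field F] [Fintype F] [CharP F 2] (w v : GL Cfsg.Lie.chevF4.Idx F) (hw : (w : Matrix Cfsg.Lie.chevF4.Idx Cfsg.Lie.chevF4.Idx F) = Cfsg.Lie.chevF4.x F 47 1 * Cfsg.Lie.chevF4.x F 44 1) (hv : (v : Matrix Cfsg.Lie.chevF4.Idx Cfsg.Lie.chevF4.Idx F) = Cfsg.Lie.chevF4.x F 39 1 * Cfsg.Lie.chevF4.x F 45 1) :
    Cfsg.Lie.chevF4.group F ⊓ Subgroup.centralizer {w} = Cfsg.Lie.chevF4.posUnipotent F ⊔ Cfsg.Lie.chevF4.rootSubgroup F 20 ⊔ Cfsg.Lie.chevF4.rootSubgroup F 22 ∧
    Cfsg.Lie.chevF4.group F ⊓ Subgroup.centralizer {v} = Cfsg.Lie.chevF4.rootSubgroup F 33 ⊔ Cfsg.Lie.chevF4.rootSubgroup F 14 ⊔ Cfsg.Lie.chevF4.rootSubgroup F 24 ⊔ Cfsg.Lie.chevF4.rootSubgroup F 23 ⊔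
      Subgroup.closure {g : GL Cfsg.Lie.chevF4.Idx F | ∃ (r : ℕ) (c : F), Cfsg.Lie.chevF4.IsPosRoot r ∧ r ∉ [27, 25, 34, 26] ∧ (g : Matrix Cfsg.Lie.chevF4.Idx Cfsg.Lie.chevF4.Idx F) = Cfsg.Lie.chevF4.x F r c} := by
  have hb := centHyp_of_chk good3F4 cgF4b1 cgF4b2 cgF4b3 cgF4b4 cgF4b5
  have ha := centHyp_of_chk good3F4 cgF4a1 cgF4a2 cgF4a3 cgF4a4 cgF4a5
  have h47 : (47 : ℕ) < Cfsg.Lie.chevF4.nroots := by decide +kernel
  have h44 : (44 : ℕ) < Cfsg.Lie.chevF4.nroots := by decide +kernel
  have h39 : (39 : ℕ) < Cfsg.Lie.chevF4.nroots := by decide +kernel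
  have h45 : (45 : ℕ) < Cfsg.Lie.chevF4.nroots := by decide +kernel
  have ew : w = tC good3F4 [47, 44] (fun _ => (1 : F)) := by
    apply Units.ext
    simp only [tC, List.map_cons, List.map_nil, List.prod_cons, List.prod_nil, mul_one]
    rw [xT_of_lt good3F4 h47, xT_of_lt good3F4 h44, Units.val_mul, Tbl.Good.xU_coe, Tbl.Good.xU_coe, hw]
  have ev : v = tC good3F4 [39, 45] (fun _ => (1 : F)) := by
    apply Units.ext
    simp only [tC, List.map_cons, List.map_nil, List.prod_cons, List.prod_nil, mul_one]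
    rw [xT_of_lt good3F4 h39, xT_of_lt good3F4 h45, Units.val_mul, Tbl.Good.xU_coe, Tbl.Good.xU_coe, hv]
  constructor
  · rw [cent_gen good3F4 hb w ew]
    apply le_antisymm
    · refine (Subgroup.closure_le _).2 ?_
      rintro g ⟨r, c, ⟨hr, -⟩ | ⟨j, hj, hlt, rfl⟩, e⟩
      · exact Subgroup.mem_sup_left (Subgroup.mem_sup_left (Subgroup.subset_closure ⟨r, c, hr, e⟩))
      · simp only [List.mem_cons, List.not_mem_nil, or_false] at hj
        rcases hj with rfl | rfl
        · exact Subgroup.mem_sup_left (Subgroup.mem_sup_right (Subgroup.subset_closure ⟨c, e⟩))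
        · exact Subgroup.mem_sup_right (Subgroup.subset_closure ⟨c, e⟩)
    · refine sup_le (sup_le ?_ ?_) ?_
      · refine (Subgroup.closure_le _).2 ?_
        rintro g ⟨r, c, hr, e⟩
        exact Subgroup.subset_closure ⟨r, c, Or.inl ⟨hr, by simp⟩, e⟩
      · refine (Subgroup.closure_le _).2 ?_
        rintro g ⟨c, e⟩
        exact Subgroup.subset_closure ⟨20, c, Or.inr ⟨1, by simp, by decide +kernel, by decide +kernel⟩, e⟩
      · refine (Subgroup.closure_le _).2 ?_
        rintro g ⟨c, e⟩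
        exact Subgroup.subset_closure ⟨22, c, Or.inr ⟨2, by simp, by decide +kernel, by decide +kernel⟩, e⟩
  · rw [cent_gen good3F4 ha v ev]
    apply le_antisymm
    · refine (Subgroup.closure_le _).2 ?_
      rintro g ⟨r, c, ⟨hr, hY⟩ | ⟨j, hj, hlt, rfl⟩, e⟩
      · refine Subgroup.mem_sup_right (Subgroup.subset_closure ⟨r, c, hr, ?_, e⟩)
        simp only [List.map_cons, List.map_nil, List.mem_cons, List.not_mem_nil, or_false, not_or] at hY ⊢
        tauto
      · simp only [List.mem_cons, List.not_mem_nil, or_false] at hj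
        rcases hj with rfl | rfl
        · exact Subgroup.mem_sup_left (Subgroup.mem_sup_left (Subgroup.mem_sup_left (Subgroup.mem_sup_right (Subgroup.subset_closure ⟨c, e⟩))))
        · exact Subgroup.mem_sup_left (Subgroup.mem_sup_right (Subgroup.subset_closure ⟨c, e⟩))
    · refine sup_le (sup_le (sup_le (sup_le ?_ ?_) ?_) ?_) ?_
      · refine (Subgroup.closure_le _).2 ?_
        rintro g ⟨c, e⟩
        exact Subgroup.subset_closure ⟨33, c, Or.inl ⟨by decide +kernel, by decide⟩, e⟩
      · refine (Subgroup.closure_le _).2 ?_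
        rintro g ⟨c, e⟩
        exact Subgroup.subset_closure ⟨14, c, Or.inr ⟨0, by simp, by decide +kernel, by decide +kernel⟩, e⟩
      · refine (Subgroup.closure_le _).2 ?_
        rintro g ⟨c, e⟩
        exact Subgroup.subset_closure ⟨24, c, Or.inl ⟨by decide +kernel, by decide⟩, e⟩
      · refine (Subgroup.closure_le _).2 ?_
        rintro g ⟨c, e⟩
        exact Subgroup.subset_closure ⟨23, c, Or.inr ⟨3, by simp, by decide +kernel, by decide +kernel⟩, e⟩
      · refine (Subgroup.closure_le _).2 ?_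
        rintro g ⟨r, c, hr, hY, e⟩
        exact Subgroup.subset_closure ⟨r, c, Or.inl ⟨hr, by
          simp only [List.map_cons, List.map_nil, List.mem_cons, List.not_mem_nil, or_false, not_or] at hY ⊢
          tauto⟩, e⟩

end Cfsg.Agent.S2179
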