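import Cfsg.Statements.S2180
import Mathlib
import Cfsg.Agent.Lib.BNSt.CentTbl

set_option autoImplicit false
open Cfsg

namespace Cfsg.Agent.S2180

open Cfsg.Agent.Lib.BNSt Cfsg.Agent.Lib.Chev

/-- Centralizers of involutions in the Chevalley group G of type G₂ over a finite field F of characteristic two with at least four elements (this problem's root numbering for type G₂, from the Chevalley data module: a = p₁ short with index 7, b = p₂ long with index 6, −a = 4, −b = 5, 2a + b = 9, 3a + b = 10, 3a + 2b = 11; U generated by the positive root subgroups). For an element z of G with matrix x_{3a+2b}(1): the centralizer of z in G is generated by U and X_{−a}. For an element t of G with matrix x_{2a+b}(1): the centralizer of t in G is generated by X_{2a+b}, X_{3a+b}, X_{3a+2b}, X_b and X_{−b}. -/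
theorem result {F : Type*} [Field F] [Fintype F] [CharP F 2] (hF : 4 ≤ Fintype.card F) (z t : GL Cfsg.Lie.chevG2.Idx F) (hz : (z : Matrix Cfsg.Lie.chevG2.Idx Cfsg.Lie.chevG2.Idx F) = Cfsg.Lie.chevG2.x F 11 1) (ht : (t : Matrix Cfsg.Lie.chevG2.Idx Cfsg.Lie.chevG2.Idx F) = Cfsg.Lie.chevG2.x F 9 1) :
    Cfsg.Lie.chevG2.group F ⊓ Subgroup.centralizer {z} = Cfsg.Lie.chevG2.posUnipotent F ⊔ Cfsg.Lie.chevG2.rootSubgroup F 4 ∧
    Cfsg.Lie.chevG2.group F ⊓ Subgroup.centralizer {t} = Cfsg.Lie.chevG2.rootSubgroup F 9 ⊔ Cfsg.Lie.chevG2.rootSubgroup F 10 ⊔ Cfsg.Lie.chevG2.rootSubgroup F 11 ⊔ Cfsg.Lie.chevG2.rootSubgroup F 6 ⊔ Cfsg.Lie.chevG2.rootSubgroup F 5 := by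
  have ha := centHyp_of_chk good3G2 cgG2a1 cgG2a2 cgG2a3 cgG2a4 cgG2a5
  have h9 : (9 : ℕ) < Cfsg.Lie.chevG2.nroots := by decide +kernel
  have ev : t = tC good3G2 [9] (fun _ => (1 : F)) := by
    apply Units.ext
    simp only [tC, List.map_cons, List.map_nil, List.prod_cons, List.prod_nil, mul_one]
    rw [xT_of_lt good3G2 h9, Tbl.Good.xU_coe, ht]
  constructor
  · rw [cent_eq_of_chk good3G2 cgG2b z hz]
    apply le_antisymm
    · refine (Subgroup.closure_le _).2 ?_
      rintro g ⟨r, c, hr | ⟨j, hj, hne, rfl⟩, e⟩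
      · exact Subgroup.mem_sup_left (Subgroup.subset_closure ⟨r, c, hr, e⟩)
      · have hj' : j < 2 := hj
        interval_cases j
        · exact Subgroup.mem_sup_right (Subgroup.subset_closure ⟨c, e⟩)
        · exact absurd rfl hne
    · refine sup_le (U_le_centK _) ?_
      · refine (Subgroup.closure_le _).2 ?_
        rintro g ⟨c, e⟩
        exact Subgroup.subset_closure ⟨4, c, Or.inr ⟨0, by decide, by decide, by decide +kernel⟩, e⟩
  · rw [cent_gen good3G2 ha t ev]
    apply le_antisymm
    · refine (Subgroup.closure_le _).2 ?_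
      rintro g ⟨r, c, ⟨hr, hY⟩ | ⟨j, hj, hlt, rfl⟩, e⟩
      · have hr' : r < 12 := hr.1
        have hr2 : 6 ≤ r := (good3G2.isPos_iff hr.1).1 hr
        simp only [List.map_cons, List.map_nil, List.mem_cons, List.not_mem_nil, or_false, not_or] at hY
        obtain ⟨h7, h8⟩ := hY
        have hc : r = 6 ∨ r = 9 ∨ r = 10 ∨ r = 11 := by omega
        rcases hc with rfl | rfl | rfl | rfl
        · exact Subgroup.mem_sup_left (Subgroup.mem_sup_right (Subgroup.subset_closure ⟨c, e⟩))
        · exact Subgroup.mem_sup_left (Subgroup.mem_sup_left (Subgroup.mem_sup_left (Subgroup.mem_sup_left (Subgroup.subset_closure ⟨c, e⟩))))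
        · exact Subgroup.mem_sup_left (Subgroup.mem_sup_left (Subgroup.mem_sup_left (Subgroup.mem_sup_right (Subgroup.subset_closure ⟨c, e⟩))))
        · exact Subgroup.mem_sup_left (Subgroup.mem_sup_left (Subgroup.mem_sup_right (Subgroup.subset_closure ⟨c, e⟩)))
      · simp only [List.mem_cons, List.not_mem_nil, or_false] at hj
        subst hj
        exact Subgroup.mem_sup_right (Subgroup.subset_closure ⟨c, e⟩)
    · refine sup_le (sup_le (sup_le (sup_le ?_ ?_) ?_) ?_) ?_
      · refine (Subgroup.closure_le _).2 ?_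
        rintro g ⟨c, e⟩
        exact Subgroup.subset_closure ⟨9, c, Or.inl ⟨by decide +kernel, by decide⟩, e⟩
      · refine (Subgroup.closure_le _).2 ?_
        rintro g ⟨c, e⟩
        exact Subgroup.subset_closure ⟨10, c, Or.inl ⟨by decide +kernel, by decide⟩, e⟩
      · refine (Subgroup.closure_le _).2 ?_
        rintro g ⟨c, e⟩
        exact Subgroup.subset_closure ⟨11, c, Or.inl ⟨by decide +kernel, by decide⟩, e⟩
      · refine (Subgroup.closure_le _).2 ?_
        rintro g ⟨c, e⟩
        exact Subgroup.subset_closure ⟨6, c, Or.inl ⟨by decide +kernel, by decide⟩, e⟩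
      · refine (Subgroup.closure_le _).2 ?_
        rintro g ⟨c, e⟩
        exact Subgroup.subset_closure ⟨5, c, Or.inr ⟨1, by simp, by decide +kernel, by decide +kernel⟩, e⟩

end Cfsg.Agent.S2180
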