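import Cfsg.Statements.S2184
import Mathlib
import Cfsg.Agent.Lib.Coll.ReeH

set_option autoImplicit false
open Cfsg

namespace Cfsg.Agent.S2184

/-- The twisted group ²F₄(q), q = 2^(2m+1) with m ≥ 0 (realised inside the Chevalley group of type F₄ over the field K with q elements, θ the 2^m-th power map), has exactly two conjugacy classes of elements of order 2; and so does the Tits group, the commutator subgroup of ²F₄(2). -/
theorem result {K : Type*} [Field K] [Fintype K] (m : ℕ) (hK : Fintype.card K = 2 ^ (2 * m + 1)) :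
    (ConjClasses.mk '' {g : ↥(Cfsg.Lie.twistedF4 K (2 ^ m)) | orderOf g = 2}).ncard = 2 ∧ (ConjClasses.mk '' {g : Cfsg.Lie.TitsGroup | orderOf g = 2}).ncard = 2 := by
  haveI := Cfsg.Agent.Lib.Chev.charF4 hK
  obtain ⟨hperf, φ, hq, hφ, heq⟩ := Cfsg.Agent.Lib.Chev.setupF4 hK
  constructor
  · have key : ∀ H : Subgroup (GL Cfsg.Lie.chevF4.Idx K), H = (Cfsg.Agent.Lib.Chev.twF4 hperf φ).fix →
        (ConjClasses.mk '' {g : ↥H | orderOf g = 2}).ncard = 2 := by
      rintro H rfl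
      exact Cfsg.Agent.Lib.Chev.count_fix hperf φ hK hφ
    exact key _ heq
  · have h2 : Fintype.card (ZMod 2) = 2 ^ (2 * 0 + 1) := by simp
    have hφ2 : ∀ x : ZMod 2, (RingEquiv.refl (ZMod 2)) ((RingEquiv.refl (ZMod 2)) (x ^ 2)) = x := by decide
    have hperf2 : ∀ x : ZMod 2, ∃ y : ZMod 2, y ^ 2 = x := by decide
    have hq2 : ∀ x : ZMod 2, (RingEquiv.refl (ZMod 2)) x = x ^ 1 := by simp
    have heq2 := Cfsg.Agent.Lib.Chev.twistedF4_eq hperf2 (RingEquiv.refl (ZMod 2)) hq2 hφ2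
    have key : ∀ H : Subgroup (GL Cfsg.Lie.chevF4.Idx (ZMod 2)), H = (Cfsg.Agent.Lib.Chev.twF4 hperf2 (RingEquiv.refl (ZMod 2))).fix →
        (ConjClasses.mk '' {g : ↥(commutator ↥H) | orderOf g = 2}).ncard = 2 := by
      rintro H rfl
      exact Cfsg.Agent.Lib.Chev.count_tits hperf2 (RingEquiv.refl (ZMod 2)) h2 hφ2 (by decide)
    exact key _ heq2

end Cfsg.Agent.S2184
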