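import Cfsg.Statements.S2185
import Mathlib
import Cfsg.Agent.Lib.Coll.ReeH

set_option autoImplicit false
open Cfsg

namespace Cfsg.Agent.S2185

/-- In the group ²F₄(2) (realised inside the Chevalley group of type F₄ over the field with two elements, θ the identity) every element of order 2 lies in the commutator subgroup (the Tits group, of index 2): there are no involutions outside it. -/
theorem result (g : ↥(Cfsg.Lie.twistedF4 (ZMod 2) 1)) (hg : orderOf g = 2) :
    g ∈ commutator ↥(Cfsg.Lie.twistedF4 (ZMod 2) 1) := by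
  have h2 : Fintype.card (ZMod 2) = 2 ^ (2 * 0 + 1) := by simp
  have hφ2 : ∀ x : ZMod 2, (RingEquiv.refl (ZMod 2)) ((RingEquiv.refl (ZMod 2)) (x ^ 2)) = x := by decide
  have hperf2 : ∀ x : ZMod 2, ∃ y : ZMod 2, y ^ 2 = x := by decide
  have hq2 : ∀ x : ZMod 2, (RingEquiv.refl (ZMod 2)) x = x ^ 1 := by simp
  have heq2 := Cfsg.Agent.Lib.Chev.twistedF4_eq hperf2 (RingEquiv.refl (ZMod 2)) hq2 hφ2
  have key : ∀ H : Subgroup (GL Cfsg.Lie.chevF4.Idx (ZMod 2)), H = (Cfsg.Agent.Lib.Chev.twF4 hperf2 (RingEquiv.refl (ZMod 2))).fix →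
      ∀ g : ↥H, orderOf g = 2 → g ∈ commutator ↥H := by
    rintro H rfl g hg
    exact Cfsg.Agent.Lib.Chev.invol_mem_commutator hperf2 (RingEquiv.refl (ZMod 2)) h2 hφ2 g hg
  exact key _ heq2 g hg

end Cfsg.Agent.S2185
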