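import Cfsg.Statements.S2186
import Mathlib
import Cfsg.Agent.Lib.ChevAut.LongPairT

set_option autoImplicit false
open Cfsg

namespace Cfsg.Agent.S2186

/-- Let G be the Chevalley group of type G₂ (over a field with at least four elements), D₄, E₆, E₇ or E₈ over a finite field F of characteristic two, and let X be the root subgroup of the highest root (the last root index) — a long root subgroup, of order |F|. For every g in G, the subgroup generated by X and its conjugate g X g⁻¹ is either a 2-group or is conjugate by an element of G to the subgroup generated by X and the root subgroup of the lowest root (index 0, the negative of the highest root), which is a copy of SL₂(F). -/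
theorem result {F : Type*} [Field F] [Fintype F] [CharP F 2] (D : Cfsg.Lie.ChevalleyDatum) (hD : D ∈ [Cfsg.Lie.chevG2, Cfsg.Lie.chevD4, Cfsg.Lie.chevE6, Cfsg.Lie.chevE7, Cfsg.Lie.chevE8]) (hF : D = Cfsg.Lie.chevG2 → 4 ≤ Fintype.card F) (g : GL D.Idx F) (hg : g ∈ D.group F) :
    IsPGroup 2 ↥(D.rootSubgroup F (D.nroots - 1) ⊔ (D.rootSubgroup F (D.nroots - 1)).map (MulAut.conj g).toMonoidHom) ∨
    ∃ h ∈ D.group F, (D.rootSubgroup F (D.nroots - 1) ⊔ (D.rootSubgroup F (D.nroots - 1)).map (MulAut.conj g).toMonoidHom).map (MulAut.conj h).toMonoidHom = D.rootSubgroup F (D.nroots - 1) ⊔ D.rootSubgroup F 0 := by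
  haveI : Fact (Nat.Prime 2) := ⟨Nat.prime_two⟩
  have key : ∀ (D : Cfsg.Lie.ChevalleyDatum) (T : Cfsg.Agent.Lib.Chev.Tbl) (hG : T.Good2 D)
      (hzero : D.neg (D.nroots - 1) = 0) (hlt : D.nroots - 1 < D.nroots) (hp : D.nroots / 2 ≤ D.nroots - 1)
      (htop : ∀ s, s < D.nroots → D.nroots / 2 ≤ s → s ≠ D.nroots - 1 → (D.commTerms (D.nroots - 1) s).isEmpty = true)
      (hw : ∀ s, s < D.nroots → s ≠ D.neg (D.nroots - 1) → ∃ l : List ℕ, (∀ i ∈ l, i < D.rank) ∧
        D.nroots / 2 ≤ Cfsg.Agent.Lib.Chev.wperm T l (D.nroots - 1) ∧ D.nroots / 2 ≤ Cfsg.Agent.Lib.Chev.wperm T l s)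
      (g : GL D.Idx F) (hg : g ∈ D.group F),
      IsPGroup 2 ↥(D.rootSubgroup F (D.nroots - 1) ⊔ (D.rootSubgroup F (D.nroots - 1)).map (MulAut.conj g).toMonoidHom) ∨
      ∃ h ∈ D.group F, (D.rootSubgroup F (D.nroots - 1) ⊔ (D.rootSubgroup F (D.nroots - 1)).map (MulAut.conj g).toMonoidHom).map (MulAut.conj h).toMonoidHom = D.rootSubgroup F (D.nroots - 1) ⊔ D.rootSubgroup F 0 := by
    intro D T hG hzero hlt hp htop hw g hg
    have h := hG.root_pair_p (p := 2) hlt hp (fun s h1 h2 h3 => List.isEmpty_iff.1 (htop s h1 h2 h3)) hw hg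
    rwa [hzero] at h
  simp only [List.mem_cons, List.not_mem_nil, or_false] at hD
  rcases hD with rfl | rfl | rfl | rfl | rfl
  · exact key _ _ Cfsg.Agent.Lib.Chev.good2G2 (by decide +kernel) (by decide +kernel) (by decide +kernel) Cfsg.Agent.Lib.Chev.topG2_nil
      (fun s h1 h2 => ⟨_, Cfsg.Agent.Lib.Chev.pairWordsG2_spec s h1 h2⟩) g hg
  · exact key _ _ Cfsg.Agent.Lib.Chev.good2D4 (by decide +kernel) (by decide +kernel) (by decide +kernel) Cfsg.Agent.Lib.Chev.topD4_nil
      (fun s h1 h2 => ⟨_, Cfsg.Agent.Lib.Chev.pairWordsD4_spec s h1 h2⟩) g hg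
  · exact key _ _ Cfsg.Agent.Lib.Chev.good2E6 (by decide +kernel) (by decide +kernel) (by decide +kernel) Cfsg.Agent.Lib.Chev.topE6_nil
      (fun s h1 h2 => ⟨_, Cfsg.Agent.Lib.Chev.pairWordsE6_spec s h1 h2⟩) g hg
  · exact key _ _ Cfsg.Agent.Lib.Chev.good2E7 (by decide +kernel) (by decide +kernel) (by decide +kernel) Cfsg.Agent.Lib.Chev.topE7_nil
      (fun s h1 h2 => ⟨_, Cfsg.Agent.Lib.Chev.pairWordsE7_spec s h1 h2⟩) g hg
  · exact key _ _ Cfsg.Agent.Lib.Chev.good2E8 (by decide +kernel) (by decide +kernel) (by decide +kernel) Cfsg.Agent.Lib.Chev.topE8_nil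
      (fun s h1 h2 => ⟨_, Cfsg.Agent.Lib.Chev.pairWordsE8_spec s h1 h2⟩) g hg

end Cfsg.Agent.S2186
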