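import Cfsg.Statements.S2202
import Mathlib
import Cfsg.Agent.Lib.InvCent.Final

set_option autoImplicit false
open Cfsg

namespace Cfsg.Agent.S2202

/-- Finite groups in which the centralizer of every involution is abelian. Let G be a finite group of even order in which the centralizer of every element of order 2 is abelian. Then the Sylow 2-subgroups of G are cyclic, or a Sylow 2-subgroup of G is normal, or G is isomorphic to the direct product of SL₂(F) for a finite field F of characteristic two and an abelian group of odd order. -/
theorem result {G : Type*} [Group G] [Finite G] (heven : Even (Nat.card G)) (h : ∀ t : G, orderOf t = 2 → IsMulCommutative ↥(Subgroup.centralizer ({t} : Set G))) :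
    (∀ P : Sylow 2 G, IsCyclic ↥P) ∨ (∀ P : Sylow 2 G, (P : Subgroup G).Normal) ∨
    (∃ (F : Type) (_ : Field F) (_ : Fintype F) (A : Type) (_ : CommGroup A) (_ : Finite A), CharP F 2 ∧ Odd (Nat.card A) ∧ Nonempty (G ≃* Matrix.SpecialLinearGroup (Fin 2) F × A)) := by
  rcases Cfsg.Agent.Lib.InvCent.hyp_or heven h with h1 | h1 | h1
  · exact Or.inl h1
  · exact Or.inr (Or.inl h1)
  · obtain ⟨F, iF, iT, f, A, iA, iFA, -, -, hc, hodd, hiso⟩ := h1.main
    exact Or.inr (Or.inr ⟨F, iF, iT, A, iA, iFA, hc, hodd, hiso⟩)

end Cfsg.Agent.S2202
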