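import Cfsg.Statements.S2209
import Mathlib
import Cfsg.Agent.Lib.BNSt.CentRoot
import Cfsg.Agent.Lib.Chev.T3E6
import Cfsg.Agent.Lib.Chev.T3E7
import Cfsg.Agent.Lib.Chev.T3E8

set_option autoImplicit false
open Cfsg

namespace Cfsg.Agent.S2209

open Cfsg.Agent.Lib.BNSt Cfsg.Agent.Lib.Chev

theorem chkE6 : chkCR digE6.tbl 71 1 = true := by decide +kernel

theorem chkE7 : chkCR digE7.tbl 125 0 = true := by decide +kernel

theorem chkE8 : chkCR digE8.tbl 239 7 = true := by decide +kernel

lemma aux {F : Type*} [Field F] [CharP F 2] {D : Cfsg.Lie.ChevalleyDatum} {T : Tbl} (hG : T.Good3 D) {s i₀ : ℕ}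
    (h : chkCR T s i₀ = true) (L : List ℕ)
    (hL1 : ∀ x ∈ L, ∃ j < D.rank, j ≠ i₀ ∧ x = D.neg (D.simple j))
    (hL2 : ∀ j < D.rank, j ≠ i₀ → D.neg (D.simple j) ∈ L)
    (t : GL D.Idx F) (ht : (t : Matrix D.Idx D.Idx F) = D.x F s 1) :
    D.group F ⊓ Subgroup.centralizer {t} = D.posUnipotent F ⊔
      Subgroup.closure {g : GL D.Idx F | ∃ s ∈ L, ∃ c : F, (g : Matrix D.Idx D.Idx F) = D.x F s c} := by
  rw [cent_eq_of_chk hG h t ht]
  apply le_antisymm
  · refine (Subgroup.closure_le _).2 ?_
    rintro g ⟨r, c, hr | ⟨j, hj, hne, rfl⟩, e⟩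
    · exact Subgroup.mem_sup_left (Subgroup.subset_closure ⟨r, c, hr, e⟩)
    · exact Subgroup.mem_sup_right (Subgroup.subset_closure ⟨_, hL2 j hj hne, c, e⟩)
  · refine sup_le (U_le_centK _) ?_
    refine (Subgroup.closure_le _).2 ?_
    rintro g ⟨x, hx, c, e⟩
    obtain ⟨j, hj, hne, rfl⟩ := hL1 x hx
    exact Subgroup.subset_closure ⟨_, c, Or.inr ⟨j, hj, hne, rfl⟩, e⟩

/-- Centralizer of a long root involution in the Chevalley groups of type E₆, E₇, E₈ over a finite field F of characteristic two. Let G be the group generated by the root elements, U the subgroup generated by the positive root subgroups, r the highest root (the last root index: 71, 125, 239 respectively), and t the element of G with matrix x_r(1). Then the centralizer of t in G is the subgroup generated by U together with the root subgroups X_{−p} for the fundamental roots p orthogonal to r — all fundamental roots except p₂ for E₆, except p₁ for E₇, except p₈ for E₈ (numbering with p₁–p₃–p₄–…–p_l the long chain and p₂ joined to p₄); the indices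 of these negative fundamental roots are 15, 29, 32, 34, 35 (E₆), 47, 52, 56, 59, 61, 62 (E₇), 77, 98, 104, 109, 113, 116, 118 (E₈). (This is the unipotent radical of the corresponding maximal parabolic subgroup extended by the root subgroups of its Levi factor, of type A₅, D₆, E₇ respectively.) -/
theorem result {F : Type*} [Field F] [Fintype F] [CharP F 2] (d : Cfsg.Lie.ChevalleyDatum × List ℕ)
    (hd : d ∈ [(Cfsg.Lie.chevE6, [15, 29, 32, 34, 35]), (Cfsg.Lie.chevE7, [47, 52, 56, 59, 61, 62]), (Cfsg.Lie.chevE8, [77, 98, 104, 109, 113, 116, 118])])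
    (t : GL d.1.Idx F) (ht : (t : Matrix d.1.Idx d.1.Idx F) = d.1.x F (d.1.nroots - 1) 1) :
    d.1.group F ⊓ Subgroup.centralizer {t} = d.1.posUnipotent F ⊔ Subgroup.closure {g : GL d.1.Idx F | ∃ s ∈ d.2, ∃ c : F, (g : Matrix d.1.Idx d.1.Idx F) = d.1.x F s c} := by
  simp only [List.mem_cons, List.not_mem_nil, or_false] at hd
  rcases hd with rfl | rfl | rfl
  · exact aux good3E6 chkE6 _ (by decide +kernel) (by decide +kernel) t ht
  · exact aux good3E7 chkE7 _ (by decide +kernel) (by decide +kernel) t ht
  · exact aux good3E8 chkE8 _ (by decide +kernel) (by decide +kernel) t ht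

end Cfsg.Agent.S2209
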