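import Cfsg.Statements.S2231
import Mathlib
import Cfsg.Agent.Lib.KnownSimple.PAbelian

set_option autoImplicit false
open Cfsg
open Cfsg.Agent.Lib.KnownSimple

namespace Cfsg.Agent.S2231

/-- Let p be an odd prime and K a finite field of characteristic p. Then Qd(p) (the natural semidirect product of an elementary abelian group of order p² by SL₂(p)) is not involved in the projective special linear group PSL₂(K). -/
theorem result {p : ℕ} [Fact p.Prime] (hp : p ≠ 2) {K : Type*} [Field K] [Fintype K] [CharP K p] : ¬ Cfsg.Involves ↥(Cfsg.qd p) (Matrix.ProjectiveSpecialLinearGroup (Fin 2) K) := by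
  classical
  rintro ⟨K', R, hR, ⟨e⟩⟩
  have : Finite (Matrix.SpecialLinearGroup (Fin 2) K) := inferInstance
  have h1 := allPAb_SL2 (p := p) (K := K)
  let π : Matrix.SpecialLinearGroup (Fin 2) K →* Matrix.ProjectiveSpecialLinearGroup (Fin 2) K :=
    QuotientGroup.mk' _
  have h2 : AllPAb p (Matrix.ProjectiveSpecialLinearGroup (Fin 2) K) :=
    AllPAb.of_surjective π (QuotientGroup.mk'_surjective _) h1
  have : Finite (Matrix.ProjectiveSpecialLinearGroup (Fin 2) K) :=
    Finite.of_surjective π (QuotientGroup.mk'_surjective _)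
  have h3 : AllPAb p K' := AllPAb.of_injective K'.subtype K'.subtype_injective h2
  have h4 : AllPAb p (K' ⧸ R.subgroupOf K') :=
    AllPAb.of_surjective (QuotientGroup.mk' _) (QuotientGroup.mk'_surjective _) h3
  have h5 : AllPAb p (Cfsg.qd p) :=
    AllPAb.of_surjective e.toMonoidHom e.surjective h4
  exact not_allPAb_qd p h5

end Cfsg.Agent.S2231
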