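import Mathlib
import Cfsg.Statements.S2232
import Cfsg.Agent.Lib.Classical.UnitaryCenter

set_option autoImplicit false
open Cfsg
open scoped Pointwise

namespace Cfsg.Agent.S2232

section abstract

/-- Trivial-intersection property of Sylow subgroups, stated for all nontrivial `p`-subgroups. -/
def SylTI (p : ℕ) (G : Type*) [Group G] : Prop :=
  ∀ T : Subgroup G, T ≠ ⊥ → IsPGroup p T → ∀ S₁ S₂ : Sylow p G,
    T ≤ (S₁ : Subgroup G) → T ≤ (S₂ : Subgroup G) → S₁ = S₂

variable {p : ℕ} [hp : Fact p.Prime]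

omit hp in

theorem sylTI_subgroup {G : Type*} [Group G] [Finite G] (h : SylTI p G) (K : Subgroup G) :
    SylTI p K := by
  intro T hT hTp S₁ S₂ h1 h2
  have hmap : T.map K.subtype ≠ ⊥ := by
    intro hb
    apply hT
    rw [Subgroup.map_eq_bot_iff_of_injective _ K.subtype_injective] at hb
    exact hb
  obtain ⟨U₁, hU₁⟩ := (S₁.isPGroup'.map K.subtype).exists_le_sylow
  obtain ⟨U₂, hU₂⟩ := (S₂.isPGroup'.map K.subtype).exists_le_sylow
  have hTp' : IsPGroup p (T.map K.subtype) := hTp.map K.subtype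
  have e : U₁ = U₂ := h _ hmap hTp' U₁ U₂
    ((Subgroup.map_mono h1).trans hU₁) ((Subgroup.map_mono h2).trans hU₂)
  subst e
  have hQ : IsPGroup p (U₁.toSubgroup.comap K.subtype) :=
    U₁.isPGroup'.comap_of_injective K.subtype K.subtype_injective
  have e1 : U₁.toSubgroup.comap K.subtype = S₁ :=
    S₁.is_maximal' hQ (Subgroup.map_le_iff_le_comap.mp hU₁)
  have e2 : U₁.toSubgroup.comap K.subtype = S₂ :=
    S₂.is_maximal' hQ (Subgroup.map_le_iff_le_comap.mp hU₂)
  exact Sylow.ext (e1.symm.trans e2)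

/-- The core group theory: a surjection from a group with the TI property onto `X`, where `X` has a
nontrivial normal `p`-subgroup, forces all `p`-power-torsion elements of `X` into one `p`-subgroup. -/
theorem section_core {H X : Type*} [Group H] [Finite H] [Group X] (hTI : SylTI p H)
    (f : H →* X) (hf : Function.Surjective f) (V₀ : Subgroup X) [hV : V₀.Normal]
    (hVp : IsPGroup p V₀) (hV1 : V₀ ≠ ⊥) :
    ∃ P : Subgroup X, IsPGroup p P ∧ ∀ (x : X) (k : ℕ), x ^ (p ^ k) = 1 → x ∈ P := by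
  classical
  have : Finite X := Finite.of_surjective f hf
  let L : Subgroup H := V₀.comap f
  have hLn : L.Normal := Subgroup.Normal.comap hV f
  let W : Sylow p L := Sylow.nonempty.some
  let W₀ : Subgroup H := (W : Subgroup L).map L.subtype
  have hW₀p : IsPGroup p W₀ := W.isPGroup'.map L.subtype
  -- W₀ is nontrivial
  have hW₀ : W₀ ≠ ⊥ := by
    intro hb
    have hW1 : (W : Subgroup L) = ⊥ := by
      rwa [Subgroup.map_eq_bot_iff_of_injective _ L.subtype_injective] at hb
    have hind := W.not_dvd_index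
    rw [hW1, Subgroup.index_bot] at hind
    -- V₀ is a nontrivial p-group, an image of L
    have hV2 : Nontrivial V₀ := (Subgroup.nontrivial_iff_ne_bot V₀).2 hV1
    have hdv : p ∣ Nat.card V₀ := by
      obtain ⟨n, hn⟩ := IsPGroup.iff_card.mp hVp
      rw [hn]
      have hn0 : n ≠ 0 := by
        rintro rfl
        rw [pow_zero] at hn
        exact (Finite.one_lt_card (α := V₀)).ne' hn
      exact dvd_pow_self p hn0
    let g : L →* V₀ := (f.comp L.subtype).codRestrict V₀ (fun x => x.2)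
    have hg : Function.Surjective g := by
      intro v
      obtain ⟨h, hh⟩ := hf v.1
      have hhL : h ∈ L := by
        change f h ∈ V₀
        rw [hh]; exact v.2
      exact ⟨⟨h, hhL⟩, Subtype.ext hh⟩
    exact hind (hdv.trans (Subgroup.card_dvd_of_surjective g hg))
  obtain ⟨S, hS⟩ := hW₀p.exists_le_sylow
  -- the normalizer of W₀ normalizes S
  have hN : Subgroup.normalizer (W₀ : Set H) ≤ Subgroup.normalizer ((S : Subgroup H) : Set H) := by
    intro g hg
    have h1 : g • S = S := by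
      apply hTI W₀ hW₀ hW₀p
      · intro x hx
        rw [Sylow.coe_subgroup_smul, Subgroup.mem_pointwise_smul_iff_inv_smul_mem]
        apply hS
        have := (Subgroup.mem_normalizer_iff.1 (inv_mem hg) x).1 hx
        simpa [MulAut.smul_def, MulAut.conj_apply] using this
      · exact hS
    exact Sylow.smul_eq_iff_mem_normalizer.mp h1
  have hFr : Subgroup.normalizer (W₀ : Set H) ⊔ L = ⊤ := Sylow.normalizer_sup_eq_top W
  let P : Subgroup X := (S : Subgroup H).map f ⊔ V₀
  have hPp : IsPGroup p P := (S.isPGroup'.map f).to_sup_of_normal_right hVp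
  have hPn : P.Normal := by
    refine ⟨fun n hn x => ?_⟩
    obtain ⟨h, rfl⟩ := hf x
    have hh : h ∈ Subgroup.normalizer ((S : Subgroup H) : Set H) ⊔ L := by
      have : Subgroup.normalizer (W₀ : Set H) ⊔ L ≤ Subgroup.normalizer ((S : Subgroup H) : Set H) ⊔ L :=
        sup_le_sup_right hN L
      exact this (hFr ▸ Subgroup.mem_top h)
    -- reduce: the set of h such that f h normalizes P is a subgroup containing the generators
    have key : Subgroup.normalizer ((S : Subgroup H) : Set H) ⊔ L ≤ (Subgroup.normalizer (P : Set X)).comap f := by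
      refine sup_le ?_ ?_
      · intro a ha
        rw [Subgroup.mem_comap, Subgroup.mem_normalizer_iff]
        intro y
        have ha2 : ∀ z, z ∈ (S : Subgroup H).map f → f a * z * (f a)⁻¹ ∈ (S : Subgroup H).map f := by
          rintro z ⟨s, hs, rfl⟩
          refine ⟨a * s * a⁻¹, (Subgroup.mem_normalizer_iff.1 ha s).1 hs, by simp⟩
        have ha3 : ∀ z, z ∈ (S : Subgroup H).map f → (f a)⁻¹ * z * (f a) ∈ (S : Subgroup H).map f := by
          rintro z ⟨s, hs, rfl⟩
          refine ⟨a⁻¹ * s * a, ?_, by simp⟩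
          have h' : a⁻¹ * s * a⁻¹⁻¹ ∈ (S : Subgroup H) := (Subgroup.mem_normalizer_iff.1 (inv_mem ha) s).1 hs
          rw [inv_inv] at h'
          exact h'
        have up : P ≤ P.comap (MulAut.conj (f a)).toMonoidHom := by
          refine sup_le ?_ ?_
          · intro z hz
            exact Subgroup.mem_sup_left (ha2 z hz)
          · intro z hz
            exact Subgroup.mem_sup_right (hV.conj_mem z hz (f a))
        have dn : P ≤ P.comap (MulAut.conj (f a)⁻¹).toMonoidHom := by
          refine sup_le ?_ ?_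
          · intro z hz
            have := ha3 z hz
            refine Subgroup.mem_sup_left ?_
            simpa [MulAut.conj_apply] using this
          · intro z hz
            refine Subgroup.mem_sup_right ?_
            have := hV.conj_mem z hz (f a)⁻¹
            simpa [MulAut.conj_apply] using this
        constructor
        · intro hy; exact up hy
        · intro hy
          have := dn hy
          simpa [MulAut.conj_apply, mul_assoc] using this
      · intro a ha
        rw [Subgroup.mem_comap, Subgroup.mem_normalizer_iff]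
        have ha' : f a ∈ P := Subgroup.mem_sup_right ha
        intro y
        constructor
        · intro hy; exact P.mul_mem (P.mul_mem ha' hy) (P.inv_mem ha')
        · intro hy
          have := P.mul_mem (P.mul_mem (P.inv_mem ha') hy) ha'
          simpa [mul_assoc] using this
    exact (Subgroup.mem_normalizer_iff.1 (key hh) n).1 hn
  refine ⟨P, hPp, fun x k hx => ?_⟩
  -- the index of P is prime to p
  have hi : ¬ p ∣ P.index := by
    intro hd
    have h1 : P.index ∣ ((S : Subgroup H).map f).index := Subgroup.index_dvd_of_le le_sup_left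
    exact S.not_dvd_index (hd.trans (h1.trans (S.index_map_dvd hf)))
  haveI := hPn
  have h2 : ((x : X ⧸ P)) ^ (p ^ k) = 1 := by
    rw [← QuotientGroup.mk_pow, hx, QuotientGroup.mk_one]
  have h3 : ((x : X ⧸ P)) ^ (Nat.card (X ⧸ P)) = 1 := pow_card_eq_one'
  have hc : Nat.Coprime (p ^ k) (Nat.card (X ⧸ P)) := by
    apply Nat.Coprime.pow_left
    exact (Nat.Prime.coprime_iff_not_dvd hp.out).2 (by rwa [Subgroup.index] at hi)
  have h4 : ((x : X ⧸ P)) = 1 := by
    have h5 := orderOf_dvd_of_pow_eq_one h2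
    have h6 := orderOf_dvd_of_pow_eq_one h3
    have h7 : orderOf (x : X ⧸ P) = 1 := Nat.eq_one_of_dvd_coprimes hc h5 h6
    exact orderOf_eq_one_iff.mp h7
  exact (QuotientGroup.eq_one_iff x).mp h4

end abstract

section qdFacts

open Matrix

variable {p : ℕ} [hp : Fact p.Prime]

local notation "M3" => Matrix (Fin 3) (Fin 3) (ZMod p)

theorem pow_p_of_sq_zero (M : M3) (h : (M - 1) ^ 2 = 0) : M ^ p = 1 := by
  have h1 : (M - 1) ^ p = M ^ p - 1 := by
    have := sub_pow_char_of_commute (R := M3) (p := p) (Commute.one_right M)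
    rwa [one_pow] at this
  have h2 : (M - 1) ^ p = 0 := pow_eq_zero_of_le hp.out.two_le h
  rw [h2] at h1
  exact (sub_eq_zero.mp h1.symm)

def lastRow (M : M3) : Prop := ∀ j, M 2 j = (1 : M3) 2 j

theorem lastRow_mul {A B : M3} (hA : lastRow A) : ∀ j, (A * B) 2 j = B 2 j := by
  intro j
  have h0 := hA 0
  have h1 := hA 1
  have h2 := hA 2
  simp only [Matrix.one_apply] at h0 h1 h2
  rw [Matrix.mul_apply, Fin.sum_univ_three, h0, h1, h2]
  simp

theorem qd_lastRow (g : Matrix.SpecialLinearGroup (Fin 3) (ZMod p)) (hg : g ∈ Cfsg.qd p) :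
    lastRow (g : M3) := by
  unfold Cfsg.qd at hg
  induction hg using Subgroup.closure_induction with
  | mem x hx =>
    intro j
    obtain ⟨h0, h1, h2⟩ := hx
    fin_cases j <;> simp [Matrix.one_apply, h0, h1, h2]
  | one =>
    intro j; simp
  | mul x y _ _ hx hy =>
    intro j
    rw [Matrix.SpecialLinearGroup.coe_mul, lastRow_mul hx j]
    exact hy j
  | inv x _ hx =>
    intro j
    have h := lastRow_mul (B := ((x⁻¹ : Matrix.SpecialLinearGroup (Fin 3) (ZMod p)) : M3)) hx j
    rw [← Matrix.SpecialLinearGroup.coe_mul, mul_inv_cancel, Matrix.SpecialLinearGroup.coe_one] at h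
    exact h.symm

/-- The translation subgroup of `Qd(p)`. -/
def qdV : Subgroup (Cfsg.qd p) where
  carrier := {g | ∀ i j, j ≠ 2 → (((g : Matrix.SpecialLinearGroup (Fin 3) (ZMod p))) : M3) i j = (1 : M3) i j}
  mul_mem' := by
    intro a b ha hb i j hj
    simp only [Subgroup.coe_mul, Matrix.SpecialLinearGroup.coe_mul]
    rw [Matrix.mul_apply, Fin.sum_univ_three, hb 0 j hj, hb 1 j hj, hb 2 j hj]
    have : j = 0 ∨ j = 1 := by omega
    rcases this with rfl | rfl <;> simp [Matrix.one_apply, ha _ _ (by decide : (0 : Fin 3) ≠ 2), ha _ _ (by decide : (1 : Fin 3) ≠ 2)]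
  one_mem' := by
    intro i j _; simp
  inv_mem' := by
    intro a ha i j hj
    have h := congrFun (congrFun (congrArg (fun g : Matrix.SpecialLinearGroup (Fin 3) (ZMod p) => (g : M3))
      (inv_mul_cancel (a : Matrix.SpecialLinearGroup (Fin 3) (ZMod p)))) i) j
    simp only [Matrix.SpecialLinearGroup.coe_mul, Matrix.SpecialLinearGroup.coe_one] at h
    rw [Matrix.mul_apply, Fin.sum_univ_three, ha 0 j hj, ha 1 j hj, ha 2 j hj] at h
    have : j = 0 ∨ j = 1 := by omega
    rcases this with rfl | rfl <;> simpa [Matrix.one_apply] using h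

theorem qdV_normal : (qdV (p := p)).Normal := by
  refine ⟨fun n hn g => ?_⟩
  intro i j hj
  have hR := qd_lastRow ((g⁻¹ : Cfsg.qd p) : Matrix.SpecialLinearGroup (Fin 3) (ZMod p)) (g⁻¹).2
  set N : M3 := (((g⁻¹ : Cfsg.qd p) : Matrix.SpecialLinearGroup (Fin 3) (ZMod p)) : M3) with hN
  set G' : M3 := (((g : Cfsg.qd p) : Matrix.SpecialLinearGroup (Fin 3) (ZMod p)) : M3) with hG'
  set A : M3 := (((n : Cfsg.qd p) : Matrix.SpecialLinearGroup (Fin 3) (ZMod p)) : M3) with hA
  have hn' : ∀ i j, j ≠ 2 → A i j = (1 : M3) i j := fun i j hj => hn i j hj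
  have hGN : G' * N = 1 := by
    rw [hG', hN, ← Matrix.SpecialLinearGroup.coe_mul, ← Subgroup.coe_mul, mul_inv_cancel]
    simp
  have e : (((g * n * g⁻¹ : Cfsg.qd p) : Matrix.SpecialLinearGroup (Fin 3) (ZMod p)) : M3) = G' * (A * N) := by
    simp only [Subgroup.coe_mul, Matrix.SpecialLinearGroup.coe_mul, hG', hA, hN, Matrix.mul_assoc]
  rw [e]
  have hcol : ∀ k, (A * N) k j = N k j := by
    intro k
    have hn2 := hR j
    have hj2 : (1 : M3) 2 j = 0 := by
      simp only [Matrix.one_apply]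
      rw [if_neg (Ne.symm hj)]
    rw [hj2] at hn2
    rw [Matrix.mul_apply, Fin.sum_univ_three, hn2, mul_zero, add_zero,
      hn' k 0 (by decide), hn' k 1 (by decide)]
    have hk : k = 0 ∨ k = 1 ∨ k = 2 := by omega
    rcases hk with rfl | rfl | rfl
    · simp [Matrix.one_apply]
    · simp [Matrix.one_apply]
    · simpa [Matrix.one_apply] using hn2.symm
  have h1 : (G' * (A * N)) i j = (G' * N) i j := by
    rw [Matrix.mul_apply, Matrix.mul_apply]
    exact Finset.sum_congr rfl (fun k _ => by rw [hcol k])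
  rw [h1, hGN]

theorem coe_qd_pow (g : Cfsg.qd p) (n : ℕ) :
    (((g ^ n : Cfsg.qd p) : Matrix.SpecialLinearGroup (Fin 3) (ZMod p)) : M3) =
      ((g : Matrix.SpecialLinearGroup (Fin 3) (ZMod p)) : M3) ^ n := by
  rw [Subgroup.coe_pow]
  exact Matrix.SpecialLinearGroup.coe_pow _ _

theorem qdV_pgroup : IsPGroup p (qdV (p := p)) := by
  intro g
  refine ⟨1, ?_⟩
  rw [pow_one]
  have hR := qd_lastRow _ (g.1.2)
  have hC := g.2
  set M : M3 := (((g.1 : Cfsg.qd p) : Matrix.SpecialLinearGroup (Fin 3) (ZMod p)) : M3) with hM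
  have hC' : ∀ i j, j ≠ 2 → M i j = (1 : M3) i j := fun i j hj => hC i j hj
  have hsq : (M - 1) ^ 2 = 0 := by
    rw [pow_two]
    ext i j
    rw [Matrix.mul_apply, Fin.sum_univ_three]
    have e0 : (M - 1) i 0 = 0 := by
      rw [Matrix.sub_apply, hC' i 0 (by decide), sub_self]
    have e1 : (M - 1) i 1 = 0 := by
      rw [Matrix.sub_apply, hC' i 1 (by decide), sub_self]
    have e2 : (M - 1) 2 j = 0 := by
      rw [Matrix.sub_apply, hR j, sub_self]
    rw [e0, e1, e2]
    simp
  have hpow := pow_p_of_sq_zero M hsq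
  apply Subtype.ext
  apply Subtype.ext
  apply Subtype.ext
  have h9 := coe_qd_pow g.1 p
  exact h9.trans hpow

/-- Build an element of `qd p` from a matrix of determinant one with the right last row. -/
def mkQd (M : M3) (hd : M.det = 1) (h0 : M 2 0 = 0) (h1 : M 2 1 = 0) (h2 : M 2 2 = 1) : Cfsg.qd p :=
  ⟨⟨M, hd⟩, Subgroup.subset_closure ⟨h0, h1, h2⟩⟩

theorem qdV_ne_bot : (qdV (p := p)) ≠ ⊥ := by
  intro hb
  let t : Cfsg.qd p := mkQd !![1, 0, 1; 0, 1, 0; 0, 0, 1]
    (by simp [Matrix.det_fin_three]) (by simp) (by simp) (by simp)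
  have ht : t ∈ qdV (p := p) := by
    intro i j hj
    have : j = 0 ∨ j = 1 := by omega
    rcases this with rfl | rfl <;> fin_cases i <;> simp [t, mkQd, Matrix.one_apply]
  rw [hb, Subgroup.mem_bot] at ht
  have := congrFun (congrFun (congrArg (fun g : Cfsg.qd p => ((g : Matrix.SpecialLinearGroup (Fin 3) (ZMod p)) : M3)) ht) 0) 2
  simp [t, mkQd, Matrix.one_apply] at this

theorem qd_two_elts : ∃ u l : Cfsg.qd p, u ^ p ^ 1 = 1 ∧ l ^ p ^ 1 = 1 ∧ ∀ k : ℕ, (u * l) ^ p ^ k ≠ 1 := by
  let U : M3 := !![1, 1, 0; 0, 1, 0; 0, 0, 1]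
  let L : M3 := !![1, 0, 0; 1, 1, 0; 0, 0, 1]
  have hU : (U - 1) ^ 2 = 0 := by
    ext i j
    rw [pow_two]
    fin_cases i <;> fin_cases j <;> simp [U, Matrix.mul_apply, Fin.sum_univ_three, Matrix.one_apply]
  have hL : (L - 1) ^ 2 = 0 := by
    ext i j
    rw [pow_two]
    fin_cases i <;> fin_cases j <;> simp [L, Matrix.mul_apply, Fin.sum_univ_three, Matrix.one_apply]
  let u : Cfsg.qd p := mkQd U (by simp [U, Matrix.det_fin_three]) (by simp [U]) (by simp [U]) (by simp [U])
  let l : Cfsg.qd p := mkQd L (by simp [L, Matrix.det_fin_three]) (by simp [L]) (by simp [L]) (by simp [L])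
  refine ⟨u, l, ?_, ?_, ?_⟩
  · rw [pow_one]
    apply Subtype.ext; apply Subtype.ext
    exact (coe_qd_pow u p).trans (pow_p_of_sq_zero U hU)
  · rw [pow_one]
    apply Subtype.ext; apply Subtype.ext
    exact (coe_qd_pow l p).trans (pow_p_of_sq_zero L hL)
  · intro k hk
    have hA : (U * L) ^ p ^ k = 1 := by
      have := congrArg (fun g : Cfsg.qd p => ((g : Matrix.SpecialLinearGroup (Fin 3) (ZMod p)) : M3)) hk
      exact (coe_qd_pow (u * l) (p ^ k)).symm.trans this
    have hN : (U * L - 1) ^ p ^ k = 0 := by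
      have := sub_pow_char_pow_of_commute (R := M3) (p := p) (n := k) (Commute.one_right (U * L))
      rw [hA, one_pow, sub_self] at this
      exact this
    have htr : IsNilpotent (Matrix.trace (U * L - 1)) :=
      Matrix.isNilpotent_trace_of_isNilpotent ⟨_, hN⟩
    have h0 : Matrix.trace (U * L - 1) = 0 := htr.eq_zero
    have h1 : Matrix.trace (U * L - 1) = 1 := by
      simp [U, L, Matrix.trace_fin_three, Matrix.mul_apply, Fin.sum_univ_three, Matrix.one_apply]
      norm_num
    rw [h1] at h0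
    exact one_ne_zero h0

end qdFacts

section unitary

open Matrix

variable {K : Type*} [Field K] [Fintype K] {p : ℕ} [hp : Fact p.Prime] [hc : CharP K p] {n : ℕ}

local notation "Vec" => (Fin 3 → K)
local notation "Mat" => Matrix (Fin 3) (Fin 3) K
local notation "hh" => Cfsg.hermForm 3 K (p ^ n)

omit hp hc in
theorem frob_frob (hK : Fintype.card K = (p ^ n) ^ 2) (x : K) : (x ^ p ^ n) ^ p ^ n = x := by
  rw [← pow_mul, ← pow_two, ← hK, FiniteField.pow_card]

omit hp hc in
theorem hh_add_left (u u' v : Vec) : hh (u + u') v = hh u v + hh u' v := by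
  simp [Cfsg.hermForm, add_mul, Finset.sum_add_distrib]

omit hp hc in
theorem hh_smul_left (a : K) (u v : Vec) : hh (a • u) v = a * hh u v := by
  simp [Cfsg.hermForm, Finset.mul_sum, mul_assoc]

omit hp hc in
theorem hh_smul_right (a : K) (u v : Vec) : hh u (a • v) = a ^ p ^ n * hh u v := by
  simp only [Cfsg.hermForm, Finset.mul_sum, Pi.smul_apply, smul_eq_mul, mul_pow]
  exact Finset.sum_congr rfl (fun i _ => by ring)

theorem hh_conj (hK : Fintype.card K = (p ^ n) ^ 2) (u v : Vec) : hh v u = (hh u v) ^ p ^ n := by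
  simp only [Cfsg.hermForm]
  rw [sum_pow_char_pow]
  refine Finset.sum_congr rfl (fun i _ => ?_)
  rw [mul_pow, frob_frob hK, mul_comm]

omit hc in
theorem hh_nondeg (hn0 : p ^ n ≠ 0) {u : Vec} (h : ∀ v, hh v u = 0) : u = 0 := by
  funext i
  have := h (Pi.single i 1)
  simp only [Cfsg.hermForm] at this
  rw [Finset.sum_eq_single i] at this
  · rw [Pi.single_eq_same, one_mul] at this
    exact (pow_eq_zero_iff hn0).mp this
  · intro j _ hj; simp [Pi.single_eq_of_ne hj]
  · simp

/-- The functional `v ↦ h(v, u)`. -/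
def phi (n : ℕ) (p : ℕ) (u : Fin 3 → K) : (Fin 3 → K) →ₗ[K] K where
  toFun v := Cfsg.hermForm 3 K (p ^ n) v u
  map_add' a b := hh_add_left a b u
  map_smul' a b := hh_smul_left a b u

omit hp hc in
@[simp] theorem phi_apply (u v : Vec) : phi n p u v = hh v u := rfl

omit hp hc in
theorem basis_of_indep {u v w : Vec}
    (hind : ∀ a b c : K, a • u + b • v + c • w = 0 → a = 0 ∧ b = 0 ∧ c = 0) :
    ∃ P : Mat, IsUnit P ∧ (∀ i, P i 0 = u i) ∧ (∀ i, P i 1 = v i) ∧ (∀ i, P i 2 = w i) ∧
      ∀ y : Vec, ∃ a b c : K, y = a • u + b • v + c • w := by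
  classical
  let P : Mat := Matrix.of (fun i j => ![u, v, w] j i)
  have hmv : ∀ c : Vec, P *ᵥ c = c 0 • u + c 1 • v + c 2 • w := by
    intro c
    funext i
    simp [P, Matrix.mulVec, dotProduct, Fin.sum_univ_three]
    ring
  have hinj : Function.Injective P.mulVec := by
    intro x y hxy
    have h1 : P *ᵥ (x - y) = 0 := by
      rw [Matrix.mulVec_sub]
      exact sub_eq_zero.mpr hxy
    rw [hmv] at h1
    obtain ⟨h0, h2, h3⟩ := hind _ _ _ h1
    funext i
    fin_cases i
    · exact sub_eq_zero.mp h0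
    · exact sub_eq_zero.mp h2
    · exact sub_eq_zero.mp h3
  have hU : IsUnit P := Matrix.mulVec_injective_iff_isUnit.mp hinj
  refine ⟨P, hU, fun i => rfl, fun i => rfl, fun i => rfl, fun y => ?_⟩
  have hsur : Function.Surjective P.mulVec :=
    Finite.injective_iff_surjective.mp hinj
  obtain ⟨c, hc⟩ := hsur y
  refine ⟨c 0, c 1, c 2, ?_⟩
  rw [← hc]
  exact hmv c

omit hp hc in
theorem tri_lemma (A : Mat) (hdet : A.det = 1) {u v w : Vec}
    (hind : ∀ a b c : K, a • u + b • v + c • w = 0 → a = 0 ∧ b = 0 ∧ c = 0)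
    (a b c d : K) (hu : A *ᵥ u = u) (hv : A *ᵥ v = a • u + c • v)
    (hw : A *ᵥ w = b • u + d • v + w) : c = 1 ∧ (A - 1) ^ 3 = 0 := by
  classical
  obtain ⟨P, hPu, h0, h1, h2, -⟩ := basis_of_indep hind
  let M : Mat := !![1, a, b; 0, c, d; 0, 0, 1]
  have hcol : ∀ (i j : Fin 3), (A * P) i j = (A *ᵥ (fun k => P k j)) i := fun i j => rfl
  have e0 : (fun k => P k 0) = u := funext h0
  have e1 : (fun k => P k 1) = v := funext h1
  have e2 : (fun k => P k 2) = w := funext h2
  have hAP : A * P = P * M := by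
    ext i j
    rw [hcol, Matrix.mul_apply, Fin.sum_univ_three]
    fin_cases j
    · show (A *ᵥ (fun k => P k 0)) i = _
      rw [e0, hu]
      simp [M, h0]
    · show (A *ᵥ (fun k => P k 1)) i = _
      rw [e1, hv]
      simp [M, h0, h1]
      ring
    · show (A *ᵥ (fun k => P k 2)) i = _
      rw [e2, hw]
      simp [M, h0, h1, h2]
      ring
  have hdetP : P.det ≠ 0 := by
    have := (Matrix.isUnit_iff_isUnit_det P).mp hPu
    exact this.ne_zero
  have hdetM : M.det = c := by
    simp [M, Matrix.det_fin_three]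
  have hd := congrArg Matrix.det hAP
  rw [Matrix.det_mul, Matrix.det_mul, hdet, one_mul, hdetM] at hd
  have hc1 : c = 1 := by
    have : P.det * 1 = P.det * c := by rw [mul_one]; exact hd
    exact (mul_left_cancel₀ hdetP this).symm
  refine ⟨hc1, ?_⟩
  have hM3 : (M - 1) ^ 3 = 0 := by
    ext i j
    rw [pow_succ, pow_two]
    fin_cases i <;> fin_cases j <;>
      simp [M, Matrix.mul_apply, Fin.sum_univ_three, Matrix.one_apply, hc1]
  have hstep : (A - 1) * P = P * (M - 1) := by
    rw [sub_mul, one_mul, hAP, mul_sub, mul_one]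
  have h3 : (A - 1) ^ 3 * P = P * (M - 1) ^ 3 := by
    simp only [pow_succ, pow_zero, one_mul, Matrix.mul_assoc]
    rw [hstep, ← Matrix.mul_assoc (A - 1) P (M - 1), hstep, Matrix.mul_assoc,
      ← Matrix.mul_assoc (A - 1) P, hstep, Matrix.mul_assoc]
  rw [hM3, Matrix.mul_zero] at h3
  have hP' : IsUnit P := hPu
  obtain ⟨Pu, rfl⟩ := hP'
  exact (Units.mul_left_eq_zero Pu).mp h3

theorem stab_unipotent (hK : Fintype.card K = (p ^ n) ^ 2) (A : Mat) (hdet : A.det = 1)
    (hpres : ∀ x y, hh (A *ᵥ x) (A *ᵥ y) = hh x y) {u : Vec} (hu0 : u ≠ 0) (hu : hh u u = 0)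
    (hfix : A *ᵥ u = u) : (A - 1) ^ 3 = 0 := by
  classical
  have hq0 : p ^ n ≠ 0 := pow_ne_zero _ hp.out.ne_zero
  -- z with φ z ≠ 0
  obtain ⟨z, hz⟩ : ∃ z, hh z u ≠ 0 := by
    by_contra hcon
    push Not at hcon
    exact hu0 (hh_nondeg hq0 hcon)
  -- w in the kernel, outside the span of u
  obtain ⟨w, hw, hwu⟩ : ∃ w, hh w u = 0 ∧ w ∉ Submodule.span K {u} := by
    by_contra hcon
    push Not at hcon
    have hle : LinearMap.ker (phi n p u) ≤ Submodule.span K {u} := fun w hw => hcon w hw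
    have h1 := Submodule.finrank_mono hle
    rw [finrank_span_singleton hu0] at h1
    have h2 := LinearMap.finrank_range_add_finrank_ker (phi n p u)
    rw [Module.finrank_fin_fun] at h2
    have h3 : Module.finrank K (LinearMap.range (phi n p u)) ≤ 1 := by
      have := Submodule.finrank_le (LinearMap.range (phi n p u))
      rwa [Module.finrank_self] at this
    omega
  have hind : ∀ a b c : K, a • u + b • w + c • z = 0 → a = 0 ∧ b = 0 ∧ c = 0 := by
    intro a b c habc
    have h1 := congrArg (phi n p u) habc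
    simp only [map_add, map_smul, phi_apply, map_zero, hu, hw, smul_eq_mul, mul_zero, zero_add] at h1
    have hc0 : c = 0 := (mul_eq_zero.mp h1).resolve_right hz
    subst hc0
    rw [zero_smul, add_zero] at habc
    have hb0 : b = 0 := by
      by_contra hb
      apply hwu
      rw [Submodule.mem_span_singleton]
      refine ⟨-(a / b), ?_⟩
      have : b • w = -(a • u) := eq_neg_of_add_eq_zero_right habc
      calc (-(a / b)) • u = b⁻¹ • (-(a • u)) := by
            rw [smul_neg, smul_smul, neg_smul]; congr 2; field_simp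
        _ = b⁻¹ • (b • w) := by rw [this]
        _ = w := by rw [smul_smul, inv_mul_cancel₀ hb, one_smul]
    subst hb0
    rw [zero_smul, add_zero] at habc
    exact ⟨(smul_eq_zero.mp habc).resolve_right hu0, rfl, rfl⟩
  obtain ⟨-, -, -, -, -, hspan⟩ := basis_of_indep hind
  obtain ⟨a, c, e, hAw⟩ := hspan (A *ᵥ w)
  obtain ⟨b, d, f, hAz⟩ := hspan (A *ᵥ z)
  have he : e = 0 := by
    have h1 := hpres w u
    rw [hfix, hw, hAw] at h1
    simp only [hh_add_left, hh_smul_left, hu, hw, mul_zero, zero_add] at h1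
    exact (mul_eq_zero.mp h1).resolve_right hz
  have hf : f = 1 := by
    have h1 := hpres z u
    rw [hfix, hAz] at h1
    simp only [hh_add_left, hh_smul_left, hu, hw, mul_zero, zero_add] at h1
    have : (f - 1) * hh z u = 0 := by rw [sub_mul, h1]; ring
    have := (mul_eq_zero.mp this).resolve_right hz
    exact sub_eq_zero.mp this
  subst he; subst hf
  rw [zero_smul, add_zero] at hAw
  rw [one_smul] at hAz
  exact (tri_lemma A hdet hind a b c d hfix hAw hAz).2

theorem two_fixed (hK : Fintype.card K = (p ^ n) ^ 2) (A : Mat) (hdet : A.det = 1)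
    (hpres : ∀ x y, hh (A *ᵥ x) (A *ᵥ y) = hh x y) {u u' : Vec} (hu0 : u ≠ 0) (hu : hh u u = 0)
    (hu' : hh u' u' = 0) (hfix : A *ᵥ u = u) (hfix' : A *ᵥ u' = u')
    (hne : ∀ c : K, u' ≠ c • u) : A = 1 := by
  classical
  have hq0 : p ^ n ≠ 0 := pow_ne_zero _ hp.out.ne_zero
  have hindep : ∀ a b : K, a • u + b • u' = 0 → a = 0 ∧ b = 0 := by
    intro a b hab
    have hb0 : b = 0 := by
      by_contra hb
      apply hne (-(a / b))
      have : b • u' = -(a • u) := eq_neg_of_add_eq_zero_right hab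
      calc u' = b⁻¹ • (b • u') := by rw [smul_smul, inv_mul_cancel₀ hb, one_smul]
        _ = b⁻¹ • (-(a • u)) := by rw [this]
        _ = (-(a / b)) • u := by
            rw [smul_neg, smul_smul, neg_smul]; congr 2; field_simp
    subst hb0
    rw [zero_smul, add_zero] at hab
    exact ⟨(smul_eq_zero.mp hab).resolve_right hu0, rfl⟩
  -- the two isotropic vectors are not orthogonal
  have huu' : hh u u' ≠ 0 := by
    intro h0
    have h0' : hh u' u = 0 := by rw [hh_conj hK u u', h0, zero_pow hq0]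
    obtain ⟨z, hz⟩ : ∃ z, hh z u ≠ 0 := by
      by_contra hcon
      push Not at hcon
      exact hu0 (hh_nondeg hq0 hcon)
    have hind : ∀ a b c : K, a • u + b • u' + c • z = 0 → a = 0 ∧ b = 0 ∧ c = 0 := by
      intro a b c habc
      have h1 := congrArg (phi n p u) habc
      simp only [map_add, map_smul, phi_apply, map_zero, hu, h0', smul_eq_mul, mul_zero, zero_add] at h1
      have hc0 : c = 0 := (mul_eq_zero.mp h1).resolve_right hz
      subst hc0
      rw [zero_smul, add_zero] at habc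
      obtain ⟨h5, h6⟩ := hindep a b habc
      exact ⟨h5, h6, rfl⟩
    obtain ⟨-, -, -, -, -, hspan⟩ := basis_of_indep hind
    set lam : K := hh z u' / hh z u with hlam
    apply hne (lam ^ p ^ n)
    have hall : ∀ y, hh y (u' - lam ^ p ^ n • u) = 0 := by
      intro y
      obtain ⟨a, b, c, rfl⟩ := hspan y
      have e1 : u' - lam ^ p ^ n • u = u' + (-(lam ^ p ^ n)) • u := by
        rw [neg_smul, sub_eq_add_neg]
      have hadd : ∀ x v w : Vec, hh x (v + w) = hh x v + hh x w := by
        intro x v w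
        simp only [Cfsg.hermForm, Pi.add_apply, add_pow_char_pow, mul_add, Finset.sum_add_distrib]
      rw [e1, hadd, hh_smul_right]
      simp only [hh_add_left, hh_smul_left, hu, hu', h0, h0', mul_zero, zero_add, add_zero]
      have hneg : (-(lam ^ p ^ n)) ^ p ^ n = -lam := by
        have h3 : (-(lam ^ p ^ n)) = (-1 : K) * lam ^ p ^ n := by ring
        rw [h3, mul_pow, frob_frob hK]
        have h4 : ((-1 : K)) ^ p ^ n = -1 := by
          have h5 := add_pow_char_pow (R := K) (p := p) (n := n) (-1 : K) 1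
          rw [neg_add_cancel, zero_pow hq0, one_pow] at h5
          exact (eq_neg_of_add_eq_zero_left h5.symm)
        rw [h4]; ring
      rw [hneg, hlam]
      field_simp
      ring
    have := hh_nondeg hq0 hall
    exact sub_eq_zero.mp this
  have hu'u : hh u' u ≠ 0 := by
    rw [hh_conj hK u u']
    exact pow_ne_zero _ huu'
  -- a vector orthogonal to both
  obtain ⟨e, he0, heu, heu'⟩ : ∃ e : Vec, e ≠ 0 ∧ hh e u = 0 ∧ hh e u' = 0 := by
    have hker : LinearMap.ker ((phi n p u).prod (phi n p u')) ≠ ⊥ := by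
      apply LinearMap.ker_ne_bot_of_finrank_lt
      rw [Module.finrank_prod, Module.finrank_self, Module.finrank_fin_fun]
      norm_num
    obtain ⟨e, he, he0⟩ := Submodule.exists_mem_ne_zero_of_ne_bot hker
    rw [LinearMap.mem_ker, LinearMap.prod_apply] at he
    have h1 := congrArg Prod.fst he
    have h2 := congrArg Prod.snd he
    exact ⟨e, he0, h1, h2⟩
  have hind : ∀ a b c : K, a • u + b • e + c • u' = 0 → a = 0 ∧ b = 0 ∧ c = 0 := by
    intro a b c habc
    have h1 := congrArg (phi n p u) habc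
    simp only [map_add, map_smul, phi_apply, map_zero, hu, heu, smul_eq_mul, mul_zero, zero_add] at h1
    have hc0 : c = 0 := (mul_eq_zero.mp h1).resolve_right hu'u
    subst hc0
    have h2 := congrArg (phi n p u') habc
    simp only [map_add, map_smul, phi_apply, map_zero, hu', heu', smul_eq_mul, mul_zero, zero_add,
      add_zero, zero_smul] at h2
    have ha0 : a = 0 := (mul_eq_zero.mp h2).resolve_right huu'
    subst ha0
    simp only [zero_smul, zero_add, add_zero] at habc
    exact ⟨rfl, (smul_eq_zero.mp habc).resolve_right he0, rfl⟩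
  obtain ⟨-, -, -, -, -, hspan⟩ := basis_of_indep hind
  obtain ⟨a, b, c, hAe⟩ := hspan (A *ᵥ e)
  have hc0 : c = 0 := by
    have h1 := hpres e u
    rw [hfix, heu, hAe] at h1
    simp only [hh_add_left, hh_smul_left, hu, heu, mul_zero, zero_add] at h1
    exact (mul_eq_zero.mp h1).resolve_right hu'u
  have ha0 : a = 0 := by
    have h1 := hpres e u'
    rw [hfix', heu', hAe] at h1
    simp only [hh_add_left, hh_smul_left, hu', heu', mul_zero, add_zero] at h1
    exact (mul_eq_zero.mp h1).resolve_right huu'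
  subst hc0; subst ha0
  simp only [zero_smul, zero_add, add_zero] at hAe
  have hb1 := (tri_lemma A hdet hind 0 0 b 0 hfix (by rw [hAe]; simp)
    (by rw [hfix']; simp)).1
  subst hb1
  rw [one_smul] at hAe
  have hall : ∀ y : Vec, A *ᵥ y = y := by
    intro y
    obtain ⟨a, b, c, rfl⟩ := hspan y
    rw [Matrix.mulVec_add, Matrix.mulVec_add, Matrix.mulVec_smul, Matrix.mulVec_smul,
      Matrix.mulVec_smul, hfix, hAe, hfix']
  ext i j
  have := congrFun (hall (Pi.single j 1)) i
  simpa [Matrix.one_apply, Pi.single_apply, eq_comm] using this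

omit hp hc in
theorem fixed_isotropic (A : Mat) (hpres : ∀ x y, hh (A *ᵥ x) (A *ᵥ y) = hh x y) (m : ℕ)
    (hm : (A - 1) ^ m = 0) (hA : A ≠ 1) : ∃ u : Vec, u ≠ 0 ∧ A *ᵥ u = u ∧ hh u u = 0 := by
  classical
  set N : Mat := A - 1 with hN
  have hex : ∃ m, N ^ m = 0 := ⟨m, hm⟩
  set k₀ := Nat.find hex with hk₀
  have hk₀s : N ^ k₀ = 0 := Nat.find_spec hex
  have hN0 : N ≠ 0 := fun h => hA (sub_eq_zero.mp h)
  have hk0 : k₀ ≠ 0 := by
    intro h
    rw [h, pow_zero] at hk₀s
    exact one_ne_zero hk₀s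
  have hk1 : k₀ ≠ 1 := by
    intro h
    rw [h, pow_one] at hk₀s
    exact hN0 hk₀s
  obtain ⟨k, hk⟩ : ∃ k, k₀ = k + 2 := ⟨k₀ - 2, by omega⟩
  have hnz : N ^ (k + 1) ≠ 0 := Nat.find_min hex (by omega)
  obtain ⟨v, hv⟩ : ∃ v, N ^ (k + 1) *ᵥ v ≠ 0 := by
    by_contra hcon
    push Not at hcon
    apply hnz
    ext i j
    have := congrFun (hcon (Pi.single j 1)) i
    simpa using this
  have hNu : N *ᵥ (N ^ (k + 1) *ᵥ v) = 0 := by
    rw [Matrix.mulVec_mulVec, ← pow_succ', show k + 1 + 1 = k₀ by omega, hk₀s, Matrix.zero_mulVec]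
  have hfix : A *ᵥ (N ^ (k + 1) *ᵥ v) = N ^ (k + 1) *ᵥ v := by
    have : A = N + 1 := by rw [hN]; abel
    rw [this, Matrix.add_mulVec, hNu, zero_add, Matrix.one_mulVec]
  refine ⟨_, hv, hfix, ?_⟩
  set u := N ^ (k + 1) *ᵥ v with hu
  set y := N ^ k *ᵥ v with hy
  have huy : u = A *ᵥ y + (-1 : K) • y := by
    have e1 : u = N *ᵥ y := by
      rw [hu, hy, Matrix.mulVec_mulVec, pow_succ']
    rw [e1, hN, Matrix.sub_mulVec, Matrix.one_mulVec, neg_one_smul, sub_eq_add_neg]
  have h1 := hpres y u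
  rw [hfix] at h1
  calc hh u u = hh (A *ᵥ y + (-1 : K) • y) u := by rw [← huy]
    _ = hh (A *ᵥ y) u + (-1) * hh y u := by rw [hh_add_left, hh_smul_left]
    _ = 0 := by rw [h1]; ring

end unitary

section groups

open Matrix

variable {K : Type*} [Field K] [Fintype K] {p : ℕ} [hp : Fact p.Prime] [hc : CharP K p] {n : ℕ}

local notation "Vec" => (Fin 3 → K)
local notation "Mat" => Matrix (Fin 3) (Fin 3) K
local notation "hh" => Cfsg.hermForm 3 K (p ^ n)
local notation "GG" => Cfsg.SU 3 K (p ^ n)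

/-- The matrix of an element of `SU`. -/
def mt (g : Cfsg.SU 3 K (p ^ n)) : Matrix (Fin 3) (Fin 3) K :=
  ((g : Matrix.SpecialLinearGroup (Fin 3) K) : Matrix (Fin 3) (Fin 3) K)

omit [Fintype K] hp hc in
theorem mt_one : mt (1 : GG) = 1 := rfl

omit [Fintype K] hp hc in
theorem mt_mul (a b : GG) : mt (a * b) = mt a * mt b := rfl

omit [Fintype K] hp hc in
theorem mt_pow (a : GG) (m : ℕ) : mt (a ^ m) = mt a ^ m := by
  induction m with
  | zero => rw [pow_zero, pow_zero, mt_one]
  | succ m ih => rw [pow_succ, pow_succ, mt_mul, ih]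

omit [Fintype K] hp hc in
theorem mt_inj {a b : GG} (h : mt a = mt b) : a = b := Subtype.ext (Subtype.ext h)

omit [Fintype K] hp hc in
theorem mt_det (a : GG) : (mt a).det = 1 := (a : Matrix.SpecialLinearGroup (Fin 3) K).2

omit [Fintype K] hp hc in
theorem mt_pres (a : GG) (x y : Vec) : hh (mt a *ᵥ x) (mt a *ᵥ y) = hh x y := a.2 x y

omit [Fintype K] in
theorem mt_nil {a : GG} {k : ℕ} (h : a ^ p ^ k = 1) : (mt a - 1) ^ p ^ k = 0 := by
  have hchar : CharP Mat p := inferInstance
  have h1 := sub_pow_char_pow_of_commute (R := Mat) (p := p) (n := k) (Commute.one_right (mt a))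
  rw [← mt_pow, h, mt_one, one_pow, sub_self] at h1
  exact h1

omit [Fintype K] hp hc in
theorem mt_inv_fix {a : GG} {u : Vec} (h : mt a *ᵥ u = u) : mt a⁻¹ *ᵥ u = u := by
  have h1 : mt a⁻¹ * mt a = 1 := by rw [← mt_mul, inv_mul_cancel, mt_one]
  calc mt a⁻¹ *ᵥ u = mt a⁻¹ *ᵥ (mt a *ᵥ u) := by rw [h]
    _ = u := by rw [Matrix.mulVec_mulVec, h1, Matrix.one_mulVec]

/-- The stabiliser of a vector. -/
def stabV (u : Fin 3 → K) : Subgroup (Cfsg.SU 3 K (p ^ n)) where
  carrier := {g | mt g *ᵥ u = u}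
  mul_mem' := by
    intro a b ha hb
    change mt (a * b) *ᵥ u = u
    rw [mt_mul, ← Matrix.mulVec_mulVec, hb, ha]
  one_mem' := by
    change mt (1 : GG) *ᵥ u = u
    rw [mt_one, Matrix.one_mulVec]
  inv_mem' := by
    intro a ha
    exact mt_inv_fix ha

theorem stabV_pgroup (hK : Fintype.card K = (p ^ n) ^ 2) {u : Vec} (hu0 : u ≠ 0) (hu : hh u u = 0) :
    IsPGroup p (stabV (p := p) (n := n) u) := by
  intro g
  refine ⟨2, ?_⟩
  have h3 := stab_unipotent hK (mt g.1) (mt_det g.1) (mt_pres g.1) hu0 hu g.2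
  have hle : 3 ≤ p ^ 2 := by
    have := hp.out.two_le
    nlinarith
  have h4 : (mt g.1 - 1) ^ p ^ 2 = 0 := pow_eq_zero_of_le hle h3
  have h5 := sub_pow_char_pow_of_commute (R := Mat) (p := p) (n := 2) (Commute.one_right (mt g.1))
  rw [h4, one_pow] at h5
  have h6 : mt g.1 ^ p ^ 2 = 1 := (sub_eq_zero.mp h5.symm)
  apply Subtype.ext
  apply mt_inj
  rw [Subgroup.coe_pow, mt_pow, h6]
  rfl

/-- A nontrivial `p`-subgroup of `SU₃` fixes a nonzero isotropic vector. -/
theorem pgroup_fix (hK : Fintype.card K = (p ^ n) ^ 2) (S : Subgroup GG) (hS : IsPGroup p S)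
    (hne : S ≠ ⊥) : ∃ u : Vec, u ≠ 0 ∧ hh u u = 0 ∧ ∀ g ∈ S, mt g *ᵥ u = u := by
  classical
  have hq0 : p ^ n ≠ 0 := pow_ne_zero _ hp.out.ne_zero
  haveI : Nontrivial S := (Subgroup.nontrivial_iff_ne_bot S).2 hne
  haveI : Finite GG := inferInstance
  have hcn : Nontrivial (Subgroup.center S) := hS.center_nontrivial
  obtain ⟨z, hz⟩ := exists_ne (1 : Subgroup.center S)
  have hz1 : ((z : S) : GG) ≠ 1 := by
    intro h
    apply hz
    apply Subtype.ext
    apply Subtype.ext
    exact h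
  obtain ⟨k, hk⟩ := hS (z : S)
  have hk' : ((z : S) : GG) ^ p ^ k = 1 := by
    have := congrArg Subtype.val hk
    simpa using this
  have hmz1 : mt ((z : S) : GG) ≠ 1 := fun h => hz1 (mt_inj (h.trans mt_one.symm))
  obtain ⟨u, hu0, hfix, hiso⟩ := fixed_isotropic (mt ((z : S) : GG)) (mt_pres _) _ (mt_nil hk') hmz1
  refine ⟨u, hu0, hiso, fun g hg => ?_⟩
  -- g u is fixed by z
  have hcomm : ((z : S) : GG) * g = g * ((z : S) : GG) := by
    have := (Subgroup.mem_center_iff.mp z.2) ⟨g, hg⟩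
    have := congrArg Subtype.val this
    simpa using this.symm
  have hfix' : mt ((z : S) : GG) *ᵥ (mt g *ᵥ u) = mt g *ᵥ u := by
    rw [Matrix.mulVec_mulVec, ← mt_mul, hcomm, mt_mul, ← Matrix.mulVec_mulVec, hfix]
  have hiso' : hh (mt g *ᵥ u) (mt g *ᵥ u) = 0 := by rw [mt_pres, hiso]
  have hline : ∃ c : K, mt g *ᵥ u = c • u := by
    by_contra hcon
    push Not at hcon
    exact hmz1 (two_fixed hK _ (mt_det _) (mt_pres _) hu0 hiso hiso' hfix hfix' hcon)
  obtain ⟨c, hc'⟩ := hline
  obtain ⟨k', hk'g⟩ := hS ⟨g, hg⟩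
  have hgk : g ^ p ^ k' = 1 := by
    have := congrArg Subtype.val hk'g
    simpa using this
  have hpow : ∀ m : ℕ, (mt g) ^ m *ᵥ u = c ^ m • u := by
    intro m
    induction m with
    | zero => simp
    | succ m ih =>
      rw [pow_succ, ← Matrix.mulVec_mulVec, hc', Matrix.mulVec_smul, ih, smul_smul, pow_succ, mul_comm]
  have h1 := hpow (p ^ k')
  rw [← mt_pow, hgk, mt_one, Matrix.one_mulVec] at h1
  have h2 : (c ^ p ^ k' - 1) • u = 0 := by
    rw [sub_smul, ← h1, one_smul, sub_self]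
  have h3 : c ^ p ^ k' = 1 := sub_eq_zero.mp ((smul_eq_zero.mp h2).resolve_right hu0)
  have h4 : (c - 1) ^ p ^ k' = 0 := by
    rw [sub_pow_char_pow (R := K) (p := p), h3, one_pow, sub_self]
  have h5 : c = 1 := sub_eq_zero.mp (pow_eq_zero_iff (pow_ne_zero _ hp.out.ne_zero) |>.mp h4)
  rw [hc', h5, one_smul]

theorem SU_TI (hK : Fintype.card K = (p ^ n) ^ 2) : SylTI p GG := by
  classical
  intro T hT hTp S₁ S₂ h1 h2
  have hne₁ : (S₁ : Subgroup GG) ≠ ⊥ := fun h => hT (le_bot_iff.mp (h ▸ h1))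
  have hne₂ : (S₂ : Subgroup GG) ≠ ⊥ := fun h => hT (le_bot_iff.mp (h ▸ h2))
  obtain ⟨u₁, hu₁, hi₁, hf₁⟩ := pgroup_fix hK _ S₁.isPGroup' hne₁
  obtain ⟨u₂, hu₂, hi₂, hf₂⟩ := pgroup_fix hK _ S₂.isPGroup' hne₂
  obtain ⟨x', hx'⟩ := T.ne_bot_iff_exists_ne_one.mp hT
  obtain ⟨x, hx⟩ := x'
  have hx1 : x ≠ 1 := fun h => hx' (Subtype.ext h)
  have hmx : mt x ≠ 1 := fun h => hx1 (mt_inj (h.trans mt_one.symm))
  have hline : ∃ c : K, u₂ = c • u₁ := by
    by_contra hcon
    push Not at hcon
    exact hmx (two_fixed hK _ (mt_det _) (mt_pres _) hu₁ hi₁ hi₂ (hf₁ x (h1 hx)) (hf₂ x (h2 hx)) hcon)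
  obtain ⟨c, hc'⟩ := hline
  have hc0 : c ≠ 0 := by
    rintro rfl
    rw [zero_smul] at hc'
    exact hu₂ hc'
  have hf₂' : ∀ g ∈ (S₂ : Subgroup GG), mt g *ᵥ u₁ = u₁ := by
    intro g hg
    have := hf₂ g hg
    rw [hc', Matrix.mulVec_smul] at this
    exact smul_right_injective _ hc0 this
  have hp' := stabV_pgroup hK hu₁ hi₁
  have e1 : stabV (p := p) (n := n) u₁ = S₁ := S₁.is_maximal' hp' (fun g hg => hf₁ g hg)
  have e2 : stabV (p := p) (n := n) u₁ = S₂ := S₂.is_maximal' hp' (fun g hg => hf₂' g hg)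
  exact Sylow.ext (e1.symm.trans e2)

theorem center_no_p (hK : Fintype.card K = (p ^ n) ^ 2) (z : GG) (hz : z ∈ Subgroup.center GG)
    {k : ℕ} (hk : z ^ p ^ k = 1) : z = 1 := by
  obtain ⟨c, hc' | h3⟩ := Cfsg.Agent.Lib.Classical.center_scalar hK z hz
  · have hm : mt z = c • (1 : Mat) := hc'
    have h1 : (c • (1 : Mat)) ^ p ^ k = 1 := by
      rw [← hm, ← mt_pow, hk, mt_one]
    have h2 : c ^ p ^ k = 1 := by
      have := congrFun (congrFun h1 0) 0
      rw [smul_pow, one_pow] at this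
      simpa using this
    have h4 : (c - 1) ^ p ^ k = 0 := by
      rw [sub_pow_char_pow (R := K) (p := p), h2, one_pow, sub_self]
    have h5 : c = 1 := sub_eq_zero.mp (pow_eq_zero_iff (pow_ne_zero _ hp.out.ne_zero) |>.mp h4)
    apply mt_inj
    rw [hm, h5, one_smul, mt_one]
  · omega

theorem PSU_TI (hK : Fintype.card K = (p ^ n) ^ 2) : SylTI p (Cfsg.PSU 3 K (p ^ n)) := by
  classical
  haveI : Finite GG := inferInstance
  intro T hT hTp S₁ S₂ h1 h2
  let π : GG →* Cfsg.PSU 3 K (p ^ n) := QuotientGroup.mk' (Subgroup.center GG)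
  have hπ : Function.Surjective π := QuotientGroup.mk'_surjective _
  obtain ⟨R₁, rfl⟩ := Sylow.mapSurjective_surjective hπ p S₁
  obtain ⟨R₂, rfl⟩ := Sylow.mapSurjective_surjective hπ p S₂
  obtain ⟨x, hx⟩ := T.ne_bot_iff_exists_ne_one.mp hT
  have hx1 := h1 x.2
  have hx2 := h2 x.2
  rw [Sylow.coe_mapSurjective] at hx1 hx2
  obtain ⟨x₁, hm₁, e₁⟩ := hx1
  obtain ⟨x₂, hm₂, e₂⟩ := hx2
  -- x₁ = x₂
  have hz : x₂⁻¹ * x₁ ∈ Subgroup.center GG := by
    have : π x₂ = π x₁ := e₂.trans e₁.symm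
    exact QuotientGroup.eq.mp this
  obtain ⟨a, ha⟩ := R₁.isPGroup' ⟨x₁, hm₁⟩
  obtain ⟨b, hb⟩ := R₂.isPGroup' ⟨x₂, hm₂⟩
  have ha' : x₁ ^ p ^ a = 1 := by
    have := congrArg Subtype.val ha
    simpa using this
  have hb' : x₂ ^ p ^ b = 1 := by
    have := congrArg Subtype.val hb
    simpa using this
  have hcomm : Commute x₂⁻¹ x₁ := by
    have h3 := (Subgroup.mem_center_iff.mp hz) x₂
    have h5 : x₁ = x₂⁻¹ * x₁ * x₂ := by
      rw [← h3]; group
    have h4 : Commute x₂ x₁ := by
      show x₂ * x₁ = x₁ * x₂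
      calc x₂ * x₁ = x₂ * (x₂⁻¹ * x₁ * x₂) := by rw [← h5]
        _ = x₁ * x₂ := by group
    exact h4.inv_left
  have hzp : (x₂⁻¹ * x₁) ^ p ^ (a + b) = 1 := by
    rw [hcomm.mul_pow, inv_pow]
    have h5 : x₁ ^ p ^ (a + b) = 1 := by
      rw [pow_add, pow_mul, ha', one_pow]
    have h6 : x₂ ^ p ^ (a + b) = 1 := by
      rw [pow_add, mul_comm, pow_mul, hb', one_pow]
    rw [h5, h6, inv_one, one_mul]
  have hz1 : x₂⁻¹ * x₁ = 1 := center_no_p hK _ hz hzp
  have e : x₂ = x₁ := by
    have := inv_mul_eq_one.mp hz1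
    exact this
  subst e
  have hne : x₂ ≠ 1 := by
    rintro rfl
    apply hx
    apply Subtype.ext
    rw [← e₁]
    exact map_one π
  have hTI := SU_TI (p := p) (n := n) hK
  have heq : R₁ = R₂ := by
    apply hTI (Subgroup.zpowers x₂)
    · intro h
      rw [Subgroup.zpowers_eq_bot] at h
      exact hne h
    · intro y
      obtain ⟨y, hy⟩ := y
      obtain ⟨m, rfl⟩ := Subgroup.mem_zpowers_iff.mp hy
      refine ⟨a, ?_⟩
      apply Subtype.ext
      simp only [Subgroup.coe_pow, Subgroup.coe_one]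
      rw [← zpow_natCast, ← _root_.zpow_mul, mul_comm, _root_.zpow_mul, zpow_natCast, ha', _root_.one_zpow]
    · exact (Subgroup.zpowers_le).2 hm₁
    · exact (Subgroup.zpowers_le).2 hm₂
  rw [heq]

end groups

/-- Let p be an odd prime, q a power of p and K a finite field with q² elements. Then Qd(p) is not
involved in the projective special unitary group PSU₃(q) realised over K. -/
theorem result {p : ℕ} [Fact p.Prime] (hp : p ≠ 2) {K : Type*} [Field K] [Fintype K] [CharP K p] (n : ℕ) (hn : 1 ≤ n) (hK : Fintype.card K = (p ^ n) ^ 2) : ¬ Cfsg.Involves ↥(Cfsg.qd p) (Cfsg.PSU 3 K (p ^ n)) := by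
  rintro ⟨K', R, hR, ⟨e⟩⟩
  haveI : Finite (Cfsg.PSU 3 K (p ^ n)) := inferInstance
  have hTI := sylTI_subgroup (PSU_TI (p := p) (n := n) hK) K'
  let f : K' →* Cfsg.qd p := e.toMonoidHom.comp (QuotientGroup.mk' (R.subgroupOf K'))
  have hf : Function.Surjective f := e.surjective.comp (QuotientGroup.mk'_surjective _)
  haveI := qdV_normal (p := p)
  obtain ⟨P, hPp, hP⟩ := section_core hTI f hf qdV qdV_pgroup qdV_ne_bot
  obtain ⟨u, l, hu, hl, hul⟩ := qd_two_elts (p := p)
  have hum := hP u 1 hu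
  have hlm := hP l 1 hl
  obtain ⟨k, hk⟩ := hPp ⟨u * l, P.mul_mem hum hlm⟩
  apply hul k
  have := congrArg Subtype.val hk
  simpa using this

end Cfsg.Agent.S2232
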