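import Cfsg.Statements.S2244
import Mathlib
import Cfsg.Agent.Lib.BNSt.WkTbl
import Cfsg.Agent.Lib.BNSt.WkTblE

set_option autoImplicit false
open Cfsg

namespace Cfsg.Agent.S2244

/-- Weakly closed unipotent subgroups of Chevalley groups: let G be the Chevalley group of type G₂, B₂, D₄, F₄, E₆, E₇ or E₈ over a finite field F (the matrix group generated by the root elements), with |F| ≠ 2, and |F| ≠ 3 as well for the types G₂, B₂, D₄, F₄. Let U be the subgroup generated by the positive root subgroups. If X ≤ U is weakly closed in U with respect to G (every G-conjugate of X lying in U equals X), then X is the unipotent radical U_J of a standard parabolic subgroup for some set J of fundamental roots. -/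
theorem result {F : Type*} [Field F] [Fintype F] (D : Cfsg.Lie.ChevalleyDatum) (hD : D ∈ [Cfsg.Lie.chevG2, Cfsg.Lie.chevB2, Cfsg.Lie.chevD4, Cfsg.Lie.chevF4, Cfsg.Lie.chevE6, Cfsg.Lie.chevE7, Cfsg.Lie.chevE8])
    (h2 : Fintype.card F ≠ 2) (h3 : D ∈ [Cfsg.Lie.chevG2, Cfsg.Lie.chevB2, Cfsg.Lie.chevD4, Cfsg.Lie.chevF4] → Fintype.card F ≠ 3)
    (X : Subgroup (GL D.Idx F)) (hXU : X ≤ D.posUnipotent F)
    (hwc : ∀ g ∈ D.group F, X.map (MulAut.conj g).toMonoidHom ≤ D.posUnipotent F → X.map (MulAut.conj g).toMonoidHom = X) :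
    ∃ J : Set ℕ, (∀ j ∈ J, j < D.rank) ∧ X = D.unipotentRadical F J := by
  have hq0 : 2 ≤ Nat.card F := Finite.one_lt_card
  have hq2 : Nat.card F ≠ 2 := by rwa [Nat.card_eq_fintype_card]
  have hq3 : 3 ≤ Nat.card F := by omega
  have hq4 : D ∈ [Cfsg.Lie.chevG2, Cfsg.Lie.chevB2, Cfsg.Lie.chevD4, Cfsg.Lie.chevF4] → 4 ≤ Nat.card F := by
    intro h
    have := h3 h
    rw [← Nat.card_eq_fintype_card] at this
    omega
  have c1 : ∃ c : F, c ≠ 0 ∧ ∀ d : ℤ, d ≠ 0 → -1 ≤ d → d ≤ 1 → c ^ d ≠ 1 :=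
    Lib.BNSt.exists_good_c (by omega)
  have c2 : D ∈ [Cfsg.Lie.chevG2, Cfsg.Lie.chevB2, Cfsg.Lie.chevD4, Cfsg.Lie.chevF4] →
      ∃ c : F, c ≠ 0 ∧ ∀ d : ℤ, d ≠ 0 → -2 ≤ d → d ≤ 2 → c ^ d ≠ 1 := fun h =>
    Lib.BNSt.exists_good_c (by have := hq4 h; omega)
  simp only [List.mem_cons, List.not_mem_nil, or_false] at hD
  rcases hD with rfl | rfl | rfl | rfl | rfl | rfl | rfl
  · obtain ⟨c, hc, hcd⟩ := c2 (by simp)
    have h4 := hq4 (by simp)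
    by_cases h44 : Nat.card F = 4
    · exact Lib.BNSt.wk_g24 Lib.Chev.good3G2 X Lib.BNSt.wkClG2 rfl Lib.BNSt.wkSepG24 Lib.BNSt.wkG24 hc hcd hXU hwc
    · obtain ⟨c', hc', hcd'⟩ : ∃ c : F, c ≠ 0 ∧ ∀ d : ℤ, d ≠ 0 → -3 ≤ d → d ≤ 3 → c ^ d ≠ 1 :=
        Lib.BNSt.exists_good_c (by omega)
      exact Lib.BNSt.wk_main Lib.Chev.good3G2 X Lib.BNSt.wkClG2 (fun _ _ => rfl) Lib.BNSt.wkSepG2 hc' hcd' hXU hwc
  · obtain ⟨c, hc, hcd⟩ := c2 (by simp)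
    exact Lib.BNSt.wk_main Lib.Chev.good3B2 X Lib.BNSt.wkClB2 (fun _ _ => rfl) Lib.BNSt.wkSepB2 hc hcd hXU hwc
  · obtain ⟨c, hc, hcd⟩ := c2 (by simp)
    exact Lib.BNSt.wk_main Lib.Chev.good3D4 X Lib.BNSt.wkClD4 (fun _ _ => rfl) Lib.BNSt.wkSepD4 hc hcd hXU hwc
  · obtain ⟨c, hc, hcd⟩ := c2 (by simp)
    exact Lib.BNSt.wk_main Lib.Chev.good3F4 X Lib.BNSt.wkClF4 (fun _ _ => rfl) Lib.BNSt.wkSepF4 hc hcd hXU hwc
  · obtain ⟨c, hc, hcd⟩ := c1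
    exact Lib.BNSt.wk_main Lib.Chev.good3E6 X Lib.BNSt.wkClE6 (fun _ _ => rfl) Lib.BNSt.wkSepE6 hc hcd hXU hwc
  · obtain ⟨c, hc, hcd⟩ := c1
    exact Lib.BNSt.wk_main Lib.Chev.good3E7 X Lib.BNSt.wkClE7 (fun _ _ => rfl) Lib.BNSt.wkSepE7 hc hcd hXU hwc
  · obtain ⟨c, hc, hcd⟩ := c1
    exact Lib.BNSt.wk_main Lib.Chev.good3E8 X Lib.BNSt.wkClE8 (fun _ _ => rfl) Lib.BNSt.wkSepE8 hc hcd hXU hwc

end Cfsg.Agent.S2244
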