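import Cfsg.Statements.S2249
import Mathlib
import Cfsg.Agent.Lib.AltChar.NormalRank2
import Cfsg.Agent.Lib.AltChar.OmegaModel
import Cfsg.Agent.Lib.AltChar.SLEven3

set_option autoImplicit false
open Cfsg

namespace Cfsg.Agent.S2249


open Matrix Equiv Cfsg.Agent.Lib.AltChar
open scoped MatrixGroups

variable {F : Type*} [Field F] [Fintype F]

/-- The case `q ≡ 1 mod 4`. -/
theorem case_one (hq4 : 4 ∣ Fintype.card F - 1) (hq1 : Fintype.card F % 4 = 1) (n : ℕ)
    (S : Sylow 2 (GL (Fin n) F)) : NormalRankIs (S : Subgroup (GL (Fin n) F)) n := by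
  classical
  haveI : Fact (Nat.Prime 2) := ⟨Nat.prime_two⟩
  set q := Fintype.card F with hq
  have hq2 : 2 ≤ q := Fintype.one_lt_card
  have hodd : Odd q := odd_of_one hq2 hq4
  have h2 : (2 : F) ≠ 0 := Cfsg.Agent.Lib.KS2.SL2.two_ne_zero_of_odd hodd
  obtain ⟨C⟩ : Nonempty (Sylow 2 Fˣ) := inferInstance
  obtain ⟨T, U, hT, hmod⟩ := exists_model 2 n (Fin n) (by simp)
  have hne1 : (-1 : Fˣ) ≠ 1 := by
    intro h
    have h1 := congrArg Units.val h
    simp only [Units.val_neg, Units.val_one] at h1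
    apply h2
    linear_combination -h1
  have hcardF : Nat.card Fˣ = q - 1 := by
    rw [Nat.card_eq_fintype_card, Fintype.card_units]
  obtain ⟨hRk, hc⟩ := rankData_of_unique (-1 : Fˣ) hne1 (by simp) (fun a => by simp)
    (fun c hc => by
      have h1 : (c : F) * c = 1 := by
        have := congrArg Units.val hc
        simpa [pow_two] using this
      rcases mul_self_eq_one_iff.mp h1 with h3 | h3
      · exact Or.inl (Units.ext h3)
      · exact Or.inr (Units.ext h3)) C (by rw [hcardF]; exact hq4)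
  have h1 := normalRank_wr hRk hc (monoWrData (F := F) (n := n)) T
  refine h1.sylow _ ?_ S
  rw [card_wrSub, hT, Sylow.card_eq_multiplicity C, Nat.factorization_def _ Nat.prime_two,
    Nat.factorization_def _ Nat.prime_two, hcardF, val_card_GL hodd n, fVal_of_one hq2 hq4 n,
    ← pow_mul, ← pow_add]
  congr 1
  ring

/-- The even case for `q ≡ 3 mod 4`. -/
theorem case_even (hq4 : 4 ∣ Fintype.card F + 1) (m : ℕ) :
    ∃ (H : Subgroup (GL (Fin 2) F)) (T : Subgroup (Perm (Fin m))),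
      NormalRankIs (wrSub (glWrData (F := F) (m := m)) H T) m ∧
      Nat.card (wrSub (glWrData (F := F) (m := m)) H T) = 2 ^ fVal (Fintype.card F) (2 * m) := by
  classical
  haveI : Fact (Nat.Prime 2) := ⟨Nat.prime_two⟩
  have hq2 : 2 ≤ Fintype.card F := Fintype.one_lt_card
  have hodd : Odd (Fintype.card F) := odd_of_three hq2 hq4
  obtain ⟨H, K, hD, hH⟩ := exists_gl2Data (F := F) hq4
  obtain ⟨T, U, hT, hmod⟩ := exists_model 2 m (Fin m) (by simp)
  obtain ⟨hRk, hc⟩ := rankData_gl2 hq4 hD hH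
  refine ⟨H, T, normalRank_wr hRk hc _ T, ?_⟩
  rw [card_wrSub, hH, hT, val_card_GL hodd 2, fVal_two_mul hq2 hq4 m, ← pow_mul, ← pow_add]
  have h3 := fVal_two_mul hq2 hq4 1
  simp only [mul_one, Nat.factorial_one, padicValNat_one_right, add_zero, one_mul] at h3
  have h4 : fVal (Fintype.card F) 2 = 1 + padicValNat 2 (Fintype.card F ^ 2 - 1) := h3
  rw [h4]
  congr 1
  ring

theorem blockGL'_inj {α β : Type} [Fintype α] [Fintype β] [DecidableEq α] [DecidableEq β] :
    Function.Injective (blockGL (F := F) (α := α) (β := β)) := by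
  intro g g' h
  have hm := congrArg Units.val h
  simp only [blockGL_val] at hm
  obtain ⟨h1, -, -, h4⟩ := Matrix.fromBlocks_inj.mp hm
  exact Prod.ext (Units.ext h1) (Units.ext h4)

/-- The group `{±1}` in `GL₁`. -/
theorem card_neg_one_GL1 (h2 : (2 : F) ≠ 0) :
    Nat.card (Subgroup.zpowers (-1 : GL (Fin 1) F)) = 2 := by
  have hz2 : (-1 : GL (Fin 1) F) ^ 2 = 1 := by simp
  have hzne : (-1 : GL (Fin 1) F) ≠ 1 := by
    intro h
    have h0 : (((-1 : GL (Fin 1) F) : GL (Fin 1) F) : Matrix (Fin 1) (Fin 1) F) = 1 := by rw [h]; rfl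
    have h1 : (((-1 : GL (Fin 1) F) : GL (Fin 1) F) : Matrix (Fin 1) (Fin 1) F) 0 0 = (1 : Matrix (Fin 1) (Fin 1) F) 0 0 := by
      rw [h0]
    simp at h1
    apply h2
    linear_combination -h1
  rw [Nat.card_zpowers, orderOf_eq_prime hz2 hzne]

theorem case_three (hq4 : 4 ∣ Fintype.card F + 1) (n : ℕ)
    (S : Sylow 2 (GL (Fin n) F)) :
    NormalRankIs (S : Subgroup (GL (Fin n) F)) ((n + 1) / 2) := by
  classical
  haveI : Fact (Nat.Prime 2) := ⟨Nat.prime_two⟩
  have hq2 : 2 ≤ Fintype.card F := Fintype.one_lt_card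
  have hodd : Odd (Fintype.card F) := odd_of_three hq2 hq4
  have h2 : (2 : F) ≠ 0 := Cfsg.Agent.Lib.KS2.SL2.two_ne_zero_of_odd hodd
  rcases Nat.even_or_odd' n with ⟨m, rfl | rfl⟩
  · -- even
    have hk : (2 * m + 1) / 2 = m := by omega
    rw [hk]
    obtain ⟨H, T, hr, hc⟩ := case_even (F := F) hq4 m
    have hcc : Fintype.card (Fin 2 × Fin m) = 2 * m := by simp
    let e := Fintype.equivFinOfCardEq hcc
    let φ : GL (Fin 2 × Fin m) F ≃* GL (Fin (2 * m)) F := glReindex e
    have h1 := hr.map_inj φ.toMonoidHom φ.injective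
    refine h1.sylow _ ?_ S
    rw [Nat.factorization_def _ Nat.prime_two, val_card_GL hodd, ← hc]
    exact (Nat.card_congr (Subgroup.equivMapOfInjective _ φ.toMonoidHom φ.injective).toEquiv).symm
  · -- odd
    have hk : (2 * m + 1 + 1) / 2 = m + 1 := by omega
    rw [hk]
    obtain ⟨H, T, hr, hc⟩ := case_even (F := F) hq4 m
    have hC := card_neg_one_GL1 (F := F) h2
    have hcc : Fintype.card ((Fin 2 × Fin m) ⊕ Fin 1) = 2 * m + 1 := by simp
    let e := Fintype.equivFinOfCardEq hcc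
    let φ : GL ((Fin 2 × Fin m) ⊕ Fin 1) F ≃* GL (Fin (2 * m + 1)) F := glReindex e
    set A := wrSub (glWrData (F := F) (m := m)) H T with hA
    set C := Subgroup.zpowers (-1 : GL (Fin 1) F) with hCdef
    have h3 : NormalRankIs (A × C) (m + 1) := hr.prod_two hC
    have h4 : NormalRankIs (A.prod C) (m + 1) := h3.congr (Subgroup.prodEquiv A C).symm
    have h5 := h4.map_inj blockGL blockGL'_inj
    have h6 := h5.map_inj φ.toMonoidHom φ.injective
    refine h6.sylow _ ?_ S
    have e1 : Nat.card ↥((A.prod C).map blockGL) = Nat.card (A.prod C) :=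
      (Nat.card_congr (Subgroup.equivMapOfInjective _ _ blockGL'_inj).toEquiv).symm
    have e2 : Nat.card (((A.prod C).map blockGL).map φ.toMonoidHom) = Nat.card ↥((A.prod C).map blockGL) :=
      (Nat.card_congr (Subgroup.equivMapOfInjective _ φ.toMonoidHom φ.injective).toEquiv).symm
    have e3 : Nat.card (A.prod C) = Nat.card A * Nat.card C := by
      rw [Nat.card_congr (Subgroup.prodEquiv A C).toEquiv, Nat.card_prod]
    rw [Nat.factorization_def _ Nat.prime_two, val_card_GL hodd,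
      fVal_two_mul_add_one hq2 hq4, pow_succ, e2, e1, e3, hC, hc]

/-- The normal 2-rank of the general linear group over a finite field of odd order q: for n ≥ 1 and S a Sylow 2-subgroup of GL_n(F), the largest rank of an elementary abelian subgroup of S that is normal in S equals n when q ≡ 1 (mod 4) and ⌊(n + 1)/2⌋ when q ≡ 3 (mod 4). -/
theorem result {F : Type*} [Field F] [Fintype F] {q : ℕ} (hF : Fintype.card F = q) (hodd : Odd q) (n : ℕ) (hn : 1 ≤ n) (S : Sylow 2 (Matrix.GeneralLinearGroup (Fin n) F)) :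
    (q % 4 = 1 → ((∃ E : Subgroup ↥(S : Subgroup (Matrix.GeneralLinearGroup (Fin n) F)), E.Normal ∧ Cfsg.IsElementaryAbelian 2 E ∧ 2 ^ (n) ≤ Nat.card ↥E) ∧
      ∀ E : Subgroup ↥(S : Subgroup (Matrix.GeneralLinearGroup (Fin n) F)), E.Normal → Cfsg.IsElementaryAbelian 2 E → Nat.card ↥E ≤ 2 ^ (n))) ∧
    (q % 4 = 3 → ((∃ E : Subgroup ↥(S : Subgroup (Matrix.GeneralLinearGroup (Fin n) F)), E.Normal ∧ Cfsg.IsElementaryAbelian 2 E ∧ 2 ^ ((n + 1) / 2) ≤ Nat.card ↥E) ∧
      ∀ E : Subgroup ↥(S : Subgroup (Matrix.GeneralLinearGroup (Fin n) F)), E.Normal → Cfsg.IsElementaryAbelian 2 E → Nat.card ↥E ≤ 2 ^ ((n + 1) / 2))) := by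
  subst hF
  refine ⟨fun h1 => ?_, fun h3 => ?_⟩
  · have h4 : 4 ∣ Fintype.card F - 1 := by omega
    exact case_one h4 h1 n S
  · have h4 : 4 ∣ Fintype.card F + 1 := by omega
    exact case_three h4 n S

end Cfsg.Agent.S2249
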