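import Cfsg.Statements.S2255
import Cfsg.Agent.Lib.NilpSym.AltFinal

set_option autoImplicit false
open Cfsg

namespace Cfsg.Agent.S2255

/-- Let n be a natural number not congruent to 3 modulo 4, with n ∉ {5, 6, 9}. Then every nilpotent subgroup of the alternating group on n letters has order at most the order of a Sylow 2-subgroup of the alternating group (so the nilpotent subgroups of largest order are exactly the Sylow 2-subgroups). -/
theorem result  (n : ℕ) (hn : n % 4 ≠ 3)
    (h5 : n ≠ 5) (h6 : n ≠ 6) (h9 : n ≠ 9)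
    (N : Subgroup (alternatingGroup (Fin n))) (hN : Group.IsNilpotent N)
    (P : Sylow 2 (alternatingGroup (Fin n))) :
    Nat.card N ≤ Nat.card P := by
  open Cfsg.Agent.Lib.NilpSym in
  have h := bound_alt_subgroup N hN
  open Cfsg.Agent.Lib.NilpSym in
  simp only [Fintype.card_fin] at h
  by_cases h1 : n ≤ 1
  · have hB : Cfsg.Agent.Lib.NilpSym.B' n = 1 := by
      have h3 : n ≠ 3 := by omega
      simp [Cfsg.Agent.Lib.NilpSym.B', h1, h3, h5, h6, h9]
    rw [hB] at h
    exact h.trans Nat.card_pos
  · open Cfsg.Agent.Lib.NilpSym in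
    have hc := card_sylow_alt (X := Fin n) (by simp; omega) P
    rw [hc]
    have h3 : n ≠ 3 := by omega
    simpa [Cfsg.Agent.Lib.NilpSym.B', h1, h3, h5, h6, h9, hn] using h

end Cfsg.Agent.S2255
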