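import Cfsg.Statements.S2256
import Cfsg.Agent.Lib.NilpSym.AltFinal

set_option autoImplicit false
open Cfsg

namespace Cfsg.Agent.S2256

/-- Let n ≡ 3 (mod 4) with n ≥ 7. Then every nilpotent subgroup of the alternating group on n letters has order at most 3 times the order of a Sylow 2-subgroup of the alternating group on n − 3 letters; the bound is attained by a nilpotent subgroup isomorphic to the direct product of such a Sylow 2-subgroup with a cyclic group of order 3; and any two nilpotent subgroups of the alternating group attaining the bound are conjugate in it. -/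
theorem result  (n : ℕ) (hn : n % 4 = 3) (h7 : 7 ≤ n)
    (P : Sylow 2 (alternatingGroup (Fin (n - 3)))) :
    (∀ N : Subgroup (alternatingGroup (Fin n)), Group.IsNilpotent N → Nat.card N ≤ 3 * Nat.card P) ∧
    (∃ M : Subgroup (alternatingGroup (Fin n)), Group.IsNilpotent M ∧ Nat.card M = 3 * Nat.card P ∧
      Nonempty (M ≃* (↥(P : Subgroup (alternatingGroup (Fin (n - 3)))) × Multiplicative (ZMod 3)))) ∧
    (∀ N₁ N₂ : Subgroup (alternatingGroup (Fin n)), Group.IsNilpotent N₁ → Group.IsNilpotent N₂ →
      Nat.card N₁ = 3 * Nat.card P → Nat.card N₂ = 3 * Nat.card P →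
      ∃ g : alternatingGroup (Fin n), N₂ = N₁.map (MulAut.conj g).toMonoidHom) := by
  open Cfsg.Agent.Lib.NilpSym in
  have hP : Nat.card P = 2 ^ (e (n - 3) - 1) := by
    have := card_sylow_alt (X := Fin (n - 3)) (by simp; omega) P
    simpa using this
  have hB : Cfsg.Agent.Lib.NilpSym.B' n = 3 * 2 ^ (Cfsg.Agent.Lib.NilpSym.e (n - 3) - 1) := by
    have h3 : n ≠ 3 := by omega
    have h5 : n ≠ 5 := by omega
    have h6 : n ≠ 6 := by omega
    have h9 : n ≠ 9 := by omega
    have h1 : ¬ n ≤ 1 := by omega
    simp [Cfsg.Agent.Lib.NilpSym.B', h1, h3, h5, h6, h9, hn]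
  open Cfsg.Agent.Lib.NilpSym in
  refine ⟨?_, ?_, ?_⟩
  · intro N hN
    have h := bound_alt_subgroup N hN
    simp only [Fintype.card_fin] at h
    rw [hP, ← hB]
    exact h
  · exact exists_extremal_alt n (by omega) P (P.isPGroup'.isNilpotent)
  · intro N₁ N₂ h₁ h₂ c₁ c₂
    rw [hP] at c₁ c₂
    exact conj_alt (X := Fin n) (by simpa using hn) (by simpa using h7) N₁ N₂ h₁ h₂ (by simpa using c₁) (by simpa using c₂)

end Cfsg.Agent.S2256
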