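import Cfsg.Statements.S2268
import Mathlib

set_option autoImplicit false
open Cfsg

namespace Cfsg.Agent.S2268

theorem normal_centralizer_in_normalizer {G : Type*} [Group G] (S : Subgroup G) :
    ((Subgroup.centralizer (S : Set G)).subgroupOf (Subgroup.normalizer (S : Set G))).Normal := by
  constructor
  rintro ⟨x, hx⟩ hxc ⟨h, hh⟩
  simp only [Subgroup.mem_subgroupOf] at hxc ⊢
  rw [Subgroup.mem_centralizer_iff] at hxc ⊢
  intro z hz
  have hz' : h⁻¹ * z * h ∈ S := by
    have h1 := (Subgroup.mem_normalizer_iff.mp hh (h⁻¹ * z * h)).mpr (by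
      have : h * (h⁻¹ * z * h) * h⁻¹ = z := by group
      rw [this]; exact hz)
    exact h1
  have := hxc _ hz'
  show z * (h * x * h⁻¹) = h * x * h⁻¹ * z
  have e : z = h * (h⁻¹ * z * h) * h⁻¹ := by group
  calc z * (h * x * h⁻¹) = h * ((h⁻¹ * z * h) * x) * h⁻¹ := by group
    _ = h * (x * (h⁻¹ * z * h)) * h⁻¹ := by rw [this]
    _ = h * x * h⁻¹ * z := by group

/-- The result. -/
theorem result {G : Type*} [Group G] [Finite G] {p : ℕ} [Fact p.Prime]
    (P : Sylow p G) (hP : IsMulCommutative (P : Subgroup G)) (Q : Subgroup G) (hQ : Q ≤ (P : Subgroup G)) :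
    Subgroup.normalizer (Q : Set G) =
      (Subgroup.normalizer (Q : Set G) ⊓ Subgroup.normalizer ((P : Subgroup G) : Set G)) ⊔ Subgroup.centralizer (Q : Set G) ∧
    ((Subgroup.centralizer (Q : Set G)).subgroupOf (Subgroup.normalizer (Q : Set G))).index ∣ ((Subgroup.centralizer ((P : Subgroup G) : Set G)).subgroupOf (Subgroup.normalizer ((P : Subgroup G) : Set G))).index := by
  classical
  set N := Subgroup.normalizer (Q : Set G) with hN
  set C := Subgroup.centralizer (Q : Set G) with hC
  set NP := Subgroup.normalizer ((P : Subgroup G) : Set G) with hNP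
  set CP := Subgroup.centralizer ((P : Subgroup G) : Set G) with hCP
  have hCN : C ≤ N := by
    intro x hx
    rw [hN, Subgroup.mem_normalizer_iff]
    intro h
    have hcomm := Subgroup.mem_centralizer_iff.mp hx
    constructor
    · intro hh
      have : x * h * x⁻¹ = h := by rw [← hcomm h hh]; group
      rw [this]; exact hh
    · intro hh
      have h1 := hcomm _ hh
      have : h = x * h * x⁻¹ := by
        have h2 : x * h * x⁻¹ * x = x * (x * h * x⁻¹) := h1
        have h3 : x * h = x * (x * h * x⁻¹) := by simpa [mul_assoc] using h2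
        exact mul_left_cancel h3
      rw [this]; exact hh
  have hPC : (P : Subgroup G) ≤ C := by
    intro x hx
    rw [hC, Subgroup.mem_centralizer_iff]
    intro z hz
    have := hP.is_comm.comm ⟨z, hQ hz⟩ ⟨x, hx⟩
    simpa using congrArg Subtype.val this
  have hCPC : CP ≤ C := Subgroup.centralizer_le (by exact_mod_cast hQ)
  have hnC : (C.subgroupOf N).Normal := normal_centralizer_in_normalizer Q
  have hnCP : (CP.subgroupOf NP).Normal := normal_centralizer_in_normalizer (P : Subgroup G)
  have hPN : (P : Subgroup G) ≤ N := hPC.trans hCN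
  have part1 : N = (N ⊓ NP) ⊔ C := by
    apply le_antisymm
    · intro g hg
      let PN : Sylow p N := P.subtype hPN
      have hPN' : (PN : Subgroup N) ≤ C.subgroupOf N := by
        intro x hx
        simp only [PN, Sylow.coe_subtype, Subgroup.mem_subgroupOf] at hx ⊢
        exact hPC hx
      have htop := Sylow.normalizer_sup_eq_top' (N := C.subgroupOf N) PN hPN'
      have hgmem : (⟨g, hg⟩ : N) ∈ (⊤ : Subgroup N) := Subgroup.mem_top _
      rw [← htop] at hgmem
      have hgmem' : (⟨g, hg⟩ : N) ∈ ((Subgroup.normalizer (PN : Set N) ⊔ C.subgroupOf N : Subgroup N) : Set N) := hgmem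
      rw [Subgroup.mul_normal] at hgmem'
      obtain ⟨y, hy, z, hz, hyz⟩ := Set.mem_mul.mp hgmem'
      have hg' : (y : G) * (z : G) = g := congrArg Subtype.val hyz
      have hz' : (z : G) ∈ C := Subgroup.mem_subgroupOf.mp hz
      have hyNP : (y : G) ∈ NP := by
        rw [hNP, Subgroup.mem_normalizer_iff]
        have hy := Subgroup.mem_normalizer_iff.mp (SetLike.mem_coe.mp hy)
        intro x
        constructor
        · intro hx
          have hxN : x ∈ N := hPN hx
          have h1 : (⟨x, hxN⟩ : N) ∈ (PN : Set N) := by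
            show x ∈ (P : Subgroup G)
            exact hx
          have h2 := (hy ⟨x, hxN⟩).mp h1
          exact h2
        · intro hx
          have hxN : (y : G) * x * (y : G)⁻¹ ∈ N := hPN hx
          have hxN' : x ∈ N := by
            have : x = (y : G)⁻¹ * ((y : G) * x * (y : G)⁻¹) * y := by group
            rw [this]
            exact N.mul_mem (N.mul_mem (N.inv_mem y.2) hxN) y.2
          have h2 := (hy ⟨x, hxN'⟩).mpr hx
          exact h2
      rw [← hg']
      exact Subgroup.mul_mem_sup (Subgroup.mem_inf.mpr ⟨y.2, hyNP⟩) hz'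
    · exact sup_le inf_le_left hCN
  refine ⟨part1, ?_⟩
  set A := N ⊓ NP with hA
  have hAN : A ≤ N := inf_le_left
  have hANP : A ≤ NP := inf_le_right
  -- step a
  have stepa : (C.subgroupOf N).index = C.relIndex A := by
    have hsup : A.subgroupOf N ⊔ C.subgroupOf N = ⊤ := by
      rw [← Subgroup.subgroupOf_sup hAN hCN, ← part1, Subgroup.subgroupOf_self]
    have h1 := Subgroup.relIndex_sup_right (A.subgroupOf N) (C.subgroupOf N)
    rw [hsup, Subgroup.relIndex_top_right, Subgroup.relIndex_subgroupOf hAN] at h1
    exact h1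
  have stepb : C.relIndex A ∣ CP.relIndex A := Subgroup.relIndex_dvd_of_le_left A hCPC
  have stepc : CP.relIndex A ∣ (CP.subgroupOf NP).index := by
    have h2 := Subgroup.relIndex_dvd_index_of_normal (CP.subgroupOf NP) (A.subgroupOf NP)
    rwa [Subgroup.relIndex_subgroupOf hANP] at h2
  rw [stepa]
  exact stepb.trans stepc

end Cfsg.Agent.S2268
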