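import Cfsg.Statements.S2270
import Mathlib
import Cfsg.Agent.Lib.KS2.InvertAbelian

set_option autoImplicit false
open Cfsg

namespace Cfsg.Agent.S2270

/-- Let n ≥ 3, p an odd prime, and P an abelian Sylow p-subgroup of the symmetric group S_n (with p dividing n!, so that P ≠ 1). Then N(P)/C(P) has even order. -/
theorem result (n : ℕ) (hn : 3 ≤ n) {p : ℕ} [Fact p.Prime] (hp : p ≠ 2) (hpn : p ≤ n)
    (P : Sylow p (Equiv.Perm (Fin n))) (hP : IsMulCommutative (P : Subgroup (Equiv.Perm (Fin n)))) :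
    2 ∣ ((Subgroup.centralizer ((P : Subgroup (Equiv.Perm (Fin n))) : Set (Equiv.Perm (Fin n)))).subgroupOf (Subgroup.normalizer ((P : Subgroup (Equiv.Perm (Fin n))) : Set (Equiv.Perm (Fin n))))).index := by
  classical
  have hcard : p ∣ Nat.card (Equiv.Perm (Fin n)) := by
    rw [Nat.card_perm, Nat.card_fin]
    exact Nat.dvd_factorial (Nat.Prime.pos Fact.out) hpn
  have hne : (P : Subgroup (Equiv.Perm (Fin n))) ≠ ⊥ := P.ne_bot_of_dvd_card hcard
  have hnt : Nontrivial (P : Subgroup (Equiv.Perm (Fin n))) := (Subgroup.nontrivial_iff_ne_bot _).mpr hne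
  obtain ⟨a, ha, ha1⟩ := Subgroup.exists_ne_one_of_nontrivial (P : Subgroup (Equiv.Perm (Fin n)))
  have hcomm : ∀ x ∈ (P : Subgroup (Equiv.Perm (Fin n))), ∀ y ∈ (P : Subgroup (Equiv.Perm (Fin n))), x * y = y * x := by
    intro x hx y hy
    have := hP.is_comm.comm ⟨x, hx⟩ ⟨y, hy⟩
    exact congrArg Subtype.val this
  obtain ⟨t, ht2, hinv⟩ := Cfsg.Agent.Lib.KS2.exists_inverting_involution _ hcomm
  refine Cfsg.Agent.Lib.KS2.two_dvd_index_of_inverting _ t ht2 hinv a ha ?_
  intro h2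
  -- a has p-power order with p odd
  have hpg : IsPGroup p (P : Subgroup (Equiv.Perm (Fin n))) := P.isPGroup'
  obtain ⟨k, hk⟩ := hpg ⟨a, ha⟩
  have h1 : orderOf a ∣ 2 := orderOf_dvd_of_pow_eq_one (by rw [sq]; exact h2)
  have h3 : orderOf a ∣ p ^ k := by
    apply orderOf_dvd_of_pow_eq_one
    have := congrArg Subtype.val hk
    simpa using this
  have hc : Nat.Coprime 2 (p ^ k) := by
    apply Nat.Coprime.pow_right
    exact (Nat.coprime_primes Nat.prime_two Fact.out).mpr (Ne.symm hp)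
  have h4 : orderOf a = 1 := Nat.eq_one_of_dvd_coprimes hc h1 h3
  exact ha1 (orderOf_eq_one_iff.mp h4)

end Cfsg.Agent.S2270
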