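import Cfsg.Statements.S2278
import Mathlib
import Cfsg.Agent.Lib.KS2.RegN3c

set_option autoImplicit false
open Cfsg

namespace Cfsg.Agent.S2278




/-- Let F be a finite field. Then SL_3(F) is generated by two conjugate regular unipotent elements: there are u with u − 1 nilpotent and (u − 1)² ≠ 0, and g, such that u and g u g⁻¹ generate SL_3(F). -/
theorem result {F : Type*} [Field F] [Fintype F] :
    ∃ u g : Matrix.SpecialLinearGroup (Fin 3) F, IsNilpotent ((u : Matrix (Fin 3) (Fin 3) F) - 1) ∧ ((u : Matrix (Fin 3) (Fin 3) F) - 1) ^ (3 - 1) ≠ 0 ∧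
      Subgroup.closure ({u, g * u * g⁻¹} : Set (Matrix.SpecialLinearGroup (Fin 3) F)) = ⊤ := by

  obtain ⟨p, hc⟩ := CharP.exists F
  have hp : p.Prime := CharP.char_is_prime F p
  haveI : Fact p.Prime := ⟨hp⟩
  by_cases hp2 : p = 2
  · subst hp2
    obtain ⟨g, hg⟩ := Cfsg.Agent.Lib.KS2.Reg.sl3_char2 (F := F)
    exact ⟨Cfsg.Agent.Lib.KS2.Reg.uu, g, Cfsg.Agent.Lib.KS2.Reg.uu_nilp, Cfsg.Agent.Lib.KS2.Reg.uu_pow_ne (by omega), hg⟩
  · refine ⟨Cfsg.Agent.Lib.KS2.Reg.Cm, ?_⟩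
    have hn : IsNilpotent (((Cfsg.Agent.Lib.KS2.Reg.Cm : Matrix.SpecialLinearGroup (Fin 3) F) : Matrix (Fin 3) (Fin 3) F) - 1) :=
      ⟨3, Cfsg.Agent.Lib.KS2.Reg.Cm_sub_one_pow_three⟩
    by_cases hp3 : p = 3
    · subst hp3
      obtain ⟨g, hg⟩ := Cfsg.Agent.Lib.KS2.Reg.sl3_char3 (F := F)
      exact ⟨g, hn, Cfsg.Agent.Lib.KS2.Reg.Cm_sub_one_pow_two, hg⟩
    · obtain ⟨g, hg⟩ := Cfsg.Agent.Lib.KS2.Reg.sl3_large (F := F) hp2 hp3
      exact ⟨g, hn, Cfsg.Agent.Lib.KS2.Reg.Cm_sub_one_pow_two, hg⟩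

end Cfsg.Agent.S2278
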