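import Cfsg.Statements.S2279
import Mathlib
import Cfsg.Agent.Lib.KS2.RegPair3

set_option autoImplicit false
open Cfsg

namespace Cfsg.Agent.S2279




/-- Let F be a finite field with q elements and n ≥ 4. Then SL_n(F) is generated by two regular unipotent elements (elements u with u − 1 nilpotent and (u − 1)^(n−1) ≠ 0); if q is prime, the two can be taken conjugate in SL_n(F). -/
theorem result {F : Type*} [Field F] [Fintype F] (n : ℕ) (hn : 4 ≤ n) :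
    (∃ u v : Matrix.SpecialLinearGroup (Fin n) F, (IsNilpotent ((u : Matrix (Fin n) (Fin n) F) - 1) ∧ ((u : Matrix (Fin n) (Fin n) F) - 1) ^ (n - 1) ≠ 0) ∧ (IsNilpotent ((v : Matrix (Fin n) (Fin n) F) - 1) ∧ ((v : Matrix (Fin n) (Fin n) F) - 1) ^ (n - 1) ≠ 0) ∧
      Subgroup.closure ({u, v} : Set (Matrix.SpecialLinearGroup (Fin n) F)) = ⊤) ∧
    ((Fintype.card F).Prime → ∃ u g : Matrix.SpecialLinearGroup (Fin n) F, (IsNilpotent ((u : Matrix (Fin n) (Fin n) F) - 1) ∧ ((u : Matrix (Fin n) (Fin n) F) - 1) ^ (n - 1) ≠ 0) ∧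
      Subgroup.closure ({u, g * u * g⁻¹} : Set (Matrix.SpecialLinearGroup (Fin n) F)) = ⊤) := by
  obtain ⟨g, hg⟩ := Cfsg.Agent.Lib.KS2.Reg.sl_two_conj (F := F) hn
  have hu1 : IsNilpotent (((Cfsg.Agent.Lib.KS2.Reg.uu : Matrix.SpecialLinearGroup (Fin n) F) : Matrix (Fin n) (Fin n) F) - 1) :=
    Cfsg.Agent.Lib.KS2.Reg.uu_nilp
  have hu2 : (((Cfsg.Agent.Lib.KS2.Reg.uu : Matrix.SpecialLinearGroup (Fin n) F) : Matrix (Fin n) (Fin n) F) - 1) ^ (n - 1) ≠ 0 :=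
    Cfsg.Agent.Lib.KS2.Reg.uu_pow_ne (by omega)
  have hc : ((g * Cfsg.Agent.Lib.KS2.Reg.uu * g⁻¹ : Matrix.SpecialLinearGroup (Fin n) F) : Matrix (Fin n) (Fin n) F) - 1
      = (g : Matrix (Fin n) (Fin n) F) * (((Cfsg.Agent.Lib.KS2.Reg.uu : Matrix.SpecialLinearGroup (Fin n) F) : Matrix (Fin n) (Fin n) F) - 1) * ((g⁻¹ : Matrix.SpecialLinearGroup (Fin n) F) : Matrix (Fin n) (Fin n) F) := by
    simp only [Matrix.SpecialLinearGroup.coe_mul]
    rw [mul_sub, sub_mul, mul_one, Cfsg.Agent.Lib.KS2.Reg.coe_mul_inv]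
  have hpow : ∀ k : ℕ, (((g * Cfsg.Agent.Lib.KS2.Reg.uu * g⁻¹ : Matrix.SpecialLinearGroup (Fin n) F) : Matrix (Fin n) (Fin n) F) - 1) ^ k
      = (g : Matrix (Fin n) (Fin n) F) * (((Cfsg.Agent.Lib.KS2.Reg.uu : Matrix.SpecialLinearGroup (Fin n) F) : Matrix (Fin n) (Fin n) F) - 1) ^ k * ((g⁻¹ : Matrix.SpecialLinearGroup (Fin n) F) : Matrix (Fin n) (Fin n) F) := by
    intro k
    rw [hc]
    induction k with
    | zero =>
      rw [pow_zero, pow_zero, mul_one, Cfsg.Agent.Lib.KS2.Reg.coe_mul_inv]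
    | succ k ih =>
      rw [pow_succ, ih, pow_succ]
      have e := Cfsg.Agent.Lib.KS2.Reg.coe_inv_mul g
      calc _ = (g : Matrix (Fin n) (Fin n) F) * (((Cfsg.Agent.Lib.KS2.Reg.uu : Matrix.SpecialLinearGroup (Fin n) F) : Matrix (Fin n) (Fin n) F) - 1) ^ k * (((g⁻¹ : Matrix.SpecialLinearGroup (Fin n) F) : Matrix (Fin n) (Fin n) F) * (g : Matrix (Fin n) (Fin n) F)) * (((Cfsg.Agent.Lib.KS2.Reg.uu : Matrix.SpecialLinearGroup (Fin n) F) : Matrix (Fin n) (Fin n) F) - 1) * ((g⁻¹ : Matrix.SpecialLinearGroup (Fin n) F) : Matrix (Fin n) (Fin n) F) := by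
            simp only [mul_assoc]
        _ = _ := by
            rw [e, mul_one]
            simp only [mul_assoc]
  have hv1 : IsNilpotent (((g * Cfsg.Agent.Lib.KS2.Reg.uu * g⁻¹ : Matrix.SpecialLinearGroup (Fin n) F) : Matrix (Fin n) (Fin n) F) - 1) := by
    obtain ⟨k, hk⟩ := hu1
    refine ⟨k, ?_⟩
    rw [hpow, hk]
    simp
  have hv2 : (((g * Cfsg.Agent.Lib.KS2.Reg.uu * g⁻¹ : Matrix.SpecialLinearGroup (Fin n) F) : Matrix (Fin n) (Fin n) F) - 1) ^ (n - 1) ≠ 0 := by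
    rw [hpow]
    intro h
    apply hu2
    have e1 := Cfsg.Agent.Lib.KS2.Reg.coe_inv_mul g
    have e2 := Cfsg.Agent.Lib.KS2.Reg.coe_mul_inv g
    calc _ = ((g⁻¹ : Matrix.SpecialLinearGroup (Fin n) F) : Matrix (Fin n) (Fin n) F) * ((g : Matrix (Fin n) (Fin n) F) * (((Cfsg.Agent.Lib.KS2.Reg.uu : Matrix.SpecialLinearGroup (Fin n) F) : Matrix (Fin n) (Fin n) F) - 1) ^ (n - 1) * ((g⁻¹ : Matrix.SpecialLinearGroup (Fin n) F) : Matrix (Fin n) (Fin n) F)) * (g : Matrix (Fin n) (Fin n) F) := by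
          simp only [mul_assoc]
          rw [e1, mul_one, ← mul_assoc, e1, one_mul]
      _ = 0 := by rw [h]; simp
  exact ⟨⟨_, _, ⟨hu1, hu2⟩, ⟨hv1, hv2⟩, hg⟩, fun _ => ⟨_, g, ⟨hu1, hu2⟩, hg⟩⟩

end Cfsg.Agent.S2279
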