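import Cfsg.Statements.S2337
import Mathlib
import Cfsg.Agent.Lib.Sz.Simple
import Cfsg.Agent.Lib.Sz.Bridge
import Cfsg.Agent.Lib.Sz.Lie

set_option autoImplicit false
open Cfsg

namespace Cfsg.Agent.S2337


open Cfsg.Agent.SzT

lemma z2 (z : ZMod 2) : z = 0 ∨ z = 1 := by revert z; decide

lemma exists_trace (F : Type*) [Field F] [Fintype F] [CharP F 2] :
    ∃ t : F →+ ZMod 2, (∀ x, t (x ^ 2) = t x) ∧ ∀ a, a ≠ 0 → ∃ b, t (a * b) ≠ 0 := by
  letI : Algebra (ZMod 2) F := ZMod.algebra F 2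
  haveI : Fact (Nat.Prime 2) := ⟨Nat.prime_two⟩
  refine ⟨(Algebra.trace (ZMod 2) F).toAddMonoidHom, ?_, ?_⟩
  · intro x
    have e := Algebra.trace_eq_of_algEquiv (FiniteField.frobeniusAlgEquivOfAlgebraic (ZMod 2) F) x
    rw [FiniteField.coe_frobeniusAlgEquivOfAlgebraic, ZMod.card] at e
    exact e
  · intro a ha
    have htr := (traceForm_nondegenerate (ZMod 2) F).1 a
    simp_rw [Algebra.traceForm_apply] at htr
    by_contra hf
    push Not at hf
    exact ha (htr hf)

section chars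
variable {F : Type*} [Field F] [Fintype F]

/-- The additive character attached to a functional. -/
noncomputable def psi (t : F →+ ZMod 2) (x : F) : ℂ := if t x = 0 then 1 else -1

lemma psi_zero (t : F →+ ZMod 2) : psi t 0 = 1 := by simp [psi]

lemma psi_add (t : F →+ ZMod 2) (x y : F) : psi t (x + y) = psi t x * psi t y := by
  unfold psi
  rw [map_add]
  rcases z2 (t x) with h1 | h1 <;> rcases z2 (t y) with h2 | h2 <;> rw [h1, h2] <;> simp
  decide

lemma psi_mul_self (t : F →+ ZMod 2) (x : F) : psi t x * psi t x = 1 := by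
  unfold psi
  split_ifs <;> simp

lemma psi_ne (t : F →+ ZMod 2) {x : F} (h : t x ≠ 0) : psi t x = -1 := by simp [psi, h]

lemma sum_psi (t : F →+ ZMod 2) (ht : ∀ a, a ≠ 0 → ∃ b, t (a * b) ≠ 0) {k : F} (hk : k ≠ 0) :
    ∑ b : F, psi t (k * b) = 0 := by
  obtain ⟨b0, hb0⟩ := ht k hk
  have e : ∑ b : F, psi t (k * b) = ∑ b : F, psi t (k * (b0 + b)) :=
    (Equiv.sum_comp (Equiv.addLeft b0) (fun b => psi t (k * b))).symm
  have e2 : ∑ b : F, psi t (k * (b0 + b)) = - ∑ b : F, psi t (k * b) := by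
    rw [← Finset.sum_neg_distrib]
    refine Finset.sum_congr rfl fun b _ => ?_
    rw [mul_add, psi_add, psi_ne t hb0]
    ring
  have e3 : (2 : ℂ) * ∑ b : F, psi t (k * b) = 0 := by
    linear_combination e + e2
  simpa using e3

lemma sum_psi' (t : F →+ ZMod 2) (ht : ∀ a, a ≠ 0 → ∃ b, t (a * b) ≠ 0) {b : F} (hb : b ≠ 0) :
    ∑ k : F, psi t (k * b) = 0 := by
  simp_rw [mul_comm _ b]
  exact sum_psi t ht hb

end chars

section main
variable {F : Type*} [Field F] [Fintype F] {s : ℕ} [h : SzF F s]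
variable {V : Type*} [AddCommGroup V] [Module ℂ V]

/-- The simultaneous eigenspace of the central involutions. -/
def WW (ρ : GG s F →* Module.End ℂ V) (t : F →+ ZMod 2) (k : F) : Submodule ℂ V where
  carrier := {v | ∀ b, ρ (uG s 0 b) v = psi t (k * b) • v}
  add_mem' := by
    intro x y hx hy b
    rw [map_add, hx b, hy b, smul_add]
  zero_mem' := by
    intro b
    simp
  smul_mem' := by
    intro c x hx b
    rw [map_smul, hx b, smul_comm]

lemma mem_WW {ρ : GG s F →* Module.End ℂ V} {t : F →+ ZMod 2} {k : F} {v : V} :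
    v ∈ WW ρ t k ↔ ∀ b, ρ (uG s 0 b) v = psi t (k * b) • v := Iff.rfl

lemma uG_comm_central (a b c : F) : uG s 0 c * uG s a b = uG s a b * uG s 0 c := by
  rw [uG_mul, uG_mul, s_zero (s := s), mul_zero, zero_mul, zero_add, add_zero, add_zero, add_zero,
    add_comm c b]

lemma WW_inv (ρ : GG s F →* Module.End ℂ V) (t : F →+ ZMod 2) (k a b : F) :
    ∀ v ∈ WW ρ t k, ρ (uG s a b) v ∈ WW ρ t k := by
  intro v hv c
  have e : ρ (uG s 0 c) (ρ (uG s a b) v) = ρ (uG s a b) (ρ (uG s 0 c) v) := by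
    rw [← Module.End.mul_apply, ← map_mul, uG_comm_central, map_mul, Module.End.mul_apply]
  rw [e, hv c, map_smul]

/-- `T b` on a fixed vector's sum lies in the eigenspace. -/
lemma sum_mem_WW (ρ : GG s F →* Module.End ℂ V) (t : F →+ ZMod 2) (k : F) (v : V) :
    ∑ b : F, psi t (k * b) • ρ (uG s 0 b) v ∈ WW ρ t k := by
  intro c
  rw [map_sum, Finset.smul_sum]
  have e : ∀ b : F, ρ (uG s 0 c) (psi t (k * b) • ρ (uG s 0 b) v)
      = psi t (k * b) • ρ (uG s 0 (c + b)) v := by
    intro b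
    rw [map_smul, ← Module.End.mul_apply, ← map_mul, uG_mul, s_zero (s := s), zero_mul, add_zero,
      add_zero]
  simp_rw [e]
  rw [← Equiv.sum_comp (Equiv.addLeft c)]
  refine Finset.sum_congr rfl fun b _ => ?_
  simp only [Equiv.coe_addLeft]
  have e2 : c + (c + b) = b := by rw [← add_assoc, add_self' (s := s), zero_add]
  rw [e2, mul_add, psi_add, smul_smul]

variable [FiniteDimensional ℂ V]

lemma exists_WW_ne_bot (ρ : GG s F →* Module.End ℂ V) (hρ : Function.Injective ρ)
    (t : F →+ ZMod 2) (ht : ∀ a, a ≠ 0 → ∃ b, t (a * b) ≠ 0) :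
    ∃ k : F, k ≠ 0 ∧ WW ρ t k ≠ ⊥ := by
  classical
  by_contra hcon
  push Not at hcon
  have h1 : ρ (uG s 0 (1 : F)) ≠ 1 := by
    intro he
    have := hρ (he.trans (map_one ρ).symm)
    have h2 : uG s (0 : F) 1 = uG s 0 0 := by rw [this, uG_zero]
    exact one_ne_zero (uG_inj h2).2
  obtain ⟨v, hv⟩ : ∃ v, ρ (uG s 0 (1 : F)) v ≠ v := by
    by_contra hc
    push Not at hc
    exact h1 (LinearMap.ext hc)
  let w : F → V := fun k => ∑ b : F, psi t (k * b) • ρ (uG s 0 b) v
  have hw : ∀ k, k ≠ 0 → w k = 0 := by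
    intro k hk
    have := sum_mem_WW ρ t k v
    rw [hcon k hk] at this
    simpa using this
  have hsum : ∑ k : F, w k = (Fintype.card F : ℂ) • v := by
    simp only [w]
    rw [Finset.sum_comm]
    simp_rw [← Finset.sum_smul]
    rw [Finset.sum_eq_single (0 : F)]
    · simp [psi_zero, uG_zero]
    · intro b _ hb
      rw [sum_psi' t ht hb, zero_smul]
    · simp
  have hw0 : ∑ k : F, w k = w 0 := by
    rw [Finset.sum_eq_single (0 : F)]
    · intro k _ hk
      exact hw k hk
    · simp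
  have h0 : ρ (uG s 0 (1 : F)) (w 0) = w 0 := by
    have := sum_mem_WW ρ t 0 v 1
    rw [zero_mul, psi_zero, one_smul] at this
    exact this
  rw [hw0] at hsum
  rw [hsum, map_smul] at h0
  have hq : (Fintype.card F : ℂ) ≠ 0 := by
    exact_mod_cast Fintype.card_ne_zero
  exact hv (smul_right_injective V hq h0)

/-- Independence of the eigenspaces. -/
lemma sum_finrank_le [DecidableEq F] (ρ : GG s F →* Module.End ℂ V)
    (t : F →+ ZMod 2) (ht : ∀ a, a ≠ 0 → ∃ b, t (a * b) ≠ 0) :
    ∑ k : {k : F // k ≠ 0}, Module.finrank ℂ (WW ρ t k.1) ≤ Module.finrank ℂ V := by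
  rw [← Module.finrank_pi_fintype]
  let L : (∀ k : {k : F // k ≠ 0}, WW ρ t k.1) →ₗ[ℂ] V :=
    LinearMap.lsum ℂ (fun k : {k : F // k ≠ 0} => WW ρ t k.1) ℂ (fun k => (WW ρ t k.1).subtype)
  apply LinearMap.finrank_le_finrank_of_injective (f := L)
  rw [← LinearMap.ker_eq_bot, LinearMap.ker_eq_bot']
  intro f hf
  have hf' : ∑ k : {k : F // k ≠ 0}, ((f k : WW ρ t k.1) : V) = 0 := by
    simpa [L] using hf
  funext k0
  apply Subtype.ext
  have hq : (Fintype.card F : ℂ) ≠ 0 := by
    exact_mod_cast Fintype.card_ne_zero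
  have e := congrArg (fun x => ∑ b : F, psi t (k0.1 * b) • ρ (uG s 0 b) x) hf'
  simp only [map_sum, Finset.smul_sum, map_zero, smul_zero, Finset.sum_const_zero] at e
  rw [Finset.sum_comm] at e
  have e3 : ∀ k : {k : F // k ≠ 0}, ∑ b : F, psi t (k0.1 * b) • ρ (uG s 0 b) ((f k : WW ρ t k.1) : V)
      = (if k = k0 then (Fintype.card F : ℂ) else 0) • ((f k : WW ρ t k.1) : V) := by
    intro k
    have : ∀ b : F, psi t (k0.1 * b) • ρ (uG s 0 b) ((f k : WW ρ t k.1) : V)
        = psi t ((k0.1 + k.1) * b) • ((f k : WW ρ t k.1) : V) := by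
      intro b
      rw [(f k).2 b, smul_smul, add_mul, psi_add]
    simp_rw [this]
    rw [← Finset.sum_smul]
    congr 1
    split_ifs with hk
    · subst hk
      have e4 : k.1 + k.1 = 0 := add_self' (s := s) _
      simp [e4, psi_zero]
    · apply sum_psi t ht
      intro h0
      apply hk
      apply Subtype.ext
      exact eq_of_add_eq_zero' (s := s) (by rw [add_comm]; exact h0)
  simp_rw [e3] at e
  simp only [ite_smul, zero_smul] at e
  rw [Finset.sum_ite_eq' Finset.univ k0] at e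
  simp only [Finset.mem_univ, if_true] at e
  simpa [hq] using e

end main

section main2
variable {F : Type*} [Field F] [Fintype F] {s : ℕ} [h : SzF F s]
variable {V : Type*} [AddCommGroup V] [Module ℂ V]

lemma WW_translate (ρ : GG s F →* Module.End ℂ V) (t : F →+ ZMod 2) (k : F) (l : Fˣ) :
    ∀ v ∈ WW ρ t k, ρ (dG s l) v ∈ WW ρ t (k * ((l : F) ^ s * l * l)⁻¹) := by
  intro v hv b
  set τ : F := (l : F) ^ s * l * l with hτ
  have hτ0 : τ ≠ 0 := mul_ne_zero (mul_ne_zero (pow_ne_zero _ l.ne_zero) l.ne_zero) l.ne_zero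
  have e : uG s 0 b * dG s l = dG s l * uG s 0 (τ⁻¹ * b) := by
    have := dG_conj_uG (s := s) l 0 (τ⁻¹ * b)
    rw [mul_zero, ← hτ, mul_inv_cancel_left₀ hτ0] at this
    rw [← this]
    group
  calc ρ (uG s 0 b) (ρ (dG s l) v) = ρ (dG s l) (ρ (uG s 0 (τ⁻¹ * b)) v) := by
        rw [← Module.End.mul_apply, ← map_mul, e, map_mul, Module.End.mul_apply]
     _ = psi t (k * τ⁻¹ * b) • ρ (dG s l) v := by
        rw [hv, map_smul, mul_assoc]

lemma exists_tau (x : Fˣ) : ∃ l : Fˣ, (l : F) ^ s * l * l = x := by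
  have hinj : Function.Injective (powMonoidHom (α := Fˣ) (s + 2)) := by
    rw [injective_iff_map_eq_one]
    intro l hl
    by_contra hne
    apply pow_s2_ne_one (s := s) hne
    have := congrArg (Units.val) hl
    simp only [powMonoidHom_apply, Units.val_pow_eq_pow_val, Units.val_one] at this
    rw [pow_add, pow_two] at this
    rw [mul_assoc]
    exact this
  obtain ⟨l, hl⟩ := (Finite.injective_iff_surjective.mp hinj) x
  refine ⟨l, ?_⟩
  rw [← hl]
  simp only [powMonoidHom_apply, Units.val_pow_eq_pow_val]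
  rw [pow_add, pow_two, mul_assoc]

lemma finrank_WW_le [FiniteDimensional ℂ V] (ρ : GG s F →* Module.End ℂ V) (t : F →+ ZMod 2)
    {k k' : F} (hk : k ≠ 0) (hk' : k' ≠ 0) :
    Module.finrank ℂ (WW ρ t k) ≤ Module.finrank ℂ (WW ρ t k') := by
  obtain ⟨l, hl⟩ := exists_tau (s := s) (Units.mk0 (k / k') (div_ne_zero hk hk'))
  have e : k' = k * ((l : F) ^ s * l * l)⁻¹ := by
    rw [hl, Units.val_mk0]
    field_simp
  rw [e]
  apply LinearMap.finrank_le_finrank_of_injective
    (f := (ρ (dG s l)).restrict (WW_translate ρ t k l))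
  intro x y hxy
  apply Subtype.ext
  have e1 : ρ (dG s l) (x : V) = ρ (dG s l) (y : V) := congrArg Subtype.val hxy
  have e2 := congrArg (ρ (dG s l⁻¹)) e1
  rw [← Module.End.mul_apply, ← Module.End.mul_apply, ← map_mul, dG_mul, inv_mul_cancel, dG_one,
    map_one] at e2
  simpa using e2

/-- The radical of the commutator pairing on the central eigenspace. -/
def Rad (s : ℕ) [SzF F s] (t : F →+ ZMod 2) (k : F) : AddSubgroup F where
  carrier := {a | ∀ c : F, t (k * (c ^ s * a + a ^ s * c)) = 0}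
  add_mem' := by
    intro a a' ha ha' c
    have e : k * (c ^ s * (a + a') + (a + a') ^ s * c)
        = k * (c ^ s * a + a ^ s * c) + k * (c ^ s * a' + a' ^ s * c) := by
      rw [s_pow_add]
      ring
    rw [e, map_add, ha c, ha' c, add_zero]
  zero_mem' := by
    intro c
    simp [s_zero (s := s)]
  neg_mem' := by
    intro a ha c
    rw [neg_eq' (s := s)]
    exact ha c

lemma mem_Rad {t : F →+ ZMod 2} {k a : F} :
    a ∈ Rad s t k ↔ ∀ c : F, t (k * (c ^ s * a + a ^ s * c)) = 0 := Iff.rfl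

lemma Rad_key {t : F →+ ZMod 2} (ht2 : ∀ x, t (x ^ 2) = t x) (hts : ∀ x, t (x ^ s) = t x)
    (ht : ∀ a, a ≠ 0 → ∃ b, t (a * b) ≠ 0) {k a : F} (ha : a ∈ Rad s t k) (ha0 : a ≠ 0) :
    k ^ s = k ^ 2 * a ^ s := by
  have hA : (k * a) ^ s + (k * a ^ s) ^ 2 = 0 := by
    by_contra hA
    obtain ⟨y, hy⟩ := ht _ hA
    obtain ⟨c, rfl⟩ := sq_surj (s := s) y
    apply hy
    have e0 := ha c
    have e1 : t (k * (c ^ s * a + a ^ s * c)) = t (k * a * c ^ s) + t (k * a ^ s * c) := by
      rw [← map_add]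
      congr 1
      ring
    rw [← hts (k * a * c ^ s), ← ht2 (k * a ^ s * c)] at e1
    rw [e1] at e0
    have e2 : ((k * a) ^ s + (k * a ^ s) ^ 2) * c ^ 2
        = (k * a * c ^ s) ^ s + (k * a ^ s * c) ^ 2 := by
      rw [mul_pow (k * a) (c ^ s) s, h.sq c, mul_pow (k * a ^ s) c 2]
      ring
    rw [e2, map_add]
    exact e0
  have hA' : (k * a) ^ s = (k * a ^ s) ^ 2 := eq_of_add_eq_zero' (s := s) hA
  have has : a ^ s ≠ 0 := pow_ne_zero _ ha0
  rw [mul_pow, mul_pow] at hA'
  apply mul_right_cancel₀ has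
  rw [hA']
  ring

lemma Rad_card {t : F →+ ZMod 2} (ht2 : ∀ x, t (x ^ 2) = t x) (hts : ∀ x, t (x ^ s) = t x)
    (ht : ∀ a, a ≠ 0 → ∃ b, t (a * b) ≠ 0) {k : F} (hk : k ≠ 0) :
    Nat.card (Rad s t k) ≤ 2 := by
  classical
  have hinj : Function.Injective (fun a : Rad s t k => decide ((a : F) = 0)) := by
    intro a a' he
    simp only [decide_eq_decide] at he
    apply Subtype.ext
    by_cases h0 : (a : F) = 0
    · rw [h0, he.mp h0]
    · have h0' : (a' : F) ≠ 0 := fun hh => h0 (he.mpr hh)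
      have e1 := Rad_key ht2 hts ht a.2 h0
      have e2 := Rad_key ht2 hts ht a'.2 h0'
      apply s_inj (s := s)
      rw [e1] at e2
      exact mul_left_cancel₀ (pow_ne_zero 2 hk) e2
  have := Nat.card_le_card_of_injective _ hinj
  simpa using this

variable (ρ : GG s F →* Module.End ℂ V) (t : F →+ ZMod 2) (k : F)

/-- The restriction of the unipotent elements to the eigenspace. -/
def RR (a b : F) : Module.End ℂ (WW ρ t k) := (ρ (uG s a b)).restrict (WW_inv ρ t k a b)

lemma RR_mul (a b c d : F) :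
    RR ρ t k a b * RR ρ t k c d = RR ρ t k (a + c) (b + d + a ^ s * c) := by
  apply LinearMap.ext
  intro v
  apply Subtype.ext
  show ρ (uG s a b) (ρ (uG s c d) (v : V)) = ρ (uG s (a + c) (b + d + a ^ s * c)) (v : V)
  rw [← uG_mul, map_mul, Module.End.mul_apply]

lemma RR_zero_left (b : F) : RR ρ t k 0 b = psi t (k * b) • (1 : Module.End ℂ (WW ρ t k)) := by
  apply LinearMap.ext
  intro v
  apply Subtype.ext
  exact v.2 b

lemma RR_one : RR ρ t k 0 0 = 1 := by
  rw [RR_zero_left, mul_zero, psi_zero, one_smul]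

lemma RR_inv (c : F) : RR ρ t k c (c ^ s * c) * RR ρ t k c 0 = 1 := by
  rw [RR_mul, add_self' (s := s), add_zero, add_self' (s := s), RR_one]

lemma RR_inv' (c : F) : RR ρ t k c 0 * RR ρ t k c (c ^ s * c) = 1 := by
  rw [RR_mul, add_self' (s := s), zero_add, add_self' (s := s), RR_one]

lemma trace_RR (a b : F) (ha : a ∉ Rad s t k) [FiniteDimensional ℂ V] :
    LinearMap.trace ℂ _ (RR ρ t k a b) = 0 := by
  obtain ⟨c, hc⟩ : ∃ c, t (k * (c ^ s * a + a ^ s * c)) ≠ 0 := by
    by_contra hh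
    push Not at hh
    exact ha hh
  have e1 : RR ρ t k c 0 * RR ρ t k a b = (-1 : ℂ) • (RR ρ t k a b * RR ρ t k c 0) := by
    rw [RR_mul, RR_mul]
    have e : RR ρ t k (c + a) (0 + b + c ^ s * a)
        = RR ρ t k 0 (c ^ s * a + a ^ s * c) * RR ρ t k (a + c) (b + 0 + a ^ s * c) := by
      rw [RR_mul, s_zero (s := s), zero_mul, add_zero, zero_add, add_comm c a, add_zero, zero_add]
      congr 1
      have := add_self' (s := s) (a ^ s * c)
      linear_combination (-1 : F) * this
    rw [e, RR_zero_left, psi_ne t hc, smul_mul_assoc, one_mul]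
  have e2 : RR ρ t k c 0 * RR ρ t k a b * RR ρ t k c (c ^ s * c) = (-1 : ℂ) • RR ρ t k a b := by
    rw [e1, smul_mul_assoc, mul_assoc, RR_inv', mul_one]
  have e3 := congrArg (LinearMap.trace ℂ _) e2
  rw [map_smul, LinearMap.trace_mul_comm, ← mul_assoc, RR_inv, one_mul, smul_eq_mul] at e3
  have e4 : (2 : ℂ) * LinearMap.trace ℂ _ (RR ρ t k a b) = 0 := by
    linear_combination e3
  simpa using e4

lemma card_quot_le [FiniteDimensional ℂ V] (hne : WW ρ t k ≠ ⊥) :
    Nat.card (F ⧸ Rad s t k) ≤ Module.finrank ℂ (WW ρ t k) ^ 2 := by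
  classical
  haveI : Fintype (F ⧸ Rad s t k) := Fintype.ofFinite _
  let a : (F ⧸ Rad s t k) → F := Quotient.out
  have hli : LinearIndependent ℂ (fun i => RR ρ t k (a i) 0) := by
    rw [Fintype.linearIndependent_iff]
    intro g hg j
    have e := congrArg (fun X => LinearMap.trace ℂ _ (X * RR ρ t k (a j) ((a j) ^ s * (a j)))) hg
    simp only [Finset.sum_mul, map_sum, smul_mul_assoc, map_smul, RR_mul, zero_mul, map_zero,
      smul_eq_mul] at e
    rw [Finset.sum_eq_single j] at e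
    · have e5 : a j + a j = 0 := add_self' (s := s) _
      have e6 : 0 + (a j) ^ s * a j + (a j) ^ s * a j = 0 := by
        rw [zero_add]
        exact add_self' (s := s) _
      rw [e5, e6, RR_one, LinearMap.trace_one] at e
      have hd : (Module.finrank ℂ (WW ρ t k) : ℂ) ≠ 0 := by
        have : Module.finrank ℂ (WW ρ t k) ≠ 0 := by
          intro h0
          exact hne (Submodule.finrank_eq_zero.mp h0)
        exact_mod_cast this
      exact (mul_eq_zero.mp e).resolve_right hd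
    · intro i _ hij
      rw [trace_RR, mul_zero]
      intro hmem
      apply hij
      have : (QuotientAddGroup.mk (a i) : F ⧸ Rad s t k) = QuotientAddGroup.mk (a j) := by
        rw [QuotientAddGroup.eq, neg_eq' (s := s)]
        exact hmem
      simpa [a] using this
    · simp
  have := hli.fintype_card_le_finrank
  rw [Module.finrank_linearMap, ← pow_two, ← Nat.card_eq_fintype_card] at this
  exact this

end main2

section final
variable {F : Type*} [Field F] [Fintype F]

theorem key (m : ℕ) (hm : 1 ≤ m) (hF : Fintype.card F = 2 ^ (2 * m + 1))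
    {V : Type*} [AddCommGroup V] [Module ℂ V] [FiniteDimensional ℂ V]
    [h : SzF F (2 ^ (m + 1))] (ρ : GG (2 ^ (m + 1)) F →* Module.End ℂ V)
    (hρ : Function.Injective ρ) :
    2 ^ m * (2 ^ (2 * m + 1) - 1) ≤ Module.finrank ℂ V := by
  classical
  haveI := char2' (F := F) (s := 2 ^ (m + 1))
  obtain ⟨t, ht2, ht⟩ := exists_trace F
  have hts' : ∀ n : ℕ, ∀ x : F, t (x ^ (2 ^ n)) = t x := by
    intro n
    induction n with
    | zero => intro x; simp
    | succ n ih =>
      intro x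
      rw [pow_succ, pow_mul, ht2, ih]
  have hts : ∀ x : F, t (x ^ (2 ^ (m + 1))) = t x := hts' _
  obtain ⟨k0, hk0, hne⟩ := exists_WW_ne_bot ρ hρ t ht
  set d := Module.finrank ℂ (WW ρ t k0) with hd
  have h1 := card_quot_le ρ t k0 hne
  have h2 := Rad_card ht2 hts ht hk0
  have h3 : Nat.card F = Nat.card (F ⧸ Rad (2 ^ (m + 1)) t k0) * Nat.card (Rad (2 ^ (m + 1)) t k0) :=
    AddSubgroup.card_eq_card_quotient_mul_card_addSubgroup _
  rw [Nat.card_eq_fintype_card, hF] at h3
  have h4 : (2 ^ m) ^ 2 ≤ d ^ 2 := by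
    have h5 : 2 ^ (2 * m + 1) ≤ d ^ 2 * 2 := by
      rw [h3]
      exact Nat.mul_le_mul h1 h2
    have h6 : (2 : ℕ) ^ (2 * m + 1) = (2 ^ m) ^ 2 * 2 := by ring
    rw [h6] at h5
    exact Nat.le_of_mul_le_mul_right h5 (by norm_num)
  have h7 : 2 ^ m ≤ d := (Nat.pow_le_pow_iff_left (by norm_num)).mp h4
  have h8 := sum_finrank_le ρ t ht
  have h9 : ∑ k : {k : F // k ≠ 0}, d ≤ ∑ k : {k : F // k ≠ 0}, Module.finrank ℂ (WW ρ t k.1) :=
    Finset.sum_le_sum fun k _ => finrank_WW_le ρ t hk0 k.2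
  rw [Finset.sum_const, Finset.card_univ, Fintype.card_subtype_compl, Fintype.card_subtype_eq,
    smul_eq_mul, hF] at h9
  calc 2 ^ m * (2 ^ (2 * m + 1) - 1) = (2 ^ (2 * m + 1) - 1) * 2 ^ m := mul_comm _ _
    _ ≤ (2 ^ (2 * m + 1) - 1) * d := Nat.mul_le_mul_left _ h7
    _ ≤ _ := h9.trans h8

end final


/-- For the Suzuki group Sz(q), q = 2^(2m+1) with m ≥ 1 (realised inside Sp₄ over the field with q elements), every irreducible complex representation of degree at least 2 has degree at least 2^m·(q − 1). -/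
theorem result {F : Type*} [Field F] [Fintype F] (m : ℕ) (hm : 1 ≤ m) (hF : Fintype.card F = 2 ^ (2 * m + 1)) :
    (∀ (k : ℕ) (ρ : Representation ℂ (Cfsg.Lie.Sz F (2 ^ (m + 1))) (Fin k → ℂ)), ρ.IsIrreducible → 2 ≤ k → 2 ^ m * (2 ^ (2 * m + 1) - 1) ≤ k) := by

  classical
  intro k ρ hirr hk
  haveI hS : SzF F (2 ^ (m + 1)) := szF_of_card hm hF
  let e := szEquiv (2 ^ (m + 1)) F
  let σ : GG (2 ^ (m + 1)) F →* Module.End ℂ (Fin k → ℂ) := ρ.comp e.toMonoidHom
  have hfin : Module.finrank ℂ (Fin k → ℂ) = k := by simp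
  have hinj : Function.Injective σ := by
    have hsimple := isSimple_GG (s := 2 ^ (m + 1)) (F := F)
    rcases hsimple.eq_bot_or_eq_top_of_normal σ.ker inferInstance with h0 | h0
    · exact (MonoidHom.ker_eq_bot_iff σ).mp h0
    · exfalso
      have htriv : ∀ g, ρ g = 1 := by
        intro g
        have hm' : e.symm g ∈ σ.ker := by rw [h0]; trivial
        have := MonoidHom.mem_ker.mp hm'
        simpa [σ] using this
      let e0 : Fin k → ℂ := Pi.single ⟨0, by omega⟩ 1
      let e1 : Fin k → ℂ := Pi.single ⟨1, by omega⟩ 1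
      let S : Subrepresentation ρ := ⟨ℂ ∙ e0, by
        intro g v hv
        rw [htriv g]
        exact hv⟩
      rcases hirr.eq_bot_or_eq_top S with hS0 | hS1
      · have : e0 ∈ S.toSubmodule := Submodule.mem_span_singleton_self _
        rw [hS0] at this
        have h00 : e0 = 0 := (Submodule.mem_bot ℂ).mp this
        have := congrFun h00 ⟨0, by omega⟩
        simp [e0] at this
      · have : e1 ∈ S.toSubmodule := by
          rw [hS1]
          trivial
        obtain ⟨c, hc⟩ := Submodule.mem_span_singleton.mp this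
        have h10 := congrFun hc ⟨1, by omega⟩
        have h11 := congrFun hc ⟨0, by omega⟩
        simp [e0, e1] at h10 h11
  have := key m hm hF σ hinj
  rwa [hfin] at this


end Cfsg.Agent.S2337
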