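import Cfsg.Statements.S2355
import Mathlib
import Cfsg.Agent.Lib.KS2.LawFam4

set_option autoImplicit false
open Cfsg

namespace Cfsg.Agent.S2355




/-- A non-trivial law is satisfied by only finitely many finite simple groups that are alternating or classical, up to isomorphism: for every non-trivial element w of the free group on countably many generators there is a bound N such that every alternating group of degree ≥ 5 and every simple classical group (linear, symplectic, unitary or orthogonal, in this problem's sense) in which w is a law has order at most N. -/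
theorem result (w : FreeGroup ℕ) (hw : w ≠ 1) :
    ∃ N : ℕ, ∀ (G : Type*) [Group G] [Finite G],
      (Cfsg.IsAlternating G ∨ Cfsg.IsPSL G ∨ Cfsg.IsPSp G ∨ Cfsg.IsPSU G ∨ Cfsg.IsPOmegaOdd G ∨
          Cfsg.IsPOmegaPlus G ∨ Cfsg.IsPOmegaMinus G) →
      (∀ f : ℕ → G, FreeGroup.lift f w = 1) → Nat.card G ≤ N := by
  classical
  set L := w.toWord.length + 5 with hL
  set D := Cfsg.Agent.Lib.KS2.Law.Dw w.toWord + 4 with hD
  set B := D * D with hB
  have hB1 : 1 ≤ B := Nat.mul_pos (by omega) (by omega)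
  have hDB : D ≤ B := by nlinarith
  have hpow : ∀ {a d : ℕ}, a ≤ B → d ≤ 2 * L + 2 → a ^ (d * d) ≤ B ^ ((2 * L + 2) * (2 * L + 2)) := by
    intro a d ha hd
    calc a ^ (d * d) ≤ B ^ (d * d) := Nat.pow_le_pow_left ha _
      _ ≤ _ := Nat.pow_le_pow_right hB1 (Nat.mul_le_mul hd hd)
  refine ⟨L.factorial + B ^ ((2 * L + 2) * (2 * L + 2)), ?_⟩
  intro G _ _ hG hlaw
  have hlawQ : ∀ {Q : Type _} [Group Q] (e : G ≃* Q), ∀ f : ℕ → Q, FreeGroup.lift f w = 1 :=
    fun e f => Cfsg.Agent.Lib.KS2.Law.law_of_injective e.symm.toMonoidHom e.symm.injective w hlaw f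
  have hadd : ∀ {x : ℕ}, x ≤ B ^ ((2 * L + 2) * (2 * L + 2)) → x ≤ L.factorial + B ^ ((2 * L + 2) * (2 * L + 2)) := by
    intro x hx
    omega
  rcases hG with h | h | h | h | h | h | h
  · obtain ⟨n, hn, ⟨e⟩⟩ := h
    have hnL : n < L := by
      by_contra hlt
      obtain ⟨f, hf⟩ := Cfsg.Agent.Lib.KS2.Law.alternating_not_law w hw n (by omega)
      exact hf (hlawQ e f)
    have h1 : Nat.card G = Nat.card (alternatingGroup (Fin n)) := Nat.card_congr e.toEquiv
    have h2 : Nat.card (alternatingGroup (Fin n)) ≤ Nat.card (Equiv.Perm (Fin n)) := Subgroup.card_le_card_group _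
    have h3 : Nat.card (Equiv.Perm (Fin n)) = n.factorial := by
      rw [Nat.card_eq_fintype_card, Fintype.card_perm, Fintype.card_fin]
    have h4 : n.factorial ≤ L.factorial := Nat.factorial_le hnL.le
    omega
  · obtain ⟨F, _, _, n, hn, _, ⟨e⟩⟩ := h
    obtain ⟨h1, h2⟩ := Cfsg.Agent.Lib.KS2.Law.psl_bound (F := F) w hw n hn (hlawQ e)
    have h3 : Nat.card G = Nat.card (Matrix.ProjectiveSpecialLinearGroup (Fin n) F) := Nat.card_congr e.toEquiv
    have h4 := Cfsg.Agent.Lib.KS2.Law.card_quot_le (F := F) (H := Matrix.SpecialLinearGroup (Fin n) F) (ι := Fin n) (fun x => x.1) Subtype.val_injective (Subgroup.center _)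
    have h5 := hpow (a := Fintype.card F) (d := Fintype.card (Fin n)) (by omega) (by simp; omega)
    exact hadd (by rw [h3]; exact h4.trans h5)
  · obtain ⟨F, _, _, m, hm, _, ⟨e⟩⟩ := h
    obtain ⟨h1, h2⟩ := Cfsg.Agent.Lib.KS2.Law.psp_bound (F := F) (m := m) w hw (by omega) (hlawQ e)
    have h3 : Nat.card G = Nat.card (Cfsg.PSp m F) := Nat.card_congr e.toEquiv
    have h4 := Cfsg.Agent.Lib.KS2.Law.card_quot_le (F := F) (H := Matrix.symplecticGroup (Fin m) F) (ι := Fin m ⊕ Fin m) (fun x => x.1) Subtype.val_injective (Subgroup.center _)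
    have h5 := hpow (a := Fintype.card F) (d := Fintype.card (Fin m ⊕ Fin m)) (by omega) (by simp; omega)
    exact hadd (by rw [h3]; exact h4.trans h5)
  · obtain ⟨F, _, _, n, q, hcard, hn, _, ⟨e⟩⟩ := h
    obtain ⟨h1, h2⟩ := Cfsg.Agent.Lib.KS2.Law.psu_bound (F := F) (n := n) hcard w hw (by omega) (hlawQ e)
    have h3 : Nat.card G = Nat.card (Cfsg.PSU n F q) := Nat.card_congr e.toEquiv
    have h4 := Cfsg.Agent.Lib.KS2.Law.card_quot_le (F := F) (H := Cfsg.SU n F q) (ι := Fin n) (fun x => x.1.1)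
      (fun a b hab => Subtype.ext (Subtype.ext hab)) (Subgroup.center _)
    have hq : Fintype.card F ≤ B := by
      rw [hcard, pow_two]
      exact Nat.mul_le_mul (by omega) (by omega)
    have h5 := hpow (a := Fintype.card F) (d := Fintype.card (Fin n)) hq (by simp; omega)
    exact hadd (by rw [h3]; exact h4.trans h5)
  · obtain ⟨F, _, _, m, hm, _, ⟨e⟩⟩ := h
    obtain ⟨h1, h2⟩ := Cfsg.Agent.Lib.KS2.Law.pomegaOdd_bound (F := F) m w hw (by omega) (hlawQ e)
    have h3 : Nat.card G = Nat.card (Cfsg.POmega F (Cfsg.quadFormOdd m F)) := Nat.card_congr e.toEquiv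
    have h4 := Cfsg.Agent.Lib.KS2.Law.card_quot_le (F := F) (H := Cfsg.Omega F (Cfsg.quadFormOdd m F)) (ι := Unit ⊕ (Fin m ⊕ Fin m)) (fun x => ((x.1 : _) : Matrix.GeneralLinearGroup _ F).1)
      (fun a b hab => Subtype.ext (Subtype.ext (Units.ext hab))) (Subgroup.center _)
    have h5 := hpow (a := Fintype.card F) (d := Fintype.card (Unit ⊕ (Fin m ⊕ Fin m))) (by omega) (by simp; omega)
    exact hadd (by rw [h3]; exact h4.trans h5)
  · obtain ⟨F, _, _, m, hm, ⟨e⟩⟩ := h
    obtain ⟨h1, h2⟩ := Cfsg.Agent.Lib.KS2.Law.pomegaPlus_bound (F := F) m w hw (by omega) (hlawQ e)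
    have h3 : Nat.card G = Nat.card (Cfsg.POmega F (Cfsg.quadFormPlus m F)) := Nat.card_congr e.toEquiv
    have h4 := Cfsg.Agent.Lib.KS2.Law.card_quot_le (F := F) (H := Cfsg.Omega F (Cfsg.quadFormPlus m F)) (ι := Fin m ⊕ Fin m) (fun x => ((x.1 : _) : Matrix.GeneralLinearGroup _ F).1)
      (fun a b hab => Subtype.ext (Subtype.ext (Units.ext hab))) (Subgroup.center _)
    have h5 := hpow (a := Fintype.card F) (d := Fintype.card (Fin m ⊕ Fin m)) (by omega) (by simp; omega)
    exact hadd (by rw [h3]; exact h4.trans h5)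
  · obtain ⟨F, _, _, m, a, b, hm, _, ⟨e⟩⟩ := h
    obtain ⟨h1, h2⟩ := Cfsg.Agent.Lib.KS2.Law.pomegaMinus_bound (F := F) (m - 1) a b w hw (by omega) (hlawQ e)
    have h3 : Nat.card G = Nat.card (Cfsg.POmega F (Cfsg.quadFormMinus (m - 1) F a b)) := Nat.card_congr e.toEquiv
    have h4 := Cfsg.Agent.Lib.KS2.Law.card_quot_le (F := F) (H := Cfsg.Omega F (Cfsg.quadFormMinus (m - 1) F a b)) (ι := (Fin (m - 1) ⊕ Fin (m - 1)) ⊕ Fin 2) (fun x => ((x.1 : _) : Matrix.GeneralLinearGroup _ F).1)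
      (fun a b hab => Subtype.ext (Subtype.ext (Units.ext hab))) (Subgroup.center _)
    have h5 := hpow (a := Fintype.card F) (d := Fintype.card ((Fin (m - 1) ⊕ Fin (m - 1)) ⊕ Fin 2)) (by omega) (by simp; omega)
    exact hadd (by rw [h3]; exact h4.trans h5)

end Cfsg.Agent.S2355
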