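import Cfsg.Statements.S2459
import Mathlib
import Cfsg.Agent.Lib.KS2.Thom3
import Cfsg.Agent.Lib.KS2.Thom33

set_option autoImplicit false
open Cfsg

namespace Cfsg.Agent.S2459

open Cfsg.Agent.Lib.KS2 Matrix
open scoped MatrixGroups


universe u

/-- Passing to the projective group. -/
lemma psl_of_sl {F : Type u} [Field F] [Fintype F] (x : SL(3, F))
    (h : ∀ y : SL(3, F), (¬ ∃ r : F, (y : Matrix (Fin 3) (Fin 3) F) = r • 1) → ∃ u v : SL(3, F), y = (u * x * u⁻¹) * (v * x * v⁻¹)) :
    ∀ g : Matrix.ProjectiveSpecialLinearGroup (Fin 3) F, g ≠ 1 → ∃ u v : Matrix.ProjectiveSpecialLinearGroup (Fin 3) F,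
      g = (u * (QuotientGroup.mk x) * u⁻¹) * (v * (QuotientGroup.mk x) * v⁻¹) := by
  intro g hg
  obtain ⟨y, rfl⟩ := QuotientGroup.mk_surjective g
  have hns : ¬ ∃ r : F, (y : Matrix (Fin 3) (Fin 3) F) = r • 1 := by
    rintro ⟨r, hr⟩
    apply hg
    rw [QuotientGroup.eq_one_iff]
    rw [Matrix.SpecialLinearGroup.mem_center_iff]
    refine ⟨r, ?_, ?_⟩
    · have h1 := y.2
      rw [hr, Matrix.det_smul] at h1
      simpa using h1
    · rw [hr]
      ext i j
      simp [Matrix.scalar_apply, Matrix.diagonal_apply, Matrix.one_apply, Matrix.smul_apply]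
  obtain ⟨u, v, huv⟩ := h y hns
  refine ⟨QuotientGroup.mk u, QuotientGroup.mk v, ?_⟩
  rw [huv]
  rfl

lemma order_ok {F : Type u} [Field F] [Fintype F] (p : ℕ) [Fact p.Prime] [CharP F p] (x : Matrix.ProjectiveSpecialLinearGroup (Fin 3) F)
    (h : x ^ (Fintype.card F - 1) = 1) : ¬ p ∣ orderOf x := by
  intro hp
  have h1 : p ∣ Fintype.card F - 1 := hp.trans (orderOf_dvd_of_pow_eq_one h)
  obtain ⟨n, hpp, hn⟩ := FiniteField.card F p
  have h2 : p ∣ Fintype.card F := by
    rw [hn]
    exact dvd_pow_self p n.ne_zero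
  have h3 : 0 < Fintype.card F := Fintype.card_pos
  have h4 : p ∣ 1 := by
    have := (Nat.dvd_sub h2 h1)
    rwa [show Fintype.card F - (Fintype.card F - 1) = 1 by omega] at this
  exact hpp.one_lt.ne' (Nat.dvd_one.mp h4)

/-- The case of at least four elements. -/
lemma case_big {F : Type u} [Field F] [Fintype F] (p : ℕ) [Fact p.Prime] [CharP F p] (h4 : 4 ≤ Fintype.card F) :
    ∃ x : Matrix.ProjectiveSpecialLinearGroup (Fin 3) F, ¬ p ∣ orderOf x ∧ ∀ g : Matrix.ProjectiveSpecialLinearGroup (Fin 3) F, g ≠ 1 → ∃ u v : Matrix.ProjectiveSpecialLinearGroup (Fin 3) F, g = (u * x * u⁻¹) * (v * x * v⁻¹) := by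
  classical
  obtain ⟨a, ha⟩ : ∃ a : F, a ∉ ({0, 1, -1} : Finset F) := by
    by_contra hc
    push Not at hc
    have : (Finset.univ : Finset F) ⊆ {0, 1, -1} := fun a _ => hc a
    have h5 := Finset.card_le_card this
    rw [Finset.card_univ] at h5
    have h6 : ({0, 1, -1} : Finset F).card ≤ 3 := Finset.card_le_three
    omega
  simp only [Finset.mem_insert, Finset.mem_singleton, not_or] at ha
  obtain ⟨ha0, ha1, ham⟩ := ha
  have ha2 : a ≠ a⁻¹ := by
    intro h
    have h5 : a * a = 1 := by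
      nth_rewrite 2 [h]
      exact mul_inv_cancel₀ ha0
    have h6 : (a - 1) * (a + 1) = 0 := by linear_combination h5
    rcases mul_eq_zero.mp h6 with h7 | h7
    · exact ha1 (sub_eq_zero.mp h7)
    · exact ham (eq_neg_of_add_eq_zero_left h7)
  have ha3 : a⁻¹ ≠ 1 := by
    intro h
    apply ha1
    rw [← inv_inv a, h, inv_one]
  have hdet : (Thom3.dg a a⁻¹ 1 : Matrix (Fin 3) (Fin 3) F).det = 1 := by
    rw [Matrix.det_fin_three]
    simp [Thom3.dg, ha0]
  let x : SL(3, F) := ⟨Thom3.dg a a⁻¹ 1, hdet⟩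
  refine ⟨QuotientGroup.mk x, ?_, ?_⟩
  · apply order_ok
    rw [← QuotientGroup.mk_pow]
    have : x ^ (Fintype.card F - 1) = 1 := by
      apply Subtype.ext
      rw [Matrix.SpecialLinearGroup.coe_pow]
      show (Thom3.dg a a⁻¹ 1 : Matrix (Fin 3) (Fin 3) F) ^ (Fintype.card F - 1) = 1
      have h1 : (Thom3.dg a a⁻¹ 1 : Matrix (Fin 3) (Fin 3) F) = Matrix.diagonal ![a, a⁻¹, 1] := by
        ext i j
        fin_cases i <;> fin_cases j <;> simp [Thom3.dg]
      rw [h1, Matrix.diagonal_pow]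
      ext i j
      fin_cases i <;> fin_cases j <;> simp [FiniteField.pow_card_sub_one_eq_one, ha0]
    rw [this]
    rfl
  · apply psl_of_sl
    intro y hy
    exact Thom3.sl_factor a a⁻¹ 1 ha0 (inv_ne_zero ha0) one_ne_zero ha2 ha1 ha3 (by rw [mul_inv_cancel₀ ha0, one_mul]) x y rfl hy

/-- The case of three elements. -/
lemma case_three {F : Type u} [Field F] [Fintype F] (p : ℕ) [Fact p.Prime] [CharP F p] (h3 : Fintype.card F = 3) :
    ∃ x : Matrix.ProjectiveSpecialLinearGroup (Fin 3) F, ¬ p ∣ orderOf x ∧ ∀ g : Matrix.ProjectiveSpecialLinearGroup (Fin 3) F, g ≠ 1 → ∃ u v : Matrix.ProjectiveSpecialLinearGroup (Fin 3) F, g = (u * x * u⁻¹) * (v * x * v⁻¹) := by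
  classical
  have hp3 : p = 3 := by
    obtain ⟨n, hpp, hn⟩ := FiniteField.card F p
    rw [h3] at hn
    have h1 : p ∣ 3 := by
      rw [hn]
      exact dvd_pow_self p n.ne_zero
    exact (Nat.prime_dvd_prime_iff_eq hpp Nat.prime_three).mp h1
  let φ : ZMod 3 ≃+* F := ZMod.ringEquivOfPrime F Nat.prime_three h3
  let m : SL(3, ZMod 3) →* SL(3, F) := Matrix.SpecialLinearGroup.map (φ : ZMod 3 →+* F)
  let m' : SL(3, F) →* SL(3, ZMod 3) := Matrix.SpecialLinearGroup.map (φ.symm : F →+* ZMod 3)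
  have hmm' : ∀ y, m (m' y) = y := by
    intro y
    apply Subtype.ext
    ext i j
    show φ (φ.symm (y.1 i j)) = y.1 i j
    exact φ.apply_symm_apply _
  have hm'm : ∀ y, m' (m y) = y := by
    intro y
    apply Subtype.ext
    ext i j
    show φ.symm (φ (y.1 i j)) = y.1 i j
    exact φ.symm_apply_apply _
  refine ⟨QuotientGroup.mk (m Thom33.x₃), ?_, ?_⟩
  · intro hd
    have h1 : (QuotientGroup.mk (m Thom33.x₃) : Matrix.ProjectiveSpecialLinearGroup (Fin 3) F) ^ 4 = 1 := by
      rw [← QuotientGroup.mk_pow, ← map_pow, Thom33.x₃_pow, map_one]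
      rfl
    have h2 := hd.trans (orderOf_dvd_of_pow_eq_one h1)
    rw [hp3] at h2
    omega
  · apply psl_of_sl
    intro y hy
    have hy1 : m' y ≠ 1 := by
      intro h
      apply hy
      refine ⟨1, ?_⟩
      have := hmm' y
      rw [h, map_one] at this
      rw [← this]
      simp
    obtain ⟨u, v, huv⟩ := Thom33.sl33_factor (m' y) hy1
    refine ⟨m u, m v, ?_⟩
    have := congrArg m huv
    rw [hmm'] at this
    rw [this]
    simp only [map_mul, map_inv]

/-- A form of Thompson's conjecture for PSL(3,q), q > 2 (covering the non-identity elements), with a semisimple class: for F a finite field of characteristic p with more than 2 elements there is an element x of PSL(3,F) of order prime to p such that every non-identity element of PSL(3,F) is a product of two conjugates of x. -/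
theorem result {F : Type*} [Field F] [Fintype F] (p : ℕ) [Fact p.Prime] [CharP F p] (h3 : 3 ≤ Fintype.card F) :
    ∃ x : Matrix.ProjectiveSpecialLinearGroup (Fin 3) F, ¬ p ∣ orderOf x ∧ ∀ g : Matrix.ProjectiveSpecialLinearGroup (Fin 3) F, g ≠ 1 → ∃ u v : Matrix.ProjectiveSpecialLinearGroup (Fin 3) F, g = (u * x * u⁻¹) * (v * x * v⁻¹) := by

  by_cases h : Fintype.card F = 3
  · exact case_three p h
  · exact case_big p (by omega)

end Cfsg.Agent.S2459
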