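import Cfsg.Statements.S2466
import Mathlib

set_option autoImplicit false
open Cfsg

namespace Cfsg.Agent.S2466



lemma prime_dvd_mset_lcm {p : ℕ} (hp : p.Prime) (m : Multiset ℕ) (h : p ∣ m.lcm) : ∃ a ∈ m, p ∣ a := by
  induction m using Multiset.induction_on with
  | empty => simp at h; exact absurd h hp.ne_one
  | cons a s ih =>
    rw [Multiset.lcm_cons, lcm_eq_nat_lcm] at h
    have h2 : p ∣ a * s.lcm := h.trans (Nat.lcm_dvd_mul a s.lcm)
    rcases (Nat.Prime.dvd_mul hp).mp h2 with h3 | h3
    · exact ⟨a, Multiset.mem_cons_self a s, h3⟩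
    · obtain ⟨b, hb, hb2⟩ := ih h3
      exact ⟨b, Multiset.mem_cons_of_mem hb, hb2⟩


/-- Adjacency of odd primes in the prime graph of the alternating groups: let r ≠ s be odd primes at most n. The alternating group of degree n has an element of order r·s if and only if r + s ≤ n. -/
theorem result (n r s : ℕ) (hr : r.Prime) (hs : s.Prime) (hr2 : r ≠ 2) (hs2 : s ≠ 2) (hrs : r ≠ s) (hrn : r ≤ n) (hsn : s ≤ n) :
    (r * s ∈ Set.range (orderOf : alternatingGroup (Fin n) → ℕ)) ↔ r + s ≤ n := by
  constructor
  · rintro ⟨g, hg⟩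
    have hg' : orderOf (g : Equiv.Perm (Fin n)) = r * s := by
      rw [Subgroup.orderOf_coe]; exact hg
    have hl : (g : Equiv.Perm (Fin n)).cycleType.lcm = r * s := by
      rw [Equiv.Perm.lcm_cycleType]; exact hg'
    have hsum : (g : Equiv.Perm (Fin n)).cycleType.sum ≤ n := by
      have := Equiv.Perm.sum_cycleType_le (g : Equiv.Perm (Fin n))
      simpa using this
    set m := (g : Equiv.Perm (Fin n)).cycleType with hm
    obtain ⟨a, ha, hra⟩ := prime_dvd_mset_lcm hr m (by rw [hl]; exact dvd_mul_right r s)
    obtain ⟨b, hb, hsb⟩ := prime_dvd_mset_lcm hs m (by rw [hl]; exact dvd_mul_left s r)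
    have ha0 : 0 < a := by
      have := Equiv.Perm.two_le_of_mem_cycleType ha
      omega
    have hb0 : 0 < b := by
      have := Equiv.Perm.two_le_of_mem_cycleType hb
      omega
    have hr3 : 3 ≤ r := by
      have := hr.two_le
      omega
    have hs3 : 3 ≤ s := by
      have := hs.two_le
      omega
    by_cases hab : a = b
    · subst hab
      have hcop : Nat.Coprime r s := (Nat.coprime_primes hr hs).mpr hrs
      have hd : r * s ∣ a := hcop.mul_dvd_of_dvd_of_dvd hra hsb
      have h1 : r * s ≤ a := Nat.le_of_dvd ha0 hd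
      have h2 : a ≤ m.sum := Multiset.le_sum_of_mem ha
      nlinarith
    · obtain ⟨t, ht⟩ := Multiset.exists_cons_of_mem ha
      have hbt : b ∈ t := by
        rw [ht, Multiset.mem_cons] at hb
        rcases hb with h | h
        · exact absurd h.symm hab
        · exact h
      obtain ⟨t', ht'⟩ := Multiset.exists_cons_of_mem hbt
      have hsum2 : m.sum = a + (b + t'.sum) := by
        rw [ht, ht', Multiset.sum_cons, Multiset.sum_cons]
      have h1 : r ≤ a := Nat.le_of_dvd ha0 hra
      have h2 : s ≤ b := Nat.le_of_dvd hb0 hsb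
      omega
  · intro h
    have hr2' := hr.two_le
    have hs2' := hs.two_le
    obtain ⟨g, hg⟩ := (Equiv.Perm.exists_with_cycleType_iff (α := Fin n) (m := {r, s})).mpr (by
      constructor
      · simpa using h
      · intro a ha
        simp only [Multiset.insert_eq_cons, Multiset.mem_cons, Multiset.mem_singleton] at ha
        rcases ha with rfl | rfl <;> assumption)
    have hodd_r : Odd r := hr.odd_of_ne_two hr2
    have hodd_s : Odd s := hs.odd_of_ne_two hs2
    have hsign : Equiv.Perm.sign g = 1 := by
      rw [Equiv.Perm.sign_of_cycleType, hg]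
      have : Even (({r, s} : Multiset ℕ).sum + Multiset.card ({r, s} : Multiset ℕ)) := by
        simp only [Multiset.insert_eq_cons, Multiset.sum_cons, Multiset.sum_singleton, Multiset.card_cons, Multiset.card_singleton]
        obtain ⟨a, rfl⟩ := hodd_r
        obtain ⟨b, rfl⟩ := hodd_s
        exact ⟨a + b + 2, by ring⟩
      exact this.neg_one_pow
    refine ⟨⟨g, Equiv.Perm.mem_alternatingGroup.mpr hsign⟩, ?_⟩
    show orderOf (⟨g, _⟩ : alternatingGroup (Fin n)) = r * s
    rw [← Subgroup.orderOf_coe]
    show orderOf g = r * s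
    rw [← Equiv.Perm.lcm_cycleType, hg]
    have hcop : Nat.Coprime r s := (Nat.coprime_primes hr hs).mpr hrs
    simp only [Multiset.insert_eq_cons, Multiset.lcm_cons, Multiset.lcm_singleton, normalize_eq, lcm_eq_nat_lcm]
    exact hcop.lcm_eq_mul

end Cfsg.Agent.S2466
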