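import Cfsg.Statements.S2467
import Mathlib

set_option autoImplicit false
open Cfsg

namespace Cfsg.Agent.S2467



lemma prime_dvd_mset_lcm {p : ℕ} (hp : p.Prime) (m : Multiset ℕ) (h : p ∣ m.lcm) : ∃ a ∈ m, p ∣ a := by
  induction m using Multiset.induction_on with
  | empty => simp at h; exact absurd h hp.ne_one
  | cons a s ih =>
    rw [Multiset.lcm_cons, lcm_eq_nat_lcm] at h
    have h2 : p ∣ a * s.lcm := h.trans (Nat.lcm_dvd_mul a s.lcm)
    rcases (Nat.Prime.dvd_mul hp).mp h2 with h3 | h3
    · exact ⟨a, Multiset.mem_cons_self a s, h3⟩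
    · obtain ⟨b, hb, hb2⟩ := ih h3
      exact ⟨b, Multiset.mem_cons_of_mem hb, hb2⟩

lemma odd_elem (t : Multiset ℕ) (h : Odd (t.sum + Multiset.card t)) : ∃ c ∈ t, 2 ∣ c := by
  induction t using Multiset.induction_on with
  | empty => simp at h
  | cons a s ih =>
    by_cases ha : 2 ∣ a
    · exact ⟨a, Multiset.mem_cons_self a s, ha⟩
    · rw [Multiset.sum_cons, Multiset.card_cons] at h
      have h2 : Odd (s.sum + Multiset.card s) := by
        obtain ⟨k, hk⟩ := h
        have : a % 2 = 1 := by omega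
        exact ⟨k - (a + 1) / 2, by omega⟩
      obtain ⟨c, hc, hc2⟩ := ih h2
      exact ⟨c, Multiset.mem_cons_of_mem hc, hc2⟩


/-- Adjacency of 2 and an odd prime in the prime graph of the alternating groups: let r be an odd prime at most n, with n ≥ 4. The alternating group of degree n has an element of order 2r if and only if r + 4 ≤ n. -/
theorem result (n r : ℕ) (hn : 4 ≤ n) (hr : r.Prime) (hr2 : r ≠ 2) (hrn : r ≤ n) :
    (2 * r ∈ Set.range (orderOf : alternatingGroup (Fin n) → ℕ)) ↔ r + 4 ≤ n := by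
  constructor
  · rintro ⟨g, hg⟩
    have hg' : orderOf (g : Equiv.Perm (Fin n)) = 2 * r := by
      rw [Subgroup.orderOf_coe]; exact hg
    have hl : (g : Equiv.Perm (Fin n)).cycleType.lcm = 2 * r := by
      rw [Equiv.Perm.lcm_cycleType]; exact hg'
    have hsum : (g : Equiv.Perm (Fin n)).cycleType.sum ≤ n := by
      have := Equiv.Perm.sum_cycleType_le (g : Equiv.Perm (Fin n))
      simpa using this
    have hsgn : Equiv.Perm.sign (g : Equiv.Perm (Fin n)) = 1 := Equiv.Perm.mem_alternatingGroup.mp g.2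
    rw [Equiv.Perm.sign_of_cycleType] at hsgn
    have hev : Even ((g : Equiv.Perm (Fin n)).cycleType.sum + Multiset.card (g : Equiv.Perm (Fin n)).cycleType) := by
      by_contra hne
      rw [Nat.not_even_iff_odd] at hne
      rw [hne.neg_one_pow] at hsgn
      exact absurd hsgn (by decide)
    have htwo : ∀ a ∈ (g : Equiv.Perm (Fin n)).cycleType, 2 ≤ a := fun a ha => Equiv.Perm.two_le_of_mem_cycleType ha
    set m := (g : Equiv.Perm (Fin n)).cycleType with hm
    have hr3 : 3 ≤ r := by
      have := hr.two_le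
      omega
    obtain ⟨a, ha, hra⟩ := prime_dvd_mset_lcm hr m (by rw [hl]; exact dvd_mul_left r 2)
    obtain ⟨b, hb, hsb⟩ := prime_dvd_mset_lcm Nat.prime_two m (by rw [hl]; exact dvd_mul_right 2 r)
    obtain ⟨t, ht⟩ := Multiset.exists_cons_of_mem hb
    have hev2 : Odd (t.sum + Multiset.card t) := by
      rw [ht, Multiset.sum_cons, Multiset.card_cons] at hev
      obtain ⟨k, hk⟩ := hsb
      subst hk
      by_contra hne
      rw [Nat.not_odd_iff_even] at hne
      obtain ⟨j, hj⟩ := hne
      obtain ⟨i, hi⟩ := hev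
      omega
    obtain ⟨c, hc, hc2⟩ := odd_elem t hev2
    obtain ⟨t', ht'⟩ := Multiset.exists_cons_of_mem hc
    have hsum2 : m.sum = b + (c + t'.sum) := by
      rw [ht, ht', Multiset.sum_cons, Multiset.sum_cons]
    have hb2 : 2 ≤ b := htwo b hb
    have hc3 : 2 ≤ c := htwo c (by rw [ht]; exact Multiset.mem_cons_of_mem hc)
    have ha2 : 2 ≤ a := htwo a ha
    have hcop : Nat.Coprime 2 r := (Nat.coprime_primes Nat.prime_two hr).mpr (Ne.symm hr2)
    rw [ht, ht'] at ha
    simp only [Multiset.mem_cons] at ha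
    rcases ha with rfl | rfl | ha'
    · have hd : 2 * r ∣ a := hcop.mul_dvd_of_dvd_of_dvd hsb hra
      have := Nat.le_of_dvd (by omega) hd
      omega
    · have hd : 2 * r ∣ a := hcop.mul_dvd_of_dvd_of_dvd hc2 hra
      have := Nat.le_of_dvd (by omega) hd
      omega
    · have h1 : a ≤ t'.sum := Multiset.le_sum_of_mem ha'
      have h2 : r ≤ a := Nat.le_of_dvd (by omega) hra
      omega
  · intro h
    have hr2' := hr.two_le
    obtain ⟨g, hg⟩ := (Equiv.Perm.exists_with_cycleType_iff (α := Fin n) (m := {r, 2, 2})).mpr (by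
      constructor
      · simpa using (by omega : r + (2 + 2) ≤ n)
      · intro a ha
        simp only [Multiset.insert_eq_cons, Multiset.mem_cons, Multiset.mem_singleton] at ha
        rcases ha with rfl | rfl | rfl <;> omega)
    have hodd_r : Odd r := hr.odd_of_ne_two hr2
    have hsign : Equiv.Perm.sign g = 1 := by
      rw [Equiv.Perm.sign_of_cycleType, hg]
      have : Even (({r, 2, 2} : Multiset ℕ).sum + Multiset.card ({r, 2, 2} : Multiset ℕ)) := by
        simp only [Multiset.insert_eq_cons, Multiset.sum_cons, Multiset.sum_singleton, Multiset.card_cons, Multiset.card_singleton]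
        obtain ⟨a, rfl⟩ := hodd_r
        exact ⟨a + 4, by ring⟩
      exact this.neg_one_pow
    refine ⟨⟨g, Equiv.Perm.mem_alternatingGroup.mpr hsign⟩, ?_⟩
    show orderOf (⟨g, _⟩ : alternatingGroup (Fin n)) = 2 * r
    rw [← Subgroup.orderOf_coe]
    show orderOf g = 2 * r
    rw [← Equiv.Perm.lcm_cycleType, hg]
    have hcop : Nat.Coprime r 2 := (Nat.coprime_primes hr Nat.prime_two).mpr hr2
    simp only [Multiset.insert_eq_cons, Multiset.lcm_cons, Multiset.lcm_singleton, normalize_eq, lcm_eq_nat_lcm]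
    rw [Nat.lcm_self, hcop.lcm_eq_mul, mul_comm]

end Cfsg.Agent.S2467
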