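import Cfsg.Statements.S2479
import Mathlib
import Cfsg.Agent.Lib.KS2.SLCl7

set_option autoImplicit false
open Cfsg

namespace Cfsg.Agent.S2479




/-- The number of conjugacy classes of SL(n,q): for F a finite field with q elements, the number k of conjugacy classes of SL(n,F) satisfies q^(n−1) < k and k ≤ (5/2)·q^(n−1) for n ≥ 2, and k ≤ q^(n−1) + 3q^(n−2) for n ≥ 3. -/
theorem result {F : Type*} [Field F] [Fintype F] (n : ℕ) (hn : 2 ≤ n) :
    Fintype.card F ^ (n - 1) < Nat.card (ConjClasses (Matrix.SpecialLinearGroup (Fin n) F)) ∧ 2 * Nat.card (ConjClasses (Matrix.SpecialLinearGroup (Fin n) F)) ≤ 5 * Fintype.card F ^ (n - 1) ∧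
      (3 ≤ n → Nat.card (ConjClasses (Matrix.SpecialLinearGroup (Fin n) F)) ≤ Fintype.card F ^ (n - 1) + 3 * Fintype.card F ^ (n - 2)) := by
  classical
  have hq : 2 ≤ Fintype.card F := Cfsg.Agent.Lib.KS2.SLCl.two_le_q
  have hlow := Cfsg.Agent.Lib.KS2.SLCl.lt_card_classes (F := F) n hn
  have hup : 3 ≤ n → Nat.card (ConjClasses (Matrix.SpecialLinearGroup (Fin n) F)) ≤
      Fintype.card F ^ (n - 1) + 3 * Fintype.card F ^ (n - 2) := by
    intro h3
    by_cases h5 : 5 ≤ n
    · exact Cfsg.Agent.Lib.KS2.SLCl.bound_ge5 n h5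
    · have h6 : n = 3 ∨ n = 4 := by omega
      rcases h6 with rfl | rfl
      · simpa using Cfsg.Agent.Lib.KS2.SLCl.bound_three (F := F)
      · exact Cfsg.Agent.Lib.KS2.SLCl.bound_four (F := F)
  refine ⟨hlow, ?_, hup⟩
  by_cases h3 : 3 ≤ n
  · have h4 := hup h3
    have h6 : Fintype.card F ^ (n - 1) = Fintype.card F * Fintype.card F ^ (n - 2) := by
      rw [← pow_succ']
      congr 1
      omega
    rw [h6] at h4 ⊢
    nlinarith [Nat.zero_le (Fintype.card F ^ (n - 2))]
  · have h4 : n = 2 := by omega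
    subst h4
    simpa using Cfsg.Agent.Lib.KS2.SLCl.bound_two (F := F)

end Cfsg.Agent.S2479
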