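import Cfsg.Statements.S2495
import Mathlib
import Cfsg.Agent.Lib.KS2.PSLOrd

set_option autoImplicit false
open Cfsg

namespace Cfsg.Agent.S2495




/-- Let q be an odd prime power, n ≥ 4 even, and L = PSL(n,q). Then L has an element of order q^(n/2) + 1 if and only if the 2-part of n exceeds the 2-part of q − 1. -/
theorem result {F : Type*} [Field F] [Fintype F] {q : ℕ} (hF : Fintype.card F = q) (hodd : Odd q)
    {n : ℕ} (hn : 4 ≤ n) (heven : Even n) :
    (∃ g : Matrix.ProjectiveSpecialLinearGroup (Fin n) F, orderOf g = q ^ (n / 2) + 1) ↔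
      padicValNat 2 (q - 1) < padicValNat 2 n := by

  obtain ⟨m, rfl⟩ := even_iff_two_dvd.mp heven
  rw [Nat.mul_div_cancel_left m (by omega : 0 < 2)]
  exact Cfsg.Agent.Lib.KS2.PSLOrd.main hF hodd (by omega)

end Cfsg.Agent.S2495
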