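import Cfsg.Statements.S2504
import Mathlib
import Cfsg.Agent.Lib.Known3.AbPerm

set_option autoImplicit false
open Cfsg

namespace Cfsg.Agent.S2504

open Cfsg.Agent.Lib.Known3.AbPerm

lemma ub {n : ℕ} (A : Subgroup (alternatingGroup (Fin n))) (hA : IsMulCommutative A) : Nat.card A ≤ ff n := by
  obtain ⟨B, hB, hc, -⟩ := to_perm A hA
  have := ub_S hB
  rw [hc] at this
  simpa using this

/-- The largest order of an abelian subgroup of the alternating group of degree n is 3^k when n = 3k, 4·3^(k−1) when n = 3k + 1, and 16·3^(k−2) when n = 3k + 2, for every k ≥ 2 (so for all degrees n ≥ 6). -/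
theorem result (k : ℕ) (hk : 2 ≤ k) :
    IsGreatest {c : ℕ | ∃ A : Subgroup (alternatingGroup (Fin (3 * k))), IsMulCommutative A ∧ Nat.card A = c} (3 ^ k) ∧
    IsGreatest {c : ℕ | ∃ A : Subgroup (alternatingGroup (Fin (3 * k + 1))), IsMulCommutative A ∧ Nat.card A = c}
      (4 * 3 ^ (k - 1)) ∧
    IsGreatest {c : ℕ | ∃ A : Subgroup (alternatingGroup (Fin (3 * k + 2))), IsMulCommutative A ∧ Nat.card A = c}
      (16 * 3 ^ (k - 2)) := by
  obtain ⟨j, rfl⟩ : ∃ j, k = j + 2 := ⟨k - 2, by omega⟩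
  refine ⟨⟨?_, ?_⟩, ⟨?_, ?_⟩, ⟨?_, ?_⟩⟩
  · exact mem_alt (Rr_mul3 _)
  · rintro c ⟨A, hA, rfl⟩
    have := ub A hA
    rwa [ff_zero_mod] at this
  · exact mem_alt (Rr_mod1 (j + 1 - 0) |> fun h => by simpa using h)
  · rintro c ⟨A, hA, rfl⟩
    have := ub A hA
    exact this.trans (le_of_eq (ff_one_mod (j + 1)))
  · exact mem_alt (Rr_mod2 j)
  · rintro c ⟨A, hA, rfl⟩
    obtain ⟨B, hB, hc, hE⟩ := to_perm A hA
    have := ub_even (j + 2) (by simp) hB hE
    rw [hc, pow_add] at this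
    simp only [Nat.add_sub_cancel]
    omega

end Cfsg.Agent.S2504
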