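import Cfsg.Statements.S2505
import Mathlib
import Cfsg.Agent.Lib.Known3.AbPerm

set_option autoImplicit false
open Cfsg

namespace Cfsg.Agent.S2505

open Cfsg.Agent.Lib.Known3.AbPerm

lemma ub {n : ℕ} (A : Subgroup (Equiv.Perm (Fin n))) (hA : IsMulCommutative A) : Nat.card A ≤ ff n := by
  have := ub_S hA
  simpa using this

/-- The largest order of an abelian subgroup of the symmetric group of degree n is 3^k when n = 3k, 4·3^(k−1) when n = 3k + 1, and 2·3^k when n = 3k + 2, for every k ≥ 1. -/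
theorem result (k : ℕ) (hk : 1 ≤ k) :
    IsGreatest {c : ℕ | ∃ A : Subgroup (Equiv.Perm (Fin (3 * k))), IsMulCommutative A ∧ Nat.card A = c} (3 ^ k) ∧
    IsGreatest {c : ℕ | ∃ A : Subgroup (Equiv.Perm (Fin (3 * k + 1))), IsMulCommutative A ∧ Nat.card A = c}
      (4 * 3 ^ (k - 1)) ∧
    IsGreatest {c : ℕ | ∃ A : Subgroup (Equiv.Perm (Fin (3 * k + 2))), IsMulCommutative A ∧ Nat.card A = c}
      (2 * 3 ^ k) := by
  obtain ⟨j, rfl⟩ : ∃ j, k = j + 1 := ⟨k - 1, by omega⟩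
  refine ⟨⟨?_, ?_⟩, ⟨?_, ?_⟩, ⟨?_, ?_⟩⟩
  · exact Rr_Rs (Rr_mul3 _)
  · rintro c ⟨A, hA, rfl⟩
    have := ub A hA
    rwa [ff_zero_mod] at this
  · exact Rr_Rs (Rr_mod1 j)
  · rintro c ⟨A, hA, rfl⟩
    have := ub A hA
    rwa [ff_one_mod] at this
  · exact Rs_mod2 _
  · rintro c ⟨A, hA, rfl⟩
    have := ub A hA
    rwa [ff_two_mod] at this

end Cfsg.Agent.S2505
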