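import Cfsg.Statements.S2506
import Mathlib
import Cfsg.Agent.Lib.Known3.AbPerm2

set_option autoImplicit false
open scoped Pointwise
open Cfsg

namespace Cfsg.Agent.S2506

open Cfsg.Agent.Lib.Known3.AbPerm in
lemma map_props {n : ℕ} (A : Subgroup (alternatingGroup (Fin n))) (hA : IsMulCommutative A) :
    IsMulCommutative (A.map (alternatingGroup (Fin n)).subtype) ∧
      Nat.card (A.map (alternatingGroup (Fin n)).subtype) = Nat.card A ∧
      ∀ a ∈ A.map (alternatingGroup (Fin n)).subtype, Equiv.Perm.sign a = 1 := by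
  refine ⟨⟨⟨?_⟩⟩, ?_, ?_⟩
  · rintro ⟨_, ⟨x, hx, rfl⟩⟩ ⟨_, ⟨y, hy, rfl⟩⟩
    apply Subtype.ext
    have := hA.is_comm.comm ⟨x, hx⟩ ⟨y, hy⟩
    exact congrArg (fun z : A => ((z : alternatingGroup (Fin n)) : Equiv.Perm (Fin n))) this
  · exact (Nat.card_congr (A.equivMapOfInjective _ (Subgroup.subtype_injective _)).toEquiv).symm
  · rintro _ ⟨x, _, rfl⟩
    exact Equiv.Perm.mem_alternatingGroup.1 x.2

open Cfsg.Agent.Lib.Known3.AbPerm in
lemma max_props {n : ℕ} (A : Subgroup (alternatingGroup (Fin n)))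
    (hAmax : ∀ C : Subgroup (alternatingGroup (Fin n)), IsMulCommutative C → Nat.card C ≤ Nat.card A) (hA : IsMulCommutative A) :
    ∀ c, Rr n c → c ≤ Nat.card (A.map (alternatingGroup (Fin n)).subtype) := by
  intro c hc
  obtain ⟨C, hC, rfl⟩ := mem_alt hc
  rw [(map_props A hA).2.1]
  exact hAmax C hC

lemma card_five (A : Subgroup (alternatingGroup (Fin 5))) (hA : IsMulCommutative A)
    (hAmax : ∀ C : Subgroup (alternatingGroup (Fin 5)), IsMulCommutative C → Nat.card C ≤ Nat.card A) : Nat.card A = 5 := by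
  open Cfsg.Agent.Lib.Known3.AbPerm in
  have h1 : Nat.card A ≤ 5 := by
    obtain ⟨h1, h2, h3⟩ := map_props A hA
    have := ub_even (k := 1) (A := A.map (alternatingGroup (Fin 5)).subtype) (by simp) h1 h3
    rw [h2] at this
    omega
  have h2 : 5 ≤ Nat.card A := by
    haveI : Fact (Nat.Prime 5) := ⟨by norm_num⟩
    let r : alternatingGroup (Fin 5) := ⟨finRotate 5, by
      rw [Equiv.Perm.mem_alternatingGroup]
      decide⟩
    have hr : orderOf r = 5 := orderOf_eq_prime (by decide) (by decide)
    have := hAmax (Subgroup.zpowers r) ⟨⟨fun ⟨_, ⟨x, hx⟩⟩ ⟨_, ⟨y, hy⟩⟩ => Subtype.ext (by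
      simp only [← hx, ← hy]
      exact zpow_mul_comm _ x y)⟩⟩
    rwa [Nat.card_zpowers, hr] at this
  omega

/-- In the alternating group of any degree, any two abelian subgroups of the largest possible order (among abelian subgroups) are conjugate. -/
theorem result (n : ℕ)
    (A B : Subgroup (alternatingGroup (Fin n))) (hA : IsMulCommutative A) (hB : IsMulCommutative B)
    (hAmax : ∀ C : Subgroup (alternatingGroup (Fin n)), IsMulCommutative C → Nat.card C ≤ Nat.card A)
    (hBmax : ∀ C : Subgroup (alternatingGroup (Fin n)), IsMulCommutative C → Nat.card C ≤ Nat.card B) :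
    ∃ g : alternatingGroup (Fin n), B = MulAut.conj g • A := by
  open Cfsg.Agent.Lib.Known3.AbPerm in
  have hcard : Nat.card A = Nat.card B := le_antisymm (hBmax A hA) (hAmax B hB)
  by_cases hn2 : n ≤ 2
  · haveI : Subsingleton (alternatingGroup (Fin n)) := by
      interval_cases n
      · infer_instance
      · infer_instance
      · constructor
        decide
    refine ⟨1, ?_⟩
    rw [Subgroup.eq_bot_of_subsingleton B, Subgroup.eq_bot_of_subsingleton A]
    simp
  by_cases hn5 : n = 5
  · subst hn5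
    have hcA := card_five A hA hAmax
    have hcB := card_five B hB hBmax
    haveI : Fact (Nat.Prime 5) := ⟨by norm_num⟩
    have hG : Nat.card (alternatingGroup (Fin 5)) = 60 := by
      have := two_mul_nat_card_alternatingGroup (α := Fin 5)
      rw [Nat.card_eq_fintype_card (α := Equiv.Perm (Fin 5)), Fintype.card_perm, Fintype.card_fin] at this
      have h : Nat.factorial 5 = 120 := rfl
      omega
    have hf : (Nat.card (alternatingGroup (Fin 5))).factorization 5 = 1 := by
      rw [hG, show (60 : ℕ) = 12 * 5 by norm_num, Nat.factorization_mul (by norm_num) (by norm_num), Finsupp.add_apply,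
        Nat.Prime.factorization_self (by norm_num), Nat.factorization_eq_zero_of_not_dvd (by norm_num)]
    let P : Sylow 5 (alternatingGroup (Fin 5)) := Sylow.ofCard A (by rw [hcA, hf, pow_one])
    let Q : Sylow 5 (alternatingGroup (Fin 5)) := Sylow.ofCard B (by rw [hcB, hf, pow_one])
    obtain ⟨g, hg⟩ := MulAction.exists_smul_eq (alternatingGroup (Fin 5)) P Q
    refine ⟨g, ?_⟩
    have h1 := congrArg (fun S : Sylow 5 (alternatingGroup (Fin 5)) => (S : Subgroup (alternatingGroup (Fin 5)))) hg
    simp only [Sylow.coe_subgroup_smul] at h1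
    exact h1.symm
  have h3 : 3 ≤ n := by omega
  obtain ⟨h1, h2, h4⟩ := map_props A hA
  obtain ⟨h1', h2', h4'⟩ := map_props B hB
  have hGA := good_of_max h3 hn5 h1 h4 (max_props A hAmax hA)
  have hGB := good_of_max h3 hn5 h1' h4' (max_props B hBmax hB)
  obtain ⟨g, hg1, hg2⟩ := conj_even h3 hGA hGB (by rw [h2, h2', hcard])
  let h : alternatingGroup (Fin n) := ⟨g, Equiv.Perm.mem_alternatingGroup.2 hg1⟩
  refine ⟨h, ?_⟩
  symm
  apply Subgroup.eq_of_le_of_card_ge
  · intro y hy
    obtain ⟨x, hx, rfl⟩ := Subgroup.mem_smul_pointwise_iff_exists _ _ _ |>.1 hy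
    obtain ⟨y', hy', hyy⟩ := hg2 _ (Subgroup.mem_map_of_mem _ hx)
    have : MulAut.conj h • x = y' := by
      apply Subtype.ext
      rw [MulAut.smul_def, MulAut.conj_apply]
      exact hyy.symm
    rw [this]
    exact hy'
  · rw [Nat.card_congr (Subgroup.equivSMul (MulAut.conj h) A).toEquiv.symm, hcard]

end Cfsg.Agent.S2506
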