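import Cfsg.Statements.S2507
import Mathlib
import Cfsg.Agent.Lib.Classical.Dick.Cent

set_option autoImplicit false
open Cfsg

namespace Cfsg.Agent.S2507

open Cfsg.Agent.Lib.Classical.Dick Cfsg.Agent.Lib.KS2.SL2 in

/-- Let F be a finite field with q = 2^f ≥ 4 elements. The conjugacy class sizes of PSL(2,F) are exactly 1, q(q − 1), q² − 1 and q(q + 1). -/
theorem result {F : Type*} [Field F] [Fintype F]
    (h2 : 2 ∣ Fintype.card F) (h4 : 4 ≤ Fintype.card F) :
    Set.range (fun g : (Matrix.ProjectiveSpecialLinearGroup (Fin 2) F) => (Subgroup.centralizer ({g} : Set (Matrix.ProjectiveSpecialLinearGroup (Fin 2) F))).index) =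
      {1, Fintype.card F * (Fintype.card F - 1), Fintype.card F ^ 2 - 1, Fintype.card F * (Fintype.card F + 1)} := by
  classical
  have hc2 : ringChar F = 2 := by
    rw [FiniteField.even_card_iff_char_two]
    omega
  have hR : Nat.card (Roots1 F) = 1 := card_roots1_two hc2
  have hP := card_PP_eq (F := F)
  rw [hR, one_mul] at hP
  obtain ⟨q, hq⟩ : ∃ q, Fintype.card F = q := ⟨_, rfl⟩
  rw [hq] at hP h4 ⊢
  have hq1 : q ^ 2 - 1 = (q - 1) * (q + 1) := sq_sub_one_eq q (by omega)
  rw [hq1] at hP
  have hqq : q - 1 + 1 = q := by omega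
  -- the three index computations
  have hU : ∀ I : ℕ, q * I = q * ((q - 1) * (q + 1)) → I = q ^ 2 - 1 := by
    intro I h
    rw [hq1]
    exact Nat.eq_of_mul_eq_mul_left (by omega) h
  have hS : ∀ I : ℕ, (q - 1) * I = q * ((q - 1) * (q + 1)) → I = q * (q + 1) := by
    intro I h
    apply Nat.eq_of_mul_eq_mul_left (show 0 < q - 1 by omega)
    rw [h]; ring
  have hN : ∀ I : ℕ, (q + 1) * I = q * ((q - 1) * (q + 1)) → I = q * (q - 1) := by
    intro I h
    apply Nat.eq_of_mul_eq_mul_left (show 0 < q + 1 by omega)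
    rw [h]; ring
  have hidx : ∀ g : Matrix.ProjectiveSpecialLinearGroup (Fin 2) F,
      Nat.card (Subgroup.centralizer ({g} : Set (Matrix.ProjectiveSpecialLinearGroup (Fin 2) F))) *
        (Subgroup.centralizer ({g} : Set (Matrix.ProjectiveSpecialLinearGroup (Fin 2) F))).index =
        q * ((q - 1) * (q + 1)) := by
    intro g
    rw [Subgroup.card_mul_index, hP]
  have hone : (Subgroup.centralizer ({1} : Set (Matrix.ProjectiveSpecialLinearGroup (Fin 2) F))).index = 1 := by
    rw [Subgroup.index_eq_one, Subgroup.centralizer_eq_top_iff_subset]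
    intro x hx
    rw [Set.mem_singleton_iff.mp hx]
    exact Subgroup.one_mem _
  apply Set.eq_of_subset_of_subset
  · rintro _ ⟨g, rfl⟩
    simp only [Set.mem_insert_iff, Set.mem_singleton_iff]
    by_cases hg : g = 1
    · left
      rw [hg]
      exact hone
    right
    have hx : (pi (lf g) : Matrix.ProjectiveSpecialLinearGroup (Fin 2) F) = g := pi_lf g
    have hns : ¬ IsScalar (lf g) := by
      intro h
      apply hg
      rw [← hx]
      exact (pi_eq_one_iff _).mpr h
    have hI := hidx g
    nth_rewrite 1 [← hx] at hI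
    by_cases hτ : (tr (lf g)) ^ 2 = 4
    · rw [card_cent_unip (lf g) hns hτ, hq] at hI
      right; left
      exact hU _ hI
    · by_cases hroot : ∃ u : F, u ^ 2 - tr (lf g) * u + 1 = 0
      · obtain ⟨u, hu⟩ := hroot
        have h1 := card_cent_split (lf g) hτ u hu (Or.inl hc2)
        rw [hR, one_mul, hq] at h1
        rw [h1] at hI
        right; right
        exact hS _ hI
      · push_neg at hroot
        have h1 := card_cent_nonsplit (lf g) hτ hroot (Or.inl hc2)
        rw [hR, one_mul, hq] at h1
        rw [h1] at hI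
        left
        exact hN _ hI
  · intro n hn
    simp only [Set.mem_insert_iff, Set.mem_singleton_iff] at hn
    rcases hn with rfl | rfl | rfl | rfl
    · exact ⟨1, hone⟩
    · obtain ⟨x, hτ, h1⟩ := exists_nonsplit (F := F)
      rw [hR, one_mul, hq] at h1
      refine ⟨pi x, ?_⟩
      have hI := hidx (pi x)
      rw [cent_eq_CP x (Or.inl hc2), h1] at hI
      show (Subgroup.centralizer ({(pi x : Matrix.ProjectiveSpecialLinearGroup (Fin 2) F)} : Set _)).index = _
      rw [cent_eq_CP x (Or.inl hc2)]
      exact hN _ hI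
    · have hns : ¬ IsScalar (uu (1 : F)) := fun h => one_ne_zero (α := F) h.1
      have hτ : (tr (uu (1 : F))) ^ 2 = 4 := by
        simp [tr, uu, mk]
        norm_num
      refine ⟨pi (uu 1), ?_⟩
      have hI := hidx (pi (uu 1))
      rw [card_cent_unip _ hns hτ, hq] at hI
      exact hU _ hI
    · obtain ⟨x, hτ, h1⟩ := exists_split (F := F) (by omega)
      rw [hR, one_mul, hq] at h1
      refine ⟨pi x, ?_⟩
      have hI := hidx (pi x)
      rw [cent_eq_CP x (Or.inl hc2), h1] at hI
      show (Subgroup.centralizer ({(pi x : Matrix.ProjectiveSpecialLinearGroup (Fin 2) F)} : Set _)).index = _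
      rw [cent_eq_CP x (Or.inl hc2)]
      exact hS _ hI

end Cfsg.Agent.S2507
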