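import Cfsg.Statements.S2508
import Mathlib
import Cfsg.Agent.Lib.Classical.Dick.Cent

set_option autoImplicit false
open Cfsg

namespace Cfsg.Agent.S2508

open Cfsg.Agent.Lib.Classical.Dick Cfsg.Agent.Lib.KS2.SL2 in

/-- Let F be a finite field with q elements, q odd and q ≥ 7. If q ≡ 1 (mod 4) the conjugacy class sizes of PSL(2,F) are exactly 1, (q² − 1)/2, q(q + 1)/2, q(q − 1) and q(q + 1); if q ≡ 3 (mod 4) they are exactly 1, (q² − 1)/2, q(q − 1)/2, q(q + 1) and q(q − 1). -/
theorem result {F : Type*} [Field F] [Fintype F]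
    (hodd : ¬ 2 ∣ Fintype.card F) (h7 : 7 ≤ Fintype.card F) :
    (Fintype.card F % 4 = 1 →
      Set.range (fun g : (Matrix.ProjectiveSpecialLinearGroup (Fin 2) F) => (Subgroup.centralizer ({g} : Set (Matrix.ProjectiveSpecialLinearGroup (Fin 2) F))).index) =
        {1, (Fintype.card F ^ 2 - 1) / 2, Fintype.card F * (Fintype.card F + 1) / 2,
          Fintype.card F * (Fintype.card F - 1), Fintype.card F * (Fintype.card F + 1)}) ∧
    (Fintype.card F % 4 = 3 →
      Set.range (fun g : (Matrix.ProjectiveSpecialLinearGroup (Fin 2) F) => (Subgroup.centralizer ({g} : Set (Matrix.ProjectiveSpecialLinearGroup (Fin 2) F))).index) =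
        {1, (Fintype.card F ^ 2 - 1) / 2, Fintype.card F * (Fintype.card F - 1) / 2,
          Fintype.card F * (Fintype.card F + 1), Fintype.card F * (Fintype.card F - 1)}) := by
  classical
  have hc2 : ringChar F ≠ 2 := by
    intro h
    rw [FiniteField.even_card_iff_char_two] at h
    omega
  have hR : Nat.card (Roots1 F) = 2 := card_roots1_odd hc2
  have hP := card_PP_eq (F := F)
  rw [hR] at hP
  obtain ⟨q, hq⟩ : ∃ q, Fintype.card F = q := ⟨_, rfl⟩
  rw [hq] at hP hodd h7 ⊢
  have hq1 : q ^ 2 - 1 = (q - 1) * (q + 1) := sq_sub_one_eq q (by omega)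
  have hodd' : q % 2 = 1 := by omega
  obtain ⟨r, rfl⟩ : ∃ r, q = 2 * r + 1 := ⟨q / 2, by omega⟩
  have hr : 3 ≤ r := by omega
  have e1 : 2 * r + 1 - 1 = 2 * r := by omega
  rw [e1] at hq1
  rw [hq1] at hP
  have hidx : ∀ g : Matrix.ProjectiveSpecialLinearGroup (Fin 2) F,
      Nat.card (Subgroup.centralizer ({g} : Set (Matrix.ProjectiveSpecialLinearGroup (Fin 2) F))) *
        (Subgroup.centralizer ({g} : Set (Matrix.ProjectiveSpecialLinearGroup (Fin 2) F))).index =
        (2 * r + 1) * (r * (r + 1) * 2) := by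
    intro g
    rw [Subgroup.card_mul_index]
    apply Nat.eq_of_mul_eq_mul_left (show 0 < 2 by norm_num)
    rw [hP]
    ring
  -- values
  have v1 : ((2 * r + 1) ^ 2 - 1) / 2 = 2 * r * (r + 1) := by
    rw [hq1]
    have : 2 * r * (2 * r + 1 + 1) = 2 * (2 * r * (r + 1)) := by ring
    rw [this]
    exact Nat.mul_div_cancel_left _ (by norm_num)
  have v2 : (2 * r + 1) * (2 * r + 1 + 1) / 2 = (2 * r + 1) * (r + 1) := by
    have : (2 * r + 1) * (2 * r + 1 + 1) = 2 * ((2 * r + 1) * (r + 1)) := by ring
    rw [this]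
    exact Nat.mul_div_cancel_left _ (by norm_num)
  have v3 : (2 * r + 1) * (2 * r) / 2 = (2 * r + 1) * r := by
    have : (2 * r + 1) * (2 * r) = 2 * ((2 * r + 1) * r) := by ring
    rw [this]
    exact Nat.mul_div_cancel_left _ (by norm_num)
  rw [v1, v2, e1, v3]
  -- index computations
  have iU : ∀ I : ℕ, (2 * r + 1) * I = (2 * r + 1) * (r * (r + 1) * 2) → I = 2 * r * (r + 1) := by
    intro I h
    have := Nat.eq_of_mul_eq_mul_left (show 0 < 2 * r + 1 by omega) h
    rw [this]; ring
  have iS : ∀ I : ℕ, r * I = (2 * r + 1) * (r * (r + 1) * 2) → I = (2 * r + 1) * (2 * r + 1 + 1) := by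
    intro I h
    apply Nat.eq_of_mul_eq_mul_left (show 0 < r by omega)
    rw [h]; ring
  have iN : ∀ I : ℕ, (r + 1) * I = (2 * r + 1) * (r * (r + 1) * 2) → I = (2 * r + 1) * (2 * r) := by
    intro I h
    apply Nat.eq_of_mul_eq_mul_left (show 0 < r + 1 by omega)
    rw [h]; ring
  have iS0 : ∀ I : ℕ, 2 * r * I = (2 * r + 1) * (r * (r + 1) * 2) → I = (2 * r + 1) * (r + 1) := by
    intro I h
    apply Nat.eq_of_mul_eq_mul_left (show 0 < 2 * r by omega)
    rw [h]; ring
  have iN0 : ∀ I : ℕ, (2 * r + 2) * I = (2 * r + 1) * (r * (r + 1) * 2) → I = (2 * r + 1) * r := by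
    intro I h
    apply Nat.eq_of_mul_eq_mul_left (show 0 < 2 * r + 2 by omega)
    rw [h]; ring
  have hone : (Subgroup.centralizer ({1} : Set (Matrix.ProjectiveSpecialLinearGroup (Fin 2) F))).index = 1 := by
    rw [Subgroup.index_eq_one, Subgroup.centralizer_eq_top_iff_subset]
    intro x hx
    rw [Set.mem_singleton_iff.mp hx]
    exact Subgroup.one_mem _
  -- the elements of the various types
  have eU : ∃ g : Matrix.ProjectiveSpecialLinearGroup (Fin 2) F,
      (Subgroup.centralizer ({g} : Set (Matrix.ProjectiveSpecialLinearGroup (Fin 2) F))).index = 2 * r * (r + 1) := by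
    have hns : ¬ IsScalar (uu (1 : F)) := fun h => one_ne_zero (α := F) h.1
    have hτ : (tr (uu (1 : F))) ^ 2 = 4 := by
      simp [tr, uu, mk]
      norm_num
    refine ⟨pi (uu 1), ?_⟩
    have hI := hidx (pi (uu 1))
    rw [card_cent_unip _ hns hτ, hq] at hI
    exact iU _ hI
  have eS : ∃ g : Matrix.ProjectiveSpecialLinearGroup (Fin 2) F,
      (Subgroup.centralizer ({g} : Set (Matrix.ProjectiveSpecialLinearGroup (Fin 2) F))).index =
        (2 * r + 1) * (2 * r + 1 + 1) := by
    obtain ⟨c, hc, hc4⟩ := exists_c4 (F := F) (by omega)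
    have htr : tr (dg c hc) = c + c⁻¹ := by simp only [tr, dg00, dg11]
    have e : c * c⁻¹ = 1 := mul_inv_cancel₀ hc
    have hroot : c ^ 2 - tr (dg c hc) * c + 1 = 0 := by
      rw [htr]
      linear_combination -e
    have hτ1 : (tr (dg c hc)) ^ 2 ≠ 4 := by
      intro h
      apply hc4
      rw [htr] at h
      have h3 : (c - c⁻¹) ^ 2 = 0 := by linear_combination h - 4 * e
      have h4 : c = c⁻¹ := sub_eq_zero.mp (pow_eq_zero_iff (by norm_num) |>.mp h3)
      have h5 : c * c = 1 := by
        nth_rewrite 2 [h4]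
        exact e
      calc c ^ 4 = (c * c) * (c * c) := by ring
        _ = 1 := by rw [h5]; ring
    have hτ0 : tr (dg c hc) ≠ 0 := by
      intro h
      apply hc4
      rw [htr] at h
      have h5 : c * c = -1 := by linear_combination c * h - e
      calc c ^ 4 = (c * c) * (c * c) := by ring
        _ = 1 := by rw [h5]; ring
    have h1 := card_cent_split (dg c hc) hτ1 c hroot (Or.inr hτ0)
    rw [hR, hq, e1] at h1
    have h2 : Nat.card (Subgroup.centralizer ({(pi (dg c hc) : Matrix.ProjectiveSpecialLinearGroup (Fin 2) F)} : Set _)) = r := by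
      omega
    refine ⟨pi (dg c hc), ?_⟩
    have hI := hidx (pi (dg c hc))
    rw [h2] at hI
    apply iS
    rw [hI]
  have eN : ∃ g : Matrix.ProjectiveSpecialLinearGroup (Fin 2) F,
      (Subgroup.centralizer ({g} : Set (Matrix.ProjectiveSpecialLinearGroup (Fin 2) F))).index =
        (2 * r + 1) * (2 * r) := by
    obtain ⟨τ, hτ0, hf⟩ := exists_tau (F := F) (by omega)
    have htr : tr (nf (1 : F) τ one_ne_zero) = τ := tr_nf' τ
    have hf' : ∀ u : F, u ^ 2 - tr (nf (1 : F) τ one_ne_zero) * u + 1 ≠ 0 := by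
      rw [htr]; exact hf
    have hτ1 : (tr (nf (1 : F) τ one_ne_zero)) ^ 2 ≠ 4 := by
      rw [htr]; exact sq_ne_four_of_no_root τ hf
    have h1 := card_cent_nonsplit _ hτ1 hf' (Or.inr (by rw [htr]; exact hτ0))
    rw [hR, hq] at h1
    have h2 : Nat.card (Subgroup.centralizer ({(pi (nf (1 : F) τ one_ne_zero) : Matrix.ProjectiveSpecialLinearGroup (Fin 2) F)} : Set _)) = r + 1 := by
      omega
    refine ⟨pi (nf (1 : F) τ one_ne_zero), ?_⟩
    have hI := hidx (pi (nf (1 : F) τ one_ne_zero))
    rw [h2] at hI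
    exact iN _ hI
  -- the general element
  have hgen : ∀ g : Matrix.ProjectiveSpecialLinearGroup (Fin 2) F, g ≠ 1 →
      let I := (Subgroup.centralizer ({g} : Set (Matrix.ProjectiveSpecialLinearGroup (Fin 2) F))).index
      I = 2 * r * (r + 1) ∨ I = (2 * r + 1) * (2 * r + 1 + 1) ∨ I = (2 * r + 1) * (2 * r) ∨
      (tr (lf g) = 0 ∧ (((∃ u : F, u ^ 2 + 1 = 0) ∧ I = (2 * r + 1) * (r + 1)) ∨
        ((∀ u : F, u ^ 2 + 1 ≠ 0) ∧ I = (2 * r + 1) * r))) := by
    intro g hg I
    have hx : (pi (lf g) : Matrix.ProjectiveSpecialLinearGroup (Fin 2) F) = g := pi_lf g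
    have hns : ¬ IsScalar (lf g) := by
      intro h
      apply hg
      rw [← hx]
      exact (pi_eq_one_iff _).mpr h
    have hI := hidx g
    nth_rewrite 1 [← hx] at hI
    by_cases hτ : (tr (lf g)) ^ 2 = 4
    · rw [card_cent_unip (lf g) hns hτ, hq] at hI
      left
      exact iU _ hI
    by_cases h0 : tr (lf g) = 0
    · right; right; right
      refine ⟨h0, ?_⟩
      by_cases hroot : ∃ u : F, u ^ 2 + 1 = 0
      · left
        obtain ⟨u, hu⟩ := hroot
        refine ⟨⟨u, hu⟩, ?_⟩
        have h1 := card_cent_split_zero (lf g) hc2 h0 u (by rw [h0]; linear_combination hu)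
        rw [hq, e1] at h1
        rw [h1] at hI
        exact iS0 _ hI
      · right
        push_neg at hroot
        refine ⟨hroot, ?_⟩
        have h1 := card_cent_nonsplit_zero (lf g) hc2 h0 (fun u => by
          rw [h0]
          intro h
          exact hroot u (by linear_combination h))
        rw [hq] at h1
        rw [h1] at hI
        exact iN0 _ hI
    · by_cases hroot : ∃ u : F, u ^ 2 - tr (lf g) * u + 1 = 0
      · obtain ⟨u, hu⟩ := hroot
        have h1 := card_cent_split (lf g) hτ u hu (Or.inr h0)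
        rw [hR, hq, e1] at h1
        have h2 : Nat.card (Subgroup.centralizer ({(pi (lf g) : Matrix.ProjectiveSpecialLinearGroup (Fin 2) F)} : Set _)) = r := by
          omega
        rw [h2] at hI
        right; left
        apply iS
        rw [hI]
      · push_neg at hroot
        have h1 := card_cent_nonsplit (lf g) hτ hroot (Or.inr h0)
        rw [hR, hq] at h1
        have h2 : Nat.card (Subgroup.centralizer ({(pi (lf g) : Matrix.ProjectiveSpecialLinearGroup (Fin 2) F)} : Set _)) = r + 1 := by
          omega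
        rw [h2] at hI
        right; right; left
        exact iN _ hI
  have hsq : (∃ u : F, u ^ 2 + 1 = 0) ↔ (2 * r + 1) % 4 ≠ 3 := by
    rw [← hq, ← FiniteField.isSquare_neg_one_iff]
    constructor
    · rintro ⟨u, hu⟩
      exact ⟨u, by linear_combination -hu⟩
    · rintro ⟨u, hu⟩
      exact ⟨u, by linear_combination -hu⟩
  have x0 : tr (nf (1 : F) 0 one_ne_zero) = 0 := tr_nf' 0
  have hns0 : (pi (nf (1 : F) 0 one_ne_zero) : Matrix.ProjectiveSpecialLinearGroup (Fin 2) F) ≠ 1 := by
    intro h
    have := (pi_eq_one_iff _).mp h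
    have h3 : (-(1 : F)⁻¹) = 0 := this.1
    simp at h3
  constructor
  · intro h41
    have hroot : ∃ u : F, u ^ 2 + 1 = 0 := hsq.mpr (by omega)
    apply Set.eq_of_subset_of_subset
    · rintro _ ⟨g, rfl⟩
      simp only [Set.mem_insert_iff, Set.mem_singleton_iff]
      by_cases hg : g = 1
      · left
        rw [hg]
        exact hone
      rcases hgen g hg with h | h | h | ⟨_, ⟨_, h⟩ | ⟨h', h⟩⟩
      · right; left; exact h
      · right; right; right; right; exact h
      · right; right; right; left; exact h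
      · right; right; left; exact h
      · exact absurd hroot (by push_neg; exact h')
    · intro n hn
      simp only [Set.mem_insert_iff, Set.mem_singleton_iff] at hn
      rcases hn with rfl | rfl | rfl | rfl | rfl
      · exact ⟨1, hone⟩
      · exact eU
      · obtain ⟨u, hu⟩ := hroot
        refine ⟨pi (nf (1 : F) 0 one_ne_zero), ?_⟩
        have h1 := card_cent_split_zero (nf (1 : F) 0 one_ne_zero) hc2 x0 u (by rw [x0]; linear_combination hu)
        rw [hq, e1] at h1
        have hI := hidx (pi (nf (1 : F) 0 one_ne_zero))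
        rw [h1] at hI
        exact iS0 _ hI
      · exact eN
      · exact eS
  · intro h43
    have hroot : ∀ u : F, u ^ 2 + 1 ≠ 0 := by
      intro u hu
      exact hsq.mp ⟨u, hu⟩ h43
    apply Set.eq_of_subset_of_subset
    · rintro _ ⟨g, rfl⟩
      simp only [Set.mem_insert_iff, Set.mem_singleton_iff]
      by_cases hg : g = 1
      · left
        rw [hg]
        exact hone
      rcases hgen g hg with h | h | h | ⟨_, ⟨⟨u, hu⟩, h⟩ | ⟨h', h⟩⟩
      · right; left; exact h
      · right; right; right; left; exact h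
      · right; right; right; right; exact h
      · exact absurd hu (hroot u)
      · right; right; left; exact h
    · intro n hn
      simp only [Set.mem_insert_iff, Set.mem_singleton_iff] at hn
      rcases hn with rfl | rfl | rfl | rfl | rfl
      · exact ⟨1, hone⟩
      · exact eU
      · refine ⟨pi (nf (1 : F) 0 one_ne_zero), ?_⟩
        have h1 := card_cent_nonsplit_zero (nf (1 : F) 0 one_ne_zero) hc2 x0 (fun u => by
          rw [x0]
          intro h
          exact hroot u (by linear_combination h))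
        rw [hq] at h1
        have hI := hidx (pi (nf (1 : F) 0 one_ne_zero))
        rw [h1] at hI
        exact iN0 _ hI
      · exact eS
      · exact eN

end Cfsg.Agent.S2508
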