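import Cfsg.Statements.S2510
import Mathlib
import Cfsg.Agent.Lib.Known3.Dichotomy
import Cfsg.Agent.Lib.Known3.OrderSpec
import Cfsg.Agent.Lib.Known3.PSLBasic
import Cfsg.Agent.Lib.Known3.PSLCyclic
import Cfsg.Agent.Lib.Known3.PSLElements

set_option autoImplicit false
open Cfsg

namespace Cfsg.Agent.S2510

open Cfsg.Agent.Lib.Known3 in
open Cfsg.Agent.Lib.Known3.PSLBasic Cfsg.Agent.Lib.Known3.PSLCyclic Cfsg.Agent.Lib.Known3.PSLElements in
/-- Every element either commutes with one of order `r` or has order dividing `A * p ^ B`. -/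
theorem spec_dichotomy {F : Type*} [Field F] [Fintype F] {p n r : ℕ} [Fact p.Prime] [CharP F p]
    (hn : 2 ≤ n) (hr : r.Prime) (hrq : r ∣ Fintype.card F - 1) (hrn : ¬ r ∣ n)
    (x : Matrix.ProjectiveSpecialLinearGroup (Fin n) F) :
    (∃ w, Commute x w ∧ orderOf w = r) ∨
      ∃ B, (B = 0 ∨ p ^ (B - 1) < n) ∧ orderOf x ∣ cA (Fintype.card F) n * p ^ B := by
  obtain ⟨g, rfl⟩ := cls_surjective x
  haveI : Nonempty (Fin n) := ⟨⟨0, by omega⟩⟩
  rcases Dichotomy.decomp_or_cyclic (Matrix.mulVecLin (g : Matrix (Fin n) (Fin n) F)) with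
    ⟨V₁, V₂, hc, h1, h2, hi1, hi2⟩ | ⟨pp, e, v₀, hirr, he, h1, h2⟩
  · left
    exact exists_commute_of_decomp hr hrq hrn g hc h1 h2
      (fun v hv => hi1 v hv) (fun v hv => hi2 v hv)
  · right
    obtain ⟨hB, c, hc⟩ := cyclic_case (p := p) g hirr he h1 h2
    refine ⟨Nat.clog p e, hB, orderOf_dvd_of_pow_eq_one ?_⟩
    rw [cls_pow_eq_one_iff]
    exact ⟨c, hc⟩

/-- Let F be a finite field with q = p^a elements, n ≥ 2 (with q ≥ 4 when n = 2), L = PSL(n, F), and let r be a prime dividing q − 1 and not dividing n. Then for every m the direct product L × L × L × (ℤ/r)^m has the same set of element orders as L × L × L; and if n − 1 ≠ p^j for every j ≥ 0 (so never when n = 2, since 1 = p^0), then already L × L × (ℤ/r)^m has the same set of element orders as L × L. -/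
theorem result {F : Type*} [Field F] [Fintype F] (p a n r m : ℕ) (hp : p.Prime) (ha : 1 ≤ a) (hF : Fintype.card F = p ^ a)
    (hn : 2 ≤ n) (hn2 : n = 2 → 4 ≤ Fintype.card F) (hr : r.Prime) (hrq : r ∣ Fintype.card F - 1) (hrn : ¬ r ∣ n) :
    Set.range (orderOf : Matrix.ProjectiveSpecialLinearGroup (Fin n) F × Matrix.ProjectiveSpecialLinearGroup (Fin n) F × Matrix.ProjectiveSpecialLinearGroup (Fin n) F × Multiplicative (Fin m → ZMod r) → ℕ) =
      Set.range (orderOf : Matrix.ProjectiveSpecialLinearGroup (Fin n) F × Matrix.ProjectiveSpecialLinearGroup (Fin n) F × Matrix.ProjectiveSpecialLinearGroup (Fin n) F → ℕ) ∧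
    ((¬ ∃ j : ℕ, n - 1 = p ^ j) →
      Set.range (orderOf : Matrix.ProjectiveSpecialLinearGroup (Fin n) F × Matrix.ProjectiveSpecialLinearGroup (Fin n) F × Multiplicative (Fin m → ZMod r) → ℕ) =
        Set.range (orderOf : Matrix.ProjectiveSpecialLinearGroup (Fin n) F × Matrix.ProjectiveSpecialLinearGroup (Fin n) F → ℕ)) := by
  classical
  haveI : Fact p.Prime := ⟨hp⟩
  set q := Fintype.card F with hq
  have hq2 : 2 ≤ q := Fintype.one_lt_card
  haveI : CharP F p := by
    obtain ⟨p', hp'⟩ := CharP.exists F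
    obtain ⟨n', hpr, hn'⟩ := FiniteField.card F p'
    have hpr' : p'.Prime := hpr
    have h1 : p' ^ (n' : ℕ) = p ^ a := by rw [← hn']; exact hF
    have h2 : p' ∣ p ^ a := by
      rw [← h1]
      exact dvd_pow_self _ n'.ne_zero
    have h3 : p' = p := (Nat.prime_dvd_prime_iff_eq hpr' hp).1 (hpr'.dvd_of_dvd_pow h2)
    rwa [h3] at hp'
  have hrp : r ≠ p := by
    rintro rfl
    have h1 : r ∣ q := by rw [hF]; exact dvd_pow_self _ (by omega)
    have h2 : r ∣ q - (q - 1) := Nat.dvd_sub h1 hrq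
    rw [show q - (q - 1) = 1 by omega] at h2
    exact hr.one_lt.ne' (Nat.dvd_one.1 h2)
  have hpq : p ∣ q := by rw [hF]; exact dvd_pow_self _ (by omega)
  have hA : ¬ p ∣ Lib.Known3.PSLCyclic.cA q n := by
    intro h
    have h1 := h.trans (Lib.Known3.PSLCyclic.cA_dvd_cC q n)
    rw [Lib.Known3.PSLCyclic.cC_eq_sum hq2] at h1
    obtain ⟨k, rfl⟩ : ∃ k, n = k + 1 := ⟨n - 1, by omega⟩
    rw [Finset.sum_range_succ'] at h1
    have h2 : p ∣ ∑ i ∈ Finset.range k, q ^ (i + 1) :=
      Finset.dvd_sum fun i _ => hpq.trans (dvd_pow_self _ (by omega))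
    have h3 := (Nat.dvd_add_right h2).1 h1
    simp only [pow_zero] at h3
    exact hp.one_lt.ne' (Nat.dvd_one.1 h3)
  have hC : ∀ b B : ℕ, b ≤ B → (B = 0 ∨ p ^ (B - 1) < n) → (b = 0 ∨ p ^ (b - 1) < n) := by
    intro b B hbB hB
    rcases Nat.eq_zero_or_pos b with h0 | h0
    · exact Or.inl h0
    right
    rcases hB with hB | hB
    · omega
    · exact lt_of_le_of_lt (Nat.pow_le_pow_right hp.pos (by omega)) hB
  have hM : ∀ z : Multiplicative (Fin m → ZMod r), z ^ r = 1 := by
    intro z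
    apply Multiplicative.toAdd.injective
    funext i
    simp
  have Hdich := spec_dichotomy (F := F) (p := p) hn hr hrq hrn
  have Hcyc : ∀ t : ℕ, t ∣ Lib.Known3.PSLCyclic.cA q n →
      ∃ y : Matrix.ProjectiveSpecialLinearGroup (Fin n) F, orderOf y = t :=
    fun t ht => Lib.Known3.PSLElements.exists_orderOf_of_dvd_cA (by omega) ht
  refine ⟨?_, ?_⟩
  · refine Lib.Known3.OrderSpec.range_three hr hp hrp hA hC Hdich Hcyc ?_ ?_ hM
    · intro b hb
      refine ⟨Lib.Known3.PSLBasic.cls (Lib.Known3.PSLElements.jordU F n (min (p ^ b) n)), ?_⟩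
      apply Lib.Known3.PSLElements.orderOf_cls_jordU (by omega)
      · exact le_min (Nat.one_le_pow _ _ hp.pos) (by omega)
      · exact min_le_right _ _
      · exact min_le_left _ _
      · rcases hb with h0 | h0
        · exact Or.inl h0
        by_cases hb0 : b = 0
        · exact Or.inl hb0
        right
        apply lt_min _ h0
        exact Nat.pow_lt_pow_right hp.one_lt (by omega)
    · obtain ⟨w, -, hw⟩ := Lib.Known3.PSLElements.exists_commute_cls_jordU (F := F) (n := n) hr hrq hrn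
        (e' := 1) le_rfl (by omega)
      exact ⟨w, hw⟩
  · intro hnp
    refine Lib.Known3.OrderSpec.range_two hr hp hrp hA hC Hdich Hcyc ?_ hM
    intro b hb
    have hcl : orderOf (Lib.Known3.PSLBasic.cls (Lib.Known3.PSLElements.jordU F n (min (p ^ b) (n - 1)))) = p ^ b := by
      apply Lib.Known3.PSLElements.orderOf_cls_jordU (by omega)
      · exact le_min (Nat.one_le_pow _ _ hp.pos) (by omega)
      · exact (min_le_right _ _).trans (by omega)
      · exact min_le_left _ _
      · rcases hb with h0 | h0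
        · exact Or.inl h0
        by_cases hb0 : b = 0
        · exact Or.inl hb0
        right
        apply lt_min
        · exact Nat.pow_lt_pow_right hp.one_lt (by omega)
        · have h1 : p ^ (b - 1) ≠ n - 1 := fun h => hnp ⟨b - 1, h.symm⟩
          omega
    obtain ⟨w, hcomm, hw⟩ := Lib.Known3.PSLElements.exists_commute_cls_jordU (F := F) (n := n) hr hrq hrn
        (e' := min (p ^ b) (n - 1)) (le_min (Nat.one_le_pow _ _ hp.pos) (by omega))
        ((min_le_right _ _).trans_lt (by omega))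
    refine ⟨w * Lib.Known3.PSLBasic.cls (Lib.Known3.PSLElements.jordU F n (min (p ^ b) (n - 1))), ?_⟩
    rw [(hcomm.symm).orderOf_mul_eq_mul_orderOf_of_coprime, hw, hcl]
    rw [hw, hcl]
    exact Nat.Coprime.pow_right b ((Nat.coprime_primes hr hp).2 hrp)

end Cfsg.Agent.S2510
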