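import Cfsg.Statements.S2511
import Mathlib
import Cfsg.Agent.Lib.Known3.PSUOrders
import Cfsg.Agent.Lib.Known3.OrderSpec2

set_option autoImplicit false
open Cfsg

namespace Cfsg.Agent.S2511

open Cfsg.Agent.Lib.Known3.PSUOrders

/-- Let F be a finite field with q² elements, q = p^a, n ≥ 3 with (n, q) ≠ (3, 2), L = PSU(n, q) realised over F, and let r be a prime dividing q + 1 and not dividing n. Then for every m the direct product L × L × L × (ℤ/r)^m has the same set of element orders as L × L × L; and if n − 1 is not a power of p, then already L × L × (ℤ/r)^m has the same set of element orders as L × L. -/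
theorem result {F : Type*} [Field F] [Fintype F] (p a n q r m : ℕ) (hp : p.Prime) (ha : 1 ≤ a) (hq : q = p ^ a) (hF : Fintype.card F = q ^ 2)
    (hn : 3 ≤ n) (hn3 : ¬ (n = 3 ∧ q = 2)) (hr : r.Prime) (hrq : r ∣ q + 1) (hrn : ¬ r ∣ n) :
    Set.range (orderOf : Cfsg.PSU n F q × Cfsg.PSU n F q × Cfsg.PSU n F q × Multiplicative (Fin m → ZMod r) → ℕ) = Set.range (orderOf : Cfsg.PSU n F q × Cfsg.PSU n F q × Cfsg.PSU n F q → ℕ) ∧
    ((¬ ∃ j : ℕ, n - 1 = p ^ j) →
      Set.range (orderOf : Cfsg.PSU n F q × Cfsg.PSU n F q × Multiplicative (Fin m → ZMod r) → ℕ) = Set.range (orderOf : Cfsg.PSU n F q × Cfsg.PSU n F q → ℕ)) := by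
  classical
  haveI : Fact p.Prime := ⟨hp⟩
  haveI : Fact r.Prime := ⟨hr⟩
  have hq1 := Lib.Classical.one_lt_q hF
  haveI : CharP F p := by
    obtain ⟨p', hp'⟩ := CharP.exists F
    obtain ⟨n', hpr, hn'⟩ := FiniteField.card F p'
    have hpr' : p'.Prime := hpr
    have h1 : p' ^ (n' : ℕ) = (p ^ a) ^ 2 := by rw [← hn', hF, hq]
    have h2 : p' ∣ (p ^ a) ^ 2 := by
      rw [← h1]
      exact dvd_pow_self _ n'.ne_zero
    have h3 : p' = p := (Nat.prime_dvd_prime_iff_eq hpr' hp).1 (hpr'.dvd_of_dvd_pow (hpr'.dvd_of_dvd_pow h2))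
    rwa [h3] at hp'
  have hn1 : 1 ≤ n := by omega
  have hrp : r ≠ p := prime_ne_of_dvd hp hr hq ha hrq
  have hpA : ¬ p ∣ Aof q n := not_dvd_Aof hp hq1 hq ha hn1
  have hC : ∀ b B : ℕ, b ≤ B → (B = 0 ∨ p ^ (B - 1) < n) → (b = 0 ∨ p ^ (b - 1) < n) := by
    intro b B hbB hB
    rcases Nat.eq_zero_or_pos b with h0 | h0
    · exact Or.inl h0
    right
    rcases hB with hB | hB
    · omega
    · exact lt_of_le_of_lt (Nat.pow_le_pow_right hp.pos (by omega)) hB
  have hM : ∀ z : Multiplicative (Fin m → ZMod r), z ^ r = 1 := by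
    intro z
    apply Multiplicative.toAdd.injective
    funext i
    simp
  have H1 : ∀ x : Cfsg.PSU n F q, ¬ r ∣ orderOf x → (∃ y : Cfsg.PSU n F q, orderOf y = Nat.lcm (orderOf x) r) ∨
      ∃ B, (B = 0 ∨ p ^ (B - 1) < n) ∧ orderOf x ∣ Aof q n * p ^ B :=
    fun x hx => key_lemma hF hq ha hn1 hr hrq hrn x hx
  have H2 : ∀ t, t ∣ Aof q n → ∃ y : Cfsg.PSU n F q, orderOf y = t :=
    fun t ht => exists_of_dvd_Aof hF hn1 ht
  have H3 : ∀ b, (b = 0 ∨ p ^ (b - 1) < n) → ∃ u : Cfsg.PSU n F q, orderOf u = p ^ b :=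
    fun b hb => exists_unip_psu hF hn1 hb
  have H4 : ∃ z : Cfsg.PSU n F q, orderOf z = r := by
    obtain ⟨y, hy⟩ := exists_r_unip (F := F) (n := n) (b := 0) hF hq ha (by omega) hr hrq hrn (Or.inl rfl)
    exact ⟨y, by simpa using hy⟩
  refine ⟨?_, ?_⟩
  · exact Lib.Known3.OrderSpec.range_three' (C := fun B => B = 0 ∨ p ^ (B - 1) < n) hr hp hrp hpA hC H1 H2 H3 H4 hM
  · intro hnp
    refine Lib.Known3.OrderSpec.range_two' (C := fun B => B = 0 ∨ p ^ (B - 1) < n) hr hp hrp hpA hC H1 H2 ?_ hM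
    intro b hb
    apply exists_r_unip (F := F) hF hq ha (by omega) hr hrq hrn
    rcases hb with hb | hb
    · exact Or.inl hb
    · right
      have hne : p ^ (b - 1) ≠ n - 1 := fun h => hnp ⟨b - 1, h.symm⟩
      omega

end Cfsg.Agent.S2511
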