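import Cfsg.Statements.S2512
import Mathlib
import Cfsg.Agent.Lib.Known3.SpOrders
import Cfsg.Agent.Lib.Known3.OrderSpec2

set_option autoImplicit false
open Cfsg

namespace Cfsg.Agent.S2512

/-- Let F be a finite field of odd order q = p^a, n ≥ 2 (with q ≥ 3 automatic), and L = PSp(2n, F). Then for every m the direct product L × L × L × (ℤ/2)^m has the same set of element orders as L × L × L; and if 2n − 1 is not a power of p, then already L × L × (ℤ/2)^m has the same set of element orders as L × L. -/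
theorem result {F : Type*} [Field F] [Fintype F] (p a n m : ℕ) (hp : p.Prime) (ha : 1 ≤ a) (hF : Fintype.card F = p ^ a) (hodd : Odd (Fintype.card F))
    (hn : 2 ≤ n) :
    Set.range (orderOf : Cfsg.PSp n F × Cfsg.PSp n F × Cfsg.PSp n F × Multiplicative (Fin m → ZMod 2) → ℕ) = Set.range (orderOf : Cfsg.PSp n F × Cfsg.PSp n F × Cfsg.PSp n F → ℕ) ∧
    ((¬ ∃ j : ℕ, 2 * n - 1 = p ^ j) →
      Set.range (orderOf : Cfsg.PSp n F × Cfsg.PSp n F × Multiplicative (Fin m → ZMod 2) → ℕ) = Set.range (orderOf : Cfsg.PSp n F × Cfsg.PSp n F → ℕ)) := by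
  classical
  haveI : Fact p.Prime := ⟨hp⟩
  haveI : CharP F p := by
    obtain ⟨p', hp'⟩ := CharP.exists F
    obtain ⟨n', hpr, hn'⟩ := FiniteField.card F p'
    have hpr' : p'.Prime := hpr
    have h1 : p' ^ (n' : ℕ) = p ^ a := by rw [← hn']; exact hF
    have h2 : p' ∣ p ^ a := by
      rw [← h1]
      exact dvd_pow_self _ n'.ne_zero
    have h3 : p' = p := (Nat.prime_dvd_prime_iff_eq hpr' hp).1 (hpr'.dvd_of_dvd_pow h2)
    rwa [h3] at hp'
  have hp2 : p ≠ 2 := by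
    rintro rfl
    rw [hF] at hodd
    have := hodd.pow (n := 1)
    have h3 : Even (2 ^ a) := (Nat.even_pow.2 ⟨even_two, by omega⟩)
    exact (Nat.not_even_iff_odd.2 hodd) h3
  have h2F : (2 : F) ≠ 0 := by
    intro h
    have h3 : ((2 : ℕ) : F) = 0 := by simpa using h
    rw [CharP.cast_eq_zero_iff F p] at h3
    exact hp2 ((Nat.prime_dvd_prime_iff_eq hp Nat.prime_two).1 h3)
  have hn1 : 1 ≤ n := by omega
  set q := Fintype.card F with hq
  have hqn : Odd (q ^ n) := hodd.pow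
  obtain ⟨A, hA⟩ : ∃ A, (2 * A = q ^ n - 1 ∧ 4 ∣ q ^ n + 1) ∨ (2 * A = q ^ n + 1 ∧ 4 ∣ q ^ n - 1) := by
    obtain ⟨c, hc⟩ := hqn
    rcases Nat.even_or_odd c with ⟨d, hd⟩ | ⟨d, hd⟩
    · refine ⟨2 * d + 1, Or.inr ⟨by omega, ⟨d, by omega⟩⟩⟩
    · refine ⟨2 * d + 1, Or.inl ⟨by omega, ⟨d + 1, by omega⟩⟩⟩
  have hAodd : Odd A := by
    rcases hA with ⟨h1, h3⟩ | ⟨h1, h3⟩ <;> obtain ⟨c, hc⟩ := h3 <;> rw [Nat.odd_iff] <;> omega
  have hpA : ¬ p ∣ A := by
    intro h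
    have hpq : p ∣ q ^ n := by
      rw [hF]
      exact (dvd_pow_self p (by omega)).trans (dvd_pow_self _ (by omega))
    have h1 : p ∣ 2 * A := h.trans (dvd_mul_left _ _)
    have h3 : 1 ≤ q ^ n := by
      obtain ⟨c, hc⟩ := hqn
      omega
    have h4 : p ∣ 1 := by
      rcases hA with ⟨h5, -⟩ | ⟨h5, -⟩
      · rw [h5] at h1
        have := (Nat.dvd_sub hpq h1)
        rwa [show q ^ n - (q ^ n - 1) = 1 by omega] at this
      · rw [h5] at h1
        have := (Nat.dvd_sub h1 hpq)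
        rwa [show q ^ n + 1 - q ^ n = 1 by omega] at this
    exact hp.one_lt.ne' (Nat.dvd_one.1 h4)
  have hC : ∀ b B : ℕ, b ≤ B → (B = 0 ∨ p ^ (B - 1) < 2 * n) → (b = 0 ∨ p ^ (b - 1) < 2 * n) := by
    intro b B hbB hB
    rcases Nat.eq_zero_or_pos b with h0 | h0
    · exact Or.inl h0
    right
    rcases hB with hB | hB
    · omega
    · exact lt_of_le_of_lt (Nat.pow_le_pow_right hp.pos (by omega)) hB
  have hM : ∀ z : Multiplicative (Fin m → ZMod 2), z ^ 2 = 1 := by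
    intro z
    apply Multiplicative.toAdd.injective
    funext i
    simp [CharTwo.two_eq_zero]
  have H1 : ∀ x : Cfsg.PSp n F, ¬ 2 ∣ orderOf x → (∃ y : Cfsg.PSp n F, orderOf y = Nat.lcm (orderOf x) 2) ∨
      ∃ B, (B = 0 ∨ p ^ (B - 1) < 2 * n) ∧ orderOf x ∣ A * p ^ B := by
    intro x hx
    have hodd' : Odd (orderOf x) := Nat.odd_iff.2 (by omega)
    have hl : Nat.lcm (orderOf x) 2 = 2 * orderOf x := by
      rw [Nat.lcm_comm, (Nat.coprime_two_left.2 hodd').lcm_eq_mul]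
    rw [hl]
    exact Lib.Known3.SpOrders.key_lemma hp2 hn1 hA x hx
  have H2 : ∀ t, t ∣ A → ∃ y : Cfsg.PSp n F, orderOf y = t := by
    intro t ht
    obtain ⟨τ, hτ, hτz⟩ := Lib.Known3.SpOrders.exists_torus (F := F) (e := n) (N := 2 * A) h2F hn1 (by
      rcases hA with ⟨h1, -⟩ | ⟨h1, -⟩
      · exact Or.inl h1
      · exact Or.inr h1)
    rw [Nat.mul_div_cancel_left _ (by norm_num : 0 < 2)] at hτz
    have h1 : orderOf (τ : Cfsg.PSp n F) = A := Lib.Known3.SpOrders.orderOf_mk_half hn1 τ hτ hτz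
    have h3 : orderOf (τ : Cfsg.PSp n F) ≠ 0 := by
      rw [h1]
      obtain ⟨c, hc⟩ := hAodd
      omega
    exact ⟨_, orderOf_pow_orderOf_div h3 (by rw [h1]; exact ht)⟩
  have H3 : ∀ b, (b = 0 ∨ p ^ (b - 1) < 2 * n) → ∃ u : Cfsg.PSp n F, orderOf u = p ^ b := by
    intro b hb
    by_cases hb0 : b = 0
    · exact ⟨1, by simp [hb0]⟩
    have hb1 := hb.resolve_left hb0
    obtain ⟨U, hU⟩ := Lib.Known3.SpOrders.exists_unip_order (F := F) (p := p) (e := n) (k := b) hp2 (by omega) (by omega)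
    refine ⟨(U : Cfsg.PSp n F), ?_⟩
    rw [Lib.Known3.SpOrders.orderOf_mk_odd h2F hn1 U (by rw [hU]; exact (hp.odd_of_ne_two hp2).pow), hU]
  have H4 : ∃ z : Cfsg.PSp n F, orderOf z = 2 := by
    obtain ⟨y, hy⟩ := Lib.Known3.SpOrders.exists_block_order' (F := F) (n := n) (a := 1) (b := n - 1) h2F le_rfl (by omega) (by omega) 1 1 (by simp)
    exact ⟨y, by simpa using hy⟩
  refine ⟨?_, ?_⟩
  · exact Lib.Known3.OrderSpec.range_three' (C := fun B => B = 0 ∨ p ^ (B - 1) < 2 * n) Nat.prime_two hp hp2.symm hpA hC H1 H2 H3 H4 hM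
  · intro hnp
    refine Lib.Known3.OrderSpec.range_two' (C := fun B => B = 0 ∨ p ^ (B - 1) < 2 * n) Nat.prime_two hp hp2.symm hpA hC H1 H2 ?_ hM
    intro b hb
    by_cases hb0 : b = 0
    · obtain ⟨y, hy⟩ := H4
      exact ⟨y, by rw [hy, hb0]; simp⟩
    have hb1 := hb.resolve_left hb0
    have hne : p ^ (b - 1) ≠ 2 * n - 1 := fun h => hnp ⟨b - 1, h.symm⟩
    obtain ⟨c, hc⟩ : Odd (p ^ (b - 1)) := (hp.odd_of_ne_two hp2).pow
    obtain ⟨U, hU⟩ := Lib.Known3.SpOrders.exists_unip_order (F := F) (p := p) (e := n - 1) (k := b) hp2 (by omega) (by omega)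
    obtain ⟨y, hy⟩ := Lib.Known3.SpOrders.exists_block_order' (F := F) (n := n) (a := 1) (b := n - 1) h2F le_rfl (by omega) (by omega) 1 U (by
      rw [orderOf_one, Nat.lcm_one_left, hU]
      exact (hp.odd_of_ne_two hp2).pow)
    refine ⟨y, ?_⟩
    rw [hy, orderOf_one, Nat.lcm_one_left, hU]

end Cfsg.Agent.S2512
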