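import Cfsg.Statements.S2513
import Mathlib
import Cfsg.Agent.Lib.Known3.Orders
import Cfsg.Agent.Lib.Known3.Singer
import Cfsg.Agent.Lib.Known3.OrderDvd

set_option autoImplicit false
open Cfsg

namespace Cfsg.Agent.S2513

open Cfsg.Agent.Lib.Known3.Orders Cfsg.Agent.Lib.Known3.Singer Cfsg.Agent.Lib.Known3.OrderDvd

section aux

variable {F : Type*} [Field F] [Fintype F]

theorem val_eq_one_of_card_two (hF : Fintype.card F = 2) (x : F) (hx : x ≠ 0) : x = 1 := by
  classical
  by_contra h1
  have : ({0, 1, x} : Finset F).card = 3 := by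
    rw [Finset.card_eq_three]
    exact ⟨0, 1, x, zero_ne_one, hx.symm, fun h => h1 h.symm, rfl⟩
  have h2 := Finset.card_le_univ ({0, 1, x} : Finset F)
  omega

theorem center_eq_bot (hF : Fintype.card F = 2) (n : ℕ) :
    Subgroup.center (Matrix.SpecialLinearGroup (Fin n) F) = ⊥ := by
  rw [eq_bot_iff]
  intro A hA
  rcases isEmpty_or_nonempty (Fin n) with hn | hn
  · rw [Subgroup.mem_bot]
    apply Subtype.ext
    ext i
    exact (hn.false i).elim
  obtain ⟨r, hr, hA'⟩ := Matrix.SpecialLinearGroup.mem_center_iff.1 hA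
  have hr0 : r ≠ 0 := by
    intro h0
    rw [h0, zero_pow (by simpa using (Fintype.card_pos (α := Fin n)).ne')] at hr
    exact zero_ne_one hr
  have hr1 := val_eq_one_of_card_two hF r hr0
  rw [Subgroup.mem_bot]
  apply Subtype.ext
  rw [← hA', hr1]
  simp

/-- For `|F| = 2`, `PSL_n(F) ≃ GL_n(F)`. -/
noncomputable def pslEquivGL (hF : Fintype.card F = 2) (n : ℕ) :
    Matrix.ProjectiveSpecialLinearGroup (Fin n) F ≃* GL (Fin n) F :=
  (QuotientGroup.quotientMulEquivOfEq (center_eq_bot hF n)).trans
    ((QuotientGroup.quotientBot).trans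
      (MulEquiv.ofBijective (Matrix.SpecialLinearGroup.toGL :
          Matrix.SpecialLinearGroup (Fin n) F →* GL (Fin n) F)
        ⟨Matrix.SpecialLinearGroup.toGL_injective, by
          intro g
          have hd : ((g : Matrix (Fin n) (Fin n) F)).det = 1 := by
            apply val_eq_one_of_card_two hF
            exact (Matrix.isUnits_det_units g).ne_zero
          exact ⟨⟨(g : Matrix (Fin n) (Fin n) F), hd⟩, by
            apply Units.ext
            rfl⟩⟩))

theorem range_orderOf_congr {A B : Type*} [Group A] [Group B] (φ : A ≃* B) :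
    Set.range (orderOf : A → ℕ) = Set.range (orderOf : B → ℕ) := by
  ext t
  constructor
  · rintro ⟨a, rfl⟩
    exact ⟨φ a, MulEquiv.orderOf_eq φ a⟩
  · rintro ⟨b, rfl⟩
    exact ⟨φ.symm b, MulEquiv.orderOf_eq φ.symm b⟩

theorem exists_prime_pow_dvd_of_dvd_lcm {ι : Type*} (S : Finset ι) (f : ι → ℕ) {r a : ℕ}
    (hr : r.Prime) (ha : 1 ≤ a) (h : r ^ a ∣ S.lcm f) : ∃ i ∈ S, r ^ a ∣ f i := by
  classical
  induction S using Finset.induction_on with
  | empty =>
    simp only [Finset.lcm_empty, Nat.dvd_one] at h
    have := Nat.one_lt_pow (by omega : a ≠ 0) hr.one_lt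
    omega
  | insert i S hi ih =>
    rw [Finset.lcm_insert] at h
    have h' : r ^ a ∣ f i ∨ r ^ a ∣ S.lcm f := by
      by_cases hx : f i = 0
      · left; rw [hx]; exact dvd_zero _
      by_cases hy : S.lcm f = 0
      · right; rw [hy]; exact dvd_zero _
      have hne : lcm (f i) (S.lcm f) ≠ 0 := Nat.lcm_ne_zero hx hy
      have h1 := (hr.pow_dvd_iff_le_factorization hne).1 h
      have h2 : (lcm (f i) (S.lcm f)).factorization r =
          max ((f i).factorization r) ((S.lcm f).factorization r) := by
        have := Nat.factorization_lcm hx hy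
        change (Nat.lcm (f i) (S.lcm f)).factorization r = _
        rw [this]
        rfl
      rw [h2, le_max_iff] at h1
      rcases h1 with h1 | h1
      · left; exact (hr.pow_dvd_iff_le_factorization hx).2 h1
      · right; exact (hr.pow_dvd_iff_le_factorization hy).2 h1
    rcases h' with h1 | h1
    · exact ⟨i, Finset.mem_insert_self _ _, h1⟩
    · obtain ⟨j, hj, hj'⟩ := ih h1
      exact ⟨j, Finset.mem_insert_of_mem hj, hj'⟩

end aux

/-- Let F be the field with two elements, n ≥ 2, L = PSL(n, F) and k₀ = ⌊(n + 3)/2⌋. Then for every k ≥ k₀ the direct product of k copies of L has the same set of element orders as the direct product of k₀ copies of L. -/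
theorem result {F : Type*} [Field F] [Fintype F] (hF : Fintype.card F = 2) (n k : ℕ) (hn : 2 ≤ n) (hk : (n + 3) / 2 ≤ k) :
    Set.range (orderOf : (Fin k → Matrix.ProjectiveSpecialLinearGroup (Fin n) F) → ℕ) = Set.range (orderOf : (Fin ((n + 3) / 2) → Matrix.ProjectiveSpecialLinearGroup (Fin n) F) → ℕ) := by
  classical
  set k₀ := (n + 3) / 2 with hk₀
  have h2k₀ : 2 ≤ k₀ := by omega
  have hkpos : 1 ≤ k := by omega
  -- transfer to GL
  have hL : ∀ m : ℕ, Set.range (orderOf : (Fin m → Matrix.ProjectiveSpecialLinearGroup (Fin n) F) → ℕ)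
      = Set.range (orderOf : (Fin m → GL (Fin n) F) → ℕ) := fun m =>
    range_orderOf_congr (MulEquiv.piCongrRight (fun _ => pslEquivGL hF n))
  rw [hL, hL]
  have hchar : ∀ r : ℕ, r.Prime → r ≠ 2 → (r : F) ≠ 0 := by
    intro r hr hr2 h0
    obtain ⟨p, hp⟩ := CharP.exists F
    have hpp := CharP.char_is_prime F p
    obtain ⟨m, _, hcard⟩ := FiniteField.card F p
    have hp2 : p = 2 := by
      have h3 : p ∣ 2 := by
        rw [← hF, hcard]
        exact dvd_pow_self _ m.pos.ne'
      exact (Nat.prime_dvd_prime_iff_eq hpp Nat.prime_two).1 h3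
    have h4 : p ∣ r := (CharP.cast_eq_zero_iff F p r).1 h0
    have h5 := (Nat.prime_dvd_prime_iff_eq hpp hr).1 h4
    exact hr2 (by rw [← h5, hp2])
  apply Set.Subset.antisymm
  · rintro _ ⟨x, rfl⟩
    have ho0 : orderOf x ≠ 0 := by
      rw [orderOf_ne_zero_iff]
      exact isOfFinOrder_of_finite x
    obtain ⟨e, m, hm, hom⟩ := Nat.exists_eq_two_pow_mul_odd ho0
    -- element of order 2^e
    have hw : ∃ w : GL (Fin n) F, orderOf w = 2 ^ e := by
      by_cases he : e = 0
      · exact ⟨1, by simp [he]⟩
      · have h1 : 2 ^ e ∣ (Finset.univ : Finset (Fin k)).lcm (fun i => orderOf (x i)) := by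
          rw [← Pi.orderOf, hom]
          exact dvd_mul_right _ _
        obtain ⟨i, -, hi⟩ := exists_prime_pow_dvd_of_dvd_lcm _ _ Nat.prime_two (by omega) h1
        exact exists_orderOf_of_dvd _ hi
    obtain ⟨w, hw⟩ := hw
    let M : ℕ → ℕ := fun d => Nat.gcd m (2 ^ d - 1)
    have hMm : ∀ d, M d ∣ m := fun d => Nat.gcd_dvd_left _ _
    have hM2 : ∀ d, M d ∣ 2 ^ d - 1 := fun d => Nat.gcd_dvd_right _ _
    -- Singer element of order `M n`
    haveI : Nonempty (Fin n) := ⟨⟨0, by omega⟩⟩
    obtain ⟨s₀, hs₀⟩ := Cfsg.Agent.Lib.Known3.Singer.exists_orderOf_of_dvd (F := F) (Fin n) (t := M n) (by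
      simpa [hF] using hM2 n)
    -- block elements
    have hblock : ∀ d : ℕ, ∃ g : GL (Fin n) F, 1 ≤ d → d < n → orderOf g = Nat.lcm (M d) (M (n - d)) := by
      intro d
      by_cases hd : 1 ≤ d ∧ d < n
      · obtain ⟨g, hg⟩ := exists_orderOf_lcm_of_dvd (F := F) hd.1 hd.2 (t₁ := M d) (t₂ := M (n - d))
          (by rw [hF]; exact hM2 d) (by rw [hF]; exact hM2 (n - d))
        exact ⟨g, fun _ _ => hg⟩
      · exact ⟨1, fun h1 h2 => absurd ⟨h1, h2⟩ hd⟩
    choose B hB using hblock
    let g : ℕ → GL (Fin n) F := fun i => if i = 0 then w else if i = 1 then s₀ else B (i - 1)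
    have hg0 : orderOf (g 0) = 2 ^ e := by simp [g, hw]
    have hg1 : orderOf (g 1) = M n := by simp [g, hs₀]
    have hgd : ∀ d, 1 ≤ d → d < n → orderOf (g (d + 1)) = Nat.lcm (M d) (M (n - d)) := by
      intro d h1 h2
      have h3 : g (d + 1) = B d := by
        simp only [g]
        rw [if_neg (by omega), if_neg (by omega)]
        simp
      rw [h3, hB d h1 h2]
    obtain ⟨f, hf⟩ := exists_tuple_of_finset (Finset.range k₀) g (n := k₀) (by simp)
    refine ⟨f, ?_⟩
    rw [hf]
    apply Nat.dvd_antisymm
    · apply Finset.lcm_dvd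
      intro i hi
      rw [hom]
      by_cases h0 : i = 0
      · subst h0
        rw [hg0]
        exact dvd_mul_right _ _
      by_cases h1 : i = 1
      · subst h1
        rw [hg1]
        exact (hMm n).trans (dvd_mul_left _ _)
      obtain ⟨d, rfl⟩ : ∃ d, i = d + 1 := ⟨i - 1, by omega⟩
      have hik := Finset.mem_range.1 hi
      rw [hgd d (by omega) (by omega)]
      exact Nat.lcm_dvd ((hMm _).trans (dvd_mul_left _ _)) ((hMm _).trans (dvd_mul_left _ _))
    · rw [Nat.dvd_iff_prime_pow_dvd_dvd]
      intro r a hr hra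
      by_cases ha : a = 0
      · subst ha
        simp
      have hT : ∀ i < k₀, orderOf (g i) ∣ (Finset.range k₀).lcm (fun s => orderOf (g s)) := by
        intro i hi
        exact Finset.dvd_lcm (f := fun s => orderOf (g s)) (Finset.mem_range.2 hi)
      by_cases hr2 : r = 2
      · subst hr2
        have h1 : 2 ^ a ∣ 2 ^ e := by
          rw [hom] at hra
          have hcop : Nat.Coprime (2 ^ a) m := Nat.Coprime.pow_left _ (Nat.coprime_two_left.2 hm)
          exact hcop.dvd_of_dvd_mul_right hra
        have h2 := hT 0 (by omega)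
        rw [hg0] at h2
        exact h1.trans h2
      · have hrF := hchar r hr hr2
        have hrm : r ^ a ∣ m := by
          rw [hom] at hra
          have hcop : Nat.Coprime (r ^ a) (2 ^ e) := by
            apply Nat.Coprime.pow
            exact (Nat.coprime_primes hr Nat.prime_two).2 hr2
          exact hcop.dvd_of_dvd_mul_left hra
        have h1 : r ^ a ∣ (Finset.univ : Finset (Fin k)).lcm (fun i => orderOf (x i)) := by
          rw [← Pi.orderOf]
          exact hra
        obtain ⟨i, -, hi⟩ := exists_prime_pow_dvd_of_dvd_lcm _ _ hr (by omega) h1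
        obtain ⟨d, hd1, hdn, hd⟩ := exists_dvd_of_gl hr hrF (by omega) (x i) hi
        rw [hF] at hd
        have hrM : r ^ a ∣ M d := Nat.dvd_gcd hrm hd
        -- find a bin
        by_cases hdeq : d = n
        · subst hdeq
          have h2 := hT 1 (by omega)
          rw [hg1] at h2
          exact hrM.trans h2
        by_cases hlow : d + 1 < k₀
        · have h2 := hT (d + 1) hlow
          rw [hgd d hd1 (by omega)] at h2
          exact (hrM.trans (Nat.dvd_lcm_left _ _)).trans h2
        by_cases hhigh : (n - d) + 1 < k₀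
        · have h2 := hT ((n - d) + 1) hhigh
          rw [hgd (n - d) (by omega) (by omega)] at h2
          have h3 : n - (n - d) = d := by omega
          rw [h3] at h2
          exact (hrM.trans (Nat.dvd_lcm_right _ _)).trans h2
        · -- `n = 2 d`
          have hn2 : n = 2 * d := by omega
          have h2 := hT 1 (by omega)
          rw [hg1] at h2
          refine (hrM.trans ?_).trans h2
          apply Nat.dvd_gcd (hMm d)
          refine (hM2 d).trans ?_
          rw [hn2]
          have h3 := Nat.sub_dvd_pow_sub_pow (2 ^ d) 1 2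
          rw [one_pow, ← pow_mul, mul_comm d 2] at h3
          exact h3
  · rintro _ ⟨x, rfl⟩
    -- pad with ones
    let φ : (Fin k₀ → GL (Fin n) F) →* (Fin k → GL (Fin n) F) :=
      { toFun := fun y i => if h : (i : ℕ) < k₀ then y ⟨i, h⟩ else 1
        map_one' := by
          ext i
          by_cases h : (i : ℕ) < k₀ <;> simp [h]
        map_mul' := by
          intro a b
          ext i
          by_cases h : (i : ℕ) < k₀ <;> simp [h] }
    have hφ : Function.Injective φ := by
      intro a b hab
      funext i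
      have := congrFun hab ⟨i, by omega⟩
      simpa [φ] using congrArg (fun z : GL (Fin n) F => z) this
    exact ⟨φ x, orderOf_injective φ hφ x⟩

end Cfsg.Agent.S2513
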