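import Cfsg.Statements.S2514
import Cfsg.Agent.Lib.Known3.Orders
import Mathlib

set_option autoImplicit false
open Cfsg

namespace Cfsg.Agent.S2514

open Cfsg.Agent.Lib.Known3.Orders in
/-- For a finite group X write μ(X) for the set of element orders of X that are maximal under divisibility. Let G and H be finite groups and k ≥ 1 such that μ(H) ⊆ μ(G) and μ(G) has fewer than k elements outside μ(H). Then the direct product of k copies of G has the same set of element orders as the direct product of k − 1 copies of G with H. -/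
theorem result {G H : Type*} [Group G] [Finite G] [Group H] [Finite H] (k : ℕ) (hk : 1 ≤ k)
    (hsub : {n : ℕ | n ∈ Set.range (orderOf : H → ℕ) ∧ ∀ m ∈ Set.range (orderOf : H → ℕ), n ∣ m → m = n} ⊆ {n : ℕ | n ∈ Set.range (orderOf : G → ℕ) ∧ ∀ m ∈ Set.range (orderOf : G → ℕ), n ∣ m → m = n})
    (hfew : ({n : ℕ | n ∈ Set.range (orderOf : G → ℕ) ∧ ∀ m ∈ Set.range (orderOf : G → ℕ), n ∣ m → m = n} \ {n : ℕ | n ∈ Set.range (orderOf : H → ℕ) ∧ ∀ m ∈ Set.range (orderOf : H → ℕ), n ∣ m → m = n}).ncard < k) :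
    Set.range (orderOf : (Fin k → G) → ℕ) = Set.range (orderOf : (Fin (k - 1) → G) × H → ℕ) := by
  classical
  obtain ⟨n, rfl⟩ : ∃ n, k = n + 1 := ⟨k - 1, by omega⟩
  change Set.range (orderOf : (Fin (n + 1) → G) → ℕ) = Set.range (orderOf : (Fin n → G) × H → ℕ)
  apply Set.Subset.antisymm
  · rintro _ ⟨f, rfl⟩
    -- choose maximal orders
    choose m hm hmd using fun i => exists_max_order (f i)
    let M : Finset ℕ := Finset.univ.image m
    have hMcard : M.card ≤ n + 1 := by
      simpa using (Finset.card_image_le (s := Finset.univ) (f := m))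
    let b : ℕ → ℕ := fun t => (Finset.univ.filter (fun i => m i = t)).lcm (fun i => orderOf (f i))
    have hbt : ∀ t, b t ∣ t := by
      intro t
      apply Finset.lcm_dvd
      intro i hi
      have : m i = t := (Finset.mem_filter.1 hi).2
      exact this ▸ hmd i
    have hLM : orderOf f = M.lcm b := by
      rw [Pi.orderOf]
      apply Nat.dvd_antisymm
      · apply Finset.lcm_dvd
        intro i _
        have h1 : orderOf (f i) ∣ b (m i) :=
          Finset.dvd_lcm (f := fun i => orderOf (f i)) (Finset.mem_filter.2 ⟨Finset.mem_univ _, rfl⟩)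
        exact h1.trans (Finset.dvd_lcm (f := b) (Finset.mem_image_of_mem _ (Finset.mem_univ _)))
      · apply Finset.lcm_dvd
        intro t _
        apply Finset.lcm_dvd
        intro i _
        exact Finset.dvd_lcm (f := fun i => orderOf (f i)) (Finset.mem_univ _)
    -- every `t ∈ M` is an element order of `G`, hence so is `b t`
    have hMω : ∀ t ∈ M, ∃ g : G, orderOf g = b t := by
      intro t ht
      obtain ⟨i, -, rfl⟩ := Finset.mem_image.1 ht
      obtain ⟨g, hg⟩ := (hm i).1
      exact exists_orderOf_of_dvd g (hg ▸ hbt (m i))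
    choose! g hg using hMω
    have hlcm : ∀ S : Finset ℕ, S ⊆ M → S.lcm (fun s => orderOf (g s)) = S.lcm b := by
      intro S hS
      exact Finset.lcm_congr rfl (fun s hs => hg s (hS hs))
    by_cases hex : ∃ t₀ ∈ M, t₀ ∈ {n : ℕ | n ∈ Set.range (orderOf : H → ℕ) ∧ ∀ m ∈ Set.range (orderOf : H → ℕ), n ∣ m → m = n}
    · obtain ⟨t₀, ht₀, ht₀H⟩ := hex
      obtain ⟨h₀, hh₀⟩ := ht₀H.1
      have hd : b t₀ ∣ orderOf h₀ := by rw [hh₀]; exact hbt t₀
      obtain ⟨h, hh⟩ := exists_orderOf_of_dvd h₀ hd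
      have hcard : (M.erase t₀).card ≤ n := by
        rw [Finset.card_erase_of_mem ht₀]; omega
      obtain ⟨f', hf'⟩ := exists_tuple_of_finset (M.erase t₀) g hcard
      refine ⟨(f', h), ?_⟩
      rw [Prod.orderOf_mk, hf', hlcm _ (Finset.erase_subset _ _), hh, hLM]
      conv_rhs => rw [← Finset.insert_erase ht₀, Finset.lcm_insert]
      rw [Nat.lcm_comm]
      rfl
    · push Not at hex
      have hsub' : (M : Set ℕ) ⊆ {n : ℕ | n ∈ Set.range (orderOf : G → ℕ) ∧ ∀ m ∈ Set.range (orderOf : G → ℕ), n ∣ m → m = n} \ {n : ℕ | n ∈ Set.range (orderOf : H → ℕ) ∧ ∀ m ∈ Set.range (orderOf : H → ℕ), n ∣ m → m = n} := by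
        intro t ht
        have ht' : t ∈ M := ht
        refine ⟨?_, hex t ht'⟩
        obtain ⟨i, -, rfl⟩ := Finset.mem_image.1 ht'
        exact hm i
      have hfin : ({n : ℕ | n ∈ Set.range (orderOf : G → ℕ) ∧ ∀ m ∈ Set.range (orderOf : G → ℕ), n ∣ m → m = n} \ {n : ℕ | n ∈ Set.range (orderOf : H → ℕ) ∧ ∀ m ∈ Set.range (orderOf : H → ℕ), n ∣ m → m = n}).Finite :=
        (Set.finite_range (orderOf : G → ℕ)).subset (fun t ht => ht.1.1)
      have hcard : M.card ≤ n := by
        have := Set.ncard_le_ncard hsub' hfin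
        rw [Set.ncard_coe_finset] at this
        omega
      obtain ⟨f', hf'⟩ := exists_tuple_of_finset M g hcard
      refine ⟨(f', 1), ?_⟩
      rw [Prod.orderOf_mk, hf', hlcm _ (Finset.Subset.refl _), orderOf_one, Nat.lcm_one_right, hLM]
  · rintro _ ⟨⟨f', h⟩, rfl⟩
    obtain ⟨m, hm, hmd⟩ := exists_max_order h
    obtain ⟨g₀, hg₀⟩ := (hsub hm).1
    obtain ⟨g, hg⟩ := exists_orderOf_of_dvd g₀ (hg₀ ▸ hmd)
    refine ⟨Fin.snoc f' g, ?_⟩
    rw [Prod.orderOf_mk, ← hg, Pi.orderOf, Pi.orderOf]
    apply Nat.dvd_antisymm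
    · apply Finset.lcm_dvd
      intro i _
      refine Fin.lastCases ?_ (fun j => ?_) i
      · simp only [Fin.snoc_last]
        exact Nat.dvd_lcm_right _ _
      · simp only [Fin.snoc_castSucc]
        exact (Finset.dvd_lcm (f := fun i => orderOf (f' i)) (Finset.mem_univ j)).trans (Nat.dvd_lcm_left _ _)
    · apply Nat.lcm_dvd
      · apply Finset.lcm_dvd
        intro j _
        have h1 : orderOf (f' j) = orderOf ((Fin.snoc f' g : Fin (n + 1) → G) j.castSucc) := by
          simp only [Fin.snoc_castSucc]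
        rw [h1]
        exact Finset.dvd_lcm (f := fun i => orderOf ((Fin.snoc f' g : Fin (n + 1) → G) i)) (Finset.mem_univ _)
      · have h1 : orderOf g = orderOf ((Fin.snoc f' g : Fin (n + 1) → G) (Fin.last n)) := by
          simp only [Fin.snoc_last]
        rw [h1]
        exact Finset.dvd_lcm (f := fun i => orderOf ((Fin.snoc f' g : Fin (n + 1) → G) i)) (Finset.mem_univ _)

end Cfsg.Agent.S2514
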