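import Cfsg.Statements.S2515
import Mathlib
import Cfsg.Agent.Lib.Known3.Spec4d

set_option autoImplicit false
open Cfsg

namespace Cfsg.Agent.S2515

/-- Let q = 3^α with α ≥ 3 odd. There is a finite group H having a non-trivial normal 3-subgroup and whose element orders maximal under divisibility are exactly 6, 9, q − 1 and (q + 1)/2. -/
theorem result (α : ℕ) (hα : 3 ≤ α) (hodd : Odd α) :
    ∃ (H : Type) (_ : Group H) (_ : Fintype H), (∃ P : Subgroup H, P.Normal ∧ P ≠ ⊥ ∧ IsPGroup 3 ↥P) ∧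
      {n : ℕ | n ∈ Set.range (orderOf : H → ℕ) ∧ ∀ m ∈ Set.range (orderOf : H → ℕ), n ∣ m → m = n} = ({6, 9, 3 ^ α - 1, (3 ^ α + 1) / 2} : Set ℕ) := by
  have hα0 : α ≠ 0 := by omega
  letI : Fintype (GaloisField 3 α) := Fintype.ofFinite _
  have hq : Fintype.card (GaloisField 3 α) = 3 ^ α := by
    rw [← Nat.card_eq_fintype_card]
    exact GaloisField.card 3 α hα0
  obtain ⟨h1, h2⟩ := Cfsg.Agent.Lib.Known3.Spec4.main_F (F := GaloisField 3 α) hq hα hodd
  haveI : Finite (Cfsg.Agent.Lib.Known3.Spec4.HH (GaloisField 3 α)) :=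
    Finite.of_equiv _ (SemidirectProduct.equivProd).symm
  exact ⟨Cfsg.Agent.Lib.Known3.Spec4.HH (GaloisField 3 α), inferInstance, Fintype.ofFinite _, h1, h2⟩

end Cfsg.Agent.S2515
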