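import Cfsg.Statements.S2516
import Mathlib

set_option autoImplicit false
open Cfsg

namespace Cfsg.Agent.S2516

/-- Let F be a field of characteristic p > 0, V a non-zero finite-dimensional F-vector space, G a finite group and ρ a representation of G on V; form the semidirect product V ⋊ G. For g ∈ G of order k, the coset Vg contains an element of order pk if and only if the minimal polynomial of ρ(g) does not divide 1 + X + ⋯ + X^(k−1). -/
theorem result {F : Type*} [Field F] (p : ℕ) [Fact p.Prime] [CharP F p] {V : Type*} [AddCommGroup V] [Module F V] [FiniteDimensional F V] [Nontrivial V]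
    {G : Type*} [Group G] [Finite G] (ρ : Representation F G V) (g : G) :
    (∃ x : Multiplicative V ⋊[(MulAutMultiplicative V).symm.toMonoidHom.comp
        ((DistribMulAction.toAddAut ((V →ₗ[F] V)ˣ) V).comp ρ.asGroupHom)] G,
        x.right = g ∧ orderOf x = p * orderOf g) ↔
      ¬ (minpoly F (ρ g) ∣ ∑ i ∈ Finset.range (orderOf g), (Polynomial.X : Polynomial F) ^ i) := by
  classical
  set φ := (MulAutMultiplicative V).symm.toMonoidHom.comp
        ((DistribMulAction.toAddAut ((V →ₗ[F] V)ˣ) V).comp ρ.asGroupHom) with hφ
  have hφapply : ∀ (h : G) (v : V), ((φ h) (Multiplicative.ofAdd v)) = Multiplicative.ofAdd (ρ h v) := by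
    intro h v
    rfl
  -- the norm map
  set k := orderOf g with hk
  have hkpos : 0 < k := orderOf_pos g
  set N : V →ₗ[F] V := ∑ i ∈ Finset.range k, (ρ g) ^ i with hN
  have hpow : ∀ (x : Multiplicative V ⋊[φ] G), x.right = g → ∀ n : ℕ,
      (x ^ n).right = g ^ n ∧
      (x ^ n).left = Multiplicative.ofAdd (∑ i ∈ Finset.range n, ((ρ g) ^ i) (Multiplicative.toAdd x.left)) := by
    intro x hx n
    induction n with
    | zero => exact ⟨by simp, by simp⟩
    | succ n ih =>
      rw [pow_succ]
      refine ⟨?_, ?_⟩
      · rw [SemidirectProduct.mul_right, ih.1, hx, pow_succ]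
      · rw [SemidirectProduct.mul_left, ih.1, ih.2, Finset.sum_range_succ, ofAdd_add]
        congr 1
        have : (x.left : Multiplicative V) = Multiplicative.ofAdd (Multiplicative.toAdd x.left) := rfl
        rw [this, hφapply, map_pow]
        rfl
  -- the element `x ^ k`
  have hk1 : g ^ k = 1 := pow_orderOf_eq_one g
  have hxk : ∀ (x : Multiplicative V ⋊[φ] G), x.right = g → ∀ j : ℕ,
      (x ^ (k * j)) = 1 ↔ j • (N (Multiplicative.toAdd x.left)) = 0 := by
    intro x hx j
    have h1 := hpow x hx k
    have hNv : (x ^ k).left = Multiplicative.ofAdd (N (Multiplicative.toAdd x.left)) := by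
      rw [h1.2, hN]
      simp [LinearMap.sum_apply]
    have hpw : ∀ j : ℕ, (x ^ (k * j)).right = 1 ∧
        (x ^ (k * j)).left = Multiplicative.ofAdd (j • (N (Multiplicative.toAdd x.left))) := by
      intro j
      induction j with
      | zero => exact ⟨by simp, by simp⟩
      | succ j ih =>
        rw [Nat.mul_succ, pow_add]
        refine ⟨?_, ?_⟩
        · rw [SemidirectProduct.mul_right, ih.1, h1.1, hk1, one_mul]
        · rw [SemidirectProduct.mul_left, ih.1, ih.2, hNv, succ_nsmul, ofAdd_add]
          simp
    constructor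
    · intro h
      have h2 := (hpw j).2
      rw [h] at h2
      have h3 : (Multiplicative.ofAdd (j • (N (Multiplicative.toAdd x.left)))) = 1 := h2.symm
      exact Multiplicative.ofAdd.injective (h3.trans ofAdd_zero.symm)
    · intro h
      refine SemidirectProduct.ext ?_ (hpw j).1
      rw [(hpw j).2, h]
      rfl
  have hpV : ∀ w : V, p • w = 0 := by
    intro w
    have : (p : F) = 0 := CharP.cast_eq_zero F p
    rw [← Nat.cast_smul_eq_nsmul F, this, zero_smul]
  -- key: the order of `x` when `N v ≠ 0`
  have hord : ∀ (x : Multiplicative V ⋊[φ] G), x.right = g →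
      (orderOf x = p * k ↔ N (Multiplicative.toAdd x.left) ≠ 0) := by
    intro x hx
    have hp2 := (Fact.out : p.Prime).two_le
    constructor
    · intro h h0
      have h1 : x ^ (k * 1) = 1 := (hxk x hx 1).2 (by simp [h0])
      rw [mul_one] at h1
      have h2 := orderOf_dvd_of_pow_eq_one h1
      rw [h] at h2
      have h3 := Nat.le_of_dvd hkpos h2
      nlinarith
    · intro h0
      have h1 : x ^ (k * p) = 1 := (hxk x hx p).2 (hpV _)
      -- `k` divides the order of `x`
      have h2 : k ∣ orderOf x := by
        apply orderOf_dvd_of_pow_eq_one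
        have := (hpow x hx (orderOf x)).1
        rw [pow_orderOf_eq_one] at this
        exact this.symm
      obtain ⟨j, hj⟩ := h2
      have h3 : x ^ (k * j) = 1 := by rw [← hj]; exact pow_orderOf_eq_one x
      have h4 := (hxk x hx j).1 h3
      rw [← Nat.cast_smul_eq_nsmul F] at h4
      have h5 : (j : F) = 0 := by
        by_contra hne
        exact h0 ((smul_eq_zero.1 h4).resolve_left hne)
      have h6 : p ∣ j := (CharP.cast_eq_zero_iff F p j).1 h5
      apply Nat.dvd_antisymm
      · rw [mul_comm]; exact orderOf_dvd_of_pow_eq_one h1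
      · rw [hj, mul_comm p k]
        exact Nat.mul_dvd_mul_left k h6
  have haeval : Polynomial.aeval (ρ g) (∑ i ∈ Finset.range k, (Polynomial.X : Polynomial F) ^ i) = N := by
    simp [hN, map_sum]
  constructor
  · rintro ⟨x, hx, ho⟩ hdvd
    have h1 := (hord x hx).1 ho
    apply h1
    obtain ⟨q, hq⟩ := hdvd
    have : N = 0 := by
      rw [← haeval, hq, map_mul, minpoly.aeval, zero_mul]
    rw [this]
    rfl
  · intro hnd
    have hN0 : N ≠ 0 := by
      intro h0
      apply hnd
      apply minpoly.dvd
      rw [haeval, h0]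
    obtain ⟨v, hv⟩ : ∃ v, N v ≠ 0 := by
      by_contra hall
      push Not at hall
      exact hN0 (LinearMap.ext hall)
    refine ⟨⟨Multiplicative.ofAdd v, g⟩, rfl, ?_⟩
    exact (hord _ rfl).2 hv

end Cfsg.Agent.S2516
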