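import Cfsg.Statements.S2518
import Mathlib
import Cfsg.Agent.Lib.Known3.G23Ord
import Cfsg.Agent.Lib.Known3.PSL213

set_option autoImplicit false
open Cfsg

namespace Cfsg.Agent.S2518

open Cfsg.Agent.Lib.Known3

lemma primes_of_dvd {r : ℕ} (hr : r.Prime) (h : r ∣ 4245696) : r = 2 ∨ r = 3 ∨ r = 7 ∨ r = 13 := by
  have h1 : (4245696 : ℕ) = 2 ^ 6 * (3 ^ 6 * (7 * 13)) := by norm_num
  rw [h1] at h
  rcases (Nat.Prime.dvd_mul hr).1 h with h | h
  · exact Or.inl ((Nat.prime_dvd_prime_iff_eq hr Nat.prime_two).1 (hr.dvd_of_dvd_pow h))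
  rcases (Nat.Prime.dvd_mul hr).1 h with h | h
  · exact Or.inr (Or.inl ((Nat.prime_dvd_prime_iff_eq hr Nat.prime_three).1 (hr.dvd_of_dvd_pow h)))
  rcases (Nat.Prime.dvd_mul hr).1 h with h | h
  · exact Or.inr (Or.inr (Or.inl ((Nat.prime_dvd_prime_iff_eq hr (by norm_num)).1 h)))
  · exact Or.inr (Or.inr (Or.inr ((Nat.prime_dvd_prime_iff_eq hr (by norm_num)).1 h)))

lemma prod_cases {r s : ℕ} (hr : r.Prime) (hs : s.Prime) (hrs : r ≠ s) (h1 : r ∣ 4245696) (h2 : s ∣ 4245696) :
    r * s = 6 ∨ r * s = 14 ∨ r * s = 21 ∨ r * s = 26 ∨ r * s = 39 ∨ r * s = 91 := by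
  rcases primes_of_dvd hr h1 with rfl | rfl | rfl | rfl <;> rcases primes_of_dvd hs h2 with rfl | rfl | rfl | rfl <;>
    first
    | exact absurd rfl hrs
    | norm_num

/-- Let F₃ be the field with 3 elements and F₁₃ the field with 13 elements. The Chevalley group G₂(F₃) and PSL(2, F₁₃) have the same prime graph: the same prime divisors of their orders, and for distinct primes r, s an element of order rs in one iff in the other. -/
theorem result {F : Type*} [Field F] [Fintype F] (hF : Fintype.card F = 3) {E : Type*} [Field E] [Fintype E] (hE : Fintype.card E = 13) :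
    ((∀ r : ℕ, r.Prime → (r ∣ Nat.card ↥(Cfsg.Lie.chevG2.group F) ↔ r ∣ Nat.card (Matrix.ProjectiveSpecialLinearGroup (Fin 2) E))) ∧
      (∀ r s : ℕ, r.Prime → s.Prime → r ≠ s → ((∃ x : ↥(Cfsg.Lie.chevG2.group F), orderOf x = r * s) ↔ (∃ y : (Matrix.ProjectiveSpecialLinearGroup (Fin 2) E), orderOf y = r * s)))) := by
  obtain ⟨e⟩ := G23.exists_iso (F := F) hF
  have hcG : Nat.card ↥(Cfsg.Lie.chevG2.group F) = 4245696 := by
    rw [Nat.card_congr e.toEquiv, G23.card_G3]
  have hcP : Nat.card (Matrix.ProjectiveSpecialLinearGroup (Fin 2) E) = 1092 := PSL213.card_eq hE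
  have hdvd : (1092 : ℕ) ∣ 4245696 := by norm_num
  have hoG : ∀ x : ↥(Cfsg.Lie.chevG2.group F), orderOf x = orderOf (e x) := fun x => (MulEquiv.orderOf_eq e x).symm
  have h7 : ∀ x : ↥(Cfsg.Lie.chevG2.group F), 7 ∣ orderOf x → orderOf x = 7 := by
    intro x hx
    rw [hoG] at hx ⊢
    exact G23.G3_seven hx
  have h13 : ∀ x : ↥(Cfsg.Lie.chevG2.group F), 13 ∣ orderOf x → orderOf x = 13 := by
    intro x hx
    rw [hoG] at hx ⊢
    exact G23.G3_thirteen hx
  have hG : ∀ x : ↥(Cfsg.Lie.chevG2.group F), orderOf x ≠ 14 ∧ orderOf x ≠ 21 ∧ orderOf x ≠ 26 ∧ orderOf x ≠ 39 ∧ orderOf x ≠ 91 := by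
    intro x
    refine ⟨fun h => ?_, fun h => ?_, fun h => ?_, fun h => ?_, fun h => ?_⟩
    · have := h7 x (by rw [h]; norm_num)
      omega
    · have := h7 x (by rw [h]; norm_num)
      omega
    · have := h13 x (by rw [h]; norm_num)
      omega
    · have := h13 x (by rw [h]; norm_num)
      omega
    · have := h7 x (by rw [h]; norm_num)
      omega
  refine ⟨?_, ?_⟩
  · intro r hr
    rw [hcG, hcP]
    constructor
    · intro h
      rcases primes_of_dvd hr h with rfl | rfl | rfl | rfl <;> norm_num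
    · intro h
      exact h.trans hdvd
  · intro r s hr hs hrs
    constructor
    · rintro ⟨x, hx⟩
      have h1 : r * s ∣ 4245696 := by
        rw [← hcG, ← hx]
        exact orderOf_dvd_natCard x
      have hh := hG x
      rw [hx] at hh
      rcases prod_cases hr hs hrs ((dvd_mul_right r s).trans h1) ((dvd_mul_left s r).trans h1) with h | h | h | h | h | h
      · rw [h]
        exact PSL213.exists_six hE
      · exact absurd h hh.1
      · exact absurd h hh.2.1
      · exact absurd h hh.2.2.1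
      · exact absurd h hh.2.2.2.1
      · exact absurd h hh.2.2.2.2
    · rintro ⟨y, hy⟩
      have h1 : r * s ∣ 4245696 := by
        refine Dvd.dvd.trans ?_ hdvd
        rw [← hcP, ← hy]
        exact orderOf_dvd_natCard y
      rcases prod_cases hr hs hrs ((dvd_mul_right r s).trans h1) ((dvd_mul_left s r).trans h1) with h | h | h | h | h | h
      · rw [h]
        refine ⟨e.symm G23.e₀, ?_⟩
        rw [MulEquiv.orderOf_eq]
        exact G23.order_e₀
      · exact absurd (hy.trans h) (PSL213.no_14 hE y)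
      · exact absurd (hy.trans h) (PSL213.no_21 hE y)
      · exact absurd (hy.trans h) (PSL213.no_26 hE y)
      · exact absurd (hy.trans h) (PSL213.no_39 hE y)
      · exact absurd (hy.trans h) (PSL213.no_91 hE y)

end Cfsg.Agent.S2518
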