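import Cfsg.Statements.S2522
import Mathlib
import Cfsg.Agent.Lib.KS2.RegU4

set_option autoImplicit false
open Cfsg

namespace Cfsg.Agent.S2522




/-- Let K be a field with at least four elements (finite or infinite), n ≥ 3, and J ∈ GL(n, K) the regular unipotent matrix (ones on the diagonal and the superdiagonal, zeros elsewhere). Then every non-scalar g ∈ GL(n, K) with det g = 1 is a product of two GL(n, K)-conjugates of J. -/
theorem result {K : Type*} [Field K] (hK : 4 ≤ Cardinal.mk K) (n : ℕ) (hn : 3 ≤ n) (J g : GL (Fin n) K)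
    (hJ : ∀ i j : Fin n, (J : Matrix (Fin n) (Fin n) K) i j = if i = j then 1 else if j.val = i.val + 1 then 1 else 0)
    (hg : ¬ ∃ c : K, (g : Matrix (Fin n) (Fin n) K) = c • (1 : Matrix (Fin n) (Fin n) K))
    (hdet : (g : Matrix (Fin n) (Fin n) K).det = 1) :
    ∃ x y : GL (Fin n) K, g = (x * J * x⁻¹) * (y * J * y⁻¹) := by
  have hB := Cfsg.Agent.Lib.KS2.RegU.big_of_card hK
  obtain ⟨A, B, hG, hA0, hB0, hA1, hB1⟩ := Cfsg.Agent.Lib.KS2.RegU.two_reg hB (by omega)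
    (g : Matrix (Fin n) (Fin n) K) hg hdet
  obtain ⟨x, x', h1, h2, hx⟩ := Cfsg.Agent.Lib.KS2.RegU.conj_J (J : Matrix (Fin n) (Fin n) K) A hJ
    (by omega) hA0 hA1
  obtain ⟨y, y', h3, h4, hy⟩ := Cfsg.Agent.Lib.KS2.RegU.conj_J (J : Matrix (Fin n) (Fin n) K) B hJ
    (by omega) hB0 hB1
  refine ⟨⟨x, x', h1, h2⟩, ⟨y, y', h3, h4⟩, ?_⟩
  apply Units.ext
  change (g : Matrix (Fin n) (Fin n) K) = x * (J : Matrix (Fin n) (Fin n) K) * x' *
    (y * (J : Matrix (Fin n) (Fin n) K) * y')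
  rw [hG, ← hx, ← hy]

end Cfsg.Agent.S2522
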