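import Cfsg.Statements.S2550
import Mathlib
import Cfsg.Agent.Lib.Known3.PSL34
import Cfsg.Agent.Lib.Known3.Singer
import Cfsg.Agent.Lib.Classical.Basic
import Cfsg.Agent.S2513

set_option autoImplicit false
open Cfsg

namespace Cfsg.Agent.S2550

open Matrix Cfsg.Agent.Lib.Known3.PSLBasic Cfsg.Agent.Lib.Known3.PSL34

lemma no15 {K : Type*} [Field K] [Fintype K] (hK : Fintype.card K = 4)
    (z : Matrix.ProjectiveSpecialLinearGroup (Fin 3) K) : orderOf z ≠ 15 := by
  classical
  intro hz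
  obtain ⟨x, rfl⟩ := cls_surjective z
  obtain ⟨w, hw1, hw0, hw3, hw⟩ := exists_omega hK
  have hx15 : cls x ^ 15 = 1 := by
    rw [← hz]; exact pow_orderOf_eq_one _
  -- the order-three part
  let d : Matrix.SpecialLinearGroup (Fin 3) K := x ^ 5
  have hd3 : cls d ^ 3 = 1 := by
    change (cls x ^ 5) ^ 3 = 1
    rw [← pow_mul]
    exact hx15
  obtain ⟨c, hc⟩ := (cls_pow_eq_one_iff d 3).1 hd3
  have hdns : ¬ ∃ r : K, (d : Matrix (Fin 3) (Fin 3) K) = r • 1 := by
    intro h
    have h1 : cls d = 1 := (cls_eq_one_iff d).2 h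
    have h2 : cls x ^ 5 = 1 := h1
    have h3 := orderOf_dvd_of_pow_eq_one h2
    rw [hz] at h3
    omega
  obtain ⟨P, hPu, hP⟩ := exists_diag hK w hw1 hw3 hw _ d.2 c hc hdns
  have hPd := (Matrix.isUnit_iff_isUnit_det P).1 hPu
  have hPinv : P * P⁻¹ = 1 := Matrix.mul_nonsing_inv P hPd
  have hPinv' : P⁻¹ * P = 1 := Matrix.nonsing_inv_mul P hPd
  let y : Matrix.SpecialLinearGroup (Fin 3) K := x ^ 3
  have hcomm : (y : Matrix (Fin 3) (Fin 3) K) * d = d * y := by
    have : y * d = d * y := by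
      change x ^ 3 * x ^ 5 = x ^ 5 * x ^ 3
      rw [← pow_add, ← pow_add]
    exact congrArg Subtype.val this
  let D : Matrix (Fin 3) (Fin 3) K := Matrix.diagonal ![1, w, w ^ 2]
  let W : Matrix (Fin 3) (Fin 3) K := P⁻¹ * y * P
  have hD : P⁻¹ * d * P = D := by
    rw [Matrix.mul_assoc, hP, ← Matrix.mul_assoc, hPinv', Matrix.one_mul]
  have hWD : W * D = D * W := by
    rw [← hD]
    simp only [W]
    calc P⁻¹ * y * P * (P⁻¹ * d * P) = P⁻¹ * y * (P * P⁻¹) * d * P := by simp only [Matrix.mul_assoc]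
      _ = P⁻¹ * (y * d) * P := by rw [hPinv, Matrix.mul_one]; simp only [Matrix.mul_assoc]
      _ = P⁻¹ * d * (P * P⁻¹) * y * P := by rw [hcomm, hPinv, Matrix.mul_one]; simp only [Matrix.mul_assoc]
      _ = P⁻¹ * d * P * (P⁻¹ * y * P) := by simp only [Matrix.mul_assoc]
  have hinjD : Function.Injective (![1, w, w ^ 2] : Fin 3 → K) := by
    have hw2 : w ^ 2 ≠ w := by
      intro h
      apply hw1
      have : w * (w - 1) = 0 := by linear_combination h
      exact sub_eq_zero.1 ((mul_eq_zero.1 this).resolve_left hw0)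
    have hw3' : w ^ 2 ≠ 1 := by
      intro h
      apply hw1
      have : w * w ^ 2 = 1 := by rw [← pow_succ']; exact hw3
      rw [h, mul_one] at this
      exact this
    intro i j hij
    fin_cases i <;> fin_cases j <;> first
      | rfl
      | exact absurd (show (1:K) = w from hij) (Ne.symm hw1)
      | exact absurd (show (1:K) = w^2 from hij) (Ne.symm hw3')
      | exact absurd (show w = 1 from hij) hw1
      | exact absurd (show w = w^2 from hij) (Ne.symm hw2)
      | exact absurd (show w^2 = 1 from hij) hw3'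
      | exact absurd (show w^2 = w from hij) hw2
  have hWdiag : W = Matrix.diagonal (fun i => W i i) := by
    ext i j
    by_cases hij : i = j
    · subst hij; simp
    · rw [Matrix.diagonal_apply_ne _ hij]
      have h1 := congrFun (congrFun hWD i) j
      rw [Matrix.mul_diagonal, Matrix.diagonal_mul] at h1
      have h2 : W i j * ((![1, w, w ^ 2] : Fin 3 → K) j - (![1, w, w ^ 2] : Fin 3 → K) i) = 0 := by
        linear_combination h1
      rcases mul_eq_zero.1 h2 with h3 | h3
      · exact h3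
      · exact absurd (hinjD (sub_eq_zero.1 h3)).symm hij
  have hWdet : W.det ≠ 0 := by
    simp only [W, Matrix.det_mul, Matrix.det_nonsing_inv]
    have hy := y.2
    rw [hy, mul_one, mul_comm]
    exact (Matrix.isUnit_nonsing_inv_det P hPd |> fun h => by
      rw [Matrix.det_nonsing_inv] at h
      exact (mul_ne_zero hPd.ne_zero h.ne_zero))
  have hWi : ∀ i, W i i ≠ 0 := by
    intro i h0
    apply hWdet
    rw [hWdiag, Matrix.det_diagonal]
    exact Finset.prod_eq_zero (Finset.mem_univ i) h0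
  have hW3 : W ^ 3 = 1 := by
    rw [hWdiag, Matrix.diagonal_pow, ← Matrix.diagonal_one]
    congr 1
    ext i
    exact cube_eq_one hK _ (hWi i)
  have hy3 : (y : Matrix (Fin 3) (Fin 3) K) ^ 3 = 1 := by
    have h1 : (y : Matrix (Fin 3) (Fin 3) K) = P * W * P⁻¹ := by
      simp only [W]
      calc (y : Matrix (Fin 3) (Fin 3) K) = (P * P⁻¹) * y * (P * P⁻¹) := by
            rw [hPinv, Matrix.one_mul, Matrix.mul_one]
        _ = _ := by simp only [Matrix.mul_assoc]
    have h2 : (P * W * P⁻¹) ^ 3 = P * W ^ 3 * P⁻¹ := by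
      simp only [pow_succ, pow_zero, Matrix.one_mul]
      calc P * W * P⁻¹ * (P * W * P⁻¹) * (P * W * P⁻¹) = P * W * (P⁻¹ * P) * W * (P⁻¹ * P) * W * P⁻¹ := by
            simp only [Matrix.mul_assoc]
        _ = _ := by rw [hPinv']; simp only [Matrix.mul_one, Matrix.mul_assoc]
    rw [h1, h2, hW3, Matrix.mul_one, hPinv]
  have h9 : cls x ^ 9 = 1 := by
    have h1 : cls y ^ 3 = 1 := (cls_pow_eq_one_iff y 3).2 ⟨1, by rw [hy3, one_smul]⟩
    have h2 : (cls x ^ 3) ^ 3 = 1 := h1
    rw [← pow_mul] at h2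
    exact h2
  have h3 := orderOf_dvd_of_pow_eq_one h9
  rw [hz] at h3
  omega

/-- Let F be a field with 2 elements and K a field with 4 elements. PSL_4(F) and PSL_3(K) have the same order (20160) but are not isomorphic. -/
theorem result {F K : Type*} [Field F] [Fintype F] [Field K] [Fintype K] (hF : Fintype.card F = 2) (hK : Fintype.card K = 4) : Nat.card (Matrix.ProjectiveSpecialLinearGroup (Fin 4) F) = Nat.card (Matrix.ProjectiveSpecialLinearGroup (Fin 3) K) ∧ ¬ Nonempty (Matrix.ProjectiveSpecialLinearGroup (Fin 4) F ≃* Matrix.ProjectiveSpecialLinearGroup (Fin 3) K) := by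
  classical
  constructor
  · have h1 := Cfsg.Agent.Lib.Classical.card_PSL hF 4 (by norm_num)
    have h2 := Cfsg.Agent.Lib.Classical.card_PSL hK 3 (by norm_num)
    have h1' : ∏ i : Fin 4, (2 ^ 4 - 2 ^ (i : ℕ)) = 20160 := by decide +kernel
    have h2' : ∏ i : Fin 3, (4 ^ 3 - 4 ^ (i : ℕ)) = 181440 := by decide +kernel
    rw [h1'] at h1
    rw [h2'] at h2
    have e1 : Nat.gcd 4 (2 - 1) = 1 := by norm_num
    have e2 : Nat.gcd 3 (4 - 1) = 3 := by norm_num
    rw [e1] at h1
    rw [e2] at h2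
    have e3 : 2 - 1 = 1 := rfl
    have e4 : 4 - 1 = 3 := rfl
    rw [e3] at h1
    rw [e4] at h2
    omega
  · rintro ⟨e⟩
    obtain ⟨y, hy⟩ := Cfsg.Agent.Lib.Known3.Singer.exists_orderOf_of_dvd (F := F) (Fin 4) (t := 15) (by
      simp [hF])
    let e0 := Cfsg.Agent.S2513.pslEquivGL hF 4
    apply no15 hK (e (e0.symm y))
    rw [MulEquiv.orderOf_eq, MulEquiv.orderOf_eq, hy]

end Cfsg.Agent.S2550
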