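import Cfsg.Statements.S2553
import Mathlib
import Cfsg.Agent.Lib.Known3.GL42d
import Cfsg.Agent.Lib.Known3.GL42h

set_option autoImplicit false
open Cfsg

namespace Cfsg.Agent.S2553

/-- Let H be a nontrivial subgroup of GL(4,2) (a group isomorphic to the alternating group of degree 8) whose largest normal 2-subgroup and largest normal subgroup of odd order are both trivial. Then H is isomorphic to an alternating group of degree n for some 5 ≤ n ≤ 8, to the symmetric group of degree 5 or 6, or to GL(3,2). -/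
theorem result (H : Subgroup (GL (Fin 4) (ZMod 2))) (hH : H ≠ ⊥) (hO : Cfsg.pPrimeCore 2 ↥H = ⊥) (hO2 : Cfsg.pCore 2 ↥H = ⊥) :
    (∃ n : ℕ, 5 ≤ n ∧ n ≤ 8 ∧ Nonempty (↥H ≃* alternatingGroup (Fin n))) ∨
    Nonempty (↥H ≃* Equiv.Perm (Fin 5)) ∨ Nonempty (↥H ≃* Equiv.Perm (Fin 6)) ∨ Nonempty (↥H ≃* GL (Fin 3) (ZMod 2)) := by
  classical
  have hNS : Cfsg.Agent.Lib.Known3.GL42.NS H := Cfsg.Agent.Lib.Known3.GL42.ns_of_cores hO2 hO
  haveI : Nontrivial H := (Subgroup.nontrivial_iff_ne_bot H).2 hH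
  have hcard : Nat.card H ∣ 20160 := by
    have := Subgroup.card_subgroup_dvd_card H
    rwa [Cfsg.Agent.Lib.Known3.GL42.card_GL4] at this
  by_cases h5 : 5 ∣ Nat.card H
  · obtain ⟨e⟩ := Cfsg.Agent.Lib.Known3.GL42.GL4_iso_A8
    let G : Subgroup (Equiv.Perm (Fin 8)) := (H.map e.toMonoidHom).map (alternatingGroup (Fin 8)).subtype
    have hG : G ≤ alternatingGroup (Fin 8) := by
      rintro _ ⟨y, -, rfl⟩
      exact y.2
    let e1 : H ≃* (H.map e.toMonoidHom) := H.equivMapOfInjective _ e.injective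
    let e2 : (H.map e.toMonoidHom) ≃* G := Subgroup.equivMapOfInjective _ _ Subtype.val_injective
    let e3 : H ≃* G := e1.trans e2
    have hNSG : Cfsg.Agent.Lib.Known3.GL42.NS G := Cfsg.Agent.Lib.Known3.GL42.NS.of_equiv e3 hNS
    have h5G : 5 ∣ Nat.card G := by
      rw [← Nat.card_congr e3.toEquiv]
      exact h5
    rcases Cfsg.Agent.Lib.Known3.GL42.classify_perm G hG hNSG h5G with ⟨n, h1, h2, ⟨f⟩⟩ | ⟨⟨f⟩⟩ | ⟨⟨f⟩⟩
    · exact Or.inl ⟨n, h1, h2, ⟨e3.trans f⟩⟩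
    · exact Or.inr (Or.inl ⟨e3.trans f⟩)
    · exact Or.inr (Or.inr (Or.inl ⟨e3.trans f⟩))
  by_cases h7 : 7 ∣ Nat.card H
  · exact Or.inr (Or.inr (Or.inr (Cfsg.Agent.Lib.Known3.GL42.linear_case H hNS h7 h5)))
  · exfalso
    have h5' : Nat.Coprime (Nat.card H) 5 := ((Nat.Prime.coprime_iff_not_dvd (by norm_num)).2 h5).symm
    have h7' : Nat.Coprime (Nat.card H) 7 := ((Nat.Prime.coprime_iff_not_dvd (by norm_num)).2 h7).symm
    have hc : Nat.card H ∣ 576 := by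
      have h1 : Nat.card H ∣ 35 * 576 := by
        have : (35 * 576 : ℕ) = 20160 := by norm_num
        rwa [this]
      refine Nat.Coprime.dvd_of_dvd_mul_left ?_ h1
      exact Nat.Coprime.symm (by simpa using (Nat.Coprime.mul_left h5'.symm h7'.symm : Nat.Coprime (5 * 7) (Nat.card H)))
    have hc' : Nat.card H ∣ 2 ^ 6 * 3 ^ 2 := by
      have : (2 ^ 6 * 3 ^ 2 : ℕ) = 576 := by norm_num
      rwa [this]
    obtain ⟨a, b, ha, hb, hab⟩ := (Nat.dvd_mul).1 hc'
    obtain ⟨i, -, hi⟩ := (Nat.dvd_prime_pow Nat.prime_two).1 ha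
    obtain ⟨j, -, hj⟩ := (Nat.dvd_prime_pow Nat.prime_three).1 hb
    have hcardeq : Nat.card H = 2 ^ i * 3 ^ j := by
      rw [← hab, hi, hj]
    exact Cfsg.Agent.Lib.Known3.GL42.NS.not_solvable hNS
      (Cfsg.Agent.Lib.Char.isSolvable_of_card 2 3 i j Nat.prime_two Nat.prime_three hcardeq)

end Cfsg.Agent.S2553
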