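import Cfsg.Statements.S2556
import Mathlib
import Cfsg.Agent.Lib.Suz2.RigidSz
import Cfsg.Agent.Lib.ChevAut.FieldCard

set_option autoImplicit false
open Cfsg

namespace Cfsg.Agent.S2556

/-- Let S be a Sylow 2-subgroup of the Suzuki group Sz(q), q = 2ⁿ with n = 2m + 1 ≥ 3 (realised as 4 × 4 matrices over the field with q elements). Then the largest normal 2-subgroup of the automorphism group of S is elementary abelian of order 2^(n²), and the automorphism group of S has order 2^(n²) · n · (q − 1). -/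
theorem result {S : Type*} [Group S] [Finite S] (m : ℕ) (hm : 1 ≤ m)
    {F : Type*} [Field F] [Fintype F] (hF : Fintype.card F = 2 ^ (2 * m + 1))
    (P : Sylow 2 ↥(Cfsg.Lie.Sz F (2 ^ (m + 1)))) (hS : Nonempty (S ≃* ↥(P : Subgroup ↥(Cfsg.Lie.Sz F (2 ^ (m + 1)))))) :
    Cfsg.IsElementaryAbelian 2 (Cfsg.pCore 2 (MulAut S)) ∧ Nat.card ↥(Cfsg.pCore 2 (MulAut S)) = 2 ^ ((2 * m + 1) ^ 2) ∧
      Nat.card (MulAut S) = 2 ^ ((2 * m + 1) ^ 2) * ((2 * m + 1) * (2 ^ (2 * m + 1) - 1)) := by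
  classical
  haveI : Cfsg.Agent.SzT.SzF F (2 ^ (m + 1)) := Cfsg.Agent.SzT.szF_of_card hm hF
  haveI : CharP F 2 := Cfsg.Agent.SzT.char2' (s := 2 ^ (m + 1))
  obtain ⟨e0⟩ := hS
  obtain ⟨e1⟩ := Cfsg.Agent.Suz2.Rig.sylow_equiv_Sz P
  let e := e0.trans e1
  let D := (Cfsg.Agent.Suz2.Rig.rdSz (2 ^ (m + 1)) F).transport e
  have hl := Cfsg.Agent.Suz2.Rig.RD.transport_lift (F := F) e (Cfsg.Agent.Suz2.Rig.rdSz (2 ^ (m + 1)) F)
    (Cfsg.Agent.Suz2.Rig.exists_liftS (s := 2 ^ (m + 1)))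
  obtain ⟨h3, h4, h5⟩ := D.main hl (2 * m + 1) hF
  have hz : Nat.card (Subgroup.center S) = 2 ^ (2 * m + 1) := by
    rw [Nat.card_congr (Subgroup.centerCongr e).toEquiv, Cfsg.Agent.SzT.card_center_Uni, hF]
  haveI : Fact (Nat.Prime 2) := ⟨Nat.prime_two⟩
  have hG : Nat.card (F ≃+* F) = 2 * m + 1 := Cfsg.Agent.Lib.Chev.card_ringAut 2 (2 * m + 1) hF
  rw [hz] at h4 h5
  have e2 : (2 ^ (2 * m + 1)) ^ (2 * m + 1) = 2 ^ ((2 * m + 1) ^ 2) := by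
    rw [← pow_mul, pow_two]
  rw [e2] at h4 h5
  refine ⟨h3, h4, ?_⟩
  rw [h5, hG, hF]
  ring

end Cfsg.Agent.S2556
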