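import Cfsg.Statements.S2896
import Cfsg.Agent.Lib.Amalgam.ParaChar

set_option autoImplicit false
open Cfsg

namespace Cfsg.Agent.S2896

/-- Let p be a prime dividing the order of the finite group G, S a Sylow p-subgroup of G and X a subgroup of S. (i) If some nontrivial element z of the centre of X has F*(C_G(z)) = O_p(C_G(z)), then F*(N_G(X)) = O_p(N_G(X)). (ii) G has parabolic characteristic p if and only if F*(C_G(z)) = O_p(C_G(z)) for every nontrivial z ∈ Ω₁(Z(S)). (iii) If F*(C_G(z)) = O_p(C_G(z)) for every element z of S of order p, then G has local characteristic p. -/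
theorem result {G : Type*} [Group G] [Finite G] {p : ℕ} [Fact p.Prime] (hdiv : p ∣ Nat.card G) (S : Sylow p G) (X : Subgroup G) (hX : X ≤ (S : Subgroup G)) : (∀ z : G, z ≠ 1 → z ∈ X → (∀ x ∈ X, x * z = z * x) → Cfsg.generalizedFittingSubgroup ↥(Subgroup.centralizer ({z} : Set G)) = Cfsg.pCore p ↥(Subgroup.centralizer ({z} : Set G)) → Cfsg.generalizedFittingSubgroup ↥(Subgroup.normalizer (X : Set G)) = Cfsg.pCore p ↥(Subgroup.normalizer (X : Set G))) ∧ (Cfsg.IsOfParabolicCharacteristic p G ↔ ∀ z : G, z ≠ 1 → z ∈ Cfsg.omegaOne p ((S : Subgroup G) ⊓ Subgroup.centralizer ((S : Subgroup G) : Set G)) → Cfsg.generalizedFittingSubgroup ↥(Subgroup.centralizer ({z} : Set G)) = Cfsg.pCore p ↥(Subgroup.centralizer ({z} : Set G))) ∧ ((∀ z : G, z ∈ (S : Subgroup G) → orderOf z = p → Cfsg.generalizedFittingSubgroup ↥(Subgroup.centralizer ({z} : Set G)) = Cfsg.pCore p ↥(Subgroup.centralizer ({z} : Set G))) → Cfsg.IsOfLocalCharacteristic p G) := by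
  have hWC : ∀ z : G, Subgroup.centralizer ((Subgroup.zpowers z : Subgroup G) : Set G) ≤ Subgroup.centralizer ({z} : Set G) := by
    intro z c hc
    rw [Subgroup.mem_centralizer_singleton_iff]
    exact ((Subgroup.mem_centralizer_iff.mp hc) z (Subgroup.mem_zpowers z)).symm
  refine ⟨?_, ?_, ?_⟩
  · intro z hz1 hzX hzc hF
    refine Cfsg.Agent.Lib.FF.gen_normalizer_of_le' (X := Subgroup.centralizer ({z} : Set G)) (W := Subgroup.zpowers z) hF (S.isPGroup'.to_le hX) ?_ ((Subgroup.zpowers_le).2 hzX) (hWC z)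
    intro x hx
    rw [Subgroup.mem_centralizer_singleton_iff]
    exact hzc x hx
  · constructor
    · intro hG z hz1 hz
      have h1 := Cfsg.Agent.Lib.Amalgam.omegaOne_le_self _ hz
      exact Cfsg.Agent.Lib.Amalgam.gen_centralizer_of_parabolic hG S hz1 h1.1 (fun s hs => (Subgroup.mem_centralizer_iff.mp h1.2 s hs))
    · exact Cfsg.Agent.Lib.Amalgam.parabolic_of_gen_centralizer S
  · intro hF
    refine ⟨hdiv, fun T hT hT1 => ?_⟩
    obtain ⟨z, hzT, hzo, hzc⟩ := Cfsg.Agent.Lib.Amalgam.exists_central_in_normal hT le_rfl Subgroup.le_normalizer hT1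
    obtain ⟨P, hP⟩ := hT.exists_le_sylow
    obtain ⟨g, hg⟩ := MulAction.exists_smul_eq G P S
    have hz'S : g * z * g⁻¹ ∈ (S : Subgroup G) := by
      rw [← hg, Sylow.coe_subgroup_smul]
      exact ⟨z, hP hzT, rfl⟩
    have hz'o : orderOf (g * z * g⁻¹) = p := by
      rw [← MulAut.conj_apply, MulEquiv.orderOf_eq]
      exact hzo
    have hFz := Cfsg.Agent.Lib.Amalgam.gen_centralizer_conj g z (hF _ hz'S hz'o)
    have hgen := Cfsg.Agent.Lib.FF.gen_normalizer_of_le' (X := Subgroup.centralizer ({z} : Set G)) (V := T) (W := Subgroup.zpowers z) hFz hT (by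
      intro x hx
      rw [Subgroup.mem_centralizer_singleton_iff]
      exact hzc x hx) ((Subgroup.zpowers_le).2 hzT) (hWC z)
    exact Cfsg.Agent.Lib.Amalgam.centralizer_le_of_gen_eq hgen

end Cfsg.Agent.S2896
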