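import Cfsg.Statements.S2897
import Cfsg.Agent.Lib.FF.SylowIn
import Cfsg.Agent.Lib.Amalgam.ParaChar

set_option autoImplicit false
open Cfsg

namespace Cfsg.Agent.S2897

/-- Let p be a prime dividing the order of the finite group G, suppose G has parabolic characteristic p, let S be a Sylow p-subgroup of G and G₁ a normal subgroup of G. If Ω₁(Z(S ∩ G₁)) is nontrivial and contained in Ω₁(Z(S)), then G₁ has parabolic characteristic p. -/
theorem result {G : Type*} [Group G] [Finite G] {p : ℕ} [Fact p.Prime] (hdiv : p ∣ Nat.card G) (hG : Cfsg.IsOfParabolicCharacteristic p G) (S : Sylow p G) (G₁ : Subgroup G) [G₁.Normal] (hne : Cfsg.omegaOne p (((S : Subgroup G) ⊓ G₁) ⊓ Subgroup.centralizer (((S : Subgroup G) ⊓ G₁ : Subgroup G) : Set G)) ≠ ⊥) (hle : Cfsg.omegaOne p (((S : Subgroup G) ⊓ G₁) ⊓ Subgroup.centralizer (((S : Subgroup G) ⊓ G₁ : Subgroup G) : Set G)) ≤ Cfsg.omegaOne p ((S : Subgroup G) ⊓ Subgroup.centralizer ((S : Subgroup G) : Set G))) :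 Cfsg.IsOfParabolicCharacteristic p ↥G₁ := by
  classical
  have hS₁ := Cfsg.Agent.Lib.FF.inf_normal_isSylowIn S G₁
  let S₁ : Sylow p ↥G₁ := hS₁.toSylow
  refine Cfsg.Agent.Lib.Amalgam.parabolic_of_gen_centralizer S₁ ?_
  intro z hz1 hz
  have h1 : Cfsg.omegaOne p ((S₁ : Subgroup ↥G₁) ⊓ Subgroup.centralizer ((S₁ : Subgroup ↥G₁) : Set ↥G₁)) ≤
      (Cfsg.omegaOne p (((S : Subgroup G) ⊓ G₁) ⊓ Subgroup.centralizer (((S : Subgroup G) ⊓ G₁ : Subgroup G) : Set G))).comap G₁.subtype := by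
    apply Cfsg.Agent.Lib.Amalgam.omegaOne_le
    intro x hx hxp
    rw [Subgroup.mem_comap]
    apply Cfsg.Agent.Lib.Amalgam.mem_omegaOne_of
    · refine ⟨hx.1, Subgroup.mem_centralizer_iff.mpr ?_⟩
      intro y hy
      have hy' : (⟨y, hy.2⟩ : ↥G₁) ∈ (S₁ : Subgroup ↥G₁) := hy
      have := Subgroup.mem_centralizer_iff.mp hx.2 _ hy'
      exact congrArg Subtype.val this
    · show (x : G) ^ p = 1
      have := congrArg Subtype.val hxp
      simpa using this
  have hz2 := hle (h1 hz)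
  have hz3 := Cfsg.Agent.Lib.Amalgam.omegaOne_le_self _ hz2
  have hzne : (z : G) ≠ 1 := fun h => hz1 (Subtype.ext h)
  have hgen := Cfsg.Agent.Lib.Amalgam.gen_centralizer_of_parabolic hG S hzne hz3.1
    (fun s hs => Subgroup.mem_centralizer_iff.mp hz3.2 s hs)
  set X := Subgroup.centralizer ({(z : G)} : Set G) with hX
  set M : Subgroup G := X ⊓ G₁ with hM
  have hMn : (M.subgroupOf X).Normal := by
    rw [hM, Subgroup.inf_subgroupOf_left]
    exact Subgroup.Normal.subgroupOf inferInstance X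
  have h2 := Cfsg.Agent.Lib.FF.gen_eq_of_subnormal hgen hMn.isSubnormal
  have hmap : (Subgroup.centralizer ({z} : Set ↥G₁)).map G₁.subtype = M := by
    ext y
    rw [Subgroup.mem_map]
    constructor
    · rintro ⟨c, hc, rfl⟩
      rw [Subgroup.mem_centralizer_singleton_iff] at hc
      refine ⟨Subgroup.mem_centralizer_singleton_iff.mpr ?_, c.2⟩
      exact congrArg Subtype.val hc
    · rintro ⟨hy1, hy2⟩
      refine ⟨⟨y, hy2⟩, ?_, rfl⟩
      rw [Subgroup.mem_centralizer_singleton_iff]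
      have hy1' := Subgroup.mem_centralizer_singleton_iff.mp hy1
      exact Subtype.ext hy1'
  have e2 : ↥(M.subgroupOf X) ≃* ↥M := Subgroup.subgroupOfEquivOfLe inf_le_left
  have e1 : ↥(Subgroup.centralizer ({z} : Set ↥G₁)) ≃* ↥M :=
    ((Subgroup.centralizer ({z} : Set ↥G₁)).equivMapOfInjective G₁.subtype G₁.subtype_injective).trans
      (MulEquiv.subgroupCongr hmap)
  exact Cfsg.Agent.Lib.FF.gen_eq_of_mulEquiv (e2.trans e1.symm) h2

end Cfsg.Agent.S2897
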