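import Cfsg.Statements.S2898
import Cfsg.Agent.Lib.Techniques.FourGroup
import Cfsg.Agent.Lib.Amalgam.ParaChar

set_option autoImplicit false
open Cfsg

namespace Cfsg.Agent.S2898

/-- Let G be a finite group of even order with parabolic characteristic 2. If the centre of G ⧸ O(G) is trivial, then O(G) = 1. -/
theorem result {G : Type*} [Group G] [Finite G] (h2 : 2 ∣ Nat.card G) (hG : Cfsg.IsOfParabolicCharacteristic 2 G) [hN : (Cfsg.oddCore G).Normal] (hZ : Subgroup.center (G ⧸ Cfsg.oddCore G) = ⊥) : Cfsg.oddCore G = ⊥ := by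
  classical
  by_contra hO1
  obtain ⟨S⟩ : Nonempty (Sylow 2 G) := inferInstance
  have hS1 : (S : Subgroup G) ≠ ⊥ := by
    intro h
    have h1 := S.card_eq_multiplicity
    rw [h] at h1
    have h2 : (Nat.card G).factorization 2 ≠ 0 := (Nat.prime_two.factorization_pos_of_dvd Nat.card_pos.ne' h2).ne'
    simp only [Subgroup.card_bot] at h1
    have h3 := (Nat.pow_eq_one.1 h1.symm)
    rcases h3 with h3 | h3
    · omega
    · exact h2 h3
  -- central involutions of `S` act fixed-point-freely on `O(G)`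
  have hfix : ∀ t : G, t ≠ 1 → t ∈ (S : Subgroup G) → (∀ s ∈ (S : Subgroup G), s * t = t * s) →
      Cfsg.oddCore G ⊓ Subgroup.centralizer ({t} : Set G) = ⊥ := by
    intro t ht1 htS htc
    have hgen := Cfsg.Agent.Lib.Amalgam.gen_centralizer_of_parabolic hG S ht1 htS htc
    have hb := Cfsg.Agent.Lib.FStar.pPrimeCore_eq_bot_of_gen_eq (p := 2) hgen
    rw [eq_bot_iff]
    rintro x ⟨hx1, hx2⟩
    have hle : (Cfsg.oddCore G).subgroupOf (Subgroup.centralizer ({t} : Set G)) ≤
        Cfsg.pPrimeCore 2 ↥(Subgroup.centralizer ({t} : Set G)) := by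
      apply Cfsg.Agent.Lib.Core.le_pPrimeCore (Subgroup.Normal.subgroupOf hN _)
      have h1 : (Nat.card ↥((Cfsg.oddCore G).subgroupOf (Subgroup.centralizer ({t} : Set G)))) ∣ Nat.card (Cfsg.oddCore G) :=
        Subgroup.card_dvd_of_injective ((Subgroup.centralizer ({t} : Set G)).subtype.subgroupComap (Cfsg.oddCore G)) (by
          intro a b hab
          apply Subtype.ext
          apply Subtype.ext
          have h5 := congrArg Subtype.val hab
          exact h5)
      exact Nat.Coprime.coprime_dvd_left h1 (Cfsg.Agent.Lib.Core.pPrimeCore_coprime 2 G)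
    have := hle (show (⟨x, hx2⟩ : ↥(Subgroup.centralizer ({t} : Set G))) ∈ _ from hx1)
    rw [hb, Subgroup.mem_bot] at this
    simpa using congrArg Subtype.val this
  obtain ⟨z, hzS, hzo, hzc⟩ := Cfsg.Agent.Lib.Amalgam.exists_central_in_normal S.isPGroup' le_rfl Subgroup.le_normalizer hS1
  have hz1 : z ≠ 1 := by
    rintro rfl
    simp at hzo
  have hzz : z * z = 1 := by
    rw [← pow_two, ← hzo]; exact pow_orderOf_eq_one z
  have hinv := Cfsg.Agent.Lib.Techniques.inverts_of_fpf hzz (Cfsg.oddCore G) (hfix z hz1 hzS hzc)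
  have hzi : z⁻¹ = z := inv_eq_of_mul_eq_one_left hzz
  -- `C_G(O(G))` has odd order
  set C := Subgroup.centralizer ((Cfsg.oddCore G : Subgroup G) : Set G) with hC
  haveI hCn : C.Normal := Cfsg.Agent.Lib.Amalgam.centralizer_normal_of_normal _
  have hCodd : (Nat.card C).Coprime 2 := by
    by_contra hcop
    have hne : (S : Subgroup G) ⊓ C ≠ ⊥ := by
      intro hb
      have hI := Cfsg.Agent.Lib.FF.inf_normal_isSylowIn S C
      have h3 := hI.not_dvd
      rw [hb, Subgroup.relIndex_bot_left] at h3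
      exact hcop ((Nat.Prime.coprime_iff_not_dvd Nat.prime_two).2 h3).symm
    have hSC : (S : Subgroup G) ≤ Subgroup.normalizer (((S : Subgroup G) ⊓ C : Subgroup G) : Set G) := by
      intro s hs
      rw [Subgroup.mem_normalizer_iff]
      intro y
      constructor
      · rintro ⟨h1, h2⟩
        exact ⟨(S : Subgroup G).mul_mem ((S : Subgroup G).mul_mem hs h1) ((S : Subgroup G).inv_mem hs), hCn.conj_mem y h2 s⟩
      · rintro ⟨h1, h2⟩
        have e : y = s⁻¹ * (s * y * s⁻¹) * s := by group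
        rw [e]
        refine ⟨(S : Subgroup G).mul_mem ((S : Subgroup G).mul_mem ((S : Subgroup G).inv_mem hs) h1) hs, ?_⟩
        have := hCn.conj_mem _ h2 s⁻¹
        simpa using this
    obtain ⟨t, htA, hto, htc⟩ := Cfsg.Agent.Lib.Amalgam.exists_central_in_normal S.isPGroup' inf_le_left hSC hne
    have ht1 : t ≠ 1 := by
      rintro rfl
      simp at hto
    have h1 := hfix t ht1 htA.1 htc
    apply hO1
    rw [eq_bot_iff]
    intro y hy
    have : y ∈ Cfsg.oddCore G ⊓ Subgroup.centralizer ({t} : Set G) := by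
      refine ⟨hy, Subgroup.mem_centralizer_singleton_iff.mpr ?_⟩
      exact Subgroup.mem_centralizer_iff.mp htA.2 y hy
    rwa [h1] at this
  have hCO : C ≤ Cfsg.oddCore G := Cfsg.Agent.Lib.Core.le_pPrimeCore hCn hCodd
  have hcent : ((z : G) : G ⧸ Cfsg.oddCore G) ∈ Subgroup.center (G ⧸ Cfsg.oddCore G) := by
    rw [Subgroup.mem_center_iff]
    intro q
    obtain ⟨g, rfl⟩ := QuotientGroup.mk_surjective q
    symm
    rw [← QuotientGroup.mk_mul, ← QuotientGroup.mk_mul, QuotientGroup.eq]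
    apply hCO
    refine Subgroup.mem_centralizer_iff.mpr ?_
    intro y hy
    have hc : g * y⁻¹ * g⁻¹ ∈ Cfsg.oddCore G := hN.conj_mem _ (inv_mem hy) g
    have h3 := hinv y hy
    have h4 := hinv _ hc
    have e1 : z * y = y⁻¹ * z := by
      calc z * y = (z * y * z⁻¹) * z := by group
        _ = y⁻¹ * z := by rw [h3]
    have e2 : z * (g * y⁻¹ * g⁻¹) = (g * y * g⁻¹) * z := by
      calc z * (g * y⁻¹ * g⁻¹) = (z * (g * y⁻¹ * g⁻¹) * z⁻¹) * z := by group
        _ = (g * y⁻¹ * g⁻¹)⁻¹ * z := by rw [h4]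
        _ = (g * y * g⁻¹) * z := by group
    calc y * ((z * g)⁻¹ * (g * z)) = y * (g⁻¹ * z * g * z) := by
          rw [mul_inv_rev, hzi]; group
      _ = g⁻¹ * ((g * y * g⁻¹) * z) * g * z := by group
      _ = g⁻¹ * (z * (g * y⁻¹ * g⁻¹)) * g * z := by rw [e2]
      _ = g⁻¹ * z * g * (y⁻¹ * z) := by group
      _ = g⁻¹ * z * g * (z * y) := by rw [e1]
      _ = ((z * g)⁻¹ * (g * z)) * y := by rw [mul_inv_rev, hzi]; group
  rw [hZ, Subgroup.mem_bot, QuotientGroup.eq_one_iff] at hcent
  have h1 : orderOf z ∣ Nat.card (Cfsg.oddCore G) := by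
    have := Subgroup.orderOf_dvd_natCard (Cfsg.oddCore G) hcent
    exact this
  rw [hzo] at h1
  have h2 := Nat.Coprime.eq_one_of_dvd (Cfsg.Agent.Lib.Core.pPrimeCore_coprime 2 G).symm h1
  omega

end Cfsg.Agent.S2898
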