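import Cfsg.Statements.S2904
import Cfsg.Agent.Lib.Amalgam.Zsig

set_option autoImplicit false
open Cfsg

namespace Cfsg.Agent.S2904

/-- Zsigmondy's Theorem: for natural numbers a > 1 and n > 1 there is a prime dividing aⁿ − 1 that divides aᵏ − 1 for no natural number 0 < k < n, unless a = 2 and n = 6, or n = 2 and a + 1 is a power of two. -/
theorem result (a n : ℕ) (ha : 1 < a) (hn : 1 < n) (h6 : ¬ (a = 2 ∧ n = 6)) (h2 : ¬ (n = 2 ∧ ∃ m : ℕ, a + 1 = 2 ^ m)) : ∃ r : ℕ, r.Prime ∧ r ∣ a ^ n - 1 ∧ ∀ k : ℕ, 0 < k → k < n → ¬ r ∣ a ^ k - 1 := by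
  by_cases hn3 : 3 ≤ n
  · exact Cfsg.Agent.Lib.Amalgam.Zsig.main_ge_three a n ha hn3 h6
  have hn2 : n = 2 := by omega
  subst hn2
  rcases Nat.eq_two_pow_or_exists_odd_prime_and_dvd (a + 1) with h | ⟨r, hr, hd, hodd⟩
  · exact absurd ⟨rfl, h⟩ h2
  refine ⟨r, hr, ?_, ?_⟩
  · have e : a ^ 2 - 1 = (a + 1) * (a - 1) := by
      obtain ⟨b, rfl⟩ : ∃ b, a = b + 1 := ⟨a - 1, by omega⟩
      simp only [Nat.add_sub_cancel]
      have : (b + 1) ^ 2 = (b + 1 + 1) * b + 1 := by ring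
      rw [this, Nat.add_sub_cancel]
    rw [e]
    exact Dvd.dvd.mul_right hd _
  · intro k hk0 hk2 hk
    have hk1 : k = 1 := by omega
    subst hk1
    rw [pow_one] at hk
    have h3 : r ∣ (a + 1) - (a - 1) := Nat.dvd_sub hd hk
    have h4 : (a + 1) - (a - 1) = 2 := by omega
    rw [h4] at h3
    have h5 := (Nat.prime_dvd_prime_iff_eq hr Nat.prime_two).mp h3
    subst h5
    exact absurd hodd (by decide)

end Cfsg.Agent.S2904
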