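import Cfsg.Statements.S2907
import Mathlib

set_option autoImplicit false
open Cfsg 
open scoped commutatorElement

namespace Cfsg.Agent.S2907

/-- Let X be a finite semi-extraspecial p-group and x an element of X outside the centre. Then the index of C_X(x) in X equals the order of Z(X), and the commutators [x, y], y ∈ X, form exactly the centre Z(X). -/
theorem result {X : Type*} [Group X] [Finite X] {p : ℕ} [Fact p.Prime] (hX : Cfsg.IsSemiExtraspecial p X) (x : X) (hx : x ∉ Subgroup.center X) : (Subgroup.centralizer ({x} : Set X)).index = Nat.card ↥(Subgroup.center X) ∧ {z : X | ∃ y : X, z = x * y * x⁻¹ * y⁻¹} = (Subgroup.center X : Set X) := by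
  obtain ⟨⟨hPG, hFr, hCo⟩, hExt⟩ := hX
  have hcomm : ∀ a b : X, ⁅a, b⁆ ∈ Subgroup.center X := by
    intro a b
    rw [← hCo]
    exact Subgroup.commutator_mem_commutator (Subgroup.mem_top a) (Subgroup.mem_top b)
  have hmul : ∀ a b : X, (⟨⁅x, a * b⁆, hcomm _ _⟩ : Subgroup.center X) =
      ⟨⁅x, a⁆, hcomm _ _⟩ * ⟨⁅x, b⁆, hcomm _ _⟩ := by
    intro a b
    apply Subtype.ext
    have h1 : a * ⁅x, b⁆ * a⁻¹ = ⁅x, b⁆ := by
      have := (Subgroup.mem_center_iff.mp (hcomm x b)) a
      rw [this]; group
    have e : ⁅x, a * b⁆ = ⁅x, a⁆ * (a * ⁅x, b⁆ * a⁻¹) := by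
      simp only [commutatorElement_def]; group
    rw [h1] at e
    exact e
  let f : X →* Subgroup.center X := MonoidHom.mk' (fun a => ⟨⁅x, a⁆, hcomm _ _⟩) hmul
  have hf : ∀ a, ((f a : Subgroup.center X) : X) = ⁅x, a⁆ := fun _ => rfl
  have hker : f.ker = Subgroup.centralizer ({x} : Set X) := by
    ext a
    rw [MonoidHom.mem_ker, Subgroup.mem_centralizer_singleton_iff]
    constructor
    · intro h
      have h1 : ⁅x, a⁆ = 1 := congrArg Subtype.val h
      rw [commutatorElement_eq_one_iff_commute] at h1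
      exact h1.symm.eq
    · intro h
      apply Subtype.ext
      show ⁅x, a⁆ = 1
      rw [commutatorElement_eq_one_iff_commute]
      exact (show Commute a x from h).symm
  have hsurj : f.range = ⊤ := by
    by_contra hne
    obtain ⟨Y0, hY0, hRY⟩ := (eq_top_or_exists_le_coatom f.range).resolve_left hne
    set Y := Y0.map (Subgroup.center X).subtype with hY
    have hYZ : Y ≤ Subgroup.center X := Subgroup.map_subtype_le _
    have hYsub : Y.subgroupOf (Subgroup.center X) = Y0 := by
      rw [hY, Subgroup.subgroupOf, Subgroup.comap_map_eq_self_of_injective (Subgroup.subtype_injective _)]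
    obtain ⟨hn, hE⟩ := hExt Y hYZ (by rw [hYsub]; exact hY0)
    have hcard : Nat.card (Subgroup.center (X ⧸ Y)) = p := hE.2
    -- the image of the centre
    have hZim : (Subgroup.center X).map (QuotientGroup.mk' Y) ≤ Subgroup.center (X ⧸ Y) := by
      rintro _ ⟨z, hz, rfl⟩
      rw [Subgroup.mem_center_iff]
      intro g
      obtain ⟨g', rfl⟩ := QuotientGroup.mk'_surjective Y g
      rw [← map_mul, ← map_mul, (Subgroup.mem_center_iff.mp hz) g']
    have hZne : (Subgroup.center X).map (QuotientGroup.mk' Y) ≠ ⊥ := by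
      intro h
      apply hY0.1
      rw [eq_top_iff]
      rintro ⟨z, hz⟩ -
      have h1 : QuotientGroup.mk' Y z ∈ (Subgroup.center X).map (QuotientGroup.mk' Y) := ⟨z, hz, rfl⟩
      rw [h] at h1
      have h2 : z ∈ Y := (QuotientGroup.eq_one_iff z).mp h1
      rw [← hYsub, Subgroup.mem_subgroupOf]
      exact h2
    haveI : Fact (Nat.card (Subgroup.center (X ⧸ Y))).Prime := ⟨hcard ▸ Fact.out⟩
    have hZeq : (Subgroup.center X).map (QuotientGroup.mk' Y) = Subgroup.center (X ⧸ Y) := by
      have h3 : ((Subgroup.center X).map (QuotientGroup.mk' Y)).subgroupOf (Subgroup.center (X ⧸ Y)) ≠ ⊥ := by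
        intro h
        apply hZne
        rw [eq_bot_iff]
        intro y hy
        have := (Subgroup.mem_bot (x := (⟨y, hZim hy⟩ : Subgroup.center (X ⧸ Y)))).mp
          (by rw [← h, Subgroup.mem_subgroupOf]; exact hy)
        exact congrArg Subtype.val this
      have h4 := (Subgroup.eq_bot_or_eq_top_of_prime_card
        (((Subgroup.center X).map (QuotientGroup.mk' Y)).subgroupOf (Subgroup.center (X ⧸ Y)))).resolve_left h3
      apply le_antisymm hZim
      intro y hy
      have : (⟨y, hy⟩ : Subgroup.center (X ⧸ Y)) ∈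
          ((Subgroup.center X).map (QuotientGroup.mk' Y)).subgroupOf (Subgroup.center (X ⧸ Y)) := by
        rw [h4]; trivial
      exact this
    have hxc : QuotientGroup.mk' Y x ∈ Subgroup.center (X ⧸ Y) := by
      rw [Subgroup.mem_center_iff]
      intro g
      obtain ⟨g', rfl⟩ := QuotientGroup.mk'_surjective Y g
      have h5 : ⁅x, g'⁆ ∈ Y := by
        have h6 : f g' ∈ Y0 := hRY ⟨g', rfl⟩
        exact ⟨_, h6, rfl⟩
      have h7 : QuotientGroup.mk' Y ⁅x, g'⁆ = 1 := (QuotientGroup.eq_one_iff _).mpr h5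
      rw [commutatorElement_def, map_mul, map_mul, map_mul, map_inv, map_inv] at h7
      have h8 : QuotientGroup.mk' Y x * QuotientGroup.mk' Y g' = QuotientGroup.mk' Y g' * QuotientGroup.mk' Y x := by
        rw [mul_inv_eq_one, mul_inv_eq_iff_eq_mul] at h7
        exact h7
      exact h8.symm
    rw [← hZeq] at hxc
    obtain ⟨z, hz, hzx⟩ := hxc
    have h9 : z⁻¹ * x ∈ Y := QuotientGroup.eq.mp hzx
    apply hx
    have h10 : x = z * (z⁻¹ * x) := by group
    rw [h10]
    exact Subgroup.mul_mem _ hz (hYZ h9)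
  constructor
  · rw [← hker, Subgroup.index_ker, hsurj]
    simp
  · ext z
    simp only [Set.mem_setOf_eq, SetLike.mem_coe]
    constructor
    · rintro ⟨y, rfl⟩
      exact hcomm x y
    · intro hz
      have h1 : (⟨z, hz⟩ : Subgroup.center X) ∈ f.range := by rw [hsurj]; trivial
      obtain ⟨y, hy⟩ := h1
      refine ⟨y, ?_⟩
      have := congrArg Subtype.val hy
      exact this.symm

end Cfsg.Agent.S2907
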