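import Cfsg.Statements.S2908
import Cfsg.Agent.Lib.Core.PFrattini
import Cfsg.Agent.Lib.Hall.CoprimeLemmas
import Cfsg.Agent.Lib.Amalgam.NormMap

set_option autoImplicit false
open Cfsg Cfsg.Agent.Lib.Amalgam
open scoped commutatorElement

namespace Cfsg.Agent.S2908

/-- Let P be a p-subgroup of a finite group, normalized by a p-subgroup A and by a subgroup B of order prime to p that commutes elementwise with A. If [P, B] ≤ [P, A], then B centralizes P. -/
theorem result {G : Type*} [Group G] [Finite G] {p : ℕ} [Fact p.Prime] (P A B : Subgroup G) (hP : IsPGroup p ↥P) (hA : IsPGroup p ↥A) (hB : ¬ p ∣ Nat.card ↥B) (hnA : A ≤ Subgroup.normalizer (P : Set G)) (hnB : B ≤ Subgroup.normalizer (P : Set G)) (hAB : ⁅A, B⁆ = ⊥) (hcomm : ⁅P, B⁆ ≤ ⁅P, A⁆) : ⁅P, B⁆ = ⊥ := by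
  have hW : IsPGroup p ↥(P ⊔ A) := IsPGroup.to_sup_of_normal_left' hP hA hnA
  set W := P ⊔ A with hWdef
  have hBA : B ≤ Subgroup.centralizer (A : Set G) := by
    rw [Subgroup.le_centralizer_iff]
    exact Subgroup.commutator_eq_bot_iff_le_centralizer.mp hAB
  have hBW : B ≤ Subgroup.normalizer (W : Set G) :=
    le_normalizer_sup hnB (hBA.trans (centralizer_le_normalizer' A))
  have hpc : (Nat.card B).Coprime p := ((Nat.Prime.coprime_iff_not_dvd (Fact.out)).mpr hB).symm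
  have hcop : (Nat.card B).Coprime (Nat.card (frattini ↥W)) := by
    obtain ⟨k, hk⟩ := IsPGroup.iff_card.mp (hW.to_subgroup (frattini ↥W))
    rw [hk]
    exact Nat.Coprime.pow_right k hpc
  have hPA : ⁅P, A⁆ ≤ (frattini ↥W).map W.subtype := by
    rw [Subgroup.commutator_le]
    intro y hy z hz
    have h1 : ⁅(⟨y, Subgroup.mem_sup_left hy⟩ : W), (⟨z, Subgroup.mem_sup_right hz⟩ : W)⁆ ∈ frattini ↥W :=
      (Cfsg.Agent.Lib.Core.frattini_pgroup p hW).1 (Subgroup.commutator_mem_commutator trivial trivial)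
    exact ⟨_, h1, rfl⟩
  have htriv : ∀ b ∈ B, ∀ k ∈ W, b * k * b⁻¹ * k⁻¹ ∈ (frattini ↥W).map W.subtype := by
    intro b hb k hk
    obtain ⟨x, hx, a, ha, rfl⟩ := Cfsg.Agent.Lib.FF.exists_mul_of_mem_sup hnA hk
    have hab : a * b = b * a := Subgroup.mem_centralizer_iff.mp (hBA hb) a ha
    have e : b * (x * a) * b⁻¹ * (x * a)⁻¹ = ⁅x, b⁆⁻¹ := by
      rw [commutatorElement_def]
      calc b * (x * a) * b⁻¹ * (x * a)⁻¹ = b * x * (a * b⁻¹ * a⁻¹) * x⁻¹ := by group
        _ = b * x * (b⁻¹ * (b * a) * b⁻¹ * a⁻¹) * x⁻¹ := by group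
        _ = b * x * (b⁻¹ * (a * b) * b⁻¹ * a⁻¹) * x⁻¹ := by rw [hab]
        _ = _ := by group
    rw [e]
    exact Subgroup.inv_mem _ (hPA (hcomm (Subgroup.commutator_mem_commutator hx hb)))
  have hres := Cfsg.Agent.Lib.Hall.le_centralizer_of_frattini B W hBW hcop htriv
  rw [Subgroup.commutator_eq_bot_iff_le_centralizer, Subgroup.le_centralizer_iff]
  exact hres.trans (Subgroup.centralizer_le (show P ≤ W from le_sup_left))

end Cfsg.Agent.S2908
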