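import Cfsg.Statements.S2909
import Cfsg.Agent.Lib.Hall.CoprimeLemmas
import Cfsg.Agent.Lib.Hall.FPFAction
import Cfsg.Agent.Lib.Hall.Generation
import Cfsg.Agent.S2908
import Cfsg.Agent.Lib.Amalgam.NormMap

set_option autoImplicit false
open Cfsg Cfsg.Agent.Lib.Amalgam
open scoped commutatorElement

namespace Cfsg.Agent.S2909

/-- Let p be a prime, E a normal p-subgroup of the finite group G, and U a non-cyclic elementary abelian p-subgroup of G such that either C_E(U) = C_E(u) for every nontrivial u ∈ U, or [E, U] = [E, ⟨u⟩] for every nontrivial u ∈ U. If R is a subgroup of order prime to p normalized by U, then [R, U] centralizes E. -/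
theorem result {G : Type*} [Group G] [Finite G] {p : ℕ} [Fact p.Prime] (E : Subgroup G) [E.Normal] (hE : IsPGroup p ↥E) (U : Subgroup G) (hU : Cfsg.IsElementaryAbelian p U) (hnc : ¬ IsCyclic ↥U) (hcond : (∀ u ∈ U, u ≠ 1 → E ⊓ Subgroup.centralizer (U : Set G) = E ⊓ Subgroup.centralizer ({u} : Set G)) ∨ (∀ u ∈ U, u ≠ 1 → ⁅E, U⁆ = ⁅E, Subgroup.zpowers u⁆)) (R : Subgroup G) (hR : ¬ p ∣ Nat.card ↥R) (hRU : U ≤ Subgroup.normalizer (R : Set G)) : ⁅R, U⁆ ≤ Subgroup.centralizer (E : Set G) := by
  -- a subgroup of order `p²`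
  haveI hUc := hU.1
  obtain ⟨q, hq, E₀, hE₀U, hE₀c, hE₀e⟩ := Cfsg.Agent.Lib.Hall.exists_elementary_subgroup U hnc
  have hqp : p = q := by
    haveI : Fact q.Prime := ⟨hq⟩
    have h1 : 1 < Nat.card E₀ := by
      rw [hE₀c]
      exact Nat.one_lt_pow (by norm_num) hq.one_lt
    haveI : Nontrivial E₀ := Finite.one_lt_card_iff_nontrivial.mp h1
    obtain ⟨⟨a, ha⟩, ha1⟩ := exists_ne (1 : E₀)
    have ha1' : a ≠ 1 := fun h => ha1 (Subtype.ext h)
    have h2 : orderOf a = q := orderOf_eq_prime (hE₀e a ha) ha1'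
    have h3 : orderOf a = p := orderOf_eq_prime (hU.2 a (hE₀U ha)) ha1'
    rw [← h2, h3]
  subst hqp
  have hpc : ∀ K : Subgroup G, K ≤ R → Nat.Coprime p (Nat.card K) := by
    intro K hK
    have h1 : Nat.card K ∣ Nat.card R := Subgroup.card_dvd_of_le hK
    exact Nat.Coprime.coprime_dvd_right h1 ((Nat.Prime.coprime_iff_not_dvd hq).mpr hR)
  set R₁ := ⁅R, U⁆ with hR₁
  have hR₁R : R₁ ≤ R := commutator_le_left_of_normalizer hRU
  have hE₀N : E₀ ≤ Subgroup.normalizer (R : Set G) := hE₀U.trans hRU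
  have hUR₁ : U ≤ Subgroup.normalizer (R₁ : Set G) :=
    le_normalizer_commutator hRU Subgroup.le_normalizer
  have hgenR := Cfsg.Agent.Lib.Hall.generation_elementary hq hE₀c hE₀e _ R le_rfl hE₀N (hpc R le_rfl)
  have hgenR₁ := Cfsg.Agent.Lib.Hall.generation_elementary hq hE₀c hE₀e _ R₁ le_rfl
    (hE₀U.trans hUR₁) (hpc R₁ hR₁R)
  have hnE : ∀ x : G, x ∈ Subgroup.normalizer (E : Set G) := fun x => by
    rw [Subgroup.normalizer_eq_top_iff.mpr inferInstance]; trivial
  have hEle : ∀ (X : Subgroup G), X ≤ Subgroup.normalizer (E : Set G) := fun X x _ => hnE x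
  have hcomm_of : ∀ {a x : G}, x ∈ Subgroup.centralizer ({a} : Set G) →
      Subgroup.zpowers x ≤ Subgroup.centralizer ((Subgroup.zpowers a : Subgroup G) : Set G) := by
    intro a x hx
    rw [Subgroup.zpowers_le]
    rw [Subgroup.mem_centralizer_iff]
    intro y hy
    obtain ⟨n, rfl⟩ := Subgroup.mem_zpowers_iff.mp hy
    have h1 : Commute x a := Subgroup.mem_centralizer_singleton_iff.mp hx
    exact (h1.zpow_right n).symm.eq
  have hzp : ∀ a ∈ E₀, IsPGroup p (Subgroup.zpowers a) := by
    intro a ha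
    rintro ⟨y, hy⟩
    obtain ⟨n, rfl⟩ := Subgroup.mem_zpowers_iff.mp hy
    refine ⟨1, Subtype.ext ?_⟩
    show (a ^ n) ^ p ^ 1 = 1
    rw [pow_one, ← zpow_natCast, ← zpow_mul, mul_comm, zpow_mul, zpow_natCast, hE₀e a ha, one_zpow]
  -- the key step for elements of `R₁` commuting with some `a`
  have hmain : ∀ a ∈ E₀, a ≠ 1 → ∀ x ∈ R₁, x ∈ Subgroup.centralizer ({a} : Set G) →
      x ∈ Subgroup.centralizer (E : Set G) := by
    rcases hcond with hc1 | hc2
    · -- first alternative
      set D := E ⊓ Subgroup.centralizer (U : Set G) with hD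
      have hRD : R ≤ Subgroup.normalizer (D : Set G) := by
        rw [← hgenR]
        refine iSup₂_le fun a ha => ?_
        rintro x ⟨-, hx⟩
        have e : D = E ⊓ Subgroup.centralizer ({a} : Set G) := hc1 a (hE₀U ha.1) ha.2
        rw [e]
        exact mem_normalizer_inf' (hnE x) (Subgroup.le_normalizer hx)
      have hUD : U ≤ Subgroup.centralizer (D : Set G) := by
        rw [Subgroup.le_centralizer_iff]
        exact inf_le_right
      have hR₁D : R₁ ≤ Subgroup.centralizer (D : Set G) := commutator_le_centralizer_of hRD hUD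
      intro a ha ha1 x hx hxa
      have hxR : x ∈ R := hR₁R hx
      have h1 := Cfsg.Agent.Lib.Hall.p_times_q_lemma p (Subgroup.zpowers a) (Subgroup.zpowers x) E
        (hzp a ha) (hpc _ (Subgroup.zpowers_le.mpr hxR)).symm hE
        (Subgroup.le_centralizer_iff.mp (hcomm_of hxa)) (hEle _) (hEle _) (by
          rintro e ⟨heE, heC⟩
          have h2 : e ∈ Subgroup.centralizer ({a} : Set G) :=
            Subgroup.centralizer_le (Set.singleton_subset_iff.mpr (Subgroup.mem_zpowers a)) heC
          have hed : e ∈ D := by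
            rw [hc1 a (hE₀U ha) ha1]
            exact ⟨heE, h2⟩
          have h3 : x ∈ Subgroup.centralizer (D : Set G) := hR₁D hx
          have h4 : x ∈ Subgroup.centralizer ({e} : Set G) :=
            Subgroup.mem_centralizer_singleton_iff.mpr (Subgroup.mem_centralizer_iff.mp h3 e hed).symm
          exact Subgroup.le_centralizer_iff.mp (hcomm_of h4) (Subgroup.mem_zpowers e))
      exact h1 (Subgroup.mem_zpowers x)
    · set D := ⁅E, U⁆ with hD
      have hRD : R ≤ Subgroup.normalizer (D : Set G) := by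
        rw [← hgenR]
        refine iSup₂_le fun a ha => ?_
        rintro x ⟨-, hx⟩
        have e : D = ⁅E, Subgroup.zpowers a⁆ := hc2 a (hE₀U ha.1) ha.2
        rw [e]
        refine mem_normalizer_commutator (hnE x) ?_
        exact centralizer_le_normalizer' _ (hcomm_of hx (Subgroup.mem_zpowers x))
      have hUD : U ≤ Subgroup.normalizer (D : Set G) :=
        le_normalizer_commutator (hEle _) Subgroup.le_normalizer
      have hER : ⁅E, R₁⁆ ≤ D := commutator_commutator_le hRD hUD (hEle _) le_rfl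
      intro a ha ha1 x hx hxa
      have hxR : x ∈ R := hR₁R hx
      have h1 := Cfsg.Agent.S2908.result (p := p) E (Subgroup.zpowers a) (Subgroup.zpowers x) hE (hzp a ha)
        (by
          have := hpc _ (Subgroup.zpowers_le.mpr hxR)
          exact (Nat.Prime.coprime_iff_not_dvd hq).mp this)
        (hEle _) (hEle _)
        (by
          rw [Subgroup.commutator_eq_bot_iff_le_centralizer]
          exact Subgroup.le_centralizer_iff.mp (hcomm_of hxa))
        (by
          have h2 : ⁅E, Subgroup.zpowers x⁆ ≤ ⁅E, R₁⁆ :=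
            Subgroup.commutator_mono le_rfl (Subgroup.zpowers_le.mpr hx)
          exact (h2.trans hER).trans (hc2 a (hE₀U ha) ha1).le)
      rw [Subgroup.commutator_eq_bot_iff_le_centralizer] at h1
      exact Subgroup.le_centralizer_iff.mp h1 (Subgroup.mem_zpowers x)
  rw [← hgenR₁]
  refine iSup₂_le fun a ha => ?_
  rintro x ⟨hx, hxa⟩
  exact hmain a ha.1 ha.2 x hx hxa

end Cfsg.Agent.S2909
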