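import Cfsg.Statements.S2911
import Cfsg.Agent.Lib.Transfer.Basic
import Cfsg.Agent.Lib.Amalgam.TransferZ2

set_option autoImplicit false
open Cfsg Cfsg.Agent.Lib.Amalgam
open scoped commutatorElement

namespace Cfsg.Agent.S2911

/-- A finite group whose Sylow 2-subgroups are isomorphic to the direct product of a group of order 2 and a dihedral group of order 8 has a subgroup of index two. -/
theorem result {G : Type*} [Group G] [Finite G] (S : Sylow 2 G) (hS : Nonempty (↥(S : Subgroup G) ≃* Multiplicative (ZMod 2) × DihedralGroup 4)) : ∃ H : Subgroup G, H.index = 2 := by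
  obtain ⟨e⟩ := hS
  have hE : ∀ (x y : ↥(S : Subgroup G)), e x = e y → x = y := fun x y h => e.injective h
  set zz : ↥(S : Subgroup G) := e.symm (Multiplicative.ofAdd 1, 1) with hzz
  set w0 : ↥(S : Subgroup G) := e.symm (1, DihedralGroup.r 2) with hw0
  set s0 : ↥(S : Subgroup G) := e.symm (1, DihedralGroup.r 1) with hs0
  have ezz : e zz = (Multiplicative.ofAdd 1, 1) := by simp [hzz]
  have ew0 : e w0 = (1, DihedralGroup.r 2) := by simp [hw0]
  have es0 : e s0 = (1, DihedralGroup.r 1) := by simp [hs0]
  set z : G := (zz : G) with hz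
  set w : G := (w0 : G) with hw
  have hzw : zz ≠ w0 := by
    intro h
    have := congrArg e h
    rw [ezz, ew0] at this
    have h2 := congrArg Prod.fst this
    revert h2
    decide
  have hw1 : w0 ≠ 1 := by
    intro h
    have := congrArg e h
    rw [ew0, map_one e] at this
    have h2 := congrArg Prod.snd this
    revert h2
    decide
  have hz1 : zz ≠ 1 := by
    intro h
    have := congrArg e h
    rw [ezz, map_one e] at this
    have h2 := congrArg Prod.fst this
    revert h2
    decide
  have hw2 : w0 * w0 = 1 := by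
    apply e.injective
    rw [map_mul, ew0, map_one e]
    decide
  have hzz2 : zz * zz = 1 := by
    apply e.injective
    rw [map_mul, ezz, map_one e]
    decide
  have hzcent : ∀ s : ↥(S : Subgroup G), s * zz = zz * s := by
    intro s
    apply e.injective
    rw [map_mul, map_mul, ezz]
    ext
    · show (e s).1 * _ = _ * (e s).1
      exact mul_comm _ _
    · show (e s).2 * 1 = 1 * (e s).2
      rw [mul_one, one_mul]
  have hd2 : ∀ d : DihedralGroup 4, d * d = 1 ∨ d * d = DihedralGroup.r 2 := by decide
  have hcentD : ∀ d : DihedralGroup 4, (∀ d' : DihedralGroup 4, d' * d = d * d') →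
      d = 1 ∨ d = DihedralGroup.r 2 := by decide
  have hA2 : ∀ x : Multiplicative (ZMod 2), x = 1 ∨ x = Multiplicative.ofAdd 1 := by decide
  have hAsq : ∀ x : Multiplicative (ZMod 2), x * x = 1 := by decide
  -- conjugation in the normalizer
  have hconjS : ∀ g ∈ Subgroup.normalizer ((S : Subgroup G) : Set G), ∀ s : ↥(S : Subgroup G),
      g * (s : G) * g⁻¹ ∈ (S : Subgroup G) := fun g hg s =>
    (Subgroup.mem_normalizer_iff.mp hg s).mp s.2
  have hwfix : ∀ g ∈ Subgroup.normalizer ((S : Subgroup G) : Set G), g * w * g⁻¹ = w := by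
    intro g hg
    set t : ↥(S : Subgroup G) := ⟨g * (s0 : G) * g⁻¹, hconjS g hg s0⟩ with ht
    have hw_s : w0 = s0 * s0 := by
      apply e.injective
      rw [map_mul, ew0, es0]
      decide
    have e1 : g * w * g⁻¹ = ((t * t : ↥(S : Subgroup G)) : G) := by
      show g * (w0 : G) * g⁻¹ = (g * (s0 : G) * g⁻¹) * (g * (s0 : G) * g⁻¹)
      rw [hw_s]
      push_cast
      group
    have h1 : t * t = w0 := by
      apply e.injective
      rw [map_mul, ew0]
      ext
      · exact hAsq _
      · rcases hd2 (e t).2 with h | h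
        · exfalso
          have h2 : t * t = 1 := by
            apply e.injective
            rw [map_mul, map_one e]
            ext
            · exact hAsq _
            · exact h
          have h3 : g * w * g⁻¹ = 1 := by rw [e1, h2]; rfl
          have h4 : w = 1 := by
            have := congrArg (fun y => g⁻¹ * y * g) h3
            simpa [mul_assoc] using this
          exact hw1 (Subtype.ext h4)
        · exact h
    rw [e1, h1]
  have hzcases : ∀ g ∈ Subgroup.normalizer ((S : Subgroup G) : Set G), g * z * g⁻¹ = z ∨ g * z * g⁻¹ = z * w := by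
    intro g hg
    set t : ↥(S : Subgroup G) := ⟨g * z * g⁻¹, hconjS g hg zz⟩ with ht
    have htc : ∀ s : ↥(S : Subgroup G), s * t = t * s := by
      intro s
      have h1 : g⁻¹ * (s : G) * g ∈ (S : Subgroup G) := by
        have := hconjS g⁻¹ (Subgroup.inv_mem _ hg) s
        simpa using this
      have h2 := congrArg Subtype.val (hzcent ⟨_, h1⟩)
      have h3 : (g⁻¹ * (s : G) * g) * z = z * (g⁻¹ * (s : G) * g) := h2
      apply Subtype.ext
      show (s : G) * (g * z * g⁻¹) = (g * z * g⁻¹) * (s : G)
      calc (s : G) * (g * z * g⁻¹) = g * ((g⁻¹ * (s : G) * g) * z) * g⁻¹ := by group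
        _ = g * (z * (g⁻¹ * (s : G) * g)) * g⁻¹ := by rw [h3]
        _ = _ := by group
    have hd : (e t).2 = 1 ∨ (e t).2 = DihedralGroup.r 2 := by
      apply hcentD
      intro d'
      have h1 := htc (e.symm (1, d'))
      have h2 := congrArg e h1
      rw [map_mul, map_mul, MulEquiv.apply_symm_apply] at h2
      have h3 := congrArg Prod.snd h2
      exact h3
    have htz : (t : G) = g * z * g⁻¹ := rfl
    rcases hA2 (e t).1 with hx | hx <;> rcases hd with hd | hd
    · exfalso
      have h1 : t = 1 := by
        apply e.injective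
        rw [map_one e]
        exact Prod.ext hx hd
      have h2 : g * z * g⁻¹ = 1 := by rw [← htz, h1]; rfl
      have h3 : z = 1 := by
        have := congrArg (fun y => g⁻¹ * y * g) h2
        simpa [mul_assoc] using this
      exact hz1 (Subtype.ext h3)
    · exfalso
      have h1 : t = w0 := by
        apply e.injective
        rw [ew0]
        exact Prod.ext hx hd
      have h2 : g * z * g⁻¹ = w := by rw [← htz, h1]
      have h3 : z = g⁻¹ * w * g := by
        rw [← h2]; group
      have h4 := hwfix g⁻¹ (Subgroup.inv_mem _ hg)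
      rw [inv_inv] at h4
      rw [h4] at h3
      exact hzw (Subtype.ext h3)
    · left
      have h1 : t = zz := by
        apply e.injective
        rw [ezz]
        exact Prod.ext hx hd
      rw [← htz, h1]
    · right
      have h1 : t = zz * w0 := by
        apply e.injective
        rw [map_mul, ezz, ew0]
        refine Prod.ext ?_ ?_
        · rw [hx]; rfl
        · rw [hd]; rfl
      rw [← htz, h1]
      rfl
  -- powers
  have hpow : ∀ g ∈ Subgroup.normalizer ((S : Subgroup G) : Set G), g * z * g⁻¹ = z * w → ∀ n : ℕ,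
      g ^ (2 * n) * z * (g ^ (2 * n))⁻¹ = z ∧ g ^ (2 * n + 1) * z * (g ^ (2 * n + 1))⁻¹ = z * w := by
    intro g hg h n
    have hwg := hwfix g hg
    have hww : w * w = 1 := congrArg Subtype.val hw2
    have hstep : g * (z * w) * g⁻¹ = z := by
      calc g * (z * w) * g⁻¹ = (g * z * g⁻¹) * (g * w * g⁻¹) := by group
        _ = z * w * w := by rw [h, hwg]
        _ = z * (w * w) := by group
        _ = z := by rw [hww, mul_one]
    induction n with
    | zero =>
      simpa using h
    | succ n ih =>
      have h1 : g ^ (2 * (n + 1)) * z * (g ^ (2 * (n + 1)))⁻¹ = z := by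
        have e1 : g ^ (2 * (n + 1)) = g * g ^ (2 * n + 1) := by
          rw [← pow_succ']; congr 1
        rw [e1]
        calc g * g ^ (2 * n + 1) * z * (g * g ^ (2 * n + 1))⁻¹
            = g * (g ^ (2 * n + 1) * z * (g ^ (2 * n + 1))⁻¹) * g⁻¹ := by group
          _ = g * (z * w) * g⁻¹ := by rw [ih.2]
          _ = z := hstep
      refine ⟨h1, ?_⟩
      have e2 : g ^ (2 * (n + 1) + 1) = g * g ^ (2 * (n + 1)) := by
        rw [pow_succ']
      rw [e2]
      calc g * g ^ (2 * (n + 1)) * z * (g * g ^ (2 * (n + 1)))⁻¹
          = g * (g ^ (2 * (n + 1)) * z * (g ^ (2 * (n + 1)))⁻¹) * g⁻¹ := by group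
        _ = g * z * g⁻¹ := by rw [h1]
        _ = z * w := h
  have hNz : ∀ g ∈ Subgroup.normalizer ((S : Subgroup G) : Set G), g * z * g⁻¹ = z := by
    intro g hg
    obtain ⟨a, b, hab, -, ⟨k, hk⟩, hb, ha, hbz⟩ := Cfsg.Agent.Lib.Transfer.exists_parts Nat.prime_two g
    have hzle : Subgroup.zpowers g ≤ Subgroup.normalizer ((S : Subgroup G) : Set G) :=
      Subgroup.zpowers_le.mpr hg
    have haN := hzle ha
    have hbN := hzle hbz
    -- `a ∈ S`
    have haS : a ∈ (S : Subgroup G) := by
      have hzp : IsPGroup 2 (Subgroup.zpowers a) := by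
        rintro ⟨y, hy⟩
        obtain ⟨n, rfl⟩ := Subgroup.mem_zpowers_iff.mp hy
        refine ⟨k, Subtype.ext ?_⟩
        show (a ^ n) ^ 2 ^ k = 1
        rw [← zpow_natCast, ← zpow_mul, mul_comm, zpow_mul, zpow_natCast, hk, one_zpow]
      have h1 : Subgroup.zpowers a ≤ Subgroup.normalizer ((S : Subgroup G) : Set G) :=
        Subgroup.zpowers_le.mpr haN
      have h2 : IsPGroup 2 ↥((S : Subgroup G) ⊔ Subgroup.zpowers a) :=
        IsPGroup.to_sup_of_normal_left' S.2 hzp h1
      have h3 := S.is_maximal' h2 le_sup_left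
      rw [← h3]
      exact Subgroup.mem_sup_right (Subgroup.mem_zpowers a)
    -- `b` fixes `z`
    have hbfix : b * z * b⁻¹ = z := by
      rcases hzcases b hbN with h | h
      · exact h
      · exfalso
        have hodd : Odd (orderOf b) := by
          rw [Nat.odd_iff, ← Nat.not_even_iff, even_iff_two_dvd]
          exact (Nat.Coprime.symm hb |> (Nat.Prime.coprime_iff_not_dvd Nat.prime_two).mp)
        obtain ⟨n, hn⟩ := hodd
        have h1 := (hpow b hbN h n).2
        rw [← hn, pow_orderOf_eq_one] at h1
        have h2 : z = z * w := by simpa using h1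
        have h3 : w = 1 := by
          have := mul_left_cancel (a := z) (b := 1) (c := w) (by rw [mul_one]; exact h2)
          exact this.symm
        exact hw1 (Subtype.ext h3)
    have hazc := congrArg Subtype.val (hzcent ⟨a, haS⟩)
    have hazc' : a * z = z * a := hazc
    rw [hab]
    calc a * b * z * (a * b)⁻¹ = a * (b * z * b⁻¹) * a⁻¹ := by group
      _ = a * z * a⁻¹ := by rw [hbfix]
      _ = z * a * a⁻¹ := by rw [hazc']
      _ = z := by group
  -- the index two subgroup of `S`
  set f : ↥(S : Subgroup G) →* Multiplicative (ZMod 2) := (MonoidHom.fst _ _).comp e.toMonoidHom with hf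
  have hfsurj : Function.Surjective f := by
    intro x
    exact ⟨e.symm (x, 1), by simp [hf]⟩
  have hfi : f.ker.index = 2 := by
    rw [Subgroup.index_ker, MonoidHom.range_eq_top.mpr hfsurj]
    simp
  have hzM : (⟨z, zz.2⟩ : ↥(S : Subgroup G)) ∉ f.ker := by
    rw [MonoidHom.mem_ker]
    have : f zz = Multiplicative.ofAdd 1 := by
      show (e zz).1 = _
      rw [ezz]
    intro h
    have h2 : f zz = 1 := h
    rw [this] at h2
    revert h2
    decide
  obtain ⟨τ, hτ⟩ := exists_parity_of_central_involution (S : Subgroup G) S.2 S.not_dvd_index zz.2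
    (fun s hs => congrArg Subtype.val (hzcent ⟨s, hs⟩)) (by
      have := congrArg Subtype.val hzz2
      rw [pow_two]
      exact this) f.ker hfi hzM hNz
  refine ⟨τ.ker, ?_⟩
  rw [Subgroup.index_ker]
  have hrange : τ.range = ⊤ := by
    rw [eq_top_iff]
    intro x _
    rcases hA2 x with rfl | hx
    · exact Subgroup.one_mem _
    · rw [hx]
      rcases hA2 (τ z) with h | h
      · exact absurd h hτ
      · exact ⟨z, h⟩
  rw [hrange]
  simp

end Cfsg.Agent.S2911
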