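import Cfsg.Statements.S2922
import Cfsg.Agent.Lib.FF.CharP2
import Cfsg.Agent.Lib.FF.CharP
import Mathlib

set_option autoImplicit false
open Cfsg

namespace Cfsg.Agent.S2922

open Subgroup Cfsg.Agent.Lib.FF

/-- Let p be a prime, X a finite group, B a p-subgroup of X and C a normal subgroup of B. If N_X(C) has characteristic p (its generalized Fitting subgroup is O_p(N_X(C))), then N_X(B) and C_X(B) have characteristic p. -/
theorem result {X : Type*} [Group X] [Finite X] {p : ℕ} [Fact p.Prime] (B C : Subgroup X) (hB : IsPGroup p ↥B) (hCB : C ≤ B) (hCn : (C.subgroupOf B).Normal) (hC : Cfsg.generalizedFittingSubgroup ↥(Subgroup.normalizer (C : Set X)) = Cfsg.pCore p ↥(Subgroup.normalizer (C : Set X))) : Cfsg.generalizedFittingSubgroup ↥(Subgroup.normalizer (B : Set X)) = Cfsg.pCore p ↥(Subgroup.normalizer (B : Set X)) ∧ Cfsg.generalizedFittingSubgroup ↥(Subgroup.centralizer (B : Set X)) = Cfsg.pCore p ↥(Subgroup.centralizer (B : Set X)) := by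
  classical
  have hBX : B ≤ normalizer (C : Set X) := by
    intro b hb
    rw [Subgroup.mem_normalizer_iff]
    intro h
    constructor
    · intro hh
      have h1 : (⟨h, hCB hh⟩ : ↥B) ∈ C.subgroupOf B := by
        rw [Subgroup.mem_subgroupOf]; exact hh
      have h2 := hCn.conj_mem _ h1 ⟨b, hb⟩
      rw [Subgroup.mem_subgroupOf] at h2
      exact h2
    · intro hh
      have hhB : b * h * b⁻¹ ∈ B := hCB hh
      have h1 : (⟨b * h * b⁻¹, hhB⟩ : ↥B) ∈ C.subgroupOf B := by
        rw [Subgroup.mem_subgroupOf]; exact hh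
      have h2 := hCn.conj_mem _ h1 ⟨b⁻¹, B.inv_mem hb⟩
      rw [Subgroup.mem_subgroupOf] at h2
      have e : (b⁻¹ * (b * h * b⁻¹) * b⁻¹⁻¹) = h := by group
      have h3 : b⁻¹ * (b * h * b⁻¹) * b⁻¹⁻¹ ∈ C := h2
      rwa [e] at h3
  have hCC : centralizer (C : Set X) ≤ normalizer (C : Set X) := by
    intro x hx
    rw [Subgroup.mem_normalizer_iff]
    intro h
    have hxc : ∀ h ∈ C, h * x = x * h := fun h hh => (Subgroup.mem_centralizer_iff.mp hx) h hh
    constructor
    · intro hh
      have e : x * h * x⁻¹ = h := by rw [← hxc h hh]; group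
      rwa [e]
    · intro hh
      have h3 := hxc _ hh
      have e : x * h * x⁻¹ = h := by
        have : x * h * x⁻¹ * x = x * (x * h * x⁻¹) := h3
        have h4 : x * h = x * (x * h * x⁻¹) := by
          calc x * h = x * h * x⁻¹ * x := by group
            _ = _ := this
        exact (mul_left_cancel h4).symm
      rwa [e] at hh
  have h1 := gen_normalizer_of_le' hC hB hBX hCB hCC
  refine ⟨h1, ?_⟩
  have hCN : centralizer (B : Set X) ≤ normalizer (B : Set X) := by
    intro x hx
    rw [Subgroup.mem_normalizer_iff]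
    intro h
    have hxc : ∀ h ∈ B, h * x = x * h := fun h hh => (Subgroup.mem_centralizer_iff.mp hx) h hh
    constructor
    · intro hh
      have e : x * h * x⁻¹ = h := by rw [← hxc h hh]; group
      rwa [e]
    · intro hh
      have h3 := hxc _ hh
      have e : x * h * x⁻¹ = h := by
        have : x * h * x⁻¹ * x = x * (x * h * x⁻¹) := h3
        have h4 : x * h = x * (x * h * x⁻¹) := by
          calc x * h = x * h * x⁻¹ * x := by group
            _ = _ := this
        exact (mul_left_cancel h4).symm
      rwa [e] at hh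
  have hn : ((centralizer (B : Set X)).subgroupOf (normalizer (B : Set X))).Normal := by
    constructor
    intro a ha n
    rw [Subgroup.mem_subgroupOf] at ha ⊢
    exact (Subgroup.mem_normalizer_iff.mp (normalizer_le_normalizer_centralizer B n.2) a).mp ha
  have h2 := gen_eq_of_subnormal h1 hn.isSubnormal
  exact gen_eq_of_mulEquiv (Subgroup.subgroupOfEquivOfLe hCN) h2

end Cfsg.Agent.S2922
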