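import Cfsg.Statements.S2925
import Cfsg.Agent.Lib.FF.SubnormalSylow
import Cfsg.Agent.Lib.FStar.Basic
import Mathlib

set_option autoImplicit false
open Cfsg

namespace Cfsg.Agent.S2925

open Subgroup Cfsg.Agent.Lib.FF
open scoped commutatorElement

/-- Let K be a component of the finite group X and T a Sylow 2-subgroup of X. If some abelian normal subgroup Y of T does not normalize K, then K ⧸ Z(K) has abelian Sylow 2-subgroups. -/
theorem result {X : Type*} [Group X] [Finite X] (K : Subgroup X) (hK : Cfsg.IsComponent K) (T : Sylow 2 X) (Y : Subgroup X) (hYT : Y ≤ (T : Subgroup X)) (hYn : (Y.subgroupOf (T : Subgroup X)).Normal) (hYab : IsMulCommutative ↥Y) (hnot : ¬ Y ≤ Subgroup.normalizer (K : Set X)) (P : Sylow 2 (↥K ⧸ Subgroup.center ↥K)) : IsMulCommutative ↥(P : Subgroup (↥K ⧸ Subgroup.center ↥K)) := by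
  classical
  obtain ⟨y, hyY, hyN⟩ := SetLike.not_le_iff_exists.mp hnot
  set K' := K.map (MulAut.conj y).toMonoidHom with hK'
  have hK'c : Cfsg.IsComponent K' := Cfsg.Agent.Lib.FStar.component_map_conj y hK
  have hne : K ≠ K' := by
    intro h
    apply hyN
    rw [mem_normalizer_iff_conj]
    exact h.symm
  have hcomm := Cfsg.Agent.Lib.FStar.component_commute hK hK'c hne
  have hcomm' : ∀ k ∈ K, ∀ k' ∈ K', k * k' = k' * k := by
    intro k hk k' hk'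
    have h1 : ⁅k, k'⁆ ∈ ⁅K, K'⁆ := Subgroup.commutator_mem_commutator hk hk'
    rw [hcomm, Subgroup.mem_bot, commutatorElement_eq_one_iff_mul_comm] at h1
    exact h1
  have hyT : y ∈ (T : Subgroup X) := hYT hyY
  have hYc : ∀ a ∈ Y, ∀ b ∈ Y, a * b = b * a := by
    intro a ha b hb
    exact congrArg Subtype.val (hYab.is_comm.comm ⟨a, ha⟩ ⟨b, hb⟩)
  have hw : ∀ t ∈ (T : Subgroup X), t * (y * t⁻¹ * y⁻¹) ∈ Y := by
    intro t ht
    have h1 : (⟨y, hyT⟩ : ↥(T : Subgroup X)) ∈ Y.subgroupOf (T : Subgroup X) := by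
      rw [Subgroup.mem_subgroupOf]; exact hyY
    have h2 := hYn.conj_mem _ h1 ⟨t, ht⟩
    rw [Subgroup.mem_subgroupOf] at h2
    have h3 : t * y * t⁻¹ ∈ Y := h2
    have e : t * (y * t⁻¹ * y⁻¹) = (t * y * t⁻¹) * y⁻¹ := by group
    rw [e]
    exact Y.mul_mem h3 (Y.inv_mem hyY)
  have hs : ∀ t ∈ K, y * t⁻¹ * y⁻¹ ∈ K' := by
    intro t ht
    exact ⟨t⁻¹, K.inv_mem ht, rfl⟩
  -- the key computation
  have hkey : ∀ a ∈ (T : Subgroup X) ⊓ K, ∀ b ∈ (T : Subgroup X) ⊓ K,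
      (b * a)⁻¹ * (a * b) ∈ K ∧ (b * a)⁻¹ * (a * b) ∈ K' := by
    intro a ha b hb
    refine ⟨K.mul_mem (K.inv_mem (K.mul_mem hb.2 ha.2)) (K.mul_mem ha.2 hb.2), ?_⟩
    set s₁ := y * a⁻¹ * y⁻¹ with hs₁
    set s₂ := y * b⁻¹ * y⁻¹ with hs₂
    have hs₁K : s₁ ∈ K' := hs a ha.2
    have hs₂K : s₂ ∈ K' := hs b hb.2
    have h1 := hYc _ (hw a ha.1) _ (hw b hb.1)
    rw [← hs₁, ← hs₂] at h1
    have c1 : s₁ * b = b * s₁ := (hcomm' b hb.2 s₁ hs₁K).symm
    have c2 : s₂ * a = a * s₂ := (hcomm' a ha.2 s₂ hs₂K).symm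
    have h2 : a * b * (s₁ * s₂) = b * a * (s₂ * s₁) := by
      calc a * b * (s₁ * s₂) = a * (b * s₁) * s₂ := by group
        _ = a * (s₁ * b) * s₂ := by rw [c1]
        _ = a * s₁ * (b * s₂) := by group
        _ = b * s₂ * (a * s₁) := h1
        _ = b * (s₂ * a) * s₁ := by group
        _ = b * (a * s₂) * s₁ := by rw [c2]
        _ = _ := by group
    have h3 : (b * a)⁻¹ * (a * b) = (s₂ * s₁) * (s₁ * s₂)⁻¹ := by
      calc (b * a)⁻¹ * (a * b) = (b * a)⁻¹ * (a * b * (s₁ * s₂)) * (s₁ * s₂)⁻¹ := by group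
        _ = (b * a)⁻¹ * (b * a * (s₂ * s₁)) * (s₁ * s₂)⁻¹ := by rw [h2]
        _ = _ := by group
    rw [h3]
    exact K'.mul_mem (K'.mul_mem hs₂K hs₁K) (K'.inv_mem (K'.mul_mem hs₁K hs₂K))
  -- Sylow subgroups
  have hTsyl : IsSylowIn 2 (T : Subgroup X) ⊤ := isSylowIn_of_sylow_le T le_top
  have hSyl : IsSylowIn 2 ((T : Subgroup X) ⊓ K) K := isSylowIn_inf_subnormal hTsyl hK.1
  let φ : ↥K →* (↥K ⧸ Subgroup.center ↥K) := QuotientGroup.mk' (Subgroup.center ↥K)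
  have hφ : Function.Surjective φ := QuotientGroup.mk'_surjective _
  let R₀ : Sylow 2 (↥K ⧸ Subgroup.center ↥K) := hSyl.toSylow.mapSurjective hφ
  have hR₀ : ∀ u ∈ (R₀ : Subgroup (↥K ⧸ Subgroup.center ↥K)), ∀ v ∈ (R₀ : Subgroup (↥K ⧸ Subgroup.center ↥K)),
      u * v = v * u := by
    rintro _ ⟨a, ha, rfl⟩ _ ⟨b, hb, rfl⟩
    have ha' : (a : X) ∈ (T : Subgroup X) ⊓ K := by
      have h : a ∈ (((T : Subgroup X) ⊓ K).subgroupOf K) := by
        have := ha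
        rwa [IsSylowIn.coe_toSylow] at this
      exact Subgroup.mem_subgroupOf.mp h
    have hb' : (b : X) ∈ (T : Subgroup X) ⊓ K := by
      have h : b ∈ (((T : Subgroup X) ⊓ K).subgroupOf K) := by
        have := hb
        rwa [IsSylowIn.coe_toSylow] at this
      exact Subgroup.mem_subgroupOf.mp h
    obtain ⟨h1, h2⟩ := hkey a ha' b hb'
    show φ a * φ b = φ b * φ a
    rw [← map_mul, ← map_mul]
    have h3 : (b * a)⁻¹ * (a * b) ∈ Subgroup.center ↥K := by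
      rw [Subgroup.mem_center_iff]
      intro k
      apply Subtype.ext
      exact hcomm' k k.2 _ h2
    exact ((QuotientGroup.eq (s := Subgroup.center ↥K)).mpr h3).symm
  obtain ⟨g, hg⟩ := MulAction.exists_smul_eq (↥K ⧸ Subgroup.center ↥K) R₀ P
  refine ⟨⟨fun u v => Subtype.ext ?_⟩⟩
  have hu : (u : ↥K ⧸ Subgroup.center ↥K) ∈ ((g • R₀ : Sylow 2 (↥K ⧸ Subgroup.center ↥K)) : Subgroup (↥K ⧸ Subgroup.center ↥K)) := by
    rw [hg]; exact u.2
  have hv : (v : ↥K ⧸ Subgroup.center ↥K) ∈ ((g • R₀ : Sylow 2 (↥K ⧸ Subgroup.center ↥K)) : Subgroup (↥K ⧸ Subgroup.center ↥K)) := by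
    rw [hg]; exact v.2
  rw [coe_smul_sylow] at hu hv
  obtain ⟨a, ha, ea⟩ := hu
  obtain ⟨b, hb, eb⟩ := hv
  have e : (u : ↥K ⧸ Subgroup.center ↥K) * v = v * u := by
    rw [← ea, ← eb]
    have := hR₀ a ha b hb
    simp only [MulEquiv.toMonoidHom_eq_coe, MonoidHom.coe_coe, MulAut.conj_apply]
    calc g * a * g⁻¹ * (g * b * g⁻¹) = g * (a * b) * g⁻¹ := by group
      _ = g * (b * a) * g⁻¹ := by rw [this]
      _ = _ := by group
  exact e

end Cfsg.Agent.S2925
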