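import Cfsg.Statements.S2931
import Mathlib
import Cfsg.Agent.Lib.PiwekK.GraphHom2
import Cfsg.Agent.Lib.PiwekK.SL2
import Cfsg.Agent.Lib.Classical.RingCongr
import Cfsg.Agent.Lib.Classical.OrderMinus
import Cfsg.Agent.Lib.Classical.SpCenter
import Cfsg.Agent.S0245

set_option autoImplicit false
open Cfsg

namespace Cfsg.Agent.S2931

set_option maxRecDepth 1000000

abbrev R3 := ZMod 3
abbrev R2 := ZMod 2
abbrev I4 := Fin 2 ⊕ Fin 2
abbrev I6 := (Fin 2 ⊕ Fin 2) ⊕ Fin 2

def ix4 : I4 → ℕ := Sum.elim (fun i => i.val) (fun i => Nat.add i.val 2)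
def ix6 : I6 → ℕ := Sum.elim ix4 (fun i => Nat.add i.val 4)
def mat4 (L : List (List ℕ)) : Matrix I4 I4 R3 := fun i j => (((L.getD (ix4 i) []).getD (ix4 j) 0 : ℕ) : R3)
def mat6 (L : List (List ℕ)) : Matrix I6 I6 R2 := fun i j => (((L.getD (ix6 i) []).getD (ix6 j) 0 : ℕ) : R2)
def V4 (n : ℕ) : I4 → R3 := fun r => ((Nat.mod (Nat.div n (Nat.pow 3 (ix4 r))) 3 : ℕ) : R3)
def V6 (n : ℕ) : I6 → R2 := fun r => ((Nat.mod (Nat.div n (Nat.pow 2 (ix6 r))) 2 : ℕ) : R2)
def S4 : Fin 81 → I4 → R3 := fun i => V4 i.val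
def S6 : Fin 64 → I6 → R2 := fun i => V6 i.val

def LA0 : List (List ℕ) := [[1, 0, 0, 0], [0, 2, 0, 0], [0, 2, 1, 0], [1, 0, 0, 2]]
def LA1 : List (List ℕ) := [[0, 0, 0, 1], [2, 0, 2, 1], [1, 2, 2, 0], [1, 0, 0, 1]]
def LA2 : List (List ℕ) := [[2, 0, 2, 2], [1, 0, 1, 0], [2, 1, 2, 1], [1, 1, 2, 2]]
def LA3 : List (List ℕ) := [[2, 0, 0, 0], [0, 2, 0, 0], [0, 0, 2, 0], [0, 0, 0, 2]]
def LB0 : List (List ℕ) := [[0, 0, 1, 1, 0, 0], [1, 1, 1, 0, 1, 1], [1, 0, 0, 1, 0, 0], [0, 0, 0, 1, 0, 0], [0, 0, 0, 1, 0, 1], [0, 0, 0, 1, 1, 0]]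
def LB1 : List (List ℕ) := [[1, 0, 0, 0, 0, 0], [0, 1, 0, 0, 0, 0], [1, 0, 1, 0, 1, 0], [0, 0, 0, 1, 0, 0], [0, 0, 0, 0, 1, 0], [1, 0, 0, 0, 1, 1]]
def LB2 : List (List ℕ) := [[0, 0, 1, 0, 0, 0], [0, 1, 0, 0, 0, 0], [1, 0, 0, 0, 0, 0], [0, 1, 0, 1, 1, 1], [0, 1, 0, 0, 0, 1], [0, 1, 0, 0, 1, 0]]
def ps1 : List (ℕ × ℕ) := [(33717943548805784576135767350364709301220609441772087838282432876276555740908528114368465166394474058652111404753170810471419694022212531366524333220679007914727064984257495066457877924686132012317388744128842282409860130162751231789228912640, 4728137853490852528129), (273441156495881795016446874807095465334020112812723828744745585165088286925972781851671693318363723478672224385326049294033681686881941064182815349815002741653235238027242413679532081872151543106913623751409864936733793505410648587822871652352, 4728138978291247744000), (20421131699667510353467093984013450154328435163348160044147541634487639623001831061407413516543404260981194086123094674699324198213915572275256814095230492542925837125059845335587873646817773997427611550339136450507121503200436041781958723584,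 2364642007052454991879), (266987806634573485865190314580676449733563396990187043475336503646562637064710478294788970154152147773755832570332765347062908167942389680228188595379625818372096597486897858825255216920625249447478895310471611831627774511952523047159869736960, 8271064507950324253696)]
def ps2 : List (ℕ × ℕ) := [(44607331196673897645875639085371698665302882055654186190990954809108489828952898676177325719622791013130152039171218278544636778537410722113320850527530732029897579917502709979730629944678400, 8271064507950324252673), (280810417624274625595784645459271617580064165711832873859619052118852682104004604714298097007182248443830403004473266983340683721628960507115200939114243970108745043791864465238675815116346368, 8271064507948174674946), (31201871588725393718650946304074595228772992924441364205005306635123318534375376027224519679233802775691468248817511047979931355829982843940648818934819737025476825876472031755750383368015872,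 3544081831068876936196)]

theorem hS4 : ∀ i j : Fin 81, S4 i = S4 j → i = j := by decide +kernel
theorem hS6 : ∀ i j : Fin 64, S6 i = S6 j → i = j := by decide +kernel
theorem hb4 : ∀ j : I4, ∃ i : Fin 81, S4 i = Pi.single j 1 := by decide +kernel
theorem hb6 : ∀ j : I6, ∃ i : Fin 64, S6 i = Pi.single j 1 := by decide +kernel

open Cfsg.Agent.Lib.PiwekK Matrix in
theorem act4 {L : List (List ℕ)} {c : ℕ} (h : ∀ i : Fin 81, mat4 L *ᵥ S4 i = V4 (dig c i.val)) (hv : validB 81 c = true) :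
    ∀ i : Fin 81, mat4 L *ᵥ S4 i = S4 (permOf 81 c i) := by
  intro i
  rw [h]
  show _ = V4 ((permOf 81 c i : Fin 81) : ℕ)
  rw [dig_permOf hv (by norm_num)]

open Cfsg.Agent.Lib.PiwekK Matrix in
theorem act6 {L : List (List ℕ)} {c : ℕ} (h : ∀ i : Fin 64, mat6 L *ᵥ S6 i = V6 (dig c i.val)) (hv : validB 64 c = true) :
    ∀ i : Fin 64, mat6 L *ᵥ S6 i = S6 (permOf 64 c i) := by
  intro i
  rw [h]
  show _ = V6 ((permOf 64 c i : Fin 64) : ℕ)
  rw [dig_permOf hv (by norm_num)]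

open Cfsg.Agent.Lib.PiwekK Matrix in
theorem hA0 : ∀ i : Fin 81, mat4 LA0 *ᵥ S4 i = S4 (permOf 81 (ps1.getD 0 (0, 0)).1 i) :=
  act4 (by decide +kernel) (by decide +kernel)
theorem hmA0 : mat4 LA0 ∈ Matrix.symplecticGroup (Fin 2) R3 := by
  rw [SymplecticGroup.mem_iff]
  decide +kernel
open Cfsg.Agent.Lib.PiwekK Matrix in
theorem hA1 : ∀ i : Fin 81, mat4 LA1 *ᵥ S4 i = S4 (permOf 81 (ps1.getD 1 (0, 0)).1 i) :=
  act4 (by decide +kernel) (by decide +kernel)
theorem hmA1 : mat4 LA1 ∈ Matrix.symplecticGroup (Fin 2) R3 := by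
  rw [SymplecticGroup.mem_iff]
  decide +kernel
open Cfsg.Agent.Lib.PiwekK Matrix in
theorem hA2 : ∀ i : Fin 81, mat4 LA2 *ᵥ S4 i = S4 (permOf 81 (ps1.getD 2 (0, 0)).1 i) :=
  act4 (by decide +kernel) (by decide +kernel)
theorem hmA2 : mat4 LA2 ∈ Matrix.symplecticGroup (Fin 2) R3 := by
  rw [SymplecticGroup.mem_iff]
  decide +kernel
open Cfsg.Agent.Lib.PiwekK Matrix in
theorem hA3 : ∀ i : Fin 81, mat4 LA3 *ᵥ S4 i = S4 (permOf 81 (ps1.getD 3 (0, 0)).1 i) :=
  act4 (by decide +kernel) (by decide +kernel)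
theorem hmA3 : mat4 LA3 ∈ Matrix.symplecticGroup (Fin 2) R3 := by
  rw [SymplecticGroup.mem_iff]
  decide +kernel
open Cfsg.Agent.Lib.PiwekK Matrix in
theorem hB0 : ∀ i : Fin 64, mat6 LB0 *ᵥ S6 i = S6 (permOf 64 (ps2.getD 0 (0, 0)).1 i) :=
  act6 (by decide +kernel) (by decide +kernel)
def GB0 : GL I6 R2 := ⟨mat6 LB0, mat6 LB0, by decide +kernel, by decide +kernel⟩
open Matrix in
theorem hmB0 : GB0 ∈ Cfsg.isometryGroup R2 (Cfsg.quadFormMinus 2 R2 1 1) := by
  show ∀ u _v : I6 → R2, Cfsg.quadFormMinus 2 R2 1 1 (mat6 LB0 *ᵥ u) = Cfsg.quadFormMinus 2 R2 1 1 u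
  intro u _
  revert u
  decide +kernel
open Cfsg.Agent.Lib.PiwekK Matrix in
theorem hB1 : ∀ i : Fin 64, mat6 LB1 *ᵥ S6 i = S6 (permOf 64 (ps2.getD 1 (0, 0)).1 i) :=
  act6 (by decide +kernel) (by decide +kernel)
def GB1 : GL I6 R2 := ⟨mat6 LB1, mat6 LB1, by decide +kernel, by decide +kernel⟩
open Matrix in
theorem hmB1 : GB1 ∈ Cfsg.isometryGroup R2 (Cfsg.quadFormMinus 2 R2 1 1) := by
  show ∀ u _v : I6 → R2, Cfsg.quadFormMinus 2 R2 1 1 (mat6 LB1 *ᵥ u) = Cfsg.quadFormMinus 2 R2 1 1 u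
  intro u _
  revert u
  decide +kernel
open Cfsg.Agent.Lib.PiwekK Matrix in
theorem hB2 : ∀ i : Fin 64, mat6 LB2 *ᵥ S6 i = S6 (permOf 64 (ps2.getD 2 (0, 0)).1 i) :=
  act6 (by decide +kernel) (by decide +kernel)
def GB2 : GL I6 R2 := ⟨mat6 LB2, mat6 LB2, by decide +kernel, by decide +kernel⟩
open Matrix in
theorem hmB2 : GB2 ∈ Cfsg.isometryGroup R2 (Cfsg.quadFormMinus 2 R2 1 1) := by
  show ∀ u _v : I6 → R2, Cfsg.quadFormMinus 2 R2 1 1 (mat6 LB2 *ᵥ u) = Cfsg.quadFormMinus 2 R2 1 1 u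
  intro u _
  revert u
  decide +kernel
open Cfsg.Agent.Lib.PiwekK in
theorem hsign0 : permOf 8 (ps1.getD 0 (0, 0)).2 ∈ alternatingGroup (Fin 8) := by
  have e : permOf 8 (ps1.getD 0 (0, 0)).2 = Equiv.swap (0 : Fin 8) 1 * Equiv.swap (2 : Fin 8) 3 * Equiv.swap (4 : Fin 8) 7 * Equiv.swap (5 : Fin 8) 6 := by
    apply Equiv.ext
    intro j
    apply Fin.ext
    rw [dig_permOf (by decide +kernel) (by norm_num)]
    revert j
    decide +kernel
  rw [e, Equiv.Perm.mem_alternatingGroup]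
  decide +kernel

open Cfsg.Agent.Lib.PiwekK in
theorem hsign1 : permOf 8 (ps1.getD 1 (0, 0)).2 ∈ alternatingGroup (Fin 8) := by
  have e : permOf 8 (ps1.getD 1 (0, 0)).2 = Equiv.swap (2 : Fin 8) 3 * Equiv.swap (4 : Fin 8) 6 * Equiv.swap (6 : Fin 8) 5 * Equiv.swap (5 : Fin 8) 7 := by
    apply Equiv.ext
    intro j
    apply Fin.ext
    rw [dig_permOf (by decide +kernel) (by norm_num)]
    revert j
    decide +kernel
  rw [e, Equiv.Perm.mem_alternatingGroup]
  decide +kernel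

open Cfsg.Agent.Lib.PiwekK in
theorem hsign2 : permOf 8 (ps1.getD 2 (0, 0)).2 ∈ alternatingGroup (Fin 8) := by
  have e : permOf 8 (ps1.getD 2 (0, 0)).2 = Equiv.swap (0 : Fin 8) 7 * Equiv.swap (7 : Fin 8) 2 * Equiv.swap (2 : Fin 8) 5 * Equiv.swap (1 : Fin 8) 6 * Equiv.swap (6 : Fin 8) 3 * Equiv.swap (3 : Fin 8) 4 := by
    apply Equiv.ext
    intro j
    apply Fin.ext
    rw [dig_permOf (by decide +kernel) (by norm_num)]
    revert j
    decide +kernel
  rw [e, Equiv.Perm.mem_alternatingGroup]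
  decide +kernel

open Cfsg.Agent.Lib.PiwekK in
theorem hsign3 : permOf 8 (ps1.getD 3 (0, 0)).2 ∈ alternatingGroup (Fin 8) := by
  have e : permOf 8 (ps1.getD 3 (0, 0)).2 = (1 : Equiv.Perm (Fin 8)) := by
    apply Equiv.ext
    intro j
    apply Fin.ext
    rw [dig_permOf (by decide +kernel) (by norm_num)]
    revert j
    decide +kernel
  rw [e, Equiv.Perm.mem_alternatingGroup]
  decide +kernel


open Cfsg.Agent.Lib.PiwekK in
theorem hG1 : checkGraphH 81 8 ps1 128 = true := by decide +kernel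
open Cfsg.Agent.Lib.PiwekK in
theorem hC1 : checkC 8 (ps1.map Prod.snd) 64 = true := by decide +kernel
open Cfsg.Agent.Lib.PiwekK in
theorem hG2 : checkGraph 64 8 ps2 128 = true := by decide +kernel

abbrev Sp3 := Matrix.symplecticGroup (Fin 2) R3
def s0 : Sp3 := ⟨mat4 LA0, hmA0⟩
def s1 : Sp3 := ⟨mat4 LA1, hmA1⟩
def s2 : Sp3 := ⟨mat4 LA2, hmA2⟩
def s3 : Sp3 := ⟨mat4 LA3, hmA3⟩
def iota : Sp3 →* GL I4 R3 := (Matrix.symplecticGroup (Fin 2) R3).subtype.toHomUnits
theorem iota_inj : Function.Injective iota := fun x y h =>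
  Subtype.ext (congrArg (fun g : GL I4 R3 => (g : Matrix I4 I4 R3)) h)
abbrev TT : Subgroup Sp3 := Subgroup.closure ({s0, s1, s2, s3} : Set Sp3)

theorem hLA3 : mat4 LA3 = -1 := by decide +kernel
theorem hLA3' : mat4 LA3 ≠ 1 := by decide +kernel

open Cfsg.Agent.Lib.PiwekK Matrix in
theorem exists_f : ∃ f : TT →* grp 8 (ps1.map Prod.snd), Function.Surjective f ∧
    f ⟨s3, Subgroup.subset_closure (by simp)⟩ = 1 := by
  obtain ⟨f, hf, hval⟩ := graph_hom_val hG1
  let G₀ : Set (GL I4 R3) := iota '' ({s0, s1, s2, s3} : Set Sp3)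
  obtain ⟨e₂, he₂⟩ := closure_equiv_grp_val (ι := I4) (R := R3) (m := 81) (by norm_num) G₀ (ps1.map Prod.fst) S4 hS4
    (Cfsg.Agent.Lib.PiwekK.span_of_basis hb4) (by
      rintro g ⟨s, (rfl | rfl | rfl | rfl), rfl⟩
      · exact ⟨_, by decide +kernel, hA0⟩
      · exact ⟨_, by decide +kernel, hA1⟩
      · exact ⟨_, by decide +kernel, hA2⟩
      · exact ⟨_, by decide +kernel, hA3⟩) (by
      intro c hc
      have hc' : c = (ps1.getD 0 (0, 0)).1 ∨ c = (ps1.getD 1 (0, 0)).1 ∨ c = (ps1.getD 2 (0, 0)).1 ∨ c = (ps1.getD 3 (0, 0)).1 := by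
        revert c
        decide +kernel
      rcases hc' with rfl | rfl | rfl | rfl
      · exact ⟨iota s0, ⟨s0, by simp, rfl⟩, hA0⟩
      · exact ⟨iota s1, ⟨s1, by simp, rfl⟩, hA1⟩
      · exact ⟨iota s2, ⟨s2, by simp, rfl⟩, hA2⟩
      · exact ⟨iota s3, ⟨s3, by simp, rfl⟩, hA3⟩)
  have hmap : TT.map iota = Subgroup.closure G₀ := by
    rw [MonoidHom.map_closure]
  let e₀ : TT ≃* TT.map iota := TT.equivMapOfInjective iota iota_inj
  let e₁ : TT.map iota ≃* Subgroup.closure G₀ := MulEquiv.subgroupCongr hmap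
  refine ⟨f.comp (e₀.trans (e₁.trans e₂)).toMonoidHom, hf.comp (e₀.trans (e₁.trans e₂)).surjective, ?_⟩
  have hp : (ps1.getD 3 (0, 0)) ∈ ps1 := by decide +kernel
  have hmem : permOf 81 (ps1.getD 3 (0, 0)).1 ∈ grp 81 (ps1.map Prod.fst) :=
    permOf_mem_grp (List.mem_map.mpr ⟨_, hp, rfl⟩)
  have h1 := hval _ hp hmem
  have hid : permOf 8 (ps1.getD 3 (0, 0)).2 = 1 := by
    have h2 : code (permOf 8 (ps1.getD 3 (0, 0)).2) = code (1 : Equiv.Perm (Fin 8)) := by
      rw [code_permOf (by decide +kernel), code_one]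
      decide +kernel
    exact code_injective (by norm_num) h2
  rw [hid] at h1
  let z : TT := ⟨s3, Subgroup.subset_closure (by simp)⟩
  have h3 : e₂ (e₁ (e₀ z)) = ⟨permOf 81 (ps1.getD 3 (0, 0)).1, hmem⟩ := by
    apply Subtype.ext
    apply Equiv.ext
    intro i
    apply hS4
    rw [← he₂ (e₁ (e₀ z)) i]
    exact hA3 i
  apply Subtype.ext
  show ((f (e₂ (e₁ (e₀ z))) : grp 8 (ps1.map Prod.snd)) : Equiv.Perm (Fin 8)) = 1
  rw [h3]
  exact h1

open Cfsg.Agent.Lib.PiwekK in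
theorem card_TT : Nat.card TT = 128 := by
  obtain ⟨⟨f, -⟩, h⟩ := graph_hom hG1
  let G₀ : Set (GL I4 R3) := iota '' ({s0, s1, s2, s3} : Set Sp3)
  obtain ⟨e₂, -⟩ := closure_equiv_grp_val (ι := I4) (R := R3) (m := 81) (by norm_num) G₀ (ps1.map Prod.fst) S4 hS4
    (Cfsg.Agent.Lib.PiwekK.span_of_basis hb4) (by
      rintro g ⟨s, (rfl | rfl | rfl | rfl), rfl⟩
      · exact ⟨_, by decide +kernel, hA0⟩
      · exact ⟨_, by decide +kernel, hA1⟩
      · exact ⟨_, by decide +kernel, hA2⟩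
      · exact ⟨_, by decide +kernel, hA3⟩) (by
      intro c hc
      have hc' : c = (ps1.getD 0 (0, 0)).1 ∨ c = (ps1.getD 1 (0, 0)).1 ∨ c = (ps1.getD 2 (0, 0)).1 ∨ c = (ps1.getD 3 (0, 0)).1 := by
        revert c
        decide +kernel
      rcases hc' with rfl | rfl | rfl | rfl
      · exact ⟨iota s0, ⟨s0, by simp, rfl⟩, hA0⟩
      · exact ⟨iota s1, ⟨s1, by simp, rfl⟩, hA1⟩
      · exact ⟨iota s2, ⟨s2, by simp, rfl⟩, hA2⟩
      · exact ⟨iota s3, ⟨s3, by simp, rfl⟩, hA3⟩)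
  have hmap : TT.map iota = Subgroup.closure G₀ := by
    rw [MonoidHom.map_closure]
  let e₀ : TT ≃* TT.map iota := TT.equivMapOfInjective iota iota_inj
  let e₁ : TT.map iota ≃* Subgroup.closure G₀ := MulEquiv.subgroupCongr hmap
  rw [Nat.card_congr (e₀.trans (e₁.trans e₂)).toEquiv, h]

theorem card_center3 : Nat.card (Subgroup.center Sp3) = 2 := by
  rw [Cfsg.Agent.Lib.Classical.card_center_sp (by norm_num), ZMod.card]
  norm_num

theorem card_PSp3 : Nat.card (Cfsg.PSp 2 R3) = 25920 := by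
  show Nat.card (Matrix.symplecticGroup (Fin 2) R3 ⧸ Subgroup.center (Matrix.symplecticGroup (Fin 2) R3)) = 25920
  have h1 := Cfsg.Agent.S0245.result (F := R3) (q := 3) (ZMod.card 3) 2
  rw [Subgroup.card_eq_card_quotient_mul_card_subgroup (Subgroup.center (Matrix.symplecticGroup (Fin 2) R3)),
    card_center3] at h1
  simp only [Finset.prod_range_succ, Finset.prod_range_zero] at h1
  norm_num at h1
  omega

open Cfsg.Agent.Lib.PiwekK in
theorem part1 {F : Type} [Field F] [Fintype F] (hF : Fintype.card F = 3) (P : Sylow 2 ↥(alternatingGroup (Fin 8)))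
    (Q : Sylow 2 (Cfsg.PSp 2 F)) : Nonempty (↥(P : Subgroup ↥(alternatingGroup (Fin 8))) ≃* ↥(Q : Subgroup (Cfsg.PSp 2 F))) := by
  have hZ : (s3 : Matrix I4 I4 R3) = -1 := hLA3
  obtain ⟨f, hf, hfz⟩ := exists_f
  have hcK : Nat.card (grp 8 (ps1.map Prod.snd)) = 64 := card_grp hC1
  obtain ⟨e⟩ := map_quot_equiv TT (Subgroup.center Sp3) f hf ⟨s3, Subgroup.subset_closure (by simp)⟩ (by
      rw [Subgroup.mem_center_iff]
      intro g
      apply Subtype.ext
      show g.1 * (s3 : Matrix I4 I4 R3) = (s3 : Matrix I4 I4 R3) * g.1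
      rw [hZ]
      simp) (by
      intro h
      exact hLA3' (congrArg (fun x : TT => ((x : Sp3) : Matrix I4 I4 R3)) h)) hfz card_center3 (by rw [card_TT, hcK])
  -- the field
  let eF : F ≃+* R3 := (ZMod.ringEquivOfPrime F (p := 3) (by norm_num) hF).symm
  let φ : Cfsg.PSp 2 F ≃* Cfsg.PSp 2 R3 :=
    QuotientGroup.congr _ _ (Cfsg.Agent.Lib.Classical.RC.spCongr 2 eF)
      (Cfsg.Agent.Lib.Classical.RC.map_center_eq (Cfsg.Agent.Lib.Classical.RC.spCongr 2 eF))
  have hle : grp 8 (ps1.map Prod.snd) ≤ alternatingGroup (Fin 8) := by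
    refine (Subgroup.closure_le _).2 ?_
    rintro _ ⟨c, hc, rfl⟩
    have hc' : c = (ps1.getD 0 (0, 0)).2 ∨ c = (ps1.getD 1 (0, 0)).2 ∨ c = (ps1.getD 2 (0, 0)).2 ∨ c = (ps1.getD 3 (0, 0)).2 := by
      revert c
      decide +kernel
    rcases hc' with rfl | rfl | rfl | rfl
    · exact hsign0
    · exact hsign1
    · exact hsign2
    · exact hsign3
  have eA : (grp 8 (ps1.map Prod.snd)).subgroupOf (alternatingGroup (Fin 8)) ≃* grp 8 (ps1.map Prod.snd) :=
    Subgroup.subgroupOfEquivOfLe hle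
  refine sylow_equiv_of φ P Q _ (TT.map (QuotientGroup.mk' (Subgroup.center Sp3))) ?_ ?_ (eA.trans e.symm)
  · rw [Nat.card_congr eA.toEquiv, hcK, nat_card_alternatingGroup, Nat.card_fin]
    rw [show (Nat.factorial 8) / 2 = 2 ^ 6 * 315 by decide +kernel, fac2_of (by norm_num)]
    norm_num
  · rw [Nat.card_congr e.toEquiv, hcK]
    show 64 = 2 ^ (Nat.card (Cfsg.PSp 2 R3)).factorization 2
    rw [card_PSp3, show 25920 = 2 ^ 6 * 405 by norm_num, fac2_of (by norm_num)]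
    norm_num

abbrev OO := Cfsg.isometryGroup R2 (Cfsg.quadFormMinus 2 R2 1 1)

open Cfsg.Agent.Lib.Classical.Abs in
theorem card_OO : Nat.card OO = 51840 := by
  rw [card_isometryGroup' (Cfsg.quadFormMinus 2 R2 1 1) (Qminus 2 R2 1 1) (Qminus_apply 2 1 1),
    Qminus_order (by decide +kernel) 2, ZMod.card]
  simp only [Finset.prod_range_succ, Finset.prod_range_zero]
  norm_num

theorem coeffs {a b : R2} (hab : ∀ z₁ z₂ : R2, z₁ ^ 2 + a * z₁ * z₂ + b * z₂ ^ 2 = 0 → z₁ = 0 ∧ z₂ = 0) : a = 1 ∧ b = 1 := by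
  revert a b
  decide +kernel

open Cfsg.Agent.Lib.PiwekK in
theorem part2 {K : Type} [Field K] [Fintype K] (hK : Fintype.card K = 2) (a b : K)
    (hab : ∀ z₁ z₂ : K, z₁ ^ 2 + a * z₁ * z₂ + b * z₂ ^ 2 = 0 → z₁ = 0 ∧ z₂ = 0)
    (P' : Sylow 2 (Equiv.Perm (Fin 8))) (Q' : Sylow 2 ↥(Cfsg.isometryGroup K (Cfsg.quadFormMinus 2 K a b))) :
    Nonempty (↥(P' : Subgroup (Equiv.Perm (Fin 8))) ≃* ↥(Q' : Subgroup ↥(Cfsg.isometryGroup K (Cfsg.quadFormMinus 2 K a b)))) := by
  let eF : K ≃+* R2 := (ZMod.ringEquivOfPrime K (p := 2) (by norm_num) hK).symm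
  have hab' : eF a = 1 ∧ eF b = 1 := by
    apply coeffs
    intro z₁ z₂ hz
    have h1 := hab (eF.symm z₁) (eF.symm z₂) (by
      apply eF.injective
      simp only [map_add, map_mul, map_pow, RingEquiv.apply_symm_apply, map_zero]
      exact hz)
    constructor
    · simpa using h1.1
    · simpa using h1.2
  let φ : Cfsg.isometryGroup K (Cfsg.quadFormMinus 2 K a b) ≃* OO :=
    Cfsg.Agent.Lib.Classical.RC.preservingCongr eF _ _ (by
      intro u _
      simp only [Cfsg.quadFormMinus, Cfsg.Agent.Lib.Classical.RC.vecCongr, map_add, map_mul, map_pow, map_sum, hab'.1, hab'.2])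
  -- the subgroup
  let G₀ : Set (GL I6 R2) := {GB0, GB1, GB2}
  obtain ⟨e₂⟩ := closure_equiv_grp (ι := I6) (R := R2) (m := 64) (by norm_num) G₀ (ps2.map Prod.fst) S6 hS6
    (Cfsg.Agent.Lib.PiwekK.span_of_basis hb6) (by
      rintro g (rfl | rfl | rfl)
      · exact ⟨_, by decide +kernel, hB0⟩
      · exact ⟨_, by decide +kernel, hB1⟩
      · exact ⟨_, by decide +kernel, hB2⟩) (by
      intro c hc
      have hc' : c = (ps2.getD 0 (0, 0)).1 ∨ c = (ps2.getD 1 (0, 0)).1 ∨ c = (ps2.getD 2 (0, 0)).1 := by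
        revert c
        decide +kernel
      rcases hc' with rfl | rfl | rfl
      · exact ⟨GB0, Or.inl rfl, hB0⟩
      · exact ⟨GB1, Or.inr (Or.inl rfl), hB1⟩
      · exact ⟨GB2, Or.inr (Or.inr rfl), hB2⟩)
  obtain ⟨⟨e₃⟩, hn⟩ := graph_iso hG2
  have hle : Subgroup.closure G₀ ≤ OO := by
    refine (Subgroup.closure_le _).2 ?_
    rintro g (rfl | rfl | rfl)
    · exact hmB0
    · exact hmB1
    · exact hmB2
  have eA : (Subgroup.closure G₀).subgroupOf OO ≃* Subgroup.closure G₀ := Subgroup.subgroupOfEquivOfLe hle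
  have hc2 : Nat.card (grp 8 (ps2.map Prod.snd)) = 128 := by
    rw [← Nat.card_congr e₃.toEquiv, hn]
  refine sylow_equiv_of φ P' Q' (grp 8 (ps2.map Prod.snd)) ((Subgroup.closure G₀).subgroupOf OO) ?_ ?_
    (e₃.symm.trans (e₂.symm.trans eA.symm))
  · rw [hc2, Nat.card_perm, Nat.card_fin]
    rw [show Nat.factorial 8 = 2 ^ 7 * 315 by decide +kernel, fac2_of (by norm_num)]
    norm_num
  · rw [Nat.card_congr eA.toEquiv, Nat.card_congr e₂.toEquiv, hn, card_OO, show 51840 = 2 ^ 7 * 405 by norm_num, fac2_of (by norm_num)]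
    norm_num

/-- The Sylow 2-subgroups of the alternating group of degree 8 and of PSp₄(3) are isomorphic, and so are the Sylow 2-subgroups of the symmetric group of degree 8 and of the full isometry group of a non-degenerate quadratic form of minus type in dimension 6 over the field with 2 elements. -/
theorem result (F : Type) [Field F] [Fintype F] (hF : Fintype.card F = 3) (K : Type) [Field K] [Fintype K] (hK : Fintype.card K = 2) (a b : K) (hab : ∀ z₁ z₂ : K, z₁ ^ 2 + a * z₁ * z₂ + b * z₂ ^ 2 = 0 → z₁ = 0 ∧ z₂ = 0) (P : Sylow 2 ↥(alternatingGroup (Fin 8))) (Q : Sylow 2 (Cfsg.PSp 2 F)) (P' : Sylow 2 (Equiv.Perm (Fin 8))) (Q' : Sylow 2 ↥(Cfsg.isometryGroup K (Cfsg.quadFormMinus 2 K a b))) : Nonempty (↥(P : Subgroup ↥(alternatingGroup (Fin 8))) ≃* ↥(Q : Subgroup (Cfsg.PSp 2 F))) ∧ Nonempty (↥(P' : Subgroup (Equiv.Perm (Fin 8))) ≃* ↥(Q' : Subgroup ↥(Cfsg.isometryGroup K (Cfsg.quadFormMinus 2 K a b)))) := by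
  exact ⟨part1 hF P Q, part2 hK a b hab P' Q'⟩

end Cfsg.Agent.S2931
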