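import Cfsg.Statements.S2939
import Cfsg.Agent.Lib.FF.SylowMembers
import Mathlib

set_option autoImplicit false
open Cfsg

namespace Cfsg.Agent.S2939

open Cfsg.Agent.Lib.FF

variable {G : Type*} [Group G]

/-- The partial products. -/
def pr {n : ℕ} (y : Fin n → G) (i : ℕ) : G := ((List.ofFn y).take i).prod

theorem pr_zero {n : ℕ} (y : Fin n → G) : pr y 0 = 1 := by simp [pr]

theorem pr_succ {n : ℕ} (y : Fin n → G) (i : Fin n) : pr y (i.val + 1) = pr y i.val * y i := by
  unfold pr
  rw [List.prod_take_succ _ _ (by simp)]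
  simp

theorem pr_last {n : ℕ} (y : Fin n → G) : pr y n = (List.ofFn y).prod := by
  unfold pr
  rw [List.take_of_length_le (by simp)]

variable [Finite G] {p : ℕ} [Fact p.Prime]

theorem conj_mem_sylowMembers {𝓕 : Set (Subgroup G)} (h𝓕 : Cfsg.IsNormalSet 𝓕) {S X : Subgroup G} (g : G)
    (hX : X ∈ Cfsg.sylowMembers p 𝓕 S) :
    X.map (MulAut.conj g).toMonoidHom ∈ Cfsg.sylowMembers p 𝓕 (S.map (MulAut.conj g).toMonoidHom) := by
  have := conjRight_mem_sylowMembers h𝓕 g⁻¹ hX
  simpa [Cfsg.subgroupConjRight] using this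

/-- Let p be a prime dividing the order of the finite group G and 𝓕 a family of subgroups of G closed under conjugation, with conjugates taken as X^g = g⁻¹Xg. Then 𝓕 controls Sylow p-intersections in G (any two distinct Sylow p-subgroups S and T with S ∩ T ≠ 1 are joined by a chain S = S₀, S₁, …, Sₙ = T of Sylow p-subgroups where, for each i, some member Xᵢ of 𝓕 meets both S_{i-1} and Sᵢ in Sylow p-subgroups of Xᵢ, satisfies S ∩ T ≤ Sᵢ ∩ Xᵢ, and contains an element xᵢ with Sᵢ^{xᵢ} = S_{i-1}) if and only if 𝓕 strongly controls p-fusion in G (whenever A is a subset of a Sylow p-subgroup S, A contains an element other than 1, and A^g ⊆ S, the element g factorises as g = y₁⋯yₙy with y ∈ N_G(S) and each yᵢ in a member Yᵢ of 𝓕 that meets S in a Sylow p-subgroup of Yᵢ, with A^{y₁⋯yᵢ} ⊆ S ∩ Yᵢ for each i). -/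
theorem result {G : Type*} [Group G] [Finite G] {p : ℕ} [Fact p.Prime] (hdiv : p ∣ Nat.card G) (𝓕 : Set (Subgroup G)) (h𝓕 : Cfsg.IsNormalSet 𝓕) : Cfsg.ControlsSylowIntersections p 𝓕 ↔ Cfsg.FamilyStronglyControlsFusion p 𝓕 := by
  classical
  constructor
  · -- control of intersections ⇒ strong control of fusion
    intro hc S A g hAS hne hgA
    set T : Sylow p G := g • S with hT
    have hAT : ∀ a ∈ A, a ∈ (T : Subgroup G) := by
      intro a ha
      rw [hT, coe_smul_sylow, mem_conj_iff]
      exact hgA ⟨a, ha, rfl⟩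
    by_cases hST : S = T
    · refine ⟨0, fun i => i.elim0, fun i => i.elim0, g, ?_, fun i => i.elim0, by simp, fun i => i.elim0⟩
      exact Sylow.smul_eq_iff_mem_normalizer.mp hST.symm
    · obtain ⟨a₀, ha₀, ha₀1⟩ := hne
      have hST' : (S : Subgroup G) ⊓ (T : Subgroup G) ≠ ⊥ := by
        intro h
        have : a₀ ∈ (S : Subgroup G) ⊓ (T : Subgroup G) := ⟨hAS ha₀, hAT a₀ ha₀⟩
        rw [h] at this
        exact ha₀1 (by simpa using this)
      obtain ⟨n, c, X, x, h0, hl, hi⟩ := hc S T hST hST'
      let u : Fin (n + 1) → G := fun i => Fin.induction (motive := fun _ => G) 1 (fun i ui => x i * ui) i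
      have hu0 : u 0 = 1 := rfl
      have husucc : ∀ i : Fin n, u i.succ = x i * u i.castSucc := fun i => rfl
      have hcu : ∀ i : Fin (n + 1), c i = u i • S := by
        intro i
        induction i using Fin.induction with
        | zero => rw [h0, hu0, one_smul]
        | succ i ih =>
          obtain ⟨-, -, -, h4, -⟩ := hi i
          apply Sylow.ext
          rw [husucc, mul_smul, coe_smul_sylow (g := x i), ← ih, ← h4, conj_conjRight]
      let y : Fin n → G := fun i => (u i.castSucc)⁻¹ * x i * u i.castSucc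
      let Y : Fin n → Subgroup G := fun i => (X i).map (MulAut.conj (u i.castSucc)⁻¹).toMonoidHom
      have hpr : ∀ i : Fin (n + 1), pr y i.val = u i := by
        intro i
        induction i using Fin.induction with
        | zero => exact pr_zero y
        | succ i ih =>
          have e1 : (i.succ : Fin (n + 1)).val = i.val + 1 := rfl
          have e2 : (i.castSucc : Fin (n + 1)).val = i.val := rfl
          rw [e1, pr_succ, ← e2, ih, husucc]
          show u i.castSucc * ((u i.castSucc)⁻¹ * x i * u i.castSucc) = _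
          group
      have hprlast : (List.ofFn y).prod = u (Fin.last n) := by
        rw [← pr_last, ← hpr (Fin.last n)]
        rfl
      have hY0 : (u (Fin.last n))⁻¹ * g ∈ Subgroup.normalizer ((S : Subgroup G) : Set G) := by
        apply Sylow.smul_eq_iff_mem_normalizer.mp
        have : u (Fin.last n) • S = g • S := by
          rw [← hcu, hl]
        rw [mul_smul, ← this, inv_smul_smul]
      refine ⟨n, Y, y, (u (Fin.last n))⁻¹ * g, hY0, ?_, ?_, ?_⟩
      · intro i
        obtain ⟨h2, -, h3, -, -⟩ := hi i
        constructor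
        · have h5 := conj_mem_sylowMembers h𝓕 (u i.castSucc)⁻¹ h2
          rw [hcu, coe_smul_sylow, conj_mul_conj, inv_mul_cancel, conj_one'] at h5
          exact h5
        · show _ ∈ (X i).map _
          rw [mem_conj_iff]
          have e : ((u i.castSucc)⁻¹)⁻¹ * y i * (u i.castSucc)⁻¹ = x i := by
            simp only [y]; group
          rw [e]
          exact h3
      · rw [hprlast]; group
      · intro i a' ha'
        obtain ⟨a, ha, rfl⟩ := ha'
        have hpi : ((List.ofFn y).take (i.val + 1)).prod = u i.succ := hpr i.succ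
        rw [hpi, husucc]
        obtain ⟨-, -, h3, -, h5⟩ := hi i
        have hmem := h5 (show a ∈ (S : Subgroup G) ⊓ (T : Subgroup G) from ⟨hAS ha, hAT a ha⟩)
        have hm1 : a ∈ ((c i.succ : Sylow p G) : Subgroup G) := hmem.1
        rw [hcu, coe_smul_sylow, mem_conj_iff, husucc] at hm1
        refine ⟨hm1, ?_⟩
        show _ ∈ (X i).map _
        rw [mem_conj_iff]
        have h6 := (X i).mul_mem ((X i).mul_mem ((X i).inv_mem h3) hmem.2) h3
        have e : ((u i.castSucc)⁻¹)⁻¹ * ((x i * u i.castSucc)⁻¹ * a * (x i * u i.castSucc)) * (u i.castSucc)⁻¹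
            = (x i)⁻¹ * a * x i := by group
        rw [e]
        exact h6
  · -- strong control of fusion ⇒ control of intersections
    intro hf S T hST hne
    obtain ⟨g, hg⟩ := MulAction.exists_smul_eq G S T
    let A : Set G := (((S : Subgroup G) ⊓ (T : Subgroup G) : Subgroup G) : Set G)
    have hAS : A ⊆ (S : Set G) := fun a ha => ha.1
    have hne' : ∃ a ∈ A, a ≠ 1 := by
      by_contra hcon
      push Not at hcon
      apply hne
      rw [eq_bot_iff]
      intro a ha
      exact (Subgroup.mem_bot).mpr (hcon a ha)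
    have hgA : Cfsg.conjRight g A ⊆ (S : Set G) := by
      rintro _ ⟨a, ha, rfl⟩
      have h2 : a ∈ (T : Subgroup G) := ha.2
      rw [← hg, coe_smul_sylow, mem_conj_iff] at h2
      exact h2
    obtain ⟨n, Y, y, y₀, hy₀, hY, hgy, hA⟩ := hf S A g hAS hne' hgA
    let u : ℕ → G := pr y
    have hprlast : u n = (List.ofFn y).prod := pr_last y
    refine ⟨n, fun i => u i.val • S, fun i => (Y i).map (MulAut.conj (u i.val)).toMonoidHom,
      fun i => u i.val * y i * (u i.val)⁻¹, ?_, ?_, ?_⟩
    · show u 0 • S = S
      rw [show u 0 = 1 from pr_zero y, one_smul]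
    · show u n • S = T
      rw [hprlast, ← hg, hgy, mul_smul, Sylow.smul_eq_iff_mem_normalizer.mpr hy₀]
    · intro i
      have husucc : u (i.val + 1) = u i.val * y i := pr_succ y i
      have hYi := hY i
      have hXsucc : (Y i).map (MulAut.conj (u i.val)).toMonoidHom = (Y i).map (MulAut.conj (u (i.val + 1))).toMonoidHom := by
        rw [husucc, ← conj_mul_conj, conj_eq_of_mem hYi.2]
      refine ⟨?_, ?_, ?_, ?_, ?_⟩
      · show _ ∈ Cfsg.sylowMembers p 𝓕 ((u i.val • S : Sylow p G) : Subgroup G)
        rw [coe_smul_sylow]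
        exact conj_mem_sylowMembers h𝓕 _ hYi.1
      · show (Y i).map (MulAut.conj (u i.val)).toMonoidHom ∈ Cfsg.sylowMembers p 𝓕 ((u (i.val + 1) • S : Sylow p G) : Subgroup G)
        rw [coe_smul_sylow, hXsucc]
        exact conj_mem_sylowMembers h𝓕 _ hYi.1
      · exact conj_mem_conj hYi.2
      · show Cfsg.subgroupConjRight _ ((u (i.val + 1) • S : Sylow p G) : Subgroup G) = ((u i.val • S : Sylow p G) : Subgroup G)
        rw [coe_smul_sylow, coe_smul_sylow, Cfsg.subgroupConjRight, conj_mul_conj, husucc]
        congr 3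
        group
      · rintro z hz
        have hzA : z ∈ A := hz
        have h3 := hA i (show (u (i.val + 1))⁻¹ * z * u (i.val + 1) ∈ Cfsg.conjRight _ A from ⟨z, hzA, rfl⟩)
        refine ⟨?_, ?_⟩
        · show z ∈ ((u (i.val + 1) • S : Sylow p G) : Subgroup G)
          rw [coe_smul_sylow, mem_conj_iff]
          exact h3.1
        · show z ∈ (Y i).map (MulAut.conj (u i.val)).toMonoidHom
          rw [hXsucc, mem_conj_iff]
          exact h3.2

end Cfsg.Agent.S2939
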