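import Cfsg.Statements.S2940
import Cfsg.Agent.Lib.FF.Basic
import Mathlib

set_option autoImplicit false
open Cfsg

namespace Cfsg.Agent.S2940

/-- Let S be a Sylow p-subgroup of the finite group G and G₁, G₂ subgroups containing S with G = G₁G₂. Then for every g ∈ G there is a Sylow p-subgroup U of G with S ∩ S^g ≤ U ≤ G₁ ∩ G₂^g (conjugates taken as X^g = g⁻¹Xg). -/
theorem result {G : Type*} [Group G] [Finite G] {p : ℕ} [Fact p.Prime] (S : Sylow p G) (G₁ G₂ : Subgroup G) (h1 : (S : Subgroup G) ≤ G₁) (h2 : (S : Subgroup G) ≤ G₂) (hfact : ∀ g : G, ∃ g₁ ∈ G₁, ∃ g₂ ∈ G₂, g = g₁ * g₂) (g : G) : ∃ U : Sylow p G, (S : Subgroup G) ⊓ Cfsg.subgroupConjRight g (S : Subgroup G) ≤ (U : Subgroup G) ∧ (U : Subgroup G) ≤ G₁ ⊓ Cfsg.subgroupConjRight g G₂ := by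
  classical
  set L := G₁ ⊓ Cfsg.subgroupConjRight g G₂ with hL
  obtain ⟨a, ha, b, hb, hg⟩ := hfact g⁻¹
  -- `a S a⁻¹ ≤ L`
  have hS' : ((a • S : Sylow p G) : Subgroup G) ≤ L := by
    rw [Cfsg.Agent.Lib.FF.coe_smul_sylow]
    rintro _ ⟨s, hs, rfl⟩
    have hs' : s ∈ (S : Subgroup G) := hs
    refine ⟨?_, ?_⟩
    · exact G₁.mul_mem (G₁.mul_mem ha (h1 hs')) (G₁.inv_mem ha)
    · show _ ∈ G₂.map (MulAut.conj g⁻¹).toMonoidHom
      rw [Cfsg.Agent.Lib.FF.mem_conj_iff, hg]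
      have e : (a * b)⁻¹ * ((MulAut.conj a).toMonoidHom s) * (a * b) = b⁻¹ * s * b := by
        simp only [MulEquiv.coe_toMonoidHom, MulAut.conj_apply]
        group
      rw [e]
      exact G₂.mul_mem (G₂.mul_mem (G₂.inv_mem hb) (h2 hs')) hb
  have hV : IsPGroup p ↥((S : Subgroup G) ⊓ Cfsg.subgroupConjRight g (S : Subgroup G)) :=
    S.2.to_le inf_le_left
  have hle : (S : Subgroup G) ⊓ Cfsg.subgroupConjRight g (S : Subgroup G) ≤ L :=
    le_inf (inf_le_left.trans h1) (inf_le_right.trans (Subgroup.map_mono h2))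
  obtain ⟨V, hV1, hV2⟩ := Cfsg.Agent.Lib.FF.exists_isSylowIn_of_le hV hle
  obtain ⟨U, hU⟩ := hV2.exists_sylow_eq _ hS'
  exact ⟨U, hU ▸ hV1, hU ▸ hV2.le⟩

end Cfsg.Agent.S2940
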