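import Cfsg.Statements.S2955
import Cfsg.Agent.Lib.FF.SylowMembers
import Mathlib

set_option autoImplicit false
open Cfsg

namespace Cfsg.Agent.S2955

open Cfsg.Agent.Lib.FF

/-- Let p be a prime dividing the order of the finite group G and 𝓕 a conjugation-closed family of subgroups that controls Sylow p-intersections in G. Suppose the Sylow p-subgroups of G are chain-connected: any two of them are joined by a chain of Sylow p-subgroups, consecutive ones distinct with nontrivial intersection, all containing the intersection of the two ends (equivalently, the graph on the Sylow p-subgroups whose edges are the distinct pairs meeting nontrivially is connected). Then for every Sylow p-subgroup S, G is generated by N_G(S) together with the members of 𝓕 that meet S in a Sylow p-subgroup of themselves. -/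
theorem result {G : Type*} [Group G] [Finite G] (p : ℕ) [Fact p.Prime] (hdiv : p ∣ Nat.card G)
    (𝓕 : Set (Subgroup G)) (h𝓕 : Cfsg.IsNormalSet 𝓕) (hc : Cfsg.ControlsSylowIntersections p 𝓕)
    (hconn : Cfsg.IsSylowChainConnected p G) (S : Sylow p G) :
    (⨆ X ∈ Cfsg.sylowMembers p 𝓕 (S : Subgroup G), X) ⊔ Subgroup.normalizer ((S : Subgroup G) : Set G) = ⊤ := by
  classical
  set H := (⨆ X ∈ Cfsg.sylowMembers p 𝓕 (S : Subgroup G), X) ⊔ Subgroup.normalizer ((S : Subgroup G) : Set G) with hH
  have hXH : ∀ X ∈ Cfsg.sylowMembers p 𝓕 (S : Subgroup G), X ≤ H := fun X hX =>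
    (le_iSup₂ (f := fun (X : Subgroup G) (_ : X ∈ Cfsg.sylowMembers p 𝓕 (S : Subgroup G)) => X) X hX).trans le_sup_left
  have hNH : Subgroup.normalizer ((S : Subgroup G) : Set G) ≤ H := le_sup_right
  let Orb : Sylow p G → Prop := fun T => ∃ h ∈ H, T = h • S
  have hstep : ∀ (X : Subgroup G) (x : G) (T T' : Sylow p G), Orb T → X ∈ Cfsg.sylowMembers p 𝓕 (T : Subgroup G) →
      x ∈ X → Cfsg.subgroupConjRight x (T' : Subgroup G) = (T : Subgroup G) → Orb T' := by
    rintro X x T T' ⟨h, hh, rfl⟩ hX hx hT
    have hY := conjRight_mem_sylowMembers h𝓕 h hX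
    have hS' : Cfsg.subgroupConjRight h (((h • S : Sylow p G)) : Subgroup G) = (S : Subgroup G) := by
      rw [coe_smul_sylow, conjRight_conj]
    rw [hS'] at hY
    have hy : h⁻¹ * x * h ∈ Cfsg.subgroupConjRight h X := by
      rw [Cfsg.subgroupConjRight, mem_conj_iff]
      simpa [mul_assoc] using hx
    have hyH : h⁻¹ * x * h ∈ H := hXH _ hY hy
    refine ⟨h * (h⁻¹ * x * h), H.mul_mem hh hyH, ?_⟩
    apply Sylow.ext
    have e : h * (h⁻¹ * x * h) = x * h := by group
    rw [e, mul_smul, coe_smul_sylow (g := x), ← hT, conj_conjRight]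
  have hedge : ∀ T T' : Sylow p G, Orb T → T ≠ T' → (T : Subgroup G) ⊓ (T' : Subgroup G) ≠ ⊥ → Orb T' := by
    intro T T' hT hne hb
    obtain ⟨n, c, X, x, h0, hl, hi⟩ := hc T T' hne hb
    have h1 : ∀ i : Fin (n + 1), Orb (c i) := by
      intro i
      induction i using Fin.induction with
      | zero => rw [h0]; exact hT
      | succ i ih =>
        obtain ⟨h2, -, h3, h4, -⟩ := hi i
        exact hstep _ _ _ _ ih h2 h3 h4
    rw [← hl]
    exact h1 _
  have hall : ∀ T : Sylow p G, Orb T := by
    intro T
    obtain ⟨n, c, h0, hl, -, hi⟩ := hconn S T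
    have h1 : ∀ i : Fin (n + 1), Orb (c i) := by
      intro i
      induction i using Fin.induction with
      | zero => rw [h0]; exact ⟨1, H.one_mem, by simp⟩
      | succ i ih => exact hedge _ _ ih (hi i).1 (hi i).2
    rw [← hl]
    exact h1 _
  rw [eq_top_iff]
  intro g _
  obtain ⟨h, hh, hg⟩ := hall (g • S)
  have hn : h⁻¹ * g ∈ Subgroup.normalizer ((S : Subgroup G) : Set G) := by
    have : (h⁻¹ * g) • S = S := by
      rw [mul_smul, hg, inv_smul_smul]
    exact Sylow.smul_eq_iff_mem_normalizer.mp this
  have := H.mul_mem hh (hNH hn)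
  simpa using this

end Cfsg.Agent.S2955
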