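import Cfsg.Statements.S2956
import Cfsg.Agent.Lib.FF.Chains
import Mathlib

set_option autoImplicit false
open Cfsg

namespace Cfsg.Agent.S2956

open Cfsg.Agent.Lib.FF Subgroup

variable {G : Type*} [Group G] [Finite G] {p : ℕ} [hp : Fact p.Prime]

theorem card_lt' {A B : Subgroup G} (h : A < B) : Nat.card A < Nat.card B := by
  by_contra hc
  exact h.ne (Subgroup.eq_of_le_of_card_ge h.le (not_lt.mp hc))

/-- The family of the statement. -/
def GG (p : ℕ) (f : Subgroup G → Set (Subgroup G)) : Set (Subgroup G) :=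
  Cfsg.functorFamily p f ⊤ ∪ {M | Cfsg.IsMaximalPLocal p M ∧ ¬ Cfsg.IsFunctorRegular p f M}

theorem claim {f : Subgroup G → Set (Subgroup G)} (hf : Cfsg.IsNormalizerFunctor p f)
    (hf1 : ∀ P : Subgroup G, IsPGroup p ↥P → P ≠ ⊥ → ∀ F ∈ f P, F ≠ ⊥)
    (D : Subgroup G) (hD : D ≠ ⊥) (d : ℕ)
    (IH : ∀ A B : Sylow p G, d < Nat.card ↥((A : Subgroup G) ⊓ (B : Subgroup G)) →
      FLink p (GG p f) ((A : Subgroup G) ⊓ (B : Subgroup G)) A B) :
    ∀ (k : ℕ) (E : Subgroup G) (A : Sylow p G) (y : G),
      Nat.card G - Nat.card ↥((A : Subgroup G) ⊓ normalizer (E : Set G)) = k →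
      IsPGroup p E → E ≠ ⊥ → IsSylowIn p ((A : Subgroup G) ⊓ normalizer (E : Set G)) (normalizer (E : Set G)) →
      y ∈ normalizer (E : Set G) → D ≤ (A : Subgroup G) → D ≤ ((y • A : Sylow p G) : Subgroup G) →
      D ≤ normalizer (E : Set G) →
      d < Nat.card ↥((A : Subgroup G) ⊓ normalizer (E : Set G)) → FLink p (GG p f) D A (y • A) := by
  have IH' : ∀ (A B : Sylow p G) (W : Subgroup G), W ≤ (A : Subgroup G) → W ≤ (B : Subgroup G) →
      d < Nat.card W → D ≤ W → FLink p (GG p f) D A B := by
    intro A B W h1 h2 h3 h4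
    exact (IH A B (lt_of_lt_of_le h3 (Subgroup.card_le_of_le (le_inf h1 h2)))).mono (h4.trans (le_inf h1 h2))
  intro k
  induction k using Nat.strong_induction_on with
  | _ k ih =>
  intro E A y hk hE hEne hAL hy hDA hDyA hDL hdA
  set L := normalizer (E : Set G) with hL
  -- a maximal `p`-local subgroup above `L`
  obtain ⟨M, hLM, hMmax⟩ := exists_maximalPLocal (p := p) (L := L) ⟨E, hE, hEne, rfl⟩
  obtain ⟨Q, hQ, hQne, hMQ⟩ := hMmax.1
  have hyM : y ∈ M := hLM hy
  obtain ⟨P, hAP, hP⟩ := exists_isSylowIn_of_le (p := p) (Q := (A : Subgroup G) ⊓ L) (L := M)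
    (IsPGroup.to_le A.2 inf_le_left) (inf_le_right.trans hLM)
  obtain ⟨A₁, hPA₁⟩ := hP.isPGroup.exists_le_sylow
  have hA₁M : IsSylowIn p ((A₁ : Subgroup G) ⊓ M) M := hP.inf_of_le A₁ hPA₁
  have hDM : D ≤ M := hDL.trans hLM
  have hdP : d < Nat.card P := lt_of_lt_of_le hdA (Subgroup.card_le_of_le hAP)
  have hDW : D ≤ (A : Subgroup G) ⊓ L := le_inf hDA hDL
  have hDP : D ≤ P := hDW.trans hAP
  have L1 : FLink p (GG p f) D A A₁ := IH' _ _ _ inf_le_left (hAP.trans hPA₁) hdA hDW
  -- `D ≤ P^y`
  have hDPy : D ≤ P.map (MulAut.conj y).toMonoidHom := by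
    have h1 : D ≤ ((A : Subgroup G) ⊓ L).map (MulAut.conj y).toMonoidHom := by
      rw [← inf_conj_of_mem _ hy, ← coe_smul_sylow]
      exact le_inf hDyA hDL
    exact h1.trans (conj_mono y hAP)
  have L3 : FLink p (GG p f) D (y • A) (y • A₁) := by
    refine IH' _ _ (((A : Subgroup G) ⊓ L).map (MulAut.conj y).toMonoidHom) ?_ ?_ ?_ ?_
    · rw [coe_smul_sylow]; exact conj_mono y inf_le_left
    · rw [coe_smul_sylow]; exact conj_mono y (hAP.trans hPA₁)
    · rwa [card_conj]
    · rw [← inf_conj_of_mem _ hy, ← coe_smul_sylow]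
      exact le_inf hDyA hDL
  -- the heart
  have L2 : FLink p (GG p f) D A₁ (y • A₁) := by
    by_cases hreg : Cfsg.IsFunctorRegular p f M
    · -- chain inside `M`
      let R₁ : Sylow p M := hP.toSylow
      have hR₁ : hatS R₁ = P := by
        change (P.subgroupOf M).map M.subtype = P
        exact Subgroup.map_subgroupOf_eq_of_le hP.le
      let y' : M := ⟨y, hyM⟩
      let R₂ : Sylow p M := y' • R₁
      have hR₂ : hatS R₂ = P.map (MulAut.conj y).toMonoidHom := by
        ext z
        change z ∈ ((R₁ : Subgroup M).map (MulAut.conj y').toMonoidHom).map M.subtype ↔ _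
        rw [mem_conj_iff]
        constructor
        · rintro ⟨_, ⟨w, hw, rfl⟩, rfl⟩
          have hw' : (w : G) ∈ P := by simpa [R₁, Subgroup.mem_subgroupOf] using hw
          simpa [y', mul_assoc] using hw'
        · intro hz
          have hzM : z ∈ M := by
            have := M.mul_mem (M.mul_mem hyM (hP.le hz)) (M.inv_mem hyM)
            simpa [mul_assoc] using this
          refine ⟨(⟨z, hzM⟩ : M), ?_, rfl⟩
          refine ⟨y'⁻¹ * ⟨z, hzM⟩ * y', ?_, by simp; group⟩
          change _ ∈ P.subgroupOf M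
          rw [Subgroup.mem_subgroupOf]
          simpa [y'] using hz
      have hlink : FLink p ((fun X : Subgroup G => X.subgroupOf M) '' Cfsg.functorFamily p f M)
          (D.subgroupOf M) R₁ R₂ := by
        refine link_of_controls' hreg R₁ R₂ ?_ ?_ ?_
        · intro h
          apply hD
          rw [Subgroup.subgroupOf_eq_bot] at h
          exact h.eq_bot_of_le hDM
        · rw [← le_hatS_iff hDM, hR₁]; exact hDP
        · rw [← le_hatS_iff hDM, hR₂]; exact hDPy
      -- move along the chain
      have key : ∀ R : Sylow p M,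
          FLink p ((fun X : Subgroup G => X.subgroupOf M) '' Cfsg.functorFamily p f M)
            (D.subgroupOf M) R₁ R →
          ∀ C : Sylow p G, hatS R ≤ (C : Subgroup G) → FLink p (GG p f) D A₁ C := by
        intro R hR
        induction hR with
        | refl =>
          intro C hC
          rw [hR₁] at hC
          exact IH' _ _ _ hPA₁ hC hdP hDP
        | @tail R R' _ hstep ih2 =>
          intro C hC
          obtain ⟨R₀, F, x, hF, hxM, hxF, hR'F, hRF, hconj, hDR', hDR⟩ := step_data hf hDM hstep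
          have hpR₀ : IsPGroup p (hatS R₀) := (hatS_isSylowIn R₀).isPGroup
          have hf' := (hf (hatS R₀) hpR₀).1 F hF
          have hR₀ne : hatS R₀ ≠ ⊥ := by
            intro h
            apply hQne
            rw [eq_bot_iff, ← h]
            exact le_of_normalizer_eq hMQ hQ R₀
          have hFne : F ≠ ⊥ := hf1 _ hpR₀ hR₀ne F hF
          have hFp : IsPGroup p F := IsPGroup.to_le hpR₀ hf'.1
          -- Sylow in `N(F)`
          obtain ⟨W, hR'W, hW⟩ := exists_isSylowIn_of_le (p := p) (Q := hatS R') (L := normalizer (F : Set G))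
            (hatS_isSylowIn R').isPGroup hR'F
          obtain ⟨C'', hWC''⟩ := hW.isPGroup.exists_le_sylow
          have hcardR' : Nat.card (hatS R') = Nat.card P := (hatS_isSylowIn R').card_eq hP
          have hcardR₀ : Nat.card (hatS R₀) = Nat.card P := (hatS_isSylowIn R₀).card_eq hP
          have hdR' : d < Nat.card (hatS R') := by rwa [hcardR']
          have hDW' : D ≤ W := hDR'.trans hR'W
          have hDF : D ≤ normalizer (F : Set G) := hDW'.trans hW.le
          have s1 : FLink p (GG p f) D C C'' := IH' _ _ _ hC (hR'W.trans hWC'') hdR' hDR'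
          have hC''F : IsSylowIn p ((C'' : Subgroup G) ⊓ normalizer (F : Set G)) (normalizer (F : Set G)) :=
            hW.inf_of_le C'' hWC''
          have hRx : hatS R ≤ ((x⁻¹ • C'' : Sylow p G) : Subgroup G) := by
            rw [← hconj, coe_smul_sylow]
            exact conj_mono _ (hR'W.trans hWC'')
          have s2 : FLink p (GG p f) D A₁ (x⁻¹ • C'') := ih2 _ hRx
          have hDC'' : D ≤ (C'' : Subgroup G) := hDW'.trans hWC''
          have s3 : FLink p (GG p f) D C'' (x⁻¹ • C'') := by
            by_cases hS : ∃ S₀ : Sylow p G, (S₀ : Subgroup G) = hatS R₀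
            · obtain ⟨S₀, hS₀⟩ := hS
              refine Relation.ReflTransGen.single ?_
              refine step_of_mem (X := ⊤ ⊓ normalizer (F : Set G)) (Or.inl (mem_family S₀ (hS₀ ▸ hF))) ?_ ?_ ?_ hDC'' (hDR.trans hRx)
              · rw [top_inf_eq]; exact (normalizer (F : Set G)).inv_mem hxF
              · rw [top_inf_eq]; exact hC''F
              · rw [top_inf_eq]; exact hDF
            · -- the normalizer of `F` has larger Sylow subgroups
              obtain ⟨S₀, hS₀⟩ := hpR₀.exists_le_sylow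
              have hlt : hatS R₀ < (S₀ : Subgroup G) := by
                refine lt_of_le_of_ne hS₀ fun h => hS ⟨S₀, h.symm⟩
              obtain ⟨u, huS, huR, huN⟩ := exists_mem_normalizer_of_lt S₀.2 hlt
              have hcardlt : Nat.card P < Nat.card W := by
                have hT : IsPGroup p ↥((S₀ : Subgroup G) ⊓ normalizer (hatS R₀ : Set G)) :=
                  IsPGroup.to_le S₀.2 inf_le_left
                have hTF : (S₀ : Subgroup G) ⊓ normalizer (hatS R₀ : Set G) ≤ normalizer (F : Set G) :=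
                  inf_le_right.trans hf'.2
                have h1 := hW.card_le_of_pgroup hT hTF
                have h2 : hatS R₀ < (S₀ : Subgroup G) ⊓ normalizer (hatS R₀ : Set G) := by
                  refine lt_of_le_of_ne (le_inf hS₀ Subgroup.le_normalizer) ?_
                  intro h
                  apply huR
                  rw [h]
                  exact ⟨huS, huN⟩
                have h3 := card_lt' h2
                rw [hcardR₀] at h3
                exact h3.trans_le h1
              have e : (C'' : Subgroup G) ⊓ normalizer (F : Set G) = W := hW.eq_inf_of_le C'' hWC''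
              have hW_le : Nat.card W ≤ Nat.card G := by
                simpa using Subgroup.card_le_of_le (le_top : W ≤ ⊤)
              have hAcard : Nat.card ↥((A : Subgroup G) ⊓ L) ≤ Nat.card P := Subgroup.card_le_of_le hAP
              have hlt' : Nat.card G - Nat.card W < k := by
                have : 1 ≤ Nat.card W := Nat.card_pos
                omega
              refine ih _ hlt' F C'' x⁻¹ (by rw [e]) hFp hFne hC''F ((normalizer (F : Set G)).inv_mem hxF)
                hDC'' (hDR.trans hRx) hDF ?_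
              rw [e]
              omega
          exact s2.trans (s3.symm.trans s1.symm)
      refine key _ hlink _ ?_
      rw [hR₂, coe_smul_sylow]
      exact conj_mono y hPA₁
    · -- `M` is singular: one step
      refine Relation.ReflTransGen.single ?_
      refine step_of_mem (X := M) (Or.inr ⟨hMmax, hreg⟩) hyM hA₁M hDM (hDP.trans hPA₁) ?_
      rw [coe_smul_sylow]
      exact hDPy.trans (conj_mono y hPA₁)
  exact L1.trans (L2.trans L3.symm)

theorem main {f : Subgroup G → Set (Subgroup G)} (hf : Cfsg.IsNormalizerFunctor p f)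
    (hf1 : ∀ P : Subgroup G, IsPGroup p ↥P → P ≠ ⊥ → ∀ F ∈ f P, F ≠ ⊥) :
    ∀ (k : ℕ) (S T : Sylow p G), Nat.card G - Nat.card ↥((S : Subgroup G) ⊓ (T : Subgroup G)) = k →
      (S : Subgroup G) ⊓ (T : Subgroup G) ≠ ⊥ →
      FLink p (GG p f) ((S : Subgroup G) ⊓ (T : Subgroup G)) S T := by
  intro k
  induction k using Nat.strong_induction_on with
  | _ k ih =>
  intro S T hk hb
  by_cases hne : S = T
  · subst hne; exact Relation.ReflTransGen.refl
  set D := (S : Subgroup G) ⊓ (T : Subgroup G) with hD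
  set d := Nat.card D with hd
  have hcardle : ∀ X : Subgroup G, Nat.card X ≤ Nat.card G := fun X => by
    simpa using Subgroup.card_le_of_le (le_top : X ≤ ⊤)
  have hd1 : 1 ≤ d := Nat.card_pos
  have IH : ∀ A B : Sylow p G, d < Nat.card ↥((A : Subgroup G) ⊓ (B : Subgroup G)) →
      FLink p (GG p f) ((A : Subgroup G) ⊓ (B : Subgroup G)) A B := by
    intro A B hAB
    have h1 := hcardle ((A : Subgroup G) ⊓ (B : Subgroup G))
    refine ih _ (by omega) A B rfl ?_
    intro h
    rw [h] at hAB
    simp at hAB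
    omega
  have IH' : ∀ (A B : Sylow p G) (W : Subgroup G), W ≤ (A : Subgroup G) → W ≤ (B : Subgroup G) →
      d < Nat.card W → D ≤ W → FLink p (GG p f) D A B := by
    intro A B W h1 h2 h3 h4
    exact (IH A B (lt_of_lt_of_le h3 (Subgroup.card_le_of_le (le_inf h1 h2)))).mono (h4.trans (le_inf h1 h2))
  have hDS : D ≤ (S : Subgroup G) := inf_le_left
  have hDT : D ≤ (T : Subgroup G) := inf_le_right
  have hDp : IsPGroup p D := IsPGroup.to_le S.2 hDS
  -- `D` is properly contained in `S` and `T`
  have hsyl : ∀ A B : Sylow p G, A ≠ B → (A : Subgroup G) ⊓ (B : Subgroup G) < (A : Subgroup G) := by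
    intro A B hAB
    refine lt_of_le_of_ne inf_le_left ?_
    intro h
    apply hAB
    exact Sylow.ext ((isSylowIn_of_sylow_le A le_top).eq_of_le B.2 le_top (inf_eq_left.mp h))
  have hgrow : ∀ A : Sylow p G, D < (A : Subgroup G) → d < Nat.card ↥((A : Subgroup G) ⊓ normalizer (D : Set G)) := by
    intro A hA
    obtain ⟨u, huS, huR, huN⟩ := exists_mem_normalizer_of_lt A.2 hA
    refine card_lt' (lt_of_le_of_ne (le_inf hA.le Subgroup.le_normalizer) ?_)
    intro h
    apply huR
    rw [h]
    exact ⟨huS, huN⟩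
  have hDneS : D < (S : Subgroup G) := hsyl S T hne
  have hDneT : D < (T : Subgroup G) := by
    have := hsyl T S (Ne.symm hne)
    rwa [inf_comm] at this
  set L := normalizer (D : Set G) with hL
  obtain ⟨W₁, hSW₁, hW₁⟩ := exists_isSylowIn_of_le (p := p) (Q := (S : Subgroup G) ⊓ L) (L := L)
    (IsPGroup.to_le S.2 inf_le_left) inf_le_right
  obtain ⟨W₂, hTW₂, hW₂⟩ := exists_isSylowIn_of_le (p := p) (Q := (T : Subgroup G) ⊓ L) (L := L)
    (IsPGroup.to_le T.2 inf_le_left) inf_le_right
  obtain ⟨S₁, hS₁⟩ := hW₁.isPGroup.exists_le_sylow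
  obtain ⟨T₁, hT₁⟩ := hW₂.isPGroup.exists_le_sylow
  obtain ⟨l, hl, hlW⟩ := hW₂.exists_conj hW₁
  have hdW₁ : d < Nat.card W₁ := lt_of_lt_of_le (hgrow S hDneS) (Subgroup.card_le_of_le hSW₁)
  have hdW₂ : d < Nat.card W₂ := lt_of_lt_of_le (hgrow T hDneT) (Subgroup.card_le_of_le hTW₂)
  have hDL : D ≤ L := Subgroup.le_normalizer
  have hDW₁ : D ≤ W₁ := (le_inf hDS hDL).trans hSW₁
  have hDW₂ : D ≤ W₂ := (le_inf hDT hDL).trans hTW₂
  have s1 : FLink p (GG p f) D S S₁ := IH' _ _ _ inf_le_left (hSW₁.trans hS₁) (hgrow S hDneS) (le_inf hDS hDL)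
  have s2 : FLink p (GG p f) D T T₁ := IH' _ _ _ inf_le_left (hTW₂.trans hT₁) (hgrow T hDneT) (le_inf hDT hDL)
  have hW₁lT₁ : W₁ ≤ ((l • T₁ : Sylow p G) : Subgroup G) := by
    rw [coe_smul_sylow, ← hlW]
    exact conj_mono l hT₁
  have s3 : FLink p (GG p f) D S₁ (l • T₁) := IH' _ _ _ hS₁ hW₁lT₁ hdW₁ hDW₁
  have s4 : FLink p (GG p f) D T₁ (l • T₁) := by
    refine claim hf hf1 D hb d IH _ D T₁ l rfl hDp hb (hW₂.inf_of_le T₁ hT₁) hl (hDW₂.trans hT₁) (hDW₁.trans hW₁lT₁) hDL ?_
    rw [hW₂.eq_inf_of_le T₁ hT₁]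
    exact hdW₂
  exact s1.trans (s3.trans (s4.symm.trans s2.symm))


/-- Let p be a prime dividing the order of the finite group G, and f an assignment to every p-subgroup P of a set f(P) of subgroups of P, each normalized by N_G(P), compatible with conjugation, such that for P ≠ 1 the members of f(P) are nontrivial. Let 𝓕 be the family of the normalizers N_G(F) of the members F of f(S) over the Sylow p-subgroups S of G, and 𝓕' the family of the maximal p-local subgroups M of G that are singular for f (the corresponding family of normalizers inside M does not control Sylow p-intersections in M). Then 𝓕 ∪ 𝓕' controls Sylow p-intersections in G. -/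
theorem result {G : Type*} [Group G] [Finite G] (p : ℕ) [Fact p.Prime] (hdiv : p ∣ Nat.card G)
    (f : Subgroup G → Set (Subgroup G)) (hf : Cfsg.IsNormalizerFunctor p f)
    (hf1 : ∀ P : Subgroup G, IsPGroup p ↥P → P ≠ ⊥ → ∀ F ∈ f P, F ≠ ⊥)
    (𝓕 𝓕' : Set (Subgroup G)) (h𝓕 : 𝓕 = Cfsg.functorFamily p f ⊤)
    (h𝓕' : 𝓕' = {M | Cfsg.IsMaximalPLocal p M ∧ ¬ Cfsg.IsFunctorRegular p f M}) :
    Cfsg.ControlsSylowIntersections p (𝓕 ∪ 𝓕') := by
  have e : 𝓕 ∪ 𝓕' = GG p f := by rw [h𝓕, h𝓕']; rfl
  rw [e]
  exact controls_of_link fun S T _ hb => main hf hf1 _ S T rfl hb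

end Cfsg.Agent.S2956
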