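import Cfsg.Statements.S2957
import Cfsg.Agent.Lib.FF.Chains
import Mathlib

set_option autoImplicit false
open Cfsg

namespace Cfsg.Agent.S2957

open Cfsg.Agent.Lib.FF Subgroup

variable {G : Type*} [Group G] [Finite G] {p : ℕ} [hp : Fact p.Prime]

theorem isSylowIn_subgroupOf_top {Q L : Subgroup G} (h : IsSylowIn p Q L) :
    IsSylowIn p (Q.subgroupOf (⊤ : Subgroup G)) (L.subgroupOf (⊤ : Subgroup G)) := by
  refine ⟨?_, isPGroup_subgroupOf h.isPGroup, ?_⟩
  · intro x hx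
    rw [Subgroup.mem_subgroupOf] at hx ⊢
    exact h.le hx
  · have : (Q.subgroupOf (⊤ : Subgroup G)).relIndex (L.subgroupOf (⊤ : Subgroup G)) = Q.relIndex L := by
      rw [Subgroup.subgroupOf, Subgroup.relIndex_comap, Subgroup.subgroupOf, Subgroup.map_comap_eq,
        Subgroup.range_subtype, top_inf_eq]
    rw [this]
    exact h.not_dvd

theorem controls_top {𝓖 : Set (Subgroup G)} (hc : ControlsSylowIntersections p 𝓖) :
    ControlsSylowIntersections p ((fun X => X.subgroupOf (⊤ : Subgroup G)) '' 𝓖) := by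
  intro S' T' hne hb
  obtain ⟨S, hS⟩ := (hatS_isSylowIn S').exists_sylow_eq (Classical.arbitrary _) le_top
  obtain ⟨T, hT⟩ := (hatS_isSylowIn T').exists_sylow_eq (Classical.arbitrary _) le_top
  let up : Sylow p G → Sylow p ↥(⊤ : Subgroup G) := fun P => (isSylowIn_of_sylow_le P le_top).toSylow
  have hup : ∀ P : Sylow p ↥(⊤ : Subgroup G), ∀ Q : Sylow p G, (Q : Subgroup G) = hatS P → up Q = P := by
    intro P Q hQ
    apply Sylow.ext
    change (Q : Subgroup G).subgroupOf ⊤ = (P : Subgroup _)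
    rw [hQ, Subgroup.subgroupOf, Subgroup.comap_map_eq_self_of_injective (Subgroup.subtype_injective _)]
  have hne' : S ≠ T := by
    rintro rfl
    apply hne
    rw [← hup S' S hS, hup T' S hT]
  have hb' : (S : Subgroup G) ⊓ (T : Subgroup G) ≠ ⊥ := by
    intro h
    apply hb
    rw [eq_bot_iff]
    rintro ⟨x, hx'⟩ ⟨hx1, hx2⟩
    have h1 : x ∈ (S : Subgroup G) := by rw [hS]; exact ⟨⟨x, hx'⟩, hx1, rfl⟩
    have h2 : x ∈ (T : Subgroup G) := by rw [hT]; exact ⟨⟨x, hx'⟩, hx2, rfl⟩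
    have h3 : x ∈ (⊥ : Subgroup G) := by rw [← h]; exact ⟨h1, h2⟩
    rw [Subgroup.mem_bot] at h3
    rw [Subgroup.mem_bot]
    exact Subtype.ext h3
  obtain ⟨n, c, X, x, h0, hl, hi⟩ := hc S T hne' hb'
  refine ⟨n, fun i => up (c i), fun i => (X i).subgroupOf ⊤, fun i => ⟨x i, trivial⟩, ?_, ?_, ?_⟩
  · simp only [h0]; exact hup S' S hS
  · simp only [hl]; exact hup T' T hT
  · intro i
    obtain ⟨h1, h2, h3, h4, h5⟩ := hi i
    have hmem : ∀ P : Sylow p G, X i ∈ sylowMembers p 𝓖 (P : Subgroup G) →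
        (X i).subgroupOf ⊤ ∈ sylowMembers p ((fun X => X.subgroupOf (⊤ : Subgroup G)) '' 𝓖)
          ((up P : Sylow p _) : Subgroup _) := by
      intro P hP
      rw [mem_sylowMembers_iff] at hP ⊢
      refine ⟨⟨X i, hP.1, rfl⟩, ?_⟩
      have := isSylowIn_subgroupOf_top hP.2
      have e : ((P : Subgroup G) ⊓ X i).subgroupOf (⊤ : Subgroup G) =
          (P : Subgroup G).subgroupOf ⊤ ⊓ (X i).subgroupOf ⊤ := rfl
      rw [e] at this
      exact this
    refine ⟨hmem _ h1, hmem _ h2, Subgroup.mem_subgroupOf.mpr h3, ?_, ?_⟩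
    · change subgroupConjRight (⟨x i, trivial⟩ : ↥(⊤ : Subgroup G)) ((c i.succ : Subgroup G).subgroupOf ⊤) =
        (c i.castSucc : Subgroup G).subgroupOf ⊤
      rw [← h4]
      ext z
      rw [subgroupConjRight_eq, subgroupConjRight_eq, mem_conj_iff, inv_inv, Subgroup.mem_subgroupOf,
        Subgroup.mem_subgroupOf, mem_conj_iff, inv_inv]
      rfl
    · intro z hz
      obtain ⟨hz1, hz2⟩ := hz
      have hz1' : (z : G) ∈ (S : Subgroup G) := by rw [hS]; exact ⟨z, hz1, rfl⟩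
      have hz2' : (z : G) ∈ (T : Subgroup G) := by rw [hT]; exact ⟨z, hz2, rfl⟩
      have := h5 ⟨hz1', hz2'⟩
      exact ⟨Subgroup.mem_subgroupOf.mpr this.1, Subgroup.mem_subgroupOf.mpr this.2⟩

/-- Chains inside `M` containing a Sylow subgroup lift to chains in `G`. -/
theorem lift_link {M D : Subgroup G} {f : Subgroup G → Set (Subgroup G)} (hf : IsNormalizerFunctor p f)
    (S₀ : Sylow p G) (hS₀ : (S₀ : Subgroup G) ≤ M) (hD : D ≤ M) {R₁ R : Sylow p M}
    (h : FLink p ((fun X : Subgroup G => X.subgroupOf M) '' functorFamily p f M) (D.subgroupOf M) R₁ R) :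
    ∀ A B : Sylow p G, (A : Subgroup G) = hatS R₁ → (B : Subgroup G) = hatS R →
      FLink p (functorFamily p f ⊤) D A B := by
  induction h with
  | refl =>
    intro A B hA hB
    have : A = B := Sylow.ext (hA.trans hB.symm)
    rw [this]
  | @tail R R' _ hstep ih =>
    intro A B' hA hB'
    obtain ⟨R₀, F, x, hF, hxM, hxF, hR'F, hRF, hconj, hDR', hDR⟩ := step_data hf hD hstep
    have hB : ((x⁻¹ • B' : Sylow p G) : Subgroup G) = hatS R := by
      rw [coe_smul_sylow, hB', hconj]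
    have s1 := ih A (x⁻¹ • B') hA hB
    obtain ⟨S₁, hS₁⟩ := (hatS_isSylowIn R₀).exists_sylow_eq S₀ hS₀
    have hF' : F ∈ f (S₁ : Subgroup G) := by rw [hS₁]; exact hF
    have hB'X : (B' : Subgroup G) ≤ ⊤ ⊓ normalizer (F : Set G) := by
      rw [top_inf_eq, hB']; exact hR'F
    have s2 : FStep p (functorFamily p f ⊤) D B' (x⁻¹ • B') := by
      refine step_of_mem (X := ⊤ ⊓ normalizer (F : Set G)) (mem_family S₁ hF') ?_ ?_ ?_ ?_ ?_
      · rw [top_inf_eq]; exact (normalizer (F : Set G)).inv_mem hxF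
      · rw [inf_eq_left.mpr hB'X]
        exact isSylowIn_of_sylow_le B' hB'X
      · rw [hB'] at hB'X; exact hDR'.trans hB'X
      · rw [hB']; exact hDR'
      · rw [hB]; exact hDR
    exact s1.tail s2.symm

theorem link_in {M D : Subgroup G} {f : Subgroup G → Set (Subgroup G)} (hf : IsNormalizerFunctor p f)
    (hr : IsFunctorRegular p f M) {A B : Sylow p G} (hA : (A : Subgroup G) ≤ M) (hB : (B : Subgroup G) ≤ M)
    (hD : D ≠ ⊥) (hDA : D ≤ (A : Subgroup G)) (hDB : D ≤ (B : Subgroup G)) :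
    FLink p (functorFamily p f ⊤) D A B := by
  have hDM : D ≤ M := hDA.trans hA
  have hA' := isSylowIn_of_sylow_le A hA
  have hB' := isSylowIn_of_sylow_le B hB
  have eA : hatS hA'.toSylow = A := Subgroup.map_subgroupOf_eq_of_le hA
  have eB : hatS hB'.toSylow = B := Subgroup.map_subgroupOf_eq_of_le hB
  refine lift_link hf A hA hDM (R₁ := hA'.toSylow) (R := hB'.toSylow) ?_ A B eA.symm eB.symm
  refine link_of_controls' hr _ _ ?_ ?_ ?_
  · intro h
    apply hD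
    rw [Subgroup.subgroupOf_eq_bot] at h
    exact h.eq_bot_of_le hDM
  · rw [← le_hatS_iff hDM, eA]; exact hDA
  · rw [← le_hatS_iff hDM, eB]; exact hDB

theorem main {f : Subgroup G → Set (Subgroup G)} (hf : IsNormalizerFunctor p f) (S : Sylow p G)
    (G₁ G₂ : Subgroup G) (h₁ : (S : Subgroup G) ≤ G₁) (h₂ : (S : Subgroup G) ≤ G₂)
    (hprod : ∀ g : G, ∃ g₁ ∈ G₁, ∃ g₂ ∈ G₂, g = g₁ * g₂)
    (hr₁ : IsFunctorRegular p f G₁) (hr₂ : IsFunctorRegular p f G₂) :
    ControlsSylowIntersections p (functorFamily p f ⊤) := by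
  refine controls_of_link fun S' T' _ hb => ?_
  obtain ⟨a, rfl⟩ := MulAction.exists_smul_eq G S S'
  obtain ⟨b, rfl⟩ := MulAction.exists_smul_eq G S T'
  obtain ⟨g₁, hg₁, g₂, hg₂, hab⟩ := hprod (a⁻¹ * b)
  have hb' : b = a * g₁ * g₂ := by
    rw [mul_assoc, ← hab]; group
  subst hb'
  set D := ((a • S : Sylow p G) : Subgroup G) ⊓ (((a * g₁ * g₂) • S : Sylow p G) : Subgroup G) with hD
  set D₁ := D.map (MulAut.conj (a * g₁)⁻¹).toMonoidHom with hD₁
  have hsm : ∀ (c : G) (T : Subgroup G), T ≤ (S : Subgroup G) → c ∈ G₁ → T.map (MulAut.conj c).toMonoidHom ≤ G₁ := by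
    intro c T hT hc z hz
    rw [mem_conj_iff] at hz
    have := G₁.mul_mem (G₁.mul_mem hc (h₁ (hT hz))) (G₁.inv_mem hc)
    simpa [mul_assoc] using this
  have hsm2 : ∀ (c : G) (T : Subgroup G), T ≤ (S : Subgroup G) → c ∈ G₂ → T.map (MulAut.conj c).toMonoidHom ≤ G₂ := by
    intro c T hT hc z hz
    rw [mem_conj_iff] at hz
    have := G₂.mul_mem (G₂.mul_mem hc (h₂ (hT hz))) (G₂.inv_mem hc)
    simpa [mul_assoc] using this
  have hD₁1 : D₁ ≤ ((g₁⁻¹ • S : Sylow p G) : Subgroup G) := by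
    rw [hD₁, coe_smul_sylow]
    intro z hz
    rw [mem_conj_iff, inv_inv] at hz ⊢
    have h1 : a * g₁ * z * (a * g₁)⁻¹ ∈ ((a • S : Sylow p G) : Subgroup G) := hz.1
    rw [coe_smul_sylow, mem_conj_iff] at h1
    have e : g₁ * z * g₁⁻¹ = a⁻¹ * (a * g₁ * z * (a * g₁)⁻¹) * a := by group
    rw [e]
    exact h1
  have hD₁2 : D₁ ≤ ((g₂ • S : Sylow p G) : Subgroup G) := by
    rw [hD₁, coe_smul_sylow]
    intro z hz
    rw [mem_conj_iff, inv_inv] at hz
    rw [mem_conj_iff]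
    have h1 : a * g₁ * z * (a * g₁)⁻¹ ∈ (((a * g₁ * g₂) • S : Sylow p G) : Subgroup G) := hz.2
    rw [coe_smul_sylow, mem_conj_iff] at h1
    have e : g₂⁻¹ * z * g₂ = (a * g₁ * g₂)⁻¹ * (a * g₁ * z * (a * g₁)⁻¹) * (a * g₁ * g₂) := by group
    rw [e]
    exact h1
  have hD₁G₁ : D₁ ≤ G₁ := by
    refine hD₁1.trans ?_
    rw [coe_smul_sylow]
    exact hsm _ _ le_rfl (G₁.inv_mem hg₁)
  have hD₁G₂ : D₁ ≤ G₂ := by
    refine hD₁2.trans ?_
    rw [coe_smul_sylow]
    exact hsm2 _ _ le_rfl hg₂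
  have hD₁p : IsPGroup p D₁ := IsPGroup.to_le (g₁⁻¹ • S : Sylow p G).2 hD₁1
  obtain ⟨W, hD₁W, hW⟩ := exists_isSylowIn_of_le hD₁p (le_inf hD₁G₁ hD₁G₂)
  obtain ⟨h, hh, hhW⟩ := hW.exists_conj (isSylowIn_of_sylow_le S (le_inf h₁ h₂))
  set D₂ := D₁.map (MulAut.conj h).toMonoidHom with hD₂
  have hD₂S : D₂ ≤ (S : Subgroup G) := by
    rw [← hhW]; exact conj_mono h hD₁W
  have hD₂1 : D₂ ≤ (((h * g₁⁻¹) • S : Sylow p G) : Subgroup G) := by
    rw [mul_smul, coe_smul_sylow (g := h)]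
    exact conj_mono h hD₁1
  have hD₂2 : D₂ ≤ (((h * g₂) • S : Sylow p G) : Subgroup G) := by
    rw [mul_smul, coe_smul_sylow (g := h)]
    exact conj_mono h hD₁2
  have hD₂ne : D₂ ≠ ⊥ := by
    intro h0
    apply hb
    rw [hD₂, hD₁] at h0
    rw [Subgroup.map_eq_bot_iff_of_injective _ (MulEquiv.injective _),
      Subgroup.map_eq_bot_iff_of_injective _ (MulEquiv.injective _)] at h0
    exact h0
  have hS₁ : (((h * g₁⁻¹) • S : Sylow p G) : Subgroup G) ≤ G₁ := by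
    rw [coe_smul_sylow]
    exact hsm _ _ le_rfl (G₁.mul_mem hh.1 (G₁.inv_mem hg₁))
  have hS₂ : (((h * g₂) • S : Sylow p G) : Subgroup G) ≤ G₂ := by
    rw [coe_smul_sylow]
    exact hsm2 _ _ le_rfl (G₂.mul_mem hh.2 hg₂)
  have l1 := link_in hf hr₁ hS₁ h₁ hD₂ne hD₂1 hD₂S
  have l2 := link_in hf hr₂ h₂ hS₂ hD₂ne hD₂S hD₂2
  have l3 := FLink.conj (top_family_normal hf) (a * g₁ * h⁻¹) (l1.trans l2)
  have e1 : (a * g₁ * h⁻¹) • ((h * g₁⁻¹) • S) = a • S := by
    rw [← mul_smul]; congr 1; group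
  have e2 : (a * g₁ * h⁻¹) • ((h * g₂) • S) = (a * g₁ * g₂) • S := by
    rw [← mul_smul]; congr 1; group
  have e3 : D₂.map (MulAut.conj (a * g₁ * h⁻¹)).toMonoidHom = D := by
    rw [hD₂, hD₁, conj_mul_conj, conj_mul_conj]
    have : a * g₁ * h⁻¹ * h * (a * g₁)⁻¹ = 1 := by group
    rw [this, conj_one']
  rw [e1, e2, e3] at l3
  exact l3


/-- Let p be a prime dividing the order of the finite group G, f an equivariant assignment of a set of subgroups f(P) of P to every p-subgroup P, each normalized by N_G(P), and S a Sylow p-subgroup. If G = G₁G₂ for subgroups G₁, G₂ both containing S and both regular for f (in each Gᵢ, the family of normalizers in Gᵢ of the members of f(P), P a Sylow p-subgroup of Gᵢ, controls Sylow p-intersections), then G itself is regular for f. -/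
theorem result {G : Type*} [Group G] [Finite G] (p : ℕ) [Fact p.Prime] (hdiv : p ∣ Nat.card G)
    (f : Subgroup G → Set (Subgroup G)) (hf : Cfsg.IsNormalizerFunctor p f) (S : Sylow p G)
    (G₁ G₂ : Subgroup G) (h₁ : (S : Subgroup G) ≤ G₁) (h₂ : (S : Subgroup G) ≤ G₂)
    (hprod : ∀ g : G, ∃ g₁ ∈ G₁, ∃ g₂ ∈ G₂, g = g₁ * g₂)
    (hr₁ : Cfsg.IsFunctorRegular p f G₁) (hr₂ : Cfsg.IsFunctorRegular p f G₂) :
    Cfsg.IsFunctorRegular p f ⊤ := by
  exact controls_top (main hf S G₁ G₂ h₁ h₂ hprod hr₁ hr₂)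

end Cfsg.Agent.S2957
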