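import Cfsg.Statements.S2958
import Mathlib

set_option autoImplicit false
open Cfsg

namespace Cfsg.Agent.S2958

/-- Let X, A, B be subgroups of a group G such that G is generated by the conjugates of X and every conjugate of X is contained in A or in B. Then A = G or B = G. -/
theorem result {G : Type*} [Group G] (X A B : Subgroup G) (hgen : (⨆ g : G, X.map (MulAut.conj g).toMonoidHom) = ⊤) (hcover : ∀ g : G, X.map (MulAut.conj g).toMonoidHom ≤ A ∨ X.map (MulAut.conj g).toMonoidHom ≤ B) : A = ⊤ ∨ B = ⊤ := by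
  classical
  have hcov : ∀ g : G, (∀ x ∈ X, g * x * g⁻¹ ∈ A) ∨ (∀ x ∈ X, g * x * g⁻¹ ∈ B) := by
    intro g
    rcases hcover g with h | h
    · left; intro x hx
      exact h (Subgroup.mem_map.mpr ⟨x, hx, by simp⟩)
    · right; intro x hx
      exact h (Subgroup.mem_map.mpr ⟨x, hx, by simp⟩)
  -- the set `A * B`
  let T : Set G := {z | ∃ a ∈ A, ∃ b ∈ B, z = a * b}
  -- key step: a conjugate of `X` moves `a` into `T`
  have key : ∀ (g x a : G), x ∈ X → a ∈ A → g * x * g⁻¹ * a ∈ T := by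
    intro g x a hx ha
    rcases hcov g with h | h
    · exact ⟨g * x * g⁻¹ * a, A.mul_mem (h x hx) ha, 1, B.one_mem, by simp⟩
    · rcases hcov (a⁻¹ * g) with h' | h'
      · refine ⟨g * x * g⁻¹ * a, ?_, 1, B.one_mem, by simp⟩
        have := h' x hx
        have h3 : a * ((a⁻¹ * g) * x * (a⁻¹ * g)⁻¹) * a⁻¹ ∈ A :=
          A.mul_mem (A.mul_mem ha this) (A.inv_mem ha)
        have h4 : g * x * g⁻¹ = a * ((a⁻¹ * g) * x * (a⁻¹ * g)⁻¹) * a⁻¹ := by group
        rw [h4]
        exact A.mul_mem h3 ha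
      · refine ⟨a, ha, (a⁻¹ * g) * x * (a⁻¹ * g)⁻¹, h' x hx, by group⟩
  have keyT : ∀ (g x z : G), x ∈ X → z ∈ T → g * x * g⁻¹ * z ∈ T := by
    rintro g x z hx ⟨a, ha, b, hb, rfl⟩
    obtain ⟨a', ha', b', hb', h⟩ := key g x a hx ha
    exact ⟨a', ha', b' * b, B.mul_mem hb' hb, by rw [← mul_assoc, h]; group⟩
  -- stabilizer subgroup
  let S : Subgroup G :=
    { carrier := {s | ∀ z ∈ T, s * z ∈ T ∧ s⁻¹ * z ∈ T}
      mul_mem' := by
        intro s t hs ht z hz
        constructor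
        · rw [mul_assoc]; exact (hs _ (ht z hz).1).1
        · rw [mul_inv_rev, mul_assoc]; exact (ht _ (hs z hz).2).2
      one_mem' := by intro z hz; simpa using hz
      inv_mem' := by
        intro s hs z hz
        simpa using (hs z hz).symm }
  have hS : (⨆ g : G, X.map (MulAut.conj g).toMonoidHom) ≤ S := by
    apply iSup_le
    intro g
    rintro _ ⟨x, hx, rfl⟩
    intro z hz
    refine ⟨by simpa using keyT g x z hx hz, ?_⟩
    have := keyT g x⁻¹ z (X.inv_mem hx) hz
    have h2 : ((MulAut.conj g).toMonoidHom x)⁻¹ = g * x⁻¹ * g⁻¹ := by simp [mul_assoc]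
    rw [h2]; exact this
  rw [hgen] at hS
  have h1T : (1 : G) ∈ T := ⟨1, A.one_mem, 1, B.one_mem, by simp⟩
  have hAB : ∀ g : G, g ∈ T := by
    intro g
    have := (hS (Subgroup.mem_top g)) 1 h1T
    simpa using this.1
  -- either `X` lies in all conjugates of `A`, or in all conjugates of `B`
  have hor : (∀ g : G, ∀ x ∈ X, g * x * g⁻¹ ∈ A) ∨ (∀ g : G, ∀ x ∈ X, g * x * g⁻¹ ∈ B) := by
    by_contra hcon
    push Not at hcon
    obtain ⟨⟨g, x, hx, hxA⟩, ⟨h, y, hy, hyB⟩⟩ := hcon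
    obtain ⟨a, ha, b, hb, hab⟩ := hAB (g * h⁻¹)
    -- k = a⁻¹ g = b h
    rcases hcov (a⁻¹ * g) with h' | h'
    · apply hxA
      have := h' x hx
      have h3 : a * ((a⁻¹ * g) * x * (a⁻¹ * g)⁻¹) * a⁻¹ ∈ A :=
        A.mul_mem (A.mul_mem ha this) (A.inv_mem ha)
      have h4 : g * x * g⁻¹ = a * ((a⁻¹ * g) * x * (a⁻¹ * g)⁻¹) * a⁻¹ := by group
      rw [h4]; exact h3
    · apply hyB
      have hk : a⁻¹ * g = b * h := by
        have : g = a * b * h := by rw [← hab]; group
        rw [this]; group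
      rw [hk] at h'
      have := h' y hy
      have h3 : b⁻¹ * ((b * h) * y * (b * h)⁻¹) * b ∈ B :=
        B.mul_mem (B.mul_mem (B.inv_mem hb) this) hb
      have h4 : h * y * h⁻¹ = b⁻¹ * ((b * h) * y * (b * h)⁻¹) * b := by group
      rw [h4]; exact h3
  rcases hor with h | h
  · left
    rw [eq_top_iff, ← hgen]
    apply iSup_le
    intro g
    rintro _ ⟨x, hx, rfl⟩
    simpa using h g x hx
  · right
    rw [eq_top_iff, ← hgen]
    apply iSup_le
    intro g
    rintro _ ⟨x, hx, rfl⟩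
    simpa using h g x hx

end Cfsg.Agent.S2958
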