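import Cfsg.Statements.S2963
import Mathlib

set_option autoImplicit false
open Cfsg

namespace Cfsg.Agent.S2963

theorem mem_of_all_swaps {n : ℕ} (M : Subgroup (Equiv.Perm (Fin n))) (x z : Fin n) (hxz : x ≠ z)
    (h1 : ∀ a b : Fin n, a ≠ x → b ≠ x → Equiv.swap a b ∈ M) (h2 : Equiv.swap x z ∈ M) :
    M = ⊤ := by
  classical
  rw [eq_top_iff, ← Equiv.Perm.closure_isSwap, Subgroup.closure_le]
  rintro σ ⟨a, b, hab, rfl⟩
  have hz : ∀ w, Equiv.swap x w ∈ M := by
    intro w
    by_cases hw : w = x
    · subst hw; rw [Equiv.swap_self]; exact M.one_mem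
    by_cases hwz : w = z
    · subst hwz; exact h2
    have h3 := h1 z w (Ne.symm hxz) hw
    have : Equiv.swap x w = Equiv.swap z w * Equiv.swap x z * (Equiv.swap z w)⁻¹ := by
      have h5 := Equiv.swap_apply_apply (Equiv.swap z w) x z
      rw [Equiv.swap_apply_of_ne_of_ne hxz (Ne.symm hw), Equiv.swap_apply_left] at h5
      exact h5
    rw [this]
    exact M.mul_mem (M.mul_mem h3 h2) (M.inv_mem h3)
  by_cases ha : a = x
  · subst ha; exact hz b
  by_cases hb : b = x
  · subst hb; rw [Equiv.swap_comm]; exact hz a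
  exact h1 a b ha hb

/-- Let n be odd. If the symmetric group of degree n is a minimal parabolic group for the prime 2, that is, a Sylow 2-subgroup is not normal and lies in exactly one maximal subgroup, then n = 2^m + 1 for some natural number m. -/
theorem result (n : ℕ) (hn : Odd n) (h : Cfsg.IsPMinimal 2 (Equiv.Perm (Fin n))) : ∃ m : ℕ, n = 2 ^ m + 1 := by
  classical
  haveI : Fact (Nat.Prime 2) := ⟨Nat.prime_two⟩
  obtain ⟨S⟩ : Nonempty (Sylow 2 (Equiv.Perm (Fin n))) := inferInstance
  obtain ⟨hSn, M, ⟨hMc, hSM⟩, hMu⟩ := h S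
  have hle : ∀ T : Subgroup (Equiv.Perm (Fin n)), (S : Subgroup _) ≤ T → T ≠ ⊤ → T ≤ M := by
    intro T hST hT
    obtain ⟨C, hC, hTC⟩ := (eq_top_or_exists_le_coatom T).resolve_left hT
    rw [← hMu C ⟨hC, hST.trans hTC⟩]
    exact hTC
  -- a fixed point
  have hnot : ¬ 2 ∣ Nat.card (Fin n) := by
    simp only [Nat.card_eq_fintype_card, Fintype.card_fin]
    exact fun h2 => (Nat.not_even_iff_odd.mpr hn) (even_iff_two_dvd.mpr h2)
  obtain ⟨x, hx⟩ := S.2.nonempty_fixed_point_of_prime_not_dvd_card (Fin n) hnot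
  have hxS : ∀ s ∈ (S : Subgroup (Equiv.Perm (Fin n))), s x = x := fun s hs => hx ⟨s, hs⟩
  -- `n ≠ 1`
  have hn1 : n ≠ 1 := by
    rintro rfl
    apply hSn
    have : Subsingleton (Equiv.Perm (Fin 1)) := inferInstance
    have h2 : (S : Subgroup (Equiv.Perm (Fin 1))) = ⊤ := Subsingleton.elim _ _
    rw [h2]
    infer_instance
  have hn3 : 3 ≤ n := by
    obtain ⟨k, rfl⟩ := hn
    omega
  obtain ⟨y, hy⟩ : ∃ y : Fin n, y ≠ x := by
    by_cases hx0 : x = ⟨0, by omega⟩
    · exact ⟨⟨1, by omega⟩, by rw [hx0]; simp [Fin.ext_iff]⟩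
    · exact ⟨⟨0, by omega⟩, Ne.symm hx0⟩
  set Y := MulAction.orbit (S : Subgroup (Equiv.Perm (Fin n))) y with hY
  have hyY : y ∈ Y := MulAction.mem_orbit_self y
  have hSY : ∀ s ∈ (S : Subgroup (Equiv.Perm (Fin n))), ∀ w ∈ Y, s w ∈ Y := by
    intro s hs w hw
    exact MulAction.mem_orbit_of_mem_orbit ⟨s, hs⟩ hw
  have hxY : x ∉ Y := by
    rintro ⟨s, hs⟩
    apply hy
    have h1 : (s : Equiv.Perm (Fin n)) y = x := hs
    have h2 : (s : Equiv.Perm (Fin n)) x = x := hxS s s.2
    exact (s : Equiv.Perm (Fin n)).injective (h1.trans h2.symm)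
  have hall : ∀ z, z ≠ x → z ∈ Y := by
    by_contra hcon
    push Not at hcon
    obtain ⟨z, hzx, hzY⟩ := hcon
    -- the two stabilizers
    let T : Subgroup (Equiv.Perm (Fin n)) :=
      { carrier := {σ | σ x = x}
        one_mem' := rfl
        mul_mem' := by
          intro a b ha hb
          simp only [Set.mem_setOf_eq] at ha hb ⊢
          rw [Equiv.Perm.mul_apply, hb, ha]
        inv_mem' := by
          intro a ha
          simp only [Set.mem_setOf_eq] at ha ⊢
          rw [Equiv.Perm.inv_eq_iff_eq]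
          exact ha.symm }
    let U : Subgroup (Equiv.Perm (Fin n)) :=
      { carrier := {σ | ∀ w, σ w ∈ Y ↔ w ∈ Y}
        one_mem' := by simp
        mul_mem' := by
          intro a b ha hb w
          simp only [Set.mem_setOf_eq] at ha hb
          rw [Equiv.Perm.mul_apply, ha, hb]
        inv_mem' := by
          intro a ha w
          simp only [Set.mem_setOf_eq] at ha
          rw [← ha (a⁻¹ w)]
          simp }
    have hST : (S : Subgroup (Equiv.Perm (Fin n))) ≤ T := fun s hs => hxS s hs
    have hSU : (S : Subgroup (Equiv.Perm (Fin n))) ≤ U := by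
      intro s hs w
      constructor
      · intro hw
        have := hSY s⁻¹ (Subgroup.inv_mem _ hs) _ hw
        simpa using this
      · exact hSY s hs w
    have hTtop : T ≠ ⊤ := by
      intro htop
      have : Equiv.swap x y ∈ T := by rw [htop]; trivial
      have h2 : Equiv.swap x y x = x := this
      rw [Equiv.swap_apply_left] at h2
      exact hy h2
    have hUtop : U ≠ ⊤ := by
      intro htop
      have : Equiv.swap y z ∈ U := by rw [htop]; trivial
      have h2 : (Equiv.swap y z y ∈ Y ↔ y ∈ Y) := this y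
      rw [Equiv.swap_apply_left] at h2
      exact hzY (h2.mpr hyY)
    have hTM := hle T hST hTtop
    have hUM := hle U hSU hUtop
    have h1 : ∀ a b : Fin n, a ≠ x → b ≠ x → Equiv.swap a b ∈ M := by
      intro a b ha hb
      apply hTM
      show Equiv.swap a b x = x
      exact Equiv.swap_apply_of_ne_of_ne (Ne.symm ha) (Ne.symm hb)
    have h2 : Equiv.swap x z ∈ M := by
      apply hUM
      intro w
      by_cases hwx : w = x
      · subst hwx
        rw [Equiv.swap_apply_left]
        exact iff_of_false hzY hxY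
      by_cases hwz : w = z
      · subst hwz
        rw [Equiv.swap_apply_right]
        exact iff_of_false hxY hzY
      rw [Equiv.swap_apply_of_ne_of_ne hwx hwz]
    exact hMc.1 (mem_of_all_swaps M x z (Ne.symm hzx) h1 h2)
  -- the orbit has size `n - 1`
  have hYe : Y = {x}ᶜ := by
    ext w
    simp only [Set.mem_compl_iff, Set.mem_singleton_iff]
    constructor
    · rintro hw rfl
      exact hxY hw
    · exact hall w
  obtain ⟨m, hm⟩ := S.2.card_orbit (α := Fin n) y
  refine ⟨m, ?_⟩
  have hc : Nat.card (MulAction.orbit (S : Subgroup (Equiv.Perm (Fin n))) y) = n - 1 := by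
    have h1 : Nat.card (MulAction.orbit (S : Subgroup (Equiv.Perm (Fin n))) y) = Nat.card ({x}ᶜ : Set (Fin n)) := by
      rw [← hY, hYe]
    rw [h1, Nat.card_eq_fintype_card, Fintype.card_compl_set]
    simp
  have : n - 1 = 2 ^ m := hc.symm.trans hm
  omega

end Cfsg.Agent.S2963
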