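import Cfsg.Statements.S2998
import Cfsg.Agent.Lib.FF.SylowIn
import Mathlib

set_option autoImplicit false
open Cfsg

namespace Cfsg.Agent.S2998

/-- Let G be a finite group, p a prime, P a Sylow p-subgroup of G and x ∈ P an element such that N_G(R) ≤ C_G(x) for every nontrivial subgroup R of P. Then P ≤ C_G(x); every G-conjugate of x lying in P equals x (so g ∈ C_G(x) whenever g x g⁻¹ ∈ P); and for every normal subgroup N of G, the image of x in G ⧸ N has the same property with respect to the image of P: the normalizer of every nontrivial subgroup of the image of P centralizes the image of x. -/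
theorem result {G : Type*} [Group G] [Finite G] {p : ℕ} [Fact p.Prime] (P : Sylow p G) (x : G) (hxP : x ∈ (P : Subgroup G)) (hlc : ∀ R : Subgroup G, R ≤ (P : Subgroup G) → R ≠ ⊥ → Subgroup.normalizer (R : Set G) ≤ Subgroup.centralizer ({x} : Set G)) : (P : Subgroup G) ≤ Subgroup.centralizer ({x} : Set G) ∧ (∀ g : G, g * x * g⁻¹ ∈ (P : Subgroup G) → g * x * g⁻¹ = x) ∧ ∀ (N : Subgroup G) [N.Normal], ∀ R : Subgroup (G ⧸ N), R ≤ (P : Subgroup G).map (QuotientGroup.mk' N) → R ≠ ⊥ → Subgroup.normalizer (R : Set (G ⧸ N)) ≤ Subgroup.centralizer ({(QuotientGroup.mk x : G ⧸ N)} : Set (G ⧸ N)) := by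
  classical
  open Cfsg.Agent.Lib.FF in
  have hP : (P : Subgroup G) ≤ Subgroup.centralizer ({x} : Set G) := by
    by_cases h : (P : Subgroup G) = ⊥
    · rw [h]; exact bot_le
    · exact (Subgroup.le_normalizer).trans (hlc _ le_rfl h)
  have hC : ∀ u w : G, w ∈ Subgroup.centralizer ({u} : Set G) ↔ w * u = u * w := by
    intro u w
    rw [Subgroup.mem_centralizer_singleton_iff]
  have hPne : ∀ R : Subgroup G, R ≤ (P : Subgroup G) → R ≠ ⊥ → (P : Subgroup G) ≠ ⊥ := by
    intro R hR hne h
    apply hne
    rw [h] at hR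
    exact le_bot_iff.mp hR
  refine ⟨hP, ?_, ?_⟩
  · intro g hg
    by_cases hx : x = 1
    · simp [hx]
    set y := g * x * g⁻¹ with hy
    have hy1 : y ≠ 1 := by
      intro h
      apply hx
      have : x = g⁻¹ * y * g := by rw [hy]; group
      rw [this, h]; group
    have hR : Subgroup.zpowers y ≤ (P : Subgroup G) := Subgroup.zpowers_le.mpr hg
    have hne : Subgroup.zpowers y ≠ ⊥ := by
      simpa using hy1
    have h1 : Subgroup.centralizer ({y} : Set G) ≤ Subgroup.centralizer ({x} : Set G) := by
      refine le_trans ?_ (hlc _ hR hne)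
      intro c hc
      have hc' := (hC y c).mp hc
      have hcy : c * y * c⁻¹ = y := by rw [hc']; group
      rw [Cfsg.Agent.Lib.FF.mem_normalizer_iff_conj, MonoidHom.map_zpowers]
      congr 1
    -- conjugation by `g` maps `C(x)` onto `C(y)`
    have hconjC : ∀ u : G, u ∈ Subgroup.centralizer ({x} : Set G) ↔ g * u * g⁻¹ ∈ Subgroup.centralizer ({y} : Set G) := by
      intro u
      rw [hC, hC, hy]
      constructor
      · intro h
        calc g * u * g⁻¹ * (g * x * g⁻¹) = g * (u * x) * g⁻¹ := by group
          _ = g * (x * u) * g⁻¹ := by rw [h]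
          _ = _ := by group
      · intro h
        have h2 : g * (u * x) * g⁻¹ = g * (x * u) * g⁻¹ := by
          calc g * (u * x) * g⁻¹ = g * u * g⁻¹ * (g * x * g⁻¹) := by group
            _ = g * x * g⁻¹ * (g * u * g⁻¹) := h
            _ = _ := by group
        simpa using h2
    have hcard : Nat.card (Subgroup.centralizer ({y} : Set G)) = Nat.card (Subgroup.centralizer ({x} : Set G)) := by
      have : (Subgroup.centralizer ({x} : Set G)).map (MulAut.conj g).toMonoidHom = Subgroup.centralizer ({y} : Set G) := by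
        ext u
        rw [Cfsg.Agent.Lib.FF.mem_conj_iff, hconjC]
        simp [mul_assoc]
      rw [← this]
      exact Cfsg.Agent.Lib.FF.card_conj _ _
    have heq : Subgroup.centralizer ({y} : Set G) = Subgroup.centralizer ({x} : Set G) :=
      Subgroup.eq_of_le_of_card_ge h1 (le_of_eq hcard.symm)
    -- `P^g ≤ C(x)`
    have hPg : (P : Subgroup G).map (MulAut.conj g).toMonoidHom ≤ Subgroup.centralizer ({x} : Set G) := by
      rintro _ ⟨u, hu, rfl⟩
      rw [← heq]
      exact (hconjC u).mp (hP hu)
    have hS1 := Cfsg.Agent.Lib.FF.isSylowIn_of_sylow_le (g • P) (L := Subgroup.centralizer ({x} : Set G)) (by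
      rw [Sylow.coe_subgroup_smul]; exact hPg)
    have hS2 := Cfsg.Agent.Lib.FF.isSylowIn_of_sylow_le P hP
    obtain ⟨c, hc, hc2⟩ := hS1.exists_conj hS2
    rw [Sylow.coe_subgroup_smul] at hc2
    have hN : c * g ∈ Subgroup.normalizer ((P : Subgroup G) : Set G) := by
      rw [Cfsg.Agent.Lib.FF.mem_normalizer_iff_conj, ← Cfsg.Agent.Lib.FF.conj_mul_conj]
      exact hc2
    have hPne' : (P : Subgroup G) ≠ ⊥ := hPne _ hR hne
    have h5 := hlc _ le_rfl hPne' hN
    rw [hC] at h5 hc
    -- `c g x = x c g`, `c x = x c`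
    have : g * x = x * g := by
      have h6 : c * (g * x) = c * (x * g) := by
        calc c * (g * x) = c * g * x := by group
          _ = x * (c * g) := h5
          _ = (x * c) * g := by group
          _ = (c * x) * g := by rw [hc]
          _ = _ := by group
      exact mul_left_cancel h6
    rw [hy, this]; group
  · intro N _ R hR hne gbar hgbar
    obtain ⟨g, rfl⟩ := QuotientGroup.mk_surjective gbar
    set π := QuotientGroup.mk' N with hπ
    let L : Subgroup G := R.comap π
    have hNL : N ≤ L := by
      intro n hn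
      have : π n = 1 := (QuotientGroup.eq_one_iff n).mpr hn
      show π n ∈ R
      rw [this]; exact R.one_mem
    have hLle : L ≤ (P : Subgroup G) ⊔ N := by
      intro z hz
      obtain ⟨y, hy, hyz⟩ := hR hz
      have : y⁻¹ * z ∈ N := by
        rw [← QuotientGroup.eq]
        exact hyz
      have h2 := Subgroup.mul_mem_sup hy this
      simpa using h2
    have hS := Cfsg.Agent.Lib.FF.isSylowIn_inf_of_le_sup P hNL hLle
    set R₀ := (P : Subgroup G) ⊓ L with hR₀
    have hR₀ne : R₀ ≠ ⊥ := by
      intro h0
      apply hne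
      rw [eq_bot_iff]
      intro z hz
      obtain ⟨y, hy, hyz⟩ := hR hz
      have hyR : y ∈ R₀ := ⟨hy, by show π y ∈ R; rw [show π y = z from hyz]; exact hz⟩
      rw [h0] at hyR
      have : y = 1 := by simpa using hyR
      rw [← hyz, this]
      simp
    have hgL : L.map (MulAut.conj g).toMonoidHom = L := by
      ext z
      rw [Cfsg.Agent.Lib.FF.mem_conj_iff]
      show π (g⁻¹ * z * g) ∈ R ↔ π z ∈ R
      have h3 := Subgroup.mem_normalizer_iff.mp hgbar (π (g⁻¹ * z * g))
      have h4 : (QuotientGroup.mk g : G ⧸ N) * π (g⁻¹ * z * g) * (QuotientGroup.mk g : G ⧸ N)⁻¹ = π z := by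
        have : (QuotientGroup.mk g : G ⧸ N) = π g := rfl
        rw [this, ← map_inv, ← map_mul, ← map_mul]
        congr 1
        group
      rw [h4] at h3
      exact h3
    have hS1 := hS.conj g
    rw [hgL] at hS1
    obtain ⟨l, hl, hl2⟩ := hS1.exists_conj hS
    have hN : l * g ∈ Subgroup.normalizer (R₀ : Set G) := by
      rw [Cfsg.Agent.Lib.FF.mem_normalizer_iff_conj, ← Cfsg.Agent.Lib.FF.conj_mul_conj]
      exact hl2
    have h5 := hlc R₀ inf_le_left hR₀ne hN
    rw [hC] at h5
    rw [Subgroup.mem_centralizer_singleton_iff]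
    -- the image of `l` lies in `R ≤ π(P)`, hence commutes with the image of `x`
    have hlR : π l ∈ R := hl
    obtain ⟨y, hy, hyl⟩ := hR hlR
    have hycomm := (hC x y).mp (hP hy)
    have h6 : π l * π x = π x * π l := by
      rw [← hyl]
      show π y * π x = π x * π y
      rw [← map_mul, ← map_mul, hycomm]
    have h7 : π l * π g * π x = π x * (π l * π g) := by
      rw [← map_mul, ← map_mul, ← map_mul, h5]
    have h8 : π l * (π g * π x) = π l * (π x * π g) := by
      calc π l * (π g * π x) = π l * π g * π x := by group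
        _ = π x * (π l * π g) := h7
        _ = (π x * π l) * π g := by group
        _ = (π l * π x) * π g := by rw [h6]
        _ = _ := by group
    exact mul_left_cancel h8

end Cfsg.Agent.S2998
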