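import Cfsg.Statements.S3003
import Cfsg.Agent.Lib.FStar.Hyperplane
import Cfsg.Agent.Lib.PGroup.Basic
import Mathlib

set_option autoImplicit false
open Cfsg

namespace Cfsg.Agent.S3003

theorem key {G : Type*} [Group G] [Finite G] {p : ℕ} [Fact p.Prime] (Q : Subgroup G) (hQp : IsPGroup p ↥Q)
    (hlarge : Cfsg.IsLarge Q) (G₁ : Subgroup G) (hQG : Q ≤ G₁) (R : Subgroup G)
    (hR : (Nat.card ↥R).Coprime p) (hGR : G₁ ≤ Subgroup.normalizer (R : Set G))
    {x g c : G} (hx : x ≠ 1) (hg : g ∈ G₁) (hz : g * x * g⁻¹ ∈ Q ⊓ Subgroup.centralizer (Q : Set G))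
    (hcR : c ∈ R) (hcx : c * x = x * c) : c = 1 := by
  classical
  have hdis : Disjoint R Q := Subgroup.disjoint_of_coprime_natCard (by
    obtain ⟨k, hk⟩ := IsPGroup.iff_card.mp hQp
    rw [hk]
    exact (hR.symm.pow_left k).symm)
  set z := g * x * g⁻¹ with hzdef
  have hz1 : z ≠ 1 := by
    rw [hzdef]
    intro h
    apply hx
    have : x = g⁻¹ * (g * x * g⁻¹) * g := by group
    rw [this, h]
    group
  set y := g * c * g⁻¹ with hy
  have hyR : y ∈ R := (Subgroup.mem_normalizer_iff.mp (hGR hg) c).mp hcR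
  have hyz : y * z = z * y := by
    rw [hy, hzdef]
    calc g * c * g⁻¹ * (g * x * g⁻¹) = g * (c * x) * g⁻¹ := by group
      _ = g * (x * c) * g⁻¹ := by rw [hcx]
      _ = g * x * g⁻¹ * (g * c * g⁻¹) := by group
  have hZle : Subgroup.zpowers z ≤ Subgroup.centralizer (Q : Set G) :=
    (Subgroup.zpowers_le).mpr hz.2
  have hZne : Subgroup.zpowers z ≠ ⊥ := by
    rw [Ne, Subgroup.zpowers_eq_bot]
    exact hz1
  have hyN : y ∈ Subgroup.normalizer (Q : Set G) := by
    apply hlarge.2 _ hZle hZne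
    apply Subgroup.centralizer_le_normalizer
    have h1 : Subgroup.zpowers z ≤ Subgroup.centralizer (({y} : Set G)) := by
      apply (Subgroup.zpowers_le).mpr
      rw [Subgroup.mem_centralizer_singleton_iff]
      exact hyz.symm
    apply Subgroup.mem_centralizer_iff.mpr
    intro w hw
    have := h1 hw
    rw [Subgroup.mem_centralizer_singleton_iff] at this
    exact this
  have hyC : y ∈ Subgroup.centralizer (Q : Set G) := by
    apply Subgroup.mem_centralizer_iff.mpr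
    intro q hq
    have h1 : y * q * y⁻¹ * q⁻¹ ∈ Q :=
      Q.mul_mem ((Subgroup.mem_normalizer_iff.mp hyN q).mp hq) (Q.inv_mem hq)
    have h2 : y * q * y⁻¹ * q⁻¹ ∈ R := by
      have h3 : q * y⁻¹ * q⁻¹ ∈ R :=
        (Subgroup.mem_normalizer_iff.mp (hGR (hQG hq)) _).mp (R.inv_mem hyR)
      have : y * q * y⁻¹ * q⁻¹ = y * (q * y⁻¹ * q⁻¹) := by group
      rw [this]
      exact R.mul_mem hyR h3
    have h3 := Subgroup.disjoint_def.mp hdis h2 h1
    have h4 : y * q = q * y := by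
      have : y * q = (y * q * y⁻¹ * q⁻¹) * (q * y) := by group
      rw [this, h3, one_mul]
    exact h4.symm
  have hyQ : y ∈ Q := hlarge.1 hyC
  have hy1 : y = 1 := Subgroup.disjoint_def.mp hdis hyR hyQ
  have : c = g⁻¹ * y * g := by rw [hy]; group
  rw [this, hy1]
  group

/-- Let G be a finite group, p a prime and Q a large p-subgroup of G: C_G(Q) ≤ Q and N_G(U) ≤ N_G(Q) for every nontrivial subgroup U of C_G(Q). Let Q ≤ G₁ ≤ G, let R be a subgroup of order prime to p normalized by G₁, and let U ≤ G₁ be a p-subgroup. If U contains a nontrivial element which is G₁-conjugate to an element of Z(Q), then C_R(U) = 1. In particular, if U is elementary abelian of order at least p² and every maximal subgroup of U contains a nontrivial element G₁-conjugate into Z(Q), then R = 1. -/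
theorem result {G : Type*} [Group G] [Finite G] {p : ℕ} [Fact p.Prime] (Q : Subgroup G) (hQp : IsPGroup p ↥Q) (hlarge : Cfsg.IsLarge Q) (G₁ : Subgroup G) (hQG : Q ≤ G₁) (R : Subgroup G) (hR : (Nat.card ↥R).Coprime p) (hGR : G₁ ≤ Subgroup.normalizer (R : Set G)) (U : Subgroup G) (hUG : U ≤ G₁) (hUp : IsPGroup p ↥U) : ((∃ x ∈ U, x ≠ 1 ∧ ∃ g ∈ G₁, g * x * g⁻¹ ∈ Q ⊓ Subgroup.centralizer (Q : Set G)) → R ⊓ Subgroup.centralizer (U : Set G) = ⊥) ∧ (Cfsg.IsElementaryAbelian p U → p ^ 2 ≤ Nat.card ↥U → (∀ U₀ : Subgroup G, U₀ ≤ U → IsCoatom (U₀.subgroupOf U) → ∃ x ∈ U₀, x ≠ 1 ∧ ∃ g ∈ G₁, g * x * g⁻¹ ∈ Q ⊓ Subgroup.centralizer (Q : Set G)) → R = ⊥) := by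
  classical
  have part1 : ∀ V : Subgroup G, (∃ x ∈ V, x ≠ 1 ∧ ∃ g ∈ G₁, g * x * g⁻¹ ∈ Q ⊓ Subgroup.centralizer (Q : Set G)) →
      R ⊓ Subgroup.centralizer (V : Set G) = ⊥ := by
    rintro V ⟨x, hxV, hx, g, hg, hz⟩
    rw [eq_bot_iff]
    rintro c ⟨hcR, hcC⟩
    have h1 := Subgroup.mem_centralizer_iff.mp hcC x hxV
    exact key Q hQp hlarge G₁ hQG R hR hGR hx hg hz hcR h1.symm
  refine ⟨part1 U, ?_⟩
  intro hE hcard hmax
  have hp' : p.Prime := Fact.out
  have hX : ¬ p ∣ Nat.card R := by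
    rw [← Nat.Prime.coprime_iff_not_dvd hp']
    exact hR.symm
  have hUR : ∀ a ∈ U, ∀ x ∈ R, a * x * a⁻¹ ∈ R := fun a ha x hx =>
    (Subgroup.mem_normalizer_iff.mp (hGR (hUG ha)) x).mp hx
  have h1 := Cfsg.Agent.Lib.FStar.le_hyperGen hE hX hUR
  rw [eq_bot_iff]
  refine h1.trans ?_
  apply iSup_le
  rintro ⟨B, hBU, hBrel⟩
  -- the index of `B` is `1` or `p`
  have hdvd : B.relIndex U ∣ Nat.card U := Subgroup.index_dvd_card _
  obtain ⟨k, hk⟩ := IsPGroup.iff_card.mp hUp
  rw [hk] at hdvd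
  obtain ⟨j, -, hj⟩ := (Nat.dvd_prime_pow hp').mp hdvd
  have hcoat : ∀ B₀ : Subgroup G, B₀ ≤ U → B₀.relIndex U = p →
      R ⊓ Subgroup.centralizer (B₀ : Set G) = ⊥ := by
    intro B₀ hB₀ hB₀p
    apply part1
    apply hmax B₀ hB₀
    apply Cfsg.Agent.Lib.PGroup.isCoatom_of_index_prime
    rw [← Subgroup.relIndex, hB₀p]
    exact hp'
  rcases j with _ | j
  · -- `B = U`
    have hBe : B = U := le_antisymm hBU (Subgroup.relIndex_eq_one.mp (by simpa using hj))
    subst hBe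
    -- a coatom of `B`
    haveI : Nontrivial ↥B := by
      rw [← Finite.one_lt_card_iff_nontrivial]
      have h3 : 1 < p ^ 2 := Nat.one_lt_pow (by norm_num) hp'.one_lt
      omega
    obtain ⟨C, hC, -⟩ := (eq_top_or_exists_le_coatom (⊥ : Subgroup ↥B)).resolve_left bot_ne_top
    have hU₀ := hmax (C.map B.subtype) (Subgroup.map_subtype_le _) (by
      have e : (C.map B.subtype).subgroupOf B = C :=
        Subgroup.comap_map_eq_self_of_injective B.subtype_injective C
      rwa [e])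
    have h5 := part1 _ hU₀
    rw [← h5]
    exact inf_le_inf_left _ (Subgroup.centralizer_le (Subgroup.map_subtype_le _))
  · have hpj : p ^ (j + 1) ≤ p := hj ▸ hBrel
    have hj0 : j = 0 := by
      by_contra hj0
      have h4 : p ^ 2 ≤ p ^ (j + 1) := Nat.pow_le_pow_right hp'.pos (by omega)
      have h5 : p ^ 2 = p * p := by ring
      have := hp'.one_lt
      nlinarith
    subst hj0
    rw [hcoat B hBU (by simpa using hj)]

end Cfsg.Agent.S3003
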