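import Cfsg.Statements.S3008
import Mathlib
import Cfsg.Agent.Lib.KS2.CLF

set_option autoImplicit false
open Cfsg

namespace Cfsg.Agent.S3008

open Subgroup Cfsg.Agent.Lib.FF Cfsg.Agent.Lib.KS2.CLG


/-- Let P be a finite p-group, with J(P) generated by its abelian subgroups of largest order and J̃(P) = C_P(Z(J(P))); call R ≤ P centrally large if |R|·|Z(R)| is as large as possible, and let P_MCL be generated by the minimal centrally large subgroups. Then: for every centrally large Q, Q·J(P) ⊇ J̃(P); some minimal centrally large subgroup of P is normalized by both J(P) and P_MCL; if P = J(P) and d(P)² = |P|·|Z(P)|, where d(P) is the largest order of an abelian subgroup, then every minimal centrally large subgroup of P is abelian; and if every minimal centrally large subgroup is abelian then J̃(P) = J(P). -/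
theorem result {p : ℕ} [Fact p.Prime] (P : Type*) [Group P] [Finite P] (hP : IsPGroup p P) : (∀ Q : Subgroup P, Cfsg.IsCentrallyLarge Q → Subgroup.centralizer ((Cfsg.thompsonSubgroupA P ⊓ Subgroup.centralizer (Cfsg.thompsonSubgroupA P : Set P) : Subgroup P) : Set P) ≤ Q ⊔ Cfsg.thompsonSubgroupA P) ∧ (∃ Q : Subgroup P, Cfsg.IsMinimalCentrallyLarge Q ∧ Cfsg.thompsonSubgroupA P ≤ Subgroup.normalizer (Q : Set P) ∧ Cfsg.minimalCentrallyLargeJoin P ≤ Subgroup.normalizer (Q : Set P)) ∧ (Cfsg.thompsonSubgroupA P = ⊤ → (∀ A ∈ Cfsg.maxAbelianSubgroups P, Nat.card ↥A ^ 2 = Nat.card P * Nat.card ↥(Subgroup.center P)) → ∀ Q : Subgroup P, Cfsg.IsMinimalCentrallyLarge Q → IsMulCommutative ↥Q) ∧ ((∀ Q : Subgroup P, Cfsg.IsMinimalCentrallyLarge Q → IsMulCommutative ↥Q) → Subgroup.centralizer ((Cfsg.thompsonSubgroupA P ⊓ Subgroup.centralizer (Cfsg.thompsonSubgroupA P : Set P) : Subgroup P) : Set P) = Cfsg.thompsonSubgroupA P) := by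
  classical
  refine ⟨fun Q hQ => centralizer_center_thompson_le (cl_sup_thompson hQ) le_sup_right,
    exists_min_cl_normal hP, ?_, ?_⟩
  · intro hJ hd Q hQ
    have htop : IsCentrallyLarge (⊤ : Subgroup P) := by
      have := cl_sup_thompson hQ.1
      rwa [hJ, sup_top_eq] at this
    have hczm : czm (⊤ : Subgroup P) = maxCentralProduct P := htop
    obtain ⟨A, hA⟩ := exists_maxAbelian (G := P)
    have hY := (cl_maxAbelian_main hQ.1 hA).2.2
    have hYle : (Q ⊓ A) ⊔ (Q ⊓ Subgroup.centralizer (Q : Set P)) ≤ Q := sup_le inf_le_left inf_le_left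
    set Y := (Q ⊓ A) ⊔ (Q ⊓ Subgroup.centralizer (Q : Set P)) with hYdef
    have hab := hY.1
    have e1 : czm Y = Nat.card Y * Nat.card Y := by
      rw [czm_eq, inf_eq_left.mpr (le_cc_of_ab hab)]
    have e2 : czm (⊤ : Subgroup P) = Nat.card P * Nat.card ↥(Subgroup.center P) := by
      rw [czm_eq, top_inf_eq, Subgroup.coe_top, Subgroup.centralizer_univ, Subgroup.card_top]
    have hcl : IsCentrallyLarge Y := by
      apply isCentrallyLarge_iff.mpr
      rw [← hczm, e1, e2, ← hd Y hY, sq]
    have := hQ.2 Y hYle hcl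
    rw [← this]
    exact hab
  · intro hall
    obtain ⟨R, hR⟩ := exists_czm_eq_max (G := P)
    obtain ⟨Q, -, hQ⟩ := exists_minimal_cl_le hR
    have hab := hall Q hQ
    have hQJ : Q ≤ thompsonSubgroupA P := le_sSup ((min_cl_abelian hQ hab Q).mp hQ)
    have hJcl : IsCentrallyLarge (thompsonSubgroupA P) := by
      have := cl_sup_thompson hQ.1
      rwa [sup_eq_right.mpr hQJ] at this
    apply le_antisymm (centralizer_center_thompson_le hJcl le_rfl)
    intro x hx
    rw [Subgroup.mem_centralizer_iff]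
    intro y hy
    exact (Subgroup.mem_centralizer_iff.mp hy.2 x hx).symm

end Cfsg.Agent.S3008
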