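import Cfsg.Statements.S3011
import Cfsg.Agent.S0199
import Mathlib

set_option autoImplicit false
open Cfsg

namespace Cfsg.Agent.S3011

section
variable {G : Type*} [Group G] [Finite G]

theorem isPGroup_zpowers_of_pow {x : G} {n : ℕ} (h : x ^ (2 ^ n) = 1) : IsPGroup 2 (Subgroup.zpowers x) := by
  obtain ⟨m, -, hm⟩ := (Nat.dvd_prime_pow Nat.prime_two).mp (orderOf_dvd_of_pow_eq_one h)
  exact IsPGroup.of_card (n := m) (by rw [Nat.card_zpowers, hm])

/-- Baer–Suzuki for an involution. -/
theorem exists_inverted {a : G} (ha : a ^ 2 = 1) (hn : a ∉ pCore 2 G) :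
    ∃ h : G, h ≠ 1 ∧ Odd (orderOf h) ∧ a * h * a⁻¹ = h⁻¹ := by
  haveI : Fact (Nat.Prime 2) := ⟨Nat.prime_two⟩
  by_contra hno
  push Not at hno
  have ha' : a⁻¹ = a := inv_eq_of_mul_eq_one_left (by rw [← pow_two, ha])
  have hpair : ∀ g : G, IsPGroup 2 ↥(Subgroup.zpowers a ⊔ (Subgroup.zpowers a).map (MulAut.conj g).toMonoidHom) := by
    intro g
    set b := g * a * g⁻¹ with hb
    have hb2 : b⁻¹ = b := by
      apply inv_eq_of_mul_eq_one_left
      rw [hb]
      have : g * a * g⁻¹ * (g * a * g⁻¹) = g * (a * a) * g⁻¹ := by group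
      rw [this, ← pow_two, ha]; simp
    have hmap : (Subgroup.zpowers a).map (MulAut.conj g).toMonoidHom = Subgroup.zpowers b := by
      rw [MonoidHom.map_zpowers]; rfl
    rw [hmap]
    set u := a * b with hu
    have hinv : a * u * a⁻¹ = u⁻¹ := by
      rw [hu, mul_inv_rev, hb2, ha']
      have : a * a = 1 := by rw [← pow_two, ha]
      calc a * (a * b) * a = (a * a) * b * a := by group
        _ = b * a := by rw [this, one_mul]
    have hinvpow : ∀ n : ℕ, a * u ^ n * a⁻¹ = (u ^ n)⁻¹ := by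
      intro n
      rw [← inv_pow, ← hinv, conj_pow]
    obtain ⟨e, m, hm, he⟩ := Nat.exists_eq_two_pow_mul_odd (orderOf_pos u).ne'
    have hord : orderOf (u ^ (2 ^ e)) = m := by
      rw [orderOf_pow_of_dvd (pow_ne_zero _ two_ne_zero) ⟨m, he⟩, he]
      exact Nat.mul_div_cancel_left _ (by positivity)
    have h1 : u ^ (2 ^ e) = 1 := by
      by_contra hne
      exact hno _ hne (hord ▸ hm) (hinvpow _)
    have hU := isPGroup_zpowers_of_pow h1
    have hA : IsPGroup 2 (Subgroup.zpowers a) :=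
      isPGroup_zpowers_of_pow (n := 1) (by rw [pow_one]; exact ha)
    have hle : Subgroup.zpowers a ≤ Subgroup.normalizer (Subgroup.zpowers u : Set G) := by
      rw [Subgroup.zpowers_le, Subgroup.mem_normalizer_iff]
      have hconj : ∀ i : ℤ, a * u ^ i * a⁻¹ = (u ^ i)⁻¹ := by
        intro i
        rw [← conj_zpow, hinv, inv_zpow]
      intro x
      constructor
      · rintro ⟨i, rfl⟩
        exact ⟨-i, by simp only [zpow_neg]; exact (hconj i).symm⟩
      · rintro ⟨i, hi⟩
        have hi' : u ^ i = a * x * a⁻¹ := hi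
        have : x = a⁻¹ * u ^ i * a := by rw [hi']; group
        rw [ha'] at this
        have h2 := hconj i
        rw [ha'] at h2
        rw [this, h2]
        exact inv_mem (zpow_mem (Subgroup.mem_zpowers u) i)
    have hsup := IsPGroup.to_sup_of_normal_right' hA hU hle
    refine hsup.to_le (sup_le le_sup_left ?_)
    rw [Subgroup.zpowers_le]
    have hb3 : b = a * u := by
      rw [hu, ← mul_assoc]
      have : a * a = 1 := by rw [← pow_two, ha]
      rw [this, one_mul]
    rw [hb3]
    exact mul_mem (le_sup_left (a := Subgroup.zpowers a) (Subgroup.mem_zpowers a))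
      (le_sup_right (a := Subgroup.zpowers a) (Subgroup.mem_zpowers u))
  have hA : IsPGroup 2 (Subgroup.zpowers a) :=
    isPGroup_zpowers_of_pow (n := 1) (by rw [pow_one]; exact ha)
  obtain ⟨N, hNn, hNp, hN⟩ := Cfsg.Agent.S0199.result (p := 2) (Subgroup.zpowers a) hA hpair
  apply hn
  exact (le_sSup ⟨hNn, hNp⟩ : N ≤ pCore 2 G) (hN (Subgroup.mem_zpowers a))

theorem eq_one_of_sq {y : G} (hy : Odd (orderOf y)) (h : y * y = 1) : y = 1 := by
  have h1 : orderOf y ∣ 2 := orderOf_dvd_of_pow_eq_one (by rw [pow_two, h])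
  have h2 : orderOf y = 1 ∨ orderOf y = 2 := (Nat.dvd_prime Nat.prime_two).mp h1
  rcases h2 with h2 | h2
  · exact orderOf_eq_one_iff.mp h2
  · rw [h2] at hy; exact absurd hy (by decide)

theorem odd_mul_of_commute {x y : G} (hc : Commute x y) (hx : Odd (orderOf x)) (hy : Odd (orderOf y)) :
    Odd (orderOf (x * y)) := by
  have h1 : orderOf (x * y) ∣ orderOf x * orderOf y := by
    apply orderOf_dvd_of_pow_eq_one
    rw [hc.mul_pow, pow_mul, pow_orderOf_eq_one, one_pow, mul_comm, pow_mul, pow_orderOf_eq_one, one_pow, mul_one]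
  exact Odd.of_dvd_nat (hx.mul hy) h1

end

/-- Let G be a finite group and V a nontrivial elementary abelian 2-subgroup of G of order at most 4 such that, whenever an element of V inverts an element h of G of odd order, some nontrivial element of V commutes with h. Then V meets O₂(G) nontrivially. (The case of order at most 4 has a short argument from the Baer–Suzuki theorem.) -/
theorem result {G : Type*} [Group G] [Finite G] (V : Subgroup G) (hV : Cfsg.IsElementaryAbelian 2 V) (hV1 : V ≠ ⊥) (hS : Cfsg.IsSidkiPair V) (h4 : Nat.card V ≤ 4) : V ⊓ Cfsg.pCore 2 G ≠ ⊥ := by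
  classical
  intro hbot
  have hnot : ∀ v ∈ V, v ≠ 1 → v ∉ pCore 2 G := fun v hv h1 hp => h1 (by
    have hm : v ∈ V ⊓ pCore 2 G := ⟨hv, hp⟩
    rw [hbot] at hm
    exact Subgroup.mem_bot.mp hm)
  have hsq : ∀ v ∈ V, v ^ 2 = 1 := hV.2
  have hsq' : ∀ v ∈ V, v * v = 1 := fun v hv => by rw [← pow_two]; exact hsq v hv
  have hinv' : ∀ v ∈ V, v⁻¹ = v := fun v hv => inv_eq_of_mul_eq_one_left (hsq' v hv)
  have hcomm : ∀ x ∈ V, ∀ y ∈ V, x * y = y * x := fun x hx y hy =>
    congrArg Subtype.val (hV.1.is_comm.comm ⟨x, hx⟩ ⟨y, hy⟩)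
  obtain ⟨⟨a, ha⟩, ha1⟩ := (Subgroup.ne_bot_iff_exists_ne_one).mp hV1
  have ha1 : a ≠ 1 := fun h => ha1 (Subtype.ext h)
  obtain ⟨h, hh1, hhodd, hah⟩ := exists_inverted (hsq a ha) (hnot a ha ha1)
  obtain ⟨b, hb, hb1, hbh'⟩ := hS h a ha hhodd hah
  have hhh : ∀ w : G, w * h = h * w → w * h * w⁻¹ = h := fun w hw => by rw [hw]; group
  have hbh : b * h * b⁻¹ = h := hhh b hbh'
  have hneq : ∀ {y : G}, Odd (orderOf y) → y⁻¹ = y → y = 1 := fun {y} hy hi =>
    eq_one_of_sq hy (by nth_rewrite 1 [← hi]; group)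
  have hba : b ≠ a := by
    rintro rfl
    apply hh1
    exact hneq hhodd (hah.symm.trans hbh)
  obtain ⟨k, hk1, hkodd, hbk⟩ := exists_inverted (hsq b hb) (hnot b hb hb1)
  have hab : a * b ∈ V := mul_mem ha hb
  have hab1 : a * b ≠ 1 := by
    intro he
    apply hba
    have h1 := hinv' a ha
    rw [← h1]
    exact (eq_inv_of_mul_eq_one_right he)
  -- the four elements
  have hfour : ∀ x ∈ V, x = 1 ∨ x = a ∨ x = b ∨ x = a * b := by
    intro x hx
    by_contra hcon
    push Not at hcon
    obtain ⟨hx1, hxa, hxb, hxab⟩ := hcon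
    haveI : Fintype V := Fintype.ofFinite V
    let S : Finset V := {⟨1, one_mem V⟩, ⟨a, ha⟩, ⟨b, hb⟩, ⟨a * b, hab⟩, ⟨x, hx⟩}
    have hS5 : S.card = 5 := by
      have hne : ∀ {u v : G} {hu : u ∈ V} {hv : v ∈ V}, u ≠ v → (⟨u, hu⟩ : V) ≠ ⟨v, hv⟩ :=
        fun hne he => hne (congrArg Subtype.val he)
      have h1a : (1 : G) ≠ a := ha1.symm
      have h1b : (1 : G) ≠ b := hb1.symm
      have h1ab : (1 : G) ≠ a * b := hab1.symm
      have h1x : (1 : G) ≠ x := hx1.symm
      have hab' : a ≠ b := hba.symm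
      have haab : a ≠ a * b := fun he => hb1 (by simpa using he)
      have hax : a ≠ x := hxa.symm
      have hbab : b ≠ a * b := fun he => ha1 (by simpa using he)
      have hbx : b ≠ x := hxb.symm
      have habx : a * b ≠ x := hxab.symm
      simp only [S]
      rw [Finset.card_insert_of_notMem, Finset.card_insert_of_notMem, Finset.card_insert_of_notMem,
        Finset.card_insert_of_notMem, Finset.card_singleton]
      · simp only [Finset.mem_singleton]; exact hne habx
      · simp only [Finset.mem_insert, Finset.mem_singleton, not_or]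
        exact ⟨hne hbab, hne hbx⟩
      · simp only [Finset.mem_insert, Finset.mem_singleton, not_or]
        exact ⟨hne hab', hne haab, hne hax⟩
      · simp only [Finset.mem_insert, Finset.mem_singleton, not_or]
        exact ⟨hne h1a, hne h1b, hne h1ab, hne h1x⟩
    have hle := Finset.card_le_univ S
    rw [hS5, ← Nat.card_eq_fintype_card] at hle
    omega
  -- conjugates of `a` by `C(b)`
  have hkey : ∀ z : G, z * b = b * z →
      (z * a * z⁻¹) * k = k * (z * a * z⁻¹) ∨ (z * a * z⁻¹ * b) * k = k * (z * a * z⁻¹ * b) := by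
    intro z hz
    set y := z⁻¹ * k * z with hy
    have hyodd : Odd (orderOf y) := by
      have := (MulAut.conj z⁻¹).orderOf_eq k
      rw [← this] at hkodd
      have he : (MulAut.conj z⁻¹) k = y := by simp [hy, MulAut.conj_apply]
      rwa [he] at hkodd
    have hz' : z⁻¹ * b = b * z⁻¹ := (show Commute z b from hz).inv_left.eq
    have hz'' : z * b⁻¹ = b⁻¹ * z := (show Commute z b from hz).inv_right.eq
    have hbinv : b * y * b⁻¹ = y⁻¹ := by
      calc b * (z⁻¹ * k * z) * b⁻¹ = (b * z⁻¹) * k * (z * b⁻¹) := by group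
        _ = (z⁻¹ * b) * k * (b⁻¹ * z) := by rw [← hz', hz'']
        _ = z⁻¹ * (b * k * b⁻¹) * z := by group
        _ = z⁻¹ * k⁻¹ * z := by rw [hbk]
        _ = (z⁻¹ * k * z)⁻¹ := by group
    have hgen : ∀ w : G, w * y = y * w → (z * w * z⁻¹) * k = k * (z * w * z⁻¹) := by
      intro w hw
      calc (z * w * z⁻¹) * k = z * (w * (z⁻¹ * k * z)) * z⁻¹ := by group
        _ = z * ((z⁻¹ * k * z) * w) * z⁻¹ := by rw [← hy, hw]
        _ = k * (z * w * z⁻¹) := by group
    obtain ⟨w, hw, hw1, hwy⟩ := hS y b hb hyodd hbinv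
    have hwb : w ≠ b := by
      rintro rfl
      have h3 : y⁻¹ = y := by rw [← hbinv, hwy]; group
      have h4 := hneq hyodd h3
      apply hk1
      rw [hy] at h4
      have : k = z * (z⁻¹ * k * z) * z⁻¹ := by group
      rw [this, h4]; group
    rcases hfour w hw with rfl | rfl | rfl | rfl
    · exact absurd rfl hw1
    · exact Or.inl (hgen _ hwy)
    · exact absurd rfl hwb
    · right
      have e : z * a * z⁻¹ * b = z * (a * b) * z⁻¹ := by
        calc z * a * z⁻¹ * b = z * a * (z⁻¹ * b) := by group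
          _ = z * a * (b * z⁻¹) := by rw [hz']
          _ = z * (a * b) * z⁻¹ := by group
      rw [e]
      exact hgen _ hwy
  have hk0 : Commute a k ∨ Commute (a * b) k := by
    have h0 := hkey 1 (by simp)
    simpa [Commute, SemiconjBy] using h0
  have hk1' : Commute (h * a * h⁻¹) k ∨ Commute (h * a * h⁻¹ * b) k := hkey h hbh'.symm
  set x₁ := h * a * h⁻¹ with hx₁
  have hax : a * a = 1 := hsq' a ha
  have hbb : b * b = 1 := hsq' b hb
  have hab' : a * b = b * a := hcomm a ha b hb
  have ha' : a⁻¹ = a := hinv' a ha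
  have ht : h * h = x₁ * a := by
    have : a * h⁻¹ * a⁻¹ = h := by
      have h2 : a * h⁻¹ * a⁻¹ = (a * h * a⁻¹)⁻¹ := by group
      rw [h2, hah, inv_inv]
    rw [ha'] at this
    rw [hx₁]
    calc h * h = h * (a * h⁻¹ * a) := by rw [this]
      _ = h * a * h⁻¹ * a := by group
  have hbx₁ : x₁ * b = b * x₁ := by
    rw [hx₁]
    calc h * a * h⁻¹ * b = h * a * (h⁻¹ * b) := by group
      _ = h * a * (b * h⁻¹) := by rw [(show Commute h b from hbh'.symm).inv_left.eq]
      _ = h * (a * b) * h⁻¹ := by group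
      _ = h * (b * a) * h⁻¹ := by rw [hab']
      _ = (h * b) * a * h⁻¹ := by group
      _ = (b * h) * a * h⁻¹ := by rw [hbh']
      _ = b * (h * a * h⁻¹) := by group
  set t := h * h with htdef
  have hcases : Commute t k ∨ Commute (t * b) k := by
    rw [ht]
    rcases hk1' with c1 | c1 <;> rcases hk0 with c0 | c0
    · exact Or.inl (c1.mul_left c0)
    · right
      have := c1.mul_left c0
      rwa [← mul_assoc] at this
    · right
      have := c1.mul_left c0
      have e : x₁ * b * a = x₁ * a * b := by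
        calc x₁ * b * a = x₁ * (b * a) := mul_assoc _ _ _
          _ = x₁ * (a * b) := by rw [hab']
          _ = x₁ * a * b := (mul_assoc _ _ _).symm
      rwa [e] at this
    · left
      have := c1.mul_left c0
      have e : x₁ * b * (a * b) = x₁ * a := by
        calc x₁ * b * (a * b) = x₁ * (b * a) * b := by group
          _ = x₁ * (a * b) * b := by rw [hab']
          _ = x₁ * a * (b * b) := by group
          _ = x₁ * a := by rw [hbb, mul_one]
      rwa [e] at this
  obtain ⟨j, hj⟩ := hhodd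
  have htm : t ^ (orderOf h) = 1 := by
    rw [htdef, ← pow_two, ← pow_mul, mul_comm, pow_mul, pow_orderOf_eq_one, one_pow]
  have hCtb : Commute t b := by
    rw [htdef]
    exact ((show Commute h b from hbh'.symm).mul_left (show Commute h b from hbh'.symm))
  have hbpow : b ^ (orderOf h) = b := by
    rw [hj, pow_succ, pow_mul, hsq b hb, one_pow, one_mul]
  have hCt : Commute t k := by
    rcases hcases with c | c
    · exact c
    · exfalso
      have h1 := c.pow_left (orderOf h)
      rw [hCtb.mul_pow, htm, one_mul, hbpow] at h1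
      apply hk1
      refine hneq (Odd.of_dvd_nat (by exact ⟨0, by simp⟩) (dvd_refl 1) |> fun _ => hkodd) ?_
      rw [← hbk, h1.eq]; group
  have hhk : Commute h k := by
    have e : h = t ^ (j + 1) := by
      have h2 : h ^ (2 * j + 1) = 1 := by rw [← hj, pow_orderOf_eq_one]
      rw [htdef, ← pow_two, ← pow_mul]
      have : h ^ (2 * (j + 1)) = h ^ (2 * j + 1) * h := by rw [← pow_succ]; ring_nf
      rw [this, h2, one_mul]
    rw [e]
    exact hCt.pow_left _
  have hhodd : Odd (orderOf h) := ⟨j, hj⟩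
  set y := h * k with hy
  have hyodd : Odd (orderOf y) := odd_mul_of_commute hhk hhodd hkodd
  have hcj : ∀ w : G, w * y * w⁻¹ = (w * h * w⁻¹) * (w * k * w⁻¹) := fun w => by rw [hy]; group
  have hh_inv : h⁻¹ ≠ h := fun e => hh1 (hneq hhodd e)
  have hk_inv : k⁻¹ ≠ k := fun e => hk1 (hneq hkodd e)
  have hyinv : h⁻¹ * k⁻¹ = y⁻¹ := by
    rw [hy, mul_inv_rev]
    exact (hhk.inv_inv).eq
  have habh : (a * b) * h * (a * b)⁻¹ = h⁻¹ := by
    calc (a * b) * h * (a * b)⁻¹ = a * (b * h * b⁻¹) * a⁻¹ := by group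
      _ = h⁻¹ := by rw [hbh, hah]
  have habk' : (a * b) * k * (a * b)⁻¹ = (a * k * a⁻¹)⁻¹ := by
    calc (a * b) * k * (a * b)⁻¹ = a * (b * k * b⁻¹) * a⁻¹ := by group
      _ = a * k⁻¹ * a⁻¹ := by rw [hbk]
      _ = (a * k * a⁻¹)⁻¹ := by group
  have hcom : ∀ w : G, w * y = y * w → w * y * w⁻¹ = y := fun w hw => by rw [hw]; group
  have hbcase : ∀ w : G, w = b → w * y = y * w → False := by
    rintro w rfl hw
    have h1 := hcom _ hw
    rw [hcj, hbh, hbk, hy] at h1
    exact hk_inv (mul_left_cancel h1)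
  have hyone : y⁻¹ = y → k = h⁻¹ := by
    intro he
    have h1 := hneq hyodd he
    rw [hy] at h1
    exact eq_inv_of_mul_eq_one_right h1
  rcases hk0 with c0 | c0
  · have hak : a * k * a⁻¹ = k := by rw [c0.eq]; group
    have habk : (a * b) * k * (a * b)⁻¹ = k⁻¹ := by rw [habk', hak]
    have hinvy : (a * b) * y * (a * b)⁻¹ = y⁻¹ := by rw [hcj, habh, habk, hyinv]
    obtain ⟨w, hw, hw1, hwy⟩ := hS y (a * b) hab hyodd hinvy
    rcases hfour w hw with rfl | rfl | rfl | rfl
    · exact hw1 rfl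
    · have h1 := hcom _ hwy
      rw [hcj, hah, hak, hy] at h1
      exact hh_inv (mul_right_cancel h1)
    · exact hbcase _ rfl hwy
    · have h1 := hcom _ hwy
      rw [hinvy] at h1
      have h2 := hyone h1
      rw [h2] at hak
      apply hh_inv
      have h3 : a * h⁻¹ * a⁻¹ = (a * h * a⁻¹)⁻¹ := by group
      rw [h3, hah, inv_inv] at hak
      exact hak.symm
  · have habk : (a * b) * k * (a * b)⁻¹ = k := by rw [c0.eq]; group
    have hak : a * k * a⁻¹ = k⁻¹ := inv_eq_iff_eq_inv.mp (habk'.symm.trans habk)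
    have hinvy : a * y * a⁻¹ = y⁻¹ := by rw [hcj, hah, hak, hyinv]
    obtain ⟨w, hw, hw1, hwy⟩ := hS y a ha hyodd hinvy
    rcases hfour w hw with rfl | rfl | rfl | rfl
    · exact hw1 rfl
    · have h1 := hcom _ hwy
      rw [hinvy] at h1
      have h2 := hyone h1
      rw [h2] at hbk
      apply hh_inv
      have h3 : b * h⁻¹ * b⁻¹ = (b * h * b⁻¹)⁻¹ := by group
      rw [h3, hbh, inv_inv] at hbk
      exact hbk
    · exact hbcase _ rfl hwy
    · have h1 := hcom _ hwy
      rw [hcj, habh, habk, hy] at h1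
      exact hh_inv (mul_right_cancel h1)

end Cfsg.Agent.S3011
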