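import Cfsg.Statements.S3012
import Mathlib

set_option autoImplicit false
open Cfsg

namespace Cfsg.Agent.S3012

/-- Let G be a finite group, V a nontrivial elementary abelian 2-subgroup of G satisfying the Sidki pair condition (every odd-order element inverted by an element of V commutes with a nontrivial element of V), and K a normal subgroup of G with V ∩ K = 1. Then the image of V in G/K satisfies the Sidki pair condition in G/K. -/
theorem result {G : Type*} [Group G] [Finite G] (V K : Subgroup G) [K.Normal] (hV : Cfsg.IsElementaryAbelian 2 V) (hV1 : V ≠ ⊥) (hS : Cfsg.IsSidkiPair V) (hVK : V ⊓ K = ⊥) : Cfsg.IsSidkiPair (V.map (QuotientGroup.mk' K)) := by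
  classical
  intro hbar vbar hv hodd hinv
  obtain ⟨v, hvV, rfl⟩ := hv
  set π := QuotientGroup.mk' K with hπ
  have hv2 : v * v = 1 := by
    have := hV.2 v hvV
    rwa [pow_two] at this
  have hvinv : v⁻¹ = v := inv_eq_of_mul_eq_one_left hv2
  have hπv2 : π v * π v = 1 := by rw [← map_mul, hv2, map_one]
  have hπvinv : (π v)⁻¹ = π v := inv_eq_of_mul_eq_one_left hπv2
  obtain ⟨n, hn⟩ := hodd
  set a := n + 1 with ha
  have hpow : hbar ^ (a + a) = hbar := by
    have h1 : hbar ^ orderOf hbar = 1 := pow_orderOf_eq_one hbar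
    have h2 : a + a = orderOf hbar + 1 := by omega
    rw [h2, pow_succ, h1, one_mul]
  obtain ⟨d, hd⟩ := QuotientGroup.mk'_surjective K (hbar ^ a)
  set u := d * v * d⁻¹ with hu
  have hu2 : u⁻¹ = u := by
    rw [hu]
    simp only [mul_inv_rev, inv_inv, hvinv, mul_assoc]
  have hinv' : π v * hbar * π v = hbar⁻¹ := by
    have := hinv
    rwa [hπvinv] at this
  have h0 : π v * hbar⁻¹ * π v = hbar := by
    calc π v * hbar⁻¹ * π v = (π v)⁻¹ * hbar⁻¹ * (π v)⁻¹ := by rw [hπvinv]
      _ = (π v * hbar * π v)⁻¹ := by group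
      _ = hbar := by rw [hinv', inv_inv]
  have hswap : π v * (hbar ^ a)⁻¹ * π v = hbar ^ a := by
    have h1 : π v * (hbar⁻¹) ^ a * (π v)⁻¹ = (π v * hbar⁻¹ * (π v)⁻¹) ^ a := (conj_pow).symm
    rw [hπvinv, h0, inv_pow] at h1
    exact h1
  have hπu : π u = hbar * π v := by
    rw [hu, map_mul, map_mul, map_inv, hd]
    have : hbar ^ a * π v * (hbar ^ a)⁻¹ = hbar ^ a * (π v * (hbar ^ a)⁻¹ * π v) * π v := by
      calc hbar ^ a * π v * (hbar ^ a)⁻¹ = hbar ^ a * π v * (hbar ^ a)⁻¹ * (π v * π v) := by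
            rw [hπv2, mul_one]
        _ = _ := by group
    rw [this, hswap, ← pow_add, hpow]
  set t := u * v with ht
  have hπt : π t = hbar := by
    rw [ht, map_mul, hπu, mul_assoc, hπv2, mul_one]
  have hvt : v * t * v⁻¹ = t⁻¹ := by
    rw [ht, hvinv, mul_inv_rev, hu2, hvinv, mul_assoc, mul_assoc, hv2, mul_one]
  have hpos : orderOf t ≠ 0 := (orderOf_pos t).ne'
  obtain ⟨b, c, hc, hbc⟩ := Nat.exists_eq_pow_mul_and_not_dvd hpos 2 (by norm_num)
  set h₀ := t ^ 2 ^ b with hh₀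
  have hh₀ord : orderOf h₀ = c := by
    rw [hh₀, orderOf_pow_of_dvd (pow_ne_zero _ (by norm_num)) (by rw [hbc]; exact Dvd.intro _ rfl), hbc]
    exact Nat.mul_div_cancel_left _ (pow_pos (by norm_num) _)
  have hh₀odd : Odd (orderOf h₀) := by
    rw [hh₀ord]
    exact Nat.odd_iff.mpr (by omega)
  have hvh₀ : v * h₀ * v⁻¹ = h₀⁻¹ := by
    rw [hh₀, ← conj_pow, hvt, inv_pow]
  obtain ⟨w, hwV, hw1, hwh⟩ := hS h₀ v hvV hh₀odd hvh₀
  refine ⟨π w, ⟨w, hwV, rfl⟩, ?_, ?_⟩
  · intro h
    apply hw1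
    have hwK : w ∈ K := (QuotientGroup.eq_one_iff w).mp h
    have : w ∈ V ⊓ K := ⟨hwV, hwK⟩
    rw [hVK] at this
    simpa using this
  · have hcomm : π w * hbar ^ 2 ^ b = hbar ^ 2 ^ b * π w := by
      have h1 : π h₀ = hbar ^ 2 ^ b := by rw [hh₀, map_pow, hπt]
      rw [← h1, ← map_mul, ← map_mul, hwh]
    have hco : Nat.Coprime (2 ^ b) (orderOf hbar) := by
      apply Nat.Coprime.pow_left
      rw [Nat.coprime_two_left]
      exact Nat.odd_iff.mpr (by omega)
    obtain ⟨s, hs⟩ := exists_pow_eq_self_of_coprime hco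
    have h3 : Commute (π w) (hbar ^ 2 ^ b) := hcomm
    have h4 := h3.pow_right s
    rw [hs] at h4
    exact h4

end Cfsg.Agent.S3012
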