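import Cfsg.Statements.S3013
import Mathlib

set_option autoImplicit false
open Cfsg

namespace Cfsg.Agent.S3013

/-- Let G be a finite group and V a nontrivial elementary abelian 2-subgroup of G satisfying the Sidki pair condition. Let v ∈ V and let x be an element of odd order inverted by v, and put C = C_G(v) ∩ C_G(x), the centralizer of the dihedral subgroup generated by v and x. Then C ∩ V is nontrivial and satisfies the Sidki pair condition inside C: every odd-order element of C inverted by an element of C ∩ V commutes with a nontrivial element of C ∩ V. -/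
theorem result {G : Type*} [Group G] [Finite G] (V : Subgroup G) (hV : Cfsg.IsElementaryAbelian 2 V) (hV1 : V ≠ ⊥) (hS : Cfsg.IsSidkiPair V) (v x : G) (hv : v ∈ V) (hx : Odd (orderOf x)) (hinv : v * x * v⁻¹ = x⁻¹) (C : Subgroup G) (hC : C = Subgroup.centralizer ({v} : Set G) ⊓ Subgroup.centralizer ({x} : Set G)) : C ⊓ V ≠ ⊥ ∧ Cfsg.IsSidkiPair ((C ⊓ V).subgroupOf C) := by
  classical
  subst hC
  have hvv : ∀ a ∈ V, ∀ b ∈ V, a * b = b * a := by
    intro a ha b hb
    exact congrArg Subtype.val (hV.1.is_comm.comm ⟨a, ha⟩ ⟨b, hb⟩)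
  have hV2 : ∀ a ∈ V, a⁻¹ = a := by
    intro a ha
    have := hV.2 a ha
    rw [pow_two] at this
    exact inv_eq_of_mul_eq_one_left this
  set C := Subgroup.centralizer ({v} : Set G) ⊓ Subgroup.centralizer ({x} : Set G) with hCdef
  have hmemC : ∀ z : G, z ∈ C ↔ z * v = v * z ∧ z * x = x * z := by
    intro z
    rw [hCdef, Subgroup.mem_inf, Subgroup.mem_centralizer_singleton_iff, Subgroup.mem_centralizer_singleton_iff]
  constructor
  · obtain ⟨w, hwV, hw1, hwx⟩ := hS x v hv hx hinv
    intro h
    have : w ∈ C ⊓ V := ⟨(hmemC w).mpr ⟨hvv w hwV v hv, hwx⟩, hwV⟩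
    rw [h] at this
    exact hw1 (by simpa using this)
  · intro h u hu hodd hinvh
    have hu' : (u : G) ∈ C ⊓ V := Subgroup.mem_subgroupOf.mp hu
    have huV : (u : G) ∈ V := hu'.2
    obtain ⟨huv, hux⟩ := (hmemC u).mp hu'.1
    obtain ⟨hhv, hhx⟩ := (hmemC h).mp h.2
    have hinvh' : (u : G) * h * (u : G)⁻¹ = (h : G)⁻¹ := by
      have := congrArg Subtype.val hinvh
      simpa using this
    have hoddh : Odd (orderOf (h : G)) := by rwa [Subgroup.orderOf_coe]
    set e := x * (h : G) with he
    have hcomm : Commute x (h : G) := hhx.symm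
    have hordE : Odd (orderOf e) := by
      have h1 : orderOf e ∣ orderOf x * orderOf (h : G) := hcomm.orderOf_mul_dvd_mul_orderOf
      exact Odd.of_dvd_nat (hx.mul hoddh) h1
    have huvV : (u : G) * v ∈ V := V.mul_mem huV hv
    have hinvE : ((u : G) * v) * e * ((u : G) * v)⁻¹ = e⁻¹ := by
      have h1 : v * x * v⁻¹ = x⁻¹ := hinv
      have h2 : (u : G) * x⁻¹ * (u : G)⁻¹ = x⁻¹ := by
        have : (u : G) * x⁻¹ = x⁻¹ * u := by
          have := (Commute.inv_right (show Commute (u : G) x from hux))
          exact this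
        rw [this]; group
      have h3 : v * (h : G) * v⁻¹ = h := by
        rw [← hhv]; group
      have h5 : (u : G) * (v * (x * (h : G)) * v⁻¹) * (u : G)⁻¹ = x⁻¹ * (h : G)⁻¹ := by
        have : v * (x * (h : G)) * v⁻¹ = (v * x * v⁻¹) * (v * (h : G) * v⁻¹) := by group
        rw [this, h1, h3]
        have : (u : G) * (x⁻¹ * (h : G)) * (u : G)⁻¹ = ((u : G) * x⁻¹ * (u : G)⁻¹) * ((u : G) * h * (u : G)⁻¹) := by group
        rw [this, h2, hinvh']
      calc ((u : G) * v) * e * ((u : G) * v)⁻¹ = (u : G) * (v * (x * (h : G)) * v⁻¹) * (u : G)⁻¹ := by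
            rw [he]; group
        _ = x⁻¹ * (h : G)⁻¹ := h5
        _ = e⁻¹ := by
            rw [he, mul_inv_rev]
            exact (Commute.inv_inv hcomm).eq
    obtain ⟨w, hwV, hw1, hwe⟩ := hS e _ huvV hordE hinvE
    have hwv : w * v = v * w := hvv w hwV v hv
    have hve : v * e * v⁻¹ = x⁻¹ * (h : G) := by
      have h1 : v * x * v⁻¹ = x⁻¹ := hinv
      have h3 : v * (h : G) * v⁻¹ = h := by
        rw [← hhv]; group
      have : v * e * v⁻¹ = (v * x * v⁻¹) * (v * (h : G) * v⁻¹) := by rw [he]; group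
      rw [this, h1, h3]
    have hwe2 : w * (x⁻¹ * (h : G)) = (x⁻¹ * (h : G)) * w := by
      rw [← hve]
      calc w * (v * e * v⁻¹) = (w * v) * e * v⁻¹ := by group
        _ = v * (w * e) * v⁻¹ := by rw [hwv]; group
        _ = v * (e * w) * v⁻¹ := by rw [hwe]
        _ = (v * e) * (w * v⁻¹) := by group
        _ = (v * e) * (v⁻¹ * w) := by
            have : w * v⁻¹ = v⁻¹ * w := by
              have := (Commute.inv_right (show Commute w v from hwv))
              exact this
            rw [this]
        _ = _ := by group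
    have hwh2 : Commute w ((h : G) ^ 2) := by
      have h1 : (h : G) ^ 2 = e * (x⁻¹ * (h : G)) := by
        rw [he, pow_two]
        calc (h : G) * h = ((h : G) * x * x⁻¹) * h := by group
          _ = (x * (h : G) * x⁻¹) * h := by rw [hcomm.eq]
          _ = _ := by group
      rw [h1]
      exact Commute.mul_right hwe hwe2
    have hwx2 : Commute w (x ^ 2) := by
      have h1 : x ^ 2 = e * (x⁻¹ * (h : G))⁻¹ := by
        rw [he, pow_two]; group
      rw [h1]
      exact Commute.mul_right hwe (Commute.inv_right hwe2)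
    have hcoprime : ∀ z : G, Odd (orderOf z) → Commute w (z ^ 2) → Commute w z := by
      intro z hz hc
      have hco : Nat.Coprime 2 (orderOf z) := Nat.coprime_two_left.mpr hz
      obtain ⟨s, hs⟩ := exists_pow_eq_self_of_coprime hco
      have := hc.pow_right s
      rwa [hs] at this
    have hwh := hcoprime _ hoddh hwh2
    have hwx := hcoprime _ hx hwx2
    have hwC : w ∈ C := (hmemC w).mpr ⟨hwv, hwx⟩
    refine ⟨⟨w, hwC⟩, ?_, ?_, ?_⟩
    · exact Subgroup.mem_subgroupOf.mpr ⟨hwC, hwV⟩
    · intro h0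
      exact hw1 (congrArg Subtype.val h0)
    · apply Subtype.ext
      exact hwh

end Cfsg.Agent.S3013
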