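import Cfsg.Statements.S3014
import Cfsg.Agent.Lib.FF.MaxTransfer
import Mathlib

set_option autoImplicit false
open Cfsg

namespace Cfsg.Agent.S3014

open Subgroup Cfsg.Agent.Lib.FF
open scoped commutatorElement

/-- Let G be a finite group and H ≤ M ≤ G subgroups such that for every g ∈ G the subgroup generated by H and g H g⁻¹ meets M exactly in H. If H is a maximal subgroup of M and M is a maximal subgroup of G, then the normal closure of H in G meets M exactly in H. -/
theorem result {G : Type*} [Group G] [Finite G] (H M : Subgroup G) (hHM : H ≤ M) (hcl : ∀ g : G, (H ⊔ H.map (MulAut.conj g).toMonoidHom) ⊓ M = H) (hmaxH : IsCoatom (H.subgroupOf M)) (hmaxM : IsCoatom M) : Subgroup.normalClosure (H : Set G) ⊓ M = H := by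
  classical
  have hn : ∀ m ∈ M, ∀ h ∈ H, m * h * m⁻¹ ∈ H := by
    intro m hm h hh
    have h1 := hcl m
    have hle : H ⊔ H.map (MulAut.conj m).toMonoidHom ≤ M :=
      sup_le hHM (by
        rintro _ ⟨w, hw, rfl⟩
        exact M.mul_mem (M.mul_mem hm (hHM hw)) (M.inv_mem hm))
    rw [inf_eq_left.mpr hle] at h1
    have : m * h * m⁻¹ ∈ H ⊔ H.map (MulAut.conj m).toMonoidHom :=
      Subgroup.mem_sup_right ⟨h, hh, rfl⟩
    rwa [h1] at this
  have hcomm := comm_mem_of_coatom hHM hmaxH hn
  by_cases hN : normalizer (H : Set G) = ⊤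
  · haveI : H.Normal := Subgroup.normalizer_eq_top_iff.mp hN
    rw [Subgroup.normalClosure_eq_self]
    exact inf_eq_left.mpr hHM
  have hMN : M ≤ normalizer (H : Set G) := by
    intro m hm
    rw [Subgroup.mem_normalizer_iff]
    intro h
    refine ⟨fun hh => hn m hm h hh, fun hh => ?_⟩
    have := hn m⁻¹ (M.inv_mem hm) _ hh
    have e : m⁻¹ * (m * h * m⁻¹) * m⁻¹⁻¹ = h := by group
    rwa [e] at this
  have hNH : normalizer (H : Set G) = M := by
    by_contra h
    exact hN (hmaxM.2 _ (lt_of_le_of_ne hMN (Ne.symm h)))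
  by_cases hx : ∃ y, y ∉ M ∧ ∃ x ∈ M, y⁻¹ * x * y ∈ M ∧ x ∉ H
  · obtain ⟨y, hy, x, hxM, hxy, hxH⟩ := hx
    set Hy := H.map (MulAut.conj y).toMonoidHom with hHy
    set K := H ⊔ Hy with hK
    have hxH' : H.map (MulAut.conj x).toMonoidHom = H := mem_normalizer_iff_conj.mp (hMN hxM)
    have hxHy : Hy.map (MulAut.conj x).toMonoidHom = Hy := by
      have hm : y⁻¹ * x * y ∈ normalizer (H : Set G) := hMN hxy
      have h1 := mem_normalizer_iff_conj.mp hm
      calc Hy.map (MulAut.conj x).toMonoidHom
          = H.map (MulAut.conj (x * y)).toMonoidHom := conj_mul_conj H x y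
        _ = (H.map (MulAut.conj (y⁻¹ * x * y)).toMonoidHom).map (MulAut.conj y).toMonoidHom := by
            rw [conj_mul_conj]
            congr 3
            group
        _ = Hy := by rw [h1]
    have hxK : x ∈ normalizer (K : Set G) := by
      rw [mem_normalizer_iff_conj, hK, Subgroup.map_sup, hxH', hxHy]
    set L := K ⊔ zpowers x with hL
    have hML : M ≤ L := by
      have hlt : H.subgroupOf M < L.subgroupOf M := by
        refine lt_of_le_of_ne (fun a ha => by
          rw [Subgroup.mem_subgroupOf] at ha ⊢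
          exact ((le_sup_left : H ≤ K).trans (le_sup_left : K ≤ L)) ha) ?_
        intro h
        have h1 : (⟨x, hxM⟩ : M) ∈ L.subgroupOf M := by
          rw [Subgroup.mem_subgroupOf]
          exact Subgroup.mem_sup_right (Subgroup.mem_zpowers x)
        rw [← h, Subgroup.mem_subgroupOf] at h1
        exact hxH h1
      have := hmaxH.2 _ hlt
      intro m hm
      have h2 : (⟨m, hm⟩ : M) ∈ L.subgroupOf M := by rw [this]; trivial
      rwa [Subgroup.mem_subgroupOf] at h2
    have hHyM : ¬ Hy ≤ M := by
      intro hle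
      have h1 := hcl y
      have h2 : K ≤ M := sup_le hHM hle
      rw [← hHy, ← hK, inf_eq_left.mpr h2] at h1
      have h3 : Hy ≤ H := by rw [← h1]; exact le_sup_right
      have h4 : Hy = H := Subgroup.eq_of_le_of_card_ge h3 (by rw [hHy, card_conj])
      have h5 : y ∈ normalizer (H : Set G) := mem_normalizer_iff_conj.mpr h4
      rw [hNH] at h5
      exact hy h5
    have hLtop : L = ⊤ := by
      apply hmaxM.2
      refine lt_of_le_of_ne hML ?_
      intro h
      apply hHyM
      rw [h]
      exact (le_sup_right : Hy ≤ K).trans le_sup_left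
    haveI hKn : K.Normal := by
      apply Subgroup.normalizer_eq_top_iff.mp
      rw [eq_top_iff, ← hLtop]
      exact sup_le Subgroup.le_normalizer ((Subgroup.zpowers_le).mpr hxK)
    have hle : normalClosure (H : Set G) ≤ K :=
      Subgroup.normalClosure_le_normal (le_sup_left : H ≤ K)
    apply le_antisymm
    · intro z hz
      have h1 := hcl y
      rw [← h1]
      exact ⟨hle hz.1, hz.2⟩
    · exact le_inf Subgroup.le_normalClosure hHM
  · push Not at hx
    obtain ⟨N₀, hN₀, hinf, -⟩ := exists_normal_of_control H M hHM hcomm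
      (fun g hg z hz h => hx g hg z hz h)
    have hle : normalClosure (H : Set G) ≤ N₀ :=
      Subgroup.normalClosure_le_normal (by rw [← hinf]; exact inf_le_left)
    apply le_antisymm
    · intro z hz
      rw [← hinf]
      exact ⟨hle hz.1, hz.2⟩
    · exact le_inf Subgroup.le_normalClosure hHM

end Cfsg.Agent.S3014
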