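import Cfsg.Statements.S3015
import Cfsg.Agent.Lib.FF.MaxTransfer
import Cfsg.Agent.Lib.FF.Misc
import Mathlib

set_option autoImplicit false
open Cfsg

namespace Cfsg.Agent.S3015

open Subgroup Cfsg.Agent.Lib.FF
open scoped commutatorElement

/-- Let G be a finite non-abelian simple group, M a maximal subgroup of G and H a normal subgroup of M of prime index in M. Then G is generated by H together with one of its conjugates. -/
theorem result {G : Type*} [Group G] [Finite G] [IsSimpleGroup G] (hG : ¬ IsMulCommutative G) (M H : Subgroup G) (hmaxM : IsCoatom M) (hHM : H ≤ M) (hHn : (H.subgroupOf M).Normal) (hidx : (H.relIndex M).Prime) : ∃ g : G, H ⊔ H.map (MulAut.conj g).toMonoidHom = ⊤ := by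
  classical
  by_contra hno
  push Not at hno
  set p := H.relIndex M with hpdef
  haveI hp : Fact p.Prime := ⟨hidx⟩
  have hp' : p.Prime := hidx
  have hmaxH : IsCoatom (H.subgroupOf M) :=
    Cfsg.Agent.Lib.PGroup.isCoatom_of_index_prime (by exact hidx)
  have hn : ∀ m ∈ M, ∀ h ∈ H, m * h * m⁻¹ ∈ H := by
    intro m hm h hh
    have h1 : (⟨h, hHM hh⟩ : M) ∈ H.subgroupOf M := by
      rw [Subgroup.mem_subgroupOf]; exact hh
    have h2 := hHn.conj_mem _ h1 ⟨m, hm⟩
    rw [Subgroup.mem_subgroupOf] at h2
    exact h2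
  have hcomm := comm_mem_of_coatom hHM hmaxH hn
  have hMtop : M ≠ ⊤ := hmaxM.1
  have hcore : ∀ R : Subgroup G, R.Normal → R ≤ M → R = ⊥ := by
    intro R hR hRM
    rcases hR.eq_bot_or_eq_top with h | h
    · exact h
    · exfalso
      apply hMtop
      rw [eq_top_iff, ← h]
      exact hRM
  have hMbot : M ≠ ⊥ := by
    intro h
    have h1 : H = ⊥ := by
      rw [eq_bot_iff, ← h]
      exact hHM
    have h2 : p = 1 := by
      rw [hpdef, h1, h, Subgroup.relIndex_bot_left]
      exact Subgroup.card_bot
    exact hp'.one_lt.ne' h2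
  have hNM : normalizer (M : Set G) = M := by
    by_contra h
    have h1 : normalizer (M : Set G) = ⊤ :=
      hmaxM.2 _ (lt_of_le_of_ne Subgroup.le_normalizer (Ne.symm h))
    exact hMbot (hcore M (Subgroup.normalizer_eq_top_iff.mp h1) le_rfl)
  have hMN : M ≤ normalizer (H : Set G) := by
    intro m hm
    rw [Subgroup.mem_normalizer_iff]
    intro h
    refine ⟨fun hh => hn m hm h hh, fun hh => ?_⟩
    have := hn m⁻¹ (M.inv_mem hm) _ hh
    have e : m⁻¹ * (m * h * m⁻¹) * m⁻¹⁻¹ = h := by group
    rwa [e] at this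
  -- the case `H = 1`
  have hbot : H = ⊥ → ∀ x ∈ M, x ≠ 1 → ∀ y, y ∉ M → y⁻¹ * x * y ∈ M → False := by
    intro hH x hxM hx1 y hy hxy
    have hcardM : Nat.card M = p := by
      have h1 := relIndex_mul_card hHM
      have h2 : Nat.card H = 1 := by
        rw [hH]; exact Subgroup.card_bot
      rw [h2, mul_one] at h1
      exact h1.symm
    have h1 : M = zpowers x := zpowers_eq_of_card_prime' hp' hcardM hxM hx1
    have hne : y⁻¹ * x * y ≠ 1 := by
      intro h
      apply hx1
      calc x = y * (y⁻¹ * x * y) * y⁻¹ := by group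
        _ = 1 := by rw [h]; group
    have h2 : M = zpowers (y⁻¹ * x * y) := zpowers_eq_of_card_prime' hp' hcardM hxy hne
    have h3 : y⁻¹ ∈ normalizer (M : Set G) := by
      rw [mem_normalizer_iff_conj]
      nth_rewrite 1 [h1]
      rw [MonoidHom.map_zpowers, h2]
      congr 1
      simp
    rw [hNM] at h3
    exact hy (by simpa using M.inv_mem h3)
  by_cases hx : ∃ y, y ∉ M ∧ ∃ x ∈ M, y⁻¹ * x * y ∈ M ∧ x ∉ H
  · obtain ⟨y, hy, x, hxM, hxy, hxH⟩ := hx
    have hx1 : x ≠ 1 := by
      rintro rfl
      exact hxH H.one_mem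
    set Hy := H.map (MulAut.conj y).toMonoidHom with hHy
    set K := H ⊔ Hy with hK
    have hxH' : H.map (MulAut.conj x).toMonoidHom = H := mem_normalizer_iff_conj.mp (hMN hxM)
    have hxHy : Hy.map (MulAut.conj x).toMonoidHom = Hy := by
      have hm : y⁻¹ * x * y ∈ normalizer (H : Set G) := hMN hxy
      have h1 := mem_normalizer_iff_conj.mp hm
      calc Hy.map (MulAut.conj x).toMonoidHom
          = H.map (MulAut.conj (x * y)).toMonoidHom := conj_mul_conj H x y
        _ = (H.map (MulAut.conj (y⁻¹ * x * y)).toMonoidHom).map (MulAut.conj y).toMonoidHom := by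
            rw [conj_mul_conj]
            congr 3
            group
        _ = Hy := by rw [h1]
    have hxK : x ∈ normalizer (K : Set G) := by
      rw [mem_normalizer_iff_conj, hK, Subgroup.map_sup, hxH', hxHy]
    set L := K ⊔ zpowers x with hL
    have hML : M ≤ L := by
      have hlt : H.subgroupOf M < L.subgroupOf M := by
        refine lt_of_le_of_ne (fun a ha => by
          rw [Subgroup.mem_subgroupOf] at ha ⊢
          exact ((le_sup_left : H ≤ K).trans (le_sup_left : K ≤ L)) ha) ?_
        intro h
        have h1 : (⟨x, hxM⟩ : M) ∈ L.subgroupOf M := by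
          rw [Subgroup.mem_subgroupOf]
          exact Subgroup.mem_sup_right (Subgroup.mem_zpowers x)
        rw [← h, Subgroup.mem_subgroupOf] at h1
        exact hxH h1
      have := hmaxH.2 _ hlt
      intro m hm
      have h2 : (⟨m, hm⟩ : M) ∈ L.subgroupOf M := by rw [this]; trivial
      rwa [Subgroup.mem_subgroupOf] at h2
    by_cases hLM : L = M
    · -- `H^y ≤ M`
      have hle : Hy ≤ M := by
        rw [← hLM]
        exact (le_sup_right : Hy ≤ K).trans le_sup_left
      by_cases hyH : Hy = H
      · have h5 : y ∈ normalizer (H : Set G) := mem_normalizer_iff_conj.mpr hyH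
        have h6 : normalizer (H : Set G) = ⊤ := by
          apply hmaxM.2
          refine lt_of_le_of_ne hMN ?_
          intro h
          rw [h] at hy
          exact hy h5
        have h7 : H = ⊥ := hcore H (Subgroup.normalizer_eq_top_iff.mp h6) hHM
        exact hbot h7 x hxM hx1 y hy hxy
      · exact arrow_false hmaxM hHM hn (p := p) rfl hcore hy hNM hle hyH
    · have hLtop : L = ⊤ := hmaxM.2 _ (lt_of_le_of_ne hML (Ne.symm hLM))
      haveI hKn : K.Normal := by
        apply Subgroup.normalizer_eq_top_iff.mp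
        rw [eq_top_iff, ← hLtop]
        exact sup_le Subgroup.le_normalizer ((Subgroup.zpowers_le).mpr hxK)
      rcases hKn.eq_bot_or_eq_top with h | h
      · have h7 : H = ⊥ := by
          rw [eq_bot_iff, ← h]
          exact le_sup_left
        exact hbot h7 x hxM hx1 y hy hxy
      · exact hno y h
  · push Not at hx
    obtain ⟨N₀, hN₀, hinf, hcm⟩ := exists_normal_of_control H M hHM hcomm
      (fun g hg z hz h => hx g hg z hz h)
    rcases hN₀.eq_bot_or_eq_top with h | h
    · apply hG
      rw [h, le_bot_iff] at hcm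
      refine ⟨⟨fun a b => ?_⟩⟩
      have h1 : ⁅a, b⁆ ∈ commutator G := Subgroup.commutator_mem_commutator trivial trivial
      rw [hcm, Subgroup.mem_bot, commutatorElement_eq_one_iff_mul_comm] at h1
      exact h1
    · rw [h, top_inf_eq] at hinf
      have h1 : H.subgroupOf M = ⊤ := by
        rw [← hinf]
        exact Subgroup.subgroupOf_self M
      exact hmaxH.1 h1

end Cfsg.Agent.S3015
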