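import Cfsg.Statements.S3020
import Cfsg.Agent.Lib.FF.Burnside
import Mathlib

set_option autoImplicit false
open Cfsg

namespace Cfsg.Agent.S3020

/-- Let G be a finite group, p a prime and H an abelian p-subgroup of G that is extremely closed (for every g, the subgroup generated by H and g H g⁻¹ meets N_G(H) exactly in H). Then for every g ∈ G, the subgroup T generated by H and g H g⁻¹ is the product of H with O_{p'}(T), and H meets O_{p'}(T) trivially; that is, O_{p'}(T) is a normal p-complement of H in T. -/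
theorem result {G : Type*} [Group G] [Finite G] {p : ℕ} [Fact p.Prime] (H : Subgroup G) (hHp : IsPGroup p H) (hHab : IsMulCommutative H) (hcl : Cfsg.IsExtremelyClosed H) (g : G) (T : Subgroup G) (hT : T = H ⊔ H.map (MulAut.conj g).toMonoidHom) : H ⊔ (Cfsg.pPrimeCore p ↥T).map T.subtype = T ∧ H ⊓ (Cfsg.pPrimeCore p ↥T).map T.subtype = ⊥ := by
  classical
  have hHT : H ≤ T := by rw [hT]; exact le_sup_left
  have hcl' : T ⊓ Subgroup.normalizer (H : Set G) = H := by
    rw [hT]; exact hcl g
  have hSyl : Cfsg.Agent.Lib.FF.IsSylowIn p H T := by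
    obtain ⟨S, hHS, hS⟩ := Cfsg.Agent.Lib.FF.exists_isSylowIn_of_le hHp hHT
    by_cases h : H = S
    · rw [h]; exact hS
    · exfalso
      obtain ⟨x, hxS, hxH, hxN⟩ := Cfsg.Agent.Lib.FF.exists_mem_normalizer_of_lt hS.isPGroup (lt_of_le_of_ne hHS h)
      apply hxH
      rw [← hcl']
      exact ⟨hS.le hxS, hxN⟩
  apply Cfsg.Agent.Lib.FF.burnside_subgroup hSyl
  rw [hcl', Subgroup.le_centralizer_iff]
  intro a ha b hb
  exact congrArg Subtype.val (hHab.is_comm.comm ⟨b, hb⟩ ⟨a, ha⟩)

end Cfsg.Agent.S3020
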