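import Cfsg.Statements.S3021
import Cfsg.Agent.Lib.FF.Basic
import Mathlib

set_option autoImplicit false
open Cfsg

namespace Cfsg.Agent.S3021

/-- Let G be a finite group, p a prime and H a p-subgroup of G that is extremely closed (for every g, the subgroup generated by H and g H g⁻¹ meets N_G(H) exactly in H). Then every p-subgroup Q of G containing H has N_G(Q) ≤ N_G(H); in particular every Sylow p-subgroup P of G containing H normalizes H, and H is strongly closed in P with respect to G. -/
theorem result {G : Type*} [Group G] [Finite G] {p : ℕ} [Fact p.Prime] (H : Subgroup G) (hHp : IsPGroup p H) (hcl : Cfsg.IsExtremelyClosed H) : (∀ Q : Subgroup G, IsPGroup p Q → H ≤ Q → Subgroup.normalizer (Q : Set G) ≤ Subgroup.normalizer (H : Set G)) ∧ ∀ P : Sylow p G, H ≤ (P : Subgroup G) → (P : Subgroup G) ≤ Subgroup.normalizer (H : Set G) ∧ Cfsg.IsStronglyClosed H (P : Subgroup G) := by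
  classical
  have key : ∀ Q : Subgroup G, IsPGroup p Q → H ≤ Q → Subgroup.normalizer (Q : Set G) ≤ Subgroup.normalizer (H : Set G) := by
    intro Q hQ hHQ g hg
    set T := H ⊔ H.map (MulAut.conj g).toMonoidHom with hT
    have hTQ : T ≤ Q := sup_le hHQ (by
      rw [← Cfsg.Agent.Lib.FF.mem_normalizer_iff_conj.mp hg]
      exact Subgroup.map_mono hHQ)
    have hTp : IsPGroup p T := hQ.to_le hTQ
    by_cases hTH : H < T
    · obtain ⟨x, hxT, hxH, hxN⟩ := Cfsg.Agent.Lib.FF.exists_mem_normalizer_of_lt hTp hTH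
      exfalso
      apply hxH
      rw [← hcl g]
      exact ⟨hxT, hxN⟩
    · have h1 : T = H := by
        apply le_antisymm _ le_sup_left
        by_contra h
        exact hTH (lt_of_le_of_ne le_sup_left (fun e => h (le_of_eq e.symm)))
      have h2 : H.map (MulAut.conj g).toMonoidHom ≤ H :=
        (le_sup_right : H.map (MulAut.conj g).toMonoidHom ≤ T).trans (le_of_eq h1)
      rw [Cfsg.Agent.Lib.FF.mem_normalizer_iff_conj]
      exact Subgroup.eq_of_le_of_card_ge h2 (by rw [Cfsg.Agent.Lib.FF.card_conj])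
  refine ⟨key, ?_⟩
  intro P hHP
  have hPN : (P : Subgroup G) ≤ Subgroup.normalizer (H : Set G) :=
    Subgroup.le_normalizer.trans (key (P : Subgroup G) P.isPGroup' hHP)
  refine ⟨hPN, hHP, ?_⟩
  intro x hx g hy
  rw [← hcl g]
  refine ⟨Subgroup.mem_sup_right (Cfsg.Agent.Lib.FF.conj_mem_conj hx), hPN hy⟩

end Cfsg.Agent.S3021
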