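import Cfsg.Statements.S3023
import Cfsg.Agent.Lib.FF.CharP
import Cfsg.Agent.Lib.FF.SubnormalSylow
import Mathlib

set_option autoImplicit false
open Cfsg

namespace Cfsg.Agent.S3023

open Subgroup Cfsg.Agent.Lib.FF Cfsg.Agent.Lib.Subnormal

section

variable {G : Type*} [Group G] [Finite G] {p : ℕ} [hp : Fact p.Prime]

theorem charP_sn {A X : Subgroup G} (hA : centralizer (pCore p ↥A : Set ↥A) ≤ pCore p ↥A)
    (h : SN A X) : centralizer (pCore p ↥X : Set ↥X) ≤ pCore p ↥X :=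
  charP_of_mulEquiv (Subgroup.subgroupOfEquivOfLe h.le) (charP_of_isSubnormal hA _ h.subgroupOf)

/-- The last step. -/
theorem centralizer_core_le {L : Type*} [Group L] [Finite L]
    (hD : centralizer (pCore p ↥(centralizer (pCore p L : Set L)) : Set ↥(centralizer (pCore p L : Set L)))
      ≤ pCore p ↥(centralizer (pCore p L : Set L))) :
    centralizer (pCore p L : Set L) ≤ pCore p L := by
  set D := centralizer (pCore p L : Set L) with hDdef
  have hDn : D.Normal := inferInstance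
  have hcore : ((pCore p ↥D).map D.subtype) ≤ pCore p L := by
    apply Cfsg.Agent.Lib.Core.le_pCore
    · exact ConjAct.normal_of_characteristic_of_normal
    · exact (Cfsg.Agent.Lib.Core.pCore_isPGroup p _).map _
  have htop : ∀ x : D, x ∈ centralizer (pCore p ↥D : Set ↥D) := by
    intro x
    apply Subgroup.mem_centralizer_iff.mpr
    intro y hy
    have h1 : (y : L) ∈ pCore p L := hcore ⟨y, hy, rfl⟩
    have h2 := Subgroup.mem_centralizer_iff.mp x.2 _ h1
    exact Subtype.ext h2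
  have hDp : IsPGroup p D := by
    intro x
    have h1 := hD (htop x)
    obtain ⟨k, hk⟩ := Cfsg.Agent.Lib.Core.pCore_isPGroup p D ⟨x, h1⟩
    exact ⟨k, congrArg Subtype.val hk⟩
  exact Cfsg.Agent.Lib.Core.le_pCore hDn hDp

end

/-- Let p be a prime, G a finite group of parabolic characteristic p (every p-local subgroup containing a Sylow p-subgroup of G has characteristic p), S a Sylow p-subgroup of G and G₁ a subnormal subgroup of G. If the centre of S ∩ G₁ is nontrivial and contained in the centre of S, then G₁ has parabolic characteristic p. -/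
theorem result {G : Type*} [Group G] [Finite G] {p : ℕ} [Fact p.Prime] (hG : Cfsg.IsOfParabolicCharacteristic p G) (S : Sylow p G) (G₁ : Subgroup G) (hsn : G₁.IsSubnormal) (hne : ((S : Subgroup G) ⊓ G₁) ⊓ Subgroup.centralizer (((S : Subgroup G) ⊓ G₁ : Subgroup G) : Set G) ≠ ⊥) (hle : ((S : Subgroup G) ⊓ G₁) ⊓ Subgroup.centralizer (((S : Subgroup G) ⊓ G₁ : Subgroup G) : Set G) ≤ (S : Subgroup G) ⊓ Subgroup.centralizer ((S : Subgroup G) : Set G)) : Cfsg.IsOfParabolicCharacteristic p ↥G₁ := by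
  classical
  intro R hRp hRne hpar
  obtain ⟨T₁, hT₁⟩ := hpar
  set N₁ := normalizer (R : Set ↥G₁) with hN₁
  -- `R ≤ T₁`
  have hRT : R ≤ (T₁ : Subgroup ↥G₁) := by
    have hpg : IsPGroup p ↥((T₁ : Subgroup ↥G₁) ⊔ R) := by
      rw [sup_comm]
      exact hRp.to_sup_of_normal_left' T₁.2 hT₁
    have := T₁.is_maximal' hpg le_sup_left
    rw [← this]
    exact le_sup_right
  -- a central element of `T₁` in `R`
  obtain ⟨z, hzR, hzc, hz1⟩ : ∃ z : ↥G₁, z ∈ R ∧ (∀ y ∈ (T₁ : Subgroup ↥G₁), z * y = y * z) ∧ z ≠ 1 := by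
    haveI : Group.IsNilpotent ↥(T₁ : Subgroup ↥G₁) := T₁.2.isNilpotent
    haveI hnorm : (R.subgroupOf (T₁ : Subgroup ↥G₁)).Normal :=
      (Subgroup.normal_subgroupOf_iff_le_normalizer hRT).mpr hT₁
    have hN : R.subgroupOf (T₁ : Subgroup ↥G₁) ≠ ⊥ := by
      intro h
      apply hRne
      rw [eq_bot_iff]
      intro x hx
      have h3 : (⟨x, hRT hx⟩ : ↥(T₁ : Subgroup ↥G₁)) ∈ R.subgroupOf (T₁ : Subgroup ↥G₁) := hx
      rw [h, Subgroup.mem_bot] at h3
      have h4 : x = 1 := congrArg Subtype.val h3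
      rw [h4]
      exact Subgroup.one_mem _
    have h2 := Cfsg.Agent.Lib.Core.normal_inf_center_ne_bot (R.subgroupOf (T₁ : Subgroup ↥G₁)) hN
    obtain ⟨w, ⟨hw1, hw2⟩, hw3⟩ := (Subgroup.bot_or_exists_ne_one _).resolve_left h2
    refine ⟨w, hw1, ?_, ?_⟩
    · intro y hy
      have := Subgroup.mem_center_iff.mp hw2 ⟨y, hy⟩
      exact (congrArg Subtype.val this).symm
    · intro h
      exact hw3 (Subtype.ext h)
  set z' : G := (z : G) with hz'
  have hz'1 : z' ≠ 1 := fun h => hz1 (Subtype.ext h)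
  set T : Subgroup G := (T₁ : Subgroup ↥G₁).map G₁.subtype with hTdef
  have hTG₁ : T ≤ G₁ := Subgroup.map_subtype_le _
  have hTsyl : IsSylowIn p T G₁ := isSylowIn_of_sylow T₁
  have hStop : IsSylowIn p (S : Subgroup G) ⊤ := isSylowIn_of_sylow_le S le_top
  have hS₁ : IsSylowIn p ((S : Subgroup G) ⊓ G₁) G₁ := isSylowIn_inf_subnormal hStop hsn
  obtain ⟨g, hgG₁, hg⟩ := hS₁.exists_conj hTsyl
  have hz'T : z' ∈ T := ⟨z, hRT hzR, rfl⟩
  have hzcT : ∀ t ∈ T, z' * t = t * z' := by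
    rintro _ ⟨y, hy, rfl⟩
    exact congrArg Subtype.val (hzc y hy)
  -- transport to `S`
  have hz₀mem : g⁻¹ * z' * g ∈ (S : Subgroup G) ⊓ G₁ := by
    have : z' ∈ ((S : Subgroup G) ⊓ G₁).map (MulAut.conj g).toMonoidHom := by rw [hg]; exact hz'T
    exact mem_conj_iff.mp this
  have hz₀c : g⁻¹ * z' * g ∈ centralizer (((S : Subgroup G) ⊓ G₁ : Subgroup G) : Set G) := by
    apply Subgroup.mem_centralizer_iff.mpr
    intro y hy
    have h1 : g * y * g⁻¹ ∈ T := by
      rw [← hg]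
      exact conj_mem_conj hy
    have h2 := hzcT _ h1
    calc y * (g⁻¹ * z' * g) = g⁻¹ * ((g * y * g⁻¹) * z') * g := by group
      _ = g⁻¹ * (z' * (g * y * g⁻¹)) * g := by rw [h2]
      _ = g⁻¹ * z' * g * y := by group
  have hz₀S := (hle ⟨hz₀mem, hz₀c⟩).2
  set S' : Sylow p G := g • S with hS'
  have hS'e : (S' : Subgroup G) = (S : Subgroup G).map (MulAut.conj g).toMonoidHom := coe_smul_sylow g S
  have hz'S' : z' ∈ centralizer ((S' : Subgroup G) : Set G) := by
    apply Subgroup.mem_centralizer_iff.mpr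
    intro s hs
    rw [hS'e] at hs
    have hs' := mem_conj_iff.mp hs
    have h2 := Subgroup.mem_centralizer_iff.mp hz₀S _ hs'
    calc s * z' = g * ((g⁻¹ * s * g) * (g⁻¹ * z' * g)) * g⁻¹ := by group
      _ = g * ((g⁻¹ * z' * g) * (g⁻¹ * s * g)) * g⁻¹ := by rw [h2]
      _ = z' * s := by group
  set Y : Subgroup G := Subgroup.zpowers z' with hY
  have hz'R' : z' ∈ R.map G₁.subtype := ⟨z, hzR, rfl⟩
  have hYp : IsPGroup p Y :=
    IsPGroup.to_le (hRp.map G₁.subtype) ((Subgroup.zpowers_le).mpr hz'R')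
  have hYne : Y ≠ ⊥ := by
    rw [hY, Ne, Subgroup.zpowers_eq_bot]
    exact hz'1
  have hcent : ∀ X : Subgroup G, z' ∈ centralizer (X : Set G) → X ≤ centralizer (Y : Set G) := by
    intro X hX
    rw [Subgroup.le_centralizer_iff]
    exact (Subgroup.zpowers_le).mpr hX
  have hSC : (S' : Subgroup G) ≤ centralizer (Y : Set G) := hcent _ hz'S'
  have hA := hG Y hYp hYne ⟨S', hSC.trans (Subgroup.centralizer_le_normalizer _)⟩
  have hC₀ : SN (normalizer (Y : Set G)) (centralizer (Y : Set G)) :=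
    SN.of_normal (Subgroup.centralizer_le_normalizer _) (normalizer_le_normalizer_centralizer Y)
  have hC₁ : SN (centralizer (Y : Set G)) (G₁ ⊓ centralizer (Y : Set G)) :=
    (sn_top_of_isSubnormal hsn).inf le_top
  set C₁ := G₁ ⊓ centralizer (Y : Set G) with hC₁def
  have hcharC₁ := charP_sn hA (hC₀.trans hC₁)
  have hTC₁ : T ≤ C₁ := le_inf hTG₁ (hcent T (Subgroup.mem_centralizer_iff.mpr (fun t ht => (hzcT t ht).symm)))
  have hTsylC₁ : IsSylowIn p T C₁ := by
    refine ⟨hTC₁, hTsyl.isPGroup, ?_⟩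
    intro hd
    apply hTsyl.not_dvd
    rw [← Subgroup.relIndex_mul_relIndex T C₁ G₁ hTC₁ inf_le_left]
    exact hd.trans (Dvd.intro _ rfl)
  set L : Subgroup G := N₁.map G₁.subtype with hL
  have hTL : T ≤ L := Subgroup.map_mono hT₁
  set W := C₁ ⊓ L with hW
  have hcharW : centralizer (pCore p ↥W : Set ↥W) ≤ pCore p ↥W := by
    have h1 := charP_of_contains hcharC₁ hTsylC₁.toSylow (T.subgroupOf C₁) (by rw [hTsylC₁.coe_toSylow]) (by
        rw [hTsylC₁.coe_toSylow]; exact Subgroup.le_normalizer) (by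
        rw [hTsylC₁.coe_toSylow]; exact inf_le_left) (W.subgroupOf C₁)
        (fun x hx => ⟨hTC₁ hx, hTL hx⟩)
    exact charP_of_mulEquiv (Subgroup.subgroupOfEquivOfLe inf_le_left) h1
  -- the centralizer of the core
  set D₁ := centralizer (pCore p ↥N₁ : Set ↥N₁) with hD₁
  let φ : ↥N₁ →* G := G₁.subtype.comp N₁.subtype
  have hφ : Function.Injective φ := G₁.subtype_injective.comp N₁.subtype_injective
  have hzN₁ : z ∈ N₁ := Subgroup.le_normalizer hzR
  have hzcore : (⟨z, hzN₁⟩ : ↥N₁) ∈ pCore p ↥N₁ := by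
    apply Cfsg.Agent.Lib.Core.le_pCore (N := R.subgroupOf N₁) Subgroup.normal_in_normalizer
      (isPGroup_subgroupOf hRp)
    exact hzR
  have hD'W : D₁.map φ ≤ W := by
    rintro _ ⟨d, hd, rfl⟩
    refine ⟨⟨(d : ↥G₁).2, ?_⟩, ⟨(d : ↥G₁), d.2, rfl⟩⟩
    have h1 := Subgroup.mem_centralizer_iff.mp hd _ hzcore
    have h2 : z' * φ d = φ d * z' := congrArg (fun x : ↥N₁ => ((x : ↥G₁) : G)) h1
    have h3 : Y ≤ centralizer (({φ d} : Set G)) := by
      apply (Subgroup.zpowers_le).mpr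
      rw [Subgroup.mem_centralizer_singleton_iff]
      exact h2
    apply Subgroup.mem_centralizer_iff.mpr
    intro y hy
    have := h3 hy
    rw [Subgroup.mem_centralizer_singleton_iff] at this
    exact this
  have hWnorm : W ≤ normalizer ((D₁.map φ : Subgroup G) : Set G) := by
    rintro w ⟨-, l, hl, rfl⟩
    have hDn : D₁.Normal := inferInstance
    set l' : ↥N₁ := ⟨l, hl⟩ with hl'
    have e : G₁.subtype l = φ l' := rfl
    rw [e]
    rw [Subgroup.mem_normalizer_iff]
    intro y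
    constructor
    · rintro ⟨d, hd, rfl⟩
      exact ⟨l' * d * l'⁻¹, hDn.conj_mem d hd l', by simp [map_mul, map_inv]⟩
    · rintro ⟨d, hd, hdy⟩
      refine ⟨l'⁻¹ * d * l'⁻¹⁻¹, hDn.conj_mem d hd l'⁻¹, ?_⟩
      simp only [map_mul, map_inv, hdy]
      group
  have hcharD' := charP_sn hcharW (SN.of_normal hD'W hWnorm)
  have hcharD₁ := charP_of_mulEquiv (D₁.equivMapOfInjective φ hφ).symm hcharD'
  exact centralizer_core_le hcharD₁

end Cfsg.Agent.S3023
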