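import Cfsg.Statements.S3025
import Mathlib
import Cfsg.Agent.S0016

set_option autoImplicit false
open Cfsg

namespace Cfsg.Agent.S3025

/-- Let F be a finite group and H a nontrivial subgroup of F that is contained in every nontrivial subgroup of F which H normalizes. Then F has a nontrivial normal subgroup N contained in every nontrivial normal subgroup of F (a unique minimal normal subgroup), N is simple, and one of the following holds: C_F(N) = 1; or H = N has prime order p, C_F(N) is cyclic of order a power of p, and F/C_F(N) is cyclic of order dividing p − 1; or H = N has order 2, N is central in F, and F is a generalized quaternion group. -/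
theorem result {F : Type*} [Group F] [Finite F] (H : Subgroup F) (hH : H ≠ ⊥)
    (hmin : ∀ R : Subgroup F, R ≠ ⊥ → H ≤ Subgroup.normalizer (R : Set F) → H ≤ R) :
    ∃ N : Subgroup F, N.Normal ∧ N ≠ ⊥ ∧ (∀ M : Subgroup F, M.Normal → M ≠ ⊥ → N ≤ M) ∧ IsSimpleGroup ↥N ∧
      (Subgroup.centralizer (N : Set F) = ⊥ ∨
       (H = N ∧ (Nat.card N).Prime ∧ IsCyclic ↥(Subgroup.centralizer (N : Set F)) ∧
          (∃ k : ℕ, 1 ≤ k ∧ Nat.card ↥(Subgroup.centralizer (N : Set F)) = Nat.card N ^ k) ∧
          (∃ g : F, Subgroup.centralizer (N : Set F) ⊔ Subgroup.zpowers g = ⊤) ∧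
          (Subgroup.centralizer (N : Set F)).index ∣ Nat.card N - 1) ∨
       (H = N ∧ Nat.card N = 2 ∧ Subgroup.centralizer (N : Set F) = ⊤ ∧
          ∃ k : ℕ, 1 ≤ k ∧ Nonempty (F ≃* QuaternionGroup (2 ^ k)))) := by
  classical
  -- the normal closure of `H`
  let N : Subgroup F := Subgroup.normalClosure (H : Set F)
  haveI hNn : N.Normal := inferInstance
  have hHN : H ≤ N := Subgroup.subset_normalClosure
  have hNbot : N ≠ ⊥ := by
    intro h
    apply hH
    rw [eq_bot_iff, ← h]
    exact hHN
  have hNmin : ∀ M : Subgroup F, M.Normal → M ≠ ⊥ → N ≤ M := by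
    intro M hM hMb
    have h1 : H ≤ M := hmin M hMb (by
      rw [Subgroup.normalizer_eq_top_iff.2 hM]
      exact le_top)
    exact Subgroup.normalClosure_le_normal h1
  -- subgroups of `N` normalized by `N` are trivial or all of `N`
  have hKN : ∀ K : Subgroup F, K ≤ N → K ≠ ⊥ → N ≤ Subgroup.normalizer (K : Set F) → K = N := by
    intro K hKle hKb hKnorm
    apply le_antisymm hKle
    have hconj : ∀ (g : F), ∀ h ∈ H, g * h * g⁻¹ ∈ K := by
      intro g h hh
      let K' : Subgroup F := K.map (MulAut.conj g⁻¹).toMonoidHom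
      have hK'mem : ∀ x, x ∈ K' ↔ g * x * g⁻¹ ∈ K := by
        intro x
        constructor
        · rintro ⟨k, hk, rfl⟩
          have : g * ((MulAut.conj g⁻¹).toMonoidHom k) * g⁻¹ = k := by
            show g * (g⁻¹ * k * g⁻¹⁻¹) * g⁻¹ = k
            group
          rw [this]
          exact hk
        · intro hx
          refine ⟨_, hx, ?_⟩
          show g⁻¹ * (g * x * g⁻¹) * g⁻¹⁻¹ = x
          group
      have hK'b : K' ≠ ⊥ := by
        intro h0
        apply hKb
        rw [eq_bot_iff]
        intro k hk
        have : g⁻¹ * k * g ∈ K' := by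
          rw [hK'mem]
          simpa [mul_assoc] using hk
        rw [h0, Subgroup.mem_bot] at this
        rw [Subgroup.mem_bot]
        have e : k = g * (g⁻¹ * k * g) * g⁻¹ := by group
        rw [e, this]
        simp
      have hH' : H ≤ Subgroup.normalizer (K' : Set F) := by
        intro a ha
        rw [Subgroup.mem_normalizer_iff]
        intro x
        have haN : g * a * g⁻¹ ∈ N := hNn.conj_mem _ (hHN ha) g
        have h1 := (Subgroup.mem_normalizer_iff.1 (hKnorm haN)) (g * x * g⁻¹)
        rw [hK'mem, hK'mem]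
        have e : g * (a * x * a⁻¹) * g⁻¹ = g * a * g⁻¹ * (g * x * g⁻¹) * (g * a * g⁻¹)⁻¹ := by group
        rw [e]
        exact h1
      exact (hK'mem h).1 (hmin K' hK'b hH' hh)
    show Subgroup.closure _ ≤ K
    rw [Subgroup.closure_le]
    intro x hx
    rw [Group.mem_conjugatesOfSet_iff] at hx
    obtain ⟨h, hh, hc⟩ := hx
    obtain ⟨c, rfl⟩ := isConj_iff.1 hc
    exact hconj c h hh
  haveI hNnt : Nontrivial N := (Subgroup.nontrivial_iff_ne_bot N).2 hNbot
  have hNsimple : IsSimpleGroup N := by
    refine ⟨fun K hK => ?_⟩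
    by_cases hKb : K = ⊥
    · exact Or.inl hKb
    right
    have h1 : K.map N.subtype = N := by
      apply hKN
      · rintro _ ⟨k, -, rfl⟩
        exact k.2
      · intro h0
        apply hKb
        rw [eq_bot_iff]
        intro k hk
        have : (k : F) ∈ K.map N.subtype := ⟨k, hk, rfl⟩
        rw [h0, Subgroup.mem_bot] at this
        rw [Subgroup.mem_bot]
        exact Subtype.ext this
      · intro n hn
        rw [Subgroup.mem_normalizer_iff]
        intro x
        constructor
        · rintro ⟨k, hk, rfl⟩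
          exact ⟨⟨n, hn⟩ * k * (⟨n, hn⟩ : N)⁻¹, hK.conj_mem _ hk _, rfl⟩
        · rintro ⟨k, hk, hke⟩
          have hxN : x ∈ N := by
            have h2 : n * x * n⁻¹ ∈ N := by
              rw [show n * x * n⁻¹ = k from hke.symm]
              exact k.2
            have e : x = n⁻¹ * (n * x * n⁻¹) * n⁻¹⁻¹ := by group
            rw [e]
            exact hNn.conj_mem _ h2 _
          refine ⟨(⟨n, hn⟩ : N)⁻¹ * k * ((⟨n, hn⟩ : N)⁻¹)⁻¹, hK.conj_mem _ hk _, ?_⟩
          show n⁻¹ * (k : F) * n⁻¹⁻¹ = x
          rw [show (k : F) = n * x * n⁻¹ from hke]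
          group
    rw [eq_top_iff]
    intro x _
    have : (x : F) ∈ K.map N.subtype := by rw [h1]; exact x.2
    obtain ⟨k, hk, hke⟩ := this
    have : k = x := Subtype.ext hke
    rwa [← this]
  refine ⟨N, hNn, hNbot, hNmin, hNsimple, ?_⟩
  by_cases hCb : Subgroup.centralizer (N : Set F) = ⊥
  · exact Or.inl hCb
  right
  let C : Subgroup F := Subgroup.centralizer (N : Set F)
  haveI hCn : C.Normal := inferInstance
  have hNC : N ≤ C := hNmin C hCn hCb
  have hNcomm : ∀ a ∈ N, ∀ b ∈ N, a * b = b * a := fun a ha b hb =>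
    (Subgroup.mem_centralizer_iff.1 (hNC ha)) b hb |>.symm
  haveI hNab : IsMulCommutative N := ⟨⟨fun a b => Subtype.ext (hNcomm a.1 a.2 b.1 b.2)⟩⟩
  have hpp : (Nat.card N).Prime := Group.is_simple_iff_prime_card.1 hNsimple
  have hHeq : H = N := by
    apply hKN H hHN hH
    intro n hn
    rw [Subgroup.mem_normalizer_iff]
    intro x
    constructor
    · intro hx
      have e : n * x * n⁻¹ = x := by
        rw [hNcomm n hn x (hHN hx)]
        group
      rw [e]
      exact hx
    · intro hx
      have hxN : x ∈ N := by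
        have h2 : n * x * n⁻¹ ∈ N := hHN hx
        have e : x = n⁻¹ * (n * x * n⁻¹) * n⁻¹⁻¹ := by group
        rw [e]
        exact hNn.conj_mem _ h2 _
      have e : n * x * n⁻¹ = x := by
        rw [hNcomm n hn x hxN]
        group
      rw [e] at hx
      exact hx
  have hCsub : ∀ R : Subgroup F, R ≤ C → R ≠ ⊥ → N ≤ R := by
    intro R hRC hRb
    rw [← hHeq]
    apply hmin R hRb
    intro h hh
    have hhN : h ∈ N := hHN hh
    rw [Subgroup.mem_normalizer_iff]
    intro x
    constructor
    · intro hx
      have e : h * x * h⁻¹ = x := by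
        have := (Subgroup.mem_centralizer_iff.1 (hRC hx)) h hhN
        rw [this]
        group
      rw [e]
      exact hx
    · intro hx
      have hxC : x ∈ C := by
        have h2 : h * x * h⁻¹ ∈ C := hRC hx
        have e : x = h⁻¹ * (h * x * h⁻¹) * h⁻¹⁻¹ := by group
        rw [e]
        exact hCn.conj_mem _ h2 _
      have e : h * x * h⁻¹ = x := by
        have := (Subgroup.mem_centralizer_iff.1 hxC) h hhN
        rw [this]
        group
      rw [e] at hx
      exact hx
  haveI hfact : Fact (Nat.card N).Prime := ⟨hpp⟩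
  -- `C` is a `p`-group with a unique subgroup of order `p`
  have hCp : IsPGroup (Nat.card N) C := by
    rw [IsPGroup.iff_orderOf]
    intro g
    have hm : orderOf g ≠ 0 := (orderOf_pos g).ne'
    refine ⟨_, Nat.eq_prime_pow_of_unique_prime_dvd hm ?_⟩
    intro q hq hqd
    haveI : Fact q.Prime := ⟨hq⟩
    have h1 : orderOf (g ^ (orderOf g / q)) = q := orderOf_pow_orderOf_div hm hqd
    let y : F := ((g ^ (orderOf g / q) : C) : F)
    have hy : orderOf y = q := by
      rw [← h1]
      exact Subgroup.orderOf_coe _
    have hR : Subgroup.zpowers y ≤ C := by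
      rw [Subgroup.zpowers_le]
      exact (g ^ (orderOf g / q) : C).2
    have hRb : Subgroup.zpowers y ≠ ⊥ := by
      intro h0
      rw [Subgroup.zpowers_eq_bot] at h0
      rw [h0, orderOf_one] at hy
      exact hq.one_lt.ne hy
    have hle := hCsub _ hR hRb
    have hd := Subgroup.card_dvd_of_le hle
    rw [Nat.card_zpowers, hy] at hd
    exact ((Nat.prime_dvd_prime_iff_eq hpp hq).1 hd).symm
  have huniq : ∀ A B : Subgroup C, Nat.card A = Nat.card N → Nat.card B = Nat.card N → A = B := by
    have h1 : ∀ A : Subgroup C, Nat.card A = Nat.card N → A.map C.subtype = N := by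
      intro A hA
      have hAc : Nat.card (A.map C.subtype) = Nat.card N := by
        rw [← hA]
        exact Subgroup.card_map_of_injective (Subgroup.subtype_injective _)
      have hle : N ≤ A.map C.subtype := by
        apply hCsub
        · rintro _ ⟨a, -, rfl⟩
          exact a.2
        · intro h0
          rw [h0, Subgroup.card_bot] at hAc
          exact hpp.one_lt.ne hAc
      exact (Subgroup.eq_of_le_of_card_ge hle (by rw [hAc])).symm
    intro A B hA hB
    apply Subgroup.map_injective (Subgroup.subtype_injective C)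
    rw [h1 A hA, h1 B hB]
  -- the automizer
  let φ : F →* MulAut N := MulAut.conjNormal
  have hker : φ.ker = C := by
    ext g
    rw [MonoidHom.mem_ker]
    constructor
    · intro h
      rw [Subgroup.mem_centralizer_iff]
      intro n hn
      have h1 := congrArg (fun f : MulAut N => ((f ⟨n, hn⟩ : N) : F)) h
      simp only [φ, MulAut.conjNormal_apply, MulAut.one_apply] at h1
      rw [mul_inv_eq_iff_eq_mul] at h1
      exact h1.symm
    · intro h
      apply MulEquiv.ext
      intro n
      apply Subtype.ext
      simp only [φ, MulAut.conjNormal_apply, MulAut.one_apply]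
      rw [mul_inv_eq_iff_eq_mul]
      exact ((Subgroup.mem_centralizer_iff.1 h) n n.2).symm
  haveI hNcyc : IsCyclic N := isCyclic_of_prime_card rfl
  have hAutCyc : IsCyclic (MulAut N) := by
    have e := IsCyclic.mulAutMulEquiv N
    exact isCyclic_of_surjective e.symm e.symm.surjective
  have hAutCard : Nat.card (MulAut N) = Nat.card N - 1 := by
    rw [IsCyclic.card_mulAut, Nat.totient_prime hpp]
  have hidx : C.index ∣ Nat.card N - 1 := by
    rw [← hker, Subgroup.index_ker, ← hAutCard]
    exact Subgroup.card_subgroup_dvd_card _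
  have hcyc : IsCyclic C → (H = N ∧ (Nat.card N).Prime ∧ IsCyclic ↥(Subgroup.centralizer (N : Set F)) ∧
      (∃ k : ℕ, 1 ≤ k ∧ Nat.card ↥(Subgroup.centralizer (N : Set F)) = Nat.card N ^ k) ∧
      (∃ g : F, Subgroup.centralizer (N : Set F) ⊔ Subgroup.zpowers g = ⊤) ∧
      (Subgroup.centralizer (N : Set F)).index ∣ Nat.card N - 1) := by
    intro hCc
    refine ⟨hHeq, hpp, hCc, ?_, ?_, hidx⟩
    · obtain ⟨k, hk⟩ := IsPGroup.iff_card.1 hCp
      refine ⟨k, ?_, hk⟩
      by_contra hk0
      have : k = 0 := by omega
      subst this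
      have h1 : Nat.card C = 1 := by simpa using hk
      have h2 := Subgroup.card_le_of_le hNC
      have h3 := hpp.one_lt
      omega
    · haveI : IsCyclic φ.range := inferInstance
      obtain ⟨⟨r, g, rfl⟩, hgen⟩ := IsCyclic.exists_generator (α := φ.range)
      refine ⟨g, ?_⟩
      rw [eq_top_iff]
      intro x _
      obtain ⟨i, hi⟩ := hgen ⟨φ x, x, rfl⟩
      have hi' : φ g ^ i = φ x := congrArg Subtype.val hi
      have h1 : (g ^ i)⁻¹ * x ∈ φ.ker := by
        rw [MonoidHom.mem_ker, map_mul, map_inv, map_zpow, hi', inv_mul_cancel]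
      rw [hker] at h1
      have e : x = g ^ i * ((g ^ i)⁻¹ * x) := by group
      rw [e]
      apply Subgroup.mul_mem
      · exact Subgroup.mem_sup_right (Subgroup.zpow_mem_zpowers g i)
      · exact Subgroup.mem_sup_left h1
  rcases Cfsg.Agent.S0016.result (G := C) (Nat.card N) hCp huniq with hc | ⟨hp2, n, ⟨e⟩⟩
  · exact Or.inl (hcyc hc)
  · rcases Nat.eq_zero_or_pos n with rfl | hn
    · left
      apply hcyc
      haveI : IsCyclic (QuaternionGroup (2 ^ 0)) := by
        simpa using QuaternionGroup.quaternionGroup_one_isCyclic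
      exact isCyclic_of_surjective e.symm e.symm.surjective
    · right
      have hCtop : C = ⊤ := by
        rw [hp2] at hidx
        have h1 : C.index = 1 := by simpa using hidx
        exact Subgroup.index_eq_one.1 h1
      refine ⟨hHeq, hp2, hCtop, n, hn, ⟨?_⟩⟩
      exact (Subgroup.topEquiv.symm.trans (MulEquiv.subgroupCongr hCtop.symm)).trans e

end Cfsg.Agent.S3025
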