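import Cfsg.Statements.S3027
import Cfsg.Agent.Lib.Subnormal.Join
import Mathlib

set_option autoImplicit false
open Cfsg

namespace Cfsg.Agent.S3027

open Subgroup Cfsg.Agent.Lib.Subnormal
open scoped commutatorElement

theorem map_inf_eq_top {G Q : Type*} [Group G] [Group Q] (φ : G →* Q)
    (hQ : ⁅(⊤ : Subgroup Q), (⊤ : Subgroup Q)⁆ = ⊤) {B₁ : Subgroup G} (h₁ : B₁.IsSubnormal) :
    ∀ {B₂ : Subgroup G}, B₂.IsSubnormal → B₁.map φ = ⊤ → B₂.map φ = ⊤ → (B₁ ⊓ B₂).map φ = ⊤ := by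
  induction h₁ with
  | top =>
    intro B₂ _ _ h
    rwa [top_inf_eq]
  | step B₁ L₁ hle hL₁ hN IH₁ =>
    intro B₂ h₂
    induction h₂ with
    | top =>
      intro h _
      rwa [inf_top_eq]
    | step B₂ L₂ hle₂ hL₂ hN₂ IH₂ =>
      intro hB₁ hB₂
      have hL₁top : L₁.map φ = ⊤ := top_le_iff.mp (hB₁ ▸ Subgroup.map_mono hle)
      have hL₂top : L₂.map φ = ⊤ := top_le_iff.mp (hB₂ ▸ Subgroup.map_mono hle₂)
      have h1 : (B₁ ⊓ L₂).map φ = ⊤ := IH₂ hB₁ hL₂top
      have h2 : (L₁ ⊓ B₂).map φ = ⊤ := IH₁ (Subgroup.IsSubnormal.step _ _ hle₂ hL₂ hN₂) hL₁top hB₂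
      have h3 : ⁅B₁ ⊓ L₂, L₁ ⊓ B₂⁆ ≤ B₁ ⊓ B₂ := by
        rw [Subgroup.commutator_le]
        rintro x ⟨hx1, hx2⟩ y ⟨hy1, hy2⟩
        have hN₁' : L₁ ≤ normalizer (B₁ : Set G) := (Subgroup.normal_subgroupOf_iff_le_normalizer hle).mp hN
        have hN₂' : L₂ ≤ normalizer (B₂ : Set G) := (Subgroup.normal_subgroupOf_iff_le_normalizer hle₂).mp hN₂
        constructor
        · -- in `B₁`
          have h4 : y * x⁻¹ * y⁻¹ ∈ B₁ :=
            (Subgroup.mem_normalizer_iff.mp (hN₁' hy1) x⁻¹).mp (B₁.inv_mem hx1)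
          have e : ⁅x, y⁆ = x * (y * x⁻¹ * y⁻¹) := by
            rw [commutatorElement_def]; group
          rw [e]
          exact B₁.mul_mem hx1 h4
        · have h4 : x * y * x⁻¹ ∈ B₂ :=
            (Subgroup.mem_normalizer_iff.mp (hN₂' hx2) y).mp hy2
          rw [commutatorElement_def]
          exact B₂.mul_mem h4 (B₂.inv_mem hy2)
      have h4 := Subgroup.map_mono (f := φ) h3
      rw [Subgroup.map_commutator, h1, h2, hQ] at h4
      exact top_le_iff.mp h4

/-- Let G be a finite group and D a normal subgroup of G such that G/D is perfect (that is, G = G′D). Then among the subnormal subgroups B of G with BD = G there is a least one, and it is normal in G. -/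
theorem result {G : Type*} [Group G] [Finite G] (D : Subgroup G) [D.Normal] (hperf : ⁅(⊤ : Subgroup G), (⊤ : Subgroup G)⁆ ⊔ D = ⊤) :
    ∃ B : Subgroup G, B.Normal ∧ B ⊔ D = ⊤ ∧ ∀ B' : Subgroup G, B'.IsSubnormal → B' ⊔ D = ⊤ → B ≤ B' := by
  classical
  let φ := QuotientGroup.mk' D
  have hφ : Function.Surjective φ := QuotientGroup.mk'_surjective D
  have hker : φ.ker = D := QuotientGroup.ker_mk' D
  have hiff : ∀ X : Subgroup G, X ⊔ D = ⊤ ↔ X.map φ = ⊤ := by
    intro X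
    constructor
    · intro h
      have := congrArg (Subgroup.map φ) h
      rw [Subgroup.map_sup, Subgroup.map_top_of_surjective φ hφ] at this
      have hD : D.map φ = ⊥ := by
        rw [eq_bot_iff]
        rintro _ ⟨d, hd, rfl⟩
        exact (QuotientGroup.eq_one_iff d).mpr hd
      rwa [hD, sup_bot_eq] at this
    · intro h
      have h1 := Subgroup.comap_map_eq φ X
      rw [h, Subgroup.comap_top, hker] at h1
      exact h1.symm
  have hQ : ⁅(⊤ : Subgroup (G ⧸ D)), (⊤ : Subgroup (G ⧸ D))⁆ = ⊤ := by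
    have h1 := (hiff _).mp hperf
    rwa [Subgroup.map_commutator, Subgroup.map_top_of_surjective φ hφ] at h1
  let 𝓑 : Set (Subgroup G) := {B | B.IsSubnormal ∧ B ⊔ D = ⊤}
  have hne : 𝓑.Nonempty := ⟨⊤, Subgroup.IsSubnormal.top, top_sup_eq _⟩
  obtain ⟨B, hB⟩ := (Set.toFinite 𝓑).exists_minimal hne
  have hleast : ∀ B' ∈ 𝓑, B ≤ B' := by
    intro B' hB'
    have h1 : B ⊓ B' ∈ 𝓑 := by
      refine ⟨?_, (hiff _).mpr (map_inf_eq_top φ hQ hB.1.1 hB'.1 ((hiff _).mp hB.1.2) ((hiff _).mp hB'.2))⟩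
      have h2 := (sn_top_of_isSubnormal hB'.1).inf (Y := B) le_top
      rw [inf_comm] at h2
      exact isSubnormal_of_sn_top ((sn_top_of_isSubnormal hB.1.1).trans h2)
    exact (hB.2 h1 inf_le_left).trans inf_le_right
  refine ⟨B, ?_, hB.1.2, fun B' h1 h2 => hleast B' ⟨h1, h2⟩⟩
  constructor
  intro b hb g
  have hconj : B.map (MulAut.conj g).toMonoidHom ∈ 𝓑 := by
    refine ⟨?_, ?_⟩
    · have := (sn_top_of_isSubnormal hB.1.1).conj g
      rw [Subgroup.map_top_of_surjective _ (MulEquiv.surjective _)] at this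
      exact isSubnormal_of_sn_top this
    · have := congrArg (Subgroup.map (MulAut.conj g).toMonoidHom) hB.1.2
      rw [Subgroup.map_sup, Subgroup.map_top_of_surjective _ (MulEquiv.surjective _),
        Cfsg.Agent.Lib.FF.normal_conj_eq (N := D)] at this
      exact this
  have h1 := hleast _ hconj
  have h2 : B = B.map (MulAut.conj g).toMonoidHom :=
    Subgroup.eq_of_le_of_card_ge h1 (by rw [Cfsg.Agent.Lib.FF.card_conj])
  rw [h2]
  exact Cfsg.Agent.Lib.FF.conj_mem_conj hb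

end Cfsg.Agent.S3027
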