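import Cfsg.Statements.S3048
import Cfsg.Agent.S3012
import Cfsg.Agent.S3011
import Cfsg.Agent.Lib.Core.Basic
import Cfsg.Agent.Lib.FStar.Layer
import Cfsg.Agent.Lib.FStar.GenFitting
import Cfsg.Agent.Lib.OddLocal.Quadratic3
import Cfsg.Agent.Lib.Techniques.Conj
import Mathlib

universe u

set_option autoImplicit false
open Cfsg Cfsg.Agent.Lib.Core Cfsg.Agent.Lib.FStar Cfsg.Agent.Lib.Techniques
open Cfsg.Agent.S3011 (eq_one_of_sq odd_mul_of_commute)
open scoped commutatorElement

namespace Cfsg.Agent.S3048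

section basics

variable {G : Type*} [Group G] [Finite G]

theorem mem_of_mul_self_mem {K : Subgroup G} {y : G} (hy : Odd (orderOf y)) (h : y * y ∈ K) : y ∈ K := by
  obtain ⟨j, hj⟩ := hy
  have h2 : y ^ (2 * j + 1) = 1 := by rw [← hj, pow_orderOf_eq_one]
  have e : y = (y * y) ^ (j + 1) := by
    rw [← pow_two, ← pow_mul]
    have : y ^ (2 * (j + 1)) = y ^ (2 * j + 1) * y := by rw [← pow_succ]; ring_nf
    rw [this, h2, one_mul]
  rw [e]
  exact pow_mem h _

/-- An odd element of `N ⊔ T`, `T` a `2`-group normalizing `N`, lies in `N`. -/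
theorem mem_of_odd_of_sup {N T : Subgroup G} (hTN : T ≤ Subgroup.normalizer (N : Set G)) (hT : IsPGroup 2 T)
    {x : G} (hx : x ∈ N ⊔ T) (hodd : Odd (orderOf x)) : x ∈ N := by
  have hdec : ∀ x ∈ N ⊔ T, ∃ n ∈ N, ∃ t ∈ T, x = n * t := by
    intro x hx
    rw [Subgroup.sup_eq_closure] at hx
    induction hx using Subgroup.closure_induction with
    | mem y hy =>
      rcases hy with hy | hy
      · exact ⟨y, hy, 1, one_mem _, by simp⟩
      · exact ⟨1, one_mem _, y, hy, by simp⟩
    | one => exact ⟨1, one_mem _, 1, one_mem _, by simp⟩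
    | mul a b _ _ ha hb =>
      obtain ⟨n, hn, t, ht, rfl⟩ := ha
      obtain ⟨n', hn', t', ht', rfl⟩ := hb
      exact ⟨n * (t * n' * t⁻¹), mul_mem hn ((Subgroup.mem_normalizer_iff.mp (hTN ht) n').mp hn'),
        t * t', mul_mem ht ht', by group⟩
    | inv a _ ha =>
      obtain ⟨n, hn, t, ht, rfl⟩ := ha
      refine ⟨t⁻¹ * n⁻¹ * t, ?_, t⁻¹, inv_mem ht, by group⟩
      have h1 := (Subgroup.mem_normalizer_iff.mp (hTN (inv_mem ht)) n⁻¹).mp (inv_mem hn)
      simpa using h1
  obtain ⟨n, hn, t, ht, rfl⟩ := hdec x hx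
  have hpow : ∀ k : ℕ, ∃ m ∈ N, (n * t) ^ k = m * t ^ k := by
    intro k
    induction k with
    | zero => exact ⟨1, one_mem _, by simp⟩
    | succ k ih =>
      obtain ⟨m, hm, he⟩ := ih
      have ht' : t ^ k ∈ T := pow_mem ht k
      refine ⟨m * (t ^ k * n * (t ^ k)⁻¹), mul_mem hm ((Subgroup.mem_normalizer_iff.mp (hTN ht') n).mp hn), ?_⟩
      rw [pow_succ, he, pow_succ]
      group
  obtain ⟨m, hm, he⟩ := hpow (orderOf (n * t))
  rw [pow_orderOf_eq_one] at he
  have htm : t ^ orderOf (n * t) ∈ N := by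
    have : t ^ orderOf (n * t) = m⁻¹ := (eq_inv_of_mul_eq_one_right he.symm)
    rw [this]
    exact inv_mem hm
  obtain ⟨e, he'⟩ := (IsPGroup.iff_orderOf.mp hT) ⟨t, ht⟩
  have he'' : orderOf t = 2 ^ e := by rw [← Subgroup.orderOf_mk t ht]; exact he'
  have hcop : (orderOf (n * t)).Coprime (orderOf t) := by
    rw [he'']
    exact Nat.Coprime.pow_right _ (Nat.coprime_two_right.mpr hodd)
  obtain ⟨a, ha⟩ := exists_pow_eq_self_of_coprime hcop
  have htN : t ∈ N := by
    rw [← ha]
    exact pow_mem htm a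
  exact mul_mem hn htN

/-- A normal subgroup of a group with trivial `O₂` has trivial `O₂`. -/
theorem pCore_normal_eq_bot (hO : pCore 2 G = ⊥) (N : Subgroup G) [N.Normal] : pCore 2 N = ⊥ := by
  haveI : Fact (Nat.Prime 2) := ⟨Nat.prime_two⟩
  have h := map_pCore_of_normal (p := 2) N
  rw [hO, inf_bot_eq] at h
  exact (Subgroup.map_eq_bot_iff_of_injective _ N.subtype_injective).mp h

/-- `T ≤ N` a `2`-subgroup normalized by `N` is trivial, if `O₂(G) = 1`. -/
theorem eq_bot_of_normalized (hO : pCore 2 G = ⊥) (N : Subgroup G) [N.Normal] {T : Subgroup G} (hTN : T ≤ N)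
    (hT : IsPGroup 2 T) (hNT : N ≤ Subgroup.normalizer (T : Set G)) : T = ⊥ := by
  haveI : Fact (Nat.Prime 2) := ⟨Nat.prime_two⟩
  have h0 := pCore_normal_eq_bot hO N
  have hn : (T.subgroupOf N).Normal := by
    constructor
    intro x hx g
    rw [Subgroup.mem_subgroupOf] at hx ⊢
    exact (Subgroup.mem_normalizer_iff.mp (hNT g.2) x).mp hx
  have hp : IsPGroup 2 (T.subgroupOf N) := hT.comap_of_injective N.subtype N.subtype_injective
  have h1 := le_pCore hn hp
  rw [h0] at h1
  rw [eq_bot_iff]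
  intro x hx
  have h2 : (⟨x, hTN hx⟩ : N) ∈ T.subgroupOf N := hx
  have h3 := h1 h2
  rw [Subgroup.mem_bot] at h3
  exact Subgroup.mem_bot.mpr (congrArg Subtype.val h3)

/-- Two-step version. -/
theorem eq_bot_of_normalized₂ (hO : pCore 2 G = ⊥) (N : Subgroup G) [N.Normal] {S T : Subgroup G}
    (hSN : S ≤ N) (hNS : N ≤ Subgroup.normalizer (S : Set G)) (hTS : T ≤ S)
    (hT : IsPGroup 2 T) (hST : S ≤ Subgroup.normalizer (T : Set G)) : T = ⊥ := by
  haveI : Fact (Nat.Prime 2) := ⟨Nat.prime_two⟩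
  have h0 : pCore 2 N = ⊥ := pCore_normal_eq_bot hO N
  haveI hn : (S.subgroupOf N).Normal := by
    constructor
    intro x hx g
    rw [Subgroup.mem_subgroupOf] at hx ⊢
    exact (Subgroup.mem_normalizer_iff.mp (hNS g.2) x).mp hx
  have hp : IsPGroup 2 (T.subgroupOf N) := hT.comap_of_injective N.subtype N.subtype_injective
  have hle : T.subgroupOf N ≤ S.subgroupOf N := Subgroup.subgroupOf_mono _ hTS
  have hnorm : S.subgroupOf N ≤ Subgroup.normalizer (T.subgroupOf N : Set N) := by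
    intro x hx
    rw [Subgroup.mem_normalizer_iff]
    intro y
    rw [Subgroup.mem_subgroupOf, Subgroup.mem_subgroupOf]
    exact Subgroup.mem_normalizer_iff.mp (hST hx) y
  have h1 := eq_bot_of_normalized h0 (S.subgroupOf N) hle hp hnorm
  rw [eq_bot_iff]
  intro x hx
  have h2 : (⟨x, hSN (hTS hx)⟩ : N) ∈ T.subgroupOf N := hx
  rw [h1, Subgroup.mem_bot] at h2
  exact Subgroup.mem_bot.mpr (congrArg Subtype.val h2)

theorem sidki_subgroupOf {W K : Subgroup G} (hWK : W ≤ K) (hS : IsSidkiPair W) : IsSidkiPair (W.subgroupOf K) := by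
  intro h v hv hodd hinv
  have h1 : Odd (orderOf (h : G)) := by rwa [Subgroup.orderOf_coe]
  have h2 : (v : G) * (h : G) * (v : G)⁻¹ = (h : G)⁻¹ := congrArg Subtype.val hinv
  obtain ⟨w, hw, hw1, hwh⟩ := hS (h : G) (v : G) hv h1 h2
  refine ⟨⟨w, hWK hw⟩, hw, fun he => hw1 (congrArg Subtype.val he), Subtype.ext hwh⟩

theorem not_sidki_data {W K : Subgroup G} (hWK : W ≤ K) (h : ¬ IsSidkiPair (W.subgroupOf K)) :
    ∃ x ∈ K, ∃ u ∈ W, Odd (orderOf x) ∧ u * x * u⁻¹ = x⁻¹ ∧ ∀ t ∈ W, t ≠ 1 → t * x ≠ x * t := by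
  unfold IsSidkiPair at h
  push Not at h
  obtain ⟨x, v, hv, hodd, hinv, hall⟩ := h
  refine ⟨x, x.2, v, hv, by rwa [Subgroup.orderOf_coe], congrArg Subtype.val hinv, ?_⟩
  intro t ht ht1 he
  exact hall ⟨t, hWK ht⟩ ht (fun e => ht1 (congrArg Subtype.val e)) (Subtype.ext he)

theorem comm_of_ea {W : Subgroup G} (hV : IsElementaryAbelian 2 W) {x y : G} (hx : x ∈ W) (hy : y ∈ W) :
    x * y = y * x := by
  have h := hV.1.is_comm.comm (⟨x, hx⟩ : W) ⟨y, hy⟩
  exact congrArg Subtype.val h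

theorem ea_mono {W V : Subgroup G} (hWV : W ≤ V) (hV : IsElementaryAbelian 2 V) : IsElementaryAbelian 2 W :=
  ⟨⟨⟨fun a b => Subtype.ext (comm_of_ea hV (hWV a.2) (hWV b.2))⟩⟩, fun a ha => hV.2 a (hWV ha)⟩

theorem ea_subgroupOf {W : Subgroup G} (K : Subgroup G) (hV : IsElementaryAbelian 2 W) :
    IsElementaryAbelian 2 (W.subgroupOf K) := by
  exact ⟨⟨⟨fun a b => Subtype.ext (Subtype.ext (comm_of_ea hV a.2 b.2))⟩⟩, fun a ha => Subtype.ext (hV.2 _ ha)⟩

theorem ea_map {H : Type*} [Group H] (f : G →* H) {W : Subgroup G} (hV : IsElementaryAbelian 2 W) :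
    IsElementaryAbelian 2 (W.map f) := by
  refine ⟨⟨⟨?_⟩⟩, ?_⟩
  · rintro ⟨_, a, ha, rfl⟩ ⟨_, b, hb, rfl⟩
    apply Subtype.ext
    show f a * f b = f b * f a
    rw [← map_mul, ← map_mul]
    exact congrArg f (congrArg Subtype.val (hV.1.is_comm.comm ⟨a, ha⟩ ⟨b, hb⟩))
  · rintro _ ⟨a, ha, rfl⟩
    show f a ^ 2 = 1
    rw [← map_pow, hV.2 a ha, map_one]

theorem subgroupOf_ne_bot {W K : Subgroup G} (hWK : W ≤ K) (h : W ≠ ⊥) : W.subgroupOf K ≠ ⊥ := by
  intro he
  apply h
  rw [eq_bot_iff]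
  intro x hx
  have h2 : (⟨x, hWK hx⟩ : K) ∈ W.subgroupOf K := hx
  rw [he, Subgroup.mem_bot] at h2
  exact Subgroup.mem_bot.mpr (congrArg Subtype.val h2)

theorem card_lt_of_ne_top {K : Subgroup G} (h : K ≠ ⊤) : Nat.card K < Nat.card G := by
  have h1 : K.index ≠ 1 := fun he => h (Subgroup.index_eq_one.mp he)
  have h2 : K.index ≠ 0 := Subgroup.index_ne_zero_of_finite
  have h3 := K.card_mul_index
  have h4 : 1 < K.index := by omega
  have h5 : 0 < Nat.card K := Nat.card_pos
  nlinarith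

theorem card_quot_lt {N : Subgroup G} [N.Normal] (h : N ≠ ⊥) : Nat.card (G ⧸ N) < Nat.card G := by
  have h1 : Nat.card N ≠ 1 := fun he => h (Subgroup.card_eq_one.mp he)
  have h5 : 0 < Nat.card N := Nat.card_pos
  have h3 := N.card_mul_index
  have h6 : 0 < N.index := Nat.pos_of_ne_zero Subgroup.index_ne_zero_of_finite
  rw [Subgroup.index_eq_card] at h3 h6
  have h4 : 1 < Nat.card N := by omega
  nlinarith

/-- elements of an abelian normal subgroup have odd order, if `O₂(G) = 1`. -/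
theorem abelian_normal_odd (hO : pCore 2 G = ⊥) (N : Subgroup G) [hN : N.Normal] (hab : IsMulCommutative N) :
    ∀ x ∈ N, Odd (orderOf x) := by
  haveI : Fact (Nat.Prime 2) := ⟨Nat.prime_two⟩
  have hcomm : ∀ a ∈ N, ∀ b ∈ N, a * b = b * a := fun a ha b hb =>
    congrArg Subtype.val (hab.is_comm.comm ⟨a, ha⟩ ⟨b, hb⟩)
  let T : Subgroup G :=
    { carrier := {x | x ∈ N ∧ x * x = 1}
      one_mem' := ⟨one_mem _, by simp⟩
      mul_mem' := by
        rintro a b ⟨ha, ha2⟩ ⟨hb, hb2⟩
        refine ⟨mul_mem ha hb, ?_⟩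
        calc a * b * (a * b) = a * (b * a) * b := by group
          _ = a * (a * b) * b := by rw [hcomm b hb a ha]
          _ = (a * a) * (b * b) := by group
          _ = 1 := by rw [ha2, hb2, one_mul]
      inv_mem' := by
        rintro a ⟨ha, ha2⟩
        refine ⟨inv_mem ha, ?_⟩
        rw [← mul_inv_rev, ha2, inv_one] }
  have hTn : T.Normal := by
    constructor
    rintro x ⟨hx, hx2⟩ g
    refine ⟨hN.conj_mem x hx g, ?_⟩
    calc g * x * g⁻¹ * (g * x * g⁻¹) = g * (x * x) * g⁻¹ := by group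
      _ = 1 := by rw [hx2]; group
  have hTp : IsPGroup 2 T := by
    rintro ⟨x, hx, hx2⟩
    refine ⟨1, Subtype.ext ?_⟩
    show x ^ 2 ^ 1 = 1
    rw [pow_one, pow_two, hx2]
  have hT : T = ⊥ := by
    have := le_pCore hTn hTp
    rwa [hO, le_bot_iff] at this
  intro x hx
  by_contra hne
  rw [Nat.not_odd_iff_even] at hne
  obtain ⟨m, hm⟩ := hne
  have hm0 : m ≠ 0 := by
    rintro rfl
    have := orderOf_pos x
    omega
  have h2 : orderOf (x ^ m) = 2 := by
    rw [orderOf_pow_of_dvd hm0 ⟨2, by omega⟩, hm, ← two_mul]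
    exact Nat.mul_div_cancel _ (Nat.pos_of_ne_zero hm0)
  have h3 : x ^ m ∈ T := by
    refine ⟨pow_mem hx m, ?_⟩
    rw [← pow_add, ← two_mul, two_mul, ← hm, pow_orderOf_eq_one]
  rw [hT, Subgroup.mem_bot] at h3
  rw [h3, orderOf_one] at h2
  omega

theorem pcore_centralizes (hO : pCore 2 G = ⊥) (N S K : Subgroup G) [hN : N.Normal] (hSN : S ≤ N)
    (hNS : N ≤ Subgroup.normalizer (S : Set G)) (hSK : S ≤ K) (hKS : K ≤ Subgroup.normalizer (S : Set G))
    {v : K} (hv : v ∈ pCore 2 K) : ∀ s ∈ S, (v : G) * s = s * v := by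
  haveI : Fact (Nat.Prime 2) := ⟨Nat.prime_two⟩
  set Q := (pCore 2 K).map K.subtype with hQ
  haveI hKn : (pCore 2 K).Normal := pCore_normal 2 K
  have hQK : ∀ k ∈ K, ∀ x ∈ Q, k * x * k⁻¹ ∈ Q := by
    rintro k hk _ ⟨y, hy, rfl⟩
    exact ⟨⟨k, hk⟩ * y * ⟨k, hk⟩⁻¹, hKn.conj_mem y hy _, rfl⟩
  have hT : S ⊓ Q = ⊥ := by
    refine eq_bot_of_normalized₂ hO N hSN hNS inf_le_left ?_ ?_
    · exact ((pCore_isPGroup 2 K).map K.subtype).to_le inf_le_right
    · intro s hs
      rw [Subgroup.mem_normalizer_iff]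
      intro x
      constructor
      · rintro ⟨hx1, hx2⟩
        have hs' : s ∈ S := hs
        have hx1' : x ∈ S := hx1
        have h3 : s * x * s⁻¹ ∈ S := mul_mem (mul_mem hs' hx1') (inv_mem hs')
        exact Subgroup.mem_inf.mpr ⟨h3, hQK s (hSK hs) x hx2⟩
      · rintro ⟨hx1, hx2⟩
        have hs' : s ∈ S := hs
        have hx1' : s * x * s⁻¹ ∈ S := hx1
        have h3 : x ∈ S := by
          have := mul_mem (mul_mem (inv_mem hs') hx1') hs'
          simpa [mul_assoc] using this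
        have h4 : x ∈ Q := by
          have := hQK s⁻¹ (inv_mem (hSK hs)) _ hx2
          simpa [mul_assoc] using this
        exact Subgroup.mem_inf.mpr ⟨h3, h4⟩
  intro s hs
  have hvQ : (v : G) ∈ Q := ⟨v, hv, rfl⟩
  have h1 : (v : G) * s * (v : G)⁻¹ * s⁻¹ ∈ S ⊓ Q := by
    have hs' : s ∈ S := hs
    have h3 : (v : G) * s * (v : G)⁻¹ * s⁻¹ ∈ S :=
      mul_mem ((Subgroup.mem_normalizer_iff.mp (hKS v.2) s).mp hs') (inv_mem hs')
    have h4 : (v : G) * s * (v : G)⁻¹ * s⁻¹ ∈ Q := by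
      have : (v : G) * s * (v : G)⁻¹ * s⁻¹ = (v : G) * (s * (v : G)⁻¹ * s⁻¹) := by group
      rw [this]
      exact mul_mem hvQ (hQK s (hSK hs) _ (inv_mem hvQ))
    exact Subgroup.mem_inf.mpr ⟨h3, h4⟩
  rw [hT, Subgroup.mem_bot] at h1
  have h2 : (v : G) * s * (v : G)⁻¹ = s := mul_inv_eq_one.mp h1
  exact mul_inv_eq_iff_eq_mul.mp h2

end basics

variable {G : Type u} [Group G] [Finite G]

/-- The standing hypotheses. -/
structure Hyp (V : Subgroup G) : Prop where
  hV : IsElementaryAbelian 2 V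
  hV1 : V ≠ ⊥
  hS : IsSidkiPair V
  hVO : V ⊓ pCore 2 G = ⊥
  hminG : ∀ (H : Type u) [Group H] [Finite H] (W : Subgroup H), Nat.card H < Nat.card G →
    IsElementaryAbelian 2 W → W ≠ ⊥ → IsSidkiPair W → W ⊓ pCore 2 H ≠ ⊥
  hminV : ∀ W : Subgroup G, Nat.card W < Nat.card V → IsElementaryAbelian 2 W → W ≠ ⊥ → IsSidkiPair W →
    W ⊓ pCore 2 G ≠ ⊥

namespace Hyp

variable {V : Subgroup G} (H : Hyp V)
include H

theorem sq (v : G) (hv : v ∈ V) : v * v = 1 := by rw [← pow_two]; exact H.hV.2 v hv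

theorem inv (v : G) (hv : v ∈ V) : v⁻¹ = v := inv_eq_of_mul_eq_one_left (H.sq v hv)

theorem comm (x : G) (hx : x ∈ V) (y : G) (hy : y ∈ V) : x * y = y * x := by
  have h := H.hV.1.is_comm.comm (⟨x, hx⟩ : V) ⟨y, hy⟩
  exact congrArg Subtype.val h

/-- `O₂(G) = 1`. -/
theorem pCore_eq_bot : pCore 2 G = ⊥ := by
  haveI : Fact (Nat.Prime 2) := ⟨Nat.prime_two⟩
  by_contra hne
  set Q := pCore 2 G with hQ
  haveI hQn : Q.Normal := pCore_normal 2 G
  have hS' := Cfsg.Agent.S3012.result V Q H.hV H.hV1 H.hS H.hVO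
  have hV' : V.map (QuotientGroup.mk' Q) ≠ ⊥ := by
    intro he
    rw [Subgroup.map_eq_bot_iff, QuotientGroup.ker_mk'] at he
    apply H.hV1
    rw [← inf_eq_left.mpr he]
    exact H.hVO
  have h := H.hminG (G ⧸ Q) (V.map (QuotientGroup.mk' Q)) (card_quot_lt hne) (ea_map _ H.hV) hV' hS'
  rw [pCore_quotient_pCore_eq_bot, inf_bot_eq] at h
  exact h rfl

/-- A normal subgroup is not centralized by `V`. -/
theorem not_le_centralizer (N : Subgroup G) [hN : N.Normal] (hN1 : N ≠ ⊥) :
    ¬ V ≤ Subgroup.centralizer (N : Set G) := by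
  haveI : Fact (Nat.Prime 2) := ⟨Nat.prime_two⟩
  have hO := H.pCore_eq_bot
  intro hVC
  set C := Subgroup.centralizer (N : Set G) with hC
  haveI hCn : C.Normal := Subgroup.normal_centralizer
  by_cases hCt : C = ⊤
  · -- `N` is central
    have hcent : ∀ n ∈ N, ∀ g : G, g * n = n * g := by
      intro n hn g
      have : g ∈ C := by rw [hCt]; trivial
      exact Subgroup.mem_centralizer_iff.mp this n hn |>.symm
    have hab : IsMulCommutative N := ⟨⟨fun a b => Subtype.ext (hcent b b.2 a)⟩⟩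
    have hodd := abelian_normal_odd hO N hab
    have hVN : V ⊓ N = ⊥ := by
      rw [eq_bot_iff]
      rintro x ⟨hxV, hxN⟩
      exact Subgroup.mem_bot.mpr (eq_one_of_sq (hodd x hxN) (H.sq x hxV))
    have hS' := Cfsg.Agent.S3012.result V N H.hV H.hV1 H.hS hVN
    have hV' : V.map (QuotientGroup.mk' N) ≠ ⊥ := by
      intro he
      rw [Subgroup.map_eq_bot_iff, QuotientGroup.ker_mk'] at he
      apply H.hV1
      rw [← inf_eq_left.mpr he]
      exact hVN
    have h := H.hminG (G ⧸ N) (V.map (QuotientGroup.mk' N)) (card_quot_lt hN1) (ea_map _ H.hV) hV' hS'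
    apply h
    rw [eq_bot_iff]
    rintro _ ⟨⟨v, hv, rfl⟩, hvQ⟩
    set M := (pCore 2 (G ⧸ N)).comap (QuotientGroup.mk' N) with hM
    haveI hMn : M.Normal := (pCore_normal 2 (G ⧸ N)).comap _
    have hMnil : Group.IsNilpotent M := by
      haveI : Group.IsNilpotent (pCore 2 (G ⧸ N)) := (pCore_isPGroup 2 (G ⧸ N)).isNilpotent
      refine _root_.isNilpotent_of_ker_le_center ((QuotientGroup.mk' N).subgroupComap (pCore 2 (G ⧸ N))) ?_
      intro x hx
      rw [Subgroup.mem_center_iff]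
      intro y
      have hx' : (x : G) ∈ N := by
        have h1 : ((QuotientGroup.mk' N).subgroupComap (pCore 2 (G ⧸ N)) x : G ⧸ N) = 1 :=
          congrArg Subtype.val hx
        exact (QuotientGroup.eq_one_iff _).mp h1
      exact Subtype.ext (hcent _ hx' _)
    have hvM : v ∈ M := hvQ
    have hvF : v ∈ fittingSubgroup G := le_fittingSubgroup hMn hMnil hvM
    have h2 := Cfsg.Agent.Lib.OddLocal.mem_pCore_of_mem_fitting 2 v hvF 1 (by rw [pow_one]; exact H.hV.2 v hv)
    rw [hO, Subgroup.mem_bot] at h2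
    rw [h2]
    exact one_mem _
  · have h1 := H.hminG C (V.subgroupOf C) (card_lt_of_ne_top hCt) (ea_subgroupOf _ H.hV)
      (subgroupOf_ne_bot hVC H.hV1) (sidki_subgroupOf hVC H.hS)
    rw [pCore_normal_eq_bot hO C, inf_bot_eq] at h1
    exact h1 rfl

/-- `C_V(N) = 1` for every nontrivial normal subgroup `N`. -/
theorem inf_centralizer_eq_bot (N : Subgroup G) [hN : N.Normal] (hN1 : N ≠ ⊥) :
    V ⊓ Subgroup.centralizer (N : Set G) = ⊥ := by
  have hO := H.pCore_eq_bot
  by_contra hW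
  set C := Subgroup.centralizer (N : Set G) with hC
  haveI hCn : C.Normal := Subgroup.normal_centralizer
  set W := V ⊓ C with hWdef
  have hWV : W ≤ V := inf_le_left
  have hne : W ≠ V := fun he => H.not_le_centralizer N hN1 (inf_eq_left.mp he)
  have hlt : Nat.card W < Nat.card V := lt_of_not_ge fun h => hne (Subgroup.eq_of_le_of_card_ge hWV h)
  have hnS : ¬ IsSidkiPair W := fun hs => (H.hminV W hlt (ea_mono hWV H.hV) hW hs) (by rw [hO, inf_bot_eq])
  unfold IsSidkiPair at hnS
  push Not at hnS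
  obtain ⟨h, w, hw, hodd, hinv, hall⟩ := hnS
  have hwV : w ∈ V := hw.1
  have hwC : w ∈ C := hw.2
  have hw' : w⁻¹ = w := H.inv w hwV
  have hhC : h ∈ C := by
    apply mem_of_mul_self_mem hodd
    have e : h * h = (h * w * h⁻¹) * w⁻¹ := by
      have h1 : w * h⁻¹ * w⁻¹ = h := by
        have h2 : w * h⁻¹ * w⁻¹ = (w * h * w⁻¹)⁻¹ := by group
        rw [h2, hinv, inv_inv]
      calc h * h = h * (w * h⁻¹ * w⁻¹) := by rw [h1]
        _ = (h * w * h⁻¹) * w⁻¹ := by group
    rw [e]
    exact mul_mem (hCn.conj_mem w hwC h) (inv_mem hwC)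
  obtain ⟨t, htV, ht1, hth⟩ := H.hS h w hwV hodd hinv
  set V₁ := V ⊓ Subgroup.centralizer ({h} : Set G) with hV₁
  have hV₁V : V₁ ≤ V := inf_le_left
  have hmemV₁ : ∀ {u : G}, u ∈ V → u * h = h * u → u ∈ V₁ := fun hu huh =>
    ⟨hu, Subgroup.mem_centralizer_singleton_iff.mpr huh⟩
  have hV₁comm : ∀ {u : G}, u ∈ V₁ → u * h = h * u := fun hu => Subgroup.mem_centralizer_singleton_iff.mp hu.2
  have hV₁bot : V₁ ≠ ⊥ := by
    intro he
    have : t ∈ V₁ := hmemV₁ htV hth
    rw [he, Subgroup.mem_bot] at this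
    exact ht1 this
  have hV₁C : ∀ u ∈ V₁, u ∈ C → u = 1 := by
    intro u hu huC
    by_contra hu1
    exact hall u ⟨hu.1, huC⟩ hu1 (hV₁comm hu)
  have hV₁n : V₁ ≤ Subgroup.normalizer (N : Set G) := by
    rw [Subgroup.normalizer_eq_top_iff.mpr hN]; exact le_top
  have hV₁p : IsPGroup 2 V₁ := by
    rintro ⟨x, hx⟩
    exact ⟨1, Subtype.ext (by show x ^ 2 ^ 1 = 1; rw [pow_one]; exact H.hV.2 x hx.1)⟩
  set K := N ⊔ V₁ with hK
  have hNK : N ≤ K := le_sup_left
  have hV₁K : V₁ ≤ K := le_sup_right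
  have hKt : K ≠ ⊤ := by
    intro he
    have hhN : h ∈ N := mem_of_odd_of_sup hV₁n hV₁p (by rw [← hK, he]; trivial) hodd
    have hc : h * w = w * h := Subgroup.mem_centralizer_iff.mp hwC h hhN
    have hinv2 : h⁻¹ = h := by rw [← hinv, ← hc]; group
    have hh1 : h = 1 := by
      apply eq_one_of_sq hodd
      nth_rewrite 1 [← hinv2]
      group
    obtain ⟨⟨y, hy⟩, hy1⟩ := (Subgroup.ne_bot_iff_exists_ne_one).mp hW
    have hy1' : y ≠ 1 := fun e => hy1 (Subtype.ext e)
    exact hall y hy hy1' (by rw [hh1]; simp)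
  by_cases hs : IsSidkiPair (V₁.subgroupOf K)
  · have h1 := H.hminG K (V₁.subgroupOf K) (card_lt_of_ne_top hKt) (ea_subgroupOf _ (ea_mono hV₁V H.hV))
      (subgroupOf_ne_bot hV₁K hV₁bot) hs
    obtain ⟨⟨y, hy⟩, hy1⟩ := (Subgroup.ne_bot_iff_exists_ne_one).mp h1
    have hy1' : (y : G) ≠ 1 := fun e => hy1 (Subtype.ext (Subtype.ext e))
    have hc := pcore_centralizes hO N N K le_rfl (by rw [Subgroup.normalizer_eq_top_iff.mpr hN]; exact le_top)
      hNK (by rw [Subgroup.normalizer_eq_top_iff.mpr hN]; exact le_top) hy.2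
    refine hy1' (hV₁C _ hy.1 ?_)
    rw [hC, Subgroup.mem_centralizer_iff]
    intro n hn
    exact (hc n hn).symm
  · obtain ⟨x, hxK, u₀, hu₀, hxodd, hxinv, hxall⟩ := not_sidki_data hV₁K hs
    have hxN : x ∈ N := mem_of_odd_of_sup hV₁n hV₁p hxK hxodd
    have hxh : x * h = h * x := Subgroup.mem_centralizer_iff.mp hhC x hxN
    have hyodd : Odd (orderOf (h * x)) := odd_mul_of_commute (show Commute h x from hxh.symm) hodd hxodd
    have hwx : w * x * w⁻¹ = x := by
      have : x * w = w * x := Subgroup.mem_centralizer_iff.mp hwC x hxN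
      rw [← this]; group
    have hu₀h : u₀ * h * u₀⁻¹ = h := by rw [hV₁comm hu₀]; group
    have hvV : w * u₀ ∈ V := mul_mem hwV hu₀.1
    have hc' : ∀ g a b : G, g * (a * b) * g⁻¹ = (g * a * g⁻¹) * (g * b * g⁻¹) := fun g a b => by group
    have hvh : (w * u₀) * h * (w * u₀)⁻¹ = h⁻¹ := by
      calc (w * u₀) * h * (w * u₀)⁻¹ = w * (u₀ * h * u₀⁻¹) * w⁻¹ := by group
        _ = h⁻¹ := by rw [hu₀h, hinv]
    have hvx : (w * u₀) * x * (w * u₀)⁻¹ = x⁻¹ := by
      calc (w * u₀) * x * (w * u₀)⁻¹ = w * (u₀ * x * u₀⁻¹) * w⁻¹ := by group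
        _ = w * x⁻¹ * w⁻¹ := by rw [hxinv]
        _ = (w * x * w⁻¹)⁻¹ := by group
        _ = x⁻¹ := by rw [hwx]
    have hinvy : (w * u₀) * (h * x) * (w * u₀)⁻¹ = (h * x)⁻¹ := by
      rw [hc', hvh, hvx, mul_inv_rev]
      exact (show Commute h⁻¹ x⁻¹ from (show Commute h x from hxh.symm).inv_inv).eq
    obtain ⟨r, hrV, hr1, hry⟩ := H.hS _ _ hvV hyodd hinvy
    set D := Subgroup.centralizer ({r} : Set G) with hD
    have hmemD : ∀ {a : G}, a * r = r * a → a ∈ D := fun h' => Subgroup.mem_centralizer_singleton_iff.mpr h'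
    have hyD : h * x ∈ D := hmemD hry.symm
    have hwD : w ∈ D := hmemD (H.comm w hwV r hrV)
    have h3 : w * (h * x) * w⁻¹ ∈ D := mul_mem (mul_mem hwD hyD) (inv_mem hwD)
    have h4 : w * (h * x) * w⁻¹ = h⁻¹ * x := by rw [hc', hinv, hwx]
    rw [h4] at h3
    have h5 : x * x ∈ D := by
      have h6 := mul_mem hyD h3
      have e : h * x * (h⁻¹ * x) = x * x := by
        calc h * x * (h⁻¹ * x) = h * (x * h⁻¹) * x := by group
          _ = h * (h⁻¹ * x) * x := by
            rw [(show Commute x h⁻¹ from (show Commute x h from hxh).inv_right).eq]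
          _ = x * x := by group
      rwa [e] at h6
    have h7 : x ∈ D := mem_of_mul_self_mem hxodd h5
    have h8 : h ∈ D := by
      have := mul_mem hyD (inv_mem h7)
      simpa using this
    have hrh : r * h = h * r := (Subgroup.mem_centralizer_singleton_iff.mp h8).symm
    have hrx : r * x = x * r := (Subgroup.mem_centralizer_singleton_iff.mp h7).symm
    exact hxall r (hmemV₁ hrV hrh) hr1 hrx

/-- `N V = G` for every nontrivial normal subgroup `N`. -/
theorem sup_eq_top (N : Subgroup G) [hN : N.Normal] (hN1 : N ≠ ⊥) : N ⊔ V = ⊤ := by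
  have hO := H.pCore_eq_bot
  by_contra hne
  have hVK : V ≤ N ⊔ V := le_sup_right
  have h1 := H.hminG (↥(N ⊔ V)) (V.subgroupOf (N ⊔ V)) (card_lt_of_ne_top hne) (ea_subgroupOf _ H.hV)
      (subgroupOf_ne_bot hVK H.hV1) (sidki_subgroupOf hVK H.hS)
  obtain ⟨⟨y, hy⟩, hy1⟩ := (Subgroup.ne_bot_iff_exists_ne_one).mp h1
  have hy1' : (y : G) ≠ 1 := fun e => hy1 (Subtype.ext (Subtype.ext e))
  have hc := pcore_centralizes hO N N (N ⊔ V) le_rfl (by rw [Subgroup.normalizer_eq_top_iff.mpr hN]; exact le_top)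
      le_sup_left (by rw [Subgroup.normalizer_eq_top_iff.mpr hN]; exact le_top) hy.2
  have hyC0 : (y : G) ∈ Subgroup.centralizer (N : Set G) := by
    rw [Subgroup.mem_centralizer_iff]
    intro n hn
    exact (hc n hn).symm
  have hyC : (y : G) ∈ V ⊓ Subgroup.centralizer (N : Set G) := ⟨hy.1, hyC0⟩
  rw [H.inf_centralizer_eq_bot N hN1, Subgroup.mem_bot] at hyC
  exact hy1' hyC

/-- No nontrivial abelian normal subgroups. -/
theorem abelian_eq_bot (N : Subgroup G) [hN : N.Normal] (hab : IsMulCommutative N) : N = ⊥ := by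
  by_contra hN1
  have hO := H.pCore_eq_bot
  have hodd := abelian_normal_odd hO N hab
  have hcomm : ∀ a ∈ N, ∀ b ∈ N, a * b = b * a := fun a ha b hb => by
    have h := hab.is_comm.comm (⟨a, ha⟩ : N) ⟨b, hb⟩
    exact congrArg Subtype.val h
  have hB := H.inf_centralizer_eq_bot N hN1
  have key : ∀ (n : ℕ) (x w : G), x ∈ N → w ∈ V → w * x * w⁻¹ = x⁻¹ →
      Nat.card ↥(V ⊓ Subgroup.centralizer ({x} : Set G)) = n → False := by
    intro n
    induction n using Nat.strong_induction_on with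
    | _ n ih =>
      intro x w hx hw hinv hcard
      obtain ⟨t, ht, ht1, htx⟩ := H.hS x w hw (hodd x hx) hinv
      have hnc : t ∉ Subgroup.centralizer (N : Set G) := fun hc => ht1 (by
        have hm : t ∈ V ⊓ Subgroup.centralizer (N : Set G) := ⟨ht, hc⟩
        rw [hB] at hm
        exact Subgroup.mem_bot.mp hm)
      rw [Subgroup.mem_centralizer_iff] at hnc
      push Not at hnc
      obtain ⟨z, hz, hzt⟩ := hnc
      have ht' : t⁻¹ = t := H.inv t ht
      have hw' : w⁻¹ = w := H.inv w hw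
      have htt : t * t = 1 := H.sq t ht
      have hww : w * w = 1 := H.sq w hw
      have htw : t * w = w * t := H.comm t ht w hw
      obtain ⟨a, haN, hatinv, ha1⟩ : ∃ a ∈ N, t * a * t⁻¹ = a⁻¹ ∧ a ≠ 1 := by
        refine ⟨z * (t * z⁻¹ * t⁻¹), mul_mem hz (hN.conj_mem _ (inv_mem hz) t), ?_, ?_⟩
        · have h1 : t * (z * (t * z⁻¹ * t⁻¹)) * t⁻¹ = t * z * t * z⁻¹ * (t⁻¹ * t⁻¹) := by group
          have h2 : (z * (t * z⁻¹ * t⁻¹))⁻¹ = t * z * t⁻¹ * z⁻¹ := by group
          rw [h1, h2, ht', htt, mul_one]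
        · intro he
          apply hzt
          have h1 : t * z⁻¹ * t⁻¹ = z⁻¹ := (mul_eq_one_iff_eq_inv'.mp he)
          have h2 : t * z * t⁻¹ = z := by
            have h3 : t * z * t⁻¹ = (t * z⁻¹ * t⁻¹)⁻¹ := by group
            rw [h3, h1, inv_inv]
          exact (mul_inv_eq_iff_eq_mul.mp h2).symm
      obtain ⟨b, hbN, hwb, hwa, htb⟩ : ∃ b ∈ N, w * b * w⁻¹ = a ∧ w * a * w⁻¹ = b ∧ t * b * t⁻¹ = b⁻¹ := by
        refine ⟨w * a * w⁻¹, hN.conj_mem a haN w, ?_, rfl, ?_⟩
        · rw [hw']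
          calc w * (w * a * w) * w = (w * w) * a * (w * w) := by group
            _ = a := by rw [hww]; group
        · have h1 : t * (w * a * w⁻¹) * t⁻¹ = w * (t * a * t⁻¹) * w⁻¹ := by
            calc t * (w * a * w⁻¹) * t⁻¹ = (t * w) * a * (t * w)⁻¹ := by group
              _ = (w * t) * a * (w * t)⁻¹ := by rw [htw]
              _ = w * (t * a * t⁻¹) * w⁻¹ := by group
          rw [h1, hatinv]
          group
      obtain ⟨x', hx'N, hx'1, hx't, hx'w⟩ : ∃ x' ∈ N, x' ≠ 1 ∧ t * x' * t⁻¹ = x'⁻¹ ∧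
          (w * x' * w⁻¹ = x' ∨ w * x' * w⁻¹ = x'⁻¹) := by
        by_cases hab1 : a * b = 1
        · refine ⟨a * b⁻¹, mul_mem haN (inv_mem hbN), ?_, ?_, Or.inr ?_⟩
          · intro he
            have hb' : b⁻¹ = a := by
              have := eq_inv_of_mul_eq_one_right hab1
              rw [this, inv_inv]
            rw [hb'] at he
            exact ha1 (eq_one_of_sq (hodd a haN) he)
          · have e : t * (a * b⁻¹) * t⁻¹ = (t * a * t⁻¹) * (t * b * t⁻¹)⁻¹ := by group
            rw [e, hatinv, htb, inv_inv, mul_inv_rev, inv_inv]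
            exact hcomm _ (inv_mem haN) _ hbN
          · have e : w * (a * b⁻¹) * w⁻¹ = (w * a * w⁻¹) * (w * b * w⁻¹)⁻¹ := by group
            rw [e, hwb, hwa, mul_inv_rev, inv_inv]
        · refine ⟨a * b, mul_mem haN hbN, hab1, ?_, Or.inl ?_⟩
          · have e : t * (a * b) * t⁻¹ = (t * a * t⁻¹) * (t * b * t⁻¹) := by group
            rw [e, hatinv, htb, mul_inv_rev]
            exact hcomm _ (inv_mem haN) _ (inv_mem hbN)
          · have e : w * (a * b) * w⁻¹ = (w * a * w⁻¹) * (w * b * w⁻¹) := by group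
            rw [e, hwb, hwa]
            exact hcomm _ hbN _ haN
      have hc' : ∀ g p q : G, g * (p * q) * g⁻¹ = (g * p * g⁻¹) * (g * q * g⁻¹) := fun g p q => by group
      have htxc : t * x * t⁻¹ = x := by rw [htx]; group
      have hyN : x * x' ∈ N := mul_mem hx hx'N
      have hyinv : x⁻¹ * x'⁻¹ = (x * x')⁻¹ := by
        rw [mul_inv_rev]
        exact hcomm _ (inv_mem hx) _ (inv_mem hx'N)
      obtain ⟨v, hv, hvy⟩ : ∃ v ∈ V, v * (x * x') * v⁻¹ = (x * x')⁻¹ := by
        rcases hx'w with h1 | h1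
        · refine ⟨t * w, mul_mem ht hw, ?_⟩
          have e : (t * w) * (x * x') * (t * w)⁻¹ = t * ((w * x * w⁻¹) * (w * x' * w⁻¹)) * t⁻¹ := by group
          rw [e, hinv, h1, hc', hx't, ← hyinv]
          have : t * x⁻¹ * t⁻¹ = (t * x * t⁻¹)⁻¹ := by group
          rw [this, htxc]
        · refine ⟨w, hw, ?_⟩
          rw [hc', hinv, h1, hyinv]
      have hle : V ⊓ Subgroup.centralizer ({x * x'} : Set G) ≤ V ⊓ Subgroup.centralizer ({x} : Set G) := by
        rintro u ⟨huV, hu⟩
        refine ⟨huV, ?_⟩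
        have hu' : u * (x * x') = (x * x') * u := Subgroup.mem_centralizer_singleton_iff.mp hu
        set D := Subgroup.centralizer ({u} : Set G) with hD
        have hmemD : ∀ {p : G}, p * u = u * p → p ∈ D := fun h' => Subgroup.mem_centralizer_singleton_iff.mpr h'
        have hyD : x * x' ∈ D := hmemD hu'.symm
        have htD : t ∈ D := hmemD (H.comm t ht u huV)
        have h3 : t * (x * x') * t⁻¹ ∈ D := mul_mem (mul_mem htD hyD) (inv_mem htD)
        rw [hc', htxc, hx't] at h3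
        have h5 : x * x ∈ D := by
          have h6 := mul_mem hyD h3
          have e : x * x' * (x * x'⁻¹) = x * x := by
            calc x * x' * (x * x'⁻¹) = x * (x' * x) * x'⁻¹ := by group
              _ = x * (x * x') * x'⁻¹ := by rw [hcomm x' hx'N x hx]
              _ = x * x := by group
          rwa [e] at h6
        have h7 : x ∈ D := mem_of_mul_self_mem (hodd x hx) h5
        exact Subgroup.mem_centralizer_singleton_iff.mpr (Subgroup.mem_centralizer_singleton_iff.mp h7).symm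
      have htmem : t ∈ V ⊓ Subgroup.centralizer ({x} : Set G) :=
        ⟨ht, Subgroup.mem_centralizer_singleton_iff.mpr htx⟩
      have htnot : t ∉ V ⊓ Subgroup.centralizer ({x * x'} : Set G) := by
        rintro ⟨-, hty⟩
        have hty' : t * (x * x') = (x * x') * t := Subgroup.mem_centralizer_singleton_iff.mp hty
        have h1 : t * x' = x' * t := by
          have h2 : x * (t * x') = x * (x' * t) := by
            calc x * (t * x') = (x * t) * x' := by group
              _ = (t * x) * x' := by rw [htx]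
              _ = t * (x * x') := by group
              _ = (x * x') * t := hty'
              _ = x * (x' * t) := by group
          exact mul_left_cancel h2
        have h2 : x'⁻¹ = x' := by rw [← hx't, h1]; group
        apply hx'1
        apply eq_one_of_sq (hodd x' hx'N)
        nth_rewrite 1 [← h2]
        group
      have hlt : Nat.card ↥(V ⊓ Subgroup.centralizer ({x * x'} : Set G)) < n := by
        rw [← hcard]
        refine lt_of_not_ge fun hge => htnot ?_
        have := Subgroup.eq_of_le_of_card_ge hle hge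
        rw [this]
        exact htmem
      exact ih _ hlt (x * x') v hyN hv hvy rfl
  exact key _ 1 1 (one_mem _) (one_mem _) (by simp) rfl

/-- minimal subgroups normal in `N`. -/
structure Good (N S : Subgroup G) : Prop where
  le : S ≤ N
  norm : N ≤ Subgroup.normalizer (S : Set G)
  ne : S ≠ ⊥
  min : ∀ S' : Subgroup G, S' ≤ S → N ≤ Subgroup.normalizer (S' : Set G) → S' = ⊥ ∨ S' = S

omit H in
theorem conj_norm {N T : Subgroup G} [hN : N.Normal] (h : N ≤ Subgroup.normalizer (T : Set G)) (g : G) :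
    N ≤ Subgroup.normalizer (conjS g T : Set G) := by
  intro n hn
  rw [Subgroup.mem_normalizer_iff]
  intro x
  rw [mem_conjS, mem_conjS]
  have hn' : g⁻¹ * n * g ∈ N := by
    have := hN.conj_mem n hn g⁻¹
    simpa using this
  have h1 := Subgroup.mem_normalizer_iff.mp (h hn') (g⁻¹ * x * g)
  have e : g⁻¹ * n * g * (g⁻¹ * x * g) * (g⁻¹ * n * g)⁻¹ = g⁻¹ * (n * x * n⁻¹) * g := by group
  rw [e] at h1
  exact h1

omit H in
theorem Good.conj {N S : Subgroup G} [hN : N.Normal] (hS : Good N S) (g : G) : Good N (conjS g S) := by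
  refine ⟨?_, conj_norm hS.norm g, ?_, ?_⟩
  · intro x hx
    rw [mem_conjS] at hx
    have := hN.conj_mem _ (hS.le hx) g
    simpa [mul_assoc] using this
  · intro he
    apply hS.ne
    rw [eq_bot_iff]
    intro x hx
    have h1 := conj_mem_conjS (g := g) hx
    rw [he, Subgroup.mem_bot] at h1
    have h2 : x = 1 := by
      have : g * x = g := mul_inv_eq_one.mp h1
      simpa using this
    exact Subgroup.mem_bot.mpr h2
  · intro S' hS' hnorm
    have h1 : conjS g⁻¹ S' ≤ S := by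
      have h2 := conjS_mono g⁻¹ hS'
      rwa [← conjS_mul, inv_mul_cancel, conjS_one] at h2
    have h3 := conj_norm hnorm g⁻¹
    have hback : conjS g (conjS g⁻¹ S') = S' := by
      rw [← conjS_mul, mul_inv_cancel, conjS_one]
    rcases hS.min _ h1 h3 with h4 | h4
    · left
      rw [← hback, h4]
      exact Subgroup.map_bot _
    · right
      rw [← hback, h4]

omit H in
theorem Good.inf_eq_bot {N S T : Subgroup G} (hS : Good N S) (hT : Good N T) (hne : S ≠ T) : S ⊓ T = ⊥ := by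
  have hnorm : N ≤ Subgroup.normalizer ((S ⊓ T : Subgroup G) : Set G) := by
    intro n hn
    rw [Subgroup.mem_normalizer_iff]
    intro x
    have h1 := Subgroup.mem_normalizer_iff.mp (hS.norm hn) x
    have h2 := Subgroup.mem_normalizer_iff.mp (hT.norm hn) x
    rw [Subgroup.mem_inf, Subgroup.mem_inf, h1, h2]
  rcases hS.min _ inf_le_left hnorm with h | h
  · exact h
  · exfalso
    have hST : S ≤ T := inf_eq_left.mp h
    rcases hT.min S hST hS.norm with h5 | h5
    · exact hS.ne h5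
    · exact hne h5

omit H in
theorem Good.comm {N S T : Subgroup G} (hS : Good N S) (hT : Good N T) (hne : S ≠ T) {a b : G} (ha : a ∈ S)
    (hb : b ∈ T) : a * b = b * a := by
  have h1 : a * b * a⁻¹ * b⁻¹ ∈ S ⊓ T := by
    refine Subgroup.mem_inf.mpr ⟨?_, ?_⟩
    · have e : a * b * a⁻¹ * b⁻¹ = a * (b * a⁻¹ * b⁻¹) := by group
      rw [e]
      exact mul_mem ha ((Subgroup.mem_normalizer_iff.mp (hS.norm (hT.le hb)) a⁻¹).mp (inv_mem ha))
    · exact mul_mem ((Subgroup.mem_normalizer_iff.mp (hT.norm (hS.le ha)) b).mp hb) (inv_mem hb)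
  rw [hS.inf_eq_bot hT hne, Subgroup.mem_bot] at h1
  have h2 : a * b * a⁻¹ = b := mul_inv_eq_one.mp h1
  exact mul_inv_eq_iff_eq_mul.mp h2

theorem good_eq (N : Subgroup G) [hN : N.Normal] (hN1 : N ≠ ⊥) (hmin : ∀ M : Subgroup G, M.Normal → M ≤ N → M = ⊥ ∨ M = N)
    {S : Subgroup G} (hS : Good N S) : S = N := by
  classical
  by_contra hSN
  have hO := H.pCore_eq_bot
  have hB := H.inf_centralizer_eq_bot N hN1
  have hC := H.sup_eq_top N hN1
  have hNab : ¬ IsMulCommutative N := fun hab => hN1 (H.abelian_eq_bot N hab)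
  have hnotnorm : ¬ S.Normal := fun hn => (hmin S hn hS.le).elim hS.ne hSN
  have hcl : Subgroup.normalClosure (S : Set G) = N := by
    have h1 : Subgroup.normalClosure (S : Set G) ≤ N := Subgroup.normalClosure_le_normal hS.le
    refine (hmin _ inferInstance h1).resolve_left ?_
    intro he
    have h2 : S ≤ Subgroup.normalClosure (S : Set G) := Subgroup.le_normalClosure
    rw [he, le_bot_iff] at h2
    exact hS.ne h2
  have hconj : ∀ g : G, ∃ v ∈ V, conjS g S = conjS v S := by
    intro g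
    have hg : g ∈ N ⊔ V := by rw [hC]; trivial
    obtain ⟨n, hn, v, hv, rfl⟩ := Subgroup.mem_sup_of_normal_left.mp hg
    refine ⟨v, hv, ?_⟩
    rw [conjS_mul]
    exact mem_normalizer_iff_conjS.mp ((hS.conj v).norm hn)
  -- `Z(S) = 1`
  have hZS : ∀ x ∈ S, (∀ s ∈ S, s * x = x * s) → x = 1 := by
    intro x hx hxc
    set Z := S ⊓ Subgroup.centralizer (S : Set G) with hZ
    have hZnorm : N ≤ Subgroup.normalizer (Z : Set G) := by
      intro n hn
      rw [Subgroup.mem_normalizer_iff]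
      intro y
      have h1 := Subgroup.mem_normalizer_iff.mp (hS.norm hn) y
      have h2 : y ∈ Subgroup.centralizer (S : Set G) ↔ n * y * n⁻¹ ∈ Subgroup.centralizer (S : Set G) := by
        rw [Subgroup.mem_centralizer_iff, Subgroup.mem_centralizer_iff]
        constructor
        · intro h s hs
          have hs' : n⁻¹ * s * n ∈ S := by
            have := (Subgroup.mem_normalizer_iff.mp (hS.norm (inv_mem hn)) s).mp hs
            simpa using this
          have h3 := h _ hs'
          calc s * (n * y * n⁻¹) = n * ((n⁻¹ * s * n) * y) * n⁻¹ := by group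
            _ = n * (y * (n⁻¹ * s * n)) * n⁻¹ := by rw [h3]
            _ = n * y * n⁻¹ * s := by group
        · intro h s hs
          have hs' : n * s * n⁻¹ ∈ S := (Subgroup.mem_normalizer_iff.mp (hS.norm hn) s).mp hs
          have h3 := h _ hs'
          have h4 : n * (s * y) * n⁻¹ = n * (y * s) * n⁻¹ := by
            calc n * (s * y) * n⁻¹ = (n * s * n⁻¹) * (n * y * n⁻¹) := by group
              _ = (n * y * n⁻¹) * (n * s * n⁻¹) := h3
              _ = n * (y * s) * n⁻¹ := by group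
          have h5 := mul_left_cancel (mul_right_cancel h4)
          exact h5
      rw [hZ, Subgroup.mem_inf, Subgroup.mem_inf, h1, h2]
    have hxZ : x ∈ Z := Subgroup.mem_inf.mpr ⟨hx, Subgroup.mem_centralizer_iff.mpr fun s hs => hxc s hs⟩
    rcases hS.min Z inf_le_left hZnorm with h | h
    · rw [h, Subgroup.mem_bot] at hxZ
      exact hxZ
    · exfalso
      have hSab : ∀ a ∈ S, ∀ b ∈ S, a * b = b * a := by
        intro a ha b hb
        have hb' : b ∈ Z := by rw [h]; exact hb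
        exact Subgroup.mem_centralizer_iff.mp (Subgroup.mem_inf.mp hb').2 a ha
      apply hNab
      rw [← hcl]
      refine Subgroup.isMulCommutative_closure ?_
      intro a ha b hb
      obtain ⟨s, hs, hsa⟩ := Group.mem_conjugatesOfSet_iff.mp ha
      obtain ⟨s', hs', hsb⟩ := Group.mem_conjugatesOfSet_iff.mp hb
      obtain ⟨g, rfl⟩ := isConj_iff.mp hsa
      obtain ⟨g', rfl⟩ := isConj_iff.mp hsb
      by_cases he : conjS g S = conjS g' S
      · have h1 : g' * s' * g'⁻¹ ∈ conjS g S := by rw [he]; exact conj_mem_conjS hs'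
        rw [mem_conjS] at h1
        have h2 := hSab _ hs _ h1
        calc g * s * g⁻¹ * (g' * s' * g'⁻¹) = g * (s * (g⁻¹ * (g' * s' * g'⁻¹) * g)) * g⁻¹ := by group
          _ = g * ((g⁻¹ * (g' * s' * g'⁻¹) * g) * s) * g⁻¹ := by rw [h2]
          _ = g' * s' * g'⁻¹ * (g * s * g⁻¹) := by group
      · exact (hS.conj g).comm (hS.conj g') he (conj_mem_conjS hs) (conj_mem_conjS hs')
  -- central elements
  have hcentral : ∀ u ∈ V, (∀ s ∈ S, u * s = s * u) → u = 1 := by
    intro u hu huS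
    have h1 : N ≤ Subgroup.centralizer ({u} : Set G) := by
      rw [← hcl]
      refine (Subgroup.closure_le _).mpr ?_
      intro a ha
      obtain ⟨s, hs, hsa⟩ := Group.mem_conjugatesOfSet_iff.mp ha
      obtain ⟨g, rfl⟩ := isConj_iff.mp hsa
      obtain ⟨v, hv, he⟩ := hconj g
      have h2 : g * s * g⁻¹ ∈ conjS v S := by rw [← he]; exact conj_mem_conjS hs
      rw [mem_conjS] at h2
      have h3 := huS _ h2
      have huv : u * v = v * u := H.comm u hu v hv
      have hD : v ∈ Subgroup.centralizer ({u} : Set G) := Subgroup.mem_centralizer_singleton_iff.mpr huv.symm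
      have h3' : v⁻¹ * (g * s * g⁻¹) * v ∈ Subgroup.centralizer ({u} : Set G) :=
        Subgroup.mem_centralizer_singleton_iff.mpr h3.symm
      have h4 := mul_mem (mul_mem hD h3') (inv_mem hD)
      have e : v * (v⁻¹ * (g * s * g⁻¹) * v) * v⁻¹ = g * s * g⁻¹ := by group
      rw [e] at h4
      exact h4
    have h5 : u ∈ V ⊓ Subgroup.centralizer (N : Set G) := by
      refine Subgroup.mem_inf.mpr ⟨hu, Subgroup.mem_centralizer_iff.mpr fun n hn => ?_⟩
      exact Subgroup.mem_centralizer_singleton_iff.mp (h1 hn)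
    rw [hB, Subgroup.mem_bot] at h5
    exact h5
  set V₀ := V ⊓ Subgroup.normalizer (S : Set G) with hV₀
  have hSne : ∀ v ∈ V, v ∉ V₀ → S ≠ conjS v S := by
    intro v hv hv0 he
    apply hv0
    exact Subgroup.mem_inf.mpr ⟨hv, mem_normalizer_iff_conjS.mpr he.symm⟩
  by_cases hV₀1 : V₀ = ⊥
  · -- an odd element of `S`
    have hSp : ¬ IsPGroup 2 S := fun hp =>
      hS.ne (eq_bot_of_normalized₂ hO N hS.le hS.norm le_rfl hp Subgroup.le_normalizer)
    obtain ⟨x, hxS, hx1, hxodd⟩ : ∃ x ∈ S, x ≠ 1 ∧ Odd (orderOf x) := by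
      rw [IsPGroup.iff_orderOf] at hSp
      push Not at hSp
      obtain ⟨s, hs⟩ := hSp
      obtain ⟨e, m, hm, he⟩ := Nat.exists_eq_two_pow_mul_odd (orderOf_pos (s : G)).ne'
      have hord : orderOf ((s : G) ^ (2 ^ e)) = m := by
        rw [orderOf_pow_of_dvd (pow_ne_zero _ two_ne_zero) ⟨m, he⟩, he]
        exact Nat.mul_div_cancel_left _ (by positivity)
      refine ⟨(s : G) ^ (2 ^ e), pow_mem s.2 _, ?_, hord ▸ hm⟩
      intro h1
      rw [h1, orderOf_one] at hord
      apply hs e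
      rw [← Subgroup.orderOf_coe, he, ← hord, mul_one]
    obtain ⟨⟨v, hv⟩, hv1⟩ := (Subgroup.ne_bot_iff_exists_ne_one).mp H.hV1
    have hv1' : v ≠ 1 := fun e => hv1 (Subtype.ext e)
    have hvinv : v⁻¹ = v := H.inv v hv
    have hnotV₀ : ∀ u ∈ V, u ≠ 1 → u ∉ V₀ := fun u _ hu1 hu0 => hu1 (by
      rw [hV₀1, Subgroup.mem_bot] at hu0
      exact hu0)
    have hSv := hSne v hv (hnotV₀ v hv hv1')
    have hGv := hS.conj v
    set x' := v * x⁻¹ * v⁻¹ with hx'
    have hx'S : x' ∈ conjS v S := conj_mem_conjS (inv_mem hxS)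
    have hxx' : x * x' = x' * x := hS.comm hGv hSv hxS hx'S
    have hx'odd : Odd (orderOf x') := by
      have h1 : orderOf x' = orderOf x⁻¹ := (MulAut.conj v).orderOf_eq x⁻¹
      rwa [h1, orderOf_inv]
    have hzodd : Odd (orderOf (x * x')) := odd_mul_of_commute hxx' hxodd hx'odd
    have hzinv : v * (x * x') * v⁻¹ = (x * x')⁻¹ := by
      have hvv : v * v = 1 := H.sq v hv
      have h1 : v * x' * v⁻¹ = x⁻¹ := by
        rw [hx', hvinv]
        calc v * (v * x⁻¹ * v) * v = (v * v) * x⁻¹ * (v * v) := by group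
          _ = x⁻¹ := by rw [hvv]; group
      have h2 : x'⁻¹ = v * x * v⁻¹ := by rw [hx']; group
      have e : v * (x * x') * v⁻¹ = (v * x * v⁻¹) * (v * x' * v⁻¹) := by group
      rw [e, h1, mul_inv_rev, h2]
    obtain ⟨u, hu, hu1, huz⟩ := H.hS _ v hv hzodd hzinv
    by_cases huv : u = v
    · subst huv
      have h1 : (x * x')⁻¹ = x * x' := by rw [← hzinv, huz]; group
      have h2 : x * x' = 1 := by
        apply eq_one_of_sq hzodd
        nth_rewrite 1 [← h1]
        group
      have h3 : x⁻¹ = x' := inv_eq_of_mul_eq_one_right h2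
      have h4 : x⁻¹ ∈ S ⊓ conjS u S := Subgroup.mem_inf.mpr ⟨inv_mem hxS, by rw [h3]; exact hx'S⟩
      rw [hS.inf_eq_bot hGv hSv, Subgroup.mem_bot] at h4
      exact hx1 (inv_eq_one.mp h4)
    · have huv1 : u * v ≠ 1 := by
        intro he
        apply huv
        have := eq_inv_of_mul_eq_one_left he
        rwa [hvinv] at this
      have hSu := hSne u hu (hnotV₀ u hu hu1)
      have hSuv := hSne (u * v) (mul_mem hu hv) (hnotV₀ _ (mul_mem hu hv) huv1)
      apply hx1
      refine hZS x hxS fun s hs => ?_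
      have h1 : s * (u * x * u⁻¹) = (u * x * u⁻¹) * s := hS.comm (hS.conj u) hSu hs (conj_mem_conjS hxS)
      have h2 : u * x' * u⁻¹ ∈ conjS (u * v) S := by
        have := conj_mem_conjS (g := u * v) (inv_mem hxS)
        have e : u * v * x⁻¹ * (u * v)⁻¹ = u * x' * u⁻¹ := by rw [hx']; group
        rwa [e] at this
      have h3 : s * (u * x' * u⁻¹) = (u * x' * u⁻¹) * s := hS.comm (hS.conj (u * v)) hSuv hs h2
      have h4 : s * x' = x' * s := hS.comm hGv hSv hs hx'S
      have h5 : u * (x * x') * u⁻¹ = x * x' := by rw [huz]; group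
      have h6 : s * (x * x') = (x * x') * s := by
        rw [← h5]
        have e : u * (x * x') * u⁻¹ = (u * x * u⁻¹) * (u * x' * u⁻¹) := by group
        rw [e]
        calc s * ((u * x * u⁻¹) * (u * x' * u⁻¹)) = (s * (u * x * u⁻¹)) * (u * x' * u⁻¹) := by group
          _ = (u * x * u⁻¹) * (s * (u * x' * u⁻¹)) := by rw [h1]; group
          _ = (u * x * u⁻¹) * (u * x' * u⁻¹) * s := by rw [h3]; group
      have h7 : s * x * x' = x * s * x' := by
        calc s * x * x' = s * (x * x') := by group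
          _ = (x * x') * s := h6
          _ = x * (s * x') := by rw [h4]; group
          _ = x * s * x' := by group
      exact mul_right_cancel h7
  · have hV₀V : V₀ ≤ V := inf_le_left
    have hV₀p : IsPGroup 2 V₀ := by
      rintro ⟨x, hx⟩
      exact ⟨1, Subtype.ext (by show x ^ 2 ^ 1 = 1; rw [pow_one]; exact H.hV.2 x (hV₀V hx))⟩
    have hV₀n : V₀ ≤ Subgroup.normalizer (S : Set G) := inf_le_right
    set X := S ⊔ V₀ with hX
    have hSX : S ≤ X := le_sup_left
    have hV₀X : V₀ ≤ X := le_sup_right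
    have hXn : X ≤ Subgroup.normalizer (S : Set G) := sup_le Subgroup.le_normalizer hV₀n
    have hXt : X ≠ ⊤ := by
      intro he
      apply hnotnorm
      rw [← Subgroup.normalizer_eq_top_iff, eq_top_iff, ← he]
      exact hXn
    by_cases hs : IsSidkiPair (V₀.subgroupOf X)
    · have h1 := H.hminG X (V₀.subgroupOf X) (card_lt_of_ne_top hXt) (ea_subgroupOf _ (ea_mono hV₀V H.hV))
        (subgroupOf_ne_bot hV₀X hV₀1) hs
      obtain ⟨⟨y, hy⟩, hy1⟩ := (Subgroup.ne_bot_iff_exists_ne_one).mp h1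
      have hy1' : (y : G) ≠ 1 := fun e => hy1 (Subtype.ext (Subtype.ext e))
      have hc := pcore_centralizes hO N S X hS.le hS.norm hSX hXn hy.2
      have hyV₀ : (y : G) ∈ V₀ := hy.1
      exact hy1' (hcentral _ (hV₀V hyV₀) hc)
    · obtain ⟨x, hxX, u₀, hu₀, hxodd, hxinv, hxall⟩ := not_sidki_data hV₀X hs
      have hxS : x ∈ S := mem_of_odd_of_sup hV₀n hV₀p hxX hxodd
      obtain ⟨t, ht, ht1, htx⟩ := H.hS x u₀ (hV₀V hu₀) hxodd hxinv
      have htV₀ : t ∉ V₀ := fun h' => hxall t h' ht1 htx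
      have hne := hSne t ht htV₀
      have hinf := hS.inf_eq_bot (hS.conj t) hne
      have hxt : x ∈ conjS t S := by
        have := conj_mem_conjS (g := t) hxS
        rwa [htx, mul_inv_cancel_right] at this
      have hx1 : x ∈ S ⊓ conjS t S := Subgroup.mem_inf.mpr ⟨hxS, hxt⟩
      rw [hinf, Subgroup.mem_bot] at hx1
      obtain ⟨⟨y, hy⟩, hy1⟩ := (Subgroup.ne_bot_iff_exists_ne_one).mp hV₀1
      have hy1' : y ≠ 1 := fun e => hy1 (Subtype.ext e)
      exact hxall y hy hy1' (by rw [hx1]; simp)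

end Hyp

/-- Minimal counterexample reduction for the Sidki pair problem. Let G be a finite group and V a nontrivial elementary abelian 2-subgroup satisfying the Sidki pair condition with V ∩ O₂(G) = 1. Suppose that for every finite group H of smaller order, every nontrivial elementary abelian 2-subgroup W of H satisfying the Sidki pair condition meets O₂(H) nontrivially, and that the same holds in G for every such subgroup W of order smaller than that of V. Then the generalized Fitting subgroup F*(G) is a non-abelian simple group and G = V F*(G). -/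
theorem result {G : Type u} [Group G] [Finite G] (V : Subgroup G) (hV : Cfsg.IsElementaryAbelian 2 V) (hV1 : V ≠ ⊥) (hS : Cfsg.IsSidkiPair V) (hVO : V ⊓ Cfsg.pCore 2 G = ⊥) (hminG : ∀ (H : Type u) [Group H] [Finite H] (W : Subgroup H), Nat.card H < Nat.card G → Cfsg.IsElementaryAbelian 2 W → W ≠ ⊥ → Cfsg.IsSidkiPair W → W ⊓ Cfsg.pCore 2 H ≠ ⊥) (hminV : ∀ W : Subgroup G, Nat.card W < Nat.card V → Cfsg.IsElementaryAbelian 2 W → W ≠ ⊥ → Cfsg.IsSidkiPair W → W ⊓ Cfsg.pCore 2 G ≠ ⊥) : IsSimpleGroup ↥(Cfsg.generalizedFittingSubgroup G) ∧ ¬ IsMulCommutative ↥(Cfsg.generalizedFittingSubgroup G) ∧ V ⊔ Cfsg.generalizedFittingSubgroup G = ⊤ := by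
  classical
  have H : Hyp V := ⟨hV, hV1, hS, hVO, hminG, hminV⟩
  have hO := H.pCore_eq_bot
  have htop : (⊤ : Subgroup G) ≠ ⊥ := fun he => hV1 (by rw [eq_bot_iff, ← he]; exact le_top)
  obtain ⟨N, hNn, hN1, -, hmin⟩ := exists_minimal_normal_le (K := (⊤ : Subgroup G)) Subgroup.normal_top htop
  haveI := hNn
  have hNab : ¬ IsMulCommutative N := fun hab => hN1 (H.abelian_eq_bot N hab)
  -- `N` is simple
  have hNs : IsSimpleGroup N := by
    haveI : Nontrivial N := (Subgroup.nontrivial_iff_ne_bot N).mpr hN1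
    refine ⟨fun K hK => ?_⟩
    by_cases hK1 : K = ⊥
    · exact Or.inl hK1
    right
    set T := K.map N.subtype with hT
    have hTN : T ≤ N := Subgroup.map_subtype_le K
    have hTnorm : N ≤ Subgroup.normalizer (T : Set G) := by
      intro n hn
      rw [Subgroup.mem_normalizer_iff]
      intro x
      constructor
      · rintro ⟨y, hy, rfl⟩
        exact ⟨⟨n, hn⟩ * y * ⟨n, hn⟩⁻¹, hK.conj_mem y hy _, rfl⟩
      · rintro ⟨y, hy, he⟩
        have e : x = n⁻¹ * (y : G) * n := by
          have he' : (y : G) = n * x * n⁻¹ := he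
          rw [he']; group
        refine ⟨⟨n, hn⟩⁻¹ * y * (⟨n, hn⟩⁻¹)⁻¹, hK.conj_mem y hy _, ?_⟩
        rw [e]
        simp
    have hT1 : T ≠ ⊥ := by
      intro he
      exact hK1 ((Subgroup.map_eq_bot_iff_of_injective _ N.subtype_injective).mp he)
    -- a minimal one
    let F : Set (Subgroup G) := {S | S ≤ T ∧ N ≤ Subgroup.normalizer (S : Set G) ∧ S ≠ ⊥}
    have hFfin : F.Finite := Set.toFinite F
    obtain ⟨S, hSF⟩ := hFfin.exists_minimal ⟨T, le_rfl, hTnorm, hT1⟩
    have hGood : Hyp.Good N S := by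
      refine ⟨hSF.1.1.trans hTN, hSF.1.2.1, hSF.1.2.2, ?_⟩
      intro S' hS' hnorm
      by_cases hS'1 : S' = ⊥
      · exact Or.inl hS'1
      · right
        exact le_antisymm hS' (hSF.2 ⟨hS'.trans hSF.1.1, hnorm, hS'1⟩ hS')
    have hSN := H.good_eq N hN1 hmin hGood
    have hTeq : T = N := le_antisymm hTN (hSN ▸ hSF.1.1)
    rw [eq_top_iff]
    intro y _
    have hy : (y : G) ∈ T := by rw [hTeq]; exact y.2
    obtain ⟨z, hz, hzy⟩ := hy
    have : z = y := Subtype.ext hzy
    rwa [← this]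
  -- `C(N) = 1`
  have hCN : Subgroup.centralizer (N : Set G) = ⊥ := by
    by_contra hne
    haveI hCn : (Subgroup.centralizer (N : Set G)).Normal := Subgroup.normal_centralizer
    set K := Subgroup.centralizer (N : Set G) with hK
    have hsup := H.sup_eq_top K hne
    have hinfab : IsMulCommutative ↥(N ⊓ K) :=
      ⟨⟨fun a b => Subtype.ext (Subgroup.mem_centralizer_iff.mp (Subgroup.mem_inf.mp b.2).2 a (Subgroup.mem_inf.mp a.2).1)⟩⟩
    have hinf : N ⊓ K = ⊥ := H.abelian_eq_bot _ hinfab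
    have hsq : ∀ n ∈ N, n * n = 1 := by
      intro n hn
      have hg : n ∈ K ⊔ V := by rw [hsup]; trivial
      obtain ⟨k, hk, v, hv, rfl⟩ := Subgroup.mem_sup_of_normal_left.mp hg
      have h1 : k * v * (k * v) ∈ K := by
        have e : k * v * (k * v) = k * (v * k * v⁻¹) * (v * v) := by group
        rw [e, H.sq v hv, mul_one]
        exact mul_mem hk (hCn.conj_mem k hk v)
      have h2 : k * v * (k * v) ∈ N ⊓ K := Subgroup.mem_inf.mpr ⟨mul_mem hn hn, h1⟩
      rw [hinf, Subgroup.mem_bot] at h2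
      exact h2
    apply hNab
    refine ⟨⟨fun a b => Subtype.ext ?_⟩⟩
    have h1 : (a : G) * b * ((a : G) * b) = 1 := hsq _ (mul_mem a.2 b.2)
    have h2 := hsq _ a.2
    have h3 := hsq _ b.2
    have h4 : (a : G)⁻¹ = a := inv_eq_of_mul_eq_one_left h2
    have h5 : (b : G)⁻¹ = b := inv_eq_of_mul_eq_one_left h3
    have h6 : (a : G) * b = ((a : G) * b)⁻¹ := eq_inv_of_mul_eq_one_left h1
    rw [mul_inv_rev, h4, h5] at h6
    exact h6
  -- `F(G) = 1`
  have hF : fittingSubgroup G = ⊥ := by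
    by_contra hne
    haveI hFnil : Group.IsNilpotent (fittingSubgroup G) := isNilpotent_fittingSubgroup G
    haveI hFn : (fittingSubgroup G).Normal := fittingSubgroup_normal G
    have h1 : (⊤ : Subgroup (fittingSubgroup G)) ≠ ⊥ := by
      intro he
      apply hne
      rw [eq_bot_iff]
      intro x hx
      have h2 : (⟨x, hx⟩ : fittingSubgroup G) ∈ (⊤ : Subgroup (fittingSubgroup G)) := trivial
      rw [he, Subgroup.mem_bot] at h2
      exact Subgroup.mem_bot.mpr (congrArg Subtype.val h2)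
    have h2 := normal_inf_center_ne_bot (G := fittingSubgroup G) ⊤ h1
    rw [top_inf_eq] at h2
    have hZn : ((Subgroup.center (fittingSubgroup G)).map (fittingSubgroup G).subtype).Normal :=
      ConjAct.normal_of_characteristic_of_normal
    have hZab : IsMulCommutative ↥((Subgroup.center (fittingSubgroup G)).map (fittingSubgroup G).subtype) := by
      refine ⟨⟨?_⟩⟩
      rintro ⟨_, a, ha, rfl⟩ ⟨_, b, hb, rfl⟩
      apply Subtype.ext
      show (a : G) * (b : G) = (b : G) * (a : G)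
      exact congrArg Subtype.val (Subgroup.mem_center_iff.mp hb a)
    have h3 := H.abelian_eq_bot _ hZab
    exact h2 ((Subgroup.map_eq_bot_iff_of_injective _ (fittingSubgroup G).subtype_injective).mp h3)
  have hgen : generalizedFittingSubgroup G ≤ N :=
    gen_le_of_fitting_le_of_centralizer_le N (by rw [hF]; exact bot_le) (by rw [hCN]; exact bot_le)
  have hna : ∃ a b : N, a * b ≠ b * a := by
    by_contra hcon
    push Not at hcon
    exact hNab ⟨⟨hcon⟩⟩
  obtain ⟨a₀, b₀, hab₀⟩ := hna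
  have hq : IsQuasisimple N := by
    refine ⟨⟨?_⟩, ?_⟩
    · rcases hNs.eq_bot_or_eq_top_of_normal (commutator N) inferInstance with h | h
      · exfalso
        apply hab₀
        have h1 : ⁅a₀, b₀⁆ ∈ commutator N := by
          rw [commutator_def]
          exact Subgroup.commutator_mem_commutator (Subgroup.mem_top _) (Subgroup.mem_top _)
        rw [h, Subgroup.mem_bot] at h1
        exact commutatorElement_eq_one_iff_mul_comm.mp h1
      · exact h
    · haveI : Nontrivial (N ⧸ Subgroup.center N) := by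
        refine ⟨⟨(a₀ : N ⧸ Subgroup.center N), 1, ?_⟩⟩
        intro he
        have h1 : a₀ ∈ Subgroup.center N := (QuotientGroup.eq_one_iff a₀).mp he
        exact hab₀ ((Subgroup.mem_center_iff.mp h1 b₀).symm)
      exact IsSimpleGroup.isSimpleGroup_of_surjective (QuotientGroup.mk' (Subgroup.center N))
        (QuotientGroup.mk'_surjective _)
  have hcomp : IsComponent N := ⟨hNn.isSubnormal, hq⟩
  have hNle : N ≤ generalizedFittingSubgroup G := (component_le_layer hcomp).trans layer_le_gen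
  have hEq : generalizedFittingSubgroup G = N := le_antisymm hgen hNle
  rw [hEq]
  refine ⟨hNs, hNab, ?_⟩
  rw [sup_comm]
  exact H.sup_eq_top N hN1

end Cfsg.Agent.S3048
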