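import Cfsg.Statements.S3049
import Cfsg.Agent.Lib.Core.Subnormal
import Cfsg.Agent.Lib.FStar.Constrained
import Cfsg.Agent.Lib.FStar.Layer
import Cfsg.Agent.Lib.Techniques.Ito
import Cfsg.Agent.Lib.Transfer.Frobenius

set_option autoImplicit false
open Cfsg

namespace Cfsg.Agent.S3049

open Subgroup Cfsg.Agent.Lib.FStar

section aux

variable {G : Type*} [Group G] [Finite G] {p : ℕ} [hp : Fact p.Prime]

theorem comm_of_mem_pgroup {x : G} (hiso : IsIsolated x) {T : Subgroup G} (hT : IsPGroup p T)
    (hxT : x ∈ T) : ∀ t ∈ T, t * x = x * t := by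
  haveI := hT.isNilpotent
  let x' : T := ⟨x, hxT⟩
  let C : Subgroup T := centralizer {x'}
  by_cases hC : C = ⊤
  · intro t ht
    have h1 : (⟨t, ht⟩ : T) ∈ C := by rw [hC]; trivial
    have h2 := mem_centralizer_singleton_iff.mp h1
    exact congrArg Subtype.val h2
  · have hlt : C < ⊤ := lt_top_iff_ne_top.mpr hC
    have hlt2 := normalizerCondition_of_isNilpotent C hlt
    obtain ⟨q, hq, hqn⟩ := SetLike.exists_of_lt hlt2
    exfalso
    apply hqn
    have hx'C : x' ∈ C := mem_centralizer_singleton_iff.mpr rfl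
    have h1 : q * x' * q⁻¹ ∈ C := (mem_normalizer_iff.mp hq x').mp hx'C
    have h2 : (q * x' * q⁻¹) * x' = x' * (q * x' * q⁻¹) := mem_centralizer_singleton_iff.mp h1
    have h3 : x * ((q : G) * x * (q : G)⁻¹) = ((q : G) * x * (q : G)⁻¹) * x :=
      (congrArg Subtype.val h2).symm
    have h4 := hiso q h3
    refine mem_centralizer_singleton_iff.mpr (Subtype.ext ?_)
    show (q : G) * x = x * q
    calc (q : G) * x = ((q : G) * x * (q : G)⁻¹) * q := by group
      _ = x * q := by rw [h4]

theorem forms {x z : G} (h : z * x = x * z) {e : G} (he : e ∈ closure ({x, z} : Set G)) :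
    ∃ a b : ℤ, e = x ^ a * z ^ b := by
  induction he using closure_induction with
  | mem y hy =>
    rcases hy with rfl | rfl
    · exact ⟨1, 0, by simp⟩
    · exact ⟨0, 1, by simp⟩
  | one => exact ⟨0, 0, by simp⟩
  | mul u v _ _ hu hv =>
    obtain ⟨a, b, rfl⟩ := hu
    obtain ⟨c, d, rfl⟩ := hv
    refine ⟨a + c, b + d, ?_⟩
    have hc : Commute (z ^ b) (x ^ c) := Commute.zpow_zpow h b c
    rw [zpow_add, zpow_add]
    calc x ^ a * z ^ b * (x ^ c * z ^ d) = x ^ a * (z ^ b * x ^ c) * z ^ d := by group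
      _ = x ^ a * (x ^ c * z ^ b) * z ^ d := by rw [hc.eq]
      _ = x ^ a * x ^ c * (z ^ b * z ^ d) := by group
  | inv u _ hu =>
    obtain ⟨a, b, rfl⟩ := hu
    refine ⟨-a, -b, ?_⟩
    have hc : Commute (z ^ b)⁻¹ (x ^ a)⁻¹ := ((Commute.zpow_zpow h b a).inv_left).inv_right
    rw [zpow_neg, zpow_neg, mul_inv_rev]
    exact hc.eq

theorem mem_E0 (hrank : PRankLE p 2 G) {x z y : G} (hx : x ^ p = 1) (hz : z ^ p = 1) (hy : y ^ p = 1)
    (hzx : z * x = x * z) (hyx : y * x = x * y) (hyz : y * z = z * y) (hz1 : z ≠ 1)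
    (hxz : x ∉ zpowers z) : y ∈ closure ({x, z} : Set G) := by
  have hpp : p.Prime := Fact.out
  let s : Set G := {x, z, y}
  have hcomm : ∀ a ∈ s, ∀ b ∈ s, a * b = b * a := by
    intro a ha b hb
    rcases ha with rfl | rfl | rfl <;> rcases hb with rfl | rfl | rfl <;> first | rfl | assumption | (symm; assumption)
  have hcomm2 : ∀ a ∈ closure s, ∀ b ∈ closure s, a * b = b * a := by
    intro a ha b hb
    letI := closureCommGroupOfComm hcomm
    exact congrArg Subtype.val (mul_comm (⟨a, ha⟩ : closure s) ⟨b, hb⟩)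
  have hexp : ∀ a ∈ closure s, a ^ p = 1 := by
    intro a ha
    induction ha using closure_induction with
    | mem u hu =>
      rcases hu with rfl | rfl | rfl <;> assumption
    | one => simp
    | mul u v hu hv h1 h2 =>
      have : Commute u v := hcomm2 u hu v hv
      rw [this.mul_pow, h1, h2, one_mul]
    | inv u _ h1 => rw [inv_pow, h1, inv_one]
  have hE : IsMulCommutative (closure s) := ⟨⟨fun a b => Subtype.ext (hcomm2 _ a.2 _ b.2)⟩⟩
  have hcard := hrank (closure s) hE (fun a ha => hexp a ha)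
  let E0 : Subgroup G := closure ({x, z} : Set G)
  have hle : E0 ≤ closure s := closure_mono (by
    intro a ha
    rcases ha with rfl | rfl
    · exact Or.inl rfl
    · exact Or.inr (Or.inl rfl))
  have hE0p : IsPGroup p E0 := fun a => ⟨1, Subtype.ext (by
    have := hexp a (hle a.2)
    simpa using this)⟩
  have hxE0 : x ∈ E0 := subset_closure (Or.inl rfl)
  have hzE0 : z ∈ E0 := subset_closure (Or.inr rfl)
  have hzle : zpowers z ≤ E0 := by
    rw [zpowers_le]
    exact hzE0
  have hcz : Nat.card (zpowers z) = p := by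
    rw [Nat.card_zpowers]
    exact orderOf_eq_prime hz hz1
  have hlt : zpowers z < E0 := lt_of_le_of_ne hzle (fun h => hxz (h ▸ hxE0))
  have hcardlt : p < Nat.card E0 := hcz ▸ Cfsg.Agent.Lib.Core.card_lt_card_of_lt hlt
  obtain ⟨k, hk⟩ := IsPGroup.iff_card.mp hE0p
  have hk2 : 2 ≤ k := by
    by_contra hlt2
    have h3 : k ≤ 1 := by omega
    have h4 : p ^ k ≤ p ^ 1 := Nat.pow_le_pow_right hpp.pos h3
    rw [hk] at hcardlt
    rw [pow_one] at h4
    omega
  have hge : p ^ 2 ≤ Nat.card E0 := by
    rw [hk]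
    exact Nat.pow_le_pow_right hpp.pos hk2
  have heq : E0 = closure s := Subgroup.eq_of_le_of_card_ge hle (hcard.trans hge)
  have hyE : y ∈ closure s := subset_closure (Or.inr (Or.inr rfl))
  rw [← heq] at hyE
  exact hyE

theorem comm_step {x z g y : G} (hxp : x ^ p = 1) (hiso : IsIsolated x) (hzx : z * x = x * z)
    (hgz : g * z = z * g) (hy : y ∈ closure ({x, z} : Set G))
    (hgy : g * y * g⁻¹ ∈ closure ({x, z} : Set G)) : g * y = y * g := by
  have hpp : p.Prime := Fact.out
  obtain ⟨a, b, rfl⟩ := forms hzx hy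
  have hgzb : Commute g (z ^ b) := Commute.zpow_right hgz b
  by_cases hpa : (p : ℤ) ∣ a
  · obtain ⟨c, rfl⟩ := hpa
    have h1 : x ^ ((p : ℤ) * c) = 1 := by
      rw [zpow_mul, zpow_natCast, hxp, one_zpow]
    rw [h1, one_mul]
    exact hgzb.eq
  · have hw : g * (x ^ a * z ^ b) * g⁻¹ = (g * x * g⁻¹) ^ a * z ^ b := by
      rw [conj_zpow]
      calc g * (x ^ a * z ^ b) * g⁻¹ = g * x ^ a * (z ^ b * g⁻¹) := by group
        _ = g * x ^ a * (g⁻¹ * z ^ b) := by
            rw [← (hgzb.inv_left).eq]
        _ = g * x ^ a * g⁻¹ * z ^ b := by group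
    have hz' : z ∈ Subgroup.closure ({x, z} : Set G) := Subgroup.subset_closure (Or.inr rfl)
    have hzb : z ^ b ∈ Subgroup.closure ({x, z} : Set G) := Subgroup.zpow_mem _ hz' b
    have hwa : (g * x * g⁻¹) ^ a ∈ closure ({x, z} : Set G) := by
      have h1 : (g * x * g⁻¹) ^ a = (g * (x ^ a * z ^ b) * g⁻¹) * (z ^ b)⁻¹ := by
        rw [hw]
        group
      rw [h1]
      exact mul_mem hgy (inv_mem hzb)
    have hwp : (g * x * g⁻¹) ^ p = 1 := by
      rw [conj_pow, hxp]
      group
    have hcop : IsCoprime (p : ℤ) a :=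
      (Nat.prime_iff_prime_int.mp hpp).irreducible.coprime_iff_not_dvd.mpr hpa
    obtain ⟨u, v, huv⟩ := hcop
    have hwE : g * x * g⁻¹ ∈ closure ({x, z} : Set G) := by
      have h1 : g * x * g⁻¹ = (g * x * g⁻¹) ^ (u * (p : ℤ) + v * a) := by
        rw [huv, zpow_one]
      rw [h1, zpow_add, mul_comm u, zpow_mul, zpow_natCast, hwp, one_zpow, one_mul, mul_comm v, zpow_mul]
      exact zpow_mem hwa v
    have hcen : closure ({x, z} : Set G) ≤ centralizer {x} := by
      rw [closure_le]
      intro t ht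
      rcases ht with rfl | rfl
      · exact mem_centralizer_singleton_iff.mpr rfl
      · exact mem_centralizer_singleton_iff.mpr hzx
    have hc1 := mem_centralizer_singleton_iff.mp (hcen hwE)
    have h2 := hiso g hc1.symm
    have hgx : g * x = x * g := by
      calc g * x = (g * x * g⁻¹) * g := by group
        _ = x * g := by rw [h2]
    have hgxa : Commute g (x ^ a) := Commute.zpow_right hgx a
    exact (hgxa.mul_right hgzb).eq

theorem frob_hyp (hp2 : p ≠ 2) (hrank : PRankLE p 2 G) {x z : G} (hxp : x ^ p = 1) (hiso : IsIsolated x)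
    (K : Subgroup G) (Q : Sylow p K) (hxQ : ∀ y : K, y ∈ (Q : Subgroup K) → (y : G) * x = x * y)
    (hzp : z ^ p = 1) (hz1 : z ≠ 1) (hzK : ∀ k ∈ K, k * z = z * k) (hzx : z * x = x * z)
    (hxK : ¬ ∀ k ∈ K, k * x = x * k) : Cfsg.Agent.Lib.Transfer.FrobeniusHyp p (Q : Subgroup K) := by
  refine Cfsg.Agent.Lib.Techniques.frobeniusHyp_of_small Q.isPGroup' ?_
  intro U hU g hg _ hsmall
  rw [mem_centralizer_iff]
  intro y hy
  have hy1 : y ^ p = 1 := (hsmall y hy).resolve_right (fun h => hp2 h.1)
  have hy2 : g * y * g⁻¹ ∈ U := (mem_normalizer_iff.mp hg y).mp hy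
  have hy3 : (g * y * g⁻¹) ^ p = 1 := (hsmall _ hy2).resolve_right (fun h => hp2 h.1)
  have hxz : x ∉ zpowers z := by
    intro h
    apply hxK
    intro k hk
    obtain ⟨n, rfl⟩ := mem_zpowers_iff.mp h
    exact Commute.zpow_right (hzK k hk) n
  have key : ∀ t ∈ U, t ^ p = 1 → (t : G) ∈ closure ({x, z} : Set G) := by
    intro t ht htp
    refine mem_E0 hrank hxp hzp (by simpa using congrArg Subtype.val htp) hzx (hxQ t (hU ht))
      (hzK t t.2) hz1 hxz
  have h1 := key y hy hy1
  have h2 := key _ hy2 hy3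
  have h3 := comm_step hxp hiso hzx (hzK g g.2) h1 (by simpa using h2)
  exact Subtype.ext h3.symm

end aux

section perfect

variable {X : Type*} [Group X] [Finite X] {p : ℕ} [hp : Fact p.Prime]

theorem perfect_no_frob (hX : commutator X = ⊤) (Q : Sylow p X)
    (h : Cfsg.Agent.Lib.Transfer.FrobeniusHyp p (Q : Subgroup X)) : (Q : Subgroup X) = ⊥ := by
  obtain ⟨N, hN, hc⟩ := Cfsg.Agent.Lib.Transfer.frobenius Q h
  haveI := hN
  have h1 := hc.card_mul
  have h2 := Subgroup.card_eq_card_quotient_mul_card_subgroup N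
  have hNpos : 0 < Nat.card N := Nat.card_pos
  have h3 : Nat.card (X ⧸ N) = Nat.card (Q : Subgroup X) := by
    have : Nat.card (X ⧸ N) * Nat.card N = Nat.card (Q : Subgroup X) * Nat.card N := by
      rw [← h2, ← h1, mul_comm]
    exact Nat.eq_of_mul_eq_mul_right hNpos this
  obtain ⟨n, hn⟩ := Q.isPGroup'.exists_card_eq
  have hpq : IsPGroup p (X ⧸ N) := IsPGroup.of_card (n := n) (h3.trans hn)
  haveI := hpq.isNilpotent
  haveI : IsSolvable (X ⧸ N) := IsNilpotent.to_isSolvable
  have hsub : Subsingleton (X ⧸ N) := by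
    by_contra hns
    rw [not_subsingleton_iff_nontrivial] at hns
    have hlt := IsSolvable.commutator_lt_top_of_nontrivial (X ⧸ N)
    have hsurj : Function.Surjective (QuotientGroup.mk' N) := QuotientGroup.mk'_surjective N
    have : commutator (X ⧸ N) = ⊤ := by
      have h4 : (commutator X).map (QuotientGroup.mk' N) = commutator (X ⧸ N) := by
        rw [commutator_def, commutator_def, Subgroup.map_commutator, map_top_of_surjective _ hsurj]
      rw [← h4, hX, map_top_of_surjective _ hsurj]
    exact absurd this hlt.ne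
  have hNt : N = ⊤ := QuotientGroup.subgroup_eq_top_of_subsingleton N (by infer_instance)
  have hd := hc.disjoint
  rw [hNt] at hd
  exact top_disjoint.mp hd

theorem simple_of_qs (h : IsQuasisimple X) (hc : center X = ⊥) : IsSimpleGroup X := by
  haveI := h.2
  have hinj : Function.Injective (QuotientGroup.mk' (center X)) := by
    rw [← MonoidHom.ker_eq_bot_iff, QuotientGroup.ker_mk', hc]
  let e : X ≃* X ⧸ center X := MulEquiv.ofBijective (QuotientGroup.mk' (center X))
    ⟨hinj, QuotientGroup.mk'_surjective _⟩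
  haveI : Nontrivial X := e.surjective.nontrivial
  exact IsSimpleGroup.isSimpleGroup_of_surjective e.symm.toMonoidHom e.symm.surjective

end perfect

theorem exists_order_p {G : Type*} [Group G] [Finite G] {p : ℕ} [hp : Fact p.Prime] {T : Subgroup G}
    (hT : IsPGroup p T) (hne : T ≠ ⊥) : ∃ z ∈ T, z ^ p = 1 ∧ z ≠ 1 := by
  have hpp : p.Prime := Fact.out
  obtain ⟨n, hn⟩ := hT.exists_card_eq
  have hn0 : n ≠ 0 := by
    rintro rfl
    exact hne (Subgroup.eq_bot_of_card_eq T (by simpa using hn))
  have hd : p ∣ Nat.card T := by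
    rw [hn]
    exact dvd_pow_self p hn0
  obtain ⟨z, hz⟩ := exists_prime_orderOf_dvd_card' p hd
  refine ⟨z, z.2, ?_, ?_⟩
  · have : (z : G) ^ orderOf (z : G) = 1 := pow_orderOf_eq_one _
    rwa [Subgroup.orderOf_coe, hz] at this
  · intro h1
    have : orderOf (z : G) = 1 := by rw [h1, orderOf_one]
    rw [Subgroup.orderOf_coe, hz] at this
    exact hpp.one_lt.ne' this

/-- Let G be a finite group and p an odd prime with O_{p'}(G) = 1. Suppose that G has p-rank at most 2 (no elementary abelian subgroup of order p³) and that some element x of order p is isolated in G (no G-conjugate of x other than x commutes with x) and not central. Then the generalized Fitting subgroup F*(G) is a non-abelian simple group. Since O_{p'}(G) = 1, such an x is not central modulo O_{p'}(G): the hypotheses describe a counterexample to the Z*_p statement in p-rank at most 2. -/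
theorem result {G : Type*} [Group G] [Finite G] {p : ℕ} [Fact p.Prime] (hp : p ≠ 2) (hcore : Cfsg.pPrimeCore p G = ⊥)
    (hrank : Cfsg.PRankLE p 2 G) (x : G) (hx : orderOf x = p) (hiso : Cfsg.IsIsolated x) (hnc : x ∉ Subgroup.center G) :
    IsSimpleGroup ↥(Cfsg.generalizedFittingSubgroup G) ∧ ¬ IsMulCommutative ↥(Cfsg.generalizedFittingSubgroup G) := by
  have hpp : p.Prime := Fact.out
  have hxp : x ^ p = 1 := hx ▸ pow_orderOf_eq_one x
  have hzp : IsPGroup p (zpowers x) := IsPGroup.of_card (n := 1) (by rw [Nat.card_zpowers, hx, pow_one])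
  obtain ⟨P, hP⟩ := hzp.exists_le_sylow
  have hxP : x ∈ (P : Subgroup G) := hP (mem_zpowers x)
  have hcomm : ∀ t ∈ (P : Subgroup G), t * x = x * t := comm_of_mem_pgroup hiso P.isPGroup' hxP
  haveI hcN : (Cfsg.pCore p G).Normal := Cfsg.Agent.Lib.Core.pCore_normal p G
  have hcoreP : Cfsg.pCore p G ≤ (P : Subgroup G) := by
    have h1 : IsPGroup p ((P : Subgroup G) ⊔ Cfsg.pCore p G : Subgroup G) :=
      P.isPGroup'.to_sup_of_normal_right (Cfsg.Agent.Lib.Core.pCore_isPGroup p G)
    have h2 := P.is_maximal' h1 le_sup_left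
    rw [← h2]
    exact le_sup_right
  have hF : Cfsg.fittingSubgroup G = Cfsg.pCore p G := fitting_eq_pCore_of_pPrimeCore_bot hcore
  -- `x` is not in `O_p(G)`
  have hxO : x ∉ Cfsg.pCore p G := by
    intro hxO
    apply hnc
    rw [mem_center_iff]
    intro g
    have h1 : g * x * g⁻¹ ∈ Cfsg.pCore p G := hcN.conj_mem x hxO g
    have h2 := hiso g (hcomm _ (hcoreP h1)).symm
    calc g * x = (g * x * g⁻¹) * g := by group
      _ = x * g := by rw [h2]
  -- there is a component not centralized by `x`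
  have hex : ∃ K : Subgroup G, IsComponent K ∧ ¬ ∀ k ∈ K, k * x = x * k := by
    by_contra hcon
    push_neg at hcon
    have h1 : Cfsg.generalizedFittingSubgroup G ≤ centralizer {x} := by
      refine sup_le (sSup_le fun L hL => ?_) ?_
      · intro k hk
        exact mem_centralizer_singleton_iff.mpr (hcon L hL k hk)
      · rw [hF]
        intro k hk
        exact mem_centralizer_singleton_iff.mpr (hcomm k (hcoreP hk))
    have h2 : x ∈ centralizer (Cfsg.generalizedFittingSubgroup G : Set G) := by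
      rw [mem_centralizer_iff]
      intro h hh
      exact mem_centralizer_singleton_iff.mp (h1 hh)
    have hY : (centralizer (Cfsg.generalizedFittingSubgroup G : Set G)).Normal := by
      haveI : (Cfsg.generalizedFittingSubgroup G).Normal := gen_normal G
      infer_instance
    have hYc : Group.IsNilpotent (centralizer (Cfsg.generalizedFittingSubgroup G : Set G)) := by
      refine isNilpotent_of_comm fun a b => Subtype.ext ?_
      exact (mem_centralizer_iff.mp a.2 b (centralizer_gen_le b.2)).symm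
    have h3 := le_fitting_of_subnormal_nilpotent hY.isSubnormal hYc h2
    rw [hF] at h3
    exact hxO h3
  obtain ⟨K, hK, hxK⟩ := hex
  -- Sylow subgroups of components
  have hsyl : ∀ L : Subgroup G, IsComponent L → ∃ Q : Sylow p L, (Q : Subgroup L) ≠ ⊥ ∧
      ∀ y : L, y ∈ (Q : Subgroup L) → (y : G) ∈ (P : Subgroup G) := by
    intro L hL
    obtain ⟨Q, hQ⟩ := Cfsg.Agent.Lib.Core.sylow_inf_subnormal p L hL.1 P
    refine ⟨Q, ?_, ?_⟩
    · apply Q.ne_bot_of_dvd_card
      by_contra hnd
      have hcop : (Nat.card L).Coprime p := ((Nat.Prime.coprime_iff_not_dvd hpp).mpr hnd).symm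
      have h1 := Cfsg.Agent.Lib.Core.subnormal_coprime_le_pPrimeCore p L hL.1 hcop
      rw [hcore] at h1
      exact qs_subgroup_ne_bot hL.2 (le_bot_iff.mp h1)
    · intro y hy
      rw [hQ] at hy
      exact hy
  obtain ⟨QK, hQK, hQKP⟩ := hsyl K hK
  -- the key: no element of order `p` centralizes `K` and `x`
  have hno : ∀ z : G, z ^ p = 1 → z ≠ 1 → (∀ k ∈ K, k * z = z * k) → z * x = x * z → False := by
    intro z hzp' hz1 hzK hzx
    have h1 := frob_hyp hp hrank hxp hiso K QK (fun y hy => hcomm _ (hQKP y hy)) hzp' hz1 hzK hzx hxK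
    exact hQK (perfect_no_frob (qs_commutator hK.2) QK h1)
  -- `K` is the only component
  have huniq : ∀ L : Subgroup G, IsComponent L → L = K := by
    intro L hL
    by_contra hne
    obtain ⟨QL, hQL, hQLP⟩ := hsyl L hL
    have hT : IsPGroup p ((QL : Subgroup L).map L.subtype) := QL.isPGroup'.map _
    have hne2 : (QL : Subgroup L).map L.subtype ≠ ⊥ := by
      intro h
      exact hQL ((map_eq_bot_iff_of_injective _ L.subtype_injective).mp h)
    obtain ⟨z, hz, hzp', hz1⟩ := exists_order_p hT hne2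
    obtain ⟨y, hy, rfl⟩ := hz
    refine hno _ hzp' hz1 (fun k hk => ?_) (hcomm _ (hQLP y hy))
    exact mul_comm_of_commutator_eq_bot (component_commute hK hL (Ne.symm hne)) hk y.2
  -- `O_p(G) = 1`
  have hO : Cfsg.pCore p G = ⊥ := by
    by_contra hne
    obtain ⟨z, hz, hzp', hz1⟩ := exists_order_p (Cfsg.Agent.Lib.Core.pCore_isPGroup p G) hne
    refine hno z hzp' hz1 (fun k hk => ?_) (hcomm z (hcoreP hz))
    exact mul_comm_of_commutator_eq_bot (component_commute_pCore (p := p) hK) hk hz
  have hlayer : Cfsg.layer G = K := by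
    refine le_antisymm (sSup_le fun L hL => ?_) (component_le_layer hK)
    rw [huniq L hL]
  have hgen : Cfsg.generalizedFittingSubgroup G = K := by
    unfold Cfsg.generalizedFittingSubgroup
    rw [hF, hO, sup_bot_eq, hlayer]
  have hcen : center K = ⊥ := by
    have h1 := center_layer_eq_fitting_inf (G := G)
    rw [hF, hO, bot_inf_eq, hlayer] at h1
    exact (map_eq_bot_iff_of_injective _ K.subtype_injective).mp h1
  rw [hgen]
  refine ⟨simple_of_qs hK.2 hcen, ?_⟩
  intro hc'
  have htop : ∀ a : K, a = 1 := by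
    intro a
    have h1 : a ∈ center K := mem_center_iff.mpr (fun g => hc'.is_comm.comm g a)
    rw [hcen] at h1
    simpa using h1
  exact qs_subgroup_ne_bot hK.2 ((Subgroup.eq_bot_iff_forall _).mpr fun a ha => by
    simpa using congrArg Subtype.val (htop ⟨a, ha⟩))

end Cfsg.Agent.S3049
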