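import Cfsg.Statements.S3053
import Cfsg.Agent.Lib.FF.Burnside
import Cfsg.Agent.Lib.FF.CharP
import Cfsg.Agent.Lib.FF.Lattice
import Cfsg.Agent.Lib.PGroup.OddPGroup
import Cfsg.Agent.Lib.Transfer.Frat
import Mathlib

set_option autoImplicit false
open Cfsg

namespace Cfsg.Agent.S3053

open Subgroup Cfsg.Agent.Lib.FF
open scoped commutatorElement

section abstractFacts

variable {X : Type*} [Group X] [Finite X] {p : ℕ} [hp : Fact p.Prime]

/-- The structure of the extraspecial group of order `p³` and exponent `p²`. -/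
theorem mfacts (hp2 : p ≠ 2) (hE : IsExtraspecial p X) (hcard : Nat.card X = p ^ 3)
    (hexp : Monoid.exponent X = p ^ 2) :
    ∃ E : Subgroup X, (∀ x, x ∈ E ↔ x ^ p = 1) ∧ Nat.card E = p ^ 2 ∧
      (∀ a ∈ E, ∀ b ∈ E, a * b = b * a) ∧ center X ≤ E ∧ (∀ x y : X, (x * y) ^ p = x ^ p * y ^ p) ∧
      (∀ x : X, x ^ p ∈ center X) ∧ (∀ x y : X, x * y * x⁻¹ * y⁻¹ ∈ center X) ∧ (∃ u, u ∉ E) ∧
      (∀ u y : X, u ∉ E → y ∈ E → y ∉ center X → u * y ≠ y * u) := by
  classical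
  obtain ⟨⟨hpg, hfr, hcomm⟩, hZcard⟩ := hE
  have hp' : p.Prime := hp.out
  have hZp : ∀ z ∈ center X, z ^ p = 1 := by
    intro z hz
    have h1 : (⟨z, hz⟩ : center X) ^ Nat.card (center X) = 1 := pow_card_eq_one'
    rw [hZcard] at h1
    exact congrArg Subtype.val h1
  have hcomm' : ∀ x y : X, x * y * x⁻¹ * y⁻¹ ∈ center X := by
    intro x y
    rw [← hcomm]
    have : ⁅x, y⁆ ∈ commutator X := Subgroup.commutator_mem_commutator trivial trivial
    rwa [commutatorElement_def] at this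
  have hpowZ : ∀ x : X, x ^ p ∈ center X := by
    intro x
    rw [← hfr]
    exact Cfsg.Agent.Lib.Transfer.pow_mem_frattini hpg x
  have hmul : ∀ x y : X, (x * y) ^ p = x ^ p * y ^ p := by
    intro x y
    have hc := hcomm' y⁻¹ x⁻¹
    have e : y⁻¹ * x⁻¹ * y⁻¹⁻¹ * x⁻¹⁻¹ = (x * y)⁻¹ * (y * x) := by group
    rw [e] at hc
    set c := (x * y)⁻¹ * (y * x) with hcdef
    have h1 : y * x = x * y * c := by rw [hcdef]; group
    have h2 := Cfsg.Agent.Lib.PGroup.mul_pow_of_comm_comm x y c h1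
      (Subgroup.mem_center_iff.mp hc x).symm (Subgroup.mem_center_iff.mp hc y).symm p
    rw [h2]
    have h3 : p ∣ p.choose 2 := hp'.dvd_choose_self (by norm_num)
      (lt_of_le_of_ne hp'.two_le (Ne.symm hp2))
    obtain ⟨m, hm⟩ := h3
    rw [hm, pow_mul, hZp c hc, one_pow, mul_one]
  let φ : X →* X := MonoidHom.mk' (fun x => x ^ p) hmul
  have hφ : ∀ x, φ x = x ^ p := fun x => rfl
  have hker : ∀ x, x ∈ φ.ker ↔ x ^ p = 1 := fun x => by rw [MonoidHom.mem_ker, hφ]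
  have hrange : φ.range ≤ center X := by
    rintro _ ⟨x, rfl⟩
    exact hpowZ x
  have hex : ∃ u : X, u ^ p ≠ 1 := by
    by_contra hcon
    push Not at hcon
    have h1 : Monoid.exponent X ∣ p := Monoid.exponent_dvd_of_forall_pow_eq_one hcon
    rw [hexp] at h1
    have h2 : p ^ 2 ≤ p := Nat.le_of_dvd hp'.pos h1
    have := hp'.two_le
    nlinarith
  obtain ⟨u, hu⟩ := hex
  have hrangecard : Nat.card φ.range = p := by
    have h1 : Nat.card φ.range ∣ p := hZcard ▸ Subgroup.card_dvd_of_le hrange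
    rcases (Nat.dvd_prime hp').mp h1 with h2 | h2
    · exfalso
      have h3 : φ.range = ⊥ := (Subgroup.card_eq_one).mp h2
      have h4 : φ u ∈ φ.range := ⟨u, rfl⟩
      rw [h3, Subgroup.mem_bot] at h4
      exact hu h4
    · exact h2
  have hEcard : Nat.card φ.ker = p ^ 2 := by
    have h1 := Subgroup.card_mul_index φ.ker
    rw [Subgroup.index_ker, hrangecard, hcard] at h1
    have h2 : Nat.card φ.ker * p = p ^ 2 * p := by rw [h1]; ring
    exact Nat.eq_of_mul_eq_mul_right hp'.pos h2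
  have hEab : ∀ a ∈ φ.ker, ∀ b ∈ φ.ker, a * b = b * a := by
    intro a ha b hb
    have : IsMulCommutative φ.ker := IsPGroup.isMulCommutative_of_card_eq_prime_sq hEcard
    exact congrArg Subtype.val (this.is_comm.comm ⟨a, ha⟩ ⟨b, hb⟩)
  refine ⟨φ.ker, hker, hEcard, hEab, ?_, hmul, hpowZ, hcomm', ⟨u, fun h => hu ((hker u).mp h)⟩, ?_⟩
  · intro z hz
    exact (hker z).mpr (hZp z hz)
  · intro v y hv hy hyZ hvy
    apply hyZ
    -- the centralizer of `y` is everything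
    set K := centralizer ({y} : Set X) with hK
    have hEK : φ.ker ≤ K := by
      intro a ha
      rw [hK, Subgroup.mem_centralizer_singleton_iff]
      exact hEab a ha y hy
    have hvK : v ∈ K := by
      rw [hK, Subgroup.mem_centralizer_singleton_iff]
      exact hvy
    have hlt : Nat.card φ.ker < Nat.card K := by
      apply lt_of_le_of_ne (Subgroup.card_le_of_le hEK)
      intro h
      have := Subgroup.eq_of_le_of_card_ge hEK (le_of_eq h.symm)
      exact hv (this ▸ hvK)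
    have hdvd : Nat.card K ∣ p ^ 3 := hcard ▸ Subgroup.card_subgroup_dvd_card K
    obtain ⟨j, hj3, hj⟩ := (Nat.dvd_prime_pow hp').mp hdvd
    have hj' : j = 3 := by
      rw [hj, hEcard] at hlt
      have := (Nat.pow_lt_pow_iff_right hp'.one_lt).mp hlt
      omega
    have htop : K = ⊤ := Subgroup.eq_top_of_card_eq K (by rw [hj, hj', hcard])
    rw [Subgroup.mem_center_iff]
    intro w
    have : w ∈ K := by rw [htop]; trivial
    rw [hK, Subgroup.mem_centralizer_singleton_iff] at this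
    exact this

end abstractFacts

section main

variable {G : Type*} [Group G] [Finite G] {p : ℕ} [hp : Fact p.Prime]

theorem exists_mul_of_mem_sup' {Q R : Subgroup G} (hR : R ≤ normalizer (Q : Set G)) {x : G}
    (hx : x ∈ Q ⊔ R) : ∃ q ∈ Q, ∃ t ∈ R, x = q * t := by
  have hconj : ∀ r ∈ R, ∀ q ∈ Q, r * q * r⁻¹ ∈ Q := fun r hr q hq =>
    (Subgroup.mem_normalizer_iff.mp (hR hr) q).mp hq
  let W : Subgroup G :=
    { carrier := {x | ∃ q ∈ Q, ∃ t ∈ R, x = q * t}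
      mul_mem' := by
        rintro _ _ ⟨q, hq, t, ht, rfl⟩ ⟨q', hq', t', ht', rfl⟩
        refine ⟨q * (t * q' * t⁻¹), Q.mul_mem hq (hconj t ht q' hq'), t * t', R.mul_mem ht ht', ?_⟩
        group
      one_mem' := ⟨1, Q.one_mem, 1, R.one_mem, by simp⟩
      inv_mem' := by
        rintro _ ⟨q, hq, t, ht, rfl⟩
        refine ⟨t⁻¹ * q⁻¹ * t, ?_, t⁻¹, R.inv_mem ht, by group⟩
        have := hconj t⁻¹ (R.inv_mem ht) q⁻¹ (Q.inv_mem hq)
        simpa using this }
  have hle : Q ⊔ R ≤ W := by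
    refine sup_le (fun q hq => ⟨q, hq, 1, R.one_mem, by simp⟩) (fun t ht => ⟨1, Q.one_mem, t, ht, by simp⟩)
  exact hle hx

theorem zpowers_eq_of_card_prime {A : Subgroup G} (hA : Nat.card A = p) {z : G} (hz : z ∈ A)
    (h1 : z ≠ 1) : A = zpowers z := by
  have hle : zpowers z ≤ A := (Subgroup.zpowers_le).mpr hz
  have hdvd : Nat.card (zpowers z) ∣ p := hA ▸ Subgroup.card_dvd_of_le hle
  rcases (Nat.dvd_prime hp.out).mp hdvd with h | h
  · exfalso
    have h3 : zpowers z = ⊥ := (Subgroup.card_eq_one).mp h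
    exact h1 (Subgroup.zpowers_eq_bot.mp h3)
  · exact (Subgroup.eq_of_le_of_card_ge hle (by rw [hA, h])).symm

/-- `(a o)^n = a^n o'` when `a` normalizes `O` and `o ∈ O`. -/
theorem mul_pow_mem {O : Subgroup G} {a o : G} (ha : a ∈ normalizer (O : Set G)) (ho : o ∈ O)
    (n : ℕ) : ∃ o' ∈ O, (a * o) ^ n = a ^ n * o' := by
  induction n with
  | zero => exact ⟨1, O.one_mem, by simp⟩
  | succ n ih =>
    obtain ⟨o', ho', h⟩ := ih
    refine ⟨a⁻¹ * o' * a * o, O.mul_mem ?_ ho, ?_⟩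
    · have := (Subgroup.mem_normalizer_iff.mp (Subgroup.inv_mem _ ha) o').mp ho'
      simpa using this
    · rw [pow_succ, h, pow_succ]; group

theorem main_contra (hp2 : p ≠ 2) (P : Sylow p G) (E Z : Subgroup G)
    (hZE : Z ≤ E) (hEP : E ≤ P)
    (f1 : ∀ x ∈ (P : Subgroup G), x ∈ E ↔ x ^ p = 1)
    (f2 : Nat.card E = p ^ 2)
    (f3 : ∀ a ∈ E, ∀ b ∈ E, a * b = b * a)
    (f5 : ∀ x ∈ (P : Subgroup G), ∀ y ∈ (P : Subgroup G), (x * y) ^ p = x ^ p * y ^ p)
    (f6 : ∀ x ∈ (P : Subgroup G), x ^ p ∈ Z)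
    (f7 : ∀ x ∈ (P : Subgroup G), ∀ y ∈ (P : Subgroup G), x * y * x⁻¹ * y⁻¹ ∈ Z)
    (f8 : ∃ u ∈ (P : Subgroup G), u ∉ E)
    (f9 : ∀ u ∈ (P : Subgroup G), ∀ y ∈ E, u ∉ E → y ∉ Z → u * y ≠ y * u)
    (f10 : ∀ z ∈ Z, ∀ x ∈ (P : Subgroup G), x * z = z * x)
    (f11 : Nat.card Z = p)
    (z₀ g₀ : G) (hz₀ : z₀ ∈ Z) (hy : g₀ * z₀ * g₀⁻¹ ∈ (P : Subgroup G)) :
    g₀ * z₀ * g₀⁻¹ ∈ Z := by
  classical
  by_contra hyZ
  have hp' : p.Prime := hp.out
  set y := g₀ * z₀ * g₀⁻¹ with hydef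
  have hz₀1 : z₀ ≠ 1 := by
    rintro rfl
    apply hyZ
    have : y = 1 := by rw [hydef]; group
    rw [this]; exact Z.one_mem
  have hz₀p : z₀ ^ p = 1 := (f1 z₀ (hEP (hZE hz₀))).mp (hZE hz₀)
  have hyp : y ^ p = 1 := by
    rw [hydef, conj_pow, hz₀p]; group
  have hyE : y ∈ E := (f1 y hy).mpr hyp
  have hy1 : y ≠ 1 := by
    intro h
    apply hyZ
    rw [h]; exact Z.one_mem
  have hpgE : IsPGroup p E := IsPGroup.to_le P.2 hEP
  -- (A) a conjugating element
  obtain ⟨g, hg1, hg2⟩ : ∃ g : G, (∀ x ∈ E, g⁻¹ * x * g ∈ (P : Subgroup G)) ∧ g * z₀ * g⁻¹ = y := by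
    set K := centralizer ({y} : Set G) with hK
    have hEK : E ≤ K := by
      intro a ha
      rw [hK, Subgroup.mem_centralizer_singleton_iff]
      exact f3 a ha y hyE
    have hQK : ((g₀ • P : Sylow p G) : Subgroup G) ≤ K := by
      rw [coe_smul_sylow]
      rintro _ ⟨w, hw, rfl⟩
      rw [hK, Subgroup.mem_centralizer_singleton_iff]
      have hw' : w ∈ (P : Subgroup G) := hw
      show g₀ * w * g₀⁻¹ * y = y * (g₀ * w * g₀⁻¹)
      have := f10 z₀ hz₀ w hw'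
      rw [hydef]
      calc g₀ * w * g₀⁻¹ * (g₀ * z₀ * g₀⁻¹) = g₀ * (w * z₀) * g₀⁻¹ := by group
        _ = g₀ * (z₀ * w) * g₀⁻¹ := by rw [this]
        _ = _ := by group
    have hSyl := isSylowIn_of_sylow_le (g₀ • P) hQK
    obtain ⟨S, hES, hS⟩ := exists_isSylowIn_of_le hpgE hEK
    obtain ⟨l, hl, hlS⟩ := hSyl.exists_conj hS
    refine ⟨l * g₀, ?_, ?_⟩
    · intro x hx
      have hxS := hES hx
      rw [← hlS, coe_smul_sylow] at hxS
      obtain ⟨_, ⟨w, hw, rfl⟩, hw2⟩ := hxS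
      have hw' : w ∈ (P : Subgroup G) := hw
      have e : x = l * (g₀ * w * g₀⁻¹) * l⁻¹ := hw2.symm
      have e2 : (l * g₀)⁻¹ * x * (l * g₀) = w := by rw [e]; group
      rw [e2]; exact hw'
    · have hl' : l * y = y * l := by
        rw [hK, Subgroup.mem_centralizer_singleton_iff] at hl
        exact hl
      calc l * g₀ * z₀ * (l * g₀)⁻¹ = l * y * l⁻¹ := by rw [hydef]; group
        _ = y := by rw [hl']; group
  have hgE1 : ∀ x ∈ E, g⁻¹ * x * g ∈ E := by
    intro x hx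
    refine (f1 _ (hg1 x hx)).mpr ?_
    have hxp : x ^ p = 1 := (f1 x (hEP hx)).mp hx
    have e : (g⁻¹ * x * g) = g⁻¹ * x * g⁻¹⁻¹ := by group
    rw [e, conj_pow, hxp]; group
  have hgE2 : ∀ x ∈ E, g * x * g⁻¹ ∈ E := by
    have hle : E.map (MulAut.conj g⁻¹).toMonoidHom ≤ E := by
      rintro _ ⟨w, hw, rfl⟩
      have := hgE1 w hw
      simpa using this
    have heq := Subgroup.eq_of_le_of_card_ge hle (by rw [card_conj])
    intro x hx
    rw [← heq] at hx
    obtain ⟨w, hw, rfl⟩ := hx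
    have e : g * (MulAut.conj g⁻¹).toMonoidHom w * g⁻¹ = w := by simp; group
    rw [e]; exact hw
  -- (B) the first transvection
  obtain ⟨u, huP, huE⟩ := f8
  set z₁ := u * y * u⁻¹ * y⁻¹ with hz₁def
  have hz₁Z : z₁ ∈ Z := f7 u huP y hy
  have hz₁1 : z₁ ≠ 1 := by
    intro h
    apply f9 u huP y hyE huE hyZ
    rw [hz₁def] at h
    have : u * y * u⁻¹ = y := by
      calc u * y * u⁻¹ = (u * y * u⁻¹ * y⁻¹) * y := by group
        _ = y := by rw [h]; group
    calc u * y = (u * y * u⁻¹) * u := by group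
      _ = y * u := by rw [this]
  have huy : u * y * u⁻¹ = z₁ * y := by rw [hz₁def]; group
  have huz : u * z₁ * u⁻¹ = z₁ := by rw [f10 z₁ hz₁Z u huP]; group
  have hzy : z₁ * y = y * z₁ := (f10 z₁ hz₁Z y hy).symm
  have hZz₁ : Z = zpowers z₁ := zpowers_eq_of_card_prime f11 hz₁Z hz₁1
  have hZz₀ : Z = zpowers z₀ := zpowers_eq_of_card_prime f11 hz₀ hz₀1
  have hcardy : Nat.card (zpowers y) = p := by
    rw [Nat.card_zpowers, orderOf_eq_prime hyp hy1]
  -- conjugates of elements of `Z` lie in `⟨y⟩`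
  have hconjZ : ∀ x ∈ Z, g * x * g⁻¹ ∈ zpowers y := by
    intro x hx
    rw [hZz₀] at hx
    obtain ⟨k, rfl⟩ := Subgroup.mem_zpowers_iff.mp hx
    refine Subgroup.mem_zpowers_iff.mpr ⟨k, ?_⟩
    rw [← hg2, conj_zpow]
  -- (C) the second transvection
  set w₁ := g⁻¹ * z₁ * g with hw₁def
  have hw₁E : w₁ ∈ E := hgE1 z₁ (hZE hz₁Z)
  have hgw₁ : g * w₁ * g⁻¹ = z₁ := by rw [hw₁def]; group
  have hw₁Z : w₁ ∉ Z := by
    intro h
    have h1 : z₁ ∈ zpowers y := by
      rw [← hgw₁]; exact hconjZ w₁ h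
    have h2 : zpowers y = zpowers z₁ := zpowers_eq_of_card_prime hcardy h1 hz₁1
    apply hyZ
    rw [hZz₁, ← h2]
    exact Subgroup.mem_zpowers y
  set v := u * w₁ * u⁻¹ * w₁⁻¹ with hvdef
  have hvZ : v ∈ Z := f7 u huP w₁ (hEP hw₁E)
  have hv1 : v ≠ 1 := by
    intro h
    apply f9 u huP w₁ hw₁E huE hw₁Z
    rw [hvdef] at h
    have : u * w₁ * u⁻¹ = w₁ := by
      calc u * w₁ * u⁻¹ = (u * w₁ * u⁻¹ * w₁⁻¹) * w₁ := by group
        _ = w₁ := by rw [h]; group
    calc u * w₁ = (u * w₁ * u⁻¹) * u := by group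
      _ = w₁ * u := by rw [this]
  set u' := g * u * g⁻¹ with hu'def
  set v' := g * v * g⁻¹ with hv'def
  have hv'y : v' ∈ zpowers y := hconjZ v hvZ
  have hv'1 : v' ≠ 1 := by
    intro h
    apply hv1
    rw [hv'def] at h
    calc v = g⁻¹ * (g * v * g⁻¹) * g := by group
      _ = 1 := by rw [h]; group
  have hyv' : zpowers y = zpowers v' := zpowers_eq_of_card_prime hcardy hv'y hv'1
  obtain ⟨b, hb⟩ : ∃ b : ℕ, v' ^ b = y⁻¹ := by
    have h1 : y⁻¹ ∈ zpowers v' := by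
      rw [← hyv']; exact Subgroup.inv_mem _ (Subgroup.mem_zpowers y)
    have h2 := (mem_powers_iff_mem_zpowers).mpr h1
    exact Submonoid.mem_powers_iff _ _ |>.mp h2
  have hu'y : u' * y * u'⁻¹ = y := by
    rw [hu'def, ← hg2]
    calc g * u * g⁻¹ * (g * z₀ * g⁻¹) * (g * u * g⁻¹)⁻¹ = g * (u * z₀) * u⁻¹ * g⁻¹ := by group
      _ = g * (z₀ * u) * u⁻¹ * g⁻¹ := by rw [f10 z₀ hz₀ u huP]
      _ = _ := by group
  have hu'yc : u' * y = y * u' := by
    calc u' * y = (u' * y * u'⁻¹) * u' := by group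
      _ = y * u' := by rw [hu'y]
  have hu'v' : u' * v' = v' * u' := by
    obtain ⟨k, hk⟩ := Subgroup.mem_zpowers_iff.mp hv'y
    rw [← hk]
    exact ((Commute.zpow_right hu'yc k)).eq
  have hu'z : u' * z₁ * u'⁻¹ = v' * z₁ := by
    rw [hu'def, hv'def, hvdef, hw₁def]; group
  set V := u' ^ b with hVdef
  have hVz : V * z₁ * V⁻¹ = y⁻¹ * z₁ := by
    rw [hVdef, pow_conj_eq_of_comm hu'z hu'v' b, hb]
  have hVy : V * y * V⁻¹ = y := by
    have hc : V * y = y * V := ((Commute.pow_left hu'yc b)).eq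
    rw [hc]; group
  -- (D) the element `t`
  set s := u * V * u with hsdef
  have hsz : s * z₁ * s⁻¹ = y⁻¹ := by
    calc s * z₁ * s⁻¹ = u * V * (u * z₁ * u⁻¹) * V⁻¹ * u⁻¹ := by rw [hsdef]; group
      _ = u * (V * z₁ * V⁻¹) * u⁻¹ := by rw [huz]; group
      _ = u * (y⁻¹ * z₁) * u⁻¹ := by rw [hVz]
      _ = (u * y * u⁻¹)⁻¹ * (u * z₁ * u⁻¹) := by group
      _ = (z₁ * y)⁻¹ * z₁ := by rw [huy, huz]
      _ = y⁻¹ := by group
  have hsy : s * y * s⁻¹ = z₁ := by
    calc s * y * s⁻¹ = u * V * (u * y * u⁻¹) * V⁻¹ * u⁻¹ := by rw [hsdef]; group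
      _ = u * V * (z₁ * y) * V⁻¹ * u⁻¹ := by rw [huy]
      _ = u * ((V * z₁ * V⁻¹) * (V * y * V⁻¹)) * u⁻¹ := by group
      _ = u * (y⁻¹ * z₁ * y) * u⁻¹ := by rw [hVz, hVy]
      _ = u * (y⁻¹ * (y * z₁)) * u⁻¹ := by rw [mul_assoc y⁻¹, hzy]
      _ = u * z₁ * u⁻¹ := by group
      _ = z₁ := huz
  set t := s * s with htdef
  have htz : t * z₁ * t⁻¹ = z₁⁻¹ := by
    calc t * z₁ * t⁻¹ = s * (s * z₁ * s⁻¹) * s⁻¹ := by rw [htdef]; group
      _ = s * y⁻¹ * s⁻¹ := by rw [hsz]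
      _ = (s * y * s⁻¹)⁻¹ := by group
      _ = z₁⁻¹ := by rw [hsy]
  have hty : t * y * t⁻¹ = y⁻¹ := by
    calc t * y * t⁻¹ = s * (s * y * s⁻¹) * s⁻¹ := by rw [htdef]; group
      _ = s * z₁ * s⁻¹ := by rw [hsy]
      _ = y⁻¹ := hsz
  have htinv : ∀ x ∈ E, t * x * t⁻¹ = x⁻¹ := by
    let I : Subgroup G :=
      { carrier := {w | w ∈ E ∧ t * w * t⁻¹ = w⁻¹}
        mul_mem' := by
          rintro a c ⟨ha, ha'⟩ ⟨hc, hc'⟩
          refine ⟨E.mul_mem ha hc, ?_⟩
          calc t * (a * c) * t⁻¹ = (t * a * t⁻¹) * (t * c * t⁻¹) := by group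
            _ = a⁻¹ * c⁻¹ := by rw [ha', hc']
            _ = (c * a)⁻¹ := by group
            _ = (a * c)⁻¹ := by rw [f3 c hc a ha]
        one_mem' := ⟨E.one_mem, by group⟩
        inv_mem' := by
          rintro a ⟨ha, ha'⟩
          refine ⟨E.inv_mem ha, ?_⟩
          calc t * a⁻¹ * t⁻¹ = (t * a * t⁻¹)⁻¹ := by group
            _ = a⁻¹⁻¹ := by rw [ha'] }
    have hIE : I ≤ E := fun w hw => hw.1
    have hZI : Z ≤ I := by
      rw [hZz₁]
      exact (Subgroup.zpowers_le).mpr ⟨hZE hz₁Z, htz⟩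
    have hyI : y ∈ I := ⟨hyE, hty⟩
    have hlt : Nat.card Z < Nat.card I := by
      apply lt_of_le_of_ne (Subgroup.card_le_of_le hZI)
      intro h
      have := Subgroup.eq_of_le_of_card_ge hZI (le_of_eq h.symm)
      exact hyZ (this ▸ hyI)
    have hdvd : Nat.card I ∣ p ^ 2 := f2 ▸ Subgroup.card_dvd_of_le hIE
    obtain ⟨j, hj2, hj⟩ := (Nat.dvd_prime_pow hp').mp hdvd
    have hj' : j = 2 := by
      rw [hj, f11] at hlt
      have h3 : p ^ 1 < p ^ j := by simpa using hlt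
      have := (Nat.pow_lt_pow_iff_right hp'.one_lt).mp h3
      omega
    have hIeq : I = E := Subgroup.eq_of_le_of_card_ge hIE (by rw [f2, hj, hj'])
    intro x hx
    rw [← hIeq] at hx
    exact hx.2
  have htinv' : ∀ x ∈ E, t⁻¹ * x * t = x⁻¹ := by
    intro x hx
    have h := htinv x⁻¹ (E.inv_mem hx)
    rw [inv_inv] at h
    calc t⁻¹ * x * t = t⁻¹ * (t * x⁻¹ * t⁻¹) * t := by rw [h]
      _ = x⁻¹ := by group
  have hEnorm : ∀ x ∈ E, ∀ w ∈ (P : Subgroup G), w * x * w⁻¹ ∈ E := by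
    intro x hx w hw
    have hmem : w * x * w⁻¹ ∈ (P : Subgroup G) :=
      Subgroup.mul_mem _ (Subgroup.mul_mem _ hw (hEP hx)) (Subgroup.inv_mem _ hw)
    refine (f1 _ hmem).mpr ?_
    rw [conj_pow, (f1 x (hEP hx)).mp hx]; group
  -- (E) the commutator
  set C := centralizer (E : Set G) with hCdef
  set c := u⁻¹ * t * u * t⁻¹ with hcdef
  have hcC : c ∈ C := by
    rw [hCdef, Subgroup.mem_centralizer_iff]
    intro x hx
    have hx' : x ∈ E := hx
    have hb : u * x⁻¹ * u⁻¹ ∈ E := hEnorm _ (E.inv_mem hx') u huP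
    have h1 : t * (u * x⁻¹ * u⁻¹) * t⁻¹ = u * x * u⁻¹ := by
      rw [htinv _ hb]; group
    have h2 := htinv' x hx'
    have key : c * x * c⁻¹ = x := by
      calc c * x * c⁻¹ = u⁻¹ * t * u * (t⁻¹ * x * t) * u⁻¹ * t⁻¹ * u := by rw [hcdef]; group
        _ = u⁻¹ * (t * (u * x⁻¹ * u⁻¹) * t⁻¹) * u := by rw [h2]; group
        _ = x := by rw [h1]; group
    calc x * c = (c * x * c⁻¹) * c := by rw [key]
      _ = c * x := by group
  -- (F) structure of `C`
  have hPC : (P : Subgroup G) ⊓ C = E := by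
    apply le_antisymm
    · rintro x ⟨hxP, hxC⟩
      by_contra hxE
      apply f9 x hxP y hyE hxE hyZ
      exact ((Subgroup.mem_centralizer_iff.mp hxC) y hyE).symm
    · intro x hx
      refine ⟨hEP hx, ?_⟩
      refine Subgroup.mem_centralizer_iff.mpr ?_
      intro w hw
      exact f3 w hw x hx
  have hPN : (P : Subgroup G) ≤ normalizer (E : Set G) := by
    intro x hx
    rw [Subgroup.mem_normalizer_iff]
    intro h
    refine ⟨fun hh => hEnorm h hh x hx, fun hh => ?_⟩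
    have := hEnorm _ hh x⁻¹ (Subgroup.inv_mem _ hx)
    have e : x⁻¹ * (x * h * x⁻¹) * x⁻¹⁻¹ = h := by group
    rwa [e] at this
  have hPNC : (P : Subgroup G) ≤ normalizer (C : Set G) :=
    hPN.trans (normalizer_le_normalizer_centralizer E)
  have hSyl : IsSylowIn p E C := by
    have h1 := isSylowIn_of_sylow_le P (L := (P : Subgroup G) ⊔ C) le_sup_left
    have h2 := h1.inf_normal (N := C) le_sup_right (sup_le hPNC Subgroup.le_normalizer)
    rwa [hPC] at h2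
  obtain ⟨hsup, hinf⟩ := burnside_subgroup hSyl inf_le_left
  set O := (pPrimeCore p C).map C.subtype with hOdef
  have hOC : O ≤ C := by
    rintro _ ⟨w, -, rfl⟩
    exact w.2
  have hCN : C ≤ normalizer (E : Set G) := by
    intro x hx
    rw [Subgroup.mem_normalizer_iff]
    intro h
    have hxc : ∀ h ∈ E, h * x = x * h := fun h hh => (Subgroup.mem_centralizer_iff.mp hx) h hh
    constructor
    · intro hh
      have e : x * h * x⁻¹ = h := by rw [← hxc h hh]; group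
      rwa [e]
    · intro hh
      have h3 := hxc _ hh
      have e : x * h * x⁻¹ = h := by
        have : x * h * x⁻¹ * x = x * (x * h * x⁻¹) := h3
        have h4 : x * h = x * (x * h * x⁻¹) := by
          calc x * h = x * h * x⁻¹ * x := by group
            _ = _ := this
        exact (mul_left_cancel h4).symm
      rwa [e] at hh
  have hPO : (P : Subgroup G) ≤ normalizer (O : Set G) :=
    hPNC.trans (normalizer_le_normalizer_map_of_characteristic (pPrimeCore p C))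
  -- (H) the contradiction
  have hcsup : c ∈ E ⊔ O := by rw [hsup]; exact hcC
  obtain ⟨e, he, o, ho, hceo⟩ := exists_mul_of_mem_sup' (hOC.trans hCN) hcsup
  have hauP : u * e ∈ (P : Subgroup G) := Subgroup.mul_mem _ huP (hEP he)
  obtain ⟨o', ho', hpow⟩ := mul_pow_mem (hPO hauP) ho p
  have hep : e ^ p = 1 := (f1 e (hEP he)).mp he
  have htu : t * u * t⁻¹ = u * e * o := by
    calc t * u * t⁻¹ = u * (u⁻¹ * t * u * t⁻¹) := by group
      _ = u * (e * o) := by rw [← hcdef, hceo]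
      _ = u * e * o := by group
  set z₂ := u ^ p with hz₂def
  have hz₂Z : z₂ ∈ Z := f6 u huP
  have hz₂1 : z₂ ≠ 1 := fun h => huE ((f1 u huP).mpr h)
  have hz₂E : z₂ ∈ E := hZE hz₂Z
  have h1 : t * z₂ * t⁻¹ = z₂ * o' := by
    calc t * z₂ * t⁻¹ = (t * u * t⁻¹) ^ p := by rw [conj_pow]
      _ = (u * e * o) ^ p := by rw [htu]
      _ = (u * e) ^ p * o' := hpow
      _ = z₂ * e ^ p * o' := by rw [f5 u huP e (hEP he)]
      _ = z₂ * o' := by rw [hep, mul_one]
  rw [htinv z₂ hz₂E] at h1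
  have ho'E : o' ∈ E := by
    have : o' = z₂⁻¹ * z₂⁻¹ := by
      calc o' = z₂⁻¹ * (z₂ * o') := by group
        _ = _ := by rw [h1]
    rw [this]
    exact E.mul_mem (E.inv_mem hz₂E) (E.inv_mem hz₂E)
  have ho'1 : o' = 1 := by
    have : o' ∈ E ⊓ O := ⟨ho'E, ho'⟩
    rw [hinf] at this
    exact this
  rw [ho'1, mul_one] at h1
  have h2 : z₂ ^ 2 = 1 := by
    rw [pow_two]
    calc z₂ * z₂ = z₂ * z₂⁻¹ := by rw [h1]
      _ = 1 := by group
  have h3 : z₂ ^ p = 1 := (f1 z₂ (hEP hz₂E)).mp hz₂E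
  apply hz₂1
  have hcop : Nat.Coprime 2 p := (Nat.coprime_primes Nat.prime_two hp').mpr (Ne.symm hp2)
  have h4 : orderOf z₂ ∣ Nat.gcd 2 p := Nat.dvd_gcd (orderOf_dvd_of_pow_eq_one h2) (orderOf_dvd_of_pow_eq_one h3)
  rw [hcop] at h4
  exact orderOf_eq_one_iff.mp (Nat.dvd_one.mp h4)

end main

/-- Let p be an odd prime and G a finite group with a Sylow p-subgroup P that is extraspecial of order p³ and exponent p². Then the centre of P is strongly closed in P with respect to G: a G-conjugate of an element of Z(P) that lies in P already lies in Z(P). In particular a nontrivial central element of P is conjugate in G to no noncentral element of P. -/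
theorem result {G : Type*} [Group G] [Finite G]
    {p : ℕ} [Fact p.Prime] (hp : p ≠ 2) (P : Sylow p G) (hE : Cfsg.IsExtraspecial p ↥P)
    (hcard : Nat.card P = p ^ 3) (hexp : Monoid.exponent ↥P = p ^ 2) :
    Cfsg.IsStronglyClosed ((Subgroup.center ↥P).map (P : Subgroup G).subtype) (P : Subgroup G) := by
  classical
  obtain ⟨E₀, g1, g2, g3, g4, g5, g6, g7, ⟨u, hu⟩, g9⟩ := mfacts hp hE hcard hexp
  set Z := (Subgroup.center ↥P).map (P : Subgroup G).subtype with hZ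
  set E := E₀.map (P : Subgroup G).subtype with hEdef
  have hZP : Z ≤ P := by
    rintro _ ⟨w, -, rfl⟩
    exact w.2
  refine ⟨hZP, ?_⟩
  have memE : ∀ x (hx : x ∈ (P : Subgroup G)), x ∈ E ↔ (⟨x, hx⟩ : ↥P) ∈ E₀ := by
    intro x hx
    constructor
    · rintro ⟨w, hw, rfl⟩
      exact hw
    · intro h
      exact ⟨_, h, rfl⟩
  have memZ : ∀ x (hx : x ∈ (P : Subgroup G)), x ∈ Z ↔ (⟨x, hx⟩ : ↥P) ∈ Subgroup.center ↥P := by
    intro x hx
    constructor
    · rintro ⟨w, hw, rfl⟩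
      exact hw
    · intro h
      exact ⟨_, h, rfl⟩
  have hEP : E ≤ P := by
    rintro _ ⟨w, -, rfl⟩
    exact w.2
  refine fun z₀ hz₀ g₀ hy => main_contra hp P E Z ?_ hEP ?_ ?_ ?_ ?_ ?_ ?_ ?_ ?_ ?_ ?_ z₀ g₀ hz₀ hy
  · exact Subgroup.map_mono g4
  · intro x hx
    rw [memE x hx, g1]
    exact ⟨fun h => congrArg Subtype.val h, fun h => Subtype.ext h⟩
  · rw [hEdef, Subgroup.card_map_of_injective (Subgroup.subtype_injective _)]
    exact g2
  · rintro _ ⟨a, ha, rfl⟩ _ ⟨b, hb, rfl⟩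
    exact congrArg Subtype.val (g3 a ha b hb)
  · intro x hx y hy
    exact congrArg Subtype.val (g5 ⟨x, hx⟩ ⟨y, hy⟩)
  · intro x hx
    exact (memZ _ (Subgroup.pow_mem _ hx p)).mpr (g6 ⟨x, hx⟩)
  · intro x hx y hy
    have hm : x * y * x⁻¹ * y⁻¹ ∈ (P : Subgroup G) :=
      Subgroup.mul_mem _ (Subgroup.mul_mem _ (Subgroup.mul_mem _ hx hy) (Subgroup.inv_mem _ hx))
        (Subgroup.inv_mem _ hy)
    exact (memZ _ hm).mpr (g7 ⟨x, hx⟩ ⟨y, hy⟩)
  · refine ⟨u.1, u.2, fun h => hu ?_⟩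
    exact (memE _ u.2).mp h
  · intro x hx y hyE hxE hyZ hc
    have hyP : y ∈ (P : Subgroup G) := hEP hyE
    refine g9 ⟨x, hx⟩ ⟨y, hyP⟩ (fun h => hxE ((memE x hx).mpr h)) ((memE y hyP).mp hyE)
      (fun h => hyZ ((memZ y hyP).mpr h)) ?_
    exact Subtype.ext hc
  · rintro _ ⟨w, hw, rfl⟩ x hx
    have := Subgroup.mem_center_iff.mp hw ⟨x, hx⟩
    exact congrArg Subtype.val this
  · rw [hZ, Subgroup.card_map_of_injective (Subgroup.subtype_injective _)]
    exact hE.2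

end Cfsg.Agent.S3053
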