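import Cfsg.Statements.S3054
import Cfsg.Agent.Lib.Fusion.Extra3Good
import Mathlib

set_option autoImplicit false
open Cfsg

namespace Cfsg.Agent.S3054

open Cfsg.Agent.Lib.Fusion.Extra3


/-- Let p be an odd prime and G a finite group with a Sylow p-subgroup P that is extraspecial of order p³ and exponent p. Suppose P contains three distinct subgroups A of order p² (each is elementary abelian of rank 2) such that every automorphism of A of order p is induced by conjugation by an element of G; equivalently the automorphism group induced on A by its normalizer contains the special linear group of A. Then p ≤ 13. -/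
theorem result {G : Type*} [Group G] [Finite G]
    {p : ℕ} [Fact p.Prime] (hp : p ≠ 2) (P : Sylow p G) (hE : Cfsg.IsExtraspecial p ↥P)
    (hcard : Nat.card P = p ^ 3) (hexp : Monoid.exponent ↥P = p)
    (A : Fin 3 → Subgroup G) (hA : Function.Injective A) (hAP : ∀ i, A i ≤ (P : Subgroup G))
    (hAcard : ∀ i, Nat.card ↥(A i) = p ^ 2)
    (hSL : ∀ i, ∀ φ : MulAut ↥(A i), orderOf φ = p → ∃ g : G, ∀ a : ↥(A i), (φ a : G) = g * (a : G) * g⁻¹) :
    p ≤ 13 := by
  classical
  by_contra hle
  push Not at hle
  have hpp := (inferInstance : Fact p.Prime).out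
  have h17 : 17 ≤ p := by
    by_contra hlt
    have h1 : p = 14 ∨ p = 15 ∨ p = 16 := by omega
    rcases h1 with h1 | h1 | h1 <;> (rw [h1] at hpp; revert hpp; norm_num)
  have hpow : ∀ x : ↥(P : Subgroup G), x ^ p = 1 := by
    intro x
    have := Monoid.pow_exponent_eq_one (G := ↥P) x
    rwa [hexp] at this
  obtain ⟨φ, hs⟩ := setup_of (S := (P : Subgroup G)) hE hcard hpow
  have hgood := fun i => hs.good_of_SL (A i) (hAP i) (hAcard i) (hSL i)
  choose x hx hg hmem using hgood
  let K := AlgebraicClosure (ZMod p)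
  haveI : CharP K p := charP_of_injective_algebraMap (algebraMap (ZMod p) K).injective p
  let f : Fin 3 → OnePoint K := fun i => pt K (φ (x i))
  have hf : Function.Injective f := by
    intro i j hij
    have hne : ∀ i, φ (x i) ≠ 0 := fun i h => hx i ((hs.hzero _).1 h)
    obtain ⟨μ, hμ, hμe⟩ := pt_inj (hne i) (hne j) hij
    apply hA
    ext g
    constructor
    · intro hgi
      have hgS := hAP i hgi
      obtain ⟨ν, hν⟩ := (hmem i ⟨g, hgS⟩).1 hgi
      refine (hmem j ⟨g, hgS⟩).2 ⟨ν * μ⁻¹, ?_⟩
      rw [hν, hμe, smul_smul, mul_assoc, inv_mul_cancel₀ hμ, mul_one]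
    · intro hgj
      have hgS := hAP j hgj
      obtain ⟨ν, hν⟩ := (hmem j ⟨g, hgS⟩).1 hgj
      refine (hmem i ⟨g, hgS⟩).2 ⟨ν * μ, ?_⟩
      rw [hν, hμe, smul_smul]
  obtain ⟨l, hl⟩ := exists_gen_bound h17
  have h := hs.bound P hp l (by omega) (Finset.univ.image f) (by
    intro y hy
    obtain ⟨i, -, rfl⟩ := Finset.mem_image.1 hy
    exact ⟨x i, hx i, hg i, rfl⟩)
  have hc := h.2 hl
  rw [Finset.card_image_of_injective _ hf] at hc
  simp at hc

end Cfsg.Agent.S3054
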