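import Cfsg.Statements.S3055
import Cfsg.Agent.Lib.Fusion.Extra3Good
import Mathlib

set_option autoImplicit false
open Cfsg

namespace Cfsg.Agent.S3055

open Cfsg.Agent.Lib.Fusion.Extra3


/-- Let p be an odd prime and G a finite group with a Sylow p-subgroup P that is extraspecial of order p³ and exponent p. If all nonidentity elements of P are conjugate in G, then p ≤ 7. -/
theorem result {G : Type*} [Group G] [Finite G]
    {p : ℕ} [Fact p.Prime] (hp : p ≠ 2) (P : Sylow p G) (hE : Cfsg.IsExtraspecial p ↥P)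
    (hcard : Nat.card P = p ^ 3) (hexp : Monoid.exponent ↥P = p)
    (hconj : ∀ x y : ↥P, x ≠ 1 → y ≠ 1 → ∃ g : G, g * (x : G) * g⁻¹ = (y : G)) :
    p ≤ 7 := by
  classical
  by_contra hle
  push Not at hle
  have hpp := (inferInstance : Fact p.Prime).out
  have hpow : ∀ x : ↥(P : Subgroup G), x ^ p = 1 := by
    intro x
    have := Monoid.pow_exponent_eq_one (G := ↥P) x
    rwa [hexp] at this
  obtain ⟨φ, hs⟩ := setup_of (S := (P : Subgroup G)) hE hcard hpow
  let K := AlgebraicClosure (ZMod p)
  haveI : CharP K p := charP_of_injective_algebraMap (algebraMap (ZMod p) K).injective p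
  let f : ZMod p → OnePoint K := fun k => pt K ![k, 1]
  have hf : Function.Injective f := by
    intro i j hij
    have hinj : Function.Injective (algebraMap (ZMod p) K) := (algebraMap (ZMod p) K).injective
    haveI : Fact (1 < p) := ⟨hpp.one_lt⟩
    have h1 : (![i, 1] : Fin 2 → ZMod p) ≠ 0 := fun h => by
      have := congrFun h 1
      simp at this
    have h2 : (![j, 1] : Fin 2 → ZMod p) ≠ 0 := fun h => by
      have := congrFun h 1
      simp at this
    obtain ⟨μ, hμ, hμe⟩ := pt_inj h1 h2 hij
    have h3 := congrFun hμe 1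
    have h4 := congrFun hμe 0
    simp at h3 h4
    rw [← h3] at h4
    simpa using h4.symm
  have hI : ∀ y ∈ Finset.univ.image f, ∃ x₀ : (P : Subgroup G), x₀ ∉ Subgroup.center (P : Subgroup G) ∧ Good p x₀ ∧ y = pt K (φ x₀) := by
    intro y hy
    obtain ⟨k, -, rfl⟩ := Finset.mem_image.1 hy
    obtain ⟨x₀, hx₀⟩ := hs.hsurj ![k, 1]
    have hne : x₀ ∉ Subgroup.center (P : Subgroup G) := by
      intro hc
      have h1 := (hs.hzero _).2 hc
      rw [hx₀] at h1
      have h2 := congrFun h1 1
      haveI : Fact (1 < p) := ⟨hpp.one_lt⟩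
      simp at h2
    refine ⟨x₀, hne, hs.good_of_conj P hconj hne, ?_⟩
    rw [hx₀]
  have hcard' : (Finset.univ.image f).card = p := by
    rw [Finset.card_image_of_injective _ hf, Finset.card_univ, ZMod.card]
  by_cases h13 : 13 ≤ p
  · obtain ⟨l, hl⟩ := exists_gen_bound' h13
    have h := (hs.bound P hp l (by omega) _ hI).1 hl
    omega
  · have h11 : p = 11 := by
      have h1 : p = 8 ∨ p = 9 ∨ p = 10 ∨ p = 11 ∨ p = 12 := by omega
      rcases h1 with h1 | h1 | h1 | h1 | h1
      · rw [h1] at hpp; revert hpp; norm_num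
      · rw [h1] at hpp; revert hpp; norm_num
      · rw [h1] at hpp; revert hpp; norm_num
      · exact h1
      · rw [h1] at hpp; revert hpp; norm_num
    obtain ⟨l, hl⟩ := exists_gen (p := p)
    have h10 : orderOf (l ^ 3) = 10 := by
      rw [hl, h11]
      norm_num
    have h := (hs.bound P hp l (by omega) _ hI).2 (by omega)
    omega

end Cfsg.Agent.S3055
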