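import Cfsg.Statements.S3057
import Cfsg.Agent.Lib.FF.ChainConn
import Cfsg.Agent.S0016
import Mathlib

set_option autoImplicit false
open Cfsg

namespace Cfsg.Agent.S3057

/-- Let p be a prime and G a finite p-solvable group of order divisible by p, with Sylow p-subgroup P. Then the Sylow p-subgroups of G fail to be chain-connected through nontrivial intersections (equivalently, G has a strongly p-embedded subgroup) if and only if O_p(G) = 1 and P is cyclic or, for p = 2, generalized quaternion. -/
theorem result {G : Type*} [Group G] [Finite G]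
    (p : ℕ) [Fact p.Prime] (hdiv : p ∣ Nat.card G) (hsol : Cfsg.IsPSolvable p G) (P : Sylow p G) :
    ¬ Cfsg.IsSylowChainConnected p G ↔
      Cfsg.pCore p G = ⊥ ∧ (IsCyclic ↥P ∨ (p = 2 ∧ ∃ n : ℕ, Nonempty (↥P ≃* QuaternionGroup (2 ^ n)))) := by
  have hunq : ∀ A : Subgroup G, Cfsg.Agent.Lib.FF.UniqueIn p A →
      ∀ H K : Subgroup ↥A, Nat.card H = p → Nat.card K = p → H = K := by
    intro A hA H K hH hK
    have := hA (H.map A.subtype) (K.map A.subtype) (Subgroup.map_subtype_le _) (Subgroup.map_subtype_le _)
      (by rw [Subgroup.card_map_of_injective A.subtype_injective]; exact hH)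
      (by rw [Subgroup.card_map_of_injective A.subtype_injective]; exact hK)
    exact Subgroup.map_injective A.subtype_injective this
  constructor
  · intro hnc
    have hO : Cfsg.pCore p G = ⊥ := by
      by_contra h
      exact hnc (Cfsg.Agent.Lib.FF.connected_of_pCore_ne_bot h)
    refine ⟨hO, ?_⟩
    have hU : Cfsg.Agent.Lib.FF.UniqueIn p (P : Subgroup G) := by
      by_contra h
      exact hnc (Cfsg.Agent.Lib.FF.connected_of_not_unique hsol hdiv P h)
    exact Cfsg.Agent.S0016.result p P.2 (hunq _ hU)
  · rintro ⟨hO, hP⟩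
    refine Cfsg.Agent.Lib.FF.not_connected_of_unique hO hdiv P ?_
    rcases hP with hc | ⟨rfl, n, ⟨φ⟩⟩
    · exact Cfsg.Agent.Lib.FF.uniqueIn_of_isCyclic hc
    · exact Cfsg.Agent.Lib.FF.uniqueIn_of_quat φ

end Cfsg.Agent.S3057
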