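import Cfsg.Statements.S3059
import Cfsg.Agent.Lib.FF.Residual
import Mathlib

set_option autoImplicit false
open Cfsg

namespace Cfsg.Agent.S3059

/-- Let p be a prime and H a strongly p-embedded subgroup of the finite group G in the classical sense: H is proper, p divides the order of H, and H ∩ gHg⁻¹ has order prime to p for every g outside H. Then for every normal subgroup N of G of order divisible by p, G = H · O^p(N), where O^p(N) is the subgroup generated by the elements of N of order prime to p. -/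
theorem result {G : Type*} [Group G] [Finite G]
    (p : ℕ) [Fact p.Prime] (H : Subgroup G) (hH : H ≠ ⊤) (hpH : p ∣ Nat.card H)
    (hse : ∀ g : G, g ∉ H → ¬ p ∣ Nat.card ↥(H ⊓ H.map (MulAut.conj g).toMonoidHom))
    (N : Subgroup G) [N.Normal] (hN : p ∣ Nat.card N) :
    H ⊔ Subgroup.closure {g : G | g ∈ N ∧ (orderOf g).Coprime p} = ⊤ := by
  classical
  have hnorm : ∀ U : Subgroup G, IsPGroup p U → U ≠ ⊥ → U ≤ H → Subgroup.normalizer (U : Set G) ≤ H := by
    intro U hU hne hUH g hg
    by_contra hgH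
    apply hse g hgH
    have hle : U ≤ H ⊓ H.map (MulAut.conj g).toMonoidHom :=
      le_inf hUH (by
        rw [← Cfsg.Agent.Lib.FF.mem_normalizer_iff_conj.mp hg]
        exact Subgroup.map_mono hUH)
    exact (Cfsg.Agent.Lib.FF.dvd_card_of_isPGroup_of_ne_bot hU hne).trans (Subgroup.card_dvd_of_le hle)
  -- `H` contains a Sylow subgroup `P`
  obtain ⟨x, hx⟩ := exists_prime_orderOf_dvd_card' p hpH
  have hxne : (x : G) ≠ 1 := by
    intro h
    have h1 : x = 1 := Subtype.ext h
    rw [h1, orderOf_one] at hx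
    exact (Fact.out : p.Prime).one_lt.ne hx
  have hxp : IsPGroup p (Subgroup.zpowers (x : G)) := by
    apply IsPGroup.of_card (n := 1)
    rw [Nat.card_zpowers, pow_one]
    simpa [Subgroup.orderOf_coe] using hx
  obtain ⟨P, hP⟩ := hxp.exists_le_sylow
  have hPH : (P : Subgroup G) ≤ H := by
    apply Cfsg.Agent.Lib.FF.le_of_normalizer_le P.isPGroup' hnorm
    intro h
    have : (x : G) ∈ (P : Subgroup G) ⊓ H :=
      ⟨hP (Subgroup.mem_zpowers _), x.2⟩
    rw [h] at this
    exact hxne (by simpa using this)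
  have hS := Cfsg.Agent.Lib.FF.inf_normal_isSylowIn P N
  have hne := hS.ne_bot_of_dvd hN
  have hN0 : Subgroup.normalizer (((P : Subgroup G) ⊓ N : Subgroup G) : Set G) ≤ H :=
    hnorm _ (IsPGroup.to_le P.isPGroup' inf_le_left) hne (inf_le_left.trans hPH)
  have hF := Cfsg.Agent.Lib.FF.frattini_sup hS
  have hNle := Cfsg.Agent.Lib.FF.le_sup_oUpper hS
  rw [eq_top_iff, ← hF]
  show _ ≤ H ⊔ Cfsg.Agent.Lib.FF.oUpper p N
  apply sup_le (hN0.trans le_sup_left)
  exact hNle.trans (sup_le (inf_le_left.trans (hPH.trans le_sup_left)) le_sup_right)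

end Cfsg.Agent.S3059
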