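import Cfsg.Statements.S3060
import Cfsg.Agent.Lib.FF.DStar
import Cfsg.Agent.Lib.Core.Basic
import Mathlib

set_option autoImplicit false
open Cfsg

namespace Cfsg.Agent.S3060

open Subgroup
open scoped commutatorElement

/-- The D*-Theorem. For a finite p-group S let D*(S) be the subgroup generated by the abelian subgroups A of S such that every x ∈ S with ⟨A, x⟩ of nilpotency class at most two centralizes A. Let p be an odd prime and H a finite p-stable group with Sylow p-subgroup S. Here H is p-stable in the following sense: the largest normal p-subgroup O_p(H) contains its centralizer in H, and for every normal p-subgroup P of H, every element acting quadratically on P has image in O_p(H/C_H(P)). Then D*(S) is a normal subgroup of H. -/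
theorem result {G : Type*} [Group G] [Finite G] {p : ℕ} [Fact p.Prime] (hp : p ≠ 2)
    (hc : Subgroup.centralizer (Cfsg.pCore p G : Set G) ≤ Cfsg.pCore p G)
    (hst : ∀ (P : Subgroup G) [P.Normal], IsPGroup p P → Cfsg.IsPStableOn p P) (S : Sylow p G) :
    (Cfsg.dStarOf (S : Subgroup G)).Normal := by
  classical
  set Q := Cfsg.pCore p G with hQdef
  have hQn : Q.Normal := Cfsg.Agent.Lib.Core.pCore_normal p G
  have hQp : IsPGroup p Q := Cfsg.Agent.Lib.Core.pCore_isPGroup p G
  have hSp : IsPGroup p (S : Subgroup G) := S.isPGroup'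
  set E := Cfsg.dStarOf (S : Subgroup G) with hE
  have hQS : Q ≤ S := Cfsg.Agent.Lib.Core.pCore_le_sylow S
  have hES : E ≤ S := Lib.FF.dStarOf_le _
  have hEc : ∀ a ∈ E, ∀ b ∈ E, a * b = b * a := fun a ha b hb => Lib.FF.dStarOf_comm hSp ha hb
  -- (a) `E ≤ O_p(G)`
  have hEQ : E ≤ Q := by
    intro x hx
    have hxE : zpowers x ≤ E := (zpowers_le).mpr hx
    have h1 : ⁅Q, zpowers x⁆ ≤ E := by
      rw [Subgroup.commutator_le]
      intro q hq y hy
      rw [commutatorElement_def]
      exact E.mul_mem (Lib.FF.dStarOf_conj hSp (hQS hq) (hxE hy)) (E.inv_mem (hxE hy))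
    have hquad : ⁅⁅Q, zpowers x⁆, zpowers x⁆ = ⊥ := by
      rw [eq_bot_iff, Subgroup.commutator_le]
      intro u hu v hv
      rw [Subgroup.mem_bot, commutatorElement_eq_one_iff_mul_comm]
      exact hEc _ (h1 hu) _ (hxE hv)
    have hmem := hst Q hQp x hquad
    set C := Subgroup.centralizer (Q : Set G) with hC
    have hCn : C.Normal := inferInstance
    set L : Subgroup G := (Cfsg.pCore p (G ⧸ C)).comap (QuotientGroup.mk' C) with hL
    have hLn : L.Normal := (Cfsg.Agent.Lib.Core.pCore_normal p (G ⧸ C)).comap _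
    have hLp : IsPGroup p L := by
      apply IsPGroup.comap_of_ker_isPGroup (Cfsg.Agent.Lib.Core.pCore_isPGroup p (G ⧸ C))
      rw [QuotientGroup.ker_mk']
      exact hQp.to_le hc
    exact Cfsg.Agent.Lib.Core.le_pCore hLn hLp hmem
  -- (b) the normal closure
  set T := Subgroup.normalClosure (E : Set G) with hT
  have hTn : T.Normal := Subgroup.normalClosure_normal
  have hET : E ≤ T := Subgroup.subset_normalClosure
  have hTQ : T ≤ Q := Subgroup.normalClosure_le_normal hEQ
  have hTS : T ≤ S := hTQ.trans hQS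
  have hTp : IsPGroup p T := hQp.to_le hTQ
  have hgamn : ∀ n, (Cfsg.Agent.S3061.gam T n).Normal := by
    intro n
    induction n with
    | zero => exact hTn
    | succ n ih => exact Subgroup.commutator_normal _ _
  have hgamlcs : ∀ n, ((⊤ : Subgroup T).lowerCentralSeries n).map T.subtype = Cfsg.Agent.S3061.gam T n := by
    intro n
    induction n with
    | zero =>
      show ((⊤ : Subgroup T)).map T.subtype = T
      rw [← MonoidHom.range_eq_map, Subgroup.range_subtype]
    | succ n ih =>
      show (⁅(⊤ : Subgroup T).lowerCentralSeries n, (⊤ : Subgroup T)⁆).map T.subtype = ⁅Cfsg.Agent.S3061.gam T n, T⁆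
      rw [Subgroup.map_commutator, ih, ← MonoidHom.range_eq_map, Subgroup.range_subtype]
  have hTab : ∀ a ∈ T, ∀ b ∈ T, a * b = b * a := by
    have hnil : Group.IsNilpotent T := hTp.isNilpotent
    obtain ⟨N, hN⟩ := Subgroup.nilpotent_iff_lowerCentralSeries.mp hnil
    have hN' : Cfsg.Agent.S3061.gam T N = ⊥ := by
      rw [← hgamlcs, hN, Subgroup.map_bot]
    have step : ∀ n, Cfsg.Agent.S3061.gam T (n + 2) = ⊥ → Cfsg.Agent.S3061.gam T (n + 1) = ⊥ := by
      intro n hn
      rw [eq_bot_iff]
      show ⁅Cfsg.Agent.S3061.gam T n, T⁆ ≤ ⊥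
      rw [Subgroup.commutator_le]
      intro y hy t ht
      have hZ : ∀ z ∈ Cfsg.Agent.S3061.gam T (n + 1), ∀ h ∈ T, z * h = h * z := by
        intro z hz h hh
        have : ⁅z, h⁆ ∈ Cfsg.Agent.S3061.gam T (n + 2) := Subgroup.commutator_mem_commutator hz hh
        rw [hn, Subgroup.mem_bot] at this
        exact commutatorElement_eq_one_iff_mul_comm.mp this
      have hyT := Cfsg.Agent.S3061.gam_le_self T n hy
      have hay : ∀ a ∈ E, ⁅a, y⁆ ∈ Cfsg.Agent.S3061.gam T (n + 1) := by
        intro a ha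
        have h1 : ⁅y, a⁆ ∈ Cfsg.Agent.S3061.gam T (n + 1) :=
          Subgroup.commutator_mem_commutator hy (hET ha)
        have h2 := (Cfsg.Agent.S3061.gam T (n + 1)).inv_mem h1
        rwa [commutatorElement_inv] at h2
      have hEy : ∀ a ∈ E, ∀ y ∈ Cfsg.Agent.S3061.gam T n, a * y = y * a := by
        intro a ha y hy
        have hyT := Cfsg.Agent.S3061.gam_le_self T n hy
        have hay : ∀ a ∈ E, ⁅a, y⁆ ∈ Cfsg.Agent.S3061.gam T (n + 1) := by
          intro a ha
          have h1 : ⁅y, a⁆ ∈ Cfsg.Agent.S3061.gam T (n + 1) :=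
            Subgroup.commutator_mem_commutator hy (hET ha)
          have h2 := (Cfsg.Agent.S3061.gam T (n + 1)).inv_mem h1
          rwa [commutatorElement_inv] at h2
        have hcl := Cfsg.Agent.S3061.class_two_of_comm (A := E) (H := T) (Z := Cfsg.Agent.S3061.gam T (n + 1))
          ⟨⟨fun u v => Subtype.ext (hEc _ u.2 _ v.2)⟩⟩ hET hyT hZ hay
        exact Lib.FF.dStarOf_family hSp (hTS hyT) hcl ha
      have hgn := hgamn n
      have hCn : (Subgroup.centralizer (Cfsg.Agent.S3061.gam T n : Set G)).Normal :=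
        inferInstance
      have hle : T ≤ Subgroup.centralizer (Cfsg.Agent.S3061.gam T n : Set G) := by
        apply Subgroup.normalClosure_le_normal
        intro a ha
        exact Subgroup.mem_centralizer_iff.mpr (fun y hy => (hEy a ha y hy).symm)
      have h3 := Subgroup.mem_centralizer_iff.mp (hle ht) y hy
      rw [Subgroup.mem_bot, commutatorElement_eq_one_iff_mul_comm]
      exact h3
    have hall : ∀ n, Cfsg.Agent.S3061.gam T (n + 1) = ⊥ → Cfsg.Agent.S3061.gam T 1 = ⊥ := by
      intro n
      induction n with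
      | zero => exact id
      | succ n ih => exact fun h => ih (step n h)
    have hbot : Cfsg.Agent.S3061.gam T (N + 1) = ⊥ := by
      rw [eq_bot_iff]
      show ⁅Cfsg.Agent.S3061.gam T N, T⁆ ≤ ⊥
      rw [hN', Subgroup.commutator_bot_left]
    have h1 := hall N hbot
    intro a ha b hb
    have : ⁅a, b⁆ ∈ Cfsg.Agent.S3061.gam T 1 := Subgroup.commutator_mem_commutator ha hb
    rw [h1, Subgroup.mem_bot] at this
    exact commutatorElement_eq_one_iff_mul_comm.mp this
  -- (c) `T` is in the family
  have hTE : T ≤ E := by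
    apply Lib.FF.le_dStarOf hTS hTab
    intro x hxS hx t ht
    have hxK : x ∈ T ⊔ zpowers x := Subgroup.mem_sup_right (Subgroup.mem_zpowers x)
    have hTK : T ≤ T ⊔ zpowers x := le_sup_left
    have hzK : zpowers x ≤ T ⊔ zpowers x := le_sup_right
    -- elementwise quadratic
    have hquadel : ∀ t ∈ T, ⁅t, x⁆ * x = x * ⁅t, x⁆ := by
      intro t ht
      have h1 : ⁅⁅t, x⁆, x⁆ ∈ ⁅⁅T ⊔ zpowers x, T ⊔ zpowers x⁆, T ⊔ zpowers x⁆ :=
        Subgroup.commutator_mem_commutator (Subgroup.commutator_mem_commutator (hTK ht) hxK) hxK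
      rw [hx, Subgroup.mem_bot] at h1
      exact commutatorElement_eq_one_iff_mul_comm.mp h1
    have hquad : ⁅⁅T, zpowers x⁆, zpowers x⁆ = ⊥ := by
      rw [eq_bot_iff, ← hx]
      exact Subgroup.commutator_mono (Subgroup.commutator_mono hTK hzK) hzK
    have hmem := hst T hTp x hquad
    set C := Subgroup.centralizer (T : Set G) with hC
    have hCn : C.Normal := inferInstance
    -- every conjugate of `E` is centralized by `x`
    have hconj : ∀ g : G, ∀ a ∈ E, x * (g * a * g⁻¹) = (g * a * g⁻¹) * x := by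
      intro g a ha
      -- the conjugate Sylow
      let S' : Sylow p G := MulAut.conj g • S
      have hS'mem : ∀ y ∈ S', g⁻¹ * y * g ∈ S := by
        intro y hy
        have h1 : y ∈ (S : Subgroup G).map (MulAut.conj g).toMonoidHom := hy
        obtain ⟨s, hs, rfl⟩ := h1
        simpa [MulAut.conj_apply, mul_assoc] using hs
      have hcoreS : Cfsg.pCore p (G ⧸ C) ≤ (S' : Subgroup G).map (QuotientGroup.mk' C) := by
        have h := Cfsg.Agent.Lib.Core.pCore_le_sylow (S'.mapSurjective (QuotientGroup.mk'_surjective C))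
        rwa [Sylow.coe_mapSurjective] at h
      obtain ⟨y, hyS', hyx⟩ := hcoreS hmem
      have hxy : x⁻¹ * y ∈ C := QuotientGroup.eq.mp hyx.symm
      set c := x⁻¹ * y with hc'
      have hyeq : y = x * c := by simp [hc']
      set y' := g⁻¹ * y * g with hy'
      have hy'S : y' ∈ (S : Subgroup G) := hS'mem y hyS'
      have hcT : ∀ u ∈ T, u * c = c * u := fun u hu => Subgroup.mem_centralizer_iff.mp hxy u hu
      -- the commutators
      have hcomm : ∀ a' ∈ E, ⁅a', y'⁆ ∈ T ⊓ Subgroup.centralizer ({y'} : Set G) := by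
        intro a' ha'
        have ht' : g * a' * g⁻¹ ∈ T := hTn.conj_mem a' (hET ha') g
        have e1 : ⁅a', y'⁆ = g⁻¹ * ⁅g * a' * g⁻¹, x⁆ * g := by
          have e2 : (g * a' * g⁻¹) * c = c * (g * a' * g⁻¹) := hcT _ ht'
          have e3 : a' * y' * a'⁻¹ * y'⁻¹ = g⁻¹ * ((g * a' * g⁻¹) * (x * c) * (g * a' * g⁻¹)⁻¹ * (x * c)⁻¹) * g := by
            rw [hy', hyeq]; group
          have e4 : (g * a' * g⁻¹) * (x * c) * (g * a' * g⁻¹)⁻¹ * (x * c)⁻¹ =
              (g * a' * g⁻¹) * x * (g * a' * g⁻¹)⁻¹ * x⁻¹ := by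
            have e5 : c * (g * a' * g⁻¹)⁻¹ = (g * a' * g⁻¹)⁻¹ * c := by
              rw [eq_inv_mul_iff_mul_eq, ← mul_assoc, e2]; group
            calc (g * a' * g⁻¹) * (x * c) * (g * a' * g⁻¹)⁻¹ * (x * c)⁻¹
                = (g * a' * g⁻¹) * x * (c * (g * a' * g⁻¹)⁻¹) * (x * c)⁻¹ := by group
              _ = _ := by rw [e5]; group
          rw [commutatorElement_def, e3, e4, commutatorElement_def]
        have hcT1 : ⁅g * a' * g⁻¹, x⁆ ∈ T := by
          rw [commutatorElement_def]
          have : (g * a' * g⁻¹) * x * (g * a' * g⁻¹)⁻¹ * x⁻¹ =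
              (g * a' * g⁻¹) * (x * (g * a' * g⁻¹)⁻¹ * x⁻¹) := by group
          rw [this]
          exact T.mul_mem ht' (hTn.conj_mem _ (T.inv_mem ht') x)
        refine ⟨?_, ?_⟩
        · rw [e1]
          have := hTn.conj_mem _ hcT1 g⁻¹
          simpa using this
        · refine Subgroup.mem_centralizer_singleton_iff.mpr ?_
          rw [e1, hy']
          have h1 := hquadel _ ht'
          have h2 := hcT _ hcT1
          have h3 : ⁅g * a' * g⁻¹, x⁆ * y = y * ⁅g * a' * g⁻¹, x⁆ := by
            calc ⁅g * a' * g⁻¹, x⁆ * y = ⁅g * a' * g⁻¹, x⁆ * (x * c) := by rw [← hyeq]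
              _ = (⁅g * a' * g⁻¹, x⁆ * x) * c := (mul_assoc _ _ _).symm
              _ = x * ⁅g * a' * g⁻¹, x⁆ * c := by rw [h1]
              _ = x * (⁅g * a' * g⁻¹, x⁆ * c) := mul_assoc _ _ _
              _ = x * (c * ⁅g * a' * g⁻¹, x⁆) := by rw [h2]
              _ = (x * c) * ⁅g * a' * g⁻¹, x⁆ := (mul_assoc _ _ _).symm
              _ = y * ⁅g * a' * g⁻¹, x⁆ := by rw [← hyeq]
          calc g⁻¹ * ⁅g * a' * g⁻¹, x⁆ * g * (g⁻¹ * y * g) = g⁻¹ * (⁅g * a' * g⁻¹, x⁆ * y) * g := by group
            _ = g⁻¹ * (y * ⁅g * a' * g⁻¹, x⁆) * g := by rw [h3]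
            _ = _ := by group
      have hZ : ∀ z ∈ T ⊓ Subgroup.centralizer ({y'} : Set G), ∀ h ∈ T ⊔ zpowers y', z * h = h * z := by
        intro z hz h hh
        have hle : T ⊔ zpowers y' ≤ Subgroup.centralizer ({z} : Set G) := by
          apply sup_le
          · intro u hu
            rw [Subgroup.mem_centralizer_singleton_iff]
            exact hTab _ hu _ hz.1
          · rw [Subgroup.zpowers_le]
            refine Subgroup.mem_centralizer_singleton_iff.mpr ?_
            exact (Subgroup.mem_centralizer_singleton_iff.mp hz.2).symm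
        have := hle hh
        rw [Subgroup.mem_centralizer_singleton_iff] at this
        exact this.symm
      have hcl := Cfsg.Agent.S3061.class_two_of_comm (A := E) (H := T ⊔ zpowers y')
        (Z := T ⊓ Subgroup.centralizer ({y'} : Set G))
        ⟨⟨fun u v => Subtype.ext (hEc _ u.2 _ v.2)⟩⟩ (hET.trans le_sup_left)
        (Subgroup.mem_sup_right (Subgroup.mem_zpowers y')) hZ hcomm
      have hay' := Lib.FF.dStarOf_family hSp hy'S hcl ha
      have ht' : g * a * g⁻¹ ∈ T := hTn.conj_mem a (hET ha) g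
      have h5 : (g * a * g⁻¹) * y = y * (g * a * g⁻¹) := by
        calc (g * a * g⁻¹) * y = g * (a * y') * g⁻¹ := by rw [hy']; group
          _ = g * (y' * a) * g⁻¹ := by rw [hay']
          _ = _ := by rw [hy']; group
      have h6 := hcT _ ht'
      rw [hyeq] at h5
      have h7 : (g * a * g⁻¹) * x * c = x * (g * a * g⁻¹) * c := by
        calc (g * a * g⁻¹) * x * c = (g * a * g⁻¹) * (x * c) := by group
          _ = x * c * (g * a * g⁻¹) := h5
          _ = x * (c * (g * a * g⁻¹)) := by group
          _ = x * ((g * a * g⁻¹) * c) := by rw [h6]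
          _ = _ := by group
      exact (mul_right_cancel h7).symm
    have hle : T ≤ (Subgroup.centralizer ({x} : Set G)).normalCore := by
      apply Subgroup.normalClosure_le_normal
      intro a ha
      intro g
      refine Subgroup.mem_centralizer_singleton_iff.mpr ?_
      exact (hconj g a ha).symm
    have h8 := Subgroup.normalCore_le _ (hle ht)
    rw [Subgroup.mem_centralizer_singleton_iff] at h8
    exact h8
  have hEq : E = T := le_antisymm hET hTE
  rw [hEq]
  exact hTn

end Cfsg.Agent.S3060
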