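import Cfsg.Statements.S3063
import Cfsg.Agent.Lib.FF.Replacement
import Mathlib

set_option autoImplicit false
open Cfsg

namespace Cfsg.Agent.S3063

open Subgroup
open scoped commutatorElement
open Cfsg.Agent.Lib.FrobThm

/-- A weak replacement Theorem for metabelian p-groups: let S be a finite p-group whose derived subgroup is abelian and A an abelian subgroup of S of largest possible order. Then the normal closure of A in S contains an abelian subgroup B of the same order as A that is normal in S. -/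
theorem result {S : Type*} [Group S] [Finite S] {p : ℕ} [Fact p.Prime]
    (hS : IsPGroup p S) (hmeta : IsMulCommutative ↥(commutator S))
    (A : Subgroup S) (hA : A ∈ Cfsg.maxAbelianSubgroups S) :
    ∃ B ∈ Cfsg.maxAbelianSubgroups S, B.Normal ∧ B ≤ Subgroup.normalClosure (A : Set S) := by
  classical
  have hnil : Group.IsNilpotent S := hS.isNilpotent
  set D := commutator S with hD
  have hDab : ∀ a ∈ D, ∀ b ∈ D, a * b = b * a := fun a ha b hb =>
    congrArg Subtype.val (hmeta.is_comm.comm ⟨a, ha⟩ ⟨b, hb⟩)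
  have hcomD : ∀ x y : S, ⁅x, y⁆ ∈ D := fun x y =>
    Subgroup.commutator_mem_commutator (Subgroup.mem_top x) (Subgroup.mem_top y)
  let F : Set (Subgroup S) := {B | B ∈ Cfsg.maxAbelianSubgroups S ∧ B ≤ Subgroup.normalClosure (A : Set S)}
  have hFfin : F.Finite := Set.toFinite _
  have hFne : F.Nonempty := ⟨A, hA, Subgroup.subset_normalClosure⟩
  obtain ⟨B, ⟨hB, hBnc⟩, hmax⟩ := Set.exists_max_image F (fun B => Nat.card (B ⊓ D : Subgroup S)) hFfin hFne
  refine ⟨B, hB, ?_, hBnc⟩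
  by_contra hBn
  have hBab : ∀ a ∈ B, ∀ b ∈ B, a * b = b * a := fun a ha b hb =>
    congrArg Subtype.val (hB.1.is_comm.comm ⟨a, ha⟩ ⟨b, hb⟩)
  set H := normalizer (B : Set S) with hH
  have hHtop : H < ⊤ := by
    refine lt_top_iff_ne_top.mpr (fun h => hBn ?_)
    exact Subgroup.normalizer_eq_top_iff.mp h
  have hlt : H < normalizer (H : Set S) := normalizerCondition_of_isNilpotent H hHtop
  obtain ⟨x, hxN, hxH⟩ := SetLike.exists_of_lt hlt
  have hBH : B ≤ H := Subgroup.le_normalizer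
  have hu : ∀ b ∈ B, ⁅x, b⁆ ∈ H := by
    intro b hb
    show (x * b * x⁻¹) * b⁻¹ ∈ H
    exact H.mul_mem (conj_mem_of_mem_normalizer hxN (hBH hb)) (H.inv_mem (hBH hb))
  have hc : ∀ a ∈ B, ∀ b ∈ B, ⁅x, a⁆ * ⁅x, b⁆ = ⁅x, b⁆ * ⁅x, a⁆ := fun a _ b _ =>
    hDab _ (hcomD _ _) _ (hcomD _ _)
  have hn : ∀ a ∈ B, ∀ b ∈ B, (⁅x, b⁆)⁻¹ * a * ⁅x, b⁆ ∈ B := fun a ha b hb =>
    inv_conj_mem_of_mem_normalizer (hu b hb) ha
  set M := Lib.FF.commGen x B with hM
  have hMD : M ≤ D := Lib.FF.commGen_le (fun a _ => hcomD _ _)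
  have hle := Lib.FF.card_le_commGen_sup hBab hc hn
  rw [← hM] at hle
  set A₀ := B ⊓ centralizer (M : Set S) with hA₀
  set Astar := M ⊔ A₀ with hAstar
  have hAstarab : ∀ a ∈ Astar, ∀ b ∈ Astar, a * b = b * a :=
    Lib.FF.comm_sup (fun a ha b hb => hDab a (hMD ha) b (hMD hb))
      (fun a ha b hb => hBab a ha.1 b hb.1)
      (fun a ha b hb => mem_centralizer_iff.mp hb.2 a ha)
  have hAstarF : Astar ∈ F := by
    refine ⟨⟨⟨⟨fun u v => Subtype.ext (hAstarab _ u.2 _ v.2)⟩⟩, fun C hC => (hB.2 C hC).trans hle⟩, ?_⟩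
    apply sup_le
    · apply Lib.FF.commGen_le
      intro b hb
      have hnn : (normalClosure (A : Set S)).Normal := normalClosure_normal
      show (x * b * x⁻¹) * b⁻¹ ∈ normalClosure (A : Set S)
      exact mul_mem (hnn.conj_mem _ (hBnc hb) x) (inv_mem (hBnc hb))
    · exact inf_le_left.trans hBnc
  have hle2 : B ⊓ D ≤ Astar ⊓ D := by
    rintro y ⟨hy1, hy2⟩
    refine ⟨Subgroup.mem_sup_right ⟨hy1, mem_centralizer_iff.mpr ?_⟩, hy2⟩
    intro m hm
    exact hDab m (hMD hm) y hy2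
  have heq := Subgroup.eq_of_le_of_card_ge hle2 (hmax Astar hAstarF)
  apply hxH
  apply mem_normalizer_of_forall_conj_mem
  intro b hb
  have h1 : ⁅x, b⁆ ∈ Astar ⊓ D := ⟨Subgroup.mem_sup_left (Lib.FF.mem_commGen hb), hcomD _ _⟩
  rw [← heq] at h1
  rw [Lib.FF.conj_eq_comm_mul]
  exact B.mul_mem h1.1 hb

end Cfsg.Agent.S3063
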