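import Cfsg.Statements.S3064
import Cfsg.Agent.Lib.FF.Burnside
import Cfsg.Agent.Lib.FF.Basic
import Cfsg.Agent.Lib.FrobThm.Basic
import Cfsg.Agent.Lib.Core.Conj
import Mathlib

set_option autoImplicit false
open Cfsg

namespace Cfsg.Agent.S3064


open Subgroup Cfsg.Agent.Lib.FF
open scoped Pointwise

universe u

/-- Step (a): a conjugate of `x` in a `p`-subgroup containing `x` equals `x`. -/
theorem eq_of_mem_pgroup {G : Type u} [Group G] [Finite G] {p : ℕ} [Fact p.Prime]
    (S : Sylow p G) (x : G)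
    (hU : ∀ g : G, g⁻¹ * x * g ∈ S → g⁻¹ * x * g = x) (R : Subgroup G) (hR : IsPGroup p R)
    (hxR : x ∈ R) (g : G) (hy : g⁻¹ * x * g ∈ R) : g⁻¹ * x * g = x := by
  obtain ⟨T, hT⟩ := hR.exists_le_sylow
  obtain ⟨c, hc⟩ := MulAction.exists_smul_eq G S T
  have hmem : ∀ z ∈ R, c⁻¹ * z * c ∈ (S : Subgroup G) := by
    intro z hz
    have h1 : z ∈ ((c • S : Sylow p G) : Subgroup G) := by rw [hc]; exact hT hz
    rw [coe_smul_sylow, mem_conj_iff] at h1
    exact h1
  have h1 := hU c (hmem x hxR)
  have h2 := hU (g * c) (by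
    have := hmem _ hy
    have e : (g * c)⁻¹ * x * (g * c) = c⁻¹ * (g⁻¹ * x * g) * c := by group
    rwa [e])
  have e : (g * c)⁻¹ * x * (g * c) = c⁻¹ * (g⁻¹ * x * g) * c := by group
  rw [e] at h2
  have h3 : c⁻¹ * (g⁻¹ * x * g) * c = c⁻¹ * x * c := h2.trans h1.symm
  have h4 : (c⁻¹ * (g⁻¹ * x * g)) = c⁻¹ * x := mul_right_cancel h3
  exact mul_left_cancel h4

theorem main_ind {p : ℕ} [hp : Fact p.Prime] : ∀ (n : ℕ) (G : Type u) [Group G] [Finite G]
    (S : Sylow p G) (x : G), Nat.card G = n → x ∈ S →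
    (∀ g : G, g⁻¹ * x * g ∈ S → g⁻¹ * x * g = x) →
    (∀ H : Subgroup G, (Nat.card H).Coprime p → (∀ h ∈ H, x * h * x⁻¹ ∈ H) → ∀ h ∈ H, x * h = h * x) →
    x ∈ Subgroup.center G := by
  intro n
  induction n using Nat.strong_induction_on with
  | _ n ih =>
  intro G _ _ S x hcard hx hU hb
  classical
  have hSp : IsPGroup p (S : Subgroup G) := S.2
  -- proper subgroups containing `x` centralize `x`
  have hproper : ∀ H : Subgroup G, H ≠ ⊤ → x ∈ H → ∀ h ∈ H, h * x = x * h := by
    intro H hH hxH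
    have hlt : Nat.card H < n := by
      rw [← hcard]
      refine lt_of_le_of_ne (Subgroup.card_le_card_group H) ?_
      intro h
      exact hH (Subgroup.eq_top_of_card_eq H h)
    have hzp : IsPGroup p (zpowers (⟨x, hxH⟩ : H)) := by
      have h1 : IsPGroup p (zpowers x) := IsPGroup.to_le hSp ((Subgroup.zpowers_le).mpr hx)
      intro w
      obtain ⟨k, hk⟩ := h1 ⟨(w : H), by
        obtain ⟨i, hi⟩ := Subgroup.mem_zpowers_iff.mp w.2
        refine Subgroup.mem_zpowers_iff.mpr ⟨i, ?_⟩
        rw [← hi]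
        simp⟩
      refine ⟨k, ?_⟩
      apply Subtype.ext
      apply Subtype.ext
      have := congrArg Subtype.val hk
      simpa using this
    obtain ⟨T, hT⟩ := hzp.exists_le_sylow
    have hxT : (⟨x, hxH⟩ : H) ∈ T := hT (Subgroup.mem_zpowers _)
    have hTp : IsPGroup p ((T : Subgroup H).map H.subtype) := T.2.map _
    have hc := ih _ hlt ↥H T ⟨x, hxH⟩ rfl hxT (by
        intro g hg
        apply Subtype.ext
        have hxR : x ∈ (T : Subgroup H).map H.subtype := ⟨_, hxT, rfl⟩
        have hyR : (g : G)⁻¹ * x * g ∈ (T : Subgroup H).map H.subtype := ⟨_, hg, by simp⟩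
        have := eq_of_mem_pgroup S x hU _ hTp hxR g hyR
        simpa using this)
      (by
        intro A hA hAn a ha
        have h1 := hb (A.map H.subtype) (by
            rw [Subgroup.card_map_of_injective (Subgroup.subtype_injective _)]
            exact hA) (by
            rintro _ ⟨b, hb', rfl⟩
            exact ⟨_, hAn b hb', by simp⟩) (a : G) ⟨a, ha, rfl⟩
        exact Subtype.ext h1)
    intro h hh
    have := Subgroup.mem_center_iff.mp hc ⟨h, hh⟩
    exact congrArg Subtype.val this
  by_contra hxc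
  set M := centralizer ({x} : Set G) with hM
  have hmemM : ∀ g, g ∈ M ↔ g * x = x * g := fun g => Subgroup.mem_centralizer_singleton_iff
  have hxM : x ∈ M := (hmemM x).mpr rfl
  have hMtop : M ≠ ⊤ := by
    intro h
    apply hxc
    rw [Subgroup.mem_center_iff]
    intro g
    have hg : g ∈ M := by rw [h]; trivial
    exact (hmemM g).mp hg
  have hSM : (S : Subgroup G) ≤ M := by
    intro s hs
    have h1 : s⁻¹ * x * s ∈ S := Subgroup.mul_mem _ (Subgroup.mul_mem _ (Subgroup.inv_mem _ hs) hx) hs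
    have h2 := hU s h1
    rw [hmemM]
    calc s * x = s * (s⁻¹ * x * s) := by rw [h2]
      _ = x * s := by group
  have hxzp : IsPGroup p (zpowers x) := IsPGroup.to_le hSp ((Subgroup.zpowers_le).mpr hx)
  -- two-generation
  have hgen : ∀ g, g ∉ M → zpowers x ⊔ zpowers (g * x * g⁻¹) = ⊤ := by
    intro g hg
    by_contra hne
    have h1 := hproper _ hne (Subgroup.mem_sup_left (Subgroup.mem_zpowers x))
      (g * x * g⁻¹) (Subgroup.mem_sup_right (Subgroup.mem_zpowers _))
    -- `⟨x, x^g⟩` is a `p`-group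
    have hyp : IsPGroup p (zpowers (g * x * g⁻¹)) := by
      have e : zpowers (g * x * g⁻¹) = (zpowers x).map (MulAut.conj g).toMonoidHom := by
        rw [MonoidHom.map_zpowers]
        rfl
      rw [e]
      exact hxzp.map _
    have hN : zpowers x ≤ normalizer ((zpowers (g * x * g⁻¹) : Subgroup G) : Set G) := by
      rw [Subgroup.zpowers_le, Subgroup.mem_normalizer_iff]
      have hz : ∀ w ∈ zpowers (g * x * g⁻¹), x * w * x⁻¹ = w := by
        rintro _ ⟨i, rfl⟩
        have : Commute x ((g * x * g⁻¹) ^ i) := Commute.zpow_right (Commute.symm h1) i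
        show x * (g * x * g⁻¹) ^ i * x⁻¹ = (g * x * g⁻¹) ^ i
        rw [this.eq]; group
      intro w
      constructor
      · intro hw
        rw [hz w hw]; exact hw
      · intro hw
        have h2 := hz _ hw
        have h3 : x * w * x⁻¹ = w := by
          have h4 : x * (x * w * x⁻¹) = x * w := by
            calc x * (x * w * x⁻¹) = x * (x * w * x⁻¹) * x⁻¹ * x := by group
              _ = x * w * x⁻¹ * x := by rw [h2]
              _ = x * w := by group
          exact mul_left_cancel h4
        rwa [h3] at hw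
    have hpg := hxzp.to_sup_of_normal_right' hyp hN
    have hy := eq_of_mem_pgroup S x hU _ hpg (Subgroup.mem_sup_left (Subgroup.mem_zpowers x)) g⁻¹
      (by
        have e : g⁻¹⁻¹ * x * g⁻¹ = g * x * g⁻¹ := by group
        rw [e]
        exact Subgroup.mem_sup_right (Subgroup.mem_zpowers _))
    apply hg
    have e : g⁻¹⁻¹ * x * g⁻¹ = g * x * g⁻¹ := by group
    rw [e] at hy
    rw [hmemM]
    calc g * x = (g * x * g⁻¹) * g := by group
      _ = x * g := by rw [hy]
  -- intersections of conjugates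
  have hinter : ∀ g, g ∉ M → ∀ z ∈ M, g⁻¹ * z * g ∈ M → z ∈ Subgroup.center G := by
    intro g hg z hz hz2
    have h1 := hgen g hg
    have h2 : z * x = x * z := (hmemM z).mp hz
    have h3 : z * (g * x * g⁻¹) = (g * x * g⁻¹) * z := by
      have h4 := (hmemM _).mp hz2
      calc z * (g * x * g⁻¹) = g * (g⁻¹ * z * g * x) * g⁻¹ := by group
        _ = g * (x * (g⁻¹ * z * g)) * g⁻¹ := by rw [h4]
        _ = _ := by group
    have hle : zpowers x ⊔ zpowers (g * x * g⁻¹) ≤ centralizer ({z} : Set G) := by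
      apply sup_le
      · rw [Subgroup.zpowers_le, Subgroup.mem_centralizer_singleton_iff]
        exact h2.symm
      · rw [Subgroup.zpowers_le, Subgroup.mem_centralizer_singleton_iff]
        exact h3.symm
    rw [h1] at hle
    rw [Subgroup.mem_center_iff]
    intro w
    have := hle (Subgroup.mem_top w)
    rw [Subgroup.mem_centralizer_singleton_iff] at this
    exact this
  -- the quotient by the centre
  set Z := Subgroup.center G with hZ
  have hZM : Z ≤ M := by
    intro z hz
    rw [hmemM]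
    exact (Subgroup.mem_center_iff.mp hz x).symm
  let π : G →* G ⧸ Z := QuotientGroup.mk' Z
  have hπ : Function.Surjective π := QuotientGroup.mk'_surjective Z
  have hπk : ∀ g, π g = 1 ↔ g ∈ Z := fun g => QuotientGroup.eq_one_iff g
  set Mb := M.map π with hMb
  have hmemMb : ∀ g, π g ∈ Mb ↔ g ∈ M := by
    intro g
    constructor
    · rintro ⟨m, hm, e⟩
      have h1 : m⁻¹ * g ∈ Z := by
        rw [← hπk, map_mul, map_inv, ← e, inv_mul_cancel]
      have : g = m * (m⁻¹ * g) := by group
      rw [this]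
      exact M.mul_mem hm (hZM h1)
    · intro h
      exact ⟨g, h, rfl⟩
  have hfc : Cfsg.IsFrobeniusComplement Mb := by
    refine ⟨?_, ?_, ?_⟩
    · intro h
      have h1 : π x ∈ Mb := ⟨x, hxM, rfl⟩
      rw [h, Subgroup.mem_bot] at h1
      exact hxc ((hπk x).mp h1)
    · intro h
      apply hMtop
      rw [eq_top_iff]
      intro g _
      rw [← hmemMb, h]
      trivial
    · intro gb hgb
      obtain ⟨g, rfl⟩ := hπ gb
      have hg : g ∉ M := fun h => hgb ((hmemMb g).mpr h)
      rw [eq_bot_iff]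
      rintro zb ⟨hz1, hz2⟩
      obtain ⟨z, rfl⟩ := hπ zb
      have hzM : z ∈ M := (hmemMb z).mp hz1
      have hz3 : π z ∈ MulAut.conj (π g) • Mb := hz2
      rw [Cfsg.Agent.Lib.Core.mem_conj_smul_iff, ← map_inv, ← map_mul, ← map_mul, hmemMb] at hz3
      have h1 := hinter g hg z hzM hz3
      exact (hπk z).mpr h1
  obtain ⟨Nb, -, hNbn, hcompl⟩ := Cfsg.Agent.Lib.FrobThm.frobenius_theorem Mb hfc
  set K := Nb.comap π with hK
  haveI hKn : K.Normal := Subgroup.Normal.comap hNbn π
  have hdisj : ∀ u, u ∈ Nb → u ∈ Mb → u = 1 := by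
    intro u h1 h2
    have := Subgroup.disjoint_def.mp hcompl.disjoint h1 h2
    exact this
  -- the Sylow subgroup of `K` is central
  have hSyl : IsSylowIn p ((S : Subgroup G) ⊓ K) K := inf_normal_isSylowIn S K
  have hT₀Z : (S : Subgroup G) ⊓ K ≤ Z := by
    rintro t ⟨ht1, ht2⟩
    have h1 : π t ∈ Mb := ⟨t, hSM ht1, rfl⟩
    exact (hπk t).mp (hdisj _ ht2 h1)
  have hN₀ : K ⊓ normalizer (((S : Subgroup G) ⊓ K : Subgroup G) : Set G) ≤
      centralizer (((S : Subgroup G) ⊓ K : Subgroup G) : Set G) := by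
    intro k _
    refine Subgroup.mem_centralizer_iff.mpr ?_
    intro t ht
    exact (Subgroup.mem_center_iff.mp (hT₀Z ht) k).symm
  obtain ⟨hsup, -⟩ := burnside_subgroup hSyl hN₀
  set O := (Cfsg.pPrimeCore p ↥K).map K.subtype with hO
  have hOcop : (Nat.card O).Coprime p := by
    rw [hO, Subgroup.card_map_of_injective (Subgroup.subtype_injective _)]
    exact Cfsg.Agent.Lib.Core.pPrimeCore_coprime p K
  have hxO : ∀ h ∈ O, x * h * x⁻¹ ∈ O := by
    intro h hh
    have h1 : normalizer (K : Set G) ≤ normalizer (O : Set G) :=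
      normalizer_le_normalizer_map_of_characteristic (Cfsg.pPrimeCore p ↥K)
    have h2 : x ∈ normalizer (K : Set G) := by
      rw [Subgroup.normalizer_eq_top_iff.mpr hKn]; trivial
    exact (Subgroup.mem_normalizer_iff.mp (h1 h2) h).mp hh
  have hOc := hb O hOcop hxO
  have hKM : K ≤ M := by
    rw [← hsup]
    apply sup_le
    · exact le_trans hT₀Z hZM
    · intro h hh
      rw [hmemM]
      exact (hOc h hh).symm
  have hNbbot : Nb = ⊥ := by
    rw [eq_bot_iff]
    intro u hu
    obtain ⟨k, rfl⟩ := hπ u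
    have h1 : k ∈ K := hu
    exact hdisj _ hu ⟨k, hKM h1, rfl⟩
  rw [hNbbot] at hcompl
  have htop := Subgroup.isComplement'_bot_left.mp hcompl
  exact hfc.2.1 htop

/-- Let S be a Sylow p-subgroup of the finite group G and x an element of S such that (i) x is the only G-conjugate of x lying in S, and (ii) x centralizes every subgroup of order prime to p that it normalizes. Then x lies in the centre of G. -/
theorem result {G : Type*} [Group G] [Finite G] {p : ℕ} [Fact p.Prime]
    (S : Sylow p G) (x : G) (hx : x ∈ S)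
    (hU : ∀ g : G, g⁻¹ * x * g ∈ S → g⁻¹ * x * g = x)
    (hb : ∀ H : Subgroup G, (Nat.card H).Coprime p → (∀ h ∈ H, x * h * x⁻¹ ∈ H) → ∀ h ∈ H, x * h = h * x) :
    x ∈ Subgroup.center G := by
  exact main_ind _ G S x rfl hx hU hb

end Cfsg.Agent.S3064
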