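import Cfsg.Statements.S3072
import Mathlib
import Cfsg.Agent.Lib.Techniques.StrongAG2

set_option autoImplicit false
open Cfsg

namespace Cfsg.Agent.S3072

open Cfsg.Agent.Lib.Techniques


/-- A strong form of the Alperin–Goldschmidt fusion Theorem. Let P be a Sylow p-subgroup of the finite group G, A a subset of P containing a nonidentity element, and g an element with g⁻¹Ag ⊆ P. Then g = c·x₁⋯xₙ·y with c ∈ C_G(A), y ∈ N_G(P) and, for each i, an element xᵢ and a subgroup Hᵢ ≤ P such that: N_P(Hᵢ) is a Sylow p-subgroup of N_G(Hᵢ); C_P(Hᵢ) ≤ Hᵢ; O_{p',p}(N_G(Hᵢ)) = Hᵢ·C_G(Hᵢ); the Sylow p-subgroups of N_G(Hᵢ)/Hᵢ are not chain-connected through nontrivial intersections (the quotient has a strongly p-embedded subgroup); xᵢ lies in O^p(Xᵢ), where Xᵢ/Hᵢ is the smallest normal subgroup of N_G(Hᵢ)/Hᵢ of order divisible by p; and (x₁⋯xᵢ₋₁)⁻¹A(x₁⋯xᵢ₋₁) ⊆ Hᵢ. -/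
theorem result {G : Type*} [Group G] [Finite G] {p : ℕ} [Fact p.Prime]
    (P : Sylow p G) (A : Set G) (hA : A ⊆ (P : Set G)) (hA1 : ∃ a ∈ A, a ≠ 1)
    (g : G) (hAg : (fun a => g⁻¹ * a * g) '' A ⊆ (P : Set G)) :
    ∃ (n : ℕ) (H X : Fin n → Subgroup G) (x : Fin n → G) (c y : G),
      c ∈ Subgroup.centralizer A ∧ y ∈ Subgroup.normalizer ((P : Subgroup G) : Set G) ∧
      g = c * (List.ofFn x).prod * y ∧
      ∀ i : Fin n,
        H i ≤ (P : Subgroup G) ∧
        ¬ p ∣ ((P : Subgroup G) ⊓ Subgroup.normalizer (H i : Set G)).relIndex (Subgroup.normalizer (H i : Set G)) ∧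
        (P : Subgroup G) ⊓ Subgroup.centralizer (H i : Set G) ≤ H i ∧
        (Cfsg.pPrimePCore p ↥(Subgroup.normalizer (H i : Set G))).map (Subgroup.normalizer (H i : Set G)).subtype =
          H i ⊔ Subgroup.centralizer (H i : Set G) ∧
        ¬ Cfsg.IsSylowChainConnected p
            (↥(Subgroup.normalizer (H i : Set G)) ⧸ (H i).subgroupOf (Subgroup.normalizer (H i : Set G))) ∧
        (H i ≤ X i ∧ X i ≤ Subgroup.normalizer (H i : Set G) ∧
          ((X i).subgroupOf (Subgroup.normalizer (H i : Set G))).Normal ∧ p ∣ (H i).relIndex (X i) ∧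
          ∀ Y : Subgroup G, H i ≤ Y → Y ≤ Subgroup.normalizer (H i : Set G) →
            (Y.subgroupOf (Subgroup.normalizer (H i : Set G))).Normal → p ∣ (H i).relIndex Y → X i ≤ Y) ∧
        x i ∈ (Cfsg.pResidual p ↥(X i)).map (X i).subtype ∧
        (fun a => (((List.ofFn x).take i.val).prod)⁻¹ * a * ((List.ofFn x).take i.val).prod) '' A ⊆ (H i : Set G) := by
  classical
  have hP : SylowIn p (P : Subgroup G) ⊤ := sylowIn_top_of_sylow P
  have hT : Subgroup.closure A ≤ (P : Subgroup G) := (Subgroup.closure_le _).2 hA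
  have hT' : conjS g⁻¹ (Subgroup.closure A) ≤ (P : Subgroup G) := by
    rw [conjS_le_iff, Subgroup.closure_le]
    intro a ha
    have := hAg ⟨a, ha, rfl⟩
    rw [SetLike.mem_coe, mem_conjS]
    have e2 : g⁻¹⁻¹ = g := inv_inv g
    show (g⁻¹)⁻¹⁻¹ * a * g⁻¹⁻¹ ∈ (P : Subgroup G)
    rw [e2]
    exact this
  obtain ⟨g', y, hg', hy, hgg⟩ := sag_main hP _ hT g⁻¹ hT'
  have hc : g * (g' * y)⁻¹ ∈ Subgroup.centralizer A := by
    rw [Subgroup.mem_centralizer_iff]
    intro a ha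
    have h1 := hgg a (Subgroup.subset_closure ha)
    have h2 : (g' * y)⁻¹ * a * (g' * y) = g⁻¹ * a * g := by simpa using h1
    calc a * (g * (g' * y)⁻¹) = g * (g⁻¹ * a * g) * (g' * y)⁻¹ := by group
      _ = g * ((g' * y)⁻¹ * a * (g' * y)) * (g' * y)⁻¹ := by rw [h2]
      _ = g * (g' * y)⁻¹ * a := by group
  obtain ⟨n, H, x, hprod, hR, h0, hstep⟩ := (hg'.mono_set (Subgroup.subset_closure)).exists_fin
  choose X hX hxX using hR
  refine ⟨n, H, X, x, g * (g' * y)⁻¹, y, hc, mem_normalizer_iff_conjS.2 hy, ?_, fun i => ?_⟩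
  · rw [hprod]
    group
  · obtain ⟨h1, h2, h3, h4, h5, h6⟩ := hX i
    refine ⟨h1, h2, h3, h4, h5, h6, hxX i, ?_⟩
    obtain ⟨j, hj⟩ := i
    cases j with
    | zero =>
      have hn : 0 < n := hj
      simpa using h0 hn
    | succ j =>
      exact hstep ⟨j, by omega⟩ hj

end Cfsg.Agent.S3072
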