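import Cfsg.Statements.S3073
import Mathlib
import Cfsg.Agent.S1988
import Cfsg.Agent.S1978
import Cfsg.Agent.Lib.Techniques.KInfIso
import Cfsg.Agent.Lib.FrobThm.PNil

set_option autoImplicit false
universe u
open Cfsg

namespace Cfsg.Agent.S3073

/-- For an odd prime p, every finite p-group S has a characteristic subgroup K with C_S(K) ≤ K such that, whenever S is (isomorphic to) a Sylow p-subgroup of a finite group G, G has a normal p-complement if and only if N_G(K)/C_G(K) is a p-group, i.e. every element of N_G(K) of order prime to p centralizes K (K transported into G along the isomorphism). -/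
theorem result (p : ℕ) [Fact p.Prime] (hp : p ≠ 2)
    (S : Type u) [Group S] [Finite S] (hS : IsPGroup p S) :
    ∃ K : Subgroup S, K.Characteristic ∧ Subgroup.centralizer (K : Set S) ≤ K ∧
      ∀ (G : Type u) [Group G] [Finite G] (P : Sylow p G) (e : ↥(P : Subgroup G) ≃* S),
        Cfsg.HasNormalPComplement p G ↔
          ∀ g ∈ Subgroup.normalizer (((K.comap (e : ↥(P : Subgroup G) →* S)).map (P : Subgroup G).subtype : Subgroup G) : Set G),
            (orderOf g).Coprime p →
              g ∈ Subgroup.centralizer (((K.comap (e : ↥(P : Subgroup G) →* S)).map (P : Subgroup G).subtype : Subgroup G) : Set G) := by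
  classical
  refine ⟨kInfLower S, ?_, (Cfsg.Agent.S1978.result hS).1, ?_⟩
  · rw [Subgroup.characteristic_iff_map_eq]
    intro φ
    exact Cfsg.Agent.Lib.Techniques.kInfLower_map_equiv φ
  intro G _ _ P e
  have hK : ((kInfLower S).comap (e : ↥(P : Subgroup G) →* S)).map (P : Subgroup G).subtype =
      inducedFunctor kInfLower (P : Subgroup G) := by
    unfold inducedFunctor
    have h1 := Cfsg.Agent.Lib.Techniques.kInfLower_map_equiv e.symm
    rw [← h1]
    congr 1
    ext x
    simp only [Subgroup.mem_comap, Subgroup.mem_map]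
    constructor
    · intro hx
      exact ⟨e x, hx, by simp⟩
    · rintro ⟨y, hy, rfl⟩
      simpa using hy
  rw [hK]
  constructor
  · intro h g hg hgo
    rw [Cfsg.Agent.Lib.FrobThm.hasNormalPComplement_iff_pNil_top] at h
    rw [Subgroup.mem_centralizer_iff]
    intro u hu
    have hup : IsPGroup p ↥(inducedFunctor kInfLower (P : Subgroup G)) :=
      (P.isPGroup').to_le (by
        unfold inducedFunctor
        exact Subgroup.map_subtype_le _)
    have hc1 : g * u * g⁻¹ ∈ inducedFunctor kInfLower (P : Subgroup G) :=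
      (Subgroup.mem_normalizer_iff.1 hg u).1 hu
    have hc2 : g * u * g⁻¹ * u⁻¹ ∈ inducedFunctor kInfLower (P : Subgroup G) :=
      Subgroup.mul_mem _ hc1 (Subgroup.inv_mem _ hu)
    have hc3 : (orderOf (g * (u * g⁻¹ * u⁻¹))).Coprime p := by
      refine h _ (Subgroup.mem_top _) _ (Subgroup.mem_top _) hgo ?_
      have : u * g⁻¹ * u⁻¹ = MulAut.conj u g⁻¹ := rfl
      rw [this, MulEquiv.orderOf_eq, orderOf_inv]
      exact hgo
    have hc4 : g * (u * g⁻¹ * u⁻¹) = g * u * g⁻¹ * u⁻¹ := by group
    rw [hc4] at hc3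
    obtain ⟨n, hn⟩ := hup ⟨_, hc2⟩
    have hn' : (g * u * g⁻¹ * u⁻¹) ^ p ^ n = 1 := by
      have := congrArg Subtype.val hn
      simpa using this
    have h1 : orderOf (g * u * g⁻¹ * u⁻¹) ∣ p ^ n := orderOf_dvd_of_pow_eq_one hn'
    have h2 : orderOf (g * u * g⁻¹ * u⁻¹) = 1 :=
      Nat.Coprime.eq_one_of_dvd (hc3.pow_right n) h1
    have h3 : g * u * g⁻¹ * u⁻¹ = 1 := orderOf_eq_one_iff.1 h2
    calc u * g = (g * u * g⁻¹ * u⁻¹)⁻¹ * (g * u) := by group
      _ = g * u := by rw [h3]; simp
  · intro h
    exact Cfsg.Agent.S1988.result hp P (Or.inr h)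

end Cfsg.Agent.S3073
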