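import Cfsg.Statements.S3074
import Cfsg.Agent.Lib.Amalgam.QdAffine
import Cfsg.Agent.Lib.Transfer.Frat
import Cfsg.Agent.Lib.KS2.SL2Unip
import Cfsg.Agent.Lib.FF.SylowIn
import Mathlib

set_option autoImplicit false
open Cfsg

namespace Cfsg.Agent.S3074

open Cfsg.Agent.Lib.Amalgam
open scoped commutatorElement

section general

variable {X : Type*} [Group X] [Finite X] {p : ℕ} [hp : Fact p.Prime]

theorem extraspecial_of_card (hcard : Nat.card X = p ^ 3) (hnc : ∃ a b : X, a * b ≠ b * a)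
    (hexp : ∀ x : X, x ^ p = 1) : IsExtraspecial p X := by
  classical
  have hP : IsPGroup p X := IsPGroup.of_card hcard
  have hZdvd : Nat.card (Subgroup.center X) ∣ p ^ 3 := hcard ▸ Subgroup.card_subgroup_dvd_card _
  obtain ⟨k, hk3, hk⟩ := (Nat.dvd_prime_pow hp.out).mp hZdvd
  haveI : Nontrivial X := by
    obtain ⟨a, b, hab⟩ := hnc
    by_contra h
    rw [not_nontrivial_iff_subsingleton] at h
    exact hab (Subsingleton.elim _ _)
  haveI := hP.center_nontrivial
  have hk0 : k ≠ 0 := by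
    rintro rfl
    have : Nat.card (Subgroup.center X) = 1 := by simpa using hk
    have h2 := (Finite.one_lt_card (α := Subgroup.center X))
    omega
  have hcardq : Nat.card (X ⧸ Subgroup.center X) * p ^ k = p ^ 3 := by
    have := Subgroup.index_mul_card (Subgroup.center X)
    rw [hcard, hk] at this
    exact this
  have hnotcyc : ¬ IsCyclic (X ⧸ Subgroup.center X) := by
    intro h
    obtain ⟨a, b, hab⟩ := hnc
    exact hab (commutative_of_cyclic_center_quotient (QuotientGroup.mk' (Subgroup.center X))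
      (by rw [QuotientGroup.ker_mk']) a b)
  have hpos : 0 < p := hp.out.pos
  have hk1 : k = 1 := by
    have hk3' : k = 1 ∨ k = 2 ∨ k = 3 := by omega
    rcases hk3' with h | h | h
    · exact h
    · exfalso
      subst h
      have h1 : Nat.card (X ⧸ Subgroup.center X) = p := by
        have : Nat.card (X ⧸ Subgroup.center X) * p ^ 2 = p * p ^ 2 := by rw [hcardq]; ring
        exact Nat.eq_of_mul_eq_mul_right (by positivity) this
      exact hnotcyc (isCyclic_of_prime_card h1)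
    · exfalso
      subst h
      have h1 : Nat.card (X ⧸ Subgroup.center X) = 1 := by
        have : Nat.card (X ⧸ Subgroup.center X) * p ^ 3 = 1 * p ^ 3 := by rw [hcardq]; ring
        exact Nat.eq_of_mul_eq_mul_right (by positivity) this
      haveI : Subsingleton (X ⧸ Subgroup.center X) := (Nat.card_eq_one_iff_unique.mp h1).1
      exact hnotcyc inferInstance
  subst hk1
  have hZcard : Nat.card (Subgroup.center X) = p := by simpa using hk
  have hQcard : Nat.card (X ⧸ Subgroup.center X) = p ^ 2 := by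
    have : Nat.card (X ⧸ Subgroup.center X) * p ^ 1 = p ^ 2 * p ^ 1 := by rw [hcardq]; ring
    exact Nat.eq_of_mul_eq_mul_right (by positivity) this
  have hQcomm : IsMulCommutative (X ⧸ Subgroup.center X) :=
    IsPGroup.isMulCommutative_of_card_eq_prime_sq hQcard
  have hcZ : commutator X ≤ Subgroup.center X :=
    Subgroup.Normal.quotient_commutative_iff_commutator_le.mp hQcomm
  have hcne : commutator X ≠ ⊥ := by
    intro h
    obtain ⟨a, b, hab⟩ := hnc
    have h1 : ⁅a, b⁆ ∈ commutator X := Subgroup.commutator_mem_commutator trivial trivial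
    rw [h, Subgroup.mem_bot, commutatorElement_eq_one_iff_mul_comm] at h1
    exact hab h1
  have hcEq : commutator X = Subgroup.center X := by
    apply Subgroup.eq_of_le_of_card_ge hcZ
    rw [hZcard]
    have h1 : Nat.card (commutator X) ∣ p := hZcard ▸ Subgroup.card_dvd_of_le hcZ
    rcases (Nat.dvd_prime hp.out).mp h1 with h2 | h2
    · exfalso
      exact hcne ((Subgroup.card_eq_one).mp h2)
    · exact h2.ge
  refine ⟨⟨hP, ?_, hcEq⟩, hZcard⟩
  apply le_antisymm
  · exact Cfsg.Agent.Lib.Transfer.frattini_le_of_elementary hP _ hcZ (fun x => by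
      rw [hexp]; exact Subgroup.one_mem _)
  · rw [← hcEq]
    exact Cfsg.Agent.Lib.Transfer.commutator_le_frattini hP

end general

section heis

variable {p : ℕ} [hp : Fact p.Prime]

/-- The Heisenberg subgroup of `Qd(p)`. -/
def heis (p : ℕ) [Fact p.Prime] : Subgroup (QdE (ZMod p)) where
  carrier := {M | qe M 0 0 = 1 ∧ qe M 1 1 = 1 ∧ qe M 1 0 = 0}
  mul_mem' := by
    rintro a b ⟨h0, h1, h2⟩ ⟨k0, k1, k2⟩
    refine ⟨?_, ?_, ?_⟩ <;> simp [qe_mul, qe20, qe21, qe22, h0, h1, h2, k0, k1, k2]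
  one_mem' := by
    refine ⟨?_, ?_, ?_⟩ <;> simp
  inv_mem' := by
    rintro a ⟨h0, h1, h2⟩
    have e00 : qe (a * a⁻¹) 0 0 = 1 := by rw [mul_inv_cancel]; simp
    have e10 : qe (a * a⁻¹) 1 0 = 0 := by rw [mul_inv_cancel]; simp
    have e11 : qe (a * a⁻¹) 1 1 = 1 := by rw [mul_inv_cancel]; simp
    simp only [qe_mul, qe20, qe21, qe22, h0, h1, h2, zero_mul, one_mul, add_zero, mul_zero,
      zero_add] at e00 e10 e11
    refine ⟨?_, e11, e10⟩
    rw [e10] at e00
    simpa using e00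

theorem mem_heis {M : QdE (ZMod p)} : M ∈ heis p ↔ qe M 0 0 = 1 ∧ qe M 1 1 = 1 ∧ qe M 1 0 = 0 :=
  Iff.rfl

/-- coordinates -/
def heisEquiv : heis p ≃ ZMod p × ZMod p × ZMod p where
  toFun M := (qe M.1 0 1, qe M.1 0 2, qe M.1 1 2)
  invFun x := ⟨mkQd 1 x.1 x.2.1 0 1 x.2.2 (by ring), rfl, rfl, rfl⟩
  left_inv := by
    rintro ⟨M, h0, h1, h2⟩
    apply Subtype.ext
    apply qe_ext
    · simpa using h0.symm
    · simp
    · simp
    · simpa using h2.symm
    · simpa using h1.symm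
    · simp
  right_inv := by
    rintro ⟨a, b, c⟩
    simp

theorem card_heis : Nat.card (heis p) = p ^ 3 := by
  rw [Nat.card_congr heisEquiv]
  simp [Nat.card_prod, Nat.card_zmod]
  ring

theorem heis_pow {t : QdE (ZMod p)} (ht : t ∈ heis p) (n : ℕ) :
    qe (t ^ n) 0 0 = 1 ∧ qe (t ^ n) 1 1 = 1 ∧ qe (t ^ n) 1 0 = 0 ∧
    qe (t ^ n) 0 1 = n * qe t 0 1 ∧ qe (t ^ n) 1 2 = n * qe t 1 2 ∧
    qe (t ^ n) 0 2 = n * qe t 0 2 + (n.choose 2 : ℕ) * (qe t 0 1 * qe t 1 2) := by
  obtain ⟨h0, h1, h2⟩ := ht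
  induction n with
  | zero => simp
  | succ n ih =>
    obtain ⟨i0, i1, i2, i3, i4, i5⟩ := ih
    rw [pow_succ]
    simp only [qe_mul, qe20, qe21, qe22, h0, h1, h2, i0, i1, i2, i3, i4, i5]
    refine ⟨by simp, by simp, by simp, ?_, ?_, ?_⟩
    · push_cast; ring
    · push_cast; ring
    · have : ((n + 1).choose 2 : ℕ) = n + n.choose 2 := by
        rw [Nat.choose_succ_succ' n 1, Nat.choose_one_right]
      rw [this]
      push_cast
      ring

theorem heis_pow_self (hp2 : p ≠ 2) {t : QdE (ZMod p)} (ht : t ∈ heis p) : t ^ p = 1 := by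
  obtain ⟨i0, i1, i2, i3, i4, i5⟩ := heis_pow ht p
  have hp' : p.Prime := hp.out
  have h2p : 2 < p := lt_of_le_of_ne hp'.two_le (Ne.symm hp2)
  have hc : ((p.choose 2 : ℕ) : ZMod p) = 0 :=
    (ZMod.natCast_eq_zero_iff _ _).mpr (hp'.dvd_choose_self (by norm_num) h2p)
  rw [hc] at i5
  simp only [CharP.cast_eq_zero, zero_mul, add_zero] at i3 i4 i5
  apply qe_ext
  · rw [i0]; simp
  · rw [i3]; simp
  · rw [i5]; simp
  · rw [i2]; simp
  · rw [i1]; simp
  · rw [i4]; simp

theorem heis_not_dvd : ¬ p ∣ (heis p).index := by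
  have hp' : p.Prime := hp.out
  have h1 := Subgroup.card_mul_index (heis p)
  rw [card_heis, card_qdOver, Cfsg.Agent.Lib.KS2.SL2.card_SL2] at h1
  simp only [Nat.card_fun, Nat.card_zmod, Nat.card_fin, ZMod.card] at h1
  have hp0 : 0 < p ^ 3 := by have := hp'.pos; positivity
  have h2 : (heis p).index = p ^ 2 - 1 := by
    apply Nat.eq_of_mul_eq_mul_left hp0
    rw [h1]
    ring
  rw [h2]
  intro hd
  have h3 : p ∣ p ^ 2 := dvd_pow_self p (by norm_num)
  have h4 : p ∣ 1 := by
    have := (Nat.dvd_sub h3 hd)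
    have h5 : 1 ≤ p ^ 2 := Nat.one_le_pow _ _ hp'.pos
    have h6 : p ^ 2 - (p ^ 2 - 1) = 1 := by omega
    rwa [h6] at this
  exact hp'.one_lt.ne' (Nat.dvd_one.mp h4)

end heis

theorem main (p : ℕ) [Fact p.Prime] (hp : p ≠ 2) (P : Sylow p (QdE (ZMod p))) :
    Cfsg.IsExtraspecial p ↥P ∧ Nat.card P = p ^ 3 ∧ Monoid.exponent ↥P = p := by
  classical
  have hpT : IsPGroup p (heis p) := IsPGroup.of_card card_heis
  let T : Sylow p (QdE (ZMod p)) := hpT.toSylow heis_not_dvd
  have hT : (T : Subgroup (QdE (ZMod p))) = heis p := rfl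
  obtain ⟨g, hg⟩ := MulAction.exists_smul_eq (QdE (ZMod p)) T P
  have hPe : (P : Subgroup (QdE (ZMod p))) =
      (heis p).map (MulAut.conj g).toMonoidHom := by
    rw [← hg, Cfsg.Agent.Lib.FF.coe_smul_sylow, hT]
  have hcard : Nat.card P = p ^ 3 := by
    have h1 : Nat.card (P : Subgroup (QdE (ZMod p))) = p ^ 3 := by
      rw [hPe, Cfsg.Agent.Lib.FF.card_conj, card_heis]
    exact h1
  have hexp : ∀ x : ↥P, x ^ p = 1 := by
    rintro ⟨x, hx⟩
    apply Subtype.ext
    have hx' : x ∈ (heis p).map (MulAut.conj g).toMonoidHom := by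
      rw [← hPe]; exact hx
    obtain ⟨t, ht, rfl⟩ := hx'
    show ((MulAut.conj g).toMonoidHom t) ^ p = 1
    rw [← map_pow, heis_pow_self hp ht, map_one]
  have hnc : ∃ a b : ↥P, a * b ≠ b * a := by
    let a₀ : QdE (ZMod p) := mkQd 1 1 0 0 1 0 (by ring)
    let b₀ : QdE (ZMod p) := mkQd 1 0 0 0 1 1 (by ring)
    have ha : a₀ ∈ heis p := ⟨rfl, rfl, rfl⟩
    have hb : b₀ ∈ heis p := ⟨rfl, rfl, rfl⟩
    have hab : a₀ * b₀ ≠ b₀ * a₀ := by
      intro h
      have := congrArg (fun M => qe M 0 2) h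
      simp [qe_mul, a₀, b₀] at this
    have ha' : (MulAut.conj g).toMonoidHom a₀ ∈ (P : Subgroup (QdE (ZMod p))) := by
      rw [hPe]; exact ⟨a₀, ha, rfl⟩
    have hb' : (MulAut.conj g).toMonoidHom b₀ ∈ (P : Subgroup (QdE (ZMod p))) := by
      rw [hPe]; exact ⟨b₀, hb, rfl⟩
    refine ⟨⟨_, ha'⟩, ⟨_, hb'⟩, ?_⟩
    intro h
    have h1 : (MulAut.conj g).toMonoidHom a₀ * (MulAut.conj g).toMonoidHom b₀ =
        (MulAut.conj g).toMonoidHom b₀ * (MulAut.conj g).toMonoidHom a₀ := congrArg Subtype.val h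
    rw [← map_mul, ← map_mul] at h1
    exact hab ((MulAut.conj g).injective h1)
  refine ⟨extraspecial_of_card hcard hnc hexp, hcard, ?_⟩
  have hd : Monoid.exponent ↥P ∣ p := Monoid.exponent_dvd_of_forall_pow_eq_one hexp
  rcases (Nat.dvd_prime (Fact.out : p.Prime)).mp hd with h | h
  · exfalso
    obtain ⟨a, b, hab⟩ := hnc
    rw [Monoid.exp_eq_one_iff] at h
    exact hab (Subsingleton.elim _ _)
  · exact h

/-- Let p be an odd prime. A Sylow p-subgroup of Qd(p), the split extension of an elementary abelian group of order p² by SL₂(p) acting naturally, is extraspecial of order p³ and exponent p. -/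
theorem result (p : ℕ) [Fact p.Prime] (hp : p ≠ 2) (P : Sylow p ↥(Cfsg.qd p)) :
    Cfsg.IsExtraspecial p ↥P ∧ Nat.card P = p ^ 3 ∧ Monoid.exponent ↥P = p := by
  exact main p hp P

end Cfsg.Agent.S3074
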