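import Cfsg.Statements.S3075
import Mathlib

set_option autoImplicit false
open Cfsg

namespace Cfsg.Agent.S3075


section aux
variable {N : Type*} [Group N]

theorem conj_comm_of_cyclic {x : N} (hx : ∀ n : N, n * x * n⁻¹ ∈ Subgroup.zpowers x) (n m : N) :
    (m * n)⁻¹ * (n * m) * x = x * ((m * n)⁻¹ * (n * m)) := by
  obtain ⟨k, hk⟩ := Subgroup.mem_zpowers_iff.mp (hx n)
  obtain ⟨l, hl⟩ := Subgroup.mem_zpowers_iff.mp (hx m)
  have h1 : (n * m) * x * (n * m)⁻¹ = (m * n) * x * (m * n)⁻¹ := by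
    calc (n * m) * x * (n * m)⁻¹ = n * (m * x * m⁻¹) * n⁻¹ := by group
      _ = n * x ^ l * n⁻¹ := by rw [hl]
      _ = (n * x * n⁻¹) ^ l := by rw [conj_zpow]
      _ = (x ^ k) ^ l := by rw [hk]
      _ = (x ^ l) ^ k := by rw [← zpow_mul, ← zpow_mul, mul_comm]
      _ = (m * x * m⁻¹) ^ k := by rw [hl]
      _ = m * x ^ k * m⁻¹ := by rw [conj_zpow]
      _ = m * (n * x * n⁻¹) * m⁻¹ := by rw [hk]
      _ = _ := by group
  calc (m * n)⁻¹ * (n * m) * x = (m * n)⁻¹ * ((n * m) * x * (n * m)⁻¹) * (n * m) := by group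
    _ = (m * n)⁻¹ * ((m * n) * x * (m * n)⁻¹) * (n * m) := by rw [h1]
    _ = _ := by group

end aux

/-- Let p be an odd prime and N a finite group with a normal elementary abelian subgroup A of order p² that is its own centralizer in N, such that N/A is isomorphic to SL₂(p) (over any field F with p elements). Then N splits over A: some subgroup U of N satisfies A ∩ U = 1 and AU = N. -/
theorem result {N : Type*} [Group N] [Finite N] {p : ℕ} [Fact p.Prime] (hp : p ≠ 2)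
    (A : Subgroup N) [A.Normal] (hAcomm : IsMulCommutative A) (hAcard : Nat.card A = p ^ 2) (hAexp : Monoid.exponent ↥A = p)
    (hAself : Subgroup.centralizer (A : Set N) = A)
    {F : Type*} [Field F] [Fintype F] (hF : Fintype.card F = p) (e : N ⧸ A ≃* Matrix.SpecialLinearGroup (Fin 2) F) :
    ∃ U : Subgroup N, A ⊓ U = ⊥ ∧ A ⊔ U = ⊤ := by
  classical
  have hp' : p.Prime := Fact.out
  obtain ⟨k, hk⟩ : ∃ k, p = 2 * k + 1 := by
    rcases hp'.eq_two_or_odd' with h | h
    · exact absurd h hp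
    · exact h
  have hApow : ∀ x ∈ A, x ^ p = 1 := by
    intro x hx
    have h1 : (⟨x, hx⟩ : A) ^ p = 1 := by
      rw [← hAexp]; exact Monoid.pow_exponent_eq_one _
    exact congrArg Subtype.val h1
  have hAc : ∀ a ∈ A, ∀ b ∈ A, a * b = b * a := by
    intro a ha b hb
    exact congrArg Subtype.val (hAcomm.is_comm.comm ⟨a, ha⟩ ⟨b, hb⟩)
  have hsq : ∀ x ∈ A, x * x = 1 → x = 1 := by
    intro x hx h
    have h2 : x ^ 2 = 1 := by rw [pow_two, h]
    have h3 : x ^ p = 1 := hApow x hx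
    rw [hk, pow_succ, pow_mul, h2, one_pow, one_mul] at h3
    exact h3
  -- the quotient map
  let π : N →* Matrix.SpecialLinearGroup (Fin 2) F := e.toMonoidHom.comp (QuotientGroup.mk' A)
  have hπs : Function.Surjective π := by
    intro y
    obtain ⟨q, hq⟩ := e.surjective y
    obtain ⟨n, rfl⟩ := QuotientGroup.mk'_surjective A q
    exact ⟨n, hq⟩
  have hπk : ∀ x, π x = 1 ↔ x ∈ A := by
    intro x
    have : π x = e (x : N ⧸ A) := rfl
    rw [this, map_eq_one_iff e e.injective, QuotientGroup.eq_one_iff]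
  have hneg : (-1 : F) ≠ 1 := by
    apply Ring.neg_one_ne_one_of_char_ne_two
    intro h
    have h2 := FiniteField.even_card_iff_char_two.mp h
    rw [hF] at h2
    exact hp ((Nat.prime_dvd_prime_iff_eq Nat.prime_two hp').mp (Nat.dvd_of_mod_eq_zero h2)).symm
  -- the central involution of `SL₂(F)`
  let w : Matrix.SpecialLinearGroup (Fin 2) F := ⟨-1, by simp [Matrix.det_fin_two]⟩
  have hw1 : w ≠ 1 := by
    intro h
    have h1 := congrArg (fun M : Matrix.SpecialLinearGroup (Fin 2) F => (M : Matrix (Fin 2) (Fin 2) F) 0 0) h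
    simp [w] at h1
    exact hneg (by simpa using h1)
  have hw2 : w * w = 1 := by
    apply Subtype.ext
    show (-1 : Matrix (Fin 2) (Fin 2) F) * (-1) = 1
    simp
  have hwc : ∀ g, g * w = w * g := by
    intro g
    apply Subtype.ext
    show (g : Matrix (Fin 2) (Fin 2) F) * (-1) = (-1) * (g : Matrix (Fin 2) (Fin 2) F)
    simp
  -- two non-commuting elements
  let a₀ : Matrix.SpecialLinearGroup (Fin 2) F := ⟨!![1, 1; 0, 1], by simp [Matrix.det_fin_two]⟩
  let b₀ : Matrix.SpecialLinearGroup (Fin 2) F := ⟨!![1, 0; 1, 1], by simp [Matrix.det_fin_two]⟩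
  have hab : a₀ * b₀ ≠ b₀ * a₀ := by
    intro h
    have h1 : ((a₀ * b₀ : Matrix.SpecialLinearGroup (Fin 2) F) : Matrix (Fin 2) (Fin 2) F) 0 0 =
        ((b₀ * a₀ : Matrix.SpecialLinearGroup (Fin 2) F) : Matrix (Fin 2) (Fin 2) F) 0 0 := by rw [h]
    have e1 : ((a₀ * b₀ : Matrix.SpecialLinearGroup (Fin 2) F) : Matrix (Fin 2) (Fin 2) F) =
        !![1, 1; 0, 1] * !![1, 0; 1, 1] := rfl
    have e2 : ((b₀ * a₀ : Matrix.SpecialLinearGroup (Fin 2) F) : Matrix (Fin 2) (Fin 2) F) =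
        !![1, 0; 1, 1] * !![1, 1; 0, 1] := rfl
    rw [e1, e2] at h1
    simp [Matrix.mul_apply, Fin.sum_univ_two] at h1
  -- the involution
  obtain ⟨τ, hτ⟩ := hπs w
  set t := τ ^ p with htdef
  have hπt : π t = w := by
    rw [htdef, map_pow, hτ, hk, pow_succ, pow_mul, pow_two, hw2, one_pow, one_mul]
  have ht2 : t * t = 1 := by
    have h1 : τ * τ ∈ A := (hπk _).mp (by rw [map_mul, hτ, hw2])
    have h2 := hApow _ h1
    rw [← pow_two] at h2
    rw [htdef, ← pow_add, ← two_mul, pow_mul]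
    exact h2
  have htinv : t⁻¹ = t := (eq_inv_of_mul_eq_one_left ht2).symm
  have hcent : ∀ n : N, ∃ a ∈ A, n * t * n⁻¹ = t * a := by
    intro n
    refine ⟨t⁻¹ * (n * t * n⁻¹), (hπk _).mp ?_, by group⟩
    simp only [map_mul, map_inv, hπt]
    rw [hwc (π n)]
    group
  -- eigenspaces
  let A₀ : Subgroup N :=
    { carrier := {x | x ∈ A ∧ t * x * t⁻¹ = x}
      mul_mem' := by
        rintro a c ⟨ha, ha'⟩ ⟨hc, hc'⟩
        refine ⟨A.mul_mem ha hc, ?_⟩
        calc t * (a * c) * t⁻¹ = (t * a * t⁻¹) * (t * c * t⁻¹) := by group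
          _ = a * c := by rw [ha', hc']
      one_mem' := ⟨A.one_mem, by group⟩
      inv_mem' := by
        rintro a ⟨ha, ha'⟩
        refine ⟨A.inv_mem ha, ?_⟩
        calc t * a⁻¹ * t⁻¹ = (t * a * t⁻¹)⁻¹ := by group
          _ = a⁻¹ := by rw [ha'] }
  let A₁ : Subgroup N :=
    { carrier := {x | x ∈ A ∧ t * x * t⁻¹ = x⁻¹}
      mul_mem' := by
        rintro a c ⟨ha, ha'⟩ ⟨hc, hc'⟩
        refine ⟨A.mul_mem ha hc, ?_⟩
        calc t * (a * c) * t⁻¹ = (t * a * t⁻¹) * (t * c * t⁻¹) := by group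
          _ = a⁻¹ * c⁻¹ := by rw [ha', hc']
          _ = (c * a)⁻¹ := by group
          _ = (a * c)⁻¹ := by rw [hAc c hc a ha]
      one_mem' := ⟨A.one_mem, by group⟩
      inv_mem' := by
        rintro a ⟨ha, ha'⟩
        refine ⟨A.inv_mem ha, ?_⟩
        calc t * a⁻¹ * t⁻¹ = (t * a * t⁻¹)⁻¹ := by group
          _ = a⁻¹⁻¹ := by rw [ha'] }
  have hA₀A : A₀ ≤ A := fun x hx => hx.1
  have hA₁A : A₁ ≤ A := fun x hx => hx.1
  have hinf : ∀ x, x ∈ A₀ → x ∈ A₁ → x = 1 := by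
    intro x h0 h1
    apply hsq x h0.1
    have h2 : x = x⁻¹ := h0.2.symm.trans h1.2
    calc x * x = x * x⁻¹ := by rw [← h2]
      _ = 1 := by group
  -- normality
  have hconjt : ∀ (n x : N), x ∈ A → t * (n * x * n⁻¹) * t⁻¹ = n * (t * x * t⁻¹) * n⁻¹ := by
    intro n x hx
    obtain ⟨a, ha, hae⟩ := hcent n⁻¹
    have h1 : n⁻¹ * t * n = t * a := by simpa using hae
    have hxa : a * x * a⁻¹ = x := by rw [hAc a ha x hx]; group
    calc t * (n * x * n⁻¹) * t⁻¹ = n * (n⁻¹ * t * n) * x * (n⁻¹ * t * n)⁻¹ * n⁻¹ := by group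
      _ = n * (t * a) * x * (t * a)⁻¹ * n⁻¹ := by rw [h1]
      _ = n * (t * (a * x * a⁻¹) * t⁻¹) * n⁻¹ := by group
      _ = _ := by rw [hxa]
  have hA₀n : ∀ x ∈ A₀, ∀ n : N, n * x * n⁻¹ ∈ A₀ := by
    intro x hx n
    refine ⟨‹A.Normal›.conj_mem x hx.1 n, ?_⟩
    rw [hconjt n x hx.1, hx.2]
  have hA₁n : ∀ x ∈ A₁, ∀ n : N, n * x * n⁻¹ ∈ A₁ := by
    intro x hx n
    refine ⟨‹A.Normal›.conj_mem x hx.1 n, ?_⟩
    rw [hconjt n x hx.1, hx.2]; group
  have hdec0 : ∀ x ∈ A, x * (t * x * t⁻¹) ∈ A₀ := by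
    intro x hx
    have hx' : t * x * t⁻¹ ∈ A := by
      exact ‹A.Normal›.conj_mem x hx t
    refine ⟨A.mul_mem hx hx', ?_⟩
    calc t * (x * (t * x * t⁻¹)) * t⁻¹ = (t * x * t⁻¹) * (t * t * x * (t * t)⁻¹) := by
          rw [mul_inv_rev]; group
      _ = (t * x * t⁻¹) * x := by rw [ht2]; group
      _ = x * (t * x * t⁻¹) := hAc _ hx' _ hx
  have hdec1 : ∀ x ∈ A, x * (t * x * t⁻¹)⁻¹ ∈ A₁ := by
    intro x hx
    have hx' : t * x * t⁻¹ ∈ A := ‹A.Normal›.conj_mem x hx t
    refine ⟨A.mul_mem hx (A.inv_mem hx'), ?_⟩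
    calc t * (x * (t * x * t⁻¹)⁻¹) * t⁻¹ = (t * x * t⁻¹) * (t * t * x * (t * t)⁻¹)⁻¹ := by
          rw [mul_inv_rev]; group
      _ = (t * x * t⁻¹) * x⁻¹ := by rw [ht2]; group
      _ = (x * (t * x * t⁻¹)⁻¹)⁻¹ := by group
  -- `A₀` is trivial
  have hA₀bot : ∀ x ∈ A₀, x = 1 := by
    intro x₀ hx₀
    by_contra hx₀1
    -- `A₀ ≠ A`
    have hne : ∃ y ∈ A, t * y * t⁻¹ ≠ y := by
      by_contra hcon
      push Not at hcon
      apply hw1
      rw [← hπt]
      refine (hπk t).mpr ?_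
      rw [← hAself]
      refine Subgroup.mem_centralizer_iff.mpr ?_
      intro h hh
      have := hcon h hh
      calc h * t = t * h * t⁻¹ * t := by rw [this]
        _ = t * h := by group
    obtain ⟨y, hyA, hy⟩ := hne
    set x₁ := y * (t * y * t⁻¹)⁻¹ with hx₁def
    have hx₁ : x₁ ∈ A₁ := hdec1 y hyA
    have hx₁1 : x₁ ≠ 1 := by
      intro h
      apply hy
      rw [hx₁def] at h
      exact (mul_inv_eq_one.mp h).symm
    -- both have order `p`
    have hcard_aux : ∀ B : Subgroup N, B ≤ A → B ≠ A → ∀ z ∈ B, z ≠ 1 → B = Subgroup.zpowers z := by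
      intro B hBA hne z hz hz1
      have hdvd : Nat.card B ∣ p ^ 2 := hAcard ▸ Subgroup.card_dvd_of_le hBA
      obtain ⟨j, hj2, hj⟩ := (Nat.dvd_prime_pow hp').mp hdvd
      have hj1 : j ≠ 2 := by
        rintro rfl
        exact hne (Subgroup.eq_of_le_of_card_ge hBA (by rw [hAcard, hj]))
      have hj0 : j ≠ 0 := by
        rintro rfl
        rw [pow_zero] at hj
        have := (Subgroup.card_eq_one).mp hj
        rw [this] at hz
        exact hz1 hz
      have hjp : Nat.card B = p := by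
        have : j = 1 := by omega
        rw [hj, this, pow_one]
      have hle : Subgroup.zpowers z ≤ B := (Subgroup.zpowers_le).mpr hz
      have hdvd2 : Nat.card (Subgroup.zpowers z) ∣ p := hjp ▸ Subgroup.card_dvd_of_le hle
      rcases (Nat.dvd_prime hp').mp hdvd2 with h | h
      · exfalso
        have h3 : Subgroup.zpowers z = ⊥ := (Subgroup.card_eq_one).mp h
        exact hz1 (Subgroup.zpowers_eq_bot.mp h3)
      · exact (Subgroup.eq_of_le_of_card_ge hle (by rw [hjp, h])).symm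
    have hA₀ne : A₀ ≠ A := by
      intro h
      exact hy (by have : y ∈ A₀ := h ▸ hyA; exact this.2)
    have hA₁ne : A₁ ≠ A := by
      intro h
      exact hx₀1 (hinf x₀ hx₀ (by have : x₀ ∈ A := hx₀.1; exact h ▸ this))
    have hZ0 := hcard_aux A₀ hA₀A hA₀ne x₀ hx₀ hx₀1
    have hZ1 := hcard_aux A₁ hA₁A hA₁ne x₁ hx₁ hx₁1
    have hn0 : ∀ n : N, n * x₀ * n⁻¹ ∈ Subgroup.zpowers x₀ := fun n => hZ0 ▸ hA₀n x₀ hx₀ n
    have hn1 : ∀ n : N, n * x₁ * n⁻¹ ∈ Subgroup.zpowers x₁ := fun n => hZ1 ▸ hA₁n x₁ hx₁ n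
    obtain ⟨n, hn⟩ := hπs a₀
    obtain ⟨m, hm⟩ := hπs b₀
    -- the commutator centralizes `A`
    set c := (m * n)⁻¹ * (n * m) with hc
    have hc0 : c * x₀ = x₀ * c := conj_comm_of_cyclic hn0 n m
    have hc1 : c * x₁ = x₁ * c := conj_comm_of_cyclic hn1 n m
    -- `A = A₀ A₁`
    have hsup : A ≤ A₀ ⊔ A₁ := by
      intro x hx
      have h1 := hdec0 x hx
      have h2 := hdec1 x hx
      have h3 : x * x ∈ A₀ ⊔ A₁ := by
        have e : x * x = (x * (t * x * t⁻¹)) * (x * (t * x * t⁻¹)⁻¹) := by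
          have := hAc _ (‹A.Normal›.conj_mem x hx t) x hx
          calc x * x = x * ((t * x * t⁻¹) * (t * x * t⁻¹)⁻¹) * x := by group
            _ = x * (t * x * t⁻¹) * ((t * x * t⁻¹)⁻¹ * x) := by group
            _ = _ := by
              rw [show (t * x * t⁻¹)⁻¹ * x = x * (t * x * t⁻¹)⁻¹ from
                hAc _ (A.inv_mem (‹A.Normal›.conj_mem x hx t)) x hx]
        rw [e]
        exact Subgroup.mul_mem _ (Subgroup.mem_sup_left h1) (Subgroup.mem_sup_right h2)
      -- `x = (x²)^(k+1)`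
      have h4 : x = (x * x) ^ (k + 1) := by
        have h5 := hApow x hx
        rw [← pow_two, ← pow_mul, show 2 * (k + 1) = p + 1 by omega, pow_succ, h5, one_mul]
      rw [h4]
      exact Subgroup.pow_mem _ h3 _
    have hcC : c ∈ Subgroup.centralizer (A : Set N) := by
      have hle : A₀ ⊔ A₁ ≤ Subgroup.centralizer ({c} : Set N) := by
        apply sup_le
        · rw [hZ0, Subgroup.zpowers_le, Subgroup.mem_centralizer_singleton_iff]
          exact hc0.symm
        · rw [hZ1, Subgroup.zpowers_le, Subgroup.mem_centralizer_singleton_iff]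
          exact hc1.symm
      refine Subgroup.mem_centralizer_iff.mpr ?_
      intro h hh
      have := hle (hsup hh)
      rw [Subgroup.mem_centralizer_singleton_iff] at this
      exact this
    rw [hAself] at hcC
    have h1 := (hπk c).mpr hcC
    rw [hc] at h1
    simp only [map_mul, map_inv, hn, hm] at h1
    apply hab
    have h2 : (b₀ * a₀)⁻¹ * (a₀ * b₀) = 1 := by simpa using h1
    exact (inv_mul_eq_one.mp h2).symm
  have hinvA : ∀ x ∈ A, t * x * t⁻¹ = x⁻¹ := by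
    intro x hx
    have := hA₀bot _ (hdec0 x hx)
    exact (eq_inv_of_mul_eq_one_right this)
  refine ⟨Subgroup.centralizer ({t} : Set N), ?_, ?_⟩
  · rw [eq_bot_iff]
    rintro x ⟨hxA, hxU⟩
    have hxU' : x * t = t * x := Subgroup.mem_centralizer_singleton_iff.mp hxU
    have : x ∈ A₀ := ⟨hxA, by rw [← hxU']; group⟩
    exact hA₀bot x this
  · rw [eq_top_iff]
    intro n _
    obtain ⟨a, ha, hae⟩ := hcent n
    set b := a ^ k with hbdef
    have hbA : b ∈ A := A.pow_mem ha k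
    have hbb : b * b * a = 1 := by
      have := hApow a ha
      rw [hk] at this
      rw [hbdef, ← pow_add, ← two_mul, ← pow_succ]
      exact this
    have hcr : b * t * b⁻¹ = t * a := by
      -- `t⁻¹ b t = b⁻¹`
      have h1 : t⁻¹ * b * t = b⁻¹ := by
        have := hinvA b hbA
        rw [htinv] at this ⊢
        exact this
      have h2 : a = b⁻¹ * b⁻¹ := by
        calc a = (b * b)⁻¹ * (b * b * a) := by group
          _ = (b * b)⁻¹ := by rw [hbb]; group
          _ = _ := by group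
      calc b * t * b⁻¹ = t * (t⁻¹ * b * t) * b⁻¹ := by group
        _ = t * b⁻¹ * b⁻¹ := by rw [h1]
        _ = t * a := by rw [h2]; group
    have hU : b⁻¹ * n ∈ Subgroup.centralizer ({t} : Set N) := by
      rw [Subgroup.mem_centralizer_singleton_iff]
      have h1 : n * t * n⁻¹ = b * t * b⁻¹ := by rw [hae, hcr]
      calc b⁻¹ * n * t = b⁻¹ * (n * t * n⁻¹) * n := by group
        _ = b⁻¹ * (b * t * b⁻¹) * n := by rw [h1]
        _ = t * (b⁻¹ * n) := by group
    have : n = b * (b⁻¹ * n) := by group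
    rw [this]
    exact Subgroup.mul_mem _ (Subgroup.mem_sup_left hbA) (Subgroup.mem_sup_right hU)

end Cfsg.Agent.S3075
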