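import Cfsg.Statements.S3076
import Cfsg.Agent.Lib.FF.Burnside
import Cfsg.Agent.Lib.FF.SylowIn
import Cfsg.Agent.Lib.FF.Lattice
import Cfsg.Agent.Lib.Techniques.Constrained
import Cfsg.Agent.Lib.FStar.PComponent
import Mathlib

set_option autoImplicit false
open Cfsg

namespace Cfsg.Agent.S3076

open Cfsg.Agent.Lib.FF Cfsg.Agent.Lib.Core Subgroup

section core

variable {M : Type*} [Group M] [Finite M] {p : ℕ} [hp : Fact p.Prime]

theorem pprime_le_centralizer (H C : Subgroup M) [hH : H.Normal]
    (hC : ∀ x, x ∈ C ↔ ∀ h ∈ H, x * h = h * x) (hHp : IsPGroup p H) :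
    pPrimeCore p M ≤ C := by
  intro k hk
  rw [hC]
  intro h hh
  have hKn : (pPrimeCore p M).Normal := pPrimeCore_normal p M
  have h1 : k * h * k⁻¹ * h⁻¹ ∈ H := by
    apply H.mul_mem (hH.conj_mem h hh k) (H.inv_mem hh)
  have h2 : k * h * k⁻¹ * h⁻¹ ∈ pPrimeCore p M := by
    have := hKn.conj_mem k⁻¹ ((pPrimeCore p M).inv_mem hk) h
    rw [mul_assoc, mul_assoc]
    apply (pPrimeCore p M).mul_mem hk
    rw [← mul_assoc]
    exact this
  have h3 : k * h * k⁻¹ * h⁻¹ = 1 := by
    have hdis : Disjoint H (pPrimeCore p M) := Subgroup.disjoint_of_coprime_natCard (by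
        obtain ⟨n, hn⟩ := IsPGroup.iff_card.mp hHp
        rw [hn]
        exact ((pPrimeCore_coprime p (G := M)).symm).pow_left n)
    exact Subgroup.disjoint_def.mp hdis h1 h2
  have h4 : k * h * k⁻¹ = h := by
    rw [mul_inv_eq_one] at h3
    exact h3
  rw [mul_inv_eq_iff_eq_mul] at h4
  exact h4

theorem le_comap_of_pgroup_image {C Q : Subgroup M} [hC : C.Normal] [hQ : Q.Normal]
    (h : ∀ x ∈ Q, ∃ n : ℕ, x ^ (p ^ n) ∈ C) :
    Q ≤ (pCore p (M ⧸ C)).comap (QuotientGroup.mk' C) := by
  have himg : Q.map (QuotientGroup.mk' C) ≤ pCore p (M ⧸ C) := by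
    apply le_pCore (Subgroup.Normal.map hQ _ (QuotientGroup.mk'_surjective C))
    rintro ⟨_, x, hx, rfl⟩
    obtain ⟨n, hn⟩ := h x hx
    refine ⟨n, ?_⟩
    apply Subtype.ext
    simp only [Subgroup.coe_pow, Subgroup.coe_one, ← map_pow]
    exact (QuotientGroup.eq_one_iff _).mpr hn
  intro x hx
  exact himg ⟨x, hx, rfl⟩

theorem exists_pow_mem_of_mem_comap {C : Subgroup M} [hC : C.Normal] {x : M}
    (hx : x ∈ (pCore p (M ⧸ C)).comap (QuotientGroup.mk' C)) : ∃ n : ℕ, x ^ (p ^ n) ∈ C := by
  have h1 : IsPGroup p (pCore p (M ⧸ C)) := pCore_isPGroup p _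
  obtain ⟨n, hn⟩ := h1 ⟨_, hx⟩
  refine ⟨n, ?_⟩
  have h2 := congrArg Subtype.val hn
  simp only [Subgroup.coe_pow, Subgroup.coe_one] at h2
  rw [← map_pow] at h2
  exact (QuotientGroup.eq_one_iff _).mp h2

theorem main_lemma (P H C : Subgroup M) [hH : H.Normal] [hCn : C.Normal]
    (hC : ∀ x, x ∈ C ↔ ∀ h ∈ H, x * h = h * x) (hPp : IsPGroup p P) (hHP : H ≤ P)
    (hSyl : ¬ p ∣ P.index) :
    H ≤ (pCore p (M ⧸ C)).comap (QuotientGroup.mk' C) ∧
    (¬ p ∣ H.relIndex ((pCore p (M ⧸ C)).comap (QuotientGroup.mk' C)) ↔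
      (P ⊓ C ≤ H ∧ pPrimePCore p M = H ⊔ C)) := by
  classical
  set N := (pCore p (M ⧸ C)).comap (QuotientGroup.mk' C) with hN
  have hHp : IsPGroup p H := hPp.to_le hHP
  have hKC : pPrimeCore p M ≤ C := pprime_le_centralizer H C hC hHp
  haveI hKn : (pPrimeCore p M).Normal := pPrimeCore_normal p M
  haveI hQn : (pPrimePCore p M).Normal := Cfsg.Agent.Lib.Techniques.pPrimePCore_normal p
  haveI hNn : N.Normal := by
    rw [hN]
    haveI : (pCore p (M ⧸ C)).Normal := pCore_normal p _
    exact Subgroup.Normal.comap inferInstance _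
  have hCN : C ≤ N := by
    intro x hx
    have h1 : (QuotientGroup.mk' C) x = 1 := (QuotientGroup.eq_one_iff x).mpr hx
    show (QuotientGroup.mk' C) x ∈ pCore p _
    rw [h1]
    exact Subgroup.one_mem _
  have hHQ : H ≤ pPrimePCore p M := by
    have : H ≤ (pCore p (M ⧸ pPrimeCore p M)).comap (QuotientGroup.mk' (pPrimeCore p M)) := by
      apply le_comap_of_pgroup_image
      intro x hx
      obtain ⟨n, hn⟩ := hHp ⟨x, hx⟩
      refine ⟨n, ?_⟩
      have := congrArg Subtype.val hn
      simp only [Subgroup.coe_pow, Subgroup.coe_one] at this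
      rw [this]
      exact Subgroup.one_mem _
    exact this
  have hHN : H ≤ N := by
    apply le_comap_of_pgroup_image
    intro x hx
    obtain ⟨n, hn⟩ := hHp ⟨x, hx⟩
    refine ⟨n, ?_⟩
    have := congrArg Subtype.val hn
    simp only [Subgroup.coe_pow, Subgroup.coe_one] at this
    rw [this]
    exact Subgroup.one_mem _
  have hQN : pPrimePCore p M ≤ N := by
    apply le_comap_of_pgroup_image
    intro x hx
    obtain ⟨n, hn⟩ := Cfsg.Agent.Lib.Techniques.exists_pow_mem_pPrimeCore hx
    exact ⟨n, hKC hn⟩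
  -- Burnside on `C`, given `H ⊓ C` is Sylow in `C`
  have hburn : IsSylowIn p (H ⊓ C) C → C ≤ pPrimePCore p M := by
    intro hS
    have hb := burnside_subgroup hS (by
      rintro x ⟨hxC, -⟩
      apply Subgroup.mem_centralizer_iff.mpr
      intro y hy
      exact ((hC x).mp hxC y hy.1).symm)
    rw [← hb.1]
    apply sup_le (inf_le_left.trans hHQ)
    refine le_trans ?_ (Cfsg.Agent.Lib.Techniques.pPrimeCore_le_pPrimePCore p)
    exact Cfsg.Agent.Lib.FStar.pPrimeCore_map_le_of_subnormal p hCn.isSubnormal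
  refine ⟨hHN, ?_, ?_⟩
  · -- forward
    intro hdvd
    have hsy : IsSylowIn p H N := ⟨hHN, hHp, hdvd⟩
    have hsyC : IsSylowIn p (H ⊓ C) C :=
      hsy.inf_normal hCN (by rw [Subgroup.normalizer_eq_top_iff.mpr hCn]; exact le_top)
    constructor
    · have hE := hsyC.eq_of_le (Q' := P ⊓ C) (hPp.to_le inf_le_left) inf_le_right
        (inf_le_inf_right _ hHP)
      rw [← hE]
      exact inf_le_left
    · apply le_antisymm
      · -- `N = H ⊔ C`
        refine hQN.trans ?_
        have hSC : C ≤ H ⊔ C := le_sup_right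
        have hSN : H ⊔ C ≤ N := sup_le hHN hCN
        have e1 : (H ⊔ C).relIndex N ∣ H.relIndex N := Subgroup.relIndex_dvd_of_le_left N le_sup_left
        have e2 : C.relIndex (H ⊔ C) * (H ⊔ C).relIndex N = C.relIndex N :=
          Subgroup.relIndex_mul_relIndex _ _ _ hSC hSN
        have e3 : C.relIndex N = Nat.card (pCore p (M ⧸ C)) := by
          have h1 := relIndex_mul_card hCN
          have h2 := card_comap_of_surjective (QuotientGroup.mk' C) (QuotientGroup.mk'_surjective C)
            (pCore p (M ⧸ C))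
          rw [QuotientGroup.ker_mk'] at h2
          rw [← hN] at h2
          rw [h2, mul_comm] at h1
          exact Nat.eq_of_mul_eq_mul_left Nat.card_pos h1
        obtain ⟨k, hk⟩ := IsPGroup.iff_card.mp (pCore_isPGroup p (M ⧸ C))
        have e4 : (H ⊔ C).relIndex N ∣ p ^ k := by
          rw [← hk, ← e3, ← e2]
          exact dvd_mul_left _ _
        obtain ⟨j, -, hj⟩ := (Nat.dvd_prime_pow hp.out).mp e4
        have e5 : (H ⊔ C).relIndex N = 1 := by
          rcases j with _ | j
          · simpa using hj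
          · exfalso
            apply hdvd
            apply dvd_trans _ e1
            rw [hj]
            exact dvd_pow_self p (Nat.succ_ne_zero j)
        exact Subgroup.relIndex_eq_one.mp e5
      · exact sup_le hHQ (hburn hsyC)
  · rintro ⟨h1, h2⟩
    have hPS : IsSylowIn p P ⊤ := ⟨le_top, hPp, by rwa [Subgroup.relIndex_top_right]⟩
    have hsyC' : IsSylowIn p (P ⊓ C) C :=
      hPS.inf_normal le_top (by rw [Subgroup.normalizer_eq_top_iff.mpr hCn])
    have hE : H ⊓ C = P ⊓ C := le_antisymm (inf_le_inf_right _ hHP) (le_inf h1 inf_le_right)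
    have hsyC : IsSylowIn p (H ⊓ C) C := by rw [hE]; exact hsyC'
    have hCQ := hburn hsyC
    have hNQ : N ≤ pPrimePCore p M := by
      have : N ≤ (pCore p (M ⧸ pPrimeCore p M)).comap (QuotientGroup.mk' (pPrimeCore p M)) := by
        apply le_comap_of_pgroup_image
        intro x hx
        obtain ⟨n, hn⟩ := exists_pow_mem_of_mem_comap (p := p) hx
        obtain ⟨m, hm⟩ := Cfsg.Agent.Lib.Techniques.exists_pow_mem_pPrimeCore (hCQ hn)
        refine ⟨n + m, ?_⟩
        rw [pow_add, pow_mul]
        exact hm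
      exact this
    have hNe : N = H ⊔ C := (le_antisymm hQN hNQ).symm.trans h2 |>.trans rfl
    rw [hNe, relIndex_sup_eq', ← Subgroup.inf_relIndex_right]
    exact hsyC.not_dvd

end core

/-- Let P be a Sylow p-subgroup of the finite group G and H ≤ P a subgroup with N_P(H) a Sylow p-subgroup of N_G(H). Let N be the preimage in N_G(H) of O_p(N_G(H)/C_G(H)). Then H is a Sylow p-subgroup of N if and only if C_P(H) ≤ H and O_{p',p}(N_G(H)) = H·C_G(H). -/
theorem result {G : Type*} [Group G] [Finite G] {p : ℕ} [Fact p.Prime]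
    (P : Sylow p G) (H : Subgroup G) (hHP : H ≤ (P : Subgroup G))
    (hSyl : ¬ p ∣ ((P : Subgroup G) ⊓ Subgroup.normalizer (H : Set G)).relIndex (Subgroup.normalizer (H : Set G)))
    [hC : ((Subgroup.centralizer (H : Set G)).subgroupOf (Subgroup.normalizer (H : Set G))).Normal] :
    (H ≤ ((Cfsg.pCore p (↥(Subgroup.normalizer (H : Set G)) ⧸
              (Subgroup.centralizer (H : Set G)).subgroupOf (Subgroup.normalizer (H : Set G)))).comap
            (QuotientGroup.mk' _)).map (Subgroup.normalizer (H : Set G)).subtype ∧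
      ¬ p ∣ H.relIndex (((Cfsg.pCore p (↥(Subgroup.normalizer (H : Set G)) ⧸
              (Subgroup.centralizer (H : Set G)).subgroupOf (Subgroup.normalizer (H : Set G)))).comap
            (QuotientGroup.mk' _)).map (Subgroup.normalizer (H : Set G)).subtype)) ↔
    ((P : Subgroup G) ⊓ Subgroup.centralizer (H : Set G) ≤ H ∧
      (Cfsg.pPrimePCore p ↥(Subgroup.normalizer (H : Set G))).map (Subgroup.normalizer (H : Set G)).subtype =
        H ⊔ Subgroup.centralizer (H : Set G)) := by
  classical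
  set M := Subgroup.normalizer (H : Set G) with hM
  have hHM : H ≤ M := Subgroup.le_normalizer
  have hCM : Subgroup.centralizer (H : Set G) ≤ M := Subgroup.centralizer_le_normalizer _
  haveI hHn : (H.subgroupOf M).Normal := Subgroup.normal_in_normalizer
  have key := main_lemma (M := M) (p := p) ((P : Subgroup G).subgroupOf M) (H.subgroupOf M)
    ((Subgroup.centralizer (H : Set G)).subgroupOf M)
    (by
      intro x
      rw [Subgroup.mem_subgroupOf, Subgroup.mem_centralizer_iff]
      constructor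
      · intro h y hy
        apply Subtype.ext
        exact (h y.1 hy).symm
      · intro h y hy
        have := h ⟨y, hHM hy⟩ (by rwa [Subgroup.mem_subgroupOf])
        exact (congrArg Subtype.val this).symm)
    (isPGroup_subgroupOf P.2)
    (fun x hx => hHP hx)
    (by
      rw [← Subgroup.relIndex, ← Subgroup.inf_relIndex_right]
      exact hSyl)
  obtain ⟨k1, k2⟩ := key
  set N' := (Cfsg.pCore p (↥M ⧸ (Subgroup.centralizer (H : Set G)).subgroupOf M)).comap
            (QuotientGroup.mk' ((Subgroup.centralizer (H : Set G)).subgroupOf M)) with hN'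
  have hmapH : (H.subgroupOf M).map M.subtype = H := Subgroup.map_subgroupOf_eq_of_le hHM
  have hmapC : ((Subgroup.centralizer (H : Set G)).subgroupOf M).map M.subtype =
      Subgroup.centralizer (H : Set G) := Subgroup.map_subgroupOf_eq_of_le hCM
  have hrel : H.relIndex (N'.map M.subtype) = (H.subgroupOf M).relIndex N' := by
    conv_lhs => rw [← hmapH]
    exact Subgroup.relIndex_map_map_of_injective _ _ M.subtype_injective
  have hle : H ≤ N'.map M.subtype := by
    rw [← hmapH]
    exact Subgroup.map_mono k1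
  rw [hrel]
  constructor
  · rintro ⟨-, h2⟩
    obtain ⟨h3, h4⟩ := k2.mp h2
    constructor
    · rintro x ⟨hxP, hxC⟩
      have : (⟨x, hCM hxC⟩ : M) ∈ (H.subgroupOf M) := h3 ⟨hxP, hxC⟩
      exact this
    · rw [h4, Subgroup.map_sup, hmapH, hmapC]
  · rintro ⟨h3, h4⟩
    refine ⟨hle, k2.mpr ⟨?_, ?_⟩⟩
    · rintro x ⟨hxP, hxC⟩
      exact h3 ⟨hxP, hxC⟩
    · apply Subgroup.map_injective M.subtype_injective
      rw [h4, Subgroup.map_sup, hmapH, hmapC]

end Cfsg.Agent.S3076
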