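import Cfsg.Statements.S3084
import Mathlib
import Cfsg.Agent.Lib.RealClifford.Final
import Cfsg.Agent.Lib.RealClifford.Construct

set_option autoImplicit false
open Cfsg

namespace Cfsg.Agent.S3084

open Cfsg.Agent.Lib.RealClifford
open scoped commutatorElement

/-- Let K be a group acting faithfully and linearly on a finite-dimensional vector space U of dimension 2n ≥ 2 over the field with two elements, preserving a quadratic form q whose polar bilinear form is non-degenerate and which vanishes on some n-dimensional subspace (a non-singular form of plus type). Then there is a finite group R with a normal extraspecial 2-subgroup Q of order 2^(2n+1), an isomorphism of R/Q with K, and a surjective homomorphism χ from Q onto (the additive group of) U with kernel the centre of Q, such that χ carries conjugation by any r in R to the action of the image of r in K, and an element a of Q squares to the identity exactly when q vanishes at χ(a). -/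
theorem result {K : Type*} [Group K] {U : Type*} [AddCommGroup U] [Module (ZMod 2) U] [Module.Finite (ZMod 2) U] (n : ℕ) (hn1 : 1 ≤ n) (hn : Module.finrank (ZMod 2) U = 2 * n) (ρ : Representation (ZMod 2) K U) (hρ : Function.Injective ρ) (q : QuadraticForm (ZMod 2) U) (hq : ∀ (k : K) (u : U), q (ρ k u) = q u) (hnd : (QuadraticMap.polarBilin q).Nondegenerate) (hplus : ∃ W : Submodule (ZMod 2) U, Module.finrank (ZMod 2) ↥W = n ∧ ∀ w ∈ W, q w = 0) : ∃ (R : Type) (_ : Group R) (_ : Finite R) (Q : Subgroup R) (hN : Q.Normal) (e : R ⧸ Q ≃* K) (χ : ↥Q →* Multiplicative U), Cfsg.IsExtraspecial 2 ↥Q ∧ Nat.card ↥Q = 2 ^ (2 * n + 1) ∧ Function.Surjective χ ∧ χ.ker = Subgroup.center ↥Q ∧ (∀ (r : R) (a : ↥Q), χ ⟨r * a * r⁻¹, hN.conj_mem (a : R) a.2 r⟩ = Multiplicative.ofAdd (ρ (e (r : R ⧸ Q)) (Multiplicative.toAdd (χ a)))) ∧ ∀ a : ↥Q, a * a = 1 ↔ q (Multiplicative.toAdd (χ a)) = 0 := by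
  obtain ⟨W, hW, hWq⟩ := hplus
  obtain ⟨π, a, ha, hπ, hsepa⟩ := exists_data n hn q hnd W hW hWq
  have M : Model q (Fin n → ZMod 2) := modelOf q π a ha hπ hsepa
  have hsep : ∀ u : U, (∀ v, QuadraticMap.polar q u v = 0) → u = 0 := fun u h => hnd.1 u h
  haveI hfU : Finite U := Module.finite_of_finite (ZMod 2)
  haveI : Nontrivial U := Module.nontrivial_of_finrank_pos (R := ZMod 2) (by omega)
  haveI hfK : Finite K := by
    refine Finite.of_injective (fun k => (ρ k : U → U)) ?_
    intro k k' h
    apply hρ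
    ext u
    exact congrFun h u
  haveI hfQ : Finite (piHat M ρ hsep hρ).ker := finite_ker hnd
  have hsurj := piHat_surjective (M := M) hsep hρ hq
  let e := QuotientGroup.quotientKerEquivOfSurjective (piHat M ρ hsep hρ) hsurj
  haveI hfq : Finite (Rr M ρ ⧸ (piHat M ρ hsep hρ).ker) := Finite.of_equiv _ e.symm.toEquiv
  haveI hfR : Finite (Rr M ρ) :=
    Finite.of_equiv _ (Subgroup.groupEquivQuotientProdSubgroup (s := (piHat M ρ hsep hρ).ker)).symm
  have hcardU : Nat.card U = 2 ^ (2 * n) := by
    rw [Module.natCard_eq_pow_finrank (K := ZMod 2), hn, Nat.card_zmod]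
  have hcardQ : Nat.card (piHat M ρ hsep hρ).ker = 2 ^ (2 * n + 1) := by
    have h1 := Subgroup.card_eq_card_quotient_mul_card_subgroup
      (chi (M := M) (ρ := ρ) (hsep := hsep) (hρ := hρ) hnd).ker
    rw [card_ker_chi] at h1
    have h2 := Nat.card_congr (QuotientGroup.quotientKerEquivOfSurjective
      (chi (M := M) (ρ := ρ) (hsep := hsep) (hρ := hρ) hnd) (chi_surj hnd)).toEquiv
    have h3 : Nat.card (Multiplicative U) = Nat.card U := Nat.card_congr Multiplicative.toAdd
    rw [h2, h3, hcardU] at h1
    rw [h1, pow_succ]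
  have hP : IsPGroup 2 (piHat M ρ hsep hρ).ker := IsPGroup.of_card hcardQ
  obtain ⟨u₀, hu₀⟩ := exists_ne (0 : U)
  have hv : ∃ v, QuadraticMap.polar q u₀ v ≠ 0 := by
    by_contra h
    push Not at h
    exact hu₀ (hsep u₀ h)
  obtain ⟨v₀, hv₀⟩ := hv
  have hv1 : QuadraticMap.polar q u₀ v₀ = 1 := (zmod2_cases _).resolve_left hv₀
  have hq1 : ∃ u₁, q u₁ = 1 := by
    by_contra h
    push Not at h
    have h0 : ∀ u, q u = 0 := fun u => (zmod2_cases _).resolve_right (h u)
    apply hv₀
    simp [QuadraticMap.polar, h0]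
  obtain ⟨u₁, hu₁⟩ := hq1
  have hscal : ∀ x : (piHat M ρ hsep hρ).ker, x ∈ Subgroup.center _ →
      x = 1 ∨ mat x = sg 1 • 1 := by
    intro x hx
    rw [← ker_eq_center hnd, mem_ker_chi] at hx
    obtain ⟨t, ht⟩ := scalar_of_chi hnd hx
    rcases zmod2_cases t with rfl | rfl
    · left
      apply mat_inj
      rw [ht, sg_zero, one_smul, mat_one]
    · right
      exact ht
  refine ⟨Rr M ρ, inferInstance, hfR, (piHat M ρ hsep hρ).ker, inferInstance, e, chi hnd, ?_, hcardQ,
    chi_surj hnd, ker_eq_center hnd, ?_, ?_⟩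
  · refine ⟨⟨hP, le_antisymm ?_ ?_, le_antisymm ?_ ?_⟩, ?_⟩
    · apply Cfsg.Agent.Lib.LargeES.Struct.frattini_le_of_sq
      intro s
      rw [← ker_eq_center hnd, mem_ker_chi, chiU_mul, add_self_mod2]
    · intro x hx
      rcases hscal x hx with rfl | h
      · exact one_mem _
      · have h1 : x = elt hnd 0 u₁ * elt hnd 0 u₁ := by
          apply mat_inj
          rw [mat_mul_self hnd, chiU_elt, hu₁, h]
        rw [h1]
        exact Cfsg.Agent.Lib.Techniques.MetaAut.sq_mem_frattini hP _
    · unfold commutator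
      rw [Subgroup.commutator_le]
      intro g _ g' _
      rw [← ker_eq_center hnd, MonoidHom.mem_ker, map_commutatorElement]
      exact commutatorElement_eq_one_iff_commute.mpr (Commute.all _ _)
    · intro x hx
      rcases hscal x hx with rfl | h
      · exact one_mem _
      · have h1 : x = ⁅(elt hnd 0 u₀ : (piHat M ρ hsep hρ).ker), (elt hnd 0 v₀ : (piHat M ρ hsep hρ).ker)⁆ := by
          have h2 : (elt hnd 0 u₀ : (piHat M ρ hsep hρ).ker) * elt hnd 0 v₀ = x * (elt hnd 0 v₀ * elt hnd 0 u₀) := by
            apply mat_inj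
            rw [mat_mul, mat_mul, mat_mul, h, mat_elt, mat_elt, sg_zero, one_smul, one_smul, M.p_comm, hv1,
              Matrix.smul_mul, Matrix.one_mul]
          rw [commutatorElement_def, h2]
          group
        rw [h1]
        exact Subgroup.commutator_mem_commutator (Subgroup.mem_top _) (Subgroup.mem_top _)
    · rw [← ker_eq_center hnd, card_ker_chi]
  · intro r x
    rw [chi_apply, chi_apply]
    congr 1
    exact chiU_conj hnd r x _ rfl
  · intro x
    rw [chi_apply]
    exact mul_self_eq_one_iff hnd x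

end Cfsg.Agent.S3084
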