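import Cfsg.Statements.S3087
import Mathlib

set_option autoImplicit false
open Cfsg

namespace Cfsg.Agent.S3087

/-- Let p be a prime, G a finite group acting linearly on a finite vector space V over the field with p elements, W a G-invariant subspace, and A a subgroup of G with |A|·|C_V(A)| ≥ |B|·|C_V(B)| for every subgroup B of A. Then |A|·|C_W(A)| ≥ |B|·|C_W(B)| for every subgroup B of A that contains C_A(W); that is, the image of A in the group induced on W satisfies the same maximality condition. -/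
theorem result {G V : Type*} [Group G] [Finite G] [AddCommGroup V] [Finite V] (p : ℕ) [Fact p.Prime] [Module (ZMod p) V]
    (ρ : Representation (ZMod p) G V) (W : Submodule (ZMod p) V) (hW : ∀ g : G, ∀ w ∈ W, ρ g w ∈ W)
    (A : Subgroup G)
    (hP : ∀ B : Subgroup G, B ≤ A →
      Nat.card ↥B * Nat.card {v : V // ∀ b ∈ B, ρ b v = v} ≤ Nat.card ↥A * Nat.card {v : V // ∀ a ∈ A, ρ a v = v})
    (B : Subgroup G) (hBA : B ≤ A) (hCB : ∀ a ∈ A, (∀ w ∈ W, ρ a w = w) → a ∈ B) :
    Nat.card ↥B * Nat.card {w : W // ∀ b ∈ B, ρ b w = w} ≤ Nat.card ↥A * Nat.card {w : W // ∀ a ∈ A, ρ a w = w} := by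
  classical
  have : Fintype V := Fintype.ofFinite V
  let CV : Subgroup G → Submodule (ZMod p) V := fun B =>
    { carrier := {v | ∀ b ∈ B, ρ b v = v}
      add_mem' := by
        intro x y hx hy b hb
        rw [map_add, hx b hb, hy b hb]
      zero_mem' := by
        intro b _
        exact map_zero _
      smul_mem' := by
        intro c x hx b hb
        rw [map_smul, hx b hb] }
  have hcard : ∀ (S : Submodule (ZMod p) V), Nat.card S = p ^ Module.finrank (ZMod p) S := by
    intro S
    have := Module.natCard_eq_pow_finrank (K := ZMod p) (V := S)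
    rwa [Nat.card_zmod] at this
  have hV : ∀ B : Subgroup G, Nat.card {v : V // ∀ b ∈ B, ρ b v = v} = Nat.card (CV B) := fun B => rfl
  have hWc : ∀ B : Subgroup G, Nat.card {w : W // ∀ b ∈ B, ρ b w = w} = Nat.card ↥(CV B ⊓ W) := by
    intro B
    apply Nat.card_congr
    exact
      { toFun := fun w => ⟨w.1.1, w.2, w.1.2⟩
        invFun := fun v => ⟨⟨v.1, v.2.2⟩, v.2.1⟩
        left_inv := fun w => rfl
        right_inv := fun v => rfl }
  have hP' := hP B hBA
  rw [hV, hV, hcard, hcard] at hP'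
  rw [hWc, hWc, hcard, hcard]
  set a := Module.finrank (ZMod p) (CV A)
  set b := Module.finrank (ZMod p) (CV B)
  set c := Module.finrank (ZMod p) ↥(CV B ⊓ W)
  set e := Module.finrank (ZMod p) ↥(CV A ⊓ W)
  have hAB : CV A ≤ CV B := fun v hv b hb => hv b (hBA hb)
  have hdim : c + a ≤ b + e := by
    have h1 := Submodule.finrank_sup_add_finrank_inf_eq (CV B ⊓ W) (CV A)
    have h2 : (CV B ⊓ W) ⊔ CV A ≤ CV B := sup_le inf_le_left hAB
    have h3 : (CV B ⊓ W) ⊓ CV A ≤ CV A ⊓ W := by
      intro v hv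
      exact ⟨hv.2, hv.1.2⟩
    have h4 := Submodule.finrank_mono h2
    have h5 := Submodule.finrank_mono h3
    omega
  have hp : 0 < p := (Fact.out : p.Prime).pos
  have hp1 : 1 ≤ p := hp
  have hpow : p ^ (c + a) ≤ p ^ (b + e) := Nat.pow_le_pow_right hp hdim
  rw [pow_add, pow_add] at hpow
  have hpa : 0 < p ^ a := pow_pos hp a
  apply Nat.le_of_mul_le_mul_right _ hpa
  calc Nat.card B * p ^ c * p ^ a = Nat.card B * (p ^ c * p ^ a) := by ring
    _ ≤ Nat.card B * (p ^ b * p ^ e) := Nat.mul_le_mul_left _ hpow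
    _ = (Nat.card B * p ^ b) * p ^ e := by ring
    _ ≤ (Nat.card A * p ^ a) * p ^ e := Nat.mul_le_mul_right _ hP'
    _ = _ := by ring

end Cfsg.Agent.S3087
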