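import Cfsg.Statements.S3103
import Mathlib
import Cfsg.Agent.Lib.Core.Basic
import Cfsg.Agent.Lib.Core.PFrattini
import Cfsg.Agent.Lib.FF.Hcond2
import Cfsg.Agent.Lib.Known3.GL42h
import Cfsg.Agent.Lib.Known3.AutEl

set_option autoImplicit false
open Cfsg

namespace Cfsg.Agent.S3103

open Cfsg.Agent.Lib.Core in
theorem pCore_eq_of_odd {X : Type*} [Group X] [Finite X] (hO : Cfsg.oddCore X = ⊥) :
    Cfsg.pPrimePCore 2 X = Cfsg.pCore 2 X := by
  haveI : Fact (Nat.Prime 2) := ⟨Nat.prime_two⟩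
  haveI hn : (Cfsg.pPrimePCore 2 X).Normal := by
    unfold Cfsg.pPrimePCore
    exact Subgroup.Normal.comap (pCore_normal 2 _) _
  apply le_antisymm
  · apply le_pCore hn
    rintro ⟨y, hy⟩
    obtain ⟨k, hk⟩ := pCore_isPGroup 2 (X ⧸ Cfsg.pPrimeCore 2 X) ⟨QuotientGroup.mk' _ y, hy⟩
    refine ⟨k, Subtype.ext ?_⟩
    have h1 : (QuotientGroup.mk' (Cfsg.pPrimeCore 2 X)) (y ^ (2 ^ k)) = 1 := by
      rw [map_pow]
      exact congrArg Subtype.val hk
    have h2 : y ^ (2 ^ k) ∈ Cfsg.pPrimeCore 2 X := (QuotientGroup.eq_one_iff _).mp h1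
    rw [show Cfsg.pPrimeCore 2 X = ⊥ from hO, Subgroup.mem_bot] at h2
    exact h2
  · intro x hx
    show (QuotientGroup.mk' (Cfsg.pPrimeCore 2 X)) x ∈ Cfsg.pCore 2 (X ⧸ Cfsg.pPrimeCore 2 X)
    have hle : (Cfsg.pCore 2 X).map (QuotientGroup.mk' (Cfsg.pPrimeCore 2 X)) ≤
        Cfsg.pCore 2 (X ⧸ Cfsg.pPrimeCore 2 X) := by
      apply le_pCore
      · exact Subgroup.Normal.map (pCore_normal 2 X) _ (QuotientGroup.mk'_surjective _)
      · exact (pCore_isPGroup 2 X).map _
    exact hle ⟨x, hx, rfl⟩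

open Cfsg.Agent.Lib.Core in
theorem centralizer_pCore_le {X : Type*} [Group X] [Finite X] (hc : Cfsg.IsPConstrained 2 X)
    (hO : Cfsg.oddCore X = ⊥) : Subgroup.centralizer ((Cfsg.pCore 2 X : Subgroup X) : Set X) ≤ Cfsg.pCore 2 X := by
  haveI : Fact (Nat.Prime 2) := ⟨Nat.prime_two⟩
  have he := pCore_eq_of_odd hO
  obtain ⟨P⟩ : Nonempty (Sylow 2 ↥(Cfsg.pPrimePCore 2 X)) := inferInstance
  have hpg : IsPGroup 2 ↥(Cfsg.pPrimePCore 2 X) := by
    rw [he]
    exact pCore_isPGroup 2 X
  have hP : (P : Subgroup ↥(Cfsg.pPrimePCore 2 X)) = ⊤ := by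
    have h1 : IsPGroup 2 (⊤ : Subgroup ↥(Cfsg.pPrimePCore 2 X)) := IsPGroup.to_subgroup hpg ⊤
    exact (P.is_maximal' h1 le_top).symm
  have h := hc P
  rw [hP, ← MonoidHom.range_eq_map, Subgroup.range_subtype, he] at h
  exact h

theorem frattini_index_le {X : Type*} [Group X] [Finite X] (hQ : IsPGroup 2 ↥(Cfsg.pCore 2 X))
    (h4 : Cfsg.SectionalPRankLE 2 4 ↥(Cfsg.pCore 2 X)) : (frattini ↥(Cfsg.pCore 2 X)).index ≤ 16 := by
  haveI : Fact (Nat.Prime 2) := ⟨Nat.prime_two⟩
  set Q := Cfsg.pCore 2 X with hQdef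
  let H : Subgroup ↥Q := ⊤
  let N : Subgroup ↥H := (frattini ↥Q).subgroupOf H
  haveI hN : N.Normal := Subgroup.normal_subgroupOf
  have hrank := h4 H N
  have hsq : ∀ a : ↥H ⧸ N, a * a = 1 := by
    intro a
    induction a using QuotientGroup.induction_on with
    | H u =>
      rw [← QuotientGroup.mk_mul, QuotientGroup.eq_one_iff]
      show ((u * u : ↥H) : ↥Q) ∈ frattini ↥Q
      have := (Cfsg.Agent.Lib.Core.frattini_pgroup 2 hQ).2 (u : ↥Q)
      rwa [pow_two] at this
  have hcomm : ∀ a b : ↥H ⧸ N, a * b = b * a := by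
    intro a b
    have ha : a⁻¹ = a := inv_eq_of_mul_eq_one_left (hsq a)
    have hb : b⁻¹ = b := inv_eq_of_mul_eq_one_left (hsq b)
    calc a * b = (a * b)⁻¹ := (inv_eq_of_mul_eq_one_left (hsq _)).symm
      _ = b⁻¹ * a⁻¹ := mul_inv_rev a b
      _ = b * a := by rw [ha, hb]
  have h5 := hrank ⊤ ⟨⟨fun a b => Subtype.ext (hcomm a.1 b.1)⟩⟩ (fun a _ => by rw [pow_two]; exact hsq a)
  rw [Subgroup.card_top] at h5
  have h6 : Nat.card (↥H ⧸ N) = (frattini ↥Q).index := by
    rw [← Subgroup.index_eq_card]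
    show (frattini ↥Q).relIndex ⊤ = _
    rw [Subgroup.relIndex_top_right]
  rw [h6] at h5
  simpa using h5

/-- Let X be a finite 2-constrained group with no nontrivial normal subgroup of odd order such that O₂(X) has sectional 2-rank at most 4. Then X/O₂(X) is isomorphic to a subgroup of the alternating group of degree 8. -/
theorem result {X : Type*} [Group X] [Finite X] (hc : Cfsg.IsPConstrained 2 X) (hO : Cfsg.oddCore X = ⊥)
    (h4 : Cfsg.SectionalPRankLE 2 4 ↥(Cfsg.pCore 2 X)) :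
    ∃ f : X ⧸ Cfsg.pCore 2 X →* ↥(alternatingGroup (Fin 8)), Function.Injective f := by
  classical
  haveI : Fact (Nat.Prime 2) := ⟨Nat.prime_two⟩
  set Q := Cfsg.pCore 2 X with hQdef
  haveI hQn : Q.Normal := Cfsg.Agent.Lib.Core.pCore_normal 2 X
  have hQ : IsPGroup 2 ↥Q := Cfsg.Agent.Lib.Core.pCore_isPGroup 2 X
  have hcent := centralizer_pCore_le hc hO
  have hidx := frattini_index_le hQ h4
  have hfr := Cfsg.Agent.Lib.Core.frattini_pgroup 2 hQ
  set F : Subgroup ↥Q := frattini ↥Q with hF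
  haveI hFc : F.Characteristic := frattini_characteristic
  haveI hFn : F.Normal := inferInstance
  let W := ↥Q ⧸ F
  -- the action on the Frattini quotient
  have hmap : ∀ x : X, F.map (MulAut.conjNormal x : MulAut ↥Q).toMonoidHom = F := by
    intro x
    exact (Subgroup.characteristic_iff_map_eq.mp hFc) _
  let ρ : X →* MulAut W :=
    { toFun := fun x => QuotientGroup.congr F F (MulAut.conjNormal x) (hmap x)
      map_one' := by
        ext w
        induction w using QuotientGroup.induction_on with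
        | H u =>
          show (QuotientGroup.mk' F) ((MulAut.conjNormal (1 : X)) u) = (QuotientGroup.mk' F) u
          rw [map_one]
          rfl
      map_mul' := by
        intro a b
        ext w
        induction w using QuotientGroup.induction_on with
        | H u =>
          show (QuotientGroup.mk' F) ((MulAut.conjNormal (a * b)) u) =
            (QuotientGroup.mk' F) ((MulAut.conjNormal a) ((MulAut.conjNormal b) u))
          rw [map_mul]
          rfl }
  have hρ : ∀ (x : X) (u : ↥Q), ρ x (u : W) = ((MulAut.conjNormal x u : ↥Q) : W) := fun x u => rfl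
  have hW2 : ∀ w : W, w * w = 1 := by
    intro w
    induction w using QuotientGroup.induction_on with
    | H u =>
      rw [← QuotientGroup.mk_mul, QuotientGroup.eq_one_iff]
      have := hfr.2 u
      rwa [pow_two] at this
  have hWc : Nat.card W ≤ 16 := by
    rw [← Subgroup.index_eq_card]
    exact hidx
  obtain ⟨ψ, hψ⟩ := Cfsg.Agent.Lib.Known3.AutEl.mulAut_embed W hW2 hWc
  let θ : X →* GL (Fin 4) (ZMod 2) := ψ.comp ρ
  -- `Q` acts trivially
  have hQtriv : ∀ q ∈ Q, θ q = 1 := by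
    intro q hq
    have h1 : ρ q = 1 := by
      ext w
      induction w using QuotientGroup.induction_on with
      | H u =>
        rw [hρ]
        show ((MulAut.conjNormal q u : ↥Q) : W) = (u : W)
        rw [QuotientGroup.eq]
        have h2 : (MulAut.conjNormal q u : ↥Q)⁻¹ * u =
            (⟨q, hq⟩ : ↥Q) * u⁻¹ * (⟨q, hq⟩ : ↥Q)⁻¹ * (u⁻¹)⁻¹ := by
          apply Subtype.ext
          simp [MulAut.conjNormal_apply]
          group
        rw [h2]
        have h3 := Subgroup.commutator_mem_commutator (Subgroup.mem_top (⟨q, hq⟩ : ↥Q)) (Subgroup.mem_top (u⁻¹ : ↥Q))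
        rw [commutatorElement_def] at h3
        exact hfr.1 h3
    show ψ (ρ q) = 1
    rw [h1, map_one]
  -- the kernel is a `2`-group
  have hker : ∀ x : X, θ x = 1 → x ∈ Q := by
    have hKp : IsPGroup 2 θ.ker := by
      rintro ⟨x, hx⟩
      have hx' : θ x = 1 := hx
      obtain ⟨a, w, hw, hord⟩ := Nat.exists_eq_pow_mul_and_not_dvd (n := orderOf x) (orderOf_pos x).ne' 2 (by norm_num)
      refine ⟨a, Subtype.ext ?_⟩
      set c := x ^ (2 ^ a) with hcdef
      have hcw : c ^ w = 1 := by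
        rw [hcdef, ← pow_mul, ← hord, pow_orderOf_eq_one]
      have hcop : Nat.Coprime (orderOf c) 2 := by
        have h1 : orderOf c ∣ w := orderOf_dvd_of_pow_eq_one hcw
        have h2 : Nat.Coprime w 2 := ((Nat.Prime.coprime_iff_not_dvd Nat.prime_two).mpr hw).symm
        exact Nat.Coprime.coprime_dvd_left h1 h2
      have hθc : θ c = 1 := by rw [hcdef, map_pow, hx', one_pow]
      have hρc : ρ c = 1 := hψ (by
        show ψ (ρ c) = ψ 1
        rw [map_one]
        exact hθc)
      have hcent2 := Cfsg.Agent.Lib.FF.centralizes_of_frattini_trivial Q hQ (c := c)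
        (fun u hu => hQn.conj_mem u hu c) hcop (by
          intro u hu
          have h3 : ρ c ((⟨u, hu⟩ : ↥Q) : W) = ((⟨u, hu⟩ : ↥Q) : W) := by rw [hρc]; rfl
          rw [hρ] at h3
          have h4 : ((⟨u, hu⟩ : ↥Q) : W) = ((MulAut.conjNormal c ⟨u, hu⟩ : ↥Q) : W) := h3.symm
          rw [QuotientGroup.eq] at h4
          exact ⟨_, h4, by simp [MulAut.conjNormal_apply]⟩)
      have hcQ : c ∈ Q := by
        apply hcent
        rw [Subgroup.mem_centralizer_iff]
        intro u hu
        have := hcent2 u hu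
        calc u * c = c * u * c⁻¹ * c := by rw [this]
          _ = c * u := by group
      obtain ⟨b, hb⟩ := hQ ⟨c, hcQ⟩
      have hc1 : c ^ (2 ^ b) = 1 := congrArg Subtype.val hb
      have h5 : orderOf c ∣ 2 ^ b := orderOf_dvd_of_pow_eq_one hc1
      have h6 : orderOf c = 1 := Nat.Coprime.eq_one_of_dvd (Nat.Coprime.pow_right b hcop) h5
      exact orderOf_eq_one_iff.mp h6
    have hle : θ.ker ≤ Q := Cfsg.Agent.Lib.Core.le_pCore (MonoidHom.normal_ker _) hKp
    intro x hx
    exact hle hx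
  obtain ⟨e⟩ := Cfsg.Agent.Lib.Known3.GL42.GL4_iso_A8
  refine ⟨e.toMonoidHom.comp (QuotientGroup.lift Q θ hQtriv), ?_⟩
  apply e.injective.comp
  rw [injective_iff_map_eq_one]
  intro w hw
  induction w using QuotientGroup.induction_on with
  | H x =>
    have h7 : θ x = 1 := hw
    exact (QuotientGroup.eq_one_iff x).mpr (hker x h7)

end Cfsg.Agent.S3103
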