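import Cfsg.Statements.S3155
import Mathlib

set_option autoImplicit false
open Cfsg


namespace Cfsg.Agent.S3155


/-- Let B be the direct product of three cyclic groups of order 4. Then the automorphism of B inverting every element is not the square of any automorphism of B. -/
theorem result {B : Type*} [CommGroup B] [Finite B] (hB : Nonempty (B ≃* Multiplicative (ZMod 4 × ZMod 4 × ZMod 4)))
    (τ : B ≃* B) : τ.trans τ ≠ MulEquiv.inv B := by
  intro h
  obtain ⟨e⟩ := hB
  let f : (ZMod 4 × ZMod 4 × ZMod 4) →+ (ZMod 4 × ZMod 4 × ZMod 4) :=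
    { toFun := fun v => Multiplicative.toAdd (e (τ (e.symm (Multiplicative.ofAdd v))))
      map_zero' := by simp
      map_add' := by intro a b; simp [ofAdd_add] }
  have hff : ∀ v, f (f v) = -v := by
    intro v
    have h1 : ∀ x : B, τ (τ x) = x⁻¹ := fun x => by
      have := congrArg (fun t : B ≃* B => t x) h
      simpa using this
    change Multiplicative.toAdd (e (τ (e.symm (Multiplicative.ofAdd (Multiplicative.toAdd (e (τ (e.symm (Multiplicative.ofAdd v))))))))) = -v
    simp [h1]
  let L := f.toZModLinearMap 4
  have hL : L * L = (-1 : ZMod 4) • (LinearMap.id : _ →ₗ[ZMod 4] _) := by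
    ext v <;> simp [L, hff]
  have hdet := congrArg LinearMap.det hL
  rw [map_mul, LinearMap.det_smul, LinearMap.det_id] at hdet
  haveI : Fact (1 < 4) := ⟨by norm_num⟩
  have hfin : Module.finrank (ZMod 4) (ZMod 4 × ZMod 4 × ZMod 4) = 3 := by
    rw [Module.finrank_prod, Module.finrank_prod, Module.finrank_self]
  rw [hfin] at hdet
  have key : ∀ x : ZMod 4, x * x ≠ (-1) ^ 3 * 1 := by decide
  exact key _ hdet

end Cfsg.Agent.S3155
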