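import Cfsg.Statements.S3156
import Mathlib
import Cfsg.Agent.Lib.Suz2.RigidUU

set_option autoImplicit false
open Cfsg

namespace Cfsg.Agent.S3156

/-- If a finite group T is isomorphic to a Sylow 2-subgroup of the projective special unitary group of dimension 3 with parameter 4 (realised over the field with 16 elements), then no subgroup of the automorphism group of T is isomorphic to the symmetric group of degree 3. -/
theorem result {T : Type*} [Group T] [Finite T] (hT : (∃ (F : Type) (_ : Field F) (_ : Fintype F), Fintype.card F = 16 ∧ ∃ S : Sylow 2 (Cfsg.PSU 3 F 4), Nonempty (T ≃* ↥(S : Subgroup (Cfsg.PSU 3 F 4))))) (H : Subgroup (MulAut T)) : ¬ Nonempty (↥H ≃* Equiv.Perm (Fin 3)) := by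
  rintro ⟨ε⟩
  obtain ⟨F, _, _, hF, S, ⟨e0⟩⟩ := hT
  have hF' : Fintype.card F = (2 ^ 2) ^ 2 := by
    rw [hF]
    norm_num
  have h2 := Cfsg.Agent.PSU2.two_eq_zero_of_card (n := 2) (by norm_num) hF'
  haveI : CharP F 2 := CharTwo.of_one_ne_zero_of_two_eq_zero one_ne_zero h2
  obtain ⟨e1⟩ := Cfsg.Agent.PSU2.sylow_equiv (n := 2) (by norm_num) hF' S
  let e := e0.trans e1
  let D := (Cfsg.Agent.Suz2.Rig.rdUU hF' h2).transport e
  haveI : Fact (Nat.Prime 2) := ⟨Nat.prime_two⟩
  have hd : Fintype.card F = 2 ^ 4 := by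
    rw [hF]
    norm_num
  have hG : Nat.card (F ≃+* F) = 4 := Cfsg.Agent.Lib.Chev.card_ringAut 2 4 hd
  have hσ3 : ∀ σ : F ≃+* F, (∀ a, σ (σ (σ a)) = a) → σ = RingEquiv.refl F := by
    intro σ hσ
    haveI : Finite (F ≃+* F) := Finite.of_injective (fun f : F ≃+* F => (f : F → F)) (fun a b h => by
      ext x
      exact congrFun h x)
    have h4 : σ ^ 4 = 1 := by
      have := pow_card_eq_one' (x := σ)
      rwa [hG] at this
    have h3 : σ ^ 3 = 1 := by
      ext a
      exact hσ a
    have h5 : σ = σ ^ 4 * (σ ^ 3)⁻¹ := by group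
    rw [h5, h4, h3]
    simp
    rfl
  have hτ : ∀ τ : F ≃+* F, (∀ a, τ (τ a) = a) → ∀ c : F, c ^ 3 = 1 → τ c = c := by
    intro τ hτ c hc
    rcases Cfsg.Agent.Suz2.Rig.invol_eq hF' τ hτ with rfl | rfl
    · rfl
    · show c ^ (2 ^ 2) = c
      have : c ^ (2 ^ 2) = c ^ 3 * c := by ring
      rw [this, hc, one_mul]
  -- the elements of the symmetric group
  let r : Equiv.Perm (Fin 3) := Equiv.swap 0 1 * Equiv.swap 1 2
  let s : Equiv.Perm (Fin 3) := Equiv.swap 0 1
  have hr3 : r ^ 3 = 1 := by decide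
  have hs2 : s ^ 2 = 1 := by decide
  have hrel : r * s * r = s := by decide
  have hr1 : r ≠ 1 := by decide
  have h4 := D.rho_trivial hσ3 hτ ((ε.symm r : H) : MulAut T) ((ε.symm s : H) : MulAut T)
    (by
      have : (ε.symm r) ^ 3 = 1 := by rw [← map_pow, hr3, map_one]
      exact congrArg Subtype.val this)
    (by
      have : (ε.symm s) ^ 2 = 1 := by rw [← map_pow, hs2, map_one]
      exact congrArg Subtype.val this)
    (by
      have : (ε.symm r) * (ε.symm s) * (ε.symm r) = ε.symm s := by rw [← map_mul, ← map_mul, hrel]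
      exact congrArg Subtype.val this)
  apply hr1
  have h5 : ε.symm r = 1 := Subtype.ext h4
  have h6 := congrArg ε h5
  rwa [ε.apply_symm_apply, map_one] at h6

end Cfsg.Agent.S3156
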