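import Cfsg.Statements.S3157
import Mathlib
import Cfsg.Agent.Lib.Ord64.Psi

set_option autoImplicit false
open Cfsg

namespace Cfsg.Agent.S3157

/-- Let T be a non-abelian group of order 64 admitting automorphisms ρ of order 3 and x of order 2 with x ρ x⁻¹ = ρ⁻¹ (so they generate a symmetric group of degree 3), where ρ fixes only the identity. Then T is isomorphic to a Sylow 2-subgroup of the projective special linear group of dimension 3 over the field with 4 elements, and the subgroup of fixed points of x is dihedral of order 8 or quaternion of order 8. -/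
theorem result {T : Type*} [Group T] [Finite T] (hT : Nat.card T = 64) (hna : ¬ IsMulCommutative T) (ρ x : MulAut T) (hρ : orderOf ρ = 3) (hx : orderOf x = 2)
    (hxr : x * ρ * x⁻¹ = ρ⁻¹) (hfp : ∀ y : T, ρ y = y → y = 1) (C : Subgroup T) (hC : ∀ y : T, y ∈ C ↔ x y = y) :
    (∃ (F : Type) (_ : Field F) (_ : Fintype F), Fintype.card F = 4 ∧
        ∃ S : Sylow 2 (Matrix.ProjectiveSpecialLinearGroup (Fin 3) F), Nonempty (T ≃* ↥(S : Subgroup (Matrix.ProjectiveSpecialLinearGroup (Fin 3) F)))) ∧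
      (Nonempty (↥C ≃* DihedralGroup 4) ∨ Nonempty (↥C ≃* QuaternionGroup 2)) := by
  classical
  have hρ3 : ρ ^ 3 = 1 := by rw [← hρ]; exact pow_orderOf_eq_one ρ
  have hx2' : x ^ 2 = 1 := by rw [← hx]; exact pow_orderOf_eq_one x
  have r3 : ∀ y, ρ (ρ (ρ y)) = y := by
    intro y
    have h := congrArg (fun f : MulAut T => f y) hρ3
    simpa [pow_succ, MulAut.mul_apply] using h
  have hfp' : Cfsg.Agent.Lib.Ord64.Fp (ρ : T ≃* T) := ⟨r3, hfp⟩
  have hna' : ∃ a b : T, a * b ≠ b * a := by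
    by_contra hcon
    push Not at hcon
    exact hna ⟨⟨hcon⟩⟩
  obtain ⟨h1, h2, h3, h4, h5⟩ := Cfsg.Agent.Lib.Ord64.struct64 hT hna' hfp'
  have S : Cfsg.Agent.Lib.Ord64.Sp (ρ : T ≃* T) := ⟨hfp', hT, hna', h1, h2, h3, h4, h5⟩
  have hx2 : ∀ y, x (x y) = y := by
    intro y
    have h := congrArg (fun f : MulAut T => f y) hx2'
    simpa [pow_succ, MulAut.mul_apply] using h
  have hinv : ρ⁻¹ = ρ * ρ := by
    rw [inv_eq_iff_mul_eq_one, ← pow_two, ← pow_succ']
    exact hρ3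
  have hxρ : ∀ y, x (ρ y) = ρ (ρ (x y)) := by
    intro y
    have h : x * ρ = ρ⁻¹ * x := by rw [← hxr]; group
    rw [hinv] at h
    have h' := congrArg (fun f : MulAut T => f y) h
    simpa [MulAut.mul_apply] using h'
  obtain ⟨z₀, hz, hz1, hzx⟩ := Cfsg.Agent.Lib.Ord64.exists_center_fix S hx2 hxρ
  obtain ⟨e, f, he, hf, hne⟩ := Cfsg.Agent.Lib.Ord64.exists_ef S hx2 hxρ hC hz hz1 hzx
  obtain ⟨φ⟩ := Cfsg.Agent.Lib.Ord64.heis_iso S he hf hne
  obtain ⟨P, ⟨ψ⟩⟩ := Cfsg.Agent.Lib.Ord64.exists_sylow_heis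
  refine ⟨⟨Cfsg.Agent.Lib.Classical.FF4.F4, inferInstance, inferInstance, Cfsg.Agent.Lib.Classical.FF4.card_F4, P, ⟨φ.symm.trans ψ⟩⟩, ?_⟩
  exact Cfsg.Agent.Lib.Ord64.C_iso S hx2 hxρ hC hz hz1 hzx

end Cfsg.Agent.S3157
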