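import Cfsg.Statements.S3162
import Mathlib
import Cfsg.Agent.Lib.Suz2.RigidUU

set_option autoImplicit false
open Cfsg

namespace Cfsg.Agent.S3162

/-- Let S be a Sylow 2-subgroup of the special unitary group of dimension 3 with parameter q = 2^n (n ≥ 2; realised over the field with q² elements). Then the largest normal 2-subgroup of the automorphism group of S is elementary abelian of order 2^(2n²), and the automorphism group has order 2^(2n²) · 2n(q² − 1). -/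
theorem result {S : Type*} [Group S] [Finite S] (n : ℕ) (hn : 2 ≤ n) {F : Type*} [Field F] [Fintype F] (hF : Fintype.card F = 4 ^ n)
    (P : Sylow 2 ↥(Cfsg.SU 3 F (2 ^ n))) (hS : Nonempty (S ≃* ↥(P : Subgroup ↥(Cfsg.SU 3 F (2 ^ n))))) :
    Cfsg.IsElementaryAbelian 2 (Cfsg.pCore 2 (MulAut S)) ∧ Nat.card ↥(Cfsg.pCore 2 (MulAut S)) = 2 ^ (2 * n ^ 2) ∧
      Nat.card (MulAut S) = 2 ^ (2 * n ^ 2) * (2 * n * ((2 ^ n) ^ 2 - 1)) := by
  classical
  have hF' : Fintype.card F = (2 ^ n) ^ 2 := by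
    rw [hF, ← pow_mul, mul_comm, pow_mul]
    norm_num
  have hn1 : 1 ≤ n := by omega
  have h2 := Cfsg.Agent.PSU2.two_eq_zero_of_card hn1 hF'
  haveI : CharP F 2 := CharTwo.of_one_ne_zero_of_two_eq_zero one_ne_zero h2
  obtain ⟨e0⟩ := hS
  obtain ⟨e1⟩ := Cfsg.Agent.Suz2.Rig.sylow_equiv_SU hn1 hF' P
  let e := e0.trans e1
  let D := (Cfsg.Agent.Suz2.Rig.rdUU hF' h2).transport e
  have hl := Cfsg.Agent.Suz2.Rig.RD.transport_lift (F := F) e (Cfsg.Agent.Suz2.Rig.rdUU hF' h2)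
    (Cfsg.Agent.Suz2.Rig.exists_lift hF')
  have hd : Fintype.card F = 2 ^ (2 * n) := by
    rw [hF', ← pow_mul, mul_comm]
  obtain ⟨h3, h4, h5⟩ := D.main hl (2 * n) hd
  have hz : Nat.card (Subgroup.center S) = 2 ^ n := by
    rw [Nat.card_congr (Subgroup.centerCongr e).toEquiv, Cfsg.Agent.PSU2.card_center h2]
  haveI : Fact (Nat.Prime 2) := ⟨Nat.prime_two⟩
  have hG : Nat.card (F ≃+* F) = 2 * n := Cfsg.Agent.Lib.Chev.card_ringAut 2 (2 * n) hd
  rw [hz] at h4 h5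
  have e2 : (2 ^ n) ^ (2 * n) = 2 ^ (2 * n ^ 2) := by
    rw [← pow_mul]
    congr 1
    ring
  rw [e2] at h4 h5
  refine ⟨h3, h4, ?_⟩
  rw [h5, hG, hF']
  ring

end Cfsg.Agent.S3162
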