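import Cfsg.Statements.S3171
import Mathlib
import Cfsg.Agent.Lib.PiwekK.Syl24
import Cfsg.Agent.Lib.PiwekK.GraphHom2
import Cfsg.Agent.Lib.PiwekK.Invol
import Cfsg.Agent.Lib.Classical.RingCongr
import Cfsg.Agent.Lib.KnownSimple.MathieuFacts

set_option autoImplicit false
open Cfsg

namespace Cfsg.Agent.S3171

set_option maxRecDepth 1000000

def ps : List (ℕ × ℕ) := [(34534041276516397827884784076154695644659595197364109396139907217381383, 10482611038782682234284313958786575822521046101909772001548073387929150255905228975295814446111), (20717047190752771420782371147440697160240954069186457655272759974955008, 4080041791263861455428159500447832996562105176065549149388856036401511206589033073391721492), (22434076904288266071979776657226571555107851648275884387966921656522759, 43865536712433578041546186879681490208116930541152511582703829777617489525208919648291948350491), (13806882458694342986372506103601025592069832362198597481542902958005266, 58458892284313098828875598168864325645860336725451012757546000080694864645547535810336896598046)]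
def gA : List ℕ := [64677986983846820954206561249956584216147483122313748044869057506897238758204912793768314274816, 39659111155499782640680037897300901793478878269570871374265994614944656316830841338125005887488, 12529866034374847354871140650938844084214419811664234807990756878238231987140586299766121450496, 64714631760843040576278783074537875209102687460475971234835852441617846040390405274840627938308, 43845208151109436961498585911296161987545715248063486285412886568764868157125293666204751242250, 43855399298869992667818067864549159398334520623547103975024989145232651759147342610469634450447]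
def Ll : List ℕ := [64724838855993384352379082037907059105176221407122184517161572653274043952872469967223243408384, 12529866034374847354871140650938844084214419811664234807990756878238231987140586299766121450496, 39638718874677702518318750240368005221806576300398666328547917974824815924177951213697435179012, 43845208151109436961498585911296161987545715248063486285412886568764868157125293666204751242250, 50113167850290650690603546540770611349470606778130756555413299036953865265475614434862644080650, 43845214128745298821474065218842883038269809689432117044796547183016526055480510837518615192591, 50113173827926512550579025848317332400194701219499387314796959651205523163830831606176508030991, 64724789078978867606552498719362884726031914949997420230613928591498292924650225954902983574546, 12529816257360330609044557332394669705070113354539470521443112816462480958918342287445861616658, 25047414285139489453443570694718136900396339385553618879982727659527769925902962273424669433879, 18799834886384868698755416716572450138822040683718167746366946039306540325928359431464216974362,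 2120554482467798609504470723648988279769433806791724224543432442482286510731376649150240160797]
def rs : List (ℕ × ℕ) := [(41761320347319257693438481424783437069858056429272075551714402246155777725517483904705677495296, 41761320347319257693438481424783437069858056429272075551714402246155777725517483904705677495296), (60548919086965627706346256156884210891134382733350725965950641719625593547908482158972894183425, 60548919086965627706346256156884210891134382733350725965950641719625593547908482158972894183425), (56372981400691276682970749124685362683613929753860160140951423381233243422767852106093748553729, 48021125932823001413569135029522534877461957609832428167375432342439855741834572935871438258179), (50113175815278684582416503514165146137183159581041101060898837156930076552204739054125417759746, 50113175815278684582416503514165146137183159581041101060898837156930076552204739054125417759746), (14613706048502681908942139484755208377028202220784968249812942016251449191899549735247327267842, 14613706048502681908942139484755208377028202220784968249812942016251449191899549735247327267842),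 (48021125932823001413569135029522534877461957609832428167375432342439855741834572935871438258179, 56372981400691276682970749124685362683613929753860160140951423381233243422767852106093748553729), (10437786279490117199505381602768840372136724419511114363657593306607852461962155513355495802883, 10437786279490117199505381602768840372136724419511114363657593306607852461962155513355495802883)]
def r0 : ℕ := 56372981400691276682970749124685362683613929753860160140951423381233243422767852106093748553729
abbrev pP0 : ℕ := 851119826488082514705985817327094471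
abbrev pP1 : ℕ := 507880071581777646719283383045325888
abbrev pP2 : ℕ := 543381362788678015017333240782113479
abbrev pP3 : ℕ := 335410565598714945829923689149577458

def gP : List ℕ := ps.map Prod.fst
def gS : List ℕ := ps.map Prod.snd

open Cfsg.Agent.Lib.KnownSimple.CodeCalc Cfsg.Agent.Lib.Golay Cfsg.Agent.Lib.Compute in
theorem chkP0 : checkPerm 24 (pc pP0) = true := by decide +kernel
open Cfsg.Agent.Lib.KnownSimple.CodeCalc Cfsg.Agent.Lib.Golay Cfsg.Agent.Lib.Compute Cfsg.Agent.Lib.KnownSimple.MathieuFacts in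
theorem codeP0 : enc.IsCode (ppm pP0) (pc pP0) := isCode_ppm chkP0
open Cfsg.Agent.Lib.KnownSimple.CodeCalc Cfsg.Agent.Lib.Golay Cfsg.Agent.Lib.Compute Cfsg.Agent.Lib.KnownSimple.MathieuFacts in
theorem memP0 : ppm pP0 ∈ Cfsg.M24 := mem_M24_of_check codeP0 (by decide +kernel)
open Cfsg.Agent.Lib.PiwekK Cfsg.Agent.Lib.Golay Cfsg.Agent.Lib.KnownSimple.CodeCalc in
theorem hdP0 : ∀ i : Fin 24, pc pP0 i.val = dig (gP.getD 0 0) i.val := by decide +kernel
open Cfsg.Agent.Lib.KnownSimple.CodeCalc Cfsg.Agent.Lib.Golay Cfsg.Agent.Lib.Compute in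
theorem chkP1 : checkPerm 24 (pc pP1) = true := by decide +kernel
open Cfsg.Agent.Lib.KnownSimple.CodeCalc Cfsg.Agent.Lib.Golay Cfsg.Agent.Lib.Compute Cfsg.Agent.Lib.KnownSimple.MathieuFacts in
theorem codeP1 : enc.IsCode (ppm pP1) (pc pP1) := isCode_ppm chkP1
open Cfsg.Agent.Lib.KnownSimple.CodeCalc Cfsg.Agent.Lib.Golay Cfsg.Agent.Lib.Compute Cfsg.Agent.Lib.KnownSimple.MathieuFacts in
theorem memP1 : ppm pP1 ∈ Cfsg.M24 := mem_M24_of_check codeP1 (by decide +kernel)
open Cfsg.Agent.Lib.PiwekK Cfsg.Agent.Lib.Golay Cfsg.Agent.Lib.KnownSimple.CodeCalc in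
theorem hdP1 : ∀ i : Fin 24, pc pP1 i.val = dig (gP.getD 1 0) i.val := by decide +kernel
open Cfsg.Agent.Lib.KnownSimple.CodeCalc Cfsg.Agent.Lib.Golay Cfsg.Agent.Lib.Compute in
theorem chkP2 : checkPerm 24 (pc pP2) = true := by decide +kernel
open Cfsg.Agent.Lib.KnownSimple.CodeCalc Cfsg.Agent.Lib.Golay Cfsg.Agent.Lib.Compute Cfsg.Agent.Lib.KnownSimple.MathieuFacts in
theorem codeP2 : enc.IsCode (ppm pP2) (pc pP2) := isCode_ppm chkP2
open Cfsg.Agent.Lib.KnownSimple.CodeCalc Cfsg.Agent.Lib.Golay Cfsg.Agent.Lib.Compute Cfsg.Agent.Lib.KnownSimple.MathieuFacts in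
theorem memP2 : ppm pP2 ∈ Cfsg.M24 := mem_M24_of_check codeP2 (by decide +kernel)
open Cfsg.Agent.Lib.PiwekK Cfsg.Agent.Lib.Golay Cfsg.Agent.Lib.KnownSimple.CodeCalc in
theorem hdP2 : ∀ i : Fin 24, pc pP2 i.val = dig (gP.getD 2 0) i.val := by decide +kernel
open Cfsg.Agent.Lib.KnownSimple.CodeCalc Cfsg.Agent.Lib.Golay Cfsg.Agent.Lib.Compute in
theorem chkP3 : checkPerm 24 (pc pP3) = true := by decide +kernel
open Cfsg.Agent.Lib.KnownSimple.CodeCalc Cfsg.Agent.Lib.Golay Cfsg.Agent.Lib.Compute Cfsg.Agent.Lib.KnownSimple.MathieuFacts in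
theorem codeP3 : enc.IsCode (ppm pP3) (pc pP3) := isCode_ppm chkP3
open Cfsg.Agent.Lib.KnownSimple.CodeCalc Cfsg.Agent.Lib.Golay Cfsg.Agent.Lib.Compute Cfsg.Agent.Lib.KnownSimple.MathieuFacts in
theorem memP3 : ppm pP3 ∈ Cfsg.M24 := mem_M24_of_check codeP3 (by decide +kernel)
open Cfsg.Agent.Lib.PiwekK Cfsg.Agent.Lib.Golay Cfsg.Agent.Lib.KnownSimple.CodeCalc in
theorem hdP3 : ∀ i : Fin 24, pc pP3 i.val = dig (gP.getD 3 0) i.val := by decide +kernel

section K

open Cfsg.Agent.Lib.PiwekK Equiv

theorem hvS : ∀ c ∈ gS, validB 32 c = true := by decide +kernel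
theorem hvA : ∀ c ∈ gA, validB 32 c = true := by decide +kernel
theorem hCK : checkC 32 gS 512 = true := by decide +kernel
theorem hCA : checkC 32 gA 64 = true := by decide +kernel
theorem hAK : ∀ c ∈ gA, memT c (elemsT 32 gS) = true := by decide +kernel
theorem chkSq : (toL (elemsT 32 gA)).all (fun c => Nat.beq (cmul 32 c c) (idc 32)) = true := by decide +kernel
theorem chkCm : (toL (elemsT 32 gA)).all (fun c => (toL (elemsT 32 gA)).all (fun d => Nat.beq (cmul 32 c d) (cmul 32 d c))) = true := by
  decide +kernel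
def nc (a x : ℕ) : Bool := !(Nat.beq (cmul 32 a x) (cmul 32 x a))
theorem chkI : (toL (elemsT 32 gS)).all (fun x => Ll.contains x ||
    gS.any (fun a => gS.any (fun b => nc a x && nc b x && nc (cmul 32 a b) x))) = true := by decide +kernel
theorem chkLl : Ll.length ≤ 12 := by decide +kernel
def inv4 (x : ℕ) : ℕ := cmul 32 (cmul 32 x x) x
theorem chkN : (toL (elemsT 32 gS)).all (fun x => Nat.beq (cmul 32 x (inv4 x)) (idc 32) &&
    gA.all (fun a => memT (cmul 32 (cmul 32 x a) (inv4 x)) (elemsT 32 gA))) = true := by decide +kernel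
theorem chkR : rs.all (fun p => validB 32 p.1 && validB 32 p.2 && Nat.beq (cmul 32 p.1 p.2) (idc 32) && memT p.1 (elemsT 32 gS)) = true := by
  decide +kernel
theorem chkCos : (toL (elemsT 32 gS)).all (fun x => memT x (elemsT 32 gA) ||
    rs.any (fun p => memT (cmul 32 p.2 x) (elemsT 32 gA))) = true := by decide +kernel
/-- the elements of `A` commuting with a list -/
def cfil (l : List ℕ) : List ℕ := (toL (elemsT 32 gA)).filter (fun a => l.all (fun p => Nat.beq (cmul 32 a p) (cmul 32 p a)))
theorem chk16 : rs.all (fun p => decide ((cfil [p.1]).length ≤ 16)) = true := by decide +kernel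
theorem chk8 : rs.all (fun p => rs.all (fun q => Nat.beq p.1 q.1 || decide ((cfil [p.1, q.1]).length ≤ 8))) = true := by decide +kernel
theorem chk4 : (cfil [r0]).length ≤ 4 := by decide +kernel
theorem vr0 : validB 32 r0 = true := by decide +kernel
theorem mr0 : memT r0 (elemsT 32 gS) = true := by decide +kernel

theorem hm32 : (32 : ℕ) ≤ 1024 := by norm_num

theorem vRs {p : ℕ × ℕ} (hp : p ∈ rs) : validB 32 p.1 = true ∧ validB 32 p.2 = true ∧
    Nat.beq (cmul 32 p.1 p.2) (idc 32) = true ∧ memT p.1 (elemsT 32 gS) = true := by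
  have h := (List.all_eq_true.mp chkR) p hp
  simp only [Bool.and_eq_true] at h
  exact ⟨h.1.1.1, h.1.1.2, h.1.2, h.2⟩

theorem perm_comm {σ τ : Perm (Fin 32)} (h : Nat.beq (cmul 32 (code σ) (code τ)) (cmul 32 (code τ) (code σ)) = true) :
    σ * τ = τ * σ := by
  apply code_injective hm32
  rw [code_mul hm32, code_mul hm32]
  exact Nat.beq_eq.mp h

theorem beq_of_comm {σ τ : Perm (Fin 32)} (h : σ * τ = τ * σ) :
    Nat.beq (cmul 32 (code σ) (code τ)) (cmul 32 (code τ) (code σ)) = true := by
  rw [Nat.beq_eq, ← code_mul hm32, ← code_mul hm32, h]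

theorem hle : grp 32 gA ≤ grp 32 gS := by
  refine (Subgroup.closure_le _).2 ?_
  rintro _ ⟨c, hc, rfl⟩
  exact permOf_of_memT' hm32 hvS (hvA c hc) (hAK c hc)

/-- the elementary abelian subgroup -/
noncomputable def AA : Subgroup (grp 32 gS) := (grp 32 gA).subgroupOf (grp 32 gS)

theorem mem_AA {x : grp 32 gS} : x ∈ AA ↔ (x : Perm (Fin 32)) ∈ grp 32 gA := Subgroup.mem_subgroupOf

theorem card_AA : Nat.card AA = 64 := by
  have e : AA ≃* grp 32 gA := Subgroup.subgroupOfEquivOfLe hle
  rw [Nat.card_congr e.toEquiv, card_grp hCA]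

theorem code_AA {x : grp 32 gS} (hx : x ∈ AA) : code (x : Perm (Fin 32)) ∈ toL (elemsT 32 gA) :=
  (mem_elemsC_iff hCA _).2 (mem_AA.mp hx)

theorem AA_comm : ∀ a ∈ AA, ∀ b ∈ AA, a * b = b * a := by
  intro a ha b hb
  apply Subtype.ext
  apply perm_comm
  have h := (List.all_eq_true.mp chkCm) _ (code_AA ha)
  exact (List.all_eq_true.mp h) _ (code_AA hb)

theorem AA_sq : ∀ a ∈ AA, a ^ 2 = 1 := by
  intro a ha
  apply Subtype.ext
  have h := (List.all_eq_true.mp chkSq) _ (code_AA ha)
  rw [Nat.beq_eq, ← code_mul hm32, ← code_one] at h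
  have e := code_injective hm32 h
  show ((a : Perm (Fin 32))) ^ 2 = 1
  rw [pow_two]
  exact e

theorem AA_elem : Cfsg.IsElementaryAbelian 2 AA := by
  refine ⟨⟨⟨?_⟩⟩, AA_sq⟩
  rintro ⟨a, ha⟩ ⟨b, hb⟩
  exact Subtype.ext (AA_comm a ha b hb)

theorem inv4_spec {x : grp 32 gS} : (x : Perm (Fin 32))⁻¹ = (x : Perm (Fin 32)) * x * x ∧
    inv4 (code (x : Perm (Fin 32))) = code ((x : Perm (Fin 32))⁻¹) := by
  have hx := (mem_elemsC_iff hCK _).2 x.2
  have h := (List.all_eq_true.mp chkN) _ hx
  simp only [Bool.and_eq_true] at h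
  have h1 := h.1
  have e0 : inv4 (code (x : Perm (Fin 32))) = code ((x : Perm (Fin 32)) * (x : Perm (Fin 32)) * (x : Perm (Fin 32))) := by
    unfold inv4
    rw [← code_mul hm32, ← code_mul hm32]
  rw [e0, Nat.beq_eq, ← code_mul hm32, ← code_one] at h1
  have e1 := code_injective hm32 h1
  have e2 : (x : Perm (Fin 32))⁻¹ = (x : Perm (Fin 32)) * x * x := (eq_inv_of_mul_eq_one_right e1).symm
  exact ⟨e2, by rw [e0, e2]⟩

instance AA_normal : AA.Normal := by
  refine ⟨?_⟩
  intro n hn g
  rw [mem_AA] at hn ⊢
  show (g : Perm (Fin 32)) * n * (g : Perm (Fin 32))⁻¹ ∈ grp 32 gA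
  have hg := (mem_elemsC_iff hCK _).2 g.2
  have h := (List.all_eq_true.mp chkN) _ hg
  simp only [Bool.and_eq_true, List.all_eq_true] at h
  have hbase : ∀ a ∈ gA, (g : Perm (Fin 32)) * permOf 32 a * (g : Perm (Fin 32))⁻¹ ∈ grp 32 gA := by
    intro a ha
    apply mem_of_memT hm32 hvA
    have h2 := h.2 a ha
    rw [inv4_spec.2] at h2
    rw [code_mul hm32, code_mul hm32, code_permOf (hvA a ha)]
    exact h2
  have hall : ∀ y ∈ grp 32 gA, (g : Perm (Fin 32)) * y * (g : Perm (Fin 32))⁻¹ ∈ grp 32 gA := by
    intro y hy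
    induction hy using Subgroup.closure_induction with
    | mem x hx =>
      obtain ⟨c, hc, rfl⟩ := hx
      exact hbase c hc
    | one => simp
    | mul x y _ _ hx hy =>
      have : (g : Perm (Fin 32)) * (x * y) * (g : Perm (Fin 32))⁻¹ =
          ((g : Perm (Fin 32)) * x * (g : Perm (Fin 32))⁻¹) * ((g : Perm (Fin 32)) * y * (g : Perm (Fin 32))⁻¹) := by group
      rw [this]
      exact Subgroup.mul_mem _ hx hy
    | inv x _ hx =>
      have : (g : Perm (Fin 32)) * x⁻¹ * (g : Perm (Fin 32))⁻¹ = ((g : Perm (Fin 32)) * x * (g : Perm (Fin 32))⁻¹)⁻¹ := by group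
      rw [this]
      exact Subgroup.inv_mem _ hx
  exact hall _ hn

/-- A bound for the elements of `A` commuting with a list of elements. -/
theorem card_cfil (l : List ℕ) (hl : ∀ p ∈ l, validB 32 p = true) (C : Subgroup (grp 32 gS)) (hC : C ≤ AA)
    (h : ∀ c ∈ C, ∀ p ∈ l, (c : Perm (Fin 32)) * permOf 32 p = permOf 32 p * c) : Nat.card C ≤ (cfil l).length := by
  refine card_le_of_code hm32 (fun c : C => ((c : grp 32 gS) : Perm (Fin 32))) ?_ _ ?_
  · intro a b hab
    exact Subtype.ext (Subtype.ext hab)
  · rintro ⟨c, hc⟩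
    refine List.mem_filter.mpr ⟨code_AA (hC hc), List.all_eq_true.mpr ?_⟩
    intro p hp
    have h1 := beq_of_comm (h c hc p hp)
    rwa [code_permOf (hl p hp)] at h1

/-- the representatives -/
def RR : Set (grp 32 gS) := {r | ∃ p ∈ rs, (r : Perm (Fin 32)) = permOf 32 p.1}

theorem hR : ∀ x, x ∉ AA → ∃ r ∈ RR, r⁻¹ * x ∈ AA := by
  intro x hx
  have hc := (mem_elemsC_iff hCK _).2 x.2
  have h := (List.all_eq_true.mp chkCos) _ hc
  simp only [Bool.or_eq_true, List.any_eq_true, Bool.and_eq_true] at h
  rcases h with h | ⟨p, hp, h⟩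
  · exfalso
    exact hx (mem_AA.mpr (mem_of_memT hm32 hvA h))
  · obtain ⟨v1, v2, hb, hm⟩ := vRs hp
    have e1 : permOf 32 p.1 * permOf 32 p.2 = 1 := by
      apply code_injective hm32
      rw [code_mul hm32, code_permOf v1, code_permOf v2, code_one]
      exact Nat.beq_eq.mp hb
    have hmem : permOf 32 p.1 ∈ grp 32 gS := permOf_of_memT' hm32 hvS v1 hm
    refine ⟨⟨permOf 32 p.1, hmem⟩, ⟨p, hp, rfl⟩, ?_⟩
    rw [mem_AA]
    apply mem_of_memT hm32 hvA
    have e2 : (permOf 32 p.1)⁻¹ = permOf 32 p.2 := (eq_inv_of_mul_eq_one_right e1).symm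
    show memT (code ((permOf 32 p.1)⁻¹ * (x : Perm (Fin 32)))) _ = true
    rw [e2, code_mul hm32, code_permOf v2]
    exact h

theorem h16 : ∀ r ∈ RR, ∀ C : Subgroup (grp 32 gS), C ≤ AA → (∀ c ∈ C, c * r = r * c) → Nat.card C ≤ 16 := by
  rintro r ⟨p, hp, hr⟩ C hC hc
  obtain ⟨v1, -, -, -⟩ := vRs hp
  refine (card_cfil [p.1] (by simpa using v1) C hC ?_).trans ?_
  · intro c hcC q hq
    rw [List.mem_singleton] at hq
    rw [hq, ← hr]
    exact congrArg Subtype.val (hc c hcC)
  · exact of_decide_eq_true ((List.all_eq_true.mp chk16) p hp)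

theorem h8 : ∀ r ∈ RR, ∀ s ∈ RR, r ≠ s → ∀ C : Subgroup (grp 32 gS), C ≤ AA →
    (∀ c ∈ C, c * r = r * c ∧ c * s = s * c) → Nat.card C ≤ 8 := by
  rintro r ⟨p, hp, hr⟩ s ⟨q, hq, hs⟩ hrs C hC hc
  obtain ⟨v1, -, -, -⟩ := vRs hp
  obtain ⟨v2, -, -, -⟩ := vRs hq
  have h0 := (List.all_eq_true.mp ((List.all_eq_true.mp chk8) p hp)) q hq
  rw [Bool.or_eq_true] at h0
  rcases h0 with h0 | h0
  · exfalso
    apply hrs
    apply Subtype.ext
    rw [hr, hs, Nat.beq_eq.mp h0]
  · refine (card_cfil [p.1, q.1] ?_ C hC ?_).trans (of_decide_eq_true h0)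
    · intro w hw
      simp only [List.mem_cons, List.not_mem_nil, or_false] at hw
      rcases hw with rfl | rfl
      · exact v1
      · exact v2
    · intro c hcC w hw
      simp only [List.mem_cons, List.not_mem_nil, or_false] at hw
      rcases hw with rfl | rfl
      · rw [← hr]
        exact congrArg Subtype.val (hc c hcC).1
      · rw [← hs]
        exact congrArg Subtype.val (hc c hcC).2

/-- the element with a small centraliser -/
noncomputable def r₀' : grp 32 gS := ⟨permOf 32 r0, permOf_of_memT' hm32 hvS vr0 mr0⟩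

theorem h4 : ∀ C : Subgroup (grp 32 gS), C ≤ AA → (∀ c ∈ C, c * r₀' = r₀' * c) → Nat.card C ≤ 4 := by
  intro C hC hc
  refine (card_cfil [r0] (by simpa using vr0) C hC ?_).trans chk4
  intro c hcC q hq
  rw [List.mem_singleton] at hq
  rw [hq]
  exact congrArg Subtype.val (hc c hcC)

theorem card_K : Nat.card (grp 32 gS) = 512 := card_grp hCK

theorem goodK : GoodS (grp 32 gS) := by
  refine ⟨?_, ⟨AA, AA_elem, card_AA⟩, ?_⟩
  · intro M hM
    let LS : Set (grp 32 gS) := {x | code (x : Perm (Fin 32)) ∈ Ll}
    refine center_coatom_le (k := 9) (by rw [card_K]; norm_num) LS ?_ ?_ hM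
    · refine le_trans (card_le_of_code hm32 (fun x : LS => ((x : grp 32 gS) : Perm (Fin 32))) ?_ Ll (fun x => x.2)) chkLl
      intro a b hab
      exact Subtype.ext (Subtype.ext hab)
    · intro x hx
      have hc := (mem_elemsC_iff hCK _).2 x.2
      have h := (List.all_eq_true.mp chkI) _ hc
      simp only [Bool.or_eq_true, List.any_eq_true, Bool.and_eq_true, List.contains_iff_mem] at h
      rcases h with h | ⟨a, ha, b, hb, ⟨h1, h2⟩, h3⟩
      · exact absurd h hx
      · have key : ∀ (u : grp 32 gS), nc (code (u : Perm (Fin 32))) (code (x : Perm (Fin 32))) = true → u * x ≠ x * u := by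
          intro u hu he
          have e1 : (u : Perm (Fin 32)) * x = x * u := congrArg Subtype.val he
          have := beq_of_comm e1
          simp only [nc] at hu
          rw [this] at hu
          exact Bool.noConfusion hu
        refine ⟨⟨permOf 32 a, permOf_mem_grp ha⟩, ⟨permOf 32 b, permOf_mem_grp hb⟩, ?_, ?_, ?_⟩
        · apply key
          show nc (code (permOf 32 a)) _ = true
          rw [code_permOf (hvS a ha)]
          exact h1
        · apply key
          show nc (code (permOf 32 b)) _ = true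
          rw [code_permOf (hvS b hb)]
          exact h2
        · apply key
          show nc (code (permOf 32 a * permOf 32 b)) _ = true
          rw [code_mul hm32, code_permOf (hvS a ha), code_permOf (hvS b hb)]
          exact h3
  · intro A B hAc hA hBc hB
    have key : ∀ D : Subgroup (grp 32 gS), IsMulCommutative D → Nat.card D = 64 → D = AA := by
      intro D hDc hD
      refine uniq_abelian AA AA_comm card_AA card_K RR hR h16 h8 r₀' h4 D ?_ hD
      intro a ha b hb
      have := hDc.is_comm.comm ⟨a, ha⟩ ⟨b, hb⟩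
      exact congrArg Subtype.val this
    rw [key A hAc hA, key B hBc hB]

theorem hGH : checkGraphH 24 32 ps 1024 = true := by decide +kernel
theorem chkZ : ((toL (elemsT 24 gP)).filter (fun x => gP.all (fun g => Nat.beq (cmul 24 x g) (cmul 24 g x)))).length ≤ 2 := by
  decide +kernel
theorem hCP : checkC 24 gP 1024 = true := by decide +kernel
theorem hvP : ∀ c ∈ gP, validB 24 c = true := by decide +kernel

theorem hm24 : (24 : ℕ) ≤ 1024 := by norm_num

theorem center_P : Nat.card (Subgroup.center (grp 24 gP)) ≤ 2 := by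
  refine le_trans (card_le_of_code hm24 (fun z : Subgroup.center (grp 24 gP) => ((z : grp 24 gP) : Perm (Fin 24))) ?_ _ ?_) chkZ
  · intro a b hab
    exact Subtype.ext (Subtype.ext hab)
  · rintro ⟨z, hz⟩
    refine List.mem_filter.mpr ⟨(mem_elemsC_iff hCP _).2 z.2, List.all_eq_true.mpr ?_⟩
    intro g hg
    have h1 := (Subgroup.mem_center_iff.mp hz) ⟨permOf 24 g, permOf_mem_grp hg⟩
    have h2 : permOf 24 g * (z : Perm (Fin 24)) = (z : Perm (Fin 24)) * permOf 24 g := congrArg Subtype.val h1
    rw [Nat.beq_eq]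
    nth_rewrite 1 [← code_permOf (hvP g hg)]
    nth_rewrite 2 [← code_permOf (hvP g hg)]
    rw [← code_mul hm24, ← code_mul hm24, h2]

theorem goodP : GoodS (grp 24 gP ⧸ Subgroup.center (grp 24 gP)) := by
  obtain ⟨⟨f, hf⟩, hn⟩ := graph_hom hGH
  obtain ⟨e⟩ := quot_center_equiv (G := grp 24 gP) (K := grp 32 gS) f hf (by
    show Nat.card (grp 24 gP) = 2 * Nat.card (grp 32 gS)
    rw [card_K, card_grp hCP]) center_P
  exact goodS_transfer e.symm goodK

end K

/-- the points of the code -/
def EE : Cfsg.GolayPt ≃ Fin 24 where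
  toFun a := ⟨Cfsg.Agent.Lib.Golay.idx a, Cfsg.Agent.Lib.Golay.idx_lt a⟩
  invFun i := Cfsg.Agent.Lib.Golay.pt i.val
  left_inv a := Cfsg.Agent.Lib.Golay.pt_idx a
  right_inv i := Fin.ext (Cfsg.Agent.Lib.Golay.idx_pt i.2)

open Cfsg.Agent.Lib.PiwekK Cfsg.Agent.Lib.Golay Cfsg.Agent.Lib.KnownSimple.CodeCalc in
theorem conj_eq {σ : Equiv.Perm Cfsg.GolayPt} {p c : ℕ} (h : enc.IsCode σ (pc p)) (hv : validB 24 c = true)
    (hd : ∀ i : Fin 24, pc p i.val = dig c i.val) : EE.permCongrHom σ = permOf 24 c := by
  ext i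
  rw [dig_permOf hv (by norm_num), ← hd i]
  have h1 := h (pt i.val)
  rw [enc_idx, idx_pt i.2] at h1
  rw [h1]
  rfl

open Cfsg.Agent.Lib.PiwekK Cfsg.Agent.Lib.KnownSimple.CodeCalc Cfsg.Agent.Lib.Golay Cfsg.Agent.Lib.Compute in
/-- the Sylow subgroup in the group of the code -/
noncomputable def TT : Subgroup (Equiv.Perm Cfsg.GolayPt) := Subgroup.closure ({ppm pP0, ppm pP1, ppm pP2, ppm pP3} : Set P24)

open Cfsg.Agent.Lib.PiwekK Cfsg.Agent.Lib.KnownSimple.CodeCalc in
theorem TT_le : TT ≤ Cfsg.M24 := by
  refine (Subgroup.closure_le _).2 ?_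
  rintro σ (rfl | rfl | rfl | rfl)
  · exact memP0
  · exact memP1
  · exact memP2
  · exact memP3

open Cfsg.Agent.Lib.PiwekK Cfsg.Agent.Lib.KnownSimple.CodeCalc in
theorem TT_map : TT.map (EE.permCongrHom.toMonoidHom) = grp 24 gP := by
  have h0 := conj_eq codeP0 (hvP (gP.getD 0 0) (by decide +kernel)) hdP0
  have h1 := conj_eq codeP1 (hvP (gP.getD 1 0) (by decide +kernel)) hdP1
  have h2 := conj_eq codeP2 (hvP (gP.getD 2 0) (by decide +kernel)) hdP2
  have h3 := conj_eq codeP3 (hvP (gP.getD 3 0) (by decide +kernel)) hdP3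
  unfold TT
  rw [MonoidHom.map_closure]
  unfold grp
  congr 1
  ext σ
  constructor
  · rintro ⟨τ, (rfl | rfl | rfl | rfl), rfl⟩
    · exact ⟨gP.getD 0 0, by decide +kernel, h0⟩
    · exact ⟨gP.getD 1 0, by decide +kernel, h1⟩
    · exact ⟨gP.getD 2 0, by decide +kernel, h2⟩
    · exact ⟨gP.getD 3 0, by decide +kernel, h3⟩
  · rintro ⟨c, hc, rfl⟩
    have hc' : c = gP.getD 0 0 ∨ c = gP.getD 1 0 ∨ c = gP.getD 2 0 ∨ c = gP.getD 3 0 := by
      revert c
      decide +kernel
    rcases hc' with rfl | rfl | rfl | rfl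
    · exact ⟨_, Or.inl rfl, h0⟩
    · exact ⟨_, Or.inr (Or.inl rfl), h1⟩
    · exact ⟨_, Or.inr (Or.inr (Or.inl rfl)), h2⟩
    · exact ⟨_, Or.inr (Or.inr (Or.inr rfl)), h3⟩

open Cfsg.Agent.Lib.PiwekK in
theorem TT_equiv : Nonempty (TT.subgroupOf Cfsg.M24 ≃* grp 24 gP) :=
  ⟨(Subgroup.subgroupOfEquivOfLe TT_le).trans
    ((EE.permCongrHom.subgroupMap TT).trans (MulEquiv.subgroupCongr TT_map))⟩

open Cfsg.Agent.Lib.PiwekK in
theorem sylow_P (P : Sylow 2 ↥Cfsg.M24) : Nonempty (↥(P : Subgroup ↥Cfsg.M24) ≃* grp 24 gP) := by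
  obtain ⟨e⟩ := TT_equiv
  have hc : Nat.card (TT.subgroupOf Cfsg.M24) = 2 ^ (Nat.card ↥Cfsg.M24).factorization 2 := by
    rw [Nat.card_congr e.toEquiv, card_grp hCP, Cfsg.Agent.Lib.Golay.card_M24,
      show 244823040 = 2 ^ 10 * 239085 by norm_num, fac2_of (by norm_num)]
    norm_num
  let P₀ : Sylow 2 ↥Cfsg.M24 := Sylow.ofCard _ hc
  have e₀ : (P : Subgroup ↥Cfsg.M24) ≃* TT.subgroupOf Cfsg.M24 := Sylow.equiv P P₀
  exact ⟨e₀.trans e⟩

/-- Let P be a Sylow 2-subgroup of the Mathieu group of degree 24 and S the quotient of P by its centre. Then the centre of every maximal subgroup of S has order at most 8; S has an elementary abelian subgroup of order 64; and S has only one abelian subgroup of order 64. -/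
theorem result (P : Sylow 2 ↥Cfsg.M24) :
    (∀ M : Subgroup (↥(P : Subgroup ↥Cfsg.M24) ⧸ Subgroup.center ↥(P : Subgroup ↥Cfsg.M24)), IsCoatom M →
        Nat.card ↥(Subgroup.center ↥M) ≤ 8) ∧
      (∃ A : Subgroup (↥(P : Subgroup ↥Cfsg.M24) ⧸ Subgroup.center ↥(P : Subgroup ↥Cfsg.M24)),
        Cfsg.IsElementaryAbelian 2 A ∧ Nat.card ↥A = 64) ∧
      ∀ A B : Subgroup (↥(P : Subgroup ↥Cfsg.M24) ⧸ Subgroup.center ↥(P : Subgroup ↥Cfsg.M24)),
        IsMulCommutative ↥A → Nat.card ↥A = 64 → IsMulCommutative ↥B → Nat.card ↥B = 64 → A = B := by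
  obtain ⟨e⟩ := sylow_P P
  exact Cfsg.Agent.Lib.PiwekK.goodS_transfer
    (QuotientGroup.congr _ _ e.symm (Cfsg.Agent.Lib.Classical.RC.map_center_eq e.symm)) goodP

end Cfsg.Agent.S3171
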