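import Cfsg.Statements.S3175
import Mathlib
import Cfsg.Agent.Lib.RuSyl.Norm
import Cfsg.Agent.Lib.RuSyl.Odd
import Cfsg.Agent.Lib.RuSyl.Weak

set_option autoImplicit false
open Cfsg


namespace Cfsg.Agent.S3175


/-- Let G be a finite group whose Sylow 2-subgroup T has order at least 2^14 and whose upper central series has fourth term of order 16; let W be the centralizer in T of the third term, and suppose the Frattini subgroup of W has order at most 8 and lies in every subgroup of W of index at most 16. Then the normalizer of T in G has a normal 2-complement, and W is weakly closed in T with respect to G. -/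
theorem result {G : Type*} [Group G] [Finite G]
    (T : Sylow 2 G) (ha : 2 ^ 14 ≤ Nat.card ↥(T : Subgroup G))
    (hb : Nat.card ↥(Subgroup.upperCentralSeries ↥(T : Subgroup G) 4) = 16)
    (W : Subgroup ↥(T : Subgroup G))
    (hW : W = Subgroup.centralizer ((Subgroup.upperCentralSeries ↥(T : Subgroup G) 3 : Subgroup ↥(T : Subgroup G)) : Set ↥(T : Subgroup G)))
    (hc : Nat.card ↥(frattini ↥W) ≤ 8)
    (hd : ∀ U : Subgroup ↥W, U.index ≤ 16 → frattini ↥W ≤ U) :
    Cfsg.HasNormalPComplement 2 ↥(Subgroup.normalizer ((T : Subgroup G) : Set G)) ∧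
      Cfsg.IsWeaklyClosed (W.map (T : Subgroup G).subtype) (T : Subgroup G) := by
  classical
  haveI : Fact (Nat.Prime 2) := ⟨Nat.prime_two⟩
  have hTp : IsPGroup 2 ↥(T : Subgroup G) := T.isPGroup'
  refine ⟨Cfsg.Agent.Lib.RuSyl.normal_compl_of_odd T (fun α k hα =>
    Cfsg.Agent.Lib.RuSyl.odd_aut_trivial hTp ha hb W hW hc hd α k hα), Subgroup.map_subtype_le _, ?_⟩
  intro g hg
  let φ : ↥W ≃* ↥(((W.map (T : Subgroup G).subtype).map (MulAut.conj g).toMonoidHom).subgroupOf (T : Subgroup G)) :=
    (W.equivMapOfInjective _ (Subgroup.subtype_injective _)).trans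
      (((W.map (T : Subgroup G).subtype).equivMapOfInjective _ (MulAut.conj g).injective).trans
        (Subgroup.subgroupOfEquivOfLe hg).symm)
  have h1 := Cfsg.Agent.Lib.RuSyl.weak_closed hTp ha hb W hW hc hd _ φ
  have h2 := Subgroup.map_subgroupOf_eq_of_le hg
  rw [h1] at h2
  exact h2.symm

end Cfsg.Agent.S3175
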