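import Cfsg.Statements.S3178
import Mathlib
import Cfsg.Agent.Lib.InvolChar.Basic
import Cfsg.Agent.Lib.InvolChar.Transfer
import Cfsg.Agent.Lib.InvolChar.Cyclic

set_option autoImplicit false
open Cfsg


namespace Cfsg.Agent.S3178

theorem zmod2_mul_eq_one : ∀ y : Multiplicative (ZMod 2), y ≠ 1 → ∀ y' : Multiplicative (ZMod 2), y' ≠ 1 → y * y' = 1 := by
  decide

section aux
variable {G : Type*} [Group G] {a b : G} {Q : ℕ}

theorem conj_pow_b (hrel : b * a * b⁻¹ = a ^ (4 * Q + 1)) (i : ℕ) :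
    b * a ^ i * b⁻¹ = a ^ (i * (4 * Q + 1)) := by
  rw [← conj_pow, hrel, ← pow_mul, mul_comm]

theorem sq_formula (hb2 : b * b = 1) (hrel : b * a * b⁻¹ = a ^ (4 * Q + 1)) (i : ℕ) :
    (a ^ i * b) ^ 2 = a ^ (i * (4 * Q + 2)) := by
  have h1 := conj_pow_b hrel i
  have hbi : b⁻¹ = b := inv_eq_of_mul_eq_one_left hb2
  rw [hbi] at h1
  rw [sq]
  calc a ^ i * b * (a ^ i * b) = a ^ i * (b * a ^ i * b) := by group
    _ = a ^ i * a ^ (i * (4 * Q + 1)) := by rw [h1]
    _ = a ^ (i * (4 * Q + 2)) := by rw [← pow_add]; congr 1; ring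

theorem pow4Q (ha8 : a ^ (8 * Q) = 1) (hb2 : b * b = 1) (hrel : b * a * b⁻¹ = a ^ (4 * Q + 1)) (i : ℕ) :
    (a ^ i * b) ^ (4 * Q) = (a ^ (4 * Q)) ^ i := by
  have h1 : 4 * Q = 2 * (2 * Q) := by ring
  rw [h1, pow_mul, sq_formula hb2 hrel, ← h1, ← pow_mul, ← pow_mul]
  have h2 : i * (4 * Q + 2) * (2 * Q) = 8 * Q * (i * Q) + 4 * Q * i := by ring
  rw [h2, pow_add, pow_mul, ha8, one_pow, one_mul]

theorem z_pow_cases {z : G} (hz : z * z = 1) (j : ℕ) : z ^ j = 1 ∨ z ^ j = z := by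
  induction j with
  | zero => left; simp
  | succ j ih =>
    rcases ih with h | h
    · right; rw [pow_succ, h, one_mul]
    · left; rw [pow_succ, h, hz]

theorem z_pow_odd {z : G} (hz : z * z = 1) {j : ℕ} (hj : Odd j) : z ^ j = z := by
  obtain ⟨k, rfl⟩ := hj
  rw [pow_succ, pow_mul, sq, hz, one_pow, one_mul]

/-- The key structural fact on elements with `s^(4Q) = 1`. -/
theorem key_P1 (ha8 : a ^ (8 * Q) = 1) (hb2 : b * b = 1) (hz1 : a ^ (4 * Q) ≠ 1)
    (hrel : b * a * b⁻¹ = a ^ (4 * Q + 1)) {s : G} (hs : (∃ i : ℕ, s = a ^ i) ∨ (∃ i : ℕ, s = a ^ i * b))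
    (h4 : s ^ (4 * Q) = 1) : s ^ (2 * Q) = 1 ∨ s ^ (2 * Q) = a ^ (4 * Q) := by
  have hzz : a ^ (4 * Q) * a ^ (4 * Q) = 1 := by
    rw [← pow_add, ← ha8]; congr 1; ring
  rcases hs with ⟨i, rfl⟩ | ⟨i, rfl⟩
  · have h5 : (a ^ (4 * Q)) ^ i = 1 := by
      rw [← pow_mul, mul_comm, pow_mul]; exact h4
    rcases Nat.even_or_odd i with hi | hi
    · obtain ⟨j, rfl⟩ := hi
      have h6 : (a ^ (j + j)) ^ (2 * Q) = (a ^ (4 * Q)) ^ j := by
        rw [← pow_mul, ← pow_mul]; congr 1; ring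
      rw [h6]
      exact z_pow_cases hzz j
    · rw [z_pow_odd hzz hi] at h5
      exact absurd h5 hz1
  · have h5 := pow4Q ha8 hb2 hrel i
    rw [h4] at h5
    rcases Nat.even_or_odd i with hi | hi
    · obtain ⟨j, rfl⟩ := hi
      have h6 : (a ^ (j + j) * b) ^ (2 * Q) = (a ^ (4 * Q)) ^ j := by
        rw [pow_mul, sq_formula hb2 hrel, ← pow_mul, ← pow_mul]
        have h7 : (j + j) * (4 * Q + 2) * Q = 8 * Q * (j * Q) + 4 * Q * j := by ring
        rw [h7, pow_add, pow_mul, ha8, one_pow, one_mul]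
      rw [h6]
      exact z_pow_cases hzz j
    · rw [z_pow_odd hzz hi] at h5
      exact absurd h5.symm hz1

end aux

/-- Groups with a modular Sylow 2-subgroup have a normal 2-complement. Let S, of order 2^(n+1) with n ≥ 3, be a Sylow 2-subgroup of a finite group G, and suppose S contains an element a of order 2^n and an involution b with b a b⁻¹ = a^(2^(n-1) + 1); so S is the non-abelian 2-group with a cyclic subgroup of index 2 that is neither dihedral, semidihedral nor generalized quaternion. Then G has a normal 2-complement. -/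
theorem result {G : Type*} [Group G] [Finite G]
    (S : Sylow 2 G) (n : ℕ) (hn : 3 ≤ n) (hS : Nat.card ↥(S : Subgroup G) = 2 ^ (n + 1))
    (a b : G) (ha : a ∈ (S : Subgroup G)) (hb : b ∈ (S : Subgroup G))
    (hao : orderOf a = 2 ^ n) (hbo : orderOf b = 2) (hrel : b * a * b⁻¹ = a ^ (2 ^ (n - 1) + 1)) :
    Cfsg.HasNormalPComplement 2 G := by
  classical
  have : Fact (Nat.Prime 2) := ⟨Nat.prime_two⟩
  obtain ⟨m, rfl⟩ : ∃ m, n = m + 3 := ⟨n - 3, by omega⟩
  set Q := 2 ^ m with hQ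
  have h8Q : 2 ^ (m + 3) = 8 * Q := by rw [hQ, pow_add]; ring
  have h4Q : 2 ^ (m + 2) = 4 * Q := by rw [hQ, pow_add]; ring
  have h16Q : 2 ^ (m + 3 + 1) = 16 * Q := by rw [hQ, pow_add, pow_add]; ring
  have hQpos : 0 < Q := by rw [hQ]; positivity
  rw [h8Q] at hao
  rw [h16Q] at hS
  have hrel' : b * a * b⁻¹ = a ^ (4 * Q + 1) := by
    rw [hrel]
    have : m + 3 - 1 = m + 2 := by omega
    rw [this, h4Q]
  have ha8 : a ^ (8 * Q) = 1 := by rw [← hao, pow_orderOf_eq_one]
  have hz1 : a ^ (4 * Q) ≠ 1 := by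
    intro h
    have := orderOf_dvd_of_pow_eq_one h
    rw [hao] at this
    have := Nat.le_of_dvd (by omega) this
    omega
  have hb2 : b * b = 1 := by
    rw [← sq, ← hbo, pow_orderOf_eq_one]
  have hbi : b⁻¹ = b := inv_eq_of_mul_eq_one_left hb2
  have hzz : a ^ (4 * Q) * a ^ (4 * Q) = 1 := by
    rw [← pow_add, ← ha8]; congr 1; ring
  set z := a ^ (4 * Q) with hz
  set M : Subgroup G := Subgroup.zpowers a with hM
  have hbM : b ∉ M := by
    intro h
    obtain ⟨k, rfl⟩ := h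
    have h1 : (a ^ k) * a * (a ^ k)⁻¹ = a := by
      have : a ^ k * a = a * a ^ k := (Commute.zpow_left (Commute.refl a) k).eq
      rw [this]; group
    rw [h1] at hrel'
    apply hz1
    have h2 : a ^ (4 * Q + 1) = a ^ (4 * Q) * a := pow_succ _ _
    rw [h2] at hrel'
    exact (mul_eq_right.mp hrel'.symm)
  have hMS : M ≤ (S : Subgroup G) := by
    rw [hM, Subgroup.zpowers_le]; exact ha
  have hMcard : Nat.card M = 8 * Q := by
    rw [hM, Nat.card_zpowers, hao]
  have hrel2 : M.relIndex (S : Subgroup G) = 2 := by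
    have h1 := Subgroup.card_mul_index (M.subgroupOf (S : Subgroup G))
    have h2 : Nat.card (M.subgroupOf (S : Subgroup G)) = Nat.card M :=
      Nat.card_congr (Subgroup.subgroupOfEquivOfLe hMS).toEquiv
    rw [h2, hMcard, hS] at h1
    show (M.subgroupOf (S : Subgroup G)).index = 2
    have h3 : 8 * Q * (M.subgroupOf (S : Subgroup G)).index = 8 * Q * 2 := by rw [h1]; ring
    exact Nat.eq_of_mul_eq_mul_left (by omega) h3
  have hstruct : ∀ s ∈ (S : Subgroup G), (∃ i : ℕ, s = a ^ i) ∨ (∃ i : ℕ, s = a ^ i * b) := by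
    intro s hs
    by_cases hsM : s ∈ M
    · left
      obtain ⟨i, hi⟩ := (mem_powers_iff_mem_zpowers).mpr hsM
      exact ⟨i, hi.symm⟩
    · right
      have h1 := (Subgroup.mul_mem_iff_of_index_two (H := M.subgroupOf (S : Subgroup G)) hrel2
        (a := (⟨s, hs⟩ : (S : Subgroup G))) (b := (⟨b, hb⟩ : (S : Subgroup G))))
      have h2 : (⟨s, hs⟩ : (S : Subgroup G)) * ⟨b, hb⟩ ∈ M.subgroupOf (S : Subgroup G) := by
        rw [h1]
        constructor
        · intro h; exact absurd h hsM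
        · intro h; exact absurd h hbM
      have h3 : s * b ∈ M := h2
      obtain ⟨i, hi⟩ := (mem_powers_iff_mem_zpowers).mpr h3
      refine ⟨i, ?_⟩
      have hi' : a ^ i = s * b := hi
      rw [hi', mul_assoc, hb2, mul_one]
  have hP1 : ∀ s ∈ (S : Subgroup G), s ^ (4 * Q) = 1 → s ^ (2 * Q) = 1 ∨ s ^ (2 * Q) = z :=
    fun s hs h4 => key_P1 ha8 hb2 hz1 hrel' (hstruct s hs) h4
  -- `z` is central in `S`
  have hzb : b * z * b⁻¹ = z := by
    rw [hz, conj_pow_b hrel']
    have h1 : 4 * Q * (4 * Q + 1) = 8 * Q * (2 * Q) + 4 * Q := by ring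
    rw [h1, pow_add, pow_mul, ha8, one_pow, one_mul]
  have hcommzb : Commute b z := by
    show b * z = z * b
    calc b * z = (b * z * b⁻¹) * b := by group
      _ = z * b := by rw [hzb]
  have hcommza : Commute a z := (Commute.refl a).pow_right _
  have hcommS : ∀ s ∈ (S : Subgroup G), Commute s z := by
    intro s hs
    rcases hstruct s hs with ⟨i, rfl⟩ | ⟨i, rfl⟩
    · exact hcommza.pow_left i
    · exact (hcommza.pow_left i).mul_left hcommzb
  -- no conjugate of `b` lies in `M`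
  have hnc : ∀ g : G, g * b * g⁻¹ ∉ M := by
    intro g hg
    have hy1 : g * b * g⁻¹ ≠ 1 := by
      intro h
      apply hbM
      have : b = 1 := by
        have h2 : b = g⁻¹ * (g * b * g⁻¹) * g := by group
        rw [h2, h]; group
      rw [this]; exact M.one_mem
    have hy2 : (g * b * g⁻¹) * (g * b * g⁻¹) = 1 := by
      calc (g * b * g⁻¹) * (g * b * g⁻¹) = g * (b * b) * g⁻¹ := by group
        _ = 1 := by rw [hb2]; group
    obtain ⟨i, hi⟩ := (mem_powers_iff_mem_zpowers).mpr hg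
    have hi' : a ^ i = g * b * g⁻¹ := hi
    have h1 : a ^ (i + i) = 1 := by
      rw [pow_add, hi', hy2]
    have h2 : 8 * Q ∣ i + i := by
      rw [← hao]; exact orderOf_dvd_of_pow_eq_one h1
    have h3 : 4 * Q ∣ i := by
      obtain ⟨c, hc⟩ := h2
      have h5 : i + i = 2 * (4 * Q * c) := by rw [hc]; ring
      exact ⟨c, by omega⟩
    obtain ⟨k, rfl⟩ := h3
    have hgz : g * b * g⁻¹ = z := by
      rw [← hi', pow_mul]
      rcases z_pow_cases hzz k with h4 | h4
      · exfalso; apply hy1; rw [← hi', pow_mul]; exact h4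
      · exact h4
    -- conjugate
    have hb' : b = g⁻¹ * z * g := by rw [← hgz]; group
    set h := g⁻¹ with hh
    have hginv : h⁻¹ = g := by rw [hh, inv_inv]
    let U : Sylow 2 G := h • S
    let C : Subgroup G := Subgroup.centralizer ({b} : Set G)
    have hmemC : ∀ x, x ∈ C ↔ Commute x b := by
      intro x
      rw [Subgroup.mem_centralizer_singleton_iff]
      rfl
    have hUC : (U : Subgroup G) ≤ C := by
      intro u hu
      rw [hmemC]
      have h1 : h⁻¹ * u * h ∈ (S : Subgroup G) := Cfsg.Agent.Lib.InvolChar.mem_smul_sylow.mp hu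
      have h2 := hcommS _ h1
      have h3 : h * (h⁻¹ * u * h) * h⁻¹ = u := by group
      have h4 := h2.map (MulAut.conj h).toMonoidHom
      simp only [MulEquiv.toMonoidHom_eq_coe, MonoidHom.coe_coe, MulAut.conj_apply] at h4
      rw [h3] at h4
      have h5 : h * z * h⁻¹ = b := by rw [hb', hginv]
      rwa [h5] at h4
    have hW : IsPGroup 2 (((S : Subgroup G) ⊓ C : Subgroup G)) :=
      S.isPGroup'.to_le inf_le_left
    obtain ⟨c, hcC, hc⟩ := Cfsg.Agent.Lib.InvolChar.exists_conj_le_of_le (U := U) hUC hW inf_le_right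
    have hcb : c * b * c⁻¹ = b := by
      have h1 := (hmemC c).mp hcC
      rw [h1.eq]; group
    set t := h⁻¹ * c with ht
    have ht1 : ∀ k ∈ ((S : Subgroup G) ⊓ C : Subgroup G), t * k * t⁻¹ ∈ (S : Subgroup G) := by
      intro k hk
      have h1 := hc k hk
      have h2 : h⁻¹ * (c * k * c⁻¹) * h ∈ (S : Subgroup G) :=
        Cfsg.Agent.Lib.InvolChar.mem_smul_sylow.mp h1
      have h3 : t * k * t⁻¹ = h⁻¹ * (c * k * c⁻¹) * h := by rw [ht]; group
      rw [h3]; exact h2
    have htb : t * b * t⁻¹ = z := by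
      have h3 : t * b * t⁻¹ = h⁻¹ * (c * b * c⁻¹) * h := by rw [ht]; group
      rw [h3, hcb, hginv, hh]
      exact hgz
    have ha2 : a ^ 2 ∈ ((S : Subgroup G) ⊓ C : Subgroup G) := by
      refine ⟨Subgroup.pow_mem _ ha 2, ?_⟩
      show a ^ 2 ∈ C
      rw [hmemC]
      have h1 := conj_pow_b hrel' 2
      have h2 : 2 * (4 * Q + 1) = 8 * Q + 2 := by ring
      rw [h2, pow_add, ha8, one_mul] at h1
      show a ^ 2 * b = b * a ^ 2
      calc a ^ 2 * b = (b * a ^ 2 * b⁻¹) * b := by rw [h1]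
        _ = b * a ^ 2 := by group
    have hd := ht1 _ ha2
    have hd4 : (t * a ^ 2 * t⁻¹) ^ (4 * Q) = 1 := by
      rw [conj_pow, ← pow_mul]
      have : 2 * (4 * Q) = 8 * Q := by ring
      rw [this, ha8]; group
    have hd2 : (t * a ^ 2 * t⁻¹) ^ (2 * Q) = t * z * t⁻¹ := by
      rw [conj_pow, ← pow_mul]
      have : 2 * (2 * Q) = 4 * Q := by ring
      rw [this]
    have htz : t * z * t⁻¹ = 1 ∨ t * z * t⁻¹ = z := by
      rw [← hd2]; exact hP1 _ hd hd4
    rcases htz with h5 | h5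
    · apply hz1
      calc z = t⁻¹ * (t * z * t⁻¹) * t := by group
        _ = 1 := by rw [h5]; group
    · apply hbM
      have h6 : t * b * t⁻¹ = t * z * t⁻¹ := by rw [htb, h5]
      have h7 : b = z := by
        have := mul_right_cancel h6
        exact mul_left_cancel this
      rw [h7]
      exact Subgroup.npow_mem_zpowers a _
  -- the transfer
  have hodd : ¬ 2 ∣ (S : Subgroup G).index := S.not_dvd_index
  obtain ⟨τ, hτ⟩ := Cfsg.Agent.Lib.InvolChar.exists_parity_transfer (S := (S : Subgroup G)) hodd hrel2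
  have hτb : τ b ≠ 1 := by
    apply hτ b hb 1 le_rfl (by rw [pow_one]; exact hbo) hnc
    intro y _ hyM
    have hy1 : y ≠ 1 := fun h => hyM (h ▸ M.one_mem)
    have h1 : orderOf y ≠ 1 := fun h => hy1 (orderOf_eq_one_iff.mp h)
    have h2 : 0 < orderOf y := by
      exact orderOf_pos y
    simp only [Nat.sub_self, pow_zero]
    omega
  -- a cyclic subgroup
  have hval : ∀ y : Multiplicative (ZMod 2), y ≠ 1 → ∀ y' : Multiplicative (ZMod 2), y' ≠ 1 → y * y' = 1 :=
    zmod2_mul_eq_one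
  obtain ⟨e, heS, heK, heo⟩ : ∃ e ∈ (S : Subgroup G), e ∈ τ.ker ∧ orderOf e = 8 * Q := by
    by_cases hτa : τ a = 1
    · exact ⟨a, ha, hτa, hao⟩
    · refine ⟨a * b, Subgroup.mul_mem _ ha hb, ?_, ?_⟩
      · rw [MonoidHom.mem_ker, map_mul]
        exact hval _ hτa _ hτb
      · have h1 := pow4Q ha8 hb2 hrel' 1
        rw [pow_one, pow_one] at h1
        have h2 : (a * b) ^ (2 ^ (m + 2)) ≠ 1 := by
          rw [h4Q, h1]; exact hz1
        have h3 : (a * b) ^ (2 ^ (m + 2 + 1)) = 1 := by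
          have : 2 ^ (m + 2 + 1) = 4 * Q * 2 := by rw [pow_succ, h4Q]
          rw [this, pow_mul, h1, sq, hzz]
        have h4 := orderOf_eq_prime_pow h2 h3
        rw [h4]
        exact h8Q
  have hSK : (S : Subgroup G) ⊓ τ.ker = Subgroup.zpowers e := by
    symm
    apply Subgroup.eq_of_le_of_card_ge
    · rw [Subgroup.zpowers_le]; exact ⟨heS, heK⟩
    · rw [Nat.card_zpowers, heo]
      have h1 : Nat.card ((S : Subgroup G) ⊓ τ.ker : Subgroup G) ∣ 2 ^ (m + 4) := by
        have h2 : 2 ^ (m + 4) = Nat.card (S : Subgroup G) := by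
          rw [hS, hQ, pow_add]; ring
        rw [h2]
        exact Subgroup.card_dvd_of_le inf_le_left
      obtain ⟨j, hj, hcard⟩ := (Nat.dvd_prime_pow Nat.prime_two).mp h1
      have hj' : j ≠ m + 4 := by
        intro hjj
        have h2 : Nat.card ((S : Subgroup G) ⊓ τ.ker : Subgroup G) = Nat.card (S : Subgroup G) := by
          rw [hcard, hjj, hS, hQ, pow_add]; ring
        have h3 : (S : Subgroup G) ⊓ τ.ker = (S : Subgroup G) :=
          Subgroup.eq_of_le_of_card_ge inf_le_left h2.ge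
        have h4 : b ∈ (S : Subgroup G) ⊓ τ.ker := by rw [h3]; exact hb
        exact hτb h4.2
      rw [hcard]
      calc 2 ^ j ≤ 2 ^ (m + 3) := Nat.pow_le_pow_right (by norm_num) (by omega)
        _ = 8 * Q := h8Q
  have hcyc : IsCyclic ((S : Subgroup G) ⊓ τ.ker : Subgroup G) := by
    rw [hSK]; infer_instance
  obtain ⟨R⟩ : Nonempty (Sylow 2 τ.ker) := inferInstance
  have hRc : IsCyclic R := by
    have hR' : IsPGroup 2 ((R : Subgroup τ.ker).map τ.ker.subtype) := R.isPGroup'.map _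
    obtain ⟨Q₁, hQ₁⟩ := hR'.exists_le_sylow
    obtain ⟨x, hx⟩ := MulAction.exists_smul_eq G Q₁ S
    let f : (R : Subgroup τ.ker) →* ((S : Subgroup G) ⊓ τ.ker : Subgroup G) :=
      ((MulAut.conj x).toMonoidHom.comp (τ.ker.subtype.comp (R : Subgroup τ.ker).subtype)).codRestrict
        _ (by
          intro r
          refine ⟨?_, ?_⟩
          · have h1 : ((r : τ.ker) : G) ∈ (Q₁ : Subgroup G) := hQ₁ ⟨r, r.2, rfl⟩
            have h2 : x * ((r : τ.ker) : G) * x⁻¹ ∈ ((x • Q₁ : Sylow 2 G) : Subgroup G) := by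
              rw [Cfsg.Agent.Lib.InvolChar.mem_smul_sylow]
              simpa [mul_assoc] using h1
            rw [hx] at h2
            exact h2
          · have h1 : ((r : τ.ker) : G) ∈ τ.ker := (r : τ.ker).2
            show x * ((r : τ.ker) : G) * x⁻¹ ∈ τ.ker
            exact (inferInstance : τ.ker.Normal).conj_mem _ h1 x)
    apply isCyclic_of_injective f
    intro r r' hrr
    have h1 : x * ((r : τ.ker) : G) * x⁻¹ = x * ((r' : τ.ker) : G) * x⁻¹ := congrArg Subtype.val hrr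
    have h2 : ((r : τ.ker) : G) = ((r' : τ.ker) : G) := mul_left_cancel (mul_right_cancel h1)
    exact Subtype.ext (Subtype.ext h2)
  exact Cfsg.Agent.Lib.InvolChar.hasNormalPComplement_of_parity τ R hRc

end Cfsg.Agent.S3178
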