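import Cfsg.Statements.S3180
import Mathlib
import Cfsg.Agent.Lib.RootSubgroups.RankOne
import Cfsg.Agent.Lib.InvolChar.Basic

set_option autoImplicit false
open Cfsg

open Cfsg.Agent.Lib.RootSubgroups Cfsg.Agent.Lib.InvolChar

namespace Cfsg.Agent.S3180


/-- Let P be a Sylow p-subgroup of a finite group J and P₁ a subgroup of P that is weakly closed in P with respect to J. If J acts on a set and two points, each fixed by every element of P₁, lie in one J-orbit, then they lie in one orbit of the normalizer of P₁ in J. -/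
theorem result {J : Type*} [Group J] [Finite J]
    {p : ℕ} [Fact p.Prime] (P : Sylow p J) (P₁ : Subgroup J) (hW : Cfsg.IsWeaklyClosed P₁ (P : Subgroup J))
    {Ω : Type*} [MulAction J Ω] (x y : Ω) (hx : ∀ g ∈ P₁, g • x = x) (hy : ∀ g ∈ P₁, g • y = y)
    (hc : ∃ g : J, g • x = y) :
    ∃ g ∈ Subgroup.normalizer (P₁ : Set J), g • x = y := by
  classical
  obtain ⟨g, rfl⟩ := hc
  let K := MulAction.stabilizer J x
  have hP₁K : P₁ ≤ K := fun z hz => hx z hz
  have hP₂K : conjBy P₁ g⁻¹ ≤ K := by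
    intro z hz
    rw [mem_conjBy, inv_inv] at hz
    have h1 := hy _ hz
    rw [MulAction.mem_stabilizer_iff]
    have h2 : (g * z * g⁻¹) • g • x = g • (z • x) := by
      simp [mul_smul]
    rw [h2] at h1
    exact smul_left_cancel g h1
  have hP₁p : IsPGroup p P₁ := (P.isPGroup').to_le hW.1
  have hP₂p : IsPGroup p (conjBy P₁ g⁻¹) := hP₁p.map _
  obtain ⟨Q₁, hQ₁⟩ := (hP₁p.comap_of_injective K.subtype K.subtype_injective).exists_le_sylow
  obtain ⟨Q₂, hQ₂⟩ := (hP₂p.comap_of_injective K.subtype K.subtype_injective).exists_le_sylow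
  obtain ⟨h, hh⟩ := MulAction.exists_smul_eq K Q₁ Q₂
  have hQp : IsPGroup p ((Q₁ : Subgroup K).map K.subtype) := (Q₁.isPGroup').map _
  obtain ⟨R, hR⟩ := hQp.exists_le_sylow
  obtain ⟨u, hu⟩ := MulAction.exists_smul_eq J P R
  -- elements of `R` conjugate into `P`
  have hRP : ∀ w ∈ (R : Subgroup J), u⁻¹ * w * u ∈ (P : Subgroup J) := by
    intro w hw
    rw [← hu] at hw
    exact mem_smul_sylow.1 hw
  have hQ₂Q₁ : ∀ w : K, w ∈ (Q₂ : Subgroup K) → h⁻¹ * w * h ∈ (Q₁ : Subgroup K) := by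
    intro w hw
    rw [← hh] at hw
    exact mem_smul_sylow.1 hw
  have h1 : conjBy P₁ u⁻¹ = P₁ := by
    apply hW.2
    rintro _ ⟨z, hz, rfl⟩
    have h5 : z ∈ (Q₁ : Subgroup K).map K.subtype := by
      exact ⟨⟨z, hP₁K hz⟩, hQ₁ hz, rfl⟩
    have := hRP z (hR h5)
    simpa using this
  have h2 : conjBy P₁ (u⁻¹ * (h : J)⁻¹ * g⁻¹) = P₁ := by
    apply hW.2
    rintro _ ⟨z, hz, rfl⟩
    have hzK : g⁻¹ * z * g ∈ conjBy P₁ g⁻¹ := by
      have := conj_mem_conjBy (g := g⁻¹) hz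
      simpa using this
    have h6 : (⟨g⁻¹ * z * g, hP₂K hzK⟩ : K) ∈ (Q₂ : Subgroup K) := hQ₂ hzK
    have h7 := hQ₂Q₁ _ h6
    have h5 : (h : J)⁻¹ * (g⁻¹ * z * g) * h ∈ (Q₁ : Subgroup K).map K.subtype := by
      exact ⟨_, h7, by simp⟩
    have := hRP _ (hR h5)
    simpa [mul_assoc] using this
  have h3 : conjBy P₁ ((h : J)⁻¹ * g⁻¹) = P₁ := by
    have e : u⁻¹ * (h : J)⁻¹ * g⁻¹ = u⁻¹ * ((h : J)⁻¹ * g⁻¹) := by group
    rw [e, conjBy_mul] at h2
    apply conjBy_injective u⁻¹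
    simp only
    rw [h2, h1]
  refine ⟨g * h, ?_, ?_⟩
  · have := conjBy_eq_self_iff_mem_normalizer.1 h3
    have h4 := Subgroup.inv_mem _ this
    simpa using h4
  · rw [mul_smul]
    have : (h : J) • x = x := h.2
    rw [this]

end Cfsg.Agent.S3180
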