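import Cfsg.Statements.S3183
import Mathlib
import Cfsg.Agent.Lib.InvolChar.Basic

set_option autoImplicit false
open Cfsg

open Cfsg.Agent.Lib.InvolChar

namespace Cfsg.Agent.S3183

theorem core {G : Type*} [Group G] [Finite G]
    (hCI : ∀ S T : Sylow 2 G, S ≠ T → ∃ U : Sylow 2 G,
      (S : Subgroup G) ⊓ (T : Subgroup G) ≤ (Subgroup.center ↥(U : Subgroup G)).map (U : Subgroup G).subtype) :
    ∀ (n : ℕ) (S T : Sylow 2 G), S ≠ T → Nat.card (S : Subgroup G) - Nat.card ((S : Subgroup G) ⊓ (T : Subgroup G) : Subgroup G) = n →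
      ∀ x ∈ (S : Subgroup G) ⊓ (T : Subgroup G), ∀ s ∈ (S : Subgroup G), x * s = s * x := by
  classical
  haveI : Fact (Nat.Prime 2) := ⟨Nat.prime_two⟩
  intro n
  induction n using Nat.strong_induction_on with
  | _ n ih =>
  intro S T hST hn
  set D : Subgroup G := (S : Subgroup G) ⊓ (T : Subgroup G) with hD
  obtain ⟨U, hU⟩ := hCI S T hST
  -- D is central in U
  have hDU : ∀ d ∈ D, d ∈ (U : Subgroup G) ∧ ∀ u ∈ (U : Subgroup G), d * u = u * d := by
    intro d hd
    obtain ⟨⟨d', hd'⟩, hz, rfl⟩ := hU hd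
    refine ⟨hd', fun u hu => ?_⟩
    have := (Subgroup.mem_center_iff.1 hz) ⟨u, hu⟩
    exact (congrArg Subtype.val this).symm
  -- D < S
  have hDS : D ≤ (S : Subgroup G) := inf_le_left
  have hDp : IsPGroup 2 D := (S.isPGroup').to_le hDS
  have hDneS : D ≠ (S : Subgroup G) := by
    intro e
    apply hST
    apply sylow_eq_of_le
    rw [← e]; exact inf_le_right
  have hdvd : 2 ∣ D.relIndex (S : Subgroup G) := dvd_relIndex_of_lt S.isPGroup' hDS hDneS
  obtain ⟨K, hDK, hKS, hKc⟩ := exists_le_card_mul hDS hDp hdvd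
  have hKN : K ≤ Subgroup.normalizer (D : Set G) := mem_of_normalizer_two_step hDK hKc
  have hKp : IsPGroup 2 K := (S.isPGroup').to_le hKS
  -- U lies in the normalizer of D
  have hUN : (U : Subgroup G) ≤ Subgroup.normalizer (D : Set G) := fun u hu =>
    mem_normalizer_of_commute (fun d hd => (hDU d hd).2 u hu)
  obtain ⟨g, hgN, hg⟩ := exists_conj_le_of_le hUN hKp hKN
  let R : Sylow 2 G := g⁻¹ • U
  have hKR : K ≤ (R : Subgroup G) := by
    intro k hk
    rw [mem_smul_sylow]
    simpa using hg k hk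
  have hRC : ∀ d ∈ D, ∀ r ∈ (R : Subgroup G), d * r = r * d := by
    intro d hd r hr
    rw [mem_smul_sylow, inv_inv] at hr
    rw [Subgroup.mem_normalizer_iff] at hgN
    have h1 : g * d * g⁻¹ ∈ D := (hgN d).1 hd
    have h2 := (hDU _ h1).2 _ hr
    have h3 : g * (d * r) * g⁻¹ = g * (r * d) * g⁻¹ := by
      calc g * (d * r) * g⁻¹ = (g * d * g⁻¹) * (g * r * g⁻¹) := by group
        _ = (g * r * g⁻¹) * (g * d * g⁻¹) := h2
        _ = g * (r * d) * g⁻¹ := by group
    exact mul_left_cancel (mul_right_cancel h3)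
  intro x hx s hs
  by_cases hRS : R = S
  · rw [← hRS] at hs
    exact hRC x hx s hs
  · -- induction
    have hcard : Nat.card K ≤ Nat.card ((S : Subgroup G) ⊓ (R : Subgroup G) : Subgroup G) :=
      Subgroup.card_le_of_le (le_inf hKS hKR)
    have hcard2 : Nat.card ((S : Subgroup G) ⊓ (R : Subgroup G) : Subgroup G) ≤ Nat.card (S : Subgroup G) :=
      Subgroup.card_le_of_le inf_le_left
    have hpos : 0 < Nat.card D := Nat.card_pos
    refine ih _ ?_ S R (Ne.symm hRS) rfl x ⟨hDS hx, hKR (hDK hx)⟩ s hs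
    omega

/-- Let G be a finite group in which the intersection of any two distinct Sylow 2-subgroups is contained in the centre of some Sylow 2-subgroup, and let S be a Sylow 2-subgroup. Then for every x in S the centralizer of x in S is a Sylow 2-subgroup of the centralizer of x in G (no 2-subgroup centralizing x is larger), and for every other Sylow 2-subgroup T the intersection S ∩ T lies in both the centre of S and the centre of T. -/
theorem result {G : Type*} [Group G] [Finite G]
    (hCI : ∀ S T : Sylow 2 G, S ≠ T → ∃ U : Sylow 2 G,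
      (S : Subgroup G) ⊓ (T : Subgroup G) ≤ (Subgroup.center ↥(U : Subgroup G)).map (U : Subgroup G).subtype)
    (S : Sylow 2 G) :
    (∀ x ∈ (S : Subgroup G), ∀ P : Subgroup G, IsPGroup 2 ↥P → P ≤ Subgroup.centralizer ({x} : Set G) →
        Nat.card ↥P ≤ Nat.card ↥((S : Subgroup G) ⊓ Subgroup.centralizer ({x} : Set G))) ∧
    (∀ T : Sylow 2 G, T ≠ S →
        (S : Subgroup G) ⊓ (T : Subgroup G) ≤
          (Subgroup.center ↥(S : Subgroup G)).map (S : Subgroup G).subtype ⊓
            (Subgroup.center ↥(T : Subgroup G)).map (T : Subgroup G).subtype) := by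
  classical
  haveI : Fact (Nat.Prime 2) := ⟨Nat.prime_two⟩
  have hcore : ∀ S T : Sylow 2 G, S ≠ T → ∀ x ∈ (S : Subgroup G) ⊓ (T : Subgroup G),
      ∀ s ∈ (S : Subgroup G), x * s = s * x := fun S T hST => core hCI _ S T hST rfl
  constructor
  · intro x hx P hP hPC
    have hxp : IsPGroup 2 (Subgroup.zpowers x) :=
      (S.isPGroup').to_le (by rwa [Subgroup.zpowers_le])
    have hP' : IsPGroup 2 (P ⊔ Subgroup.zpowers x : Subgroup G) := by
      apply hP.to_sup_of_normal_right' hxp
      intro u hu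
      apply mem_normalizer_of_commute
      rintro _ ⟨k, rfl⟩
      have hc : Commute u x := by
        have := (Subgroup.mem_centralizer_iff).1 (hPC hu) x rfl
        exact this.symm
      exact ((hc.zpow_right k).eq).symm
    obtain ⟨T, hT⟩ := hP'.exists_le_sylow
    have hPT : P ≤ (T : Subgroup G) := le_sup_left.trans hT
    have hxT : x ∈ (T : Subgroup G) := hT (Subgroup.mem_sup_right (Subgroup.mem_zpowers x))
    by_cases hTS : T = S
    · apply Subgroup.card_le_of_le
      apply le_inf _ hPC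
      rw [← hTS]; exact hPT
    · have hle : (S : Subgroup G) ≤ Subgroup.centralizer ({x} : Set G) := by
        intro s hs
        rw [Subgroup.mem_centralizer_iff]
        intro w hw
        rw [Set.mem_singleton_iff.1 hw]
        exact hcore S T (Ne.symm hTS) x ⟨hx, hxT⟩ s hs
      have h1 : (S : Subgroup G) ⊓ Subgroup.centralizer ({x} : Set G) = S := inf_eq_left.2 hle
      rw [h1, card_sylow_eq S T]
      exact Subgroup.card_le_of_le hPT
  · intro T hTS x hx
    have hxS : x ∈ (S : Subgroup G) := (Subgroup.mem_inf.1 hx).1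
    have hxT : x ∈ (T : Subgroup G) := (Subgroup.mem_inf.1 hx).2
    refine Subgroup.mem_inf.2 ⟨Subgroup.mem_map.2 ⟨⟨x, hxS⟩, ?_, rfl⟩, Subgroup.mem_map.2 ⟨⟨x, hxT⟩, ?_, rfl⟩⟩
    · apply Subgroup.mem_center_iff.2
      rintro ⟨s, hs⟩
      apply Subtype.ext
      exact (hcore S T (Ne.symm hTS) x hx s hs).symm
    · apply Subgroup.mem_center_iff.2
      rintro ⟨s, hs⟩
      apply Subtype.ext
      exact (hcore T S hTS x (Subgroup.mem_inf.2 ⟨hxT, hxS⟩) s hs).symm

end Cfsg.Agent.S3183
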