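import Cfsg.Statements.S3184
import Cfsg.Agent.Lib.ZStar.SylowFusion

set_option autoImplicit false
open Cfsg

namespace Cfsg.Agent.S3184

/-- Let G be a finite group in which the intersection of any two distinct Sylow 2-subgroups is contained in the centre of some Sylow 2-subgroup, and let S be a Sylow 2-subgroup. If C is a nontrivial cyclic characteristic subgroup of S, then the involution of C is central modulo the largest normal subgroup of odd order of G: each of its conjugates has the same image in G/O(G). -/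
theorem result {G : Type*} [Group G] [Finite G]
    (hCI : ∀ S T : Sylow 2 G, S ≠ T → ∃ U : Sylow 2 G,
      (S : Subgroup G) ⊓ (T : Subgroup G) ≤ (Subgroup.center ↥(U : Subgroup G)).map (U : Subgroup G).subtype)
    (S : Sylow 2 G) (C : Subgroup ↥(S : Subgroup G)) (hC : C ≠ ⊥) (hCc : IsCyclic ↥C) (hCh : C.Characteristic)
    (c : ↥(S : Subgroup G)) (hc : c ∈ C) (hc2 : orderOf c = 2) :
    ∀ g : G, (QuotientGroup.mk (s := Cfsg.oddCore G) (g * (c : G) * g⁻¹)) =
      QuotientGroup.mk (s := Cfsg.oddCore G) (c : G) := by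
  have : Fact (Nat.Prime 2) := ⟨Nat.prime_two⟩
  have hcS : (c : G) ∈ (S : Subgroup G) := c.2
  have hc2' : orderOf (c : G) = 2 := by
    rw [Subgroup.orderOf_coe]
    exact hc2
  have hN : ∀ g : G, g • S = S → g * (c : G) * g⁻¹ = c := by
    intro g hg
    refine Cfsg.Agent.Lib.ZStar.conj_fixed_of_char (S : Subgroup G) C hCc hCh c hc hc2 g fun s => ?_
    constructor
    · intro h
      have h1 : g * s * g⁻¹ ∈ ((g • S : Sylow 2 G) : Subgroup G) := by
        rw [hg]
        exact h
      rw [Cfsg.Agent.Lib.ZStar.mem_smul_sylow] at h1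
      simpa [mul_assoc] using h1
    · intro h
      have h1 := Cfsg.Agent.Lib.ZStar.conj_mem_smul_sylow S g s h
      rwa [hg] at h1
  have hwc := Cfsg.Agent.Lib.ZStar.marked_weakly_closed S (c : G) hN hCI hcS
  have hiso := Cfsg.Agent.Lib.Invol.isolated_of_sylow S hc2' hwc
  intro g
  rw [QuotientGroup.eq]
  have h := Cfsg.Agent.Lib.ZStar.mem_oddCore_of_isolated hiso g
  have h2 := Subgroup.inv_mem _ h
  have hi : (c : G)⁻¹ = c := Cfsg.Agent.Lib.Invol.inv_eq_of_order_two hc2'
  have e : (g * (c : G) * g⁻¹)⁻¹ * c = ((c : G) * (g * c * g⁻¹))⁻¹ := by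
    rw [mul_inv_rev (c : G), hi]
  rw [e]
  exact h2

end Cfsg.Agent.S3184
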