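import Cfsg.Statements.S3190
import Mathlib
import Cfsg.Agent.Lib.Core.Basic

set_option autoImplicit false
open Cfsg


namespace Cfsg.Agent.S3190


/-- Let p be an odd prime and, inside a finite group, let P be a p-subgroup normalized by a Klein four-group T. Let R be a subgroup of P, normal in P and normalized by T, such that P is the product of R with the centralizer of T in P. If T centralizes the centre of P, then T centralizes the centre of R. -/
theorem result {X : Type*} [Group X] [Finite X]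
    {p : ℕ} (hp : p.Prime) (hodd : Odd p) (P T R : Subgroup X) (hP : IsPGroup p ↥P) (hT : IsKleinFour ↥T)
    (hTP : T ≤ Subgroup.normalizer (P : Set X)) (hRP : R ≤ P) (hRn : (R.subgroupOf P).Normal)
    (hTR : T ≤ Subgroup.normalizer (R : Set X)) (hfac : R ⊔ (P ⊓ Subgroup.centralizer (T : Set X)) = P)
    (hZ : T ≤ Subgroup.centralizer (((Subgroup.center ↥P).map P.subtype : Subgroup X) : Set X)) :
    T ≤ Subgroup.centralizer (((Subgroup.center ↥R).map R.subtype : Subgroup X) : Set X) := by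
  classical
  intro t ht
  rw [Subgroup.mem_centralizer_iff]
  have ht2 : t * t = 1 := by
    letI := hT
    have h1 := Monoid.pow_exponent_eq_one (⟨t, ht⟩ : T)
    rw [IsKleinFour.exponent_two, pow_two] at h1
    exact congrArg Subtype.val h1
  have htinv : t⁻¹ = t := inv_eq_of_mul_eq_one_left ht2
  have hAmem : ∀ {x : X}, x ∈ (Subgroup.center R).map R.subtype ↔ x ∈ R ∧ ∀ r ∈ R, r * x = x * r := by
    intro x
    constructor
    · rintro ⟨⟨y, hy⟩, hz, rfl⟩
      refine ⟨hy, fun r hr => ?_⟩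
      have := Subgroup.mem_center_iff.1 hz ⟨r, hr⟩
      exact congrArg Subtype.val this
    · rintro ⟨hx, h⟩
      refine ⟨⟨x, hx⟩, Subgroup.mem_center_iff.2 ?_, rfl⟩
      rintro ⟨r, hr⟩
      exact Subtype.ext (h r hr)
  set A := (Subgroup.center R).map R.subtype with hA
  have hPR : ∀ g ∈ P, ∀ r ∈ R, g * r * g⁻¹ ∈ R := by
    intro g hg r hr
    have h1 : (⟨r, hRP hr⟩ : P) ∈ R.subgroupOf P := hr
    have h2 := hRn.conj_mem _ h1 ⟨g, hg⟩
    exact h2
  have htR : ∀ r ∈ R, t * r * t⁻¹ ∈ R := by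
    intro r hr
    exact (Subgroup.mem_normalizer_iff.1 (hTR ht) r).1 hr
  have hAt : ∀ x ∈ A, t * x * t⁻¹ ∈ A := by
    intro x hx
    obtain ⟨hxR, hxc⟩ := hAmem.1 hx
    refine hAmem.2 ⟨htR x hxR, fun r hr => ?_⟩
    have h1 : t⁻¹ * r * t ∈ R := by
      rw [htinv]
      have := htR r hr
      rwa [htinv] at this
    have h2 := hxc _ h1
    have h3 := congrArg (fun w => t * w * t⁻¹) h2
    calc r * (t * x * t⁻¹) = t * (t⁻¹ * r * t * x) * t⁻¹ := by group
      _ = t * (x * (t⁻¹ * r * t)) * t⁻¹ := h3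
      _ = t * x * t⁻¹ * r := by group
  have hAP : ∀ g ∈ P, ∀ x ∈ A, g * x * g⁻¹ ∈ A := by
    intro g hg x hx
    obtain ⟨hxR, hxc⟩ := hAmem.1 hx
    refine hAmem.2 ⟨hPR g hg x hxR, fun r hr => ?_⟩
    have h1 : g⁻¹ * r * g ∈ R := by
      have := hPR g⁻¹ (P.inv_mem hg) r hr
      simpa using this
    have h2 := hxc _ h1
    have h3 := congrArg (fun w => g * w * g⁻¹) h2
    calc r * (g * x * g⁻¹) = g * (g⁻¹ * r * g * x) * g⁻¹ := by group
      _ = g * (x * (g⁻¹ * r * g)) * g⁻¹ := h3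
      _ = g * x * g⁻¹ * r := by group
  have hAcomm : ∀ x ∈ A, ∀ y ∈ A, x * y = y * x := by
    intro x hx y hy
    exact ((hAmem.1 hy).2 x (hAmem.1 hx).1)
  -- the inverted part
  let N : Subgroup X :=
    { carrier := {x | x ∈ A ∧ t * x * t⁻¹ = x⁻¹}
      one_mem' := ⟨A.one_mem, by simp⟩
      mul_mem' := by
        rintro a b ⟨ha, ha'⟩ ⟨hb, hb'⟩
        refine ⟨A.mul_mem ha hb, ?_⟩
        calc t * (a * b) * t⁻¹ = (t * a * t⁻¹) * (t * b * t⁻¹) := by group
          _ = a⁻¹ * b⁻¹ := by rw [ha', hb']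
          _ = (b * a)⁻¹ := by group
          _ = (a * b)⁻¹ := by rw [hAcomm a ha b hb]
      inv_mem' := by
        rintro a ⟨ha, ha'⟩
        refine ⟨A.inv_mem ha, ?_⟩
        calc t * a⁻¹ * t⁻¹ = (t * a * t⁻¹)⁻¹ := by group
          _ = a⁻¹⁻¹ := by rw [ha'] }
  have hNP : N ≤ P := fun x hx => hRP (hAmem.1 hx.1).1
  -- P normalizes N
  have hnorm_of : ∀ K : Subgroup X, (∀ g ∈ K, ∀ x ∈ N, g * x * g⁻¹ ∈ N) → K ≤ Subgroup.normalizer (N : Set X) := by
    intro K hK g hg
    rw [Subgroup.mem_normalizer_iff]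
    intro x
    constructor
    · exact hK g hg x
    · intro hx
      have := hK g⁻¹ (K.inv_mem hg) _ hx
      simpa [mul_assoc] using this
  have hRnorm : R ≤ Subgroup.normalizer (N : Set X) := by
    apply hnorm_of
    intro r hr x hx
    have h1 : r * x = x * r := (hAmem.1 hx.1).2 r hr
    have : r * x * r⁻¹ = x := by rw [h1]; group
    rw [this]; exact hx
  have hCnorm : P ⊓ Subgroup.centralizer (T : Set X) ≤ Subgroup.normalizer (N : Set X) := by
    apply hnorm_of
    rintro c ⟨hcP, hcC⟩ x ⟨hxA, hxt⟩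
    have hct : c * t = t * c := ((Subgroup.mem_centralizer_iff).1 hcC t ht).symm
    refine ⟨hAP c hcP x hxA, ?_⟩
    have hcti : c⁻¹ * t⁻¹ = t⁻¹ * c⁻¹ := by
      rw [← mul_inv_rev, ← mul_inv_rev, hct]
    calc t * (c * x * c⁻¹) * t⁻¹ = (t * c) * x * (c⁻¹ * t⁻¹) := by group
      _ = (c * t) * x * (t⁻¹ * c⁻¹) := by rw [hct, hcti]
      _ = c * (t * x * t⁻¹) * c⁻¹ := by group
      _ = c * x⁻¹ * c⁻¹ := by rw [hxt]
      _ = (c * x * c⁻¹)⁻¹ := by group
  have hPnorm : P ≤ Subgroup.normalizer (N : Set X) := by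
    rw [← hfac]; exact sup_le hRnorm hCnorm
  -- N is trivial
  have hNbot : N = ⊥ := by
    by_contra hne
    haveI : Group.IsNilpotent P := by
      haveI := Fact.mk hp
      exact hP.isNilpotent
    haveI hNn : (N.subgroupOf P).Normal := by
      constructor
      intro x hx g
      have h1 : (x : X) ∈ N := hx
      have := (Subgroup.mem_normalizer_iff.1 (hPnorm g.2) x).1 h1
      exact this
    have hN' : N.subgroupOf P ≠ ⊥ := by
      intro h0
      apply hne
      rw [eq_bot_iff]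
      intro x hx
      have h1 : (⟨x, hNP hx⟩ : P) ∈ N.subgroupOf P := hx
      rw [h0, Subgroup.mem_bot] at h1
      have := congrArg Subtype.val h1
      simpa using this
    have h2 := Cfsg.Agent.Lib.Core.normal_inf_center_ne_bot (N.subgroupOf P) hN'
    obtain ⟨z, hz1⟩ := Subgroup.ne_bot_iff_exists_ne_one.1 h2
    obtain ⟨hzN, hzc⟩ := Subgroup.mem_inf.1 z.2
    have hzN' : ((z : P) : X) ∈ N := hzN
    have hzcent : ((z : P) : X) ∈ (Subgroup.center P).map P.subtype := ⟨z, hzc, rfl⟩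
    have hzt : ((z : P) : X) * t = t * z := (Subgroup.mem_centralizer_iff).1 (hZ ht) _ hzcent
    have hzinv : ((z : P) : X) = ((z : P) : X)⁻¹ := by
      rw [← hzN'.2, ← hzt]; group
    have hzz : ((z : P) : X) ^ 2 = 1 := by
      rw [pow_two]
      nth_rewrite 1 [hzinv]
      group
    obtain ⟨k, hk⟩ := hP z
    have hk' : ((z : P) : X) ^ (p ^ k) = 1 := congrArg Subtype.val hk
    have hd1 := orderOf_dvd_of_pow_eq_one hk'
    have hd2 := orderOf_dvd_of_pow_eq_one hzz
    have hcop : Nat.Coprime (p ^ k) 2 := Nat.Coprime.pow_left k (hodd.coprime_two_right)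
    have hone : orderOf ((z : P) : X) = 1 := Nat.eq_one_of_dvd_coprimes hcop hd1 hd2
    rw [orderOf_eq_one_iff] at hone
    apply hz1
    apply Subtype.ext
    apply Subtype.ext
    exact hone
  intro x hx
  have hxt : t * x * t⁻¹ ∈ A := hAt x hx
  have hyN : x * (t * x * t⁻¹)⁻¹ ∈ N := by
    refine ⟨A.mul_mem hx (A.inv_mem hxt), ?_⟩
    have e : t * (x * (t * x * t⁻¹)⁻¹) * t⁻¹ = (t * x * t⁻¹) * (t * t) * x⁻¹ * (t * t)⁻¹ := by group
    rw [e, ht2]
    group
  rw [hNbot, Subgroup.mem_bot] at hyN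
  have h1 : x = t * x * t⁻¹ := by
    have := mul_eq_one_iff_eq_inv.1 hyN
    simpa using this
  calc x * t = (t * x * t⁻¹) * t := by rw [← h1]
    _ = t * x := by group

end Cfsg.Agent.S3190
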