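import Cfsg.Statements.S3195
import Mathlib
import Cfsg.Agent.S0200
import Cfsg.Agent.Lib.Core.Basic

set_option autoImplicit false
open Cfsg


namespace Cfsg.Agent.S3195

section aux
variable {G : Type*} [Group G]

theorem odd_sq_commute [Finite G] {v z : G} (hv : Odd (orderOf v)) (h : Commute z (v ^ 2)) : Commute z v := by
  obtain ⟨k, hk⟩ := hv
  have h1 : (v ^ 2) ^ (k + 1) = v := by
    rw [← pow_mul]
    have : 2 * (k + 1) = orderOf v + 1 := by omega
    rw [this, pow_succ, pow_orderOf_eq_one, one_mul]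
  rw [← h1]
  exact h.pow_right _

theorem odd_pow_two_pow_eq_one {v : G} (hv : Odd (orderOf v)) {k : ℕ} (h : v ^ (2 ^ k) = 1) : v = 1 := by
  have h1 : orderOf v ∣ 2 ^ k := orderOf_dvd_of_pow_eq_one h
  have h2 : (orderOf v).Coprime (2 ^ k) := Nat.Coprime.pow_right k (Nat.coprime_two_right.mpr hv)
  exact orderOf_eq_one_iff.mp (Nat.Coprime.eq_one_of_dvd h2 h1)

/-- The two-cycle contradiction. -/
theorem two_cycle_false [Finite G] {a b v₁ v₂ : G} (ha : a * a = 1) (hb : b * b = 1) (hab : a * b = b * a)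
    (ho₁ : Odd (orderOf v₁)) (h1 : v₁ ≠ 1) (ho₂ : Odd (orderOf v₂)) (h2 : v₂ ≠ 1)
    (i₁ : a * v₁ * a⁻¹ = v₁⁻¹) (c₁ : b * v₁ * b⁻¹ = v₁) (i₂ : b * v₂ * b⁻¹ = v₂⁻¹) (c₂ : a * v₂ * a⁻¹ = v₂)
    (H : ∀ g x : G, (x = a ∨ x = b ∨ x = a * b) →
      Commute (g * x * g⁻¹) a ∨ Commute (g * x * g⁻¹) b ∨ Commute (g * x * g⁻¹) (a * b)) : False := by
  have hai : a⁻¹ = a := inv_eq_of_mul_eq_one_left ha
  have hbi : b⁻¹ = b := inv_eq_of_mul_eq_one_left hb
  rw [hai] at i₁ c₂
  rw [hbi] at c₁ i₂
  have hcab : Commute a b := hab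
  have hb1 : b * v₁ = v₁ * b := by
    calc b * v₁ = b * v₁ * (b * b) := by rw [hb, mul_one]
      _ = (b * v₁ * b) * b := by group
      _ = v₁ * b := by rw [c₁]
  have ha2 : a * v₂ = v₂ * a := by
    calc a * v₂ = a * v₂ * (a * a) := by rw [ha, mul_one]
      _ = (a * v₂ * a) * a := by group
      _ = v₂ * a := by rw [c₂]
  have hcb1 : Commute b v₁ := hb1
  have hca2 : Commute a v₂ := ha2
  set y := v₁ * a * v₁⁻¹ with hy
  set w := v₂ * b * v₂⁻¹ with hw
  have hyy : y * y = 1 := by
    rw [hy]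
    calc v₁ * a * v₁⁻¹ * (v₁ * a * v₁⁻¹) = v₁ * (a * a) * v₁⁻¹ := by group
      _ = 1 := by rw [ha]; group
  have hww : w * w = 1 := by
    rw [hw]
    calc v₂ * b * v₂⁻¹ * (v₂ * b * v₂⁻¹) = v₂ * (b * b) * v₂⁻¹ := by group
      _ = 1 := by rw [hb]; group
  have hr : a * y = (v₁ ^ 2)⁻¹ := by
    rw [hy]
    calc a * (v₁ * a * v₁⁻¹) = (a * v₁ * a) * v₁⁻¹ := by group
      _ = (v₁ ^ 2)⁻¹ := by rw [i₁]; group
  have hs : b * w = (v₂ ^ 2)⁻¹ := by
    rw [hw]
    calc b * (v₂ * b * v₂⁻¹) = (b * v₂ * b) * v₂⁻¹ := by group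
      _ = (v₂ ^ 2)⁻¹ := by rw [i₂]; group
  have hyb : Commute y b := by
    rw [hy]
    exact ((hcb1.symm.mul_left hcab).mul_left hcb1.symm.inv_left.symm.symm)
  have hwa : Commute w a := by
    rw [hw]
    exact ((hca2.symm.mul_left hcab.symm).mul_left hca2.symm.inv_left.symm.symm)
  have hrv : (a * y) ^ 4 ≠ 1 := by
    intro h
    rw [hr, inv_pow, inv_eq_one, ← pow_mul] at h
    exact h1 (odd_pow_two_pow_eq_one ho₁ (k := 3) h)
  have hsv : (b * w) ^ 4 ≠ 1 := by
    intro h
    rw [hs, inv_pow, inv_eq_one, ← pow_mul] at h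
    exact h2 (odd_pow_two_pow_eq_one ho₂ (k := 3) h)
  have hnya : ¬ Commute y a := by
    intro h
    apply hrv
    have h3 : (a * y) ^ 2 = 1 := by
      rw [sq]
      calc a * y * (a * y) = a * (y * a) * y := by group
        _ = a * (a * y) * y := by rw [h.eq]
        _ = (a * a) * (y * y) := by group
        _ = 1 := by rw [ha, hyy, one_mul]
    rw [show (4 : ℕ) = 2 * 2 from rfl, pow_mul, h3, one_pow]
  have hnwb : ¬ Commute w b := by
    intro h
    apply hsv
    have h3 : (b * w) ^ 2 = 1 := by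
      rw [sq]
      calc b * w * (b * w) = b * (w * b) * w := by group
        _ = b * (b * w) * w := by rw [h.eq]
        _ = (b * b) * (w * w) := by group
        _ = 1 := by rw [hb, hww, one_mul]
    rw [show (4 : ℕ) = 2 * 2 from rfl, pow_mul, h3, one_pow]
  -- the final contradiction
  have hfinal : (a * y) ^ 2 = ((b * w) ^ 2)⁻¹ → False := by
    intro h
    apply hrv
    have hcs : Commute a (b * w) := hcab.mul_right hwa.symm
    have hcr : Commute a ((a * y) ^ 2) := by
      rw [h]; exact (hcs.pow_right 2).inv_right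
    have hinv : a * (a * y) * a = (a * y)⁻¹ := by
      rw [mul_inv_rev, inv_eq_of_mul_eq_one_left hyy, hai]
      calc a * (a * y) * a = (a * a) * y * a := by group
        _ = y * a := by rw [ha, one_mul]
    have h5 : a * (a * y) ^ 2 * a = ((a * y)⁻¹) ^ 2 := by
      rw [← hinv, sq, sq]
      calc a * (a * y * (a * y)) * a = a * (a * y) * (a * a) * (a * y) * a := by
            rw [ha]; group
        _ = a * (a * y) * a * (a * (a * y) * a) := by group
    have h6 : a * (a * y) ^ 2 * a = (a * y) ^ 2 := by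
      rw [hcr.eq, mul_assoc, ha, mul_one]
    rw [h6] at h5
    have h7 : (a * y) ^ 4 = (a * y) ^ 2 * (a * y) ^ 2 := by rw [← pow_add]
    rw [h7]
    nth_rewrite 1 [h5]
    rw [inv_pow, inv_mul_cancel]
  -- conjugates
  have hst1 : Commute y a ∨ Commute y w ∨ Commute y (a * w) := by
    have h3 := H (v₂⁻¹ * v₁) a (Or.inl rfl)
    have hconj : ∀ t : G, Commute ((v₂⁻¹ * v₁) * a * (v₂⁻¹ * v₁)⁻¹) t →
        Commute y (v₂ * t * v₂⁻¹) := by
      intro t ht
      have h4 := ht.map (MulAut.conj v₂).toMonoidHom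
      simp only [MulEquiv.toMonoidHom_eq_coe, MonoidHom.coe_coe, MulAut.conj_apply] at h4
      have e : v₂ * (v₂⁻¹ * v₁ * a * (v₂⁻¹ * v₁)⁻¹) * v₂⁻¹ = y := by rw [hy]; group
      rwa [e] at h4
    have ea : v₂ * a * v₂⁻¹ = a := by rw [← ha2]; group
    have eab : v₂ * (a * b) * v₂⁻¹ = a * w := by
      rw [hw]
      calc v₂ * (a * b) * v₂⁻¹ = (v₂ * a) * b * v₂⁻¹ := by group
        _ = (a * v₂) * b * v₂⁻¹ := by rw [ha2]
        _ = a * (v₂ * b * v₂⁻¹) := by group
    rcases h3 with h4 | h4 | h4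
    · left; have := hconj _ h4; rwa [ea] at this
    · right; left; exact hconj _ h4
    · right; right; have := hconj _ h4; rwa [eab] at this
  have hst2 : Commute w y ∨ Commute w b ∨ Commute w (y * b) := by
    have h3 := H (v₁⁻¹ * v₂) b (Or.inr (Or.inl rfl))
    have hconj : ∀ t : G, Commute ((v₁⁻¹ * v₂) * b * (v₁⁻¹ * v₂)⁻¹) t →
        Commute w (v₁ * t * v₁⁻¹) := by
      intro t ht
      have h4 := ht.map (MulAut.conj v₁).toMonoidHom
      simp only [MulEquiv.toMonoidHom_eq_coe, MonoidHom.coe_coe, MulAut.conj_apply] at h4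
      have e : v₁ * (v₁⁻¹ * v₂ * b * (v₁⁻¹ * v₂)⁻¹) * v₁⁻¹ = w := by rw [hw]; group
      rwa [e] at h4
    have eb : v₁ * b * v₁⁻¹ = b := by rw [← hb1]; group
    have eab : v₁ * (a * b) * v₁⁻¹ = y * b := by
      rw [hy]
      calc v₁ * (a * b) * v₁⁻¹ = v₁ * a * (b * v₁⁻¹) := by group
        _ = v₁ * a * (v₁⁻¹ * b) := by rw [hcb1.inv_right.eq]
        _ = v₁ * a * v₁⁻¹ * b := by group
    rcases h3 with h4 | h4 | h4
    · left; exact hconj _ h4
    · right; left; have := hconj _ h4; rwa [eb] at this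
    · right; right; have := hconj _ h4; rwa [eab] at this
  by_cases hyw : Commute y w
  · -- Case 1
    have hwv₁ : Commute w v₁ := by
      apply odd_sq_commute ho₁
      have h3 : Commute w (a * y) := hwa.mul_right hyw.symm
      rw [hr] at h3
      exact h3.inv_right.symm.symm.inv_right.symm.symm |> fun h => by simpa using h
    have hconj : (v₁ * v₂) * (a * b) * (v₁ * v₂)⁻¹ = y * w := by
      have e1 : v₂ * (a * b) * v₂⁻¹ = a * w := by
        rw [hw]
        calc v₂ * (a * b) * v₂⁻¹ = (v₂ * a) * b * v₂⁻¹ := by group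
          _ = (a * v₂) * b * v₂⁻¹ := by rw [ha2]
          _ = a * (v₂ * b * v₂⁻¹) := by group
      calc (v₁ * v₂) * (a * b) * (v₁ * v₂)⁻¹ = v₁ * (v₂ * (a * b) * v₂⁻¹) * v₁⁻¹ := by group
        _ = v₁ * (a * w) * v₁⁻¹ := by rw [e1]
        _ = v₁ * a * (w * v₁⁻¹) := by group
        _ = v₁ * a * (v₁⁻¹ * w) := by rw [hwv₁.inv_right.eq]
        _ = (v₁ * a * v₁⁻¹) * w := by group
    have h3 := H (v₁ * v₂) (a * b) (Or.inr (Or.inr rfl))
    rw [hconj] at h3
    rcases h3 with h4 | h4 | h4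
    · apply hnya
      have h5 : y * (w * a) = a * (y * w) := by
        rw [← mul_assoc, h4.eq]
      rw [hwa.eq] at h5
      show y * a = a * y
      have h6 : y * a * w = a * y * w := by
        calc y * a * w = y * (a * w) := by group
          _ = a * (y * w) := h5
          _ = a * y * w := by group
      exact mul_right_cancel h6
    · apply hnwb
      have h5 : y * (w * b) = y * (b * w) := by
        calc y * (w * b) = y * w * b := by group
          _ = b * (y * w) := h4.eq
          _ = (b * y) * w := by group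
          _ = (y * b) * w := by rw [hyb.eq]
          _ = y * (b * w) := by group
      exact mul_left_cancel h5
    · apply hfinal
      have h5 : y * w * (a * b) = a * b * (y * w) := h4.eq
      have h6 : (y * a) * (w * b) = (a * y) * (b * w) := by
        calc (y * a) * (w * b) = y * (a * w) * b := by group
          _ = y * (w * a) * b := by rw [hwa.eq]
          _ = y * w * (a * b) := by group
          _ = a * b * (y * w) := h5
          _ = a * (b * y) * w := by group
          _ = a * (y * b) * w := by rw [hyb.eq]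
          _ = (a * y) * (b * w) := by group
      have hya : y * a = (a * y)⁻¹ := by
        rw [mul_inv_rev, inv_eq_of_mul_eq_one_left hyy, hai]
      have hwb : w * b = (b * w)⁻¹ := by
        rw [mul_inv_rev, inv_eq_of_mul_eq_one_left hww, hbi]
      rw [hya, hwb] at h6
      generalize a * y = r at h6 ⊢
      generalize b * w = s at h6 ⊢
      rw [sq, sq]
      have h7 : s⁻¹ * s⁻¹ = r * r := by
        calc s⁻¹ * s⁻¹ = r * (r⁻¹ * s⁻¹) * s⁻¹ := by group
          _ = r * (r * s) * s⁻¹ := by rw [h6]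
          _ = r * r := by group
      rw [← h7]; group
  · -- Case 2
    have h3 : Commute y (a * w) := by
      rcases hst1 with h | h | h
      · exact absurd h hnya
      · exact absurd h hyw
      · exact h
    have h4 : Commute w (y * b) := by
      rcases hst2 with h | h | h
      · exact absurd h.symm hyw
      · exact absurd h hnwb
      · exact h
    apply hfinal
    have hwi : w⁻¹ = w := inv_eq_of_mul_eq_one_left hww
    have hyi : y⁻¹ = y := inv_eq_of_mul_eq_one_left hyy
    have e1 : a * y * a = w * y * w := by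
      have h5 : a * y * a * w = w * y := by
        calc a * y * a * w = a * (y * (a * w)) := by group
          _ = a * ((a * w) * y) := by rw [h3.eq]
          _ = (a * a) * w * y := by group
          _ = w * y := by rw [ha, one_mul]
      calc a * y * a = a * y * a * w * w := by
            rw [mul_assoc (a * y * a) w w, hww, mul_one]
        _ = w * y * w := by rw [h5]
    have e2 : y * w * y = b * w * b := by
      have h5 : y * w * y * b = b * w := by
        calc y * w * y * b = y * (w * (y * b)) := by group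
          _ = y * ((y * b) * w) := by rw [h4.eq]
          _ = (y * y) * b * w := by group
          _ = b * w := by rw [hyy, one_mul]
      calc y * w * y = y * w * y * b * b := by
            rw [mul_assoc (y * w * y) b b, hb, mul_one]
        _ = b * w * b := by rw [h5]
    have e3 : (a * y) ^ 2 = (w * y) ^ 2 := by
      rw [sq, sq]
      calc a * y * (a * y) = (a * y * a) * y := by group
        _ = (w * y * w) * y := by rw [e1]
        _ = w * y * (w * y) := by group
    have e4 : (y * w) ^ 2 = (b * w) ^ 2 := by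
      rw [sq, sq]
      calc y * w * (y * w) = (y * w * y) * w := by group
        _ = (b * w * b) * w := by rw [e2]
        _ = b * w * (b * w) := by group
    have e5 : w * y = (y * w)⁻¹ := by rw [mul_inv_rev, hwi, hyi]
    rw [e3, ← e4, e5, inv_pow]
end aux

/-- Let A be a Klein four-subgroup of a finite group G. If every G-conjugate of every involution of A commutes with some involution of A (its centralizer meets A nontrivially), then A meets the largest normal 2-subgroup O₂(G) nontrivially. -/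
theorem result {G : Type*} [Group G] [Finite G]
    (A : Subgroup G) (hA : IsKleinFour ↥A)
    (h : ∀ a ∈ A, a ≠ 1 → ∀ g : G, A ⊓ Subgroup.centralizer ({g * a * g⁻¹} : Set G) ≠ ⊥) :
    A ⊓ Cfsg.pCore 2 G ≠ ⊥ := by
  classical
  have hf : Fact (Nat.Prime 2) := ⟨Nat.prime_two⟩
  have : Fintype A := Fintype.ofFinite A
  by_contra hcon
  -- no involution of A lies in O_2
  have hnotin : ∀ x : A, x ≠ 1 → (x : G) ∉ Cfsg.pCore 2 G := by
    intro x hx hmem
    have h1 : (x : G) ∈ A ⊓ Cfsg.pCore 2 G := ⟨x.2, hmem⟩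
    rw [hcon, Subgroup.mem_bot] at h1
    exact hx (Subtype.ext h1)
  have hcomm : ∀ x y : A, Commute (x : G) (y : G) := by
    intro x y
    have := hA.isMulCommutative
    have h1 : x * y = y * x := mul_comm' x y
    exact congrArg Subtype.val h1
  have hsq : ∀ x : A, (x : G) * x = 1 := by
    intro x
    have := IsKleinFour.mul_self x
    exact congrArg Subtype.val this
  -- the element attached to an involution
  have hL1 : ∀ x : A, x ≠ 1 → ∃ z : A, z ≠ 1 ∧ z ≠ x ∧ ∃ v : G, v ≠ 1 ∧ Odd (orderOf v) ∧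
      (x : G) * v * (x : G)⁻¹ = v⁻¹ ∧ (z : G) * v * (z : G)⁻¹ = v := by
    intro x hx
    have hx1 : (x : G) ≠ 1 := fun h => hx (Subtype.ext h)
    have hxo : orderOf (x : G) = 2 := orderOf_eq_prime (by rw [sq]; exact hsq x) hx1
    obtain ⟨v, hv1, hvo, hvi⟩ := Cfsg.Agent.S0200.result (x : G) hxo
      (fun N hN hN2 hmem => hnotin x hx (Cfsg.Agent.Lib.Core.le_pCore hN hN2 hmem))
    have h1 := h (x : G) x.2 hx1 v
    obtain ⟨z', hz'1⟩ := Subgroup.ne_bot_iff_exists_ne_one.mp h1
    have hz' := z'.2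
    let z : A := ⟨(z' : G), hz'.1⟩
    have hzc : Commute (z : G) (v * x * v⁻¹) := by
      have h2 := Subgroup.mem_centralizer_iff.mp hz'.2 (v * x * v⁻¹) rfl
      exact h2.symm
    have hxi : (x : G)⁻¹ = x := inv_eq_of_mul_eq_one_left (hsq x)
    have hxy : (x : G) * (v * x * v⁻¹) = (v ^ 2)⁻¹ := by
      have : (x : G) * v * x = v⁻¹ := by rw [← hvi, hxi]
      calc (x : G) * (v * x * v⁻¹) = ((x : G) * v * x) * v⁻¹ := by group
        _ = (v ^ 2)⁻¹ := by rw [this]; group
    have hzv : Commute (z : G) v := by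
      apply odd_sq_commute hvo
      have h3 : Commute (z : G) ((x : G) * (v * x * v⁻¹)) := (hcomm z x).mul_right hzc
      rw [hxy] at h3
      simpa using h3.inv_right
    refine ⟨z, ?_, ?_, v, hv1, hvo, hvi, ?_⟩
    · intro h0
      have h01 : ((z : A) : G) = 1 := congrArg Subtype.val h0
      exact hz'1 (Subtype.ext h01)
    · intro h0
      have h3 : Commute (x : G) v := by rw [← h0]; exact hzv
      have h4 : (x : G) * v * (x : G)⁻¹ = v := by rw [h3.eq]; group
      rw [hvi] at h4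
      have h5 : v ^ 2 = 1 := by
        rw [sq]
        nth_rewrite 1 [← h4]
        group
      exact hv1 (odd_pow_two_pow_eq_one hvo (k := 1) (by simpa using h5))
    · rw [hzv.eq]; group
  -- pick the two-cycle
  obtain ⟨a₀, ha₀⟩ : ∃ x : A, x ≠ 1 := by
    have hc : Nat.card A = 4 := IsKleinFour.card_four
    by_contra hno
    push_neg at hno
    have : Subsingleton A := ⟨fun x y => by rw [hno x, hno y]⟩
    rw [Nat.card_of_subsingleton (1 : A)] at hc
    omega
  obtain ⟨z₁, hz₁, hz₁a, v₁, hv₁, hv₁o, hv₁i, hv₁c⟩ := hL1 a₀ ha₀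
  obtain ⟨z₂, hz₂, hz₂z₁, v₂, hv₂, hv₂o, hv₂i, hv₂c⟩ := hL1 z₁ hz₁
  -- the group is {1, z₂, z₁, z₂ z₁}
  have huniv := IsKleinFour.eq_finset_univ hz₂ hz₁ hz₂z₁
  have hall : ∀ x : A, x = z₂ * z₁ ∨ x = z₂ ∨ x = z₁ ∨ x = 1 := by
    intro x
    have : x ∈ ({z₂ * z₁, z₂, z₁, 1} : Finset A) := by rw [huniv]; exact Finset.mem_univ x
    simpa using this
  -- z₂ inverts v₁
  have hinv : (z₂ : G) * v₁ * (z₂ : G)⁻¹ = v₁⁻¹ := by
    have ha₀inv := hv₁i
    have hz₁c := hv₁c
    have h3 : ∀ x : A, x ≠ 1 → x ≠ z₁ → (x : G) * v₁ * (x : G)⁻¹ = v₁⁻¹ := by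
      intro x hx hxz
      have huniv' := IsKleinFour.eq_finset_univ ha₀ hz₁ (Ne.symm hz₁a)
      have h4 : x ∈ ({a₀ * z₁, a₀, z₁, 1} : Finset A) := by rw [huniv']; exact Finset.mem_univ x
      simp only [Finset.mem_insert, Finset.mem_singleton] at h4
      rcases h4 with h4 | h4 | h4 | h4
      · subst h4
        show ((a₀ : G) * z₁) * v₁ * ((a₀ : G) * z₁)⁻¹ = v₁⁻¹
        calc ((a₀ : G) * z₁) * v₁ * ((a₀ : G) * z₁)⁻¹ = (a₀ : G) * ((z₁ : G) * v₁ * (z₁ : G)⁻¹) * (a₀ : G)⁻¹ := by group
          _ = v₁⁻¹ := by rw [hz₁c, ha₀inv]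
      · rw [h4]; exact ha₀inv
      · exact absurd h4 hxz
      · exact absurd h4 hx
    exact h3 z₂ hz₂ hz₂z₁
  refine two_cycle_false (a := (z₂ : G)) (b := (z₁ : G)) (hsq z₂) (hsq z₁) (hcomm z₂ z₁) hv₁o hv₁ hv₂o hv₂ hinv hv₁c hv₂i hv₂c ?_
  intro g x hx
  have hxA : x ∈ A := by
    rcases hx with rfl | rfl | rfl
    · exact z₂.2
    · exact z₁.2
    · exact A.mul_mem z₂.2 z₁.2
  have hx1 : x ≠ 1 := by
    rcases hx with rfl | rfl | rfl
    · exact fun h => hz₂ (Subtype.ext h)
    · exact fun h => hz₁ (Subtype.ext h)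
    · intro h
      have h1 : z₂ * z₁ = 1 := Subtype.ext h
      have h2 : z₁ = z₂ := by
        have h3 := IsKleinFour.mul_self z₂
        calc z₁ = (z₂ * z₂) * z₁ := by rw [h3, one_mul]
          _ = z₂ * (z₂ * z₁) := by group
          _ = z₂ := by rw [h1, mul_one]
      exact hz₂z₁ h2.symm
  have h1 := h x hxA hx1 g
  obtain ⟨z', hz'1⟩ := Subgroup.ne_bot_iff_exists_ne_one.mp h1
  have hz' := z'.2
  have hc : Commute (g * x * g⁻¹) (z' : G) := Subgroup.mem_centralizer_iff.mp hz'.2 (g * x * g⁻¹) rfl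
  have hz'ne : (⟨z', hz'.1⟩ : A) ≠ 1 := fun h0 => hz'1 (Subtype.ext (by
    have h01 : (((⟨z', hz'.1⟩ : A)) : G) = 1 := congrArg Subtype.val h0
    exact h01))
  rcases hall ⟨z', hz'.1⟩ with h2 | h2 | h2 | h2
  · right; right
    have h3 : (z' : G) = (z₂ : G) * z₁ := congrArg Subtype.val h2
    rwa [h3] at hc
  · left
    have h3 : (z' : G) = (z₂ : G) := congrArg Subtype.val h2
    rwa [h3] at hc
  · right; left
    have h3 : (z' : G) = (z₁ : G) := congrArg Subtype.val h2
    rwa [h3] at hc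
  · exact absurd h2 hz'ne

end Cfsg.Agent.S3195
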