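import Cfsg.Statements.S3196
import Mathlib
import Cfsg.Agent.Lib.Core.Basic

set_option autoImplicit false
open Cfsg

open scoped commutatorElement

namespace Cfsg.Agent.S3196

variable {G : Type*} [Group G] {p : ℕ} {K : Set (Subgroup G)}

structure Setup (p : ℕ) (K : Set (Subgroup G)) : Prop where
  hp : p.Prime
  hK : ∀ X ∈ K, Nat.card ↥X = p
  hKc : ∀ X ∈ K, ∀ g : G, X.map (MulAut.conj g).toMonoidHom ∈ K
  ha : ∀ X ∈ K, ∀ Y ∈ K, X ≠ Y → (∀ x ∈ X, ∀ y ∈ Y, x * y = y * x) →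
      ∀ Z : Subgroup G, Z ≤ X ⊔ Y → Nat.card ↥Z = p → Z ∈ K
  hb : ∀ X ∈ K, ∀ Y ∈ K, X ≠ Y → (∀ x ∈ X, ∀ y ∈ Y, x * y = y * x) →
      ∀ W ∈ K, (X ⊔ Y) ⊓ Subgroup.centralizer (W : Set G) ≠ ⊥

def Pt (K : Set (Subgroup G)) (x : G) : Prop := x ≠ 1 ∧ Subgroup.zpowers x ∈ K

theorem exists_inv_mod (hp : p.Prime) {k : ℤ} (hk : ¬ (p : ℤ) ∣ k) : ∃ l m : ℤ, k * l = 1 + p * m := by
  have h1 : IsCoprime (p : ℤ) k :=
    ((Nat.prime_iff_prime_int.mp hp).coprime_iff_not_dvd).mpr hk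
  obtain ⟨a, b, hab⟩ := h1
  exact ⟨b, -a, by linarith⟩

theorem zpow_eq_self_of {y : G} (hy : y ^ p = 1) {k l m : ℤ} (h : k * l = 1 + p * m) :
    (y ^ k) ^ l = y := by
  rw [← zpow_mul, h, zpow_add, zpow_one, zpow_mul, zpow_natCast, hy, one_zpow, mul_one]

theorem zpow_eq_one_of_dvd {y : G} (hy : y ^ p = 1) {k : ℤ} (h : (p : ℤ) ∣ k) : y ^ k = 1 := by
  obtain ⟨m, rfl⟩ := h
  rw [zpow_mul, zpow_natCast, hy, one_zpow]

namespace Setup

variable (S : Setup p K)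
include S

theorem pow_eq_one {x : G} (hx : Pt K x) : x ^ p = 1 := by
  have h : orderOf x = p := by
    rw [← Nat.card_zpowers]; exact S.hK _ hx.2
  rw [← h, pow_orderOf_eq_one]

theorem pt_zpow {x : G} (hx : Pt K x) {k : ℤ} (hk : ¬ (p : ℤ) ∣ k) : Pt K (x ^ k) := by
  obtain ⟨l, m, h⟩ := exists_inv_mod S.hp hk
  have h1 := zpow_eq_self_of (S.pow_eq_one hx) h
  have hne : x ^ k ≠ 1 := by
    intro h0
    rw [h0, one_zpow] at h1
    exact hx.1 h1.symm
  refine ⟨hne, ?_⟩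
  have : Subgroup.zpowers (x ^ k) = Subgroup.zpowers x := by
    apply le_antisymm
    · rw [Subgroup.zpowers_le]; exact Subgroup.zpow_mem_zpowers x k
    · rw [Subgroup.zpowers_le]
      have h2 := Subgroup.zpow_mem_zpowers (x ^ k) l
      rwa [h1] at h2
  rw [this]; exact hx.2

theorem commute_of_zpow {y w : G} (hy : Pt K y) {k : ℤ} (hk : ¬ (p : ℤ) ∣ k)
    (h : Commute (y ^ k) w) : Commute y w := by
  obtain ⟨l, m, h'⟩ := exists_inv_mod S.hp hk
  have h1 := zpow_eq_self_of (S.pow_eq_one hy) h'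
  rw [← h1]
  exact h.zpow_left l

theorem zpow_ne_one_imp {y : G} (hy : Pt K y) {k : ℤ} (h : y ^ k ≠ 1) : ¬ (p : ℤ) ∣ k :=
  fun hd => h (zpow_eq_one_of_dvd (S.pow_eq_one hy) hd)

theorem pt_conj {x : G} (hx : Pt K x) (g : G) : Pt K (g * x * g⁻¹) := by
  refine ⟨?_, ?_⟩
  · intro h
    apply hx.1
    have : x = g⁻¹ * (g * x * g⁻¹) * g := by group
    rw [this, h]; group
  · have h1 := S.hKc _ hx.2 g
    rw [MonoidHom.map_zpowers] at h1
    exact h1

end Setup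

theorem comm_zpowers {x y : G} (h : Commute x y) :
    ∀ u ∈ Subgroup.zpowers x, ∀ v ∈ Subgroup.zpowers y, u * v = v * u := by
  rintro _ ⟨i, rfl⟩ _ ⟨j, rfl⟩
  exact (h.zpow_zpow i j)

theorem mem_sup_of_comm {A C : Subgroup G} (h : ∀ a ∈ A, ∀ c ∈ C, a * c = c * a) {x : G} (hx : x ∈ A ⊔ C) :
    ∃ a ∈ A, ∃ c ∈ C, x = a * c := by
  let P : Subgroup G :=
    { carrier := {x | ∃ a ∈ A, ∃ c ∈ C, x = a * c}
      one_mem' := ⟨1, A.one_mem, 1, C.one_mem, by simp⟩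
      mul_mem' := by
        rintro _ _ ⟨a, ha, c, hc, rfl⟩ ⟨a', ha', c', hc', rfl⟩
        refine ⟨a * a', A.mul_mem ha ha', c * c', C.mul_mem hc hc', ?_⟩
        calc a * c * (a' * c') = a * (c * a') * c' := by group
          _ = a * (a' * c) * c' := by rw [h a' ha' c hc]
          _ = a * a' * (c * c') := by group
      inv_mem' := by
        rintro _ ⟨a, ha, c, hc, rfl⟩
        refine ⟨a⁻¹, A.inv_mem ha, c⁻¹, C.inv_mem hc, ?_⟩
        rw [mul_inv_rev]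
        have := h a ha c hc
        have h2 : a⁻¹ * c⁻¹ = (c * a)⁻¹ := by group
        rw [h2, ← this]; group }
  have hle : A ⊔ C ≤ P := by
    apply sup_le
    · intro a ha; exact ⟨a, ha, 1, C.one_mem, by simp⟩
    · intro c hc; exact ⟨1, A.one_mem, c, hc, by simp⟩
  exact hle hx

namespace Setup

variable (S : Setup p K)
include S

theorem line_pt {x y : G} (hx : Pt K x) (hy : Pt K y) (hc : Commute x y)
    (hd : Subgroup.zpowers x ≠ Subgroup.zpowers y) (i j : ℤ) (hz : x ^ i * y ^ j ≠ 1) :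
    Pt K (x ^ i * y ^ j) := by
  refine ⟨hz, S.ha _ hx.2 _ hy.2 hd (comm_zpowers hc) _ ?_ ?_⟩
  · rw [Subgroup.zpowers_le]
    exact Subgroup.mul_mem _ (Subgroup.mem_sup_left (Subgroup.zpow_mem_zpowers x i))
      (Subgroup.mem_sup_right (Subgroup.zpow_mem_zpowers y j))
  · rw [Nat.card_zpowers]
    have : Fact p.Prime := ⟨S.hp⟩
    apply orderOf_eq_prime _ hz
    have hcz : Commute (x ^ i) (y ^ j) := hc.zpow_zpow i j
    rw [hcz.mul_pow, ← zpow_natCast, ← zpow_natCast, ← zpow_mul, ← zpow_mul, mul_comm i, mul_comm j,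
      zpow_mul, zpow_mul, zpow_natCast, zpow_natCast, S.pow_eq_one hx, S.pow_eq_one hy]
    simp

theorem line_hb {x y w : G} (hx : Pt K x) (hy : Pt K y) (hc : Commute x y)
    (hd : Subgroup.zpowers x ≠ Subgroup.zpowers y) (hw : Pt K w) :
    ∃ i j : ℤ, x ^ i * y ^ j ≠ 1 ∧ Commute (x ^ i * y ^ j) w := by
  have h := S.hb _ hx.2 _ hy.2 hd (comm_zpowers hc) _ hw.2
  obtain ⟨z, hz, hz1⟩ := (Subgroup.ne_bot_iff_exists_ne_one.mp h).elim (fun z hz =>
    (⟨(z : G), z.2, fun h0 => hz (Subtype.ext h0)⟩ :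
      ∃ z : G, z ∈ (Subgroup.zpowers x ⊔ Subgroup.zpowers y) ⊓
        Subgroup.centralizer (Subgroup.zpowers w : Set G) ∧ z ≠ 1))
  obtain ⟨_, ⟨i, rfl⟩, _, ⟨j, rfl⟩, hzz⟩ := mem_sup_of_comm (comm_zpowers hc) hz.1
  refine ⟨i, j, ?_, ?_⟩
  · dsimp only at hzz
    rw [← hzz]; exact hz1
  · have h2 := Subgroup.mem_centralizer_iff.mp hz.2 w (Subgroup.mem_zpowers w)
    dsimp only at hzz
    rw [← hzz]
    exact h2.symm

/-- Projecting `x` away from `q`. -/
theorem project {x q b : G} (hx : Pt K x) (hq : Pt K q) (hc : Commute x q)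
    (hd : Subgroup.zpowers x ≠ Subgroup.zpowers q) (hb : Pt K b) (hqb : ¬ Commute q b) :
    ∃ s : ℤ, Commute (x * q ^ s) b := by
  obtain ⟨i, j, hne, hcom⟩ := S.line_hb hx hq hc hd hb
  by_cases hi : (p : ℤ) ∣ i
  · exfalso
    rw [zpow_eq_one_of_dvd (S.pow_eq_one hx) hi, one_mul] at hne hcom
    exact hqb (S.commute_of_zpow hq (S.zpow_ne_one_imp hq hne) hcom)
  · obtain ⟨l, m, h⟩ := exists_inv_mod S.hp hi
    refine ⟨j * l, ?_⟩
    have h1 := hcom.zpow_left l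
    have hcz : Commute (x ^ i) (q ^ j) := hc.zpow_zpow i j
    rw [hcz.mul_zpow, zpow_eq_self_of (S.pow_eq_one hx) h, ← zpow_mul] at h1
    exact h1

/-- The key identity. -/
theorem key_identity {x a q₁ q₂ : G} (hx : Pt K x) (ha : Pt K a) (hq₁ : Pt K q₁) (hq₂ : Pt K q₂)
    (hxa : ¬ Commute x a) (hq : ¬ Commute q₁ q₂)
    (h1x : Commute q₁ x) (h1a : Commute q₁ a) (h2x : Commute q₂ x) (h2a : Commute q₂ a) :
    ∃ i j : ℤ, ¬ (p : ℤ) ∣ i ∧ ¬ (p : ℤ) ∣ j ∧ ⁅x, a ^ i⁆ = ⁅q₂ ^ j, q₁⁆ := by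
  have hd1 : Subgroup.zpowers x ≠ Subgroup.zpowers q₁ := by
    intro h
    have h3 : x ∈ Subgroup.zpowers q₁ := h ▸ Subgroup.mem_zpowers x
    obtain ⟨k, rfl⟩ := h3
    exact hxa (h1a.zpow_left k)
  have hne1 : x ^ (1 : ℤ) * q₁ ^ (1 : ℤ) ≠ 1 := by
    intro h
    rw [zpow_one, zpow_one] at h
    have : x = q₁⁻¹ := eq_inv_of_mul_eq_one_left h
    exact hxa (this ▸ h1a.inv_left)
  have hpt := S.line_pt hx hq₁ h1x.symm hd1 1 1 hne1
  rw [zpow_one, zpow_one] at hpt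
  have hd2 : Subgroup.zpowers a ≠ Subgroup.zpowers q₂ := by
    intro h
    have h3 : a ∈ Subgroup.zpowers q₂ := h ▸ Subgroup.mem_zpowers a
    obtain ⟨k, rfl⟩ := h3
    exact hxa ((h2x.zpow_left k).symm)
  obtain ⟨i, j, hne, hcom⟩ := S.line_hb ha hq₂ h2a.symm hd2 hpt
  have hA : Commute (a ^ i) q₁ := (h1a.symm.zpow_left i)
  have hB : Commute (q₂ ^ j) x := (h2x.zpow_left j)
  have hx1 : Commute x q₁ := h1x.symm
  have hAB : Commute (a ^ i) (q₂ ^ j) := h2a.symm.zpow_zpow i j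
  have hi : ¬ (p : ℤ) ∣ i := by
    intro hi
    rw [zpow_eq_one_of_dvd (S.pow_eq_one ha) hi, one_mul] at hne hcom
    have h3 : Commute (q₂ ^ j) q₁ := by
      have h4 := hcom.eq
      have h5 : x * (q₂ ^ j * q₁) = x * (q₁ * q₂ ^ j) := by
        calc x * (q₂ ^ j * q₁) = (x * q₂ ^ j) * q₁ := by group
          _ = (q₂ ^ j * x) * q₁ := by rw [hB.eq]
          _ = q₂ ^ j * (x * q₁) := by group
          _ = x * q₁ * q₂ ^ j := h4
          _ = x * (q₁ * q₂ ^ j) := by group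
      exact mul_left_cancel h5
    exact hq ((S.commute_of_zpow hq₂ (S.zpow_ne_one_imp hq₂ hne) h3).symm)
  have hj : ¬ (p : ℤ) ∣ j := by
    intro hj
    rw [zpow_eq_one_of_dvd (S.pow_eq_one hq₂) hj, mul_one] at hne hcom
    have h3 : Commute (a ^ i) x := by
      have h4 := (hcom.eq)
      have h5 : a ^ i * x * q₁ = x * a ^ i * q₁ := by
        calc a ^ i * x * q₁ = a ^ i * (x * q₁) := by group
          _ = x * q₁ * a ^ i := h4
          _ = x * (q₁ * a ^ i) := by group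
          _ = x * (a ^ i * q₁) := by rw [hA.eq]
          _ = x * a ^ i * q₁ := by group
      exact mul_right_cancel h5
    exact hxa ((S.commute_of_zpow ha hi h3).symm)
  refine ⟨i, j, hi, hj, ?_⟩
  -- the computation
  set A := a ^ i with hAdef
  set B := q₂ ^ j with hBdef
  have hE : Commute (⁅B, q₁⁆) A := by
    rw [commutatorElement_def]
    exact ((hAB.symm.mul_left hA.symm).mul_left hAB.symm.inv_left).mul_left hA.symm.inv_left
  have hE' : Commute (⁅B, q₁⁆) x := by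
    rw [commutatorElement_def]
    exact ((hB.mul_left hx1.symm).mul_left hB.inv_left).mul_left hx1.symm.inv_left
  have h5 : A * x * ⁅B, q₁⁆ = x * A := by
    have h6 : A * B * (x * q₁) = x * q₁ * (A * B) := hcom.eq
    have h7 : A * x * (⁅B, q₁⁆ * (q₁ * B)) = x * A * (q₁ * B) := by
      have h8 : ⁅B, q₁⁆ * (q₁ * B) = B * q₁ := by
        rw [commutatorElement_def]; group
      rw [h8]
      calc A * x * (B * q₁) = A * (x * B) * q₁ := by group
        _ = A * (B * x) * q₁ := by rw [hB.eq]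
        _ = A * B * (x * q₁) := by group
        _ = x * q₁ * (A * B) := h6
        _ = x * (q₁ * A) * B := by group
        _ = x * (A * q₁) * B := by rw [hA.eq]
        _ = x * A * (q₁ * B) := by group
    have h9 : A * x * ⁅B, q₁⁆ * (q₁ * B) = x * A * (q₁ * B) := by
      rw [mul_assoc]; exact h7
    exact mul_right_cancel h9
  rw [commutatorElement_def x A]
  calc x * A * x⁻¹ * A⁻¹ = (A * x * ⁅B, q₁⁆) * x⁻¹ * A⁻¹ := by rw [h5]
    _ = A * x * (⁅B, q₁⁆ * x⁻¹) * A⁻¹ := by group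
    _ = A * x * (x⁻¹ * ⁅B, q₁⁆) * A⁻¹ := by rw [hE'.inv_right.eq]
    _ = A * ⁅B, q₁⁆ * A⁻¹ := by group
    _ = ⁅B, q₁⁆ * A * A⁻¹ := by rw [hE.symm.eq]
    _ = ⁅B, q₁⁆ := by group

end Setup

theorem comm_mul_left_aux {x y u : G} (huy : Commute u y) : ⁅x * u, y⁆ = ⁅x, y⁆ := by
  rw [commutatorElement_def, commutatorElement_def]
  have h : u * y * u⁻¹ = y := by rw [huy.eq]; group
  calc x * u * y * (x * u)⁻¹ * y⁻¹ = x * (u * y * u⁻¹) * x⁻¹ * y⁻¹ := by group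
    _ = x * y * x⁻¹ * y⁻¹ := by rw [h]

theorem comm_mul_right_aux {x y r : G} (hrx : Commute r x) : ⁅x, y * r⁆ = ⁅x, y⁆ := by
  rw [commutatorElement_def, commutatorElement_def]
  have h : r * x⁻¹ * r⁻¹ = x⁻¹ := by rw [hrx.inv_right.eq]; group
  calc x * (y * r) * x⁻¹ * (y * r)⁻¹ = x * y * (r * x⁻¹ * r⁻¹) * y⁻¹ := by group
    _ = x * y * x⁻¹ * y⁻¹ := by rw [h]

theorem comm_zpow_of_central {x y : G} (hy : Commute ⁅x, y⁆ y) (n : ℤ) :
    ⁅x, y ^ n⁆ = ⁅x, y⁆ ^ n := by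
  have h1 : x * y * x⁻¹ = ⁅x, y⁆ * y := by
    rw [commutatorElement_def]; group
  have h2 : x * y ^ n * x⁻¹ = ⁅x, y⁆ ^ n * y ^ n := by
    rw [← conj_zpow, h1, hy.mul_zpow]
  rw [commutatorElement_def x (y ^ n), h2]
  group

theorem commute_of_conj_zpow (hp : p.Prime) {c b : G} (hc : c ^ p = 1) (hb : b ^ p = 1) {r : ℤ}
    (h : b * c * b⁻¹ = c ^ r) : Commute b c := by
  have hm : ∀ m : ℕ, b ^ m * c * (b ^ m)⁻¹ = c ^ (r ^ m) := by
    intro m
    induction m with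
    | zero => simp
    | succ m ih =>
      have h1 : b ^ (m + 1) * c * (b ^ (m + 1))⁻¹ = b ^ m * (b * c * b⁻¹) * (b ^ m)⁻¹ := by
        rw [pow_succ]; group
      rw [h1, h, ← conj_zpow, ih, ← zpow_mul, pow_succ]
  have h1 := hm p
  rw [hb] at h1
  simp only [one_mul, inv_one, mul_one] at h1
  have : Fact p.Prime := ⟨hp⟩
  have h2 : (p : ℤ) ∣ r ^ p - r := by
    rw [← ZMod.intCast_zmod_eq_zero_iff_dvd]
    push_cast
    rw [ZMod.pow_card, sub_self]
  obtain ⟨t, ht⟩ := h2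
  have h3 : r ^ p = r + p * t := by linarith
  rw [h3, zpow_add, zpow_mul, zpow_natCast, hc, one_zpow, mul_one] at h1
  show b * c = c * b
  have h4 : b * c * b⁻¹ = c := by rw [h]; exact h1.symm
  calc b * c = (b * c * b⁻¹) * b := by group
    _ = c * b := by rw [h4]

namespace Setup

variable (S : Setup p K)
include S

theorem claim_C {x a q b : G} (hx : Pt K x) (ha : Pt K a) (hq : Pt K q) (hb : Pt K b)
    (hxa : ¬ Commute x a) (hqx : Commute q x) (hqa : Commute q a) (hqb : ¬ Commute q b) :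
    ∃ i j : ℤ, ¬ (p : ℤ) ∣ i ∧ ¬ (p : ℤ) ∣ j ∧ ⁅x, a ^ i⁆ = ⁅b ^ j, q⁆ ∧
      Commute ⁅x, a ^ i⁆ x ∧ Commute ⁅x, a ^ i⁆ a := by
  have hd1 : Subgroup.zpowers x ≠ Subgroup.zpowers q := by
    intro h
    have h3 : x ∈ Subgroup.zpowers q := h ▸ Subgroup.mem_zpowers x
    obtain ⟨k, rfl⟩ := h3
    exact hxa (hqa.zpow_left k)
  have hd2 : Subgroup.zpowers a ≠ Subgroup.zpowers q := by
    intro h
    have h3 : a ∈ Subgroup.zpowers q := h ▸ Subgroup.mem_zpowers a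
    obtain ⟨k, rfl⟩ := h3
    exact hxa ((hqx.zpow_left k).symm)
  obtain ⟨s, hs⟩ := S.project hx hq hqx.symm hd1 hb hqb
  obtain ⟨t, ht⟩ := S.project ha hq hqa.symm hd2 hb hqb
  have hux : Commute (q ^ s) x := hqx.zpow_left s
  have hua : Commute (q ^ s) a := hqa.zpow_left s
  have hvx : Commute (q ^ t) x := hqx.zpow_left t
  have hva : Commute (q ^ t) a := hqa.zpow_left t
  have hx1 : x ^ (1 : ℤ) * q ^ s ≠ 1 := by
    rw [zpow_one]
    intro h
    have : x = (q ^ s)⁻¹ := eq_inv_of_mul_eq_one_left h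
    exact hxa (this ▸ hua.inv_left)
  have ha1 : a ^ (1 : ℤ) * q ^ t ≠ 1 := by
    rw [zpow_one]
    intro h
    have : a = (q ^ t)⁻¹ := eq_inv_of_mul_eq_one_left h
    exact hxa ((this ▸ hvx.inv_left : Commute a x).symm)
  have hx' := S.line_pt hx hq hqx.symm hd1 1 s hx1
  have ha' := S.line_pt ha hq hqa.symm hd2 1 t ha1
  rw [zpow_one] at hx' ha'
  have hxa' : ¬ Commute (x * q ^ s) (a * q ^ t) := by
    intro h
    have h1 := commutatorElement_eq_one_iff_commute.mpr h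
    rw [comm_mul_left_aux (hua.mul_right (Commute.zpow_zpow_self q s t)),
      comm_mul_right_aux hvx] at h1
    exact hxa (commutatorElement_eq_one_iff_commute.mp h1)
  have hqx' : Commute q (x * q ^ s) := hqx.mul_right (Commute.zpow_right (Commute.refl q) s)
  have hqa' : Commute q (a * q ^ t) := hqa.mul_right (Commute.zpow_right (Commute.refl q) t)
  obtain ⟨i, j, hi, hj, hij⟩ := S.key_identity hx' ha' hq hb hxa' hqb hqx' hqa' hs.symm ht.symm
  have hcomm : Commute a (q ^ t) := hva.symm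
  have e1 : (a * q ^ t) ^ i = a ^ i * (q ^ t) ^ i := hcomm.mul_zpow i
  have e2 : ⁅x * q ^ s, (a * q ^ t) ^ i⁆ = ⁅x, a ^ i⁆ := by
    rw [e1, comm_mul_left_aux ((hua.zpow_right i).mul_right
      ((Commute.zpow_zpow_self q s t).zpow_right i)),
      comm_mul_right_aux (hvx.zpow_left i)]
  rw [e2] at hij
  refine ⟨i, j, hi, hj, hij, ?_, ?_⟩
  · have h1 : Commute ⁅x, a ^ i⁆ (x * q ^ s) := by
      rw [hij, commutatorElement_def]
      have hb3 : Commute (b ^ j) (x * q ^ s) := hs.symm.zpow_left j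
      exact ((hb3.mul_left hqx').mul_left hb3.inv_left).mul_left hqx'.inv_left
    have h2 : Commute ⁅x, a ^ i⁆ q := by
      rw [commutatorElement_def]
      have h3 : Commute (a ^ i) q := (hqa.zpow_right i).symm
      exact ((hqx.symm.mul_left h3).mul_left hqx.symm.inv_left).mul_left h3.inv_left
    have h3 : x = (x * q ^ s) * (q ^ s)⁻¹ := by group
    rw [h3]
    rw [← h3]
    have h4 := h1.mul_right (h2.zpow_right s).inv_right
    rwa [← h3] at h4
  · have h1 : Commute ⁅x, a ^ i⁆ (a * q ^ t) := by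
      rw [hij, commutatorElement_def]
      have hb3 : Commute (b ^ j) (a * q ^ t) := ht.symm.zpow_left j
      exact ((hb3.mul_left hqa').mul_left hb3.inv_left).mul_left hqa'.inv_left
    have h2 : Commute ⁅x, a ^ i⁆ q := by
      rw [commutatorElement_def]
      have h3 : Commute (a ^ i) q := (hqa.zpow_right i).symm
      exact ((hqx.symm.mul_left h3).mul_left hqx.symm.inv_left).mul_left h3.inv_left
    have h3 : a = (a * q ^ t) * (q ^ t)⁻¹ := by group
    have h4 := h1.mul_right (h2.zpow_right t).inv_right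
    rwa [← h3] at h4

theorem exists_partner {x₀ y₀ x : G} (hx₀ : Pt K x₀) (hy₀ : Pt K y₀) (hc₀ : Commute x₀ y₀)
    (hd₀ : Subgroup.zpowers x₀ ≠ Subgroup.zpowers y₀) (hx : Pt K x) :
    ∃ u, Pt K u ∧ Commute x u ∧ Subgroup.zpowers x ≠ Subgroup.zpowers u := by
  obtain ⟨i, j, hne, hcom⟩ := S.line_hb hx₀ hy₀ hc₀ hd₀ hx
  have hz := S.line_pt hx₀ hy₀ hc₀ hd₀ i j hne
  by_cases h : Subgroup.zpowers x = Subgroup.zpowers (x₀ ^ i * y₀ ^ j)
  · have hmem : x ∈ Subgroup.zpowers (x₀ ^ i * y₀ ^ j) := h ▸ Subgroup.mem_zpowers x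
    obtain ⟨k, hk⟩ := hmem
    have h1 : Commute x x₀ := by
      rw [← hk]
      apply Commute.zpow_left
      exact ((Commute.refl x₀).zpow_left i).mul_left (hc₀.symm.zpow_left j)
    have h2 : Commute x y₀ := by
      rw [← hk]
      apply Commute.zpow_left
      exact (hc₀.zpow_left i).mul_left ((Commute.refl y₀).zpow_left j)
    by_cases h3 : Subgroup.zpowers x = Subgroup.zpowers x₀
    · exact ⟨y₀, hy₀, h2, fun h4 => hd₀ (h3.symm.trans h4)⟩
    · exact ⟨x₀, hx₀, h1, h3⟩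
  · exact ⟨_, hz, hcom.symm, h⟩

theorem exists_radical {x₀ y₀ : G} (hx₀ : Pt K x₀) (hy₀ : Pt K y₀) (hc₀ : Commute x₀ y₀)
    (hd₀ : Subgroup.zpowers x₀ ≠ Subgroup.zpowers y₀) :
    ∃ v, Pt K v ∧ ∀ w, Pt K w → Commute v w := by
  by_cases hall : ∀ x w, Pt K x → Pt K w → Commute x w
  · exact ⟨x₀, hx₀, fun w hw => hall x₀ w hx₀ hw⟩
  push_neg at hall
  obtain ⟨x, a, hx, ha, hxa⟩ := hall
  obtain ⟨u, hu, hxu, hdu⟩ := S.exists_partner hx₀ hy₀ hc₀ hd₀ hx
  obtain ⟨i, j, hne, hcom⟩ := S.line_hb hx hu hxu hdu ha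
  have hq := S.line_pt hx hu hxu hdu i j hne
  have hqx : Commute (x ^ i * u ^ j) x :=
    ((Commute.refl x).zpow_left i).mul_left (hxu.symm.zpow_left j)
  by_cases hq' : ∀ w, Pt K w → Commute (x ^ i * u ^ j) w
  · exact ⟨_, hq, hq'⟩
  push_neg at hq'
  obtain ⟨b, hb, hqb⟩ := hq'
  obtain ⟨i₁, j₁, hi₁, hj₁, hc, hcx, hca⟩ := S.claim_C hx ha hq hb hxa hqx hcom hqb
  have ha₁ : Pt K (a ^ i₁) := S.pt_zpow ha hi₁
  have hxa₁ : ¬ Commute x (a ^ i₁) := fun h =>
    hxa (S.commute_of_zpow ha hi₁ h.symm).symm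
  have hca₁ : Commute ⁅x, a ^ i₁⁆ (a ^ i₁) := hca.zpow_right i₁
  have hc1 : ⁅x, a ^ i₁⁆ ≠ 1 := fun h => hxa₁ (commutatorElement_eq_one_iff_commute.mp h)
  have hx₁ : Pt K (a ^ i₁ * x * (a ^ i₁)⁻¹) := S.pt_conj hx _
  have e1 : ⁅x, a ^ i₁⁆ = x ^ (1 : ℤ) * (a ^ i₁ * x * (a ^ i₁)⁻¹) ^ (-1 : ℤ) := by
    rw [commutatorElement_def, zpow_one, zpow_neg_one]; group
  have e2 : a ^ i₁ * x * (a ^ i₁)⁻¹ = (⁅x, a ^ i₁⁆)⁻¹ * x := by
    rw [commutatorElement_def]; group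
  have hxx₁ : Commute x (a ^ i₁ * x * (a ^ i₁)⁻¹) := by
    rw [e2]
    exact (hcx.symm.inv_right).mul_right (Commute.refl x)
  have hdx₁ : Subgroup.zpowers x ≠ Subgroup.zpowers (a ^ i₁ * x * (a ^ i₁)⁻¹) := by
    intro h
    have h3 : a ^ i₁ * x * (a ^ i₁)⁻¹ ∈ Subgroup.zpowers x := h ▸ Subgroup.mem_zpowers _
    obtain ⟨k, hk⟩ := h3
    have e3 : ⁅x, a ^ i₁⁆ = x ^ (1 - k) := by
      rw [e1, ← hk, zpow_one, zpow_neg_one, ← zpow_neg, sub_eq_add_neg, zpow_add, zpow_one]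
    have h4 : ¬ (p : ℤ) ∣ (1 - k) := S.zpow_ne_one_imp hx (by rw [← e3]; exact hc1)
    have h5 : Commute (x ^ (1 - k)) (a ^ i₁) := by rw [← e3]; exact hca₁
    exact hxa₁ (S.commute_of_zpow hx h4 h5)
  have hcpt : Pt K ⁅x, a ^ i₁⁆ := by
    have := S.line_pt hx hx₁ hxx₁ hdx₁ 1 (-1) (e1 ▸ hc1)
    rwa [← e1] at this
  refine ⟨_, hcpt, ?_⟩
  intro w hw
  by_contra hcw
  obtain ⟨i₂, j₂, hi₂, hj₂, hc₂, -, -⟩ := S.claim_C hx ha₁ hcpt hw hxa₁ hcx hca₁ hcw
  rw [comm_zpow_of_central hca₁] at hc₂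
  have h6 : w ^ j₂ * ⁅x, a ^ i₁⁆ * (w ^ j₂)⁻¹ = ⁅x, a ^ i₁⁆ ^ (i₂ + 1) := by
    rw [zpow_add, zpow_one, hc₂, commutatorElement_def (w ^ j₂)]
    group
  have h7 : (w ^ j₂) ^ p = 1 := by
    rw [← zpow_natCast, ← zpow_mul, mul_comm, zpow_mul, zpow_natCast, S.pow_eq_one hw, one_zpow]
  have h8 := commute_of_conj_zpow S.hp (S.pow_eq_one hcpt) h7 h6
  exact hcw (S.commute_of_zpow hw hj₂ h8).symm

theorem exists_generator [Finite G] {X : Subgroup G} (hX : X ∈ K) : ∃ x, Pt K x ∧ Subgroup.zpowers x = X := by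
  have hp := S.hp
  have hcard := S.hK X hX
  have hbot : X ≠ ⊥ := by
    intro h
    rw [h, Subgroup.card_bot] at hcard
    exact hp.one_lt.ne hcard
  obtain ⟨x, hx⟩ := Subgroup.ne_bot_iff_exists_ne_one.mp hbot
  have hx1 : (x : G) ≠ 1 := fun h => hx (Subtype.ext h)
  have hle : Subgroup.zpowers (x : G) ≤ X := by
    rw [Subgroup.zpowers_le]; exact x.2
  have hdvd : orderOf (x : G) ∣ p := by
    have h1 := Subgroup.orderOf_dvd_natCard X x.2
    rwa [hcard] at h1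
  have ho : orderOf (x : G) = p := by
    rcases (Nat.dvd_prime hp).mp hdvd with h | h
    · exact absurd (orderOf_eq_one_iff.mp h) hx1
    · exact h
  have heq : Subgroup.zpowers (x : G) = X := by
    apply Subgroup.eq_of_le_of_card_ge hle
    rw [Nat.card_zpowers, ho, hcard]
  exact ⟨x, ⟨hx1, by rw [heq]; exact hX⟩, heq⟩

end Setup

/-- Let p be a prime and K a set of subgroups of order p of a finite group G, closed under conjugation, such that at least two distinct members of K commute elementwise, and whenever two distinct members X, Y of K commute: every subgroup of order p of the group XY they generate belongs to K, and every member W of K has centralizer meeting XY nontrivially. Then some member V of K commutes elementwise with every member of K and lies in O_p(G); in particular G is not simple. -/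
theorem result {G : Type*} [Group G] [Finite G]
    {p : ℕ} (hp : p.Prime) (K : Set (Subgroup G)) (hK : ∀ X ∈ K, Nat.card ↥X = p)
    (hKc : ∀ X ∈ K, ∀ g : G, X.map (MulAut.conj g).toMonoidHom ∈ K)
    (hex : ∃ X ∈ K, ∃ Y ∈ K, X ≠ Y ∧ ∀ x ∈ X, ∀ y ∈ Y, x * y = y * x)
    (ha : ∀ X ∈ K, ∀ Y ∈ K, X ≠ Y → (∀ x ∈ X, ∀ y ∈ Y, x * y = y * x) →
      ∀ Z : Subgroup G, Z ≤ X ⊔ Y → Nat.card ↥Z = p → Z ∈ K)
    (hb : ∀ X ∈ K, ∀ Y ∈ K, X ≠ Y → (∀ x ∈ X, ∀ y ∈ Y, x * y = y * x) →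
      ∀ W ∈ K, (X ⊔ Y) ⊓ Subgroup.centralizer (W : Set G) ≠ ⊥) :
    (∃ V ∈ K, (∀ W ∈ K, ∀ v ∈ V, ∀ w ∈ W, v * w = w * v) ∧ V ≤ Cfsg.pCore p G) ∧ ¬ IsSimpleGroup G := by
  classical
  have S : Setup p K := ⟨hp, hK, hKc, ha, hb⟩
  obtain ⟨X, hX, Y, hY, hXY, hcXY⟩ := hex
  obtain ⟨x₀, hx₀, rfl⟩ := S.exists_generator hX
  obtain ⟨y₀, hy₀, rfl⟩ := S.exists_generator hY
  have hc₀ : Commute x₀ y₀ := hcXY _ (Subgroup.mem_zpowers x₀) _ (Subgroup.mem_zpowers y₀)
  obtain ⟨v, hv, hvr⟩ := S.exists_radical hx₀ hy₀ hc₀ hXY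
  -- conjugates of `v` are radical
  have hconj : ∀ g w : G, Pt K w → Commute (g * v * g⁻¹) w := by
    intro g w hw
    have h1 : Commute v (g⁻¹ * w * g⁻¹⁻¹) := hvr _ (S.pt_conj hw g⁻¹)
    have h3 := h1.map (MulAut.conj g).toMonoidHom
    simp only [MulEquiv.toMonoidHom_eq_coe, MonoidHom.coe_coe, MulAut.conj_apply] at h3
    have e : g * (g⁻¹ * w * g⁻¹⁻¹) * g⁻¹ = w := by group
    rwa [e] at h3
  let T : Set G := Group.conjugatesOfSet {v}
  have hT : ∀ t ∈ T, Pt K t ∧ ∀ w, Pt K w → Commute t w := by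
    intro t ht
    obtain ⟨a, ha', hat⟩ := Group.mem_conjugatesOfSet_iff.mp ht
    rw [Set.mem_singleton_iff] at ha'
    subst ha'
    obtain ⟨c, rfl⟩ := isConj_iff.mp hat
    exact ⟨S.pt_conj hv c, hconj c⟩
  let N : Subgroup G := Subgroup.normalClosure {v}
  have hNdef : N = Subgroup.closure T := rfl
  have hvN : v ∈ N := Subgroup.subset_normalClosure (Set.mem_singleton v)
  -- N is abelian
  have hcomm1 : ∀ x ∈ N, ∀ t ∈ T, Commute x t := by
    intro x hx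
    rw [hNdef] at hx
    induction hx using Subgroup.closure_induction with
    | mem y hy => intro t ht; exact (hT y hy).2 t (hT t ht).1
    | one => intro t _; exact Commute.one_left t
    | mul a b _ _ ha' hb' => intro t ht; exact (ha' t ht).mul_left (hb' t ht)
    | inv a _ ha' => intro t ht; exact (ha' t ht).inv_left
  have hcomm2 : ∀ x ∈ N, ∀ y ∈ N, Commute x y := by
    intro x hx y hy
    have hy' := hy
    rw [hNdef] at hy'
    induction hy' using Subgroup.closure_induction with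
    | mem t ht => exact hcomm1 x hx t ht
    | one => exact Commute.one_right x
    | mul a b ha1 hb1 ha' hb' =>
      exact (ha' (by rw [hNdef]; exact ha1)).mul_right (hb' (by rw [hNdef]; exact hb1))
    | inv a ha1 ha' => exact (ha' (by rw [hNdef]; exact ha1)).inv_right
  have hexp : ∀ x ∈ N, x ∈ N ∧ x ^ p = 1 := by
    intro x hx
    have hx' := hx
    rw [hNdef] at hx'
    induction hx' using Subgroup.closure_induction with
    | mem t ht => exact ⟨hx, S.pow_eq_one (hT t ht).1⟩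
    | one => exact ⟨N.one_mem, one_pow p⟩
    | mul a b ha1 hb1 ha' hb' =>
      have h1 := ha' (by rw [hNdef]; exact ha1)
      have h2 := hb' (by rw [hNdef]; exact hb1)
      exact ⟨N.mul_mem h1.1 h2.1, by rw [(hcomm2 a h1.1 b h2.1).mul_pow, h1.2, h2.2, one_mul]⟩
    | inv a ha1 ha' =>
      have h1 := ha' (by rw [hNdef]; exact ha1)
      exact ⟨N.inv_mem h1.1, by rw [inv_pow, h1.2, inv_one]⟩
  have : Fact p.Prime := ⟨hp⟩
  have hNp : IsPGroup p N := by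
    intro x
    refine ⟨1, ?_⟩
    apply Subtype.ext
    simpa using (hexp x x.2).2
  have hNn : N.Normal := Subgroup.normalClosure_normal
  have hNle : N ≤ Cfsg.pCore p G := Cfsg.Agent.Lib.Core.le_pCore hNn hNp
  refine ⟨⟨Subgroup.zpowers v, hv.2, ?_, ?_⟩, ?_⟩
  · intro W hW
    obtain ⟨w, hw, rfl⟩ := S.exists_generator hW
    exact comm_zpowers (hvr w hw)
  · rw [Subgroup.zpowers_le]
    exact hNle hvN
  · intro hs
    have hNbot : N ≠ ⊥ := by
      intro h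
      rw [h] at hvN
      exact hv.1 ((Subgroup.mem_bot).mp hvN)
    have hNtop : N = ⊤ := (IsSimpleGroup.eq_bot_or_eq_top_of_normal N hNn).resolve_left hNbot
    have hab : ∀ x y : G, Commute x y := fun x y =>
      hcomm2 x (by rw [hNtop]; trivial) y (by rw [hNtop]; trivial)
    have hnormal : ∀ U : Subgroup G, U.Normal := by
      intro U
      refine ⟨fun n hn g => ?_⟩
      rw [(hab g n).eq]
      simpa using hn
    have hbotZ : ∀ z : G, Pt K z → Subgroup.zpowers z = ⊤ := by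
      intro z hz
      refine (IsSimpleGroup.eq_bot_or_eq_top_of_normal _ (hnormal _)).resolve_left ?_
      intro h
      exact hz.1 (Subgroup.zpowers_eq_bot.mp h)
    exact hXY ((hbotZ x₀ hx₀).trans (hbotZ y₀ hy₀).symm)

end Cfsg.Agent.S3196
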