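import Cfsg.Statements.S3200
import Mathlib
import Cfsg.Agent.Lib.InvolChar.AbComp
import Cfsg.Agent.Lib.Hall.Basic

set_option autoImplicit false
open Cfsg

open Cfsg.Agent.Lib.AbComp

namespace Cfsg.Agent.S3200


/-- Let H be a finite group in which a Sylow 2-subgroup has an abelian complement (an abelian subgroup meeting it trivially whose product with it is all of H). Then H is solvable, and every subgroup and every quotient group of H again has a Sylow 2-subgroup with an abelian complement. -/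
theorem result {H : Type*} [Group H] [Finite H]
    (S : Sylow 2 H) (C : Subgroup H) (hC : IsMulCommutative ↥C) (hSC : Subgroup.IsComplement' (S : Subgroup H) C) :
    Group.IsSolvable H ∧
    (∀ L : Subgroup H, ∃ (P : Sylow 2 ↥L) (D : Subgroup ↥L), IsMulCommutative ↥D ∧ Subgroup.IsComplement' (P : Subgroup ↥L) D) ∧
    (∀ (N : Subgroup H) [N.Normal], ∃ (P : Sylow 2 (H ⧸ N)) (D : Subgroup (H ⧸ N)),
      IsMulCommutative ↥D ∧ Subgroup.IsComplement' (P : Subgroup (H ⧸ N)) D) := by
  haveI : Fact (Nat.Prime 2) := ⟨Nat.prime_two⟩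
  have hS2 : IsPGroup 2 (S : Subgroup H) := S.isPGroup'
  have hcl := classProp_of_complement (S : Subgroup H) C hS2 hC hSC
  have hsol : Group.IsSolvable H := hcl.solvable _ rfl
  have hcard := hSC.card_mul_card
  have hidx : (S : Subgroup H).index = Nat.card C := by
    have h3 := Subgroup.card_mul_index (S : Subgroup H)
    rw [← hcard] at h3
    exact Nat.eq_of_mul_eq_mul_left Nat.card_pos h3
  have hcop : (Nat.card C).Coprime (Nat.card (S : Subgroup H)) := by
    have h1 := S.card_coprime_index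
    rw [hidx] at h1
    exact h1.symm
  have hCodd : Nat.Coprime (Nat.card C) 2 := by
    have h1 := S.not_dvd_index
    rw [hidx] at h1
    exact ((Nat.Prime.coprime_iff_not_dvd Nat.prime_two).2 h1).symm
  have hab : ∀ K : Subgroup H, (Nat.card K).Coprime (Nat.card (S : Subgroup H)) →
      ∀ x ∈ K, ∀ y ∈ K, x * y = y * x := by
    intro K hK x hx y hy
    obtain ⟨H₁, hH₁, hle⟩ := Cfsg.Agent.Lib.Hall.exists_card_eq_and_le_of_solvable (Nat.card C)
      (Nat.card (S : Subgroup H)) (by rw [← hcard, mul_comm]) hcop K hK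
    obtain ⟨g, hg⟩ := Cfsg.Agent.Lib.Hall.exists_conj_of_card_eq_of_solvable (Nat.card C)
      (Nat.card (S : Subgroup H)) (by rw [← hcard, mul_comm]) hcop H₁ C hH₁ rfl
    have hm : ∀ z ∈ K, g * z * g⁻¹ ∈ C := by
      intro z hz
      rw [← hg]
      exact Subgroup.mem_map_of_mem _ (hle hz)
    have h1 := hC.is_comm.comm ⟨_, hm x hx⟩ ⟨_, hm y hy⟩
    have h2 : g * x * g⁻¹ * (g * y * g⁻¹) = g * y * g⁻¹ * (g * x * g⁻¹) := congrArg Subtype.val h1
    have h3 : g * (x * y) * g⁻¹ = g * (y * x) * g⁻¹ := by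
      calc g * (x * y) * g⁻¹ = g * x * g⁻¹ * (g * y * g⁻¹) := by group
        _ = g * y * g⁻¹ * (g * x * g⁻¹) := h2
        _ = _ := by group
    exact mul_left_cancel (mul_right_cancel h3)
  refine ⟨hsol, ?_, ?_⟩
  · intro L
    haveI : Group.IsSolvable L := inferInstance
    obtain ⟨P⟩ : Nonempty (Sylow 2 L) := inferInstance
    have hP := P.card_eq_multiplicity
    set t := ordCompl[2] (Nat.card L) with htdef
    have ht2 : ¬ 2 ∣ t := Nat.not_dvd_ordCompl Nat.prime_two Nat.card_pos.ne'
    have ht : Nat.card L = Nat.card (P : Subgroup L) * t := by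
      rw [hP]
      exact (Nat.ordProj_mul_ordCompl_eq_self _ _).symm
    have hcopL : (Nat.card (P : Subgroup L)).Coprime t := by
      rw [hP]
      exact Nat.Coprime.pow_left _ ((Nat.Prime.coprime_iff_not_dvd Nat.prime_two).2 ht2)
    obtain ⟨D, hD⟩ := Cfsg.Agent.Lib.Hall.exists_card_eq_of_solvable t (Nat.card (P : Subgroup L)) (by rw [ht, mul_comm]) hcopL.symm
    refine ⟨P, D, ?_, Subgroup.isComplement'_of_coprime (by rw [hD, ht]) (by rw [hD]; exact hcopL)⟩
    refine ⟨⟨?_⟩⟩
    rintro ⟨x, hx⟩ ⟨y, hy⟩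
    apply Subtype.ext
    apply Subtype.ext
    have hcardmap : Nat.card (D.map L.subtype) = t := by
      rw [Subgroup.card_map_of_injective L.subtype_injective, hD]
    have hoddt : t.Coprime (Nat.card (S : Subgroup H)) := by
      obtain ⟨a, ha⟩ := IsPGroup.iff_card.1 hS2
      rw [ha]
      apply Nat.Coprime.pow_right
      exact ((Nat.Prime.coprime_iff_not_dvd Nat.prime_two).2 ht2).symm
    have := hab (D.map L.subtype) (by rw [hcardmap]; exact hoddt) x.1 ⟨x, hx, rfl⟩ y.1 ⟨y, hy, rfl⟩
    exact this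
  · intro N _
    have hsurj := QuotientGroup.mk'_surjective N
    refine ⟨S.mapSurjective hsurj, C.map (QuotientGroup.mk' N), ?_, ?_⟩
    · refine ⟨⟨?_⟩⟩
      rintro ⟨_, x, hx, rfl⟩ ⟨_, y, hy, rfl⟩
      apply Subtype.ext
      have h1 := hC.is_comm.comm ⟨x, hx⟩ ⟨y, hy⟩
      have h2 : x * y = y * x := congrArg Subtype.val h1
      show QuotientGroup.mk' N x * QuotientGroup.mk' N y = QuotientGroup.mk' N y * QuotientGroup.mk' N x
      rw [← map_mul, ← map_mul, h2]
    · apply Subgroup.isComplement'_of_disjoint_and_mul_eq_univ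
      · apply Subgroup.disjoint_of_coprime_natCard
        obtain ⟨a, ha⟩ := IsPGroup.iff_card.1 (S.mapSurjective hsurj).isPGroup'
        have h2 : Nat.card (C.map (QuotientGroup.mk' N)) ∣ Nat.card C := Subgroup.card_map_dvd _ _
        rw [ha]
        apply Nat.Coprime.pow_left
        exact (Nat.Coprime.coprime_dvd_left h2 hCodd).symm
      · ext y
        simp only [Set.mem_univ, iff_true]
        obtain ⟨x, rfl⟩ := hsurj y
        obtain ⟨⟨⟨s, hs⟩, ⟨c, hc⟩⟩, rfl⟩ := hSC.2 x
        refine ⟨_, ?_, _, ?_, (map_mul (QuotientGroup.mk' N) s c).symm⟩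
        · show _ ∈ ((S.mapSurjective hsurj : Sylow 2 (H ⧸ N)) : Subgroup (H ⧸ N))
          rw [Sylow.coe_mapSurjective]
          exact Subgroup.mem_map_of_mem _ hs
        · exact Subgroup.mem_map_of_mem _ hc

end Cfsg.Agent.S3200
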