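import Cfsg.Statements.S3201
import Mathlib
import Cfsg.Agent.Lib.InvolChar.QuatPres
import Cfsg.Agent.Lib.InvolChar.TwoGroup
import Cfsg.Agent.Lib.PGroup.Basic

set_option autoImplicit false
open Cfsg

open Cfsg

namespace Cfsg.Agent.S3201


/-- Let S be a finite 2-group whose centre Z(S) has n ≥ 2 distinct maximal subgroups C₁, …, Cₙ with trivial intersection such that each quotient S/Cᵢ is a non-abelian group with exactly one involution (a generalized quaternion group). Then S is the internal direct product of an elementary abelian subgroup and a non-abelian subgroup with exactly one involution. -/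
theorem result {S : Type*} [Group S] [Finite S]
    (hS : IsPGroup 2 S) (n : ℕ) (hn : 2 ≤ n) (C : Fin n → Subgroup ↥(Subgroup.center S))
    (hCmax : ∀ i, IsCoatom (C i)) (hCinj : Function.Injective C) (hCint : ⨅ i, C i = ⊥)
    (hCq : ∀ i, ∃ (_ : ((C i).map (Subgroup.center S).subtype).Normal),
      ¬ IsMulCommutative (S ⧸ (C i).map (Subgroup.center S).subtype) ∧
      ∃! x : S ⧸ (C i).map (Subgroup.center S).subtype, orderOf x = 2) :
    ∃ E Q : Subgroup S, Cfsg.IsInternalDirectProduct E Q ⊤ ∧ Cfsg.IsElementaryAbelian 2 E ∧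
      ¬ IsMulCommutative ↥Q ∧ ∃! x : ↥Q, orderOf x = 2 := by
  classical
  haveI hf2 : Fact (Nat.Prime 2) := ⟨Nat.prime_two⟩
  let D : Fin n → Subgroup S := fun i => (C i).map (Subgroup.center S).subtype
  have hDZ : ∀ i, D i ≤ (Subgroup.center S) := fun i => by
    rintro _ ⟨u, -, rfl⟩
    exact u.2
  have hmemD : ∀ i (u : (Subgroup.center S)), (u : S) ∈ D i ↔ u ∈ C i := by
    intro i u
    constructor
    · rintro ⟨v, hv, hvu⟩
      have : v = u := Subtype.ext hvu
      rwa [← this]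
    · intro hu
      exact ⟨u, hu, rfl⟩
  have hidx : ∀ i, (C i).index = 2 := fun i =>
    Cfsg.Agent.Lib.PGroup.index_eq_prime_of_isCoatom (hS.to_subgroup (Subgroup.center S)) (hCmax i)
  have hZ2 : ∀ i, ∀ u ∈ (Subgroup.center S), ∀ v ∈ (Subgroup.center S), u ∉ D i → v ∉ D i → u * v ∈ D i := by
    intro i u hu v hv hu' hv'
    have h1 := Subgroup.mul_mem_iff_of_index_two (hidx i) (a := (⟨u, hu⟩ : (Subgroup.center S))) (b := (⟨v, hv⟩ : (Subgroup.center S)))
    have h2 : (⟨u, hu⟩ : (Subgroup.center S)) ∉ C i := fun h => hu' ((hmemD i _).mpr h)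
    have h3 : (⟨v, hv⟩ : (Subgroup.center S)) ∉ C i := fun h => hv' ((hmemD i _).mpr h)
    have h4 : (⟨u, hu⟩ : (Subgroup.center S)) * ⟨v, hv⟩ ∈ C i := h1.mpr (iff_of_false h2 h3)
    exact (hmemD i _).mpr h4
  have hZint : ∀ u ∈ (Subgroup.center S), (∀ i, u ∈ D i) → u = 1 := by
    intro u hu h
    have h1 : (⟨u, hu⟩ : (Subgroup.center S)) ∈ ⨅ i, C i := by
      rw [Subgroup.mem_iInf]
      intro i
      exact (hmemD i _).mp (h i)
    rw [hCint, Subgroup.mem_bot] at h1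
    exact congrArg Subtype.val h1
  have hsq : ∀ i, ∀ u ∈ (Subgroup.center S), u ^ 2 ∈ D i := by
    intro i u hu
    have h1 := Subgroup.sq_mem_of_index_two (hidx i) (⟨u, hu⟩ : (Subgroup.center S))
    exact (hmemD i _).mpr h1
  have hZ1 : ∀ u ∈ (Subgroup.center S), u ^ 2 = 1 := by
    intro u hu
    exact hZint _ ((Subgroup.center S).pow_mem hu 2) (fun i => hsq i u hu)
  have hF2 : ∀ i, ∀ x : S, x ^ 2 ∈ D i → x ∈ (Subgroup.center S) := by
    intro i x hx
    obtain ⟨inst, -, hU⟩ := hCq i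
    obtain ⟨w, hw⟩ : ∃ w : (Subgroup.center S), w ∉ C i := by
      by_contra h
      push_neg at h
      exact (hCmax i).1 (eq_top_iff.mpr fun x _ => h x)
    have hw' : (w : S) ∉ D i := fun h => hw ((hmemD i _).mp h)
    rcases Cfsg.Agent.Lib.InvolChar.mem_or_mem_of_unique_invol hU hw' (hsq i _ w.2) hx with h | h
    · exact hDZ i h
    · have h3 := hDZ i h
      have h4 : x = w * ((w : S)⁻¹ * x) := by group
      rw [h4]
      exact (Subgroup.center S).mul_mem w.2 h3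
  have hnotD : ∀ y : S, y ∉ (Subgroup.center S) → ∀ j, y ^ 2 ∉ D j := fun y hy j h => hy (hF2 j y h)
  let i₀ : Fin n := ⟨0, by omega⟩
  obtain ⟨inst, hnaQ, hUQ⟩ := hCq i₀
  have hD0 : (C i₀).map (Subgroup.center S).subtype = D i₀ := rfl
  haveI hnorm : (D i₀).Normal := inst
  obtain ⟨a, b, m, hm2, ham, hb, hba, hb2, hall⟩ :=
    Cfsg.Agent.Lib.InvolChar.exists_quat_pres (hS.to_quotient _) hnaQ hUQ
  change ∀ x : S ⧸ D i₀, x ∈ Subgroup.zpowers a ∨ x * b⁻¹ ∈ Subgroup.zpowers a at hall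
  let π : S →* S ⧸ D i₀ := QuotientGroup.mk' (D i₀)
  have hπ : ∀ x, π x = 1 ↔ x ∈ D i₀ := fun x => QuotientGroup.eq_one_iff x
  obtain ⟨A, hA⟩ : ∃ A, π A = a := QuotientGroup.mk_surjective a
  obtain ⟨B, hB⟩ : ∃ B, π B = b := QuotientGroup.mk_surjective b
  obtain ⟨l, rfl⟩ : ∃ l, m = l + 2 := ⟨m - 2, by omega⟩
  have e1 : l + 2 - 1 = l + 1 := by omega
  rw [e1] at hb2
  have hz_ne : a ^ 2 ^ (l + 1) ≠ 1 := by
    intro h
    have h1 := orderOf_dvd_of_pow_eq_one h
    rw [ham] at h1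
    have := Nat.le_of_dvd (by positivity) h1
    have h2 : 2 ^ (l + 1) < 2 ^ (l + 2) := Nat.pow_lt_pow_right (by norm_num) (by omega)
    omega
  have hz_sq : (a ^ 2 ^ (l + 1)) ^ 2 = 1 := by
    rw [← pow_mul, ← pow_succ, ← ham, pow_orderOf_eq_one]
  have ha2 : a ^ 2 ≠ 1 := by
    intro h
    apply hz_ne
    have : 2 ^ (l + 1) = 2 * 2 ^ l := by ring
    rw [this, pow_mul, h, one_pow]
  -- commuting with `A` is impossible
  have hnoComm : ¬ (b * a = a * b) := by
    intro h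
    apply ha2
    have h1 : b * a * b⁻¹ = a := by rw [h]; group
    rw [hba] at h1
    rw [sq]
    nth_rw 1 [← h1]
    exact inv_mul_cancel a
  have hBZ : B ∉ (Subgroup.center S) := by
    intro h
    apply hnoComm
    have h1 : A * B = B * A := (Subgroup.mem_center_iff.mp h A)
    have := congrArg π h1
    rw [map_mul, map_mul, hA, hB] at this
    exact this.symm
  set z₀ := B ^ 2 with hz₀
  have hπz : π z₀ = a ^ 2 ^ (l + 1) := by
    rw [hz₀, map_pow, hB, hb2]
  have hz₀Z : z₀ ∈ (Subgroup.center S) := by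
    apply hF2 i₀
    rw [← hπ, map_pow, hπz, hz_sq]
  have hz₀D : ∀ j, z₀ ∉ D j := hnotD B hBZ
  set Y := A ^ 2 ^ l with hY
  have hπY : π (Y ^ 2) = a ^ 2 ^ (l + 1) := by
    rw [hY, ← pow_mul, ← pow_succ, map_pow, hA]
  have hYZ : Y ∉ (Subgroup.center S) := by
    intro h
    apply hz_ne
    rw [← hπY, hZ1 Y h, map_one]
  have hY2Z : Y ^ 2 ∈ (Subgroup.center S) := by
    apply hF2 i₀
    rw [← hπ, map_pow, hπY, hz_sq]
  have hY2z : Y ^ 2 = z₀ := by
    have h1 : Y ^ 2 * z₀ = 1 := hZint _ ((Subgroup.center S).mul_mem hY2Z hz₀Z) (fun j =>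
      hZ2 j _ hY2Z _ hz₀Z (hnotD Y hYZ j) (hz₀D j))
    have h2 : z₀ * z₀ = 1 := by rw [← sq]; exact hZ1 _ hz₀Z
    exact (mul_right_cancel (h1.trans h2.symm))
  have hAz : A ^ 2 ^ (l + 1) = z₀ := by
    rw [← hY2z, hY, ← pow_mul, ← pow_succ]
  have hz₀c : ∀ x : S, x * z₀ = z₀ * x := fun x => (Subgroup.mem_center_iff.mp hz₀Z x)
  -- the conjugation relation lifts
  have hW : B * A * B⁻¹ * A = 1 := by
    have hWZ0 : B * A * B⁻¹ * A ∈ D i₀ := by
      rw [← hπ, map_mul, map_mul, map_mul, map_inv, hA, hB, hba, inv_mul_cancel]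
    apply hZint _ (hDZ i₀ hWZ0)
    intro j
    by_contra hcon
    have h1 := hZ2 j _ (hDZ i₀ hWZ0) _ hz₀Z hcon (hz₀D j)
    have h2 : (B * A) ^ 2 = B * A * B⁻¹ * A * z₀ := by
      have : B * A * B⁻¹ * A * z₀ = B * A * B⁻¹ * (A * z₀) := by group
      rw [this, hz₀c A, hz₀, sq, sq]
      group
    rw [← h2] at h1
    have h3 := hF2 j _ h1
    apply hnoComm
    have h4 : A * (B * A) = (B * A) * A := Subgroup.mem_center_iff.mp h3 A
    have h5 : A * B = B * A := by
      have h6 : A * B * A = B * A * A := by rw [mul_assoc, h4]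
      exact mul_right_cancel h6
    have := congrArg π h5
    rw [map_mul, map_mul, hA, hB] at this
    exact this.symm
  have hBA : B * A * B⁻¹ = A⁻¹ := by
    rw [← mul_eq_one_iff_eq_inv]
    exact hW
  have hBAi : ∀ i : ℤ, B * A ^ i = A ^ (-i) * B := by
    intro i
    have h1 : B * A ^ i * B⁻¹ = A ^ (-i) := by
      rw [← conj_zpow, hBA, inv_zpow, zpow_neg]
    rw [← h1]; group
  let M : ℤ := (2 ^ (l + 1) : ℕ)
  have hAM : A ^ M = z₀ := by
    simp only [M, zpow_natCast]; exact hAz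
  have hBB : B * B = A ^ M := by rw [hAM, hz₀, sq]
  have hBinv : B⁻¹ = A ^ (-M) * B := by
    have h1 : A ^ (-M) * B * B = 1 := by
      rw [mul_assoc, hBB, ← zpow_add]; simp
    exact inv_eq_of_mul_eq_one_left h1 |>.symm ▸ rfl
  let T : Subgroup S :=
    { carrier := {x | ∃ i : ℤ, x = A ^ i ∨ x = A ^ i * B}
      one_mem' := ⟨0, Or.inl (by simp)⟩
      mul_mem' := by
        rintro x y ⟨i, rfl | rfl⟩ ⟨j, rfl | rfl⟩
        · exact ⟨i + j, Or.inl (zpow_add _ _ _).symm⟩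
        · exact ⟨i + j, Or.inr (by rw [zpow_add, mul_assoc])⟩
        · refine ⟨i + -j, Or.inr ?_⟩
          rw [mul_assoc, hBAi, zpow_add, mul_assoc]
        · refine ⟨i + -j + M, Or.inl ?_⟩
          rw [zpow_add, zpow_add, ← hBB]
          have : A ^ i * B * (A ^ j * B) = A ^ i * (B * A ^ j) * B := by group
          rw [this, hBAi]
          group
      inv_mem' := by
        rintro x ⟨i, rfl | rfl⟩
        · exact ⟨-i, Or.inl (zpow_neg _ _).symm⟩
        · refine ⟨i + -M, Or.inr ?_⟩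
          rw [mul_inv_rev, hBinv, ← zpow_neg, mul_assoc, hBAi, neg_neg, ← mul_assoc, ← zpow_add,
            add_comm (-M) i] }
  have hT : ∀ x, x ∈ T ↔ ∃ i : ℤ, x = A ^ i ∨ x = A ^ i * B := fun x => Iff.rfl
  have hA1 : A ^ 2 ^ (l + 2) = 1 := by
    rw [pow_succ, pow_mul, hAz]; exact hZ1 _ hz₀Z
  have hinf : D i₀ ⊓ T = ⊥ := by
    rw [eq_bot_iff]
    rintro x ⟨hxD, i, rfl | rfl⟩
    · have h1 : π (A ^ i) = 1 := (hπ _).mpr hxD
      rw [map_zpow, hA] at h1
      have h2 := orderOf_dvd_iff_zpow_eq_one.mpr h1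
      rw [ham] at h2
      exact Subgroup.mem_bot.mpr (orderOf_dvd_iff_zpow_eq_one.mp
        ((Int.natCast_dvd_natCast.mpr (orderOf_dvd_of_pow_eq_one hA1)).trans h2))
    · exfalso
      have h1 : π (A ^ i * B) = 1 := (hπ _).mpr hxD
      rw [map_mul, map_zpow, hA, hB] at h1
      apply hb
      have : b = (a ^ i)⁻¹ := by
        exact eq_inv_of_mul_eq_one_right h1
      rw [this]
      exact inv_mem (zpow_mem (Subgroup.mem_zpowers a) i)
  have hcomm : ∀ x ∈ D i₀, ∀ y, x * y = y * x := fun x hx y =>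
    (Subgroup.mem_center_iff.mp (hDZ i₀ hx) y).symm
  have hsup : D i₀ ⊔ T = ⊤ := by
    rw [eq_top_iff]
    intro s _
    have key : ∀ t ∈ T, π s = π t → s ∈ D i₀ ⊔ T := by
      intro t ht hst
      have h1 : t⁻¹ * s ∈ D i₀ := by
        rw [← hπ, map_mul, map_inv, hst, inv_mul_cancel]
      have h2 : s = t * (t⁻¹ * s) := by group
      rw [h2, ← hcomm _ h1 t]
      exact Subgroup.mul_mem_sup h1 ht
    rcases hall (π s) with ⟨i, hi⟩ | ⟨i, hi⟩
    · apply key (A ^ i) ⟨i, Or.inl rfl⟩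
      rw [map_zpow, hA]
      exact hi.symm
    · apply key (A ^ i * B) ⟨i, Or.inr rfl⟩
      rw [map_mul, map_zpow, hA, hB]
      have hi' : a ^ i = π s * b⁻¹ := hi
      rw [hi']
      group
  refine ⟨D i₀, T, ⟨le_top, le_top, fun x hx y _ => hcomm x hx y, ?_, ?_⟩, ⟨?_, ?_⟩, ?_, ?_⟩
  · exact hinf
  · exact hsup
  · refine ⟨⟨fun x y => Subtype.ext ?_⟩⟩
    exact hcomm x x.2 y
  · intro u hu
    exact hZ1 u (hDZ i₀ hu)
  · intro hcomm2
    apply hnoComm
    have hAT : A ∈ T := ⟨1, Or.inl (by simp)⟩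
    have hBT : B ∈ T := ⟨0, Or.inr (by simp)⟩
    have h1 : (⟨B, hBT⟩ : T) * ⟨A, hAT⟩ = ⟨A, hAT⟩ * ⟨B, hBT⟩ := hcomm2.is_comm.comm _ _
    have h2 : B * A = A * B := congrArg Subtype.val h1
    have := congrArg π h2
    rw [map_mul, map_mul, hA, hB] at this
    exact this
  · have hzT : z₀ ∈ T := ⟨M, Or.inl hAM.symm⟩
    have hz1 : z₀ ≠ 1 := by
      rintro h
      apply hz₀D i₀
      rw [h]
      exact one_mem _
    refine ⟨⟨z₀, hzT⟩, ?_, ?_⟩
    · apply orderOf_eq_prime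
      · exact Subtype.ext (hZ1 _ hz₀Z)
      · intro h
        exact hz1 (congrArg Subtype.val h)
    · rintro ⟨y, hyT⟩ hy
      have hy2 : y ^ 2 = 1 := by
        have := pow_orderOf_eq_one (⟨y, hyT⟩ : T)
        rw [hy] at this
        exact congrArg Subtype.val this
      have hy1 : y ≠ 1 := by
        rintro rfl
        have : (⟨1, hyT⟩ : T) = 1 := rfl
        rw [this, orderOf_one] at hy
        omega
      have hπy : π y ≠ 1 := by
        intro h
        have : y ∈ D i₀ ⊓ T := ⟨(hπ y).mp h, hyT⟩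
        rw [hinf] at this
        exact hy1 this
      have h1 : orderOf (π y) = 2 := by
        apply orderOf_eq_prime _ hπy
        rw [← map_pow, hy2, map_one]
      have h2 : orderOf (π z₀) = 2 := by
        apply orderOf_eq_prime
        · rw [← map_pow, hZ1 _ hz₀Z, map_one]
        · intro h
          exact hz₀D i₀ ((hπ _).mp h)
      have h3 : π y = π z₀ := hUQ.unique h1 h2
      have h4 : y * z₀⁻¹ ∈ D i₀ ⊓ T := by
        refine Subgroup.mem_inf.mpr ⟨?_, T.mul_mem hyT (T.inv_mem hzT)⟩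
        rw [← hπ, map_mul, map_inv, h3, mul_inv_cancel]
      rw [hinf, Subgroup.mem_bot] at h4
      exact Subtype.ext (mul_inv_eq_one.mp h4)

end Cfsg.Agent.S3201
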