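import Cfsg.Statements.S3202
import Mathlib
import Cfsg.Agent.Lib.InvolChar.TwoGroup
import Cfsg.Agent.Lib.PGroup.Basic

set_option autoImplicit false
open Cfsg


namespace Cfsg.Agent.S3202

/-- Restriction of an automorphism to the center. -/
def resCenter {S : Type*} [Group S] (α : S ≃* S) : Subgroup.center S ≃* Subgroup.center S where
  toFun z := ⟨α z, by
    rw [Subgroup.mem_center_iff]
    intro g
    have h1 := Subgroup.mem_center_iff.mp z.2 (α.symm g)
    have h2 := congrArg α h1
    simpa using h2⟩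
  invFun z := ⟨α.symm z, by
    rw [Subgroup.mem_center_iff]
    intro g
    have h1 := Subgroup.mem_center_iff.mp z.2 (α g)
    have h2 := congrArg α.symm h1
    simpa using h2⟩
  left_inv z := by ext; simp
  right_inv z := by ext; simp
  map_mul' a b := by ext; simp

/-- The center as a commutative group, with group structure the one of the subgroup. -/
abbrev centerComm (S : Type*) [Group S] : CommGroup (Subgroup.center S) :=
  { (Subgroup.center S).toGroup with
    mul_comm := fun a b => Subtype.ext (Subgroup.mem_center_iff.mp a.2 b).symm }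

/-- Let S be a finite 2-group of 2-rank exactly 2 and D a maximal subgroup of the centre of S such that S/D is a non-abelian group with exactly one involution (a generalized quaternion group). Then S has a nontrivial cyclic characteristic subgroup. -/
theorem result {S : Type*} [Group S]
    [Finite S] (hS : IsPGroup 2 S) (hr2 : Cfsg.PRankLE 2 2 S) (hr1 : ¬ Cfsg.PRankLE 2 1 S)
    (D : Subgroup ↥(Subgroup.center S)) (hD : IsCoatom D)
    (hq : ∃ (_ : (D.map (Subgroup.center S).subtype).Normal),
      ¬ IsMulCommutative (S ⧸ D.map (Subgroup.center S).subtype) ∧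
      ∃! x : S ⧸ D.map (Subgroup.center S).subtype, orderOf x = 2) :
    ∃ C : Subgroup S, C ≠ ⊥ ∧ IsCyclic ↥C ∧ C.Characteristic := by
  classical
  letI := centerComm S
  have hf : Fact (Nat.Prime 2) := ⟨Nat.prime_two⟩
  obtain ⟨hn, hna, hU⟩ := hq
  set D₀ : Subgroup S := D.map (Subgroup.center S).subtype with hD₀
  have hA2 : IsPGroup 2 (Subgroup.center S) := hS.to_subgroup _
  have hDi : D.index = 2 := Cfsg.Agent.Lib.PGroup.index_eq_prime_of_isCoatom hA2 hD
  have hD₀c : D₀ ≤ Subgroup.center S := by
    rintro _ ⟨d, -, rfl⟩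
    exact d.2
  have hmemD₀ : ∀ z : Subgroup.center S, (z : S) ∈ D₀ ↔ z ∈ D := by
    intro z
    constructor
    · rintro ⟨d, hd, hdz⟩
      have : d = z := Subtype.ext hdz
      rwa [← this]
    · intro h
      exact ⟨z, h, rfl⟩
  obtain ⟨u, hu⟩ : ∃ u : Subgroup.center S, u ∉ D := by
    by_contra hcon
    push_neg at hcon
    exact hD.1 (eq_top_iff.mpr fun x _ => hcon x)
  have hu2 : (u : S) ^ 2 ∈ D₀ := by
    have h1 := Subgroup.sq_mem_of_index_two hDi u
    have h2 := (hmemD₀ _).mpr h1
    simpa using h2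
  have hstar : ∀ x : S, x ^ 2 ∈ D₀ → x ∈ Subgroup.center S := by
    intro x hx
    rcases Cfsg.Agent.Lib.InvolChar.mem_or_mem_of_unique_invol hU
      (fun h => hu ((hmemD₀ u).mp h)) hu2 hx with h | h
    · exact hD₀c h
    · have h1 : x = u * ((u : S)⁻¹ * x) := by group
      rw [h1]
      exact Subgroup.mul_mem _ u.2 (hD₀c h)
  -- exactly three involutions
  have hΩ : Nat.card (@powMonoidHom (Subgroup.center S) _ 2).ker = 4 := by
    set K := (@powMonoidHom (Subgroup.center S) _ 2).ker with hK
    have hcardK : Nat.card K = Nat.card (K.map (Subgroup.center S).subtype) :=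
      Nat.card_congr (K.equivMapOfInjective _ (Subgroup.center S).subtype_injective).toEquiv
    have hmemK : ∀ x : S, x ∈ K.map (Subgroup.center S).subtype ↔ x ∈ Subgroup.center S ∧ x ^ 2 = 1 := by
      intro x
      constructor
      · rintro ⟨z, hz, rfl⟩
        refine ⟨z.2, ?_⟩
        have h1 : z ^ 2 = 1 := hz
        simpa using congrArg Subtype.val h1
      · rintro ⟨h1, h2⟩
        refine ⟨⟨x, h1⟩, ?_, rfl⟩
        show (⟨x, h1⟩ : Subgroup.center S) ^ 2 = 1
        exact Subtype.ext h2
    have hle4 : Nat.card K ≤ 4 := by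
      rw [hcardK]
      have := hr2 (K.map (Subgroup.center S).subtype) ⟨⟨fun a b => Subtype.ext
        (Subgroup.mem_center_iff.mp ((hmemK _).mp a.2).1 b).symm⟩⟩
        (fun a ha => ((hmemK a).mp ha).2)
      simpa using this
    have hge : 2 < Nat.card K := by
      unfold Cfsg.PRankLE at hr1
      push_neg at hr1
      obtain ⟨B, _, hB2, hBc⟩ := hr1
      have hBle : B ≤ K.map (Subgroup.center S).subtype := by
        intro b hb
        refine (hmemK b).mpr ⟨hstar b ?_, hB2 b hb⟩
        rw [hB2 b hb]; exact D₀.one_mem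
      have h3 := Nat.card_le_card_of_injective (Subgroup.inclusion hBle) (Subgroup.inclusion_injective hBle)
      rw [← hcardK] at h3
      simp only [pow_one] at hBc
      omega
    have hKp : IsPGroup 2 K := hA2.to_subgroup K
    obtain ⟨j, hj⟩ := IsPGroup.iff_card.mp hKp
    rw [hj] at hle4 hge ⊢
    have hj2 : j = 2 := by
      have h1 : j < 3 := by
        by_contra h
        have : 2 ^ 3 ≤ 2 ^ j := Nat.pow_le_pow_right (by norm_num) (by omega)
        omega
      interval_cases j <;> omega
    rw [hj2]; norm_num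
  -- the set I
  let I : Set (Subgroup.center S) := {z | ∃ y : S, y ∉ Subgroup.center S ∧ y ^ 2 = (z : S)}
  have hI : I.Nonempty := by
    have hQ : IsPGroup 2 (S ⧸ Subgroup.center S) := hS.to_quotient _
    have hne : Nat.card (S ⧸ Subgroup.center S) ≠ 1 := by
      intro h
      have h1 : (Subgroup.center S).index = 1 := by rw [Subgroup.index_eq_card, h]
      have h2 : Subgroup.center S = ⊤ := Subgroup.index_eq_one.mp h1
      apply hna
      refine ⟨⟨fun a b => ?_⟩⟩
      obtain ⟨x, rfl⟩ := QuotientGroup.mk_surjective a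
      obtain ⟨y, rfl⟩ := QuotientGroup.mk_surjective b
      have h3 : x ∈ Subgroup.center S := by rw [h2]; trivial
      rw [← QuotientGroup.mk_mul, ← QuotientGroup.mk_mul, (Subgroup.mem_center_iff.mp h3 y)]
    obtain ⟨k, hk⟩ := IsPGroup.iff_card.mp hQ
    have h2 : 2 ∣ Nat.card (S ⧸ Subgroup.center S) := by
      rw [hk]
      apply dvd_pow_self
      rintro rfl
      exact hne (by rw [hk, pow_zero])
    obtain ⟨x, hx⟩ := exists_prime_orderOf_dvd_card' 2 h2
    obtain ⟨y, rfl⟩ := QuotientGroup.mk_surjective x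
    have hy1 : y ∉ Subgroup.center S := by
      intro h
      have : (QuotientGroup.mk y : S ⧸ Subgroup.center S) = 1 := (QuotientGroup.eq_one_iff _).mpr h
      rw [this, orderOf_one] at hx
      omega
    have hy2 : y ^ 2 ∈ Subgroup.center S := by
      rw [← QuotientGroup.eq_one_iff, QuotientGroup.mk_pow, ← hx, pow_orderOf_eq_one]
    exact ⟨⟨y ^ 2, hy2⟩, y, hy1, rfl⟩
  have hID : ∀ a ∈ I, a ∉ D := by
    rintro a ⟨y, hy, hya⟩ ha
    apply hy
    apply hstar
    rw [hya]
    exact (hmemD₀ a).mpr ha
  let Φ : Set (Subgroup.center S ≃* Subgroup.center S) := Set.range resCenter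
  have hinv : ∀ φ ∈ Φ, ∀ a ∈ I, φ a ∈ I := by
    rintro _ ⟨α, rfl⟩ a ⟨y, hy, hya⟩
    refine ⟨α y, ?_, ?_⟩
    · intro h
      apply hy
      have h1 := (resCenter α.symm ⟨α y, h⟩).2
      simpa [resCenter] using h1
    · show (α y) ^ 2 = α a
      rw [← map_pow, hya]
  obtain ⟨t, ht, hfix⟩ := Cfsg.Agent.Lib.InvolChar.exists_fixed_involution hA2 hΩ D hDi I hI hID Φ hinv
  refine ⟨Subgroup.zpowers (t : S), ?_, inferInstance, ?_⟩
  · intro h
    rw [Subgroup.zpowers_eq_bot] at h
    have h1 : t = 1 := Subtype.ext h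
    rw [h1, orderOf_one] at ht
    omega
  · rw [Subgroup.characteristic_iff_map_eq]
    intro ϕ
    rw [MonoidHom.map_zpowers]
    have h1 := hfix (resCenter ϕ) ⟨ϕ, rfl⟩
    have h2 : ϕ (t : S) = (t : S) := congrArg Subtype.val h1
    show Subgroup.zpowers (ϕ (t : S)) = _
    rw [h2]

end Cfsg.Agent.S3202
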