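import Cfsg.Statements.S3208
import Mathlib
import Cfsg.Agent.Lib.InvolChar.Basic

set_option autoImplicit false
open Cfsg

open Cfsg.Agent.Lib.InvolChar

namespace Cfsg.Agent.S3208


/-- Let j be an involution of a finite group G, H a subgroup of G, and T a Sylow 2-subgroup of H ∩ C_G(j) containing j such that ⟨j⟩ is a characteristic subgroup of T. Then T is a Sylow 2-subgroup of H. -/
theorem result {G : Type*} [Group G] [Finite G]
    (j : G) (hj : orderOf j = 2) (H T : Subgroup G) (hT : T ≤ H ⊓ Subgroup.centralizer ({j} : Set G)) (h2 : IsPGroup 2 ↥T)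
    (hSyl : ¬ 2 ∣ T.relIndex (H ⊓ Subgroup.centralizer ({j} : Set G))) (hjT : j ∈ T)
    (hchar : ((Subgroup.zpowers j).subgroupOf T).Characteristic) :
    ¬ 2 ∣ T.relIndex H := by
  classical
  haveI : Fact (Nat.Prime 2) := ⟨Nat.prime_two⟩
  have hTH : T ≤ H := fun x hx => (hT hx).1
  intro hd
  obtain ⟨K, hTK, hKH, hc⟩ := exists_le_card_mul hTH h2 hd
  have hnorm : K ≤ Subgroup.normalizer (T : Set G) := mem_of_normalizer_two_step hTK hc
  -- elements of K commute with j
  have hKC : K ≤ Subgroup.centralizer ({j} : Set G) := by
    intro x hx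
    have hx' := hnorm hx
    rw [Subgroup.mem_normalizer_iff] at hx'
    -- conjugation by x is an automorphism of T
    let φ : T ≃* T :=
      { toFun := fun t => ⟨x * t * x⁻¹, (hx' t).1 t.2⟩
        invFun := fun t => ⟨x⁻¹ * t * x, by
          have := (hx' (x⁻¹ * t * x)).2 (by simpa [mul_assoc] using t.2)
          exact this⟩
        left_inv := by
          intro t
          ext
          simp [mul_assoc]
        right_inv := by
          intro t
          ext
          simp [mul_assoc]
        map_mul' := by
          intro a b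
          ext
          simp [mul_assoc] }
    have hfix := hchar.fixed φ
    have hjmem : (⟨j, hjT⟩ : T) ∈ (Subgroup.zpowers j).subgroupOf T := by
      rw [Subgroup.mem_subgroupOf]
      exact Subgroup.mem_zpowers j
    have himg : φ ⟨j, hjT⟩ ∈ (Subgroup.zpowers j).subgroupOf T := by
      have : (⟨j, hjT⟩ : T) ∈ ((Subgroup.zpowers j).subgroupOf T).comap φ.toMonoidHom := by
        rw [hfix]; exact hjmem
      exact this
    rw [Subgroup.mem_subgroupOf] at himg
    have h3 : x * j * x⁻¹ ∈ Subgroup.zpowers j := himg
    rw [Subgroup.mem_centralizer_iff]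
    intro w hw
    rw [Set.mem_singleton_iff.1 hw]
    rcases eq_of_mem_zpowers_order_two hj h3 with h4 | h4
    · exfalso
      have : j = 1 := by
        have e : j = x⁻¹ * (x * j * x⁻¹) * x := by group
        rw [e, h4]; group
      rw [this] at hj
      simp at hj
    · calc j * x = (x * j * x⁻¹) * x := by rw [h4]
        _ = x * j := by group
  exact hSyl (dvd_relIndex_of_card_eq (by norm_num) hTK (le_inf hKH hKC) hc)

end Cfsg.Agent.S3208
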