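import Cfsg.Statements.S3209
import Mathlib
import Cfsg.Agent.Lib.InvolChar.SL2Facts
import Cfsg.Agent.Lib.FStar.Basic

set_option autoImplicit false
open Cfsg

open Cfsg.Agent.Lib.InvolChar

namespace Cfsg.Agent.S3209


/-- Let L₁ ≅ SL₂(q₁) and L₂ ≅ SL₂(q₂), q₁ and q₂ odd, be elementwise-commuting subgroups of a finite group meeting in ⟨j⟩ for an involution j. Then L₁L₂ has exactly two conjugacy classes of involutions: the central involution j, and one further class (there is an involution x ≠ j in L₁L₂, and every involution of L₁L₂ other than j is conjugate to x by an element of L₁L₂). -/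
theorem result {G : Type*} [Group G] [Finite G]
    {F₁ : Type*} [Field F₁] [Fintype F₁] {F₂ : Type*} [Field F₂] [Fintype F₂]
    (hF₁ : Odd (Fintype.card F₁)) (hF₂ : Odd (Fintype.card F₂)) (L₁ L₂ : Subgroup G)
    (e₁ : ↥L₁ ≃* Matrix.SpecialLinearGroup (Fin 2) F₁) (e₂ : ↥L₂ ≃* Matrix.SpecialLinearGroup (Fin 2) F₂)
    (hc : ∀ x ∈ L₁, ∀ y ∈ L₂, x * y = y * x) (j : G) (hj : orderOf j = 2) (hm : L₁ ⊓ L₂ = Subgroup.zpowers j) :
    ∃ x ∈ L₁ ⊔ L₂, orderOf x = 2 ∧ x ≠ j ∧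
      ∀ y ∈ L₁ ⊔ L₂, orderOf y = 2 → y = j ∨ ∃ g ∈ L₁ ⊔ L₂, g * x * g⁻¹ = y := by
  classical
  have h1 : ringChar F₁ ≠ 2 := by
    intro h
    have := FiniteField.even_card_iff_char_two.mp h
    rw [Nat.odd_iff] at hF₁
    omega
  have h2 : ringChar F₂ ≠ 2 := by
    intro h
    have := FiniteField.even_card_iff_char_two.mp h
    rw [Nat.odd_iff] at hF₂
    omega
  have hjm : j ∈ L₁ ⊓ L₂ := by rw [hm]; exact Subgroup.mem_zpowers j
  have hj1 : j ∈ L₁ := hjm.1
  have hj2 : j ∈ L₂ := hjm.2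
  have hjj : j * j = 1 := by rw [← pow_two, ← hj]; exact pow_orderOf_eq_one j
  have hj0 : j ≠ 1 := by rintro rfl; simp at hj
  -- j corresponds to -1
  have hej1 : e₁ ⟨j, hj1⟩ = minusOne F₁ := by
    have h3 : e₁ ⟨j, hj1⟩ * e₁ ⟨j, hj1⟩ = 1 := by
      rw [← map_mul]
      have : (⟨j, hj1⟩ * ⟨j, hj1⟩ : L₁) = 1 := Subtype.ext hjj
      rw [this, map_one]
    rcases eq_one_or_minusOne_of_sq h1 h3 with h | h
    · exfalso
      have h5 : (⟨j, hj1⟩ : L₁) = 1 := by
        apply e₁.injective; rw [h, map_one]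
      exact hj0 (congrArg Subtype.val h5)
    · exact h
  have hej2 : e₂ ⟨j, hj2⟩ = minusOne F₂ := by
    have h3 : e₂ ⟨j, hj2⟩ * e₂ ⟨j, hj2⟩ = 1 := by
      rw [← map_mul]
      have : (⟨j, hj2⟩ * ⟨j, hj2⟩ : L₂) = 1 := Subtype.ext hjj
      rw [this, map_one]
    rcases eq_one_or_minusOne_of_sq h2 h3 with h | h
    · exfalso
      have h5 : (⟨j, hj2⟩ : L₂) = 1 := by
        apply e₂.injective; rw [h, map_one]
      exact hj0 (congrArg Subtype.val h5)
    · exact h
  -- transport of squares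
  have hsq1 : ∀ a : L₁, e₁ a * e₁ a = minusOne F₁ → (a : G) * a = j := by
    intro a ha
    have h3 : a * a = ⟨j, hj1⟩ := by
      apply e₁.injective
      rw [map_mul, ha, hej1]
    exact congrArg Subtype.val h3
  have hsq2 : ∀ a : L₂, e₂ a * e₂ a = minusOne F₂ → (a : G) * a = j := by
    intro a ha
    have h3 : a * a = ⟨j, hj2⟩ := by
      apply e₂.injective
      rw [map_mul, ha, hej2]
    exact congrArg Subtype.val h3
  have hsq1' : ∀ a : L₁, (a : G) * a = j → e₁ a * e₁ a = minusOne F₁ := by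
    intro a ha
    have h3 : a * a = ⟨j, hj1⟩ := Subtype.ext ha
    rw [← map_mul, h3, hej1]
  have hsq2' : ∀ a : L₂, (a : G) * a = j → e₂ a * e₂ a = minusOne F₂ := by
    intro a ha
    have h3 : a * a = ⟨j, hj2⟩ := Subtype.ext ha
    rw [← map_mul, h3, hej2]
  have hone1 : ∀ a : L₁, (a : G) * a = 1 → (a : G) = 1 ∨ (a : G) = j := by
    intro a ha
    have h3 : e₁ a * e₁ a = 1 := by
      rw [← map_mul]
      have : a * a = 1 := Subtype.ext ha
      rw [this, map_one]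
    rcases eq_one_or_minusOne_of_sq h1 h3 with h | h
    · left
      have h5 : a = 1 := by apply e₁.injective; rw [h, map_one]
      rw [h5]; rfl
    · right
      have h5 : a = ⟨j, hj1⟩ := by apply e₁.injective; rw [h, hej1]
      rw [h5]
  have hone2 : ∀ a : L₂, (a : G) * a = 1 → (a : G) = 1 ∨ (a : G) = j := by
    intro a ha
    have h3 : e₂ a * e₂ a = 1 := by
      rw [← map_mul]
      have : a * a = 1 := Subtype.ext ha
      rw [this, map_one]
    rcases eq_one_or_minusOne_of_sq h2 h3 with h | h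
    · left
      have h5 : a = 1 := by apply e₂.injective; rw [h, map_one]
      rw [h5]; rfl
    · right
      have h5 : a = ⟨j, hj2⟩ := by apply e₂.injective; rw [h, hej2]
      rw [h5]
  -- elements of ⟨j⟩ square to one
  have hzsq : ∀ z ∈ Subgroup.zpowers j, z = 1 ∨ z = j := by
    rintro z ⟨i, rfl⟩
    have ha2 : j ^ (2 : ℤ) = 1 := by
      rw [show (2 : ℤ) = ((2 : ℕ) : ℤ) from rfl, zpow_natCast, pow_two]; exact hjj
    rcases Int.even_or_odd' i with ⟨m, rfl | rfl⟩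
    · left; show j ^ (2 * m) = 1; rw [zpow_mul, ha2, one_zpow]
    · right; show j ^ (2 * m + 1) = j; rw [zpow_add, zpow_mul, ha2, one_zpow, one_mul, zpow_one]
  -- the base point
  set a₀ : L₁ := e₁.symm (omegaFour F₁) with ha₀
  set b₀ : L₂ := e₂.symm (omegaFour F₂) with hb₀
  have ha₀sq : (a₀ : G) * a₀ = j := hsq1 a₀ (by rw [ha₀, e₁.apply_symm_apply]; exact omegaFour_sq)
  have hb₀sq : (b₀ : G) * b₀ = j := hsq2 b₀ (by rw [hb₀, e₂.apply_symm_apply]; exact omegaFour_sq)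
  have hab : (a₀ : G) * b₀ = b₀ * a₀ := hc _ a₀.2 _ b₀.2
  have hb₀not : (b₀ : G) ∉ L₁ := by
    intro h
    have h3 : (b₀ : G) ∈ L₁ ⊓ L₂ := ⟨h, b₀.2⟩
    rw [hm] at h3
    rcases hzsq _ h3 with h4 | h4
    · rw [h4, one_mul] at hb₀sq; exact hj0 hb₀sq.symm
    · rw [h4, hjj] at hb₀sq; exact hj0 hb₀sq.symm
  refine ⟨(a₀ : G) * b₀, (L₁ ⊔ L₂).mul_mem (Subgroup.mem_sup_left a₀.2) (Subgroup.mem_sup_right b₀.2), ?_, ?_, ?_⟩
  · apply orderOf_eq_prime
    · rw [pow_two]
      calc (a₀ : G) * b₀ * (a₀ * b₀) = (a₀ * (b₀ * a₀)) * b₀ := by group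
        _ = (a₀ * (a₀ * b₀)) * b₀ := by rw [hab]
        _ = (a₀ * a₀) * (b₀ * b₀) := by group
        _ = 1 := by rw [ha₀sq, hb₀sq, hjj]
    · intro h
      apply hb₀not
      have h3 : (b₀ : G) = (a₀ : G)⁻¹ := eq_inv_of_mul_eq_one_right h
      rw [h3]
      exact L₁.inv_mem a₀.2
  · intro h
    apply hb₀not
    have h3 : (b₀ : G) = (a₀ : G)⁻¹ * j := by
      rw [← h]; group
    rw [h3]
    exact L₁.mul_mem (L₁.inv_mem a₀.2) hj1
  · intro y hy hyo
    obtain ⟨a, ha, b, hb, rfl⟩ := Cfsg.Agent.Lib.FStar.mem_sup_of_commuting hc hy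
    have hab' : a * b = b * a := hc a ha b hb
    have hyy : (a * b) * (a * b) = 1 := by
      rw [← pow_two, ← hyo]; exact pow_orderOf_eq_one _
    have hprod : (a * a) * (b * b) = 1 := by
      calc (a * a) * (b * b) = a * (a * b) * b := by group
        _ = a * (b * a) * b := by rw [hab']
        _ = (a * b) * (a * b) := by group
        _ = 1 := hyy
    have haa : a * a ∈ L₁ ⊓ L₂ := by
      refine ⟨L₁.mul_mem ha ha, ?_⟩
      have h3 : a * a = (b * b)⁻¹ := eq_inv_of_mul_eq_one_left hprod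
      rw [h3]
      exact L₂.inv_mem (L₂.mul_mem hb hb)
    rw [hm] at haa
    rcases hzsq _ haa with h3 | h3
    · -- a² = 1
      left
      have h4 : b * b = 1 := by rw [h3, one_mul] at hprod; exact hprod
      have hne : a * b ≠ 1 := by
        intro h
        rw [h, orderOf_one] at hyo
        omega
      rcases hone1 ⟨a, ha⟩ h3 with h5 | h5 <;> rcases hone2 ⟨b, hb⟩ h4 with h6 | h6
      · exfalso; apply hne
        have h5' : a = 1 := h5
        have h6' : b = 1 := h6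
        rw [h5', h6', one_mul]
      · have h5' : a = 1 := h5
        have h6' : b = j := h6
        rw [h5', h6', one_mul]
      · have h5' : a = j := h5
        have h6' : b = 1 := h6
        rw [h5', h6', mul_one]
      · exfalso; apply hne
        have h5' : a = j := h5
        have h6' : b = j := h6
        rw [h5', h6', hjj]
    · -- a² = j
      right
      have h4 : b * b = j := by
        rw [h3] at hprod
        have h5 : b * b = j⁻¹ := eq_inv_of_mul_eq_one_right hprod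
        rw [h5]
        exact inv_eq_of_mul_eq_one_left hjj
      have hc1 : IsConj (omegaFour F₁) (e₁ ⟨a, ha⟩) :=
        isConj_of_sq_eq_minusOne h1 omegaFour_sq (hsq1' ⟨a, ha⟩ h3)
      have hc2 : IsConj (omegaFour F₂) (e₂ ⟨b, hb⟩) :=
        isConj_of_sq_eq_minusOne h2 omegaFour_sq (hsq2' ⟨b, hb⟩ h4)
      obtain ⟨c₁, hc₁⟩ := isConj_iff.mp hc1
      obtain ⟨c₂, hc₂⟩ := isConj_iff.mp hc2
      set g₁ : L₁ := e₁.symm c₁ with hg₁
      set g₂ : L₂ := e₂.symm c₂ with hg₂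
      have ha' : (g₁ : G) * a₀ * (g₁ : G)⁻¹ = a := by
        have h5 : g₁ * a₀ * g₁⁻¹ = ⟨a, ha⟩ := by
          apply e₁.injective
          rw [map_mul, map_mul, map_inv, hg₁, ha₀, e₁.apply_symm_apply, e₁.apply_symm_apply]
          exact hc₁
        exact congrArg Subtype.val h5
      have hb' : (g₂ : G) * b₀ * (g₂ : G)⁻¹ = b := by
        have h5 : g₂ * b₀ * g₂⁻¹ = ⟨b, hb⟩ := by
          apply e₂.injective
          rw [map_mul, map_mul, map_inv, hg₂, hb₀, e₂.apply_symm_apply, e₂.apply_symm_apply]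
          exact hc₂
        exact congrArg Subtype.val h5
      refine ⟨(g₁ : G) * g₂, (L₁ ⊔ L₂).mul_mem (Subgroup.mem_sup_left g₁.2) (Subgroup.mem_sup_right g₂.2), ?_⟩
      have c1 : Commute ((g₂ : G)) (a₀ : G) := (hc _ a₀.2 _ g₂.2).symm
      have c4 : b * (g₁ : G)⁻¹ = (g₁ : G)⁻¹ * b :=
        (Commute.inv_right (show Commute b (g₁ : G) from (hc _ g₁.2 _ hb).symm)).eq
      calc (g₁ : G) * g₂ * (a₀ * b₀) * ((g₁ : G) * g₂)⁻¹
          = (g₁ : G) * ((g₂ : G) * a₀) * b₀ * ((g₂ : G)⁻¹ * (g₁ : G)⁻¹) := by group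
        _ = (g₁ : G) * ((a₀ : G) * g₂) * b₀ * ((g₂ : G)⁻¹ * (g₁ : G)⁻¹) := by rw [c1.eq]
        _ = ((g₁ : G) * a₀) * (((g₂ : G) * b₀ * (g₂ : G)⁻¹) * (g₁ : G)⁻¹) := by group
        _ = ((g₁ : G) * a₀) * (b * (g₁ : G)⁻¹) := by rw [hb']
        _ = ((g₁ : G) * a₀) * ((g₁ : G)⁻¹ * b) := by rw [c4]
        _ = ((g₁ : G) * a₀ * (g₁ : G)⁻¹) * b := by group
        _ = a * b := by rw [ha']

end Cfsg.Agent.S3209
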