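import Cfsg.Statements.S3210
import Mathlib
import Cfsg.Agent.Lib.InvolChar.SL2Facts
import Cfsg.Agent.Lib.FStar.Basic
import Cfsg.Agent.Lib.KS2.SL2Unip

set_option autoImplicit false
open Cfsg

open Cfsg.Agent.Lib.InvolChar Cfsg.Agent.Lib.KS2.SL2

namespace Cfsg.Agent.S3210

section aux
variable {G : Type*} [Group G] [Finite G]
  {F₁ : Type*} [Field F₁] [Fintype F₁] {F₂ : Type*} [Field F₂] [Fintype F₂]

/-- If `L ≅ SL₂(F)`, `j ∈ L` an involution, and `a ∈ L` conjugates each `x ∈ L` into `{x, x j}`, then `a ∈ ⟨j⟩`. -/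
theorem mem_of_forall_conj {F : Type*} [Field F] (h2 : ringChar F ≠ 2) {L : Subgroup G}
    (e : ↥L ≃* Matrix.SpecialLinearGroup (Fin 2) F) {j : G} (hj1 : j ∈ L)
    (hej : e ⟨j, hj1⟩ = minusOne F) {a : G} (ha : a ∈ L)
    (h : ∀ x ∈ L, a * x * a⁻¹ * x⁻¹ = 1 ∨ a * x * a⁻¹ * x⁻¹ = j) : a = 1 ∨ a = j := by
  have hs : IsScalar (e ⟨a, ha⟩) := by
    apply isScalar_of_forall_conj h2
    intro x
    set y : L := e.symm x with hy
    have hx : e y = x := by rw [hy, e.apply_symm_apply]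
    rcases h y y.2 with h3 | h3
    · left
      have h5 : (⟨a, ha⟩ : L) * y * (⟨a, ha⟩ : L)⁻¹ = y := by
        apply Subtype.ext
        exact mul_inv_eq_one.mp h3
      rw [← hx, ← map_inv, ← map_mul, ← map_mul, h5]
    · right
      have h5 : (⟨a, ha⟩ : L) * y * (⟨a, ha⟩ : L)⁻¹ = ⟨j, hj1⟩ * y := by
        apply Subtype.ext
        exact mul_inv_eq_iff_eq_mul.mp h3
      have h6 : ⟨j, hj1⟩ * y = y * ⟨j, hj1⟩ := by
        apply e.injective
        rw [map_mul, map_mul, hej]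
        have h7 : minusOne F ∈ Subgroup.center (Matrix.SpecialLinearGroup (Fin 2) F) := by
          rw [← isScalar_iff_center]
          exact ⟨rfl, rfl, rfl⟩
        exact (Subgroup.mem_center_iff.mp h7 _).symm
      rw [← hx, ← map_inv, ← map_mul, ← map_mul, h5, h6, map_mul, hej]
  rcases eq_one_or_minusOne_of_isScalar h2 hs with h3 | h3
  · left
    have : (⟨a, ha⟩ : L) = 1 := by
      apply e.injective; rw [h3, map_one]
    exact congrArg Subtype.val this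
  · right
    have : (⟨a, ha⟩ : L) = ⟨j, hj1⟩ := by
      apply e.injective; rw [h3, hej]
    exact congrArg Subtype.val this

/-- Key lemma: a subgroup `K ≅ SL₂(F)` of `L₁L₂` normal under `L₁L₂` lies in `L₁` or in `L₂`. -/
theorem le_or_le_of_normal {F : Type*} [Field F] (h₀ : ringChar F ≠ 2)
    (h1 : ringChar F₁ ≠ 2) (h2 : ringChar F₂ ≠ 2) (L₁ L₂ : Subgroup G)
    (e₁ : ↥L₁ ≃* Matrix.SpecialLinearGroup (Fin 2) F₁) (e₂ : ↥L₂ ≃* Matrix.SpecialLinearGroup (Fin 2) F₂)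
    (hc : ∀ x ∈ L₁, ∀ y ∈ L₂, x * y = y * x) {j : G} (hj1 : j ∈ L₁) (hj2 : j ∈ L₂)
    (hej1 : e₁ ⟨j, hj1⟩ = minusOne F₁) (hej2 : e₂ ⟨j, hj2⟩ = minusOne F₂)
    (hzsq : ∀ z ∈ L₁ ⊓ L₂, z = 1 ∨ z = j)
    (K : Subgroup G) (f : ↥K ≃* Matrix.SpecialLinearGroup (Fin 2) F) (hKN : K ≤ L₁ ⊔ L₂)
    (hKn : ∀ m ∈ L₁ ⊔ L₂, ∀ k ∈ K, m * k * m⁻¹ ∈ K)
    (hone1 : ∀ a ∈ L₁, a * a = 1 → a = 1 ∨ a = j)
    (hone2 : ∀ a ∈ L₂, a * a = 1 → a = 1 ∨ a = j) :
    K ≤ L₁ ∨ K ≤ L₂ := by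
  -- first reduction
  have hC1 : (∀ a ∈ K, a ∈ L₁ → a = 1 ∨ a = j) → K ≤ L₂ := by
    intro hA k hk
    obtain ⟨a, ha, b, hb, rfl⟩ := Cfsg.Agent.Lib.FStar.mem_sup_of_commuting hc (hKN hk)
    have hab := hc a ha b hb
    have h5 : a = 1 ∨ a = j := by
      refine mem_of_forall_conj h1 e₁ hj1 hej1 ha ?_
      intro x hx
      have h6 : a * x * a⁻¹ * x⁻¹ = (a * b) * (x * (a * b)⁻¹ * x⁻¹) := by
        have c1 : b * x = x * b := (hc x hx b hb).symm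
        calc a * x * a⁻¹ * x⁻¹ = a * x * (b * b⁻¹) * a⁻¹ * x⁻¹ := by group
          _ = a * (x * b) * b⁻¹ * a⁻¹ * x⁻¹ := by group
          _ = a * (b * x) * b⁻¹ * a⁻¹ * x⁻¹ := by rw [c1]
          _ = _ := by group
      refine hA _ ?_ ?_
      · rw [h6]
        exact K.mul_mem hk (hKn x (Subgroup.mem_sup_left hx) _ (K.inv_mem hk))
      · exact L₁.mul_mem (L₁.mul_mem (L₁.mul_mem ha hx) (L₁.inv_mem ha)) (L₁.inv_mem hx)
    rcases h5 with rfl | rfl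
    · simpa using hb
    · exact L₂.mul_mem hj2 hb
  have hC2 : (∀ b ∈ K, b ∈ L₂ → b = 1 ∨ b = j) → K ≤ L₁ := by
    intro hA k hk
    obtain ⟨a, ha, b, hb, rfl⟩ := Cfsg.Agent.Lib.FStar.mem_sup_of_commuting hc (hKN hk)
    have hab := hc a ha b hb
    have h5 : b = 1 ∨ b = j := by
      refine mem_of_forall_conj h2 e₂ hj2 hej2 hb ?_
      intro x hx
      have h6 : b * x * b⁻¹ * x⁻¹ = (a * b) * (x * (a * b)⁻¹ * x⁻¹) := by
        have c1 : a * x = x * a := hc a ha x hx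
        have c2 : b * a = a * b := hab.symm
        calc b * x * b⁻¹ * x⁻¹ = (a * a⁻¹) * (b * x * b⁻¹ * x⁻¹) := by group
          _ = a * (a⁻¹ * b) * x * b⁻¹ * x⁻¹ := by group
          _ = a * (b * a⁻¹) * x * b⁻¹ * x⁻¹ := by
              rw [show a⁻¹ * b = b * a⁻¹ from
                (Commute.inv_left (show Commute a b from hab)).eq]
          _ = a * b * (a⁻¹ * x) * b⁻¹ * x⁻¹ := by group
          _ = a * b * (x * a⁻¹) * b⁻¹ * x⁻¹ := by
              rw [show a⁻¹ * x = x * a⁻¹ from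
                (Commute.inv_left (show Commute a x from c1)).eq]
          _ = (a * b) * (x * (a⁻¹ * b⁻¹) * x⁻¹) := by group
          _ = (a * b) * (x * (b⁻¹ * a⁻¹) * x⁻¹) := by
              rw [show a⁻¹ * b⁻¹ = b⁻¹ * a⁻¹ from
                (Commute.inv_inv (show Commute a b from hab)).eq]
          _ = _ := by rw [mul_inv_rev]
      refine hA _ ?_ ?_
      · rw [h6]
        exact K.mul_mem hk (hKn x (Subgroup.mem_sup_right hx) _ (K.inv_mem hk))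
      · exact L₂.mul_mem (L₂.mul_mem (L₂.mul_mem hb hx) (L₂.inv_mem hb)) (L₂.inv_mem hx)
    rcases h5 with rfl | rfl
    · simpa using ha
    · exact L₁.mul_mem ha hj1
  by_contra hcon
  push Not at hcon
  obtain ⟨hn1, hn2⟩ := hcon
  have hA : ¬ ∀ a ∈ K, a ∈ L₁ → a = 1 ∨ a = j := fun h => hn2 (hC1 h)
  have hB : ¬ ∀ b ∈ K, b ∈ L₂ → b = 1 ∨ b = j := fun h => hn1 (hC2 h)
  push Not at hA hB
  obtain ⟨a, haK, haL, ha1, haj⟩ := hA
  obtain ⟨b, hbK, hbL, hb1, hbj⟩ := hB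
  -- non-scalar images
  have hsa : ¬ IsScalar (f ⟨a, haK⟩) := by
    intro hs
    have h5 : f ⟨a, haK⟩ * f ⟨a, haK⟩ = 1 := by
      rcases eq_one_or_minusOne_of_isScalar h₀ hs with h6 | h6 <;> rw [h6]
      · rw [mul_one]
      · exact minusOne_sq
    have h6 : (⟨a, haK⟩ : K) * ⟨a, haK⟩ = 1 := by
      apply f.injective; rw [map_mul, h5, map_one]
    rcases hone1 a haL (congrArg Subtype.val h6) with h7 | h7
    · exact ha1 h7
    · exact haj h7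
  have hsb : ¬ IsScalar (f ⟨b, hbK⟩) := by
    intro hs
    have h5 : f ⟨b, hbK⟩ * f ⟨b, hbK⟩ = 1 := by
      rcases eq_one_or_minusOne_of_isScalar h₀ hs with h6 | h6 <;> rw [h6]
      · rw [mul_one]
      · exact minusOne_sq
    have h6 : (⟨b, hbK⟩ : K) * ⟨b, hbK⟩ = 1 := by
      apply f.injective; rw [map_mul, h5, map_one]
    rcases hone2 b hbL (congrArg Subtype.val h6) with h7 | h7
    · exact hb1 h7
    · exact hbj h7
  -- conjugates of `b` in `K` commute with `a`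
  have hL2n : ∀ k ∈ K, k * b * k⁻¹ ∈ L₂ := by
    intro k hk
    obtain ⟨x, hx, y, hy, rfl⟩ := Cfsg.Agent.Lib.FStar.mem_sup_of_commuting hc (hKN hk)
    have h5 : (x * y) * b * (x * y)⁻¹ = y * b * y⁻¹ := by
      have c1 : x * (y * b * y⁻¹) = (y * b * y⁻¹) * x :=
        hc x hx _ (L₂.mul_mem (L₂.mul_mem hy hbL) (L₂.inv_mem hy))
      calc (x * y) * b * (x * y)⁻¹ = x * (y * b * y⁻¹) * x⁻¹ := by group
        _ = (y * b * y⁻¹) * x * x⁻¹ := by rw [c1]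
        _ = _ := by group
    rw [h5]
    exact L₂.mul_mem (L₂.mul_mem hy hbL) (L₂.inv_mem hy)
  have hcomm : ∀ c : Matrix.SpecialLinearGroup (Fin 2) F,
      f ⟨a, haK⟩ * (c * f ⟨b, hbK⟩ * c⁻¹) = (c * f ⟨b, hbK⟩ * c⁻¹) * f ⟨a, haK⟩ := by
    intro c
    set k : K := f.symm c with hk
    have hkc : f k = c := by rw [hk, f.apply_symm_apply]
    rw [← hkc, ← map_inv, ← map_mul, ← map_mul, ← map_mul, ← map_mul]
    congr 1
    apply Subtype.ext
    exact hc a haL _ (hL2n k k.2)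
  obtain ⟨c, hc'⟩ := exists_conj_not_commute h₀ hsb
  apply hc'
  exact commute_of_commute_nonscalar hsa (hcomm 1 |> fun h => by simpa using h) (hcomm c)

theorem card_eq_of_card_SL2_eq (h : Nat.card (Matrix.SpecialLinearGroup (Fin 2) F₁) =
    Nat.card (Matrix.SpecialLinearGroup (Fin 2) F₂)) : Fintype.card F₁ = Fintype.card F₂ := by
  rw [card_SL2, card_SL2] at h
  set a := Fintype.card F₁ with ha
  set b := Fintype.card F₂ with hb
  have ha1 : 1 < a := Fintype.one_lt_card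
  have hb1 : 1 < b := Fintype.one_lt_card
  have hmono : ∀ x y : ℕ, 1 < x → x < y → x * (x ^ 2 - 1) < y * (y ^ 2 - 1) := by
    intro x y hx hxy
    have h1 : x ^ 2 - 1 < y ^ 2 - 1 := by
      have h2 : x ^ 2 < y ^ 2 := Nat.pow_lt_pow_left hxy (by norm_num)
      have h3 : 1 ≤ x ^ 2 := Nat.one_le_pow _ _ (by omega)
      omega
    exact Nat.mul_lt_mul_of_lt_of_le hxy h1.le (by
      have h3 : 4 ≤ x ^ 2 := by nlinarith
      omega)
  rcases lt_trichotomy a b with hlt | heq | hgt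
  · exact absurd h (hmono a b ha1 hlt).ne
  · exact heq
  · exact absurd h.symm (hmono b a hb1 hgt).ne

end aux

/-- Let G be a finite group with subgroups L₁ ≅ SL₂(q₁) and L₂ ≅ SL₂(q₂), q₁ and q₂ odd prime powers, which commute elementwise and meet in ⟨j⟩ for an involution j, and suppose L₁L₂ has index 2 in C_G(j). Then every element n of C_G(j) outside L₁L₂ either normalizes both L₁ and L₂, or conjugates L₁ onto L₂; in the second case q₁ = q₂ and there is an element n′ of C_G(j) outside L₁L₂ conjugating L₁ onto L₂ with n′² ∈ ⟨j⟩. -/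
theorem result {G : Type*} [Group G] [Finite G]
    {F₁ : Type*} [Field F₁] [Fintype F₁] {F₂ : Type*} [Field F₂] [Fintype F₂]
    (hF₁ : Odd (Fintype.card F₁)) (hF₂ : Odd (Fintype.card F₂)) (L₁ L₂ : Subgroup G)
    (e₁ : ↥L₁ ≃* Matrix.SpecialLinearGroup (Fin 2) F₁) (e₂ : ↥L₂ ≃* Matrix.SpecialLinearGroup (Fin 2) F₂)
    (hc : ∀ x ∈ L₁, ∀ y ∈ L₂, x * y = y * x) (j : G) (hj : orderOf j = 2) (hm : L₁ ⊓ L₂ = Subgroup.zpowers j)
    (hle : L₁ ⊔ L₂ ≤ Subgroup.centralizer ({j} : Set G)) (hi : (L₁ ⊔ L₂).relIndex (Subgroup.centralizer ({j} : Set G)) = 2) (n : G) (hn : n ∈ Subgroup.centralizer ({j} : Set G)) (hn' : n ∉ L₁ ⊔ L₂) :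
    (L₁.map (MulAut.conj n).toMonoidHom = L₁ ∧ L₂.map (MulAut.conj n).toMonoidHom = L₂) ∨
      (L₁.map (MulAut.conj n).toMonoidHom = L₂ ∧ Fintype.card F₁ = Fintype.card F₂ ∧
        ∃ n' ∈ Subgroup.centralizer ({j} : Set G), n' ∉ L₁ ⊔ L₂ ∧ L₁.map (MulAut.conj n').toMonoidHom = L₂ ∧ n' ^ 2 ∈ Subgroup.zpowers j) := by
  classical
  have h1 : ringChar F₁ ≠ 2 := by
    intro h
    have := FiniteField.even_card_iff_char_two.mp h
    rw [Nat.odd_iff] at hF₁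
    omega
  have h2 : ringChar F₂ ≠ 2 := by
    intro h
    have := FiniteField.even_card_iff_char_two.mp h
    rw [Nat.odd_iff] at hF₂
    omega
  have hjm : j ∈ L₁ ⊓ L₂ := by rw [hm]; exact Subgroup.mem_zpowers j
  have hj1 : j ∈ L₁ := hjm.1
  have hj2 : j ∈ L₂ := hjm.2
  have hjj : j * j = 1 := by rw [← pow_two, ← hj]; exact pow_orderOf_eq_one j
  have hj0 : j ≠ 1 := by rintro rfl; simp at hj
  have hej1 : e₁ ⟨j, hj1⟩ = minusOne F₁ := by
    have h3 : e₁ ⟨j, hj1⟩ * e₁ ⟨j, hj1⟩ = 1 := by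
      rw [← map_mul]
      have : (⟨j, hj1⟩ * ⟨j, hj1⟩ : L₁) = 1 := Subtype.ext hjj
      rw [this, map_one]
    rcases eq_one_or_minusOne_of_sq h1 h3 with h | h
    · exfalso
      have h5 : (⟨j, hj1⟩ : L₁) = 1 := by
        apply e₁.injective; rw [h, map_one]
      exact hj0 (congrArg Subtype.val h5)
    · exact h
  have hej2 : e₂ ⟨j, hj2⟩ = minusOne F₂ := by
    have h3 : e₂ ⟨j, hj2⟩ * e₂ ⟨j, hj2⟩ = 1 := by
      rw [← map_mul]
      have : (⟨j, hj2⟩ * ⟨j, hj2⟩ : L₂) = 1 := Subtype.ext hjj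
      rw [this, map_one]
    rcases eq_one_or_minusOne_of_sq h2 h3 with h | h
    · exfalso
      have h5 : (⟨j, hj2⟩ : L₂) = 1 := by
        apply e₂.injective; rw [h, map_one]
      exact hj0 (congrArg Subtype.val h5)
    · exact h
  have hone1 : ∀ a ∈ L₁, a * a = 1 → a = 1 ∨ a = j := by
    intro a haL ha
    have h3 : e₁ ⟨a, haL⟩ * e₁ ⟨a, haL⟩ = 1 := by
      rw [← map_mul]
      have : (⟨a, haL⟩ * ⟨a, haL⟩ : L₁) = 1 := Subtype.ext ha
      rw [this, map_one]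
    rcases eq_one_or_minusOne_of_sq h1 h3 with h | h
    · left
      have h5 : (⟨a, haL⟩ : L₁) = 1 := by apply e₁.injective; rw [h, map_one]
      exact congrArg Subtype.val h5
    · right
      have h5 : (⟨a, haL⟩ : L₁) = ⟨j, hj1⟩ := by apply e₁.injective; rw [h, hej1]
      exact congrArg Subtype.val h5
  have hone2 : ∀ a ∈ L₂, a * a = 1 → a = 1 ∨ a = j := by
    intro a haL ha
    have h3 : e₂ ⟨a, haL⟩ * e₂ ⟨a, haL⟩ = 1 := by
      rw [← map_mul]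
      have : (⟨a, haL⟩ * ⟨a, haL⟩ : L₂) = 1 := Subtype.ext ha
      rw [this, map_one]
    rcases eq_one_or_minusOne_of_sq h2 h3 with h | h
    · left
      have h5 : (⟨a, haL⟩ : L₂) = 1 := by apply e₂.injective; rw [h, map_one]
      exact congrArg Subtype.val h5
    · right
      have h5 : (⟨a, haL⟩ : L₂) = ⟨j, hj2⟩ := by apply e₂.injective; rw [h, hej2]
      exact congrArg Subtype.val h5
  have hzsq : ∀ z ∈ L₁ ⊓ L₂, z = 1 ∨ z = j := by
    intro z hz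
    rw [hm] at hz
    obtain ⟨i, rfl⟩ := hz
    have ha2 : j ^ (2 : ℤ) = 1 := by
      rw [show (2 : ℤ) = ((2 : ℕ) : ℤ) from rfl, zpow_natCast, pow_two]; exact hjj
    rcases Int.even_or_odd' i with ⟨m, rfl | rfl⟩
    · left; show j ^ (2 * m) = 1; rw [zpow_mul, ha2, one_zpow]
    · right; show j ^ (2 * m + 1) = j; rw [zpow_add, zpow_mul, ha2, one_zpow, one_mul, zpow_one]
  -- an element of `L₂` (resp. `L₁`) outside the intersection
  have hnot2 : ∃ y ∈ L₂, y ∉ L₁ := by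
    set b₀ : L₂ := e₂.symm (omegaFour F₂) with hb₀
    refine ⟨b₀, b₀.2, ?_⟩
    intro h
    have h3 : (b₀ : G) ∈ L₁ ⊓ L₂ := ⟨h, b₀.2⟩
    have h4 : b₀ * b₀ = ⟨j, hj2⟩ := by
      apply e₂.injective
      rw [map_mul, hb₀, e₂.apply_symm_apply, hej2]
      exact omegaFour_sq
    have h5 : (b₀ : G) * b₀ = j := congrArg Subtype.val h4
    rcases hzsq _ h3 with h6 | h6
    · rw [h6, one_mul] at h5; exact hj0 h5.symm
    · rw [h6, hjj] at h5; exact hj0 h5.symm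
  have hnot1 : ∃ y ∈ L₁, y ∉ L₂ := by
    set b₀ : L₁ := e₁.symm (omegaFour F₁) with hb₀
    refine ⟨b₀, b₀.2, ?_⟩
    intro h
    have h3 : (b₀ : G) ∈ L₁ ⊓ L₂ := ⟨b₀.2, h⟩
    have h4 : b₀ * b₀ = ⟨j, hj1⟩ := by
      apply e₁.injective
      rw [map_mul, hb₀, e₁.apply_symm_apply, hej1]
      exact omegaFour_sq
    have h5 : (b₀ : G) * b₀ = j := congrArg Subtype.val h4
    rcases hzsq _ h3 with h6 | h6
    · rw [h6, one_mul] at h5; exact hj0 h5.symm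
    · rw [h6, hjj] at h5; exact hj0 h5.symm
  set N := L₁ ⊔ L₂ with hN
  set C := Subgroup.centralizer ({j} : Set G) with hC
  have hidx : (N.subgroupOf C).index = 2 := hi
  have hNC : (N.subgroupOf C).Normal := Subgroup.normal_of_index_eq_two hidx
  set nC : C := ⟨n, hn⟩ with hnC
  have hnconj : ∀ m ∈ N, n * m * n⁻¹ ∈ N := by
    intro m hm'
    have h3 : (⟨m, hle hm'⟩ : C) ∈ N.subgroupOf C := hm'
    exact hNC.conj_mem _ h3 nC
  have hnconj' : ∀ m ∈ N, n⁻¹ * m * n ∈ N := by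
    intro m hm'
    have h3 : (⟨m, hle hm'⟩ : C) ∈ N.subgroupOf C := hm'
    have h4 := hNC.conj_mem _ h3 nC⁻¹
    have h5 : n⁻¹ * m * n⁻¹⁻¹ ∈ N := h4
    simpa using h5
  have hL1n : ∀ m ∈ N, ∀ x ∈ L₁, m * x * m⁻¹ ∈ L₁ := by
    intro m hm' x hx
    obtain ⟨a, ha, b, hb, rfl⟩ := Cfsg.Agent.Lib.FStar.mem_sup_of_commuting hc hm'
    have h5 : (a * b) * x * (a * b)⁻¹ = a * x * a⁻¹ := by
      have c1 : b * x = x * b := (hc x hx b hb).symm
      calc (a * b) * x * (a * b)⁻¹ = a * (b * x) * b⁻¹ * a⁻¹ := by group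
        _ = a * (x * b) * b⁻¹ * a⁻¹ := by rw [c1]
        _ = _ := by group
    rw [h5]
    exact L₁.mul_mem (L₁.mul_mem ha hx) (L₁.inv_mem ha)
  have hL2n : ∀ m ∈ N, ∀ x ∈ L₂, m * x * m⁻¹ ∈ L₂ := by
    intro m hm' x hx
    obtain ⟨a, ha, b, hb, rfl⟩ := Cfsg.Agent.Lib.FStar.mem_sup_of_commuting hc hm'
    have h5 : (a * b) * x * (a * b)⁻¹ = b * x * b⁻¹ := by
      have c1 : a * (b * x * b⁻¹) = (b * x * b⁻¹) * a :=
        hc a ha _ (L₂.mul_mem (L₂.mul_mem hb hx) (L₂.inv_mem hb))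
      calc (a * b) * x * (a * b)⁻¹ = a * (b * x * b⁻¹) * a⁻¹ := by group
        _ = (b * x * b⁻¹) * a * a⁻¹ := by rw [c1]
        _ = _ := by group
    rw [h5]
    exact L₂.mul_mem (L₂.mul_mem hb hx) (L₂.inv_mem hb)
  set φ := (MulAut.conj n).toMonoidHom with hφ
  have hφapp : ∀ x, φ x = n * x * n⁻¹ := fun x => rfl
  have hφi : Function.Injective φ := (MulAut.conj n).injective
  set K₁ := L₁.map φ with hK₁
  set K₂ := L₂.map φ with hK₂
  have hcard1 : Nat.card K₁ = Nat.card L₁ :=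
    Nat.card_congr (L₁.equivMapOfInjective φ hφi).toEquiv.symm
  have hcard2 : Nat.card K₂ = Nat.card L₂ :=
    Nat.card_congr (L₂.equivMapOfInjective φ hφi).toEquiv.symm
  have hK1N : K₁ ≤ N := by
    rintro _ ⟨x, hx, rfl⟩
    exact hnconj x (Subgroup.mem_sup_left hx)
  have hK2N : K₂ ≤ N := by
    rintro _ ⟨x, hx, rfl⟩
    exact hnconj x (Subgroup.mem_sup_right hx)
  have hK1n : ∀ m ∈ N, ∀ k ∈ K₁, m * k * m⁻¹ ∈ K₁ := by
    rintro m hm' _ ⟨x, hx, rfl⟩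
    refine ⟨(n⁻¹ * m * n) * x * (n⁻¹ * m * n)⁻¹, hL1n _ (hnconj' m hm') x hx, ?_⟩
    rw [hφapp, hφapp]; group
  have hK2n : ∀ m ∈ N, ∀ k ∈ K₂, m * k * m⁻¹ ∈ K₂ := by
    rintro m hm' _ ⟨x, hx, rfl⟩
    refine ⟨(n⁻¹ * m * n) * x * (n⁻¹ * m * n)⁻¹, hL2n _ (hnconj' m hm') x hx, ?_⟩
    rw [hφapp, hφapp]; group
  have hK1 := le_or_le_of_normal h1 h1 h2 L₁ L₂ e₁ e₂ hc hj1 hj2 hej1 hej2 hzsq K₁
    ((L₁.equivMapOfInjective φ hφi).symm.trans e₁) hK1N hK1n hone1 hone2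
  have hK2 := le_or_le_of_normal h2 h1 h2 L₁ L₂ e₁ e₂ hc hj1 hj2 hej1 hej2 hzsq K₂
    ((L₂.equivMapOfInjective φ hφi).symm.trans e₂) hK2N hK2n hone1 hone2
  -- every element of `N` is a product from `K₁, K₂`
  have hdecomp : ∀ m ∈ N, ∃ k₁ ∈ K₁, ∃ k₂ ∈ K₂, m = k₁ * k₂ := by
    intro m hm'
    obtain ⟨a, ha, b, hb, hab⟩ := Cfsg.Agent.Lib.FStar.mem_sup_of_commuting hc (hnconj' m hm')
    refine ⟨φ a, ⟨a, ha, rfl⟩, φ b, ⟨b, hb, rfl⟩, ?_⟩
    rw [← map_mul, hab, hφapp]; group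
  have hcase : (K₁ ≤ L₁ ∧ K₂ ≤ L₂) ∨ (K₁ ≤ L₂ ∧ K₂ ≤ L₁) := by
    rcases hK1 with a1 | a1 <;> rcases hK2 with a2 | a2
    · exfalso
      obtain ⟨y, hy2, hy1⟩ := hnot2
      obtain ⟨k₁, hk₁, k₂, hk₂, hy⟩ := hdecomp y (Subgroup.mem_sup_right hy2)
      exact hy1 (by rw [hy]; exact L₁.mul_mem (a1 hk₁) (a2 hk₂))
    · exact Or.inl ⟨a1, a2⟩
    · exact Or.inr ⟨a1, a2⟩
    · exfalso
      obtain ⟨y, hy2, hy1⟩ := hnot1
      obtain ⟨k₁, hk₁, k₂, hk₂, hy⟩ := hdecomp y (Subgroup.mem_sup_left hy2)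
      exact hy1 (by rw [hy]; exact L₂.mul_mem (a1 hk₁) (a2 hk₂))
  rcases hcase with ⟨a1, a2⟩ | ⟨a1, a2⟩
  · left
    exact ⟨Subgroup.eq_of_le_of_card_ge a1 hcard1.ge, Subgroup.eq_of_le_of_card_ge a2 hcard2.ge⟩
  · right
    have hle1 : Nat.card L₁ ≤ Nat.card L₂ := by
      rw [← hcard1]; exact Subgroup.card_le_of_le a1
    have hle2 : Nat.card L₂ ≤ Nat.card L₁ := by
      rw [← hcard2]; exact Subgroup.card_le_of_le a2
    have hcardL : Nat.card L₁ = Nat.card L₂ := le_antisymm hle1 hle2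
    have hKL : K₁ = L₂ := Subgroup.eq_of_le_of_card_ge a1 (by rw [hcard1, hcardL])
    have hcardF : Fintype.card F₁ = Fintype.card F₂ := by
      apply card_eq_of_card_SL2_eq
      rw [← Nat.card_congr e₁.toEquiv, ← Nat.card_congr e₂.toEquiv]
      exact hcardL
    refine ⟨hKL, hcardF, ?_⟩
    -- the modified element
    have hnn : n * n ∈ N := by
      have := Subgroup.mul_self_mem_of_index_two hidx nC
      exact this
    obtain ⟨a₀, ha₀, b₀, hb₀, hab₀⟩ := Cfsg.Agent.Lib.FStar.mem_sup_of_commuting hc hnn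
    have ha₀N : a₀ ∈ N := Subgroup.mem_sup_left ha₀
    refine ⟨n * a₀⁻¹, ?_, ?_, ?_, ?_⟩
    · exact C.mul_mem hn (C.inv_mem (hle ha₀N))
    · intro h
      apply hn'
      have h5 : n = (n * a₀⁻¹) * a₀ := by group
      rw [h5]
      exact N.mul_mem h ha₀N
    · rw [← hKL, hK₁]
      ext y
      constructor
      · rintro ⟨x, hx, rfl⟩
        refine ⟨a₀⁻¹ * x * a₀, ?_, ?_⟩
        · have := hL1n a₀⁻¹ (N.inv_mem ha₀N) x hx
          simpa using this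
        · rw [hφapp]
          show _ = (n * a₀⁻¹) * x * (n * a₀⁻¹)⁻¹
          group
      · rintro ⟨x, hx, rfl⟩
        refine ⟨a₀ * x * a₀⁻¹, hL1n a₀ ha₀N x hx, ?_⟩
        rw [hφapp]
        show (n * a₀⁻¹) * (a₀ * x * a₀⁻¹) * (n * a₀⁻¹)⁻¹ = _
        group
    · -- the square
      set α := n * a₀ * n⁻¹ with hα
      set β := n * b₀ * n⁻¹ with hβ
      have hαL : α ∈ L₂ := a1 ⟨a₀, ha₀, rfl⟩
      have hβL : β ∈ L₁ := a2 ⟨b₀, hb₀, rfl⟩
      have hcommn : α * β = a₀ * b₀ := by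
        rw [hab₀, hα, hβ]
        calc n * a₀ * n⁻¹ * (n * b₀ * n⁻¹) = n * (a₀ * b₀) * n⁻¹ := by group
          _ = n * (n * n) * n⁻¹ := by rw [hab₀]
          _ = n * n := by group
      have hβα : β * α = a₀ * b₀ := by
        rw [← hcommn]
        exact hc β hβL α hαL
      set z := b₀ * α⁻¹ with hz
      have hz1 : z = a₀⁻¹ * β := by
        have h5 : β = a₀ * b₀ * α⁻¹ := by
          rw [← hβα]; group
        rw [h5, hz]; group
      have hzL : z ∈ L₁ ⊓ L₂ := by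
        refine ⟨?_, L₂.mul_mem hb₀ (L₂.inv_mem hαL)⟩
        rw [hz1]
        exact L₁.mul_mem (L₁.inv_mem ha₀) hβL
      have hsq : (n * a₀⁻¹) ^ 2 = z := by
        have c1 : a₀ * b₀ = b₀ * a₀ := hc a₀ ha₀ b₀ hb₀
        have c2 : z * b₀ = b₀ * z := hc z hzL.1 b₀ hb₀
        rw [pow_two]
        calc n * a₀⁻¹ * (n * a₀⁻¹) = (n * a₀⁻¹ * n⁻¹) * (n * n) * a₀⁻¹ := by group
          _ = α⁻¹ * (a₀ * b₀) * a₀⁻¹ := by rw [← hab₀, hα]; group
          _ = α⁻¹ * (b₀ * a₀) * a₀⁻¹ := by rw [c1]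
          _ = b₀⁻¹ * (b₀ * α⁻¹) * b₀ := by group
          _ = b₀⁻¹ * (z * b₀) := by rw [← hz]; group
          _ = b₀⁻¹ * (b₀ * z) := by rw [c2]
          _ = z := by group
      rw [hsq, ← hm]
      exact hzL

end Cfsg.Agent.S3210
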