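import Cfsg.Statements.S3213
import Mathlib
import Cfsg.Agent.Lib.KS2.SL2Basic

set_option autoImplicit false
open Cfsg


namespace Cfsg.Agent.S3213
section Hlp
open Matrix Module LinearMap
lemma finrank_ker_comp_le_add {F V : Type*} [Field F] [AddCommGroup V] [Module F V]
    [FiniteDimensional F V] (f g : V →ₗ[F] V) :
    finrank F (ker (f ∘ₗ g)) ≤ finrank F (ker f) + finrank F (ker g) := by
  set K := ker (f ∘ₗ g) with hK
  have h0 := LinearMap.finrank_range_add_finrank_ker (g.domRestrict K)
  have h1 : range (g.domRestrict K) ≤ ker f := by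
    rintro _ ⟨⟨x, hx⟩, rfl⟩
    simpa [hK] using hx
  have h2 := Submodule.finrank_mono h1
  have h3 : finrank F (ker (g.domRestrict K)) ≤ finrank F (ker g) := by
    refine LinearMap.finrank_le_finrank_of_injective
      (f := (K.subtype ∘ₗ (ker (g.domRestrict K)).subtype).codRestrict (ker g) ?_) ?_
    · rintro ⟨⟨x, hx⟩, hx2⟩
      simpa using hx2
    · rintro ⟨⟨x, hx⟩, hx2⟩ ⟨⟨y, hy⟩, hy2⟩ h
      have := congrArg Subtype.val h
      simp only [LinearMap.codRestrict_apply, LinearMap.comp_apply, Submodule.subtype_apply] at this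
      apply Subtype.ext
      apply Subtype.ext
      exact this
  omega

/-- a linear operator with cube zero on a four-dimensional space has kernel of dimension at least 2. -/
lemma two_le_finrank_ker {F V : Type*} [Field F] [AddCommGroup V] [Module F V]
    [FiniteDimensional F V] (hV : finrank F V = 4) (N : V →ₗ[F] V) (h3 : N ∘ₗ (N ∘ₗ N) = 0) :
    2 ≤ finrank F (ker N) := by
  have h1 := finrank_ker_comp_le_add N (N ∘ₗ N)
  have h2 := finrank_ker_comp_le_add N N
  rw [h3, LinearMap.ker_zero, finrank_top, hV] at h1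
  omega

lemma cube_expand_aux {R : Type*} [Ring R] (u : R) :
    u ^ 3 - 1 = (u - 1) * ((u - 1) * (u - 1)) + 3 * (u * u - u) := by
  noncomm_ring

/-- key counting lemma -/
lemma eq_one_of_two_transvections {F V : Type*} [Field F] [Fintype F] [AddCommGroup V] [Module F V]
    [FiniteDimensional F V] (hF : Fintype.card F = 3) (u₁ u₂ ζ : Module.End F V)
    (h1 : finrank F (range (u₁ - 1)) ≤ 1) (h2 : finrank F (range (u₂ - 1)) ≤ 1)
    (hζ : ζ = (u₁ * u₂) * (u₁ * u₂)) (h5 : ζ ^ 5 = 1) : ζ = 1 := by
  classical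
  have h3F : (3 : F) = 0 := by
    have := FiniteField.cast_card_eq_zero F
    rw [hF] at this
    exact_mod_cast this
  have h2F : (2 : F) ≠ 0 := by
    intro h
    have : (1 : F) = 0 := by linear_combination h3F - h
    exact one_ne_zero this
  haveI : Finite V := Module.finite_of_finite F
  set P : Submodule F V := range (u₁ - 1) ⊔ range (u₂ - 1) with hP
  have hdim : finrank F P ≤ 2 := by
    have := Submodule.finrank_add_le_finrank_add_finrank (range (u₁ - 1)) (range (u₂ - 1))
    rw [← hP] at this
    omega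
  have hcard : Nat.card P ≤ 9 := by
    have h := Module.natCard_eq_pow_finrank (K := F) (V := P)
    rw [h, Nat.card_eq_fintype_card, hF]
    calc 3 ^ finrank F P ≤ 3 ^ 2 := Nat.pow_le_pow_right (by norm_num) hdim
      _ = 9 := by norm_num
  set y := u₁ * u₂ with hy
  have hy1 : ∀ v, y v - v ∈ P := by
    intro v
    have e : y v - v = (u₁ - 1) ((u₂ - 1) v) + (u₁ - 1) v + (u₂ - 1) v := by
      simp [hy, sub_eq_add_neg, add_assoc, map_add, map_neg]
    rw [e]
    refine P.add_mem (P.add_mem ?_ ?_) ?_
    · exact Submodule.mem_sup_left ⟨_, rfl⟩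
    · exact Submodule.mem_sup_left ⟨_, rfl⟩
    · exact Submodule.mem_sup_right ⟨_, rfl⟩
  have hζ1 : ∀ v, ζ v - v ∈ P := by
    intro v
    have e : ζ v - v = (y (y v) - y v) + (y v - v) := by
      rw [hζ]; simp
    rw [e]
    exact P.add_mem (hy1 _) (hy1 _)
  have hζP : ∀ v, v ∈ P → ζ v ∈ P := by
    intro v hv
    have := P.add_mem (hζ1 v) hv
    simpa using this
  have hfix : ∀ p, p ∈ P → ζ p = p := by
    intro p hpP
    by_contra hne
    -- the element ξ = -ζ
    set ξ : Module.End F V := -ζ with hξ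
    have hξ_ev2 : ∀ k : ℕ, ξ ^ (2 * k) = ζ ^ (2 * k) := by
      intro k
      rw [hξ, Even.neg_pow (even_two_mul k)]
    have hξ2 : ξ ^ 2 = ζ ^ 2 := by
      have := hξ_ev2 1
      simpa using this
    have hξ5 : ξ ^ 5 = -1 := by
      rw [hξ, Odd.neg_pow (by decide), h5]
    have hξ10 : ξ ^ 10 = 1 := by
      have : ξ ^ 10 = (ξ ^ 5) ^ 2 := by rw [← pow_mul]
      rw [this, hξ5]; simp
    have hp0 : p ≠ 0 := by
      rintro rfl
      simp at hne
    have hξP : ∀ k : ℕ, (ξ ^ k) p ∈ P := by
      intro k
      induction k with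
      | zero => simpa using hpP
      | succ k ih =>
        rw [pow_succ', Module.End.mul_apply]
        simp only [hξ, LinearMap.neg_apply]
        exact P.neg_mem (hζP _ ih)
    -- no nontrivial power fixes p
    have h_not2 : (ξ ^ 2) p ≠ p := by
      intro h
      rw [hξ2] at h
      have e6 : (ζ ^ 6) p = p := by
        have : ζ ^ 6 = ζ ^ 2 * (ζ ^ 2 * ζ ^ 2) := by rw [← pow_add, ← pow_add]
        rw [this, Module.End.mul_apply, Module.End.mul_apply, h, h, h]
      have e7 : ζ ^ 6 = ζ := by
        have : ζ ^ 6 = ζ ^ 5 * ζ := by rw [pow_succ]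
        rw [this, h5, one_mul]
      rw [e7] at e6
      exact hne e6
    have h_not5 : (ξ ^ 5) p ≠ p := by
      intro h
      rw [hξ5] at h
      have e : (2 : F) • p = 0 := by
        have h' : - p = p := by simpa using h
        have : p + p = 0 := by
          nth_rewrite 1 [← h']
          simp
        rw [two_smul]; exact this
      exact hp0 ((smul_eq_zero.mp e).resolve_left h2F)
    have h_notk : ∀ k : ℕ, 0 < k → k < 10 → (ξ ^ k) p ≠ p := by
      intro k hk0 hk10 h
      -- powers
      have hmul : ∀ m : ℕ, (ξ ^ (k * m)) p = p := by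
        intro m
        induction m with
        | zero => simp
        | succ m ih =>
          rw [Nat.mul_succ, pow_add, Module.End.mul_apply, h, ih]
      have hred : ∀ m a : ℕ, (ξ ^ (k * m)) p = (ξ ^ (k * m % 10)) p := by
        intro m a
        conv_lhs => rw [← Nat.div_add_mod (k * m) 10, pow_add, pow_mul, hξ10, one_pow, one_mul]
      interval_cases k
      · exact h_not2 (by
          have := hmul 2
          simpa using this)
      · exact h_not2 h
      · exact h_not2 (by
          have h2 := hmul 4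
          rw [hred 4 0] at h2
          simpa using h2)
      · exact h_not2 (by
          have h2 := hmul 3
          rw [hred 3 0] at h2
          simpa using h2)
      · exact h_not5 h
      · exact h_not2 (by
          have h2 := hmul 2
          rw [hred 2 0] at h2
          simpa using h2)
      · exact h_not2 (by
          have h2 := hmul 6
          rw [hred 6 0] at h2
          simpa using h2)
      · exact h_not2 (by
          have h2 := hmul 4
          rw [hred 4 0] at h2
          simpa using h2)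
      · exact h_not2 (by
          have h2 := hmul 8
          rw [hred 8 0] at h2
          simpa using h2)
    -- injective map
    let g : Option (Fin 10) → P := fun o =>
      match o with
      | none => 0
      | some i => ⟨(ξ ^ (i : ℕ)) p, hξP _⟩
    have hξinj : ∀ i j : ℕ, i < j → j < 10 → (ξ ^ i) p ≠ (ξ ^ j) p := by
      intro i j hij hj h
      apply h_notk (j - i) (by omega) (by omega)
      -- apply ξ^(10-i)
      have := congrArg (ξ ^ (10 - i)) h
      rw [← Module.End.mul_apply, ← Module.End.mul_apply, ← pow_add, ← pow_add] at this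
      have e1 : 10 - i + i = 10 := by omega
      have e2 : 10 - i + j = 10 + (j - i) := by omega
      rw [e1, e2, pow_add, hξ10, one_mul, Module.End.one_apply] at this
      exact this.symm
    have hξ0 : ∀ i : ℕ, i < 10 → (ξ ^ i) p ≠ 0 := by
      intro i hi h
      have := congrArg (ξ ^ (10 - i)) h
      rw [← Module.End.mul_apply, ← pow_add, show 10 - i + i = 10 by omega, hξ10] at this
      simp at this
      exact hp0 this
    have hginj : Function.Injective g := by
      rintro (_ | i) (_ | j) h
      · rfl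
      · exfalso
        have := congrArg Subtype.val h
        exact hξ0 j j.2 this.symm
      · exfalso
        have := congrArg Subtype.val h
        exact hξ0 i i.2 this
      · have h' : (ξ ^ (i : ℕ)) p = (ξ ^ (j : ℕ)) p := congrArg Subtype.val h
        congr 1
        apply Fin.ext
        rcases lt_trichotomy (i : ℕ) (j : ℕ) with hlt | heq | hgt
        · exact absurd h' (hξinj _ _ hlt j.2)
        · exact heq
        · exact absurd h'.symm (hξinj _ _ hgt i.2)
    have hle := Nat.card_le_card_of_injective g hginj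
    rw [Nat.card_eq_fintype_card (α := Option (Fin 10))] at hle
    simp at hle
    omega
  have hsq : (ζ - 1) * (ζ - 1) = 0 := by
    ext v
    have := hfix _ (hζ1 v)
    simp only [Module.End.mul_apply, LinearMap.sub_apply, Module.End.one_apply, LinearMap.zero_apply]
    rw [sub_eq_zero]
    exact this
  have h3End : (3 : Module.End F V) = 0 := by
    rw [← map_ofNat (algebraMap F (Module.End F V)) 3, h3F, map_zero]
  have hcube : ζ ^ 3 = 1 := by
    have e : ζ ^ 3 - 1 = (ζ - 1) * ((ζ - 1) * (ζ - 1)) + 3 * (ζ * ζ - ζ) := by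
      noncomm_ring
    rw [h3End, hsq] at e
    simp at e
    exact sub_eq_zero.mp e
  calc ζ = ζ ^ 5 * ζ := by rw [h5, one_mul]
    _ = ζ ^ 3 * ζ ^ 3 := by rw [← pow_succ, ← pow_add]
    _ = 1 := by rw [hcube, one_mul]

open Cfsg.Agent.Lib.KS2.SL2 in
open scoped MatrixGroups in
lemma exists_conj_five {K : Type*} [Field K] [Fintype K] (hK : Fintype.card K = 5)
    (x : SL(2, K)) (hx : orderOf x = 3) :
    ∃ y c : SL(2, K), IsConj x y ∧ c = (x * y) * (x * y) ∧ c ^ 5 = 1 ∧ c ≠ 1 := by
  have h5 : (5 : K) = 0 := by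
    have := FiniteField.cast_card_eq_zero K
    rw [hK] at this
    exact_mod_cast this
  have h1ne : (2 : K) ≠ 0 := by
    intro h
    have : (1 : K) = 0 := by linear_combination h5 - 2 * h
    exact one_ne_zero this
  have h3ne : (3 : K) ≠ 0 := by
    intro h
    have : (1 : K) = 0 := by linear_combination 2 * h5 - 3 * h
    exact one_ne_zero this
  have hx3 : x ^ 3 = 1 := by rw [← hx]; exact pow_orderOf_eq_one x
  have hx1 : x ≠ 1 := by
    rintro rfl
    simp at hx
  -- trace of x is -1
  set a := (x : Matrix (Fin 2) (Fin 2) K) 0 0 with ha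
  set b := (x : Matrix (Fin 2) (Fin 2) K) 0 1 with hb
  set c := (x : Matrix (Fin 2) (Fin 2) K) 1 0 with hc
  set d := (x : Matrix (Fin 2) (Fin 2) K) 1 1 with hd
  have hdet : a * d - b * c = 1 := det_rel x
  have hx3' : x * x = x⁻¹ := by
    rw [eq_inv_iff_mul_eq_one, ← hx3, pow_succ, pow_two]
  have e00 : a * a + b * c = d := by
    have := congrArg (fun z : SL(2, K) => (z : Matrix (Fin 2) (Fin 2) K) 0 0) hx3'
    simpa using this
  have e01 : a * b + b * d = -b := by
    have := congrArg (fun z : SL(2, K) => (z : Matrix (Fin 2) (Fin 2) K) 0 1) hx3'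
    simpa using this
  have e10 : c * a + d * c = -c := by
    have := congrArg (fun z : SL(2, K) => (z : Matrix (Fin 2) (Fin 2) K) 1 0) hx3'
    simpa using this
  have e11 : c * b + d * d = a := by
    have := congrArg (fun z : SL(2, K) => (z : Matrix (Fin 2) (Fin 2) K) 1 1) hx3'
    simpa using this
  have hnsc : ¬ IsScalar x := by
    rintro ⟨hb0, hc0, had⟩
    have hb0' : b = 0 := hb0
    have hc0' : c = 0 := hc0
    have had' : a = d := had
    rw [hb0', ← had'] at e00
    simp only [zero_mul, add_zero] at e00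
    rw [hb0', ← had'] at hdet
    simp only [zero_mul, sub_zero] at hdet
    have hone : a = 1 := by
      rw [← e00]; exact hdet
    apply hx1
    apply ext4
    · simpa [← ha] using hone
    · simpa [← hb] using hb0'
    · simpa [← hc] using hc0'
    · simpa [← hd, ← had'] using hone
  have htr : tr x = -1 := by
    show a + d = -1
    -- a + d = -1 from the equations
    by_contra hne
    have hne' : a + d + 1 ≠ 0 := by
      intro h; apply hne; linear_combination h
    have hb0 : b = 0 := by
      have : b * (a + d + 1) = 0 := by linear_combination e01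
      exact (mul_eq_zero.mp this).resolve_right hne'
    have hc0 : c = 0 := by
      have : c * (a + d + 1) = 0 := by linear_combination e10
      exact (mul_eq_zero.mp this).resolve_right hne'
    have had : a = d := by
      rw [hb0] at e00 e11 hdet
      have h1 : (a - d) * (a + d + 1) = 0 := by linear_combination e00 - e11
      have := (mul_eq_zero.mp h1).resolve_right hne'
      linear_combination this
    exact hnsc ⟨hb0, hc0, had⟩
  -- the two model elements
  let x₀ : SL(2, K) := mk 0 (-1) 1 (-1) (by ring)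
  let y₀ : SL(2, K) := mk 0 1 (-1) (-1) (by ring)
  have hx₀ : ¬ IsScalar x₀ := by
    rintro ⟨h, -, -⟩
    have h' : (-1 : K) = 0 := h
    exact one_ne_zero (neg_eq_zero.mp h')
  have hy₀ : ¬ IsScalar y₀ := by
    rintro ⟨h, -, -⟩
    have h' : (1 : K) = 0 := h
    exact one_ne_zero h'
  have htx₀ : tr x₀ = -1 := by
    show (0 : K) + (-1) = -1
    ring
  have hty₀ : tr y₀ = -1 := by
    show (0 : K) + (-1) = -1
    ring
  have h4 : (tr x) ^ 2 ≠ 4 ∨ ringChar K = 2 := by
    left
    rw [htr]
    intro h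
    apply h3ne
    linear_combination -h
  have hc1 : IsConj x x₀ := isConj_of_tr_eq x x₀ hnsc hx₀ (htr.trans htx₀.symm) h4
  have hc2 : IsConj x y₀ := isConj_of_tr_eq x y₀ hnsc hy₀ (htr.trans hty₀.symm) h4
  obtain ⟨g, hg⟩ := isConj_iff.mp hc1
  -- g x g⁻¹ = x₀
  set c₀ : SL(2, K) := (x₀ * y₀) * (x₀ * y₀) with hc₀
  have hc₀5 : c₀ ^ 5 = 1 := by
    have e5 : ∀ r : K, r = 0 → r = 0 := fun _ h => h
    simp only [pow_succ, pow_zero, one_mul]
    apply ext4
    · simp [hc₀, x₀, y₀]; linear_combination (836 : K) * h5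
    · simp [hc₀, x₀, y₀]; linear_combination (1353 : K) * h5
    · simp [hc₀, x₀, y₀]; linear_combination (1353 : K) * h5
    · simp [hc₀, x₀, y₀]; linear_combination (2189 : K) * h5
  have hc₀1 : c₀ ≠ 1 := by
    intro h
    have := congrArg (fun z : SL(2, K) => (z : Matrix (Fin 2) (Fin 2) K) 0 1) h
    simp [hc₀, x₀, y₀] at this
    apply h3ne
    linear_combination this
  refine ⟨g⁻¹ * y₀ * g, g⁻¹ * c₀ * g, ?_, ?_, ?_, ?_⟩
  · refine hc2.trans (isConj_iff.mpr ⟨g⁻¹, ?_⟩)
    simp [mul_assoc]
  · have hx' : x = g⁻¹ * x₀ * g := by rw [← hg]; group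
    rw [hx', hc₀]
    group
  · have : (g⁻¹ * c₀ * g) ^ 5 = g⁻¹ * c₀ ^ 5 * g := by
      have := conj_pow (a := g⁻¹) (b := c₀) (i := 5)
      simpa using this
    rw [this, hc₀5]; simp
  · intro h
    apply hc₀1
    have : c₀ = g * (g⁻¹ * c₀ * g) * g⁻¹ := by group
    rw [this, h]; simp
end Hlp

/-- Let F be the field with 3 elements and K the field with 5 elements. For every injective homomorphism φ from SL₂(K) into the symplectic group Sp₄(F) (4 × 4 matrices g with g J gᵀ = J for the standard alternating matrix J) and every element x of order 3 of SL₂(K), the vectors of F⁴ fixed by φ(x) form a 2-dimensional subspace that is totally isotropic for the alternating form defined by J. -/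
theorem result {F : Type*} [Field F] [Fintype F] (hF : Fintype.card F = 3)
    {K : Type*} [Field K] [Fintype K] (hK : Fintype.card K = 5)
    (φ : Matrix.SpecialLinearGroup (Fin 2) K →* ↥(Matrix.symplecticGroup (Fin 2) F)) (hφ : Function.Injective φ)
    (x : Matrix.SpecialLinearGroup (Fin 2) K) (hx : orderOf x = 3) :
    Module.finrank F ↥(LinearMap.ker (Matrix.toLin' ((φ x : Matrix (Fin 2 ⊕ Fin 2) (Fin 2 ⊕ Fin 2) F)) - LinearMap.id)) = 2 ∧
      ∀ v w : Fin 2 ⊕ Fin 2 → F, (φ x : Matrix (Fin 2 ⊕ Fin 2) (Fin 2 ⊕ Fin 2) F).mulVec v = v →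
        (φ x : Matrix (Fin 2 ⊕ Fin 2) (Fin 2 ⊕ Fin 2) F).mulVec w = w →
          dotProduct v ((Matrix.J (Fin 2) F).mulVec w) = 0 := by
  classical
  let ρ : Matrix.SpecialLinearGroup (Fin 2) K →* Module.End F (Fin 2 ⊕ Fin 2 → F) :=
    { toFun := fun g => Matrix.toLin' ((φ g : Matrix (Fin 2 ⊕ Fin 2) (Fin 2 ⊕ Fin 2) F))
      map_one' := by
        rw [map_one]
        exact Matrix.toLin'_one
      map_mul' := by
        intro a b
        rw [map_mul]
        exact Matrix.toLin'_mul _ _ }
  have hρ : ∀ g, ρ g = Matrix.toLin' ((φ g : Matrix (Fin 2 ⊕ Fin 2) (Fin 2 ⊕ Fin 2) F)) := fun g => rfl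
  have hρinj : ∀ g, ρ g = 1 → g = 1 := by
    intro g hg
    apply hφ
    rw [map_one]
    apply Subtype.ext
    apply Matrix.toLin'.injective
    rw [← hρ, hg]
    exact Matrix.toLin'_one.symm
  have hV : Module.finrank F (Fin 2 ⊕ Fin 2 → F) = 4 := by
    rw [Module.finrank_fintype_fun_eq_card]
    simp
  have h3F : (3 : F) = 0 := by
    have := FiniteField.cast_card_eq_zero F
    rw [hF] at this
    exact_mod_cast this
  have h3End : (3 : Module.End F (Fin 2 ⊕ Fin 2 → F)) = 0 := by
    rw [← map_ofNat (algebraMap F (Module.End F (Fin 2 ⊕ Fin 2 → F))) 3, h3F, map_zero]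
  have hx3 : x ^ 3 = 1 := by rw [← hx]; exact pow_orderOf_eq_one x
  have hx1 : x ≠ 1 := by
    rintro rfl
    simp at hx
  set u := ρ x with hu
  have hu3 : u ^ 3 = 1 := by rw [hu, ← map_pow, hx3, map_one]
  set N : Module.End F (Fin 2 ⊕ Fin 2 → F) := u - 1 with hN
  have hN3 : N * (N * N) = 0 := by
    have e := cube_expand_aux u
    rw [h3End, hu3, sub_self, zero_mul, add_zero] at e
    exact e.symm
  have h2le : 2 ≤ Module.finrank F (LinearMap.ker N) := two_le_finrank_ker hV N hN3
  have hrn := LinearMap.finrank_range_add_finrank_ker N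
  rw [hV] at hrn
  have hne4 : Module.finrank F (LinearMap.range N) ≠ 0 := by
    intro h
    rw [Submodule.finrank_eq_zero, LinearMap.range_eq_bot] at h
    apply hx1
    apply hρinj
    rw [← hu]
    exact sub_eq_zero.mp h
  have hne3 : Module.finrank F (LinearMap.range N) ≠ 1 := by
    intro h1
    obtain ⟨y, c, hxy, hc, hc5, hc1⟩ := exists_conj_five hK x hx
    obtain ⟨h, hh⟩ := isConj_iff.mp hxy
    have hy : ρ y - 1 = ρ h * N * ρ h⁻¹ := by
      have e1 : ρ h * ρ h⁻¹ = 1 := by rw [← map_mul, mul_inv_cancel, map_one]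
      rw [← hh, map_mul, map_mul, hN, ← hu, mul_sub, sub_mul, mul_one, e1]
    have hy1 : Module.finrank F (LinearMap.range (ρ y - 1)) ≤ 1 := by
      rw [hy, ← h1]
      have e : LinearMap.range (ρ h * N * ρ h⁻¹)
          = (LinearMap.range (N * ρ h⁻¹)).map (ρ h) := by
        rw [mul_assoc]
        exact LinearMap.range_comp _ _
      rw [e]
      refine (Submodule.finrank_map_le _ _).trans ?_
      exact Submodule.finrank_mono (LinearMap.range_comp_le_range _ _)
    have key : ρ c = 1 := by
      refine eq_one_of_two_transvections hF (ρ x) (ρ y) (ρ c) h1.le hy1 ?_ ?_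
      · rw [hc, map_mul, map_mul]
      · rw [← map_pow, hc5, map_one]
    exact hc1 (hρinj c key)
  have hdim : Module.finrank F (LinearMap.ker N) = 2 := by omega
  refine ⟨hdim, ?_⟩
  intro v w hv hw
  by_contra hω
  set A : Matrix (Fin 2 ⊕ Fin 2) (Fin 2 ⊕ Fin 2) F := (φ x : Matrix (Fin 2 ⊕ Fin 2) (Fin 2 ⊕ Fin 2) F) with hA
  set J := Matrix.J (Fin 2) F with hJ
  have hAJ : A.transpose * J * A = J := (SymplecticGroup.mem_iff').mp (φ x).2
  have hAu : ∀ z : (Fin 2 ⊕ Fin 2 → F), u z = A.mulVec z := fun z => rfl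
  let ω : (Fin 2 ⊕ Fin 2 → F) → (Fin 2 ⊕ Fin 2 → F) → F := fun a b => dotProduct a (J.mulVec b)
  have hω_def : ∀ a b, ω a b = dotProduct a (J.mulVec b) := fun _ _ => rfl
  have hpres : ∀ a b, ω (u a) (u b) = ω a b := by
    intro a b
    rw [hω_def, hω_def, hAu, hAu, ← Matrix.vecMul_transpose, ← Matrix.dotProduct_mulVec,
      Matrix.mulVec_mulVec, Matrix.mulVec_mulVec, hAJ]
  have halt : ∀ a, ω a a = 0 := by
    intro a
    simp only [hω_def, hJ, Matrix.J, dotProduct, Matrix.mulVec, Fintype.sum_sum_type, Fin.sum_univ_two]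
    simp [Matrix.fromBlocks, Matrix.of_apply]
    ring
  have hω_add2 : ∀ a b c, ω a (b + c) = ω a b + ω a c := by
    intro a b c
    simp only [hω_def, Matrix.mulVec_add, dotProduct_add]
  have hω_add1 : ∀ a b c, ω (a + b) c = ω a c + ω b c := by
    intro a b c
    simp only [hω_def, add_dotProduct]
  have hω_smul1 : ∀ (r : F) a c, ω (r • a) c = r * ω a c := by
    intro r a c
    simp only [hω_def, smul_dotProduct, smul_eq_mul]
  have hskew : ∀ a b, ω a b = - ω b a := by
    intro a b
    have h := halt (a + b)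
    rw [hω_add1, hω_add2, hω_add2, halt, halt] at h
    linear_combination h
  have hvf : u v = v := hv
  have hwf : u w = w := hw
  -- the functional
  let ℓ : (Fin 2 ⊕ Fin 2 → F) → ((Fin 2 ⊕ Fin 2 → F) →ₗ[F] F) := fun b =>
    { toFun := fun z => ω z b
      map_add' := fun a c => hω_add1 a c b
      map_smul' := fun r a => by simpa using hω_smul1 r a b }
  have hℓ : ∀ b z, ℓ b z = ω z b := fun _ _ => rfl
  let L : (Fin 2 ⊕ Fin 2 → F) →ₗ[F] (F × F) := (ℓ v).prod (ℓ w)
  have hL : ∀ z, L z = (ω z v, ω z w) := fun _ => rfl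
  have hfr2 : Module.finrank F (F × F) = 2 := by simp
  have hc : ω v w ≠ 0 := hω
  -- a nonzero vector orthogonal to v,w
  obtain ⟨z₀, hz₀, hz₀0⟩ : ∃ z₀ : (Fin 2 ⊕ Fin 2 → F), L z₀ = 0 ∧ z₀ ≠ 0 := by
    have hne : LinearMap.ker L ≠ ⊥ := by
      apply LinearMap.ker_ne_bot_of_finrank_lt
      rw [hfr2, hV]; norm_num
    obtain ⟨z, hz, hz0⟩ := Submodule.exists_mem_ne_zero_of_ne_bot hne
    exact ⟨z, hz, hz0⟩
  -- N preserves the perp
  have hNperp : ∀ z, L z = 0 → L (N z) = 0 := by
    intro z hz
    rw [hL] at hz ⊢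
    have h1 : ω z v = 0 := (Prod.mk.inj hz).1
    have h2 : ω z w = 0 := (Prod.mk.inj hz).2
    have hsub : ∀ b, u b = b → ω (N z) b = ω z b - ω z b := by
      intro b hb
      have e : u z = N z + z := by rw [hN]; simp
      have := hpres z b
      rw [hb, e, hω_add1] at this
      linear_combination this
    rw [hsub v hvf, hsub w hwf]
    simp
  -- a nonzero vector in the perp killed by N
  obtain ⟨z, hz, hz0, hNz⟩ : ∃ z : (Fin 2 ⊕ Fin 2 → F), L z = 0 ∧ z ≠ 0 ∧ N z = 0 := by
    by_cases h1 : N z₀ = 0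
    · exact ⟨z₀, hz₀, hz₀0, h1⟩
    by_cases h2 : N (N z₀) = 0
    · exact ⟨N z₀, hNperp _ hz₀, h1, h2⟩
    · refine ⟨N (N z₀), hNperp _ (hNperp _ hz₀), h2, ?_⟩
      have := congrArg (fun f : Module.End F (Fin 2 ⊕ Fin 2 → F) => f z₀) hN3
      simpa [Module.End.mul_apply] using this
  -- restricting L to ker N: surjective hence injective
  let M : LinearMap.ker N →ₗ[F] (F × F) := L.domRestrict (LinearMap.ker N)
  have hvk : v ∈ LinearMap.ker N := by
    rw [LinearMap.mem_ker, hN]; simp [hvf]
  have hwk : w ∈ LinearMap.ker N := by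
    rw [LinearMap.mem_ker, hN]; simp [hwf]
  have hMsurj : Function.Surjective M := by
    rintro ⟨s, t⟩
    set c := ω v w with hcdef
    refine ⟨(t / c) • ⟨v, hvk⟩ + (-(s / c)) • ⟨w, hwk⟩, ?_⟩
    show L ((t / c) • v + (-(s / c)) • w) = (s, t)
    rw [hL, hω_add1, hω_add1, hω_smul1, hω_smul1, hω_smul1, hω_smul1, halt, halt, hskew w v, ← hcdef]
    ext
    · simp only [mul_zero, zero_add]
      field_simp
    · simp only [mul_zero, add_zero]
      field_simp
  have hMinj : Function.Injective M := by
    refine (LinearMap.injective_iff_surjective_of_finrank_eq_finrank ?_).mpr hMsurj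
    rw [hdim, hfr2]
  have hz1 : (⟨z, hNz⟩ : LinearMap.ker N) = 0 := by
    apply hMinj
    rw [map_zero]
    exact hz
  exact hz0 (congrArg Subtype.val hz1)

end Cfsg.Agent.S3213
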