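import Cfsg.Statements.S3215
import Mathlib
import Cfsg.Agent.Lib.InvolChar.Solvable
import Cfsg.Agent.Lib.InvolChar.Quot
import Cfsg.Agent.Lib.Transfer.Frobenius
import Cfsg.Agent.Lib.Hall.Generation
import Cfsg.Agent.Lib.FF.RankOne
import Cfsg.Agent.Lib.Geo.PrimSolvable
import Cfsg.Agent.Lib.FStar.Signalizer
import Cfsg.Agent.Lib.Block.Jordan

set_option autoImplicit false
open Cfsg

open Subgroup Cfsg.Agent.Lib.Core Cfsg.Agent.Lib.InvolChar
open scoped commutatorElement

namespace Cfsg.Agent.S3215

section aux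
variable {H : Type*} [Group H] [Finite H]

/-- An odd element commuting with an involution `t` commutes with `C_Y(t)`. -/
theorem commute_of_commute_invol
    (hI : ∀ t : H, orderOf t = 2 → Cfsg.HasNormalPComplement 2 ↥(Subgroup.centralizer ({t} : Set H)))
    {t f r : H} (ht : orderOf t = 2) (hf : Odd (orderOf f)) (hft : f * t = t * f)
    (hr : r ∈ pCore 2 H) (hrt : r * t = t * r) : f * r = r * f := by
  have hfact : Fact (Nat.Prime 2) := ⟨Nat.prime_two⟩
  have hYp : IsPGroup 2 (pCore 2 H) := pCore_isPGroup 2 H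
  have hYn : (pCore 2 H).Normal := pCore_normal 2 H
  set C := centralizer ({t} : Set H) with hC
  obtain ⟨P, N, hN, hc⟩ := hI t ht
  have hfC : f ∈ C := mem_centralizer_singleton_iff.mpr hft
  have hrC : r ∈ C := mem_centralizer_singleton_iff.mpr hrt
  set f' : C := ⟨f, hfC⟩ with hf'
  set r' : C := ⟨r, hrC⟩ with hr'
  have hcop : Nat.Coprime (orderOf f') 2 := by
    rw [Subgroup.orderOf_mk]
    exact (Nat.coprime_two_right).mpr hf
  have hf'N : f' ∈ N := (Cfsg.Agent.Lib.Transfer.mem_of_coprime_of_complement hc f').mpr hcop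
  set g' := f' * (r' * f'⁻¹ * r'⁻¹) with hg'
  have hgN : g' ∈ N := N.mul_mem hf'N (hN.conj_mem _ (N.inv_mem hf'N) r')
  have hcg := (Cfsg.Agent.Lib.Transfer.mem_of_coprime_of_complement hc g').mp hgN
  have hgval : ((g' : C) : H) = (f * r * f⁻¹) * r⁻¹ := by
    rw [hg']; push_cast; simp only [hf', hr']; group
  have hgY : (g' : H) ∈ pCore 2 H := by
    rw [hgval]
    exact mul_mem (hYn.conj_mem r hr f) (inv_mem hr)
  have h1 : (g' : H) = 1 := by
    refine Cfsg.Agent.Lib.Transfer.eq_one_of_coprime_of_isPGroup hYp hgY ?_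
    rwa [Subgroup.orderOf_coe]
  rw [hgval] at h1
  have h2 := mul_inv_eq_one.mp h1
  calc f * r = f * r * f⁻¹ * f := by group
    _ = r * f := by rw [h2]

/-- Fixed points: an odd element commuting with a nontrivial element of `Y = O₂(H)` is trivial. -/
theorem odd_fix_eq_one (hsol : Group.IsSolvable H) (hO : Cfsg.oddCore H = ⊥)
    (hI : ∀ t : H, orderOf t = 2 → Cfsg.HasNormalPComplement 2 ↥(Subgroup.centralizer ({t} : Set H)))
    {f y : H} (hf : Odd (orderOf f)) (hy : y ∈ pCore 2 H) (hy1 : y ≠ 1) (hc : f * y = y * f) :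
    f = 1 := by
  classical
  have hfact : Fact (Nat.Prime 2) := ⟨Nat.prime_two⟩
  have hYp : IsPGroup 2 (pCore 2 H) := pCore_isPGroup 2 H
  have hYn : (pCore 2 H).Normal := pCore_normal 2 H
  obtain ⟨m, hm⟩ := (IsPGroup.iff_orderOf.mp hYp) ⟨y, hy⟩
  rw [Subgroup.orderOf_mk] at hm
  have hm0 : m ≠ 0 := by
    rintro rfl
    exact hy1 (orderOf_eq_one_iff.mp (by simpa using hm))
  obtain ⟨m', rfl⟩ := Nat.exists_eq_succ_of_ne_zero hm0
  set t := y ^ 2 ^ m' with ht
  have ht2 : orderOf t = 2 := by
    apply orderOf_eq_prime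
    · rw [ht, ← pow_mul, ← pow_succ, ← hm]; exact pow_orderOf_eq_one y
    · intro h
      have := orderOf_dvd_of_pow_eq_one h
      rw [hm] at this
      have h5 := (Nat.pow_dvd_pow_iff_le_right (by norm_num : 1 < 2)).mp this
      omega
  have htY : t ∈ pCore 2 H := pow_mem hy _
  have hft : f * t = t * f := by
    have : Commute f y := hc
    exact (this.pow_right _).eq
  have hcomm : ∀ r ∈ pCore 2 H, r * t = t * r → f * r = r * f := fun r hr hrt =>
    commute_of_commute_invol hI ht2 hf hft hr hrt
  have htt : t * t = 1 := by rw [← pow_two, ← ht2]; exact pow_orderOf_eq_one t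
  have hzs : ∀ z ∈ zpowers t, z = 1 ∨ z = t := by
    rintro z ⟨i, rfl⟩
    have ha2 : t ^ (2 : ℤ) = 1 := by
      rw [show (2 : ℤ) = ((2 : ℕ) : ℤ) from rfl, zpow_natCast, pow_two]; exact htt
    rcases Int.even_or_odd' i with ⟨m, rfl | rfl⟩
    · left; show t ^ (2 * m) = 1; rw [zpow_mul, ha2, one_zpow]
    · right; show t ^ (2 * m + 1) = t; rw [zpow_add, zpow_mul, ha2, one_zpow, one_mul, zpow_one]
  have ht1 : t ≠ 1 := by
    intro h; rw [h, orderOf_one] at ht2; omega
  have hall := Cfsg.Agent.Lib.FStar.pprime_elt_centralizes (p := 2) (R := pCore 2 H) (P := zpowers t)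
    (a := f) hYp (by rw [zpowers_le]; exact htY) ((Nat.coprime_two_right).mpr hf)
    (by
      rw [mem_normalizer_iff]
      intro u
      exact ⟨fun hu => hYn.conj_mem u hu f, fun hu => by
        have := hYn.conj_mem _ hu f⁻¹
        simpa [mul_assoc] using this⟩)
    (by
      intro r hr
      obtain ⟨hr1, hr2⟩ := mem_inf.mp hr
      have h3 : r * t * r⁻¹ ∈ zpowers t := (mem_normalizer_iff.mp hr2 t).mp (mem_zpowers t)
      have h4 : r * t = t * r := by
        rcases hzs _ h3 with h5 | h5
        · exfalso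
          apply ht1
          have h6 : t = r⁻¹ * (r * t * r⁻¹) * r := by group
          rw [h6, h5]; group
        · calc r * t = r * t * r⁻¹ * r := by group
            _ = t * r := by rw [h5]
      exact (hcomm r hr1 h4).symm)
  have hfY : f ∈ pCore 2 H := by
    apply centralizer_pCore_le_of_solvable hO
    rw [mem_centralizer_iff]
    intro r hr
    exact hall r hr
  exact Cfsg.Agent.Lib.Transfer.eq_one_of_coprime_of_isPGroup hYp hfY
    ((Nat.coprime_two_right).mpr hf)

/-- `r`-subgroups for odd primes `r` are cyclic. -/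
theorem isCyclic_of_odd_pgroup (hsol : Group.IsSolvable H) (hO : Cfsg.oddCore H = ⊥)
    (hI : ∀ t : H, orderOf t = 2 → Cfsg.HasNormalPComplement 2 ↥(Subgroup.centralizer ({t} : Set H)))
    {r : ℕ} [hr : Fact r.Prime] (hr2 : r ≠ 2) (R : Subgroup H) (hR : IsPGroup r R) : IsCyclic R := by
  classical
  have hfact : Fact (Nat.Prime 2) := ⟨Nat.prime_two⟩
  have hYp : IsPGroup 2 (pCore 2 H) := pCore_isPGroup 2 H
  have hYn : (pCore 2 H).Normal := pCore_normal 2 H
  apply Cfsg.Agent.Lib.FF.isCyclic_of_rank_le_one hR hr2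
  intro E hEab hEexp
  by_cases hY : pCore 2 H = ⊥
  · have hsub : Subsingleton H := by
      constructor
      intro a b
      have key : ∀ c : H, c = 1 := by
        intro c
        have h1 : c ∈ pCore 2 H := by
          apply centralizer_pCore_le_of_solvable hO
          rw [mem_centralizer_iff]
          intro u hu
          have hu' : u = 1 := by
            have hu2 : u ∈ pCore 2 H := hu
            rw [hY] at hu2
            exact mem_bot.mp hu2
          rw [hu']; group
        rw [hY] at h1
        exact mem_bot.mp h1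
      rw [key a, key b]
    have : Subsingleton E := inferInstance
    rw [Nat.card_of_subsingleton (1 : E)]
    exact hr.out.one_lt.le
  · set E' : Subgroup H := E.map R.subtype with hE'
    have hcardE : Nat.card E' = Nat.card E :=
      (Nat.card_congr (E.equivMapOfInjective R.subtype R.subtype_injective).toEquiv).symm
    rw [← hcardE]
    have hYnt : Nontrivial (pCore 2 H) := (nontrivial_iff_ne_bot _).mpr hY
    have hZ := hYp.center_nontrivial
    set V : Subgroup H := (center (pCore 2 H)).map (pCore 2 H).subtype with hV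
    have hVcomm : IsMulCommutative V := by
      refine ⟨⟨?_⟩⟩
      rintro ⟨_, x, hx, rfl⟩ ⟨_, y, hy, rfl⟩
      apply Subtype.ext
      show (x : H) * y = y * x
      have := mem_center_iff.mp hx y
      exact (congrArg Subtype.val this).symm
    have hVY : V ≤ pCore 2 H := map_subtype_le _
    have hVne : V ≠ ⊥ := by
      intro h
      rw [hV, map_eq_bot_iff_of_injective _ (pCore 2 H).subtype_injective] at h
      rw [h] at hZ
      have hs : Subsingleton (⊥ : Subgroup (pCore 2 H)) := inferInstance
      exact not_subsingleton _ hs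
    have hVn : V.Normal := by
      have : (center (pCore 2 H)).Characteristic := inferInstance
      exact ConjAct.normal_of_characteristic_of_normal
    have hcyc : IsCyclic E' := by
      refine Cfsg.Agent.Lib.Hall.isCyclic_of_fpf E' V hVne ?_ ?_ (Or.inl ?_)
      · intro a _
        rw [mem_normalizer_iff]
        intro u
        exact ⟨fun hu => hVn.conj_mem u hu a, fun hu => by
          have := hVn.conj_mem _ hu a⁻¹
          simpa [mul_assoc] using this⟩
      · rintro _ ⟨a, ha, rfl⟩ ha1
        rw [eq_bot_iff]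
        intro v hv
        obtain ⟨hv1, hv2⟩ := mem_inf.mp hv
        by_contra hv0
        apply ha1
        have hodd : Odd (orderOf ((R.subtype a) : H)) := by
          have h3 : (a : R) ^ r = 1 := by
            have := hEexp a ha
            exact this
          have h4 : orderOf (R.subtype a : H) ∣ r := by
            apply orderOf_dvd_of_pow_eq_one
            rw [← map_pow, h3, map_one]
          have h5 : Odd r := hr.out.odd_of_ne_two hr2
          exact Odd.of_dvd_nat h5 h4
        refine odd_fix_eq_one hsol hO hI hodd (hVY hv1) ?_ ?_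
        · exact fun h => hv0 (mem_bot.mpr h)
        · exact (mem_centralizer_singleton_iff.mp hv2).symm
      · refine ⟨⟨?_⟩⟩
        rintro ⟨_, x, hx, rfl⟩ ⟨_, y, hy, rfl⟩
        apply Subtype.ext
        show (R.subtype x) * (R.subtype y) = (R.subtype y) * (R.subtype x)
        have := hEab.is_comm.comm ⟨x, hx⟩ ⟨y, hy⟩
        have h2 : x * y = y * x := congrArg Subtype.val this
        rw [← map_mul, ← map_mul, h2]
    obtain ⟨g, hg⟩ := hcyc.exists_generator
    have hcard : orderOf g = Nat.card E' := orderOf_eq_card_of_forall_mem_zpowers hg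
    rw [← hcard]
    obtain ⟨_, a, ha, hga⟩ := g
    have h3 : (a : R) ^ r = 1 := hEexp a ha
    have h4 : orderOf (⟨R.subtype a, ⟨a, ha, rfl⟩⟩ : E') ∣ r := by
      apply orderOf_dvd_of_pow_eq_one
      apply Subtype.ext
      show (R.subtype a) ^ r = 1
      rw [← map_pow, h3, map_one]
    have h5 : (⟨_, a, ha, hga⟩ : E') = ⟨R.subtype a, ⟨a, ha, rfl⟩⟩ := by
      subst hga; rfl
    rw [h5]
    exact Nat.le_of_dvd hr.out.pos h4


/-- The commutator of two elements acts trivially on a cyclic normal subgroup. -/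
theorem commutator_commute_of_cyclic_normal {Q : Type*} [Group Q] [Finite Q] (A : Subgroup Q) [hA : A.Normal]
    [hc : IsCyclic A] (g h : Q) {a : Q} (ha : a ∈ A) : a * ⁅g, h⁆ = ⁅g, h⁆ * a := by
  have hcomm : ∀ x y : MulAut A, x * y = y * x := by
    intro x y
    apply (IsCyclic.mulAutMulEquiv A).injective
    rw [map_mul, map_mul, mul_comm]
  have hkey : ∀ b ∈ A, g * (h * b * h⁻¹) * g⁻¹ = h * (g * b * g⁻¹) * h⁻¹ := by
    intro b hb
    have h1 := hcomm (MulAut.conjNormal g) (MulAut.conjNormal h)
    have h2 := congrArg (fun φ : MulAut A => ((φ ⟨b, hb⟩ : A) : Q)) h1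
    simpa only [MulAut.mul_apply, MulAut.conjNormal_apply] using h2
  set a' := g⁻¹ * (h⁻¹ * a * h) * g with ha'
  have ha'A : a' ∈ A := by
    have h1 := hA.conj_mem _ (hA.conj_mem a ha h⁻¹) g⁻¹
    simpa [ha', mul_assoc] using h1
  have h3 := hkey a' ha'A
  have h4 : h * (g * a' * g⁻¹) * h⁻¹ = a := by rw [ha']; group
  rw [h4] at h3
  have h5 : ⁅g, h⁆ * a * ⁅g, h⁆⁻¹ = g * (h * a' * h⁻¹) * g⁻¹ := by
    rw [ha', commutatorElement_def]; group
  rw [h3] at h5
  calc a * ⁅g, h⁆ = (⁅g, h⁆ * a * ⁅g, h⁆⁻¹) * ⁅g, h⁆ := by rw [h5]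
    _ = ⁅g, h⁆ * a := by group

/-- The Fitting subgroup of a solvable group with `O₂ = 1` has odd order. -/
theorem odd_card_fitting_of_pCore_eq_bot {Q : Type*} [Group Q] [Finite Q]
    (hQ : pCore 2 Q = ⊥) : Odd (Nat.card (fittingSubgroup Q)) := by
  have hfact : Fact (Nat.Prime 2) := ⟨Nat.prime_two⟩
  set F := fittingSubgroup Q with hF
  have hFn : F.Normal := inferInstance
  have hnil : Group.IsNilpotent F := isNilpotent_fittingSubgroup Q
  obtain ⟨P⟩ : Nonempty (Sylow 2 F) := inferInstance
  have hPn : (P : Subgroup F).Normal := Sylow.normal_of_normalizerCondition normalizerCondition_of_isNilpotent P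
  have h1 : (P : Subgroup F) ≤ pCore 2 F := le_pCore hPn P.isPGroup'
  have h2 : pCore 2 F = ⊥ := by
    have h3 := map_pCore_of_normal (p := 2) F
    rw [hQ, inf_bot_eq] at h3
    exact (map_eq_bot_iff_of_injective _ F.subtype_injective).mp h3
  rw [h2, le_bot_iff] at h1
  have h4 := P.card_coprime_index
  rw [h1, Subgroup.card_bot, Nat.coprime_one_left_iff] at h4
  have h5 : ¬ 2 ∣ Nat.card F := by
    intro hdiv
    have h6 := Sylow.dvd_card_of_dvd_card P (p := 2) (by simpa using hdiv)
    rw [h1, Subgroup.card_bot] at h6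
    omega
  exact Nat.not_even_iff_odd.mp (fun h => h5 h.two_dvd)

end aux

/-- Let H be a finite solvable group with no nontrivial normal subgroup of odd order in which the centralizer of every involution has a normal 2-complement. Let X be a Hall 2'-subgroup of H (odd order, index a power of 2) and Y = O₂(H). Then no non-identity element of X commutes with a non-identity element of Y (so for X ≠ 1 the group XY is a Frobenius group with kernel Y), every Sylow subgroup of X is cyclic, XY is normal in H, and H/XY is a cyclic 2-group. -/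
theorem result {H : Type*} [Group H] [Finite H] (hsol : Group.IsSolvable H)
    (hO : Cfsg.oddCore H = ⊥)
    (hI : ∀ t : H, orderOf t = 2 → Cfsg.HasNormalPComplement 2 ↥(Subgroup.centralizer ({t} : Set H)))
    (X : Subgroup H) (hXodd : Odd (Nat.card X)) (hXidx : ∃ k : ℕ, X.index = 2 ^ k) :
    (∀ x ∈ X, x ≠ 1 → ∀ y ∈ Cfsg.pCore 2 H, y ≠ 1 → x * y ≠ y * x) ∧
      (∀ (p : ℕ) [Fact p.Prime] (P : Sylow p ↥X), IsCyclic ↥(P : Subgroup ↥X)) ∧
      (X ⊔ Cfsg.pCore 2 H).Normal ∧
      ∀ hN : (X ⊔ Cfsg.pCore 2 H).Normal, IsCyclic (H ⧸ (X ⊔ Cfsg.pCore 2 H)) ∧ IsPGroup 2 (H ⧸ (X ⊔ Cfsg.pCore 2 H)) := by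
  classical
  have hfact : Fact (Nat.Prime 2) := ⟨Nat.prime_two⟩
  haveI := hsol
  have hYp : IsPGroup 2 (pCore 2 H) := pCore_isPGroup 2 H
  set Y := pCore 2 H with hY
  have hYn : Y.Normal := pCore_normal 2 H
  have hXoddord : ∀ x ∈ X, Odd (orderOf x) := by
    intro x hx
    exact Odd.of_dvd_nat hXodd (Subgroup.orderOf_dvd_natCard X hx)
  have part1 : ∀ x ∈ X, x ≠ 1 → ∀ y ∈ Y, y ≠ 1 → x * y ≠ y * x := by
    intro x hx hx1 y hy hy1 hc
    exact hx1 (odd_fix_eq_one hsol hO hI (hXoddord x hx) hy hy1 hc)
  have part2 : ∀ (p : ℕ) [Fact p.Prime] (P : Sylow p ↥X), IsCyclic ↥(P : Subgroup ↥X) := by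
    intro p _ P
    by_cases hp2 : p = 2
    · subst hp2
      have h1 : Nat.card (P : Subgroup X) ∣ Nat.card X := Subgroup.card_subgroup_dvd_card _
      have h2 : Odd (Nat.card (P : Subgroup X)) := Odd.of_dvd_nat hXodd h1
      obtain ⟨k, hk⟩ := IsPGroup.iff_card.mp P.isPGroup'
      have h3 : k = 0 := by
        by_contra hne
        rw [hk] at h2
        exact (Nat.not_even_iff_odd.mpr h2) (Nat.even_pow.mpr ⟨even_two, hne⟩)
      have h4 : Nat.card (P : Subgroup X) = 1 := by rw [hk, h3, pow_zero]
      have : Subsingleton (P : Subgroup X) := (Nat.card_eq_one_iff_unique.mp h4).1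
      infer_instance
    · have h1 : IsCyclic ((P : Subgroup X).map X.subtype) :=
        isCyclic_of_odd_pgroup hsol hO hI hp2 _ (P.isPGroup'.map _)
      exact isCyclic_of_surjective _
        ((P : Subgroup X).equivMapOfInjective X.subtype X.subtype_injective).symm.surjective
  -- the quotient
  set π := QuotientGroup.mk' Y with hπ
  have hπs : Function.Surjective π := QuotientGroup.mk'_surjective Y
  have hQ2 : pCore 2 (H ⧸ Y) = ⊥ := pCore_quotient_pCore_eq_bot (p := 2) (G := H)
  set F := fittingSubgroup (H ⧸ Y) with hF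
  have hFn : F.Normal := inferInstance
  have hFodd : Odd (Nat.card F) := odd_card_fitting_of_pCore_eq_bot hQ2
  -- cores are cyclic
  have hcyc : ∀ (r : ℕ) [Fact r.Prime], r ≠ 2 → IsCyclic (pCore r (H ⧸ Y)) := by
    intro r _ hr2
    obtain ⟨R, hR, hRmap⟩ := exists_pgroup_map_eq π hπs (pCore r (H ⧸ Y)) (pCore_isPGroup r _)
    have h1 : IsCyclic R := isCyclic_of_odd_pgroup hsol hO hI hr2 R hR
    have h2 : IsCyclic (R.map π) :=
      isCyclic_of_surjective (π.subgroupMap R) (π.subgroupMap_surjective R)
    rw [hRmap] at h2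
    exact h2
  -- commutators lie in the Fitting subgroup
  have hcomm : ∀ g h : H ⧸ Y, ⁅g, h⁆ ∈ F := by
    intro g h
    apply Cfsg.Agent.Lib.Geo.centralizer_fitting_le_of_solvable
    rw [mem_centralizer_iff]
    intro f hf
    have hle : F ≤ centralizer ({⁅g, h⁆} : Set (H ⧸ Y)) := by
      rw [hF, fittingSubgroup_eq_iSup_pCore]
      apply iSup_le
      rintro ⟨p, hp⟩
      have hpf : Fact p.Prime := ⟨hp⟩
      by_cases hp2 : p = 2
      · subst hp2
        show pCore 2 (H ⧸ Y) ≤ _
        rw [hQ2]; exact bot_le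
      · intro a ha
        rw [mem_centralizer_singleton_iff]
        have hcy := hcyc p hp2
        have hnorm : (pCore p (H ⧸ Y)).Normal := pCore_normal p _
        exact (commutator_commute_of_cyclic_normal (pCore p (H ⧸ Y)) g h ha)
    have := hle hf
    rw [mem_centralizer_singleton_iff] at this
    exact this
  -- the image of `X`
  obtain ⟨k, hk⟩ := hXidx
  set Xb := X.map π with hXb
  have hXbodd : Odd (Nat.card Xb) := Odd.of_dvd_nat hXodd (Subgroup.card_map_dvd _ _)
  have hXbidx : Xb.index ∣ 2 ^ k := by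
    rw [← hk]; exact Subgroup.index_map_dvd _ hπs
  have hFX : F ≤ Xb := by
    set B := Xb ⊔ F with hB
    have hXB : Xb ≤ B := le_sup_left
    have hBodd : Odd (Nat.card B) := by
      refine Odd.of_dvd_nat ?_ (card_sup_dvd Xb F)
      exact hXbodd.mul hFodd
    have h2 : Xb.relIndex B * B.index = Xb.index := Subgroup.relIndex_mul_index hXB
    have h3 : Xb.relIndex B ∣ 2 ^ k := (Dvd.intro _ h2).trans hXbidx
    have h4 : Odd (Xb.relIndex B) := Odd.of_dvd_nat hBodd (Subgroup.index_dvd_card _)
    obtain ⟨j, _, hj⟩ := (Nat.dvd_prime_pow Nat.prime_two).mp h3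
    have h5 : j = 0 := by
      by_contra hne
      rw [hj] at h4
      exact (Nat.not_even_iff_odd.mpr h4) (Nat.even_pow.mpr ⟨even_two, hne⟩)
    have h6 : Xb.relIndex B = 1 := by rw [hj, h5, pow_zero]
    have h7 : B ≤ Xb := Subgroup.relIndex_eq_one.mp h6
    exact (le_sup_right.trans h7)
  have hXbn : Xb.Normal := by
    constructor
    intro x hx g
    have h1 : g * x * g⁻¹ = ⁅g, x⁆ * x := by
      rw [commutatorElement_def]; group
    rw [h1]
    exact Xb.mul_mem (hFX (hcomm g x)) hx
  have hcomap : X ⊔ Y = Xb.comap π := by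
    rw [hXb, Subgroup.comap_map_eq, hπ, QuotientGroup.ker_mk']
  have hNormal : (X ⊔ Y).Normal := by
    rw [hcomap]
    exact hXbn.comap π
  refine ⟨part1, part2, hNormal, ?_⟩
  intro hN
  have hp2 : IsPGroup 2 (H ⧸ (X ⊔ Y)) := by
    have h1 : (X ⊔ Y).index ∣ 2 ^ k := by
      rw [← hk]; exact Subgroup.index_dvd_of_le le_sup_left
    obtain ⟨j, _, hj⟩ := (Nat.dvd_prime_pow Nat.prime_two).mp h1
    apply IsPGroup.of_card (n := j)
    rw [← Subgroup.index_eq_card]
    exact hj
  refine ⟨?_, hp2⟩
  -- the map from the quotient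
  set ρ : (H ⧸ Y) →* (H ⧸ (X ⊔ Y)) :=
    QuotientGroup.lift Y (QuotientGroup.mk' (X ⊔ Y)) (by
      intro y hy
      rw [MonoidHom.mem_ker, QuotientGroup.mk'_apply, QuotientGroup.eq_one_iff]
      exact Subgroup.mem_sup_right hy) with hρ
  have hρs : Function.Surjective ρ := by
    intro z
    obtain ⟨g, rfl⟩ := QuotientGroup.mk'_surjective (X ⊔ Y) z
    exact ⟨π g, rfl⟩
  obtain ⟨S⟩ : Nonempty (Sylow 2 (H ⧸ Y)) := inferInstance
  have hSmap := map_sylow_eq_top_of_surj hρs hp2 S
  -- `S` is abelian
  have hSab : IsMulCommutative (S : Subgroup (H ⧸ Y)) := by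
    refine ⟨⟨?_⟩⟩
    rintro ⟨a, ha⟩ ⟨b, hb⟩
    apply Subtype.ext
    show a * b = b * a
    have h1 : ⁅a, b⁆ ∈ (S : Subgroup (H ⧸ Y)) := by
      rw [commutatorElement_def]
      exact mul_mem (mul_mem (mul_mem ha hb) (inv_mem ha)) (inv_mem hb)
    have h2 : Nat.Coprime (orderOf ⁅a, b⁆) 2 := by
      rw [Nat.coprime_two_right]
      exact Odd.of_dvd_nat hFodd (Subgroup.orderOf_dvd_natCard F (hcomm a b))
    have h3 := Cfsg.Agent.Lib.Transfer.eq_one_of_coprime_of_isPGroup S.isPGroup' h1 h2
    exact commutatorElement_eq_one_iff_mul_comm.mp h3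
  have hScyc : IsCyclic (S : Subgroup (H ⧸ Y)) := by
    by_contra hnc
    obtain ⟨p, hp, E, hES, hcard, hexp⟩ := Cfsg.Agent.Lib.Hall.exists_elementary_subgroup (S : Subgroup (H ⧸ Y)) hnc
    have hp2' : p = 2 := by
      have h1 : p ∣ Nat.card E := by rw [hcard]; exact dvd_pow_self p (by norm_num)
      have h2 : IsPGroup 2 E := S.isPGroup'.to_le hES
      obtain ⟨m, hm⟩ := IsPGroup.iff_card.mp h2
      rw [hm] at h1
      exact (Nat.prime_dvd_prime_iff_eq hp Nat.prime_two).mp (hp.dvd_of_dvd_pow h1)
    subst hp2'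
    have hgen := Cfsg.Agent.Lib.Hall.generation_elementary hp hcard hexp (Nat.card F) F le_rfl
      (fun a _ => by
        rw [mem_normalizer_iff]
        intro u
        exact ⟨fun hu => hFn.conj_mem u hu a, fun hu => by
          have := hFn.conj_mem _ hu a⁻¹
          simpa [mul_assoc] using this⟩)
      ((Nat.coprime_two_left).mpr hFodd)
    have hFbot : F = ⊥ := by
      rw [← hgen, eq_bot_iff]
      refine iSup₂_le ?_
      rintro a ⟨haE, ha1⟩ f hf
      obtain ⟨hfF, hfC⟩ := mem_inf.mp hf
      rw [mem_bot]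
      have hfodd : Odd (orderOf f) := Odd.of_dvd_nat hFodd (Subgroup.orderOf_dvd_natCard F hfF)
      have ha2 : a ^ 2 = 1 := hexp a haE
      -- an odd lift of `f`
      obtain ⟨f₀, hf₀⟩ := hπs f
      obtain ⟨x, y, hxy, _, ⟨m, hm⟩, hy2, hxz, _⟩ := Cfsg.Agent.Lib.Block.exists_jordan (p := 2) f₀
      have hπx : π x = 1 := by
        have h1 : orderOf (π x) ∣ 2 ^ m := by
          rw [← hm]; exact orderOf_map_dvd π x
        have h2 : π x ∈ zpowers f := by
          obtain ⟨i, hi⟩ := hxz
          exact ⟨i, by simp only; rw [← hi, map_zpow, hf₀]⟩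
        have h3 : orderOf (π x) ∣ orderOf f := by
          rw [← Nat.card_zpowers f]; exact Subgroup.orderOf_dvd_natCard _ h2
        have h4 : Odd (orderOf (π x)) := Odd.of_dvd_nat hfodd h3
        have h5 : Nat.Coprime (orderOf (π x)) (2 ^ m) :=
          Nat.Coprime.pow_right m (Nat.coprime_two_right.mpr h4)
        exact orderOf_eq_one_iff.mp (Nat.eq_one_of_dvd_coprimes h5 dvd_rfl h1)
      have hπy : π y = f := by
        rw [← hf₀, ← hxy, map_mul, hπx, one_mul]
      have hyodd : Odd (orderOf y) := Nat.not_even_iff_odd.mp (fun h => hy2 h.two_dvd)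
      obtain ⟨u, hu⟩ := hπs a
      have hfa : f * a = a * f := (mem_centralizer_singleton_iff.mp hfC)
      have hx : u⁻¹ * (y * u * y⁻¹) ∈ Y := by
        rw [← QuotientGroup.eq_one_iff (N := Y)]
        change π _ = 1
        rw [map_mul, map_inv, map_mul, map_mul, map_inv, hu, hπy, hfa]
        group
      have hcopY : (orderOf y).Coprime (Nat.card Y) := by
        obtain ⟨j, hj⟩ := IsPGroup.iff_card.mp hYp
        rw [hj]
        exact Nat.Coprime.pow_right j (Nat.coprime_two_right.mpr hyodd)
      obtain ⟨n, hn, hn2⟩ := Cfsg.Agent.Lib.FStar.exists_coset_centralizing_elt (b := y) (N := Y)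
        (fun z hz => hYn.conj_mem z hz y) hcopY u hx
      set u' := u * n with hu'
      have hπu' : π u' = a := by
        rw [hu', map_mul, hu]
        have : π n = 1 := by
          rw [hπ, QuotientGroup.mk'_apply, QuotientGroup.eq_one_iff]; exact hn
        rw [this, mul_one]
      have hyu' : y * u' = u' * y := by
        calc y * u' = (y * u' * y⁻¹) * y := by group
          _ = u' * y := by rw [hn2]
      have hu'1 : u' ≠ 1 := by
        intro h
        rw [h, map_one] at hπu'
        exact ha1 hπu'.symm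
      have hu'sq : u' * u' ∈ Y := by
        rw [← QuotientGroup.eq_one_iff (N := Y)]
        change π _ = 1
        rw [map_mul, hπu', ← pow_two, ha2]
      have hy1 : y = 1 := by
        by_cases hsq : u' * u' = 1
        · -- `u'` is an involution
          have hu'o : orderOf u' = 2 := by
            apply orderOf_eq_prime
            · rw [pow_two]; exact hsq
            · exact hu'1
          -- a fixed element of `Y`
          have hYne : Y ≠ ⊥ := by
            intro h
            apply ha1
            have h1 : ∀ c : H, c = 1 := by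
              intro c
              have h2 : c ∈ Y := by
                apply centralizer_pCore_le_of_solvable hO
                rw [mem_centralizer_iff]
                intro w hw
                have hw' : w ∈ Y := hw
                rw [h] at hw'
                rw [mem_bot.mp hw']
                group
              rw [h] at h2
              exact mem_bot.mp h2
            rw [← hπu', h1 u', map_one]
          set W := Y ⊔ zpowers u' with hW
          have hWp : IsPGroup 2 W := by
            refine hYp.to_sup_of_normal_left ?_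
            rintro ⟨g, hg⟩
            refine ⟨1, Subtype.ext ?_⟩
            obtain ⟨i, rfl⟩ := mem_zpowers_iff.mp hg
            show (u' ^ i) ^ 2 ^ 1 = 1
            rw [pow_one, ← zpow_natCast, ← zpow_mul, mul_comm, zpow_mul]
            have : u' ^ ((2 : ℕ) : ℤ) = 1 := by rw [zpow_natCast, pow_two]; exact hsq
            rw [this, one_zpow]
          have hWnil : Group.IsNilpotent W := hWp.isNilpotent
          have hYW : (Y.subgroupOf W).Normal := inferInstance
          have hYne' : ∃ y ∈ Y, y ≠ 1 := by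
            by_contra hcon
            push Not at hcon
            exact hYne ((Subgroup.eq_bot_iff_forall _).mpr hcon)
          obtain ⟨y₁, hy₁, hy₁1⟩ := hYne'
          have hYWne : Y.subgroupOf W ≠ ⊥ := by
            intro h
            have h1 : (⟨y₁, mem_sup_left hy₁⟩ : W) ∈ Y.subgroupOf W := hy₁
            rw [h, mem_bot] at h1
            exact hy₁1 (congrArg Subtype.val h1)
          have hne := normal_inf_center_ne_bot (Y.subgroupOf W) hYWne
          obtain ⟨⟨z, hz⟩, hz1⟩ := Subgroup.ne_bot_iff_exists_ne_one.mp hne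
          obtain ⟨hz₁, hz₂⟩ := mem_inf.mp hz
          have hy₀Y : (z : H) ∈ Y := hz₁
          have hy₀1 : (z : H) ≠ 1 := by
            intro h
            apply hz1
            apply Subtype.ext
            apply Subtype.ext
            exact h
          have hu'W : u' ∈ W := mem_sup_right (mem_zpowers u')
          have hrt : (z : H) * u' = u' * z := by
            have := mem_center_iff.mp hz₂ ⟨u', hu'W⟩
            exact (congrArg Subtype.val this).symm
          exact odd_fix_eq_one hsol hO hI hyodd hy₀Y hy₀1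
            (commute_of_commute_invol hI hu'o hyodd hyu' hy₀Y hrt)
        · exact odd_fix_eq_one hsol hO hI hyodd hu'sq hsq (by
            have : Commute y u' := hyu'
            calc y * (u' * u') = (y * u') * u' := by group
              _ = (u' * y) * u' := by rw [hyu']
              _ = u' * (y * u') := by group
              _ = u' * (u' * y) := by rw [hyu']
              _ = _ := by group)
      rw [← hπy, hy1, map_one]
    have hsub : ∀ c : H ⧸ Y, c = 1 := by
      intro c
      have h1 : c ∈ F := by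
        apply Cfsg.Agent.Lib.Geo.centralizer_fitting_le_of_solvable
        rw [mem_centralizer_iff]
        intro u hu
        have hu' : u ∈ F := hu
        rw [hFbot] at hu'
        rw [mem_bot.mp hu']
        group
      rw [hFbot] at h1
      exact mem_bot.mp h1
    have hE1 : Nat.card E = 1 := by
      have : Subsingleton (H ⧸ Y) := ⟨fun a b => by rw [hsub a, hsub b]⟩
      exact Nat.card_of_subsingleton (1 : E)
    rw [hcard] at hE1
    norm_num at hE1
  refine isCyclic_of_surjective (ρ.comp (S : Subgroup (H ⧸ Y)).subtype) ?_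
  intro z
  have hz : z ∈ (S : Subgroup (H ⧸ Y)).map ρ := by rw [hSmap]; exact mem_top z
  obtain ⟨a, ha, rfl⟩ := hz
  exact ⟨⟨a, ha⟩, rfl⟩

end Cfsg.Agent.S3215
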