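import Cfsg.Statements.S3224
import Mathlib
import Cfsg.Agent.Lib.Invol.Basic

set_option autoImplicit false
open Cfsg


namespace Cfsg.Agent.S3224

universe u

section aux
variable {S : Type*} [Group S]

/-- Basic facts on the centre and the centralizer. -/
theorem basics [Finite S] (hS : IsPGroup 2 S) {x : S} (hx : orderOf x = 2)
    (hC : Nat.card (Subgroup.centralizer ({x} : Set S)) = 4) (h8 : 8 ≤ Nat.card S) :
    ∃ z : S, orderOf z = 2 ∧ z ≠ x ∧ (∀ g : S, g * z = z * g) ∧
      (∀ s : S, (∀ g : S, g * s = s * g) → s = 1 ∨ s = z) ∧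
      (∀ s : S, s * x = x * s → s = 1 ∨ s = x ∨ s = z ∨ s = x * z) := by
  classical
  have hf : Fact (Nat.Prime 2) := ⟨Nat.prime_two⟩
  have : Nontrivial S := by
    rw [← Finite.one_lt_card_iff_nontrivial]; omega
  have : Fintype S := Fintype.ofFinite S
  set C := Subgroup.centralizer ({x} : Set S) with hCdef
  have hmemC : ∀ s, s ∈ C ↔ s * x = x * s := by
    intro s
    rw [hCdef, Subgroup.mem_centralizer_singleton_iff]
  have hxZ : x ∉ Subgroup.center S := by
    intro h
    have h1 : C = ⊤ := by
      rw [eq_top_iff]
      intro s _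
      rw [hmemC]
      exact (Subgroup.mem_center_iff.mp h s)
    rw [h1, Subgroup.card_top] at hC
    omega
  have hZC : Subgroup.center S ≤ C := by
    intro s hs
    rw [hmemC]
    exact (Subgroup.mem_center_iff.mp hs x).symm
  have hZne : Nat.card (Subgroup.center S) ≠ 1 := by
    intro h
    have hnt := hS.center_nontrivial
    have : Subsingleton (Subgroup.center S) := (Nat.card_eq_one_iff_unique.mp h).1
    exact not_subsingleton _ this
  have hxC : x ∈ C := by rw [hmemC]
  have hZ2 : Nat.card (Subgroup.center S) = 2 := by
    have h1 : Nat.card (Subgroup.center S) ∣ 4 := by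
      rw [← hC]; exact Subgroup.card_dvd_of_le hZC
    have h4 : (4 : ℕ) = 2 ^ 2 := by norm_num
    rw [h4] at h1
    obtain ⟨j, hj, hj2⟩ := (Nat.dvd_prime_pow Nat.prime_two).mp h1
    interval_cases j
    · exact absurd (by simpa using hj2) hZne
    · simpa using hj2
    · exfalso
      have h5 : Subgroup.center S = C := by
        apply Subgroup.eq_of_le_of_card_ge hZC
        rw [hC, hj2]; norm_num
      exact hxZ (h5 ▸ hxC)
  obtain ⟨⟨z, hzZ⟩, hz1, hzu⟩ := (Nat.card_eq_two_iff' (1 : Subgroup.center S)).mp hZ2
  have hz1' : z ≠ 1 := fun h => hz1 (Subtype.ext h)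
  have hcent : ∀ g : S, g * z = z * g := fun g => Subgroup.mem_center_iff.mp hzZ g
  have hzo : orderOf z = 2 := by
    have h1 : orderOf z ∣ 2 := by
      have h2 := Subgroup.orderOf_dvd_natCard (Subgroup.center S) hzZ
      rwa [hZ2] at h2
    rcases (Nat.dvd_prime Nat.prime_two).mp h1 with h | h
    · exact absurd (orderOf_eq_one_iff.mp h) hz1'
    · exact h
  have hzx : z ≠ x := fun h => hxZ (h ▸ hzZ)
  refine ⟨z, hzo, hzx, hcent, ?_, ?_⟩
  · intro s hs
    have hsZ : s ∈ Subgroup.center S := Subgroup.mem_center_iff.mpr hs
    by_cases hs1 : s = 1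
    · exact Or.inl hs1
    · right
      have := hzu ⟨s, hsZ⟩ (fun h => hs1 (congrArg Subtype.val h))
      exact congrArg Subtype.val this
  · -- the four elements
    have hxx : x * x = 1 := by rw [← sq, ← hx, pow_orderOf_eq_one]
    have hzz : z * z = 1 := by rw [← sq, ← hzo, pow_orderOf_eq_one]
    have hx1 : x ≠ 1 := by
      intro h; rw [h, orderOf_one] at hx; omega
    let T : Finset S := {1, x, z, x * z}
    have hTcard : T.card = 4 := by
      have h1 : x * z ≠ z := fun h => hx1 (mul_right_cancel (a := x) (b := z) (c := 1) (by rw [h, one_mul]))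
      have h2 : x * z ≠ x := fun h => hz1' (mul_left_cancel (a := x) (b := z) (c := 1) (by rw [h, mul_one]))
      have h3 : x * z ≠ 1 := by
        intro h
        apply hzx
        have h4 : z = x := by
          calc z = x * x * z := by rw [hxx, one_mul]
            _ = x * (x * z) := by group
            _ = x := by rw [h, mul_one]
        exact h4
      have h4 : (1 : S) ≠ x * z := Ne.symm h3
      simp [T, Finset.card_insert_of_notMem, hx1.symm, hz1'.symm, hzx.symm, h4, h1.symm, h2.symm]
    let Cf : Finset S := Finset.univ.filter (fun s => s ∈ C)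
    have hCf : Cf.card = 4 := by
      rw [← hC, Nat.card_eq_fintype_card]
      exact (Fintype.card_subtype _).symm
    have hTC : T ⊆ Cf := by
      intro t ht
      apply Finset.mem_filter.mpr
      refine ⟨Finset.mem_univ _, ?_⟩
      rw [hmemC]
      simp only [T, Finset.mem_insert, Finset.mem_singleton] at ht
      rcases ht with rfl | rfl | rfl | rfl
      · simp
      · rfl
      · exact hcent _ |>.symm
      · rw [mul_assoc, ← hcent x]
    have heq : T = Cf := Finset.eq_of_subset_of_card_le hTC (by rw [hCf, hTcard])
    intro s hs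
    have h1 : s ∈ Cf := Finset.mem_filter.mpr ⟨Finset.mem_univ _, (hmemC s).mpr hs⟩
    rw [← heq] at h1
    simpa [T] using h1

end aux

/-- The key claim: a cyclic subgroup of index two. -/
theorem exists_cyclic_index_two (n : ℕ) : ∀ (S : Type u) [Group S] [Finite S], Nat.card S = n →
    IsPGroup 2 S → ∀ x : S, orderOf x = 2 →
    Nat.card (Subgroup.centralizer ({x} : Set S)) = 4 → 8 ≤ Nat.card S →
    ∃ c : S, (Subgroup.zpowers c).index = 2 := by
  induction n using Nat.strong_induction_on with
  | _ n ih =>
    intro S _ _ hn hS x hx hC h8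
    classical
    have hf : Fact (Nat.Prime 2) := ⟨Nat.prime_two⟩
    obtain ⟨z, hzo, hzx, hcent, hZ, hCx⟩ := basics hS hx hC h8
    have hxx : x * x = 1 := by rw [← sq, ← hx, pow_orderOf_eq_one]
    have hzz : z * z = 1 := by rw [← sq, ← hzo, pow_orderOf_eq_one]
    have hz1 : z ≠ 1 := by
      intro h; rw [h, orderOf_one] at hzo; omega
    have hx1 : x ≠ 1 := by
      intro h; rw [h, orderOf_one] at hx; omega
    set C := Subgroup.centralizer ({x} : Set S) with hCdef
    have hmemC : ∀ s, s ∈ C ↔ s * x = x * s := by
      intro s
      rw [hCdef, Subgroup.mem_centralizer_singleton_iff]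
    have hClt : Nat.card C < Nat.card S := by omega
    -- an element outside C
    obtain ⟨k, hk⟩ := IsPGroup.iff_card.mp hS
    by_cases hcase : Nat.card S = 8
    · -- base case
      obtain ⟨y, hy⟩ : ∃ y, y ∉ C := by
        by_contra hcon
        push_neg at hcon
        have : C = ⊤ := eq_top_iff.mpr fun s _ => hcon s
        rw [this, Subgroup.card_top] at hClt
        omega
      obtain ⟨c, hc2⟩ : ∃ c : S, c * c ≠ 1 := by
        by_contra hcon
        push_neg at hcon
        apply hy
        rw [hmemC]
        have h1 := hcon y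
        have h2 := hcon (y * x)
        have hyi : y⁻¹ = y := inv_eq_of_mul_eq_one_left h1
        have h3 : (y * x)⁻¹ = y * x := inv_eq_of_mul_eq_one_left h2
        rw [mul_inv_rev, hyi, inv_eq_of_mul_eq_one_left hxx] at h3
        exact h3.symm
      refine ⟨c, ?_⟩
      have hdvd : orderOf c ∣ 2 ^ 3 := by
        have := orderOf_dvd_natCard c
        rwa [hcase] at this
      obtain ⟨j, hj, hj2⟩ := (Nat.dvd_prime_pow Nat.prime_two).mp hdvd
      have hcard : Nat.card (Subgroup.zpowers c) * (Subgroup.zpowers c).index = 8 := by
        rw [Subgroup.card_mul_index, hcase]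
      rw [Nat.card_zpowers, hj2] at hcard
      interval_cases j
      · exfalso
        apply hc2
        have h1 : c = 1 := orderOf_eq_one_iff.mp (by simpa using hj2)
        rw [h1, one_mul]
      · exfalso
        apply hc2
        rw [← sq, show (2 : ℕ) = orderOf c by simpa using hj2.symm, pow_orderOf_eq_one]
      · omega
      · exfalso
        have hi : (Subgroup.zpowers c).index = 1 := by omega
        have htop := Subgroup.index_eq_one.mp hi
        have hcomm : ∀ a b : S, a * b = b * a := by
          intro a b
          have ha : a ∈ Subgroup.zpowers c := by rw [htop]; trivial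
          have hb : b ∈ Subgroup.zpowers c := by rw [htop]; trivial
          obtain ⟨i, rfl⟩ := ha
          obtain ⟨j, rfl⟩ := hb
          exact Commute.zpow_zpow_self c i j
        have : C = ⊤ := eq_top_iff.mpr fun s _ => (hmemC s).mpr (hcomm s x)
        rw [this, Subgroup.card_top] at hClt
        omega
    · -- inductive step
      have h16 : 16 ≤ Nat.card S := by
        rw [hk] at h8 hcase ⊢
        have hk3 : 3 ≤ k := by
          by_contra h
          have : 2 ^ k ≤ 2 ^ 2 := Nat.pow_le_pow_right (by norm_num) (by omega)
          omega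
        have hk4 : 4 ≤ k := by
          by_contra h
          have : k = 3 := by omega
          rw [this] at hcase
          norm_num at hcase
        calc 16 = 2 ^ 4 := by norm_num
          _ ≤ 2 ^ k := Nat.pow_le_pow_right (by norm_num) hk4
      let N : Subgroup S := Subgroup.zpowers z
      have hNmem : ∀ s, s ∈ N ↔ s = 1 ∨ s = z := by
        intro s
        constructor
        · rintro ⟨i, rfl⟩
          have hcom : ∀ g : S, g * z ^ i = z ^ i * g := fun g => (Commute.zpow_right (hcent g) i)
          exact hZ _ hcom
        · rintro (rfl | rfl)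
          · exact N.one_mem
          · exact Subgroup.mem_zpowers _
      have hNcent : ∀ s ∈ N, ∀ g : S, g * s = s * g := by
        intro s hs g
        rcases (hNmem s).mp hs with rfl | rfl
        · simp
        · exact hcent g
      have hNn : N.Normal := ⟨fun s hs g => by
        rw [hNcent s hs g]
        simpa using hs⟩
      have hNcard : Nat.card N = 2 := by
        rw [Nat.card_zpowers, hzo]
      let Q := S ⧸ N
      let π : S →* Q := QuotientGroup.mk' N
      have hπ : Function.Surjective π := QuotientGroup.mk'_surjective N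
      have hQcard : Nat.card S = Nat.card Q * 2 := by
        have := Subgroup.card_mul_index N
        rw [hNcard, Subgroup.index_eq_card] at this
        rw [← this, mul_comm]
      have hπker : ∀ s, π s = 1 ↔ s = 1 ∨ s = z := by
        intro s
        rw [← hNmem]
        exact QuotientGroup.eq_one_iff s
      have hQp : IsPGroup 2 Q := hS.to_quotient N
      have hxN : π x ≠ 1 := by
        intro h
        rcases (hπker x).mp h with h | h
        · exact hx1 h
        · exact hzx h.symm
      have hxQ : orderOf (π x) = 2 := by
        apply orderOf_eq_prime _ hxN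
        rw [sq, ← map_mul, hxx, map_one]
      -- an element of the normalizer
      obtain ⟨y, hyN, hyC⟩ : ∃ y, y * x * y⁻¹ = z * x ∧ y ∉ C := by
        have hlt : C < ⊤ := by
          rw [lt_top_iff_ne_top]
          intro h
          rw [h, Subgroup.card_top] at hClt
          omega
        have : Group.IsNilpotent S := hS.isNilpotent
        have hnc := normalizerCondition_of_isNilpotent (G := S) C hlt
        obtain ⟨y, hyn, hyC⟩ := SetLike.exists_of_lt hnc
        refine ⟨y, ?_, hyC⟩
        have hxC : x ∈ C := (hmemC x).mpr rfl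
        have h1 : y * x * y⁻¹ ∈ C := (Subgroup.mem_normalizer_iff.mp hyn x).mp hxC
        have h2 := hCx _ ((hmemC _).mp h1)
        rcases h2 with h2 | h2 | h2 | h2
        · exfalso
          apply hx1
          have : x = y⁻¹ * (y * x * y⁻¹) * y := by group
          rw [this, h2]; group
        · exfalso
          apply hyC
          rw [hmemC]
          calc y * x = (y * x * y⁻¹) * y := by group
            _ = x * y := by rw [h2]
        · exfalso
          apply hzx
          have : x = y⁻¹ * (y * x * y⁻¹) * y := by group
          rw [this, h2, mul_assoc, ← hcent y]; group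
        · rw [h2, ← hcent x]
      -- the centralizer in the quotient
      have hCQ : Nat.card (Subgroup.centralizer ({π x} : Set Q)) = 4 := by
        let CQ := Subgroup.centralizer ({π x} : Set Q)
        let E : Subgroup S := CQ.comap π
        have hmemE : ∀ s, s ∈ E ↔ π s * π x = π x * π s := by
          intro s
          show π s ∈ CQ ↔ _
          rw [Subgroup.mem_centralizer_singleton_iff]
        have hEcases : ∀ s, s ∈ E → s ∈ C ∨ s * x * s⁻¹ = z * x := by
          intro s hs
          have h1 := (hmemE s).mp hs
          have h2 : π (s * x * s⁻¹ * x⁻¹) = 1 := by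
            rw [map_mul, map_mul, map_mul, map_inv, map_inv, h1]
            group
          rcases (hπker _).mp h2 with h3 | h3
          · left
            rw [hmemC]
            have h4 : s * x * s⁻¹ = x := by
              calc s * x * s⁻¹ = (s * x * s⁻¹ * x⁻¹) * x := by group
                _ = x := by rw [h3, one_mul]
            calc s * x = (s * x * s⁻¹) * s := by group
              _ = x * s := by rw [h4]
          · right
            calc s * x * s⁻¹ = (s * x * s⁻¹ * x⁻¹) * x := by group
              _ = z * x := by rw [h3]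
        have hCE : C ≤ E := by
          intro s hs
          rw [hmemE, ← map_mul, ← map_mul, (hmemC s).mp hs]
        have hyE : y ∈ E := by
          rw [hmemE]
          have h1 : y * x = z * x * y := by
            calc y * x = (y * x * y⁻¹) * y := by group
              _ = z * x * y := by rw [hyN]
          rw [← map_mul, ← map_mul, h1, mul_assoc, map_mul]
          rw [(hπker z).mpr (Or.inr rfl), one_mul, map_mul]
        have hidx : (C.subgroupOf E).index = 2 := by
          rw [Subgroup.index_eq_two_iff]
          refine ⟨⟨y, hyE⟩, ?_⟩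
          rintro ⟨b, hb⟩
          show Xor' (b * y ∈ C) (b ∈ C)
          by_cases hbC : b ∈ C
          · right
            refine ⟨hbC, ?_⟩
            intro h
            apply hyC
            have h1 : y = b⁻¹ * (b * y) := by group
            rw [h1]
            exact C.mul_mem (C.inv_mem hbC) h
          · left
            refine ⟨?_, hbC⟩
            have hb2 := (hEcases b hb).resolve_left hbC
            rw [hmemC]
            have hbz : b * z = z * b := hcent b
            calc b * y * x = (b * (y * x * y⁻¹)) * y := by group
              _ = (b * (z * x)) * y := by rw [hyN]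
              _ = z * (b * x * b⁻¹) * b * y := by
                  rw [← mul_assoc b z x, hbz]; group
              _ = z * (z * x) * b * y := by rw [hb2]
              _ = (z * z) * x * b * y := by group
              _ = x * (b * y) := by rw [hzz, one_mul]; group
        have hEcard : Nat.card E = 8 := by
          have h1 := Subgroup.card_mul_index (C.subgroupOf E)
          have h2 : Nat.card (C.subgroupOf E) = Nat.card C :=
            Nat.card_congr (Subgroup.subgroupOfEquivOfLe hCE).toEquiv
          rw [h2, hC, hidx] at h1
          omega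
        have hidx2 : E.index = CQ.index := Subgroup.index_comap_of_surjective CQ hπ
        have h3 := Subgroup.card_mul_index E
        have h4 := Subgroup.card_mul_index CQ
        rw [hidx2, hEcard] at h3
        rw [hQcard] at h3
        have h5 : Nat.card CQ * CQ.index * 2 = 8 * CQ.index := by rw [h4]; omega
        have hipos : 0 < CQ.index := Nat.pos_of_ne_zero Subgroup.FiniteIndex.index_ne_zero
        have h6 : Nat.card CQ * 2 = 8 := by
          apply Nat.eq_of_mul_eq_mul_right hipos
          rw [← h5]; ring
        show Nat.card CQ = 4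
        omega
      -- the induction hypothesis
      obtain ⟨ā, hā⟩ := ih (Nat.card Q) (by omega) Q rfl hQp (π x) hxQ hCQ (by omega)
      obtain ⟨a, rfl⟩ := hπ ā
      let B : Subgroup S := (Subgroup.zpowers (π a)).comap π
      have hBidx : B.index = 2 := by
        show ((Subgroup.zpowers (π a)).comap π).index = 2
        rw [Subgroup.index_comap_of_surjective _ hπ, hā]
      have hBn : B.Normal := Subgroup.normal_of_index_eq_two hBidx
      have hBform : ∀ b ∈ B, ∃ i : ℤ, b = a ^ i ∨ b = a ^ i * z := by
        intro b hb
        obtain ⟨i, hi⟩ := hb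
        refine ⟨i, ?_⟩
        have h1 : π ((a ^ i)⁻¹ * b) = 1 := by
          rw [map_mul, map_inv, map_zpow]
          have : π b = (π a) ^ i := hi.symm
          rw [this]; group
        rcases (hπker _).mp h1 with h2 | h2
        · left
          have h4 : a ^ i * ((a ^ i)⁻¹ * b) = b := by group
          rw [← h4, h2, mul_one]
        · right
          have h4 : a ^ i * ((a ^ i)⁻¹ * b) = b := by group
          rw [h2] at h4
          exact h4.symm
      have haB : a ∈ B := Subgroup.mem_zpowers (π a)
      have hzB : z ∈ B := by
        show π z ∈ Subgroup.zpowers (π a)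
        rw [(hπker z).mpr (Or.inr rfl)]
        exact Subgroup.one_mem _
      have hBcomm : ∀ b₁ ∈ B, ∀ b₂ ∈ B, b₁ * b₂ = b₂ * b₁ := by
        intro b₁ h₁ b₂ h₂
        obtain ⟨i, hi⟩ := hBform b₁ h₁
        obtain ⟨j, hj⟩ := hBform b₂ h₂
        have hz' : ∀ g : S, Commute g z := hcent
        have haa : Commute (a ^ i) (a ^ j) := Commute.zpow_zpow_self a i j
        rcases hi with rfl | rfl <;> rcases hj with rfl | rfl
        · exact haa
        · exact haa.mul_right (hz' _)
        · exact haa.mul_left (hz' _).symm
        · exact (haa.mul_right (hz' _)).mul_left ((hz' _).symm.mul_right (Commute.refl z))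
      have hBcard : Nat.card B * 2 = Nat.card S := by
        have := Subgroup.card_mul_index B
        rwa [hBidx] at this
      have hxB : x ∉ B := by
        intro h
        have hle : B ≤ C := fun b hb => (hmemC b).mpr (hBcomm b hb x h)
        have := Nat.card_le_card_of_injective (Subgroup.inclusion hle) (Subgroup.inclusion_injective hle)
        omega
      by_cases hza : z ∈ Subgroup.zpowers a
      · refine ⟨a, ?_⟩
        have hBle : B ≤ Subgroup.zpowers a := by
          intro b hb
          obtain ⟨i, hi | hi⟩ := hBform b hb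
          · rw [hi]; exact Subgroup.zpow_mem_zpowers a i
          · rw [hi]; exact Subgroup.mul_mem _ (Subgroup.zpow_mem_zpowers a i) hza
        have hleB : Subgroup.zpowers a ≤ B := by
          rw [Subgroup.zpowers_le]; exact haB
        rw [le_antisymm hleB hBle]
        exact hBidx
      · exfalso
        have hoQ : orderOf (π a) * 2 = Nat.card Q := by
          have := Subgroup.card_mul_index (Subgroup.zpowers (π a))
          rwa [hā, Nat.card_zpowers] at this
        have hoo : orderOf a = orderOf (π a) := by
          apply Nat.dvd_antisymm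
          · apply orderOf_dvd_of_pow_eq_one
            have h1 : π (a ^ orderOf (π a)) = 1 := by rw [map_pow, pow_orderOf_eq_one]
            rcases (hπker _).mp h1 with h2 | h2
            · exact h2
            · exact absurd (h2 ▸ Subgroup.npow_mem_zpowers a _) hza
          · exact orderOf_map_dvd π a
        -- the power
        obtain ⟨m, hm⟩ : ∃ m, orderOf a = 2 * (2 * m) := by
          have h4 : 4 ∣ orderOf a := by
            obtain ⟨j, hj⟩ := (IsPGroup.iff_orderOf.mp hS) a
            rw [hj]
            have h2 : 4 ≤ 2 ^ j := by rw [← hj]; omega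
            have h3 : 2 ≤ j := by
              by_contra h
              have : 2 ^ j ≤ 2 ^ 1 := Nat.pow_le_pow_right (by norm_num) (by omega)
              omega
            calc 4 = 2 ^ 2 := by norm_num
              _ ∣ 2 ^ j := pow_dvd_pow 2 h3
          obtain ⟨m, hm⟩ := h4
          exact ⟨m, by omega⟩
        set h := 2 * m with hh
        set w := a ^ h with hw
        have hmpos : 0 < m := by
          have := orderOf_pos a
          rcases Nat.eq_zero_or_pos m with h0 | h0
          · rw [hm, hh, h0] at this; simp at this
          · exact h0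
        have hw1 : w ≠ 1 := by
          intro h0
          have h1 := orderOf_le_of_pow_eq_one (by omega) h0
          omega
        have hww : w * w = 1 := by
          rw [hw, ← pow_add, ← two_mul, ← hm, pow_orderOf_eq_one]
        have hzh : z ^ h = 1 := by
          rw [hh, pow_mul, sq, hzz, one_pow]
        have hwpow : ∀ i : ℤ, w ^ i = 1 ∨ w ^ i = w := by
          intro i
          rcases Int.even_or_odd' i with ⟨c, rfl | rfl⟩
          · left
            rw [zpow_mul, zpow_two, hww, one_zpow]
          · right
            rw [zpow_add, zpow_mul, zpow_two, hww, one_zpow, one_mul, zpow_one]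
        have hBpow : ∀ b ∈ B, b ^ h = 1 ∨ b ^ h = w := by
          intro b hb
          obtain ⟨i, hi | hi⟩ := hBform b hb
          · rw [hi, ← zpow_natCast, ← zpow_mul, mul_comm, zpow_mul, zpow_natCast]
            exact hwpow i
          · have hc : Commute (a ^ i) z := hcent _
            rw [hi, hc.mul_pow, hzh, mul_one, ← zpow_natCast, ← zpow_mul, mul_comm, zpow_mul, zpow_natCast]
            exact hwpow i
        have hxw : x * w * x⁻¹ = w := by
          have h1 : x * a * x⁻¹ ∈ B := hBn.conj_mem a haB x
          have h2 := hBpow _ h1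
          rw [conj_pow, ← hw] at h2
          rcases h2 with h2 | h2
          · exfalso
            apply hw1
            have : w = x⁻¹ * (x * w * x⁻¹) * x := by group
            rw [this, h2]; group
          · exact h2
        have hwB : w ∈ B := B.pow_mem haB h
        have hwcent : ∀ g : S, g * w = w * g := by
          intro g
          by_cases hg : g ∈ B
          · exact hBcomm g hg w hwB
          · have h1 : g * x ∈ B := by
              have h2 := (Subgroup.mul_mem_iff_of_index_two hBidx (a := g) (b := x))
              rw [h2]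
              exact ⟨fun h => absurd h hg, fun h => absurd h hxB⟩
            have h3 := hBcomm _ h1 w hwB
            have hxw' : x * w = w * x := by
              calc x * w = (x * w * x⁻¹) * x := by group
                _ = w * x := by rw [hxw]
            calc g * w = (g * x) * (x⁻¹ * w) := by group
              _ = (g * x) * (w * x⁻¹) := by
                  congr 1
                  have : x⁻¹ * w * x = w := by
                    calc x⁻¹ * w * x = x⁻¹ * (w * x) := by group
                      _ = x⁻¹ * (x * w) := by rw [hxw']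
                      _ = w := by group
                  calc x⁻¹ * w = (x⁻¹ * w * x) * x⁻¹ := by group
                    _ = w * x⁻¹ := by rw [this]
              _ = ((g * x) * w) * x⁻¹ := by group
              _ = (w * (g * x)) * x⁻¹ := by rw [h3]
              _ = w * g := by group
        rcases hZ w hwcent with h0 | h0
        · exact hw1 h0
        · apply hza
          rw [← h0]
          exact Subgroup.npow_mem_zpowers a h

/-- A finite 2-group containing an involution whose centralizer has order 4 is dihedral, quasi-dihedral (semidihedral), or of order 4. -/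
theorem result {S : Type*} [Group S] [Finite S] (hS : IsPGroup 2 S)
    (x : S) (hx : orderOf x = 2) (hC : Nat.card ↥(Subgroup.centralizer ({x} : Set S)) = 4) :
    (∃ n : ℕ, Nonempty (S ≃* DihedralGroup n)) ∨ Cfsg.IsQuasiDihedral S ∨ Nat.card S = 4 := by
  classical
  have hf : Fact (Nat.Prime 2) := ⟨Nat.prime_two⟩
  have hdiv : 4 ∣ Nat.card S := by
    rw [← hC]; exact Subgroup.card_subgroup_dvd_card _
  by_cases h4 : Nat.card S = 4
  · exact Or.inr (Or.inr h4)
  obtain ⟨k, hk⟩ := IsPGroup.iff_card.mp hS
  have hk3 : 3 ≤ k := by
    by_contra hlt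
    have : k = 0 ∨ k = 1 ∨ k = 2 := by omega
    rcases this with rfl | rfl | rfl
    · rw [hk] at hdiv; norm_num at hdiv
    · rw [hk] at hdiv; norm_num at hdiv
    · exact h4 (by rw [hk]; norm_num)
  have h8 : 8 ≤ Nat.card S := by
    rw [hk]
    calc 8 = 2 ^ 3 := by norm_num
      _ ≤ 2 ^ k := Nat.pow_le_pow_right (by norm_num) hk3
  obtain ⟨z, hzo, hzx, hcent, hZ, hCx⟩ := basics hS hx hC h8
  obtain ⟨c, hc⟩ := exists_cyclic_index_two _ S rfl hS x hx hC h8
  have hcn : (Subgroup.zpowers c).Normal := Subgroup.normal_of_index_eq_two hc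
  obtain ⟨n, hn⟩ : ∃ n, k = n + 1 := ⟨k - 1, by omega⟩
  have hn2 : 2 ≤ n := by omega
  have hoc : orderOf c = 2 ^ n := by
    have h1 := Subgroup.card_mul_index (Subgroup.zpowers c)
    rw [hc, Nat.card_zpowers, hk, hn, pow_succ] at h1
    exact Nat.eq_of_mul_eq_mul_right (by norm_num) h1
  have hxx : x * x = 1 := by
    rw [← pow_two, ← hx]; exact pow_orderOf_eq_one x
  have hzz : z * z = 1 := by
    rw [← pow_two, ← hzo]; exact pow_orderOf_eq_one z
  have hc2 : c ^ 2 ^ n = 1 := by rw [← hoc]; exact pow_orderOf_eq_one c
  have hpn : (2 : ℕ) ^ n = 2 * 2 ^ (n - 1) := by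
    rw [← pow_succ', show n - 1 + 1 = n by omega]
  set t := c ^ 2 ^ (n - 1) with ht
  have htt : t * t = 1 := by
    rw [ht, ← pow_add, ← two_mul, ← hpn]; exact hc2
  have ht1 : t ≠ 1 := by
    intro h
    have h1 := orderOf_dvd_of_pow_eq_one h
    rw [hoc] at h1
    have h2 := (Nat.pow_dvd_pow_iff_le_right (by norm_num : 1 < 2)).mp h1
    omega
  have huniq : ∀ w ∈ Subgroup.zpowers c, w * w = 1 → w = 1 ∨ w = t := by
    rintro w ⟨i, rfl⟩ hw
    simp only at hw ⊢
    have h1 : c ^ (i + i) = 1 := by rw [zpow_add]; exact hw
    have h2 : ((2 ^ n : ℕ) : ℤ) ∣ i + i := by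
      rw [← hoc]; exact orderOf_dvd_iff_zpow_eq_one.mpr h1
    have h3 : ((2 ^ (n - 1) : ℕ) : ℤ) ∣ i := by
      rw [hpn] at h2
      have h5 : (2 : ℤ) * ((2 ^ (n - 1) : ℕ) : ℤ) ∣ 2 * i := by
        have h6 : i + i = 2 * i := by ring
        rw [h6] at h2
        push_cast at h2 ⊢
        exact h2
      exact (mul_dvd_mul_iff_left two_ne_zero).mp h5
    obtain ⟨s, hs⟩ := h3
    have h4 : c ^ i = t ^ s := by
      rw [hs, zpow_mul, zpow_natCast]
    have htp : t ^ (2 : ℤ) = 1 := by
      rw [show (2 : ℤ) = ((2 : ℕ) : ℤ) from rfl, zpow_natCast, pow_two]; exact htt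
    rcases Int.even_or_odd' s with ⟨m, rfl | rfl⟩
    · left; rw [h4, zpow_mul, htp, one_zpow]
    · right; rw [h4, zpow_add, zpow_mul, htp, one_zpow, one_mul, zpow_one]
  have hx1 : x ≠ 1 := by
    rintro rfl; simp at hx
  have hxc : x ∉ Subgroup.zpowers c := by
    intro hm
    have hxt : x = t := (huniq x hm hxx).resolve_left hx1
    have hxcent : ∀ g : S, g * x = x * g := by
      intro g
      have h1 : g * x * g⁻¹ ∈ Subgroup.zpowers c := hcn.conj_mem x hm g
      have h2 : (g * x * g⁻¹) * (g * x * g⁻¹) = 1 := by
        calc (g * x * g⁻¹) * (g * x * g⁻¹) = g * (x * x) * g⁻¹ := by group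
          _ = 1 := by rw [hxx]; group
      have h3 : g * x * g⁻¹ ≠ 1 := by
        intro h
        apply hx1
        have h6 : x = g⁻¹ * (g * x * g⁻¹) * g := by group
        rw [h6, h]; group
      have h4 := (huniq _ h1 h2).resolve_left h3
      rw [← hxt] at h4
      calc g * x = g * x * g⁻¹ * g := by group
        _ = x * g := by rw [h4]
    rcases hZ x hxcent with h | h
    · exact hx1 h
    · exact hzx h.symm
  obtain ⟨r, hrlt, hr⟩ : ∃ r : ℕ, r < 2 ^ n ∧ x * c * x⁻¹ = c ^ r := by
    have h1 : x * c * x⁻¹ ∈ Subgroup.zpowers c := hcn.conj_mem c (Subgroup.mem_zpowers c) x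
    rw [mem_zpowers_iff_mem_range_orderOf] at h1
    obtain ⟨r, hrm, hr⟩ := Finset.mem_image.mp h1
    exact ⟨r, by rw [← hoc]; exact Finset.mem_range.mp hrm, hr.symm⟩
  have hconj : ∀ m : ℕ, x * c ^ m * x⁻¹ = c ^ (r * m) := by
    intro m
    rw [← conj_pow, hr, pow_mul]
  have hrr : c ^ (r * r) = c ^ 1 := by
    have h1 := hconj r
    rw [← hr] at h1
    rw [← h1]
    calc x * (x * c * x⁻¹) * x⁻¹ = (x * x) * c * (x * x)⁻¹ := by group
      _ = c ^ 1 := by rw [hxx]; group
  have hmod : r * r ≡ 1 [MOD 2 ^ n] := by
    rw [← hoc]; exact pow_eq_pow_iff_modEq.mp hrr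
  have hrpos : 1 ≤ r * r := by
    rcases Nat.eq_zero_or_pos r with h | h
    · exfalso
      subst h
      have h1 : 0 ≡ 1 [MOD 2 ^ n] := hmod
      have h2 : 2 ^ n ∣ 1 := (Nat.modEq_zero_iff_dvd).mp h1.symm
      rw [Nat.dvd_one] at h2
      have := Nat.one_lt_two_pow (n := n) (by omega)
      omega
    · exact Nat.mul_pos h h
  have hdvd : 2 ^ n ∣ r * r - 1 := (Nat.modEq_iff_dvd' hrpos).mp hmod.symm
  have h4n : 4 ∣ 2 ^ n := by
    rw [show (4 : ℕ) = 2 ^ 2 by norm_num]; exact pow_dvd_pow 2 hn2
  have hrcases : r % 4 = 1 ∨ r % 4 = 3 := by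
    have h1 : 4 ∣ r * r - 1 := h4n.trans hdvd
    have h2 : r % 4 = 0 ∨ r % 4 = 1 ∨ r % 4 = 2 ∨ r % 4 = 3 := by omega
    rcases h2 with h | h | h | h
    · exfalso
      obtain ⟨q, rfl⟩ : 4 ∣ r := Nat.dvd_of_mod_eq_zero h
      obtain ⟨u, hu⟩ := h1
      have h5 : 4 * q * (4 * q) = 4 * (4 * (q * q)) := by ring
      rw [h5] at hu hrpos
      omega
    · exact Or.inl h
    · exfalso
      obtain ⟨q, hq⟩ : ∃ q, r = 4 * q + 2 := ⟨r / 4, by omega⟩
      subst hq
      obtain ⟨u, hu⟩ := h1
      have h5 : (4 * q + 2) * (4 * q + 2) = 4 * (4 * q * q + 4 * q + 1) := by ring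
      rw [h5] at hu hrpos
      omega
    · exact Or.inr h
  rcases hrcases with hr1 | hr3
  · -- the element of order 4
    exfalso
    obtain ⟨q, hq⟩ : ∃ q, r = 4 * q + 1 := ⟨r / 4, by omega⟩
    set w := c ^ 2 ^ (n - 2) with hw
    have hpn2 : (2 : ℕ) ^ n = 4 * 2 ^ (n - 2) := by
      rw [show (4 : ℕ) = 2 ^ 2 by norm_num, ← pow_add, show 2 + (n - 2) = n by omega]
    have hww : w * w = t := by
      rw [hw, ht, ← pow_add, ← two_mul, ← pow_succ', show n - 2 + 1 = n - 1 by omega]
    have hxw : w * x = x * w := by
      have h1 := hconj (2 ^ (n - 2))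
      have h2 : c ^ (r * 2 ^ (n - 2)) = w := by
        have h3 : r * 2 ^ (n - 2) = 2 ^ n * q + 2 ^ (n - 2) := by
          rw [hq, hpn2]; ring
        rw [h3, pow_add, pow_mul, hc2, one_pow, one_mul]
      rw [h2] at h1
      calc w * x = (x * w * x⁻¹) * x := by rw [h1]
        _ = x * w := by group
    have hsq : w * w = 1 := by
      rcases hCx w hxw with h | h | h | h
      · rw [h, one_mul]
      · rw [h, hxx]
      · rw [h, hzz]
      · rw [h]
        calc x * z * (x * z) = x * (z * x) * z := by group
          _ = x * (x * z) * z := by rw [hcent x]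
          _ = (x * x) * (z * z) := by group
          _ = 1 := by rw [hxx, hzz, one_mul]
    exact ht1 (hww.symm.trans hsq)
  · obtain ⟨q, hq⟩ : ∃ q, r = 4 * q + 3 := ⟨r / 4, by omega⟩
    have h2 : 2 ^ (n - 1) ∣ r + 1 := by
      have h3 : r * r - 1 = 2 * ((r + 1) * (2 * q + 1)) := by
        rw [hq]
        have : (4 * q + 3) * (4 * q + 3) = 2 * ((4 * q + 3 + 1) * (2 * q + 1)) + 1 := by ring
        rw [this]; simp
      rw [h3, hpn] at hdvd
      have h5 := (Nat.mul_dvd_mul_iff_left (by norm_num : 0 < 2)).mp hdvd
      have h6 : Nat.Coprime (2 ^ (n - 1)) (2 * q + 1) := by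
        apply Nat.Coprime.pow_left
        rw [Nat.coprime_two_left]
        exact ⟨q, rfl⟩
      exact h6.dvd_of_dvd_mul_right h5
    obtain ⟨s, hs⟩ := h2
    have hs2 : s = 1 ∨ s = 2 := by
      have h3 : 2 ^ (n - 1) * s ≤ 2 ^ (n - 1) * 2 := by
        rw [← hs, mul_comm _ 2, ← hpn]; omega
      have h5 : s ≤ 2 := Nat.le_of_mul_le_mul_left h3 (by positivity)
      have h6 : s ≠ 0 := by
        rintro rfl
        simp at hs
      omega
    rcases hs2 with rfl | rfl
    · -- quasi-dihedral
      right; left
      have hn3 : 3 ≤ n := by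
        by_contra hlt
        have : n = 2 := by omega
        subst this
        norm_num at hs
        omega
      refine ⟨n, hn3, by rw [hk, hn], c, x, hoc, hx, ?_⟩
      rw [hr]
      congr 1
      omega
    · -- dihedral
      left
      have hinv : x * c * x⁻¹ = c⁻¹ := by
        apply eq_inv_of_mul_eq_one_left
        rw [hr, ← pow_succ, hs, mul_comm, ← hpn]
        exact hc2
      have hc1 : c ≠ 1 := by
        rintro rfl
        rw [orderOf_one] at hoc
        have := Nat.one_lt_two_pow (n := n) (by omega)
        omega
      have hy : (x * c) * (x * c) = 1 := by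
        calc (x * c) * (x * c) = (x * c * x⁻¹) * (x * x) * c := by group
          _ = 1 := by rw [hinv, hxx]; group
      have hy1 : x * c ≠ 1 := by
        intro h
        apply hxc
        have h3 : x = c⁻¹ := eq_inv_of_mul_eq_one_left h
        rw [h3]
        exact Subgroup.inv_mem _ (Subgroup.mem_zpowers c)
      have hxy : x ≠ x * c := by
        intro h
        exact hc1 (by simpa using h)
      obtain ⟨e⟩ := Cfsg.Agent.Lib.Invol.isDihedral_closure hxx hy hx1 hy1 hxy
      have htop : Subgroup.closure ({x, x * c} : Set S) = ⊤ := by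
        rw [eq_top_iff]
        intro g _
        set H := Subgroup.closure ({x, x * c} : Set S) with hH
        have hxH : x ∈ H := Subgroup.subset_closure (by simp)
        have hcH : c ∈ H := by
          have h3 : x * c ∈ H := Subgroup.subset_closure (by simp)
          have h5 : c = x⁻¹ * (x * c) := by group
          rw [h5]
          exact H.mul_mem (H.inv_mem hxH) h3
        have hle : Subgroup.zpowers c ≤ H := by
          rw [Subgroup.zpowers_le]; exact hcH
        by_cases hg : g ∈ Subgroup.zpowers c
        · exact hle hg
        · have h3 : g * x ∈ Subgroup.zpowers c :=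
            (Subgroup.mul_mem_iff_of_index_two hc).mpr (by tauto)
          have h5 : g = (g * x) * x⁻¹ := by group
          rw [h5]
          exact H.mul_mem (hle h3) (H.inv_mem hxH)
      have hord : x * (x * c) = c := by
        rw [← mul_assoc, hxx, one_mul]
      rw [htop, hord] at e
      exact ⟨_, ⟨Subgroup.topEquiv.symm.trans e⟩⟩

end Cfsg.Agent.S3224
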