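import Cfsg.Statements.S3225
import Mathlib
import Cfsg.Agent.Lib.InvolChar.Transfer

set_option autoImplicit false
open Cfsg


namespace Cfsg.Agent.S3225


/-- Let G be a finite group of even order with no subgroup of index 2, S a Sylow 2-subgroup of G and M a subgroup of index 2 in S such that, for some n ≥ 1, every element of S outside M has order greater than 2^(n−1). Then every element of S of order 2ⁿ is conjugate in G to an element of M. -/
theorem result {G : Type*} [Group G] [Finite G] (hev : Even (Nat.card G))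
    (hG : ∀ H : Subgroup G, H.index ≠ 2) (S : Sylow 2 G) (M : Subgroup G) (hMS : M ≤ (S : Subgroup G)) (hM : M.relIndex (S : Subgroup G) = 2)
    (n : ℕ) (hn : 1 ≤ n) (hord : ∀ y ∈ (S : Subgroup G), y ∉ M → 2 ^ (n - 1) < orderOf y)
    (x : G) (hx : x ∈ (S : Subgroup G)) (hxn : orderOf x = 2 ^ n) :
    ∃ g : G, g * x * g⁻¹ ∈ M := by
  classical
  have : Fact (Nat.Prime 2) := ⟨Nat.prime_two⟩
  have hodd : ¬ 2 ∣ (S : Subgroup G).index := S.not_dvd_index
  obtain ⟨τ, hτ⟩ := Cfsg.Agent.Lib.InvolChar.exists_parity_transfer (S := (S : Subgroup G)) hodd hM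
  by_contra hcon
  have hcon' : ∀ g : G, g * x * g⁻¹ ∉ M := fun g hg => hcon ⟨g, hg⟩
  have h1 := hτ x hx n hn hxn hcon' hord
  have h2 : τ.ker.index ∣ 2 := by
    rw [Subgroup.index_ker]
    have := Subgroup.card_subgroup_dvd_card τ.range
    simpa using this
  have h3 : τ.ker.index = 1 ∨ τ.ker.index = 2 := (Nat.dvd_prime Nat.prime_two).mp h2
  rcases h3 with h3 | h3
  · rw [Subgroup.index_eq_one] at h3
    have : x ∈ τ.ker := by rw [h3]; exact Subgroup.mem_top _
    exact h1 this
  · exact hG _ h3

end Cfsg.Agent.S3225
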