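import Cfsg.Statements.S3247
import Mathlib
import Cfsg.Agent.Lib.InvolChar.PLocal

set_option autoImplicit false
open Cfsg

open Subgroup

namespace Cfsg.Agent.S3247


/-- Let G be a finite group and p a prime; here a p-local subgroup means the normalizer of a nontrivial p-subgroup, other than G itself. If every p-local subgroup of G that is maximal among p-local subgroups is p-constrained, or if the centralizer of every element of order p of G is p-constrained, then every p-local subgroup of G is p-constrained. -/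
theorem result {G : Type*} [Group G] [Finite G] (p : ℕ) [hp : Fact p.Prime]
    (h : (∀ M : Subgroup G, (∃ T : Subgroup G, IsPGroup p ↥T ∧ T ≠ ⊥ ∧ M = Subgroup.normalizer (T : Set G)) → M ≠ ⊤ →
        (∀ M' : Subgroup G, (∃ T' : Subgroup G, IsPGroup p ↥T' ∧ T' ≠ ⊥ ∧ M' = Subgroup.normalizer (T' : Set G)) → M' ≠ ⊤ → M ≤ M' → M = M') →
        Cfsg.IsPConstrained p ↥M) ∨
      (∀ x : G, orderOf x = p → Cfsg.IsPConstrained p ↥(Subgroup.centralizer ({x} : Set G))))
    (T : Subgroup G) (hT : IsPGroup p ↥T) (hT1 : T ≠ ⊥) (hTG : Subgroup.normalizer (T : Set G) ≠ ⊤) :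
    Cfsg.IsPConstrained p ↥(Subgroup.normalizer (T : Set G)) := by
  classical
  rw [Cfsg.Agent.Lib.FStar.isPConstrained_iff]
  rcases h with h | h
  · -- maximal `p`-locals
    set 𝓛 : Set (Subgroup G) := {M | (∃ T' : Subgroup G, IsPGroup p ↥T' ∧ T' ≠ ⊥ ∧ M = normalizer (T' : Set G)) ∧ M ≠ ⊤} with h𝓛
    have hfin : 𝓛.Finite := Set.toFinite _
    have hmem : normalizer (T : Set G) ∈ 𝓛 := ⟨⟨T, hT, hT1, rfl⟩, hTG⟩
    obtain ⟨M, hNM, hMmax⟩ := hfin.exists_le_maximal hmem
    have hMl := hMmax.prop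
    have hcon : Cfsg.IsPConstrained p ↥M := by
      refine h M hMl.1 hMl.2 ?_
      intro M' hM' hM'ne hle
      exact le_antisymm hle (hMmax.le_of_ge ⟨hM', hM'ne⟩ hle)
    rw [Cfsg.Agent.Lib.FStar.isPConstrained_iff] at hcon
    exact Cfsg.Agent.Lib.InvolChar.pLayer_normalizer_of_le hcon hT hNM
  · refine Cfsg.Agent.Lib.InvolChar.pLayer_normalizer_of_centralizers ?_ hT hT1
    intro x hx
    rw [← Cfsg.Agent.Lib.FStar.isPConstrained_iff]
    exact h x hx

end Cfsg.Agent.S3247
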