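import Cfsg.Statements.S3265
import Mathlib
import Cfsg.Agent.Lib.OddGraph.Nb

set_option autoImplicit false
open Cfsg

namespace Cfsg.Agent.S3265

open Cfsg.Agent.Lib.OddGraph Equiv in
/-- a non-adjacent pair -/
lemma exists_nonadj (n : ℕ) (hn : 5 ≤ n) (t : Perm (Fin n)) (ht : orderOf t = 2) :
    ∃ y : Perm (Fin n), IsConj t y ∧ t ≠ y ∧ ¬ Odd (orderOf (t * y)) ∧ ¬ Odd (orderOf (y * t)) := by
  have ht2 : ∀ a, t (t a) = a := by
    intro a
    have : t ^ 2 = 1 := by rw [← ht]; exact pow_orderOf_eq_one t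
    have h2 := congrArg (fun p : Perm (Fin n) => p a) this
    simpa [pow_two] using h2
  have ht1 : t ≠ 1 := by
    rintro rfl
    simp at ht
  obtain ⟨a, ha⟩ : ∃ a, t a ≠ a := by
    by_contra hc
    push Not at hc
    exact ht1 (Equiv.ext hc)
  set b := t a with hb
  have htb : t b = a := ht2 a
  by_cases hex : ∃ c, c ≠ a ∧ c ≠ b ∧ t c ≠ c
  · obtain ⟨c, hca, hcb, hc⟩ := hex
    set d := t c with hd
    have htd : t d = c := ht2 c
    have hda : d ≠ a := by
      intro h
      apply hcb
      rw [← htd, h]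
    have hdb : d ≠ b := by
      intro h
      apply hca
      rw [← htd, h, htb]
    let σ : Perm (Fin n) := swap b c
    let y : Perm (Fin n) := σ * t * σ⁻¹
    have hσ : σ⁻¹ = σ := swap_inv b c
    have hy : ∀ p, y p = σ (t (σ p)) := by
      intro p
      simp only [y, hσ, Perm.mul_apply]
    have s1 : σ a = a := swap_apply_of_ne_of_ne ha.symm hca.symm
    have s2 : σ b = c := swap_apply_left b c
    have s3 : σ c = b := swap_apply_right b c
    have s4 : σ d = d := swap_apply_of_ne_of_ne hdb hc
    have y1 : y a = c := by rw [hy, s1, ← hb, s2]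
    have y2 : y c = a := by rw [hy, s3, htb, s1]
    have y3 : y b = d := by rw [hy, s2, ← hd, s4]
    have y4 : y d = b := by rw [hy, s4, htd, s3]
    refine ⟨y, isConj_iff.2 ⟨σ, rfl⟩, ?_, ?_, ?_⟩
    · intro h
      have := congrArg (fun p : Perm (Fin n) => p a) h
      simp only [y1, ← hb] at this
      exact hcb this.symm
    · refine not_odd_of_swap (a := a) (d := d) ?_ ?_ hda
      · rw [Perm.mul_apply, y1]
      · rw [Perm.mul_apply, y4, htb]
    · refine not_odd_of_swap (a := a) (d := d) ?_ ?_ hda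
      · rw [Perm.mul_apply, ← hb, y3]
      · rw [Perm.mul_apply, htd, y2]
  · push Not at hex
    have hcard : 5 ≤ Fintype.card (Fin n) := by simpa using hn
    obtain ⟨c, hc⟩ : ∃ c, c ∉ ({a, b} : Finset (Fin n)) := by
      by_contra hc
      push Not at hc
      have h1 : (Finset.univ : Finset (Fin n)) ⊆ {a, b} := fun t _ => hc t
      have h2 := Finset.card_le_card h1
      have h3 : ({a, b} : Finset (Fin n)).card ≤ 2 := Finset.card_le_two
      rw [Finset.card_univ] at h2
      omega
    obtain ⟨d, hd⟩ : ∃ d, d ∉ ({a, b, c} : Finset (Fin n)) := by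
      by_contra hc
      push Not at hc
      have h1 : (Finset.univ : Finset (Fin n)) ⊆ {a, b, c} := fun t _ => hc t
      have h2 := Finset.card_le_card h1
      have h3 : ({a, b, c} : Finset (Fin n)).card ≤ 3 := Finset.card_le_three
      rw [Finset.card_univ] at h2
      omega
    simp only [Finset.mem_insert, Finset.mem_singleton, not_or] at hc hd
    have htc : t c = c := hex c hc.1 hc.2
    have htd : t d = d := hex d hd.1 hd.2.1
    let σ : Perm (Fin n) := swap a c * swap b d
    let y : Perm (Fin n) := σ * t * σ⁻¹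
    have hab : a ≠ b := ha.symm
    have s1 : σ a = c := by
      simp only [σ, Perm.mul_apply]
      rw [swap_apply_of_ne_of_ne hab (Ne.symm hd.1), swap_apply_left]
    have s2 : σ b = d := by
      simp only [σ, Perm.mul_apply]
      rw [swap_apply_left, swap_apply_of_ne_of_ne hd.1 hd.2.2]
    have s3 : σ c = a := by
      simp only [σ, Perm.mul_apply]
      rw [swap_apply_of_ne_of_ne hc.2 (Ne.symm hd.2.2), swap_apply_right]
    have s4 : σ d = b := by
      simp only [σ, Perm.mul_apply]
      rw [swap_apply_right, swap_apply_of_ne_of_ne hab.symm (Ne.symm hc.2)]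
    have si : ∀ p, σ⁻¹ p = σ p := by
      intro p
      rw [Perm.inv_eq_iff_eq]
      by_cases h1 : p = a
      · rw [h1, s1, s3]
      by_cases h2 : p = b
      · rw [h2, s2, s4]
      by_cases h3 : p = c
      · rw [h3, s3, s1]
      by_cases h4 : p = d
      · rw [h4, s4, s2]
      have h5 : σ p = p := by
        simp only [σ, Perm.mul_apply]
        rw [swap_apply_of_ne_of_ne h2 h4, swap_apply_of_ne_of_ne h1 h3]
      rw [h5, h5]
    have hy : ∀ p, y p = σ (t (σ p)) := by
      intro p
      simp only [y, Perm.mul_apply, si]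
    have y1 : y a = a := by rw [hy, s1, htc, s3]
    have y2 : y b = b := by rw [hy, s2, htd, s4]
    have y3 : y c = d := by rw [hy, s3, ← hb, s2]
    refine ⟨y, isConj_iff.2 ⟨σ, rfl⟩, ?_, ?_, ?_⟩
    · intro h
      have := congrArg (fun p : Perm (Fin n) => p c) h
      simp only [y3, htc] at this
      exact hd.2.2 this.symm
    · refine not_odd_of_swap (a := a) (d := b) ?_ ?_ hab.symm
      · rw [Perm.mul_apply, y1]
      · rw [Perm.mul_apply, y2, htb]
    · refine not_odd_of_swap (a := a) (d := b) ?_ ?_ hab.symm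
      · rw [Perm.mul_apply, ← hb, y2]
      · rw [Perm.mul_apply, htb, y1]

open Cfsg.Agent.Lib.OddGraph Equiv in
/-- common neighbours inside the class -/
lemma common_in_class (n : ℕ) (hn : 5 ≤ n) (t : Perm (Fin n)) (ht : orderOf t = 2) (u v : Perm (Fin n))
    (hu : IsConj t u) (hv : IsConj t v) :
    ∃ w : Perm (Fin n), IsConj t w ∧ Odd (orderOf (u * w)) ∧ Odd (orderOf (v * w)) := by
  have ht2 : t ^ 2 = 1 := by rw [← ht]; exact pow_orderOf_eq_one t
  have hinv : ∀ w : Perm (Fin n), IsConj t w → ∀ a, w (w a) = a := by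
    intro w hw a
    obtain ⟨c, rfl⟩ := isConj_iff.1 hw
    have : (c * t * c⁻¹) ^ 2 = 1 := by
      rw [conj_pow, ht2]
      simp
    have h2 := congrArg (fun p : Perm (Fin n) => p a) this
    simpa [pow_two] using h2
  obtain ⟨z, hz1, hz2, hz3, hz4⟩ := common_nb (hinv u hu) (hinv v hv)
    (fix_card_conj (hu.symm.trans hv)) (by simpa using hn)
  let w : Perm (Fin n) := Function.Involutive.toPerm z hz1
  have hw : ∀ a, w a = z a := fun a => rfl
  refine ⟨w, ?_, ?_, ?_⟩
  · refine hu.trans (isConj_of_fix (hinv u hu) (fun a => hz1 a) ?_)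
    exact hz2.symm
  · apply odd_order_of_oddOn
    exact hz3
  · apply odd_order_of_oddOn
    exact hz4

/-- Let n ≥ 5 and let X be a conjugacy class of involutions of the symmetric group of degree n. The graph on X joining two distinct involutions whose product has odd order is connected and has diameter exactly 2. -/
theorem result (n : ℕ) (hn : 5 ≤ n) (t : Equiv.Perm (Fin n)) (ht : orderOf t = 2) :
    (SimpleGraph.fromRel fun x y : {x : Equiv.Perm (Fin n) // IsConj t x} =>
        Odd (orderOf (x.1 * y.1))).Connected ∧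
      (SimpleGraph.fromRel fun x y : {x : Equiv.Perm (Fin n) // IsConj t x} =>
        Odd (orderOf (x.1 * y.1))).diam = 2 := by
  classical
  let r : {x : Equiv.Perm (Fin n) // IsConj t x} → {x : Equiv.Perm (Fin n) // IsConj t x} → Prop :=
    fun x y => Odd (orderOf (x.1 * y.1))
  change (SimpleGraph.fromRel r).Connected ∧ (SimpleGraph.fromRel r).diam = 2
  set G := SimpleGraph.fromRel r with hG
  have hadj : ∀ a b, a ≠ b → r a b → G.Adj a b := by
    intro a b hab h
    rw [hG, SimpleGraph.fromRel_adj]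
    exact ⟨hab, Or.inl h⟩
  have hwalk : ∀ u v, ∃ p : G.Walk u v, p.length ≤ 2 := by
    intro u v
    obtain ⟨w, hw, h1, h2⟩ := common_in_class n hn t ht u.1 v.1 u.2 v.2
    set w' : {x : Equiv.Perm (Fin n) // IsConj t x} := ⟨w, hw⟩ with hw'
    by_cases huw : u = w'
    · by_cases hvw : v = w'
      · rw [huw, hvw]
        exact ⟨SimpleGraph.Walk.nil, by simp⟩
      · have h3 : G.Adj v w' := hadj _ _ hvw h2
        rw [huw]
        exact ⟨SimpleGraph.Walk.cons h3.symm SimpleGraph.Walk.nil, by simp⟩
    · have h3 : G.Adj u w' := hadj _ _ huw h1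
      by_cases hvw : v = w'
      · rw [hvw]
        exact ⟨SimpleGraph.Walk.cons h3 SimpleGraph.Walk.nil, by simp⟩
      · have h4 : G.Adj v w' := hadj _ _ hvw h2
        exact ⟨SimpleGraph.Walk.cons h3 (SimpleGraph.Walk.cons h4.symm SimpleGraph.Walk.nil), by simp⟩
  have hreach : ∀ u v, G.Reachable u v := fun u v => by
    obtain ⟨p, _⟩ := hwalk u v
    exact ⟨p⟩
  have hne : Nonempty {x : Equiv.Perm (Fin n) // IsConj t x} := ⟨⟨t, IsConj.refl t⟩⟩
  have hconn : G.Connected := { preconnected := hreach, nonempty := hne }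
  have hed : G.ediam ≤ 2 := by
    apply SimpleGraph.ediam_le_of_edist_le
    intro u v
    obtain ⟨p, hp⟩ := hwalk u v
    refine p.edist_le.trans ?_
    exact_mod_cast hp
  have hetop : G.ediam ≠ ⊤ := by
    intro h
    rw [h] at hed
    simp at hed
  refine ⟨hconn, le_antisymm ?_ ?_⟩
  · exact ENat.toNat_le_of_le_natCast hed
  · obtain ⟨y, hy1, hy2, hy3, hy4⟩ := exists_nonadj n hn t ht
    set u : {x : Equiv.Perm (Fin n) // IsConj t x} := ⟨t, IsConj.refl t⟩ with hu
    set v : {x : Equiv.Perm (Fin n) // IsConj t x} := ⟨y, hy1⟩ with hv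
    have huv : u ≠ v := fun h => hy2 (congrArg Subtype.val h)
    have hnadj : ¬ G.Adj u v := by
      rw [hG, SimpleGraph.fromRel_adj]
      rintro ⟨_, h | h⟩
      · exact hy3 h
      · exact hy4 h
    have h1 : G.dist u v ≠ 0 := fun h => huv ((hreach u v).dist_eq_zero_iff.1 h)
    have h2 : G.dist u v ≠ 1 := fun h => hnadj (SimpleGraph.dist_eq_one_iff_adj.1 h)
    have h3 := SimpleGraph.dist_le_diam hetop (u := u) (v := v)
    omega

end Cfsg.Agent.S3265
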