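import Cfsg.Statements.S3266
import Mathlib
import Cfsg.Agent.Lib.OddGraph.PSLPart

set_option autoImplicit false
open Cfsg

namespace Cfsg.Agent.S3266

open Cfsg.Agent.Lib.OddGraph in
lemma core_all {F : Type*} [Field F] [Fintype F] (hF : 4 ≤ Fintype.card F)
    (u v : Matrix.ProjectiveSpecialLinearGroup (Fin 2) F) (hu : u * u = 1) (hu1 : u ≠ 1)
    (hv : v * v = 1) (hv1 : v ≠ 1) (huv : ¬ Odd (orderOf (u * v))) :
    ∃ w : Matrix.ProjectiveSpecialLinearGroup (Fin 2) F, w * w = 1 ∧ Odd (orderOf (u * w)) ∧ Odd (orderOf (v * w)) := by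
  by_cases h2 : (2 : F) = 0
  · exact core_even h2 u v hu hu1 hv hv1
  · exact core_odd h2 hF u v hu hu1 hv hv1 huv

/-- Let F be a finite field with at least 4 elements and let X be a conjugacy class of involutions of PSL(2, F). The graph on X joining two distinct involutions whose product has odd order is connected and has diameter exactly 2. -/
theorem result {F : Type*} [Field F] [Fintype F] (hF : 4 ≤ Fintype.card F)
    (t : Matrix.ProjectiveSpecialLinearGroup (Fin 2) F) (ht : orderOf t = 2) :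
    (SimpleGraph.fromRel fun x y : {x : Matrix.ProjectiveSpecialLinearGroup (Fin 2) F // IsConj t x} =>
        Odd (orderOf (x.1 * y.1))).Connected ∧
      (SimpleGraph.fromRel fun x y : {x : Matrix.ProjectiveSpecialLinearGroup (Fin 2) F // IsConj t x} =>
        Odd (orderOf (x.1 * y.1))).diam = 2 := by
  have ht1 : t * t = 1 := by
    have h0 := pow_orderOf_eq_one t
    rw [ht] at h0
    rwa [pow_two] at h0
  have ht2 : t ≠ 1 := by
    rintro rfl
    simp at ht
  have hcl : ∀ u, IsConj t u → u * u = 1 ∧ u ≠ 1 := by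
    intro u hu
    obtain ⟨c, rfl⟩ := isConj_iff.1 hu
    constructor
    · have : c * t * c⁻¹ * (c * t * c⁻¹) = c * (t * t) * c⁻¹ := by group
      rw [this, ht1]
      simp
    · intro h
      apply ht2
      have h3 : t = c⁻¹ * (c * t * c⁻¹) * c := by group
      rw [h3, h]
      simp
  have hoddone : ∀ v : Matrix.ProjectiveSpecialLinearGroup (Fin 2) F, v * v = 1 → Odd (orderOf (v * v)) := by
    intro v hv
    rw [hv, orderOf_one]
    exact odd_one
  refine Cfsg.Agent.Lib.OddGraph.graph_final t ?_ ?_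
  · intro u v hu hv
    by_cases huv : Odd (orderOf (u * v))
    · exact ⟨v, hv, huv, hoddone v (hcl v hv).1⟩
    · obtain ⟨w, hw, h1, h2⟩ := core_all hF u v (hcl u hu).1 (hcl u hu).2 (hcl v hv).1 (hcl v hv).2 huv
      exact ⟨w, hu.trans (Cfsg.Agent.Lib.OddGraph.dihedral_conj (hcl u hu).1 hw h1), h1, h2⟩
  · obtain ⟨y, hy1, hy2, hy3, hy4, hy5⟩ : ∃ y : Matrix.ProjectiveSpecialLinearGroup (Fin 2) F, y * y = 1 ∧ y ≠ 1 ∧ t ≠ y ∧
        ¬ Odd (orderOf (t * y)) ∧ ¬ Odd (orderOf (y * t)) := by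
      by_cases h2 : (2 : F) = 0
      · exact Cfsg.Agent.Lib.OddGraph.second_even h2 hF t ht1 ht2
      · exact Cfsg.Agent.Lib.OddGraph.second_odd h2 t ht1 ht2
    obtain ⟨w, hw, h1, h2⟩ := core_all hF t y ht1 ht2 hy1 hy2 hy4
    have h3 : IsConj t w := Cfsg.Agent.Lib.OddGraph.dihedral_conj ht1 hw h1
    have h4 : IsConj y w := Cfsg.Agent.Lib.OddGraph.dihedral_conj hy1 hw h2
    exact ⟨y, h3.trans h4.symm, hy3, hy4, hy5⟩

end Cfsg.Agent.S3266
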