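import Cfsg.Statements.S3269
import Mathlib
import Cfsg.Agent.Lib.InvolChar.ZStarApps

set_option autoImplicit false
open Cfsg

open Cfsg Cfsg.Agent.Lib.InvolChar

namespace Cfsg.Agent.S3269

section quat
variable {n : ℕ}

private lemma two_mul_eq_zero (i : ZMod (2 * 2 ^ n)) (h : i + i = 0) :
    i = 0 ∨ i = ((2 ^ n : ℕ) : ZMod (2 * 2 ^ n)) := by
  haveI : NeZero (2 * 2 ^ n) := ⟨by positivity⟩
  have hv : i = ((i.val : ℕ) : ZMod (2 * 2 ^ n)) := (ZMod.natCast_zmod_val i).symm
  have hlt := ZMod.val_lt i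
  have h2 : ((i.val + i.val : ℕ) : ZMod (2 * 2 ^ n)) = 0 := by
    rw [Nat.cast_add, ← hv, h]
  rw [ZMod.natCast_eq_zero_iff] at h2
  obtain ⟨k, hk⟩ := h2
  have hk' : i.val = 2 ^ n * k := by
    have : 2 * i.val = 2 * (2 ^ n * k) := by rw [two_mul, hk]; ring
    omega
  have hk2 : k < 2 := by
    by_contra hc
    have : 2 * 2 ^ n ≤ 2 ^ n * k := by
      have : 2 ^ n * 2 ≤ 2 ^ n * k := Nat.mul_le_mul_left _ (by omega)
      linarith
    omega
  interval_cases k
  · left; rw [hv, hk']; simp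
  · right; rw [hv, hk']; simp

private lemma pow_ne_zero_zmod : ((2 ^ n : ℕ) : ZMod (2 * 2 ^ n)) ≠ 0 := by
  rw [Ne, ZMod.natCast_eq_zero_iff]
  intro h
  have := Nat.le_of_dvd (by positivity) h
  have h2 : 0 < 2 ^ n := by positivity
  omega

private lemma quat_sq_one (y : QuaternionGroup (2 ^ n)) (h : y * y = 1) :
    y = 1 ∨ y = QuaternionGroup.a ((2 ^ n : ℕ) : ZMod (2 * 2 ^ n)) := by
  rcases y with i | i
  · rw [QuaternionGroup.a_mul_a, QuaternionGroup.one_def, QuaternionGroup.a.injEq] at h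
    rcases two_mul_eq_zero i h with h1 | h1
    · left; rw [h1, QuaternionGroup.one_def]
    · right; rw [h1]
  · rw [QuaternionGroup.xa_mul_xa, QuaternionGroup.one_def, QuaternionGroup.a.injEq] at h
    exfalso
    apply pow_ne_zero_zmod (n := n)
    simpa using h

private lemma quat_w_sq : (QuaternionGroup.a ((2 ^ n : ℕ) : ZMod (2 * 2 ^ n)) : QuaternionGroup (2 ^ n)) *
    QuaternionGroup.a ((2 ^ n : ℕ) : ZMod (2 * 2 ^ n)) = 1 := by
  rw [QuaternionGroup.a_mul_a, QuaternionGroup.one_def, QuaternionGroup.a.injEq, ← Nat.cast_add]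
  rw [ZMod.natCast_eq_zero_iff]
  exact ⟨1, by ring⟩

private lemma quat_w_ne : (QuaternionGroup.a ((2 ^ n : ℕ) : ZMod (2 * 2 ^ n)) : QuaternionGroup (2 ^ n)) ≠ 1 := by
  rw [Ne, QuaternionGroup.one_def, QuaternionGroup.a.injEq]
  exact pow_ne_zero_zmod

private lemma quat_w_central (y : QuaternionGroup (2 ^ n)) :
    (QuaternionGroup.a ((2 ^ n : ℕ) : ZMod (2 * 2 ^ n)) : QuaternionGroup (2 ^ n)) * y =
      y * QuaternionGroup.a ((2 ^ n : ℕ) : ZMod (2 * 2 ^ n)) := by
  have h2 : ((2 ^ n : ℕ) : ZMod (2 * 2 ^ n)) + ((2 ^ n : ℕ) : ZMod (2 * 2 ^ n)) = 0 := by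
    rw [← Nat.cast_add, ZMod.natCast_eq_zero_iff]
    exact ⟨1, by ring⟩
  rcases y with i | i
  · simp [QuaternionGroup.a_mul_a, add_comm]
  · rw [QuaternionGroup.a_mul_xa, QuaternionGroup.xa_mul_a, QuaternionGroup.xa.injEq]
    linear_combination -h2

private lemma quat_noncomm (hn : 1 ≤ n) :
    (QuaternionGroup.a 1 : QuaternionGroup (2 ^ n)) * QuaternionGroup.xa 0 ≠
      QuaternionGroup.xa 0 * QuaternionGroup.a 1 := by
  rw [QuaternionGroup.a_mul_xa, QuaternionGroup.xa_mul_a, Ne, QuaternionGroup.xa.injEq]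
  intro h
  have h2 : (1 : ZMod (2 * 2 ^ n)) + 1 = 0 := by linear_combination -h
  have h3 : ((2 : ℕ) : ZMod (2 * 2 ^ n)) = 0 := by push_cast; linear_combination h2
  rw [ZMod.natCast_eq_zero_iff] at h3
  have := Nat.le_of_dvd (by norm_num) h3
  have h4 : 2 ≤ 2 ^ n := by
    calc 2 = 2 ^ 1 := rfl
      _ ≤ 2 ^ n := Nat.pow_le_pow_right (by norm_num) hn
  omega

private lemma quat_three_roots (hn : 1 ≤ n) :
    ∃ y₁ y₂ y₃ : QuaternionGroup (2 ^ n),
      y₁ * y₁ = QuaternionGroup.a ((2 ^ n : ℕ) : ZMod (2 * 2 ^ n)) ∧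
      y₂ * y₂ = QuaternionGroup.a ((2 ^ n : ℕ) : ZMod (2 * 2 ^ n)) ∧
      y₃ * y₃ = QuaternionGroup.a ((2 ^ n : ℕ) : ZMod (2 * 2 ^ n)) ∧ y₁ ≠ y₂ ∧ y₁ ≠ y₃ ∧ y₂ ≠ y₃ := by
  refine ⟨QuaternionGroup.xa 0, QuaternionGroup.xa 1, QuaternionGroup.a ((2 ^ (n - 1) : ℕ) : ZMod (2 * 2 ^ n)),
    ?_, ?_, ?_, ?_, by simp, by simp⟩
  · rw [QuaternionGroup.xa_mul_xa]; simp
  · rw [QuaternionGroup.xa_mul_xa]; simp
  · rw [QuaternionGroup.a_mul_a, QuaternionGroup.a.injEq, ← Nat.cast_add]
    congr 1
    obtain ⟨k, rfl⟩ : ∃ k, n = k + 1 := ⟨n - 1, by omega⟩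
    simp [pow_succ]; ring
  · rw [Ne, QuaternionGroup.xa.injEq]
    intro h
    have : ((1 : ℕ) : ZMod (2 * 2 ^ n)) = 0 := by push_cast; exact h.symm
    rw [ZMod.natCast_eq_zero_iff] at this
    have h1 := Nat.le_of_dvd (by norm_num) this
    have h4 : 0 < 2 ^ n := by positivity
    omega

end quat

section main

variable {G : Type*} [Group G] [Finite G] {Q R T : Subgroup G}

private lemma exists_decomp (h : Cfsg.IsInternalDirectProduct Q R T) {y : G} (hy : y ∈ T) :
    ∃ a ∈ Q, ∃ b ∈ R, y = a * b := by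
  obtain ⟨h1, h2, h3, h4, h5⟩ := h
  let K : Subgroup G :=
    { carrier := {y | ∃ a ∈ Q, ∃ b ∈ R, y = a * b}
      one_mem' := ⟨1, Q.one_mem, 1, R.one_mem, by simp⟩
      mul_mem' := by
        rintro _ _ ⟨a, ha, b, hb, rfl⟩ ⟨a', ha', b', hb', rfl⟩
        refine ⟨a * a', Q.mul_mem ha ha', b * b', R.mul_mem hb hb', ?_⟩
        have : b * a' = a' * b := (h3 a' ha' b hb).symm
        calc a * b * (a' * b') = a * (b * a') * b' := by group
          _ = a * (a' * b) * b' := by rw [this]
          _ = _ := by group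
      inv_mem' := by
        rintro _ ⟨a, ha, b, hb, rfl⟩
        refine ⟨a⁻¹, Q.inv_mem ha, b⁻¹, R.inv_mem hb, ?_⟩
        have : a * b = b * a := h3 a ha b hb
        rw [this]; group }
  have hle : Q ⊔ R ≤ K := sup_le (fun a ha => ⟨a, ha, 1, R.one_mem, by simp⟩)
    (fun b hb => ⟨1, Q.one_mem, b, hb, by simp⟩)
  rw [h5] at hle
  exact hle hy

private lemma decomp_unique (h : Cfsg.IsInternalDirectProduct Q R T) {a a' b b' : G} (ha : a ∈ Q) (ha' : a' ∈ Q)
    (hb : b ∈ R) (hb' : b' ∈ R) (e : a * b = a' * b') : a = a' ∧ b = b' := by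
  obtain ⟨h1, h2, h3, h4, h5⟩ := h
  have h6 : a'⁻¹ * a = b' * b⁻¹ := by
    calc a'⁻¹ * a = a'⁻¹ * (a * b) * b⁻¹ := by group
      _ = a'⁻¹ * (a' * b') * b⁻¹ := by rw [e]
      _ = _ := by group
  have h7 : a'⁻¹ * a ∈ Q ⊓ R :=
    Subgroup.mem_inf.2 ⟨Q.mul_mem (Q.inv_mem ha') ha, by rw [h6]; exact R.mul_mem hb' (R.inv_mem hb)⟩
  rw [h4, Subgroup.mem_bot] at h7
  have h8 : a = a' := by
    have := inv_mul_eq_one.1 h7
    exact this.symm
  refine ⟨h8, ?_⟩
  subst h8
  exact mul_left_cancel e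

/-- Square-root count. -/
private noncomputable def rootCount (K : Subgroup G) (t : G) : ℕ := Nat.card {y : G // y ∈ K ∧ y * y = t}

private lemma rootCount_mul (h : Cfsg.IsInternalDirectProduct Q R T) {q r : G} (hq : q ∈ Q) (hr : r ∈ R) :
    rootCount T (q * r) = rootCount Q q * rootCount R r := by
  classical
  unfold rootCount
  rw [← Nat.card_prod]
  symm
  have hcomm := h.2.2.1
  let f : {y : G // y ∈ Q ∧ y * y = q} × {y : G // y ∈ R ∧ y * y = r} → {y : G // y ∈ T ∧ y * y = q * r} :=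
    fun p => ⟨p.1.1 * p.2.1, T.mul_mem (h.1 p.1.2.1) (h.2.1 p.2.2.1), by
      have e : p.1.1 * p.2.1 * (p.1.1 * p.2.1) = (p.1.1 * p.1.1) * (p.2.1 * p.2.1) := by
        have := hcomm _ p.1.2.1 _ p.2.2.1
        calc p.1.1 * p.2.1 * (p.1.1 * p.2.1) = p.1.1 * (p.2.1 * p.1.1) * p.2.1 := by group
          _ = p.1.1 * (p.1.1 * p.2.1) * p.2.1 := by rw [this]
          _ = _ := by group
      rw [e, p.1.2.2, p.2.2.2]⟩
  refine Nat.card_congr (Equiv.ofBijective f ⟨?_, ?_⟩)
  · rintro ⟨⟨a, ha, ha2⟩, ⟨b, hb, hb2⟩⟩ ⟨⟨a', ha', ha2'⟩, ⟨b', hb', hb2'⟩⟩ e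
    have e' : a * b = a' * b' := congrArg Subtype.val e
    obtain ⟨h1, h2⟩ := decomp_unique h ha ha' hb hb' e'
    subst h1; subst h2
    rfl
  · rintro ⟨y, hy, hy2⟩
    obtain ⟨a, ha, b, hb, rfl⟩ := exists_decomp h hy
    have e : a * b * (a * b) = (a * a) * (b * b) := by
      have := hcomm _ ha _ hb
      calc a * b * (a * b) = a * (b * a) * b := by group
        _ = a * (a * b) * b := by rw [this]
        _ = _ := by group
    rw [e] at hy2
    obtain ⟨h1, h2⟩ := decomp_unique h (Q.mul_mem ha ha) hq (R.mul_mem hb hb) hr hy2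
    exact ⟨⟨⟨a, ha, h1⟩, ⟨b, hb, h2⟩⟩, rfl⟩

end main

/-- Let G be a finite group whose Sylow 2-subgroup S is an internal direct product Q × R with Q generalized quaternion (of order at least 8) and R a subgroup all of whose involutions are central in R. Then G is not simple. In particular no finite simple group has a Sylow 2-subgroup that is a direct product of one or more generalized quaternion groups. -/
theorem result {G : Type*} [Group G] [Finite G]
    (S : Sylow 2 G) (Q R : Subgroup G) (hQR : Cfsg.IsInternalDirectProduct Q R (S : Subgroup G))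
    (n : ℕ) (hn : 1 ≤ n) (eQ : ↥Q ≃* QuaternionGroup (2 ^ n))
    (hR : ∀ r ∈ R, orderOf r = 2 → ∀ s ∈ R, r * s = s * r) :
    ¬ IsSimpleGroup G := by
  classical
  intro hsimple
  set w : ↥Q := eQ.symm (QuaternionGroup.a ((2 ^ n : ℕ) : ZMod (2 * 2 ^ n))) with hw
  set z : G := (w : G) with hz
  have hzQ : z ∈ Q := w.2
  have hz2 : z * z = 1 := by
    have : w * w = 1 := by
      rw [hw, ← map_mul, quat_w_sq, map_one]
    exact congrArg Subtype.val this
  have hz1 : z ≠ 1 := by
    intro h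
    have h1 : w = 1 := Subtype.ext h
    rw [hw, EmbeddingLike.map_eq_one_iff] at h1
    exact quat_w_ne h1
  have hzc : ∀ y ∈ Q, z * y = y * z := by
    intro y hy
    have : w * ⟨y, hy⟩ = ⟨y, hy⟩ * w := by
      apply eQ.injective
      rw [map_mul, map_mul, hw, MulEquiv.apply_symm_apply]
      exact quat_w_central _
    exact congrArg Subtype.val this
  have hQsq : ∀ y ∈ Q, y * y = 1 → y = 1 ∨ y = z := by
    intro y hy h
    have h1 : eQ ⟨y, hy⟩ * eQ ⟨y, hy⟩ = 1 := by
      rw [← map_mul]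
      have : (⟨y, hy⟩ : Q) * ⟨y, hy⟩ = 1 := Subtype.ext h
      rw [this, map_one]
    rcases quat_sq_one _ h1 with h2 | h2
    · left
      rw [EmbeddingLike.map_eq_one_iff] at h2
      exact congrArg Subtype.val h2
    · right
      have : (⟨y, hy⟩ : Q) = w := by
        rw [hw]; exact eQ.injective (by rw [h2, MulEquiv.apply_symm_apply])
      exact congrArg Subtype.val this
  -- counts in `Q`
  have hA1 : rootCount Q 1 ≤ 2 := by
    unfold rootCount
    have hinj : Function.Injective (fun y : {y : G // y ∈ Q ∧ y * y = 1} =>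
        (if y.1 = 1 then (0 : Fin 2) else 1)) := by
      rintro ⟨y, hy, hy2⟩ ⟨y', hy', hy2'⟩ e
      apply Subtype.ext
      simp only at e ⊢
      rcases hQsq y hy hy2 with h | h <;> rcases hQsq y' hy' hy2' with h' | h'
      · rw [h, h']
      · simp [h, h', hz1] at e
      · simp [h, h', hz1] at e
      · rw [h, h']
    have := Nat.card_le_card_of_injective _ hinj
    simpa using this
  have hA3 : 3 ≤ rootCount Q z := by
    obtain ⟨y₁, y₂, y₃, h1, h2, h3, h12, h13, h23⟩ := quat_three_roots (n := n) hn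
    unfold rootCount
    have mk : ∀ y : QuaternionGroup (2 ^ n), y * y = QuaternionGroup.a ((2 ^ n : ℕ) : ZMod (2 * 2 ^ n)) →
        ((eQ.symm y : Q) : G) ∈ Q ∧ ((eQ.symm y : Q) : G) * ((eQ.symm y : Q) : G) = z := by
      intro y hy
      refine ⟨(eQ.symm y).2, ?_⟩
      rw [hz, hw, ← hy, map_mul]; rfl
    let f : Fin 3 → {y : G // y ∈ Q ∧ y * y = z} := ![⟨_, mk y₁ h1⟩, ⟨_, mk y₂ h2⟩, ⟨_, mk y₃ h3⟩]
    have hf : Function.Injective f := by
      intro i j hij
      fin_cases i <;> fin_cases j <;> first | rfl | (exfalso; have := congrArg Subtype.val hij; simp [f] at this; first | exact h12 this | exact h13 this | exact h23 this | exact h12.symm this | exact h13.symm this | exact h23.symm this)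
    have := Nat.card_le_card_of_injective f hf
    simpa using this
  have hQRi : Q ⊓ R = ⊥ := hQR.2.2.2.1
  have hcomm : ∀ a ∈ Q, ∀ b ∈ R, a * b = b * a := hQR.2.2.1
  have hQS : Q ≤ (S : Subgroup G) := hQR.1
  have hRS : R ≤ (S : Subgroup G) := hQR.2.1
  -- shape of elements with square one
  have hshape : ∀ t ∈ (S : Subgroup G), t * t = 1 → ∃ b ∈ R, b * b = 1 ∧ (t = b ∨ t = z * b) := by
    intro t ht ht2
    obtain ⟨a, ha, b, hb, rfl⟩ := exists_decomp hQR ht
    have e : a * b * (a * b) = (a * a) * (b * b) := by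
      have := hcomm _ ha _ hb
      calc a * b * (a * b) = a * (b * a) * b := by group
        _ = a * (a * b) * b := by rw [this]
        _ = _ := by group
    rw [e] at ht2
    have h1 : (a * a) * (b * b) = 1 * 1 := by rw [ht2, one_mul]
    obtain ⟨h2, h3⟩ := decomp_unique hQR (Q.mul_mem ha ha) Q.one_mem (R.mul_mem hb hb) R.one_mem h1
    refine ⟨b, hb, h3, ?_⟩
    rcases hQsq a ha h2 with h4 | h4
    · left; rw [h4, one_mul]
    · right; rw [h4]
  have hRc : ∀ b ∈ R, b * b = 1 → ∀ s ∈ R, s * b = b * s := by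
    intro b hb hb2 s hs
    by_cases h1 : b = 1
    · rw [h1]; simp
    · have h2 : orderOf b = 2 := by
        apply orderOf_eq_prime (by rw [pow_two]; exact hb2) h1
      exact (hR b hb h2 s hs).symm
  have hcentral : ∀ t ∈ (S : Subgroup G), t * t = 1 → ∀ s ∈ (S : Subgroup G), s * t = t * s := by
    intro t ht ht2 s hs
    obtain ⟨c, hc, c2, hct⟩ := hshape t ht ht2
    obtain ⟨a, ha, b, hb, rfl⟩ := exists_decomp hQR hs
    have h1 := hcomm a ha c hc
    have h2 := hRc c hc c2 b hb
    rcases hct with rfl | rfl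
    · calc a * b * t = a * (t * b) := by rw [mul_assoc, h2]
        _ = (a * t) * b := by group
        _ = (t * a) * b := by rw [h1]
        _ = t * (a * b) := by group
    · have h3 := hzc a ha
      have h4 := hcomm z hzQ b hb
      calc a * b * (z * c) = a * (b * z) * c := by group
        _ = a * (z * b) * c := by rw [h4]
        _ = (a * z) * (b * c) := by group
        _ = (z * a) * (c * b) := by rw [← h3, h2]
        _ = z * (a * c) * b := by group
        _ = z * (c * a) * b := by rw [h1]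
        _ = _ := by group
  -- the elementary abelian group of central elements with square one
  let Om : Subgroup G :=
    { carrier := {t | t ∈ (S : Subgroup G) ∧ t * t = 1}
      one_mem' := ⟨Subgroup.one_mem _, by simp⟩
      mul_mem' := by
        rintro a b ⟨ha, ha2⟩ ⟨hb, hb2⟩
        refine ⟨Subgroup.mul_mem _ ha hb, ?_⟩
        have := hcentral b hb hb2 a ha
        calc a * b * (a * b) = a * (b * a) * b := by group
          _ = a * (a * b) * b := by rw [this]
          _ = (a * a) * (b * b) := by group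
          _ = 1 := by rw [ha2, hb2, one_mul]
      inv_mem' := by
        rintro a ⟨ha, ha2⟩
        refine ⟨Subgroup.inv_mem _ ha, ?_⟩
        rw [← mul_inv_rev, ha2, inv_one] }
  letI instOm : CommGroup Om :=
    { (inferInstance : Group Om) with
      mul_comm := fun a b => Subtype.ext (hcentral b b.2.1 b.2.2 a a.2.1) }
  -- the maximum of the square-root count
  obtain ⟨tstar, htstar⟩ := Finite.exists_max (fun t : Om => rootCount (S : Subgroup G) (t : G))
  have hpos : ∀ {K : Subgroup G} {t : G}, (∃ y, y ∈ K ∧ y * y = t) → 0 < rootCount K t := by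
    rintro K t ⟨y, hy, hy2⟩
    unfold rootCount
    haveI : Nonempty {y : G // y ∈ K ∧ y * y = t} := ⟨⟨y, hy, hy2⟩⟩
    exact Nat.card_pos
  have hFone : 0 < rootCount (S : Subgroup G) (tstar : G) := by
    have h1 := htstar 1
    have h2 : 0 < rootCount (S : Subgroup G) ((1 : Om) : G) := hpos ⟨1, Subgroup.one_mem _, by simp⟩
    exact lt_of_lt_of_le h2 h1
  have hstar : ∀ t : Om, rootCount (S : Subgroup G) (t : G) = rootCount (S : Subgroup G) (tstar : G) →
      ∃ r ∈ R, (t : G) = z * r := by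
    intro t ht
    obtain ⟨c, hc, c2, hct⟩ := hshape t t.2.1 t.2.2
    rcases hct with h1 | h1
    · exfalso
      have h2 : (t : G) = 1 * c := by rw [h1, one_mul]
      have h3 : rootCount (S : Subgroup G) (t : G) = rootCount Q 1 * rootCount R c := by
        rw [h2]; exact rootCount_mul hQR Q.one_mem hc
      have hzcOm : z * c ∈ Om := by
        refine ⟨Subgroup.mul_mem _ (hQS hzQ) (hRS hc), ?_⟩
        have := hcomm z hzQ c hc
        calc z * c * (z * c) = z * (c * z) * c := by group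
          _ = z * (z * c) * c := by rw [this]
          _ = (z * z) * (c * c) := by group
          _ = 1 := by rw [hz2, c2, one_mul]
      have h4 : rootCount (S : Subgroup G) (z * c) = rootCount Q z * rootCount R c :=
        rootCount_mul hQR hzQ hc
      have h5 := htstar ⟨z * c, hzcOm⟩
      simp only at h5
      rw [h4, ← ht, h3] at h5
      have h6 : 0 < rootCount R c := by
        by_contra h0
        have : rootCount R c = 0 := by omega
        rw [ht.symm, h3, this, mul_zero] at hFone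
        exact lt_irrefl _ hFone
      have h7 : 3 * rootCount R c ≤ rootCount Q z * rootCount R c := Nat.mul_le_mul_right _ hA3
      have h8 : rootCount Q 1 * rootCount R c ≤ 2 * rootCount R c := Nat.mul_le_mul_right _ hA1
      omega
    · exact ⟨c, hc, h1⟩
  -- the normalizer
  set N : Subgroup G := Subgroup.normalizer ((S : Subgroup G) : Set G) with hN
  have hNS : ∀ m : N, ∀ x : G, x ∈ (S : Subgroup G) → (m : G) * x * (m : G)⁻¹ ∈ (S : Subgroup G) := by
    intro m x hx
    exact (Subgroup.mem_normalizer_iff.1 m.2 x).1 hx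
  let act : N → (Om →* Om) := fun m =>
    { toFun := fun t => ⟨(m : G) * t * (m : G)⁻¹, hNS m t t.2.1, by
        have := t.2.2
        calc (m : G) * t * (m : G)⁻¹ * ((m : G) * t * (m : G)⁻¹) = (m : G) * (t * t) * (m : G)⁻¹ := by group
          _ = 1 := by rw [this]; group⟩
      map_one' := by ext; simp
      map_mul' := fun a b => by
        apply Subtype.ext
        show (m : G) * ((a : G) * b) * (m : G)⁻¹ = ((m : G) * a * (m : G)⁻¹) * ((m : G) * b * (m : G)⁻¹)
        group }
  have hact : ∀ (m : N) (t : Om), ((act m t : Om) : G) = (m : G) * t * (m : G)⁻¹ := fun _ _ => rfl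
  -- root count is invariant
  have hcount : ∀ (m : N) (t : G), rootCount (S : Subgroup G) ((m : G) * t * (m : G)⁻¹) = rootCount (S : Subgroup G) t := by
    intro m t
    unfold rootCount
    refine Nat.card_congr
      { toFun := fun y => ⟨(m : G)⁻¹ * y.1 * m, ?_, ?_⟩
        invFun := fun y => ⟨(m : G) * y.1 * (m : G)⁻¹, hNS m _ y.2.1, ?_⟩
        left_inv := fun y => by ext; simp [mul_assoc]
        right_inv := fun y => by ext; simp [mul_assoc] }
    · have := hNS m⁻¹ y.1 y.2.1
      simpa using this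
    · have := y.2.2
      calc (m : G)⁻¹ * y.1 * m * ((m : G)⁻¹ * y.1 * m) = (m : G)⁻¹ * (y.1 * y.1) * m := by group
        _ = t := by rw [this]; group
    · have := y.2.2
      calc (m : G) * y.1 * (m : G)⁻¹ * ((m : G) * y.1 * (m : G)⁻¹) = (m : G) * (y.1 * y.1) * (m : G)⁻¹ := by group
        _ = _ := by rw [this]
  classical
  let S' : Subgroup N := (S : Subgroup G).subgroupOf N
  let X := N ⧸ S'
  haveI : Fintype X := Fintype.ofFinite X
  let φ : X → Om := fun c => act (Quotient.out c) tstar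
  let t0 : Om := ∏ c, φ c
  have hout : ∀ (m : N) (c : X), act m (φ c) = φ (m • c) := by
    intro m c
    have h1 : ((m * Quotient.out c : N) : X) = m • c := by
      conv_rhs => rw [← QuotientGroup.out_eq' c]
      rfl
    have h2 : ((Quotient.out (m • c) : N) : X) = m • c := QuotientGroup.out_eq' _
    have h3 : (m * Quotient.out c)⁻¹ * Quotient.out (m • c) ∈ S' := by
      rw [← QuotientGroup.eq, h1, h2]
    set s := (m * Quotient.out c)⁻¹ * Quotient.out (m • c) with hs
    have h4 : Quotient.out (m • c) = (m * Quotient.out c) * s := by rw [hs]; group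
    apply Subtype.ext
    show (m : G) * (((Quotient.out c : N) : G) * tstar * ((Quotient.out c : N) : G)⁻¹) * (m : G)⁻¹ =
      ((Quotient.out (m • c) : N) : G) * tstar * ((Quotient.out (m • c) : N) : G)⁻¹
    rw [h4]
    have h5 : ((s : N) : G) ∈ (S : Subgroup G) := Subgroup.mem_subgroupOf.1 h3
    have h6 := hcentral tstar tstar.2.1 tstar.2.2 _ h5
    simp only [Subgroup.coe_mul, mul_inv_rev]
    calc (m : G) * (((Quotient.out c : N) : G) * tstar * ((Quotient.out c : N) : G)⁻¹) * (m : G)⁻¹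
        = (m : G) * ((Quotient.out c : N) : G) * (tstar * (s : G) * ((s : N) : G)⁻¹) * ((Quotient.out c : N) : G)⁻¹ * (m : G)⁻¹ := by group
      _ = _ := by rw [← h6]; group
  have hfix : ∀ m : N, act m t0 = t0 := by
    intro m
    show act m (∏ c, φ c) = ∏ c, φ c
    rw [map_prod]
    simp_rw [hout]
    exact Equiv.prod_comp (MulAction.toPerm m) φ
  have hodd : Odd (Fintype.card X) := by
    have h1 : (S : Subgroup G) ≤ N := Subgroup.le_normalizer
    have h2 := Subgroup.relIndex_mul_index h1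
    have h3 : Fintype.card X = (S : Subgroup G).relIndex N := by
      rw [← Nat.card_eq_fintype_card]; rfl
    rw [h3, ← Nat.not_even_iff_odd, even_iff_two_dvd]
    intro hd
    exact S.not_dvd_index (h2 ▸ Dvd.dvd.mul_right hd _)
  -- `t0` has a nontrivial `Q`-component
  have hprod : ∀ B : Finset X, ∃ r ∈ R, ((∏ c ∈ B, φ c : Om) : G) = z ^ B.card * r := by
    intro B
    induction B using Finset.induction_on with
    | empty => exact ⟨1, R.one_mem, by simp⟩
    | insert c B hc ih =>
      obtain ⟨r, hr, e⟩ := ih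
      rw [Finset.prod_insert hc, Finset.card_insert_of_notMem hc]
      have h1 : rootCount (S : Subgroup G) ((φ c : Om) : G) = rootCount (S : Subgroup G) (tstar : G) :=
        hcount _ _
      obtain ⟨r', hr', e'⟩ := hstar _ h1
      refine ⟨r' * r, R.mul_mem hr' hr, ?_⟩
      rw [Subgroup.coe_mul, e, e']
      have h2 : r' * z = z * r' := (hcomm z hzQ r' hr').symm
      have h3 : r' * z ^ B.card = z ^ B.card * r' := by
        have : Commute r' z := h2
        exact (this.pow_right _)
      calc z * r' * (z ^ B.card * r) = z * (r' * z ^ B.card) * r := by group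
        _ = z * (z ^ B.card * r') * r := by rw [h3]
        _ = _ := by rw [pow_succ']; group
  have ht0ne : (t0 : G) ≠ 1 := by
    obtain ⟨r, hr, e⟩ := hprod Finset.univ
    obtain ⟨k, hk⟩ := hodd
    rw [Finset.card_univ, hk, pow_succ, pow_mul, pow_two, hz2, one_pow, one_mul] at e
    intro h
    have e2 : (t0 : G) = z * r := e
    rw [h] at e2
    have h3 : z ∈ R := by
      have : z = r⁻¹ := eq_inv_of_mul_eq_one_left e2.symm
      rw [this]; exact R.inv_mem hr
    have h4 : z ∈ Q ⊓ R := Subgroup.mem_inf.2 ⟨hzQ, h3⟩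
    rw [hQRi, Subgroup.mem_bot] at h4
    exact hz1 h4
  have ht0ord : orderOf (t0 : G) = 2 := orderOf_eq_prime (by rw [pow_two]; exact t0.2.2) ht0ne
  refine not_isSimple_of_weaklyClosed S ht0ord t0.2.1 ?_
    (a := ((eQ.symm (QuaternionGroup.a 1) : Q) : G)) (b := ((eQ.symm (QuaternionGroup.xa 0) : Q) : G)) ?_ hsimple
  · intro g hg
    have hg2 : g * t0 * g⁻¹ * (g * t0 * g⁻¹) = 1 := by
      calc g * t0 * g⁻¹ * (g * t0 * g⁻¹) = g * ((t0 : G) * t0) * g⁻¹ := by group
        _ = 1 := by rw [t0.2.2]; group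
    obtain ⟨n', hn', hn2⟩ := exists_normalizer_conj_of_central S
      (x := (t0 : G)) (hcentral _ t0.2.1 t0.2.2) (hcentral _ hg hg2) rfl
    have hmem : n' ∈ N := (Sylow.smul_eq_iff_mem_normalizer).1 hn'
    have := hfix ⟨n', hmem⟩
    have h2 : n' * (t0 : G) * n'⁻¹ = t0 := congrArg Subtype.val this
    rw [← hn2, h2]
  · intro h
    have h1 : (eQ.symm (QuaternionGroup.a 1)) * (eQ.symm (QuaternionGroup.xa 0)) =
        (eQ.symm (QuaternionGroup.xa 0)) * (eQ.symm (QuaternionGroup.a 1)) := Subtype.ext h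
    rw [← map_mul, ← map_mul] at h1
    exact quat_noncomm hn (eQ.symm.injective h1)

end Cfsg.Agent.S3269
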