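import Cfsg.Statements.S3276
import Mathlib
import Cfsg.Agent.Lib.Invol.Basic

set_option autoImplicit false
open Cfsg

open Cfsg.Agent.Lib.Invol

namespace Cfsg.Agent.S3276

theorem card_le_two_of_forall {K : Type*} [Group K] [Finite K] (H : Subgroup K) (a : K)
    (h : ∀ v ∈ H, v = 1 ∨ v = a) : Nat.card H ≤ 2 := by
  classical
  have h1 : (H : Set K) ⊆ {1, a} := by
    intro v hv
    rcases h v hv with rfl | rfl <;> simp
  have h2 : Set.ncard (H : Set K) ≤ Set.ncard ({1, a} : Set K) :=
    Set.ncard_le_ncard h1 (Set.toFinite _)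
  have h3 : Set.ncard ({1, a} : Set K) ≤ 2 := by
    have := Set.ncard_insert_le (1 : K) ({a} : Set K)
    rwa [Set.ncard_singleton] at this
  have h4 : Nat.card H = Set.ncard (H : Set K) := (Nat.card_coe_set_eq _)
  omega

/-- Let x and y be commuting, non-conjugate involutions of a finite group G, and suppose that for every involution u commuting with x, each conjugate of y that commutes with u also commutes with y. Then the normal closure of y is a proper, normal, elementary abelian 2-subgroup of G; and if y is the only involution of that normal closure commuting with x, it has order at most 4. -/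
theorem result {G : Type*} [Group G] [Finite G] (x y : G) (hx : orderOf x = 2) (hy : orderOf y = 2)
    (hxy : Commute x y) (hnc : ¬ IsConj x y)
    (hstar : ∀ u : G, orderOf u = 2 → Commute u x → ∀ g : G, Commute (g * y * g⁻¹) u → Commute (g * y * g⁻¹) y) :
    Subgroup.normalClosure ({y} : Set G) ≠ ⊤ ∧ Cfsg.IsElementaryAbelian 2 (Subgroup.normalClosure ({y} : Set G)) ∧
      ((∀ u ∈ Subgroup.normalClosure ({y} : Set G), orderOf u = 2 → Commute u x → u = y) →
        Nat.card ↥(Subgroup.normalClosure ({y} : Set G)) ≤ 4) := by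
  classical
  have hxx := mul_self_of_order_two hx
  have hyy := mul_self_of_order_two hy
  -- all conjugates of y commute with y
  have hall : ∀ g : G, Commute (g * y * g⁻¹) y := by
    intro g
    set z := g * y * g⁻¹ with hz
    have hzz : z * z = 1 := by
      rw [hz]
      calc g * y * g⁻¹ * (g * y * g⁻¹) = g * (y * y) * g⁻¹ := by group
        _ = 1 := by rw [hyy]; group
    rcases Nat.even_or_odd (orderOf (x * z)) with he | ho
    · have h1 := central_order_two hxx hzz he
      have h2 := central_commute_left hxx hzz he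
      have h3 := central_commute_right hxx hzz he
      exact hstar _ h1 h2 g h3.symm
    · exfalso
      obtain ⟨d, -, hd⟩ := exists_conj_of_odd hxx hzz ho
      apply hnc
      have h4 : IsConj x z := isConj_iff.2 ⟨d, hd⟩
      have h5 : IsConj y z := isConj_iff.2 ⟨g, rfl⟩
      exact h4.trans h5.symm
  have hcc : ∀ g h : G, (g * y * g⁻¹) * (h * y * h⁻¹) = (h * y * h⁻¹) * (g * y * g⁻¹) := by
    intro g h
    have h1 := (hall (h⁻¹ * g)).eq
    have e1 : (h⁻¹ * g) * y * (h⁻¹ * g)⁻¹ = h⁻¹ * (g * y * g⁻¹) * h := by group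
    rw [e1] at h1
    have h2 := congrArg (fun w => h * w * h⁻¹) h1
    have e2 : h * (h⁻¹ * (g * y * g⁻¹) * h * y) * h⁻¹ = (g * y * g⁻¹) * (h * y * h⁻¹) := by group
    have e3 : h * (y * (h⁻¹ * (g * y * g⁻¹) * h)) * h⁻¹ = (h * y * h⁻¹) * (g * y * g⁻¹) := by group
    rw [e2, e3] at h2
    exact h2
  set N := Subgroup.normalClosure ({y} : Set G) with hN
  have hNdef : N = Subgroup.closure (Group.conjugatesOfSet ({y} : Set G)) := rfl
  have hconjs : ∀ z ∈ Group.conjugatesOfSet ({y} : Set G), ∃ g : G, z = g * y * g⁻¹ := by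
    intro z hz
    rw [Group.mem_conjugatesOfSet_iff] at hz
    obtain ⟨a, ha, hc⟩ := hz
    rw [Set.mem_singleton_iff.1 ha] at hc
    obtain ⟨g, hg⟩ := isConj_iff.1 hc
    exact ⟨g, hg.symm⟩
  have hcommset : ∀ u ∈ Group.conjugatesOfSet ({y} : Set G), ∀ v ∈ Group.conjugatesOfSet ({y} : Set G), u * v = v * u := by
    intro u hu v hv
    obtain ⟨g, rfl⟩ := hconjs u hu
    obtain ⟨h, rfl⟩ := hconjs v hv
    exact hcc g h
  have hNcomm : ∀ u ∈ N, ∀ v ∈ N, u * v = v * u := by
    intro u hu v hv
    letI := Subgroup.closureCommGroupOfComm hcommset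
    have := mul_comm (⟨u, hu⟩ : Subgroup.closure (Group.conjugatesOfSet ({y} : Set G))) ⟨v, hv⟩
    exact congrArg Subtype.val this
  have hNsq : ∀ u ∈ N, u ^ 2 = 1 := by
    intro u hu
    induction hu using Subgroup.closure_induction with
    | mem z hz =>
      obtain ⟨g, rfl⟩ := hconjs z hz
      rw [pow_two]
      calc g * y * g⁻¹ * (g * y * g⁻¹) = g * (y * y) * g⁻¹ := by group
        _ = 1 := by rw [hyy]; group
    | one => simp
    | mul a b ha hb iha ihb =>
      rw [(show Commute a b from hNcomm a ha b hb).mul_pow, iha, ihb, one_mul]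
    | inv a _ iha => rw [inv_pow, iha, inv_one]
  have hyN : y ∈ N := Subgroup.subset_normalClosure rfl
  refine ⟨?_, ⟨⟨⟨fun a b => Subtype.ext (hNcomm a a.2 b b.2)⟩⟩, hNsq⟩, ?_⟩
  · intro htop
    have hab : ∀ u v : G, u * v = v * u := by
      intro u v
      exact hNcomm u (htop ▸ Subgroup.mem_top u) v (htop ▸ Subgroup.mem_top v)
    have hconj1 : ∀ g : G, g * y * g⁻¹ = y := by
      intro g
      rw [hab g y]; group
    have hxN : x ∈ N := htop ▸ Subgroup.mem_top x
    have hval : ∀ u ∈ N, u = 1 ∨ u = y := by
      intro u hu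
      induction hu using Subgroup.closure_induction with
      | mem z hz =>
        obtain ⟨g, rfl⟩ := hconjs z hz
        right; exact hconj1 g
      | one => left; rfl
      | mul a b ha hb iha ihb =>
        rcases iha with rfl | rfl <;> rcases ihb with rfl | rfl <;> simp [hyy]
      | inv a _ iha =>
        rcases iha with rfl | rfl
        · simp
        · right; exact inv_eq_of_mul_self hyy
    rcases hval x hxN with h1 | h1
    · rw [h1] at hx; simp at hx
    · apply hnc; rw [h1]
  · intro huniq
    have hNnorm : N.Normal := Subgroup.normalClosure_normal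
    let φ : N →* N :=
      { toFun := fun v => ⟨(v : G) * (x * v * x⁻¹), N.mul_mem v.2 (hNnorm.conj_mem _ v.2 x)⟩
        map_one' := by ext; simp
        map_mul' := by
          rintro ⟨a, ha⟩ ⟨b, hb⟩
          ext
          simp only [Subgroup.coe_mul]
          have hb' := hNnorm.conj_mem _ hb x
          have ha' := hNnorm.conj_mem _ ha x
          calc a * b * (x * (a * b) * x⁻¹) = a * (b * (x * a * x⁻¹)) * (x * b * x⁻¹) := by group
            _ = a * ((x * a * x⁻¹) * b) * (x * b * x⁻¹) := by rw [hNcomm b hb _ ha']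
            _ = a * (x * a * x⁻¹) * (b * (x * b * x⁻¹)) := by group }
    have hsq : ∀ v ∈ N, v * v = 1 := fun v hv => by
      have := hNsq v hv
      rwa [pow_two] at this
    have hcase : ∀ v ∈ N, Commute v x → v = 1 ∨ v = y := by
      intro v hv hc
      by_cases h1 : v = 1
      · left; exact h1
      · right
        exact huniq v hv (order_two_of_mul_self (hsq v hv) h1) hc
    have hker : ∀ v ∈ φ.ker, v = 1 ∨ v = (⟨y, hyN⟩ : N) := by
      rintro ⟨v, hv⟩ hk
      rw [MonoidHom.mem_ker] at hk
      have h1 : v * (x * v * x⁻¹) = 1 := congrArg Subtype.val hk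
      have h2 : x * v * x⁻¹ = v := by
        rw [← inv_eq_of_mul_eq_one_right h1, inv_eq_of_mul_self (hsq v hv)]
      have h4 : Commute v x := by
        show v * x = x * v
        calc v * x = (x * v * x⁻¹) * x := by rw [h2]
          _ = x * v := by group
      rcases hcase v hv h4 with rfl | rfl
      · left; rfl
      · right; rfl
    have hrange : ∀ v ∈ φ.range, v = 1 ∨ v = (⟨y, hyN⟩ : N) := by
      rintro _ ⟨⟨v, hv⟩, rfl⟩
      have hmem : v * (x * v * x⁻¹) ∈ N := N.mul_mem hv (hNnorm.conj_mem _ hv x)
      have h4 : Commute (v * (x * v * x⁻¹)) x := by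
        show v * (x * v * x⁻¹) * x = x * (v * (x * v * x⁻¹))
        have h5 := hNcomm v hv _ (hNnorm.conj_mem _ hv x)
        have hxi : x⁻¹ = x := inv_eq_of_mul_self hxx
        calc v * (x * v * x⁻¹) * x = (x * v * x⁻¹) * v * x := by rw [h5]
          _ = x * (v * (x * v * x⁻¹)) := by
            rw [hxi]; group
      rcases hcase _ hmem h4 with h6 | h6
      · left; exact Subtype.ext h6
      · right; exact Subtype.ext h6
    have hk2 := card_le_two_of_forall φ.ker _ hker
    have hr2 := card_le_two_of_forall φ.range _ hrange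
    have htot : Nat.card N = Nat.card φ.ker * Nat.card φ.range := by
      rw [← Subgroup.index_ker, Subgroup.card_mul_index]
    rw [htot]
    exact Nat.mul_le_mul hk2 hr2 |>.trans (by norm_num)

end Cfsg.Agent.S3276
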