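import Cfsg.Statements.S3277
import Mathlib
import Cfsg.Agent.Lib.InvolChar.KleinA5
import Cfsg.Agent.Lib.InvolChar.E4CaseB
import Cfsg.Agent.Lib.FF.KleinOrder
import Cfsg.Agent.Lib.Fusion.Induction
import Cfsg.Agent.Lib.Invol.Klein

set_option autoImplicit false
open Cfsg

open Cfsg

namespace Cfsg.Agent.S3277


/-- Let G be a finite group containing an involution whose centralizer is elementary abelian of order 4. If G has no normal 2-complement and no normal elementary abelian 2-subgroup of order 2 or 4, then G is isomorphic to the alternating group of degree 5 (that is, to PSL(2, 5)). -/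
theorem result {G : Type*} [Group G] [Finite G] (x : G) (hx : orderOf x = 2)
    (hC4 : Nat.card ↥(Subgroup.centralizer ({x} : Set G)) = 4) (hCe : ∀ c ∈ Subgroup.centralizer ({x} : Set G), c ^ 2 = 1)
    (hnc : ¬ Cfsg.HasNormalPComplement 2 G)
    (hne : ∀ E : Subgroup G, E.Normal → Cfsg.IsElementaryAbelian 2 E → Nat.card ↥E ≠ 2 ∧ Nat.card ↥E ≠ 4) :
    Nonempty (G ≃* ↥(alternatingGroup (Fin 5))) := by
  classical
  haveI : Fintype G := Fintype.ofFinite G
  set C := Subgroup.centralizer ({x} : Set G) with hCdef
  have hxx : x * x = 1 := Cfsg.Agent.Lib.Invol.mul_self_of_order_two hx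
  have hx1 : x ≠ 1 := by
    intro e
    rw [e, orderOf_one] at hx
    omega
  have hmemC : ∀ c, c ∈ C ↔ c * x = x * c := fun c => by
    rw [hCdef, Subgroup.mem_centralizer_singleton_iff]
  have hxC : x ∈ C := (hmemC x).2 rfl
  have hsqC : ∀ c ∈ C, c * c = 1 := fun c hc => by
    rw [← pow_two]
    exact hCe c hc
  have hcommC : ∀ a ∈ C, ∀ b ∈ C, a * b = b * a := by
    intro a ha b hb
    have h1 := hsqC a ha
    have h2 := hsqC b hb
    have h3 := hsqC _ (C.mul_mem ha hb)
    have ha' : a⁻¹ = a := inv_eq_of_mul_eq_one_left h1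
    have hb' : b⁻¹ = b := inv_eq_of_mul_eq_one_left h2
    have h4 : (a * b)⁻¹ = a * b := inv_eq_of_mul_eq_one_left h3
    rw [mul_inv_rev, ha', hb'] at h4
    exact h4.symm
  have hpC : IsPGroup 2 C := by
    apply IsPGroup.of_card (n := 2)
    rw [hC4]
    norm_num
  obtain ⟨S, hCS⟩ := hpC.exists_le_sylow
  by_cases hEq : (S : Subgroup G) = C
  · -- the four-group case
    have hcardS : Nat.card (S : Subgroup G) = 4 := by rw [hEq]; exact hC4
    have hcG := (S : Subgroup G).card_mul_index
    rw [hcardS] at hcG
    have hodd : Odd (S : Subgroup G).index := Nat.not_even_iff_odd.1 (fun h => S.not_dvd_index h.two_dvd)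
    have hnc' : ¬ ∃ N : Subgroup G, N.Normal ∧ Nat.card N = (S : Subgroup G).index := by
      rintro ⟨N, hN, hNc⟩
      apply hnc
      refine ⟨S, N, hN, Subgroup.isComplement'_of_coprime ?_ ?_⟩
      · rw [hNc, hcardS, mul_comm, hcG]
      · rw [hNc, hcardS]
        have : Nat.Coprime (S : Subgroup G).index 2 := Nat.coprime_two_right.2 hodd
        exact Nat.Coprime.pow_right 2 this
    obtain ⟨hK, hone⟩ := Cfsg.Agent.Lib.FF.klein_struct _ hodd hcG.symm hnc' S
    have hxS : x ∈ (S : Subgroup G) := hCS hxC
    have hCP : Subgroup.centralizer ((S : Subgroup G) : Set G) = C := by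
      apply le_antisymm
      · apply Subgroup.centralizer_le
        rintro _ rfl
        exact hxS
      · intro c hc
        rw [Subgroup.mem_centralizer_iff]
        intro v hv
        rw [hEq] at hv
        exact hcommC v hv c hc
    refine Cfsg.Agent.Lib.InvolChar.klein_core_iso_A5 S hK hone x hxS hx hCP hC4 ?_
    -- the core is trivial
    set H := Subgroup.normalizer (((S : Subgroup G)) : Set G) with hH
    set K := H.normalCore with hKdef
    have hKn : K.Normal := Subgroup.normalCore_normal H
    have hKH : K ≤ H := Subgroup.normalCore_le H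
    have hE : (K ⊓ (S : Subgroup G)).Normal := by
      constructor
      intro u hu g
      refine ⟨hKn.conj_mem u hu.1 g, ?_⟩
      apply Cfsg.Agent.Lib.Invol.mem_sylow_of_normalizes S (hKH (hKn.conj_mem u hu.1 g))
      have hu2 := hsqC u (hEq ▸ hu.2)
      by_cases hu1 : u = 1
      · refine ⟨0, ?_⟩
        rw [hu1]
        simp
      · refine ⟨1, ?_⟩
        have h5 := MulEquiv.orderOf_eq (MulAut.conj g) u
        rw [MulAut.conj_apply] at h5
        rw [h5]
        exact Cfsg.Agent.Lib.Invol.order_two_of_mul_self hu2 hu1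
    have hEab : Cfsg.IsElementaryAbelian 2 (K ⊓ (S : Subgroup G)) := by
      refine ⟨⟨⟨fun a b => Subtype.ext ?_⟩⟩, fun a ha => hCe a (hEq ▸ ha.2)⟩
      exact hcommC a (hEq ▸ a.2.2) b (hEq ▸ b.2.2)
    have hEc := hne _ hE hEab
    have hEdvd : Nat.card (K ⊓ (S : Subgroup G) : Subgroup G) ∣ 4 := by
      rw [← hcardS]
      exact Subgroup.card_dvd_of_le inf_le_right
    have hE1 : Nat.card (K ⊓ (S : Subgroup G) : Subgroup G) = 1 := by
      have : Nat.card (K ⊓ (S : Subgroup G) : Subgroup G) ≤ 4 := Nat.le_of_dvd (by norm_num) hEdvd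
      interval_cases hc : Nat.card (K ⊓ (S : Subgroup G) : Subgroup G)
      · simp at hEdvd
      · rfl
      · exact absurd rfl hEc.1
      · norm_num at hEdvd
      · exact absurd rfl hEc.2
    have hEbot : K ⊓ (S : Subgroup G) = ⊥ := Subgroup.eq_bot_of_card_eq _ hE1
    -- `K` centralises `S`
    have hKC : K ≤ C := by
      intro k hk
      rw [hmemC]
      have h1 : k * x * k⁻¹ * x⁻¹ ∈ K ⊓ (S : Subgroup G) := by
        constructor
        · have h2 := hKn.conj_mem _ (K.inv_mem hk) x
          have : k * x * k⁻¹ * x⁻¹ = k * (x * k⁻¹ * x⁻¹) := by group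
          rw [this]
          exact K.mul_mem hk h2
        · exact (S : Subgroup G).mul_mem ((Subgroup.mem_normalizer_iff.1 (hKH hk) x).1 hxS) ((S : Subgroup G).inv_mem hxS)
      rw [hEbot, Subgroup.mem_bot] at h1
      have h2 : k * x * k⁻¹ = x := by
        rwa [mul_inv_eq_one] at h1
      rwa [mul_inv_eq_iff_eq_mul] at h2
    rw [eq_bot_iff]
    rw [← hEbot]
    intro k hk
    exact ⟨hk, hEq ▸ hKC hk⟩
  · -- a larger Sylow subgroup
    exfalso
    have hlt : C < (S : Subgroup G) := lt_of_le_of_ne hCS (Ne.symm hEq)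
    have hnorm := Cfsg.Agent.Lib.Fusion.lt_normalizerIn (p := 2) S.isPGroup' hlt
    obtain ⟨s, hs, hsC⟩ := SetLike.exists_of_lt hnorm
    obtain ⟨hsS, hsN⟩ := Cfsg.Agent.Lib.Fusion.mem_normalizerIn.1 hs
    -- the image of `x`
    set y := s * x * s⁻¹ with hy
    have hyC : y ∈ C := (Subgroup.mem_normalizer_iff.1 hsN x).1 hxC
    have hyx : y ≠ x := by
      intro h
      apply hsC
      rw [hmemC]
      rwa [hy, mul_inv_eq_iff_eq_mul] at h
    have hy1 : y ≠ 1 := by
      intro h
      apply hx1
      have : x = s⁻¹ * y * s := by rw [hy]; group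
      rw [this, h]
      group
    set z := x * y with hz
    have hzC : z ∈ C := C.mul_mem hxC hyC
    have hel := fun {w : G} (hw : w ∈ C) => Cfsg.Agent.Lib.FF.klein_elements hC4 hxC hyC hx1 hy1 hyx hxx hw
    have hz1 : z ≠ 1 := by
      intro h
      apply hyx
      have : y = x⁻¹ := eq_inv_of_mul_eq_one_right h
      rw [this, inv_eq_of_mul_eq_one_left hxx]
    have hzx : z ≠ x := by
      intro h
      apply hy1
      have h2 : x * y = x * 1 := by rw [mul_one]; exact h
      exact mul_left_cancel h2
    have hzy : z ≠ y := by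
      intro h
      apply hx1
      have h2 : x * y = 1 * y := by rw [one_mul]; exact h
      exact mul_right_cancel h2
    -- `s` fixes `z`
    have hsy : s * y * s⁻¹ ∈ C := (Subgroup.mem_normalizer_iff.1 hsN y).1 hyC
    have hsz : s * z * s⁻¹ = z := by
      have hprod : s * z * s⁻¹ = y * (s * y * s⁻¹) := by
        rw [hz, hy]
        group
      have hsy1 : s * y * s⁻¹ ≠ 1 := by
        intro h
        apply hy1
        have : y = s⁻¹ * (s * y * s⁻¹) * s := by group
        rw [this, h]
        group
      have hsyy : s * y * s⁻¹ ≠ y := by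
        intro h
        apply hyx
        have h2 : s * y * s⁻¹ = s * x * s⁻¹ := by rw [h]
        exact mul_left_cancel (mul_right_cancel h2)
      rcases hel hsy with h | h | h | h
      · exact absurd h hsy1
      · rw [hprod, h]
        exact (hcommC y hyC x hxC)
      · exact absurd h hsyy
      · -- a three-cycle
        exfalso
        have hyy := hsqC y hyC
        have e1 : s * z * s⁻¹ = x := by
          rw [hprod, h]
          calc y * (x * y) = x * (y * y) := by
                rw [← mul_assoc, hcommC y hyC x hxC, mul_assoc]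
            _ = x := by rw [hyy, mul_one]
        have e3 : s ^ 3 * x * (s ^ 3)⁻¹ = x := by
          calc s ^ 3 * x * (s ^ 3)⁻¹ = s * (s * (s * x * s⁻¹) * s⁻¹) * s⁻¹ := by
                rw [show s ^ 3 = s * s * s by rw [pow_succ, pow_two]]
                group
            _ = s * (s * y * s⁻¹) * s⁻¹ := by rw [← hy]
            _ = s * z * s⁻¹ := by rw [h]
            _ = x := e1
        have hs3 : s ^ 3 ∈ C := by
          rw [hmemC]
          rwa [mul_inv_eq_iff_eq_mul] at e3
        obtain ⟨k, hk⟩ := S.isPGroup' ⟨s, hsS⟩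
        have hk' : s ^ (2 ^ k) = 1 := by simpa using congrArg Subtype.val hk
        rcases Nat.eq_zero_or_pos k with rfl | hkpos
        · apply hsC
          have : s = 1 := by simpa using hk'
          rw [this]
          exact C.one_mem
        · have h2 : 1 < 2 ^ k := Nat.one_lt_two_pow (by omega)
          have hcop : Nat.Coprime 3 (2 ^ k) := Nat.Coprime.pow_right k (by norm_num)
          obtain ⟨m, -, hm⟩ := Nat.exists_mul_mod_eq_one_of_coprime hcop h2
          apply hsC
          have : s = (s ^ 3) ^ m := by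
            rw [← pow_mul, pow_eq_pow_mod (3 * m) hk', hm, pow_one]
          rw [this]
          exact C.pow_mem hs3 m
    have hxz : x * z = z * x := hcommC x hxC z hzC
    have hxzy : x * z = y := by
      rw [hz, ← mul_assoc, hxx, one_mul]
    have hoz : orderOf z = 2 := Cfsg.Agent.Lib.Invol.order_two_of_mul_self (hsqC z hzC) hz1
    -- `z` has a larger centraliser
    have hnz : ¬ IsConj x z := by
      intro h
      have h1 := Cfsg.Agent.Lib.Char.card_centralizer_of_isConj h
      have h2 : C ≤ Subgroup.centralizer ({z} : Set G) := by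
        intro c hc
        rw [Subgroup.mem_centralizer_singleton_iff]
        exact hcommC c hc z hzC
      have h3 : s ∈ Subgroup.centralizer ({z} : Set G) := by
        rw [Subgroup.mem_centralizer_singleton_iff]
        rwa [mul_inv_eq_iff_eq_mul] at hsz
      have h4 : C = Subgroup.centralizer ({z} : Set G) :=
        Subgroup.eq_of_le_of_card_ge h2 (by rw [← h1])
      apply hsC
      rw [h4]
      exact h3
    have hCfull : ∀ c, c * x = x * c → c = 1 ∨ c = x ∨ c = z ∨ c = x * z := by
      intro c hc
      rcases hel ((hmemC c).2 hc) with h | h | h | h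
      · exact Or.inl h
      · exact Or.inr (Or.inl h)
      · right; right; right
        rw [hxzy]
        exact h
      · exact Or.inr (Or.inr (Or.inl h))
    obtain ⟨E, hEn, hEab, hEc⟩ := Cfsg.Agent.Lib.InvolChar.e4_caseB hx hoz hxz hC4 hCfull
      (by rw [hxzy]; exact isConj_iff.2 ⟨s, rfl⟩) hnz
    have := hne E hEn hEab
    rcases hEc with h | h
    · exact this.1 h
    · exact this.2 h

end Cfsg.Agent.S3277
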