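import Cfsg.Statements.S3279
import Mathlib
import Cfsg.Agent.Lib.InvTri.Basic

set_option autoImplicit false
open Cfsg

namespace Cfsg.Agent.S3279

open Cfsg.Agent.Lib.InvTri Cfsg.Agent.Lib.Invol

private lemma four_le {α : Type*} [Finite α] (a b c d : α) (hab : a ≠ b) (hac : a ≠ c) (had : a ≠ d)
    (hbc : b ≠ c) (hbd : b ≠ d) (hcd : c ≠ d) : 4 ≤ Nat.card α := by
  classical
  haveI := Fintype.ofFinite α
  rw [Nat.card_eq_fintype_card]
  have : ({a, b, c, d} : Finset α).card = 4 := by
    rw [Finset.card_insert_of_notMem, Finset.card_insert_of_notMem, Finset.card_insert_of_notMem,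
      Finset.card_singleton]
    · simpa using hcd
    · simp [hbc, hbd]
    · simp [hab, hac, had]
  rw [← this]
  exact Finset.card_le_univ _

/-- Let G be a finite simple group and x an involution of G whose centralizer contains at most three involutions. Then C_G(x) contains a Sylow 2-subgroup of G, and all involutions of G are conjugate. -/
theorem result {G : Type*} [Group G] [Finite G] [IsSimpleGroup G] (x : G) (hx : orderOf x = 2)
    (h3 : Nat.card {u : ↥(Subgroup.centralizer ({x} : Set G)) // orderOf u = 2} ≤ 3) :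
    (∃ S : Sylow 2 G, (S : Subgroup G) ≤ Subgroup.centralizer ({x} : Set G)) ∧
      ∀ u v : G, orderOf u = 2 → orderOf v = 2 → IsConj u v := by
  have hxx : x * x = 1 := mul_self_of_order_two hx
  have hx1 : x ≠ 1 := by
    intro e; rw [e, orderOf_one] at hx; omega
  have hmain : ∀ u : G, u * u = 1 → u ≠ 1 → Commute u x → IsConj x u := by
    by_cases hy : ∃ y : G, y * y = 1 ∧ y ≠ 1 ∧ Commute y x ∧ y ≠ x
    · obtain ⟨y, hyy, hy1, hyc, hyx⟩ := hy
      have elt : ∀ u : G, u * u = 1 → u ≠ 1 → Commute u x →
          ∃ w : {u : ↥(Subgroup.centralizer ({x} : Set G)) // orderOf u = 2}, ((w.1 : G)) = u := by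
        intro u hu hu1 huc
        refine ⟨⟨⟨u, Subgroup.mem_centralizer_singleton_iff.2 huc.eq⟩, ?_⟩, rfl⟩
        rw [Subgroup.orderOf_mk]
        exact order_two_of_mul_self hu hu1
      have hxy1 : x * y ≠ 1 := by
        intro e
        apply hyx
        have : y = x⁻¹ := eq_inv_of_mul_eq_one_right e
        rw [this, inv_eq_of_mul_self hxx]
      have hxyxy : x * y * (x * y) = 1 := by
        calc x * y * (x * y) = x * (y * x) * y := by group
          _ = x * (x * y) * y := by rw [hyc.eq]
          _ = (x * x) * (y * y) := by group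
          _ = 1 := by rw [hxx, hyy, one_mul]
      have hxyc : Commute (x * y) x := (Commute.refl x).mul_left hyc
      have T : Tri x y (x * y) := by
        refine ⟨hxx, hyy, rfl, hyc.symm, hx1, hy1, hyx.symm, ?_⟩
        intro u hu hu1 huc
        by_contra hne
        push_neg at hne
        obtain ⟨h1, h2, h3'⟩ := hne
        obtain ⟨a, ha⟩ := elt x hxx hx1 (Commute.refl x)
        obtain ⟨b, hb⟩ := elt y hyy hy1 hyc
        obtain ⟨c, hc⟩ := elt (x * y) hxyxy hxy1 hxyc
        obtain ⟨d, hd⟩ := elt u hu hu1 huc
        have := four_le a b c d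
          (fun e => hyx (by rw [← ha, ← hb, e]))
          (fun e => hy1 (by
            have h : ((a.1 : G)) = ((c.1 : G)) := by rw [e]
            rw [ha, hc] at h
            exact (mul_eq_left.1 h.symm)))
          (fun e => h1 (by rw [← ha, ← hd, e]))
          (fun e => hx1 (by
            have h : ((b.1 : G)) = ((c.1 : G)) := by rw [e]
            rw [hb, hc] at h
            exact (mul_eq_right.1 h.symm)))
          (fun e => h2 (by rw [← hb, ← hd, e]))
          (fun e => h3' (by rw [← hc, ← hd, e]))
        omega
      obtain ⟨h1, h2⟩ := all_conj T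
      intro u hu hu1 huc
      rcases T.cl u hu hu1 huc with e | e | e
      · rw [e]
      · rw [e]; exact h1
      · rw [e]; exact h2
    · push_neg at hy
      intro u hu hu1 huc
      rw [hy u hu hu1 huc]
  obtain ⟨hS, hc⟩ := sylow_and_conj_of_all_conj hxx hx1 hmain
  refine ⟨hS, fun u v hu hv => ?_⟩
  have hu' := hc u (mul_self_of_order_two hu) (by intro e; rw [e, orderOf_one] at hu; omega)
  have hv' := hc v (mul_self_of_order_two hv) (by intro e; rw [e, orderOf_one] at hv; omega)
  exact hu'.symm.trans hv'

end Cfsg.Agent.S3279
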