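import Cfsg.Statements.S3278
import Mathlib
import Cfsg.Agent.S3279
import Cfsg.Agent.Lib.InvolChar.KleinA5
import Cfsg.Agent.Lib.FF.KleinOrder

set_option autoImplicit false
open Cfsg

open Cfsg

namespace Cfsg.Agent.S3278


/-- Let G be a finite simple group with an involution x such that a Sylow 2-subgroup of C_G(x) is a Klein four-group which is normal in C_G(x). Then G is isomorphic to the alternating group of degree 5 (that is, to PSL(2, 5)). -/
theorem result {G : Type*} [Group G] [Finite G] [IsSimpleGroup G] (x : G) (hx : orderOf x = 2)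
    (S₀ : Subgroup G) (hle : S₀ ≤ Subgroup.centralizer ({x} : Set G)) (hK : IsKleinFour ↥S₀)
    (hodd : ¬ 2 ∣ S₀.relIndex (Subgroup.centralizer ({x} : Set G))) (hn : (S₀.subgroupOf (Subgroup.centralizer ({x} : Set G))).Normal) :
    Nonempty (G ≃* ↥(alternatingGroup (Fin 5))) := by
  classical
  haveI : Fintype G := Fintype.ofFinite G
  set C := Subgroup.centralizer ({x} : Set G) with hCdef
  haveI hnorm : (S₀.subgroupOf C).Normal := hn
  have hxx : x * x = 1 := Cfsg.Agent.Lib.Invol.mul_self_of_order_two hx
  have hx1 : x ≠ 1 := by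
    intro e
    rw [e, orderOf_one] at hx
    omega
  have hcard4 : Nat.card S₀ = 4 := IsKleinFour.card_four
  -- the quotient has odd order
  have hqodd : ¬ 2 ∣ Nat.card (C ⧸ S₀.subgroupOf C) := by
    rw [← Subgroup.index_eq_card]
    exact hodd
  -- `2`-elements of `C` lie in `S₀`
  have h2el : ∀ y : G, y ∈ C → ∀ k : ℕ, y ^ (2 ^ k) = 1 → y ∈ S₀ := by
    intro y hy k hyk
    have h1 : ((⟨y, hy⟩ : C) : C ⧸ S₀.subgroupOf C) = 1 := by
      have h2 : orderOf ((⟨y, hy⟩ : C) : C ⧸ S₀.subgroupOf C) ∣ 2 ^ k := by
        apply orderOf_dvd_of_pow_eq_one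
        rw [← QuotientGroup.mk_pow]
        have : (⟨y, hy⟩ : C) ^ (2 ^ k) = 1 := Subtype.ext (by simpa using hyk)
        rw [this]
        rfl
      have h3 : orderOf ((⟨y, hy⟩ : C) : C ⧸ S₀.subgroupOf C) ∣ Nat.card (C ⧸ S₀.subgroupOf C) :=
        orderOf_dvd_natCard _
      have hcop : Nat.Coprime (2 ^ k) (Nat.card (C ⧸ S₀.subgroupOf C)) :=
        Nat.Coprime.pow_left k ((Nat.Prime.coprime_iff_not_dvd Nat.prime_two).2 hqodd)
      exact orderOf_eq_one_iff.1 (Nat.eq_one_of_dvd_coprimes hcop h2 h3)
    exact Subgroup.mem_subgroupOf.1 ((QuotientGroup.eq_one_iff _).1 h1)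
  have hxC : x ∈ C := by
    rw [hCdef, Subgroup.mem_centralizer_singleton_iff]
  have hxS : x ∈ S₀ := h2el x hxC 1 (by rw [pow_one, pow_two, hxx])
  -- at most three involutions
  have h3 : Nat.card {u : ↥C // orderOf u = 2} ≤ 3 := by
    have hinj : Function.Injective (fun u : {u : ↥C // orderOf u = 2} =>
        (⟨⟨(u.1 : G), h2el _ u.1.2 1 (by
            have := pow_orderOf_eq_one u.1
            rw [u.2] at this
            rw [pow_one]
            exact_mod_cast congrArg Subtype.val this)⟩, by
            intro h
            have h1 := congrArg Subtype.val h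
            have h2 : (u.1 : G) = 1 := h1
            have h3 : u.1 = 1 := Subtype.ext h2
            have := u.2
            rw [h3, orderOf_one] at this
            omega⟩ : {s : S₀ // s ≠ 1})) := by
      intro u v h
      have h1 := congrArg (fun s : {s : S₀ // s ≠ 1} => ((s : S₀) : G)) h
      exact Subtype.ext (Subtype.ext h1)
    have h2 := Nat.card_le_card_of_injective _ hinj
    have h4 : Nat.card {s : S₀ // s ≠ 1} = 3 := by
      rw [Nat.card_eq_fintype_card, Fintype.card_subtype_compl, ← Nat.card_eq_fintype_card, hcard4]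
      simp
    omega
  obtain ⟨⟨S, hSC⟩, hone⟩ := Cfsg.Agent.S3279.result x hx h3
  -- `S₀` is the Sylow subgroup
  have hSS : (S : Subgroup G) ≤ S₀ := by
    intro y hy
    have hp : IsPGroup 2 (S : Subgroup G) := S.isPGroup'
    obtain ⟨k, hk⟩ := hp ⟨y, hy⟩
    exact h2el y (hSC hy) k (by simpa using congrArg Subtype.val hk)
  have hpS : IsPGroup 2 S₀ := by
    apply IsPGroup.of_card (n := 2)
    rw [hcard4]
    norm_num
  have hSeq : S₀ = (S : Subgroup G) := S.is_maximal' hpS hSS
  have hK' : IsKleinFour (S : Subgroup G) := hSeq ▸ hK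
  -- `C` centralises `S₀`
  have hCP : Subgroup.centralizer ((S : Subgroup G) : Set G) = C := by
    apply le_antisymm
    · apply Subgroup.centralizer_le
      rintro _ rfl
      rw [← hSeq]
      exact hxS
    · intro y hy
      rw [Subgroup.mem_centralizer_iff]
      intro v hv
      have hvS : v ∈ S₀ := hSeq ▸ hv
      by_cases hv1 : v = 1
      · simp [hv1]
      by_cases hvx : v = x
      · rw [hvx]
        exact (Subgroup.mem_centralizer_singleton_iff.1 hy).symm
      -- `y v y⁻¹ ∈ {v, x v}`
      have hyv : y * v * y⁻¹ ∈ S₀ := by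
        have h1 := hnorm.conj_mem (⟨v, hSC (hSeq ▸ hvS)⟩ : C) (Subgroup.mem_subgroupOf.2 hvS) ⟨y, hy⟩
        exact Subgroup.mem_subgroupOf.1 h1
      have hvv : v * v = 1 := Cfsg.Agent.Lib.Invol.klein_mul_self S hK' hv
      have hyx : y * x = x * y := Subgroup.mem_centralizer_singleton_iff.1 hy
      have hcase := Cfsg.Agent.Lib.FF.klein_elements hcard4 hxS hvS hx1 hv1 hvx hxx hyv
      have hyne1 : y * v * y⁻¹ ≠ 1 := by
        intro h
        apply hv1
        have : v = y⁻¹ * (y * v * y⁻¹) * y := by group
        rw [this, h]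
        group
      have hynex : y * v * y⁻¹ ≠ x := by
        intro h
        apply hvx
        have : v = y⁻¹ * (y * v * y⁻¹) * y := by group
        rw [this, h]
        calc y⁻¹ * x * y = y⁻¹ * (x * y) := by group
          _ = y⁻¹ * (y * x) := by rw [hyx]
          _ = x := by group
      have hy2 : Commute (y * y) v := by
        rcases hcase with h | h | h | h
        · exact absurd h hyne1
        · exact absurd h hynex
        · have h1 : y * v = v * y := by
            calc y * v = y * v * y⁻¹ * y := by group
              _ = v * y := by rw [h]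
          have h2 : Commute y v := h1
          exact h2.mul_left h2
        · have h1 : y * v = x * v * y := by
            calc y * v = y * v * y⁻¹ * y := by group
              _ = x * v * y := by rw [h]
          show y * y * v = v * (y * y)
          calc y * y * v = y * (y * v) := by group
            _ = y * (x * v * y) := by rw [h1]
            _ = (y * x) * (v * y) := by group
            _ = (x * y) * (v * y) := by rw [hyx]
            _ = x * (y * v) * y := by group
            _ = x * (x * v * y) * y := by rw [h1]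
            _ = (x * x) * (v * (y * y)) := by group
            _ = v * (y * y) := by rw [hxx, one_mul]
      have hm : y ^ (Nat.card (C ⧸ S₀.subgroupOf C)) ∈ S₀ := by
        have h1 : (((⟨y, hy⟩ : C) ^ (Nat.card (C ⧸ S₀.subgroupOf C)) : C) : C ⧸ S₀.subgroupOf C) = 1 := by
          rw [QuotientGroup.mk_pow]
          exact pow_card_eq_one'
        have h2 := Subgroup.mem_subgroupOf.1 ((QuotientGroup.eq_one_iff _).1 h1)
        simpa using h2
      obtain ⟨r, hr⟩ : ∃ r, Nat.card (C ⧸ S₀.subgroupOf C) = 2 * r + 1 := by
        have : Odd (Nat.card (C ⧸ S₀.subgroupOf C)) := Nat.not_even_iff_odd.1 (fun h => hqodd h.two_dvd)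
        exact this
      have hc1 : Commute (y ^ (2 * r + 1)) v := by
        rw [← hr]
        exact Cfsg.Agent.Lib.Invol.klein_comm S hK' (hSeq ▸ hm) hv
      have hye : y = ((y * y) ^ r)⁻¹ * y ^ (2 * r + 1) := by
        rw [pow_succ, pow_mul, pow_two]
        group
      have hc2 : Commute y v := by
        rw [hye]
        exact ((hy2.pow_left r).inv_left).mul_left hc1
      exact hc2.eq.symm
  exact Cfsg.Agent.Lib.InvolChar.klein_simple_iso_A5 S hK' hone x (hSeq ▸ hxS) hx hCP

end Cfsg.Agent.S3278
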