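import Cfsg.Statements.S3282
import Mathlib
import Cfsg.Agent.Lib.BSW.Two

set_option autoImplicit false

namespace Cfsg.Agent.S3282

open Cfsg.Agent.Lib.BSW

theorem result {G : Type*} [Group G] [Finite G] (t : G) (ht : orderOf t = 2)
    (K : Subgroup G) (hKab : IsMulCommutative ↥K) (hKH : K ≤ Subgroup.centralizer ({t} : Set G)) (htK : t ∈ K)
    (s : G) (hs : orderOf s = 2) (hsH : s ∈ Subgroup.centralizer ({t} : Set G)) (hsK : s ∉ K)
    (hH : K ⊔ Subgroup.zpowers s = Subgroup.centralizer ({t} : Set G)) (hCK : K ⊓ Subgroup.centralizer ({s} : Set G) = Subgroup.zpowers t)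
    (hinv : ∀ x ∈ K, s * x * s⁻¹ = x⁻¹)
    (hTI : ∀ g : G, g ∉ Subgroup.centralizer ({t} : Set G) → K ⊓ K.map (MulAut.conj g).toMonoidHom = ⊥)
    (hconj : ∀ x y : G, orderOf x = 2 → orderOf y = 2 → IsConj x y) :
    ∃ Q D : Subgroup G, 2 * Nat.card G = Nat.card ↥Q * (Nat.card ↥Q + 1) * (Nat.card ↥Q - 1) ∧
      (∀ x ∈ Q, x ≠ 1 → Subgroup.centralizer ({x} : Set G) = Q) ∧
      IsMulCommutative ↥D ∧ 2 * Nat.card ↥D + 1 = Nat.card ↥Q ∧ Q ⊓ D = ⊥ ∧
      Subgroup.normalizer (Q : Set G) = Q ⊔ D ∧
      ∀ X : Subgroup G, X ≤ D → X ≠ ⊥ →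
        Subgroup.normalizer (X : Set G) = Subgroup.normalizer (D : Set G) ∧
        ∃ u : G, orderOf u = 2 ∧ u ∉ D ∧ (∀ d ∈ D, u * d * u⁻¹ = d⁻¹) ∧
          Subgroup.normalizer (D : Set G) = D ⊔ Subgroup.zpowers u := by
  classical
  haveI : Fintype G := Fintype.ofFinite G
  have hab : ∀ a ∈ K, ∀ b ∈ K, a * b = b * a := by
    intro a ha b hb
    have := hKab.is_comm.comm (⟨a, ha⟩ : ↥K) ⟨b, hb⟩
    exact congrArg Subtype.val this
  have hKt : ∀ a ∈ K, a * t = t * a := fun a ha =>
    Subgroup.mem_centralizer_singleton_iff.mp (hKH ha)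
  have hst : s * t = t * s := Subgroup.mem_centralizer_singleton_iff.mp hsH
  have hsi : s⁻¹ = s := inv_of_two hs
  have hss : s * s = 1 := mul_self_of_two hs
  have hinv' : ∀ a ∈ K, s * a * s = a⁻¹ := by
    intro a ha
    have := hinv a ha
    rwa [hsi] at this
  have hH' : ∀ y, y * t = t * y → y ∈ K ∨ ∃ a ∈ K, y = a * s := by
    intro y hy
    let P : Subgroup G :=
      { carrier := {y | y ∈ K ∨ ∃ a ∈ K, y = a * s}
        mul_mem' := by
          rintro x z (hx | ⟨a, ha, rfl⟩) (hz | ⟨b, hb, rfl⟩)
          · exact Or.inl (K.mul_mem hx hz)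
          · exact Or.inr ⟨x * b, K.mul_mem hx hb, by group⟩
          · refine Or.inr ⟨a * z⁻¹, K.mul_mem ha (K.inv_mem hz), ?_⟩
            have h1 := hinv' z hz
            calc a * s * z = a * (s * z * s) * s := by
                  calc a * s * z = a * s * z * (s * s) := by rw [hss, mul_one]
                    _ = _ := by group
              _ = _ := by rw [h1]
          · refine Or.inl ?_
            have h1 := hinv' b hb
            have e : a * s * (b * s) = a * (s * b * s) := by group
            rw [e, h1]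
            exact K.mul_mem ha (K.inv_mem hb)
        one_mem' := Or.inl K.one_mem
        inv_mem' := by
          rintro x (hx | ⟨a, ha, rfl⟩)
          · exact Or.inl (K.inv_mem hx)
          · refine Or.inr ⟨a, ha, ?_⟩
            have h1 := hinv' a ha
            have e : (a * s)⁻¹ = s * a⁻¹ := by
              rw [mul_inv_rev, hsi]
            rw [e]
            have h2 := hinv' a⁻¹ (K.inv_mem ha)
            rw [inv_inv] at h2
            calc s * a⁻¹ = s * a⁻¹ * (s * s) := by rw [hss, mul_one]
              _ = (s * a⁻¹ * s) * s := by group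
              _ = _ := by rw [h2] }
    have hle : K ⊔ Subgroup.zpowers s ≤ P := by
      refine sup_le (fun x hx => Or.inl hx) ?_
      rw [Subgroup.zpowers_le]
      exact Or.inr ⟨1, K.one_mem, by rw [one_mul]⟩
    have hy' : y ∈ K ⊔ Subgroup.zpowers s := by
      rw [hH]
      exact Subgroup.mem_centralizer_singleton_iff.mpr hy
    exact hle hy'
  have hCK' : ∀ a ∈ K, a * s = s * a → a = 1 ∨ a = t := by
    intro a ha has
    have h1 : a ∈ K ⊓ Subgroup.centralizer ({s} : Set G) :=
      ⟨ha, Subgroup.mem_centralizer_singleton_iff.mpr has⟩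
    rw [hCK, mem_zpowers_iff_mem_range_orderOf, ht] at h1
    have h2 : a = t ∨ a = 1 := by simpa [Finset.range_add_one] using h1
    exact h2.symm
  have hTI' : ∀ g, g * t ≠ t * g → ∀ a ∈ K, g * a * g⁻¹ ∈ K → a = 1 := by
    intro g hg a ha h
    have h1 := hTI g (fun h0 => hg (Subgroup.mem_centralizer_singleton_iff.mp h0))
    have h2 : g * a * g⁻¹ ∈ K ⊓ K.map (MulAut.conj g).toMonoidHom :=
      ⟨h, a, ha, by simp⟩
    rw [h1, Subgroup.mem_bot] at h2
    have e : a = g⁻¹ * (g * a * g⁻¹) * g := by group
    rw [e, h2]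
    group
  let S : Setup G :=
    { t := t, K := K, s := s, ht := ht, hab := hab, hKt := hKt, htK := htK, hs := hs, hst := hst,
      hsK := hsK, hH := hH', hCK := hCK', hinv := hinv', hTI := hTI', hconj := hconj }
  have hfin : Concl G := by
    haveI : Fintype S.K := Fintype.ofFinite _
    obtain ⟨c, hc⟩ := S.two_dvd_k
    have hkpos := S.k_pos
    by_cases hk2 : Nat.card S.K = 2
    · exact S.two_case hk2
    have hk4 : 4 ≤ Nat.card S.K := by omega
    obtain ⟨St, ε, hSt, hε, hm, hd, hB⟩ := S.char_main hk4
    rcases hε with rfl | rfl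
    · refine S.plus_case hk4 St hSt hm hd ?_
      intro g hg
      have := hB g hg
      rwa [if_pos rfl] at this
    · obtain ⟨e, he⟩ : ∃ e, Nat.card S.K = e + 1 := ⟨Nat.card S.K - 1, by omega⟩
      have M : Minus S e St :=
        { hk := he
          hd3 := by omega
          hm := by
            rw [he] at hm
            push_cast at hm
            have : (mm G : ℤ) = (2 * (e : ℤ) + 1) * e := by
              rw [hm]; ring
            exact_mod_cast this
          hSt := hSt
          hdeg := by
            rw [hd, he]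
            push_cast
            ring
          hB := by
            intro g hg
            have := hB g hg
            rw [if_neg (by norm_num)] at this
            rw [this, he]
            push_cast
            ring }
      exact M.concl
  exact hfin

end Cfsg.Agent.S3282
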