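import Cfsg.Statements.S3299
import Mathlib
import Cfsg.Agent.Lib.InvES.Main
import Cfsg.Agent.Lib.Core.PFrattini

set_option autoImplicit false
open Cfsg

open Cfsg.Agent.Lib.InvES
open scoped commutatorElement

namespace Cfsg.Agent.S3299


/-- Let G be a finite group with no nontrivial 2-group quotient (O^2(G) = G), z an involution of G with H = C_G(z), and suppose E = O_2(H) is extraspecial with C_G(E) ≤ E and of order 2^(2n+1) with n ≥ 2. Then E is contained in every normal subgroup of H of index 2. -/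
theorem result {G : Type*} [Group G] [Finite G] (hres : Cfsg.pResidual 2 G = ⊤) (z : G) (hz : orderOf z = 2)
    (E : Subgroup G) (hE : E = (Cfsg.pCore 2 ↥(Subgroup.centralizer ({z} : Set G))).map (Subgroup.centralizer ({z} : Set G)).subtype)
    (hext : Cfsg.IsExtraspecial 2 ↥E) (hcent : Subgroup.centralizer (E : Set G) ≤ E) (n : ℕ) (hn : 2 ≤ n) (hcard : Nat.card ↥E = 2 ^ (2 * n + 1))
    (K : Subgroup G) (hKH : K ≤ Subgroup.centralizer ({z} : Set G))
    (hKn : ∀ h ∈ Subgroup.centralizer ({z} : Set G), K.map (MulAut.conj h).toMonoidHom = K)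
    (hKi : K.relIndex (Subgroup.centralizer ({z} : Set G)) = 2) : E ≤ K := by
  classical
  haveI : Fact (Nat.Prime 2) := ⟨Nat.prime_two⟩
  set H := Subgroup.centralizer ({z} : Set G) with hH
  have hmemH : ∀ x, x ∈ H ↔ x * z = z * x := fun x => by
    rw [hH, Subgroup.mem_centralizer_singleton_iff]
  have hzH : z ∈ H := (hmemH z).mpr rfl
  have hEH : E ≤ H := by
    rw [hE]
    exact Subgroup.map_subtype_le _
  have hz2 : z * z = 1 := by rw [← pow_two, ← hz]; exact pow_orderOf_eq_one z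
  have hz1 : z ≠ 1 := by
    intro h
    rw [h, orderOf_one] at hz
    omega
  -- `z ∈ E`
  have hzE : z ∈ E := by
    rw [hE]
    have hN : (Subgroup.zpowers (⟨z, hzH⟩ : H)).Normal := by
      refine ⟨fun n hn g => ?_⟩
      obtain ⟨k, rfl⟩ := Subgroup.mem_zpowers_iff.mp hn
      have hc : Commute g (⟨z, hzH⟩ : H) := Subtype.ext ((hmemH g).mp g.2)
      have h1 := (hc.zpow_right k).eq
      rw [h1]
      simp
    have hP : IsPGroup 2 (Subgroup.zpowers (⟨z, hzH⟩ : H)) := by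
      apply IsPGroup.of_card (n := 1)
      rw [Nat.card_zpowers, Subgroup.orderOf_mk, hz, pow_one]
    have h1 := Cfsg.Agent.Lib.Core.le_pCore hN hP (Subgroup.mem_zpowers (⟨z, hzH⟩ : H))
    exact ⟨⟨z, hzH⟩, h1, rfl⟩
  obtain ⟨⟨hEp, hfr, hcm⟩, hc2⟩ := hext
  -- the centre
  have hcen : ∀ w ∈ Subgroup.center E, w = 1 ∨ w = ⟨z, hzE⟩ := by
    intro w hw
    by_cases hw1 : w = 1
    · exact Or.inl hw1
    right
    have hzc : (⟨z, hzE⟩ : E) ∈ Subgroup.center E := by
      rw [Subgroup.mem_center_iff]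
      intro g
      exact Subtype.ext ((hmemH _).mp (hEH g.2))
    have hne1 : (⟨w, hw⟩ : Subgroup.center E) ≠ 1 := fun h => hw1 (congrArg Subtype.val h)
    have hne2 : (⟨⟨z, hzE⟩, hzc⟩ : Subgroup.center E) ≠ 1 := fun h =>
      hz1 (congrArg (fun x : Subgroup.center E => ((x : E) : G)) h)
    obtain ⟨u, -, hu⟩ := (Nat.card_eq_two_iff' (1 : Subgroup.center E)).mp hc2
    have e1 := hu _ hne1
    have e2 := hu _ hne2
    exact congrArg Subtype.val (e1.trans e2.symm)
  have hFr := Cfsg.Agent.Lib.Core.frattini_pgroup 2 hEp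
  have D : ESData (⟨z, hzE⟩ : E) := by
    refine ⟨fun h => hz1 (congrArg Subtype.val h), Subtype.ext hz2, fun x => Subtype.ext ((hmemH _).mp (hEH x.2)), ?_, ?_, ?_⟩
    · intro x y
      have h1 : ⁅y⁻¹, x⁻¹⁆ ∈ commutator E := Subgroup.commutator_mem_commutator (Subgroup.mem_top _) (Subgroup.mem_top _)
      rw [hcm] at h1
      rcases hcen _ h1 with h | h
      · left
        have h2 : y⁻¹ * x⁻¹ * y⁻¹⁻¹ * x⁻¹⁻¹ = 1 := h
        have : y⁻¹ * x⁻¹ * y * x = 1 := by simpa using h2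
        calc x * y = (y * x) * (y⁻¹ * x⁻¹ * y * x)⁻¹ := by group
          _ = y * x := by rw [this]; simp
      · right
        have h2 : y⁻¹ * x⁻¹ * y⁻¹⁻¹ * x⁻¹⁻¹ = ⟨z, hzE⟩ := h
        have h3 : y⁻¹ * x⁻¹ * y * x = ⟨z, hzE⟩ := by simpa using h2
        have h4 : (⟨z, hzE⟩ : E)⁻¹ = ⟨z, hzE⟩ := by
          rw [inv_eq_iff_mul_eq_one]; exact Subtype.ext hz2
        calc x * y = (y * x) * (y⁻¹ * x⁻¹ * y * x)⁻¹ := by group
          _ = y * x * ⟨z, hzE⟩ := by rw [h3, h4]
    · intro x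
      have h1 := hFr.2 x
      rw [hfr] at h1
      rw [pow_two] at h1
      exact hcen _ h1
    · intro x hx
      exact hcen x (Subgroup.mem_center_iff.mpr (fun y => (hx y).symm))
  have hcard32 : 32 ≤ Nat.card E := by
    rw [hcard]
    calc 32 = 2 ^ 5 := by norm_num
      _ ≤ 2 ^ (2 * n + 1) := Nat.pow_le_pow_right (by norm_num) (by omega)
  have hEn : ∀ y ∈ H, ∀ e ∈ E, y * e * y⁻¹ ∈ E := by
    intro y hy e he
    rw [hE] at he ⊢
    obtain ⟨e', he', rfl⟩ := he
    have hnorm : (Cfsg.pCore 2 H).Normal := Cfsg.Agent.Lib.Core.pCore_normal 2 H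
    exact ⟨_, hnorm.conj_mem e' he' ⟨y, hy⟩, rfl⟩
  exact le_of_index_two hres hzE D hEp hEH hEn hcent hcard32 hKi

end Cfsg.Agent.S3299
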