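import Cfsg.Statements.S3305
import Mathlib
import Cfsg.Agent.Lib.InvolChar.Quot

set_option autoImplicit false
open Cfsg


namespace Cfsg.Agent.S3305


/-- If any two distinct Sylow 2-subgroups of the finite group G intersect in a cyclic group, then the same holds in every quotient group G/H, H a normal subgroup of G. -/
theorem result {G : Type*} [Group G] [Finite G]
    (hC : ∀ S T : Sylow 2 G, S ≠ T → IsCyclic ↥((S : Subgroup G) ⊓ (T : Subgroup G))) (H : Subgroup G) [H.Normal] :
    ∀ S T : Sylow 2 (G ⧸ H), S ≠ T → IsCyclic ↥((S : Subgroup (G ⧸ H)) ⊓ (T : Subgroup (G ⧸ H))) := by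
  intro S T hST
  have : Fact (Nat.Prime 2) := ⟨Nat.prime_two⟩
  let π : G →* G ⧸ H := QuotientGroup.mk' H
  have hπ : Function.Surjective π := QuotientGroup.mk'_surjective H
  have hX : IsPGroup 2 ((S : Subgroup (G ⧸ H)) ⊓ (T : Subgroup (G ⧸ H)) : Subgroup (G ⧸ H)) :=
    S.isPGroup'.to_le inf_le_left
  obtain ⟨P, hP, hPX⟩ := Cfsg.Agent.Lib.InvolChar.exists_pgroup_map_eq π hπ _ hX
  obtain ⟨S₁, hS₁, hS₁m⟩ := Cfsg.Agent.Lib.InvolChar.exists_sylow_over π hπ S P hP
    (by rw [hPX]; exact inf_le_left)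
  obtain ⟨T₁, hT₁, hT₁m⟩ := Cfsg.Agent.Lib.InvolChar.exists_sylow_over π hπ T P hP
    (by rw [hPX]; exact inf_le_right)
  have hne : S₁ ≠ T₁ := by
    intro h
    apply hST
    apply Sylow.ext
    rw [← hS₁m, ← hT₁m, h]
  have hcyc := hC S₁ T₁ hne
  have hle : P ≤ (S₁ : Subgroup G) ⊓ (T₁ : Subgroup G) := le_inf hS₁ hT₁
  have hPc : IsCyclic P := by
    have hinj : Function.Injective (Subgroup.inclusion hle) := Subgroup.inclusion_injective hle
    exact isCyclic_of_injective (Subgroup.inclusion hle) hinj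
  rw [← hPX]
  have hf : Function.Surjective (π.subgroupMap P) := MonoidHom.subgroupMap_surjective π P
  exact isCyclic_of_surjective _ hf

end Cfsg.Agent.S3305
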