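import Cfsg.Statements.S3303
import Mathlib
import Cfsg.Agent.Lib.InvolChar.Solvable
import Cfsg.Agent.S3305

set_option autoImplicit false
open Cfsg


namespace Cfsg.Agent.S3303


/-- Let G be a finite solvable group in which the intersection of any two distinct Sylow 2-subgroups is cyclic. Then G/O(G) has a normal Sylow 2-subgroup, where O(G) is the largest normal subgroup of odd order. -/
theorem result {G : Type*} [Group G] [Finite G] (hs : Group.IsSolvable G)
    (hC : ∀ S T : Sylow 2 G, S ≠ T → IsCyclic ↥((S : Subgroup G) ⊓ (T : Subgroup G))) :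
    ∃ P : Sylow 2 (G ⧸ Cfsg.oddCore G), (P : Subgroup (G ⧸ Cfsg.oddCore G)).Normal := by
  have : Fact (Nat.Prime 2) := ⟨Nat.prime_two⟩
  obtain ⟨P⟩ : Nonempty (Sylow 2 (G ⧸ Cfsg.oddCore G)) := inferInstance
  by_cases huniq : ∀ S T : Sylow 2 (G ⧸ Cfsg.oddCore G), S = T
  · refine ⟨P, ?_⟩
    have : Subsingleton (Sylow 2 (G ⧸ Cfsg.oddCore G)) := ⟨huniq⟩
    exact Sylow.normal_of_subsingleton P
  · push_neg at huniq
    obtain ⟨S, T, hST⟩ := huniq
    have hq := Cfsg.Agent.S3305.result hC (Cfsg.oddCore G) S T hST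
    have hle : Cfsg.pCore 2 (G ⧸ Cfsg.oddCore G) ≤ (S : Subgroup _) ⊓ (T : Subgroup _) :=
      le_inf (Cfsg.Agent.Lib.Core.pCore_le_sylow S) (Cfsg.Agent.Lib.Core.pCore_le_sylow T)
    have hcyc : IsCyclic (Cfsg.pCore 2 (G ⧸ Cfsg.oddCore G)) :=
      isCyclic_of_injective (Subgroup.inclusion hle) (Subgroup.inclusion_injective hle)
    have hO : Cfsg.pPrimeCore 2 (G ⧸ Cfsg.oddCore G) = ⊥ := Cfsg.Agent.Lib.Core.pPrimeCore_quotient_eq_bot
    have hp2 := Cfsg.Agent.Lib.InvolChar.isPGroup_of_pCore_cyclic hO hcyc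
    refine ⟨P, ?_⟩
    have htop : (P : Subgroup (G ⧸ Cfsg.oddCore G)) = ⊤ := (P.is_maximal' (hp2.to_subgroup ⊤) le_top).symm
    rw [htop]
    infer_instance

end Cfsg.Agent.S3303
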