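import Cfsg.Statements.S3309
import Mathlib
import Cfsg.Agent.Lib.InvolChar.Transfer

set_option autoImplicit false
open Cfsg

namespace Cfsg.Agent.S3309

abbrev T0 := Multiplicative (ZMod 2) × DihedralGroup 4
def a0 : T0 := (Multiplicative.ofAdd 1, 1)
def x0 : T0 := (1, DihedralGroup.r 1)
def y0 : T0 := (1, DihedralGroup.sr 0)
def z0 : T0 := (1, DihedralGroup.r 2)

def V0 : Finset T0 := {1, a0, z0, a0 * z0}
def O1 : Finset T0 := {y0, z0 * y0, a0 * y0, a0 * z0 * y0}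
def O2 : Finset T0 := {x0 * y0, x0 * z0 * y0, a0 * x0 * y0, a0 * x0 * z0 * y0}
def F1 : Finset T0 := V0 ∪ O1
def F2 : Finset T0 := V0 ∪ O2
def L (p q : T0) : Finset T0 := {1, z0, p, p * z0, q, q * z0, p * q, p * q * z0}

theorem f_sq : ∀ t : T0, t * t = 1 ∨ t * t = z0 := by decide +kernel
theorem f_ne : a0 ≠ 1 ∧ z0 ≠ 1 ∧ a0 ≠ z0 ∧ a0 * z0 ≠ 1 ∧ a0 * z0 ≠ z0 ∧ a0 * z0 ≠ a0 := by decide +kernel
theorem f_xsq : x0 * x0 = z0 := by decide +kernel
theorem f_acen : ∀ t : T0, t * a0 = a0 * t := by decide +kernel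
theorem f_zcen : ∀ t : T0, t * z0 = z0 * t := by decide +kernel
theorem f_aa : a0 * a0 = 1 := by decide +kernel
theorem f_zz : z0 * z0 = 1 := by decide +kernel
theorem f_F1mul : ∀ s ∈ F1, ∀ t ∈ F1, s * t ∈ F1 := by decide +kernel
theorem f_F2mul : ∀ s ∈ F2, ∀ t ∈ F2, s * t ∈ F2 := by decide +kernel
theorem f_F1inv : ∀ s ∈ F1, s⁻¹ ∈ F1 := by decide +kernel
theorem f_F2inv : ∀ s ∈ F2, s⁻¹ ∈ F2 := by decide +kernel
theorem f_F1one : (1 : T0) ∈ F1 := by decide +kernel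
theorem f_F2one : (1 : T0) ∈ F2 := by decide +kernel
theorem f_F1card : F1.card = 8 := by decide +kernel
theorem f_F2card : F2.card = 8 := by decide +kernel
theorem f_F1sq : ∀ s ∈ F1, s * s = 1 := by decide +kernel
theorem f_F2sq : ∀ s ∈ F2, s * s = 1 := by decide +kernel
theorem f_F1comm : ∀ s ∈ F1, ∀ t ∈ F1, s * t = t * s := by decide +kernel
theorem f_F2comm : ∀ s ∈ F2, ∀ t ∈ F2, s * t = t * s := by decide +kernel
theorem f_F1norm : ∀ s : T0, ∀ t ∈ F1, s * t * s⁻¹ ∈ F1 := by decide +kernel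
theorem f_F2norm : ∀ s : T0, ∀ t ∈ F2, s * t * s⁻¹ ∈ F2 := by decide +kernel
theorem f_sqF : ∀ t : T0, t * t = 1 → t ∈ F1 ∨ t ∈ F2 := by decide +kernel
theorem f_mix : ∀ s ∈ F1, ∀ t ∈ F2, s ∉ V0 → t ∉ V0 → (s * t) * (s * t) ≠ 1 := by decide +kernel
theorem f_F1ne : F1 ≠ F2 := by decide +kernel
theorem f_F1V : ∀ s ∈ F1, s ∈ V0 ∨ s ∈ O1 := by decide +kernel
theorem f_F2V : ∀ s ∈ F2, s ∈ V0 ∨ s ∈ O2 := by decide +kernel
theorem f_O1 : ∀ s ∈ O1, s ∉ V0 := by decide +kernel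
theorem f_O2 : ∀ s ∈ O2, s ∉ V0 := by decide +kernel
theorem f_V0F1 : ∀ s ∈ V0, s ∈ F1 := by decide +kernel
theorem f_V0F2 : ∀ s ∈ V0, s ∈ F2 := by decide +kernel
theorem f_O1F : ∀ s ∈ O1, s ∈ F1 := by decide +kernel
theorem f_O2F : ∀ s ∈ O2, s ∈ F2 := by decide +kernel
theorem f_V0 : ∀ s ∈ V0, s = 1 ∨ s = a0 ∨ s = z0 ∨ s = a0 * z0 := by decide +kernel
theorem f_aF : a0 ∈ V0 ∧ z0 ∈ V0 ∧ a0 * z0 ∈ V0 := by decide +kernel
theorem f_O1ne : y0 ∈ O1 := by decide +kernel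
theorem f_O2ne : x0 * y0 ∈ O2 := by decide +kernel
theorem f_O1z : ∀ o ∈ O1, ∃ s : T0, s * o * s⁻¹ = o * z0 := by decide +kernel
theorem f_O2z : ∀ o ∈ O2, ∃ s : T0, s * o * s⁻¹ = o * z0 := by decide +kernel
theorem f_L1 : ∀ p ∈ O1, ∀ q ∈ O2, (1 : T0) ∈ L p q := by decide +kernel
theorem f_Lmul : ∀ p ∈ O1, ∀ q ∈ O2, ∀ s ∈ L p q, ∀ t ∈ L p q, s * t ∈ L p q := by decide +kernel
theorem f_Linv : ∀ p ∈ O1, ∀ q ∈ O2, ∀ s ∈ L p q, s⁻¹ ∈ L p q := by decide +kernel
theorem f_Lcard : ∀ p ∈ O1, ∀ q ∈ O2, (L p q).card = 8 := by decide +kernel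
theorem f_La : ∀ p ∈ O1, ∀ q ∈ O2, a0 ∉ L p q := by decide +kernel
theorem f_Lsq : ∀ p ∈ O1, ∀ q ∈ O2, ∀ s ∈ L p q, s * s = 1 →
    s = 1 ∨ s = z0 ∨ s = p ∨ s = p * z0 ∨ s = q ∨ s = q * z0 := by decide +kernel

/-- subgroup from a closed finset -/
def mkSub (F : Finset T0) (h1 : (1 : T0) ∈ F) (hm : ∀ s ∈ F, ∀ t ∈ F, s * t ∈ F) (hi : ∀ s ∈ F, s⁻¹ ∈ F) :
    Subgroup T0 where
  carrier := (F : Set T0)
  one_mem' := h1
  mul_mem' := fun ha hb => hm _ ha _ hb
  inv_mem' := fun ha => hi _ ha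

lemma mem_mkSub {F : Finset T0} {h1 hm hi} {t : T0} : t ∈ mkSub F h1 hm hi ↔ t ∈ F := Iff.rfl

lemma card_mkSub {F : Finset T0} {h1 hm hi} : Nat.card (mkSub F h1 hm hi) = F.card := by
  have : Nat.card (mkSub F h1 hm hi) = Nat.card (F : Set T0) := rfl
  rw [this, Nat.card_coe_set_eq, Set.ncard_coe_finset]

def E1 : Subgroup T0 := mkSub F1 f_F1one f_F1mul f_F1inv
def E2 : Subgroup T0 := mkSub F2 f_F2one f_F2mul f_F2inv

lemma card_E1 : Nat.card E1 = 8 := by rw [E1, card_mkSub, f_F1card]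
lemma card_E2 : Nat.card E2 = 8 := by rw [E2, card_mkSub, f_F2card]

/-- Any elementary abelian subgroup of order 8 of `T0` is `E1` or `E2`. -/
lemma classify (U : Subgroup T0) (hc : Nat.card U = 8) (hs : ∀ t ∈ U, t * t = 1) : U = E1 ∨ U = E2 := by
  by_cases h1 : ∃ s ∈ U, s ∉ V0 ∧ s ∈ F1
  · left
    obtain ⟨s, hsU, hsV, hsF⟩ := h1
    refine Subgroup.eq_of_le_of_card_ge (fun t ht => ?_) (by rw [hc, card_E1])
    rcases f_sqF t (hs t ht) with h | h
    · exact h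
    · by_cases htV : t ∈ V0
      · exact f_V0F1 t htV
      · exact absurd (hs _ (U.mul_mem hsU ht)) (f_mix s hsF t h hsV htV)
  · right
    push Not at h1
    refine Subgroup.eq_of_le_of_card_ge (fun t ht => ?_) (by rw [hc, card_E2])
    rcases f_sqF t (hs t ht) with h | h
    · by_cases htV : t ∈ V0
      · exact f_V0F2 t htV
      · exact absurd h (h1 t ht htV)
    · exact h

section
variable {G : Type*} [Group G] [Finite G]

/-- Sylow conjugation inside a subgroup containing `S`. -/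
lemma conj_in (S : Sylow 2 G) {C Q : Subgroup G} (hSC : (S : Subgroup G) ≤ C) (hQC : Q ≤ C) (hQ : IsPGroup 2 Q) :
    ∃ h ∈ C, ∀ q ∈ Q, h * q * h⁻¹ ∈ (S : Subgroup G) := by
  have hP : IsPGroup 2 ((S : Subgroup G).comap C.subtype) :=
    S.isPGroup'.comap_of_injective _ C.subtype_injective
  obtain ⟨P, hP'⟩ := hP.exists_le_sylow
  have hPS : (P : Subgroup C).map C.subtype = S := by
    apply S.is_maximal' (P.isPGroup'.map _)
    intro s hs
    exact ⟨⟨s, hSC hs⟩, hP' hs, rfl⟩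
  have hQ' : IsPGroup 2 (Q.comap C.subtype) :=
    hQ.comap_of_injective _ C.subtype_injective
  obtain ⟨Q', hQ''⟩ := hQ'.exists_le_sylow
  obtain ⟨c, hc⟩ := MulAction.exists_smul_eq C Q' P
  refine ⟨c, c.2, fun q hq => ?_⟩
  have h1 : (⟨q, hQC hq⟩ : C) ∈ (Q' : Subgroup C) := hQ'' hq
  have h2 : c * (⟨q, hQC hq⟩ : C) * c⁻¹ ∈ (P : Subgroup C) := by
    rw [← hc, Sylow.coe_subgroup_smul, Subgroup.mem_pointwise_smul_iff_inv_smul_mem]
    simpa [MulAut.smul_def, MulAut.conj_inv_apply, mul_assoc] using h1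
  rw [← hPS]
  exact ⟨_, h2, rfl⟩

lemma normalizer_of_forward {U : Subgroup G} {n : G} (h : ∀ u ∈ U, n * u * n⁻¹ ∈ U) : n ∈ Subgroup.normalizer (U : Set G) := by
  have hmap : U.map (MulAut.conj n).toMonoidHom ≤ U := by
    rintro _ ⟨u, hu, rfl⟩
    exact h u hu
  have hcard : Nat.card (U.map (MulAut.conj n).toMonoidHom) = Nat.card U :=
    (Nat.card_congr (U.equivMapOfInjective _ (MulAut.conj n).injective).toEquiv).symm
  have heq : U.map (MulAut.conj n).toMonoidHom = U := Subgroup.eq_of_le_of_card_ge hmap (by rw [hcard])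
  rw [Subgroup.mem_normalizer_iff]
  intro x
  refine ⟨h x, fun hx => ?_⟩
  rw [← heq] at hx
  obtain ⟨u, hu, hue⟩ := hx
  have : u = x := by
    have : n * u * n⁻¹ = n * x * n⁻¹ := hue
    simpa using this
  rwa [← this]

/-- A `2`-element power trick: an element normalizing `S` has an odd power in `S`. -/
lemma odd_pow_mem (S : Sylow 2 G) {n : G} (hn : n ∈ Subgroup.normalizer ((S : Subgroup G) : Set G)) :
    ∃ r : ℕ, Odd r ∧ n ^ r ∈ (S : Subgroup G) := by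
  have hpos : orderOf n ≠ 0 := (orderOf_pos n).ne'
  obtain ⟨k, m, hm, hkm⟩ := Nat.exists_eq_two_pow_mul_odd hpos
  refine ⟨m, hm, ?_⟩
  have h1 : (n ^ m) ^ (2 ^ k) = 1 := by
    rw [← pow_mul, mul_comm, ← hkm, pow_orderOf_eq_one]
  have hp : IsPGroup 2 (Subgroup.zpowers (n ^ m)) := by
    rw [IsPGroup.iff_card]
    refine ⟨(orderOf (n ^ m)).factorization 2, ?_⟩
    rw [Nat.card_zpowers]
    obtain ⟨j, _, hj⟩ := (Nat.dvd_prime_pow Nat.prime_two).1 (orderOf_dvd_of_pow_eq_one h1)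
    rw [hj]
    simp [Nat.Prime.factorization Nat.prime_two]
  have hle : Subgroup.zpowers (n ^ m) ≤ Subgroup.normalizer ((S : Subgroup G) : Set G) := by
    rw [Subgroup.zpowers_le]
    exact Subgroup.pow_mem _ hn _
  have hsup : IsPGroup 2 (Subgroup.zpowers (n ^ m) ⊔ (S : Subgroup G) : Subgroup G) :=
    hp.to_sup_of_normal_right' S.isPGroup' hle
  have := S.is_maximal' hsup le_sup_right
  rw [← this]
  exact (le_sup_left : Subgroup.zpowers (n ^ m) ≤ _) (Subgroup.mem_zpowers _)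

/-- conjugacy in `G` -/
def Cj (u v : G) : Prop := ∃ g : G, g * u * g⁻¹ = v

lemma Cj.symm {u v : G} (h : Cj u v) : Cj v u := by
  obtain ⟨g, rfl⟩ := h
  exact ⟨g⁻¹, by group⟩

lemma Cj.trans {u v w : G} (h : Cj u v) (h' : Cj v w) : Cj u w := by
  obtain ⟨g, rfl⟩ := h
  obtain ⟨g', rfl⟩ := h'
  exact ⟨g' * g, by group⟩

/-- adjusting a conjugator so that it moves a 2-subgroup of the centralizer of `u` into `S`. -/
lemma adj (S : Sylow 2 G) {c u : G} {D : Subgroup G} (hc : ∀ s ∈ (S : Subgroup G), s * c = c * s)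
    (hDp : IsPGroup 2 D) (hDu : ∀ d ∈ D, d * u = u * d) (h : Cj u c) :
    ∃ g : G, g * u * g⁻¹ = c ∧ ∀ d ∈ D, g * d * g⁻¹ ∈ (S : Subgroup G) := by
  obtain ⟨g, hg⟩ := h
  set C := Subgroup.centralizer ({c} : Set G) with hCdef
  have hSC : (S : Subgroup G) ≤ C := by
    intro s hs
    rw [hCdef, Subgroup.mem_centralizer_singleton_iff]
    exact hc s hs
  let Q : Subgroup G := D.map (MulAut.conj g).toMonoidHom
  have hQC : Q ≤ C := by
    rintro _ ⟨d, hd, rfl⟩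
    rw [hCdef, Subgroup.mem_centralizer_singleton_iff]
    show g * d * g⁻¹ * c = c * (g * d * g⁻¹)
    rw [← hg]
    have := hDu d hd
    calc g * d * g⁻¹ * (g * u * g⁻¹) = g * (d * u) * g⁻¹ := by group
      _ = g * (u * d) * g⁻¹ := by rw [this]
      _ = _ := by group
  obtain ⟨h', h'C, hh⟩ := conj_in S hSC hQC (hDp.map _)
  refine ⟨h' * g, ?_, fun d hd => ?_⟩
  · have h2 : h' * c = c * h' := by
      rw [hCdef, Subgroup.mem_centralizer_singleton_iff] at h'C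
      exact h'C
    calc h' * g * u * (h' * g)⁻¹ = h' * (g * u * g⁻¹) * h'⁻¹ := by group
      _ = h' * c * h'⁻¹ := by rw [hg]
      _ = c := by rw [h2]; group
  · have := hh (g * d * g⁻¹) ⟨d, hd, rfl⟩
    have e : h' * g * d * (h' * g)⁻¹ = h' * (g * d * g⁻¹) * h'⁻¹ := by group
    rw [e]
    exact this

end

/-- the package of data for the proof -/
structure Pk {G : Type*} [Group G] [Finite G] (S : Sylow 2 G) where
  ι : T0 →* G
  inj : Function.Injective ι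
  mem : ∀ t, ι t ∈ (S : Subgroup G)
  surj : ∀ s ∈ (S : Subgroup G), ∃ t, ι t = s

namespace Pk
variable {G : Type*} [Group G] [Finite G] {S : Sylow 2 G} (P : Pk S)

def va : G := P.ι a0
def vz : G := P.ι z0

lemma cen_a : ∀ s ∈ (S : Subgroup G), s * P.va = P.va * s := by
  intro s hs
  obtain ⟨t, rfl⟩ := P.surj s hs
  rw [va, ← map_mul, ← map_mul, f_acen]

lemma cen_z : ∀ s ∈ (S : Subgroup G), s * P.vz = P.vz * s := by
  intro s hs
  obtain ⟨t, rfl⟩ := P.surj s hs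
  rw [vz, ← map_mul, ← map_mul, f_zcen]

lemma cen_az : ∀ s ∈ (S : Subgroup G), s * (P.va * P.vz) = (P.va * P.vz) * s := by
  intro s hs
  rw [← mul_assoc, P.cen_a s hs, mul_assoc, P.cen_z s hs, mul_assoc]


/-- Burnside's fusion lemma for central elements -/
lemma burnside {c c' : G} (hc : ∀ s ∈ (S : Subgroup G), s * c = c * s) (hc' : ∀ s ∈ (S : Subgroup G), s * c' = c' * s)
    (h : Cj c c') :
    ∃ n ∈ Subgroup.normalizer ((S : Subgroup G) : Set G), n * c * n⁻¹ = c' := by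
  obtain ⟨g, hg, hD⟩ := adj (D := (S : Subgroup G)) S hc' S.isPGroup' hc h
  exact ⟨g, normalizer_of_forward hD, hg⟩

include P in
lemma vz_fixed {n : G} (hn : n ∈ Subgroup.normalizer ((S : Subgroup G) : Set G)) : n * P.vz * n⁻¹ = P.vz := by
  have hx : n * P.ι x0 * n⁻¹ ∈ (S : Subgroup G) := (Subgroup.mem_normalizer_iff.1 hn _).1 (P.mem x0)
  obtain ⟨t, ht⟩ := P.surj _ hx
  have h1 : n * P.vz * n⁻¹ = P.ι (t * t) := by
    rw [map_mul, ht, vz, ← f_xsq, map_mul]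
    group
  rcases f_sq t with h | h
  · exfalso
    rw [h, map_one] at h1
    have : P.vz = 1 := by
      have h2 : P.vz = n⁻¹ * (n * P.vz * n⁻¹) * n := by group
      rw [h2, h1]; group
    exact f_ne.2.1 (P.inj (by rw [map_one]; exact this))
  · rw [h1, h]; rfl

lemma vz_ne : P.vz ≠ 1 := fun h => f_ne.2.1 (P.inj (by rw [map_one]; exact h))
lemma va_ne : P.va ≠ 1 := fun h => f_ne.1 (P.inj (by rw [map_one]; exact h))
lemma vaz_ne : P.va * P.vz ≠ 1 := fun h => f_ne.2.2.2.1 (P.inj (by rw [map_one, map_mul]; exact h))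
lemma va_ne_vz : P.va ≠ P.vz := fun h => f_ne.2.2.1 (P.inj h)
lemma vaz_ne_vz : P.va * P.vz ≠ P.vz := fun h => f_ne.2.2.2.2.1 (P.inj (by rw [map_mul]; exact h))
lemma vaz_ne_va : P.va * P.vz ≠ P.va := fun h => f_ne.2.2.2.2.2 (P.inj (by rw [map_mul]; exact h))

lemma vz_sq : P.vz * P.vz = 1 := by rw [vz, ← map_mul, f_zz, map_one]
lemma va_sq : P.va * P.va = 1 := by rw [va, ← map_mul, f_aa, map_one]

lemma not_a_z : ¬ Cj P.va P.vz := by
  intro h
  obtain ⟨n, hn, he⟩ := burnside P.cen_z P.cen_a h.symm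
  rw [P.vz_fixed hn] at he
  exact P.va_ne_vz he.symm

lemma not_az_z : ¬ Cj (P.va * P.vz) P.vz := by
  intro h
  obtain ⟨n, hn, he⟩ := burnside P.cen_z P.cen_az h.symm
  rw [P.vz_fixed hn] at he
  exact P.vaz_ne_vz he.symm

lemma not_a_az : ¬ Cj P.va (P.va * P.vz) := by
  intro h
  obtain ⟨n, hn, he⟩ := burnside P.cen_a P.cen_az h
  have hz := P.vz_fixed hn
  have key : ∀ k : ℕ, n ^ (2 * k) * P.va * (n ^ (2 * k))⁻¹ = P.va ∧
      n ^ (2 * k + 1) * P.va * (n ^ (2 * k + 1))⁻¹ = P.va * P.vz := by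
    intro k
    have step : ∀ w : G, w * P.va * w⁻¹ = P.va * P.vz → (n * w) * P.va * (n * w)⁻¹ = P.va := by
      intro w hw
      calc (n * w) * P.va * (n * w)⁻¹ = n * (w * P.va * w⁻¹) * n⁻¹ := by group
        _ = n * (P.va * P.vz) * n⁻¹ := by rw [hw]
        _ = (n * P.va * n⁻¹) * (n * P.vz * n⁻¹) := by group
        _ = P.va * P.vz * P.vz := by rw [he, hz]
        _ = P.va := by rw [mul_assoc, P.vz_sq, mul_one]
    have step2 : ∀ w : G, w * P.va * w⁻¹ = P.va → (n * w) * P.va * (n * w)⁻¹ = P.va * P.vz := by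
      intro w hw
      calc (n * w) * P.va * (n * w)⁻¹ = n * (w * P.va * w⁻¹) * n⁻¹ := by group
        _ = n * P.va * n⁻¹ := by rw [hw]
        _ = _ := he
    induction k with
    | zero => simpa using he
    | succ k ih =>
      have h1 : n ^ (2 * (k + 1)) = n * n ^ (2 * k + 1) := by rw [← pow_succ']; ring_nf
      have h2 : n ^ (2 * (k + 1) + 1) = n * n ^ (2 * (k + 1)) := by rw [← pow_succ']
      have h3 := step _ ih.2
      rw [← h1] at h3
      refine ⟨h3, ?_⟩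
      have h4 := step2 _ h3
      rwa [← h2] at h4
  obtain ⟨r, hr, hrS⟩ := odd_pow_mem S hn
  obtain ⟨k, rfl⟩ := hr
  have h1 := (key k).2
  have h2 := P.cen_a _ hrS
  rw [h2] at h1
  have h3 : P.va = P.va * P.vz := by
    rw [← h1]; group
  exact P.vaz_ne_va h3.symm

section keep
variable {E E' : Subgroup T0}

/-- conjugate subgroup -/
abbrev cj (g : G) (U : Subgroup G) : Subgroup G := U.map (MulAut.conj g).toMonoidHom

lemma mem_cj {g x : G} {U : Subgroup G} : x ∈ cj g U ↔ g⁻¹ * x * g ∈ U := by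
  rw [cj, Subgroup.mem_map_equiv, MulAut.conj_symm_apply]

lemma cj_mul (g h : G) (U : Subgroup G) : cj (g * h) U = cj g (cj h U) := by
  ext x; simp only [mem_cj]; simp [mul_assoc]

lemma cj_one (U : Subgroup G) : cj (1 : G) U = U := by
  ext x; simp [mem_cj]

lemma cj_inj (g : G) {U U' : Subgroup G} (h : cj g U = cj g U') : U = U' := by
  ext x
  have := congrArg (fun W => g * x * g⁻¹ ∈ W) h
  simp only [mem_cj, eq_iff_iff] at this
  simpa [mul_assoc] using this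

/-- The hypotheses on `E` and `E'`. -/
structure EE (E E' : Subgroup T0) : Prop where
  sq : ∀ t ∈ E, t * t = 1
  sq' : ∀ t ∈ E', t * t = 1
  norm : ∀ s, ∀ t ∈ E, s * t * s⁻¹ ∈ E
  norm' : ∀ s, ∀ t ∈ E', s * t * s⁻¹ ∈ E'
  comm : ∀ s ∈ E, ∀ t ∈ E, s * t = t * s
  card : Nat.card E = 8
  card' : Nat.card E' = 8
  ne : E ≠ E'
  cl : ∀ U : Subgroup T0, Nat.card U = 8 → (∀ t ∈ U, t * t = 1) → U = E ∨ U = E'

lemma ee12 : EE E1 E2 where
  sq := f_F1sq
  sq' := f_F2sq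
  norm := f_F1norm
  norm' := f_F2norm
  comm := f_F1comm
  card := card_E1
  card' := card_E2
  ne := by
    intro h
    apply f_F1ne
    ext t
    have := congrArg (fun U : Subgroup T0 => t ∈ U) h
    simpa [E1, E2, mem_mkSub] using this
  cl := classify

lemma ee21 : EE E2 E1 where
  sq := f_F2sq
  sq' := f_F1sq
  norm := f_F2norm
  norm' := f_F1norm
  comm := f_F2comm
  card := card_E2
  card' := card_E1
  ne := ee12.ne.symm
  cl := fun U h h' => (classify U h h').symm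

/-- the pull-back to `T0` of the `g`-conjugate of the image of `E`. -/
def pb (g : G) (E : Subgroup T0) : Subgroup T0 := (cj g (E.map P.ι)).comap P.ι

include P in
lemma pb_spec {g : G} {E : Subgroup T0} (h : ∀ t ∈ E, g * P.ι t * g⁻¹ ∈ (S : Subgroup G)) :
    (P.pb g E).map P.ι = cj g (E.map P.ι) := by
  ext w
  constructor
  · rintro ⟨t, ht, rfl⟩
    exact ht
  · intro hw
    obtain ⟨_, ⟨t, ht, rfl⟩, rfl⟩ := hw
    obtain ⟨t', ht'⟩ := P.surj _ (h t ht)
    refine ⟨t', ?_, ht'⟩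
    show P.ι t' ∈ cj g (E.map P.ι)
    rw [ht']
    exact ⟨_, ⟨t, ht, rfl⟩, rfl⟩

lemma card_map_ι (U : Subgroup T0) : Nat.card (U.map P.ι) = Nat.card U :=
  (Nat.card_congr (U.equivMapOfInjective _ P.inj).toEquiv).symm

lemma card_cj (g : G) (U : Subgroup G) : Nat.card (cj g U) = Nat.card U :=
  (Nat.card_congr (U.equivMapOfInjective _ (MulAut.conj g).injective).toEquiv).symm

include P in
lemma pb_cases (h : EE E E') {g : G} {F : Subgroup T0} (hFc : Nat.card F = 8) (hFs : ∀ t ∈ F, t * t = 1)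
    (hg : ∀ t ∈ F, g * P.ι t * g⁻¹ ∈ (S : Subgroup G)) : P.pb g F = E ∨ P.pb g F = E' := by
  apply h.cl
  · have h1 : Nat.card ((P.pb g F).map P.ι) = Nat.card (cj g (F.map P.ι)) := by rw [P.pb_spec hg]
    rw [P.card_map_ι, card_cj, P.card_map_ι, hFc] at h1
    exact h1
  · intro t ht
    obtain ⟨_, ⟨s, hs, rfl⟩, hst⟩ := (show P.ι t ∈ cj g (F.map P.ι) from ht)
    apply P.inj
    rw [map_mul, ← hst, map_one]
    simp only [MulEquiv.coe_toMonoidHom, MulAut.conj_apply]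
    have := hFs s hs
    calc g * P.ι s * g⁻¹ * (g * P.ι s * g⁻¹) = g * P.ι (s * s) * g⁻¹ := by rw [map_mul]; group
      _ = 1 := by rw [this, map_one]; group

lemma odd_conj {n : G} {A B : Subgroup G} (h1 : cj n A = B) (h2 : cj n B = A) (m : ℕ) :
    cj (n ^ (2 * m + 1)) A = B := by
  induction m with
  | zero => simpa using h1
  | succ m ih =>
    have e : n ^ (2 * (m + 1) + 1) = n * (n * n ^ (2 * m + 1)) := by
      rw [← mul_assoc, ← pow_two, ← pow_add]; ring_nf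
    rw [e, cj_mul, cj_mul, ih, h2, h1]

include P in
lemma no_swap (h : EE E E') {g : G} (hg : ∀ t ∈ E, g * P.ι t * g⁻¹ ∈ (S : Subgroup G))
    (hpb : P.pb g E = E') : False := by
  classical
  have hD : cj g (E.map P.ι) = E'.map P.ι := by rw [← P.pb_spec hg, hpb]
  set C := Subgroup.normalizer ((E'.map P.ι : Subgroup G) : Set G) with hCdef
  have hSC : (S : Subgroup G) ≤ C := by
    intro s hs
    obtain ⟨t, rfl⟩ := P.surj s hs
    apply normalizer_of_forward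
    rintro _ ⟨u, hu, rfl⟩
    exact ⟨t * u * t⁻¹, h.norm' t u hu, by simp⟩
  have hQC : cj g (S : Subgroup G) ≤ C := by
    rintro _ ⟨s, hs, rfl⟩
    apply normalizer_of_forward
    intro w hw
    rw [← hD] at hw ⊢
    obtain ⟨_, ⟨u, hu, rfl⟩, rfl⟩ := hw
    obtain ⟨t, rfl⟩ := P.surj s hs
    refine ⟨_, ⟨t * u * t⁻¹, h.norm t u hu, rfl⟩, ?_⟩
    show g * P.ι (t * u * t⁻¹) * g⁻¹ = (g * P.ι t * g⁻¹) * (g * P.ι u * g⁻¹) * (g * P.ι t * g⁻¹)⁻¹
    simp only [map_mul, map_inv]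
    group
  obtain ⟨k, hkC, hk⟩ := conj_in S hSC hQC (S.isPGroup'.map _)
  set n := k * g with hn
  have hnS : ∀ s ∈ (S : Subgroup G), n * s * n⁻¹ ∈ (S : Subgroup G) := by
    intro s hs
    have := hk _ (show g * s * g⁻¹ ∈ cj g (S : Subgroup G) from ⟨s, hs, rfl⟩)
    have e : n * s * n⁻¹ = k * (g * s * g⁻¹) * k⁻¹ := by rw [hn]; group
    rwa [e]
  have hnN : n ∈ Subgroup.normalizer ((S : Subgroup G) : Set G) := normalizer_of_forward hnS
  have hkD : cj k (E'.map P.ι) = E'.map P.ι := by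
    ext w
    rw [mem_cj]
    have := Subgroup.mem_normalizer_iff.1 hkC (k⁻¹ * w * k)
    have e : k * (k⁻¹ * w * k) * k⁻¹ = w := by group
    rwa [e] at this
  have hnD : cj n (E.map P.ι) = E'.map P.ι := by
    rw [hn, cj_mul, hD, hkD]
  -- the image of `E'`
  have hE'mem : ∀ t ∈ E', n * P.ι t * n⁻¹ ∈ (S : Subgroup G) := fun t _ => hnS _ (P.mem t)
  have hD' : cj n (E'.map P.ι) = E.map P.ι := by
    rcases P.pb_cases h h.card' h.sq' hE'mem with h1 | h1
    · rw [← P.pb_spec hE'mem, h1]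
    · exfalso
      have h2 : cj n (E'.map P.ι) = E'.map P.ι := by rw [← P.pb_spec hE'mem, h1]
      have h3 := cj_inj n (hnD.trans h2.symm)
      apply h.ne
      exact Subgroup.map_injective P.inj h3
  -- parity
  have key : ∀ m : ℕ, cj (n ^ (2 * m + 1)) (E.map P.ι) = E'.map P.ι := fun m => odd_conj hnD hD' m
  obtain ⟨r, hr, hrS⟩ := odd_pow_mem S hnN
  obtain ⟨m, rfl⟩ := hr
  have h1 := key m
  obtain ⟨t, ht⟩ := P.surj _ hrS
  have h2 : cj (n ^ (2 * m + 1)) (E.map P.ι) = E.map P.ι := by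
    rw [← ht]
    ext w
    rw [mem_cj]
    constructor
    · rintro ⟨u, hu, hue⟩
      refine ⟨t * u * t⁻¹, h.norm t u hu, ?_⟩
      rw [map_mul, map_mul, map_inv, hue]
      group
    · rintro ⟨u, hu, rfl⟩
      refine ⟨t⁻¹ * u * t⁻¹⁻¹, h.norm t⁻¹ u hu, ?_⟩
      simp only [map_mul, map_inv, inv_inv]
  apply h.ne
  exact Subgroup.map_injective P.inj (h2.symm.trans h1)

lemma keep (h : EE E E') {o : T0} (ho : o ∈ E) (hc : Cj (P.ι o) P.va) :
    ∃ g : G, g * P.ι o * g⁻¹ = P.va ∧ ∀ t ∈ E, ∃ t' ∈ E, g * P.ι t * g⁻¹ = P.ι t' := by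
  have hDp : IsPGroup 2 (E.map P.ι) := by
    intro d
    refine ⟨1, ?_⟩
    obtain ⟨t, ht, hte⟩ := d.2
    apply Subtype.ext
    show (d : G) ^ 2 ^ 1 = 1
    rw [← hte, pow_one, pow_two, ← map_mul, h.sq t ht, map_one]
  obtain ⟨g, hg, hD⟩ := adj (D := E.map P.ι) S P.cen_a hDp
    (by
      rintro _ ⟨t, ht, rfl⟩
      rw [← map_mul, ← map_mul, h.comm t ht o ho]) hc
  have hg' : ∀ t ∈ E, g * P.ι t * g⁻¹ ∈ (S : Subgroup G) := fun t ht => hD _ ⟨t, ht, rfl⟩
  refine ⟨g, hg, fun t ht => ?_⟩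
  rcases P.pb_cases h h.card h.sq hg' with h1 | h1
  · obtain ⟨t', ht'⟩ := P.surj _ (hg' t ht)
    refine ⟨t', ?_, ht'.symm⟩
    rw [← h1]
    show P.ι t' ∈ cj g (E.map P.ι)
    rw [ht']
    exact ⟨_, ⟨t, ht, rfl⟩, rfl⟩
  · exact (P.no_swap h hg' h1).elim

/-- some outer element of `E` is not conjugate to `a`. -/
lemma exists_nonconj (h : EE E E') {O : Finset T0} (hO : ∃ o, o ∈ O) (hOE : ∀ o ∈ O, o ∈ E)
    (hOV : ∀ o ∈ O, o ∉ V0) (hEV : ∀ t ∈ E, t ∈ V0 ∨ t ∈ O) (hV : (a0 ∈ E) ∧ (z0 ∈ E) ∧ (a0 * z0 ∈ E)) : ∃ o ∈ O, ¬ Cj P.va (P.ι o) := by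
  by_contra hcon
  push Not at hcon
  obtain ⟨o, ho⟩ := hO
  obtain ⟨g, hg, hgE⟩ := P.keep h (hOE o ho) (hcon o ho).symm
  -- `g` fixes `z` and `az`
  have hE : ∀ t ∈ E, (P.ι t = 1 ∨ P.ι t = P.va ∨ P.ι t = P.vz ∨ P.ι t = P.va * P.vz) ∨ Cj P.va (P.ι t) := by
    intro t ht
    rcases hEV t ht with h1 | h1
    · left
      rcases f_V0 t h1 with r | r | r | r <;> rw [r]
      · left; exact map_one _
      · right; left; rfl
      · right; right; left; rfl
      · right; right; right; exact map_mul _ _ _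
    · right; exact hcon t h1
  have hgz : g * P.vz * g⁻¹ = P.vz := by
    obtain ⟨t, ht, hte⟩ := hgE z0 hV.2.1
    have hc : Cj P.vz (P.ι t) := ⟨g, hte⟩
    rcases hE t ht with h1 | h1
    · rcases h1 with r | r | r | r
      · exfalso
        rw [r] at hc
        obtain ⟨g', hg'⟩ := hc
        apply P.vz_ne
        have : P.vz = g'⁻¹ * (g' * P.vz * g'⁻¹) * g' := by group
        rw [this, hg']; group
      · rw [r] at hc
        exact absurd hc.symm P.not_a_z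
      · show g * P.ι z0 * g⁻¹ = P.vz
        rw [hte, r]
      · rw [r] at hc
        exact absurd hc.symm P.not_az_z
    · exact absurd (h1.trans hc.symm) P.not_a_z
  have hgaz : g * (P.va * P.vz) * g⁻¹ = P.va * P.vz := by
    have e : g * (P.va * P.vz) * g⁻¹ = g * P.ι (a0 * z0) * g⁻¹ := by rw [map_mul]; rfl
    rw [e]
    obtain ⟨t, ht, hte⟩ := hgE (a0 * z0) hV.2.2
    have hc : Cj (P.va * P.vz) (P.ι t) := ⟨g, by rw [← hte, map_mul]; rfl⟩
    rcases hE t ht with h1 | h1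
    · rcases h1 with r | r | r | r
      · exfalso
        rw [r] at hc
        obtain ⟨g', hg'⟩ := hc
        apply P.vaz_ne
        have : P.va * P.vz = g'⁻¹ * (g' * (P.va * P.vz) * g'⁻¹) * g' := by group
        rw [this, hg']; group
      · rw [r] at hc
        exact absurd hc.symm P.not_a_az
      · rw [r] at hc
        exact absurd hc P.not_az_z
      · rw [hte, r]
    · exact absurd (h1.trans hc.symm) P.not_a_az
  have hga : g * P.va * g⁻¹ = P.va := by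
    have e : P.va = (P.va * P.vz) * P.vz := by rw [mul_assoc, P.vz_sq, mul_one]
    calc g * P.va * g⁻¹ = g * ((P.va * P.vz) * P.vz) * g⁻¹ := by rw [← e]
      _ = (g * (P.va * P.vz) * g⁻¹) * (g * P.vz * g⁻¹) := by group
      _ = (P.va * P.vz) * P.vz := by rw [hgaz, hgz]
      _ = P.va := e.symm
  have hoa : P.ι o = P.va := by
    have h1 : g * P.ι o * g⁻¹ = g * P.va * g⁻¹ := by rw [hg, hga]
    simpa using h1
  have hoa' : o = a0 := P.inj hoa
  exact hOV o ho (hoa' ▸ f_aF.1)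

end keep

end Pk

/-- A finite group whose Sylow 2-subgroups are isomorphic to the direct product of a group of order 2 and the dihedral group of order 8 is not a non-abelian simple group. -/
theorem result {G : Type*} [Group G] [Finite G] (S : Sylow 2 G) (hS : Nonempty (↥(S : Subgroup G) ≃* Multiplicative (ZMod 2) × DihedralGroup 4))
    [IsSimpleGroup G] (hG : ¬ IsMulCommutative G) : False := by
  classical
  obtain ⟨e⟩ := hS
  let P : Pk S :=
    { ι := (S : Subgroup G).subtype.comp e.symm.toMonoidHom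
      inj := fun a b h => e.symm.injective (Subtype.ext h)
      mem := fun t => (e.symm t).2
      surj := fun s hs => ⟨e ⟨s, hs⟩, by simp⟩ }
  have hVE1 : (a0 ∈ E1) ∧ (z0 ∈ E1) ∧ (a0 * z0 ∈ E1) :=
    ⟨f_V0F1 _ f_aF.1, f_V0F1 _ f_aF.2.1, f_V0F1 _ f_aF.2.2⟩
  have hVE2 : (a0 ∈ E2) ∧ (z0 ∈ E2) ∧ (a0 * z0 ∈ E2) :=
    ⟨f_V0F2 _ f_aF.1, f_V0F2 _ f_aF.2.1, f_V0F2 _ f_aF.2.2⟩
  obtain ⟨p, hp, hpc⟩ := P.exists_nonconj Pk.ee12 (O := O1) ⟨_, f_O1ne⟩ f_O1F f_O1 f_F1V hVE1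
  obtain ⟨q, hq, hqc⟩ := P.exists_nonconj Pk.ee21 (O := O2) ⟨_, f_O2ne⟩ f_O2F f_O2 f_F2V hVE2
  have hzc : ∀ o : T0, (∃ s : T0, s * o * s⁻¹ = o * z0) → Cj (P.ι o) (P.ι (o * z0)) := by
    rintro o ⟨s, hs⟩
    refine ⟨P.ι s, ?_⟩
    rw [← hs, map_mul, map_mul, map_inv]
  let M₀ : Subgroup T0 := mkSub (L p q) (f_L1 p hp q hq) (f_Lmul p hp q hq) (f_Linv p hp q hq)
  let M : Subgroup G := M₀.map P.ι
  have hMS : M ≤ (S : Subgroup G) := by
    rintro _ ⟨t, _, rfl⟩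
    exact P.mem t
  have hcT : Nat.card T0 = 16 := by
    rw [Nat.card_eq_fintype_card]; decide +kernel
  have hcS : Nat.card (S : Subgroup G) = 16 := by
    rw [Nat.card_congr e.toEquiv, hcT]
  have hcM : Nat.card M = 8 := by
    rw [P.card_map_ι, card_mkSub, f_Lcard p hp q hq]
  have hrel : M.relIndex (S : Subgroup G) = 2 := by
    have h1 := Subgroup.card_mul_index (M.subgroupOf (S : Subgroup G))
    have h2 : Nat.card (M.subgroupOf (S : Subgroup G)) = 8 := by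
      rw [Nat.card_congr (Subgroup.subgroupOfEquivOfLe hMS).toEquiv, hcM]
    rw [h2, hcS] at h1
    show (M.subgroupOf (S : Subgroup G)).index = 2
    omega
  obtain ⟨τ, hτ⟩ := Cfsg.Agent.Lib.InvolChar.exists_parity_transfer (S := (S : Subgroup G)) S.not_dvd_index hrel
  have hord : orderOf P.va = 2 ^ 1 := by
    rw [pow_one]
    apply orderOf_eq_prime (by rw [pow_two]; exact P.va_sq) P.va_ne
  have hne := hτ P.va (P.mem a0) 1 le_rfl hord ?_ ?_
  · have hker : τ.ker = ⊥ := by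
      rcases (IsSimpleGroup.eq_bot_or_eq_top_of_normal τ.ker inferInstance) with h | h
      · exact h
      · exfalso
        apply hne
        have : P.va ∈ τ.ker := by rw [h]; trivial
        exact this
    apply hG
    refine ⟨⟨fun x y => ?_⟩⟩
    apply (MonoidHom.ker_eq_bot_iff τ).1 hker
    rw [map_mul, map_mul, mul_comm]
  · intro g hg
    obtain ⟨m, hm, hme⟩ := hg
    have hmL : m ∈ L p q := hm
    have hsq : m * m = 1 := by
      apply P.inj
      rw [map_mul, hme, map_one]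
      calc g * P.va * g⁻¹ * (g * P.va * g⁻¹) = g * (P.va * P.va) * g⁻¹ := by group
        _ = 1 := by rw [P.va_sq]; group
    have hC : Cj P.va (P.ι m) := ⟨g, hme.symm⟩
    rcases f_Lsq p hp q hq m hmL hsq with r | r | r | r | r | r
    · rw [r, map_one] at hC
      obtain ⟨g', hg'⟩ := hC
      apply P.va_ne
      have : P.va = g'⁻¹ * (g' * P.va * g'⁻¹) * g' := by group
      rw [this, hg']; group
    · rw [r] at hC
      exact P.not_a_z hC
    · rw [r] at hC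
      exact hpc hC
    · rw [r] at hC
      exact hpc (hC.trans (hzc p (f_O1z p hp)).symm)
    · rw [r] at hC
      exact hqc hC
    · rw [r] at hC
      exact hqc (hC.trans (hzc q (f_O2z q hq)).symm)
  · intro y _ hy
    rw [pow_zero] 
    have hy1 : y ≠ 1 := fun h => hy (h ▸ M.one_mem)
    have h1 := orderOf_pos y
    have h2 : orderOf y ≠ 1 := fun h => hy1 (orderOf_eq_one_iff.1 h)
    show 1 < orderOf y
    omega

end Cfsg.Agent.S3309
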