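import Cfsg.Statements.S3315
import Mathlib
import Cfsg.Agent.Lib.Suz2.RigidUU

set_option autoImplicit false
open Cfsg

namespace Cfsg.Agent.S3315

open Cfsg.Agent.Lib.Classical

/-- Let S be a Sylow 2-subgroup of SU₃(2ⁿ), n ≥ 2 (realised over the field with 4ⁿ elements). If a finite 2-group R contains a subgroup S' of index 2 isomorphic to S, then the centre of S' is contained in the centre of R. -/
theorem result {R : Type*} [Group R] [Finite R]
    (hR : IsPGroup 2 R) (n : ℕ) (hn : 2 ≤ n) {F : Type*} [Field F] [Fintype F] (hF : Fintype.card F = 4 ^ n)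
    (P : Sylow 2 ↥(Cfsg.SU 3 F (2 ^ n))) (S' : Subgroup R) (hS : Nonempty (↥S' ≃* ↥(P : Subgroup ↥(Cfsg.SU 3 F (2 ^ n)))))
    (hidx : S'.index = 2) :
    (Subgroup.center ↥S').map S'.subtype ≤ Subgroup.center R := by
  classical
  have hF' : Fintype.card F = (2 ^ n) ^ 2 := by
    rw [hF, ← pow_mul, mul_comm, pow_mul]
    norm_num
  have hn1 : 1 ≤ n := by omega
  have h2 := Cfsg.Agent.PSU2.two_eq_zero_of_card hn1 hF'
  haveI : CharP F 2 := CharTwo.of_one_ne_zero_of_two_eq_zero one_ne_zero h2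
  obtain ⟨e0⟩ := hS
  obtain ⟨e1⟩ := Cfsg.Agent.Suz2.Rig.sylow_equiv_SU hn1 hF' P
  let e := e0.trans e1
  let D := (Cfsg.Agent.Suz2.Rig.rdUU hF' h2).transport e
  haveI hnorm : S'.Normal := Subgroup.normal_of_index_eq_two hidx
  rintro _ ⟨z, hz, rfl⟩
  rw [Subgroup.mem_center_iff]
  intro g
  by_cases hg : g ∈ S'
  · have := Subgroup.mem_center_iff.mp hz ⟨g, hg⟩
    exact congrArg Subtype.val this
  -- the automorphism
  let φ : MulAut S' := MulAut.conjNormal g
  have hz0 : D.ca z = 0 := (D.mem_center_iff z).mp hz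
  have hsq : D.Phi φ * D.Phi φ = 1 := by
    rw [← map_mul]
    rw [← MonoidHom.mem_ker, D.mem_ker_iff]
    intro x
    have hgg : g * g ∈ S' := Subgroup.mul_self_mem_of_index_two hidx g
    have e3 : (φ * φ) x = ⟨g * g, hgg⟩ * x * (⟨g * g, hgg⟩ : S')⁻¹ := by
      apply Subtype.ext
      show g * (g * (x : R) * g⁻¹) * g⁻¹ = g * g * (x : R) * (g * g)⁻¹
      group
    rw [e3, D.ca_mul, D.ca_mul, D.ca_inv]
    have h3 := CharTwo.add_self_eq_zero (D.ca (⟨g * g, hgg⟩ : S'))
    linear_combination h3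
  have hfix := D.fix_center_of_sq (pow_q_pow_q hF') (Cfsg.Agent.Suz2.Rig.invol_eq hF') φ hsq hz0
  have h3 : g * (z : R) * g⁻¹ = z := congrArg Subtype.val hfix
  show g * _ = _ * g
  calc g * S'.subtype z = g * (z : R) * g⁻¹ * g := by
        show g * (z : R) = _
        group
    _ = _ := by
        rw [h3]
        rfl

end Cfsg.Agent.S3315
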