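import Cfsg.Statements.S3335
import Mathlib
import Cfsg.Agent.Lib.GS1.Carm
import Cfsg.Agent.Lib.GS1.Mono

set_option autoImplicit false
open Cfsg

namespace Cfsg.Agent.S3335

open Cfsg.Agent.Lib.GS1 Cfsg.Agent.Lib.GS1.Carm

section swaps

variable {α : Type*} [DecidableEq α]

theorem swap_sq' (a b : α) : (Equiv.swap a b) ^ 2 = 1 := by
  rw [pow_two, Equiv.swap_mul_self]

theorem swap_comm_disj {a b c d : α} (hca : c ≠ a) (hcb : c ≠ b) (hda : d ≠ a) (hdb : d ≠ b) :
    Commute (Equiv.swap a b) (Equiv.swap c d) := by
  by_cases hab : a = b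
  · subst hab
    rw [Equiv.swap_self]
    exact Commute.one_left _
  by_cases hcd : c = d
  · subst hcd
    rw [Equiv.swap_self]
    exact Commute.one_right _
  exact (Equiv.Perm.disjoint_swap_swap (by
    simp [hab, hcd, hca.symm, hcb.symm, hda.symm, hdb.symm])).commute

theorem disj_sq {a b c d : α} (hca : c ≠ a) (hcb : c ≠ b) (hda : d ≠ a) (hdb : d ≠ b) :
    (Equiv.swap a b * Equiv.swap c d) ^ 2 = 1 := by
  rw [(swap_comm_disj hca hcb hda hdb).mul_pow, swap_sq', swap_sq', mul_one]

variable [Fintype α]

theorem three_pow {a b c : α} (hab : a ≠ b) (hac : a ≠ c) (hbc : b ≠ c) :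
    (Equiv.swap a b * Equiv.swap a c) ^ 3 = 1 := by
  have h := (Equiv.Perm.isThreeCycle_swap_mul_swap_same hab hac hbc).orderOf
  rw [← h, pow_orderOf_eq_one]

omit [Fintype α] in
/-- Conjugating a transposition by a transposition. -/
theorem swap_conj {a b c : α} (hac : a ≠ c) (hbc : b ≠ c) :
    Equiv.swap a b * Equiv.swap a c * Equiv.swap a b = Equiv.swap b c := by
  have h := Equiv.swap_apply_apply (Equiv.swap a b) a c
  rw [Equiv.swap_apply_left, Equiv.swap_apply_of_ne_of_ne hac.symm hbc.symm, Equiv.swap_inv] at h
  exact h.symm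

end swaps

section concrete

variable (n : ℕ) (hn : 3 ≤ n)

/-- The points. -/
def p (k : ℕ) : Fin n := ⟨k % n, Nat.mod_lt _ (by omega)⟩

variable {n}

include hn in
theorem p_ne {j k : ℕ} (hj : j < n) (hk : k < n) (h : j ≠ k) : p n hn j ≠ p n hn k := by
  intro e
  have := congrArg Fin.val e
  simp only [p, Nat.mod_eq_of_lt hj, Nat.mod_eq_of_lt hk] at this
  exact h this

theorem p_val (a : Fin n) : p n hn a.1 = a := by
  apply Fin.ext
  simp only [p, Nat.mod_eq_of_lt a.2]

variable (n)

/-- The transposition of the first two points. -/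
def tau : Equiv.Perm (Fin n) := Equiv.swap (p n hn 0) (p n hn 1)

/-- The transposition of points `0` and `2`. -/
def uu : Equiv.Perm (Fin n) := Equiv.swap (p n hn 0) (p n hn 2)

/-- The transposition of points `i + 1` and `i + 2`. -/
def sw (i : ℕ) : Equiv.Perm (Fin n) := Equiv.swap (p n hn (i + 1)) (p n hn (i + 2))

/-- The images of the generators. -/
def XX (i : ℕ) : Equiv.Perm (Fin n) := if i = 0 then tau n hn * uu n hn else tau n hn * sw n hn i

variable {n}

theorem XX_zero : XX n hn 0 = tau n hn * uu n hn := if_pos rfl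

theorem XX_pos {i : ℕ} (hi : i ≠ 0) : XX n hn i = tau n hn * sw n hn i := if_neg hi

theorem tau_sq : tau n hn * tau n hn = 1 := Equiv.swap_mul_self _ _

theorem tau_sw {i : ℕ} (hi : 1 ≤ i) (hin : i + 2 < n) : Commute (tau n hn) (sw n hn i) :=
  swap_comm_disj (p_ne hn (by omega) (by omega) (by omega)) (p_ne hn (by omega) (by omega) (by omega))
    (p_ne hn (by omega) (by omega) (by omega)) (p_ne hn (by omega) (by omega) (by omega))

theorem tau_uu_tau : tau n hn * uu n hn * tau n hn = Equiv.swap (p n hn 1) (p n hn 2) :=
  swap_conj (p_ne hn (by omega) (by omega) (by omega)) (p_ne hn (by omega) (by omega) (by omega))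

theorem XX_CR : CR (XX n hn) (n - 2) where
  r0 := by
    intro _
    rw [XX_zero]
    exact three_pow (p_ne hn (by omega) (by omega) (by omega)) (p_ne hn (by omega) (by omega) (by omega))
      (p_ne hn (by omega) (by omega) (by omega))
  r1 := by
    intro i hi him
    rw [XX_pos hn (by omega)]
    exact disj_sq (p_ne hn (by omega) (by omega) (by omega)) (p_ne hn (by omega) (by omega) (by omega))
      (p_ne hn (by omega) (by omega) (by omega)) (p_ne hn (by omega) (by omega) (by omega))
  r2 := by
    intro i him
    by_cases hi : i = 0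
    · subst hi
      rw [XX_zero, XX_pos hn (by omega), ← mul_assoc, tau_uu_tau, zero_add]
      have e : Equiv.swap (p n hn 1) (p n hn 2) * sw n hn 1 =
          Equiv.swap (p n hn 2) (p n hn 1) * Equiv.swap (p n hn 2) (p n hn 3) := by
        rw [Equiv.swap_comm (p n hn 1) (p n hn 2)]
        rfl
      rw [e]
      exact three_pow (p_ne hn (by omega) (by omega) (by omega)) (p_ne hn (by omega) (by omega) (by omega))
        (p_ne hn (by omega) (by omega) (by omega))
    · rw [XX_pos hn hi, XX_pos hn (by omega)]
      have hc := tau_sw hn (i := i) (by omega) (by omega)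
      have e : tau n hn * sw n hn i * (tau n hn * sw n hn (i + 1)) =
          Equiv.swap (p n hn (i + 2)) (p n hn (i + 1)) * Equiv.swap (p n hn (i + 2)) (p n hn (i + 3)) := by
        calc tau n hn * sw n hn i * (tau n hn * sw n hn (i + 1))
            = sw n hn i * tau n hn * (tau n hn * sw n hn (i + 1)) := by rw [hc.eq]
          _ = sw n hn i * (tau n hn * tau n hn) * sw n hn (i + 1) := by simp only [mul_assoc]
          _ = sw n hn i * sw n hn (i + 1) := by rw [tau_sq, mul_one]
          _ = _ := by
            unfold sw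
            rw [Equiv.swap_comm (p n hn (i + 1)) (p n hn (i + 2))]
      rw [e]
      exact three_pow (p_ne hn (by omega) (by omega) (by omega)) (p_ne hn (by omega) (by omega) (by omega))
        (p_ne hn (by omega) (by omega) (by omega))
  r3 := by
    intro i j hij hjm
    by_cases hi : i = 0
    · subst hi
      rw [XX_zero, XX_pos hn (by omega), ← mul_assoc, tau_uu_tau]
      exact disj_sq (p_ne hn (by omega) (by omega) (by omega)) (p_ne hn (by omega) (by omega) (by omega))
        (p_ne hn (by omega) (by omega) (by omega)) (p_ne hn (by omega) (by omega) (by omega))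
    · rw [XX_pos hn hi, XX_pos hn (by omega)]
      have hc := tau_sw hn (i := i) (by omega) (by omega)
      have e : tau n hn * sw n hn i * (tau n hn * sw n hn j) = sw n hn i * sw n hn j := by
        calc tau n hn * sw n hn i * (tau n hn * sw n hn j)
            = sw n hn i * tau n hn * (tau n hn * sw n hn j) := by rw [hc.eq]
          _ = sw n hn i * (tau n hn * tau n hn) * sw n hn j := by simp only [mul_assoc]
          _ = sw n hn i * sw n hn j := by rw [tau_sq, mul_one]
      rw [e]
      exact disj_sq (p_ne hn (by omega) (by omega) (by omega)) (p_ne hn (by omega) (by omega) (by omega))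
        (p_ne hn (by omega) (by omega) (by omega)) (p_ne hn (by omega) (by omega) (by omega))

theorem XX_sign {i : ℕ} (hi : i < n - 2) : Equiv.Perm.sign (XX n hn i) = 1 := by
  by_cases h0 : i = 0
  · subst h0
    rw [XX_zero, map_mul, tau, uu, Equiv.Perm.sign_swap (p_ne hn (by omega) (by omega) (by omega)),
      Equiv.Perm.sign_swap (p_ne hn (by omega) (by omega) (by omega))]
    rfl
  · rw [XX_pos hn h0, map_mul, tau, sw, Equiv.Perm.sign_swap (p_ne hn (by omega) (by omega) (by omega)),
      Equiv.Perm.sign_swap (p_ne hn (by omega) (by omega) (by omega))]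
    rfl

/-- Subgroups containing the images of the generators contain the alternating group. -/
theorem alt_le (S : Subgroup (Equiv.Perm (Fin n))) (hS : ∀ i, i < n - 2 → XX n hn i ∈ S) :
    alternatingGroup (Fin n) ≤ S := by
  have key : ∀ b : ℕ, b < n → ∀ a, a < b →
      Equiv.swap (p n hn a) (p n hn b) * tau n hn ∈ S := by
    intro b
    induction b with
    | zero => intro _ a ha; omega
    | succ b ih =>
      intro hb a ha
      by_cases hb0 : b = 0
      · subst hb0
        obtain rfl : a = 0 := by omega
        rw [zero_add]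
        change tau n hn * tau n hn ∈ S
        rw [tau_sq]
        exact S.one_mem
      by_cases hb1 : b = 1
      · subst hb1
        have h0 := hS 0 (by omega)
        rw [XX_zero] at h0
        by_cases ha0 : a = 0
        · subst ha0
          have h1 := S.inv_mem h0
          rw [mul_inv_rev] at h1
          have e1 : (uu n hn)⁻¹ = uu n hn := Equiv.swap_inv _ _
          have e2 : (tau n hn)⁻¹ = tau n hn := Equiv.swap_inv _ _
          rw [e1, e2] at h1
          exact h1
        · obtain rfl : a = 1 := by omega
          have e : Equiv.swap (p n hn 1) (p n hn (1 + 1)) * tau n hn = tau n hn * uu n hn := by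
            change Equiv.swap (p n hn 1) (p n hn 2) * tau n hn = _
            rw [← tau_uu_tau hn, mul_assoc, tau_sq, mul_one]
          rw [e]
          exact h0
      have hb2 : 2 ≤ b := by omega
      have hX := hS (b - 1) (by omega)
      rw [XX_pos hn (by omega)] at hX
      have hs : sw n hn (b - 1) = Equiv.swap (p n hn b) (p n hn (b + 1)) := by
        unfold sw
        rw [show b - 1 + 1 = b by omega, show b - 1 + 2 = b + 1 by omega]
      rw [hs] at hX
      set s := Equiv.swap (p n hn b) (p n hn (b + 1)) with hsdef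
      have hcomm : Commute (tau n hn) s := by
        rw [← hs]
        exact tau_sw hn (by omega) (by omega)
      by_cases hab : a = b
      · subst hab
        rw [← hsdef, ← hcomm.eq]
        exact hX
      · have hu := ih (by omega) a (by omega)
        set u := Equiv.swap (p n hn a) (p n hn b) with hudef
        have hss : s * s = 1 := Equiv.swap_mul_self _ _
        have hv : Equiv.swap (p n hn a) (p n hn (b + 1)) = s * u * s := by
          have h1 := Equiv.swap_apply_apply s (p n hn a) (p n hn b)
          rw [hsdef, Equiv.swap_apply_of_ne_of_ne (p_ne hn (by omega) (by omega) (by omega))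
            (p_ne hn (by omega) (by omega) (by omega)), Equiv.swap_apply_left, Equiv.swap_inv] at h1
          exact h1
        rw [hv]
        have hw := S.mul_mem (S.mul_mem hX hu) (S.inv_mem hX)
        have hτ2 := tau_sq hn
        have huu : u * u = 1 := Equiv.swap_mul_self _ _
        have e1 : tau n hn * s * (u * tau n hn) * (tau n hn * s)⁻¹ = tau n hn * (s * u * s) := by
          have hsi : s⁻¹ = s := Equiv.swap_inv _ _
          have hti : (tau n hn)⁻¹ = tau n hn := Equiv.swap_inv _ _
          rw [mul_inv_rev, hsi, hti]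
          calc tau n hn * s * (u * tau n hn) * (s * tau n hn)
              = tau n hn * s * u * (tau n hn * s) * tau n hn := by simp only [mul_assoc]
            _ = tau n hn * s * u * (s * tau n hn) * tau n hn := by rw [hcomm.eq]
            _ = tau n hn * s * u * s * (tau n hn * tau n hn) := by simp only [mul_assoc]
            _ = tau n hn * (s * u * s) := by rw [hτ2, mul_one]; simp only [mul_assoc]
        rw [e1] at hw
        have hw2 := S.inv_mem hw
        have e2 : (tau n hn * (s * u * s))⁻¹ = s * u * s * tau n hn := by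
          have hsi : s⁻¹ = s := Equiv.swap_inv _ _
          have hti : (tau n hn)⁻¹ = tau n hn := Equiv.swap_inv _ _
          have hui : u⁻¹ = u := Equiv.swap_inv _ _
          simp only [mul_inv_rev, hsi, hti, hui, mul_assoc]
        rw [e2] at hw2
        exact hw2
  apply alternating_le_of_swap_mul S (τ := tau n hn)
    (Equiv.Perm.sign_swap (p_ne hn (by omega) (by omega) (by omega))) (tau_sq hn)
  intro a b hab
  have hne : a.1 ≠ b.1 := fun h => hab (Fin.ext h)
  rcases lt_or_gt_of_ne hne with h | h
  · have := key b.1 b.2 a.1 h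
    rwa [p_val, p_val] at this
  · have := key a.1 a.2 b.1 h
    rwa [p_val, p_val, Equiv.swap_comm] at this

end concrete

/-- A presentation of the alternating group of degree n ≥ 3 on generators x_1, …, x_{n−2} (indexed here by 0, …, n−3): the first generator cubes to 1, every other generator squares to 1, the product of two consecutive generators has order dividing 3, and the product of two generators at distance at least 2 has order dividing 2. The group so presented is isomorphic to the alternating group of degree n. -/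
theorem result (n : ℕ) (hn : 3 ≤ n) :
    Nonempty (PresentedGroup
      ({g : FreeGroup (Fin (n - 2)) | ∃ i : Fin (n - 2), i.val = 0 ∧ g = FreeGroup.of i ^ 3} ∪
       {g | ∃ i : Fin (n - 2), 1 ≤ i.val ∧ g = FreeGroup.of i ^ 2} ∪
       {g | ∃ i j : Fin (n - 2), j.val = i.val + 1 ∧ g = (FreeGroup.of i * FreeGroup.of j) ^ 3} ∪
       {g | ∃ i j : Fin (n - 2), i.val + 1 < j.val ∧ g = (FreeGroup.of i * FreeGroup.of j) ^ 2})
      ≃* alternatingGroup (Fin n)) := by
  classical
  set rels : Set (FreeGroup (Fin (n - 2))) :=
      ({g : FreeGroup (Fin (n - 2)) | ∃ i : Fin (n - 2), i.val = 0 ∧ g = FreeGroup.of i ^ 3} ∪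
       {g | ∃ i : Fin (n - 2), 1 ≤ i.val ∧ g = FreeGroup.of i ^ 2} ∪
       {g | ∃ i j : Fin (n - 2), j.val = i.val + 1 ∧ g = (FreeGroup.of i * FreeGroup.of j) ^ 3} ∪
       {g | ∃ i j : Fin (n - 2), i.val + 1 < j.val ∧ g = (FreeGroup.of i * FreeGroup.of j) ^ 2}) with hrels
  -- the map to the alternating group
  let f : Fin (n - 2) → alternatingGroup (Fin n) := fun i =>
    ⟨XX n hn i.1, Equiv.Perm.mem_alternatingGroup.mpr (XX_sign hn i.2)⟩
  have hCR := XX_CR hn
  have hf : ∀ r ∈ rels, FreeGroup.lift f r = 1 := by
    intro r hr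
    rcases hr with ((⟨i, hi, rfl⟩ | ⟨i, hi, rfl⟩) | ⟨i, j, hij, rfl⟩) | ⟨i, j, hij, rfl⟩
    · apply Subtype.ext
      simp only [map_pow, FreeGroup.lift_apply_of, Subgroup.coe_pow, Subgroup.coe_one]
      have := hCR.r0 (by omega)
      rw [← hi] at this
      exact this
    · apply Subtype.ext
      simp only [map_pow, FreeGroup.lift_apply_of, Subgroup.coe_pow, Subgroup.coe_one]
      exact hCR.r1 i.1 hi i.2
    · apply Subtype.ext
      simp only [map_pow, map_mul, FreeGroup.lift_apply_of, Subgroup.coe_pow, Subgroup.coe_mul, Subgroup.coe_one]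
      have := hCR.r2 i.1 (by omega)
      rw [← hij] at this
      exact this
    · apply Subtype.ext
      simp only [map_pow, map_mul, FreeGroup.lift_apply_of, Subgroup.coe_pow, Subgroup.coe_mul, Subgroup.coe_one]
      exact hCR.r3 i.1 j.1 hij j.2
  let φ : PresentedGroup rels →* alternatingGroup (Fin n) := PresentedGroup.toGroup hf
  have hφ : Function.Surjective φ := by
    intro σ
    let φ' : PresentedGroup rels →* Equiv.Perm (Fin n) := (alternatingGroup (Fin n)).subtype.comp φ
    have h1 : alternatingGroup (Fin n) ≤ φ'.range := by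
      apply alt_le hn
      intro i hi
      exact ⟨PresentedGroup.of ⟨i, hi⟩, by simp [φ', φ, f]⟩
    obtain ⟨g, hg⟩ := h1 σ.2
    exact ⟨g, Subtype.ext hg⟩
  -- the upper bound
  let y : ℕ → PresentedGroup rels := fun i => if h : i < n - 2 then PresentedGroup.of ⟨i, h⟩ else 1
  have hy : ∀ i (h : i < n - 2), y i = PresentedGroup.of ⟨i, h⟩ := fun i h => dif_pos h
  have hyCR : CR y (n - 2) := by
    refine ⟨?_, ?_, ?_, ?_⟩
    · intro h
      rw [hy 0 h]
      have : (FreeGroup.of (⟨0, h⟩ : Fin (n - 2))) ^ 3 ∈ rels :=
        Or.inl (Or.inl (Or.inl ⟨_, rfl, rfl⟩))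
      have h2 := PresentedGroup.one_of_mem this
      rwa [map_pow] at h2
    · intro i hi him
      rw [hy i him]
      have : (FreeGroup.of (⟨i, him⟩ : Fin (n - 2))) ^ 2 ∈ rels :=
        Or.inl (Or.inl (Or.inr ⟨_, hi, rfl⟩))
      have h2 := PresentedGroup.one_of_mem this
      rwa [map_pow] at h2
    · intro i him
      rw [hy i (by omega), hy (i + 1) him]
      have : ((FreeGroup.of (⟨i, by omega⟩ : Fin (n - 2))) * (FreeGroup.of (⟨i + 1, him⟩ : Fin (n - 2)))) ^ 3 ∈ rels :=
        Or.inl (Or.inr ⟨_, _, rfl, rfl⟩)
      have h2 := PresentedGroup.one_of_mem this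
      rwa [map_pow, map_mul] at h2
    · intro i j hij hj
      rw [hy i (by omega), hy j hj]
      have : ((FreeGroup.of (⟨i, by omega⟩ : Fin (n - 2))) * (FreeGroup.of (⟨j, hj⟩ : Fin (n - 2)))) ^ 2 ∈ rels :=
        Or.inr ⟨_, _, hij, rfl⟩
      have h2 := PresentedGroup.one_of_mem this
      rwa [map_pow, map_mul] at h2
  have hK : K y (n - 2) = ⊤ := by
    rw [eq_top_iff, ← PresentedGroup.closure_range_of rels]
    apply Subgroup.closure_mono
    rintro _ ⟨i, rfl⟩
    exact ⟨i.1, i.2, hy i.1 i.2⟩
  obtain ⟨hfin, hcard⟩ := card_K hyCR (n - 2) le_rfl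
  rw [hK] at hfin hcard
  haveI : Finite (PresentedGroup rels) := Finite.of_equiv _ (Subgroup.topEquiv (G := PresentedGroup rels)).toEquiv
  have hcard2 : Nat.card (PresentedGroup rels) ≤ P (n - 2) := by
    rwa [Nat.card_congr (Subgroup.topEquiv (G := PresentedGroup rels)).toEquiv] at hcard
  have hcard3 : P (n - 2) = Nat.card (alternatingGroup (Fin n)) := by
    have h1 := two_mul_P (n - 2)
    rw [show n - 2 + 2 = n by omega] at h1
    haveI : Nontrivial (Fin n) := Fin.nontrivial_iff_two_le.mpr (by omega)
    rw [nat_card_alternatingGroup, Nat.card_eq_fintype_card, Fintype.card_fin, ← h1]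
    simp
  have hbij : Function.Bijective φ := hφ.bijective_of_nat_card_le (by rw [← hcard3]; exact hcard2)
  exact ⟨MulEquiv.ofBijective φ hbij⟩

end Cfsg.Agent.S3335
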