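import Cfsg.Statements.S3349
import Mathlib

set_option autoImplicit false
open Cfsg

namespace Cfsg.Agent.S3349

/-- Let Q be a finite extraspecial p-group and α an automorphism of Q fixing every element of some maximal abelian subgroup of Q. Then the order of α is a power of p. -/
theorem result {Q : Type*} [Group Q] [Finite Q]
    (p : ℕ) [Fact p.Prime] (hQ : Cfsg.IsExtraspecial p Q) (α : MulAut Q)
    (A : Subgroup Q) (hA : IsMulCommutative A) (hmax : ∀ B : Subgroup Q, A ≤ B → IsMulCommutative B → B = A)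
    (hfix : ∀ a ∈ A, α a = a) :
    ∃ k : ℕ, orderOf α = p ^ k := by
  classical
  obtain ⟨⟨hP, -, hcomm⟩, -⟩ := hQ
  have hAc : ∀ x ∈ A, ∀ y ∈ A, x * y = y * x := fun x hx y hy =>
    congrArg Subtype.val (hA.is_comm.comm ⟨x, hx⟩ ⟨y, hy⟩)
  -- the centralizer of `A` lies in `A`
  have hcen : ∀ y : Q, (∀ a ∈ A, y * a = a * y) → y ∈ A := by
    intro y hy
    let B := A ⊔ Subgroup.zpowers y
    have hB1 : B ≤ Subgroup.centralizer (A ∪ {y} : Set Q) := by
      apply sup_le
      · intro a ha
        rw [Subgroup.mem_centralizer_iff]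
        rintro b (hb | rfl)
        · exact hAc b hb a ha
        · exact hy a ha
      · rw [Subgroup.zpowers_le]
        rw [Subgroup.mem_centralizer_iff]
        rintro b (hb | rfl)
        · exact (hy b hb).symm
        · rfl
    have hB2 : ∀ b ∈ B, ∀ c ∈ B, b * c = c * b := by
      intro b hb c hc
      have h1 : B ≤ Subgroup.centralizer ({b} : Set Q) := by
        apply sup_le
        · intro a ha
          rw [Subgroup.mem_centralizer_iff]
          rintro _ rfl
          exact (Subgroup.mem_centralizer_iff.mp (hB1 hb)) a (Or.inl ha) |>.symm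
        · rw [Subgroup.zpowers_le]
          rw [Subgroup.mem_centralizer_iff]
          rintro _ rfl
          exact (Subgroup.mem_centralizer_iff.mp (hB1 hb)) y (Or.inr rfl) |>.symm
      exact (Subgroup.mem_centralizer_iff.mp (h1 hc)) b rfl
    have hBA : B = A := hmax B le_sup_left ⟨⟨fun a b => Subtype.ext (hB2 a a.2 b b.2)⟩⟩
    rw [← hBA]
    exact (le_sup_right : Subgroup.zpowers y ≤ B) (Subgroup.mem_zpowers y)
  have hZA : ∀ z ∈ Subgroup.center Q, z ∈ A := by
    intro z hz
    apply hcen
    intro a _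
    exact (Subgroup.mem_center_iff.mp hz a).symm
  -- the defect
  have hdef : ∀ x : Q, x⁻¹ * α x ∈ A := by
    intro x
    apply hcen
    intro a ha
    have h1 : x * a * x⁻¹ * a⁻¹ ∈ Subgroup.center Q := by
      rw [← hcomm]
      exact Subgroup.commutator_mem_commutator (Subgroup.mem_top x) (Subgroup.mem_top a)
    have h2 := hfix _ (hZA _ h1)
    simp only [map_mul, map_inv, hfix a ha] at h2
    have h3 : α x * a * (α x)⁻¹ = x * a * x⁻¹ := by
      have := mul_right_cancel h2
      exact this
    calc x⁻¹ * α x * a = x⁻¹ * (α x * a * (α x)⁻¹) * α x := by group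
      _ = x⁻¹ * (x * a * x⁻¹) * α x := by rw [h3]
      _ = a * (x⁻¹ * α x) := by group
  have hpow : ∀ (k : ℕ) (x : Q), (α ^ k) x = x * (x⁻¹ * α x) ^ k := by
    intro k x
    induction k with
    | zero => simp
    | succ k ih =>
      rw [pow_succ', MulAut.mul_apply, ih, map_mul, map_pow, hfix _ (hdef x), pow_succ',
        ← mul_assoc x, mul_inv_cancel_left]
  have hone : α ^ (Nat.card Q) = 1 := by
    ext x
    rw [hpow]
    simp [pow_card_eq_one']
  obtain ⟨n, hn⟩ := IsPGroup.iff_card.mp hP
  rw [hn] at hone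
  obtain ⟨k, -, hk⟩ := (Nat.dvd_prime_pow (Fact.out : p.Prime)).mp (orderOf_dvd_of_pow_eq_one hone)
  exact ⟨k, hk⟩

end Cfsg.Agent.S3349
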