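import Cfsg.Statements.S3376
import Mathlib
import Cfsg.Agent.Lib.Core.Basic

set_option autoImplicit false
open Cfsg

namespace Cfsg.Agent.S3376

open scoped Pointwise


section compl
variable {V : Type*} [CommGroup V] [Finite V]

lemma comm_compl (hexp : ∀ v : V, v ^ 3 = 1) (τ : V ≃* V) (hτ : ∀ v, τ (τ v) = v)
    (W : Subgroup V) (hW : ∀ w ∈ W, τ w = w) :
    ∃ A : Subgroup V, (∀ a ∈ A, τ a ∈ A) ∧ A ⊓ W = ⊥ ∧ A ⊔ W = ⊤ := by
  classical
  let s : Set (Subgroup V) := {A | (∀ a ∈ A, τ a ∈ A) ∧ A ⊓ W = ⊥}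
  have hs : s.Finite := Set.toFinite s
  have hne : s.Nonempty := by
    refine ⟨⊥, ?_, by simp⟩
    intro a ha
    rw [Subgroup.mem_bot] at ha ⊢
    rw [ha, map_one]
  obtain ⟨A, hA⟩ := hs.exists_maximal hne
  refine ⟨A, hA.prop.1, hA.prop.2, ?_⟩
  by_contra hnt
  obtain ⟨x, hx⟩ : ∃ x, x ∉ A ⊔ W := by
    by_contra h
    push Not at h
    exact hnt (eq_top_iff.mpr fun x _ => h x)
  have hx4 : x ^ 4 = x := by
    have : x ^ 4 = x ^ 3 * x := by rw [pow_succ]
    rw [this, hexp, one_mul]
  have hxy : x = (x * τ x) ^ 2 * (x * (τ x)⁻¹) ^ 2 := by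
    have : (x * τ x) ^ 2 * (x * (τ x)⁻¹) ^ 2 = x ^ 4 := by
      simp only [mul_pow, inv_pow]
      have h2 : (τ x) ^ 2 * ((τ x) ^ 2)⁻¹ = 1 := mul_inv_cancel _
      calc x ^ 2 * τ x ^ 2 * (x ^ 2 * (τ x ^ 2)⁻¹)
          = x ^ 2 * x ^ 2 * (τ x ^ 2 * (τ x ^ 2)⁻¹) := by
            rw [mul_comm (x ^ 2) (τ x ^ 2), mul_assoc, mul_comm (x ^ 2) (_ * _), mul_assoc, mul_assoc]
            rw [mul_comm ((τ x ^ 2)⁻¹) (x ^ 2)]
            simp [mul_assoc, mul_comm, mul_left_comm]
        _ = x ^ 4 := by rw [h2, mul_one, ← pow_add]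
    rw [this, hx4]
  obtain ⟨y, hy, hτy⟩ : ∃ y, y ∉ A ⊔ W ∧ (τ y = y ∨ τ y = y⁻¹) := by
    by_cases h1 : (x * τ x) ^ 2 ∈ A ⊔ W
    · refine ⟨(x * (τ x)⁻¹) ^ 2, ?_, Or.inr ?_⟩
      · intro h2
        apply hx
        rw [hxy]
        exact Subgroup.mul_mem _ h1 h2
      · simp only [map_pow, map_mul, map_inv, hτ, mul_pow, inv_pow, mul_inv, inv_inv]
        rw [mul_comm]
    · refine ⟨(x * τ x) ^ 2, h1, Or.inl ?_⟩
      simp only [map_pow, map_mul, hτ]
      rw [mul_comm x (τ x)]
  let A' : Subgroup V := A ⊔ Subgroup.zpowers y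
  have hA'1 : ∀ a ∈ A', τ a ∈ A' := by
    intro a ha
    obtain ⟨b, hb, c, hc, rfl⟩ := Subgroup.mem_sup.mp ha
    rw [map_mul]
    refine Subgroup.mul_mem _ (Subgroup.mem_sup_left (hA.prop.1 b hb)) (Subgroup.mem_sup_right ?_)
    obtain ⟨k, rfl⟩ := Subgroup.mem_zpowers_iff.mp hc
    rw [map_zpow]
    rcases hτy with h | h
    · rw [h]
      exact Subgroup.zpow_mem_zpowers y k
    · rw [h]
      exact Subgroup.zpow_mem _ (Subgroup.inv_mem _ (Subgroup.mem_zpowers y)) k
  have hA'2 : A' ⊓ W = ⊥ := by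
    rw [eq_bot_iff]
    intro z hz
    obtain ⟨hz1, hz2⟩ := Subgroup.mem_inf.mp hz
    obtain ⟨b, hb, c, hc, hbc⟩ := Subgroup.mem_sup.mp hz1
    obtain ⟨k, hk⟩ := Subgroup.mem_zpowers_iff.mp hc
    have hc1 : c ∈ A ⊔ W := by
      have : c = b⁻¹ * z := by rw [← hbc]; group
      rw [this]
      exact Subgroup.mul_mem _ (Subgroup.mem_sup_left (Subgroup.inv_mem _ hb)) (Subgroup.mem_sup_right hz2)
    have hcases : c = 1 ∨ c = y ∨ c = y ^ 2 := by
      have hk3 : k = 3 * (k / 3) + k % 3 := (Int.mul_ediv_add_emod k 3).symm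
      have hr : k % 3 = 0 ∨ k % 3 = 1 ∨ k % 3 = 2 := by omega
      have hy3 : y ^ (3 * (k / 3)) = 1 := by
        rw [zpow_mul]
        have : y ^ (3 : ℤ) = 1 := by exact_mod_cast hexp y
        rw [this, one_zpow]
      rw [← hk, hk3, zpow_add, hy3, one_mul]
      rcases hr with h | h | h <;> rw [h]
      · left; simp
      · right; left; simp
      · right; right; exact (zpow_two y).trans (pow_two y).symm
    rcases hcases with h | h | h
    · have hzb : z = b := by rw [← hbc, h, mul_one]
      have : z ∈ A ⊓ W := Subgroup.mem_inf.mpr ⟨hzb ▸ hb, hz2⟩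
      rwa [hA.prop.2] at this
    · rw [h] at hc1
      exact absurd hc1 hy
    · rw [h] at hc1
      have h4 : y = (y ^ 2) ^ 2 := by
        rw [← pow_mul]
        have : y ^ (2 * 2) = y ^ 3 * y := by rw [← pow_succ]
        rw [this, hexp, one_mul]
      rw [h4] at hy
      exact absurd (Subgroup.pow_mem _ hc1 2) hy
  have hle : A' ≤ A := hA.le_of_ge ⟨hA'1, hA'2⟩ le_sup_left
  exact hy (Subgroup.mem_sup_left (hle (Subgroup.mem_sup_right (Subgroup.mem_zpowers y))))

end compl

lemma sylow_card {G : Type*} [Group G] [Finite G] {p a m : ℕ} [hp : Fact p.Prime] (P : Sylow p G)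
    (hG : Nat.card G = p ^ a * m) (hm : ¬ p ∣ m) : Nat.card (P : Subgroup G) = p ^ a := by
  rw [P.card_eq_multiplicity, hG]
  congr 1
  have hm0 : m ≠ 0 := by
    rintro rfl
    exact hm (dvd_zero p)
  rw [Nat.factorization_mul (pow_ne_zero _ hp.out.ne_zero) hm0]
  simp [Nat.Prime.factorization_pow hp.out, Nat.factorization_eq_zero_of_not_dvd hm]

/-- The permutation in the statement. -/
abbrev c9 : Equiv.Perm (Fin 9) :=
  Equiv.swap (0 : Fin 9) 1 * Equiv.swap 1 2 * Equiv.swap 3 4 * Equiv.swap 4 5 * Equiv.swap 6 7 * Equiv.swap 7 8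

lemma cyc_type (w : Equiv.Perm (Fin 9)) (h3 : w ^ 3 = 1) (hfix : ∀ i, w i ≠ i) :
    w.cycleType = Multiset.replicate 3 3 := by
  have hne : w ≠ 1 := by
    rintro rfl
    exact hfix 0 rfl
  haveI : Fact (Nat.Prime 3) := ⟨Nat.prime_three⟩
  have ho : orderOf w = 3 := orderOf_eq_prime h3 hne
  obtain ⟨n, hn⟩ := Equiv.Perm.cycleType_prime_order (σ := w) (by rw [ho]; exact Nat.prime_three)
  rw [ho] at hn
  have hs : w.support = Finset.univ := by
    ext i
    simp [Equiv.Perm.mem_support, hfix i]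
  have hsum := Equiv.Perm.sum_cycleType w
  rw [hn, hs, Multiset.sum_replicate] at hsum
  simp only [Finset.card_univ, Fintype.card_fin, smul_eq_mul] at hsum
  have : n + 1 = 3 := by omega
  rw [hn, this]

lemma c9_type : c9.cycleType = Multiset.replicate 3 3 :=
  cyc_type c9 (by decide +kernel) (by decide +kernel)

lemma c9_card : Nat.card (Subgroup.centralizer ({c9} : Set (Equiv.Perm (Fin 9)))) = 162 := by
  rw [Equiv.Perm.nat_card_centralizer, c9_type]
  simp [Multiset.toFinset_replicate, Multiset.count_replicate, Nat.factorial]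

lemma ex_ne {G : Type*} [Group G] {H : Subgroup G} (h : H ≠ ⊥) : ∃ x ∈ H, x ≠ 1 :=
  (Subgroup.bot_or_exists_ne_one H).resolve_left h

lemma two_cases {G : Type*} [Group G] {H : Subgroup G} (hH : Nat.card H = 2) {t x : G} (ht : t ∈ H)
    (ht1 : t ≠ 1) (hx : x ∈ H) : x = 1 ∨ x = t := by
  obtain ⟨y, hy, huniq⟩ := (Nat.card_eq_two_iff' (1 : H)).mp hH
  by_cases hx1 : x = 1
  · exact Or.inl hx1
  · right
    have h1 : (⟨x, hx⟩ : H) = y := huniq _ (fun h => hx1 (congrArg Subtype.val h))
    have h2 : (⟨t, ht⟩ : H) = y := huniq _ (fun h => ht1 (congrArg Subtype.val h))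
    exact congrArg Subtype.val (h1.trans h2.symm)

lemma meet_center {S : Type*} [Group S] [Finite S] (hS : IsPGroup 3 S) (N : Subgroup S) [hN : N.Normal]
    (hne : N ≠ ⊥) : ∃ x ∈ N, x ≠ 1 ∧ x ∈ Subgroup.center S := by
  haveI : Fact (Nat.Prime 3) := ⟨Nat.prime_three⟩
  haveI : Group.IsNilpotent S := hS.isNilpotent
  have h := Cfsg.Agent.Lib.Core.normal_inf_center_ne_bot N hne
  obtain ⟨x, hx, hx1⟩ := ex_ne h
  exact ⟨x, (Subgroup.mem_inf.mp hx).1, hx1, (Subgroup.mem_inf.mp hx).2⟩

set_option maxHeartbeats 4000000 in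
theorem main_thm {G : Type*} [Group G] [Finite G] (hG : Nat.card G = 162)
    (S : Sylow 3 G) (T : Sylow 2 G) (J : Subgroup G) [hJn : J.Normal] (hJcomm : IsMulCommutative J)
    (hJexp : ∀ a ∈ J, a ^ 3 = 1) (hJcard : Nat.card J = 27)
    (Z : Subgroup G) (hZ : Z = (S : Subgroup G) ⊓ Subgroup.centralizer ((S : Subgroup G) : Set G)) (hZcard : Nat.card Z = 3)
    (hZT : Z ≤ Subgroup.centralizer ((T : Subgroup G) : Set G))
    (hST : (S : Subgroup G) ⊓ Subgroup.centralizer ((T : Subgroup G) : Set G) ≠ S) :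
    Nonempty (G ≃* Subgroup.centralizer ({Equiv.swap (0 : Fin 9) 1 * Equiv.swap 1 2 * Equiv.swap 3 4 * Equiv.swap 4 5 * Equiv.swap 6 7 * Equiv.swap 7 8} : Set (Equiv.Perm (Fin 9)))) := by
  classical
  haveI h3 : Fact (Nat.Prime 3) := ⟨Nat.prime_three⟩
  haveI h2 : Fact (Nat.Prime 2) := ⟨Nat.prime_two⟩
  have hS81 : Nat.card (S : Subgroup G) = 3 ^ 4 := sylow_card S (m := 2) (by rw [hG]; norm_num) (by norm_num)
  have hT2 : Nat.card (T : Subgroup G) = 2 := by
    have := sylow_card T (a := 1) (m := 81) (by rw [hG]; norm_num) (by norm_num)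
    simpa using this
  -- the involution
  obtain ⟨t, htT, ht1⟩ : ∃ t ∈ (T : Subgroup G), t ≠ 1 := by
    apply ex_ne
    intro h
    rw [h] at hT2
    simp at hT2
  have ht2 : t * t = 1 := by
    have h := pow_card_eq_one' (x := (⟨t, htT⟩ : (T : Subgroup G)))
    rw [hT2] at h
    have h' := congrArg Subtype.val h
    simpa [pow_two] using h'
  have hTcases : ∀ x ∈ (T : Subgroup G), x = 1 ∨ x = t := fun x hx => two_cases hT2 htT ht1 hx
  -- `J` lies in `S`
  have hJp : IsPGroup 3 J := IsPGroup.of_card (n := 3) (by rw [hJcard]; norm_num)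
  have hJS : J ≤ (S : Subgroup G) := by
    obtain ⟨Q, hQ⟩ := hJp.exists_le_sylow
    obtain ⟨g, hg⟩ := MulAction.exists_smul_eq G Q S
    intro x hx
    rw [← hg, Sylow.coe_subgroup_smul]
    rw [Subgroup.mem_pointwise_smul_iff_inv_smul_mem]
    apply hQ
    have := hJn.conj_mem x hx g⁻¹
    simpa [MulAut.smul_def] using this
  have hSp : IsPGroup 3 (S : Subgroup G) := S.isPGroup'
  -- every nontrivial subgroup of `S` normalized by `S` meets `Z`
  have hmeet : ∀ N : Subgroup G, (∀ g ∈ (S : Subgroup G), ∀ x ∈ N, g * x * g⁻¹ ∈ N) → N ⊓ (S : Subgroup G) ≠ ⊥ → Z ≤ N := by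
    intro N hN hne
    haveI hNn : (N.subgroupOf (S : Subgroup G)).Normal := by
      constructor
      intro n hn g
      exact hN g.1 g.2 n.1 hn
    have hne' : N.subgroupOf (S : Subgroup G) ≠ ⊥ := by
      intro h
      apply hne
      rw [eq_bot_iff]
      intro x hx
      obtain ⟨hx1, hx2⟩ := Subgroup.mem_inf.mp hx
      have : (⟨x, hx2⟩ : (S : Subgroup G)) ∈ N.subgroupOf (S : Subgroup G) := hx1
      rw [h, Subgroup.mem_bot] at this
      exact Subgroup.mem_bot.mpr (congrArg Subtype.val this)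
    obtain ⟨x, hxN, hx1, hxc⟩ := meet_center hSp (N.subgroupOf (S : Subgroup G)) hne'
    have hxZ : x.1 ∈ Z := by
      rw [hZ]
      refine Subgroup.mem_inf.mpr ⟨x.2, Subgroup.mem_centralizer_iff.mpr ?_⟩
      intro g hg
      have := (Subgroup.mem_center_iff.mp hxc) ⟨g, hg⟩
      exact congrArg Subtype.val this
    have hx1' : (⟨x.1, hxZ⟩ : Z) ≠ 1 := by
      intro h
      apply hx1
      have h5 : x.1 = 1 := congrArg Subtype.val h
      exact Subtype.ext h5
    intro y hy
    have hprime : Nat.card Z = 3 := hZcard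
    have := mem_zpowers_of_prime_card hprime (g := (⟨x.1, hxZ⟩ : Z)) (g' := ⟨y, hy⟩) hx1'
    obtain ⟨k, hk⟩ := Subgroup.mem_zpowers_iff.mp this
    have h5 := congrArg Subtype.val hk
    simp only [Subgroup.coe_zpow] at h5
    rw [← h5]
    exact Subgroup.zpow_mem _ hxN k
  have hZJ : Z ≤ J := by
    apply hmeet J (fun g _ x hx => hJn.conj_mem x hx g)
    intro h
    have : J ≤ ⊥ := by
      rw [← h]
      exact le_inf le_rfl hJS
    rw [le_bot_iff] at this
    rw [this] at hJcard
    simp at hJcard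
  -- `Z` is central
  have hZcen : ∀ z ∈ Z, ∀ g : G, g * z = z * g := by
    intro z hz g
    have hcop : Nat.Coprime (Nat.card (S : Subgroup G)) (Nat.card (T : Subgroup G)) := by
      rw [hS81, hT2]
      norm_num
    have hcomp := Subgroup.isComplement'_of_coprime (H := (S : Subgroup G)) (K := (T : Subgroup G))
      (by rw [hS81, hT2, hG]; norm_num) hcop
    obtain ⟨⟨a, b⟩, hab⟩ := hcomp.existsUnique g |>.exists
    have hzS : z ∈ Subgroup.centralizer ((S : Subgroup G) : Set G) := by
      rw [hZ] at hz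
      exact (Subgroup.mem_inf.mp hz).2
    have h1 : a.1 * z = z * a.1 := (Subgroup.mem_centralizer_iff.mp hzS a.1 a.2)
    have h4 : b.1 * z = z * b.1 := (Subgroup.mem_centralizer_iff.mp (hZT hz) b.1 b.2)
    have hgab : g = a.1 * b.1 := hab.symm
    rw [hgab, mul_assoc, h4, ← mul_assoc, h1, mul_assoc]
  -- the complement
  letI instJ : CommGroup J :=
    { (inferInstance : Group J) with mul_comm := hJcomm.is_comm.comm }
  let τ : J ≃* J := MulAut.conjNormal t
  have hτ : ∀ v, τ (τ v) = v := by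
    intro v
    apply Subtype.ext
    change t * (t * v.1 * t⁻¹) * t⁻¹ = v.1
    have hinv : t⁻¹ = t := (eq_inv_of_mul_eq_one_left ht2).symm
    rw [hinv]
    calc t * (t * v.1 * t) * t = (t * t) * v.1 * (t * t) := by group
      _ = v.1 := by rw [ht2]; group
  let W : Subgroup J := Z.subgroupOf J
  have hW : ∀ w ∈ W, τ w = w := by
    intro w hw
    apply Subtype.ext
    change t * w.1 * t⁻¹ = w.1
    have hwz : w.1 ∈ Z := hw
    rw [hZcen w.1 hwz t]
    group
  obtain ⟨A, hA1, hA2, hA3⟩ := comm_compl (V := J) (fun v => Subtype.ext (hJexp v.1 v.2)) τ hτ W hW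
  have hcompl : Subgroup.IsComplement' A W := by
    refine Subgroup.isComplement'_of_disjoint_and_mul_eq_univ ?_ ?_
    · rw [disjoint_iff]
      exact hA2
    · rw [← Subgroup.mul_normal, hA3]
      rfl
  have hWcard : Nat.card W = 3 := by
    rw [← hZcard]
    exact Nat.card_congr (Subgroup.subgroupOfEquivOfLe hZJ).toEquiv
  have hAcard : Nat.card A = 9 := by
    have := hcompl.card_mul
    rw [hWcard, hJcard] at this
    omega
  let AG : Subgroup G := A.map J.subtype
  have hAGcard : Nat.card AG = 9 := by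
    rw [← hAcard]
    exact Nat.card_congr (Subgroup.equivMapOfInjective A J.subtype J.subtype_injective).symm.toEquiv
  have hAGJ : AG ≤ J := by
    rintro x ⟨a, _, rfl⟩
    exact a.2
  have hAGinv : ∀ x ∈ AG, t * x * t⁻¹ ∈ AG := by
    rintro x ⟨a, ha, rfl⟩
    exact ⟨τ a, hA1 a ha, rfl⟩
  have hAGZ : ∀ x ∈ AG, x ∈ Z → x = 1 := by
    rintro x ⟨a, ha, rfl⟩ hz
    have : a ∈ A ⊓ W := Subgroup.mem_inf.mpr ⟨ha, hz⟩
    rw [hA2, Subgroup.mem_bot] at this
    rw [this]
    rfl
  have hnorm : (T : Subgroup G) ≤ Subgroup.normalizer (AG : Set G) := by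
    intro x hx
    rw [Subgroup.mem_normalizer_iff]
    have hinv : t⁻¹ = t := (eq_inv_of_mul_eq_one_left ht2).symm
    intro h
    rcases hTcases x hx with rfl | rfl
    · simp
    · constructor
      · exact hAGinv h
      · intro h5
        have := hAGinv _ h5
        have h6 : x * (x * h * x⁻¹) * x⁻¹ = h := by
          rw [hinv] at *
          calc x * (x * h * x) * x = (x * x) * h * (x * x) := by group
            _ = h := by rw [ht2]; group
        rwa [h6] at this
  let M : Subgroup G := (T : Subgroup G) ⊔ AG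
  have hMset := Subgroup.coe_mul_of_left_le_normalizer_right (T : Subgroup G) AG hnorm
  have hMcard : Nat.card M = 18 := by
    have hd1 : 9 ∣ Nat.card M := by
      rw [← hAGcard]
      exact Subgroup.card_dvd_of_le le_sup_right
    have hd2 : 2 ∣ Nat.card M := by
      rw [← hT2]
      exact Subgroup.card_dvd_of_le le_sup_left
    have hd : 18 ∣ Nat.card M := by
      have : 18 = 9 * 2 := by norm_num
      rw [this]
      exact Nat.Coprime.mul_dvd_of_dvd_of_dvd (by norm_num) hd1 hd2
    have hle : Nat.card M ≤ 18 := by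
      let f : ↥(T : Subgroup G) × ↥AG → M := fun p => ⟨p.1.1 * p.2.1, by
        have : p.1.1 * p.2.1 ∈ ((T : Subgroup G) : Set G) * (AG : Set G) :=
          Set.mul_mem_mul p.1.2 p.2.2
        rw [← hMset] at this
        exact this⟩
      have hf : Function.Surjective f := by
        rintro ⟨x, hx⟩
        have : x ∈ ((T : Subgroup G) : Set G) * (AG : Set G) := by
          rw [← hMset]
          exact hx
        obtain ⟨a, ha, b, hb, rfl⟩ := Set.mem_mul.mp this
        exact ⟨(⟨a, ha⟩, ⟨b, hb⟩), rfl⟩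
      have := Nat.card_le_card_of_surjective f hf
      rw [Nat.card_prod, hT2, hAGcard] at this
      omega
    have hpos : 0 < Nat.card M := Nat.card_pos
    exact le_antisymm hle (Nat.le_of_dvd hpos hd)
  -- a generator of `Z`
  obtain ⟨z, hzZ, hz1⟩ : ∃ z ∈ Z, z ≠ 1 := by
    apply ex_ne
    intro h
    rw [h] at hZcard
    simp at hZcard
  have hzM : z ∉ M := by
    intro h
    have h' : z ∈ ((T : Subgroup G) : Set G) * (AG : Set G) := by
      rw [← hMset]
      exact h
    obtain ⟨a, ha, b, hb, hab⟩ := Set.mem_mul.mp h'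
    rcases hTcases a ha with rfl | rfl
    · rw [one_mul] at hab
      rw [hab] at hb
      exact hz1 (hAGZ z hb hzZ)
    · -- `t ∈ J`, impossible
      have htJ : a ∈ J := by
        have : a = z * b⁻¹ := by rw [← hab]; group
        rw [this]
        exact Subgroup.mul_mem _ (hZJ hzZ) (Subgroup.inv_mem _ (hAGJ hb))
      have h33 := hJexp a htJ
      have : a = 1 := by
        calc a = a ^ 3 * (a * a)⁻¹ := by group
          _ = 1 := by rw [h33, ht2]; simp
      exact ht1 this
  -- the core is trivial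
  have hcore : M.normalCore = ⊥ := by
    by_contra hne
    let K := M.normalCore
    have hKM : K ≤ M := Subgroup.normalCore_le M
    have hKn : K.Normal := inferInstance
    have hKd : Nat.card K ∣ 18 := by
      rw [← hMcard]
      exact Subgroup.card_dvd_of_le hKM
    by_cases h3K : 3 ∣ Nat.card K
    · obtain ⟨x, hx⟩ := exists_prime_orderOf_dvd_card' (G := K) 3 h3K
      have hxp : IsPGroup 3 (Subgroup.zpowers x.1) := by
        apply IsPGroup.of_card (n := 1)
        rw [Nat.card_zpowers, pow_one]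
        rw [← hx]
        exact Subgroup.orderOf_coe x
      obtain ⟨Q, hQ⟩ := hxp.exists_le_sylow
      obtain ⟨g, hg⟩ := MulAction.exists_smul_eq G Q S
      have hxQ : x.1 ∈ (Q : Subgroup G) := hQ (Subgroup.mem_zpowers x.1)
      have hxS : g * x.1 * g⁻¹ ∈ (S : Subgroup G) := by
        rw [← hg, Sylow.coe_subgroup_smul]
        have := Subgroup.smul_mem_pointwise_smul x.1 (MulAut.conj g) _ hxQ
        simpa [MulAut.smul_def] using this
      have hxK : g * x.1 * g⁻¹ ∈ K := hKn.conj_mem x.1 x.2 g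
      have hZK : Z ≤ K := by
        apply hmeet K (fun g _ y hy => hKn.conj_mem y hy g)
        intro h
        have : g * x.1 * g⁻¹ ∈ K ⊓ (S : Subgroup G) := Subgroup.mem_inf.mpr ⟨hxK, hxS⟩
        rw [h, Subgroup.mem_bot] at this
        have h5 : x.1 = 1 := by
          have : g⁻¹ * (g * x.1 * g⁻¹) * g = 1 := by rw [this]; group
          simpa [mul_assoc] using this
        have h6 : x = 1 := Subtype.ext h5
        rw [h6, orderOf_one] at hx
        omega
      exact hzM (hKM (hZK hzZ))
    · -- `K` has order two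
      have hK2 : Nat.card K = 1 ∨ Nat.card K = 2 := by
        have hle := Nat.le_of_dvd (by norm_num) hKd
        have hpos : 0 < Nat.card K := Nat.card_pos
        interval_cases h : Nat.card K <;> simp_all <;> omega
      rcases hK2 with h1 | h2'
      · apply hne
        exact Subgroup.card_eq_one.mp h1 |> fun h => h
      · obtain ⟨s, hsK, hs1⟩ : ∃ s ∈ K, s ≠ 1 := ex_ne hne
        have hKcases : ∀ x ∈ K, x = 1 ∨ x = s := fun x hx => two_cases h2' hsK hs1 hx
        have hscen : ∀ g : G, g * s * g⁻¹ = s := by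
          intro g
          rcases hKcases _ (hKn.conj_mem s hsK g) with h | h
          · exfalso
            apply hs1
            have : g⁻¹ * (g * s * g⁻¹) * g = 1 := by rw [h]; group
            simpa [mul_assoc] using this
          · exact h
        have hKp : IsPGroup 2 K := IsPGroup.of_card (n := 1) (by rw [h2', pow_one])
        obtain ⟨Q, hQ⟩ := hKp.exists_le_sylow
        obtain ⟨g, hg⟩ := MulAction.exists_smul_eq G Q T
        have hsT : s ∈ (T : Subgroup G) := by
          rw [← hg, Sylow.coe_subgroup_smul]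
          have := Subgroup.smul_mem_pointwise_smul s (MulAut.conj g) _ (hQ hsK)
          have h6 : (MulAut.conj g) • s = s := by
            change g * s * g⁻¹ = s
            exact hscen g
          rwa [h6] at this
        have hst : s = t := by
          rcases hTcases s hsT with h | h
          · exact absurd h hs1
          · exact h
        apply hST
        apply le_antisymm inf_le_left
        refine le_inf le_rfl ?_
        intro x _
        rw [Subgroup.mem_centralizer_iff]
        intro y hy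
        rcases hTcases y hy with rfl | rfl
        · simp
        · have := hscen x
          rw [hst] at this
          calc y * x = x * (x⁻¹ * y * x) := by group
            _ = x * y := by
              congr 1
              have h7 := hscen x⁻¹
              rw [hst, inv_inv] at h7
              exact h7
  -- the action on nine points
  have hQcard : Nat.card (G ⧸ M) = 9 := by
    have := Subgroup.card_eq_card_quotient_mul_card_subgroup M
    rw [hG, hMcard] at this
    omega
  let e : (G ⧸ M) ≃ Fin 9 := Finite.equivFinOfCardEq hQcard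
  let f₀ : G →* Equiv.Perm (G ⧸ M) := MulAction.toPermHom G (G ⧸ M)
  have hf₀ : Function.Injective f₀ := by
    rw [injective_iff_map_eq_one]
    intro g hg
    have : g ∈ f₀.ker := hg
    rw [← Subgroup.normalCore_eq_ker, hcore, Subgroup.mem_bot] at this
    exact this
  let f₁ : G →* Equiv.Perm (Fin 9) := (Equiv.permCongrHom e).toMonoidHom.comp f₀
  have hf₁ : Function.Injective f₁ := by
    intro a b hab
    apply hf₀
    exact (Equiv.permCongrHom e).injective hab
  have hzcube : z ^ 3 = 1 := by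
    have h := pow_card_eq_one' (x := (⟨z, hzZ⟩ : Z))
    rw [hZcard] at h
    exact congrArg Subtype.val h
  have hwfix : ∀ i, f₁ z i ≠ i := by
    intro i hi
    have h1 : f₀ z (e.symm i) = e.symm i := by
      have h5 : e (f₀ z (e.symm i)) = i := hi
      apply e.injective
      rw [h5]
      exact (e.apply_symm_apply i).symm
    obtain ⟨g, hg⟩ := QuotientGroup.mk_surjective (e.symm i)
    rw [← hg] at h1
    have h6 : ((z • (g : G ⧸ M)) : G ⧸ M) = (g : G ⧸ M) := h1
    rw [MulAction.Quotient.smul_coe, QuotientGroup.eq] at h6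
    have h7 : (z • g)⁻¹ * g = (g⁻¹ * z⁻¹ * g) := by
      rw [smul_eq_mul, mul_inv_rev]
    rw [h7] at h6
    have h8 : g⁻¹ * z⁻¹ * g = z⁻¹ := by
      have := hZcen z⁻¹ (Subgroup.inv_mem _ hzZ) g
      rw [mul_assoc, ← this]
      group
    rw [h8] at h6
    exact hzM (by simpa using Subgroup.inv_mem _ h6)
  have hconj : IsConj (f₁ z) c9 := by
    rw [Equiv.Perm.isConj_iff_cycleType_eq, c9_type]
    exact cyc_type _ (by rw [← map_pow, hzcube, map_one]) hwfix
  obtain ⟨h, hh⟩ := isConj_iff.mp hconj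
  let f₂ : G →* Equiv.Perm (Fin 9) := (MulAut.conj h).toMonoidHom.comp f₁
  have hf₂z : f₂ z = c9 := hh
  have hf₂ : Function.Injective f₂ := by
    intro a b hab
    apply hf₁
    exact (MulAut.conj h).injective hab
  have hmem : ∀ g, f₂ g ∈ Subgroup.centralizer ({c9} : Set (Equiv.Perm (Fin 9))) := by
    intro g
    rw [Subgroup.mem_centralizer_iff]
    intro y hy
    rw [Set.mem_singleton_iff] at hy
    rw [hy, ← hf₂z, ← map_mul, ← map_mul, hZcen z hzZ g]
  let f₃ : G →* Subgroup.centralizer ({c9} : Set (Equiv.Perm (Fin 9))) := f₂.codRestrict _ hmem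
  have hf₃ : Function.Injective f₃ := by
    intro a b hab
    apply hf₂
    exact congrArg Subtype.val hab
  have hbij : Function.Bijective f₃ :=
    hf₃.bijective_of_nat_card_le (by rw [c9_card, hG])
  exact ⟨MulEquiv.ofBijective f₃ hbij⟩


/-- Let G be a group of order 162 = 3⁴·2 with Sylow 3-subgroup S and Sylow 2-subgroup T, having an elementary abelian normal subgroup J of order 27, such that Z = Z(S) has order 3, Z centralizes T, and C_S(T) ≠ S. Then G is isomorphic to the centralizer in Sym(9) of a product of three disjoint 3-cycles. -/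
theorem result {G : Type*} [Group G] [Finite G] (hG : Nat.card G = 162)
    (S : Sylow 3 G) (T : Sylow 2 G) (J : Subgroup G) [hJn : J.Normal] (hJcomm : IsMulCommutative J)
    (hJexp : ∀ a ∈ J, a ^ 3 = 1) (hJcard : Nat.card J = 27)
    (Z : Subgroup G) (hZ : Z = (S : Subgroup G) ⊓ Subgroup.centralizer ((S : Subgroup G) : Set G)) (hZcard : Nat.card Z = 3)
    (hZT : Z ≤ Subgroup.centralizer ((T : Subgroup G) : Set G))
    (hST : (S : Subgroup G) ⊓ Subgroup.centralizer ((T : Subgroup G) : Set G) ≠ S) :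
    Nonempty (G ≃* Subgroup.centralizer ({Equiv.swap (0 : Fin 9) 1 * Equiv.swap 1 2 * Equiv.swap 3 4 * Equiv.swap 4 5 * Equiv.swap 6 7 * Equiv.swap 7 8} : Set (Equiv.Perm (Fin 9)))) := by
  exact main_thm hG S T J hJcomm hJexp hJcard Z hZ hZcard hZT hST

end Cfsg.Agent.S3376
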