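import Cfsg.Statements.S3389
import Mathlib
import Cfsg.Agent.Lib.ExtPrim.Basic

set_option autoImplicit false
open Cfsg

namespace Cfsg.Agent.S3389

open MulAction in
/-- Burnside's lemma for a transitive action, with `Nat.card`. -/
theorem burnside_trans {H Y : Type*} [Group H] [Finite H] [Finite Y] [MulAction H Y]
    [IsPretransitive H Y] [Nonempty Y] [Fintype H] :
    ∑ x : H, Nat.card (fixedBy Y x) = Nat.card H := by
  classical
  have := Fintype.ofFinite Y
  have hb := MulAction.sum_card_fixedBy_eq_card_orbits_mul_card_group H Y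
  have h1 : Fintype.card (orbitRel.Quotient H Y) = 1 := by
    rw [Fintype.card_eq_one_iff]
    obtain ⟨y₀⟩ := ‹Nonempty Y›
    refine ⟨Quotient.mk'' y₀, ?_⟩
    intro y
    induction y using Quotient.inductionOn' with | _ y => ?_
    apply Quotient.sound'
    exact MulAction.exists_smul_eq H y₀ y
  rw [h1, one_mul] at hb
  rw [Nat.card_eq_fintype_card (α := H), ← hb]
  apply Finset.sum_congr rfl
  intro x _
  exact Nat.card_eq_fintype_card

open MulAction in
/-- If two distinct orbits of `H` have non-trivial stabilizers and all non-trivial elements of `H`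
fix at most one point of these orbits we reach a contradiction. -/
theorem no_two_orbits {H Y : Type*} [Group H] [Finite H] [Finite Y] [MulAction H Y]
    {b c : Y} (hbc : c ∉ orbit H b) (hb : stabilizer H b ≠ ⊥) (hc : stabilizer H c ≠ ⊥)
    (hfix : ∀ x : H, x ≠ 1 → ∀ y z : Y, (y ∈ orbit H b ∨ y ∈ orbit H c) →
      (z ∈ orbit H b ∨ z ∈ orbit H c) → x • y = y → x • z = z → y = z) : False := by
  classical
  have := Fintype.ofFinite H
  -- one orbit
  have key : ∀ d : Y, stabilizer H d ≠ ⊥ →
      Nat.card H ≤ 2 * ∑ x ∈ Finset.univ.erase (1 : H), Nat.card (fixedBy (orbit H d) x) := by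
    intro d hd
    have hne : Nonempty (orbit H d) := ⟨⟨d, mem_orbit_self d⟩⟩
    have h1 := burnside_trans (H := H) (Y := orbit H d)
    rw [← Finset.add_sum_erase Finset.univ _ (Finset.mem_univ (1 : H))] at h1
    have h2 : Nat.card (fixedBy (orbit H d) (1 : H)) = Nat.card (orbit H d) := by
      apply Nat.card_congr
      exact Equiv.subtypeUnivEquiv (fun y => by simp)
    have h3 : Nat.card (orbit H d) * Nat.card (stabilizer H d) = Nat.card H := by
      rw [← Nat.card_prod]
      exact Nat.card_congr (orbitProdStabilizerEquivGroup H d)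
    have h4 : 2 ≤ Nat.card (stabilizer H d) := by
      have : Nontrivial (stabilizer H d) := (Subgroup.nontrivial_iff_ne_bot _).mpr hd
      exact Finite.one_lt_card
    have h5 : Nat.card (orbit H d) * 2 ≤ Nat.card (orbit H d) * Nat.card (stabilizer H d) :=
      Nat.mul_le_mul_left _ h4
    omega
  have hb' := key b hb
  have hc' := key c hc
  have hle : ∀ x ∈ Finset.univ.erase (1 : H),
      Nat.card (fixedBy (orbit H b) x) + Nat.card (fixedBy (orbit H c) x) ≤ 1 := by
    intro x hx
    have hx1 : x ≠ 1 := Finset.ne_of_mem_erase hx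
    rw [← Nat.card_sum]
    apply Finite.card_le_one_iff_subsingleton.mpr
    constructor
    have hval : ∀ t : (fixedBy (orbit H b) x) ⊕ (fixedBy (orbit H c) x), ∃ y : Y, x • y = y ∧
        (∀ u, t = Sum.inl u → (u.1 : Y) = y) ∧ (∀ u, t = Sum.inr u → (u.1 : Y) = y) := by
      rintro (u | u)
      · refine ⟨(u.1 : Y), congrArg Subtype.val u.2, fun v hv => ?_, fun v hv => ?_⟩
        · cases hv; rfl
        · cases hv
      · refine ⟨(u.1 : Y), congrArg Subtype.val u.2, fun v hv => ?_, fun v hv => ?_⟩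
        · cases hv
        · cases hv; rfl
    have hdisj : ∀ (u : orbit H b) (v : orbit H c), (u : Y) ≠ v := by
      rintro ⟨_, g, rfl⟩ ⟨_, g', rfl⟩ h
      apply hbc
      refine ⟨g'⁻¹ * g, ?_⟩
      simp only [mul_smul]
      rw [inv_smul_eq_iff]
      exact h
    rintro (u | u) (v | v)
    · congr 1
      apply Subtype.ext
      apply Subtype.ext
      exact hfix x hx1 _ _ (Or.inl u.1.2) (Or.inl v.1.2) (congrArg Subtype.val u.2) (congrArg Subtype.val v.2)
    · exact absurd (hfix x hx1 _ _ (Or.inl u.1.2) (Or.inr v.1.2) (congrArg Subtype.val u.2) (congrArg Subtype.val v.2)) (hdisj _ _)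
    · exact absurd (hfix x hx1 _ _ (Or.inl v.1.2) (Or.inr u.1.2) (congrArg Subtype.val v.2) (congrArg Subtype.val u.2)) (hdisj _ _)
    · congr 1
      apply Subtype.ext
      apply Subtype.ext
      exact hfix x hx1 _ _ (Or.inr u.1.2) (Or.inr v.1.2) (congrArg Subtype.val u.2) (congrArg Subtype.val v.2)
  have hsum := Finset.sum_le_card_nsmul _ _ 1 hle
  rw [Finset.sum_add_distrib] at hsum
  have hcard : (Finset.univ.erase (1 : H)).card = Nat.card H - 1 := by
    rw [Finset.card_erase_of_mem (Finset.mem_univ _), Finset.card_univ, Nat.card_eq_fintype_card]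
  rw [hcard] at hsum
  have hpos : 0 < Nat.card H := Nat.card_pos
  simp only [smul_eq_mul, mul_one] at hsum
  omega

open MulAction in
/-- Every non-identity element fixing two points implies even order. -/
theorem even_of_fixity_two {G : Type*} [Group G] [Finite G] {Ω : Type*} [Finite Ω] [MulAction G Ω]
    (htr : IsPretransitive G Ω) (hfix : ∀ g : G, g ≠ 1 → Nat.card (fixedBy Ω g) ≤ 2)
    (g₀ : G) (hg₀ : g₀ ≠ 1) {a b : Ω} (hab : a ≠ b) (ha : g₀ • a = a) (hb : g₀ • b = b) :
    2 ∣ Nat.card G := by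
  classical
  by_contra hodd
  -- no element swaps `a` and `b`
  have hnoswap : ∀ w : G, w • a = b → w • b = a → False := by
    intro w h1 h2
    have hdvd : orderOf w ∣ Nat.card G := orderOf_dvd_natCard w
    have hodd2 : ¬ 2 ∣ orderOf w := fun h => hodd (h.trans hdvd)
    obtain ⟨m, hm⟩ : ∃ m, orderOf w = 2 * m + 1 := by
      have := Nat.odd_iff.mpr (Nat.mod_two_ne_zero.mp (fun h => hodd2 (Nat.dvd_of_mod_eq_zero h)))
      exact this
    have hw2 : w ^ 2 • a = a := by rw [pow_two, mul_smul, h1, h2]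
    have hw2n : ∀ n : ℕ, (w ^ 2) ^ n • a = a := by
      intro n
      induction n with
      | zero => simp
      | succ n ih => rw [pow_succ, mul_smul, hw2, ih]
    have h3 : w = (w ^ 2) ^ (m + 1) := by
      rw [← pow_mul]
      have : 2 * (m + 1) = orderOf w + 1 := by omega
      rw [this, pow_succ, pow_orderOf_eq_one, one_mul]
    have h4 : w • a = a := by
      rw [h3]
      exact hw2n _
    rw [h1] at h4
    exact hab h4.symm
  obtain ⟨h, hh⟩ := htr.exists_smul_eq b a
  set c := h • a with hc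
  have hca : c ≠ a := by
    intro h'
    apply hab
    have : h • a = h • b := by rw [hh]; exact h'
    exact smul_left_cancel h this
  let H := stabilizer G a
  have hbc : c ∉ orbit H b := by
    rintro ⟨⟨t, ht⟩, hte⟩
    have ht' : t • a = a := ht
    have hte' : t • b = c := hte
    apply hnoswap (t⁻¹ * h)
    · rw [mul_smul, ← hc, ← hte', inv_smul_smul]
    · rw [mul_smul, hh, inv_smul_eq_iff, ht']
  have hsb : stabilizer H b ≠ ⊥ := by
    intro hbot
    have h1 : (⟨g₀, ha⟩ : H) ∈ stabilizer H b := hb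
    rw [hbot, Subgroup.mem_bot] at h1
    exact hg₀ (congrArg Subtype.val h1)
  have hsc : stabilizer H c ≠ ⊥ := by
    intro hbot
    have h0 : h * g₀ * h⁻¹ ∈ H := by
      change (h * g₀ * h⁻¹) • a = a
      simp only [mul_smul]
      rw [← hh, inv_smul_smul, hb]
    have h1 : (⟨h * g₀ * h⁻¹, h0⟩ : H) ∈ stabilizer H c := by
      change (h * g₀ * h⁻¹) • c = c
      simp only [mul_smul, hc]
      rw [inv_smul_smul, ha]
    rw [hbot, Subgroup.mem_bot] at h1
    have h2 : h * g₀ * h⁻¹ = 1 := congrArg Subtype.val h1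
    apply hg₀
    have h3 : g₀ = h⁻¹ * (h * g₀ * h⁻¹) * h := by group
    rw [h3, h2]
    simp
  refine no_two_orbits (H := H) (Y := Ω) hbc hsb hsc ?_
  rintro ⟨x, hxa⟩ hx y z hyo hzo hy hz
  have hx1 : x ≠ 1 := fun h' => hx (Subtype.ext h')
  have hxa' : x • a = a := hxa
  have hy' : x • y = y := hy
  have hz' : x • z = z := hz
  have hna : ∀ w : Ω, (w ∈ orbit H b ∨ w ∈ orbit H c) → w ≠ a := by
    have aux : ∀ d : Ω, d ≠ a → ∀ w ∈ orbit H d, w ≠ a := by
      rintro d hd _ ⟨⟨t, ht⟩, rfl⟩ h'
      have ht' : t • a = a := ht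
      apply hd
      have h'' : t • d = a := h'
      have : t • d = t • a := by rw [h'', ht']
      exact smul_left_cancel t this
    rintro w (hw | hw)
    · exact aux b hab.symm w hw
    · exact aux c hca w hw
  by_contra hyz
  have hcard := hfix x hx1
  have hya := hna y hyo
  have hza := hna z hzo
  have hsub : ({a, y, z} : Set Ω) ⊆ fixedBy Ω x := by
    intro w hw
    simp only [Set.mem_insert_iff, Set.mem_singleton_iff] at hw
    rcases hw with rfl | rfl | rfl
    · exact hxa'
    · exact hy'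
    · exact hz'
  have hle : Nat.card ({a, y, z} : Set Ω) ≤ Nat.card (fixedBy Ω x) :=
    Nat.card_mono (Set.toFinite _) hsub
  have h3 : Nat.card ({a, y, z} : Set Ω) = 3 := by
    rw [Nat.card_coe_set_eq]
    exact Set.ncard_eq_three.mpr ⟨a, y, z, hya.symm, hza.symm, hyz, rfl⟩
  omega

open MulAction in
/-- A `p`-element with `p` above the fixity: the point stabilizer cannot be intermediate. -/
theorem no_middle {G Ω : Type*} [Group G] [Finite G] [Finite Ω] [MulAction G Ω] {p : ℕ}
    [hp : Fact p.Prime] {k : ℕ} (hkp : k < p)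
    (hfix : ∀ g : G, g ≠ 1 → Nat.card (fixedBy Ω g) ≤ k) (α : Ω)
    (h1 : p ∣ Nat.card (stabilizer G α)) (h2 : p ∣ (stabilizer G α).index) : False := by
  classical
  obtain ⟨x₀, hx₀⟩ := exists_prime_orderOf_dvd_card' p h1
  have hx₀' : orderOf (x₀ : G) = p := by
    rw [Subgroup.orderOf_coe]; exact hx₀
  have hx₀1 : (x₀ : G) ≠ 1 := by
    intro h
    rw [h, orderOf_one] at hx₀'
    exact hp.out.one_lt.ne hx₀'
  have hP : IsPGroup p (Subgroup.zpowers (x₀ : G)) := by
    apply IsPGroup.of_card (n := 1)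
    rw [Nat.card_zpowers, hx₀', pow_one]
  obtain ⟨S, hS⟩ := hP.exists_le_sylow
  have hSle : ¬ (S : Subgroup G) ≤ stabilizer G α := fun hle =>
    S.not_dvd_index (h2.trans (Subgroup.index_dvd_of_le hle))
  have hxS : (x₀ : G) ∈ (S : Subgroup G) := hS (Subgroup.mem_zpowers _)
  let R : Subgroup (S : Subgroup G) := (stabilizer G α).subgroupOf (S : Subgroup G)
  have hRlt : R < ⊤ := by
    rw [lt_top_iff_ne_top]
    intro h
    apply hSle
    intro s hs
    have : (⟨s, hs⟩ : (S : Subgroup G)) ∈ R := by rw [h]; trivial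
    exact this
  have hnil : Group.IsNilpotent (S : Subgroup G) := S.isPGroup'.isNilpotent
  have hnc := normalizerCondition_of_isNilpotent (G := (S : Subgroup G)) R hRlt
  obtain ⟨y, hyN, hyR⟩ := SetLike.exists_of_lt hnc
  have hyα : (y : G) • α ≠ α := fun h => hyR (by
    change (y : G) ∈ stabilizer G α
    exact h)
  let Z : Subgroup G := Subgroup.zpowers (y : G)
  have hZS : Z ≤ (S : Subgroup G) := by
    rw [Subgroup.zpowers_le]; exact y.2
  have hZp : IsPGroup p Z := S.isPGroup'.to_le hZS
  obtain ⟨n, hn⟩ := hZp.card_orbit α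
  have hsub : (orbit Z α) ⊆ fixedBy Ω (x₀ : G) := by
    rintro _ ⟨⟨z, hz⟩, rfl⟩
    obtain ⟨m, rfl⟩ := Subgroup.mem_zpowers_iff.mp hz
    have hm : (y ^ (-m)) ∈ Subgroup.normalizer R := Subgroup.zpow_mem _ hyN _
    have hmem : (⟨(x₀ : G), hxS⟩ : (S : Subgroup G)) ∈ R := x₀.2
    have h3 := (Subgroup.mem_normalizer_iff.mp hm _).mp hmem
    have h4 : ((y ^ (-m) * ⟨(x₀ : G), hxS⟩ * (y ^ (-m))⁻¹ : (S : Subgroup G)) : G) • α = α := h3
    simp only [zpow_neg, inv_inv, Subgroup.coe_mul, Subgroup.coe_inv, Subgroup.coe_zpow] at h4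
    simp only [mul_smul] at h4
    change (x₀ : G) • ((y : G) ^ m • α) = (y : G) ^ m • α
    rw [inv_smul_eq_iff] at h4
    exact h4
  have hle : Nat.card (orbit Z α) ≤ Nat.card (fixedBy Ω (x₀ : G)) :=
    Nat.card_mono (Set.toFinite _) hsub
  have hk := hfix _ hx₀1
  rcases n with _ | n
  · rw [pow_zero] at hn
    have hmem1 : (y : G) • α ∈ orbit Z α :=
      ⟨⟨y, Subgroup.mem_zpowers _⟩, rfl⟩
    have hsing : (orbit Z α) = {α} := by
      have : Set.ncard (orbit Z α) = 1 := by rw [← Nat.card_coe_set_eq]; exact hn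
      obtain ⟨w, hw⟩ := Set.ncard_eq_one.mp this
      rw [hw]
      have : α ∈ orbit Z α := mem_orbit_self α
      rw [hw] at this
      rw [Set.mem_singleton_iff.mp this]
    rw [hsing] at hmem1
    exact hyα hmem1
  · have : p ≤ p ^ (n + 1) := Nat.le_self_pow (by omega) p
    omega

/-- Let G be a finite group acting faithfully and transitively on a finite set Ω with fixity k ≥ 1: every non-identity element fixes at most k points and some non-identity element fixes exactly k points. Then |Z(G)| divides k; if k = 2 then |G| is even; and for every prime p > k dividing |G| and every point α, either p does not divide |G_α| or G_α contains a Sylow p-subgroup of G. -/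
theorem result {G : Type*} [Group G] [Finite G] {Ω : Type*} [Fintype Ω] [MulAction G Ω] [FaithfulSMul G Ω]
    (htr : MulAction.IsPretransitive G Ω) (k : ℕ) (hk : 1 ≤ k)
    (hfix : ∀ g : G, g ≠ 1 → Nat.card (MulAction.fixedBy Ω g) ≤ k) (hex : ∃ g : G, g ≠ 1 ∧ Nat.card (MulAction.fixedBy Ω g) = k) :
    Nat.card (Subgroup.center G) ∣ k ∧ (k = 2 → 2 ∣ Nat.card G) ∧
      ∀ (p : ℕ), p.Prime → k < p → p ∣ Nat.card G → ∀ α : Ω,
        ¬ p ∣ Nat.card (MulAction.stabilizer G α) ∨ ¬ p ∣ (MulAction.stabilizer G α).index := by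
  classical
  obtain ⟨g₀, hg₀, hg₀k⟩ := hex
  refine ⟨?_, ?_, ?_⟩
  · -- the center acts freely on the fixed points of `g₀`
    let Y := MulAction.fixedBy Ω g₀
    let act : MulAction (Subgroup.center G) Y :=
      { smul := fun c y => ⟨(c : G) • y.1, by
          have hc : (c : G) * g₀ = g₀ * c := (Subgroup.mem_center_iff.mp c.2 g₀).symm
          have hy : g₀ • y.1 = y.1 := y.2
          change g₀ • ((c : G) • y.1) = (c : G) • y.1
          rw [← mul_smul, ← hc, mul_smul, hy]⟩
        one_smul := fun y => Subtype.ext (one_smul G y.1)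
        mul_smul := fun a b y => Subtype.ext (mul_smul (a : G) (b : G) y.1) }
    have hdvd := @Lib.ExtPrim.card_dvd_of_free (Subgroup.center G) Y _ _ _ act (by
      intro c y hcy
      have h1 : (c : G) • y.1 = y.1 := congrArg Subtype.val hcy
      have TN : Lib.Derangement.Trans (⊤ : Subgroup G) Ω := by
        intro a b
        obtain ⟨g, hg⟩ := htr.exists_smul_eq a b
        exact ⟨g, trivial, hg⟩
      have := Lib.Derangement.eq_one_of_commute_of_fix TN
        (fun s _ => (Subgroup.mem_center_iff.mp c.2 s).symm) h1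
      exact Subtype.ext this)
    rw [← hg₀k]
    exact hdvd
  · intro hk2
    rw [hk2] at hfix hg₀k
    have : ∃ a b : Ω, a ≠ b ∧ g₀ • a = a ∧ g₀ • b = b := by
      have h1 : Set.ncard (MulAction.fixedBy Ω g₀) = 2 := by rw [← Nat.card_coe_set_eq]; exact hg₀k
      obtain ⟨a, b, hab, hs⟩ := Set.ncard_eq_two.mp h1
      refine ⟨a, b, hab, ?_, ?_⟩
      · have : a ∈ MulAction.fixedBy Ω g₀ := by rw [hs]; simp
        exact this
      · have : b ∈ MulAction.fixedBy Ω g₀ := by rw [hs]; simp
        exact this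
    obtain ⟨a, b, hab, ha, hb⟩ := this
    exact even_of_fixity_two htr hfix g₀ hg₀ hab ha hb
  · intro p hp hkp _ α
    haveI : Fact p.Prime := ⟨hp⟩
    by_contra hcon
    push_neg at hcon
    exact no_middle hkp hfix α hcon.1 hcon.2

end Cfsg.Agent.S3389
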