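import Cfsg.Statements.S3498
import Mathlib

set_option autoImplicit false
open Cfsg

namespace Cfsg.Agent.S3498

/-- An `H`-invariant nontrivial subgroup of `T`, when `H` is maximal and meets `T` trivially,
is all of `T`. -/
theorem le_of_invariant {G : Type*} [Group G] (T H U : Subgroup G) (hmax : IsCoatom H)
    (hHT : H ⊓ T = ⊥) (hUT : U ≤ T) (hUH : ∀ h ∈ H, ∀ u ∈ U, h * u * h⁻¹ ∈ U) (hU : U ≠ ⊥) :
    T ≤ U := by
  let K : Subgroup G :=
    { carrier := {g | ∃ u ∈ U, ∃ h ∈ H, g = u * h}
      mul_mem' := by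
        rintro _ _ ⟨u, hu, h, hh, rfl⟩ ⟨u', hu', h', hh', rfl⟩
        refine ⟨u * (h * u' * h⁻¹), U.mul_mem hu (hUH h hh u' hu'), h * h', H.mul_mem hh hh', ?_⟩
        group
      one_mem' := ⟨1, U.one_mem, 1, H.one_mem, by simp⟩
      inv_mem' := by
        rintro _ ⟨u, hu, h, hh, rfl⟩
        refine ⟨h⁻¹ * u⁻¹ * h⁻¹⁻¹, hUH h⁻¹ (H.inv_mem hh) _ (U.inv_mem hu), h⁻¹, H.inv_mem hh, ?_⟩
        group }
  have hHK : H ≤ K := fun h hh => ⟨1, U.one_mem, h, hh, by simp⟩
  have hUK : U ≤ K := fun u hu => ⟨u, hu, 1, H.one_mem, by simp⟩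
  have hKne : H ≠ K := by
    intro heq
    apply hU
    rw [eq_bot_iff]
    intro u hu
    have : u ∈ H ⊓ T := Subgroup.mem_inf.mpr ⟨heq ▸ hUK hu, hUT hu⟩
    rwa [hHT] at this
  have hKtop : K = ⊤ := hmax.2 K (lt_of_le_of_ne hHK hKne)
  intro t ht
  have htK : t ∈ K := by rw [hKtop]; trivial
  obtain ⟨u, hu, h, hh, rfl⟩ := htK
  have hhT : h ∈ T := by
    have : h = u⁻¹ * (u * h) := by group
    rw [this]; exact T.mul_mem (T.inv_mem (hUT hu)) ht
  have : h ∈ H ⊓ T := Subgroup.mem_inf.mpr ⟨hh, hhT⟩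
  rw [hHT, Subgroup.mem_bot] at this
  rw [this, mul_one]; exact hu

/-- A nonabelian simple group is no `r`-group. -/
theorem simple_not_pgroup {T : Type*} [Group T] [Finite T] (hT : IsSimpleGroup T)
    (hTc : ¬ IsMulCommutative T) {r : ℕ} [Fact r.Prime] (h : IsPGroup r T) : False := by
  haveI : Nontrivial (Subgroup.center T) := h.center_nontrivial
  have hne : Subgroup.center T ≠ ⊥ := (Subgroup.nontrivial_iff_ne_bot _).mp inferInstance
  have htop : Subgroup.center T = ⊤ :=
    (hT.eq_bot_or_eq_top_of_normal _ inferInstance).resolve_left hne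
  apply hTc
  refine ⟨⟨fun a b => ?_⟩⟩
  have : a ∈ Subgroup.center T := by rw [htop]; trivial
  exact (Subgroup.mem_center_iff.mp this b).symm

/-- `H` abelian of prime order: the case `H ≤ T = G`. -/
theorem case_simple {G : Type*} [Group G] [Finite G] (hG : IsSimpleGroup G)
    (hGc : ¬ IsMulCommutative G) (H : Subgroup G) (hmax : IsCoatom H)
    (hp : (Nat.card H).Prime) : False := by
  set p := Nat.card H with hpdef
  haveI : Fact p.Prime := ⟨hp⟩
  have hHp : IsPGroup p H := IsPGroup.of_card (n := 1) (by rw [pow_one])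
  obtain ⟨S, hS⟩ := hHp.exists_le_sylow
  have hSH : (S : Subgroup G) = H := by
    by_contra hne
    have htop : (S : Subgroup G) = ⊤ := hmax.2 _ (lt_of_le_of_ne hS (Ne.symm hne))
    apply simple_not_pgroup hG hGc (r := p)
    intro g
    have : g ∈ (S : Subgroup G) := by rw [htop]; trivial
    obtain ⟨n, hn⟩ := S.isPGroup' ⟨g, this⟩
    exact ⟨n, congrArg Subtype.val hn⟩
  have hHne : H ≠ ⊥ := by
    intro h
    rw [h, Nat.card_eq_one_iff_unique.mpr ⟨inferInstance, inferInstance⟩] at hpdef
    exact hp.one_lt.ne hpdef.symm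
  have hnorm : ¬ H.Normal := by
    intro hn
    rcases hG.eq_bot_or_eq_top_of_normal H hn with h | h
    · exact hHne h
    · exact hmax.1 h
  have hNH : Subgroup.normalizer (H : Set G) = H := by
    by_contra hne
    have htop : Subgroup.normalizer (H : Set G) = ⊤ :=
      hmax.2 _ (lt_of_le_of_ne Subgroup.le_normalizer (Ne.symm hne))
    exact hnorm (Subgroup.normalizer_eq_top_iff.mp htop)
  haveI : IsCyclic H := isCyclic_of_prime_card (p := p) rfl
  have hNC : Subgroup.normalizer ((S : Subgroup G) : Set G) ≤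
      Subgroup.centralizer ((S : Subgroup G) : Set G) := by
    rw [hSH, hNH]
    intro x hx
    rw [Subgroup.mem_centralizer_iff]
    intro y hy
    have := (IsCyclic.commutative (α := H)).is_comm.comm (⟨x, hx⟩ : H) ⟨y, hy⟩
    exact (congrArg Subtype.val this).symm
  have hcompl := MonoidHom.ker_transferSylow_isComplement' S hNC
  rcases hG.eq_bot_or_eq_top_of_normal _ (MonoidHom.normal_ker (MonoidHom.transferSylow S hNC)) with h | h
  · rw [h] at hcompl
    have := Subgroup.isComplement'_bot_left.mp hcompl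
    rw [hSH] at this
    exact hmax.1 this
  · rw [h] at hcompl
    have := Subgroup.isComplement'_top_left.mp hcompl
    rw [hSH] at this
    exact hHne this

/-- The case `H ⊓ T = ⊥`. -/
theorem case_inf {G : Type*} [Group G] [Finite G] (T : Subgroup G) [hTn : T.Normal]
    (hT : IsSimpleGroup T) (hTc : ¬ IsMulCommutative T)
    (hC : Subgroup.centralizer (T : Set G) = ⊥) (H : Subgroup G) (hmax : IsCoatom H)
    (hHT : H ⊓ T = ⊥) (hp : (Nat.card H).Prime) : False := by
  classical
  set p := Nat.card H with hpdef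
  haveI : Fact p.Prime := ⟨hp⟩
  have hHp : IsPGroup p H := IsPGroup.of_card (n := 1) (by rw [pow_one])
  have hHne : H ≠ ⊥ := by
    intro h
    rw [h, Nat.card_eq_one_iff_unique.mpr ⟨inferInstance, inferInstance⟩] at hpdef
    exact hp.one_lt.ne hpdef.symm
  haveI : IsCyclic H := isCyclic_of_prime_card (p := p) rfl
  -- the centralizer of `H` in `T` is trivial
  have hCH : T ⊓ Subgroup.centralizer (H : Set G) = ⊥ := by
    by_contra hne
    have hle := le_of_invariant T H _ hmax hHT inf_le_left (by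
      intro h hh u hu
      have hu' := (Subgroup.mem_inf.mp hu).2
      have : h * u * h⁻¹ = u := by
        rw [Subgroup.mem_centralizer_iff] at hu'
        rw [hu' h hh]
        group
      rw [this]
      exact hu) hne
    apply hHne
    rw [eq_bot_iff, ← hC]
    intro h hh
    rw [Subgroup.mem_centralizer_iff]
    intro t ht
    have h1 := (Subgroup.mem_inf.mp (hle ht)).2
    rw [Subgroup.mem_centralizer_iff] at h1
    exact (h1 h hh).symm
  letI act : MulDistribMulAction H T :=
    MulDistribMulAction.compHom T ((MulAut.conjNormal : G →* MulAut T).comp H.subtype)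
  have hsmul : ∀ (h : H) (t : T), ((h • t : T) : G) = (h : G) * t * (h : G)⁻¹ := by
    intro h t
    exact MulAut.conjNormal_apply (h : G) t
  -- `p` does not divide `T`
  have hfp : Nat.card (MulAction.fixedPoints H T) = 1 := by
    rw [Nat.card_eq_one_iff_unique]
    refine ⟨⟨?_⟩, ⟨⟨1, fun h => smul_one h⟩⟩⟩
    rintro ⟨t, ht⟩ ⟨t', ht'⟩
    have key : ∀ t : T, t ∈ MulAction.fixedPoints H T → t = 1 := by
      intro t ht
      have hmem : (t : G) ∈ T ⊓ Subgroup.centralizer (H : Set G) := by
        refine Subgroup.mem_inf.mpr ⟨t.2, ?_⟩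
        rw [Subgroup.mem_centralizer_iff]
        intro h hh
        have h1 : (⟨h, hh⟩ : H) • t = t := ht ⟨h, hh⟩
        have h2 := hsmul ⟨h, hh⟩ t
        rw [h1] at h2
        have h3 : h = (⟨h, hh⟩ : H) := rfl
        rw [eq_mul_inv_iff_mul_eq] at h2
        exact h2.symm
      rw [hCH, Subgroup.mem_bot] at hmem
      exact Subtype.ext hmem
    apply Subtype.ext
    exact (key t ht).trans (key t' ht').symm
  have hcong := hHp.card_modEq_card_fixedPoints T
  rw [hfp] at hcong
  have hpT : ¬ p ∣ Nat.card T := by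
    intro hd
    have h1 : 1 ≡ 0 [MOD p] := hcong.symm.trans (Nat.modEq_zero_iff_dvd.mpr hd)
    have h2 := (Nat.modEq_zero_iff_dvd.mp h1)
    exact (Fact.out : p.Prime).one_lt.ne' (Nat.dvd_one.mp h2)
  -- a prime divisor of `T`
  haveI : Nontrivial T := hT.toNontrivial
  obtain ⟨r, hr, hrT⟩ := Nat.exists_prime_and_dvd (Finite.one_lt_card (α := T)).ne'
  haveI : Fact r.Prime := ⟨hr⟩
  obtain ⟨Q⟩ : Nonempty (Sylow r T) := inferInstance
  have hcong2 := hHp.card_modEq_card_fixedPoints (Sylow r T)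
  have hpSyl : ¬ p ∣ Nat.card (Sylow r T) := by
    intro hd
    apply hpT
    apply hd.trans
    rw [Q.card_eq_index_normalizer]
    exact Subgroup.index_dvd_card _
  have hne : Nat.card (MulAction.fixedPoints H (Sylow r T)) ≠ 0 := by
    intro h0
    rw [h0] at hcong2
    exact hpSyl (Nat.modEq_zero_iff_dvd.mp hcong2)
  haveI : Nonempty (MulAction.fixedPoints H (Sylow r T)) := by
    apply (Nat.card_pos_iff.mp (Nat.pos_of_ne_zero hne)).1
  obtain ⟨⟨R, hR⟩⟩ := this
  let U : Subgroup G := (R : Subgroup T).map T.subtype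
  have hUT : U ≤ T := by
    rintro _ ⟨t, _, rfl⟩
    exact t.2
  have hUne : U ≠ ⊥ := by
    intro h
    have h1 : (R : Subgroup T) = ⊥ := by
      rw [eq_bot_iff]
      intro t ht
      have : (t : G) ∈ U := ⟨t, ht, rfl⟩
      rw [h, Subgroup.mem_bot] at this
      exact (Subgroup.mem_bot).mpr (Subtype.ext this)
    exact R.ne_bot_of_dvd_card hrT h1
  have hinv : ∀ h ∈ H, ∀ u ∈ U, h * u * h⁻¹ ∈ U := by
    rintro h hh _ ⟨t, ht, rfl⟩
    refine ⟨(⟨h, hh⟩ : H) • t, ?_, hsmul ⟨h, hh⟩ t⟩
    have h1 : (⟨h, hh⟩ : H) • R = R := hR ⟨h, hh⟩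
    rw [← h1, Sylow.pointwise_smul_def]
    exact Subgroup.smul_mem_pointwise_smul _ _ _ ht
  have hle := le_of_invariant T H U hmax hHT hUT hinv hUne
  apply simple_not_pgroup hT hTc (r := r)
  intro t
  have h1 : (t : G) ∈ U := hle t.2
  obtain ⟨t', ht', he⟩ := h1
  have : t' = t := Subtype.ext he
  subst this
  obtain ⟨n, hn⟩ := R.isPGroup' ⟨t', ht'⟩
  exact ⟨n, congrArg Subtype.val hn⟩

/-- A maximal subgroup of a finite almost simple group does not have prime order. Here G is almost simple in the sense that it has a non-abelian simple normal subgroup T with trivial centralizer. -/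
theorem result {G : Type*} [Group G] [Finite G] (T : Subgroup G) [T.Normal] (hT : IsSimpleGroup T) (hTc : ¬ IsMulCommutative T)
    (hC : Subgroup.centralizer (T : Set G) = ⊥) (H : Subgroup G) (hmax : IsCoatom H) : ¬ (Nat.card H).Prime := by
  intro hp
  by_cases hle : H ≤ T
  · by_cases hTH : H = T
    · apply hTc
      subst hTH
      haveI : IsCyclic H := isCyclic_of_prime_card (p := Nat.card H) (hp := ⟨hp⟩) rfl
      exact IsCyclic.commutative (α := H)
    · have htop : T = ⊤ := hmax.2 _ (lt_of_le_of_ne hle hTH)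
      subst htop
      have hG : IsSimpleGroup G := (Subgroup.topEquiv (G := G)).symm.isSimpleGroup
      refine case_simple hG ?_ H hmax hp
      intro hc
      apply hTc
      refine ⟨⟨fun a b => Subtype.ext ?_⟩⟩
      exact hc.is_comm.comm a.1 b.1
  · refine case_inf T hT hTc hC H hmax ?_ hp
    have hfact : Fact (Nat.card H).Prime := ⟨hp⟩
    have hd : Nat.card (H ⊓ T : Subgroup G) ∣ Nat.card H :=
      Subgroup.card_dvd_of_le inf_le_left
    rcases (Nat.dvd_prime hp).mp hd with h | h
    · exact Subgroup.eq_bot_of_card_eq _ h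
    · exfalso
      apply hle
      have heq : H ⊓ T = H := Subgroup.eq_of_le_of_card_ge inf_le_left (by rw [h])
      exact inf_eq_left.mp heq

end Cfsg.Agent.S3498
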