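import Cfsg.Statements.S3504
import Mathlib
import Cfsg.Agent.Lib.Derangement.Reduction

set_option autoImplicit false
open Cfsg

namespace Cfsg.Agent.S3504

theorem cycleType_of_der {n : ℕ} (g : Equiv.Perm (Fin n)) (hp : (orderOf g).Prime)
    (hd : ∀ i : Fin n, g i ≠ i) :
    orderOf g ∣ n ∧ g.cycleType = Multiset.replicate (n / orderOf g) (orderOf g) := by
  obtain ⟨k, hk⟩ := Equiv.Perm.cycleType_prime_order hp
  have hsum : g.cycleType.sum = n := by
    rw [Equiv.Perm.sum_cycleType]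
    have : g.support = Finset.univ := by
      ext i
      simp [Equiv.Perm.mem_support, hd i]
    rw [this]
    simp
  rw [hk, Multiset.sum_replicate, smul_eq_mul] at hsum
  have hdvd : orderOf g ∣ n := Dvd.intro_left (k + 1) hsum
  refine ⟨hdvd, ?_⟩
  rw [hk]
  congr 1
  exact (Nat.div_eq_of_eq_mul_left hp.pos hsum.symm).symm

theorem exists_der {n : ℕ} {p : ℕ} (hp : p.Prime) (hpn : p ∣ n) (hn : 0 < n) :
    ∃ g : Equiv.Perm (Fin n), orderOf g = p ∧ ∀ i : Fin n, g i ≠ i := by
  obtain ⟨k, rfl⟩ := hpn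
  have hk : k ≠ 0 := by
    rintro rfl
    simp at hn
  obtain ⟨g, hg⟩ : ∃ g : Equiv.Perm (Fin (p * k)), g.cycleType = Multiset.replicate k p := by
    rw [Equiv.Perm.exists_with_cycleType_iff]
    constructor
    · simp [mul_comm]
    · intro a ha
      rw [Multiset.eq_of_mem_replicate ha]
      exact hp.two_le
  refine ⟨g, ?_, ?_⟩
  · rw [← Equiv.Perm.lcm_cycleType, hg]
    apply Nat.dvd_antisymm
    · apply Multiset.lcm_dvd.mpr
      intro a ha
      rw [Multiset.eq_of_mem_replicate ha]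
    · apply Multiset.dvd_lcm
      exact Multiset.mem_replicate.mpr ⟨hk, rfl⟩
  · have hsupp : g.support.card = p * k := by
      rw [← Equiv.Perm.sum_cycleType, hg, Multiset.sum_replicate, smul_eq_mul, mul_comm]
    have hu : g.support = Finset.univ := by
      apply Finset.eq_univ_of_card
      rw [hsupp]
      simp
    intro i
    have : i ∈ g.support := by rw [hu]; exact Finset.mem_univ i
    exact Equiv.Perm.mem_support.mp this

/-- For n ≥ 5, the fixed-point-free permutations of prime order in the symmetric group of degree n form a single conjugacy class if and only if n is a prime power. -/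
theorem result (n : ℕ) (hn : 5 ≤ n) :
    Nat.card {c : ConjClasses (Equiv.Perm (Fin n)) // ∃ g : Equiv.Perm (Fin n), ConjClasses.mk g = c ∧ (orderOf g).Prime ∧ ∀ i : Fin n, g i ≠ i} = 1 ↔ IsPrimePow n := by
  classical
  have hnpos : 0 < n := by omega
  rw [Nat.card_eq_one_iff_unique, isPrimePow_iff_unique_prime_dvd]
  constructor
  · rintro ⟨hsub, hne⟩
    obtain ⟨⟨_, g, rfl, hg, hd⟩⟩ := hne
    have hdv := (cycleType_of_der g hg hd).1
    refine ⟨orderOf g, ⟨hg, hdv⟩, ?_⟩
    rintro q ⟨hq, hqn⟩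
    obtain ⟨g', hg', hd'⟩ := exists_der hq hqn hnpos
    have h1 : (⟨ConjClasses.mk g', g', rfl, by rw [hg']; exact hq, hd'⟩ :
      {c : ConjClasses (Equiv.Perm (Fin n)) // ∃ g : Equiv.Perm (Fin n), ConjClasses.mk g = c ∧
        (orderOf g).Prime ∧ ∀ i : Fin n, g i ≠ i}) = ⟨ConjClasses.mk g, g, rfl, hg, hd⟩ :=
      Subsingleton.elim _ _
    have h2 : IsConj g' g := ConjClasses.mk_eq_mk_iff_isConj.mp (congrArg Subtype.val h1)
    rw [← hg']
    exact Lib.Derangement.orderOf_eq_of_isConj h2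
  · rintro ⟨p, ⟨hp, hpn⟩, huniq⟩
    constructor
    · constructor
      rintro ⟨_, g, rfl, hg, hd⟩ ⟨_, g', rfl, hg', hd'⟩
      apply Subtype.ext
      apply ConjClasses.mk_eq_mk_iff_isConj.mpr
      rw [Equiv.Perm.isConj_iff_cycleType_eq]
      obtain ⟨h1, h2⟩ := cycleType_of_der g hg hd
      obtain ⟨h1', h2'⟩ := cycleType_of_der g' hg' hd'
      have e1 : orderOf g = p := huniq _ ⟨hg, h1⟩
      have e2 : orderOf g' = p := huniq _ ⟨hg', h1'⟩
      rw [h2, h2', e1, e2]
    · obtain ⟨g, hg, hd⟩ := exists_der hp hpn hnpos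
      exact ⟨⟨ConjClasses.mk g, g, rfl, by rw [hg]; exact hp, hd⟩⟩

end Cfsg.Agent.S3504
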