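import Cfsg.Statements.S3508
import Mathlib
import Cfsg.Agent.Lib.Affine.Unipotent
import Cfsg.Agent.Lib.Derangement.Basic

set_option autoImplicit false
open Cfsg

namespace Cfsg.Agent.S3508

theorem key_abstract {G : Type*} [Group G] {Ω : Type*} [MulAction G Ω] [FaithfulSMul G Ω]
    {p : ℕ} [Fact p.Prime] {V : Type*} [AddCommGroup V] [Module (ZMod p) V]
    [Module.Finite (ZMod p) V] (N : Subgroup G) (ι : V → G) (h0 : ι 0 = 1)
    (hadd : ∀ x y, ι (x + y) = ι x * ι y) (hinj : Function.Injective ι)
    (hsurj : ∀ n ∈ N, ∃ x, ι x = n) (c : Module.End (ZMod p) V) (g : G)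
    (hc : ∀ x, ι (c x) = g * ι x * g⁻¹)
    (hTr : Lib.Derangement.Trans N Ω) (r s : ℕ) (hg : g ^ (p ^ r) = 1) (α : Ω)
    (hmem : ∀ x, ι x ∈ N)
    (hs : Module.finrank (ZMod p) V + 1 ≤ p ^ s) : g ^ (p ^ s) = 1 := by
  have hcp : ∀ (k : ℕ) (x : V), ι ((c ^ k) x) = g ^ k * ι x * (g ^ k)⁻¹ := by
    intro k
    induction k with
    | zero => intro x; simp
    | succ k ih =>
      intro x
      rw [pow_succ', Module.End.mul_apply, hc, ih, pow_succ']
      group
  have hcr : c ^ (p ^ r) = 1 := by
    apply LinearMap.ext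
    intro x
    apply hinj
    rw [hcp, hg]
    simp
  obtain ⟨hc1, hsum⟩ := Lib.Affine.pow_and_geom_sum_eq_zero c hcr hs
  have hcomm : ∀ n ∈ N, g ^ (p ^ s) * n = n * g ^ (p ^ s) := by
    intro n hn
    obtain ⟨x, rfl⟩ := hsurj n hn
    have h1 := hcp (p ^ s) x
    rw [hc1] at h1
    have h2 : ι x = g ^ (p ^ s) * ι x * (g ^ (p ^ s))⁻¹ := by simpa using h1
    rw [eq_mul_inv_iff_mul_eq] at h2
    exact h2.symm
  obtain ⟨n₀, hn₀, hn₀α⟩ := hTr α (g • α)
  obtain ⟨u, rfl⟩ := hsurj n₀ hn₀
  have hP : ∀ k : ℕ, g ^ k • α = ι (∑ i ∈ Finset.range k, (c ^ i) u) • α := by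
    intro k
    induction k with
    | zero => simp [h0]
    | succ k ih =>
      rw [Finset.sum_range_succ, add_comm (∑ x ∈ Finset.range k, (c ^ x) u), hadd, hcp, mul_smul,
        ← ih, pow_succ, mul_smul, ← hn₀α]
      simp [mul_smul]
  have hfix : g ^ (p ^ s) • α = α := by
    rw [hP]
    have := congrArg (fun f : Module.End (ZMod p) V => f u) hsum
    simp only [LinearMap.sum_apply, LinearMap.zero_apply] at this
    rw [this, h0, one_smul]
  exact Lib.Derangement.eq_one_of_commute_of_fix hTr hcomm hfix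

/-- The main step: the power `g ^ (p ^ s)` is trivial once `p ^ s` exceeds the dimension. -/
theorem key {G : Type*} [Group G] [Finite G] {Ω : Type*} [MulAction G Ω] [FaithfulSMul G Ω]
    (p m : ℕ) (hp : p.Prime) (N : Subgroup G) [hNn : N.Normal]
    (hab : ∀ x ∈ N, ∀ y ∈ N, x * y = y * x) (hNp : ∀ n ∈ N, n ^ p = 1)
    (hTr : Lib.Derangement.Trans N Ω) (hcardN : Nat.card N = p ^ m)
    (g : G) (r : ℕ) (hg : g ^ (p ^ r) = 1) (α : Ω) (s : ℕ) (hs : m + 1 ≤ p ^ s) :
    g ^ (p ^ s) = 1 := by
  classical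
  have : Fact p.Prime := ⟨hp⟩
  letI iF : CommGroup N := { (inferInstance : Group N) with
    mul_comm := fun a b => Subtype.ext (hab a a.2 b b.2) }
  have hnsmul : ∀ x : Additive N, p • x = 0 := by
    intro x
    apply Additive.toMul.injective
    apply Subtype.ext
    simpa using hNp _ (Additive.toMul x).2
  letI iM : Module (ZMod p) (Additive N) := AddCommGroup.zmodModule hnsmul
  have hfinV : Finite (Additive N) := inferInstanceAs (Finite N)
  haveI iFinD : Module.Finite (ZMod p) (Additive N) := Module.Finite.of_finite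
  have hfr : Module.finrank (ZMod p) (Additive N) = m := by
    have hfintype : Fintype (Additive N) := Fintype.ofFinite _
    have h1 := Module.card_eq_pow_finrank (K := ZMod p) (V := Additive N)
    rw [ZMod.card, ← Nat.card_eq_fintype_card] at h1
    have h2 : Nat.card (Additive N) = Nat.card N := Nat.card_congr Additive.toMul
    rw [h2, hcardN] at h1
    exact (Nat.pow_right_injective hp.two_le h1).symm
  let cAdd : Additive N →+ Additive N :=
    { toFun := fun x => Additive.ofMul ⟨g * (Additive.toMul x : N) * g⁻¹,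
        hNn.conj_mem _ (Additive.toMul x).2 g⟩
      map_zero' := by
        apply Additive.toMul.injective
        apply Subtype.ext
        simp
      map_add' := by
        intro x y
        apply Additive.toMul.injective
        apply Subtype.ext
        simp [mul_assoc] }
  exact @key_abstract G _ Ω _ _ p _ (Additive N) _ iM iFinD N (fun x => ((Additive.toMul x : N) : G)) rfl (fun _ _ => rfl)
    (fun x y h => Additive.toMul.injective (Subtype.ext h))
    (fun n hn => ⟨Additive.ofMul ⟨n, hn⟩, rfl⟩)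
    (AddMonoidHom.toZModLinearMap p cAdd) g (fun x => rfl) hTr r s hg α
    (fun x => (Additive.toMul x).2) (by rw [hfr]; exact hs)

/-- Let a finite group G act faithfully on a set Ω with p ^ m points (p prime) and have an elementary abelian normal p-subgroup N acting regularly on Ω (so G is a group of affine transformations of an m-dimensional space over the field with p elements). If G contains an element of order p ^ r with r ≥ 1, then p ^ (r − 1) ≤ m. In particular an element of order p ^ m forces m ≤ 2, and m ≤ 1 when p is odd. -/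
theorem result {G : Type*} [Group G] [Finite G] {Ω : Type*} [Fintype Ω] [MulAction G Ω] [FaithfulSMul G Ω] (p m : ℕ) (hp : p.Prime) (hcard : Fintype.card Ω = p ^ m)
    (N : Subgroup G) [N.Normal] (hNc : IsMulCommutative N) (hNp : ∀ n ∈ N, n ^ p = 1)
    (hNtr : MulAction.IsPretransitive N Ω) (hNreg : ∀ ω : Ω, MulAction.stabilizer N ω = ⊥)
    (g : G) (r : ℕ) (hr : 1 ≤ r) (hg : orderOf g = p ^ r) :
    p ^ (r - 1) ≤ m ∧ (r = m → m ≤ 2 ∧ (2 < p → m ≤ 1)) := by
  classical
  have hab : ∀ x ∈ N, ∀ y ∈ N, x * y = y * x := fun x hx y hy =>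
    congrArg Subtype.val (hNc.is_comm.comm ⟨x, hx⟩ ⟨y, hy⟩)
  have hTr : Lib.Derangement.Trans N Ω := by
    intro a b
    obtain ⟨s, hs⟩ := hNtr.exists_smul_eq a b
    exact ⟨s, s.2, hs⟩
  have hΩ : Nonempty Ω := by
    rw [← Fintype.card_pos_iff, hcard]
    exact pow_pos hp.pos _
  obtain ⟨α⟩ := hΩ
  have hcardN : Nat.card N = p ^ m := by
    rw [← hcard, ← Nat.card_eq_fintype_card]
    apply Nat.card_congr
    refine Equiv.ofBijective (fun n : N => n • α) ⟨?_, ?_⟩
    · intro x y hxy
      have h1 : (x⁻¹ * y) ∈ MulAction.stabilizer N α := by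
        change (x⁻¹ * y) • α = α
        rw [mul_smul]
        rw [inv_smul_eq_iff]
        exact hxy.symm
      rw [hNreg α, Subgroup.mem_bot] at h1
      rw [inv_mul_eq_one] at h1
      exact h1
    · intro b
      exact hNtr.exists_smul_eq α b
  have hpow : g ^ (p ^ r) = 1 := by rw [← hg]; exact pow_orderOf_eq_one g
  have hmain : p ^ (r - 1) ≤ m := by
    by_contra hlt
    push Not at hlt
    have h1 := key p m hp N hab hNp hTr hcardN g r hpow α (r - 1) (by omega)
    have h2 := orderOf_dvd_of_pow_eq_one h1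
    rw [hg] at h2
    have h3 := (Nat.pow_dvd_pow_iff_le_right hp.one_lt).mp h2
    omega
  refine ⟨hmain, ?_⟩
  rintro rfl
  have hpge := hp.two_le
  have h2pow : ∀ k : ℕ, 3 ≤ k → k < 2 ^ (k - 1) := by
    intro k hk
    induction k, hk using Nat.le_induction with
    | base => norm_num
    | succ k hk ih =>
      have : k + 1 - 1 = k - 1 + 1 := by omega
      rw [this, pow_succ]
      omega
  have hmle2 : r ≤ 2 := by
    by_contra hr2
    push Not at hr2
    have h1 := h2pow r hr2
    have h2 : 2 ^ (r - 1) ≤ p ^ (r - 1) := Nat.pow_le_pow_left hpge _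
    omega
  refine ⟨hmle2, ?_⟩
  intro hp3
  by_contra hr1
  push Not at hr1
  have hr2 : r = 2 := by omega
  subst hr2
  simp at hmain
  omega

end Cfsg.Agent.S3508
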