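import Cfsg.Statements.S3511
import Mathlib

set_option autoImplicit false
open Cfsg

namespace Cfsg.Agent.S3511

/-- Let a finite group G act faithfully on a set Ω. If every element of G of square-free order has a regular cycle (an orbit of the cyclic group it generates with trivial stabilizer), then every element of G has a regular cycle. -/
theorem result {G : Type*} [Group G] [Finite G] {Ω : Type*} [MulAction G Ω] [FaithfulSMul G Ω]
    (h : ∀ g : G, Squarefree (orderOf g) → ∃ ω : Ω, MulAction.stabilizer (Subgroup.zpowers g) ω = ⊥) (g : G) :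
    ∃ ω : Ω, MulAction.stabilizer (Subgroup.zpowers g) ω = ⊥ := by
  classical
  set m := orderOf g with hm
  have hm0 : m ≠ 0 := (orderOf_pos g).ne'
  set r := ∏ p ∈ m.primeFactors, p with hr
  have hrm : r ∣ m := Nat.prod_primeFactors_dvd m
  have hrpos : 0 < r := Nat.pos_of_dvd_of_pos hrm (Nat.pos_of_ne_zero hm0)
  have hsq : Squarefree r := by
    rw [hr]
    apply Finset.squarefree_prod_of_pairwise_isCoprime
    · intro p hp q hq hpq
      have hp' := Nat.prime_of_mem_primeFactors hp
      have hq' := Nat.prime_of_mem_primeFactors hq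
      exact Nat.coprime_iff_isRelPrime.mp ((Nat.coprime_primes hp' hq').mpr hpq)
    · intro p hp
      exact (Nat.prime_of_mem_primeFactors hp).prime.irreducible.squarefree
  obtain ⟨k, hk⟩ := hrm
  have hk0 : k ≠ 0 := by
    rintro rfl
    simp at hk
    exact hm0 hk
  have hh : orderOf (g ^ k) = r := by
    rw [orderOf_pow_of_dvd hk0 (Dvd.intro_left _ hk.symm), ← hm, hk]
    exact Nat.mul_div_cancel _ (Nat.pos_of_ne_zero hk0)
  obtain ⟨ω, hω⟩ := h (g ^ k) (by rw [hh]; exact hsq)
  refine ⟨ω, ?_⟩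
  rw [eq_bot_iff]
  rintro ⟨y, hy⟩ hfix
  rw [Subgroup.mem_bot]
  by_contra hne
  have hy1 : y ≠ 1 := fun h' => hne (Subtype.ext h')
  have hfix' : y • ω = ω := hfix
  have ho1 : orderOf y ≠ 1 := fun h' => hy1 (orderOf_eq_one_iff.mp h')
  obtain ⟨p, hp, hpd⟩ := Nat.exists_prime_and_dvd ho1
  set y' := y ^ (orderOf y / p) with hy'
  have hy'o : orderOf y' = p := orderOf_pow_orderOf_div (orderOf_pos y).ne' hpd
  have hy'fix : y' • ω = ω :=
    (MulAction.stabilizer G ω).pow_mem (show y ∈ MulAction.stabilizer G ω from hfix') _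
  have hy'g : y' ∈ Subgroup.zpowers g := (Subgroup.zpowers g).pow_mem hy _
  rw [← mem_powers_iff_mem_zpowers, Submonoid.mem_powers_iff] at hy'g
  obtain ⟨a, ha⟩ := hy'g
  have hpm : p ∣ m := by
    rw [← hy'o]
    apply orderOf_dvd_of_pow_eq_one
    rw [← ha, ← pow_mul, mul_comm, pow_mul, hm, pow_orderOf_eq_one, one_pow]
  have hmap : m ∣ a * p := by
    apply orderOf_dvd_of_pow_eq_one
    rw [pow_mul, ha, ← hy'o, pow_orderOf_eq_one]
  have hpr : p ∣ r := by
    rw [hr]
    apply Finset.dvd_prod_of_mem (fun p => p)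
    exact Nat.mem_primeFactors.mpr ⟨hp, hpm, hm0⟩
  obtain ⟨s', hs'⟩ := hpr
  have hdiv : s' * k ∣ a := by
    have h1 : p * (s' * k) ∣ p * a := by
      have : p * (s' * k) = m := by rw [hk, hs']; ring
      rw [this, mul_comm p a]
      exact hmap
    exact Nat.dvd_of_mul_dvd_mul_left hp.pos h1
  obtain ⟨c, hc⟩ := hdiv
  have hmem : y' ∈ Subgroup.zpowers (g ^ k) := by
    rw [← ha, hc]
    have : g ^ (s' * k * c) = (g ^ k) ^ (s' * c) := by
      rw [← pow_mul]; congr 1; ring
    rw [this]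
    exact Subgroup.pow_mem _ (Subgroup.mem_zpowers _) _
  have h1 : (⟨y', hmem⟩ : Subgroup.zpowers (g ^ k)) ∈ MulAction.stabilizer (Subgroup.zpowers (g ^ k)) ω :=
    hy'fix
  rw [hω, Subgroup.mem_bot] at h1
  have h2 : y' = 1 := congrArg Subtype.val h1
  rw [h2, orderOf_one] at hy'o
  exact hp.one_lt.ne hy'o

end Cfsg.Agent.S3511
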