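import Cfsg.Statements.S3514
import Mathlib

set_option autoImplicit false
open Cfsg

namespace Cfsg.Agent.S3514

theorem relIndex_mul_card_inf {Γ : Type*} [Group Γ] (A B : Subgroup Γ) :
    A.relIndex B * Nat.card ↥(A ⊓ B) = Nat.card B := by
  have h1 := (A.subgroupOf B).index_mul_card
  have h2 : Nat.card (A.subgroupOf B) = Nat.card ↥(A ⊓ B) := by
    rw [← Subgroup.inf_subgroupOf_right]
    exact Nat.card_congr (Subgroup.subgroupOfEquivOfLe inf_le_right).toEquiv
  rw [h2] at h1
  exact h1

theorem relIndex_sup_normal {Γ : Type*} [Group Γ] [Finite Γ] (K T : Subgroup Γ) [K.Normal] :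
    T.relIndex (K ⊔ T) = T.relIndex K := by
  have h0 := Subgroup.relIndex_sup_left T K
  have h1 := relIndex_mul_card_inf T (K ⊔ T)
  have h2 := relIndex_mul_card_inf K (K ⊔ T)
  have h3 := relIndex_mul_card_inf T K
  have h4 := relIndex_mul_card_inf K T
  rw [inf_eq_left.mpr le_sup_right] at h1
  rw [inf_eq_left.mpr le_sup_left] at h2
  rw [inf_comm] at h4
  have hpos : 0 < Nat.card T := Nat.card_pos
  apply Nat.eq_of_mul_eq_mul_right hpos
  rw [h1, ← h2, h0, ← h3, ← h4]
  ring

theorem card_orbit_set {G X : Type*} [Group G] [MulAction G X] (S : Subgroup G) (v : X) :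
    Nat.card {u : X | ∃ s ∈ S, s • v = u} = (MulAction.stabilizer G v).relIndex S := by
  have h1 : (MulAction.stabilizer G v).subgroupOf S = MulAction.stabilizer S v := by
    ext x
    rw [Subgroup.mem_subgroupOf]
    rfl
  have h2 : {u : X | ∃ s ∈ S, s • v = u} = MulAction.orbit S v := by
    ext u
    constructor
    · rintro ⟨s, hs, rfl⟩
      exact ⟨⟨s, hs⟩, rfl⟩
    · rintro ⟨⟨s, hs⟩, rfl⟩
      exact ⟨s, hs, rfl⟩
  rw [Subgroup.relIndex, h1, MulAction.index_stabilizer, h2, Nat.card_coe_set_eq]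

/-- Let p be a prime, V a finite vector space over the field with p elements, and H a group of linear transformations of V all of whose orbits on V have size coprime to p. (i) Every normal subgroup K of H has all its orbits on V of size coprime to p. (ii) If N is a group of linear transformations of V of order coprime to p that is normalized by H, then the group generated by N and H has all its orbits on V of size coprime to p. -/
theorem result (p : ℕ) [Fact p.Prime] {V : Type*} [AddCommGroup V] [Module (ZMod p) V] [Finite V]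
    (H : Subgroup (V ≃ₗ[ZMod p] V)) (hH : ∀ v : V, ¬ p ∣ Nat.card {u : V | ∃ h ∈ H, h v = u}) :
    (∀ K : Subgroup (V ≃ₗ[ZMod p] V), K ≤ H → H ≤ Subgroup.normalizer (K : Set (V ≃ₗ[ZMod p] V)) →
        ∀ v : V, ¬ p ∣ Nat.card {u : V | ∃ k ∈ K, k v = u}) ∧
    (∀ N : Subgroup (V ≃ₗ[ZMod p] V), ¬ p ∣ Nat.card N → H ≤ Subgroup.normalizer (N : Set (V ≃ₗ[ZMod p] V)) →
        ∀ v : V, ¬ p ∣ Nat.card {u : V | ∃ x ∈ N ⊔ H, x v = u}) := by
  classical
  have hfinG : Finite (V ≃ₗ[ZMod p] V) :=
    Finite.of_injective (fun f => (f : V → V)) DFunLike.coe_injective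
  have hp := (Fact.out : p.Prime)
  have hcard : ∀ (S : Subgroup (V ≃ₗ[ZMod p] V)) (v : V), Nat.card {u : V | ∃ s ∈ S, s v = u} =
      (MulAction.stabilizer (V ≃ₗ[ZMod p] V) v).relIndex S := fun S v => card_orbit_set S v
  constructor
  · intro K hKH hnorm v
    rw [hcard]
    have hH' := hH v
    rw [hcard] at hH'
    intro hd
    apply hH'
    set T := MulAction.stabilizer (V ≃ₗ[ZMod p] V) v
    have hK'n : (K.subgroupOf H).Normal :=
      (Subgroup.normal_subgroupOf_iff_le_normalizer hKH).mpr hnorm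
    have h1 := relIndex_sup_normal (K.subgroupOf H) (T.subgroupOf H)
    rw [Subgroup.relIndex_subgroupOf hKH] at h1
    rw [← h1] at hd
    exact hd.trans (Subgroup.relIndex_dvd_index_of_le le_sup_right)
  · intro N hN hnorm v
    rw [hcard]
    have hH' := hH v
    rw [hcard] at hH'
    intro hd
    set T := MulAction.stabilizer (V ≃ₗ[ZMod p] V) v
    have h1 : T.relIndex (N ⊔ H) ∣ (T ⊓ H).relIndex (N ⊔ H) :=
      Subgroup.relIndex_dvd_of_le_left _ inf_le_left
    have h2 : (T ⊓ H).relIndex (N ⊔ H) = T.relIndex H * H.relIndex (N ⊔ H) := by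
      rw [← Subgroup.relIndex_mul_relIndex (T ⊓ H) H (N ⊔ H) inf_le_right le_sup_right,
        Subgroup.inf_relIndex_right]
    have h3 : H.relIndex (N ⊔ H) = H.relIndex N := by
      have hNN : N ≤ Subgroup.normalizer (N : Set (V ≃ₗ[ZMod p] V)) := Subgroup.le_normalizer
      have hn : (N.subgroupOf (Subgroup.normalizer (N : Set (V ≃ₗ[ZMod p] V)))).Normal :=
        Subgroup.normal_in_normalizer
      have h4 := relIndex_sup_normal (N.subgroupOf (Subgroup.normalizer (N : Set (V ≃ₗ[ZMod p] V))))
        (H.subgroupOf (Subgroup.normalizer (N : Set (V ≃ₗ[ZMod p] V))))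
      rw [← Subgroup.subgroupOf_sup hNN hnorm, Subgroup.relIndex_subgroupOf (sup_le hNN hnorm),
        Subgroup.relIndex_subgroupOf hNN] at h4
      exact h4
    have h5 : H.relIndex (N ⊔ H) ∣ Nat.card N := by
      rw [h3]
      exact Subgroup.relIndex_dvd_card H N
    have h6 : p ∣ T.relIndex H * H.relIndex (N ⊔ H) := by
      rw [← h2]
      exact hd.trans h1
    rcases hp.dvd_mul.mp h6 with h7 | h7
    · exact hH' h7
    · exact hN (h7.trans h5)

end Cfsg.Agent.S3514
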