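import Cfsg.Statements.S3515
import Mathlib
import Cfsg.Agent.Lib.Affine.Closure

set_option autoImplicit false
open Cfsg

namespace Cfsg.Agent.S3515

/-- The four points of `F₂²`. -/
theorem four_points (y : Fin 2 → ZMod 2) :
    y = 0 ∨ y = Pi.single 0 1 ∨ y = Pi.single 1 1 ∨ y = Pi.single 0 1 + Pi.single 1 1 := by
  revert y
  decide

/-- The fourth point differs from the other three. -/
theorem four_ne : (Pi.single 0 1 + Pi.single 1 1 : Fin 2 → ZMod 2) ≠ 0 ∧
    (Pi.single 0 1 + Pi.single 1 1 : Fin 2 → ZMod 2) ≠ Pi.single 0 1 ∧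
    (Pi.single 0 1 + Pi.single 1 1 : Fin 2 → ZMod 2) ≠ Pi.single 1 1 := by
  decide

/-- Every primitive affine permutation group of degree p² is 3-closed. Let p be a prime and G a group of permutations of the plane V = F_p² consisting of affine maps x ↦ Ax + b, containing all translations, and acting primitively on V. Then any permutation σ of V that agrees on every triple of points with some element of G (σ preserves every G-orbit on ordered triples) already lies in G. -/
theorem result (p : ℕ) [Fact p.Prime] (G : Subgroup (Equiv.Perm (Fin 2 → ZMod p)))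
    (haff : (G : Set (Equiv.Perm (Fin 2 → ZMod p))) ⊆ {τ : Equiv.Perm (Fin 2 → ZMod p) | ∃ (A : (Fin 2 → ZMod p) ≃ₗ[ZMod p] (Fin 2 → ZMod p)) (b : Fin 2 → ZMod p), ∀ x, τ x = A x + b})
    (htrans : ∀ b : Fin 2 → ZMod p, ∃ g ∈ G, ∀ x, g x = x + b) (hprim : MulAction.IsPreprimitive G (Fin 2 → ZMod p))
    (σ : Equiv.Perm (Fin 2 → ZMod p)) (hσ : (∀ t : Fin 3 → (Fin 2 → ZMod p), ∃ g ∈ G, ∀ i, σ (t i) = g (t i))) : σ ∈ G := by
  obtain ⟨g, hg, hgt⟩ := hσ ![0, Pi.single 0 1, Pi.single 1 1]
  have h0 : σ 0 = g 0 := hgt 0
  have h1 : σ (Pi.single 0 1) = g (Pi.single 0 1) := hgt 1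
  have h2' : σ (Pi.single 1 1) = g (Pi.single 1 1) := hgt 2
  suffices hsg : σ = g by rw [hsg]; exact hg
  by_cases h2 : p = 2
  · subst h2
    have hform : ∀ x, σ x = g x := by
      intro x
      rcases four_points x with rfl | rfl | rfl | rfl
      · exact h0
      · exact h1
      · exact h2'
      · have hy : g (g.symm (σ (Pi.single 0 1 + Pi.single 1 1))) =
            σ (Pi.single 0 1 + Pi.single 1 1) := Equiv.apply_symm_apply _ _
        have hn0 := four_ne.1
        have hn1 := four_ne.2.1
        have hn2 := four_ne.2.2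
        rcases four_points (g.symm (σ (Pi.single 0 1 + Pi.single 1 1))) with h | h | h | h
        · rw [h, ← h0] at hy
          exact absurd (σ.injective hy).symm hn0
        · rw [h, ← h1] at hy
          exact absurd (σ.injective hy).symm hn1
        · rw [h, ← h2'] at hy
          exact absurd (σ.injective hy).symm hn2
        · rw [h] at hy
          exact hy.symm
    exact Equiv.ext hform
  · obtain ⟨A, b, hAb⟩ := Cfsg.Agent.Lib.Affine.midpoint_affine h2 σ (fun x y => by
      obtain ⟨g', hg', hgt'⟩ := hσ ![x, y, (2 : ZMod p)⁻¹ • (x + y)]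
      obtain ⟨A, b, hAb⟩ := haff hg'
      refine ⟨A.toLinearMap, b, ?_, ?_, ?_⟩
      · have := hgt' 0
        simpa [hAb] using this
      · have := hgt' 1
        simpa [hAb] using this
      · have := hgt' 2
        simpa [hAb] using this)
    obtain ⟨A', b', hAb'⟩ := haff hg
    have hb : b = b' := by
      rw [hAb, hAb', map_zero, map_zero, zero_add, zero_add] at h0
      exact h0
    subst hb
    have hAA : A.toLinearMap = A'.toLinearMap := by
      apply (Pi.basisFun (ZMod p) (Fin 2)).ext
      intro i
      rw [Pi.basisFun_apply]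
      fin_cases i
      · rw [hAb, hAb'] at h1
        exact add_right_cancel h1
      · rw [hAb, hAb'] at h2'
        exact add_right_cancel h2'
    ext1 x
    rw [hAb, hAb']
    congr 1
    exact LinearMap.congr_fun hAA x

end Cfsg.Agent.S3515
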