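import Cfsg.Statements.S3516
import Mathlib
import Cfsg.Agent.Lib.Affine.Closure

set_option autoImplicit false
open Cfsg

namespace Cfsg.Agent.S3516

/-- Let p be an odd prime, d ≥ 3, and G a group of affine permutations x ↦ Ax + b of V = F_p^d containing all translations and all maps x ↦ Ax with A of determinant 1. Then the 3-closure of G is the full affine group: a permutation σ of V agrees on every triple of points with some element of G if and only if σ is an affine map. -/
theorem result (p : ℕ) [Fact p.Prime] (hp : p ≠ 2) (d : ℕ) (hd : 3 ≤ d) (G : Subgroup (Equiv.Perm (Fin d → ZMod p)))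
    (haff : (G : Set (Equiv.Perm (Fin d → ZMod p))) ⊆ {τ : Equiv.Perm (Fin d → ZMod p) | ∃ (A : (Fin d → ZMod p) ≃ₗ[ZMod p] (Fin d → ZMod p)) (b : Fin d → ZMod p), ∀ x, τ x = A x + b})
    (htrans : ∀ b : Fin d → ZMod p, ∃ g ∈ G, ∀ x, g x = x + b)
    (hsl : ∀ A : (Fin d → ZMod p) ≃ₗ[ZMod p] (Fin d → ZMod p), LinearMap.det (A : (Fin d → ZMod p) →ₗ[ZMod p] (Fin d → ZMod p)) = 1 → ∃ g ∈ G, ∀ x, g x = A x)
    (σ : Equiv.Perm (Fin d → ZMod p)) :
    (∀ t : Fin 3 → (Fin d → ZMod p), ∃ g ∈ G, ∀ i, σ (t i) = g (t i)) ↔ σ ∈ {τ : Equiv.Perm (Fin d → ZMod p) | ∃ (A : (Fin d → ZMod p) ≃ₗ[ZMod p] (Fin d → ZMod p)) (b : Fin d → ZMod p), ∀ x, τ x = A x + b} := by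
  constructor
  · intro h
    exact Cfsg.Agent.Lib.Affine.midpoint_affine hp σ (fun x y => by
      obtain ⟨g', hg', hgt'⟩ := h ![x, y, (2 : ZMod p)⁻¹ • (x + y)]
      obtain ⟨A, b, hAb⟩ := haff hg'
      refine ⟨A.toLinearMap, b, ?_, ?_, ?_⟩
      · have := hgt' 0
        simpa [hAb] using this
      · have := hgt' 1
        simpa [hAb] using this
      · have := hgt' 2
        simpa [hAb] using this)
  · rintro ⟨A, b, hAb⟩ t
    let V := Fin d → ZMod p
    -- a functional vanishing on the differences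
    let W : Submodule (ZMod p) V := Submodule.span (ZMod p) {t 1 - t 0, t 2 - t 0}
    have hW : W < ⊤ := by
      rw [lt_top_iff_ne_top]
      intro htop
      have h1 : Module.finrank (ZMod p) W ≤ 2 := by
        have := finrank_span_finset_le_card (R := ZMod p) (({t 1 - t 0, t 2 - t 0} : Finset V))
        have hc : (({t 1 - t 0, t 2 - t 0} : Finset V)).card ≤ 2 := Finset.card_le_two
        have hset : ((({t 1 - t 0, t 2 - t 0} : Finset V)) : Set V) = {t 1 - t 0, t 2 - t 0} := by
          simp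
        rw [hset] at this
        exact this.trans hc
      rw [htop, finrank_top] at h1
      have h2 : Module.finrank (ZMod p) V = d := by
        simp [V]
      omega
    obtain ⟨f, hf0, hfW⟩ := Submodule.exists_le_ker_of_lt_top W hW
    obtain ⟨u, hu⟩ : ∃ u, f u = 1 := by
      obtain ⟨x, hx⟩ : ∃ x, f x ≠ 0 := by
        by_contra hcon
        push_neg at hcon
        exact hf0 (LinearMap.ext hcon)
      refine ⟨(f x)⁻¹ • x, ?_⟩
      rw [map_smul, smul_eq_mul, inv_mul_cancel₀ hx]
    have hdet : LinearMap.det (A : V →ₗ[ZMod p] V) ≠ 0 := by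
      have := (LinearEquiv.isUnit_det' A)
      exact this.ne_zero
    set δ := (LinearMap.det (A : V →ₗ[ZMod p] V))⁻¹ with hδ
    have hδ0 : δ ≠ 0 := inv_ne_zero hdet
    have hunit : IsUnit (1 + f ((δ - 1) • u)) := by
      rw [map_smul, hu, smul_eq_mul, mul_one]
      simpa using hδ0
    let C : V ≃ₗ[ZMod p] V := LinearEquiv.dilatransvection hunit
    have hCdet : LinearMap.det (C : V →ₗ[ZMod p] V) = δ := by
      rw [LinearEquiv.dilatransvection.coe_toLinearMap, LinearMap.transvection.det, map_smul, hu,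
        smul_eq_mul, mul_one]
      ring
    have hCW : ∀ w ∈ W, C w = w := by
      intro w hw
      rw [LinearEquiv.dilatransvection.apply]
      have : f w = 0 := hfW hw
      rw [this, zero_smul, add_zero]
    let B : V ≃ₗ[ZMod p] V := C.trans A
    have hBdet : LinearMap.det (B : V →ₗ[ZMod p] V) = 1 := by
      have : (B : V →ₗ[ZMod p] V) = (A : V →ₗ[ZMod p] V) ∘ₗ (C : V →ₗ[ZMod p] V) := rfl
      rw [this, LinearMap.det_comp, hCdet, hδ, mul_inv_cancel₀ hdet]
    obtain ⟨g₁, hg₁, hg₁B⟩ := hsl B hBdet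
    obtain ⟨g₂, hg₂, hg₂t⟩ := htrans (A (t 0) + b - B (t 0))
    refine ⟨g₂ * g₁, G.mul_mem hg₂ hg₁, fun i => ?_⟩
    rw [Equiv.Perm.mul_apply, hg₁B, hg₂t, hAb]
    have hmem : t i - t 0 ∈ W := by
      fin_cases i
      · simp
      · exact Submodule.subset_span (by simp)
      · exact Submodule.subset_span (by simp)
    have h1 : B (t i - t 0) = A (t i - t 0) := by
      change A (C (t i - t 0)) = _
      rw [hCW _ hmem]
    rw [map_sub, map_sub] at h1
    have h2 : B (t i) = A (t i) - A (t 0) + B (t 0) := by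
      rw [← h1]; abel
    rw [h2]
    abel

end Cfsg.Agent.S3516
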