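import Cfsg.Statements.S3517
import Mathlib
import Cfsg.Agent.Lib.Affine.Closure

set_option autoImplicit false
open Cfsg

namespace Cfsg.Agent.S3517

/-- Two non-zero vectors over `F₂` that are distinct are linearly independent. -/
theorem li_pair {V : Type*} [AddCommGroup V] [Module (ZMod 2) V] {x y : V} (hx : x ≠ 0)
    (hy : y ≠ 0) (hxy : x ≠ y) : LinearIndependent (ZMod 2) ![x, y] := by
  rw [LinearIndependent.pair_iff]
  intro s t hst
  have hall : ∀ s : ZMod 2, s = 0 ∨ s = 1 := by decide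
  have hs := hall s
  have ht := hall t
  rcases hs with rfl | rfl <;> rcases ht with rfl | rfl
  · exact ⟨rfl, rfl⟩
  · simp at hst; exact absurd hst hy
  · simp at hst; exact absurd hst hx
  · exfalso
    simp only [one_smul] at hst
    apply hxy
    have h2 : y + y = 0 := by
      rw [← two_smul (ZMod 2) y]
      have : (2 : ZMod 2) = 0 := rfl
      rw [this, zero_smul]
    have : x = -y := eq_neg_of_add_eq_zero_left hst
    rw [this]
    exact neg_eq_of_add_eq_zero_left h2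

/-- One non-zero vector. -/
theorem li_one {V : Type*} [AddCommGroup V] [Module (ZMod 2) V] {x : V} (hx : x ≠ 0) :
    LinearIndependent (ZMod 2) ![x] := by
  exact .of_subsingleton (v := ![x]) 0 hx

/-- For d ≥ 3, the 3-closure of the affine group AGL_d(2) acting on F_2^d is the full symmetric group: every permutation of F_2^d agrees on every ordered triple of points with some affine map (AGL_d(2) is 3-transitive). -/
theorem result (d : ℕ) (hd : 3 ≤ d) (σ : Equiv.Perm (Fin d → ZMod 2)) (t : Fin 3 → (Fin d → ZMod 2)) :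
    ∃ (A : (Fin d → ZMod 2) ≃ₗ[ZMod 2] (Fin d → ZMod 2)) (b : Fin d → ZMod 2), ∀ i, σ (t i) = A (t i) + b := by
  classical
  -- differences
  set v₁ := t 1 - t 0 with hv₁
  set v₂ := t 2 - t 0 with hv₂
  set w₁ := σ (t 1) - σ (t 0) with hw₁
  set w₂ := σ (t 2) - σ (t 0) with hw₂
  have h10 : v₁ = 0 ↔ w₁ = 0 := by
    rw [hv₁, hw₁, sub_eq_zero, sub_eq_zero]
    exact σ.injective.eq_iff.symm
  have h20 : v₂ = 0 ↔ w₂ = 0 := by
    rw [hv₂, hw₂, sub_eq_zero, sub_eq_zero]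
    exact σ.injective.eq_iff.symm
  have h12 : v₁ = v₂ ↔ w₁ = w₂ := by
    rw [hv₁, hv₂, hw₁, hw₂, sub_left_inj, sub_left_inj]
    exact σ.injective.eq_iff.symm
  suffices hA : ∃ A : (Fin d → ZMod 2) ≃ₗ[ZMod 2] (Fin d → ZMod 2), A v₁ = w₁ ∧ A v₂ = w₂ by
    obtain ⟨A, hA1, hA2⟩ := hA
    refine ⟨A, σ (t 0) - A (t 0), fun i => ?_⟩
    rw [hv₁, map_sub] at hA1
    rw [hv₂, map_sub] at hA2
    fin_cases i
    · simp
    · have : A (t 1) = σ (t 1) - σ (t 0) + A (t 0) := by rw [← hw₁, ← hA1]; abel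
      change σ (t 1) = A (t 1) + _
      rw [this]; abel
    · have : A (t 2) = σ (t 2) - σ (t 0) + A (t 0) := by rw [← hw₂, ← hA2]; abel
      change σ (t 2) = A (t 2) + _
      rw [this]; abel
  by_cases hv1 : v₁ = 0
  · have hw1 := h10.mp hv1
    by_cases hv2 : v₂ = 0
    · have hw2 := h20.mp hv2
      exact ⟨LinearEquiv.refl _ _, by simp [hv1, hw1], by simp [hv2, hw2]⟩
    · have hw2 : w₂ ≠ 0 := fun h => hv2 (h20.mpr h)
      obtain ⟨A, hA⟩ := Cfsg.Agent.Lib.Affine.exists_equiv_of_li ![v₂] ![w₂] (li_one hv2) (li_one hw2)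
      exact ⟨A, by rw [hv1, hw1, map_zero], hA 0⟩
  · have hw1 : w₁ ≠ 0 := fun h => hv1 (h10.mpr h)
    by_cases hv2 : v₂ = 0
    · have hw2 := h20.mp hv2
      obtain ⟨A, hA⟩ := Cfsg.Agent.Lib.Affine.exists_equiv_of_li ![v₁] ![w₁] (li_one hv1) (li_one hw1)
      exact ⟨A, hA 0, by rw [hv2, hw2, map_zero]⟩
    · have hw2 : w₂ ≠ 0 := fun h => hv2 (h20.mpr h)
      by_cases h3 : v₁ = v₂
      · have h4 := h12.mp h3
        obtain ⟨A, hA⟩ := Cfsg.Agent.Lib.Affine.exists_equiv_of_li ![v₁] ![w₁] (li_one hv1) (li_one hw1)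
        exact ⟨A, hA 0, by rw [← h3, ← h4]; exact hA 0⟩
      · have h4 : w₁ ≠ w₂ := fun h => h3 (h12.mpr h)
        obtain ⟨A, hA⟩ := Cfsg.Agent.Lib.Affine.exists_equiv_of_li ![v₁, v₂] ![w₁, w₂]
          (li_pair hv1 hv2 h3) (li_pair hw1 hw2 h4)
        exact ⟨A, hA 0, hA 1⟩

end Cfsg.Agent.S3517
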