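import Cfsg.Statements.S3518
import Mathlib
import Cfsg.Agent.Lib.Affine.Closure
import Cfsg.Agent.Lib.Affine.Redei

set_option autoImplicit false
open Cfsg

namespace Cfsg.Agent.S3518

variable {p : ℕ} [hp : Fact p.Prime]

/-- The affine permutation `x ↦ a x + b`. -/
def affPerm (a : (ZMod p)ˣ) (b : ZMod p) : Equiv.Perm (ZMod p) where
  toFun x := (a : ZMod p) * x + b
  invFun y := ((a⁻¹ : (ZMod p)ˣ) : ZMod p) * (y - b)
  left_inv x := by
    change ((a⁻¹ : (ZMod p)ˣ) : ZMod p) * ((a : ZMod p) * x + b - b) = x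
    rw [add_sub_cancel_right, Units.inv_mul_cancel_left]
  right_inv y := by
    change (a : ZMod p) * (((a⁻¹ : (ZMod p)ˣ) : ZMod p) * (y - b)) + b = y
    rw [Units.mul_inv_cancel_left, sub_add_cancel]

theorem affPerm_apply (a : (ZMod p)ˣ) (b x : ZMod p) : affPerm a b x = (a : ZMod p) * x + b := rfl

theorem affPerm_mem (a : (ZMod p)ˣ) (b : ZMod p) : affPerm a b ∈ Cfsg.affineGroup (ZMod p) :=
  ⟨a, b, fun _ => rfl⟩

/-- Part (2). -/
theorem part2 (σ : Equiv.Perm (ZMod p)) (t : Fin 2 → ZMod p) :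
    ∃ g ∈ Cfsg.affineGroup (ZMod p), ∀ i, σ (t i) = g (t i) := by
  by_cases h : t 0 = t 1
  · refine ⟨affPerm 1 (σ (t 0) - t 0), affPerm_mem _ _, fun i => ?_⟩
    have hi : t i = t 0 := by
      fin_cases i
      · rfl
      · exact h.symm
    rw [hi, affPerm_apply]
    simp
  · have hne : t 0 - t 1 ≠ 0 := sub_ne_zero.mpr h
    have hne2 : σ (t 0) - σ (t 1) ≠ 0 := sub_ne_zero.mpr (fun h' => h (σ.injective h'))
    let a : (ZMod p)ˣ := Units.mk0 ((σ (t 0) - σ (t 1)) / (t 0 - t 1)) (div_ne_zero hne2 hne)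
    have ha : (a : ZMod p) * (t 0 - t 1) = σ (t 0) - σ (t 1) := by
      change (σ (t 0) - σ (t 1)) / (t 0 - t 1) * (t 0 - t 1) = _
      exact div_mul_cancel₀ _ hne
    refine ⟨affPerm a (σ (t 0) - a * t 0), affPerm_mem _ _, fun i => ?_⟩
    rw [affPerm_apply]
    fin_cases i
    · change σ (t 0) = (a : ZMod p) * t 0 + (σ (t 0) - a * t 0)
      ring
    · change σ (t 1) = (a : ZMod p) * t 1 + (σ (t 0) - a * t 0)
      have : (a : ZMod p) * t 1 = a * t 0 - (σ (t 0) - σ (t 1)) := by rw [← ha]; ring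
      rw [this]; ring

/-- Part (3). -/
theorem part3 (σ : Equiv.Perm (ZMod p))
    (h : ∀ t : Fin 3 → ZMod p, ∃ g ∈ Cfsg.affineGroup (ZMod p), ∀ i, σ (t i) = g (t i)) :
    σ ∈ Cfsg.affineGroup (ZMod p) := by
  by_cases h2 : p = 2
  · subst h2
    have hne : σ 1 - σ 0 ≠ 0 := sub_ne_zero.mpr (fun h' => by
      have := σ.injective h'
      exact one_ne_zero this)
    refine ⟨Units.mk0 (σ 1 - σ 0) hne, σ 0, fun x => ?_⟩
    have hx : x = 0 ∨ x = 1 := by
      revert x
      intro x
      fin_cases x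
      · left; rfl
      · right; rfl
    rcases hx with rfl | rfl
    · simp
    · simp
  · obtain ⟨A, b, hAb⟩ := Cfsg.Agent.Lib.Affine.midpoint_affine h2 σ (fun x y => by
      obtain ⟨g, ⟨a, b, hab⟩, hgt⟩ := h ![x, y, (2 : ZMod p)⁻¹ • (x + y)]
      refine ⟨LinearMap.mulLeft (ZMod p) (a : ZMod p), b, ?_, ?_, ?_⟩
      · have := hgt 0
        simpa [hab] using this
      · have := hgt 1
        simpa [hab] using this
      · have := hgt 2
        simpa [hab] using this)
    have hA1 : A 1 ≠ 0 := by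
      intro h0
      have := A.injective (h0.trans (map_zero A).symm)
      exact one_ne_zero this
    refine ⟨Units.mk0 (A 1) hA1, b, fun x => ?_⟩
    rw [hAb]
    congr 1
    have : x = x • (1 : ZMod p) := by simp
    conv_lhs => rw [this, map_smul]
    simp [mul_comm]

/-- The multipliers of `G`. -/
def mults (G : Subgroup (Equiv.Perm (ZMod p))) : Subgroup (ZMod p)ˣ where
  carrier := {u | ∃ g ∈ G, ∀ x, g x = (u : ZMod p) * x + g 0}
  one_mem' := ⟨1, G.one_mem, fun x => by simp⟩
  mul_mem' := by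
    rintro u v ⟨g, hg, hgu⟩ ⟨g', hg', hgv⟩
    refine ⟨g * g', G.mul_mem hg hg', fun x => ?_⟩
    simp only [Equiv.Perm.mul_apply, Units.val_mul]
    rw [hgu (g' x), hgv x, hgu (g' 0)]
    ring
  inv_mem' := by
    rintro u ⟨g, hg, hgu⟩
    refine ⟨g⁻¹, G.inv_mem hg, fun x => ?_⟩
    have key : ∀ y, g⁻¹ y = ((u⁻¹ : (ZMod p)ˣ) : ZMod p) * (y - g 0) := by
      intro y
      have h1 := hgu (g⁻¹ y)
      have h2 : g (g⁻¹ y) = y := g.apply_symm_apply y
      rw [h2] at h1
      have h3 := eq_sub_of_add_eq h1.symm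
      rw [← h3, Units.inv_mul_cancel_left]
    rw [key x, key 0]
    ring

theorem mem_mults_of {G : Subgroup (Equiv.Perm (ZMod p))} {g : Equiv.Perm (ZMod p)} (hg : g ∈ G)
    {a : (ZMod p)ˣ} {b : ZMod p} (hab : ∀ x, g x = (a : ZMod p) * x + b) : a ∈ mults G := by
  refine ⟨g, hg, fun x => ?_⟩
  rw [hab x, hab 0]
  simp

/-- Closures of subgroups of the one-dimensional affine group. Let p be a prime and G a group of permutations of F_p lying in the affine group AGL₁(p) = {x ↦ ax + b, a ≠ 0} and containing all translations. (1) If G is a proper subgroup of AGL₁(p), then G is 2-closed: a permutation of F_p agreeing on every ordered pair of points with some element of G lies in G. (2) Every permutation of F_p agrees on every ordered pair with some element of AGL₁(p) (the 2-closure of AGL₁(p) is the symmetric group). (3) AGL₁(p) is 3-closed: a permutation agreeing on every ordered triple with some affine map is affine. -/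
theorem result (p : ℕ) [Fact p.Prime] (G : Subgroup (Equiv.Perm (ZMod p))) (hG : G ≤ Cfsg.affineGroup (ZMod p))
    (htrans : ∀ b : ZMod p, ∃ g ∈ G, ∀ x, g x = x + b) :
    (G ≠ Cfsg.affineGroup (ZMod p) → ∀ σ : Equiv.Perm (ZMod p), (∀ t : Fin 2 → ZMod p, ∃ g ∈ G, ∀ i, σ (t i) = g (t i)) → σ ∈ G) ∧
    (∀ σ : Equiv.Perm (ZMod p), (∀ t : Fin 2 → ZMod p, ∃ g ∈ Cfsg.affineGroup (ZMod p), ∀ i, σ (t i) = g (t i))) ∧
    (∀ σ : Equiv.Perm (ZMod p), (∀ t : Fin 3 → ZMod p, ∃ g ∈ Cfsg.affineGroup (ZMod p), ∀ i, σ (t i) = g (t i)) → σ ∈ Cfsg.affineGroup (ZMod p)) := by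
  refine ⟨?_, part2, part3⟩
  intro hne σ hσ
  classical
  -- the multipliers form a proper subgroup
  have hA : mults G ≠ ⊤ := by
    intro htop
    apply hne
    apply le_antisymm hG
    rintro τ ⟨a, b, hab⟩
    have hmem : a ∈ mults G := by rw [htop]; trivial
    obtain ⟨g, hg, hga⟩ := hmem
    obtain ⟨g', hg', hg't⟩ := htrans (b - g 0)
    have : τ = g' * g := by
      ext x
      rw [Equiv.Perm.mul_apply, hg't, hga, hab]
      ring_nf
    rw [this]
    exact G.mul_mem hg' hg
  have hcard : 2 * Nat.card (mults G) ≤ p - 1 := by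
    have h1 := (mults G).card_mul_index
    have h2 : Nat.card (ZMod p)ˣ = p - 1 := by
      rw [Nat.card_eq_fintype_card, ZMod.card_units p]
    have h3 : (mults G).index ≠ 1 := fun h => hA (Subgroup.index_eq_one.mp h)
    have h4 : (mults G).index ≠ 0 := Subgroup.index_ne_zero_of_finite
    have h5 : 2 ≤ (mults G).index := by omega
    rw [h2] at h1
    rw [← h1, mul_comm]
    exact Nat.mul_le_mul_left _ h5
  let s : Finset (ZMod p) := (Finset.univ.filter (· ∈ mults G)).image Units.val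
  have hs : 2 * s.card ≤ p - 1 := by
    refine le_trans (Nat.mul_le_mul_left _ ?_) hcard
    refine Finset.card_image_le.trans ?_
    rw [Nat.card_eq_fintype_card, Fintype.card_subtype]
  have hp2 : p ≠ 2 := by
    intro h2
    subst h2
    have : 1 ≤ Nat.card (mults G) := Nat.card_pos
    omega
  have hinj : ∀ d, d ∉ s → Function.Injective (fun x => σ x - d * x) := by
    intro d hd x y hxy
    by_contra hne'
    obtain ⟨g, hg, hgt⟩ := hσ ![x, y]
    obtain ⟨a, b, hab⟩ := hG hg
    have h0 : σ x = g x := hgt 0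
    have h1 : σ y = g y := hgt 1
    simp only at hxy
    rw [h0, h1, hab, hab] at hxy
    have h2 : ((a : ZMod p) - d) * (x - y) = 0 := by
      have : (a : ZMod p) * x + b - d * x - ((a : ZMod p) * y + b - d * y) = 0 := sub_eq_zero.mpr hxy
      rw [← this]; ring
    have h3 : (a : ZMod p) = d := by
      rcases mul_eq_zero.mp h2 with h | h
      · exact sub_eq_zero.mp h
      · exact absurd (sub_eq_zero.mp h) hne'
    apply hd
    rw [← h3]
    exact Finset.mem_image_of_mem _ (Finset.mem_filter.mpr ⟨Finset.mem_univ _, mem_mults_of hg hab⟩)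
  obtain ⟨α, β, hαβ⟩ := Cfsg.Agent.Lib.Affine.redei hp2 σ s hs hinj
  obtain ⟨g, hg, hgt⟩ := hσ ![0, 1]
  obtain ⟨a, b, hab⟩ := hG hg
  have h0 : σ 0 = g 0 := hgt 0
  have h1 : σ 1 = g 1 := hgt 1
  rw [hαβ, hab] at h0 h1
  simp only [mul_zero, zero_add, mul_one] at h0 h1
  have hαa : α = a := by
    rw [h0] at h1
    exact add_right_cancel h1
  have : σ = g := by
    ext x
    rw [hαβ, hab, h0, hαa]
  rw [this]
  exact hg

end Cfsg.Agent.S3518
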