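import Cfsg.Statements.S3547
import Mathlib
import Cfsg.Agent.Lib.Derange.Basic

set_option autoImplicit false
open Cfsg

namespace Cfsg.Agent.S3547

open MulAction Cfsg.Agent.Lib.Derange in
private theorem card_fix_prod {G Ω : Type*} [Group G] [MulAction G Ω] [Finite Ω] (g : G) :
    Nat.card (fixedBy (Ω × Ω) g) = Nat.card (fixedBy Ω g) * Nat.card (fixedBy Ω g) := by
  rw [← Nat.card_prod]
  refine Nat.card_congr ⟨fun x => ⟨⟨x.1.1, congrArg Prod.fst x.2⟩, ⟨x.1.2, congrArg Prod.snd x.2⟩⟩,
    fun y => ⟨(y.1.1, y.2.1), Prod.ext y.1.2 y.2.2⟩, fun _ => rfl, fun _ => rfl⟩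

/-- Let G act faithfully and transitively on a finite set Ω, let D be the subgroup generated by the derangements, and let r_G and r_D be the numbers of orbits of G and of D on ordered pairs of points (the permutation ranks). Then r_D − 1 = (r_G − 1)·[G : D]. -/
theorem result {G Ω : Type*} [Group G] [Finite G] [MulAction G Ω] [FaithfulSMul G Ω] [Finite Ω]
    (htrans : MulAction.IsPretransitive G Ω) :
    Nat.card (MulAction.orbitRel.Quotient ↥(Subgroup.closure {g : G | ∀ ω : Ω, g • ω ≠ ω}) (Ω × Ω)) - 1 =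
      (Nat.card (MulAction.orbitRel.Quotient G (Ω × Ω)) - 1) * (Subgroup.closure {g : G | ∀ ω : Ω, g • ω ≠ ω}).index := by
  classical
  have : Fintype G := Fintype.ofFinite G
  set D := Subgroup.closure {g : G | ∀ ω : Ω, g • ω ≠ ω} with hD
  obtain ⟨h1, h2⟩ := Cfsg.Agent.Lib.Derange.derangement_main (G := G) (X := Ω)
  rcases isEmpty_or_nonempty Ω with hΩ | hΩ
  · have e1 : IsEmpty (MulAction.orbitRel.Quotient G (Ω × Ω)) :=
      ⟨fun q => by induction q using Quotient.inductionOn with | h x => exact isEmptyElim x.1⟩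
    have e2 : IsEmpty (MulAction.orbitRel.Quotient D (Ω × Ω)) :=
      ⟨fun q => by induction q using Quotient.inductionOn with | h x => exact isEmptyElim x.1⟩
    simp
  have b1 := Cfsg.Agent.Lib.Derange.sum_fix (X := Ω × Ω) G
  have b2 := Cfsg.Agent.Lib.Derange.sum_fix_subgroup (X := Ω × Ω) D
  have hsplit := Finset.sum_filter_add_sum_filter_not (Finset.univ : Finset G) (· ∈ D)
    (fun g => Nat.card (MulAction.fixedBy (Ω × Ω) g))
  rw [b1, b2] at hsplit
  have hout : ∑ g ∈ Finset.univ.filter (· ∉ D), Nat.card (MulAction.fixedBy (Ω × Ω) g)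
      = (Finset.univ.filter (· ∉ D)).card := by
    rw [Finset.card_eq_sum_ones]
    refine Finset.sum_congr rfl fun g hg => ?_
    rw [card_fix_prod, h2 g (by simpa using hg)]
  rw [hout] at hsplit
  have hcard : (Finset.univ.filter (· ∉ D)).card + Nat.card D = Nat.card G := by
    have := Finset.card_filter_add_card_filter_not (s := (Finset.univ : Finset G)) (· ∈ D)
    rw [Finset.card_univ, ← Nat.card_eq_fintype_card] at this
    have h3 : (Finset.univ.filter (· ∈ D)).card = Nat.card D := by
      rw [Nat.card_eq_fintype_card, Fintype.card_subtype]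
    omega
  have hL := D.index_mul_card
  have hDpos : 0 < Nat.card D := Nat.card_pos
  have : Nonempty (Ω × Ω) := inferInstance
  have r1 : 0 < Nat.card (MulAction.orbitRel.Quotient G (Ω × Ω)) :=
    Cfsg.Agent.Lib.Derange.nat_card_orbit_quot_pos G
  have r2 : 0 < Nat.card (MulAction.orbitRel.Quotient D (Ω × Ω)) :=
    Cfsg.Agent.Lib.Derange.nat_card_orbit_quot_pos D
  set rG := Nat.card (MulAction.orbitRel.Quotient G (Ω × Ω))
  set rD := Nat.card (MulAction.orbitRel.Quotient D (Ω × Ω))
  set m := D.index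
  set A := Nat.card D
  set O := (Finset.univ.filter (· ∉ D)).card
  have hmpos : 0 < m := by
    rcases Nat.eq_zero_or_pos m with h0 | h0
    · rw [h0, zero_mul] at hL
      have : 0 < Nat.card G := Nat.card_pos
      omega
    · exact h0
  -- `rD * A + O = rG * |G|`, `O + A = |G| = m * A`
  have key : (rD + m) * A = (rG * m + 1) * A := by
    have : rD * A + O = rG * (m * A) := by rw [hL]; exact hsplit
    have hO : O + A = m * A := by rw [hL]; exact hcard
    nlinarith
  have key2 : rD + m = rG * m + 1 := Nat.eq_of_mul_eq_mul_right hDpos key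
  clear_value rG rD m
  obtain ⟨a, rfl⟩ : ∃ a, rG = a + 1 := ⟨rG - 1, by omega⟩
  obtain ⟨b, rfl⟩ : ∃ b, rD = b + 1 := ⟨rD - 1, by omega⟩
  simp only [Nat.add_sub_cancel]
  nlinarith

end Cfsg.Agent.S3547
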