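import Cfsg.Statements.S3548
import Mathlib
import Cfsg.Agent.Lib.Derange.Basic

set_option autoImplicit false
open Cfsg

open MulAction

namespace Cfsg.Agent.S3548

/-- Let G act faithfully and transitively on a finite set with n ≥ 2 points and let D be the subgroup generated by the derangements. Then the index of D in G divides n − 1, and if it equals n − 1 then n is a prime power. -/
theorem result {G Ω : Type*} [Group G] [Finite G] [MulAction G Ω] [FaithfulSMul G Ω] [Finite Ω]
    (htrans : MulAction.IsPretransitive G Ω) (hΩ : 2 ≤ Nat.card Ω) :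
    (Subgroup.closure {g : G | ∀ ω : Ω, g • ω ≠ ω}).index ∣ Nat.card Ω - 1 ∧
    ((Subgroup.closure {g : G | ∀ ω : Ω, g • ω ≠ ω}).index = Nat.card Ω - 1 → IsPrimePow (Nat.card Ω)) := by
  classical
  set D := Subgroup.closure {g : G | ∀ ω : Ω, g • ω ≠ ω} with hD
  have hN : D.Normal := Cfsg.Agent.Lib.Derange.derangementClosure_normal
  obtain ⟨h1, h2⟩ := Cfsg.Agent.Lib.Derange.derangement_main (G := G) (X := Ω)
  have h1' : IsPretransitive D Ω := h1
  have h2' : ∀ g : G, g ∉ D → Nat.card (fixedBy Ω g) = 1 := h2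
  have hne : Nonempty Ω := by
    have : 0 < Nat.card Ω := by omega
    exact (Nat.card_pos_iff.1 this).1
  obtain ⟨a⟩ := hne
  have hSa : ({a}ᶜ : Set Ω).ncard = Nat.card Ω - 1 := by
    rw [Set.ncard_compl, Set.ncard_singleton]
  have hinv : ∀ h ∈ stabilizer G a, ∀ x ∈ ({a}ᶜ : Set Ω), h • x ∈ ({a}ᶜ : Set Ω) := by
    intro h hh x hx hxa
    apply hx
    have h3 : h • x = h • a := by rw [hxa, mem_stabilizer_iff.1 hh]
    exact smul_left_cancel h h3
  have hdvd := Cfsg.Agent.Lib.Derange.index_dvd_ncard D h2' a {a}ᶜ (by simp) hinv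
  rw [hSa] at hdvd
  refine ⟨hdvd, fun hm => ?_⟩
  -- two fixed points force membership in `D`
  have htwo : ∀ g : G, ∀ x y : Ω, x ≠ y → g • x = x → g • y = y → g ∈ D := by
    intro g x y hxy hx hy
    by_contra hg
    have hu := (Nat.card_eq_one_iff_unique.1 (h2' g hg)).1
    exact hxy (congrArg Subtype.val (hu.elim ⟨x, hx⟩ ⟨y, hy⟩))
  set H := stabilizer G a with hH
  -- every orbit of `H` on the remaining points is everything
  have horb : ∀ x : Ω, x ≠ a → orbit H x = {a}ᶜ ∧ Nat.card (orbit H x) = D.index := by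
    intro x hx
    have hsub : orbit H x ⊆ {a}ᶜ := by
      rintro _ ⟨k, rfl⟩ hka
      apply hx
      have h3 : (k : G) • x = a := hka
      have h4 : (k : G) • a = a := k.2
      exact smul_left_cancel (k : G) (h3.trans h4.symm)
    have hd2 := Cfsg.Agent.Lib.Derange.index_dvd_ncard D h2' a (orbit H x)
      (fun ha => hsub ha rfl) (by
        intro h hh y hy
        exact mem_orbit_of_mem_orbit (⟨h, hh⟩ : H) hy)
    have hpos : 0 < (orbit H x).ncard := (Set.ncard_pos).2 (nonempty_orbit x)
    have hle1 : D.index ≤ (orbit H x).ncard := Nat.le_of_dvd hpos hd2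
    have hle2 : (orbit H x).ncard ≤ ({a}ᶜ : Set Ω).ncard := Set.ncard_le_ncard hsub
    rw [hSa, ← hm] at hle2
    have heq : (orbit H x).ncard = D.index := le_antisymm hle2 hle1
    refine ⟨Set.eq_of_subset_of_ncard_le hsub (by rw [hSa, ← hm, heq]), ?_⟩
    exact heq
  -- the two-point stabilizers contain `D_a`, so `D_a = 1`
  have hDa : ∀ d : G, d ∈ D → d • a = a → d = 1 := by
    intro d hd hda
    have hact : ∀ x : Ω, d • x = x := by
      intro x
      by_cases hxa : x = a
      · rw [hxa]; exact hda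
      obtain ⟨_, hc⟩ := horb x hxa
      have h5 : Nat.card (orbit H x) = (stabilizer H x).index := by
        rw [Nat.card_congr (orbitEquivQuotientStabilizer H x)]
        rfl
      have hK : stabilizer H x ≤ D.subgroupOf H := by
        intro h hh
        rw [Subgroup.mem_subgroupOf]
        refine htwo (h : G) x a hxa ?_ h.2
        exact hh
      have hK2 := Subgroup.relIndex_mul_index hK
      rw [Cfsg.Agent.Lib.Derange.index_inf_stabilizer D a, ← h5, hc] at hK2
      have hidx : 0 < D.index := Nat.pos_of_ne_zero (fun h => by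
        rw [h] at hdvd
        have : Nat.card Ω - 1 = 0 := Nat.eq_zero_of_zero_dvd hdvd
        omega)
      have hone : (stabilizer H x).relIndex (D.subgroupOf H) = 1 := by
        nlinarith
      have hle := Subgroup.relIndex_eq_one.1 hone
      have hmem : (⟨d, hda⟩ : H) ∈ D.subgroupOf H := by
        rw [Subgroup.mem_subgroupOf]; exact hd
      exact hle hmem
    exact eq_of_smul_eq_smul (α := Ω) (by simpa using hact)
  -- `D` is regular
  have hcardD : Nat.card D = Nat.card Ω := by
    refine Nat.card_congr (Equiv.ofBijective (fun d : D => (d : G) • a) ⟨?_, ?_⟩)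
    · intro d d' hdd
      have h3 : ((d' : G)⁻¹ * d) • a = a := by
        rw [mul_smul]
        exact inv_smul_eq_iff.2 hdd
      have := hDa _ (D.mul_mem (D.inv_mem d'.2) d.2) h3
      exact Subtype.ext (inv_mul_eq_one.1 this).symm
    · intro y
      obtain ⟨d, hd⟩ := exists_smul_eq D a y
      exact ⟨d, hd⟩
  -- all non-identity elements of `D` are conjugate
  have hconj : ∀ d d' : G, d ∈ D → d' ∈ D → d ≠ 1 → d' ≠ 1 → ∃ g : G, g * d * g⁻¹ = d' := by
    intro d d' hd hd' hd1 hd1'
    have hda : d • a ≠ a := fun h => hd1 (hDa d hd h)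
    have hda' : d' • a ≠ a := fun h => hd1' (hDa d' hd' h)
    have hmem : d' • a ∈ orbit H (d • a) := by
      rw [(horb _ hda).1]; exact hda'
    obtain ⟨h, hh⟩ := hmem
    refine ⟨h, ?_⟩
    have hga : (h : G)⁻¹ • a = a := by
      rw [inv_smul_eq_iff]; exact h.2.symm
    have h3 : ((d')⁻¹ * ((h : G) * d * (h : G)⁻¹)) • a = a := by
      have hh' : (h : G) • (d • a) = d' • a := hh
      simp only [mul_smul, hga, hh']
      simp
    have hmemD : (d')⁻¹ * ((h : G) * d * (h : G)⁻¹) ∈ D :=
      D.mul_mem (D.inv_mem hd') (hN.conj_mem d hd h)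
    have := hDa _ hmemD h3
    exact (inv_mul_eq_one.1 this).symm
  -- conclude
  have hnontriv : 1 < Nat.card D := by rw [hcardD]; omega
  obtain ⟨p, hp, hpd⟩ := Nat.exists_prime_and_dvd (n := Nat.card D) (by omega)
  have hpf : Fact p.Prime := ⟨hp⟩
  obtain ⟨d0, hd0⟩ := exists_prime_orderOf_dvd_card' (G := D) p hpd
  have hd01 : (d0 : G) ≠ 1 := by
    intro h
    have : d0 = 1 := Subtype.ext h
    rw [this, orderOf_one] at hd0
    exact hp.one_lt.ne hd0
  have hPG : IsPGroup p D := by
    intro x
    by_cases hx : (x : G) = 1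
    · have hx1 : x = 1 := Subtype.ext hx
      exact ⟨0, by simp [hx1]⟩
    obtain ⟨g, hg⟩ := hconj d0 x d0.2 x.2 hd01 hx
    refine ⟨1, Subtype.ext ?_⟩
    have h3 : (d0 : G) ^ p = 1 := by
      have := pow_orderOf_eq_one d0
      rw [hd0] at this
      exact congrArg Subtype.val this
    simp only [pow_one, Subgroup.coe_pow, Subgroup.coe_one]
    rw [← hg, conj_pow, h3]
    simp
  obtain ⟨k, hk⟩ := IsPGroup.iff_card.1 hPG
  rw [hcardD] at hk
  rw [hk]
  refine ⟨p, k, hp.prime, ?_, rfl⟩
  rcases Nat.eq_zero_or_pos k with h0 | h0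
  · rw [h0, pow_zero] at hk; omega
  · exact h0

end Cfsg.Agent.S3548
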