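import Cfsg.Statements.S3549
import Mathlib
import Cfsg.Agent.Lib.Derange.Basic

set_option autoImplicit false
open Cfsg

open MulAction

namespace Cfsg.Agent.S3549

open scoped Pointwise in
theorem aux {G Ω : Type*} [Group G] [Finite G] [MulAction G Ω] [FaithfulSMul G Ω] [Finite Ω]
    (htrans : MulAction.IsPretransitive G Ω) (himp : ¬ MulAction.IsPreprimitive G Ω) :
    ((Subgroup.closure {g : G | ∀ ω : Ω, g • ω ≠ ω}).index + 1) ^ 2 ≤ Nat.card Ω := by
  classical
  set D := Subgroup.closure {g : G | ∀ ω : Ω, g • ω ≠ ω} with hD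
  have hN : D.Normal := Cfsg.Agent.Lib.Derange.derangementClosure_normal
  obtain ⟨h1, h2⟩ := Cfsg.Agent.Lib.Derange.derangement_main (G := G) (X := Ω)
  have h1' : IsPretransitive D Ω := h1
  have h2' : ∀ g : G, g ∉ D → Nat.card (fixedBy Ω g) = 1 := h2
  have hfp : ∀ g : G, g ∉ D → ∃ x : Ω, g • x = x :=
    fun _ hg => Cfsg.Agent.Lib.Derange.exists_fix_of_not_mem hg
  -- a non-trivial block
  obtain ⟨B, hB, hBt⟩ : ∃ B : Set Ω, IsBlock G B ∧ ¬ IsTrivialBlock B := by
    by_contra hcon
    push Not at hcon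
    exact himp { isTrivialBlock_of_isBlock := fun {B} hB => hcon B hB }
  have hBns : ¬ B.Subsingleton := fun h => hBt (Or.inl h)
  have hBu : B ≠ Set.univ := fun h => hBt (Or.inr h)
  obtain ⟨a, ha, a', ha', haa'⟩ := Set.not_subsingleton_iff.1 hBns
  have hBne : B.Nonempty := ⟨a, ha⟩
  have hprod := hB.ncard_block_mul_ncard_orbit_eq hBne
  -- `m ∣ b - 1`
  have hdb : D.index ∣ (B \ {a}).ncard := by
    refine Cfsg.Agent.Lib.Derange.index_dvd_ncard D h2' a _ (by simp) ?_
    intro h hh x hx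
    have hs : h • B = B := hB.stabilizer_le ha hh
    refine ⟨?_, ?_⟩
    · rw [← hs]; exact Set.smul_mem_smul_set hx.1
    · intro hxa
      apply hx.2
      have h3 : h • x = h • a := by rw [show h • x = a from hxa, mem_stabilizer_iff.1 hh]
      exact smul_left_cancel h h3
  have hb1 : (B \ {a}).ncard = B.ncard - 1 := by
    rw [Set.ncard_diff_singleton_of_mem ha]
  rw [hb1] at hdb
  -- `m ∣ c - 1`
  let X' := orbit G B
  have hm2 : IsPretransitive D X' ∧ ∀ g : G, g ∉ D → Nat.card (fixedBy X' g) = 1 := by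
    refine Cfsg.Agent.Lib.Derange.transitive_and_one_fix D ?_
    intro g hg
    obtain ⟨x, hx⟩ := hfp g hg
    obtain ⟨k, hk⟩ := exists_smul_eq G a x
    refine ⟨⟨k • B, mem_orbit B k⟩, Subtype.ext ?_⟩
    show g • (k • B) = k • B
    have hB' : IsBlock G (k • B) := hB.translate k
    have hxB : x ∈ k • B := by rw [← hk]; exact Set.smul_mem_smul_set ha
    exact hB'.smul_eq_of_mem hxB (by rw [hx]; exact hxB)
  obtain ⟨hm2a, hm2b⟩ := hm2
  let a0 : X' := ⟨B, mem_orbit_self B⟩
  have hdc : D.index ∣ ({a0}ᶜ : Set X').ncard := by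
    refine Cfsg.Agent.Lib.Derange.index_dvd_ncard D hm2b a0 _ (by simp) ?_
    intro h hh x hx hxa
    apply hx
    have h3 : h • x = h • a0 := by rw [show h • x = a0 from hxa, mem_stabilizer_iff.1 hh]
    exact smul_left_cancel h h3
  have hc1 : ({a0}ᶜ : Set X').ncard = Nat.card X' - 1 := by
    rw [Set.ncard_compl, Set.ncard_singleton]
  have hc2 : Nat.card X' = (orbit G B).ncard := rfl
  rw [hc1, hc2] at hdc
  -- sizes
  have : Nonempty Ω := ⟨a⟩
  have hn : Nat.card Ω ≠ 0 := Nat.card_pos.ne'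
  have hb : 2 ≤ B.ncard := (Set.one_lt_ncard).2 ⟨a, ha, a', ha', haa'⟩
  have hc : 2 ≤ (orbit G B).ncard := by
    by_contra hlt
    have hc0 : (orbit G B).ncard ≠ 0 := by
      intro h0
      rw [h0, mul_zero] at hprod
      exact hn hprod.symm
    have hc1' : (orbit G B).ncard = 1 := by omega
    rw [hc1', mul_one] at hprod
    exact hBu ((Set.eq_univ_iff_ncard B).2 hprod)
  have hm1 : D.index ≤ B.ncard - 1 := Nat.le_of_dvd (by omega) hdb
  have hm3 : D.index ≤ (orbit G B).ncard - 1 := Nat.le_of_dvd (by omega) hdc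
  rw [← hprod, sq]
  exact Nat.mul_le_mul (by omega) (by omega)

/-- Let G act faithfully, transitively but imprimitively on a finite set with n points, and let D be the subgroup generated by the derangements. Then the index of D in G is at most √n − 1. -/
theorem result {G Ω : Type*} [Group G] [Finite G] [MulAction G Ω] [FaithfulSMul G Ω] [Finite Ω]
    (htrans : MulAction.IsPretransitive G Ω) (himp : ¬ MulAction.IsPreprimitive G Ω) :
    ((Subgroup.closure {g : G | ∀ ω : Ω, g • ω ≠ ω}).index : ℝ) ≤ Real.sqrt (Nat.card Ω) - 1 := by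
  have h := aux htrans himp
  have h2 : ((Subgroup.closure {g : G | ∀ ω : Ω, g • ω ≠ ω}).index + 1 : ℝ) ≤ Real.sqrt (Nat.card Ω) := by
    apply Real.le_sqrt_of_sq_le
    exact_mod_cast h
  linarith

end Cfsg.Agent.S3549
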