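import Cfsg.Statements.S3559
import Mathlib

set_option autoImplicit false
open Cfsg

namespace Cfsg.Agent.S3559

section Abstract

variable {A : Type*} [CommGroup A] [Fintype A] [DecidableEq A]

/-- An `A`-"Schur system": a family of permutations of `A`, all fixing the identity, and compatible
with multiplication up to a translation by another member of the family. -/
structure Sys (Sig : Set (Equiv.Perm A)) : Prop where
  one : ∀ σ ∈ Sig, σ 1 = 1
  mul : ∀ σ ∈ Sig, ∀ c, ∃ k ∈ Sig, ∀ z, σ (c * z) = σ c * k z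

/-- The closure of an invariant set is invariant. -/
lemma closure_inv {Sig : Set (Equiv.Perm A)} (h : Sys Sig) (S : Set A)
    (hS : ∀ σ ∈ Sig, ∀ x ∈ S, σ x ∈ S) :
    ∀ σ ∈ Sig, ∀ v ∈ Subgroup.closure S, σ v ∈ Subgroup.closure S := by
  intro σ hσ v hv
  revert σ
  induction hv using Subgroup.closure_induction with
  | mem x hx =>
    intro σ hσ
    exact Subgroup.subset_closure (hS σ hσ x hx)
  | one =>
    intro σ hσ
    rw [h.one σ hσ]
    exact one_mem _
  | mul x y _ _ ihx ihy =>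
    intro σ hσ
    obtain ⟨k, hk, hkz⟩ := h.mul σ hσ x
    rw [hkz y]
    exact mul_mem (ihx σ hσ) (ihy k hk)
  | inv x _ ih =>
    intro σ hσ
    obtain ⟨k, hk, hkz⟩ := h.mul σ hσ x⁻¹
    have h1 := hkz x
    rw [inv_mul_cancel, h.one σ hσ] at h1
    have h2 : σ x⁻¹ = (k x)⁻¹ := eq_inv_of_mul_eq_one_left h1.symm
    rw [h2]
    exact inv_mem (ih k hk)

/-- The multiplicative stabilizer of a set. -/
def setStab (T : Finset A) : Subgroup A where
  carrier := {h | ∀ t, h * t ∈ T ↔ t ∈ T}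
  mul_mem' := by
    intro a b ha hb t
    rw [mul_assoc, ha, hb]
  one_mem' := by
    intro t
    rw [one_mul]
  inv_mem' := by
    intro a ha t
    have := ha (a⁻¹ * t)
    rw [mul_inv_cancel_left] at this
    exact this.symm

lemma setStab_inv {Sig : Set (Equiv.Perm A)} (h : Sys Sig) (T : Finset A)
    (hT : ∀ σ ∈ Sig, ∀ x, σ x ∈ T ↔ x ∈ T) :
    ∀ σ ∈ Sig, ∀ v ∈ setStab T, σ v ∈ setStab T := by
  intro σ hσ v hv t
  obtain ⟨k, hk, hkz⟩ := h.mul σ hσ v
  have h1 := hkz (k.symm t)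
  rw [Equiv.apply_symm_apply] at h1
  rw [← h1, hT σ hσ, hv, ← hT k hk, Equiv.apply_symm_apply]

/-- Coefficient of a product in a finite group algebra. -/
lemma coeff_mul_fintype {R : Type*} [Semiring R] (x y : MonoidAlgebra R A) (z : A) :
    (x * y).coeff z = ∑ c : A, x.coeff c * y.coeff (c⁻¹ * z) := by
  rw [MonoidAlgebra.coeff_mul, Finsupp.sum_fintype _ _ (by simp)]
  apply Finset.sum_congr rfl
  intro c _
  rw [Finsupp.sum_fintype _ _ (by simp)]
  rw [Finset.sum_eq_single (c⁻¹ * z)]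
  · simp
  · intro d _ hd
    rw [if_neg]
    intro hcon
    apply hd
    rw [← hcon, inv_mul_cancel_left]
  · simp

/-- Invariant elements of the group algebra are closed under product. -/
lemma inv_mul_inv {R : Type*} [Semiring R] {Sig : Set (Equiv.Perm A)} (h : Sys Sig)
    (x y : MonoidAlgebra R A)
    (hx : ∀ σ ∈ Sig, ∀ z, x.coeff (σ z) = x.coeff z)
    (hy : ∀ σ ∈ Sig, ∀ z, y.coeff (σ z) = y.coeff z) :
    ∀ σ ∈ Sig, ∀ z, (x * y).coeff (σ z) = (x * y).coeff z := by
  intro σ hσ z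
  rw [coeff_mul_fintype, coeff_mul_fintype]
  rw [← Equiv.sum_comp σ]
  apply Finset.sum_congr rfl
  intro c _
  obtain ⟨k, hk, hkz⟩ := h.mul σ hσ c
  have h1 := hkz (c⁻¹ * z)
  rw [mul_inv_cancel_left] at h1
  have h2 : (σ c)⁻¹ * σ z = k (c⁻¹ * z) := by
    rw [h1, inv_mul_cancel_left]
  rw [h2, hx σ hσ c, hy k hk]

lemma coeff_sum_single {R : Type*} [Semiring R] (T : Finset A) (f : A → A) (z : A) :
    (∑ x ∈ T, (MonoidAlgebra.single (f x) (1 : R) : MonoidAlgebra R A)).coeff z
      = ((T.filter (fun x => f x = z)).card : ℕ) := by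
  rw [MonoidAlgebra.coeff_sum, Finsupp.finset_sum_apply]
  simp only [MonoidAlgebra.coeff_single, Finsupp.single_apply]
  rw [Finset.card_filter]
  push_cast
  rfl

/-- The Frobenius congruence: the number of `p`-th roots of `z` in an invariant set is, modulo `p`,
an invariant function of `z`. -/
lemma count_inv {Sig : Set (Equiv.Perm A)} (h : Sys Sig) (p : ℕ) [Fact p.Prime] (T : Finset A)
    (hT : ∀ σ ∈ Sig, ∀ x, σ x ∈ T ↔ x ∈ T) :
    ∀ σ ∈ Sig, ∀ z, (((T.filter (fun x => x ^ p = σ z)).card : ℕ) : ZMod p)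
      = ((T.filter (fun x => x ^ p = z)).card : ℕ) := by
  classical
  haveI : CharP (MonoidAlgebra (ZMod p) A) p :=
    charP_of_injective_algebraMap (algebraMap (ZMod p) (MonoidAlgebra (ZMod p) A)).injective p
  let a : MonoidAlgebra (ZMod p) A := ∑ x ∈ T, MonoidAlgebra.single (id x) 1
  have hacoeff : ∀ z, a.coeff z = ((T.filter (fun x => id x = z)).card : ℕ) := by
    intro z
    exact coeff_sum_single T id z
  have hfil : ∀ z, T.filter (fun x => id x = z) = if z ∈ T then {z} else ∅ := by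
    intro z
    ext x
    by_cases hz : z ∈ T
    · simp only [id, Finset.mem_filter, if_pos hz, Finset.mem_singleton]
      constructor
      · exact fun h => h.2
      · rintro rfl; exact ⟨hz, rfl⟩
    · simp only [id, Finset.mem_filter, if_neg hz, Finset.notMem_empty, iff_false]
      rintro ⟨h1, rfl⟩
      exact hz h1
  have hainv : ∀ σ ∈ Sig, ∀ z, a.coeff (σ z) = a.coeff z := by
    intro σ hσ z
    rw [hacoeff, hacoeff, hfil, hfil]
    by_cases hz : z ∈ T
    · rw [if_pos hz, if_pos ((hT σ hσ z).2 hz)]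
      simp
    · rw [if_neg hz, if_neg (fun h2 => hz ((hT σ hσ z).1 h2))]
  have hone : ∀ σ ∈ Sig, ∀ z, (1 : MonoidAlgebra (ZMod p) A).coeff (σ z)
      = (1 : MonoidAlgebra (ZMod p) A).coeff z := by
    intro σ hσ z
    rw [MonoidAlgebra.one_def]
    simp only [MonoidAlgebra.coeff_single, Finsupp.single_apply]
    have : (1 : A) = σ z ↔ 1 = z := by
      conv_lhs => rw [← h.one σ hσ]
      exact σ.injective.eq_iff
    simp only [this]
  have hpow : ∀ n : ℕ, ∀ σ ∈ Sig, ∀ z, (a ^ n).coeff (σ z) = (a ^ n).coeff z := by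
    intro n
    induction n with
    | zero => simpa using hone
    | succ n ih =>
      rw [pow_succ]
      exact inv_mul_inv h _ _ ih hainv
  have hfrob : a ^ p = ∑ x ∈ T, MonoidAlgebra.single (x ^ p) 1 := by
    simp only [a]
    rw [sum_pow_char p]
    apply Finset.sum_congr rfl
    intro x _
    rw [MonoidAlgebra.single_pow, one_pow]
    rfl
  have hc : ∀ z, (a ^ p).coeff z = ((T.filter (fun x => x ^ p = z)).card : ℕ) := by
    intro z
    rw [hfrob]
    exact coeff_sum_single T (fun x => x ^ p) z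
  intro σ hσ z
  rw [← hc, ← hc]
  exact hpow p σ hσ z

/-- Fibres of the `p`-power map in a cyclic group have at most `p` elements. -/
lemma card_fiber_le [IsCyclic A] (p : ℕ) (hp : 0 < p) (z : A) :
    (Finset.univ.filter (fun x : A => x ^ p = z)).card ≤ p := by
  classical
  rcases (Finset.univ.filter (fun x : A => x ^ p = z)).eq_empty_or_nonempty with he | ⟨y, hy⟩
  · rw [he]; simp
  have hyz : y ^ p = z := (Finset.mem_filter.1 hy).2
  have h1 : (Finset.univ.filter (fun x : A => x ^ p = 1)).card ≤ p :=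
    IsCyclic.card_pow_eq_one_le hp
  refine le_trans ?_ h1
  apply Finset.card_le_card_of_injOn (fun x => y⁻¹ * x)
  · intro x hx
    have hx' : x ^ p = z := (Finset.mem_filter.1 (Finset.mem_coe.1 hx)).2
    simp only [Finset.coe_filter, Finset.mem_univ, true_and, Set.mem_ofPred_eq]
    rw [mul_pow, inv_pow, hx', hyz, inv_mul_cancel]
  · intro a _ b _ hab
    exact mul_left_cancel hab

/-- The structural dichotomy: an invariant proper non-empty subset meets `Ω₁` (the elements with
`x ^ p = 1`), and outside `Ω₁` it is saturated. -/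
lemma key_struct [IsCyclic A] {Sig : Set (Equiv.Perm A)} (h : Sys Sig)
    (hprim : ∀ V : Subgroup A, (∀ σ ∈ Sig, ∀ v ∈ V, σ v ∈ V) → V = ⊥ ∨ V = ⊤)
    (p : ℕ) (hp : p.Prime) (hpd : p ∣ Fintype.card A) (T : Finset A)
    (hT : ∀ σ ∈ Sig, ∀ x, σ x ∈ T ↔ x ∈ T) (hTne : T.Nonempty) (hTu : T ≠ Finset.univ) :
    (∃ u ∈ T, u ^ p = 1) ∧ ∀ x ∈ T, x ^ p ≠ 1 → ∀ u : A, u ^ p = 1 → x * u ∈ T := by
  classical
  haveI : Fact p.Prime := ⟨hp⟩
  -- the element of order `p`
  obtain ⟨u0, hu0⟩ := exists_prime_orderOf_dvd_card p hpd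
  have hu0p : u0 ^ p = 1 := by rw [← hu0]; exact pow_orderOf_eq_one u0
  have hu01 : u0 ≠ 1 := by
    intro h1
    rw [h1, orderOf_one] at hu0
    exact hp.one_lt.ne hu0
  -- the image of the `p`-power map is proper
  let U : Subgroup A := (powMonoidHom p : A →* A).range
  have hUtop : U ≠ ⊤ := by
    intro htop
    have hsurj : Function.Surjective (powMonoidHom p : A →* A) :=
      MonoidHom.range_eq_top.1 htop
    have hinj := Finite.injective_iff_surjective.2 hsurj
    apply hu01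
    apply hinj
    simp [hu0p]
  -- the set of `z` with non-zero count
  let W : Set A := {z | (((T.filter (fun x => x ^ p = z)).card : ℕ) : ZMod p) ≠ 0}
  have hWinv : ∀ σ ∈ Sig, ∀ x ∈ W, σ x ∈ W := by
    intro σ hσ x hx
    show (((T.filter (fun y => y ^ p = σ x)).card : ℕ) : ZMod p) ≠ 0
    rw [count_inv h p T hT σ hσ x]
    exact hx
  have hWU : W ⊆ U := by
    intro z hz
    by_contra hzU
    apply hz
    have : T.filter (fun x => x ^ p = z) = ∅ := by
      rw [Finset.filter_eq_empty_iff]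
      intro x _ hx
      exact hzU ⟨x, hx⟩
    rw [this]
    simp
  have hWsub : ∀ z ∈ W, z = 1 := by
    have hcl := closure_inv h W hWinv
    have hle : Subgroup.closure W ≤ U := (Subgroup.closure_le U).2 hWU
    rcases hprim _ hcl with hb | ht
    · intro z hz
      have : z ∈ Subgroup.closure W := Subgroup.subset_closure hz
      rw [hb] at this
      simpa using this
    · exfalso
      apply hUtop
      rw [eq_top_iff, ← ht]
      exact hle
  -- divisibility gives saturation
  have hsat : ∀ x ∈ T, (x ^ p) ∉ W → ∀ u : A, u ^ p = 1 → x * u ∈ T := by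
    intro x hx hxW u hu
    have hdvd : p ∣ (T.filter (fun y => y ^ p = x ^ p)).card := by
      by_contra hcon
      apply hxW
      show (((T.filter (fun y => y ^ p = x ^ p)).card : ℕ) : ZMod p) ≠ 0
      rwa [Ne, ZMod.natCast_eq_zero_iff]
    have hpos : 0 < (T.filter (fun y => y ^ p = x ^ p)).card :=
      Finset.card_pos.2 ⟨x, Finset.mem_filter.2 ⟨hx, rfl⟩⟩
    have hge := Nat.le_of_dvd hpos hdvd
    have hsub : T.filter (fun y => y ^ p = x ^ p) ⊆ Finset.univ.filter (fun y : A => y ^ p = x ^ p) := by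
      intro y hy
      exact Finset.mem_filter.2 ⟨Finset.mem_univ y, (Finset.mem_filter.1 hy).2⟩
    have hle := card_fiber_le (A := A) p hp.pos (x ^ p)
    have heq := Finset.eq_of_subset_of_card_le hsub (by omega)
    have hmem : x * u ∈ Finset.univ.filter (fun y : A => y ^ p = x ^ p) := by
      simp [mul_pow, hu]
    rw [← heq] at hmem
    exact (Finset.mem_filter.1 hmem).1
  refine ⟨?_, ?_⟩
  · -- meets `Ω₁`
    by_contra hcon
    push Not at hcon
    -- then the count at `1` vanishes, so no `z` is in `W`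
    have hW1 : (1 : A) ∉ W := by
      intro h1
      apply h1
      have : T.filter (fun x => x ^ p = 1) = ∅ := by
        rw [Finset.filter_eq_empty_iff]
        intro x hx
        exact hcon x hx
      rw [this]
      simp
    have hWe : ∀ z, z ∉ W := fun z hz => hW1 (hWsub z hz ▸ hz)
    have hstab : u0 ∈ setStab T := by
      intro t
      constructor
      · intro ht
        have := hsat (u0 * t) ht (hWe _) (u0⁻¹) (by rw [inv_pow, hu0p, inv_one])
        rwa [mul_comm u0 t, mul_inv_cancel_right] at this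
      · intro ht
        have := hsat t ht (hWe _) u0 hu0p
        rwa [mul_comm]
    rcases hprim (setStab T) (setStab_inv h T hT) with hb | ht
    · rw [hb, Subgroup.mem_bot] at hstab
      exact hu01 hstab
    · apply hTu
      obtain ⟨t, ht0⟩ := hTne
      rw [Finset.eq_univ_iff_forall]
      intro y
      have hm : y * t⁻¹ ∈ setStab T := by rw [ht]; exact Subgroup.mem_top _
      have := (hm t).2 ht0
      rwa [inv_mul_cancel_right] at this
  · intro x hx hx1 u hu
    apply hsat x hx _ u hu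
    intro hW
    exact hx1 (hWsub _ hW)

/-- Schur's theorem, combinatorial core: in a cyclic group of order divisible by two distinct
primes, two non-empty invariant subsets not containing the identity always meet. -/
lemma schur_core [IsCyclic A] {Sig : Set (Equiv.Perm A)} (h : Sys Sig)
    (hprim : ∀ V : Subgroup A, (∀ σ ∈ Sig, ∀ v ∈ V, σ v ∈ V) → V = ⊥ ∨ V = ⊤)
    (p q : ℕ) (hp : p.Prime) (hq : q.Prime) (hpq : p ≠ q) (hpd : p ∣ Fintype.card A)
    (hqd : q ∣ Fintype.card A) (T T' : Finset A)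
    (hT : ∀ σ ∈ Sig, ∀ x, σ x ∈ T ↔ x ∈ T) (hT' : ∀ σ ∈ Sig, ∀ x, σ x ∈ T' ↔ x ∈ T')
    (hTne : T.Nonempty) (hT'ne : T'.Nonempty) (hT1 : (1 : A) ∉ T) (hT'1 : (1 : A) ∉ T') :
    ∃ x, x ∈ T ∧ x ∈ T' := by
  classical
  haveI : Fact p.Prime := ⟨hp⟩
  obtain ⟨u, hu⟩ := exists_prime_orderOf_dvd_card p hpd
  have hup : u ^ p = 1 := by rw [← hu]; exact pow_orderOf_eq_one u
  have hu1 : u ≠ 1 := by
    intro h1
    rw [h1, orderOf_one] at hu
    exact hp.one_lt.ne hu
  have hcop : Nat.Coprime p q := (Nat.coprime_primes hp hq).2 hpq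
  have hinter : ∀ w : A, w ^ p = 1 → w ^ q = 1 → w = 1 := by
    intro w h1 h2
    have := orderOf_dvd_of_pow_eq_one h1
    have h3 := orderOf_dvd_of_pow_eq_one h2
    have h4 := Nat.dvd_gcd this h3
    rw [hcop] at h4
    exact orderOf_eq_one_iff.1 (Nat.dvd_one.1 h4)
  have hmain : ∀ S : Finset A, (∀ σ ∈ Sig, ∀ x, σ x ∈ S ↔ x ∈ S) → S.Nonempty → (1 : A) ∉ S → u ∈ S := by
    intro S hS hne h1
    have hSu : S ≠ Finset.univ := fun he => h1 (he ▸ Finset.mem_univ _)
    obtain ⟨⟨v, hvS, hvq⟩, -⟩ := key_struct h hprim q hq hqd S hS hne hSu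
    obtain ⟨-, hsatp⟩ := key_struct h hprim p hp hpd S hS hne hSu
    obtain ⟨-, hsatq⟩ := key_struct h hprim q hq hqd S hS hne hSu
    have hv1 : v ≠ 1 := fun hc => h1 (hc ▸ hvS)
    have hvp : v ^ p ≠ 1 := fun hc => hv1 (hinter v hc hvq)
    have h2 := hsatp v hvS hvp u hup
    have h3 : (v * u) ^ q ≠ 1 := by
      rw [mul_pow, hvq, one_mul]
      intro hc
      exact hu1 (hinter u hup hc)
    have h4 := hsatq (v * u) h2 h3 v⁻¹ (by rw [inv_pow, hvq, inv_one])
    rwa [mul_comm v u, mul_inv_cancel_right] at h4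
  exact ⟨u, hmain T hT hTne hT1, hmain T' hT' hT'ne hT'1⟩

end Abstract

open scoped Pointwise in
/-- The permutation-group form of Schur's theorem. -/
lemma main_abs {G Ω A : Type*} [Group G] [MulAction G Ω] [Finite Ω] [CommGroup A] [Fintype A]
    [DecidableEq A] [IsCyclic A] (ι : A →* G) (ω₀ : Ω)
    (hbij : Function.Bijective (fun c : A => ι c • ω₀)) (hprim : MulAction.IsPreprimitive G Ω)
    (p q : ℕ) (hp : p.Prime) (hq : q.Prime) (hpq : p ≠ q) (hpd : p ∣ Fintype.card A)
    (hqd : q ∣ Fintype.card A) (a b : Ω) (ha : a ≠ ω₀) (hb : b ≠ ω₀) :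
    ∃ k : G, k • ω₀ = ω₀ ∧ k • a = b := by
  classical
  let e : A ≃ Ω := Equiv.ofBijective _ hbij
  have he : ∀ c, e c = ι c • ω₀ := fun c => rfl
  have hinj : ∀ c d : A, ι c • ω₀ = ι d • ω₀ → c = d := fun c d h => hbij.1 h
  -- the conjugation permutation attached to `g`
  let sg : G → Equiv.Perm A := fun g => e.trans ((MulAction.toPerm g).trans e.symm)
  have hsg : ∀ g c, ι (sg g c) • ω₀ = g • (ι c • ω₀) := by
    intro g c
    show e (e.symm (g • e c)) = _
    rw [Equiv.apply_symm_apply, he]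
  let Sig : Set (Equiv.Perm A) :=
    {σ | ∃ g : G, g • ω₀ = ω₀ ∧ ∀ c, ι (σ c) • ω₀ = g • (ι c • ω₀)}
  have hsys : Sys Sig := by
    constructor
    · rintro σ ⟨g, hg, hσ⟩
      apply hinj
      rw [hσ, map_one, one_smul, hg]
    · rintro σ ⟨g, hg, hσ⟩ c
      let k : G := (ι (σ c))⁻¹ * g * ι c
      have hk : k • ω₀ = ω₀ := by
        simp only [k, mul_smul]
        rw [← hσ, inv_smul_smul]
      refine ⟨sg k, ⟨k, hk, hsg k⟩, fun z => ?_⟩
      apply hinj
      rw [hσ, map_mul, map_mul, mul_smul, mul_smul, hsg]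
      simp only [k, mul_smul]
      rw [smul_inv_smul]
  -- primitivity
  have hV : ∀ V : Subgroup A, (∀ σ ∈ Sig, ∀ v ∈ V, σ v ∈ V) → V = ⊥ ∨ V = ⊤ := by
    intro V hVinv
    let B : Set Ω := (fun v : A => ι v • ω₀) '' (V : Set A)
    have hblock : MulAction.IsBlock G B := by
      rw [MulAction.isBlock_iff_smul_eq_or_disjoint]
      intro g
      by_cases hd : Disjoint (g • B) B
      · exact Or.inr hd
      left
      rw [Set.not_disjoint_iff] at hd
      obtain ⟨y, hy1, hy2⟩ := hd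
      obtain ⟨w, hw, hwy⟩ := (Set.mem_smul_set.1 hy1)
      obtain ⟨v₁, hv₁, hv₁w⟩ := hw
      obtain ⟨v₂, hv₂, hv₂y⟩ := hy2
      simp only at hv₁w hv₂y
      let k : G := (ι v₂)⁻¹ * g * ι v₁
      have hk : k • ω₀ = ω₀ := by
        simp only [k, mul_smul]
        rw [hv₁w, hwy, ← hv₂y, inv_smul_smul]
      have hsub : g • B ⊆ B := by
        rintro _ ⟨_, ⟨v, hv, rfl⟩, rfl⟩
        simp only
        refine ⟨v₂ * sg k (v₁⁻¹ * v), mul_mem hv₂ (hVinv _ ⟨k, hk, hsg k⟩ _ (mul_mem (inv_mem hv₁) hv)), ?_⟩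
        simp only
        rw [map_mul, mul_smul, hsg, map_mul, map_inv]
        simp only [k, mul_smul]
        rw [smul_inv_smul, smul_inv_smul]
      exact Set.eq_of_subset_of_ncard_le hsub (by rw [Set.ncard_smul_set]) (Set.toFinite B)
    rcases hprim.isTrivialBlock_of_isBlock hblock with hs | hu
    · left
      rw [eq_bot_iff]
      intro v hv
      rw [Subgroup.mem_bot]
      apply hinj
      exact hs ⟨v, hv, rfl⟩ ⟨1, one_mem _, rfl⟩
    · right
      rw [eq_top_iff]
      intro x _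
      have : ι x • ω₀ ∈ B := by rw [hu]; exact Set.mem_univ _
      obtain ⟨v, hv, hvx⟩ := this
      rw [← hinj _ _ hvx]
      exact hv
  -- the orbits
  let orb : Ω → Finset A := fun c =>
    Finset.univ.filter (fun x => ∃ k : G, k • ω₀ = ω₀ ∧ k • c = ι x • ω₀)
  have horbinv : ∀ c, ∀ σ ∈ Sig, ∀ x, σ x ∈ orb c ↔ x ∈ orb c := by
    rintro c σ ⟨g, hg, hσ⟩ x
    simp only [orb, Finset.mem_filter, Finset.mem_univ, true_and]
    constructor
    · rintro ⟨k, hk, hkc⟩
      refine ⟨g⁻¹ * k, ?_, ?_⟩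
      · rw [mul_smul, hk, inv_smul_eq_iff, hg]
      · rw [mul_smul, hkc, hσ, inv_smul_smul]
    · rintro ⟨k, hk, hkc⟩
      refine ⟨g * k, ?_, ?_⟩
      · rw [mul_smul, hk, hg]
      · rw [mul_smul, hkc, hσ]
  have horbne : ∀ c, (orb c).Nonempty := by
    intro c
    obtain ⟨x, hx⟩ := hbij.2 c
    refine ⟨x, ?_⟩
    simp only [orb, Finset.mem_filter, Finset.mem_univ, true_and]
    exact ⟨1, one_smul _ _, by rw [one_smul]; exact hx.symm⟩
  have horb1 : ∀ c, c ≠ ω₀ → (1 : A) ∉ orb c := by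
    intro c hc h1
    simp only [orb, Finset.mem_filter, Finset.mem_univ, true_and] at h1
    obtain ⟨k, hk, hkc⟩ := h1
    rw [map_one, one_smul] at hkc
    apply hc
    have h2 : k • c = k • ω₀ := by rw [hkc, hk]
    exact smul_left_cancel k h2
  obtain ⟨x, hxa, hxb⟩ := schur_core hsys hV p q hp hq hpq hpd hqd (orb a) (orb b)
    (horbinv a) (horbinv b) (horbne a) (horbne b) (horb1 a ha) (horb1 b hb)
  simp only [orb, Finset.mem_filter, Finset.mem_univ, true_and] at hxa hxb
  obtain ⟨k₁, hk₁, hk₁a⟩ := hxa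
  obtain ⟨k₂, hk₂, hk₂b⟩ := hxb
  refine ⟨k₂⁻¹ * k₁, ?_, ?_⟩
  · rw [mul_smul, hk₁, inv_smul_eq_iff, hk₂]
  · rw [mul_smul, hk₁a, inv_smul_eq_iff, hk₂b]

/-- Let G act faithfully and transitively on a finite set whose number of points n ≥ 2 is not a prime power, and suppose G has a cyclic subgroup acting regularly (transitively with trivial point stabilizers). Then G is imprimitive or doubly transitive. -/
theorem result {G Ω : Type*} [Group G] [Finite G] [MulAction G Ω] [FaithfulSMul G Ω] [Finite Ω]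
    (htrans : MulAction.IsPretransitive G Ω) (hn : 2 ≤ Nat.card Ω) (hnp : ¬ IsPrimePow (Nat.card Ω))
    (C : Subgroup G) (hcyc : IsCyclic ↥C) (hC : MulAction.IsPretransitive ↥C Ω ∧ ∀ a : Ω, MulAction.stabilizer ↥C a = ⊥) :
    ¬ MulAction.IsPreprimitive G Ω ∨ MulAction.IsMultiplyPretransitive G Ω 2 := by
  classical
  by_cases hprim : MulAction.IsPreprimitive G Ω
  swap
  · exact Or.inl hprim
  right
  haveI : Nonempty Ω := by
    apply (Nat.card_pos_iff.1 (by omega : 0 < Nat.card Ω)).1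
  obtain ⟨ω₀⟩ := ‹Nonempty Ω›
  haveI : Fintype ↥C := Fintype.ofFinite _
  haveI := hC.1
  letI cg : CommGroup ↥C := IsCyclic.commGroup
  let ι : ↥C →* G := { toFun := Subtype.val, map_one' := rfl, map_mul' := fun _ _ => rfl }
  have hbij : Function.Bijective (fun c : ↥C => ι c • ω₀) := by
    constructor
    · intro c d hcd
      have h1 : (ι d)⁻¹ * ι c ∈ MulAction.stabilizer G ω₀ := by
        rw [MulAction.mem_stabilizer_iff, mul_smul]
        have hcd' : ι c • ω₀ = ι d • ω₀ := hcd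
        rw [hcd', inv_smul_smul]
      let w : ↥C := ⟨(d : G)⁻¹ * (c : G), mul_mem (inv_mem d.2) c.2⟩
      have hw : w ∈ MulAction.stabilizer ↥C ω₀ := h1
      rw [hC.2 ω₀, Subgroup.mem_bot] at hw
      have h2 : (d : G)⁻¹ * (c : G) = 1 := congrArg Subtype.val hw
      apply Subtype.ext
      have := mul_left_cancel (a := (d : G)⁻¹) (b := (c : G)) (c := (d : G)) (by rw [h2, inv_mul_cancel])
      exact this
    · intro y
      obtain ⟨c, hc⟩ := MulAction.exists_smul_eq ↥C ω₀ y
      exact ⟨c, hc⟩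
  have hcard : Fintype.card ↥C = Nat.card Ω := by
    rw [← Nat.card_eq_fintype_card]
    exact Nat.card_congr (Equiv.ofBijective _ hbij)
  -- two primes
  have hp : (Nat.minFac (Nat.card Ω)).Prime := Nat.minFac_prime (by omega)
  have hpd := Nat.minFac_dvd (Nat.card Ω)
  rw [isPrimePow_iff_unique_prime_dvd] at hnp
  have hex : ∃ q, q.Prime ∧ q ∣ Nat.card Ω ∧ q ≠ Nat.minFac (Nat.card Ω) := by
    by_contra hcon
    push Not at hcon
    apply hnp
    exact ⟨_, ⟨hp, hpd⟩, fun y hy => hcon y hy.1 hy.2⟩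
  obtain ⟨q, hq, hqd, hqp⟩ := hex
  have key : ∀ a b : Ω, a ≠ ω₀ → b ≠ ω₀ → ∃ k : G, k • ω₀ = ω₀ ∧ k • a = b := by
    intro a b ha hb
    exact main_abs ι ω₀ hbij hprim _ q hp hq hqp.symm (by rw [hcard]; exact hpd)
      (by rw [hcard]; exact hqd) a b ha hb
  rw [MulAction.isMultiplyPretransitive_iff]
  intro x y
  have hx01 : x 0 ≠ x 1 := fun h => by simpa using x.injective h
  have hy01 : y 0 ≠ y 1 := fun h => by simpa using y.injective h
  obtain ⟨g₁, hg₁⟩ := MulAction.exists_smul_eq G (x 0) ω₀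
  obtain ⟨g₂, hg₂⟩ := MulAction.exists_smul_eq G (y 0) ω₀
  have ha : g₁ • x 1 ≠ ω₀ := by
    intro h
    rw [← hg₁] at h
    exact hx01 (smul_left_cancel g₁ h).symm
  have hb : g₂ • y 1 ≠ ω₀ := by
    intro h
    rw [← hg₂] at h
    exact hy01 (smul_left_cancel g₂ h).symm
  obtain ⟨k, hk, hkab⟩ := key _ _ ha hb
  refine ⟨g₂⁻¹ * k * g₁, ?_⟩
  ext i
  rw [Function.Embedding.smul_apply]
  fin_cases i
  · show (g₂⁻¹ * k * g₁) • x 0 = y 0
    rw [mul_smul, mul_smul, hg₁, hk, inv_smul_eq_iff, hg₂]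
  · show (g₂⁻¹ * k * g₁) • x 1 = y 1
    rw [mul_smul, mul_smul, hkab, inv_smul_smul]

end Cfsg.Agent.S3559
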