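import Cfsg.Statements.S3560
import Mathlib

set_option autoImplicit false
open Cfsg

namespace Cfsg.Agent.S3560

section wreath

variable {ι X : Type*}

/-- Hamming adjacency. -/
def adj (x y : ι → X) : Prop := ∃ i, x i ≠ y i ∧ ∀ j, j ≠ i → x j = y j

/-- The automorphism group of the Hamming graph. -/
def isoGroup (ι X : Type*) : Subgroup (Equiv.Perm (ι → X)) where
  carrier := {g | ∀ x y, adj (g x) (g y) ↔ adj x y}
  mul_mem' := by
    intro a b ha hb x y
    show adj (a (b x)) (a (b y)) ↔ _
    rw [ha, hb]
  one_mem' := fun x y => Iff.rfl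
  inv_mem' := by
    intro a ha x y
    rw [← ha]
    simp

/-- Wreath product elements. -/
def wr (τ : Equiv.Perm ι) (π : ι → Equiv.Perm X) : Equiv.Perm (ι → X) where
  toFun x k := π k (x (τ k))
  invFun x j := (π (τ⁻¹ j))⁻¹ (x (τ⁻¹ j))
  left_inv x := by
    funext j
    simp
  right_inv x := by
    funext k
    simp

@[simp] lemma wr_apply (τ : Equiv.Perm ι) (π : ι → Equiv.Perm X) (x : ι → X) (k : ι) :
    wr τ π x k = π k (x (τ k)) := rfl

lemma wr_mem (τ : Equiv.Perm ι) (π : ι → Equiv.Perm X) : wr τ π ∈ isoGroup ι X := by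
  intro x y
  constructor
  · rintro ⟨k, hk, hk'⟩
    refine ⟨τ k, fun h => hk (by simp [h]), fun j hj => ?_⟩
    have h1 : τ⁻¹ j ≠ k := by
      rintro rfl
      exact hj (by simp)
    have h2 := hk' (τ⁻¹ j) h1
    simpa using h2
  · rintro ⟨i, hi, hi'⟩
    refine ⟨τ⁻¹ i, ?_, fun l hl => ?_⟩
    · simpa using hi
    · have h1 : τ l ≠ i := by
        rintro rfl
        exact hl (by simp)
      simp [hi' _ h1]

variable [Fintype ι]

theorem prim [DecidableEq ι] [DecidableEq X] [Fintype X] (hX : 3 ≤ Fintype.card X) :
    MulAction.IsPreprimitive (isoGroup ι X) (ι → X) := by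
  have htr : MulAction.IsPretransitive (isoGroup ι X) (ι → X) := by
    constructor
    intro x y
    refine ⟨⟨wr 1 (fun k => Equiv.swap (x k) (y k)), wr_mem _ _⟩, ?_⟩
    funext k
    show wr 1 (fun k => Equiv.swap (x k) (y k)) x k = y k
    simp
  refine { htr with isTrivialBlock_of_isBlock := ?_ }
  intro B hB
  by_contra hnt
  unfold MulAction.IsTrivialBlock at hnt
  push Not at hnt
  obtain ⟨⟨a, ha, b, hb, hab⟩, hB2⟩ := hnt
  obtain ⟨z, hz⟩ := (Set.ne_univ_iff_exists_notMem _).1 hB2
  -- the block property
  have hmove : ∀ g ∈ isoGroup ι X, ∀ u ∈ B, g u ∈ B → ∀ v ∈ B, g v ∈ B := by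
    intro g hg u hu hgu v hv
    have h1 := (MulAction.isBlock_iff_smul_eq_of_mem.1 hB) (g := ⟨g, hg⟩) hu hgu
    rw [← h1]
    exact Set.smul_mem_smul_set hv
  -- two permutation lemmas
  have hperm2 : ∀ a b c d : X, a ≠ b → c ≠ d → ∃ π : Equiv.Perm X, π a = c ∧ π b = d := by
    intro a b c d h1 h2
    have h := Equiv.Perm.isMultiplyPretransitive (α := X) 2
    exact MulAction.is_two_pretransitive_iff.1 h h1 h2
  have hthird : ∀ a b : X, ∃ w : X, w ≠ a ∧ w ≠ b := by
    intro a b
    obtain ⟨w, -, hw⟩ := Finset.exists_mem_notMem_of_card_lt_card (s := {a, b}) (t := Finset.univ)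
      (by
        have := Finset.card_le_two (a := a) (b := b)
        rw [Finset.card_univ]
        omega)
    simp only [Finset.mem_insert, Finset.mem_singleton, not_or] at hw
    exact ⟨w, hw.1, hw.2⟩
  -- Step 1
  obtain ⟨i0, hi0⟩ : ∃ i, a i ≠ b i := by
    by_contra hcon
    push Not at hcon
    exact hab (funext hcon)
  obtain ⟨w0, hw0a, hw0b⟩ := hthird (a i0) (b i0)
  have hq : Function.update b i0 w0 ∈ B := by
    let π : ι → Equiv.Perm X := fun k => if k = i0 then Equiv.swap (b i0) w0 else 1
    have h1 : wr 1 π a = a := by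
      funext k
      show π k (a k) = a k
      by_cases hk : k = i0
      · subst hk
        simp only [π, if_true]
        exact Equiv.swap_apply_of_ne_of_ne hi0 hw0a.symm
      · simp [π, hk]
    have h2 : wr 1 π b = Function.update b i0 w0 := by
      funext k
      show π k (b k) = _
      by_cases hk : k = i0
      · subst hk
        simp [π]
      · simp [π, hk]
    rw [← h2]
    exact hmove _ (wr_mem 1 π) a ha (by rw [h1]; exact ha) b hb
  -- Step 2
  have hdir : ∀ p ∈ B, ∀ i w, w ≠ p i → Function.update p i w ∈ B →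
      ∀ i' w', w' ≠ p i' → Function.update p i' w' ∈ B := by
    intro p hp i w hw hq i' w' hw'
    obtain ⟨π0, hπ1, hπ2⟩ := hperm2 (p i) w (p i') w' hw.symm hw'.symm
    let τ : Equiv.Perm ι := Equiv.swap i i'
    let π : ι → Equiv.Perm X := fun k => if k = i' then π0 else Equiv.swap (p (τ k)) (p k)
    have hτi' : τ i' = i := Equiv.swap_apply_right i i'
    have h1 : wr τ π p = p := by
      funext k
      show π k (p (τ k)) = p k
      by_cases hk : k = i'
      · subst hk
        simp only [π, if_true, hτi']
        exact hπ1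
      · simp [π, hk]
    have h2 : wr τ π (Function.update p i w) = Function.update p i' w' := by
      funext k
      show π k (Function.update p i w (τ k)) = _
      by_cases hk : k = i'
      · subst hk
        simp only [π, if_true, hτi', Function.update_self]
        exact hπ2
      · have h3 : τ k ≠ i := by
          intro h
          apply hk
          apply τ.injective
          rw [h, hτi']
        simp [π, hk, Function.update_of_ne h3]
    rw [← h2]
    exact hmove _ (wr_mem τ π) p hp (by rw [h1]; exact hp) _ hq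
  -- Step 3
  have hall : ∀ c ∈ B, ∀ i' w', w' ≠ c i' → Function.update c i' w' ∈ B := by
    intro c hc i' w' hw'
    let π : ι → Equiv.Perm X := fun k => Equiv.swap (b k) (c k)
    have h1 : wr 1 π b = c := by
      funext k
      show π k (b k) = c k
      simp [π]
    have h2 : wr 1 π (Function.update b i0 w0) = Function.update c i0 (π i0 w0) := by
      funext k
      show π k (Function.update b i0 w0 k) = _
      by_cases hk : k = i0
      · subst hk
        simp
      · simp [π, hk]
    have h3 : Function.update c i0 (π i0 w0) ∈ B := by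
      rw [← h2]
      exact hmove _ (wr_mem 1 π) b hb (by rw [h1]; exact hc) _ hq
    have h4 : π i0 w0 ≠ c i0 := by
      intro h
      have h5 : π i0 (b i0) = c i0 := by simp [π]
      rw [← h5] at h
      exact hw0b ((π i0).injective h)
    exact hdir c hc i0 _ h4 h3 i' w' hw'
  -- Step 4
  have hfinal : ∀ S : Finset ι, (fun k => if k ∈ S then z k else a k) ∈ B := by
    intro S
    induction S using Finset.induction_on with
    | empty => simpa using ha
    | insert i S hi ih =>
      have h1 : (fun k => if k ∈ insert i S then z k else a k)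
          = Function.update (fun k => if k ∈ S then z k else a k) i (z i) := by
        funext k
        by_cases hk : k = i
        · subst hk
          simp
        · simp [hk]
      by_cases h2 : z i = (fun k => if k ∈ S then z k else a k) i
      · rw [h1]
        have h3 : Function.update (fun k => if k ∈ S then z k else a k) i (z i)
            = (fun k => if k ∈ S then z k else a k) := by
          funext k
          by_cases hk : k = i
          · subst hk
            simpa using h2
          · simp [hk]
        rw [h3]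
        exact ih
      · rw [h1]
        exact hall _ ih i (z i) h2
  have := hfinal Finset.univ
  simp only [Finset.mem_univ, if_true] at this
  exact hz this

theorem not_two [DecidableEq ι] {i j : ι} (hij : i ≠ j) {c₀ c₁ : X} (hc : c₀ ≠ c₁) :
    ¬ MulAction.IsMultiplyPretransitive (isoGroup ι X) (ι → X) 2 := by
  intro h
  let x : ι → X := fun _ => c₀
  let y : ι → X := Function.update x i c₁
  let z : ι → X := Function.update y j c₁
  have hxy : x ≠ y := by
    intro h1
    have := congrFun h1 i
    simp [y, x] at this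
    exact hc this
  have hxz : x ≠ z := by
    intro h1
    have := congrFun h1 j
    simp [z] at this
    exact hc this
  obtain ⟨g, hg1, hg2⟩ := MulAction.is_two_pretransitive_iff.1 h hxy hxz
  have hadj : adj x y := by
    refine ⟨i, ?_, fun l hl => ?_⟩
    · simpa [y, x] using hc
    · simp [y, x, hl]
  have hnadj : ¬ adj x z := by
    rintro ⟨l, hl1, hl2⟩
    have h1 : l = i := by
      by_contra hne
      have := hl2 i (Ne.symm hne)
      simp [z, y, x, hij, hc] at this
    have h2 : l = j := by
      by_contra hne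
      have := hl2 j (Ne.symm hne)
      simp [z, x, hc] at this
    exact hij (h1.symm.trans h2)
  apply hnadj
  have h3 : adj ((g : Equiv.Perm (ι → X)) x) ((g : Equiv.Perm (ι → X)) y) ↔ adj x y := g.2 x y
  have e1 : (g : Equiv.Perm (ι → X)) x = x := hg1
  have e2 : (g : Equiv.Perm (ι → X)) y = z := hg2
  rw [e1, e2] at h3
  exact h3.2 hadj

end wreath

section transport

variable {Ω Ω' : Type*} (e : Ω ≃ Ω')

lemma prim_transport (G : Subgroup (Equiv.Perm Ω)) (h : MulAction.IsPreprimitive G Ω) :
    MulAction.IsPreprimitive (G.map e.permCongrHom.toMonoidHom) Ω' := by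
  let φ : G →* G.map e.permCongrHom.toMonoidHom := e.permCongrHom.toMonoidHom.subgroupMap G
  let f : Ω →ₑ[φ] Ω' :=
    { toFun := e
      map_smul' := fun g x => by
        show e (g.1 x) = e.permCongr g.1 (e x)
        simp [Equiv.permCongr_apply] }
  exact MulAction.IsPreprimitive.of_surjective (f := f) e.surjective

lemma not_two_transport (G : Subgroup (Equiv.Perm Ω))
    (h : ¬ MulAction.IsMultiplyPretransitive G Ω 2) :
    ¬ MulAction.IsMultiplyPretransitive (G.map e.permCongrHom.toMonoidHom) Ω' 2 := by
  intro h'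
  apply h
  rw [MulAction.is_two_pretransitive_iff] at h' ⊢
  intro a b c d hab hcd
  obtain ⟨⟨g, g', hg', rfl⟩, h1, h2⟩ := h' (a := e a) (b := e b) (c := e c) (d := e d)
    (fun h => hab (e.injective h)) (fun h => hcd (e.injective h))
  refine ⟨⟨g', hg'⟩, e.injective ?_, e.injective ?_⟩
  · rw [← h1]
    show e (g' a) = e.permCongr g' (e a)
    simp [Equiv.permCongr_apply]
  · rw [← h2]
    show e (g' b) = e.permCongr g' (e b)
    simp [Equiv.permCongr_apply]

end transport

/-- Let K be a finite group isomorphic to a direct product of r ≥ 2 groups all of the same order m ≥ 3. Then K is not a B-group: there is a primitive but not doubly transitive permutation group (on some finite set) containing a regular subgroup isomorphic to K. -/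
theorem result {K : Type*} [Group K] [Finite K] {ι : Type*} [Fintype ι] (F : ι → Type*) [∀ i, Group (F i)]
    (hr : 2 ≤ Fintype.card ι) (m : ℕ) (hm : 3 ≤ m) (hcard : ∀ i, Nat.card (F i) = m) (e : K ≃* (∀ i, F i)) :
    ∃ (n : ℕ) (G R : Subgroup (Equiv.Perm (Fin n))), R ≤ G ∧ Nonempty (↥R ≃* K) ∧
      MulAction.IsPretransitive ↥R (Fin n) ∧ (∀ a : Fin n, MulAction.stabilizer ↥R a = ⊥) ∧
      MulAction.IsPreprimitive ↥G (Fin n) ∧ ¬ MulAction.IsMultiplyPretransitive ↥G (Fin n) 2 := by
  classical
  have hF : ∀ i, Finite (F i) := fun i =>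
    Nat.finite_of_card_ne_zero (by rw [hcard i]; omega)
  have hσ : ∀ i, Nonempty (F i ≃ Fin m) := fun i => by
    haveI := hF i
    exact ⟨Finite.equivFinOfCardEq (hcard i)⟩
  let σ : ∀ i, F i ≃ Fin m := fun i => (hσ i).some
  let act : K → (ι → Fin m) → (ι → Fin m) := fun k x i => σ i (e k i * (σ i).symm (x i))
  have act_mul : ∀ k l x, act (k * l) x = act k (act l x) := by
    intro k l x
    funext i
    simp [act, map_mul, mul_assoc]
  have act_one : ∀ x, act 1 x = x := by
    intro x
    funext i
    simp [act, map_one]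
  let ρ : K →* Equiv.Perm (ι → Fin m) :=
    MonoidHom.mk' (fun k => 
      { toFun := act k
        invFun := act k⁻¹
        left_inv := fun x => by rw [← act_mul, inv_mul_cancel, act_one]
        right_inv := fun x => by rw [← act_mul, mul_inv_cancel, act_one] })
      (by
        intro a b
        ext x i
        simp only [Equiv.coe_fn_mk, Equiv.Perm.coe_mul, Function.comp_apply]
        rw [act_mul])
  have ρ_apply : ∀ k x i, ρ k x i = σ i (e k i * (σ i).symm (x i)) := fun k x i => rfl
  have ρ_inj : Function.Injective ρ := by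
    rw [injective_iff_map_eq_one]
    intro k hk
    apply e.injective
    funext i
    rw [map_one]
    obtain ⟨c⟩ : Nonempty (Fin m) := ⟨⟨0, by omega⟩⟩
    have h1 := congrFun (congrArg (fun g : Equiv.Perm (ι → Fin m) => g (fun _ => c)) hk) i
    simp only [Equiv.Perm.coe_one, id_eq] at h1
    rw [ρ_apply] at h1
    have h2 : e k i * (σ i).symm c = (σ i).symm c := by
      apply (σ i).injective
      simpa using h1
    exact mul_eq_right.1 h2
  have ρ_le : ρ.range ≤ isoGroup ι (Fin m) := by
    rintro _ ⟨k, rfl⟩
    have key : ρ k = wr 1 (fun i => 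
      { toFun := fun c => σ i (e k i * (σ i).symm c)
        invFun := fun c => σ i ((e k i)⁻¹ * (σ i).symm c)
        left_inv := fun c => by simp
        right_inv := fun c => by simp }) := by
      ext x i
      rw [ρ_apply]
      rfl
    rw [key]
    exact wr_mem _ _
  let R0 : Subgroup (Equiv.Perm (ι → Fin m)) := ρ.range
  have hR0iso : R0 ≃* K := (MonoidHom.ofInjective ρ_inj).symm
  have htrans : ∀ x y : ι → Fin m, ∃ k, ρ k x = y := by
    intro x y
    refine ⟨e.symm (fun i => (σ i).symm (y i) * ((σ i).symm (x i))⁻¹), ?_⟩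
    funext i
    rw [ρ_apply]
    simp
  have hfree : ∀ k x, ρ k x = x → k = 1 := by
    intro k x hk
    apply e.injective
    funext i
    rw [map_one]
    have h1 := congrFun hk i
    rw [ρ_apply] at h1
    have h2 : e k i * (σ i).symm (x i) = (σ i).symm (x i) := by
      apply (σ i).injective
      simpa using h1
    exact mul_eq_right.1 h2
  let e0 : (ι → Fin m) ≃ Fin (Fintype.card (ι → Fin m)) := Fintype.equivFin _
  let Φ : Equiv.Perm (ι → Fin m) →* Equiv.Perm (Fin (Fintype.card (ι → Fin m))) :=
    e0.permCongrHom.toMonoidHom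
  have Φ_inj : Function.Injective Φ := e0.permCongrHom.injective
  have Φ_apply : ∀ g x, Φ g (e0 x) = e0 (g x) := by
    intro g x
    show e0.permCongr g (e0 x) = _
    simp [Equiv.permCongr_apply]
  refine ⟨Fintype.card (ι → Fin m), (isoGroup ι (Fin m)).map Φ, R0.map Φ,
    Subgroup.map_mono ρ_le, ?_, ?_, ?_, ?_, ?_⟩
  · exact ⟨(R0.equivMapOfInjective Φ Φ_inj).symm.trans hR0iso⟩
  · constructor
    intro a b
    obtain ⟨x, rfl⟩ := e0.surjective a
    obtain ⟨y, rfl⟩ := e0.surjective b
    obtain ⟨k, hk⟩ := htrans x y
    refine ⟨⟨Φ (ρ k), ⟨ρ k, ⟨k, rfl⟩, rfl⟩⟩, ?_⟩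
    show Φ (ρ k) (e0 x) = e0 y
    rw [Φ_apply, hk]
  · intro a
    obtain ⟨x, rfl⟩ := e0.surjective a
    rw [eq_bot_iff]
    rintro ⟨g, g0, ⟨k, rfl⟩, rfl⟩ hg
    rw [Subgroup.mem_bot]
    have h1 : Φ (ρ k) (e0 x) = e0 x := hg
    rw [Φ_apply] at h1
    have h2 := hfree k x (e0.injective h1)
    subst h2
    ext
    simp
  · have hX : 3 ≤ Fintype.card (Fin m) := by simpa using hm
    exact prim_transport e0 _ (prim hX)
  · obtain ⟨i, j, hij⟩ := Fintype.exists_pair_of_one_lt_card (α := ι) (by omega)
    have hc : (⟨0, by omega⟩ : Fin m) ≠ ⟨1, by omega⟩ := by simp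
    exact not_two_transport e0 _ (not_two hij hc)

end Cfsg.Agent.S3560
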