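import Cfsg.Statements.S3573
import Mathlib

set_option autoImplicit false
open Cfsg

namespace Cfsg.Agent.S3573

section aux

variable {X : Type*} [Fintype X] [DecidableEq X]

lemma mod_fix (τ : Equiv.Perm X) (r : ℕ) [hr : Fact r.Prime] (hτ : τ ^ r = 1) (s : Finset X)
    (hs : ∀ x ∈ s, τ x ∈ s) : s.card ≡ (s.filter (fun x => τ x = x)).card [MOD r] := by
  let f : Function.End s := fun x => ⟨τ x, hs x x.2⟩
  have hf : ∀ j : ℕ, ∀ x : s, (((f ^ j) x : s) : X) = (τ ^ j) x := by
    intro j
    induction j with
    | zero => intro x; rfl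
    | succ j ih =>
      intro x
      rw [pow_succ', pow_succ']
      show τ (((f ^ j) x : s) : X) = _
      rw [ih]
      rfl
  have hf1 : f ^ r ^ 1 = 1 := by
    rw [pow_one]
    funext x
    apply Subtype.ext
    rw [hf, hτ]
    rfl
  have h := Equiv.Perm.card_fixedPoints_modEq hf1
  rw [Fintype.card_coe] at h
  refine h.trans ?_
  rw [show Fintype.card f.fixedPoints = (s.filter (fun x => τ x = x)).card from ?_]
  have e : f.fixedPoints ≃ ↥(s.filter (fun x => τ x = x)) :=
    { toFun := fun x => ⟨x.1.1, Finset.mem_filter.2 ⟨x.1.2, congrArg Subtype.val x.2⟩⟩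
      invFun := fun x => ⟨⟨x.1, (Finset.mem_filter.1 x.2).1⟩, Subtype.ext (Finset.mem_filter.1 x.2).2⟩
      left_inv := fun x => rfl
      right_inv := fun x => rfl }
  rw [Fintype.card_congr e, Fintype.card_coe]

lemma pow_mem_of_inv (σ : Equiv.Perm X) (T : Finset X) (hT : ∀ x ∈ T, σ x ∈ T) (j : ℕ) :
    ∀ x ∈ T, (σ ^ j) x ∈ T := by
  induction j with
  | zero => intro x hx; simpa using hx
  | succ j ih =>
    intro x hx
    rw [pow_succ']
    exact hT _ (ih x hx)

lemma inv_sub (σ : Equiv.Perm X) (r : ℕ) (hr : r.Prime) (hσ : σ ^ r = 1)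
    (M : Finset X) (hM : ∀ x, x ∈ M ↔ σ x ≠ x) :
    ∀ a : ℕ, a * r ≤ M.card → ∃ T : Finset X, T ⊆ M ∧ (∀ x ∈ T, σ x ∈ T) ∧ T.card = a * r := by
  intro a
  induction a with
  | zero => intro _; exact ⟨∅, by simp, by simp, by simp⟩
  | succ a ih =>
    intro h
    obtain ⟨T, hTM, hTinv, hTc⟩ := ih (by nlinarith)
    have hne : T ≠ M := by
      rintro rfl
      rw [hTc] at h
      nlinarith [hr.pos]
    obtain ⟨x, hxM, hxT⟩ : ∃ x ∈ M, x ∉ T := by
      by_contra hcon
      push Not at hcon
      exact hne (Finset.Subset.antisymm hTM hcon)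
    have hxσ : σ x ≠ x := (hM x).1 hxM
    -- the orbit
    let O : Finset X := (Finset.range r).image (fun i => (σ ^ i) x)
    have hinj : Set.InjOn (fun i => (σ ^ i) x) (Finset.range r : Set ℕ) := by
      intro i hi j hj hij
      simp only [Finset.coe_range, Set.mem_Iio] at hi hj
      have key : ∀ i j : ℕ, i < j → j < r → (σ ^ i) x = (σ ^ j) x → False := by
        intro i j hlt hj hij
        have hd : (σ ^ (j - i)) x = x := by
          have h1 : (σ ^ i) ((σ ^ (j - i)) x) = (σ ^ i) x := by
            rw [← Equiv.Perm.mul_apply, ← pow_add, show i + (j - i) = j by omega]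
            exact hij.symm
          exact (σ ^ i).injective h1
        have hcop : Nat.Coprime (j - i) r := by
          rw [Nat.coprime_comm]
          exact (Nat.coprime_of_lt_prime (by omega) (by omega) hr)
        obtain ⟨m, -, hm⟩ := Nat.exists_mul_mod_eq_one_of_coprime hcop hr.one_lt
        have h2 : (σ ^ ((j - i) * m)) x = x := by
          rw [pow_mul]
          exact Equiv.Perm.pow_apply_eq_self_of_apply_eq_self hd m
        have h3 : σ ^ ((j - i) * m) = σ := by
          rw [pow_eq_pow_mod _ hσ, hm, pow_one]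
        rw [h3] at h2
        exact hxσ h2
      rcases lt_trichotomy i j with h1 | h1 | h1
      · exact (key i j h1 hj hij).elim
      · exact h1
      · exact (key j i h1 hi hij.symm).elim
    have hOcard : O.card = r := by
      rw [Finset.card_image_of_injOn hinj, Finset.card_range]
    have hOinv : ∀ y ∈ O, σ y ∈ O := by
      intro y hy
      obtain ⟨i, hi, rfl⟩ := Finset.mem_image.1 hy
      rw [Finset.mem_range] at hi
      rcases Nat.lt_or_ge (i + 1) r with h1 | h1
      · refine Finset.mem_image.2 ⟨i + 1, Finset.mem_range.2 h1, ?_⟩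
        rw [pow_succ']
        rfl
      · have h2 : i + 1 = r := by omega
        refine Finset.mem_image.2 ⟨0, Finset.mem_range.2 hr.pos, ?_⟩
        show (σ ^ 0) x = σ ((σ ^ i) x)
        rw [← Equiv.Perm.mul_apply, ← pow_succ', h2, hσ]
        rfl
    have hOM : O ⊆ M := by
      intro y hy
      obtain ⟨i, hi, rfl⟩ := Finset.mem_image.1 hy
      rw [hM]
      intro hc
      apply hxσ
      apply (σ ^ i).injective
      rw [← Equiv.Perm.mul_apply, ← pow_succ, pow_succ', Equiv.Perm.mul_apply]
      exact hc
    have hdisj : Disjoint T O := by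
      rw [Finset.disjoint_left]
      intro y hyT hyO
      obtain ⟨i, hi, rfl⟩ := Finset.mem_image.1 hyO
      rw [Finset.mem_range] at hi
      apply hxT
      have := pow_mem_of_inv σ T hTinv (r - i) _ hyT
      rwa [← Equiv.Perm.mul_apply, ← pow_add, show r - i + i = r by omega, hσ] at this
    refine ⟨T ∪ O, Finset.union_subset hTM hOM, ?_, ?_⟩
    · intro y hy
      rcases Finset.mem_union.1 hy with h1 | h1
      · exact Finset.mem_union_left _ (hTinv y h1)
      · exact Finset.mem_union_right _ (hOinv y h1)
    · rw [Finset.card_union_of_disjoint hdisj, hTc, hOcard]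
      ring

/-- Sufficiency. -/
lemma exists_inv (σ : Equiv.Perm X) (r k : ℕ) (hr : r.Prime) (hσ : σ ^ r = 1)
    (hkn : k ≤ Fintype.card X) (hmod : k % r ≤ Fintype.card X % r) :
    ∃ s : Finset X, s.card = k ∧ s.image σ = s := by
  have hfact : Fact r.Prime := ⟨hr⟩
  let Fx : Finset X := Finset.univ.filter (fun x => σ x = x)
  let M : Finset X := Finset.univ.filter (fun x => σ x ≠ x)
  have hMmem : ∀ x, x ∈ M ↔ σ x ≠ x := fun x => by simp [M]
  have hFmem : ∀ x, x ∈ Fx ↔ σ x = x := fun x => by simp [Fx]
  have hsum : M.card + Fx.card = Fintype.card X := by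
    have := Finset.card_filter_add_card_filter_not (s := (Finset.univ : Finset X)) (fun x => σ x ≠ x)
    simp only [not_not] at this
    rw [Finset.card_univ] at this
    exact this
  have hmodn : Fintype.card X ≡ Fx.card [MOD r] := by
    have := mod_fix σ r hσ Finset.univ (fun _ _ => Finset.mem_univ _)
    rwa [Finset.card_univ] at this
  have hdvd : r ∣ M.card := by
    have h1 : M.card + Fx.card ≡ 0 + Fx.card [MOD r] := by
      rw [hsum, zero_add]; exact hmodn
    have h2 := Nat.ModEq.add_right_cancel' _ h1
    exact (Nat.modEq_zero_iff_dvd).1 h2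
  obtain ⟨c, hc⟩ := hdvd
  have hf : Fintype.card X % r ≤ Fx.card := by
    rw [hmodn]
    exact Nat.mod_le _ _
  set a := min c (k / r) with ha
  have har : a * r ≤ M.card := by
    rw [hc, mul_comm]
    exact Nat.mul_le_mul_left _ (min_le_left _ _)
  obtain ⟨T, hTM, hTinv, hTc⟩ := inv_sub σ r hr hσ M hMmem a har
  have hak : a * r ≤ k := by
    calc a * r ≤ (k / r) * r := Nat.mul_le_mul_right _ (min_le_right _ _)
      _ ≤ k := Nat.div_mul_le_self k r
  have hb : k - a * r ≤ Fx.card := by
    rcases le_total c (k / r) with h | h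
    · have : a = c := min_eq_left h
      rw [this]
      have : c * r = M.card := by rw [hc, mul_comm]
      omega
    · have h1 : a = k / r := min_eq_right h
      rw [h1]
      have h2 : k - k / r * r = k % r := by
        have := Nat.div_add_mod' k r
        omega
      rw [h2]
      omega
  obtain ⟨B, hBF, hBc⟩ := Finset.exists_subset_card_eq hb
  have hdisj : Disjoint T B := by
    rw [Finset.disjoint_left]
    intro y hyT hyB
    exact (hMmem y).1 (hTM hyT) ((hFmem y).1 (hBF hyB))
  have hcard : (T ∪ B).card = k := by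
    rw [Finset.card_union_of_disjoint hdisj, hTc, hBc]
    omega
  refine ⟨T ∪ B, hcard, ?_⟩
  apply Finset.eq_of_subset_of_card_le
  · intro y hy
    obtain ⟨z, hz, rfl⟩ := Finset.mem_image.1 hy
    rcases Finset.mem_union.1 hz with h1 | h1
    · exact Finset.mem_union_left _ (hTinv z h1)
    · rw [(hFmem z).1 (hBF h1)]
      exact Finset.mem_union_right _ h1
  · rw [Finset.card_image_of_injective _ σ.injective]

/-- Necessity. -/
lemma mod_le_of_inv (σ : Equiv.Perm X) (r k : ℕ) (hr : r.Prime) (hσ : σ ^ r = 1)
    (hfix : (Finset.univ.filter (fun x => σ x = x)).card < r)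
    (s : Finset X) (hs : s.card = k) (hinv : s.image σ = s) :
    k % r ≤ (Finset.univ.filter (fun x => σ x = x)).card := by
  have hfact : Fact r.Prime := ⟨hr⟩
  have h1 := mod_fix σ r hσ s (fun x hx => by
    rw [← hinv]; exact Finset.mem_image_of_mem σ hx)
  have h2 : (s.filter (fun x => σ x = x)).card ≤ (Finset.univ.filter (fun x => σ x = x)).card := by
    apply Finset.card_le_card
    intro x hx
    exact Finset.mem_filter.2 ⟨Finset.mem_univ _, (Finset.mem_filter.1 hx).2⟩
  rw [← hs, h1, Nat.mod_eq_of_lt (lt_of_le_of_lt h2 hfix)]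
  exact h2

end aux

/-- The extremal element. -/
lemma exists_extremal (n r : ℕ) (hr : r.Prime) (hrn : r ≤ n) :
    ∃ σ : Equiv.Perm (Fin n), orderOf σ = r ∧
      (Finset.univ.filter (fun x => σ x = x)).card = n % r := by
  classical
  have hfact : Fact r.Prime := ⟨hr⟩
  set q := n / r with hq
  have hqpos : 0 < q := Nat.div_pos hrn hr.pos
  let Y := (Fin q × ZMod r) ⊕ Fin (n % r)
  have hcardY : Fintype.card Y = n := by
    simp only [Y, Fintype.card_sum, Fintype.card_prod, Fintype.card_fin, ZMod.card]
    exact Nat.div_add_mod' n r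
  let e : Y ≃ Fin n := Fintype.equivFinOfCardEq hcardY
  let σ₀ : Equiv.Perm Y := Equiv.sumCongr (Equiv.prodCongr (Equiv.refl _) (Equiv.addRight 1)) (Equiv.refl _)
  have hs1 : ∀ (i : Fin q) (z : ZMod r), σ₀ (Sum.inl (i, z)) = Sum.inl (i, z + 1) := fun _ _ => rfl
  have hs2 : ∀ (y : Fin (n % r)), σ₀ (Sum.inr y) = Sum.inr y := fun _ => rfl
  have hσ₀pow : ∀ (j : ℕ) (i : Fin q) (z : ZMod r), (σ₀ ^ j) (Sum.inl (i, z)) = Sum.inl (i, z + j) := by
    intro j i z
    induction j with
    | zero => simp
    | succ j ih =>
      rw [pow_succ', Equiv.Perm.mul_apply, ih, hs1]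
      simp [add_assoc]
  have hσ₀pow' : ∀ (j : ℕ) (y : Fin (n % r)), (σ₀ ^ j) (Sum.inr y) = Sum.inr y := by
    intro j y
    induction j with
    | zero => simp
    | succ j ih =>
      rw [pow_succ', Equiv.Perm.mul_apply, ih, hs2]
  have h1 : σ₀ ^ r = 1 := by
    ext y
    rcases y with ⟨i, z⟩ | y
    · rw [hσ₀pow]; simp
    · rw [hσ₀pow']; simp
  have h2 : σ₀ ≠ 1 := by
    intro h
    have := congrArg (fun f => f (Sum.inl ((⟨0, hqpos⟩ : Fin q), (0 : ZMod r)))) h
    simp only [hs1] at this
    have h7 := congrArg Prod.snd (Sum.inl.inj this)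
    exact one_ne_zero (α := ZMod r) (by simpa using h7)
  have h3 : orderOf σ₀ = r := orderOf_eq_prime h1 h2
  refine ⟨e.permCongr σ₀, ?_, ?_⟩
  · have := (Equiv.permCongrHom e).orderOf_eq σ₀
    rw [← h3, ← this]
    rfl
  · have h4 : (Finset.univ.filter (fun x => e.permCongr σ₀ x = x)).card
        = (Finset.univ.filter (fun y => σ₀ y = y)).card := by
      symm
      apply Finset.card_bij (fun y _ => e y)
      · intro y hy
        simp only [Finset.mem_filter, Finset.mem_univ, true_and] at hy ⊢
        simp [Equiv.permCongr_apply, hy]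
      · intro a _ b _ hab
        exact e.injective hab
      · intro x hx
        refine ⟨e.symm x, ?_, by simp⟩
        simp only [Finset.mem_filter, Finset.mem_univ, true_and] at hx ⊢
        rw [Equiv.permCongr_apply] at hx
        have := congrArg e.symm hx
        simpa using this
    rw [h4]
    have h5 : Finset.univ.filter (fun y => σ₀ y = y)
        = (Finset.univ : Finset (Fin (n % r))).map Function.Embedding.inr := by
      ext y
      rcases y with ⟨i, z⟩ | y
      · simp only [Finset.mem_filter, Finset.mem_univ, true_and, Finset.mem_map, hs1]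
        constructor
        · intro h
          have h7 := congrArg Prod.snd (Sum.inl.inj h)
          have h8 : z + 1 = z := h7
          exact absurd h8 (by simp)
        · rintro ⟨a, ha⟩
          cases ha
      · simp only [Finset.mem_filter, Finset.mem_univ, true_and, Finset.mem_map, hs2]
        constructor
        · intro _
          exact ⟨y, rfl⟩
        · intro _
          trivial
    rw [h5]
    simp

/-- Let 1 ≤ k with 2k < n and consider the symmetric group of degree n acting on the k-subsets of an n-set. Let r be a prime dividing the number C(n,k) of k-subsets. If r is odd, then every permutation of order r fixes some k-subset if and only if r ≤ k and the remainder of k modulo r is at most the remainder of n modulo r. If r = 2, then every involution fixes some k-subset if and only if k is even or n is odd. -/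
theorem result (n k : ℕ) (hk : 1 ≤ k) (hkn : 2 * k < n) (r : ℕ) (hr : r.Prime) (hrd : r ∣ Nat.choose n k) :
    (r ≠ 2 → ((∀ σ : Equiv.Perm (Fin n), orderOf σ = r → ∃ s : Finset (Fin n), s.card = k ∧ s.image σ = s) ↔
      (r ≤ k ∧ k % r ≤ n % r))) ∧
    (r = 2 → ((∀ σ : Equiv.Perm (Fin n), orderOf σ = 2 → ∃ s : Finset (Fin n), s.card = k ∧ s.image σ = s) ↔
      (Even k ∨ Odd n))) := by
  classical
  have hrn : r ≤ n := by
    have h1 : r ∣ n.factorial := by
      rw [← Nat.choose_mul_factorial_mul_factorial (show k ≤ n by omega), mul_assoc]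
      exact Dvd.dvd.mul_right hrd _
    exact (Nat.Prime.dvd_factorial hr).1 h1
  have key : (∀ σ : Equiv.Perm (Fin n), orderOf σ = r → ∃ s : Finset (Fin n), s.card = k ∧ s.image σ = s) ↔
      k % r ≤ n % r := by
    constructor
    · intro h
      obtain ⟨σ, hσ1, hσ2⟩ := exists_extremal n r hr hrn
      obtain ⟨s, hs1, hs2⟩ := h σ hσ1
      have h3 := mod_le_of_inv σ r k hr (by rw [← hσ1]; exact pow_orderOf_eq_one σ)
        (by rw [hσ2]; exact Nat.mod_lt _ hr.pos) s hs1 hs2
      rwa [hσ2] at h3
    · intro h σ hσ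
      exact exists_inv σ r k hr (by rw [← hσ]; exact pow_orderOf_eq_one σ) (by simp; omega) (by simpa using h)
  constructor
  · intro _
    rw [key]
    constructor
    · intro h
      refine ⟨?_, h⟩
      by_contra hlt
      push Not at hlt
      have hfact : Fact r.Prime := ⟨hr⟩
      have hlucas := Choose.choose_modEq_choose_mod_mul_choose_div_nat (n := n) (k := k) (p := r)
      have hkmod : k % r = k := Nat.mod_eq_of_lt hlt
      have hkdiv : k / r = 0 := Nat.div_eq_of_lt hlt
      rw [hkmod, hkdiv, Nat.choose_zero_right, mul_one] at hlucas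
      have h2 : r ∣ Nat.choose (n % r) k := by
        have := (Nat.modEq_zero_iff_dvd.2 hrd)
        exact Nat.modEq_zero_iff_dvd.1 (hlucas.symm.trans this)
      rw [hkmod] at h
      have h3 : r ∣ (n % r).factorial := by
        rw [← Nat.choose_mul_factorial_mul_factorial h, mul_assoc]
        exact Dvd.dvd.mul_right h2 _
      have h4 := (Nat.Prime.dvd_factorial hr).1 h3
      have h5 := Nat.mod_lt n hr.pos
      omega
    · exact fun h => h.2
  · rintro rfl
    rw [key, Nat.even_iff, Nat.odd_iff]
    omega

end Cfsg.Agent.S3573
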