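import Cfsg.Statements.S3575
import Cfsg.Agent.S3573
import Mathlib

set_option autoImplicit false
open Cfsg

namespace Cfsg.Agent.S3575

/-- The covering condition on the number `s` of `r`-cycles. -/
def Cover (a b r s : ℕ) : Prop :=
  ∃ t, r * t ≤ b ∧ t * a ≤ s ∧ s ≤ t * a + (b - r * t) * (a / r)

lemma cover_eval (a b r t q ℓ b' : ℕ) (ha : a = r * q + ℓ) (hb' : b = b' + r * t) :
    t * a + (b - r * t) * q = b * q + t * ℓ := by
  have : b - r * t = b' := by omega
  rw [this, hb', ha]; ring

lemma arith (a b r : ℕ) (ha : 2 ≤ a) (hb : 2 ≤ b) (hr : r.Prime) (hrab : r ≤ a * b) :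
    (∀ s, 1 ≤ s → r * s ≤ a * b → Cover a b r s) ↔
      (r ≤ a ∧ (a % r = 0 ∨ (b % r = 0 ∧ a % r = 1) ∨
        (a % r ≠ 0 ∧ b % r ≠ 0 ∧ (b % r) * (a % r) < r ∧
          (b < r ∨ (b % r + r) * (a % r) ≤ (b % r) * a + r)))) := by
  have hrpos := hr.pos
  set q := a / r with hq
  set ℓ := a % r with hℓ
  set B := b / r with hB
  set k := b % r with hk
  have haeq : a = r * q + ℓ := (Nat.div_add_mod a r).symm
  have hbeq : b = r * B + k := (Nat.div_add_mod b r).symm
  have hℓlt : ℓ < r := Nat.mod_lt _ hrpos
  have hklt : k < r := Nat.mod_lt _ hrpos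
  have hab : a * b = r * (B * a + k * q) + k * ℓ := by
    calc a * b = a * (r * B + k) := by rw [← hbeq]
      _ = r * (B * a) + k * a := by ring
      _ = r * (B * a) + k * (r * q + ℓ) := by rw [← haeq]
      _ = _ := by ring
  have htop : ∀ t, r * t ≤ b → t ≤ B := by
    intro t ht
    exact (Nat.le_div_iff_mul_le hrpos).2 (by rw [mul_comm]; exact ht)
  constructor
  · intro hcov
    have hra : r ≤ a := by
      obtain ⟨t, h1, h2, h3⟩ := hcov 1 le_rfl (by omega)
      have ht : t = 0 := by
        by_contra h
        have : 1 ≤ t := Nat.one_le_iff_ne_zero.2 h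
        nlinarith
      subst ht
      by_contra hlt
      push Not at hlt
      have : a / r = 0 := Nat.div_eq_of_lt hlt
      rw [this] at h3
      simp at h3
    have hkℓ : k * ℓ < r := by
      by_contra hlt
      push Not at hlt
      obtain ⟨t, h1, h2, h3⟩ := hcov (B * a + k * q + 1) (by omega) (by rw [hab]; nlinarith)
      have htB := htop t h1
      obtain ⟨b', hb'⟩ : ∃ b', b = b' + r * t := ⟨b - r * t, by omega⟩
      rw [cover_eval a b r t q ℓ b' haeq hb'] at h3
      have h4 : t * ℓ ≤ B * ℓ := Nat.mul_le_mul_right _ htB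
      have h5 : b * q + B * ℓ = B * a + k * q := by
        rw [hbeq, haeq]; ring
      omega
    have hgap : r ≤ b → ℓ ≤ k * q + 1 := by
      intro hrb
      have hB1 : 1 ≤ B := by
        exact (Nat.le_div_iff_mul_le hrpos).2 (by omega)
      obtain ⟨B', hB'⟩ : ∃ B', B = B' + 1 := ⟨B - 1, by omega⟩
      have hBa : 2 ≤ B * a := by nlinarith
      obtain ⟨t, h1, h2, h3⟩ := hcov (B * a - 1) (by omega) (by
        rw [hab]
        have : r * (B * a - 1) ≤ r * (B * a) := Nat.mul_le_mul_left _ (by omega)
        nlinarith)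
      have htB : t < B := by
        by_contra hcon
        push Not at hcon
        have : B * a ≤ t * a := Nat.mul_le_mul_right _ hcon
        omega
      obtain ⟨b', hb'⟩ : ∃ b', b = b' + r * t := ⟨b - r * t, by omega⟩
      rw [cover_eval a b r t q ℓ b' haeq hb'] at h3
      have h4 : t * ℓ ≤ B' * ℓ := Nat.mul_le_mul_right _ (by omega)
      have h6 : B * a = B' * a + a := by rw [hB']; ring
      have h7 : b * q = B' * (r * q) + r * q + k * q := by rw [hbeq, hB']; ring
      have h8 : B' * a = B' * (r * q) + B' * ℓ := by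
        conv_lhs => rw [haeq]
        ring
      omega
    refine ⟨hra, ?_⟩
    by_cases hℓ0 : ℓ = 0
    · exact Or.inl hℓ0
    · right
      by_cases hk0 : k = 0
      · left
        refine ⟨hk0, ?_⟩
        have hrb : r ≤ b := by
          apply Nat.le_of_dvd (by omega)
          exact Nat.dvd_of_mod_eq_zero hk0
        have := hgap hrb
        rw [hk0] at this
        simp at this
        omega
      · right
        refine ⟨hℓ0, hk0, hkℓ, ?_⟩
        by_cases hrb : b < r
        · exact Or.inl hrb
        · right
          push Not at hrb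
          have h1 := hgap hrb
          have h2 : r * ℓ ≤ r * (k * q + 1) := Nat.mul_le_mul_left _ h1
          have h3 : k * a = k * (r * q) + k * ℓ := by
            conv_lhs => rw [haeq]
            ring
          nlinarith
  · rintro ⟨hra, hdis⟩
    have hcond : k * ℓ < r ∧ (r ≤ b → ℓ ≤ k * q + 1) := by
      rcases hdis with h | ⟨h1, h2⟩ | ⟨-, -, h1, h2⟩
      · rw [h, mul_zero]
        exact ⟨hrpos, fun _ => Nat.zero_le _⟩
      · rw [h1, h2, mul_one]
        exact ⟨hrpos, fun _ => by simp⟩
      · refine ⟨h1, fun hrb => ?_⟩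
        rcases h2 with h2 | h2
        · omega
        · have h3 : k * a = k * (r * q) + k * ℓ := by
            conv_lhs => rw [haeq]
            ring
          have h4 : r * ℓ ≤ r * (k * q + 1) := by nlinarith
          exact Nat.le_of_mul_le_mul_left h4 hrpos
    obtain ⟨hkℓ, hgap⟩ := hcond
    intro s hs1 hs2
    have hapos : 0 < a := by omega
    by_cases hsB : B ≤ s / a
    · refine ⟨B, ?_, ?_, ?_⟩
      · exact Nat.mul_div_le b r
      · calc B * a ≤ (s / a) * a := Nat.mul_le_mul_right _ hsB
          _ ≤ s := Nat.div_mul_le_self s a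
      · have h1 : b - r * B = k := by omega
        rw [h1]
        rw [hab] at hs2
        have h2 : r * s < r * (B * a + k * q + 1) := by nlinarith
        have h3 := Nat.lt_of_mul_lt_mul_left h2
        have h4 : B * a + k * (a / r) = B * a + k * q := rfl
        omega
    · push Not at hsB
      refine ⟨s / a, ?_, Nat.div_mul_le_self s a, ?_⟩
      · have : r * (s / a) ≤ r * B := Nat.mul_le_mul_left _ hsB.le
        omega
      · have h1 : s < (s / a + 1) * a := by
          have := Nat.lt_succ_iff.2 (le_of_eq (rfl : s / a = s / a))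
          have h2 := (Nat.div_lt_iff_lt_mul hapos).1 this
          exact h2
        generalize s / a = t at h1 hsB ⊢
        have hB1 : 1 ≤ B := by omega
        have hrb : r ≤ b := by
          have : r * 1 ≤ r * B := Nat.mul_le_mul_left _ hB1
          omega
        have hℓ' := hgap hrb
        have h2 : r * (t + 1) ≤ r * B := Nat.mul_le_mul_left _ hsB
        have h3 : r + k ≤ b - r * t := by
          have : r * (t + 1) = r * t + r := by ring
          omega
        have h4 : (r + k) * q ≤ (b - r * t) * q := Nat.mul_le_mul_right _ h3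
        have h5 : (t + 1) * a = t * a + a := by ring
        have h6 : (r + k) * q = r * q + k * q := by ring
        have h7 : (b - r * t) * (a / r) = (b - r * t) * q := rfl
        omega

section model
variable (I W : Type*) [Fintype I] [Fintype W] [DecidableEq I] [DecidableEq W] (r : ℕ)

/-- The model permutation. -/
def modelPerm [Fact r.Prime] : Equiv.Perm ((I × ZMod r) ⊕ W) :=
  Equiv.sumCongr (Equiv.prodCongr (Equiv.refl _) (Equiv.addRight 1)) (Equiv.refl _)

variable [Fact r.Prime]

lemma model_l (i : I) (z : ZMod r) :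
    modelPerm I W r (Sum.inl (i, z)) = Sum.inl (i, z + 1) := rfl

lemma model_r (y : W) : modelPerm I W r (Sum.inr y) = Sum.inr y := rfl

lemma model_pow_l (j : ℕ) (i : I) (z : ZMod r) :
    ((modelPerm I W r) ^ j) (Sum.inl (i, z)) = Sum.inl (i, z + j) := by
  induction j with
  | zero => simp
  | succ j ih =>
    rw [pow_succ', Equiv.Perm.mul_apply, ih, model_l]
    simp [add_assoc]

lemma model_pow_r (j : ℕ) (y : W) :
    ((modelPerm I W r) ^ j) (Sum.inr y) = Sum.inr y := by
  induction j with
  | zero => simp
  | succ j ih => rw [pow_succ', Equiv.Perm.mul_apply, ih, model_r]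

lemma model_pow : (modelPerm I W r) ^ r = 1 := by
  ext y
  rcases y with ⟨i, z⟩ | y
  · rw [model_pow_l]; simp
  · rw [model_pow_r]; simp

lemma model_support : (modelPerm I W r).support
    = (Finset.univ : Finset (I × ZMod r)).map Function.Embedding.inl := by
  ext y
  rcases y with ⟨i, z⟩ | y
  · simp only [Equiv.Perm.mem_support, Finset.mem_map, Finset.mem_univ, true_and, model_l]
    constructor
    · intro _
      exact ⟨(i, z), rfl⟩
    · intro _ h
      have h7 := congrArg Prod.snd (Sum.inl.inj h)
      have h8 : z + 1 = z := h7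
      exact absurd h8 (by simp)
  · simp only [Equiv.Perm.mem_support, Finset.mem_map, Finset.mem_univ, true_and, model_r]
    constructor
    · intro h
      exact absurd rfl h
    · rintro ⟨a, ha⟩
      cases ha

lemma model_support_card : (modelPerm I W r).support.card = r * Fintype.card I := by
  rw [model_support, Finset.card_map, Finset.card_univ, Fintype.card_prod, ZMod.card, mul_comm]

lemma model_order [Nonempty I] : orderOf (modelPerm I W r) = r := by
  apply orderOf_eq_prime (model_pow I W r)
  intro h
  have h1 := model_support_card I W r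
  rw [h, Equiv.Perm.support_one, Finset.card_empty] at h1
  have h2 : 0 < r * Fintype.card I := Nat.mul_pos (Fact.out : r.Prime).pos Fintype.card_pos
  omega

end model

lemma card_support_permCongr {X Y : Type*} [Fintype X] [Fintype Y] [DecidableEq X] [DecidableEq Y]
    (e : X ≃ Y) (τ : Equiv.Perm X) : (e.permCongr τ).support.card = τ.support.card := by
  symm
  apply Finset.card_bij (fun y _ => e y)
  · intro y hy
    rw [Equiv.Perm.mem_support] at hy ⊢
    rw [Equiv.permCongr_apply, Equiv.symm_apply_apply]
    intro h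
    exact hy (e.injective h)
  · intro a _ b _ hab
    exact e.injective hab
  · intro x hx
    refine ⟨e.symm x, ?_, by simp⟩
    rw [Equiv.Perm.mem_support] at hx ⊢
    rw [Equiv.permCongr_apply] at hx
    intro h
    apply hx
    rw [h]
    simp

lemma orderOf_permCongr {X Y : Type*} (e : X ≃ Y) (τ : Equiv.Perm X) :
    orderOf (e.permCongr τ) = orderOf τ :=
  (Equiv.permCongrHom e).orderOf_eq τ

/-- Conjugacy to the model. -/
lemma exists_conj_model {n r : ℕ} [hr : Fact r.Prime] (I W : Type*) [Fintype I] [Fintype W] [DecidableEq I]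
    [DecidableEq W] [Nonempty I] (hcard : r * Fintype.card I + Fintype.card W = n)
    (σ : Equiv.Perm (Fin n)) (hσ : orderOf σ = r) (hs : σ.support.card = r * Fintype.card I) :
    ∃ e : ((I × ZMod r) ⊕ W) ≃ Fin n, ∀ x, σ (e x) = e (modelPerm I W r x) := by
  classical
  have hc : Fintype.card ((I × ZMod r) ⊕ W) = n := by
    rw [Fintype.card_sum, Fintype.card_prod, ZMod.card, mul_comm (Fintype.card I)]
    exact hcard
  let e₀ := Fintype.equivFinOfCardEq hc
  let τ := e₀.permCongr (modelPerm I W r)
  have hτ1 : orderOf τ = r := by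
    rw [orderOf_permCongr]; exact model_order I W r
  have hτ2 : τ.support.card = r * Fintype.card I := by
    rw [card_support_permCongr, model_support_card]
  have hcyc : τ.cycleType = σ.cycleType := by
    obtain ⟨m₁, h₁⟩ := Equiv.Perm.cycleType_prime_order (σ := τ) (by rw [hτ1]; exact hr.out)
    obtain ⟨m₂, h₂⟩ := Equiv.Perm.cycleType_prime_order (σ := σ) (by rw [hσ]; exact hr.out)
    have e₁ := Equiv.Perm.sum_cycleType τ
    have e₂ := Equiv.Perm.sum_cycleType σ
    rw [h₁, hτ1, hτ2] at e₁
    rw [h₂, hσ, hs] at e₂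
    rw [h₁, h₂, hτ1, hσ]
    simp only [Multiset.sum_replicate, smul_eq_mul] at e₁ e₂
    have h3 : (m₁ + 1) * r = (m₂ + 1) * r := by rw [e₁, e₂]
    have h4 := Nat.eq_of_mul_eq_mul_right hr.out.pos h3
    rw [h4]
  obtain ⟨c, hc'⟩ := isConj_iff.1 (Equiv.Perm.isConj_iff_cycleType_eq.2 hcyc)
  refine ⟨e₀.trans c, ?_⟩
  intro x
  rw [← hc']
  simp [τ, Equiv.permCongr_apply, Equiv.Perm.mul_apply]

/-- Existence of a permutation with prescribed number of `r`-cycles. -/
lemma exists_perm (n r s : ℕ) [hr : Fact r.Prime] (hs : 1 ≤ s) (h : r * s ≤ n) :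
    ∃ σ : Equiv.Perm (Fin n), orderOf σ = r ∧ σ.support.card = r * s := by
  classical
  haveI : Nonempty (Fin s) := ⟨⟨0, hs⟩⟩
  have hc : Fintype.card ((Fin s × ZMod r) ⊕ Fin (n - r * s)) = n := by
    rw [Fintype.card_sum, Fintype.card_prod, ZMod.card, Fintype.card_fin, Fintype.card_fin]
    rw [mul_comm s r]
    omega
  let e₀ := Fintype.equivFinOfCardEq hc
  refine ⟨e₀.permCongr (modelPerm (Fin s) (Fin (n - r * s)) r), ?_, ?_⟩
  · rw [orderOf_permCongr]; exact model_order _ _ r
  · rw [card_support_permCongr, model_support_card, Fintype.card_fin]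

lemma exists_weights (n q : ℕ) : ∀ c, c ≤ n * q → ∃ w : Fin n → ℕ, (∀ y, w y ≤ q) ∧ ∑ y, w y = c := by
  induction n with
  | zero =>
    intro c hc
    refine ⟨Fin.elim0, fun y => y.elim0, ?_⟩
    simp at hc
    simp [hc]
  | succ n ih =>
    intro c hc
    obtain ⟨w, hw1, hw2⟩ := ih (c - min q c) (by
      rcases le_total q c with h | h
      · rw [min_eq_left h]
        have : (n + 1) * q = n * q + q := by ring
        omega
      · rw [min_eq_right h]
        simp)
    refine ⟨Fin.cons (min q c) w, ?_, ?_⟩
    · intro y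
      refine Fin.cases ?_ ?_ y
      · simp
      · intro i; simpa using hw1 i
    · rw [Fin.sum_univ_succ]
      simp only [Fin.cons_zero, Fin.cons_succ]
      rw [hw2]
      have := min_le_right q c
      omega

/-- Sufficiency. -/
lemma construct (a b r s : ℕ) [hr : Fact r.Prime] (hs1 : 1 ≤ s) (hcov : Cover a b r s)
    (σ : Equiv.Perm (Fin (a * b))) (hσ : orderOf σ = r) (hs : σ.support.card = r * s) :
    ∃ f : Fin (a * b) → Fin b, (∀ j : Fin b, Nat.card {x : Fin (a * b) // f x = j} = a) ∧
      ∃ π : Equiv.Perm (Fin b), ∀ x : Fin (a * b), f (σ x) = π (f x) := by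
  classical
  obtain ⟨t, h1, h2, h3⟩ := hcov
  set n := b - r * t with hn
  set c := s - t * a with hc
  have hcn : c ≤ n * (a / r) := by omega
  obtain ⟨w, hw1, hw2⟩ := exists_weights n (a / r) c hcn
  have hwa : ∀ y, r * w y ≤ a := fun y =>
    (Nat.mul_le_mul_left _ (hw1 y)).trans (Nat.mul_div_le a r)
  let I := (Fin t × Fin a) ⊕ (Σ y : Fin n, Fin (w y))
  let W := Σ y : Fin n, Fin (a - r * w y)
  have hcI : Fintype.card I = s := by
    simp only [I, Fintype.card_sum, Fintype.card_prod, Fintype.card_fin, Fintype.card_sigma]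
    rw [hw2]; omega
  have hcW : r * c + Fintype.card W = n * a := by
    simp only [W, Fintype.card_sigma, Fintype.card_fin]
    rw [← hw2, Finset.mul_sum, ← Finset.sum_add_distrib]
    have : ∀ y ∈ (Finset.univ : Finset (Fin n)), r * w y + (a - r * w y) = a := by
      intro y _
      have := hwa y
      omega
    rw [Finset.sum_congr rfl this]
    simp
  have hcard : r * Fintype.card I + Fintype.card W = a * b := by
    rw [hcI]
    have e1 : s = t * a + c := by omega
    have e2 : b = n + r * t := by omega
    calc r * s + Fintype.card W = r * (t * a) + (r * c + Fintype.card W) := by rw [e1]; ring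
      _ = r * (t * a) + n * a := by rw [hcW]
      _ = a * (n + r * t) := by ring
      _ = a * b := by rw [← e2]
  haveI : Nonempty I := by
    rw [← Fintype.card_pos_iff, hcI]; omega
  obtain ⟨e, he⟩ := exists_conj_model I W hcard σ hσ (by rw [hs, hcI])
  -- the model partition
  let J := (Fin t × ZMod r) ⊕ Fin n
  have hcJ : Fintype.card J = b := by
    simp only [J, Fintype.card_sum, Fintype.card_prod, Fintype.card_fin, ZMod.card]
    rw [mul_comm]
    omega
  let eJ : J ≃ Fin b := Fintype.equivFinOfCardEq hcJ
  let π' : Equiv.Perm J :=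
    Equiv.sumCongr (Equiv.prodCongr (Equiv.refl _) (Equiv.addRight 1)) (Equiv.refl _)
  let f' : (I × ZMod r) ⊕ W → J := fun x =>
    match x with
    | Sum.inl (Sum.inl (g, _), z) => Sum.inl (g, z)
    | Sum.inl (Sum.inr ⟨y, _⟩, _) => Sum.inr y
    | Sum.inr ⟨y, _⟩ => Sum.inr y
  have hf'π : ∀ x, f' (modelPerm I W r x) = π' (f' x) := by
    rintro (⟨(⟨g, i⟩ | ⟨y, v⟩), z⟩ | ⟨y, v⟩) <;> rfl
  have hfib : ∀ j : J, Nat.card {x // f' x = j} = a := by
    rintro (⟨g, z⟩ | y)
    · let E : Fin a ≃ {x // f' x = Sum.inl (g, z)} :=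
        { toFun := fun i => ⟨Sum.inl (Sum.inl (g, i), z), rfl⟩
          invFun := fun x =>
            match x with
            | ⟨Sum.inl (Sum.inl (_, i), _), _⟩ => i
            | ⟨Sum.inl (Sum.inr ⟨y, _⟩, _), h⟩ => by simp [f'] at h
            | ⟨Sum.inr ⟨y, _⟩, h⟩ => by simp [f'] at h
          left_inv := fun i => rfl
          right_inv := by
            rintro ⟨(⟨(⟨g', i⟩ | ⟨y, v⟩), z'⟩ | ⟨y, v⟩), h⟩
            · simp only [f', Sum.inl.injEq, Prod.mk.injEq] at h
              obtain ⟨rfl, rfl⟩ := h
              rfl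
            · simp [f'] at h
            · simp [f'] at h }
      rw [← Nat.card_congr E, Nat.card_eq_fintype_card, Fintype.card_fin]
    · let E : ((Fin (w y) × ZMod r) ⊕ Fin (a - r * w y)) ≃ {x // f' x = Sum.inr y} :=
        { toFun := fun x =>
            match x with
            | Sum.inl (v, z) => ⟨Sum.inl (Sum.inr ⟨y, v⟩, z), rfl⟩
            | Sum.inr v => ⟨Sum.inr ⟨y, v⟩, rfl⟩
          invFun := fun x =>
            match x with
            | ⟨Sum.inl (Sum.inl (_, _), _), h⟩ => by simp [f'] at h
            | ⟨Sum.inl (Sum.inr ⟨y', v⟩, z), h⟩ =>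
                Sum.inl (Fin.cast (by have h' : y' = y := Sum.inr.inj h; rw [h']) v, z)
            | ⟨Sum.inr ⟨y', v⟩, h⟩ =>
                Sum.inr (Fin.cast (by have h' : y' = y := Sum.inr.inj h; rw [h']) v)
          left_inv := by
            rintro (⟨v, z⟩ | v) <;> rfl
          right_inv := by
            rintro ⟨(⟨(⟨g', i⟩ | ⟨y', v⟩), z'⟩ | ⟨y', v⟩), h⟩
            · simp [f'] at h
            · have h' : y' = y := Sum.inr.inj h
              subst h'
              rfl
            · have h' : y' = y := Sum.inr.inj h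
              subst h'
              rfl }
      rw [← Nat.card_congr E, Nat.card_eq_fintype_card, Fintype.card_sum, Fintype.card_prod,
        Fintype.card_fin, Fintype.card_fin, ZMod.card, mul_comm (w y) r]
      have := hwa y
      omega
  refine ⟨fun x => eJ (f' (e.symm x)), ?_, eJ.permCongr π', ?_⟩
  · intro j
    refine (Nat.card_congr ?_).trans (hfib (eJ.symm j))
    refine (Equiv.subtypeEquiv e.symm ?_)
    intro x
    constructor
    · intro h
      have h' : eJ (f' (e.symm x)) = j := h
      rw [← h']; simp
    · intro h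
      show eJ (f' (e.symm x)) = j
      rw [h]; simp
  · intro x
    obtain ⟨y, rfl⟩ := e.surjective x
    rw [he y]
    simp only [Equiv.symm_apply_apply, Equiv.permCongr_apply]
    rw [hf'π]

/-- Necessity. -/
lemma count (a b r s : ℕ) [hr : Fact r.Prime] (ha : 2 ≤ a)
    (σ : Equiv.Perm (Fin (a * b))) (hσ : orderOf σ = r) (hs : σ.support.card = r * s)
    (f : Fin (a * b) → Fin b) (hf : ∀ j : Fin b, Nat.card {x : Fin (a * b) // f x = j} = a)
    (π : Equiv.Perm (Fin b)) (hπ : ∀ x : Fin (a * b), f (σ x) = π (f x)) : Cover a b r s := by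
  classical
  have hrpos := hr.out.pos
  have hfib : ∀ j : Fin b, (Finset.univ.filter (fun x => f x = j)).card = a := by
    intro j
    have := hf j
    rwa [Nat.card_eq_fintype_card, Fintype.card_subtype] at this
  have hsurj : ∀ j : Fin b, ∃ x, f x = j := by
    intro j
    have h1 : 0 < (Finset.univ.filter (fun x => f x = j)).card := by rw [hfib]; omega
    obtain ⟨x, hx⟩ := Finset.card_pos.1 h1
    exact ⟨x, (Finset.mem_filter.1 hx).2⟩
  have hσr : σ ^ r = 1 := by rw [← hσ]; exact pow_orderOf_eq_one σ
  have hpow : ∀ k : ℕ, ∀ x, f ((σ ^ k) x) = (π ^ k) (f x) := by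
    intro k
    induction k with
    | zero => intro x; rfl
    | succ k ih =>
      intro x
      rw [pow_succ', pow_succ', Equiv.Perm.mul_apply, Equiv.Perm.mul_apply, hπ, ih]
  have hπr : π ^ r = 1 := by
    ext j
    obtain ⟨x, rfl⟩ := hsurj j
    rw [← hpow, hσr]
    rfl
  -- moved parts
  let T : Finset (Fin b) := Finset.univ.filter (fun j => π j ≠ j)
  have hTdvd : r ∣ T.card := by
    have h1 := Cfsg.Agent.S3573.mod_fix π r hπr T (by
      intro j hj
      simp only [T, Finset.mem_filter, Finset.mem_univ, true_and] at hj ⊢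
      intro h
      exact hj (π.injective h))
    have h2 : T.filter (fun x => π x = x) = ∅ := by
      ext j
      simp only [T, Finset.mem_filter, Finset.mem_univ, true_and, Finset.notMem_empty, iff_false]
      rintro ⟨h3, h4⟩
      exact h3 h4
    rw [h2, Finset.card_empty] at h1
    exact Nat.modEq_zero_iff_dvd.1 h1
  obtain ⟨t, ht⟩ := hTdvd
  have hTle : T.card ≤ b := by
    have := Finset.card_le_univ T
    rwa [Fintype.card_fin] at this
  let mv : Fin b → ℕ := fun j => (σ.support.filter (fun x => f x = j)).card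
  have hsum : ∑ j, mv j = r * s := by
    rw [← hs]
    exact (Finset.card_eq_sum_card_fiberwise (fun x _ => Finset.mem_univ _)).symm
  have hmvT : ∀ j ∈ T, mv j = a := by
    intro j hj
    simp only [T, Finset.mem_filter, Finset.mem_univ, true_and] at hj
    have h0 : σ.support.filter (fun x => f x = j) = Finset.univ.filter (fun x => f x = j) := by
      ext x
      simp only [Finset.mem_filter, Equiv.Perm.mem_support, Finset.mem_univ, true_and]
      constructor
      · exact fun h => h.2
      · intro h
        refine ⟨?_, h⟩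
        intro hx
        apply hj
        rw [← h, ← hπ, hx]
    show (σ.support.filter (fun x => f x = j)).card = a
    rw [h0]
    exact hfib j
  have hmvF : ∀ j ∉ T, r ∣ mv j ∧ mv j ≤ a := by
    intro j hj
    simp only [T, Finset.mem_filter, Finset.mem_univ, true_and, not_not] at hj
    constructor
    · have h1 := Cfsg.Agent.S3573.mod_fix σ r hσr (σ.support.filter (fun x => f x = j)) (by
        intro x hx
        rw [Finset.mem_filter] at hx ⊢
        refine ⟨Equiv.Perm.apply_mem_support.2 hx.1, ?_⟩
        rw [hπ, hx.2, hj])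
      have h2 : (σ.support.filter (fun x => f x = j)).filter (fun x => σ x = x) = ∅ := by
        ext x
        simp only [Finset.mem_filter, Equiv.Perm.mem_support, Finset.notMem_empty, iff_false]
        rintro ⟨⟨h3, -⟩, h4⟩
        exact h3 h4
      rw [h2, Finset.card_empty] at h1
      exact Nat.modEq_zero_iff_dvd.1 h1
    · rw [← hfib j]
      apply Finset.card_le_card
      intro x hx
      rw [Finset.mem_filter] at hx ⊢
      exact ⟨Finset.mem_univ _, hx.2⟩
  let C : ℕ := ∑ j ∈ Tᶜ, mv j / r
  have hsplit : r * s = T.card * a + r * C := by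
    rw [← hsum, ← Finset.sum_add_sum_compl T mv]
    congr 1
    · rw [Finset.sum_congr rfl hmvT]
      simp
    · simp only [C]
      rw [Finset.mul_sum]
      apply Finset.sum_congr rfl
      intro j hj
      have := (hmvF j (Finset.mem_compl.1 hj)).1
      rw [Nat.mul_div_cancel' this]
  have hs' : s = t * a + C := by
    apply Nat.eq_of_mul_eq_mul_left hrpos
    rw [hsplit, ht]
    ring
  have hCle : C ≤ (b - r * t) * (a / r) := by
    calc C ≤ ∑ _j ∈ Tᶜ, a / r := by
            apply Finset.sum_le_sum
            intro j hj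
            exact Nat.div_le_div_right (hmvF j (Finset.mem_compl.1 hj)).2
      _ = (b - r * t) * (a / r) := by
            rw [Finset.sum_const, smul_eq_mul, Finset.card_compl, Fintype.card_fin, ht]
  refine ⟨t, ?_, ?_, ?_⟩
  · rw [← ht]; exact hTle
  · omega
  · omega

/-- Let a, b ≥ 2 and consider the symmetric group of degree a·b acting on the partitions of an (a·b)-set into b parts of size a (encoded as maps onto a b-element set all of whose fibres have a elements; a permutation fixes such a partition when it permutes the fibres). Let r be a prime dividing the number (ab)!/((a!)^b·b!) of such partitions, and let ℓ and k be the remainders of a and b modulo r. Then every permutation of order r fixes some such partition if and only if r ≤ a and one of the following holds: ℓ = 0; or k = 0 and ℓ = 1; or ℓ and k are non-zero, k·ℓ < r, and either b < r or (k + r)·ℓ ≤ k·a + r. -/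
theorem result (a b : ℕ) (ha : 2 ≤ a) (hb : 2 ≤ b) (r : ℕ) (hr : r.Prime)
    (hrd : r ∣ (a * b).factorial / (a.factorial ^ b * b.factorial)) :
    (∀ σ : Equiv.Perm (Fin (a * b)), orderOf σ = r →
        ∃ f : Fin (a * b) → Fin b, (∀ j : Fin b, Nat.card {x : Fin (a * b) // f x = j} = a) ∧
          ∃ π : Equiv.Perm (Fin b), ∀ x : Fin (a * b), f (σ x) = π (f x)) ↔
      (r ≤ a ∧ (a % r = 0 ∨ (b % r = 0 ∧ a % r = 1) ∨
        (a % r ≠ 0 ∧ b % r ≠ 0 ∧ (b % r) * (a % r) < r ∧ (b < r ∨ (b % r + r) * (a % r) ≤ (b % r) * a + r)))) := by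
  classical
  haveI : Fact r.Prime := ⟨hr⟩
  have hrab : r ≤ a * b := by
    have h1 := Nat.uniformBell_mul_eq b (n := a) (by omega)
    have h2 : (a * b).factorial / (a.factorial ^ b * b.factorial) = b.uniformBell a := by
      rw [mul_comm a b, ← h1, mul_assoc]
      exact Nat.mul_div_cancel _ (by positivity)
    rw [h2] at hrd
    have h3 : r ∣ (b * a).factorial := by
      rw [← h1, mul_assoc]
      exact Dvd.dvd.mul_right hrd _
    rw [mul_comm]
    exact (Nat.Prime.dvd_factorial hr).1 h3
  rw [← arith a b r ha hb hr hrab]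
  constructor
  · intro h s hs1 hs2
    obtain ⟨σ, hσ1, hσ2⟩ := exists_perm (a * b) r s hs1 hs2
    obtain ⟨f, hf, π, hπ⟩ := h σ hσ1
    exact count a b r s ha σ hσ1 hσ2 f hf π hπ
  · intro h σ hσ
    have hσr : σ ^ r = 1 := by rw [← hσ]; exact pow_orderOf_eq_one σ
    have hdvd : r ∣ σ.support.card := by
      have h1 := Cfsg.Agent.S3573.mod_fix σ r hσr σ.support (fun x hx => Equiv.Perm.apply_mem_support.2 hx)
      have h2 : σ.support.filter (fun x => σ x = x) = ∅ := by
        ext x
        simp only [Finset.mem_filter, Equiv.Perm.mem_support, Finset.notMem_empty, iff_false]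
        rintro ⟨h3, h4⟩
        exact h3 h4
      rw [h2, Finset.card_empty] at h1
      exact Nat.modEq_zero_iff_dvd.1 h1
    obtain ⟨s, hs⟩ := hdvd
    have hs1 : 1 ≤ s := by
      by_contra hcon
      have hs0 : s = 0 := by omega
      rw [hs0, mul_zero, Finset.card_eq_zero, Equiv.Perm.support_eq_empty_iff] at hs
      rw [hs, orderOf_one] at hσ
      exact hr.one_lt.ne hσ
    have hs2 : r * s ≤ a * b := by
      rw [← hs]
      have := Finset.card_le_univ σ.support
      rwa [Fintype.card_fin] at this
    exact construct a b r s hs1 (h s hs1 hs2) σ hσ hs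

end Cfsg.Agent.S3575
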