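import Cfsg.Statements.S3619
import Mathlib

set_option autoImplicit false
open Cfsg

namespace Cfsg.Agent.S3619

open scoped Pointwise in
/-- A quasiprimitive group with a primitive Jordan set is primitive. -/
lemma isPreprimitive_of_jordan {G Ω : Type*} [Group G] [MulAction G Ω] [FaithfulSMul G Ω]
    (hqp : ∀ N : Subgroup G, N.Normal → N ≠ ⊥ → MulAction.IsPretransitive ↥N Ω)
    (Γ : Set Ω) (hΓ1 : Γ.Nontrivial)
    (hJ : MulAction.IsPretransitive ↥(fixingSubgroup G Γᶜ) ↥(SubMulAction.ofFixingSubgroup G Γᶜ))
    (hJp : MulAction.IsPreprimitive ↥(fixingSubgroup G Γᶜ) ↥(SubMulAction.ofFixingSubgroup G Γᶜ)) :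
    MulAction.IsPreprimitive G Ω := by
  classical
  -- the Jordan group is nontrivial
  set J := fixingSubgroup G Γᶜ with hJdef
  have hJbot : J ≠ ⊥ := by
    obtain ⟨x, hx, y, hy, hxy⟩ := hΓ1
    have hx' : x ∈ SubMulAction.ofFixingSubgroup G Γᶜ := by
      rw [SubMulAction.mem_ofFixingSubgroup_iff]; simpa using hx
    have hy' : y ∈ SubMulAction.ofFixingSubgroup G Γᶜ := by
      rw [SubMulAction.mem_ofFixingSubgroup_iff]; simpa using hy
    obtain ⟨j, hj⟩ := MulAction.exists_smul_eq (↥J) (⟨x, hx'⟩ : SubMulAction.ofFixingSubgroup G Γᶜ) ⟨y, hy'⟩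
    have hj' : (j : G) • x = y := congrArg Subtype.val hj
    intro hb
    have : (j : G) = 1 := by
      have h2 : (j : G) ∈ J := j.2
      have h3 : (j : G) ∈ (⊥ : Subgroup G) := hb ▸ h2
      simpa using h3
    rw [this, one_smul] at hj'
    exact hxy hj'
  have hGbot : (⊤ : Subgroup G) ≠ ⊥ := by
    intro h
    apply hJbot
    rw [eq_bot_iff, ← h]
    exact le_top
  have htop := hqp ⊤ inferInstance hGbot
  have htr : MulAction.IsPretransitive G Ω := by
    constructor
    intro x y
    obtain ⟨g, hg⟩ := MulAction.exists_smul_eq (⊤ : Subgroup G) x y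
    exact ⟨g, hg⟩
  refine { htr with isTrivialBlock_of_isBlock := ?_ }
  intro B hB
  by_contra hnt
  unfold MulAction.IsTrivialBlock at hnt
  push Not at hnt
  obtain ⟨hB0, hB2⟩ := hnt
  have hB1 : ¬ B.Subsingleton := Set.not_subsingleton_iff.2 hB0
  -- the kernel of the action on the block system
  let K : Subgroup G :=
    { carrier := {k | ∀ g : G, k • (g • B) = g • B}
      mul_mem' := by
        intro a b ha hb g
        rw [mul_smul, hb, ha]
      one_mem' := by intro g; simp
      inv_mem' := by
        intro a ha g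
        have := ha g
        rw [inv_smul_eq_iff, this] }
  have hKmem : ∀ k, k ∈ K ↔ ∀ g : G, k • (g • B) = g • B := fun k => Iff.rfl
  have hKn : K.Normal := by
    constructor
    intro k hk h
    rw [hKmem] at hk ⊢
    intro g
    have := hk (h⁻¹ * g)
    rw [mul_smul h⁻¹ g] at this
    calc (h * k * h⁻¹) • g • B = h • k • (h⁻¹ • g • B) := by simp only [mul_smul]
      _ = h • (h⁻¹ • g • B) := by rw [this]
      _ = g • B := by simp
  have hJK : J ≤ K := by
    intro j hj
    rw [hKmem]
    intro g
    have hC : MulAction.IsBlock G (g • B) := hB.translate g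
    by_cases hout : ∃ x ∈ g • B, x ∉ Γ
    · obtain ⟨x, hxC, hxΓ⟩ := hout
      have hjx : j • x = x := by
        have := (mem_fixingSubgroup_iff G).1 hj x (by simpa using hxΓ)
        exact this
      exact (MulAction.isBlock_iff_smul_eq_of_mem.1 hC) hxC (by rw [hjx]; exact hxC)
    · push Not at hout
      have hblk : MulAction.IsBlock J (Subtype.val ⁻¹' (g • B) : Set (SubMulAction.ofFixingSubgroup G Γᶜ)) :=
        (hC.subgroup (H := J)).subtype_val_preimage (C := SubMulAction.ofFixingSubgroup G Γᶜ)
      rcases hJp.isTrivialBlock_of_isBlock hblk with h | h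
      · exfalso
        apply hB1
        have hss : (g • B).Subsingleton := by
          intro x hx y hy
          have hx' : x ∈ SubMulAction.ofFixingSubgroup G Γᶜ := by
            rw [SubMulAction.mem_ofFixingSubgroup_iff]; simpa using hout x hx
          have hy' : y ∈ SubMulAction.ofFixingSubgroup G Γᶜ := by
            rw [SubMulAction.mem_ofFixingSubgroup_iff]; simpa using hout y hy
          have := h (show (⟨x, hx'⟩ : SubMulAction.ofFixingSubgroup G Γᶜ) ∈ _ from hx)
            (show (⟨y, hy'⟩ : SubMulAction.ofFixingSubgroup G Γᶜ) ∈ _ from hy)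
          exact congrArg Subtype.val this
        intro x hx y hy
        have := hss (Set.smul_mem_smul_set hx) (Set.smul_mem_smul_set hy)
        exact smul_left_cancel g this
      · have hCΓ : g • B = Γ := by
          apply Set.Subset.antisymm hout
          intro y hy
          have hy' : y ∈ SubMulAction.ofFixingSubgroup G Γᶜ := by
            rw [SubMulAction.mem_ofFixingSubgroup_iff]; simpa using hy
          have : (⟨y, hy'⟩ : SubMulAction.ofFixingSubgroup G Γᶜ) ∈ (Subtype.val ⁻¹' (g • B)) := by
            rw [h]; trivial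
          exact this
        rw [hCΓ]
        have hfix : ∀ x ∉ Γ, j • x = x := fun x hx =>
          (mem_fixingSubgroup_iff G).1 hj x (by simpa using hx)
        have hsub : ∀ i ∈ J, ∀ x ∈ Γ, i • x ∈ Γ := by
          intro i hi x hx
          by_contra hc
          have h1 : i • (i • x) = i • x :=
            (mem_fixingSubgroup_iff G).1 hi (i • x) (by simpa using hc)
          have h2 : i • x = x := smul_left_cancel i h1
          rw [h2] at hc
          exact hc hx
        ext y
        constructor
        · rintro ⟨x, hx, rfl⟩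
          exact hsub j hj x hx
        · intro hy
          exact ⟨j⁻¹ • y, hsub j⁻¹ (J.inv_mem hj) y hy, by simp⟩
  have hKbot : K ≠ ⊥ := by
    intro h
    apply hJbot
    rw [eq_bot_iff, ← h]
    exact hJK
  have hKt := hqp K hKn hKbot
  -- contradiction with the block
  have hBne : B.Nonempty := by
    by_contra hne
    rw [Set.not_nonempty_iff_eq_empty] at hne
    apply hB1
    rw [hne]
    exact Set.subsingleton_empty
  obtain ⟨x, hx⟩ := hBne
  obtain ⟨y, hy⟩ := (Set.ne_univ_iff_exists_notMem _).1 hB2
  obtain ⟨k, hk⟩ := MulAction.exists_smul_eq K x y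
  apply hy
  have h1 := k.2 1
  rw [one_smul] at h1
  rw [← h1]
  exact ⟨x, hx, hk⟩

/-- Let G act faithfully on a finite set in such a way that every non-trivial normal subgroup of G is transitive (G is quasiprimitive). Let Γ be a subset with more than one point and not the whole set, such that the pointwise stabilizer of the complement of Γ acts transitively on Γ (a Jordan set). If that pointwise stabilizer acts primitively on Γ, then G is k-fold transitive where k is one more than the number of points outside Γ (the Jordan set is a trivial one). -/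
theorem result {G Ω : Type*} [Group G] [Finite G] [MulAction G Ω] [FaithfulSMul G Ω] [Finite Ω]
    (hqp : ∀ N : Subgroup G, N.Normal → N ≠ ⊥ → MulAction.IsPretransitive ↥N Ω)
    (Γ : Set Ω) (hΓ1 : 1 < Γ.ncard) (hΓ2 : Γ.ncard < Nat.card Ω)
    (hJ : MulAction.IsPretransitive ↥(fixingSubgroup G Γᶜ) ↥(SubMulAction.ofFixingSubgroup G Γᶜ))
    (hJp : MulAction.IsPreprimitive ↥(fixingSubgroup G Γᶜ) ↥(SubMulAction.ofFixingSubgroup G Γᶜ)) :
    MulAction.IsMultiplyPretransitive G Ω (Nat.card Ω - Γ.ncard + 1) := by
  classical
  have hne : Γ.Nontrivial := by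
    rwa [Set.one_lt_ncard_iff_nontrivial] at hΓ1
  have hprim := isPreprimitive_of_jordan hqp Γ hne hJ hJp
  have hc := Set.ncard_add_ncard_compl Γ
  obtain ⟨m, hm⟩ : ∃ m, Γᶜ.ncard = m + 1 := ⟨Γᶜ.ncard - 1, by omega⟩
  have hfin : Nat.card Ω - Γ.ncard + 1 = m + 2 := by omega
  rw [hfin]
  have := hprim.isMultiplyPreprimitive hm (by omega) hJp
  exact this.isMultiplyPretransitive

end Cfsg.Agent.S3619
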