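import Cfsg.Statements.S3627
import Mathlib
import Cfsg.Agent.Lib.KnownSimple.J1.Spec

set_option autoImplicit false
open Cfsg

namespace Cfsg.Agent.S3627

open Cfsg.Agent.Lib.KnownSimple.J1 Cfsg.Spor

/-- The additive group `F₇^k` written multiplicatively. -/
abbrev VV (k : ℕ) : Type := Multiplicative (Fin k → ZMod 7)

/-- Scalar multiplication by units of `F₇`. -/
def sc (k : ℕ) : (ZMod 7)ˣ →* MulAut (VV k) where
  toFun c :=
    { toFun := fun v => Multiplicative.ofAdd ((c : ZMod 7) • Multiplicative.toAdd v)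
      invFun := fun v => Multiplicative.ofAdd (((c⁻¹ : (ZMod 7)ˣ) : ZMod 7) • Multiplicative.toAdd v)
      left_inv := fun v => by
        apply Multiplicative.toAdd.injective
        simp [smul_smul]
      right_inv := fun v => by
        apply Multiplicative.toAdd.injective
        simp [smul_smul]
      map_mul' := fun v w => by
        apply Multiplicative.toAdd.injective
        simp [smul_add] }
  map_one' := by
    apply MulEquiv.ext
    intro v
    apply Multiplicative.toAdd.injective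
    simp
  map_mul' c d := by
    apply MulEquiv.ext
    intro v
    apply Multiplicative.toAdd.injective
    simp [mul_smul]

/-- The Frobenius group `F₇^k ⋊ F₇ˣ`. -/
abbrev EE (k : ℕ) : Type := VV k ⋊[sc k] (ZMod 7)ˣ

lemma sc_apply (k : ℕ) (c : (ZMod 7)ˣ) (v : VV k) :
    Multiplicative.toAdd (sc k c v) = (c : ZMod 7) • Multiplicative.toAdd v := rfl

lemma pow_right {k : ℕ} (x : EE k) (n : ℕ) : (x ^ n).right = x.right ^ n := by
  rw [← SemidirectProduct.rightHom_eq_right, map_pow]

lemma pow_left {k : ℕ} (x : EE k) (n : ℕ) :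
    Multiplicative.toAdd (x ^ n).left =
      (∑ j ∈ Finset.range n, (x.right : ZMod 7) ^ j) • Multiplicative.toAdd x.left := by
  induction n with
  | zero => simp
  | succ n ih =>
    rw [pow_succ', SemidirectProduct.mul_left, toAdd_mul, sc_apply, ih, Finset.sum_range_succ',
      add_smul, smul_smul, Finset.mul_sum, add_comm]
    congr 1
    · congr 1
      apply Finset.sum_congr rfl
      intro j _
      rw [pow_succ']
    · simp

/-- Elements of the Frobenius group have order dividing `7` or `6`. -/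
lemma orderOf_EE {k : ℕ} (x : EE k) : orderOf x ∣ 7 ∨ orderOf x ∣ 6 := by
  by_cases hc : x.right = 1
  · left
    apply orderOf_dvd_of_pow_eq_one
    apply SemidirectProduct.ext
    · apply Multiplicative.toAdd.injective
      rw [pow_left, hc]
      have h7 : (∑ j ∈ Finset.range 7, (((1 : (ZMod 7)ˣ) : ZMod 7)) ^ j) = 0 := by decide
      rw [h7, zero_smul]
      rfl
    · rw [pow_right, hc, one_pow]
      rfl
  · right
    apply orderOf_dvd_of_pow_eq_one
    have hall : ∀ c : (ZMod 7)ˣ, c ^ 6 = 1 := by decide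
    have hs : ∀ c : (ZMod 7)ˣ, c ≠ 1 → (∑ j ∈ Finset.range 6, (c : ZMod 7) ^ j) = 0 := by decide
    apply SemidirectProduct.ext
    · apply Multiplicative.toAdd.injective
      rw [pow_left, hs _ hc, zero_smul]
      rfl
    · rw [pow_right, hall]
      rfl

lemma exists_six_EE (k : ℕ) : ∃ x : EE k, orderOf x = 6 := by
  let c : (ZMod 7)ˣ := ZMod.unitOfCoprime 3 (by norm_num)
  have h6 : c ^ 6 = 1 := by decide
  have h3 : c ^ 3 ≠ 1 := by decide
  have h2 : c ^ 2 ≠ 1 := by decide
  have hc : orderOf c = 6 := by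
    apply orderOf_eq_of_pow_and_pow_div_prime (by norm_num) h6
    intro p hp hd
    have hp2 : p = 2 ∨ p = 3 := by
      have : p ∣ 2 * 3 := hd
      rcases (Nat.Prime.dvd_mul hp).1 this with h | h
      · exact Or.inl ((Nat.prime_dvd_prime_iff_eq hp Nat.prime_two).1 h)
      · exact Or.inr ((Nat.prime_dvd_prime_iff_eq hp Nat.prime_three).1 h)
    rcases hp2 with rfl | rfl
    · exact h3
    · exact h2
  refine ⟨SemidirectProduct.inr c, ?_⟩
  rw [orderOf_injective SemidirectProduct.inr SemidirectProduct.inr_injective c, hc]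

lemma sum_one_seven : (∑ j ∈ Finset.range 7, (1 : ZMod 7) ^ j) = 0 := by decide

lemma exists_seven_EE (k : ℕ) : ∃ x : EE (k + 1), orderOf x = 7 := by
  refine ⟨SemidirectProduct.inl (Multiplicative.ofAdd fun _ => 1), ?_⟩
  haveI : Fact (Nat.Prime 7) := ⟨by norm_num⟩
  apply orderOf_eq_prime
  · apply SemidirectProduct.ext
    · apply Multiplicative.toAdd.injective
      rw [pow_left]
      simp only [SemidirectProduct.left_inl, SemidirectProduct.right_inl, Units.val_one]
      rw [sum_one_seven, zero_smul]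
      rfl
    · rw [pow_right]
      simp
  · intro h
    have h1 := congrArg (fun x : EE (k + 1) => Multiplicative.toAdd x.left 0) h
    simp at h1

/-- From elements of order `6` and `7` to all the orders needed. -/
lemma exists_of {A : Type*} [Group A] (h6 : ∃ a : A, orderOf a = 6) (h7 : ∃ a : A, orderOf a = 7) (e : ℕ)
    (he : e ∣ 6 ∨ e ∣ 7) : ∃ a : A, orderOf a = e := by
  obtain ⟨a, ha⟩ := h6
  obtain ⟨b, hb⟩ := h7
  rcases he with he | he
  · refine ⟨a ^ (6 / e), ?_⟩
    have h1 : 6 / e ∣ orderOf a := by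
      rw [ha]
      exact Nat.div_dvd_of_dvd he
    rw [orderOf_pow_of_dvd (by
      have := Nat.pos_of_dvd_of_pos he (by norm_num)
      exact (Nat.div_pos (Nat.le_of_dvd (by norm_num) he) this).ne') h1, ha]
    exact Nat.div_div_self he (by norm_num)
  · refine ⟨b ^ (7 / e), ?_⟩
    have h1 : 7 / e ∣ orderOf b := by
      rw [hb]
      exact Nat.div_dvd_of_dvd he
    rw [orderOf_pow_of_dvd (by
      have := Nat.pos_of_dvd_of_pos he (by norm_num)
      exact (Nat.div_pos (Nat.le_of_dvd (by norm_num) he) this).ne') h1, hb]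
    exact Nat.div_div_self he (by norm_num)

/-- The arithmetic of the spectrum: one of the four orders can be replaced. -/
lemma arith : ∀ a ∈ ({1, 2, 3, 5, 6, 7, 10, 11, 15, 19} : Finset ℕ),
    ∀ b ∈ ({1, 2, 3, 5, 6, 7, 10, 11, 15, 19} : Finset ℕ),
    ∀ c ∈ ({1, 2, 3, 5, 6, 7, 10, 11, 15, 19} : Finset ℕ),
    ∀ d ∈ ({1, 2, 3, 5, 6, 7, 10, 11, 15, 19} : Finset ℕ),
    ∃ e ∈ ({1, 2, 3, 6, 7} : Finset ℕ),
      Nat.lcm a (Nat.lcm b (Nat.lcm c d)) = Nat.lcm e (Nat.lcm b (Nat.lcm c d)) ∨
      Nat.lcm a (Nat.lcm b (Nat.lcm c d)) = Nat.lcm e (Nat.lcm a (Nat.lcm c d)) ∨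
      Nat.lcm a (Nat.lcm b (Nat.lcm c d)) = Nat.lcm e (Nat.lcm a (Nat.lcm b d)) ∨
      Nat.lcm a (Nat.lcm b (Nat.lcm c d)) = Nat.lcm e (Nat.lcm a (Nat.lcm b c)) := by
  decide +kernel


/-- Let J be the first Janko group. Then there are finite groups of arbitrarily large order with exactly the same set of element orders as J × J × J × J. -/
theorem result (N : ℕ) : ∃ (H : Type) (_ : Group H) (_ : Fintype H), N < Fintype.card H ∧
      Set.range (orderOf : H → ℕ) = Set.range (orderOf : ↥Cfsg.Spor.J1 × ↥Cfsg.Spor.J1 × ↥Cfsg.Spor.J1 × ↥Cfsg.Spor.J1 → ℕ) := by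
  classical
  haveI hfin : Finite ↥J1 := inferInstance
  letI : Fintype ↥J1 := Fintype.ofFinite _
  haveI : Finite (EE (N + 1)) := Finite.of_equiv _ SemidirectProduct.equivProd.symm
  letI : Fintype (EE (N + 1)) := Fintype.ofFinite _
  refine ⟨EE (N + 1) × ↥J1 × ↥J1 × ↥J1, inferInstance, inferInstance, ?_, ?_⟩
  · rw [Fintype.card_eq_nat_card, Nat.card_prod]
    have h1 : Nat.card (EE (N + 1)) = 7 ^ (N + 1) * 6 := by
      rw [SemidirectProduct.card]
      have h2 : Nat.card (VV (N + 1)) = 7 ^ (N + 1) := by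
        rw [Nat.card_congr Multiplicative.toAdd]
        simp [Nat.card_eq_fintype_card, ZMod.card]
      have h3 : Nat.card (ZMod 7)ˣ = 6 := by
        rw [Nat.card_eq_fintype_card]
        decide
      rw [h2, h3]
    have h2 : 0 < Nat.card (↥J1 × ↥J1 × ↥J1) := Nat.card_pos
    rw [h1]
    have h3 : N < 7 ^ (N + 1) := (Nat.lt_pow_self (by norm_num)).trans_le (Nat.pow_le_pow_right (by norm_num) (by omega))
    calc N < 7 ^ (N + 1) := h3
      _ ≤ 7 ^ (N + 1) * 6 * Nat.card (↥J1 × ↥J1 × ↥J1) := by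
        have h4 : 7 ^ (N + 1) ≤ 7 ^ (N + 1) * 6 := Nat.le_mul_of_pos_right _ (by norm_num)
        exact h4.trans (Nat.le_mul_of_pos_right _ h2)
  · ext m
    constructor
    · rintro ⟨⟨x, b, c, d⟩, rfl⟩
      obtain ⟨a, ha⟩ := exists_of exists_orderOf_six exists_orderOf_seven (orderOf x) ((orderOf_EE x).symm)
      refine ⟨(a, b, c, d), ?_⟩
      simp only [Prod.orderOf_mk, ha]
    · rintro ⟨⟨a, b, c, d⟩, rfl⟩
      obtain ⟨e, he, h⟩ := arith _ (orderOf_J1_mem a) _ (orderOf_J1_mem b) _ (orderOf_J1_mem c) _ (orderOf_J1_mem d)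
      have he' : e ∣ 6 ∨ e ∣ 7 := by
        revert he
        generalize e = m
        intro he
        simp only [Finset.mem_insert, Finset.mem_singleton] at he
        rcases he with rfl | rfl | rfl | rfl | rfl <;> norm_num
      obtain ⟨x, hx⟩ := exists_of (exists_six_EE (N + 1)) (exists_seven_EE N) e he'
      simp only [Prod.orderOf_mk]
      rcases h with h | h | h | h
      · exact ⟨(x, b, c, d), by simp only [Prod.orderOf_mk, hx, h]⟩
      · exact ⟨(x, a, c, d), by simp only [Prod.orderOf_mk, hx, h]⟩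
      · exact ⟨(x, a, b, d), by simp only [Prod.orderOf_mk, hx, h]⟩
      · exact ⟨(x, a, b, c), by simp only [Prod.orderOf_mk, hx, h]⟩

end Cfsg.Agent.S3627
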