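import Cfsg.Statements.S3660
import Cfsg.Agent.Lib.PrimeGraph.Char2
import Mathlib

set_option autoImplicit false
open Cfsg

namespace Cfsg.Agent.S3660

/-- The prime graph of a finite group has the prime divisors of its order as vertices, two distinct primes p, q being joined when the group has an element of order pq; two groups have the same prime graph when they have the same prime divisors and the same joined pairs. Let F be a finite field of characteristic 2 with at least 4 elements. Then there are finite groups of arbitrarily large order with the same prime graph as PSL(2,F); in particular PSL(2,F) is not determined by its prime graph. -/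
theorem result {F : Type*} [Field F] [Fintype F] [CharP F 2] (hF : 4 ≤ Fintype.card F) (N : ℕ) :
    ∃ (H : Type) (_ : Group H) (_ : Finite H), N < Nat.card H ∧
      ((∀ p : ℕ, p.Prime → (p ∣ Nat.card (Matrix.ProjectiveSpecialLinearGroup (Fin 2) F) ↔ p ∣ Nat.card H)) ∧
      (∀ p q : ℕ, p.Prime → q.Prime → p ≠ q → ((∃ g : (Matrix.ProjectiveSpecialLinearGroup (Fin 2) F), orderOf g = p * q) ↔ (∃ g : H, orderOf g = p * q)))) := by
  obtain ⟨H, gH, fH, hN, h1, h2⟩ := Cfsg.Agent.Lib.PrimeGraph.exists_family (F := F) N
  refine ⟨H, gH, fH, hN, ?_⟩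
  have hspec := Cfsg.Agent.Lib.KS2.SL2.spectrum (F := F) 2 hF
  have hrange := Cfsg.Agent.Lib.PrimeGraph.range_psl (F := F)
  have h2mem : (2 : ℕ) ∈ Set.range
      (orderOf : Matrix.ProjectiveSpecialLinearGroup (Fin 2) F → ℕ) := by
    rw [hspec]
    exact Or.inl dvd_rfl
  obtain ⟨x, hx⟩ := h2mem
  apply Cfsg.Agent.Lib.PrimeGraph.same_prime_graph
  · rw [hrange]
    exact h1
  · rw [hrange]
    exact h2
  · exact (dvd_of_eq hx.symm).trans (orderOf_dvd_natCard x)

end Cfsg.Agent.S3660
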