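import Cfsg.Statements.S3662
import Mathlib
import Cfsg.Agent.S1059
import Cfsg.Agent.Lib.Chev.All
import Cfsg.Agent.Lib.Classical.RingCongr
import Cfsg.Agent.Lib.PrimeGraph.K4
import Cfsg.Agent.Lib.PrimeGraph.ModExt

set_option autoImplicit false
open Cfsg

namespace Cfsg.Agent.S3662

open Cfsg.Lie Cfsg.Agent.Lib.PrimeGraph.FF4T Cfsg.Agent.Lib.PrimeGraph.ModExt
open scoped Matrix MatrixGroups

abbrev II : Type := chevG2.Idx
abbrev M6 : Type := Matrix (Fin 6) (Fin 6) K4
abbrev RR : Type := Fin chevG2.nroots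

/-- A matrix from a code. -/
def mat36 (x : ℕ) : Matrix (Fin 6) (Fin 6) K4 :=
  Matrix.of fun i j => cd2 (Nat.shiftRight x (Nat.add (Nat.mul 6 i.val) j.val))

def AmL : List ℕ := [2064, 131080, 66048, 8388612, 536870914, 4194560, 134225920, 17179869248, 8589938688, 67633152, 4295229440, 2164260864]
def BmL : List ℕ := [0, 0, 32, 1024, 32768, 0, 0, 1048576, 33554432, 1073741824, 0, 0]
def DmL : List ℕ := [34628173953, 270549120]
def BFc : ℕ := 1108378656
def uwL : List (List ℕ) := [[0, 3, 12], [3, 11], [0, 5], [0, 3], [2, 1], [2, 6], [1, 9], [0, 4, 11], [0, 7], [0, 4], [2, 9], [1, 2], [1, 10], [3, 13], [1, 3, 12], [3, 10], [3, 9], [1, 3], [1, 12], [5, 13], [5, 12], [1, 5, 10], [5, 9], [1, 5], [1, 13], [6, 13], [0, 11], [0, 8], [0, 8, 7], [1, 6], [9, 13], [10, 11], [0, 12], [0, 10], [9, 1], [0, 10, 5]]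
def dualL : List (ℕ × ℕ) := [(0, 0), (2, 2), (0, 4), (0, 3), (1, 3), (0, 2), (0, 1), (1, 2), (2, 1), (1, 0), (2, 0), (3, 1), (3, 0), (4, 0)]

/-- The action of a root vector on the six-dimensional module. -/
def Am (r : RR) : M6 := mat36 (AmL.getD r.val 0)
/-- The divided square of a root vector on the six-dimensional module. -/
def Bm (r : RR) : M6 := mat36 (BmL.getD r.val 0)
/-- Root elements on the six-dimensional module. -/
def yM (r : RR) (t : K4) : M6 := 1 + t • Am r + (t * t) • Bm r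
/-- The action of the Lie algebra on the six-dimensional module. -/
def Phi : II → M6 := Sum.elim (fun i => mat36 (DmL.getD i.val 0)) Am
/-- The symplectic form. -/
def BF : M6 := mat36 BFc

theorem yM_sq : ∀ (r : RR) (t : K4), yM r t * yM r t = 1 := by decide +kernel
theorem yM_sympl : ∀ (r : RR) (t : K4), (yM r t).transpose * BF * yM r t = BF := by decide +kernel
theorem equiv_gen : ∀ (r : RR) (t : K4) (c : II),
    ∑ d : II, (chevG2.xMat K4 r t d c) • Phi d = yM r t * Phi c * yM r t := by decide +kernel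

/-- The root element on the six-dimensional module as an invertible matrix. -/
def ys (r : RR) (t : K4) : GL (Fin 6) K4 := ⟨yM r t, yM r t, yM_sq r t, yM_sq r t⟩

abbrev GG : Type := GL II K4 × GL (Fin 6) K4

/-- Pairs of root elements. -/
def Gs : Set GG := {γ | ∃ (r : RR) (t : K4), (γ.1 : Matrix II II K4) = chevG2.xMat K4 r t ∧ γ.2 = ys r t}

/-- The group generated by the pairs of root elements. -/
def Gam : Subgroup GG := Subgroup.closure Gs

/-- The linear extension of `Phi`. -/
def PhiL (v : II → K4) : M6 := ∑ d, v d • Phi d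

lemma PhiL_sub (u v : II → K4) : PhiL (u - v) = PhiL u - PhiL v := by
  simp only [PhiL, Pi.sub_apply, sub_smul, Finset.sum_sub_distrib]

lemma PhiL_single (c : II) : PhiL (Pi.single c 1) = Phi c := by
  classical
  rw [PhiL, Finset.sum_eq_single c]
  · simp
  · intro d _ hd
    simp [Pi.single_eq_of_ne hd]
  · intro h
    exact absurd (Finset.mem_univ c) h

lemma equiv_gen' (r : RR) (t : K4) (v : II → K4) :
    PhiL (chevG2.xMat K4 r t *ᵥ v) = yM r t * PhiL v * yM r t := by
  have h1 : PhiL (chevG2.xMat K4 r t *ᵥ v) = ∑ c, v c • ∑ d, (chevG2.xMat K4 r t d c) • Phi d := by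
    simp only [PhiL, Matrix.mulVec, dotProduct, Finset.sum_smul, Finset.smul_sum, smul_smul]
    rw [Finset.sum_comm]
    apply Finset.sum_congr rfl
    intro c _
    apply Finset.sum_congr rfl
    intro d _
    rw [mul_comm]
  rw [h1]
  simp only [equiv_gen, PhiL, Finset.mul_sum, Finset.sum_mul]
  apply Finset.sum_congr rfl
  intro c _
  rw [Matrix.mul_smul, Matrix.smul_mul]

theorem equiv_all (γ : GG) (hγ : γ ∈ Gam) (v : II → K4) :
    PhiL ((γ.1 : Matrix II II K4) *ᵥ v) =
      (γ.2 : M6) * PhiL v * ((γ.2⁻¹ : GL (Fin 6) K4) : M6) := by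
  induction hγ using Subgroup.closure_induction generalizing v with
  | mem x hx =>
    obtain ⟨r, t, h1, h2⟩ := hx
    rw [h1, h2]
    exact equiv_gen' r t v
  | one =>
    simp
  | mul x y _ _ hx hy =>
    have e1 : (((x * y).1 : GL II K4) : Matrix II II K4) *ᵥ v =
        (x.1 : Matrix II II K4) *ᵥ ((y.1 : Matrix II II K4) *ᵥ v) := by
      rw [Matrix.mulVec_mulVec]
      rfl
    rw [e1, hx, hy]
    show (x.2 : M6) * ((y.2 : M6) * PhiL v * ((y.2⁻¹ : GL (Fin 6) K4) : M6)) * ((x.2⁻¹ : GL (Fin 6) K4) : M6) =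
      (((x.2 * y.2 : GL (Fin 6) K4)) : M6) * PhiL v * (((x.2 * y.2 : GL (Fin 6) K4)⁻¹ : GL (Fin 6) K4) : M6)
    rw [mul_inv_rev, Units.val_mul, Units.val_mul]
    simp only [mul_assoc]
  | inv x _ hx =>
    have h1 := hx ((x.1⁻¹ : GL II K4) *ᵥ v)
    have e1 : (x.1 : Matrix II II K4) *ᵥ (((x.1⁻¹ : GL II K4) : Matrix II II K4) *ᵥ v) = v := by
      rw [Matrix.mulVec_mulVec, ← Units.val_mul, mul_inv_cancel, Units.val_one, Matrix.one_mulVec]
    rw [e1] at h1
    show PhiL (((x.1⁻¹ : GL II K4) : Matrix II II K4) *ᵥ v) =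
      ((x.2⁻¹ : GL (Fin 6) K4) : M6) * PhiL v * ((x.2⁻¹⁻¹ : GL (Fin 6) K4) : M6)
    rw [inv_inv, h1]
    have e2 : ((x.2⁻¹ : GL (Fin 6) K4) : M6) * (x.2 : M6) = 1 := by
      rw [← Units.val_mul, inv_mul_cancel, Units.val_one]
    have e3 : ((x.2⁻¹ : GL (Fin 6) K4) : M6) * (x.2 : M6) = 1 := e2
    calc _ = (((x.2⁻¹ : GL (Fin 6) K4) : M6) * (x.2 : M6)) *
          PhiL (((x.1⁻¹ : GL II K4) : Matrix II II K4) *ᵥ v) * (((x.2⁻¹ : GL (Fin 6) K4) : M6) * (x.2 : M6)) := by
          rw [e2, one_mul, mul_one]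
      _ = _ := by simp only [mul_assoc]

theorem sympl_all (γ : GG) (hγ : γ ∈ Gam) : (γ.2 : M6).transpose * BF * (γ.2 : M6) = BF := by
  induction hγ using Subgroup.closure_induction with
  | mem x hx =>
    obtain ⟨r, t, _, h2⟩ := hx
    rw [h2]
    exact yM_sympl r t
  | one => simp
  | mul x y _ _ hx hy =>
    show ((x.2 * y.2 : GL (Fin 6) K4) : M6).transpose * BF * ((x.2 * y.2 : GL (Fin 6) K4) : M6) = BF
    rw [Units.val_mul, Matrix.transpose_mul]
    calc _ = (y.2 : M6).transpose * ((x.2 : M6).transpose * BF * (x.2 : M6)) * (y.2 : M6) := by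
          simp only [mul_assoc]
      _ = BF := by rw [hx, hy]
  | inv x _ hx =>
    show ((x.2⁻¹ : GL (Fin 6) K4) : M6).transpose * BF * ((x.2⁻¹ : GL (Fin 6) K4) : M6) = BF
    have e2 : (x.2 : M6) * ((x.2⁻¹ : GL (Fin 6) K4) : M6) = 1 := by
      rw [← Units.val_mul, mul_inv_cancel, Units.val_one]
    have e3 : ((x.2⁻¹ : GL (Fin 6) K4) : M6).transpose * (x.2 : M6).transpose = 1 := by
      rw [← Matrix.transpose_mul, e2, Matrix.transpose_one]
    calc _ = ((x.2⁻¹ : GL (Fin 6) K4) : M6).transpose * ((x.2 : M6).transpose * BF * (x.2 : M6)) *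
          ((x.2⁻¹ : GL (Fin 6) K4) : M6) := by rw [hx]
      _ = (((x.2⁻¹ : GL (Fin 6) K4) : M6).transpose * (x.2 : M6).transpose) * BF *
          ((x.2 : M6) * ((x.2⁻¹ : GL (Fin 6) K4) : M6)) := by simp only [mul_assoc]
      _ = BF := by rw [e2, e3, one_mul, mul_one]

/-- Words giving the matrix units. -/
def uw (i j : Fin 6) : List II :=
  (uwL.getD (6 * i.val + j.val) []).map fun k =>
    if h : k < 2 then Sum.inl ⟨k, h⟩ else Sum.inr ⟨(k - 2) % 12, Nat.mod_lt _ (by norm_num)⟩

theorem uw_spec : ∀ i j : Fin 6, ((uw i j).map Phi).prod = Matrix.single i j 1 := by decide +kernel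

theorem sq_one : ∀ a : K4, a * a = 1 → a = 1 := by decide +kernel

theorem BF_entry : BF 0 5 = 1 := by decide +kernel

/-- If the first coordinate is trivial so is the second. -/
theorem snd_eq_one (γ : GG) (hγ : γ ∈ Gam) (h1 : γ.1 = 1) : γ.2 = 1 := by
  set h : M6 := (γ.2 : M6) with hh
  have hc : ∀ c : II, Commute (Phi c) h := by
    intro c
    have h2 := equiv_all γ hγ (Pi.single c 1)
    rw [h1, Units.val_one, Matrix.one_mulVec, PhiL_single] at h2
    have e2 : ((γ.2⁻¹ : GL (Fin 6) K4) : M6) * h = 1 := by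
      rw [hh, ← Units.val_mul, inv_mul_cancel, Units.val_one]
    show Phi c * h = h * Phi c
    calc Phi c * h = (h * Phi c * ((γ.2⁻¹ : GL (Fin 6) K4) : M6)) * h := by rw [← h2]
      _ = h * Phi c * (((γ.2⁻¹ : GL (Fin 6) K4) : M6) * h) := by simp only [mul_assoc]
      _ = h * Phi c := by rw [e2, mul_one]
  have hl : ∀ l : List II, Commute (l.map Phi).prod h := by
    intro l
    induction l with
    | nil => simp
    | cons a l ih =>
      rw [List.map_cons, List.prod_cons]
      exact (hc a).mul_left ih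
  have hs : h ∈ Set.range (Matrix.scalar (Fin 6) : K4 →+* M6) := by
    apply Matrix.mem_range_scalar_of_commute_single
    intro i j _
    have := hl (uw i j)
    rwa [uw_spec] at this
  obtain ⟨a, ha⟩ := hs
  have h3 := sympl_all γ hγ
  rw [← hh, ← ha] at h3
  have h4 := congrFun (congrFun h3 0) 5
  rw [BF_entry] at h4
  have h5 : (Matrix.scalar (Fin 6) a : M6) = a • (1 : M6) := by
    ext i j
    simp [Matrix.scalar_apply, Matrix.smul_apply, Matrix.one_apply, Matrix.diagonal_apply]
  rw [h5] at h4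
  have h6 : ((a • (1 : M6)).transpose * BF * (a • (1 : M6))) 0 5 = a * a * BF 0 5 := by
    simp only [Matrix.transpose_smul, Matrix.transpose_one, Matrix.smul_mul, Matrix.mul_smul, Matrix.one_mul,
      Matrix.mul_one, Matrix.smul_apply, smul_eq_mul]
    ring
  rw [h6, BF_entry, mul_one] at h4
  have h7 := sq_one a h4
  apply Units.ext
  rw [Units.val_one]
  show h = 1
  rw [← ha, h5, h7, one_smul]

/-- Index of a coordinate. -/
def ixI : II → ℕ := Sum.elim (fun i => i.val) (fun r => 2 + r.val)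

/-- The dual entries. -/
def du1 (d : II) : Fin 6 := Fin.ofNat 6 (dualL.getD (ixI d) (0, 0)).1
/-- The dual entries. -/
def du2 (d : II) : Fin 6 := Fin.ofNat 6 (dualL.getD (ixI d) (0, 0)).2

theorem Phi_dual : ∀ d e : II, Phi e (du1 d) (du2 d) = if e = d then 1 else 0 := by decide +kernel

lemma PhiL_inj (v : II → K4) (h : PhiL v = 0) : v = 0 := by
  funext d
  have h1 := congrFun (congrFun h (du1 d)) (du2 d)
  simp only [PhiL, Matrix.sum_apply, Matrix.smul_apply, Phi_dual, smul_eq_mul, mul_ite, mul_one, mul_zero,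
    Finset.sum_ite_eq', Finset.mem_univ, if_true] at h1
  exact h1

/-- If the second coordinate is trivial so is the first. -/
theorem fst_eq_one (γ : GG) (hγ : γ ∈ Gam) (h1 : γ.2 = 1) : γ.1 = 1 := by
  have hv : ∀ v, (γ.1 : Matrix II II K4) *ᵥ v = v := by
    intro v
    have h2 := equiv_all γ hγ v
    rw [h1] at h2
    simp only [inv_one, Units.val_one, one_mul, mul_one] at h2
    have h3 : PhiL ((γ.1 : Matrix II II K4) *ᵥ v - v) = 0 := by
      rw [PhiL_sub, h2, sub_self]
    exact sub_eq_zero.1 (PhiL_inj _ h3)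
  apply Units.ext
  rw [Units.val_one]
  ext i j
  have h2 := congrFun (hv (Pi.single j 1)) i
  rw [Matrix.mulVec_single_one] at h2
  simpa [Matrix.one_apply, Pi.single_apply, eq_comm] using h2

/-! ### The homomorphism to the six-dimensional group -/

abbrev LL : Type := ↥(chevG2.group K4)

lemma map_fst : Gam.map (MonoidHom.fst (GL II K4) (GL (Fin 6) K4)) = chevG2.group K4 := by
  rw [Gam, MonoidHom.map_closure, ChevalleyDatum.group]
  congr 1
  ext g
  constructor
  · rintro ⟨γ, ⟨r, t, h1, _⟩, rfl⟩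
    exact ⟨r, t, h1⟩
  · rintro ⟨r, t, h1⟩
    exact ⟨(g, ys r t), ⟨r, t, h1, rfl⟩, rfl⟩

/-- The first projection. -/
def fstL : Gam →* LL :=
  ((MonoidHom.fst (GL II K4) (GL (Fin 6) K4)).comp Gam.subtype).codRestrict (chevG2.group K4) (fun γ => by
    rw [← map_fst]
    exact ⟨γ.1, γ.2, rfl⟩)

lemma fstL_bij : Function.Bijective fstL := by
  constructor
  · rw [injective_iff_map_eq_one]
    intro γ h
    have h1 : γ.1.1 = 1 := congrArg Subtype.val h
    apply Subtype.ext
    exact Prod.ext h1 (snd_eq_one γ.1 γ.2 h1)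
  · rintro ⟨g, hg⟩
    rw [← map_fst] at hg
    obtain ⟨γ, hγ, rfl⟩ := hg
    exact ⟨⟨γ, hγ⟩, rfl⟩

/-- The first projection as an isomorphism. -/
noncomputable def fstE : Gam ≃* LL := MulEquiv.ofBijective fstL fstL_bij

/-- The homomorphism to the six-dimensional group. -/
noncomputable def th : LL →* GL (Fin 6) K4 :=
  (MonoidHom.snd (GL II K4) (GL (Fin 6) K4)).comp (Gam.subtype.comp fstE.symm.toMonoidHom)

lemma th_spec (g : LL) : ((g : GL II K4), th g) ∈ Gam := by
  have h1 : fstL (fstE.symm g) = g := fstE.apply_symm_apply g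
  have h2 : ((fstE.symm g : Gam) : GG).1 = (g : GL II K4) := congrArg Subtype.val h1
  have h3 : ((g : GL II K4), th g) = ((fstE.symm g : Gam) : GG) := Prod.ext h2.symm rfl
  rw [h3]
  exact (fstE.symm g).2

lemma th_eq (g : LL) (h : GL (Fin 6) K4) (hg : ((g : GL II K4), h) ∈ Gam) : th g = h := by
  have h1 := Gam.mul_mem (Gam.inv_mem (th_spec g)) hg
  have h2 : ((g : GL II K4), th g)⁻¹ * ((g : GL II K4), h) = (1, (th g)⁻¹ * h) := by
    simp [Prod.ext_iff]
  rw [h2] at h1
  have h3 := snd_eq_one _ h1 rfl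
  exact (inv_mul_eq_one.1 h3)

lemma th_inj : Function.Injective th := by
  rw [injective_iff_map_eq_one]
  intro g hg
  have h1 := th_spec g
  rw [hg] at h1
  have h2 := fst_eq_one _ h1 rfl
  exact Subtype.ext h2

/-! ### Explicit elements -/

lemma xMat_sq (r : RR) (t : K4) : chevG2.xMat K4 r t * chevG2.xMat K4 r t = 1 := by
  have h := Cfsg.Agent.Lib.Chev.goodG2.x_add (F := K4) r.isLt t t
  have h0 := Cfsg.Agent.Lib.Chev.x_zero (D := chevG2) (F := K4) r.val
  have h2 : t + t = 0 := add_self4 t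
  rw [h2, h0] at h
  simpa [ChevalleyDatum.x, r.isLt] using h

/-- Root elements. -/
def xs (r : RR) (t : K4) : GL II K4 := ⟨chevG2.xMat K4 r t, chevG2.xMat K4 r t, xMat_sq r t, xMat_sq r t⟩

lemma xs_mem (r : RR) (t : K4) : xs r t ∈ chevG2.group K4 := Subgroup.subset_closure ⟨r, t, rfl⟩

/-- Root elements in the group. -/
def xL (r : RR) (t : K4) : LL := ⟨xs r t, xs_mem r t⟩

lemma th_xL (r : RR) (t : K4) : th (xL r t) = ys r t :=
  th_eq _ _ (Subgroup.subset_closure ⟨r, t, rfl, rfl⟩)

/-- A root index. -/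
def rr (n : ℕ) : RR := ⟨n % 12, Nat.mod_lt _ (by norm_num)⟩
/-- A field element. -/
def kk (n : ℕ) : K4 := (⟨n % 4, Nat.mod_lt _ (by norm_num)⟩ : Fin 4)

/-- The word attached to a list. -/
def wL (l : List (ℕ × ℕ)) : LL := (l.map fun p => xL (rr p.1) (kk p.2)).prod
/-- The matrix attached to a list. -/
def wM (l : List (ℕ × ℕ)) : M6 := (l.map fun p => yM (rr p.1) (kk p.2)).prod

lemma th_wL (l : List (ℕ × ℕ)) : ((th (wL l) : GL (Fin 6) K4) : M6) = wM l := by
  induction l with
  | nil => simp [wL, wM]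
  | cons a l ih =>
    have e1 : wL (a :: l) = xL (rr a.1) (kk a.2) * wL l := by simp [wL]
    have e2 : wM (a :: l) = yM (rr a.1) (kk a.2) * wM l := by simp [wM]
    rw [e1, e2, map_mul, Units.val_mul, ih, th_xL]
    rfl

lemma order_of_M (l : List (ℕ × ℕ)) (n : ℕ) (hn : 0 < n) (h1 : wM l ^ n = 1)
    (h2 : ∀ p : ℕ, p.Prime → p ∣ n → wM l ^ (n / p) ≠ 1) : orderOf (wL l) = n := by
  rw [← orderOf_injective th th_inj]
  apply orderOf_eq_of_pow_and_pow_div_prime hn
  · apply Units.ext
    rw [Units.val_pow_eq_pow_val, th_wL, h1, Units.val_one]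
  · intro p hp hd h
    apply h2 p hp hd
    have := congrArg (fun u : GL (Fin 6) K4 => (u : M6)) h
    simp only [Units.val_pow_eq_pow_val, th_wL, Units.val_one] at this
    exact this

def w6 : List (ℕ × ℕ) := [(10, 3), (3, 2), (1, 2)]
def w10 : List (ℕ × ℕ) := [(6, 1), (9, 1), (5, 3)]
def w7 : List (ℕ × ℕ) := [(1, 3), (5, 3), (11, 3)]
def w13 : List (ℕ × ℕ) := [(11, 2), (3, 1), (0, 3), (4, 1)]

theorem order6 : orderOf (wL w6) = 6 := by
  apply order_of_M _ _ (by norm_num) (by decide +kernel)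
  intro p hp hd
  have hp2 : p = 2 ∨ p = 3 := by
    have : p ∣ 2 * 3 := hd
    rcases (Nat.Prime.dvd_mul hp).1 this with h | h
    · exact Or.inl ((Nat.prime_dvd_prime_iff_eq hp Nat.prime_two).1 h)
    · exact Or.inr ((Nat.prime_dvd_prime_iff_eq hp Nat.prime_three).1 h)
  rcases hp2 with rfl | rfl
  · show wM w6 ^ 3 ≠ 1
    decide +kernel
  · show wM w6 ^ 2 ≠ 1
    decide +kernel

theorem order10 : orderOf (wL w10) = 10 := by
  apply order_of_M _ _ (by norm_num) (by decide +kernel)
  intro p hp hd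
  have hp2 : p = 2 ∨ p = 5 := by
    have : p ∣ 2 * 5 := hd
    rcases (Nat.Prime.dvd_mul hp).1 this with h | h
    · exact Or.inl ((Nat.prime_dvd_prime_iff_eq hp Nat.prime_two).1 h)
    · exact Or.inr ((Nat.prime_dvd_prime_iff_eq hp Nat.prime_five).1 h)
  rcases hp2 with rfl | rfl
  · show wM w10 ^ 5 ≠ 1
    decide +kernel
  · show wM w10 ^ 2 ≠ 1
    decide +kernel

theorem order7 : orderOf (wL w7) = 7 := by
  apply order_of_M _ _ (by norm_num) (by decide +kernel)
  intro p hp hd
  rw [(Nat.prime_dvd_prime_iff_eq hp (by norm_num)).1 hd]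
  show wM w7 ^ 1 ≠ 1
  decide +kernel

theorem order13 : orderOf (wL w13) = 13 := by
  apply order_of_M _ _ (by norm_num) (by decide +kernel)
  intro p hp hd
  rw [(Nat.prime_dvd_prime_iff_eq hp (by norm_num)).1 hd]
  show wM w13 ^ 1 ≠ 1
  decide +kernel

theorem sum7 : ∑ j ∈ Finset.range 7, wM w7 ^ j = 0 := by decide +kernel
theorem sum13 : ∑ j ∈ Finset.range 13, wM w13 ^ j = 0 := by decide +kernel

theorem smul7 : ∀ x : K4, (7 : ℕ) • x = x := by decide +kernel
theorem smul13 : ∀ x : K4, (13 : ℕ) • x = x := by decide +kernel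

lemma fix_free7 (u : Fin 6 → K4) (h : wM w7 *ᵥ u = u) : u = 0 := by
  have h1 : ∀ j : ℕ, wM w7 ^ j *ᵥ u = u := by
    intro j
    induction j with
    | zero => simp
    | succ j ih => rw [pow_succ, ← Matrix.mulVec_mulVec, h, ih]
  have h2 := congrArg (fun M : M6 => M *ᵥ u) sum7
  simp only [Matrix.sum_mulVec, h1, Matrix.zero_mulVec, Finset.sum_const, Finset.card_range] at h2
  funext k
  have h3 := congrFun h2 k
  simp only [Pi.smul_apply, smul7, Pi.zero_apply] at h3
  exact h3

lemma fix_free13 (u : Fin 6 → K4) (h : wM w13 *ᵥ u = u) : u = 0 := by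
  have h1 : ∀ j : ℕ, wM w13 ^ j *ᵥ u = u := by
    intro j
    induction j with
    | zero => simp
    | succ j ih => rw [pow_succ, ← Matrix.mulVec_mulVec, h, ih]
  have h2 := congrArg (fun M : M6 => M *ᵥ u) sum13
  simp only [Matrix.sum_mulVec, h1, Matrix.zero_mulVec, Finset.sum_const, Finset.card_range] at h2
  funext k
  have h3 := congrFun h2 k
  simp only [Pi.smul_apply, smul13, Pi.zero_apply] at h3
  exact h3

/-! ### The module -/

/-- The action on the six-dimensional module. -/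
@[reducible] noncomputable def actW : DistribMulAction LL (Fin 6 → K4) where
  smul g v := ((th g : GL (Fin 6) K4) : M6) *ᵥ v
  one_smul v := by
    show ((th 1 : GL (Fin 6) K4) : M6) *ᵥ v = v
    rw [map_one, Units.val_one, Matrix.one_mulVec]
  mul_smul g h v := by
    show ((th (g * h) : GL (Fin 6) K4) : M6) *ᵥ v = ((th g : GL (Fin 6) K4) : M6) *ᵥ (((th h : GL (Fin 6) K4) : M6) *ᵥ v)
    rw [map_mul, Units.val_mul, Matrix.mulVec_mulVec]
  smul_zero g := Matrix.mulVec_zero _
  smul_add g u v := Matrix.mulVec_add _ _ _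

theorem card_LL : Nat.card LL = 251596800 := by
  rw [Cfsg.Agent.S1059.result (F := K4) (q := 4) card_K4]
  norm_num

/-- Elements of prime order `p`, when `p` divides the order once, are conjugate to a power of a given one. -/
theorem conj_of_sylow (p : ℕ) [Fact p.Prime] (hf : (Nat.card LL).factorization p = 1) (g g₀ : LL)
    (hg : orderOf g = p) (hg₀ : orderOf g₀ = p) : ∃ (t : LL) (j : ℕ), g ^ j = t * g₀ * t⁻¹ := by
  classical
  have hc : ∀ x : LL, orderOf x = p → Nat.card (Subgroup.zpowers x) = p ^ (Nat.card LL).factorization p := by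
    intro x hx
    rw [hf, pow_one, Nat.card_zpowers, hx]
  let P : Sylow p LL := Sylow.ofCard (Subgroup.zpowers g) (hc g hg)
  let Q : Sylow p LL := Sylow.ofCard (Subgroup.zpowers g₀) (hc g₀ hg₀)
  obtain ⟨t, ht⟩ := MulAction.exists_smul_eq LL Q P
  have h1 : t * g₀ * t⁻¹ ∈ (P : Subgroup LL) := by
    rw [← ht, Sylow.coe_subgroup_smul]
    exact Subgroup.mem_map_of_mem _ (Subgroup.mem_zpowers g₀)
  have h2 : t * g₀ * t⁻¹ ∈ Subgroup.zpowers g := h1
  rw [← mem_powers_iff_mem_zpowers] at h2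
  obtain ⟨j, hj⟩ := h2
  exact ⟨t, j, hj⟩

/-- Fixed vectors of conjugates. -/
theorem no_fix (p : ℕ) [Fact p.Prime] (hf : (Nat.card LL).factorization p = 1) (g₀ : LL) (hg₀ : orderOf g₀ = p)
    (hfree : ∀ u : Fin 6 → K4, ((th g₀ : GL (Fin 6) K4) : M6) *ᵥ u = u → u = 0) (g : LL) (hg : orderOf g = p)
    (w : Fin 6 → K4) (hw : ((th g : GL (Fin 6) K4) : M6) *ᵥ w = w) : w = 0 := by
  obtain ⟨t, j, htj⟩ := conj_of_sylow p hf g g₀ hg hg₀
  have h1 : ∀ i : ℕ, ((th (g ^ i) : GL (Fin 6) K4) : M6) *ᵥ w = w := by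
    intro i
    induction i with
    | zero => simp
    | succ i ih => rw [pow_succ, map_mul, Units.val_mul, ← Matrix.mulVec_mulVec, hw, ih]
  have h2 := h1 j
  rw [htj, map_mul, map_mul, map_inv] at h2
  set a : M6 := ((th t : GL (Fin 6) K4) : M6) with ha
  set b : M6 := (((th t)⁻¹ : GL (Fin 6) K4) : M6) with hb
  have hab : b * a = 1 := by rw [ha, hb, ← Units.val_mul, inv_mul_cancel, Units.val_one]
  have hba : a * b = 1 := by rw [ha, hb, ← Units.val_mul, mul_inv_cancel, Units.val_one]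
  have h3 : ((th g₀ : GL (Fin 6) K4) : M6) *ᵥ (b *ᵥ w) = b *ᵥ w := by
    have h4 : (a * ((th g₀ : GL (Fin 6) K4) : M6) * b) *ᵥ w = w := by
      have e : ((th t * th g₀ * (th t)⁻¹ : GL (Fin 6) K4) : M6) = a * ((th g₀ : GL (Fin 6) K4) : M6) * b := by
        simp only [Units.val_mul, ha, hb]
      rw [e] at h2
      exact h2
    calc _ = (b * a) *ᵥ (((th g₀ : GL (Fin 6) K4) : M6) *ᵥ (b *ᵥ w)) := by
          rw [hab, Matrix.one_mulVec]
      _ = b *ᵥ ((a * ((th g₀ : GL (Fin 6) K4) : M6) * b) *ᵥ w) := by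
          simp only [Matrix.mulVec_mulVec, mul_assoc]
      _ = _ := by rw [h4]
  have h5 := hfree _ h3
  calc w = (a * b) *ᵥ w := by rw [hba, Matrix.one_mulVec]
    _ = a *ᵥ (b *ᵥ w) := by rw [Matrix.mulVec_mulVec]
    _ = 0 := by rw [h5, Matrix.mulVec_zero]

theorem two_nsmul_K : ∀ x : K4, (2 : ℕ) • x = 0 := by decide +kernel

theorem exists_H (N : ℕ) : ∃ (H : Type) (_ : Group H) (_ : Finite H), N < Nat.card H ∧ SamePG LL H := by
  classical
  letI := actW
  haveI : Nontrivial (Fin 6 → K4) := inferInstance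
  refine exists_of_module (S := LL) (W := Fin 6 → K4) 2 Nat.prime_two ?_ ?_ ?_ N
  · intro w
    funext k
    exact two_nsmul_K (w k)
  · rw [card_LL]
    norm_num
  · intro g q hq hq2 hgq w hw hfix
    have hfix' : ((th g : GL (Fin 6) K4) : M6) *ᵥ w = w := hfix
    have hdvd : q ∣ 251596800 := by
      rw [← card_LL, ← hgq]
      exact orderOf_dvd_natCard g
    have hq' : q = 3 ∨ q = 5 ∨ q = 7 ∨ q = 13 := by
      have h1 : q ∣ 2 ^ 12 * 3 ^ 3 * 5 ^ 2 * 7 * 13 := by simpa using hdvd
      rcases (Nat.Prime.dvd_mul hq).1 h1 with h1 | h1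
      · rcases (Nat.Prime.dvd_mul hq).1 h1 with h1 | h1
        · rcases (Nat.Prime.dvd_mul hq).1 h1 with h1 | h1
          · rcases (Nat.Prime.dvd_mul hq).1 h1 with h1 | h1
            · exact absurd ((Nat.prime_dvd_prime_iff_eq hq Nat.prime_two).1 (hq.dvd_of_dvd_pow h1)) hq2
            · exact Or.inl ((Nat.prime_dvd_prime_iff_eq hq Nat.prime_three).1 (hq.dvd_of_dvd_pow h1))
          · exact Or.inr (Or.inl ((Nat.prime_dvd_prime_iff_eq hq Nat.prime_five).1 (hq.dvd_of_dvd_pow h1)))
        · exact Or.inr (Or.inr (Or.inl ((Nat.prime_dvd_prime_iff_eq hq (by norm_num)).1 h1)))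
      · exact Or.inr (Or.inr (Or.inr ((Nat.prime_dvd_prime_iff_eq hq (by norm_num)).1 h1)))
    rcases hq' with rfl | rfl | rfl | rfl
    · exact ⟨wL w6, order6⟩
    · exact ⟨wL w10, order10⟩
    · exfalso
      apply hw
      haveI : Fact (Nat.Prime 7) := ⟨by norm_num⟩
      refine no_fix 7 ?_ (wL w7) order7 ?_ g hgq w hfix'
      · rw [card_LL, show (251596800 : ℕ) = 7 * 35942400 by norm_num, Nat.factorization_mul (by norm_num) (by norm_num),
          Finsupp.add_apply, Nat.Prime.factorization_self (by norm_num),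
          Nat.factorization_eq_zero_of_not_dvd (by norm_num)]
      · intro u hu
        rw [th_wL] at hu
        exact fix_free7 u hu
    · exfalso
      apply hw
      haveI : Fact (Nat.Prime 13) := ⟨by norm_num⟩
      refine no_fix 13 ?_ (wL w13) order13 ?_ g hgq w hfix'
      · rw [card_LL, show (251596800 : ℕ) = 13 * 19353600 by norm_num, Nat.factorization_mul (by norm_num) (by norm_num),
          Finsupp.add_apply, Nat.Prime.factorization_self (by norm_num),
          Nat.factorization_eq_zero_of_not_dvd (by norm_num)]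
      · intro u hu
        rw [th_wL] at hu
        exact fix_free13 u hu

/-! ### Change of field -/

section congr

variable {F K : Type*} [Field F] [Field K]

lemma xMat_congr (φ : F ≃+* K) (r : RR) (t : F) :
    (chevG2.xMat F r t).map φ = chevG2.xMat K r (φ t) := by
  ext row col
  rcases col with i | s <;> rcases row with i' | u
  · simp only [Matrix.map_apply, ChevalleyDatum.xMat, Matrix.of_apply]
    split_ifs <;> simp
  · simp only [Matrix.map_apply, ChevalleyDatum.xMat, Matrix.of_apply]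
    split_ifs <;> simp
  · simp only [Matrix.map_apply, ChevalleyDatum.xMat, Matrix.of_apply]
    split_ifs <;> simp
  · simp only [Matrix.map_apply, ChevalleyDatum.xMat, Matrix.of_apply]
    split_ifs <;> simp [map_list_sum, List.map_map, Function.comp_def]

/-- The Chevalley group along a field isomorphism. -/
noncomputable def chevCongr (φ : F ≃+* K) : ↥(chevG2.group F) ≃* ↥(chevG2.group K) := by
  refine ((Cfsg.Agent.Lib.Classical.RC.glCongr (n := II) φ).subgroupMap (chevG2.group F)).trans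
    (MulEquiv.subgroupCongr ?_)
  rw [ChevalleyDatum.group, MonoidHom.map_closure, ChevalleyDatum.group]
  congr 1
  ext g
  constructor
  · rintro ⟨g', ⟨r, t, h1⟩, rfl⟩
    refine ⟨r, φ t, ?_⟩
    rw [← xMat_congr, ← h1]
    rfl
  · rintro ⟨r, t, h1⟩
    refine ⟨(Cfsg.Agent.Lib.Classical.RC.glCongr (n := II) φ).symm g, ⟨r, φ.symm t, ?_⟩, by simp⟩
    have h2 := xMat_congr φ.symm r t
    rw [← h2, ← h1]
    rfl

end congr

/-- The Chevalley group over any field with four elements. -/
noncomputable def chevEquiv {F : Type*} [Field F] [Fintype F] (hF : Fintype.card F = 4) :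
    ↥(chevG2.group F) ≃* LL := by
  have hc : Fintype.card F = Fintype.card K4 := by rw [hF, card_K4]
  exact chevCongr (FiniteField.ringEquivOfCardEq hc)

/-- The prime graph of a finite group has the prime divisors of its order as vertices, two distinct primes p, q being joined when the group has an element of order pq; two groups have the same prime graph when they have the same prime divisors and the same joined pairs. Let F be the field with 4 elements and L the Chevalley group of type G₂ over F. There are finite groups of arbitrarily large order with the same prime graph as L. -/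
theorem result {F : Type*} [Field F] [Fintype F] (hF : Fintype.card F = 4) (N : ℕ) :
    ∃ (H : Type) (_ : Group H) (_ : Finite H), N < Nat.card H ∧
      ((∀ p : ℕ, p.Prime → (p ∣ Nat.card ↥(Cfsg.Lie.chevG2.group F) ↔ p ∣ Nat.card H)) ∧
      (∀ p q : ℕ, p.Prime → q.Prime → p ≠ q → ((∃ g : ↥(Cfsg.Lie.chevG2.group F), orderOf g = p * q) ↔ (∃ g : H, orderOf g = p * q)))) := by
  obtain ⟨H, hG, hFin, hlt, hs⟩ := exists_H N
  exact ⟨H, hG, hFin, hlt, SamePG.congr_left (chevEquiv hF) hs⟩


end Cfsg.Agent.S3662
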