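import Cfsg.Statements.S3663
import Mathlib
import Cfsg.Agent.S0278
import Cfsg.Agent.S0279
import Cfsg.Agent.Lib.Classical.RingCongr3
import Cfsg.Agent.Lib.PrimeGraph.K16
import Cfsg.Agent.Lib.PrimeGraph.Code
import Cfsg.Agent.Lib.PrimeGraph.ModExt

set_option autoImplicit false
open Cfsg

namespace Cfsg.Agent.S3663

open Cfsg.Agent.Lib.PrimeGraph.FF16 Cfsg.Agent.Lib.PrimeGraph.Code Cfsg.Agent.Lib.PrimeGraph.ModExt
open scoped Matrix

def cd (x : ℕ) : K16 := (⟨Nat.mod x 16, Nat.mod_lt _ (by norm_num)⟩ : Fin 16)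

def vecC (x : ℕ) : Fin 3 → K16 := ![cd x, cd (Nat.shiftRight x 4), cd (Nat.shiftRight x 8)]

def ptsL : List ℕ := [272, 2064, 2576, 3088, 3856, 257, 2049, 2561, 3073, 3841, 17, 1057, 1313, 1569, 2337, 3617, 1073, 1329, 1585, 2353, 3633, 577, 833, 1857, 2881, 3393, 593, 849, 1873, 2897, 3409, 609, 865, 1889, 2913, 3425, 1137, 1393, 1649, 2417, 3697, 129, 657, 913, 1937, 2961, 3473, 161, 1201, 1457, 1713, 2481, 3761, 193, 1233, 1489, 1745, 2513, 3793, 737, 993, 2017, 3041, 3553, 241]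

def pts (i : Fin 65) : Fin 3 → K16 := vecC (ptsL.getD i.val 0)

def c0L : List ℕ := [0, 3, 3, 4, 0, 2, 1, 0, 2, 0, 0, 1, 4, 0, 2, 3, 1, 3, 0, 1, 0, 0, 0, 4, 3, 3, 0, 1, 3, 2, 4, 2, 0, 4, 4, 0, 1, 1, 4, 2, 2, 0, 3, 4, 4, 1, 3, 0, 2, 2, 1, 0, 0, 0, 0, 0, 0, 0, 0, 0, 0, 0, 0, 0, 0]

def c0 (i : Fin 65) : ZMod 5 := ((c0L.getD i.val 0 : ℕ) : ZMod 5)

def tblL : List ℕ := [37, 11, 46, 5, 24, 12, 21, 47, 62, 50, 17, 64, 22, 7, 51, 4, 33, 32, 35, 31, 34, 20, 52, 15, 58, 40, 53, 44, 19, 26, 54, 30, 6, 55, 41, 0, 42, 27, 49, 2, 36, 3, 45, 56, 48, 8, 61, 29, 16, 43, 13, 63, 10, 23, 39, 60, 28, 18, 9, 57, 59, 38, 1, 25, 14]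

def tbl (i : Fin 65) : Fin 65 := Fin.ofNat 65 (tblL.getD i.val 0)

def lamL : List ℕ := [4, 1, 6, 15, 2, 3, 6, 1, 8, 5, 7, 8, 2, 15, 3, 4, 6, 12, 1, 13, 14, 3, 9, 7, 6, 15, 13, 7, 9, 8, 1, 12, 6, 8, 9, 7, 11, 1, 12, 3, 3, 10, 9, 3, 13, 12, 5, 15, 15, 5, 8, 4, 7, 13, 13, 7, 10, 6, 5, 5, 15, 1, 1, 9, 12]

def lam (i : Fin 65) : K16 := cd (lamL.getD i.val 0)

def orbL : List ℕ := [0, 1, 2, 3, 4, 3, 3, 4, 1, 4, 3, 1, 3, 4, 1, 4, 0, 3, 0, 2, 3, 3, 3, 4, 4, 1, 4, 0, 2, 4, 2, 2, 3, 0, 3, 0, 1, 0, 2, 2, 1, 3, 1, 2, 0, 1, 2, 4, 0, 2, 4, 1, 3, 4, 2, 0, 2, 0, 4, 0, 0, 2, 1, 1, 1]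

def orb (i : Fin 65) : Fin 5 := Fin.ofNat 5 (orbL.getD i.val 0)

def repsL : List ℕ := [0, 1, 2, 3, 4]

def reps (k : Fin 5) : Fin 65 := Fin.ofNat 65 (repsL.getD k.val 0)

def expsL : List ℕ := [0, 0, 0, 0, 0, 1, 8, 6, 11, 3, 5, 1, 2, 5, 3, 12, 5, 6, 11, 8, 10, 9, 3, 11, 1, 6, 9, 2, 7, 8, 10, 9, 7, 6, 11, 12, 8, 1, 3, 12, 7, 12, 9, 5, 3, 10, 1, 7, 4, 4, 4, 4, 4, 10, 11, 7, 6, 10, 2, 9, 8, 2, 12, 5, 2]

def exps (i : Fin 65) : ℕ := expsL.getD i.val 0

/-- An element of order `13`. -/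
def A13 : Matrix (Fin 3) (Fin 3) K16 := !![cd 9, cd 14, cd 10; cd 15, cd 6, cd 9; cd 9, cd 1, cd 6]
/-- An element of order `15`. -/
def A15 : Matrix (Fin 3) (Fin 3) K16 := !![cd 13, cd 15, cd 7; cd 0, cd 6, cd 13; cd 6, cd 9, cd 15]
/-- An element of order `10`. -/
def A10 : Matrix (Fin 3) (Fin 3) K16 := !![cd 4, cd 4, cd 8; cd 15, cd 5, cd 6; cd 4, cd 12, cd 9]

/-! ### The unital -/

abbrev herm := Cfsg.hermForm 3 K16 4
abbrev VV := Fin 3 → K16
abbrev SS := ↥(Cfsg.SU 3 K16 4)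

/-- The matrix of an element. -/
def mat (g : SS) : Matrix (Fin 3) (Fin 3) K16 := ((g : Matrix.SpecialLinearGroup (Fin 3) K16) : Matrix (Fin 3) (Fin 3) K16)

lemma mat_mul (g h : SS) : mat (g * h) = mat g * mat h := rfl
lemma mat_one : mat (1 : SS) = 1 := rfl
lemma mat_pow (g : SS) (n : ℕ) : mat (g ^ n) = mat g ^ n := by
  induction n with
  | zero => simp [mat_one]
  | succ n ih => rw [pow_succ, pow_succ, mat_mul, ih]

lemma eq_one_of_mat (g : SS) (h : mat g = 1) : g = 1 := by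
  apply Subtype.ext
  apply Subtype.ext
  exact h

lemma herm_mat (g : SS) (u v : VV) : herm (mat g *ᵥ u) (mat g *ᵥ v) = herm u v := g.2 u v

lemma mat_inv_mulVec (g : SS) (v : VV) : mat g⁻¹ *ᵥ (mat g *ᵥ v) = v := by
  rw [Matrix.mulVec_mulVec, ← mat_mul, inv_mul_cancel, mat_one, Matrix.one_mulVec]

lemma mat_mulVec_inv (g : SS) (v : VV) : mat g *ᵥ (mat g⁻¹ *ᵥ v) = v := by
  rw [Matrix.mulVec_mulVec, ← mat_mul, mul_inv_cancel, mat_one, Matrix.one_mulVec]

lemma herm_smul_left (a : K16) (u v : VV) : herm (a • u) v = a * herm u v := by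
  simp only [herm, Cfsg.hermForm, Fin.sum_univ_three, Pi.smul_apply, smul_eq_mul]
  ring

lemma herm_smul_right (a : K16) (u v : VV) : herm u (a • v) = a ^ 4 * herm u v := by
  simp only [herm, Cfsg.hermForm, Fin.sum_univ_three, Pi.smul_apply, smul_eq_mul, mul_pow]
  ring

/-- Normal forms of nonzero vectors. -/
lemma exists_norm (v : VV) (hv : v ≠ 0) : ∃ a : K16, a ≠ 0 ∧ ∃ w : VV, v = a • w ∧
    ((∃ x y : K16, w = ![1, x, y]) ∨ (∃ y : K16, w = ![0, 1, y]) ∨ w = ![0, 0, 1]) := by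
  by_cases h0 : v 0 = 0
  · by_cases h1 : v 1 = 0
    · have h2 : v 2 ≠ 0 := by
        intro h2
        apply hv
        funext k
        fin_cases k
        · exact h0
        · exact h1
        · exact h2
      refine ⟨v 2, h2, ![0, 0, 1], ?_, Or.inr (Or.inr rfl)⟩
      funext k
      fin_cases k
      · simpa using h0
      · simpa using h1
      · simp
    · refine ⟨v 1, h1, ![0, 1, v 2 / v 1], ?_, Or.inr (Or.inl ⟨_, rfl⟩)⟩
      funext k
      fin_cases k
      · simpa using h0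
      · simp
      · simp [mul_div_cancel₀, h1]
  · refine ⟨v 0, h0, ![1, v 1 / v 0, v 2 / v 0], ?_, Or.inl ⟨_, _, rfl⟩⟩
    funext k
    fin_cases k
    · simp
    · simp [mul_div_cancel₀, h0]
    · simp [mul_div_cancel₀, h0]

theorem pts_ne : ∀ i, pts i ≠ 0 := by decide +kernel
theorem pts_iso : ∀ i, herm (pts i) (pts i) = 0 := by decide +kernel
theorem pts_inj : ∀ i j : Fin 65, ∀ a : K16, a ≠ 0 → pts i = a • pts j → i = j := by decide +kernel

theorem iso1 : ∀ x y : K16, herm ![1, x, y] ![1, x, y] = 0 → ∃ i, pts i = ![1, x, y] := by decide +kernel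
theorem iso2 : ∀ y : K16, herm ![0, 1, y] ![0, 1, y] = 0 → ∃ i, pts i = ![0, 1, y] := by decide +kernel
theorem iso3 : herm ![0, 0, 1] ![0, 0, 1] = 0 → ∃ i, pts i = ![0, 0, 1] := by decide +kernel

/-- Isotropic vectors are multiples of the points. -/
lemma exists_pts (v : VV) (hv : v ≠ 0) (hi : herm v v = 0) : ∃ j, ∃ a : K16, a ≠ 0 ∧ v = a • pts j := by
  obtain ⟨a, ha, w, rfl, hw⟩ := exists_norm v hv
  have hw0 : herm w w = 0 := by
    rw [herm_smul_left, herm_smul_right] at hi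
    have h5 : a ^ 4 ≠ 0 := pow_ne_zero _ ha
    exact (mul_eq_zero.1 ((mul_eq_zero.1 hi).resolve_left ha)).resolve_left h5
  have : ∃ i, pts i = w := by
    rcases hw with ⟨x, y, rfl⟩ | ⟨y, rfl⟩ | rfl
    · exact iso1 x y hw0
    · exact iso2 y hw0
    · exact iso3 hw0
  obtain ⟨i, hi'⟩ := this
  exact ⟨i, a, ha, by rw [hi']⟩

lemma key (g : SS) (i : Fin 65) : ∃ j, ∃ a : K16, a ≠ 0 ∧ mat g *ᵥ pts i = a • pts j := by
  apply exists_pts
  · intro h
    have h1 := mat_inv_mulVec g (pts i)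
    rw [h, Matrix.mulVec_zero] at h1
    exact pts_ne i h1.symm
  · rw [herm_mat, pts_iso]

/-- The action on the points of the unital. -/
noncomputable def fp (g : SS) (i : Fin 65) : Fin 65 := (key g i).choose

lemma fp_spec (g : SS) (i : Fin 65) : ∃ a : K16, a ≠ 0 ∧ mat g *ᵥ pts i = a • pts (fp g i) := (key g i).choose_spec

lemma fp_uniq (g : SS) (i j : Fin 65) (a : K16) (ha : a ≠ 0) (h : mat g *ᵥ pts i = a • pts j) : fp g i = j := by
  obtain ⟨b, hb, h1⟩ := fp_spec g i
  apply pts_inj _ _ (b⁻¹ * a) (mul_ne_zero (inv_ne_zero hb) ha)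
  rw [mul_smul, ← h, h1, smul_smul, inv_mul_cancel₀ hb, one_smul]

noncomputable instance actPts : MulAction SS (Fin 65) where
  smul := fp
  one_smul i := by
    apply fp_uniq 1 i i 1 one_ne_zero
    rw [mat_one, Matrix.one_mulVec, one_smul]
  mul_smul g h i := by
    obtain ⟨a, ha, h1⟩ := fp_spec h i
    obtain ⟨b, hb, h2⟩ := fp_spec g (fp h i)
    apply fp_uniq (g * h) i _ (a * b) (mul_ne_zero ha hb)
    rw [mat_mul, ← Matrix.mulVec_mulVec, h1, Matrix.mulVec_smul, h2, smul_smul]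
    rfl

lemma smul_def (g : SS) (i : Fin 65) : g • i = fp g i := rfl

/-- The blocks. -/
def BB (n : VV) : Finset (Fin 65) := Finset.univ.filter (fun i => herm (pts i) n = 0)

/-- The code. -/
def CC : AddSubgroup (Fin 65 → ZMod 5) where
  carrier := {c | ∀ n : VV, herm n n ≠ 0 → ∑ i ∈ BB n, c i = 0}
  zero_mem' := by
    intro n _
    simp
  add_mem' := by
    intro c d hc hd n hn
    simp only [Pi.add_apply, Finset.sum_add_distrib]
    rw [hc n hn, hd n hn, add_zero]
  neg_mem' := by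
    intro c hc n hn
    simp only [Pi.neg_apply, Finset.sum_neg_distrib]
    rw [hc n hn, neg_zero]

lemma mem_BB_iff (g : SS) (n : VV) (i : Fin 65) : g⁻¹ • i ∈ BB (mat g⁻¹ *ᵥ n) ↔ i ∈ BB n := by
  simp only [BB, Finset.mem_filter, Finset.mem_univ, true_and]
  obtain ⟨a, ha, h1⟩ := fp_spec g⁻¹ i
  have h2 : herm (pts i) n = a * herm (pts (fp g⁻¹ i)) (mat g⁻¹ *ᵥ n) := by
    rw [← herm_smul_left, ← h1, herm_mat]
  rw [h2, smul_def]
  constructor
  · intro h
    rw [h, mul_zero]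
  · intro h
    exact (mul_eq_zero.1 h).resolve_left ha

lemma actF_mem (g : SS) (c : Fin 65 → ZMod 5) (hc : c ∈ CC) : actF 5 g c ∈ CC := by
  intro n hn
  have h1 : herm (mat g⁻¹ *ᵥ n) (mat g⁻¹ *ᵥ n) ≠ 0 := by
    rw [herm_mat]
    exact hn
  have h2 := hc _ h1
  rw [← h2]
  apply Finset.sum_bij (fun i _ => g⁻¹ • i)
  · intro i hi
    exact (mem_BB_iff g n i).2 hi
  · intro i _ j _ h
    exact MulAction.injective g⁻¹ h
  · intro j hj
    refine ⟨g • j, ?_, by simp⟩
    rw [← mem_BB_iff g n]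
    simpa using hj
  · intro i _
    rfl

/-- Blocks do not depend on a scalar. -/
lemma BB_smul (a : K16) (ha : a ≠ 0) (n : VV) : BB (a • n) = BB n := by
  ext i
  simp only [BB, Finset.mem_filter, Finset.mem_univ, true_and, herm_smul_right]
  constructor
  · intro h
    exact (mul_eq_zero.1 h).resolve_left (pow_ne_zero _ ha)
  · intro h
    rw [h, mul_zero]

theorem blk1 : ∀ x y : K16, herm ![1, x, y] ![1, x, y] ≠ 0 →
    (∑ i ∈ BB ![1, x, y], (1 : ZMod 5)) = 0 ∧ (∑ i ∈ BB ![1, x, y], c0 i) = 0 := by decide +kernel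
theorem blk2 : ∀ y : K16, herm ![0, 1, y] ![0, 1, y] ≠ 0 →
    (∑ i ∈ BB ![0, 1, y], (1 : ZMod 5)) = 0 ∧ (∑ i ∈ BB ![0, 1, y], c0 i) = 0 := by decide +kernel
theorem blk3 : herm ![0, 0, 1] ![0, 0, 1] ≠ 0 →
    (∑ i ∈ BB ![0, 0, 1], (1 : ZMod 5)) = 0 ∧ (∑ i ∈ BB ![0, 0, 1], c0 i) = 0 := by decide +kernel

lemma blk (n : VV) (hn : herm n n ≠ 0) : (∑ i ∈ BB n, (1 : ZMod 5)) = 0 ∧ (∑ i ∈ BB n, c0 i) = 0 := by
  have hn0 : n ≠ 0 := by
    rintro rfl
    apply hn
    simp [herm, Cfsg.hermForm]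
  obtain ⟨a, ha, w, rfl, hw⟩ := exists_norm n hn0
  rw [BB_smul a ha]
  have hw0 : herm w w ≠ 0 := by
    intro h
    apply hn
    rw [herm_smul_left, herm_smul_right, h, mul_zero, mul_zero]
  rcases hw with ⟨x, y, rfl⟩ | ⟨y, rfl⟩ | rfl
  · exact blk1 x y hw0
  · exact blk2 y hw0
  · exact blk3 hw0

lemma c0_mem : c0 ∈ CC := fun n hn => (blk n hn).2

/-! ### Elements of given orders -/

lemma pow4_add : ∀ a b : K16, (a + b) ^ 4 = a ^ 4 + b ^ 4 := by decide +kernel

/-- Unitary matrices preserve the form. -/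
lemma unitary_pres (A : Matrix (Fin 3) (Fin 3) K16) (h : A.transpose * A.map (· ^ 4) = 1) (u v : VV) :
    herm (A *ᵥ u) (A *ᵥ v) = herm u v := by
  have h1 : ∀ w : VV, (fun i => (A *ᵥ w) i ^ 4) = A.map (· ^ 4) *ᵥ (fun i => w i ^ 4) := by
    intro w
    funext i
    simp only [Matrix.mulVec, dotProduct, Fin.sum_univ_three, pow4_add, mul_pow, Matrix.map_apply]
  have h2 : ∀ x y : VV, herm x y = x ⬝ᵥ (fun i => y i ^ 4) := fun x y => rfl
  rw [h2, h2, h1, Matrix.dotProduct_mulVec]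
  congr 1
  rw [← Matrix.vecMul_transpose, Matrix.vecMul_vecMul, h, Matrix.vecMul_one]

theorem A13_u : A13.transpose * A13.map (· ^ 4) = 1 := by decide +kernel
theorem A15_u : A15.transpose * A15.map (· ^ 4) = 1 := by decide +kernel
theorem A10_u : A10.transpose * A10.map (· ^ 4) = 1 := by decide +kernel
theorem A13_d : A13.det = 1 := by rw [Matrix.det_fin_three]; decide +kernel
theorem A15_d : A15.det = 1 := by rw [Matrix.det_fin_three]; decide +kernel
theorem A10_d : A10.det = 1 := by rw [Matrix.det_fin_three]; decide +kernel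

def g13 : SS := ⟨⟨A13, A13_d⟩, fun u v => unitary_pres A13 A13_u u v⟩
def g15 : SS := ⟨⟨A15, A15_d⟩, fun u v => unitary_pres A15 A15_u u v⟩
def g10 : SS := ⟨⟨A10, A10_d⟩, fun u v => unitary_pres A10 A10_u u v⟩

lemma pow_eq_one_of_mat (g : SS) (n : ℕ) (h : mat g ^ n = 1) : g ^ n = 1 := by
  apply eq_one_of_mat
  rw [mat_pow, h]

lemma pow_ne_one_of_mat (g : SS) (n : ℕ) (h : mat g ^ n ≠ 1) : g ^ n ≠ 1 := by
  intro h1
  apply h
  rw [← mat_pow, h1, mat_one]

theorem order13 : orderOf g13 = 13 := by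
  haveI : Fact (Nat.Prime 13) := ⟨by norm_num⟩
  apply orderOf_eq_prime
  · exact pow_eq_one_of_mat _ _ (by show A13 ^ 13 = 1; decide +kernel)
  · intro h
    have h1 : A13 = 1 := congrArg mat h
    revert h1
    decide +kernel

theorem order15 : orderOf g15 = 15 := by
  apply orderOf_eq_of_pow_and_pow_div_prime (by norm_num)
  · exact pow_eq_one_of_mat _ _ (by show A15 ^ 15 = 1; decide +kernel)
  · intro p hp hd
    have hp2 : p = 3 ∨ p = 5 := by
      have : p ∣ 3 * 5 := hd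
      rcases (Nat.Prime.dvd_mul hp).1 this with h | h
      · exact Or.inl ((Nat.prime_dvd_prime_iff_eq hp Nat.prime_three).1 h)
      · exact Or.inr ((Nat.prime_dvd_prime_iff_eq hp Nat.prime_five).1 h)
    rcases hp2 with rfl | rfl
    · exact pow_ne_one_of_mat _ _ (by show A15 ^ 5 ≠ 1; decide +kernel)
    · exact pow_ne_one_of_mat _ _ (by show A15 ^ 3 ≠ 1; decide +kernel)

theorem order10 : orderOf g10 = 10 := by
  apply orderOf_eq_of_pow_and_pow_div_prime (by norm_num)
  · exact pow_eq_one_of_mat _ _ (by show A10 ^ 10 = 1; decide +kernel)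
  · intro p hp hd
    have hp2 : p = 2 ∨ p = 5 := by
      have : p ∣ 2 * 5 := hd
      rcases (Nat.Prime.dvd_mul hp).1 this with h | h
      · exact Or.inl ((Nat.prime_dvd_prime_iff_eq hp Nat.prime_two).1 h)
      · exact Or.inr ((Nat.prime_dvd_prime_iff_eq hp Nat.prime_five).1 h)
    rcases hp2 with rfl | rfl
    · exact pow_ne_one_of_mat _ _ (by show A10 ^ 5 ≠ 1; decide +kernel)
    · exact pow_ne_one_of_mat _ _ (by show A10 ^ 2 ≠ 1; decide +kernel)

theorem card_K : Fintype.card K16 = 4 ^ 2 := by rw [card_K16]; norm_num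

theorem card_SS : Nat.card SS = 62400 := by
  have h := Cfsg.Agent.S0278.result (F := K16) (q := 4) card_K 3 (by norm_num)
  rw [Finset.prod_range_succ, Finset.prod_range_succ, Finset.prod_range_one] at h
  norm_num at h
  have h2 : (5 : ℕ) * Nat.card SS = 5 * 62400 := by
    rw [show (5 : ℕ) * Nat.card SS = (4 + 1) * Nat.card SS from rfl]
    rw [show (Nat.card SS) = Nat.card ↥(Cfsg.SU 3 K16 4) from rfl]
    omega
  omega

/-! ### The action of the element of order `13` -/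

theorem act13 : ∀ i, A13 *ᵥ pts i = lam i • pts (tbl i) := by decide +kernel
theorem lam_ne : ∀ i, lam i ≠ 0 := by decide +kernel
theorem orbit_eq : ∀ i, (tbl^[exps i]) (reps (orb i)) = i := by decide +kernel

lemma smul13 (i : Fin 65) : g13 • i = tbl i := fp_uniq g13 i (tbl i) (lam i) (lam_ne i) (act13 i)

theorem bA : BB ![1, 0, 0] = {0, 1, 2, 3, 4} := by decide +kernel
theorem bB : BB ![0, 1, cd 2] = {25, 27, 31, 44, 62} := by decide +kernel
theorem bC : BB ![0, 1, cd 3] = {21, 29, 32, 46, 61} := by decide +kernel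
theorem bD : BB ![0, 0, 1] = {10, 41, 47, 53, 64} := by decide +kernel
theorem nA : herm ![1, 0, 0] ![1, 0, 0] ≠ 0 := by decide +kernel
theorem nB : herm ![0, 1, cd 2] ![0, 1, cd 2] ≠ 0 := by decide +kernel
theorem nC : herm ![0, 1, cd 3] ![0, 1, cd 3] ≠ 0 := by decide +kernel
theorem nD : herm ![0, 0, 1] ![0, 0, 1] ≠ 0 := by decide +kernel

theorem lin5 : ∀ a b c d e : ZMod 5, a + b + c + d + e = 0 → 2 * a + 2 * b + c = 0 → 2 * c + 2 * d + e = 0 →
    b + 2 * d + 2 * e = 0 → a = b ∧ b = c ∧ c = d ∧ d = e := by decide +kernel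

/-- Invariant elements of the code under the element of order `13` are constant. -/
theorem prop13 : ∀ T ∈ CC, (∀ a, T (g13 • a) = T a) → ∀ a b, T a = T b := by
  intro T hT hinv
  have h1 : ∀ (e : ℕ) (x : Fin 65), T (tbl^[e] x) = T x := by
    intro e
    induction e with
    | zero => intro x; rfl
    | succ e ih =>
      intro x
      rw [Function.iterate_succ_apply', ← smul13, hinv, ih]
  obtain ⟨t, ht⟩ : ∃ t : Fin 5 → ZMod 5, ∀ i, T i = t (orb i) := by
    refine ⟨fun k => T (reps k), fun i => ?_⟩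
    have h2 := h1 (exps i) (reps (orb i))
    rw [orbit_eq] at h2
    exact h2
  have rA : t 0 + t 1 + t 2 + t 3 + t 4 = 0 := by
    have h := hT _ nA
    rw [bA, Finset.sum_insert (by decide), Finset.sum_insert (by decide), Finset.sum_insert (by decide),
      Finset.sum_insert (by decide), Finset.sum_singleton, ht 0, ht 1, ht 2, ht 3, ht 4,
      show orb 0 = 0 from by decide, show orb 1 = 1 from by decide, show orb 2 = 2 from by decide,
      show orb 3 = 3 from by decide, show orb 4 = 4 from by decide] at h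
    linear_combination h
  have rB : 2 * t 0 + 2 * t 1 + t 2 = 0 := by
    have h := hT _ nB
    rw [bB, Finset.sum_insert (by decide), Finset.sum_insert (by decide), Finset.sum_insert (by decide),
      Finset.sum_insert (by decide), Finset.sum_singleton, ht 25, ht 27, ht 31, ht 44, ht 62,
      show orb 25 = 1 from by decide, show orb 27 = 0 from by decide, show orb 31 = 2 from by decide,
      show orb 44 = 0 from by decide, show orb 62 = 1 from by decide] at h
    linear_combination h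
  have rC : 2 * t 2 + 2 * t 3 + t 4 = 0 := by
    have h := hT _ nC
    rw [bC, Finset.sum_insert (by decide), Finset.sum_insert (by decide), Finset.sum_insert (by decide),
      Finset.sum_insert (by decide), Finset.sum_singleton, ht 21, ht 29, ht 32, ht 46, ht 61,
      show orb 21 = 3 from by decide, show orb 29 = 4 from by decide, show orb 32 = 3 from by decide,
      show orb 46 = 2 from by decide, show orb 61 = 2 from by decide] at h
    linear_combination h
  have rD : t 1 + 2 * t 3 + 2 * t 4 = 0 := by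
    have h := hT _ nD
    rw [bD, Finset.sum_insert (by decide), Finset.sum_insert (by decide), Finset.sum_insert (by decide),
      Finset.sum_insert (by decide), Finset.sum_singleton, ht 10, ht 41, ht 47, ht 53, ht 64,
      show orb 10 = 3 from by decide, show orb 41 = 3 from by decide, show orb 47 = 4 from by decide,
      show orb 53 = 4 from by decide, show orb 64 = 1 from by decide] at h
    linear_combination h
  obtain ⟨e1, e2, e3, e4⟩ := lin5 _ _ _ _ _ rA rB rC rD
  have hall : ∀ k, t k = t 0 := by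
    intro k
    fin_cases k
    · rfl
    · exact e1.symm
    · exact (e1.trans e2).symm
    · exact (e1.trans (e2.trans e3)).symm
    · exact (e1.trans (e2.trans (e3.trans e4))).symm
  intro a b
  rw [ht a, ht b, hall (orb a), hall (orb b)]

/-- Elements of order `13` are conjugate to a power of the given one. -/
theorem conj13 (g : SS) (hg : orderOf g = 13) : ∃ (t : SS) (j : ℕ), g ^ j = t * g13 * t⁻¹ := by
  classical
  haveI : Fact (Nat.Prime 13) := ⟨by norm_num⟩
  have hf : (Nat.card SS).factorization 13 = 1 := by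
    rw [card_SS, show (62400 : ℕ) = 13 * 4800 by norm_num, Nat.factorization_mul (by norm_num) (by norm_num),
      Finsupp.add_apply, Nat.Prime.factorization_self (by norm_num),
      Nat.factorization_eq_zero_of_not_dvd (by norm_num)]
  have hc : ∀ x : SS, orderOf x = 13 → Nat.card (Subgroup.zpowers x) = 13 ^ (Nat.card SS).factorization 13 := by
    intro x hx
    rw [hf, pow_one, Nat.card_zpowers, hx]
  let P : Sylow 13 SS := Sylow.ofCard (Subgroup.zpowers g) (hc g hg)
  let Q : Sylow 13 SS := Sylow.ofCard (Subgroup.zpowers g13) (hc g13 order13)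
  obtain ⟨t, ht⟩ := MulAction.exists_smul_eq SS Q P
  have h1 : t * g13 * t⁻¹ ∈ (P : Subgroup SS) := by
    rw [← ht, Sylow.coe_subgroup_smul]
    exact Subgroup.mem_map_of_mem _ (Subgroup.mem_zpowers g13)
  have h2 : t * g13 * t⁻¹ ∈ Subgroup.zpowers g := h1
  rw [← mem_powers_iff_mem_zpowers] at h2
  obtain ⟨j, hj⟩ := h2
  exact ⟨t, j, hj⟩

/-- The module. -/
abbrev WW : Type := codeW 5 CC

/-- The action on the module. -/
@[reducible] noncomputable def actW : DistribMulAction SS WW := codeAction 5 CC actF_mem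

instance : Fact (Nat.Prime 5) := ⟨by norm_num⟩

theorem exists_H (N : ℕ) : ∃ (H : Type) (_ : Group H) (_ : Finite H), N < Nat.card H ∧ SamePG SS H := by
  classical
  letI := actW
  haveI : Nontrivial WW := codeW_nontrivial 5 CC c0 c0_mem 0 1 (by decide +kernel)
  refine exists_of_module 5 (by norm_num) (codeW_nsmul 5 CC) (by rw [card_SS]; norm_num) ?_ N
  intro g q hq hq5 hgq w hw hfix
  have hdvd : q ∣ 62400 := by
    rw [← card_SS, ← hgq]
    exact orderOf_dvd_natCard g
  have hq' : q = 2 ∨ q = 3 ∨ q = 13 := by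
    have h1 : q ∣ 2 ^ 6 * 3 * 5 ^ 2 * 13 := by simpa using hdvd
    rcases (Nat.Prime.dvd_mul hq).1 h1 with h1 | h1
    · rcases (Nat.Prime.dvd_mul hq).1 h1 with h1 | h1
      · rcases (Nat.Prime.dvd_mul hq).1 h1 with h1 | h1
        · exact Or.inl ((Nat.prime_dvd_prime_iff_eq hq Nat.prime_two).1 (hq.dvd_of_dvd_pow h1))
        · exact Or.inr (Or.inl ((Nat.prime_dvd_prime_iff_eq hq Nat.prime_three).1 h1))
      · exact absurd ((Nat.prime_dvd_prime_iff_eq hq Nat.prime_five).1 (hq.dvd_of_dvd_pow h1)) hq5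
    · exact Or.inr (Or.inr ((Nat.prime_dvd_prime_iff_eq hq (by norm_num)).1 h1))
  rcases hq' with rfl | rfl | rfl
  · exact ⟨g10, order10⟩
  · exact ⟨g15, order15⟩
  · exfalso
    apply hw
    obtain ⟨t, j, htj⟩ := conj13 g hgq
    refine fixed_eq_zero 5 CC actF_mem g ?_ ?_ w hfix
    · rw [hgq]
      decide +kernel
    · apply prop_of_pow 5 CC g j
      rw [htj]
      exact prop_conj 5 CC actF_mem g13 t prop13

/-- `PSU₃(4)` over any field with 16 elements is the explicit unitary group. -/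
noncomputable def psuEquiv {F : Type*} [Field F] [Fintype F] (hF : Fintype.card F = 16) : Cfsg.PSU 3 F 4 ≃* SS := by
  have hc : Fintype.card F = Fintype.card K16 := by rw [hF, card_K16]
  have hcen : Subgroup.center (Cfsg.SU 3 K16 4) = ⊥ := by
    apply Subgroup.eq_bot_of_card_eq
    rw [Cfsg.Agent.S0279.result (F := K16) (q := 4) card_K 3 (by norm_num)]
    norm_num
  exact (Cfsg.Agent.Lib.Classical.RC.psuCongr (FiniteField.ringEquivOfCardEq hc) 3 4).trans
    ((QuotientGroup.quotientMulEquivOfEq hcen).trans QuotientGroup.quotientBot)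

/-- The prime graph of a finite group has the prime divisors of its order as vertices, two distinct primes p, q being joined when the group has an element of order pq; two groups have the same prime graph when they have the same prime divisors and the same joined pairs. Let F be the field with 16 elements and L = PSU(3,4) realised over F. There are finite groups of arbitrarily large order with the same prime graph as L. -/
theorem result {F : Type*} [Field F] [Fintype F] (hF : Fintype.card F = 16) (N : ℕ) :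
    ∃ (H : Type) (_ : Group H) (_ : Finite H), N < Nat.card H ∧
      ((∀ p : ℕ, p.Prime → (p ∣ Nat.card (Cfsg.PSU 3 F 4) ↔ p ∣ Nat.card H)) ∧
      (∀ p q : ℕ, p.Prime → q.Prime → p ≠ q → ((∃ g : (Cfsg.PSU 3 F 4), orderOf g = p * q) ↔ (∃ g : H, orderOf g = p * q)))) := by
  obtain ⟨H, hG, hFin, hlt, hs⟩ := exists_H N
  exact ⟨H, hG, hFin, hlt, SamePG.congr_left (psuEquiv hF) hs⟩


end Cfsg.Agent.S3663
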