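import Cfsg.Statements.S3669
import Cfsg.Agent.Lib.Char.Complete
import Cfsg.Agent.Lib.Char.Constituent
import Cfsg.Agent.Lib.Char.Degrees
import Cfsg.Agent.Lib.Hall.Basic
import Cfsg.Agent.S0493
import Cfsg.Agent.S0494
import Mathlib

set_option autoImplicit false
open Cfsg

namespace Cfsg.Agent.S3669

/-- A numerical fact: five squares of numbers at most `7`, none of them `0` or `5`, do not add up
to `60`. -/
lemma no_sum : ∀ a b c d e : Fin 8, (a : ℕ) ≠ 0 → (a : ℕ) ≠ 5 → (b : ℕ) ≠ 0 → (b : ℕ) ≠ 5 →
    (c : ℕ) ≠ 0 → (c : ℕ) ≠ 5 → (d : ℕ) ≠ 0 → (d : ℕ) ≠ 5 → (e : ℕ) ≠ 0 → (e : ℕ) ≠ 5 →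
    (a : ℕ) ^ 2 + (b : ℕ) ^ 2 + (c : ℕ) ^ 2 + (d : ℕ) ^ 2 + (e : ℕ) ^ 2 ≠ 60 := by
  decide +kernel

set_option maxRecDepth 100000 in
lemma card_conj_A5 : Fintype.card (ConjClasses (alternatingGroup (Fin 5))) = 5 := by
  decide +kernel

/-- The alternating group of degree `5` has an irreducible character of degree divisible by `5`. -/
lemma five_mem : (5 : ℕ) ∈ Cfsg.degreePrimes (alternatingGroup (Fin 5)) := by
  classical
  refine ⟨by norm_num, ?_⟩
  by_contra hno
  push Not at hno
  let A := alternatingGroup (Fin 5)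
  have hk : Fintype.card (IrrCharacter A) = 5 := by
    rw [← Nat.card_eq_fintype_card, Cfsg.Agent.Lib.Char.card_irr_eq_card_conjClasses,
      Nat.card_eq_fintype_card]
    exact card_conj_A5
  let e : IrrCharacter A ≃ Fin 5 := Fintype.equivFinOfCardEq hk
  let d : Fin 5 → ℕ := fun i => charDegree ((e.symm i : IrrCharacter A) : A → ℂ)
  have hsum : ∑ i, d i ^ 2 = 60 := by
    have h1 := Cfsg.Agent.Lib.Char.sum_degree_sq (G := A)
    have h2 : Nat.card A = 60 := by
      rw [Nat.card_eq_fintype_card]
      decide +kernel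
    rw [h2, ← Equiv.sum_comp e.symm] at h1
    have h3 : ∀ i, (((e.symm i : IrrCharacter A) : A → ℂ) 1) ^ 2 = ((d i ^ 2 : ℕ) : ℂ) := by
      intro i
      rw [Cfsg.Agent.Lib.Char.map_one_eq_charDegree
        (Cfsg.Agent.Lib.Char.IsIrrCharacter.isCharacter (e.symm i).2)]
      push_cast
      rfl
    simp only [h3] at h1
    exact_mod_cast h1
  have hpos : ∀ i, 0 < d i := fun i =>
    Cfsg.Agent.Lib.Char.charDegree_pos_of_irr (e.symm i).2
  have hnot5 : ∀ i, d i ≠ 5 := by
    intro i h
    exact hno 5 ⟨e.symm i, h⟩ dvd_rfl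
  have hle : ∀ i, d i < 8 := by
    intro i
    by_contra h
    push Not at h
    have h1 : d i ^ 2 ≤ ∑ j, d j ^ 2 :=
      Finset.single_le_sum (f := fun j => d j ^ 2) (fun _ _ => Nat.zero_le _) (Finset.mem_univ i)
    rw [hsum] at h1
    nlinarith
  rw [Fin.sum_univ_five] at hsum
  exact no_sum ⟨d 0, hle 0⟩ ⟨d 1, hle 1⟩ ⟨d 2, hle 2⟩ ⟨d 3, hle 3⟩ ⟨d 4, hle 4⟩
    (hpos 0).ne' (hnot5 0) (hpos 1).ne' (hnot5 1) (hpos 2).ne' (hnot5 2) (hpos 3).ne' (hnot5 3)
    (hpos 4).ne' (hnot5 4) hsum

lemma card_lt_of_proper {X : Type*} [Group X] [Finite X] (N : Subgroup X) [N.Normal] (hb : N ≠ ⊥)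
    (ht : N ≠ ⊤) : Nat.card N < Nat.card X ∧ Nat.card (X ⧸ N) < Nat.card X := by
  have hcard := Subgroup.card_mul_index N
  have h1 : N.index ≠ 1 := fun h => ht (Subgroup.index_eq_one.1 h)
  have h0 : N.index ≠ 0 := Subgroup.index_ne_zero_of_finite
  have h2 : Nat.card N ≠ 1 := fun h => hb ((Subgroup.card_eq_one).1 h)
  have h3 : 0 < Nat.card N := Nat.card_pos
  have hq : Nat.card (X ⧸ N) = N.index := rfl
  rw [hq]
  constructor
  · rw [← hcard]
    have : 2 ≤ N.index := by omega
    nlinarith
  · rw [← hcard]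
    have : 2 ≤ Nat.card N := by omega
    have h5 : 0 < N.index := by omega
    nlinarith

/-- Every group of order less than `60` is solvable. -/
theorem solvable_of_card_lt {X : Type*} [Group X] [Finite X] (h : Nat.card X < 60) :
    Group.IsSolvable X := by
  induction hc : Nat.card X using Nat.strong_induction_on generalizing X with
  | _ c ih =>
    by_cases hsub : Subsingleton X
    · infer_instance
    haveI : Nontrivial X := not_subsingleton_iff_nontrivial.1 hsub
    by_cases hN : ∃ N : Subgroup X, N.Normal ∧ N ≠ ⊥ ∧ N ≠ ⊤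
    · obtain ⟨N, hNn, hNb, hNt⟩ := hN
      haveI := hNn
      obtain ⟨h1, h2⟩ := card_lt_of_proper N hNb hNt
      have hs1 : Group.IsSolvable N := ih _ (hc ▸ h1) (by omega) rfl
      have hs2 : Group.IsSolvable (X ⧸ N) := ih _ (hc ▸ h2) (by omega) rfl
      exact Group.isSolvable_of_ker_le_range N.subtype (QuotientGroup.mk' N)
        (by rw [QuotientGroup.ker_mk', Subgroup.range_subtype])
    · have hs : IsSimpleGroup X := by
        refine ⟨fun N hNn => ?_⟩
        by_contra hcon
        push Not at hcon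
        exact hN ⟨N, hNn, hcon.1, hcon.2⟩
      by_cases hcyc : IsCyclic X
      · letI := IsCyclic.commGroup (α := X)
        infer_instance
      · have := Cfsg.Agent.S0493.result hcyc (by omega)
        omega

/-- The character degree graph of a finite group has as vertices the primes dividing some irreducible complex character degree, two distinct primes being joined when their product divides some irreducible character degree; two groups have the same character degree graph when they have the same vertices and the same joined pairs. A finite group of order 60 with the same character degree graph as the alternating group A₅ (whose character degrees are 1, 3, 4, 5, so the graph has vertices 2, 3, 5 and no edges) is isomorphic to A₅. -/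
theorem result {G : Type*} [Group G] [Finite G] (hcard : Nat.card G = 60)
    (hΓ : Cfsg.degreePrimes G = Cfsg.degreePrimes (alternatingGroup (Fin 5)) ∧ Cfsg.degreeGraph G = Cfsg.degreeGraph (alternatingGroup (Fin 5))) : Nonempty (G ≃* alternatingGroup (Fin 5)) := by
  classical
  obtain ⟨h1, -⟩ := hΓ
  have h5 : (5 : ℕ) ∈ Cfsg.degreePrimes G := by
    rw [h1]
    exact five_mem
  obtain ⟨-, d, ⟨χ, hχ⟩, h5d⟩ := h5
  haveI : Fact (Nat.Prime 5) := ⟨by norm_num⟩
  -- Sylow subgroups of order five
  have hSylcard : ∀ S : Sylow 5 G, Nat.card S = 5 ∧ S.1.index = 12 := by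
    intro S
    have h2 := Subgroup.card_mul_index S.1
    rw [hcard] at h2
    obtain ⟨k, hk⟩ := IsPGroup.iff_card.1 S.2
    have hnd : ¬ 5 ∣ S.1.index := S.not_dvd_index
    have hdk : 5 ^ k ∣ 60 := by
      rw [← hk, ← h2]
      exact dvd_mul_right _ _
    have hk1 : k ≤ 1 := by
      by_contra hcon
      have h3 : 25 ∣ 60 := dvd_trans (pow_dvd_pow 5 (by omega : 2 ≤ k)) hdk
      omega
    interval_cases k
    · rw [hk] at h2
      simp at h2
      omega
    · rw [hk] at h2
      simp at h2 hk
      exact ⟨hk, by omega⟩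
  obtain ⟨P⟩ : Nonempty (Sylow 5 G) := inferInstance
  obtain ⟨hP5, hP12⟩ := hSylcard P
  have hn5 : Nat.card (Sylow 5 G) = 6 := by
    have hmod := card_sylow_modEq_one 5 G
    have hdvd : Nat.card (Sylow 5 G) ∣ 12 := hP12 ▸ P.card_dvd_index
    have hle := Nat.le_of_dvd (by norm_num) hdvd
    have hpos : 0 < Nat.card (Sylow 5 G) := Nat.card_pos
    have hone : Nat.card (Sylow 5 G) ≠ 1 := by
      intro hone
      haveI : Subsingleton (Sylow 5 G) := (Nat.card_eq_one_iff_unique.1 hone).1
      have hPn : P.1.Normal := P.normal_of_subsingleton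
      have hcomm : ∀ a ∈ P.1, ∀ b ∈ P.1, a * b = b * a := by
        haveI : IsCyclic P.1 := isCyclic_of_prime_card hP5
        letI := IsCyclic.commGroup (α := P.1)
        intro a ha b hb
        exact congrArg Subtype.val (mul_comm (⟨a, ha⟩ : P.1) ⟨b, hb⟩)
      obtain ⟨n, ρ, hρ, hχ'⟩ := χ.2
      have hdeg : charDegree (χ : G → ℂ) = n := by
        rw [← hχ']
        apply Cfsg.Agent.Lib.Char.charDegree_natCast
        rw [Representation.char_one]
        simp
      have hIto := Cfsg.Agent.Lib.Char.finrank_dvd_index_of_abelian_normal ρ hρ P.1 hPn hcomm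
      rw [Module.finrank_fin_fun, hP12] at hIto
      rw [← hχ, hdeg] at h5d
      have := dvd_trans h5d hIto
      omega
    unfold Nat.ModEq at hmod
    interval_cases h : Nat.card (Sylow 5 G) <;> first | rfl | omega | (exfalso; revert hmod hdvd; decide)
  -- normalizers have order ten
  have hnorm : ∀ S : Sylow 5 G, Nat.card (Subgroup.normalizer (S : Set G)) = 10 := by
    intro S
    have h2 := Subgroup.card_mul_index (Subgroup.normalizer (S : Set G))
    have h3 : (Subgroup.normalizer (S : Set G)).index = 6 := by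
      rw [← Sylow.card_eq_index_normalizer S, hn5]
    rw [h3, hcard] at h2
    omega
  -- not solvable, by Hall
  have hns : ¬ Group.IsSolvable G := by
    intro hs
    obtain ⟨H, hH⟩ := Cfsg.Agent.Lib.Hall.exists_card_eq_of_solvable (G := G) 15 4
      (by rw [hcard]) (by norm_num)
    obtain ⟨Q⟩ : Nonempty (Sylow 5 H) := inferInstance
    have hQ := Subgroup.card_mul_index Q.1
    rw [hH] at hQ
    obtain ⟨k, hk⟩ := IsPGroup.iff_card.1 Q.2
    have hnd : ¬ 5 ∣ Q.1.index := Q.not_dvd_index
    have hdk : 5 ^ k ∣ 15 := by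
      rw [← hk, ← hQ]
      exact dvd_mul_right _ _
    have hk1 : k = 1 := by
      have hk1 : k ≤ 1 := by
        by_contra hcon
        have h3 : 25 ∣ 15 := dvd_trans (pow_dvd_pow 5 (by omega : 2 ≤ k)) hdk
        omega
      interval_cases k
      · rw [hk] at hQ
        simp at hQ
        omega
      · rfl
    subst hk1
    rw [hk] at hQ
    have hQi : Q.1.index = 3 := by omega
    have hQn : Q.1.Normal := by
      have hmod := card_sylow_modEq_one 5 H
      have hdvd : Nat.card (Sylow 5 H) ∣ 3 := hQi ▸ Q.card_dvd_index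
      have hpos : 0 < Nat.card (Sylow 5 H) := Nat.card_pos
      have hle := Nat.le_of_dvd (by norm_num) hdvd
      have hone : Nat.card (Sylow 5 H) = 1 := by
        unfold Nat.ModEq at hmod
        interval_cases h : Nat.card (Sylow 5 H) <;> first | rfl | omega
      haveI : Subsingleton (Sylow 5 H) := (Nat.card_eq_one_iff_unique.1 hone).1
      exact Q.normal_of_subsingleton
    let Q' : Subgroup G := Q.1.map H.subtype
    have hQ'card : Nat.card Q' = 5 := by
      rw [Subgroup.card_map_of_injective H.subtype_injective, hk]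
      norm_num
    have hQ'p : IsPGroup 5 Q' := IsPGroup.iff_card.2 ⟨1, by rw [hQ'card]; norm_num⟩
    obtain ⟨S, hS⟩ := hQ'p.exists_le_sylow
    have hS5 := (hSylcard S).1
    have hQS : Q' = S.1 :=
      Subgroup.eq_of_le_of_card_ge hS (by rw [hS5, hQ'card])
    have hHN : H ≤ Subgroup.normalizer (S : Set G) := by
      intro h hh
      show h ∈ Subgroup.normalizer ((S.1 : Subgroup G) : Set G)
      rw [Subgroup.mem_normalizer_iff]
      intro x
      rw [← hQS]
      constructor
      · rintro ⟨y, hy, rfl⟩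
        exact ⟨⟨h, hh⟩ * y * ⟨h, hh⟩⁻¹, hQn.conj_mem y hy _, rfl⟩
      · rintro ⟨y, hy, hyx⟩
        have h3 : x = h⁻¹ * (y : G) * h := by
          have h4 : (y : G) = h * x * h⁻¹ := hyx
          rw [h4]
          group
        refine ⟨⟨h, hh⟩⁻¹ * y * (⟨h, hh⟩⁻¹)⁻¹, hQn.conj_mem y hy _, ?_⟩
        rw [h3]
        show h⁻¹ * (y : G) * (h⁻¹)⁻¹ = _
        group
    have hdv := Subgroup.card_dvd_of_le hHN
    rw [hH, hnorm S] at hdv
    omega
  have hsimple : IsSimpleGroup G := by
    haveI : Nontrivial G := by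
      apply (Finite.one_lt_card_iff_nontrivial).1
      omega
    refine ⟨fun N hN => ?_⟩
    by_contra hcon
    push Not at hcon
    haveI := hN
    obtain ⟨h3, h4⟩ := card_lt_of_proper N hcon.1 hcon.2
    rw [hcard] at h3 h4
    have hs1 := solvable_of_card_lt h3
    have hs2 := solvable_of_card_lt h4
    exact hns (Group.isSolvable_of_ker_le_range N.subtype (QuotientGroup.mk' N)
      (by rw [QuotientGroup.ker_mk', Subgroup.range_subtype]))
  exact Cfsg.Agent.S0494.result hcard

end Cfsg.Agent.S3669
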