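import Cfsg.Statements.S3678
import Cfsg.Agent.Lib.PrimeGraph.Char2
import Mathlib

set_option autoImplicit false
open Cfsg

namespace Cfsg.Agent.S3678

/-- The prime graph of a finite group has the prime divisors of its order as vertices, two distinct primes p, q being joined when the group has an element of order pq; two groups have the same prime graph when they have the same prime divisors and the same joined pairs. Let F be the field with 7 elements. There are finite groups of arbitrarily large order with the same prime graph as PSL(2,F) (the graph on {2, 3, 7} with no edges, which is also the prime graph of PSL(2,8)). -/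
theorem result {F : Type*} [Field F] [Fintype F] (hF : Fintype.card F = 7) (N : ℕ) :
    ∃ (H : Type) (_ : Group H) (_ : Finite H), N < Nat.card H ∧
      ((∀ p : ℕ, p.Prime → (p ∣ Nat.card (Matrix.ProjectiveSpecialLinearGroup (Fin 2) F) ↔ p ∣ Nat.card H)) ∧
      (∀ p q : ℕ, p.Prime → q.Prime → p ≠ q → ((∃ g : (Matrix.ProjectiveSpecialLinearGroup (Fin 2) F), orderOf g = p * q) ↔ (∃ g : H, orderOf g = p * q)))) := by
  classical
  -- the spectrum of `PSL₂(7)`
  obtain ⟨r, hcr, n, hrp, hr⟩ := FiniteField.card' F
  have hr7 : r = 7 := by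
    rw [hF] at hr
    have h1 : r ∣ 7 := by
      rw [hr]
      exact dvd_pow_self _ n.ne_zero
    exact (Nat.prime_dvd_prime_iff_eq hrp (by norm_num)).1 h1
  subst hr7
  haveI : Fact (Nat.Prime 7) := ⟨by norm_num⟩
  haveI := hcr
  have hX := Cfsg.Agent.Lib.KS2.SL2.spectrum (F := F) 7 (by omega)
  rw [hF] at hX
  norm_num at hX
  -- the field with eight elements
  let K : Type := GaloisField 2 3
  haveI hKf : Finite K := by
    show Finite (GaloisField 2 3)
    apply Nat.finite_of_card_ne_zero
    rw [GaloisField.card 2 3 (by norm_num)]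
    norm_num
  letI hFK : Fintype K := Fintype.ofFinite K
  have hKc : Fintype.card K = 8 := by
    rw [← Nat.card_eq_fintype_card]
    show Nat.card (GaloisField 2 3) = 8
    rw [GaloisField.card 2 3 (by norm_num)]
    norm_num
  haveI hcK : CharP K 2 := by
    show CharP (GaloisField 2 3) 2
    infer_instance
  have hY := Cfsg.Agent.Lib.KS2.SL2.spectrum (F := K) 2 (by omega)
  rw [hKc] at hY
  norm_num at hY
  have hrange := Cfsg.Agent.Lib.PrimeGraph.range_psl (F := K)
  rw [hrange] at hY
  obtain ⟨H, gH, fH, hN, h1, h2⟩ := Cfsg.Agent.Lib.PrimeGraph.exists_family (F := K) N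
  refine ⟨H, gH, fH, hN, ?_, ?_⟩
  · intro p hp
    haveI : Fact p.Prime := ⟨hp⟩
    constructor
    · intro h
      obtain ⟨x, hx⟩ := exists_prime_orderOf_dvd_card' p h
      have hm : orderOf x ∈ Set.range
        (orderOf : Matrix.ProjectiveSpecialLinearGroup (Fin 2) F → ℕ) := ⟨x, rfl⟩
      rw [hX, hx] at hm
      have hpc : (p = 7) ∨ p = 3 ∨ p = 2 := by
        rcases hm with hm | hm | hm
        · exact Or.inl ((Nat.prime_dvd_prime_iff_eq hp (by norm_num)).1 hm)
        · exact Or.inr (Or.inl ((Nat.prime_dvd_prime_iff_eq hp (by norm_num)).1 hm))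
        · have h4 : p ∣ 2 ^ 2 := by simpa using hm
          exact Or.inr (Or.inr ((Nat.prime_dvd_prime_iff_eq hp (by norm_num)).1 (hp.dvd_of_dvd_pow h4)))
      have hmem : p ∈ Set.range (orderOf : Matrix.SpecialLinearGroup (Fin 2) K → ℕ) := by
        rw [← hrange, Cfsg.Agent.Lib.KS2.SL2.spectrum (F := K) 2 (by omega), hKc]
        norm_num
        rcases hpc with rfl | rfl | rfl <;> norm_num
      obtain ⟨y, hy⟩ := h1 hmem
      rw [← hy]
      exact orderOf_dvd_natCard y
    · intro h
      obtain ⟨y, hy⟩ := exists_prime_orderOf_dvd_card' p h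
      have hpc : (p = 7) ∨ p = 3 ∨ p = 2 := by
        rcases h2 ⟨y, rfl⟩ with h4 | hm
        · have h4' : orderOf y ∣ 2 ^ 2 := h4
          rw [hy] at h4'
          exact Or.inr (Or.inr ((Nat.prime_dvd_prime_iff_eq hp (by norm_num)).1 (hp.dvd_of_dvd_pow h4')))
        · rw [hY, hy] at hm
          rcases hm with hm | hm | hm
          · exact Or.inr (Or.inr ((Nat.prime_dvd_prime_iff_eq hp (by norm_num)).1 hm))
          · exact Or.inl ((Nat.prime_dvd_prime_iff_eq hp (by norm_num)).1 hm)
          · have h4 : p ∣ 3 ^ 2 := by simpa using hm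
            exact Or.inr (Or.inl ((Nat.prime_dvd_prime_iff_eq hp (by norm_num)).1 (hp.dvd_of_dvd_pow h4)))
      have hmem : p ∈ Set.range
          (orderOf : Matrix.ProjectiveSpecialLinearGroup (Fin 2) F → ℕ) := by
        rw [hX]
        rcases hpc with rfl | rfl | rfl <;> norm_num
      obtain ⟨x, hx⟩ := hmem
      rw [← hx]
      exact orderOf_dvd_natCard x
  · intro p q hp hq hpq
    have hno : ∀ p q : ℕ, p.Prime → q.Prime → p ≠ q → ¬ (p * q ∣ 7) ∧ ¬ (p * q ∣ 3) ∧ ¬ (p * q ∣ 4)
        ∧ ¬ (p * q ∣ 2) ∧ ¬ (p * q ∣ 9) := by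
      intro p q hp hq hpq
      have hsq : ∀ r : ℕ, r.Prime → ∀ e, p * q ∣ r ^ e → False := by
        intro r hr e h
        have h5 := (Nat.prime_dvd_prime_iff_eq hp hr).1
          (hp.dvd_of_dvd_pow (dvd_trans (dvd_mul_right p q) h))
        have h6 := (Nat.prime_dvd_prime_iff_eq hq hr).1
          (hq.dvd_of_dvd_pow (dvd_trans (dvd_mul_left q p) h))
        exact hpq (h5.trans h6.symm)
      refine ⟨fun h => hsq 7 (by norm_num) 1 (by simpa using h),
        fun h => hsq 3 (by norm_num) 1 (by simpa using h),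
        fun h => hsq 2 (by norm_num) 2 (by simpa using h),
        fun h => hsq 2 (by norm_num) 1 (by simpa using h),
        fun h => hsq 3 (by norm_num) 2 (by simpa using h)⟩
    obtain ⟨n7, n3, n4, n2, n9⟩ := hno p q hp hq hpq
    constructor
    · rintro ⟨x, hx⟩
      exfalso
      have hm : orderOf x ∈ Set.range
        (orderOf : Matrix.ProjectiveSpecialLinearGroup (Fin 2) F → ℕ) := ⟨x, rfl⟩
      rw [hX, hx] at hm
      rcases hm with hm | hm | hm
      · exact n7 hm
      · exact n3 hm
      · exact n4 hm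
    · rintro ⟨y, hy⟩
      exfalso
      rcases h2 ⟨y, rfl⟩ with h4 | hm
      · have h4' : orderOf y ∣ 4 := h4
        rw [hy] at h4'
        exact n4 h4'
      · rw [hY, hy] at hm
        rcases hm with hm | hm | hm
        · exact n2 hm
        · exact n7 hm
        · exact n9 hm

end Cfsg.Agent.S3678
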