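import Cfsg.Statements.S3681
import Mathlib

set_option autoImplicit false
open Cfsg

namespace Cfsg.Agent.S3681

/-- Two permutations whose supports meet in exactly one point have a three-cycle as commutator. -/
lemma inv_fix {Ω : Type*} (p : Equiv.Perm Ω) (x : Ω) (h : p x = x) : p⁻¹ x = x := by
  rw [Equiv.Perm.inv_eq_iff_eq]; exact h.symm

lemma moved_inv {Ω : Type*} (p : Equiv.Perm Ω) (x : Ω) (h : p x ≠ x) : p (p⁻¹ x) ≠ p⁻¹ x := by
  intro h2
  have h3 : p (p⁻¹ x) = x := Equiv.apply_symm_apply p x
  rw [h3] at h2
  apply h
  conv_lhs => rw [h2]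
  rw [h3]

lemma commutator_isThreeCycle {Ω : Type*} [Fintype Ω] [DecidableEq Ω] (a c : Equiv.Perm Ω) (b : Ω)
    (hab : a b ≠ b) (hcb : c b ≠ b) (h : ∀ x, a x ≠ x → c x ≠ x → x = b) :
    (a * c * a⁻¹ * c⁻¹).IsThreeCycle := by
  have hai : ∀ x, a (a⁻¹ x) = x := fun x => Equiv.apply_symm_apply a x
  have hia : ∀ x, a⁻¹ (a x) = x := fun x => Equiv.symm_apply_apply a x
  have hci : ∀ x, c (c⁻¹ x) = x := fun x => Equiv.apply_symm_apply c x
  have hic : ∀ x, c⁻¹ (c x) = x := fun x => Equiv.symm_apply_apply c x
  have hcu : c (a b) = a b := by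
    by_contra hcon
    have h1 : a (a b) ≠ a b := fun h2 => hab (a.injective h2)
    exact hab (h _ h1 hcon)
  have hav : a (c b) = c b := by
    by_contra hcon
    have h1 : c (c b) ≠ c b := fun h2 => hcb (c.injective h2)
    exact hcb (h _ hcon h1)
  have huv : a b ≠ c b := by
    intro huv
    have h2 : c (a b) = c b := by rw [hcu, huv]
    exact hab (c.injective h2)
  have key : a * c * a⁻¹ * c⁻¹ = Equiv.swap (c b) (a b) * Equiv.swap (c b) b := by
    ext x
    simp only [Equiv.Perm.coe_mul, Function.comp_apply]
    by_cases hxv : x = c b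
    · subst hxv
      have h1 : c⁻¹ (c b) = b := hic b
      have h2 : Equiv.swap (c b) b (c b) = b := Equiv.swap_apply_left _ _
      have h3 : Equiv.swap (c b) (a b) b = b := Equiv.swap_apply_of_ne_of_ne hcb.symm hab.symm
      rw [h1, h2, h3]
      have hw : c (a⁻¹ b) = a⁻¹ b := by
        by_contra hcon
        have h5 := h _ (moved_inv a b hab) hcon
        have h6 : a b = b := by
          conv_lhs => rw [← h5]
          rw [hai]
        exact hab h6
      rw [hw, hai]
    by_cases hxb : x = b
    · subst hxb
      have h1 : Equiv.swap (c x) x x = c x := Equiv.swap_apply_right _ _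
      have h2 : Equiv.swap (c x) (a x) (c x) = a x := Equiv.swap_apply_left _ _
      rw [h1, h2]
      have hw : a⁻¹ (c⁻¹ x) = c⁻¹ x := by
        apply inv_fix
        by_contra hcon
        have h5 := h _ hcon (moved_inv c x hcb)
        have h6 : c x = x := by
          conv_lhs => rw [← h5]
          rw [hci]
        exact hcb h6
      rw [hw, hci]
    by_cases hxu : x = a b
    · subst hxu
      have h1 : Equiv.swap (c b) (a b) (a b) = c b := Equiv.swap_apply_right _ _
      have h2 : Equiv.swap (c b) b (a b) = a b :=
        Equiv.swap_apply_of_ne_of_ne huv hab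
      have h3 : c⁻¹ (a b) = a b := inv_fix c _ hcu
      rw [h2, h1, h3, hia, hav]
    have h1 : Equiv.swap (c b) b x = x := Equiv.swap_apply_of_ne_of_ne hxv hxb
    have h2 : Equiv.swap (c b) (a b) x = x := Equiv.swap_apply_of_ne_of_ne hxv hxu
    rw [h1, h2]
    by_cases hcx : c x = x
    · have h3 : c⁻¹ x = x := inv_fix c x hcx
      rw [h3]
      have h4 : c (a⁻¹ x) = a⁻¹ x := by
        by_contra hcon
        by_cases hax : a x = x
        · apply hcon
          rw [inv_fix a x hax, hcx]
        · have h6 := h _ (moved_inv a x hax) hcon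
          apply hxu
          rw [← h6, hai]
      rw [h4, hai]
    · have h3 : a x = x := by
        by_contra hcon
        exact hxb (h x hcon hcx)
      have hybne : c⁻¹ x ≠ b := by
        intro hyb
        apply hxv
        rw [← hyb, hci]
      have hay : a (c⁻¹ x) = c⁻¹ x := by
        by_contra hcon
        exact hybne (h _ hcon (moved_inv c x hcx))
      rw [inv_fix a _ hay, hci, h3]
  rw [key]
  exact Equiv.Perm.isThreeCycle_swap_mul_swap_same huv.symm hcb hab

/-- Bochert's bound for primitive groups. Let a finite group G act faithfully and primitively on a finite set Ω with n elements, and suppose the image of G in the symmetric group of Ω does not contain the alternating group of Ω. Then |G| · ⌊(n + 1)/2⌋! ≤ n!, that is, the index of G in the symmetric group is at least ⌊(n + 1)/2⌋!. -/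
theorem result {G Ω : Type*} [Group G] [Finite G] [MulAction G Ω] [FaithfulSMul G Ω] [Fintype Ω] [DecidableEq Ω]
    (hprim : MulAction.IsPreprimitive G Ω) (hA : ¬ alternatingGroup Ω ≤ (MulAction.toPermHom G Ω).range) :
    Nat.card G * Nat.factorial ((Fintype.card Ω + 1) / 2) ≤ Nat.factorial (Fintype.card Ω) := by
  classical
  -- no three-cycles
  have hno : ∀ g : G, ¬ (MulAction.toPermHom G Ω g).IsThreeCycle := by
    intro g hg
    apply hA
    let R := (MulAction.toPermHom G Ω).range
    have hsurj : Function.Surjective (MulAction.toPermHom G Ω).rangeRestrict :=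
      MonoidHom.rangeRestrict_surjective _
    let f : Ω →ₑ[(MulAction.toPermHom G Ω).rangeRestrict] Ω :=
      { toFun := id
        map_smul' := fun _ _ => rfl }
    haveI : MulAction.IsPreprimitive R Ω :=
      (MulAction.isPreprimitive_congr (f := f) hsurj Function.bijective_id).1 hprim
    exact Equiv.Perm.alternatingGroup_le_of_isPreprimitive_of_isThreeCycle_mem (G := R)
      inferInstance hg (MonoidHom.mem_range.2 ⟨g, rfl⟩)
  -- bases
  let IsB : Finset Ω → Prop := fun B => ∀ g : G, (∀ x ∈ B, g • x = x) → g = 1
  have huniv : IsB Finset.univ := by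
    intro g hg
    apply FaithfulSMul.eq_of_smul_eq_smul (α := Ω)
    intro x
    rw [one_smul]
    exact hg x (Finset.mem_univ x)
  have hex : ∃ k, ∃ B : Finset Ω, IsB B ∧ B.card = k := ⟨_, _, huniv, rfl⟩
  obtain ⟨B, hB, hBk⟩ := Nat.find_spec hex
  have hmin : ∀ B' : Finset Ω, IsB B' → B.card ≤ B'.card := by
    intro B' hB'
    rw [hBk]
    exact Nat.find_min' hex ⟨B', hB', rfl⟩
  -- the complement is a base
  have hcompl : IsB Bᶜ := by
    intro g hg
    apply hB
    intro b hb
    by_contra hgb
    -- `B \ {b}` is not a base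
    have hnb : ¬ IsB (B.erase b) := by
      intro h
      have := hmin _ h
      rw [Finset.card_erase_of_mem hb] at this
      have h0 : 0 < B.card := Finset.card_pos.2 ⟨b, hb⟩
      omega
    unfold IsB at hnb
    push Not at hnb
    obtain ⟨x, hx, hx1⟩ := hnb
    have hxb : x • b ≠ b := by
      intro h
      apply hx1
      apply hB
      intro y hy
      by_cases hyb : y = b
      · rw [hyb, h]
      · exact hx y (Finset.mem_erase.2 ⟨hyb, hy⟩)
    apply hno (x * g * x⁻¹ * g⁻¹)
    have := commutator_isThreeCycle (MulAction.toPermHom G Ω x) (MulAction.toPermHom G Ω g) b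
      hxb hgb (by
        intro y hy1 hy2
        by_contra hyb
        by_cases hyB : y ∈ B
        · exact hy1 (hx y (Finset.mem_erase.2 ⟨hyb, hyB⟩))
        · exact hy2 (hg y (Finset.mem_compl.2 hyB)))
    rw [map_mul, map_mul, map_mul, map_inv, map_inv]
    exact this
  have hle2 : 2 * B.card ≤ Fintype.card Ω := by
    have h1 := hmin _ hcompl
    rw [Finset.card_compl] at h1
    have h2 := Finset.card_le_univ B
    omega
  -- orbit counting
  have hG : Nat.card G ≤ (Fintype.card Ω).descFactorial B.card := by
    let F : G → (B ↪ Ω) := fun g =>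
      ⟨fun x => g • (x : Ω), fun x y hxy => Subtype.ext (smul_left_cancel g hxy)⟩
    have hF : Function.Injective F := by
      intro g h hgh
      have h1 : h⁻¹ * g = 1 := by
        apply hB
        intro x hx
        have := DFunLike.congr_fun hgh ⟨x, hx⟩
        change g • x = h • x at this
        rw [mul_smul, this, inv_smul_smul]
      rw [← inv_mul_cancel h] at h1
      exact mul_left_cancel h1
    have := Nat.card_le_card_of_injective F hF
    rwa [Nat.card_eq_fintype_card (α := B ↪ Ω), Fintype.card_embedding_eq, Fintype.card_coe] at this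
  have hfac := Nat.factorial_mul_descFactorial (n := Fintype.card Ω) (k := B.card) (by omega)
  have hmono : Nat.factorial ((Fintype.card Ω + 1) / 2) ≤ Nat.factorial (Fintype.card Ω - B.card) :=
    Nat.factorial_le (by omega)
  calc Nat.card G * Nat.factorial ((Fintype.card Ω + 1) / 2)
      ≤ (Fintype.card Ω).descFactorial B.card * Nat.factorial (Fintype.card Ω - B.card) :=
        Nat.mul_le_mul hG hmono
    _ = Nat.factorial (Fintype.card Ω) := by rw [mul_comm, hfac]

end Cfsg.Agent.S3681
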