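import Cfsg.Statements.S3683
import Mathlib

set_option autoImplicit false
open Cfsg

namespace Cfsg.Agent.S3683

/-- Let a finite group G act faithfully and primitively on a set Ω, and suppose the stabilizer of a point a fixes a second point b ≠ a (a suborbit of length 1 other than {a}). Then the stabilizer of a is trivial and G is cyclic of prime order. -/
theorem result {G Ω : Type*} [Group G] [Finite G] [MulAction G Ω] [FaithfulSMul G Ω] [Finite Ω]
    (hprim : MulAction.IsPreprimitive G Ω) (a b : Ω) (hab : a ≠ b) (hfix : ∀ g : G, g • a = a → g • b = b) :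
    MulAction.stabilizer G a = ⊥ ∧ IsCyclic G ∧ (Nat.card G).Prime := by
  classical
  have htr : MulAction.IsPretransitive G Ω := hprim.toIsPretransitive
  set H := MulAction.stabilizer G a with hH
  -- the fixed point set of `H`
  let B : Set Ω := {x | H ≤ MulAction.stabilizer G x}
  have hcardst : ∀ x : Ω, Nat.card (MulAction.stabilizer G x) = Nat.card H := by
    intro x
    obtain ⟨g, rfl⟩ := MulAction.exists_smul_eq G a x
    rw [MulAction.stabilizer_smul_eq_stabilizer_map_conj]
    exact Nat.card_congr ((Subgroup.equivMapOfInjective _ _ (MulAut.conj g).injective).symm.toEquiv)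
  have hBeq : ∀ x ∈ B, MulAction.stabilizer G x = H := by
    intro x hx
    exact (Subgroup.eq_of_le_of_card_ge hx (by rw [hcardst x])).symm
  have hblock : MulAction.IsBlock G B := by
    rw [MulAction.isBlock_iff_smul_eq_of_mem]
    intro g x hx hgx
    have h1 : MulAction.stabilizer G (g • x) = H := hBeq _ hgx
    have h2 : MulAction.stabilizer G x = H := hBeq _ hx
    have hnorm : ∀ h ∈ H, g⁻¹ * h * g ∈ H := by
      intro h hh
      rw [← h2]
      rw [← h1] at hh
      have h3 : h • (g • x) = g • x := hh
      show (g⁻¹ * h * g) • x = x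
      simp [mul_smul, h3]
    have hnorm' : ∀ h ∈ H, g * h * g⁻¹ ∈ H := by
      intro h hh
      rw [← h1]
      rw [← h2] at hh
      have h3 : h • x = x := hh
      show (g * h * g⁻¹) • (g • x) = g • x
      simp [mul_smul, h3]
    ext y
    constructor
    · rintro ⟨y', hy', rfl⟩
      intro h hh
      have := hy' (hnorm h hh)
      have h3 : (g⁻¹ * h * g) • y' = y' := this
      show h • g • y' = g • y'
      have h4 : g • ((g⁻¹ * h * g) • y') = h • g • y' := by simp [mul_smul]
      rw [← h4, h3]
    · intro hy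
      refine ⟨g⁻¹ • y, ?_, by simp⟩
      intro h hh
      have := hy (hnorm' h hh)
      have h3 : (g * h * g⁻¹) • y = y := this
      show h • g⁻¹ • y = g⁻¹ • y
      have h4 : g⁻¹ • ((g * h * g⁻¹) • y) = h • g⁻¹ • y := by simp [mul_smul]
      rw [← h4, h3]
  have hab' : a ∈ B := fun _ h => h
  have hbb : b ∈ B := fun g hg => hfix g hg
  have hBu : B = Set.univ := by
    rcases hprim.isTrivialBlock_of_isBlock hblock with h | h
    · exact absurd (h hab' hbb) hab
    · exact h
  have hbot : H = ⊥ := by
    rw [eq_bot_iff]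
    intro h hh
    rw [Subgroup.mem_bot]
    apply eq_of_smul_eq_smul (α := Ω)
    intro x
    have hx : x ∈ B := by rw [hBu]; trivial
    rw [one_smul]
    exact hx hh
  have hcoatom : IsCoatom H := by
    have : Nontrivial Ω := ⟨⟨a, b, hab⟩⟩
    exact (MulAction.isCoatom_stabilizer_iff_preprimitive G a).2 hprim
  have htop : ∀ g : G, g ≠ 1 → Subgroup.zpowers g = ⊤ := by
    intro g hg
    apply hcoatom.2
    rw [hbot]
    refine bot_lt_iff_ne_bot.2 ?_
    simpa using hg
  obtain ⟨g0, hg0⟩ : ∃ g : G, g ≠ 1 := by
    obtain ⟨g, hg⟩ := MulAction.exists_smul_eq G a b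
    refine ⟨g, fun h => hab ?_⟩
    rw [h, one_smul] at hg
    exact hg
  refine ⟨hbot, ?_, ?_⟩
  · exact isCyclic_iff_exists_zpowers_eq_top.2 ⟨g0, htop g0 hg0⟩
  · have h1 : Nat.card G ≠ 1 := by
      intro h
      have := Finite.card_le_one_iff_subsingleton.1 h.le
      exact hg0 (Subsingleton.elim _ _)
    obtain ⟨p, hp, hpd⟩ := Nat.exists_prime_and_dvd h1
    have hpf : Fact p.Prime := ⟨hp⟩
    obtain ⟨z, hz⟩ := exists_prime_orderOf_dvd_card' (G := G) p hpd
    have hz1 : z ≠ 1 := by
      intro h
      rw [h, orderOf_one] at hz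
      exact hp.one_lt.ne hz
    have h2 := htop z hz1
    have h3 : Nat.card (Subgroup.zpowers z) = p := by
      rw [Nat.card_zpowers, hz]
    rw [h2, Subgroup.card_top] at h3
    rw [h3]; exact hp

end Cfsg.Agent.S3683
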