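import Cfsg.Statements.S3684
import Cfsg.Agent.Lib.Invol.Basic
import Mathlib

set_option autoImplicit false
open Cfsg

namespace Cfsg.Agent.S3684

/-- a nontrivial normal subgroup of a faithful primitive group is transitive -/
lemma normal_trans {G Ω : Type*} [Group G] [MulAction G Ω] [FaithfulSMul G Ω]
    [hprim : MulAction.IsPreprimitive G Ω] (N : Subgroup G) [N.Normal] (hN : N ≠ ⊥) :
    MulAction.IsPretransitive N Ω := by
  apply MulAction.IsQuasiPreprimitive.isPretransitive_of_normal
  intro h
  apply hN
  rw [Subgroup.eq_bot_iff_forall]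
  intro x hx
  apply FaithfulSMul.eq_of_smul_eq_smul (α := Ω)
  intro y
  have : y ∈ MulAction.fixedPoints N Ω := by rw [h]; trivial
  have h2 := this ⟨x, hx⟩
  simpa using h2

lemma card_subgroupOf {G : Type*} [Group G] (A B : Subgroup G) :
    Nat.card (A.subgroupOf B) = Nat.card ↥(A ⊓ B) := by
  rw [← Subgroup.inf_subgroupOf_right]
  exact Nat.card_congr (Subgroup.subgroupOfEquivOfLe inf_le_right).toEquiv

/-- Let a finite group G act faithfully and primitively on a set Ω, and suppose the stabilizer of a point a has an orbit of length 2. Then the stabilizer of a has order 2 and G is isomorphic to the dihedral group of order 2p for some prime p. -/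
theorem result {G Ω : Type*} [Group G] [Finite G] [MulAction G Ω] [FaithfulSMul G Ω] [Finite Ω]
    (hprim : MulAction.IsPreprimitive G Ω) (a b : Ω) (h2 : Nat.card (MulAction.orbit (MulAction.stabilizer G a) b) = 2) :
    Nat.card (MulAction.stabilizer G a) = 2 ∧ ∃ p : ℕ, p.Prime ∧ Nonempty (G ≃* DihedralGroup p) := by
  classical
  have htr : MulAction.IsPretransitive G Ω := hprim.toIsPretransitive
  set H := MulAction.stabilizer G a with hH
  set L := MulAction.stabilizer G b with hL
  -- index computation
  have hstab : MulAction.stabilizer H b = L.subgroupOf H := by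
    ext x
    simp [Subgroup.mem_subgroupOf, hL, MulAction.mem_stabilizer_iff, Subgroup.smul_def]
  have hidx : (L.subgroupOf H).index = 2 := by
    rw [← hstab, MulAction.index_stabilizer, ← h2]
    rfl
  -- `a ≠ b`
  have hne : L ≠ H := by
    intro h
    rw [h] at hidx
    have : (H.subgroupOf H) = ⊤ := Subgroup.subgroupOf_self H
    rw [this, Subgroup.index_top] at hidx
    omega
  have hab : a ≠ b := by
    rintro rfl
    exact hne rfl
  have : Nontrivial Ω := ⟨⟨a, b, hab⟩⟩
  -- cards
  obtain ⟨g0, hg0⟩ := MulAction.exists_smul_eq G a b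
  have hcardL : Nat.card L = Nat.card H := by
    rw [hL, ← hg0, MulAction.stabilizer_smul_eq_stabilizer_map_conj]
    exact Nat.card_congr ((Subgroup.equivMapOfInjective _ _ (MulAut.conj g0).injective).symm.toEquiv)
  have hc1 : Nat.card (L.subgroupOf H) * 2 = Nat.card H := by
    rw [← hidx, Subgroup.card_mul_index]
  have hc2 : Nat.card (H.subgroupOf L) * 2 = Nat.card L := by
    rw [hcardL, ← hc1, card_subgroupOf, card_subgroupOf, inf_comm]
  have hidx2 : (H.subgroupOf L).index = 2 := by
    have := Subgroup.card_mul_index (H.subgroupOf L)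
    rw [← hc2] at this
    have hpos : 0 < Nat.card (H.subgroupOf L) := Nat.card_pos
    exact Nat.eq_of_mul_eq_mul_left hpos this
  have hn1 : (L.subgroupOf H).Normal := Subgroup.normal_of_index_eq_two hidx
  have hn2 : (H.subgroupOf L).Normal := Subgroup.normal_of_index_eq_two hidx2
  -- `H ⊔ L = ⊤`
  have hcoat : IsCoatom H := (MulAction.isCoatom_stabilizer_iff_preprimitive G a).2 hprim
  have hnotle : ¬ L ≤ H := by
    intro hle
    have : L = H := Subgroup.eq_of_le_of_card_ge hle (by omega)
    exact hne this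
  have hsup : H ⊔ L = ⊤ := hcoat.2 _ (lt_of_le_of_ne le_sup_left (fun h => hnotle (h ▸ le_sup_right)))
  -- the intersection is normal, hence trivial
  set K := H ⊓ L with hK
  have hKn : K.Normal := by
    rw [← Subgroup.normalizer_eq_top_iff, eq_top_iff, ← hsup, sup_le_iff]
    constructor
    · intro h hh
      rw [Subgroup.mem_normalizer_iff]
      intro x
      have key : ∀ x : G, ∀ h ∈ H, x ∈ K → h * x * h⁻¹ ∈ K := by
        intro x h hh hx
        refine ⟨H.mul_mem (H.mul_mem hh hx.1) (H.inv_mem hh), ?_⟩
        have hx' : (⟨x, hx.1⟩ : H) ∈ L.subgroupOf H := hx.2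
        have := hn1.conj_mem _ hx' ⟨h, hh⟩
        exact this
      constructor
      · exact key x h hh
      · intro hx
        have := key _ h⁻¹ (H.inv_mem hh) hx
        simpa [mul_assoc] using this
    · intro h hh
      rw [Subgroup.mem_normalizer_iff]
      intro x
      have key : ∀ x : G, ∀ h ∈ L, x ∈ K → h * x * h⁻¹ ∈ K := by
        intro x h hh hx
        refine ⟨?_, L.mul_mem (L.mul_mem hh hx.2) (L.inv_mem hh)⟩
        have hx' : (⟨x, hx.2⟩ : L) ∈ H.subgroupOf L := hx.1
        have := hn2.conj_mem _ hx' ⟨h, hh⟩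
        exact this
      constructor
      · exact key x h hh
      · intro hx
        have := key _ h⁻¹ (L.inv_mem hh) hx
        simpa [mul_assoc] using this
  have hKbot : K = ⊥ := by
    rw [Subgroup.eq_bot_iff_forall]
    intro x hx
    apply FaithfulSMul.eq_of_smul_eq_smul (α := Ω)
    intro y
    obtain ⟨g, rfl⟩ := MulAction.exists_smul_eq G a y
    have h1 : g⁻¹ * x * g ∈ K := by
      have := hKn.conj_mem x hx g⁻¹
      simpa using this
    have h3 : (g⁻¹ * x * g) • a = a := h1.1
    rw [one_smul]
    have : g • (g⁻¹ * x * g) • a = g • a := by rw [h3]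
    simpa [mul_smul] using this
  have hcardK : Nat.card (L.subgroupOf H) = 1 := by
    rw [card_subgroupOf, inf_comm, ← hK, hKbot]
    simp
  have hcH : Nat.card H = 2 := by omega
  have hcL : Nat.card L = 2 := by omega
  refine ⟨hcH, ?_⟩
  -- the involutions
  have hexinv : ∀ A : Subgroup G, Nat.card A = 2 → ∃ t ∈ A, t ≠ 1 ∧ t * t = 1 ∧ ∀ x ∈ A, x = 1 ∨ x = t := by
    intro A hA
    obtain ⟨t, ht, huniq⟩ := (Nat.card_eq_two_iff' (1 : A)).1 hA
    have ht' : (t : G) ≠ 1 := fun h => ht (Subtype.ext h)
    refine ⟨t, t.2, ht', ?_, ?_⟩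
    · by_contra hne
      have h1 : t * t ≠ 1 := fun h => hne (congrArg Subtype.val h)
      have h2 := huniq (t * t) h1
      exact ht (by simpa using h2)
    · intro x hx
      by_cases hx1 : x = 1
      · exact Or.inl hx1
      · right
        have h2 := huniq ⟨x, hx⟩ (fun h => hx1 (congrArg Subtype.val h))
        exact congrArg Subtype.val h2
  obtain ⟨t, htH, ht1, htt, htall⟩ := hexinv H hcH
  obtain ⟨u, huL, hu1, huu, huall⟩ := hexinv L hcL
  have htu : t ≠ u := by
    rintro rfl
    have : t ∈ K := ⟨htH, huL⟩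
    rw [hKbot] at this
    exact ht1 (by simpa using this)
  -- closure is everything
  have hclos : Subgroup.closure ({t, u} : Set G) = ⊤ := by
    rw [eq_top_iff, ← hsup, sup_le_iff]
    constructor
    · intro x hx
      rcases htall x hx with rfl | rfl
      · exact Subgroup.one_mem _
      · exact Subgroup.subset_closure (by simp)
    · intro x hx
      rcases huall x hx with rfl | rfl
      · exact Subgroup.one_mem _
      · exact Subgroup.subset_closure (by simp)
  set r := t * u with hr
  -- conjugation on `r`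
  have hconj : ∀ g : G, g * r * g⁻¹ = r ∨ g * r * g⁻¹ = r⁻¹ := by
    intro g
    have hg : g ∈ Subgroup.closure ({t, u} : Set G) := by rw [hclos]; trivial
    have htinv : t⁻¹ = t := Cfsg.Agent.Lib.Invol.inv_eq_of_mul_self htt
    have huinv : u⁻¹ = u := Cfsg.Agent.Lib.Invol.inv_eq_of_mul_self huu
    induction hg using Subgroup.closure_induction with
    | mem x hx =>
      right
      rcases hx with rfl | hx
      · rw [htinv]
        exact Cfsg.Agent.Lib.Invol.left_inverts htt huu
      · rw [Set.mem_singleton_iff] at hx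
        subst hx
        rw [huinv]
        exact Cfsg.Agent.Lib.Invol.right_inverts htt huu
    | one => left; simp
    | mul x y _ _ hx hy =>
      have e : x * y * r * (x * y)⁻¹ = x * (y * r * y⁻¹) * x⁻¹ := by group
      rw [e]
      rcases hy with hy | hy <;> rw [hy]
      · exact hx
      · have : x * r⁻¹ * x⁻¹ = (x * r * x⁻¹)⁻¹ := by group
        rw [this]
        rcases hx with hx | hx <;> rw [hx]
        · right; rfl
        · left; simp
    | inv x _ hx =>
      rcases hx with hx | hx
      · left
        have : x⁻¹ * (x * r * x⁻¹) * x = r := by group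
        rw [hx] at this
        simpa using this
      · right
        have : x⁻¹ * (x * r * x⁻¹) * x = r := by group
        rw [hx] at this
        have h5 : x⁻¹ * r * x⁻¹⁻¹ = (x⁻¹ * r⁻¹ * x)⁻¹ := by group
        rw [h5, this]
  -- every subgroup of `⟨r⟩` generated by a power is normal
  have hnormal : ∀ j : ℕ, (Subgroup.zpowers (r ^ j)).Normal := by
    intro j
    constructor
    intro n hn g
    obtain ⟨k, rfl⟩ := Subgroup.mem_zpowers_iff.1 hn
    rw [Subgroup.mem_zpowers_iff]
    rcases hconj g with h | h
    · refine ⟨k, ?_⟩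
      rw [← conj_zpow, ← conj_pow, h]
    · refine ⟨-k, ?_⟩
      rw [← conj_zpow, ← conj_pow, h]
      simp
  set n := orderOf r with hn
  have hn0 : n ≠ 0 := (orderOf_pos r).ne'
  have hn1' : n ≠ 1 := by
    intro h
    have : r = 1 := orderOf_eq_one_iff.1 h
    apply htu
    have := eq_inv_of_mul_eq_one_left this
    rw [this]
    exact Cfsg.Agent.Lib.Invol.inv_eq_of_mul_self huu
  set q := n.minFac with hq
  have hqp : q.Prime := Nat.minFac_prime hn1'
  have hqd : q ∣ n := Nat.minFac_dvd n
  set z := r ^ (n / q) with hz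
  have hzord : orderOf z = q := orderOf_pow_orderOf_div hn0 hqd
  have hMbot : Subgroup.zpowers z ≠ ⊥ := by
    intro h
    rw [Subgroup.zpowers_eq_bot] at h
    rw [h, orderOf_one] at hzord
    exact hqp.one_lt.ne hzord
  have hMn := hnormal (n / q)
  have hMt := normal_trans (Ω := Ω) (Subgroup.zpowers z) hMbot
  -- `|Ω| ≤ q`
  have hΩq : Nat.card Ω ≤ q := by
    rw [← hzord, ← Nat.card_zpowers]
    refine Nat.card_le_card_of_surjective (fun m : Subgroup.zpowers z => m • a) ?_
    intro y
    obtain ⟨m, hm⟩ := MulAction.exists_smul_eq (Subgroup.zpowers z) a y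
    exact ⟨m, hm⟩
  -- `n ≤ |Ω|`
  have hCn := hnormal 1
  rw [pow_one] at hCn
  have hCbot : Subgroup.zpowers r ≠ ⊥ := by
    intro h
    rw [Subgroup.zpowers_eq_bot] at h
    rw [h, orderOf_one] at hn
    exact hn1' hn
  have hCt := normal_trans (Ω := Ω) (Subgroup.zpowers r) hCbot
  have hnΩ : n ≤ Nat.card Ω := by
    rw [hn, ← Nat.card_zpowers]
    refine Nat.card_le_card_of_injective (fun m : Subgroup.zpowers r => m • a) ?_
    intro x y hxy
    have hfix : ∀ w : Subgroup.zpowers r, (x⁻¹ * y) • w • a = w • a := by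
      intro w
      have hc : ∀ p q : Subgroup.zpowers r, p * q = q * p := by
        rintro ⟨p, hp⟩ ⟨q, hq⟩
        obtain ⟨i, rfl⟩ := Subgroup.mem_zpowers_iff.1 hp
        obtain ⟨j, rfl⟩ := Subgroup.mem_zpowers_iff.1 hq
        apply Subtype.ext
        show r ^ i * r ^ j = r ^ j * r ^ i
        rw [← zpow_add, ← zpow_add, add_comm]
      have h6 : x⁻¹ • y • a = a := by
        have : y • a = x • a := hxy.symm
        rw [this, inv_smul_smul]
      rw [← mul_smul, hc, mul_smul, mul_smul x⁻¹ y, h6]
    have hone : ((x⁻¹ * y : Subgroup.zpowers r) : G) = 1 := by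
      apply FaithfulSMul.eq_of_smul_eq_smul (α := Ω)
      intro w
      obtain ⟨w', rfl⟩ := MulAction.exists_smul_eq (Subgroup.zpowers r) a w
      rw [one_smul]
      exact hfix w'
    have h7 : x⁻¹ * y = 1 := Subtype.ext hone
    exact (inv_mul_eq_one.1 h7)
  have hnq : n = q := le_antisymm (hnΩ.trans hΩq) (Nat.le_of_dvd (Nat.pos_of_ne_zero hn0) hqd)
  refine ⟨n, hnq ▸ hqp, ?_⟩
  obtain ⟨e⟩ := Cfsg.Agent.Lib.Invol.isDihedral_closure htt huu ht1 hu1 htu
  exact ⟨(Subgroup.topEquiv.symm.trans (MulEquiv.subgroupCongr hclos.symm)).trans e⟩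

end Cfsg.Agent.S3684
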