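import Cfsg.Statements.S3696
import Mathlib

set_option autoImplicit false
open Cfsg

namespace Cfsg.Agent.S3696

lemma amgm (i j a b : ℕ) (hi : 0 < i) (hj : 0 < j) :
    (i + j) ^ (i + j) * a ^ i * b ^ j ≤ i ^ i * j ^ j * (a + b) ^ (i + j) := by
  have hi' : (0 : ℝ) < i := by exact_mod_cast hi
  have hj' : (0 : ℝ) < j := by exact_mod_cast hj
  have hij : (0 : ℝ) < (i : ℝ) + j := by positivity
  set w₁ : ℝ := i / ((i : ℝ) + j) with hw₁
  set w₂ : ℝ := j / ((i : ℝ) + j) with hw₂
  set p₁ : ℝ := a * ((i : ℝ) + j) / i with hp₁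
  set p₂ : ℝ := b * ((i : ℝ) + j) / j with hp₂
  have hw : w₁ + w₂ = 1 := by
    rw [hw₁, hw₂]; field_simp
  have hp₁0 : 0 ≤ p₁ := by positivity
  have hp₂0 : 0 ≤ p₂ := by positivity
  have h := Real.geom_mean_le_arith_mean2_weighted (by positivity) (by positivity) hp₁0 hp₂0 hw
  have hsum : w₁ * p₁ + w₂ * p₂ = (a : ℝ) + b := by
    rw [hw₁, hw₂, hp₁, hp₂]; field_simp
  rw [hsum] at h
  have h2 : (p₁ ^ w₁ * p₂ ^ w₂) ^ (i + j) ≤ ((a : ℝ) + b) ^ (i + j) :=
    pow_le_pow_left₀ (by positivity) h _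
  have h3 : (p₁ ^ w₁ * p₂ ^ w₂) ^ (i + j) = p₁ ^ i * p₂ ^ j := by
    rw [mul_pow]
    congr 1
    · rw [← Real.rpow_natCast, ← Real.rpow_mul hp₁0, hw₁]
      have : (i : ℝ) / ((i : ℝ) + j) * ((i + j : ℕ) : ℝ) = i := by
        push_cast; field_simp
      rw [this, Real.rpow_natCast]
    · rw [← Real.rpow_natCast, ← Real.rpow_mul hp₂0, hw₂]
      have : (j : ℝ) / ((i : ℝ) + j) * ((i + j : ℕ) : ℝ) = j := by
        push_cast; field_simp
      rw [this, Real.rpow_natCast]
  rw [h3] at h2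
  have h4 : (i ^ i * j ^ j : ℝ) * (p₁ ^ i * p₂ ^ j) = ((i : ℝ) + j) ^ (i + j) * a ^ i * b ^ j := by
    rw [hp₁, hp₂, div_pow, div_pow, mul_pow, mul_pow]
    field_simp
    ring
  have h5 : ((i : ℝ) + j) ^ (i + j) * a ^ i * b ^ j ≤ (i ^ i * j ^ j : ℝ) * ((a : ℝ) + b) ^ (i + j) := by
    rw [← h4]
    exact mul_le_mul_of_nonneg_left h2 (by positivity)
  exact_mod_cast h5

lemma pow_self_mul_le (i s : ℕ) (hi : 0 < i) (hs : 2 ^ i ≤ s) : i ^ i * s ≤ s ^ i := by
  obtain ⟨i', rfl⟩ : ∃ i', i = i' + 1 := ⟨i - 1, by omega⟩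
  rw [pow_succ s i']
  apply Nat.mul_le_mul_right
  -- `(i'+1)^(i'+1) ≤ s ^ i'`
  have h1 : i' + 1 ≤ 2 ^ i' := Nat.lt_two_pow_self
  calc (i' + 1) ^ (i' + 1) ≤ (2 ^ i') ^ (i' + 1) := Nat.pow_le_pow_left h1 _
    _ = (2 ^ (i' + 1)) ^ i' := by rw [← pow_mul, ← pow_mul, mul_comm]
    _ ≤ s ^ i' := Nat.pow_le_pow_left hs _

/-- The numerical heart of the induction. -/
lemma arith (i j s N' K : ℕ) (hi : 0 < i) (hs : 2 ^ i ≤ s) (hK : K * j ^ j ≤ N' ^ j) :
    s * K * (i + j) ^ (i + j) ≤ (s + N') ^ (i + j) := by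
  rcases Nat.eq_zero_or_pos j with rfl | hj
  · simp only [pow_zero, mul_one] at hK
    simp only [add_zero]
    calc s * K * i ^ i ≤ s * 1 * i ^ i := by gcongr
      _ = i ^ i * s := by ring
      _ ≤ s ^ i := pow_self_mul_le i s hi hs
      _ ≤ (s + N') ^ i := Nat.pow_le_pow_left (Nat.le_add_right _ _) _
  · have hjpos : 0 < j ^ j := by positivity
    have hipos : 0 < i ^ i := by positivity
    have h1 := amgm i j s N' hi hj
    have h2 := pow_self_mul_le i s hi hs
    apply Nat.le_of_mul_le_mul_left _ (Nat.mul_pos hipos hjpos)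
    calc i ^ i * j ^ j * (s * K * (i + j) ^ (i + j))
        = (i ^ i * s) * (K * j ^ j) * (i + j) ^ (i + j) := by ring
      _ ≤ s ^ i * N' ^ j * (i + j) ^ (i + j) := by gcongr
      _ = (i + j) ^ (i + j) * s ^ i * N' ^ j := by ring
      _ ≤ i ^ i * j ^ j * (s + N') ^ (i + j) := h1

universe u v

theorem main_ineq {Ω : Type u} (p : ℕ) [hp : Fact p.Prime] : ∀ (N : ℕ) (S : Set Ω) (_ : S.Finite) (_ : S.ncard = N)
    (A : Type v) [CommGroup A] [Finite A] [MulAction A Ω], IsPGroup p A →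
    (∀ a : A, ∀ x ∈ S, a • x ∈ S) → (∀ a : A, (∀ x ∈ S, a • x = x) → a = 1) →
    ∀ k, Nat.card {x : A // x ^ p = 1} = p ^ k → Nat.card A * k ^ k ≤ N ^ k := by
  classical
  intro N
  induction N using Nat.strong_induction_on with
  | _ N ih =>
  intro S hSf hSN A _ _ _ hA hinv hfaith k hk
  rcases Nat.eq_zero_or_pos k with rfl | hkpos
  · -- `A` is trivial
    have hA1 : Nat.card A = 1 := by
      by_contra hne
      have hnt : Nontrivial A := by
        rw [← Finite.one_lt_card_iff_nontrivial]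
        have : 0 < Nat.card A := Nat.card_pos
        omega
      obtain ⟨m, hm⟩ := hA.nontrivial_iff_card.1 hnt
      have hdvd : p ∣ Nat.card A := by
        rw [hm.2]; exact dvd_pow_self p hm.1.ne'
      obtain ⟨x, hx⟩ := exists_prime_orderOf_dvd_card' p hdvd
      have hx1 : x ≠ 1 := by
        rintro rfl
        rw [orderOf_one] at hx
        exact hp.out.one_lt.ne hx
      have hxp : x ^ p = 1 := by rw [← hx]; exact pow_orderOf_eq_one x
      have hs : Subsingleton {x : A // x ^ p = 1} := by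
        rw [← Finite.card_le_one_iff_subsingleton, hk]; simp
      have : (⟨x, hxp⟩ : {x : A // x ^ p = 1}) = ⟨1, one_pow p⟩ := Subsingleton.elim _ _
      exact hx1 (congrArg Subtype.val this)
    simp [hA1]
  -- an element of order `p` and a point it moves
  have hnt : Nontrivial {x : A // x ^ p = 1} := by
    rw [← Finite.one_lt_card_iff_nontrivial, hk]
    exact Nat.one_lt_pow hkpos.ne' hp.out.one_lt
  obtain ⟨⟨t, htp⟩, ht1⟩ := exists_ne (⟨1, one_pow p⟩ : {x : A // x ^ p = 1})
  have ht1' : t ≠ 1 := fun h => ht1 (Subtype.ext h)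
  obtain ⟨x, hxS, hxt⟩ : ∃ x ∈ S, t • x ≠ x := by
    by_contra hcon
    push Not at hcon
    exact ht1' (hfaith t hcon)
  set O := MulAction.orbit A x with hO
  set K := MulAction.stabilizer A x with hK
  have hOS : O ⊆ S := by
    rintro _ ⟨a, rfl⟩
    exact hinv a x hxS
  have hKfix : ∀ a ∈ K, ∀ y ∈ O, a • y = y := by
    rintro a ha _ ⟨b, rfl⟩
    show a • b • x = b • x
    rw [smul_smul, mul_comm, mul_smul]
    have : a • x = x := ha
    rw [this]
  have hOf : O.Finite := hSf.subset hOS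
  set S' := S \ O with hS'
  have hS'f : S'.Finite := hSf.subset Set.diff_subset
  have hcard : S'.ncard + O.ncard = N := by
    rw [← hSN]; exact Set.ncard_diff_add_ncard_of_subset hOS hSf
  have hO2 : 2 ≤ O.ncard := by
    have : ({x, t • x} : Set Ω) ⊆ O := by
      rintro y (rfl | hy)
      · exact MulAction.mem_orbit_self _
      · rw [Set.mem_singleton_iff] at hy
        subst hy
        exact MulAction.mem_orbit _ _
    have h2 := Set.ncard_le_ncard this hOf
    rwa [Set.ncard_pair hxt.symm] at h2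
  -- the subgroup of elements of exponent `p`
  let E : Subgroup A := (powMonoidHom p : A →* A).ker
  have hEmem : ∀ y, y ∈ E ↔ y ^ p = 1 := fun y => MonoidHom.mem_ker
  have hEcard : Nat.card E = p ^ k := by
    rw [← hk]
    exact Nat.card_congr (Equiv.subtypeEquivRight hEmem)
  let F : Subgroup A := E ⊓ K
  have hFE : F ≤ E := inf_le_left
  obtain ⟨k', hk'le, hk'⟩ := (Nat.dvd_prime_pow hp.out).1 (hEcard ▸ Subgroup.card_dvd_of_le hFE)
  have hcardK : Nat.card {y : K // y ^ p = 1} = p ^ k' := by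
    rw [← hk']
    refine Nat.card_congr ⟨fun y => ⟨y.1.1, (hEmem _).2 (by
        have := congrArg Subtype.val y.2
        simpa using this), y.1.2⟩, fun y => ⟨⟨y.1, y.2.2⟩, Subtype.ext ((hEmem _).1 y.2.1)⟩, ?_, ?_⟩
    · intro y; rfl
    · intro y; rfl
  have hk'lt : k' < k := by
    rcases lt_or_eq_of_le hk'le with h | rfl
    · exact h
    · exfalso
      have hFeq : F = E := Subgroup.eq_of_le_of_card_ge hFE (by rw [hk', hEcard])
      have htE : t ∈ E := (hEmem t).2 htp
      rw [← hFeq] at htE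
      exact hxt htE.2
  -- orbit of `E`
  have hpow : p ^ k ≤ O.ncard * p ^ k' := by
    have h1 := Subgroup.card_mul_index (MulAction.stabilizer E x)
    rw [MulAction.index_stabilizer] at h1
    have h2 : Nat.card (MulAction.stabilizer E x) = p ^ k' := by
      rw [← hk']
      refine Nat.card_congr ⟨fun y => ⟨y.1.1, y.1.2, y.2⟩, fun y => ⟨⟨y.1, y.2.1⟩, y.2.2⟩, ?_, ?_⟩
      · intro y; rfl
      · intro y; rfl
    rw [h2, hEcard] at h1
    have h3 : (MulAction.orbit E x).ncard ≤ O.ncard := by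
      apply Set.ncard_le_ncard _ hOf
      rintro _ ⟨a, rfl⟩
      exact ⟨a.1, rfl⟩
    rw [← h1, mul_comm]
    exact Nat.mul_le_mul_right _ h3
  set i := k - k' with hi
  have hkeq : k = i + k' := by omega
  have hipos : 0 < i := by omega
  have hs : 2 ^ i ≤ O.ncard := by
    have h1 : p ^ i * p ^ k' ≤ O.ncard * p ^ k' := by
      rw [← pow_add, ← hkeq]; exact hpow
    have h2 : p ^ i ≤ O.ncard := Nat.le_of_mul_le_mul_right h1 (pow_pos hp.out.pos _)
    exact le_trans (Nat.pow_le_pow_left hp.out.two_le _) h2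
  -- the induction hypothesis for `K` on `S'`
  have hIH := ih S'.ncard (by omega) S' hS'f rfl K (hA.to_subgroup K)
    (by
      rintro a y ⟨hy1, hy2⟩
      refine ⟨hinv a.1 y hy1, fun hc => hy2 ?_⟩
      obtain ⟨b, hb⟩ := hc
      refine ⟨a.1⁻¹ * b, ?_⟩
      show (a.1⁻¹ * b) • x = y
      have hb' : b • x = a.1 • y := hb
      rw [mul_smul, hb', inv_smul_smul])
    (by
      intro a ha
      apply Subtype.ext
      apply hfaith a.1
      intro y hy
      by_cases hyO : y ∈ O
      · exact hKfix a.1 a.2 y hyO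
      · exact ha y ⟨hy, hyO⟩)
    k' hcardK
  have hAcard : Nat.card A = O.ncard * Nat.card K := by
    have := Subgroup.card_mul_index K
    rw [MulAction.index_stabilizer] at this
    rw [← this, mul_comm]
  have := arith i k' O.ncard S'.ncard (Nat.card K) hipos hs hIH
  rw [hAcard, hkeq, ← hcard, add_comm S'.ncard]
  exact this

/-- Let p be a prime, Ω a finite set with n ≥ p elements, and A an abelian p-subgroup of the symmetric group on Ω whose elements of order dividing p number p^k (so k is the rank of A). Then |A| · k^k ≤ n^k, that is, |A| ≤ (n/k)^k. -/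
theorem result {Ω : Type*} [Fintype Ω] [DecidableEq Ω]
    (p : ℕ) (hp : p.Prime) (hn : p ≤ Fintype.card Ω) (A : Subgroup (Equiv.Perm Ω)) (hA : IsPGroup p A) (hab : IsMulCommutative A)
    (k : ℕ) (hk : Nat.card {x : A // x ^ p = 1} = p ^ k) :
    Nat.card A * k ^ k ≤ Fintype.card Ω ^ k := by
  classical
  letI : CommGroup A := { (inferInstance : Group A) with mul_comm := hab.is_comm.comm }
  have hfact : Fact p.Prime := ⟨hp⟩
  exact main_ineq p _ Set.univ Set.finite_univ (by simp [Set.ncard_univ]) A hA (fun _ _ _ => trivial)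
    (fun a ha => Subtype.ext (Equiv.ext fun x => ha x trivial)) k hk

end Cfsg.Agent.S3696
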