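import Cfsg.Statements.S3703
import Mathlib
import Cfsg.Agent.Lib.FrobId.Norm

set_option autoImplicit false
open Cfsg

namespace Cfsg.Agent.S3703

section frob

variable {B : Type*} [Group B]

open scoped Pointwise in
lemma frob_comm (F H : Subgroup B) (hH : Cfsg.IsFrobeniusComplement H)
    (hker : Cfsg.frobeniusKernel H = (F : Set B)) (z : B) (hz : z ∈ F) (h : B) (hh : h ∈ H) (h1 : h ≠ 1)
    (hc : Commute z h) : z = 1 := by
  by_contra hz1
  have hz' : z ∈ Cfsg.frobeniusKernel H := by rw [hker]; exact hz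
  rcases hz' with h2 | h2
  · exact hz1 h2
  · have hzH : z ∉ H := by
      have := h2 1
      simpa using this
    have h3 := hH.2.2 z hzH
    have h4 : h ∈ H ⊓ (MulAut.conj z • H) := by
      refine ⟨hh, ?_⟩
      show h ∈ MulAut.conj z • H
      rw [Subgroup.mem_pointwise_smul_iff_inv_smul_mem]
      have h5 : (MulAut.conj z)⁻¹ • h = h := by
        rw [MulAut.smul_def, MulAut.conj_inv_apply]
        have : z⁻¹ * h * z = z⁻¹ * (z * h) := by rw [mul_assoc, hc.eq.symm]
        rw [this]; group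
      rw [h5]; exact hh
    rw [h3, Subgroup.mem_bot] at h4
    exact h1 h4

lemma frob_coset [Finite B] (F H : Subgroup B) [F.Normal] (hH : Cfsg.IsFrobeniusComplement H)
    (hker : Cfsg.frobeniusKernel H = (F : Set B)) (f : B) (hf : f ∈ F) (h : B) (hh : h ∈ H) (h1 : h ≠ 1) :
    ∃ a ∈ F, f * h = a * h * a⁻¹ := by
  let φ : F → F := fun a => ⟨(a : B) * (h * (a : B)⁻¹ * h⁻¹),
    F.mul_mem a.2 (Subgroup.Normal.conj_mem inferInstance _ (F.inv_mem a.2) h)⟩
  have hφ : Function.Injective φ := by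
    intro a b hab
    have h2 : (a : B) * (h * (a : B)⁻¹ * h⁻¹) = (b : B) * (h * (b : B)⁻¹ * h⁻¹) := congrArg Subtype.val hab
    have h3 : Commute ((b : B)⁻¹ * a) h := by
      show ((b : B)⁻¹ * a) * h = h * ((b : B)⁻¹ * a)
      have h5 : (b : B)⁻¹ * ((a : B) * (h * (a : B)⁻¹ * h⁻¹)) * h * (a : B)
          = (b : B)⁻¹ * ((b : B) * (h * (b : B)⁻¹ * h⁻¹)) * h * (a : B) := by rw [h2]
      have e1 : (b : B)⁻¹ * ((a : B) * (h * (a : B)⁻¹ * h⁻¹)) * h * (a : B) = (b : B)⁻¹ * a * h := by group
      have e2 : (b : B)⁻¹ * ((b : B) * (h * (b : B)⁻¹ * h⁻¹)) * h * (a : B) = h * ((b : B)⁻¹ * a) := by group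
      rw [e1, e2] at h5
      exact h5
    have h6 := frob_comm F H hH hker _ (F.mul_mem (F.inv_mem b.2) a.2) h hh h1 h3
    apply Subtype.ext
    exact (inv_mul_eq_one.1 h6).symm
  obtain ⟨a, ha⟩ := Finite.surjective_of_injective hφ ⟨f, hf⟩
  refine ⟨a, a.2, ?_⟩
  have h2 : (a : B) * (h * (a : B)⁻¹ * h⁻¹) = f := congrArg Subtype.val ha
  rw [← h2]
  group

lemma frattini_elt [Finite B] (K R : Subgroup B) [K.Normal] (r : ℕ) [Fact r.Prime] (hRK : R ≤ K)
    (hRp : IsPGroup r R) (hRi : ¬ r ∣ R.relIndex K) (x : B) :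
    ∃ n ∈ Subgroup.normalizer (R : Set B), ∃ l ∈ K, x = n * l := by
  let P0 : Sylow r K := IsPGroup.toSylow (P := R.subgroupOf K)
    (hRp.comap_of_injective K.subtype K.subtype_injective) hRi
  have h := P0.normalizer_sup_eq_top
  have hmap : (P0 : Subgroup K).map K.subtype = R := by
    show (R.subgroupOf K).map K.subtype = R
    rw [Subgroup.subgroupOf_map_subtype, inf_of_le_left hRK]
  rw [hmap] at h
  have hx : x ∈ Subgroup.normalizer (R : Set B) ⊔ K := by rw [h]; trivial
  obtain ⟨n, hn, l, hl, rfl⟩ := Subgroup.mem_sup_of_normal_right.1 hx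
  exact ⟨n, hn, l, hl, rfl⟩

end frob

lemma key_sylow {G : Type*} [Group G] [Finite G] (N : Subgroup G) [N.Normal]
    (Fb Hb : Subgroup (G ⧸ N)) [Fb.Normal] (hHb : Cfsg.IsFrobeniusComplement Hb)
    (hker : Cfsg.frobeniusKernel Hb = (Fb : Set (G ⧸ N)))
    (hb : G ⧸ N) (hbH : hb ∈ Hb) (m : ℕ) (hbo : orderOf hb = m) (hm1 : 1 < m)
    (hcon : ∀ s : ℕ, s.Prime → s ∣ Nat.card N → ∀ g : G, orderOf g ≠ s * m)
    (r : ℕ) [hr : Fact r.Prime] (hrN : ¬ r ∣ Nat.card N)
    (R : Subgroup G) (hRW : R ≤ Fb.comap (QuotientGroup.mk' N)) (hRp : IsPGroup r R)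
    (hRi : ¬ r ∣ R.relIndex (Fb.comap (QuotientGroup.mk' N)))
    (p : ℕ) [hp : Fact p.Prime] (hpr : p ≠ r) (P0 : Sylow p N)
    (hRP : R ≤ Subgroup.normalizer (((P0 : Subgroup N).map N.subtype : Subgroup G) : Set G)) :
    ∀ c ∈ R, ∀ x ∈ (P0 : Subgroup N).map N.subtype, Commute c x := by
  classical
  let P : Subgroup G := (P0 : Subgroup N).map N.subtype
  have hPN : P ≤ N := by
    rintro _ ⟨x, _, rfl⟩
    exact x.2
  let X : Subgroup G := Subgroup.normalizer (P : Set G)
  have hsup : X ⊔ N = ⊤ := P0.normalizer_sup_eq_top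
  let W : Subgroup G := Fb.comap (QuotientGroup.mk' N)
  have hWn : W.Normal := inferInstance
  have hb1 : hb ≠ 1 := by
    rintro rfl
    rw [orderOf_one] at hbo
    omega
  -- lift `hb`
  obtain ⟨g, hg⟩ := QuotientGroup.mk'_surjective N hb
  have hgtop : g ∈ X ⊔ N := by rw [hsup]; trivial
  obtain ⟨x0, hx0, n0, hn0, hg0⟩ := Subgroup.mem_sup_of_normal_right.1 hgtop
  -- Frattini in `X`
  let K : Subgroup X := W.subgroupOf X
  have hKn : K.Normal := inferInstance
  let R1 : Subgroup X := R.subgroupOf X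
  have hR1K : R1 ≤ K := by
    intro c hc
    exact hRW hc
  have hR1p : IsPGroup r R1 := hRp.comap_of_injective X.subtype X.subtype_injective
  have hR1i : ¬ r ∣ R1.relIndex K := by
    intro hd
    apply hRi
    have h1 : R1.relIndex K = R.relIndex (W ⊓ X) := by
      show (R.comap X.subtype).relIndex K = _
      rw [Subgroup.relIndex_comap]
      congr 1
      exact Subgroup.subgroupOf_map_subtype W X
    rw [h1] at hd
    have h2 : R ≤ W ⊓ X := le_inf hRW hRP
    have h3 := Subgroup.relIndex_mul_relIndex R (W ⊓ X) W h2 inf_le_left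
    rw [← h3]
    exact Dvd.dvd.mul_right hd _
  obtain ⟨n, hn, l, hl, hxnl⟩ := frattini_elt K R1 r hR1K hR1p hR1i ⟨x0, hx0⟩
  let y : G := (n : G)
  have hyX : y ∈ X := n.2
  have hyR : ∀ c ∈ R, y * c * y⁻¹ ∈ R := by
    intro c hc
    have h1 : (⟨c, hRP hc⟩ : X) ∈ R1 := hc
    have h2 := ((Subgroup.mem_normalizer_iff.1 hn) _).1 h1
    exact h2
  -- the image of `y`
  let π : G →* G ⧸ N := QuotientGroup.mk' N
  have hπN : ∀ z, π z = 1 ↔ z ∈ N := fun z => QuotientGroup.eq_one_iff z
  have hπy : π y = hb * (π (l : G))⁻¹ := by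
    have h1 : x0 = y * (l : G) := congrArg Subtype.val hxnl
    have h2 : π n0 = 1 := (hπN n0).2 hn0
    have h3 : hb = π y * π (l : G) := by
      rw [← hg, ← hg0, map_mul, h2, mul_one, h1, map_mul]
    rw [h3]
    group
  have hlF : π (l : G) ∈ Fb := hl
  have hfF : hb * (π (l : G))⁻¹ * hb⁻¹ ∈ Fb :=
    Subgroup.Normal.conj_mem inferInstance _ (Fb.inv_mem hlF) hb
  obtain ⟨a, ha, hfa⟩ := frob_coset Fb Hb hHb hker _ hfF hb hbH hb1
  have hπy' : π y = a * hb * a⁻¹ := by
    rw [hπy, ← hfa]
    group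
  have hπyo : orderOf (π y) = m := by
    rw [hπy', ← hbo]
    exact (MulAut.conj a).orderOf_eq hb
  -- `R` meets `N` trivially
  have hRN : ∀ c ∈ R, π c = 1 → c = 1 := by
    intro c hc h1
    have hcN : c ∈ N := (hπN c).1 h1
    obtain ⟨k, hk⟩ := hRp ⟨c, hc⟩
    have h2 : c ^ r ^ k = 1 := by
      have := congrArg Subtype.val hk
      simpa using this
    have h3 : c ^ Nat.card N = 1 := by
      have := pow_card_eq_one' (x := (⟨c, hcN⟩ : N))
      have h4 := congrArg Subtype.val this
      rw [Subgroup.coe_pow] at h4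
      exact h4
    have h4 : orderOf c ∣ Nat.gcd (r ^ k) (Nat.card N) :=
      Nat.dvd_gcd (orderOf_dvd_of_pow_eq_one h2) (orderOf_dvd_of_pow_eq_one h3)
    have h5 : Nat.gcd (r ^ k) (Nat.card N) = 1 :=
      Nat.Coprime.pow_left k ((Nat.Prime.coprime_iff_not_dvd hr.out).2 hrN)
    rw [h5] at h4
    exact orderOf_eq_one_iff.1 (Nat.dvd_one.1 h4)
  have hfpf : ∀ i, 0 < i → i < m → ∀ c ∈ R, Commute c (y ^ i) → c = 1 := by
    intro i hi0 him c hc hcomm
    apply hRN c hc
    have hcF : π c ∈ Fb := hRW hc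
    have hz : a⁻¹ * π c * a⁻¹⁻¹ ∈ Fb := Subgroup.Normal.conj_mem inferInstance _ hcF a⁻¹
    have hbi : hb ^ i ≠ 1 := by
      intro h
      have := orderOf_le_of_pow_eq_one hi0 h
      omega
    have hcomm' : Commute (a⁻¹ * π c * a⁻¹⁻¹) (hb ^ i) := by
      have h1 : π c * (π y) ^ i = (π y) ^ i * π c := by
        rw [← map_pow, ← map_mul, ← map_mul, hcomm.eq]
      rw [hπy', conj_pow] at h1
      show (a⁻¹ * π c * a⁻¹⁻¹) * hb ^ i = hb ^ i * (a⁻¹ * π c * a⁻¹⁻¹)
      have e1 : (a⁻¹ * π c * a⁻¹⁻¹) * hb ^ i = a⁻¹ * (π c * (a * hb ^ i * a⁻¹)) * a := by group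
      have e2 : hb ^ i * (a⁻¹ * π c * a⁻¹⁻¹) = a⁻¹ * ((a * hb ^ i * a⁻¹) * π c) * a := by group
      rw [e1, e2, h1]
    have h2 := frob_comm Fb Hb hHb hker _ hz (hb ^ i) (Hb.pow_mem hbH i) hbi hcomm'
    have h3 : π c = a * (a⁻¹ * π c * a⁻¹⁻¹) * a⁻¹ := by group
    rw [h3, h2]
    group
  -- all lifts have order `m`
  have hstar : ∀ x ∈ N, (y * x) ^ m = 1 := by
    intro x hx
    set w := y * x with hw
    have hπw : π w = π y := by
      rw [hw, map_mul, (hπN x).2 hx, mul_one]
    have hmdvd : m ∣ orderOf w := by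
      rw [← hπyo, ← hπw]
      exact orderOf_map_dvd π w
    obtain ⟨k, hk⟩ := hmdvd
    have hwpos : 0 < orderOf w := orderOf_pos w
    have hkpos : 0 < k := by
      rcases Nat.eq_zero_or_pos k with h | h
      · rw [h, mul_zero] at hk; omega
      · exact h
    have hwmN : w ^ m ∈ N := by
      rw [← hπN, map_pow, hπw, ← hπyo]
      exact pow_orderOf_eq_one _
    have hok : orderOf (w ^ m) = k := by
      have h1 : orderOf w / m = k := by
        rw [hk]; exact Nat.mul_div_cancel_left _ (by omega)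
      rw [orderOf_pow' w (by omega), Nat.gcd_eq_right ⟨k, hk⟩, h1]
    by_cases hk1 : k = 1
    · rw [hk1, mul_one] at hk
      rw [← hk]
      exact pow_orderOf_eq_one w
    exfalso
    let s := k.minFac
    have hs : s.Prime := Nat.minFac_prime hk1
    have hsk : s ∣ k := Nat.minFac_dvd k
    have hsN : s ∣ Nat.card N := by
      have h1 : orderOf (⟨w ^ m, hwmN⟩ : N) ∣ Nat.card N := orderOf_dvd_natCard _
      rw [Subgroup.orderOf_mk, hok] at h1
      exact hsk.trans h1
    have hd : s * m ∣ orderOf w := by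
      rw [hk, mul_comm s m]
      exact Nat.mul_dvd_mul_left m hsk
    have h2 := orderOf_pow_orderOf_div (x := w) hwpos.ne' hd
    exact hcon s hs hsN _ h2
  -- apply the lemma in `X`
  let P1 : Subgroup X := P.subgroupOf X
  have hP1n : P1.Normal := Subgroup.normal_in_normalizer
  have hP1p : IsPGroup p P1 :=
    (P0.isPGroup'.map N.subtype).comap_of_injective X.subtype X.subtype_injective
  have hcop : (Nat.card R1).Coprime p := by
    obtain ⟨k, hk⟩ := IsPGroup.iff_card.1 hR1p
    rw [hk]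
    exact Nat.Coprime.pow_left k ((Nat.coprime_primes hr.out hp.out).2 hpr.symm)
  have main := Cfsg.Agent.Lib.FrobId.centralizes_of_norm p _ X rfl P1 R1 hP1p hcop (n : X) m (by omega)
    (by
      intro c hc
      have h1 := hyR c hc
      exact h1)
    (by
      intro i hi0 him c hc hcomm
      apply Subtype.ext
      apply hfpf i hi0 him c hc
      have h1 := congrArg Subtype.val hcomm.eq
      rw [Subgroup.coe_mul, Subgroup.coe_mul, Subgroup.coe_pow] at h1
      exact h1)
    (by
      intro x hx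
      apply Subtype.ext
      have := hstar x (hPN hx)
      simpa using this)
  intro c hc x hx
  have h1 := main ⟨c, hRP hc⟩ hc ⟨x, Subgroup.le_normalizer hx⟩ hx
  exact congrArg Subtype.val h1.eq

open scoped Pointwise in
lemma exists_invariant_sylow {G : Type*} [Group G] [Finite G] (N : Subgroup G) [N.Normal] (R : Subgroup G)
    (r : ℕ) [hr : Fact r.Prime] (hRp : IsPGroup r R) (hrN : ¬ r ∣ Nat.card N) (p : ℕ) [Fact p.Prime] :
    ∃ P0 : Sylow p N, R ≤ Subgroup.normalizer (((P0 : Subgroup N).map N.subtype : Subgroup G) : Set G) := by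
  classical
  letI act : MulDistribMulAction G N :=
    MulDistribMulAction.compHom N (MulAut.conjNormal : G →* MulAut N)
  have hact : ∀ (g : G) (v : N), ((g • v : N) : G) = g * v * g⁻¹ := fun g v => MulAut.conjNormal_apply g v
  have hcard : ¬ r ∣ Nat.card (Sylow p N) := by
    intro h
    apply hrN
    obtain ⟨P⟩ : Nonempty (Sylow p N) := inferInstance
    rw [Sylow.card_eq_index_normalizer P] at h
    exact h.trans (Subgroup.index_dvd_card _)
  obtain ⟨P0, hP0⟩ := hRp.nonempty_fixed_point_of_prime_not_dvd_card (Sylow p N) hcard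
  refine ⟨P0, ?_⟩
  have key : ∀ c ∈ R, ∀ h ∈ (P0 : Subgroup N).map N.subtype, c * h * c⁻¹ ∈ (P0 : Subgroup N).map N.subtype := by
    rintro c hc _ ⟨x, hx, rfl⟩
    have h1 : (c : G) • P0 = P0 := hP0 ⟨c, hc⟩
    have h2 : (c : G) • x ∈ (P0 : Subgroup N) := by
      have h3 : (c : G) • x ∈ (c : G) • (P0 : Subgroup N) := Subgroup.smul_mem_pointwise_smul x c _ hx
      rw [← Sylow.pointwise_smul_def, h1] at h3
      exact h3
    exact ⟨_, h2, hact c x⟩
  intro c hc
  rw [Subgroup.mem_normalizer_iff]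
  intro h
  constructor
  · exact key c hc h
  · intro hh
    have := key c⁻¹ (R.inv_mem hc) _ hh
    simpa [mul_assoc] using this

/-- Let N be a normal subgroup of the finite group G such that G/N is a Frobenius group with kernel F and cyclic complement H, where the order of F is coprime to that of N and F is not contained in the image of C_G(N) in G/N. Then G has an element of order p·#H for some prime p dividing the order of N. (A standard tool in recognising groups by their element orders.) -/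
theorem result {G : Type*} [Group G] [Finite G] (N : Subgroup G) [N.Normal]
    (Fb Hb : Subgroup (G ⧸ N)) [Fb.Normal] (hHb : Cfsg.IsFrobeniusComplement Hb) (hker : Cfsg.frobeniusKernel Hb = (Fb : Set (G ⧸ N)))
    (hcyc : IsCyclic Hb) (hcop : (Nat.card Fb).Coprime (Nat.card N))
    (hnot : ¬ Fb ≤ (Subgroup.centralizer (N : Set G)).map (QuotientGroup.mk' N)) :
    ∃ p : ℕ, p.Prime ∧ p ∣ Nat.card N ∧ ∃ g : G, orderOf g = p * Nat.card Hb := by
  classical
  by_contra hcon
  push Not at hcon
  obtain ⟨h0, hh0⟩ := IsCyclic.exists_generator (α := Hb)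
  set m := Nat.card Hb with hm
  have hbo : orderOf (h0 : G ⧸ N) = m := by
    rw [Subgroup.orderOf_coe]
    exact orderOf_eq_card_of_forall_mem_zpowers hh0
  have hm1 : 1 < m := by
    rw [hm, Finite.one_lt_card_iff_nontrivial]
    exact (Subgroup.nontrivial_iff_ne_bot Hb).2 hHb.1
  let W : Subgroup G := Fb.comap (QuotientGroup.mk' N)
  have hWn : W.Normal := inferInstance
  -- the centralizer claim
  have keyR : ∀ (r : ℕ) [Fact r.Prime], ¬ r ∣ Nat.card N → ∀ R : Subgroup G, R ≤ W → IsPGroup r R →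
      ¬ r ∣ R.relIndex W → ∀ c ∈ R, c ∈ Subgroup.centralizer (N : Set G) := by
    intro r hfr hrN R hRW hRp hRi c hc
    let D : Subgroup N := (Subgroup.centralizer (R : Set G)).subgroupOf N
    have hD : D = ⊤ := by
      by_contra hne
      have hidx : D.index ≠ 1 := fun h => hne (Subgroup.index_eq_one.1 h)
      have hp : (D.index).minFac.Prime := Nat.minFac_prime hidx
      have hfp : Fact (D.index).minFac.Prime := ⟨hp⟩
      set p := D.index.minFac with hpdef
      have hpd : p ∣ D.index := Nat.minFac_dvd _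
      have hpN : p ∣ Nat.card N := hpd.trans (Subgroup.index_dvd_card D)
      have hpr : p ≠ r := by
        intro h
        rw [h] at hpN
        exact hrN hpN
      obtain ⟨P0, hP0⟩ := exists_invariant_sylow N R r hRp hrN p
      have hcomm := key_sylow N Fb Hb hHb hker (h0 : G ⧸ N) h0.2 m hbo hm1
        (fun s hs hsN g => hcon s hs hsN g) r hrN R hRW hRp hRi p hpr P0 hP0
      have hle : (P0 : Subgroup N) ≤ D := by
        intro x hx
        show (x : G) ∈ Subgroup.centralizer (R : Set G)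
        rw [Subgroup.mem_centralizer_iff]
        intro c hc
        exact hcomm c hc _ ⟨x, hx, rfl⟩
      have h1 : D.index ∣ (P0 : Subgroup N).index := Subgroup.index_dvd_of_le hle
      exact P0.not_dvd_index (hpd.trans h1)
    rw [Subgroup.mem_centralizer_iff]
    intro x hx
    have h1 : (⟨x, hx⟩ : N) ∈ D := by rw [hD]; trivial
    have h2 : x ∈ Subgroup.centralizer (R : Set G) := h1
    rw [Subgroup.mem_centralizer_iff] at h2
    exact (h2 c hc).symm
  apply hnot
  let π : G →* G ⧸ N := QuotientGroup.mk' N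
  let Cb : Subgroup (G ⧸ N) := (Subgroup.centralizer (N : Set G)).map π
  have main : ∀ n : ℕ, ∀ xb ∈ Fb, orderOf xb = n → xb ∈ Cb := by
    intro n
    induction n using Nat.strong_induction_on with
    | _ n ih =>
    intro xb hxb hn
    have hn0 : n ≠ 0 := by rw [← hn]; exact (orderOf_pos xb).ne'
    by_cases hn1 : n = 1
    · rw [hn1, orderOf_eq_one_iff] at hn
      rw [hn]; exact Cb.one_mem
    set r := n.minFac with hr
    have hrp : r.Prime := Nat.minFac_prime hn1
    have hfr : Fact r.Prime := ⟨hrp⟩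
    obtain ⟨a, c, hrc, hnc⟩ := Nat.exists_eq_pow_mul_and_not_dvd hn0 r hrp.ne_one
    have hrn : r ∣ n := Nat.minFac_dvd n
    have ha0 : a ≠ 0 := by
      rintro rfl
      rw [pow_zero, one_mul] at hnc
      rw [hnc] at hrn
      exact hrc hrn
    have hcop1 : Nat.Coprime (r ^ a) c := Nat.Coprime.pow_left a ((Nat.Prime.coprime_iff_not_dvd hrp).2 hrc)
    by_cases hc1 : c = 1
    · -- prime power case
      rw [hc1, mul_one] at hnc
      have hrFb : r ∣ Nat.card Fb := by
        have h1 : orderOf xb ∣ Nat.card Fb := by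
          have := orderOf_dvd_natCard (⟨xb, hxb⟩ : Fb)
          rwa [Subgroup.orderOf_mk] at this
        rw [hn] at h1
        exact hrn.trans h1
      have hrN : ¬ r ∣ Nat.card N := by
        intro h
        have := Nat.dvd_gcd hrFb h
        rw [hcop] at this
        exact hrp.one_lt.ne' (Nat.dvd_one.1 this)
      obtain ⟨w, hw⟩ := QuotientGroup.mk'_surjective N xb
      obtain ⟨b, d, hrd, hwd⟩ := Nat.exists_eq_pow_mul_and_not_dvd (orderOf_pos w).ne' r hrp.ne_one
      set w' := w ^ d with hw'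
      have hw'o : w' ^ r ^ b = 1 := by
        rw [hw', ← pow_mul, mul_comm, ← hwd]
        exact pow_orderOf_eq_one w
      have hw'W : w' ∈ W := by
        show π w' ∈ Fb
        rw [hw', map_pow]
        have : π w = xb := hw
        rw [this]
        exact Fb.pow_mem hxb d
      -- the Sylow subgroup containing `w'`
      let g' : W := ⟨w', hw'W⟩
      have hg' : IsPGroup r (Subgroup.zpowers g') := by
        rintro ⟨z, hz⟩
        obtain ⟨i, rfl⟩ := Subgroup.mem_zpowers_iff.1 hz
        refine ⟨b, ?_⟩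
        apply Subtype.ext
        apply Subtype.ext
        show (w' ^ i) ^ r ^ b = 1
        rw [← zpow_natCast, ← zpow_mul, mul_comm, zpow_mul, zpow_natCast, hw'o, one_zpow]
      obtain ⟨Q, hQ⟩ := hg'.exists_le_sylow
      let R : Subgroup G := (Q : Subgroup W).map W.subtype
      have hRW : R ≤ W := by
        rintro _ ⟨x, _, rfl⟩
        exact x.2
      have hRp : IsPGroup r R := Q.isPGroup'.map W.subtype
      have hRi : ¬ r ∣ R.relIndex W := by
        have h1 : R.subgroupOf W = (Q : Subgroup W) :=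
          Subgroup.comap_map_eq_self_of_injective W.subtype_injective _
        show ¬ r ∣ (R.subgroupOf W).index
        rw [h1]
        exact Q.not_dvd_index
      have hw'R : w' ∈ R := ⟨g', hQ (Subgroup.mem_zpowers g'), rfl⟩
      have hw'C := keyR r hrN R hRW hRp hRi w' hw'R
      have hw'Cb : xb ^ d ∈ Cb := by
        refine ⟨w', hw'C, ?_⟩
        rw [hw', map_pow]
        have : π w = xb := hw
        rw [this]
      have hcopd : d.Coprime (orderOf xb) := by
        rw [hn, hnc]
        exact Nat.Coprime.pow_right a ((Nat.coprime_comm).1 ((Nat.Prime.coprime_iff_not_dvd hrp).2 hrd))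
      obtain ⟨e, he⟩ := exists_pow_eq_self_of_coprime hcopd
      rw [← he]
      exact Cb.pow_mem hw'Cb e
    · -- two coprime parts
      have hrapos : 1 < r ^ a := Nat.one_lt_pow ha0 hrp.one_lt
      have hcpos : 0 < c := by
        rcases Nat.eq_zero_or_pos c with h | h
        · rw [h, mul_zero] at hnc; omega
        · exact h
      have hc2 : 1 < c := by omega
      have hord1 : orderOf (xb ^ r ^ a) = c := by
        have := orderOf_pow_orderOf_div (x := xb) (orderOf_pos xb).ne' (n := c) (by rw [hn, hnc]; exact dvd_mul_left _ _)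
        rwa [hn, hnc, Nat.mul_div_cancel _ hcpos] at this
      have hord2 : orderOf (xb ^ c) = r ^ a := by
        have := orderOf_pow_orderOf_div (x := xb) (orderOf_pos xb).ne' (n := r ^ a) (by rw [hn, hnc]; exact dvd_mul_right _ _)
        rwa [hn, hnc, Nat.mul_div_cancel_left _ (by omega)] at this
      have h1 : xb ^ r ^ a ∈ Cb := ih c (by rw [hnc]; nlinarith) _ (Fb.pow_mem hxb _) hord1
      have h2 : xb ^ c ∈ Cb := ih (r ^ a) (by rw [hnc]; nlinarith) _ (Fb.pow_mem hxb _) hord2
      -- Bezout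
      have hbez := Nat.gcd_eq_gcd_ab (r ^ a) c
      rw [hcop1] at hbez
      have h3 : xb = (xb ^ r ^ a) ^ (Nat.gcdA (r ^ a) c) * (xb ^ c) ^ (Nat.gcdB (r ^ a) c) := by
        rw [← zpow_natCast, ← zpow_natCast, ← zpow_mul, ← zpow_mul, ← zpow_add, ← hbez]
        simp
      rw [h3]
      exact Cb.mul_mem (Cb.zpow_mem h1 _) (Cb.zpow_mem h2 _)
  intro xb hxb
  exact main _ xb hxb rfl

end Cfsg.Agent.S3703
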