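import Cfsg.Statements.S3736
import Cfsg.Agent.Lib.PGroup.MinAct
import Cfsg.Agent.Lib.PGroup.ClassTwo
import Cfsg.Agent.Lib.Hall.CoprimeLemmas
import Cfsg.Agent.Lib.Transfer.Conj
-- import your own Cfsg.Agent.* helpers here

set_option autoImplicit false
open Cfsg

namespace Cfsg.Agent.S3736

open Subgroup Cfsg.Agent.Lib.PGroup
open scoped commutatorElement

/-- The Hall–Higman reduction for a minimal non-trivial action. Let B, A and P be subgroups of a finite group with P a p-group, B normalizing P, and A a normal subgroup of B of order prime to p. Suppose A does not centralize P but centralizes every proper B-invariant subgroup of P. Then [P, A] = P; P is elementary abelian or special; B acts irreducibly on P/Φ(P), that is, the only B-invariant subgroups of P containing Φ(P) are Φ(P) and P; and if p is odd then every element of P has order dividing p. -/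
theorem result {X : Type*} [Group X] [Finite X] {p : ℕ} [Fact p.Prime] (B A P : Subgroup X) (hP : IsPGroup p P) (hBP : B ≤ Subgroup.normalizer (P : Set X)) (hAB : A ≤ B) (hAn : B ≤ Subgroup.normalizer (A : Set X)) (hAp : (Nat.card A).Coprime p) (hnt : ⁅P, A⁆ ≠ ⊥) (hmin : ∀ U : Subgroup X, U < P → B ≤ Subgroup.normalizer (U : Set X) → ⁅U, A⁆ = ⊥) : ⁅P, A⁆ = P ∧ (Cfsg.IsElementaryAbelian p P ∨ Cfsg.IsSpecial p ↥P) ∧ (∀ U : Subgroup X, (frattini ↥P).map P.subtype ≤ U → U ≤ P → B ≤ Subgroup.normalizer (U : Set X) → U = (frattini ↥P).map P.subtype ∨ U = P) ∧ (p ≠ 2 → ∀ x ∈ P, x ^ p = 1) := by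
  classical
  have hpp : p.Prime := Fact.out
  haveI : Fintype A := Fintype.ofFinite A
  have hPinv : ∀ g ∈ B, ∀ x ∈ P, g * x * g⁻¹ ∈ P := fun g hg x hx =>
    (mem_normalizer_iff.1 (hBP hg) x).1 hx
  have hAinv : ∀ g ∈ B, ∀ x ∈ A, g * x * g⁻¹ ∈ A := fun g hg x hx =>
    (mem_normalizer_iff.1 (hAn hg) x).1 hx
  have hcopA : ∀ a ∈ A, (orderOf a).Coprime p := by
    intro a ha
    have h1 := orderOf_dvd_natCard (⟨a, ha⟩ : A)
    rw [Subgroup.orderOf_mk] at h1
    exact Nat.Coprime.coprime_dvd_left h1 hAp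
  have hAP : ∀ a ∈ A, ∀ x ∈ P, a * x * a⁻¹ ∈ P := fun a ha => hPinv a (hAB ha)
  have hfix : ∀ U : Subgroup X, U < P → B ≤ normalizer (U : Set X) → ∀ u ∈ U, ∀ a ∈ A, a * u * a⁻¹ = u := by
    intro U hU hUB u hu a ha
    have h1 := Subgroup.commutator_eq_bot_iff_le_centralizer.1 (hmin U hU hUB)
    have h2 := mem_centralizer_iff.1 (h1 hu) a ha
    rw [h2]
    group
  -- the basic obstruction
  have hobst : ∀ U : Subgroup X, (∀ x ∈ P, ∀ a ∈ A, x⁻¹ * (a * x * a⁻¹) ∈ U) →
      (∀ u ∈ U, ∀ a ∈ A, a * u * a⁻¹ = u) → False := by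
    intro U h1 h2
    apply hnt
    rw [Subgroup.commutator_eq_bot_iff_le_centralizer]
    intro x hx
    rw [mem_centralizer_iff]
    intro a ha
    have h3 := fix_of_comm_fixed hP (hcopA a ha) (hAP a ha) hx (h2 _ (h1 x hx a ha) a ha)
    calc a * x = (a * x * a⁻¹) * a := by group
      _ = x * a := by rw [h3]
  have hkD : ∀ x ∈ P, ∀ a ∈ A, x⁻¹ * (a * x * a⁻¹) ∈ ⁅P, A⁆ := by
    intro x hx a ha
    have := Subgroup.commutator_mem_commutator (P.inv_mem hx) ha
    have e : ⁅x⁻¹, a⁆ = x⁻¹ * (a * x * a⁻¹) := by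
      rw [commutatorElement_def]
      group
    rwa [e] at this
  have hDle : ⁅P, A⁆ ≤ P := by
    rw [Subgroup.commutator_le]
    intro x hx a ha
    rw [commutatorElement_def]
    have e : x * a * x⁻¹ * a⁻¹ = x * (a * x⁻¹ * a⁻¹) := by group
    rw [e]
    exact P.mul_mem hx (hAP a ha _ (P.inv_mem hx))
  have hDB : B ≤ normalizer ((⁅P, A⁆ : Subgroup X) : Set X) := by
    intro g hg
    refine Cfsg.Agent.Lib.Transfer.mem_normalizer_of_conj_mem ?_
    have h : ⁅P, A⁆ ≤ (⁅P, A⁆ : Subgroup X).comap (MulAut.conj g).toMonoidHom := by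
      rw [Subgroup.commutator_le]
      intro x hx a ha
      show g * ⁅x, a⁆ * g⁻¹ ∈ ⁅P, A⁆
      have e : g * ⁅x, a⁆ * g⁻¹ = ⁅g * x * g⁻¹, g * a * g⁻¹⁆ := by
        simp only [commutatorElement_def]
        group
      rw [e]
      exact Subgroup.commutator_mem_commutator (hPinv g hg x hx) (hAinv g hg a ha)
    exact fun z hz => h hz
  have hD : ⁅P, A⁆ = P := by
    by_contra hne
    exact hobst _ hkD (hfix _ (lt_of_le_of_ne hDle hne) hDB)
  -- the centralizer
  obtain ⟨C, hCdef⟩ : ∃ C : Subgroup X, C = P ⊓ centralizer (A : Set X) := ⟨_, rfl⟩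
  have hCP : C ≤ P := by rw [hCdef]; exact inf_le_left
  have hCfix : ∀ c ∈ C, ∀ a ∈ A, a * c = c * a := by
    intro c hc a ha
    rw [hCdef] at hc
    exact mem_centralizer_iff.1 hc.2 a ha
  have hCA : ⁅C, A⁆ = ⊥ := by
    rw [Subgroup.commutator_eq_bot_iff_le_centralizer]
    intro c hc
    exact mem_centralizer_iff.2 (fun a ha => hCfix c hc a ha)
  have hUC : ∀ U : Subgroup X, U < P → B ≤ normalizer (U : Set X) → U ≤ C := by
    intro U hU hUB u hu
    rw [hCdef]
    refine ⟨hU.le hu, mem_centralizer_iff.2 fun a ha => ?_⟩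
    have := hfix U hU hUB u hu a ha
    calc a * u = (a * u * a⁻¹) * a := by group
      _ = u * a := by rw [this]
  have hPne : P ≠ ⊥ := by
    intro h
    apply hnt
    rw [h, Subgroup.commutator_bot_left]
  haveI hPnt : Nontrivial P := (Subgroup.nontrivial_iff_ne_bot P).2 hPne
  -- the characteristic subgroups
  obtain ⟨Φ, hΦdef⟩ : ∃ Φ : Subgroup X, Φ = (frattini ↥P).map P.subtype := ⟨_, rfl⟩
  obtain ⟨L, hLdef⟩ : ∃ L : Subgroup X, L = (commutator ↥P).map P.subtype := ⟨_, rfl⟩
  obtain ⟨Z, hZdef⟩ : ∃ Z : Subgroup X, Z = (center ↥P).map P.subtype := ⟨_, rfl⟩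
  have hΦB : B ≤ normalizer (Φ : Set X) := by
    rw [hΦdef]
    exact hBP.trans (Cfsg.Agent.Lib.Hall.normalizer_le_normalizer_map_of_characteristic P _)
  have hZB : B ≤ normalizer (Z : Set X) := by
    rw [hZdef]
    exact hBP.trans (Cfsg.Agent.Lib.Hall.normalizer_le_normalizer_map_of_characteristic P _)
  have hΦP : Φ ≤ P := by rw [hΦdef]; exact Subgroup.map_subtype_le _
  have hZP : Z ≤ P := by rw [hZdef]; exact Subgroup.map_subtype_le _
  have hcomm_frat : commutator ↥P ≤ frattini ↥P := by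
    intro y hy
    rw [Cfsg.Agent.Lib.Core.mem_frattini_iff]
    intro M hM
    have hi := index_eq_prime_of_isCoatom hP hM
    haveI := normal_of_index_eq_prime hP hi
    exact commutator_le_of_index_prime hi hy
  have hLΦ : L ≤ Φ := by
    rw [hLdef, hΦdef]
    exact Subgroup.map_mono hcomm_frat
  have hΦne : Φ ≠ P := by
    intro h
    have h1 : frattini ↥P = ⊤ := by
      rw [eq_top_iff]
      intro y _
      have : (y : X) ∈ Φ := by rw [h]; exact y.2
      rw [hΦdef] at this
      obtain ⟨w, hw, hwy⟩ := this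
      have : w = y := Subtype.ext hwy
      exact this ▸ hw
    rcases eq_top_or_exists_le_coatom (⊥ : Subgroup ↥P) with h2 | ⟨M, hM, -⟩
    · exact absurd h2 bot_ne_top
    · have : frattini ↥P ≤ M := by
        intro y hy
        exact (Cfsg.Agent.Lib.Core.mem_frattini_iff.1 hy) M hM
      rw [h1] at this
      exact hM.1 (top_le_iff.1 this)
  have hΦC : Φ ≤ C := hUC Φ (lt_of_le_of_ne hΦP hΦne) hΦB
  have hLC : L ≤ C := hLΦ.trans hΦC
  -- three subgroups lemma
  have hPC : ⁅P, C⁆ ≤ L := by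
    rw [Subgroup.commutator_le]
    intro x hx c hc
    rw [hLdef]
    refine ⟨⁅(⟨x, hx⟩ : P), (⟨c, hCP hc⟩ : P)⁆, Subgroup.commutator_mem_commutator (mem_top _) (mem_top _), rfl⟩
  have hPCbot : ⁅P, C⁆ = ⊥ := by
    have h1 : ⁅⁅P, C⁆, A⁆ = ⊥ := by
      rw [eq_bot_iff, ← hCA]
      exact Subgroup.commutator_mono (hPC.trans hLC) le_rfl
    have h2 : ⁅⁅C, A⁆, P⁆ = ⊥ := by
      rw [hCA, Subgroup.commutator_bot_left]
    have h3 := Subgroup.commutator_commutator_eq_bot_of_rotate h1 h2
    rwa [Subgroup.commutator_comm A P, hD] at h3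
  have hCZ : C ≤ Z := by
    intro c hc
    rw [hZdef]
    refine ⟨⟨c, hCP hc⟩, ?_, rfl⟩
    rw [SetLike.mem_coe, mem_center_iff]
    intro y
    have h1 := Subgroup.commutator_eq_bot_iff_le_centralizer.1 hPCbot
    exact Subtype.ext (mem_centralizer_iff.1 (h1 y.2) c hc).symm
  -- the norm map
  have hCL : C ≤ L := by
    let conjP : A → (↥P →* ↥P) := fun a =>
      { toFun := fun y => ⟨a * y * (a : X)⁻¹, hAP a a.2 y y.2⟩
        map_one' := Subtype.ext (by simp)
        map_mul' := fun y z => Subtype.ext (by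
          show (a : X) * (y * z) * (a : X)⁻¹ = (a * y * (a : X)⁻¹) * (a * z * (a : X)⁻¹)
          group) }
    let f : A → (↥P →* Abelianization ↥P) := fun a => Abelianization.of.comp (conjP a)
    let N : ↥P →* Abelianization ↥P := ∏ a : A, f a
    have hN : ∀ y, N y = ∏ a : A, f a y := fun y => MonoidHom.finset_prod_apply _ _ y
    have hNconj : ∀ (a₀ : A) (y : ↥P), N (conjP a₀ y) = N y := by
      intro a₀ y
      rw [hN, hN]
      refine Fintype.prod_equiv (Equiv.mulRight a₀) _ _ fun a => ?_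
      show Abelianization.of (conjP a (conjP a₀ y)) = Abelianization.of (conjP (a * a₀) y)
      congr 1
      apply Subtype.ext
      show (a : X) * ((a₀ : X) * y * (a₀ : X)⁻¹) * (a : X)⁻¹ =
        ((a : X) * (a₀ : X)) * y * ((a : X) * (a₀ : X))⁻¹
      group
    have hNtriv : ∀ y, N y = 1 := by
      have hle : ⁅P, A⁆ ≤ N.ker.map P.subtype := by
        rw [Subgroup.commutator_le]
        intro x hx a ha
        refine ⟨⟨⁅x, a⁆, hDle (Subgroup.commutator_mem_commutator hx ha)⟩, ?_, rfl⟩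
        rw [SetLike.mem_coe, MonoidHom.mem_ker]
        have e : (⟨⁅x, a⁆, hDle (Subgroup.commutator_mem_commutator hx ha)⟩ : P) =
            ⟨x, hx⟩ * (conjP ⟨a, ha⟩ ⟨x, hx⟩)⁻¹ := Subtype.ext (by
          show ⁅x, a⁆ = x * (a * x * a⁻¹)⁻¹
          rw [commutatorElement_def]
          group)
        rw [e, map_mul, map_inv, hNconj, mul_inv_cancel]
      rw [hD] at hle
      intro y
      obtain ⟨w, hw, hwy⟩ := hle y.2
      have : w = y := Subtype.ext hwy
      rw [← this]
      exact hw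
    intro c hc
    have hcP := hCP hc
    have hval : N ⟨c, hcP⟩ = (Abelianization.of (⟨c, hcP⟩ : P)) ^ Nat.card A := by
      rw [hN]
      have : ∀ a : A, f a ⟨c, hcP⟩ = Abelianization.of (⟨c, hcP⟩ : P) := by
        intro a
        show Abelianization.of (conjP a ⟨c, hcP⟩) = _
        congr 1
        apply Subtype.ext
        show (a : X) * c * (a : X)⁻¹ = c
        rw [hCfix c hc a a.2]
        group
      simp only [this, Finset.prod_const, Finset.card_univ, Nat.card_eq_fintype_card]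
    rw [hNtriv] at hval
    have hab : IsPGroup p (Abelianization ↥P) := hP.of_surjective Abelianization.of
      (fun q => QuotientGroup.mk_surjective q)
    obtain ⟨k, hk⟩ := IsPGroup.iff_orderOf.1 hab (Abelianization.of (⟨c, hcP⟩ : P))
    have hd : orderOf (Abelianization.of (⟨c, hcP⟩ : P)) ∣ Nat.card A :=
      orderOf_dvd_of_pow_eq_one hval.symm
    rw [hk] at hd
    have h1 : p ^ k = 1 := Nat.Coprime.eq_one_of_dvd (Nat.Coprime.pow_left k hAp.symm) hd
    rw [h1, orderOf_eq_one_iff] at hk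
    have h2 : (⟨c, hcP⟩ : P) ∈ (Abelianization.of : ↥P →* Abelianization ↥P).ker := hk
    rw [Abelianization.ker_of] at h2
    rw [hLdef]
    exact ⟨_, h2, rfl⟩
  have hCΦ : C ≤ Φ := hCL.trans hLΦ
  have hsplit : IsElementaryAbelian p P ∨ IsSpecial p ↥P := by
    by_cases hZeq : Z = P
    · left
      have hcom : ∀ x ∈ P, ∀ y ∈ P, x * y = y * x := by
        intro x hx y hy
        have : x ∈ Z := by rw [hZeq]; exact hx
        rw [hZdef] at this
        obtain ⟨w, hw, hwx⟩ := this
        have h1 := mem_center_iff.1 hw ⟨y, hy⟩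
        have h2 : y * w = w * y := congrArg Subtype.val h1
        have hwx' : (w : X) = x := hwx
        rw [← hwx']
        exact h2.symm
      have hLbot : commutator ↥P = ⊥ := by
        rw [commutator_def, Subgroup.commutator_eq_bot_iff_le_centralizer]
        intro y _
        rw [mem_centralizer_iff]
        intro z _
        exact Subtype.ext (hcom z z.2 y y.2)
      have hL1 : L = ⊥ := by
        rw [hLdef, hLbot, Subgroup.map_bot]
      have hΦ1 : Φ = ⊥ := by
        rw [eq_bot_iff, ← hL1]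
        exact hΦC.trans hCL
      refine ⟨IsMulCommutative.of_comm (fun a b => Subtype.ext (hcom a a.2 b b.2)), ?_⟩
      intro x hx
      have h1 := pow_mem_frattini hP (⟨x, hx⟩ : P)
      have h2 : x ^ p ∈ Φ := by
        rw [hΦdef]
        exact ⟨_, h1, rfl⟩
      rw [hΦ1] at h2
      exact h2
    · right
      have hZC : Z ≤ C := hUC Z (lt_of_le_of_ne hZP hZeq) hZB
      have hΦZ : Φ = Z := le_antisymm (hΦC.trans hCZ) (hZC.trans hCΦ)
      have hLZ : L = Z := le_antisymm (hLC.trans hCZ) (hZC.trans hCL)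
      rw [hΦdef, hZdef] at hΦZ
      rw [hLdef, hZdef] at hLZ
      exact ⟨hP, Subgroup.map_injective P.subtype_injective hΦZ,
        Subgroup.map_injective P.subtype_injective hLZ⟩
  refine ⟨hD, hsplit, ?_, ?_⟩
  · intro U hU1 hU2 hU3
    rw [← hΦdef] at hU1 ⊢
    by_cases hUP : U = P
    · exact Or.inr hUP
    · exact Or.inl (le_antisymm ((hUC U (lt_of_le_of_ne hU2 hUP) hU3).trans hCΦ) hU1)
  · intro hp2
    have hpowC : ∀ x ∈ P, x ^ p ∈ C := by
      intro x hx
      apply hΦC
      rw [hΦdef]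
      exact ⟨_, pow_mem_frattini hP (⟨x, hx⟩ : P), rfl⟩
    have hCcen : ∀ c ∈ C, ∀ w ∈ P, w * c = c * w := by
      intro c hc w hw
      have h1 := Subgroup.commutator_eq_bot_iff_le_centralizer.1 hPCbot
      exact (mem_centralizer_iff.1 (h1 hw) c hc).symm
    have hcommC : ∀ x ∈ P, ∀ b ∈ P, b⁻¹ * x⁻¹ * b * x ∈ C := by
      intro x hx b hb
      apply hLC
      rw [hLdef]
      refine ⟨⁅(⟨b, hb⟩ : P)⁻¹, (⟨x, hx⟩ : P)⁻¹⁆,
        Subgroup.commutator_mem_commutator (mem_top _) (mem_top _), ?_⟩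
      simp [commutatorElement_def]
    have hcp : ∀ x ∈ P, ∀ b ∈ P, (b⁻¹ * x⁻¹ * b * x) ^ p = 1 := by
      intro x hx b hb
      obtain ⟨c, hcdef⟩ : ∃ c, c = b⁻¹ * x⁻¹ * b * x := ⟨_, rfl⟩
      rw [← hcdef]
      have hcC : c ∈ C := hcdef ▸ hcommC x hx b hb
      have e1 : x⁻¹ * b * x = b * c := by rw [hcdef]; group
      have e3 : x⁻¹ * b ^ p * x = (x⁻¹ * b * x) ^ p := by
        have := conj_pow (a := x⁻¹) (b := b) (i := p)
        simpa using this.symm
      have e2 : x⁻¹ * b ^ p * x = b ^ p * c ^ p := by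
        rw [e3, e1]
        exact (show Commute b c from (hCcen c hcC b hb)).mul_pow p
      have e4 : x⁻¹ * b ^ p * x = b ^ p := by
        have := hCcen (b ^ p) (hpowC b hb) x⁻¹ (P.inv_mem hx)
        rw [this]
        group
      rw [e4] at e2
      exact mul_eq_left.mp e2.symm
    have hmulpow : ∀ x ∈ P, ∀ b ∈ P, (x * b) ^ p = x ^ p * b ^ p := by
      intro x hx b hb
      obtain ⟨c, hcdef⟩ : ∃ c, c = b⁻¹ * x⁻¹ * b * x := ⟨_, rfl⟩
      have hcC : c ∈ C := hcdef ▸ hcommC x hx b hb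
      have e := mul_pow_of_comm_comm x b c (by rw [hcdef]; group)
        (hCcen c hcC x hx).symm (hCcen c hcC b hb).symm p
      have hd : p ∣ p.choose 2 := hpp.dvd_choose_self (by norm_num) (by
        have := hpp.two_le
        omega)
      obtain ⟨m, hm⟩ := hd
      rw [e, hm, pow_mul, hcdef, hcp x hx b hb, one_pow, mul_one]
    let g : ↥P →* ↥P :=
      { toFun := fun y => y ^ p
        map_one' := one_pow p
        map_mul' := fun y z => Subtype.ext (by
          show ((y : X) * z) ^ p = (y : X) ^ p * (z : X) ^ p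
          exact hmulpow _ y.2 _ z.2) }
    have hΩmem : ∀ y (hy : y ∈ P), y ^ p = 1 → y ∈ g.ker.map P.subtype := by
      intro y hy hyp
      refine ⟨⟨y, hy⟩, ?_, rfl⟩
      rw [SetLike.mem_coe, MonoidHom.mem_ker]
      exact Subtype.ext hyp
    have hΩmem' : ∀ y ∈ g.ker.map P.subtype, y ^ p = 1 := by
      rintro _ ⟨w, hw, rfl⟩
      rw [SetLike.mem_coe, MonoidHom.mem_ker] at hw
      exact congrArg Subtype.val hw
    have hΩP : g.ker.map P.subtype ≤ P := Subgroup.map_subtype_le _
    have hΩB : B ≤ normalizer ((g.ker.map P.subtype : Subgroup X) : Set X) := by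
      intro h hh
      refine Cfsg.Agent.Lib.Transfer.mem_normalizer_of_conj_mem ?_
      intro y hy
      refine hΩmem _ (hPinv h hh y (hΩP hy)) ?_
      rw [conj_pow, hΩmem' y hy, mul_one, mul_inv_cancel]
    by_contra hcon
    push_neg at hcon
    obtain ⟨x0, hx0, hx01⟩ := hcon
    have hΩne : g.ker.map P.subtype ≠ P := by
      intro h
      apply hx01
      exact hΩmem' x0 (by rw [h]; exact hx0)
    refine hobst _ (fun x hx a ha => ?_) (hfix _ (lt_of_le_of_ne hΩP hΩne) hΩB)
    refine hΩmem _ (P.mul_mem (P.inv_mem hx) (hAP a ha x hx)) ?_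
    rw [hmulpow _ (P.inv_mem hx) _ (hAP a ha x hx), conj_pow]
    have h1 : a * x ^ p * a⁻¹ = x ^ p := by
      rw [hCfix _ (hpowC x hx) a ha]
      group
    rw [h1, inv_pow, inv_mul_cancel]

end Cfsg.Agent.S3736
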