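import Cfsg.Statements.S3738
import Mathlib
import Cfsg.Agent.Lib.PGroup.Nine
import Cfsg.Prelude.Def_CaseTheorems
-- import your own Cfsg.Agent.* helpers here

set_option autoImplicit false
open Cfsg

namespace Cfsg.Agent.S3738

open Cfsg.Agent.Lib.PGroup.MinFamily Cfsg.Agent.Lib.PGroup

/-- Let d be a non-identity 3-element of a finite group and P a 2-subgroup normalized by d on which ⟨d⟩ acts faithfully (no non-identity power of d centralizes P) and without non-identity fixed points (C_P(d) = 1). If every abelian subgroup of P has 2-rank at most 2, then d has order 3. -/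
theorem result {X : Type*} [Group X] [Finite X] (d : X) (n : ℕ) (hn : 1 ≤ n) (hd : orderOf d = 3 ^ n) (P : Subgroup X) (hP : IsPGroup 2 P) (hdP : d ∈ Subgroup.normalizer (P : Set X)) (hfaith : Subgroup.zpowers d ⊓ Subgroup.centralizer (P : Set X) = ⊥) (hfpf : P ⊓ Subgroup.centralizer {d} = ⊥) (hrank : ∀ V : Subgroup X, V ≤ P → IsMulCommutative V → Cfsg.PRankLE 2 2 V) : orderOf d = 3 := by
  classical
  haveI : Fact (Nat.Prime 2) := ⟨Nat.prime_two⟩
  haveI : Fact (Nat.Prime 3) := ⟨Nat.prime_three⟩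
  by_contra hne
  obtain ⟨m, rfl⟩ : ∃ m, n = m + 2 := by
    rcases n with _ | _ | m
    · omega
    · exact absurd (by simpa using hd) hne
    · exact ⟨m, rfl⟩
  set τ := d ^ 3 ^ m with hτ
  set σ := τ ^ 3 with hσ
  have hτ9 : τ ^ 9 = 1 := by
    rw [hτ, ← pow_mul, show 3 ^ m * 9 = 3 ^ (m + 2) by ring, ← hd, pow_orderOf_eq_one]
  have hσ3 : σ ^ 3 = 1 := by rw [hσ, ← pow_mul]; exact hτ9
  have hσ1 : σ ≠ 1 := by
    intro h
    have h1 : orderOf d ∣ 3 ^ (m + 1) := orderOf_dvd_of_pow_eq_one (by rw [pow_succ, pow_mul]; exact h)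
    rw [hd] at h1
    have h2 := (Nat.pow_dvd_pow_iff_le_right (by norm_num : 1 < 3)).mp h1
    omega
  have hσcop : (orderOf σ).Coprime 2 :=
    Nat.Coprime.coprime_dvd_left (orderOf_dvd_of_pow_eq_one hσ3) (by norm_num)
  have hτB : τ ∈ Subgroup.zpowers d := pow_mem (Subgroup.mem_zpowers d) _
  have hσB : σ ∈ Subgroup.zpowers d := pow_mem hτB _
  have hcommB : ∀ b ∈ Subgroup.zpowers d, b * σ * b⁻¹ = σ := by
    intro b hb
    obtain ⟨k, rfl⟩ := Subgroup.mem_zpowers_iff.mp hb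
    have : Commute (d ^ k) σ := (((Commute.refl d).zpow_left k).pow_right _).pow_right _
    rw [this.eq, mul_inv_cancel_right]
  have hPB : ∀ b ∈ Subgroup.zpowers d, ∀ x ∈ P, b * x * b⁻¹ ∈ P := by
    intro b hb x hx
    have hbN : b ∈ Subgroup.normalizer (P : Set X) := (Subgroup.zpowers_le.mpr hdP) hb
    exact (Subgroup.mem_normalizer_iff.mp hbN x).mp hx
  have hnf : ∃ a ∈ ({σ} : Set X), ∃ x ∈ P, a * x * a⁻¹ ≠ x := by
    by_contra hcon
    push Not at hcon
    have h1 : σ ∈ Subgroup.zpowers d ⊓ Subgroup.centralizer (P : Set X) := by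
      refine Subgroup.mem_inf.mpr ⟨hσB, ?_⟩
      rw [Subgroup.mem_centralizer_iff]
      intro x hx
      have h2 := hcon σ rfl x hx
      rw [mul_inv_eq_iff_eq_mul] at h2
      exact h2.symm
    rw [hfaith, Subgroup.mem_bot] at h1
    exact hσ1 h1
  obtain ⟨Q, hQP, h⟩ := exists_minFam P hP (𝒜 := {σ}) (B := Subgroup.zpowers d)
    (by rintro a rfl; exact hσcop) (by rintro a rfl; exact hσB)
    (by rintro a rfl b hb; rw [hcommB b hb]; rfl) hPB hnf
  have hE : ∀ E : Subgroup ↥Q, (∀ x ∈ E, ∀ y ∈ E, x * y = y * x) → (∀ x ∈ E, x ^ 2 = 1) →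
      Nat.card E ≤ 4 := by
    intro E h1 h2
    have hVP : E.map Q.subtype ≤ P := (Subgroup.map_subtype_le E).trans hQP
    have hVc : IsMulCommutative ↥(E.map Q.subtype) := by
      refine ⟨⟨?_⟩⟩
      rintro ⟨_, a, ha, rfl⟩ ⟨_, b, hb, rfl⟩
      have h0 : (a : X) * b = b * a := congrArg Subtype.val (h1 a ha b hb)
      exact Subtype.ext h0
    have h3 := hrank _ hVP hVc ⊤ (by
      refine ⟨⟨?_⟩⟩
      rintro ⟨a, -⟩ ⟨b, -⟩
      exact Subtype.ext (hVc.is_comm.comm a b)) (by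
      rintro ⟨_, a, ha, rfl⟩ -
      have h0 : (a : X) ^ 2 = 1 := congrArg Subtype.val (h2 a ha)
      exact Subtype.ext h0)
    have e1 : Nat.card (⊤ : Subgroup ↥(E.map Q.subtype)) = Nat.card E := by
      rw [Subgroup.card_top]
      exact Subgroup.card_map_of_injective Q.subtype_injective
    rw [e1] at h3
    exact h3
  have hQne := h.ne_bot
  have hcent : omegaZ Q ≤ Subgroup.center ↥Q := fun z hz => hz.1
  have hΩle : Nat.card (omegaZ Q) ≤ 4 := hE _
    (fun x hx y _ => (Subgroup.mem_center_iff.mp hx.1 y).symm) (fun x hx => hx.2)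
  have hΩne : Nat.card (omegaZ Q) ≠ 1 := by
    haveI : Nontrivial ↥Q := (Subgroup.nontrivial_iff_ne_bot Q).mpr hQne
    have hp : IsPGroup 2 ↥Q := h.isP
    haveI := hp.center_nontrivial
    obtain ⟨k, hk0, hk⟩ := (IsPGroup.nontrivial_iff_card (hp.to_subgroup (Subgroup.center ↥Q))).mp inferInstance
    have h2 : 2 ∣ Nat.card (Subgroup.center ↥Q) := by
      rw [hk]; exact dvd_pow_self 2 hk0.ne'
    obtain ⟨y, hy⟩ := exists_prime_orderOf_dvd_card' 2 h2
    have hy2 : (y : ↥Q) ^ 2 = 1 := by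
      have : y ^ 2 = 1 := by rw [← hy]; exact pow_orderOf_eq_one y
      exact congrArg Subtype.val this
    have hyΩ : (y : ↥Q) ∈ omegaZ Q := ⟨y.2, hy2⟩
    intro h1
    have h3 : omegaZ Q = ⊥ := Subgroup.eq_bot_of_card_eq _ h1
    rw [h3, Subgroup.mem_bot] at hyΩ
    have h4 : y = 1 := Subtype.ext hyΩ
    rw [h4] at hy
    simp at hy
  have hdQ : ∀ x ∈ Q, d * x * d⁻¹ ∈ Q := h.inv d (Subgroup.mem_zpowers d)
  have hmod : Nat.card (omegaZ Q) % 3 = 1 := by
    let Ω' := (omegaZ Q).map Q.subtype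
    have e0 : Nat.card Ω' = Nat.card (omegaZ Q) := Subgroup.card_map_of_injective Q.subtype_injective
    let f : Function.End ↥Ω' := fun x => ⟨d * x * d⁻¹, omegaZ_conj hdQ x.2⟩
    have hpow : ∀ (k : ℕ) (x : ↥Ω'), ((f ^ k) x : X) = d ^ k * x * (d ^ k)⁻¹ := by
      intro k
      induction k with
      | zero => intro x; simp; rfl
      | succ k ih =>
        intro x
        rw [pow_succ]
        show (((f ^ k) (f x)) : X) = _
        rw [ih]
        show d ^ k * (d * x * d⁻¹) * (d ^ k)⁻¹ = _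
        rw [pow_succ]
        group
    have hf : f ^ 3 ^ (m + 2) = 1 := by
      funext x
      apply Subtype.ext
      rw [hpow, ← hd, pow_orderOf_eq_one]
      simp
      rfl
    haveI : Fintype ↥Ω' := Fintype.ofFinite _
    have h1 := Equiv.Perm.card_fixedPoints_modEq (f := f) (p := 3) (n := m + 2) hf
    have h2 : Fintype.card (Function.fixedPoints f) = 1 := by
      rw [Fintype.card_eq_one_iff]
      refine ⟨⟨1, ?_⟩, ?_⟩
      · apply Subtype.ext
        show d * 1 * d⁻¹ = 1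
        group
      · rintro ⟨⟨x, hx⟩, hfx⟩
        have h3 : d * x * d⁻¹ = x := congrArg Subtype.val hfx
        have h4 : x ∈ P ⊓ Subgroup.centralizer {d} := by
          obtain ⟨w, -, rfl⟩ := hx
          refine Subgroup.mem_inf.mpr ⟨hQP w.2, ?_⟩
          rw [Subgroup.mem_centralizer_singleton_iff]
          have h5 := h3
          rw [mul_inv_eq_iff_eq_mul] at h5
          exact h5.symm
        rw [hfpf, Subgroup.mem_bot] at h4
        apply Subtype.ext
        apply Subtype.ext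
        exact h4
    rw [h2, ← Nat.card_eq_fintype_card, e0] at h1
    exact h1
  have hΩ4 : Nat.card (omegaZ Q) = 4 := by
    have h1 : 0 < Nat.card (omegaZ Q) := Nat.card_pos
    omega
  have hinvol : ∀ t : ↥Q, t ^ 2 = 1 → t ∈ omegaZ Q := by
    intro t ht
    obtain ⟨h1, h2⟩ := elem_sup hcent (fun z hz => hz.2) ht
    have h3 := hE _ h1 h2
    have h4 : omegaZ Q ≤ Subgroup.zpowers t ⊔ omegaZ Q := le_sup_right
    have h5 : omegaZ Q = Subgroup.zpowers t ⊔ omegaZ Q :=
      Subgroup.eq_of_le_of_card_ge h4 (by rw [hΩ4]; exact h3)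
    rw [h5]
    exact (le_sup_left : Subgroup.zpowers t ≤ _) (Subgroup.mem_zpowers t)
  have hbound := h.card_quot_le hinvol
  rw [hΩ4] at hbound
  have hτQ : ∀ x ∈ Q, τ * x * τ⁻¹ ∈ Q := h.inv τ hτB
  obtain ⟨k, hk⟩ := IsPGroup.iff_card.mp h.isP
  by_cases htop : omegaZ Q = ⊤
  · have hSb : CW.Sq (⊥ : Subgroup ↥Q) := by
      refine ⟨bot_le, ?_, ?_⟩
      · intro φ hφ
        rw [Subgroup.mem_bot] at hφ
        rw [hφ, one_pow]
      · intro x
        have h1 : x ∈ omegaZ Q := by rw [htop]; trivial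
        rw [Subgroup.mem_bot]
        exact h1.2
    have h1 := nine_dvd (Q := Q) (T := ⊥) bot_le hτQ (by
        intro x hx
        rw [Subgroup.mem_bot] at hx ⊢
        rw [hx]; group) hτ9 (by
        intro x hx hfix
        have h2 := fix_mem h hσ3 ⊥ hSb ⟨x, hx⟩ hfix
        rw [Subgroup.mem_bot] at h2 ⊢
        exact congrArg Subtype.val h2)
    have h2 : Nat.card Q = 4 := by
      rw [← hΩ4, htop, Subgroup.card_top]
    rw [h2, Subgroup.card_bot] at h1
    omega
  · have h1 := nine_dvd (Q := Q) (T := (omegaZ Q).map Q.subtype) (Subgroup.map_subtype_le _) hτQ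
      (fun x hx => omegaZ_conj hτQ hx) hτ9 (by
        intro x hx hfix
        exact ⟨⟨x, hx⟩, fix_mem h hσ3 _ h.sq ⟨x, hx⟩ hfix, rfl⟩)
    have e0 : Nat.card ((omegaZ Q).map Q.subtype) = 4 := by
      rw [← hΩ4]; exact Subgroup.card_map_of_injective Q.subtype_injective
    have e1 : Nat.card Q = Nat.card (↥Q ⧸ omegaZ Q) * 4 := by
      rw [← hΩ4]; exact Subgroup.card_eq_card_quotient_mul_card_subgroup _
    rw [e0, e1] at h1
    have hv1 : Nat.card (↥Q ⧸ omegaZ Q) ≠ 1 := by
      intro hv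
      apply htop
      rw [← Subgroup.index_eq_one]
      exact hv
    have hv0 : 0 < Nat.card (↥Q ⧸ omegaZ Q) := Nat.card_pos
    have hv : Nat.card (↥Q ⧸ omegaZ Q) = 10 := by omega
    rw [hv] at e1
    rw [hk] at e1
    have h5 : 5 ∣ 2 ^ k := by rw [e1]; norm_num
    have := (Nat.prime_five.dvd_of_dvd_pow h5)
    omega


end Cfsg.Agent.S3738
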