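import Cfsg.Statements.S3739
import Mathlib
import Cfsg.Agent.Lib.PGroup.Six
import Cfsg.Agent.Lib.Core.Basic
import Cfsg.Agent.Lib.Techniques.SylowIn
-- import your own Cfsg.Agent.* helpers here

set_option autoImplicit false
open Cfsg

namespace Cfsg.Agent.S3739

open Cfsg.Agent.Lib.PGroup.MinFamily Cfsg.Agent.Lib.PGroup


/-- Let G be a finite group with C_G(O₂(G)) ≤ O₂(G) containing an element of order 6, and let d be a non-identity 3-element of G normalizing a nontrivial elementary abelian 2-subgroup W with C_W(d) = 1. Then G has an elementary abelian subgroup of order 8. -/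
theorem result {G : Type*} [Group G] [Finite G] (hchar : Subgroup.centralizer (Cfsg.pCore 2 G : Set G) ≤ Cfsg.pCore 2 G) (hsix : ∃ g : G, orderOf g = 6) (d : G) (hd1 : d ≠ 1) (hd : IsPGroup 3 ↥(Subgroup.zpowers d)) (W : Subgroup G) (hW : Cfsg.IsElementaryAbelian 2 W) (hW1 : W ≠ ⊥) (hdW : d ∈ Subgroup.normalizer (W : Set G)) (hfpf : W ⊓ Subgroup.centralizer {d} = ⊥) : ∃ E : Subgroup G, Cfsg.IsElementaryAbelian 2 E ∧ Nat.card E = 8 := by
  classical
  haveI : Fact (Nat.Prime 2) := ⟨Nat.prime_two⟩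
  haveI : Fact (Nat.Prime 3) := ⟨Nat.prime_three⟩
  by_contra hno
  push Not at hno
  have hno' : ∀ E : Subgroup G, IsElementaryAbelian 2 E → Nat.card E ≠ 8 := fun E hE h => hno E hE h
  -- bound on elementary abelian subgroups
  have hle4 : ∀ E : Subgroup G, IsElementaryAbelian 2 E → Nat.card E ≤ 4 := by
    intro E hE
    by_contra hcon
    push Not at hcon
    have hEp : IsPGroup 2 ↥E := fun a => ⟨1, Subtype.ext (by simpa using hE.2 a a.2)⟩
    obtain ⟨n, hn⟩ := IsPGroup.iff_card.mp hEp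
    have hn3 : 3 ≤ n := by
      by_contra h3
      have h4 : n ≤ 2 := by omega
      have h5 : 2 ^ n ≤ 2 ^ 2 := Nat.pow_le_pow_right (by norm_num) h4
      omega
    have hdvd : 2 ^ 3 ∣ Nat.card ↥E := by
      rw [hn]; exact pow_dvd_pow 2 hn3
    obtain ⟨K, hK⟩ := Sylow.exists_subgroup_card_pow_prime 2 hdvd
    have hK8 : Nat.card ↥(K.map E.subtype) = 8 := by
      rw [Subgroup.card_map_of_injective E.subtype_injective, hK]; norm_num
    refine hno' _ ⟨?_, ?_⟩ hK8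
    · refine ⟨⟨?_⟩⟩
      rintro ⟨_, a, -, rfl⟩ ⟨_, b, -, rfl⟩
      have h0 : (a : G) * b = b * a := congrArg Subtype.val (hE.1.is_comm.comm a b)
      exact Subtype.ext h0
    · rintro _ ⟨a, -, rfl⟩
      exact hE.2 _ a.2
  obtain ⟨k, hk⟩ := hd ⟨d, Subgroup.mem_zpowers d⟩
  have hdk : d ^ 3 ^ k = 1 := by simpa using congrArg Subtype.val hk
  have hdWinv : ∀ w ∈ W, d * w * d⁻¹ ∈ W := fun w hw => (Subgroup.mem_normalizer_iff.mp hdW w).mp hw
  have hsub1 : ∀ A : Subgroup G, A ≤ W → A ≠ ⊥ → (∀ a ∈ A, d * a * d⁻¹ ∈ A) → Nat.card A = 4 := by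
    intro A hAW hA1 hAinv
    have h1 := card_mod_three A d k hdk hAinv
    have h2 : A ⊓ Subgroup.centralizer {d} = ⊥ := by
      rw [eq_bot_iff, ← hfpf]
      exact inf_le_inf_right _ hAW
    rw [h2, Subgroup.card_bot] at h1
    have h3 : Nat.card A ≤ 4 := hle4 A ⟨Cfsg.Agent.Lib.PGroup.isMulCommutative_of_comm (fun a ha b hb =>
      Cfsg.Agent.Lib.PGroup.comm_of_isMulCommutative hW.1 (hAW ha) (hAW hb)), fun a ha => hW.2 a (hAW ha)⟩
    have h4 : Nat.card A ≠ 1 := fun h => hA1 (Subgroup.eq_bot_of_card_eq A h)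
    have h5 : 0 < Nat.card A := Nat.card_pos
    omega
  have hW4 : Nat.card W = 4 := hsub1 W le_rfl hW1 hdWinv
  have hmax : ∀ t : G, t ^ 2 = 1 → (∀ w ∈ W, t * w = w * t) → t ∈ W := by
    intro t ht htc
    obtain ⟨E, hWE, htE, hE⟩ := exists_elem_adjoin hW ht htc
    have h1 := hle4 E hE
    have h2 : W = E := Subgroup.eq_of_le_of_card_ge hWE (by rw [hW4]; exact h1)
    rw [h2]
    exact htE
  have hsubeq : ∀ A : Subgroup G, A ≤ W → Nat.card A = 4 → A = W := fun A hA h =>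
    Subgroup.eq_of_le_of_card_ge hA (by rw [h, hW4])
  -- `T = O₂(G)`
  set T := Cfsg.pCore 2 G with hTdef
  haveI hTn : T.Normal := Cfsg.Agent.Lib.Core.pCore_normal 2 G
  have hT2 : IsPGroup 2 T := Cfsg.Agent.Lib.Core.pCore_isPGroup 2 G
  have hTne : T ≠ ⊥ := by
    intro h
    apply hd1
    have h1 : d ∈ Subgroup.centralizer (T : Set G) := by
      rw [Subgroup.mem_centralizer_iff]
      intro t ht
      have ht' : t = 1 := by
        have : t ∈ T := ht
        rwa [h, Subgroup.mem_bot] at this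
      rw [ht']; simp
    have h2 := hchar h1
    rwa [h, Subgroup.mem_bot] at h2
  let Z₁ := (omegaZ T).map T.subtype
  have hZ₁conj : ∀ b z, z ∈ Z₁ → b * z * b⁻¹ ∈ Z₁ := fun b z hz =>
    omegaZ_conj (fun x hx => hTn.conj_mem x hx b) hz
  have hZ₁n : Z₁.Normal := ⟨fun z hz b => hZ₁conj b z hz⟩
  have hZ₁T : Z₁ ≤ T := Subgroup.map_subtype_le _
  have hZ₁2 : ∀ z ∈ Z₁, z ^ 2 = 1 := by
    rintro _ ⟨z, hz, rfl⟩
    exact congrArg Subtype.val hz.2
  have hZ₁c : ∀ z ∈ Z₁, ∀ t ∈ T, t * z = z * t := by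
    rintro _ ⟨z, hz, rfl⟩ t ht
    exact congrArg Subtype.val (Subgroup.mem_center_iff.mp hz.1 ⟨t, ht⟩)
  have hZ₁ne : Z₁ ≠ ⊥ := by
    intro h
    apply omegaZ_ne_bot hT2 hTne
    exact (Subgroup.map_eq_bot_iff_of_injective _ T.subtype_injective).mp h
  have hZ₁el : IsElementaryAbelian 2 Z₁ :=
    ⟨Cfsg.Agent.Lib.PGroup.isMulCommutative_of_comm (fun a ha b hb => hZ₁c b hb a (hZ₁T ha)), hZ₁2⟩
  have hWZ : W = Z₁ := by
    have h1 : W ⊓ Z₁ ≠ ⊥ := by
      obtain ⟨z, hz, hz1, hzc⟩ := exists_fixed (p := 2) (Y := W) (Z := Z₁)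
        (fun a => ⟨1, Subtype.ext (by simpa using hW.2 a a.2)⟩) (hT2.to_le hZ₁T) hZ₁ne
        (by rw [Subgroup.normalizer_eq_top_iff.mpr hZ₁n]; exact le_top)
      have h2 : z ∈ W := hmax z (hZ₁2 z hz) (fun w hw => (hzc w hw).symm)
      intro h3
      have h4 : z ∈ W ⊓ Z₁ := Subgroup.mem_inf.mpr ⟨h2, hz⟩
      rw [h3, Subgroup.mem_bot] at h4
      exact hz1 h4
    have h2 := hsub1 _ inf_le_left h1 (fun a ha =>
      Subgroup.mem_inf.mpr ⟨hdWinv a ha.1, hZ₁conj d a ha.2⟩)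
    have h3 := hsubeq _ inf_le_left h2
    have h4 : W ≤ Z₁ := by rw [← h3]; exact inf_le_right
    exact Subgroup.eq_of_le_of_card_ge h4 (by rw [hW4]; exact hle4 Z₁ hZ₁el)
  have hWn : W.Normal := by rw [hWZ]; exact hZ₁n
  have hWT : W ≤ T := by rw [hWZ]; exact hZ₁T
  have hWc : ∀ w ∈ W, ∀ t ∈ T, t * w = w * t := by rw [hWZ]; exact hZ₁c
  have hW2 : ∀ w ∈ W, w ^ 2 = 1 := hW.2
  have hinvT : ∀ t ∈ T, t ^ 2 = 1 → t ∈ W := fun t ht ht2 =>
    hmax t ht2 (fun w hw => hWc w hw t ht)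
  -- the element of order six
  obtain ⟨g, hg⟩ := hsix
  obtain ⟨x, hxd⟩ : ∃ x, x = g ^ 2 := ⟨_, rfl⟩
  obtain ⟨u, hud⟩ : ∃ u, u = g ^ 3 := ⟨_, rfl⟩
  have hg6 : g ^ 6 = 1 := by rw [← hg]; exact pow_orderOf_eq_one g
  have hx3 : x ^ 3 = 1 := by rw [hxd, ← pow_mul]; exact hg6
  have hu2 : u ^ 2 = 1 := by rw [hud, ← pow_mul]; exact hg6
  have hu1 : u ≠ 1 := by
    intro h
    rw [hud] at h
    have := orderOf_dvd_of_pow_eq_one h
    rw [hg] at this
    omega
  have hxord : orderOf x = 3 := by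
    rw [hxd, orderOf_pow_of_dvd (by norm_num) (by rw [hg]; norm_num), hg]
  have hxu : x * u = u * x := by rw [hxd, hud, ← pow_add, ← pow_add, add_comm]
  have hx31 : x ^ 3 ^ 1 = 1 := by simpa using hx3
  have hxWinv : ∀ w ∈ W, x * w * x⁻¹ ∈ W := fun w hw => hWn.conj_mem w hw x
  have hcen_of_eq : ∀ (y : G), W ⊓ Subgroup.centralizer {y} = W → ∀ w ∈ W, y * w * y⁻¹ = w := by
    intro y h w hw
    have h1 : w ∈ W ⊓ Subgroup.centralizer {y} := by rw [h]; exact hw
    have h2 := Subgroup.mem_centralizer_singleton_iff.mp (Subgroup.mem_inf.mp h1).2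
    rw [mul_inv_eq_iff_eq_mul]
    exact h2.symm
  have hxW : ∀ w ∈ W, x * w * x⁻¹ = w := by
    have h1 := card_mod_three W x 1 hx31 hxWinv
    rw [hW4] at h1
    have hB4 : Nat.card ↥(W ⊓ Subgroup.centralizer {x}) ≤ 4 := by
      rw [← hW4]; exact Subgroup.card_le_of_le inf_le_left
    by_cases hB : Nat.card ↥(W ⊓ Subgroup.centralizer {x}) = 1
    · exfalso
      have hBb := Subgroup.eq_bot_of_card_eq _ hB
      -- the fixed points of `u` on `W`
      have hA : W ⊓ Subgroup.centralizer {u} ≠ ⊥ := by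
        obtain ⟨w, hw, hw1, hwc⟩ := exists_fixed (p := 2) (Y := Subgroup.zpowers u) (Z := W)
          (IsPGroup.of_card (n := 1) (by
            rw [Nat.card_zpowers, orderOf_eq_prime hu2 hu1, pow_one]))
          (fun a => ⟨1, Subtype.ext (by simpa using hW.2 a a.2)⟩) hW1
          (by rw [Subgroup.normalizer_eq_top_iff.mpr hWn]; exact le_top)
        intro h
        have h2 : w ∈ W ⊓ Subgroup.centralizer {u} :=
          Subgroup.mem_inf.mpr ⟨hw, Subgroup.mem_centralizer_singleton_iff.mpr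
            (hwc u (Subgroup.mem_zpowers u)).symm⟩
        rw [h, Subgroup.mem_bot] at h2
        exact hw1 h2
      have hAinv : ∀ a ∈ W ⊓ Subgroup.centralizer {u}, x * a * x⁻¹ ∈ W ⊓ Subgroup.centralizer {u} := by
        intro a ha
        have ha1 := (Subgroup.mem_inf.mp ha).1
        have ha2 := Subgroup.mem_centralizer_singleton_iff.mp (Subgroup.mem_inf.mp ha).2
        refine Subgroup.mem_inf.mpr ⟨hxWinv a ha1, ?_⟩
        rw [Subgroup.mem_centralizer_singleton_iff]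
        have hcu : x⁻¹ * u = u * x⁻¹ := (Commute.inv_left (show Commute x u from hxu)).eq
        calc x * a * x⁻¹ * u = x * a * (x⁻¹ * u) := by group
          _ = x * a * (u * x⁻¹) := by rw [hcu]
          _ = x * (a * u) * x⁻¹ := by group
          _ = x * (u * a) * x⁻¹ := by rw [ha2]
          _ = (x * u) * a * x⁻¹ := by group
          _ = (u * x) * a * x⁻¹ := by rw [hxu]
          _ = u * (x * a * x⁻¹) := by group
      have h3 := card_mod_three _ x 1 hx31 hAinv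
      have h4 : (W ⊓ Subgroup.centralizer {u}) ⊓ Subgroup.centralizer {x} = ⊥ := by
        rw [eq_bot_iff, ← hBb]
        exact inf_le_inf_right _ inf_le_left
      rw [h4, Subgroup.card_bot] at h3
      have h5 : Nat.card ↥(W ⊓ Subgroup.centralizer {u}) ≤ 4 := by
        rw [← hW4]; exact Subgroup.card_le_of_le inf_le_left
      have h6 : Nat.card ↥(W ⊓ Subgroup.centralizer {u}) ≠ 1 := fun h => hA (Subgroup.eq_bot_of_card_eq _ h)
      have h7 : 0 < Nat.card ↥(W ⊓ Subgroup.centralizer {u}) := Nat.card_pos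
      have h8 := hsubeq (W ⊓ Subgroup.centralizer {u}) inf_le_left (by omega)
      have huW := hcen_of_eq u h8
      have hu3 : u ∈ W := hmax u hu2 (fun w hw => by
        have := huW w hw
        rw [mul_inv_eq_iff_eq_mul] at this
        exact this)
      have h9 : u ∈ W ⊓ Subgroup.centralizer {x} :=
        Subgroup.mem_inf.mpr ⟨hu3, Subgroup.mem_centralizer_singleton_iff.mpr hxu.symm⟩
      rw [hBb, Subgroup.mem_bot] at h9
      exact hu1 h9
    · have h2 : 0 < Nat.card ↥(W ⊓ Subgroup.centralizer {x}) := Nat.card_pos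
      exact hcen_of_eq x (hsubeq (W ⊓ Subgroup.centralizer {x}) inf_le_left (by omega))
  -- the family of conjugates of `x`
  let 𝒜 : Set G := {y | ∃ b, y = b * x * b⁻¹}
  have h𝒜cop : ∀ a ∈ 𝒜, (orderOf a).Coprime 2 := by
    rintro _ ⟨b, rfl⟩
    rw [Cfsg.Agent.Lib.Techniques.orderOf_conj_eq, hxord]
    norm_num
  have h𝒜conj : ∀ a ∈ 𝒜, ∀ b ∈ (⊤ : Subgroup G), b * a * b⁻¹ ∈ 𝒜 := by
    rintro _ ⟨c, rfl⟩ b _
    exact ⟨b * c, by group⟩
  have hnf : ∃ a ∈ 𝒜, ∃ t ∈ T, a * t * a⁻¹ ≠ t := by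
    by_contra hcon
    push Not at hcon
    have h1 : x ∈ Subgroup.centralizer (T : Set G) := by
      rw [Subgroup.mem_centralizer_iff]
      intro t ht
      have h2 := hcon x ⟨1, by group⟩ t ht
      rw [mul_inv_eq_iff_eq_mul] at h2
      exact h2.symm
    have h3 : x ∈ T := hchar h1
    obtain ⟨n, hn⟩ := hT2 ⟨x, h3⟩
    have h4 : x ^ 2 ^ n = 1 := by simpa using congrArg Subtype.val hn
    have h5 := orderOf_dvd_of_pow_eq_one h4
    rw [hxord] at h5
    have h6 := Nat.prime_three.dvd_of_dvd_pow h5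
    omega
  obtain ⟨R, hRT, h⟩ := exists_minFam T hT2 (𝒜 := 𝒜) (B := ⊤) h𝒜cop (fun _ _ => Subgroup.mem_top _)
    h𝒜conj (fun b _ t ht => hTn.conj_mem t ht b) hnf
  have hRinv : ∀ (b : G), ∀ r ∈ R, b * r * b⁻¹ ∈ R := fun b r hr => h.inv b (Subgroup.mem_top _) r hr
  have hRne := h.ne_bot
  -- `W ≤ R`
  have hWR : W ≤ R := by
    have h1 : W ⊓ R ≠ ⊥ := by
      have hRΩ := omegaZ_ne_bot h.isP hRne
      obtain ⟨⟨t, ht⟩, ht1⟩ := Subgroup.ne_bot_iff_exists_ne_one.mp hRΩ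
      have ht2 : (t : G) ^ 2 = 1 := congrArg Subtype.val ht.2
      have ht3 : (t : G) ∈ W := hinvT t (hRT t.2) ht2
      intro h2
      have h3 : (t : G) ∈ W ⊓ R := Subgroup.mem_inf.mpr ⟨ht3, t.2⟩
      rw [h2, Subgroup.mem_bot] at h3
      apply ht1
      apply Subtype.ext
      apply Subtype.ext
      exact h3
    have h2 := hsub1 _ inf_le_left h1 (fun a ha => Subgroup.mem_inf.mpr ⟨hdWinv a ha.1, hRinv d a ha.2⟩)
    have h3 := hsubeq _ inf_le_left h2
    rw [← h3]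
    exact inf_le_right
  have hRsq : ∀ r ∈ R, r ^ 2 ∈ W := by
    intro r hr
    apply hinvT _ (hRT (R.pow_mem hr 2))
    rw [← pow_mul]
    exact h.pow_four hr
  have hR1 : ∀ r ∈ R, r ^ 2 = 1 → r ∈ W := fun r hr hr2 => hinvT r (hRT hr) hr2
  have hcenWR : ∀ w ∈ W, ∀ r ∈ R, r * w = w * r := fun w hw r hr => hWc w hw r (hRT hr)
  have hΩeq : (omegaZ R).map R.subtype = W := by
    apply le_antisymm
    · rintro _ ⟨z, hz, rfl⟩
      exact hR1 z z.2 (congrArg Subtype.val hz.2)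
    · intro w hw
      refine ⟨⟨w, hWR hw⟩, ⟨?_, ?_⟩, rfl⟩
      · rw [Subgroup.mem_center_iff]
        rintro ⟨r, hr⟩
        exact Subtype.ext (hcenWR w hw r hr)
      · exact Subtype.ext (hW2 w hw)
  have hΩ4 : Nat.card (omegaZ R) = 4 := by
    rw [← hW4, ← hΩeq]
    exact (Subgroup.card_map_of_injective R.subtype_injective).symm
  have hinvol : ∀ t : ↥R, t ^ 2 = 1 → t ∈ omegaZ R := by
    intro t ht
    have h1 : (t : G) ∈ W := hR1 t t.2 (congrArg Subtype.val ht)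
    rw [← hΩeq] at h1
    obtain ⟨z, hz, hze⟩ := h1
    have : z = t := Subtype.ext hze
    rwa [← this]
  have hbound := h.card_quot_le hinvol
  rw [hΩ4] at hbound
  have hcard : Nat.card R = 4 * Nat.card (↥R ⧸ omegaZ R) := by
    rw [mul_comm, ← hΩ4]
    exact Subgroup.card_eq_card_quotient_mul_card_subgroup _
  obtain ⟨m, hm⟩ := IsPGroup.iff_card.mp h.isP
  -- every conjugate of `x` centralizing `R` is a contradiction
  have hfinal : (∀ r ∈ R, x * r * x⁻¹ = r) → False := by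
    intro hall
    obtain ⟨a, ⟨b, rfl⟩, r, hr, hne⟩ := h.not_fix
    apply hne
    have h1 := hall (b⁻¹ * r * b) (by simpa using hRinv b⁻¹ r hr)
    calc b * x * b⁻¹ * r * (b * x * b⁻¹)⁻¹ = b * (x * (b⁻¹ * r * b) * x⁻¹) * b⁻¹ := by group
      _ = b * (b⁻¹ * r * b) * b⁻¹ := by rw [h1]
      _ = r := by group
  apply hfinal
  by_cases hv1 : Nat.card (↥R ⧸ omegaZ R) = 1
  · exfalso
    apply hfinal
    have htop : omegaZ R = ⊤ := by
      rw [← Subgroup.index_eq_one]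
      exact hv1
    intro r hr
    have h1 : (⟨r, hr⟩ : ↥R) ∈ omegaZ R := by rw [htop]; trivial
    have h2 : r ∈ W := by
      rw [← hΩeq]
      exact ⟨_, h1, rfl⟩
    exact hxW r h2
  · exact centralizes_of_fibres hWR hW4 hW2 hcenWR hRsq hR1 hdk
      (Cfsg.Agent.Lib.Hall.mem_normalizer_of_conj_le (fun r hr => hRinv d r hr)) hdWinv
      (fun w hw hfix => by
        have h1 : w ∈ W ⊓ Subgroup.centralizer {d} := by
          refine Subgroup.mem_inf.mpr ⟨hw, Subgroup.mem_centralizer_singleton_iff.mpr ?_⟩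
          rw [mul_inv_eq_iff_eq_mul] at hfix
          exact hfix.symm
        rwa [hfpf, Subgroup.mem_bot] at h1)
      hx31 (fun r hr => hRinv x r hr) hxW hcard hbound hv1 hm


end Cfsg.Agent.S3739
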