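import Cfsg.Statements.S3763
import Cfsg.Agent.Lib.LargeES.Rank
import Cfsg.Agent.Lib.ClassSizes.ExtraClass
import Cfsg.Agent.Lib.Amalgam.Extra2
-- import your own Cfsg.Agent.* helpers here

set_option autoImplicit false
open Cfsg

namespace Cfsg.Agent.S3763

open Subgroup Cfsg.Agent.Lib.LargeES.Rank

theorem not_rank_of_iso {F C : Type*} [Group F] [Group C] [Finite F] [Finite C] (φ : C ≃* F) (S : Subgroup C)
    (hS : Cfsg.IsElementaryAbelian 2 S) (k : ℕ) (hk : 2 ^ k < Nat.card S) : ¬ Cfsg.PRankLE 2 k F := by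
  intro h
  have h1 := h (S.map φ.toMonoidHom) ?_ ?_
  · have h2 : Nat.card (S.map φ.toMonoidHom) = Nat.card S :=
      Nat.card_congr (φ.subgroupMap S).symm.toEquiv
    omega
  · refine ⟨⟨fun a b => ?_⟩⟩
    obtain ⟨a, x, hx, rfl⟩ := a
    obtain ⟨b, y, hy, rfl⟩ := b
    apply Subtype.ext
    have := hS.1.is_comm.comm (⟨x, hx⟩ : S) ⟨y, hy⟩
    have h3 : x * y = y * x := congrArg Subtype.val this
    show φ x * φ y = φ y * φ x
    rw [← map_mul, ← map_mul, h3]
  · rintro a ⟨x, hx, rfl⟩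
    show (φ x) ^ 2 = 1
    rw [← map_pow, hS.2 x hx, map_one]

/-- The count of square roots of `1` and of elements of order four. -/
theorem count_add {F : Type*} [Group F] [Finite F] (hF : Cfsg.IsExtraspecial 2 F) :
    Nat.card {x : F // x ^ 2 = 1} + Nat.card {x : F // orderOf x = 4} = Nat.card F := by
  classical
  obtain ⟨z, hz⟩ := Cfsg.Agent.Lib.Amalgam.exists_extraFacts hF
  have e : {x : F // orderOf x = 4} ≃ {x : F // ¬ x ^ 2 = 1} := by
    refine Equiv.subtypeEquivRight fun x => ?_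
    rw [Cfsg.Agent.Lib.Amalgam.ExtraCount.orderOf_eq_four_iff hz x]
    rcases Cfsg.Agent.Lib.Amalgam.ExtraCount.sq_eq hz x with h1 | h1
    · rw [pow_two, h1]
      constructor
      · intro h2
        exact absurd h2.symm hz.z_ne_one
      · intro h2
        exact absurd rfl h2
    · rw [pow_two, h1]
      constructor
      · intro _
        exact hz.z_ne_one
      · intro _
        rfl
  rw [Nat.card_congr e, ← Nat.card_sum]
  exact Nat.card_congr (Equiv.sumCompl _)

theorem facts {F : Type*} [Group F] [Finite F] (hF : Cfsg.IsExtraspecial 2 F) (n : ℕ)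
    (hn : Nat.card F = 2 ^ (2 * n + 1)) :
    (Nat.card {x : F // x ^ 2 = 1} = 2 ^ (2 * n) + 2 ^ n ∧ Cfsg.PRankLE 2 (n + 1) F ∧ ¬ Cfsg.PRankLE 2 n F) ∨
    (Nat.card {x : F // x ^ 2 = 1} = 2 ^ (2 * n) - 2 ^ n ∧ Cfsg.PRankLE 2 n F ∧ ¬ Cfsg.PRankLE 2 (n - 1) F) := by
  obtain ⟨⟨m, hm1, hmc, hcount⟩, hiso⟩ := Cfsg.Agent.Lib.ClassSizes.ExtraClass.main.{_, 0} F hF
  have hmn : m = n := by
    have h1 : 2 ^ (2 * m + 1) = 2 ^ (2 * n + 1) := by rw [← hmc, hn]
    have h2 := Nat.pow_right_injective (le_refl 2) h1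
    omega
  subst hmn
  have hpow : (2 : ℕ) ^ (2 * m + 1) = 2 * 2 ^ (2 * m) := by ring
  have h2m : (2 : ℕ) ^ m ≤ 2 ^ (2 * m) := Nat.pow_le_pow_right (by norm_num) (by omega)
  have h2pos : 0 < (2 : ℕ) ^ m := by positivity
  -- abelian bound
  have hab : ∀ A : Subgroup F, IsMulCommutative A → Nat.card A ≤ 2 ^ (m + 1) := by
    intro A hA
    refine card_le_of_comm hF hn A fun a ha b hb => ?_
    have := hA.is_comm.comm (⟨a, ha⟩ : A) ⟨b, hb⟩
    exact congrArg Subtype.val this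
  -- large elementary abelian means plus type
  have hlarge : ∀ A : Subgroup F, IsMulCommutative A → (∀ a ∈ A, a ^ 2 = 1) → Nat.card A = 2 ^ (m + 1) →
      Nat.card {x : F // x ^ 2 = 1} = 2 ^ (2 * m) + 2 ^ m := by
    intro A hA hA2 hc
    have h1 := Cfsg.Agent.Lib.Amalgam.card_orderOf_four (m := m) hF hn ⟨A, ⟨hA, hA2⟩, hc⟩
    have h2 := count_add hF
    rw [h1, hn, hpow] at h2
    omega
  rcases hcount with hc | hc
  · left
    refine ⟨hc, fun A hA _ => hab A hA, ?_⟩
    -- the model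
    have hCG : Cfsg.IsExtraspecial 2 (CG m (fun _ => 0)) := CG.isExtraspecial hm1
    have hsub := CG.sub_elem (n := m) (δ := fun _ => 0) (S := fun _ => True) (fun _ _ => rfl)
    have hsubc : Nat.card (CG.sub (δ := (fun _ => 0 : Fin m → ZMod 2)) (fun _ => True)) = 2 ^ (m + 1) :=
      CG.card_sub _ (by simp)
    have hcountC : Nat.card {x : CG m (fun _ => 0) // x ^ 2 = 1} = 2 ^ (2 * m) + 2 ^ m := by
      have h1 := Cfsg.Agent.Lib.Amalgam.card_orderOf_four (m := m) hCG CG.card_eq ⟨_, hsub, hsubc⟩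
      have h2 := count_add hCG
      rw [h1, CG.card_eq, hpow] at h2
      omega
    obtain ⟨φ⟩ := hiso (CG m (fun _ => 0)) hCG (by rw [CG.card_eq, hn]) (by rw [hcountC, hc])
    refine not_rank_of_iso φ.symm _ hsub m ?_
    rw [hsubc]
    exact Nat.pow_lt_pow_right (by norm_num) (by omega)
  · right
    refine ⟨hc, ?_, ?_⟩
    · intro A hA hA2
      have h1 := hab A hA
      have hP : IsPGroup 2 A := hF.1.1.to_subgroup A
      obtain ⟨k, hk⟩ := IsPGroup.iff_card.mp hP
      rw [hk] at h1 ⊢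
      have h3 : k ≤ m + 1 := (Nat.pow_le_pow_iff_right (by norm_num)).mp h1
      have h4 : k ≠ m + 1 := by
        rintro rfl
        have h5 := hlarge A hA hA2 hk
        rw [hc] at h5
        omega
      exact Nat.pow_le_pow_right (by norm_num) (by omega)
    · let i₀ : Fin m := ⟨0, by omega⟩
      have hCG : Cfsg.IsExtraspecial 2 (CG m (fun i => if i = i₀ then 1 else 0)) := CG.isExtraspecial hm1
      have hsub := CG.sub_elem (n := m) (δ := fun i => if i = i₀ then 1 else 0) (S := fun i => i ≠ i₀)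
        (fun i hi => if_neg hi)
      have hsubc : Nat.card (CG.sub (δ := (fun i => if i = i₀ then 1 else 0 : Fin m → ZMod 2)) (fun i => i ≠ i₀)) = 2 ^ (m - 1 + 1) :=
        CG.card_sub _ (by simp)
      have hcountC : Nat.card {x : CG m (fun i => if i = i₀ then 1 else 0) // x ^ 2 = 1} = 2 ^ (2 * m) - 2 ^ m := by
        have h1 := CG.card_order_four (n := m) (δ := fun i => if i = i₀ then 1 else 0)
        rw [count_minus i₀] at h1
        have h2 := count_add hCG
        rw [h1, CG.card_eq, hpow] at h2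
        have h4 : (4 : ℕ) ^ m = 2 ^ (2 * m) := by
          rw [pow_mul]
          norm_num
        rw [h4] at h2
        omega
      obtain ⟨φ⟩ := hiso (CG m (fun i => if i = i₀ then 1 else 0)) hCG (by rw [CG.card_eq, hn]) (by rw [hcountC, hc])
      refine not_rank_of_iso φ.symm _ hsub (m - 1) ?_
      rw [hsubc]
      exact Nat.pow_lt_pow_right (by norm_num) (by omega)

/-- Let E be an extraspecial 2-group of order 2^(2n+1). Then the largest elementary abelian subgroups of E have order 2^n or 2^(n+1); and two extraspecial 2-groups of the same order whose largest elementary abelian subgroups have the same order are isomorphic. -/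
theorem result {E : Type*} [Group E] [Finite E] (hE : Cfsg.IsExtraspecial 2 E) (n : ℕ) (hn : Nat.card E = 2 ^ (2 * n + 1)) : ((Cfsg.PRankLE 2 n E ∧ ¬ Cfsg.PRankLE 2 (n - 1) E) ∨ (Cfsg.PRankLE 2 (n + 1) E ∧ ¬ Cfsg.PRankLE 2 n E)) ∧ ∀ (E' : Type*) [Group E'] [Finite E'], Cfsg.IsExtraspecial 2 E' → Nat.card E' = Nat.card E → (∀ k : ℕ, Cfsg.PRankLE 2 k E ↔ Cfsg.PRankLE 2 k E') → Nonempty (E ≃* E') := by
  obtain ⟨⟨m, hm1, hmc, -⟩, -⟩ := Cfsg.Agent.Lib.ClassSizes.ExtraClass.main.{_, 0} E hE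
  have hf := facts hE n hn
  refine ⟨?_, ?_⟩
  · rcases hf with ⟨-, h1, h2⟩ | ⟨-, h1, h2⟩
    · exact Or.inr ⟨h1, h2⟩
    · exact Or.inl ⟨h1, h2⟩
  · intro E' _ _ hE' hc hr
    have hf' := facts hE' n (hc.trans hn)
    have hiso := (Cfsg.Agent.Lib.ClassSizes.ExtraClass.main E hE).2 E' hE' hc
    apply hiso
    rcases hf with ⟨c1, h1, h2⟩ | ⟨c1, h1, h2⟩ <;> rcases hf' with ⟨c2, h3, h4⟩ | ⟨c2, h3, h4⟩
    · rw [c1, c2]
    · exact absurd ((hr n).mpr h3) h2
    · exact absurd ((hr n).mp h1) h4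
    · rw [c1, c2]


end Cfsg.Agent.S3763
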