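import Cfsg.Statements.S3772
import Cfsg.Agent.Lib.PGroup.Basic
import Cfsg.Agent.Lib.PGroup.ClassTwo
import Cfsg.Agent.Lib.Core.Frattini
-- import your own Cfsg.Agent.* helpers here

set_option autoImplicit false
open Cfsg Cfsg.Agent.Lib.PGroup

namespace Cfsg.Agent.S3772

theorem frattini_eq_one_of_sq {G : Type*} [Group G] [Finite G] (h2 : ∀ x : G, x ^ 2 = 1) (z : G)
    (hz : z ∈ frattini G) : z = 1 := by
  classical
  by_contra hz1
  have hcomm : ∀ x y : G, x * y = y * x := by
    intro x y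
    have hx : x * x = 1 := by rw [← pow_two]; exact h2 x
    have hy : y * y = 1 := by rw [← pow_two]; exact h2 y
    have hxy : (x * y) * (x * y) = 1 := by rw [← pow_two]; exact h2 _
    have hxi : x⁻¹ = x := inv_eq_of_mul_eq_one_left hx
    have hyi : y⁻¹ = y := inv_eq_of_mul_eq_one_left hy
    calc x * y = (y⁻¹ * x⁻¹)⁻¹ * 1 := by group
      _ = (y * x)⁻¹ := by rw [hxi, hyi, mul_one]
      _ = y * x := inv_eq_of_mul_eq_one_left (by
        have h3 : (y * x) * (y * x) = 1 := by rw [← pow_two]; exact h2 _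
        exact h3)
  obtain ⟨M, hM, hmax⟩ := (wellFounded_gt : WellFounded ((· > ·) : Subgroup G → Subgroup G → Prop)).has_min
    {K | z ∉ K} ⟨⊥, fun h => hz1 (Subgroup.mem_bot.mp h)⟩
  have hMco : IsCoatom M := by
    refine ⟨fun h => hM (by rw [h]; trivial), ?_⟩
    intro K hK
    have hzK : z ∈ K := by
      by_contra hn
      exact hmax K hn hK
    rw [eq_top_iff]
    intro x _
    by_cases hxM : x ∈ M
    · exact hK.le hxM
    have hlt : M < M ⊔ Subgroup.zpowers x := by
      refine lt_of_le_of_ne le_sup_left ?_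
      intro e
      apply hxM
      rw [e]
      exact Subgroup.mem_sup_right (Subgroup.mem_zpowers x)
    have hzS : z ∈ M ⊔ Subgroup.zpowers x := by
      by_contra hn
      exact hmax _ hn hlt
    haveI hMn : M.Normal := ⟨fun n hn g => by
      rw [hcomm g n]
      simpa using hn⟩
    obtain ⟨m, hm, y, hy, hmy⟩ := Subgroup.mem_sup_of_normal_left.mp hzS
    obtain ⟨i, rfl⟩ := Subgroup.mem_zpowers_iff.mp hy
    obtain ⟨k, rfl | rfl⟩ := Int.even_or_odd' i
    · exfalso
      apply hM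
      rw [← hmy, zpow_mul]
      have : x ^ (2 : ℤ) = 1 := by exact_mod_cast h2 x
      rw [this, one_zpow, mul_one]
      exact hm
    · have e1 : x ^ (2 * k + 1) = x := by
        rw [zpow_add, zpow_mul]
        have : x ^ (2 : ℤ) = 1 := by exact_mod_cast h2 x
        rw [this, one_zpow, one_mul, zpow_one]
      rw [e1] at hmy
      have e2 : x = m⁻¹ * z := by rw [← hmy]; group
      rw [e2]
      exact K.mul_mem (K.inv_mem (hK.le hm)) hzK
  exact hM ((frattini_le_coatom hMco) hz)

theorem sum_eq_zero_of_mul {G : Type*} [Group G] [Fintype G] (f : G → ℤ)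
    (hf : ∀ a b, f (a * b) = f a * f b) (a0 : G) (ha0 : f a0 = -1) : ∑ x, f x = 0 := by
  have h1 : ∑ x, f (a0 * x) = ∑ x, f x := Equiv.sum_comp (Equiv.mulLeft a0) f
  have h2 : ∑ x, f (a0 * x) = - ∑ x, f x := by
    rw [← Finset.sum_neg_distrib]
    exact Finset.sum_congr rfl (fun x _ => by rw [hf, ha0]; ring)
  omega


/-- Let G be a finite 2-group whose Frattini subgroup Φ(G) has order 2, with |G : Φ(G)| = 2^d, and let j be the number of elements x of G with x² = 1. Then j = 2^d, or j = 2^d + 2^(d−r) or j = 2^d − 2^(d−r) for some positive integer r with 2r ≤ d. Moreover if d = 2r and j is 2^d + 2^r or 2^d − 2^r, then G is extraspecial. -/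
theorem result {G : Type*} [Group G] [Finite G] (hG : IsPGroup 2 G) (hΦ : Nat.card (frattini G) = 2) (d : ℕ) (hd : (frattini G).index = 2 ^ d) : (Nat.card {x : G // x ^ 2 = 1} = 2 ^ d ∨ ∃ r : ℕ, 1 ≤ r ∧ 2 * r ≤ d ∧ (Nat.card {x : G // x ^ 2 = 1} = 2 ^ d + 2 ^ (d - r) ∨ Nat.card {x : G // x ^ 2 = 1} + 2 ^ (d - r) = 2 ^ d)) ∧ (∀ r : ℕ, d = 2 * r → (Nat.card {x : G // x ^ 2 = 1} = 2 ^ d + 2 ^ r ∨ Nat.card {x : G // x ^ 2 = 1} + 2 ^ r = 2 ^ d) → Cfsg.IsExtraspecial 2 G) := by
  classical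
  haveI : Fact (Nat.Prime 2) := ⟨Nat.prime_two⟩
  have := Fintype.ofFinite G
  have hΦc : frattini G ≤ Subgroup.center G :=
    le_center_of_normal_of_card_eq_prime hG (frattini G) hΦ
  have hsq : ∀ x : G, x ^ 2 ∈ frattini G := pow_mem_frattini hG
  have hcen : ∀ a ∈ frattini G, ∀ g : G, g * a = a * g := fun a ha g =>
    (Subgroup.mem_center_iff.mp (hΦc ha)) g
  have hcomm : ∀ x y : G, x * y * x⁻¹ * y⁻¹ ∈ frattini G := by
    intro x y
    have h1 := hsq (x * y)
    have h2 := hsq x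
    have h3 := hsq y
    have e : x * y * x⁻¹ * y⁻¹ = (x * y) ^ 2 * ((x ^ 2)⁻¹ * (y ^ 2)⁻¹) := by
      have e2 : y⁻¹ * (x ^ 2)⁻¹ = (x ^ 2)⁻¹ * y⁻¹ := by
        have := hcen _ (inv_mem h2) y⁻¹
        exact this
      calc x * y * x⁻¹ * y⁻¹ = (x * y) ^ 2 * (y⁻¹ * (x ^ 2)⁻¹ * y⁻¹) := by
            simp only [pow_two]; group
        _ = (x * y) ^ 2 * ((x ^ 2)⁻¹ * y⁻¹ * y⁻¹) := by rw [e2]
        _ = _ := by simp only [pow_two]; group
    rw [e]
    exact mul_mem h1 (mul_mem (inv_mem h2) (inv_mem h3))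
  -- `frattini G` has two elements
  have hΦ2 : ∀ a ∈ frattini G, ∀ b ∈ frattini G, a ≠ 1 → b ≠ 1 → a = b := by
    intro a ha b hb ha1 hb1
    obtain ⟨c, -, hc⟩ := (Nat.card_eq_two_iff' (1 : ↥(frattini G))).mp hΦ
    have h1 := hc ⟨a, ha⟩ (fun e => ha1 (congrArg Subtype.val e))
    have h2 := hc ⟨b, hb⟩ (fun e => hb1 (congrArg Subtype.val e))
    exact congrArg Subtype.val (h1.trans h2.symm)
  have hΦsq : ∀ a ∈ frattini G, a * a = 1 := by
    intro a ha
    have h1 : (⟨a, ha⟩ : ↥(frattini G)) ^ 2 = 1 := by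
      rw [← hΦ]; exact pow_card_eq_one'
    have h2 := congrArg Subtype.val h1
    simpa [pow_two] using h2
  let sgn : G → ℤ := fun a => if a = 1 then 1 else -1
  have hsgn_vals : ∀ a, sgn a = 1 ∨ sgn a = -1 := by
    intro a
    by_cases h : a = 1
    · left; simp [sgn, h]
    · right; simp [sgn, h]
  have hsgn_one : sgn 1 = 1 := by simp [sgn]
  have hsgn_ne : ∀ a, a ≠ 1 → sgn a = -1 := fun a h => by simp [sgn, h]
  have hsgn_eq : ∀ a, sgn a = 1 → a = 1 := by
    intro a h
    by_contra hn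
    rw [hsgn_ne a hn] at h
    omega
  have hsgn : ∀ a ∈ frattini G, ∀ b ∈ frattini G, sgn (a * b) = sgn a * sgn b := by
    intro a ha b hb
    by_cases ha1 : a = 1
    · rw [ha1, one_mul, hsgn_one, one_mul]
    by_cases hb1 : b = 1
    · rw [hb1, mul_one, hsgn_one, mul_one]
    rw [hΦ2 a ha b hb ha1 hb1, hΦsq b hb, hsgn_one, hsgn_ne b hb1]
    norm_num
  let σ : G → ℤ := fun x => sgn (x ^ 2)
  let ε : G → G → ℤ := fun w x => sgn (w * x * w⁻¹ * x⁻¹)
  have hσsq : ∀ x, σ x * σ x = 1 := by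
    intro x
    rcases hsgn_vals (x ^ 2) with h | h <;> (show sgn (x ^ 2) * sgn (x ^ 2) = 1; rw [h]; norm_num)
  have hformula : ∀ x w, σ (x * w) = σ x * σ w * ε w x := by
    intro x w
    have hc := hcomm w x
    have e : (x * w) ^ 2 = (x ^ 2 * w ^ 2) * (w * x * w⁻¹ * x⁻¹) := by
      have h1 : x * (w * x * w⁻¹ * x⁻¹) = (w * x * w⁻¹ * x⁻¹) * x := hcen _ hc x
      have h2 : w * x = (w * x * w⁻¹ * x⁻¹) * (x * w) := by group
      set c := w * x * w⁻¹ * x⁻¹ with hcdef
      have h3 : (x ^ 2 * w ^ 2) * c = c * (x ^ 2 * w ^ 2) := (hcen _ hc _).symm ▸ rfl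
      calc (x * w) ^ 2 = x * (w * x) * w := by simp only [pow_two]; group
        _ = x * (c * (x * w)) * w := by rw [← h2]
        _ = (x * c) * x * w * w := by group
        _ = (c * x) * x * w * w := by rw [h1]
        _ = c * (x ^ 2 * w ^ 2) := by simp only [pow_two]; group
        _ = (x ^ 2 * w ^ 2) * c := by
            have := hcen c hc (x ^ 2 * w ^ 2)
            exact this.symm
    show sgn ((x * w) ^ 2) = sgn (x ^ 2) * sgn (w ^ 2) * sgn (w * x * w⁻¹ * x⁻¹)
    rw [e, hsgn _ (mul_mem (hsq x) (hsq w)) _ hc, hsgn _ (hsq x) _ (hsq w)]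
  have hεmul : ∀ w x1 x2, ε w (x1 * x2) = ε w x1 * ε w x2 := by
    intro w x1 x2
    have e : w * (x1 * x2) * w⁻¹ * (x1 * x2)⁻¹ = (w * x1 * w⁻¹ * x1⁻¹) * (w * x2 * w⁻¹ * x2⁻¹) := by
      have h1 : x1 * (w * x2 * w⁻¹ * x2⁻¹) = (w * x2 * w⁻¹ * x2⁻¹) * x1 := hcen _ (hcomm w x2) x1
      calc w * (x1 * x2) * w⁻¹ * (x1 * x2)⁻¹
          = (w * x1 * w⁻¹ * x1⁻¹) * (x1 * (w * x2 * w⁻¹ * x2⁻¹)) * x1⁻¹ := by group
        _ = (w * x1 * w⁻¹ * x1⁻¹) * ((w * x2 * w⁻¹ * x2⁻¹) * x1) * x1⁻¹ := by rw [h1]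
        _ = _ := by group
    show sgn _ = sgn _ * sgn _
    rw [e, hsgn _ (hcomm w x1) _ (hcomm w x2)]
  set Z := Subgroup.center G with hZ
  have hεsum : ∀ w, ∑ x, ε w x = if w ∈ Z then (Nat.card G : ℤ) else 0 := by
    intro w
    by_cases hw : w ∈ Z
    · rw [if_pos hw]
      have h1 : ∀ x, ε w x = 1 := by
        intro x
        show sgn _ = 1
        have : w * x * w⁻¹ * x⁻¹ = 1 := by
          rw [← (Subgroup.mem_center_iff.mp hw) x]
          group
        rw [this, hsgn_one]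
      rw [Finset.sum_congr rfl (fun x _ => h1 x), Finset.sum_const, Finset.card_univ,
        Nat.card_eq_fintype_card]
      simp
    · rw [if_neg hw]
      have : ∃ x0, x0 * w ≠ w * x0 := by
        by_contra hcon
        push Not at hcon
        exact hw (Subgroup.mem_center_iff.mpr hcon)
      obtain ⟨x0, hx0⟩ := this
      refine sum_eq_zero_of_mul (ε w) (hεmul w) x0 (hsgn_ne _ ?_)
      intro e
      apply hx0
      have : w * x0 * w⁻¹ * x0⁻¹ = 1 := e
      have h2 : w * x0 = x0 * w := by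
        calc w * x0 = (w * x0 * w⁻¹ * x0⁻¹) * (x0 * w) := by group
          _ = x0 * w := by rw [this, one_mul]
      exact h2.symm
  set T : ℤ := ∑ x, σ x with hT
  set W : ℤ := ∑ w, if w ∈ Z then σ w else 0 with hW
  have hTT : T * T = (Nat.card G : ℤ) * W := by
    rw [hT, Finset.sum_mul_sum]
    have h1 : ∀ x, ∑ y, σ x * σ y = ∑ w, σ w * ε w x := by
      intro x
      rw [← Equiv.sum_comp (Equiv.mulLeft x) (fun y => σ x * σ y)]
      refine Finset.sum_congr rfl (fun w _ => ?_)
      show σ x * σ (x * w) = _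
      rw [hformula]
      calc σ x * (σ x * σ w * ε w x) = (σ x * σ x) * (σ w * ε w x) := by ring
        _ = _ := by rw [hσsq, one_mul]
    rw [Finset.sum_congr rfl (fun x _ => h1 x), Finset.sum_comm]
    have h2 : ∀ w, ∑ x, σ w * ε w x = (Nat.card G : ℤ) * (if w ∈ Z then σ w else 0) := by
      intro w
      rw [← Finset.mul_sum, hεsum]
      split_ifs <;> ring
    rw [Finset.sum_congr rfl (fun w _ => h2 w), ← Finset.mul_sum]
  -- the sign on the centre
  have hWcases : (W = 0 ∧ ∃ w0 ∈ Z, σ w0 = -1) ∨ (W = (Nat.card Z : ℤ) ∧ ∀ w ∈ Z, σ w = 1) := by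
    by_cases hex : ∃ w0 ∈ Z, σ w0 = -1
    · left
      refine ⟨?_, hex⟩
      obtain ⟨w0, hw0, hw0σ⟩ := hex
      have h1 : ∑ w, (if w0 * w ∈ Z then σ (w0 * w) else 0) = W :=
        Equiv.sum_comp (Equiv.mulLeft w0) (fun w => if w ∈ Z then σ w else 0)
      have h2 : ∑ w, (if w0 * w ∈ Z then σ (w0 * w) else 0) = - W := by
        rw [hW, ← Finset.sum_neg_distrib]
        refine Finset.sum_congr rfl (fun w _ => ?_)
        have hiff : w0 * w ∈ Z ↔ w ∈ Z := by
          rw [Subgroup.mul_mem_cancel_left _ hw0]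
        by_cases hw : w ∈ Z
        · rw [if_pos (hiff.mpr hw), if_pos hw]
          have hε1 : ε w w0 = 1 := by
            show sgn _ = 1
            have : w * w0 * w⁻¹ * w0⁻¹ = 1 := by
              rw [(Subgroup.mem_center_iff.mp hw0) w]
              group
            rw [this, hsgn_one]
          rw [hformula, hw0σ, hε1]
          ring
        · rw [if_neg (fun h => hw (hiff.mp h)), if_neg hw]
          simp
      omega
    · right
      push Not at hex
      have hall : ∀ w ∈ Z, σ w = 1 := by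
        intro w hw
        rcases hsgn_vals (w ^ 2) with h | h
        · exact h
        · exact absurd h (hex w hw)
      refine ⟨?_, hall⟩
      have h1 : W = ∑ w, if w ∈ Z then (1 : ℤ) else 0 := by
        refine Finset.sum_congr rfl (fun w _ => ?_)
        by_cases hw : w ∈ Z
        · rw [if_pos hw, if_pos hw, hall w hw]
        · rw [if_neg hw, if_neg hw]
      rw [h1, Finset.sum_boole, Nat.card_eq_fintype_card]
      congr 1
      exact (Fintype.card_subtype _).symm
  -- orders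
  have hcardG : Nat.card G = 2 ^ (d + 1) := by
    have := Subgroup.index_mul_card (frattini G)
    rw [hd, hΦ] at this
    rw [← this, pow_succ]
  obtain ⟨e, he⟩ := IsPGroup.iff_card.mp (hG.to_subgroup Z)
  have he1 : 1 ≤ e := by
    have h1 : Nat.card (frattini G) ∣ Nat.card Z := Subgroup.card_dvd_of_le hΦc
    rw [hΦ, he] at h1
    rcases e with _ | e
    · simp at h1
    · omega
  have hed : e ≤ d + 1 := by
    have h1 : Nat.card Z ∣ Nat.card G := Subgroup.card_subgroup_dvd_card Z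
    rw [he, hcardG] at h1
    exact (Nat.pow_dvd_pow_iff_le_right (by norm_num)).mp h1
  have hnotexp : ¬ ∀ x : G, x ^ 2 = 1 := by
    intro hall
    have h0 : ∀ a : ↥(frattini G), a = 1 := fun a =>
      Subtype.ext (frattini_eq_one_of_sq hall a.1 a.2)
    have : Nat.card ↥(frattini G) = 1 := Nat.card_eq_one_iff_unique.mpr ⟨⟨fun a b => by rw [h0 a, h0 b]⟩, ⟨1⟩⟩
    omega
  have hZneG : ∀ (_ : ∀ w ∈ Z, σ w = 1), e ≠ d + 1 := by
    intro hall hed'
    apply hnotexp
    have hZtop : Z = ⊤ := Subgroup.eq_top_of_card_eq _ (by rw [he, hcardG, hed'])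
    intro x
    have hx : x ∈ Z := by rw [hZtop]; trivial
    exact hsgn_eq _ (hall x hx)
  -- the count
  set j := Nat.card {x : G // x ^ 2 = 1} with hj
  have hTj : T = 2 * (j : ℤ) - 2 ^ (d + 1) := by
    have h1 : ∀ x, σ x = 2 * (if x ^ 2 = 1 then 1 else 0) - 1 := by
      intro x
      by_cases h : x ^ 2 = 1
      · show sgn _ = _
        rw [if_pos h, h, hsgn_one]; norm_num
      · show sgn _ = _
        rw [if_neg h, hsgn_ne _ h]; norm_num
    have h2 : (j : ℤ) = ∑ x : G, if x ^ 2 = 1 then (1 : ℤ) else 0 := by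
      rw [Finset.sum_boole, hj, Nat.card_eq_fintype_card, Fintype.card_subtype]
    rw [hT, Finset.sum_congr rfl (fun x _ => h1 x), Finset.sum_sub_distrib, ← Finset.mul_sum, ← h2]
    simp only [Finset.sum_const, Finset.card_univ, smul_eq_mul, nsmul_eq_mul, mul_one]
    rw [← Nat.card_eq_fintype_card, hcardG]
    push_cast
    ring
  have hTTc : T * T = 0 ∨ (T * T = 2 ^ (d + 1 + e) ∧ ∀ w ∈ Z, σ w = 1) := by
    rw [hTT, hcardG]
    rcases hWcases with ⟨h0, -⟩ | ⟨h0, h1⟩
    · left; rw [h0, mul_zero]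
    · right
      refine ⟨?_, h1⟩
      rw [h0, he, pow_add]
      push_cast
      ring
  have hsquare : ∀ (t : ℕ), T = 2 ^ t ∨ T = -2 ^ t → T * T = 2 ^ (2 * t) := by
    rintro t (h | h) <;> rw [h] <;> ring
  have hroot : T * T = 2 ^ (d + 1 + e) → ∃ t, 2 * t = d + 1 + e ∧ (T = 2 ^ t ∨ T = -2 ^ t) := by
    intro h
    have h1 : T.natAbs * T.natAbs = 2 ^ (d + 1 + e) := by
      have := congrArg Int.natAbs h
      rw [Int.natAbs_mul, Int.natAbs_pow] at this
      simpa using this
    have h2 : T.natAbs ∣ 2 ^ (d + 1 + e) := ⟨_, h1.symm⟩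
    obtain ⟨t, -, ht⟩ := (Nat.dvd_prime_pow Nat.prime_two).mp h2
    refine ⟨t, ?_, ?_⟩
    · rw [ht, ← pow_add, ← two_mul] at h1
      exact Nat.pow_right_injective (le_refl 2) h1
    · rcases Int.natAbs_eq T with h3 | h3
      · left; rw [h3, ht]; simp
      · right; rw [h3, ht]; simp
  constructor
  · rcases hTTc with h0 | ⟨h0, hall⟩
    · left
      have hT0 : T = 0 := by
        rcases mul_self_eq_zero.mp h0 with h
        exact h
      have : (j : ℤ) = 2 ^ d := by
        rw [hTj] at hT0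
        have h2 : (2 : ℤ) ^ (d + 1) = 2 * 2 ^ d := by ring
        omega
      exact_mod_cast this
    · right
      obtain ⟨t, ht, hTt⟩ := hroot h0
      have hed2 : e ≠ d + 1 := hZneG hall
      obtain ⟨u, rfl⟩ : ∃ u, t = u + 1 := ⟨t - 1, by omega⟩
      refine ⟨d - u, by omega, by omega, ?_⟩
      have hdu : d - (d - u) = u := by omega
      rw [hdu]
      have h2 : (2 : ℤ) ^ (d + 1) = 2 * 2 ^ d := by ring
      have h3 : (2 : ℤ) ^ (u + 1) = 2 * 2 ^ u := by ring
      rcases hTt with h | h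
      · left
        rw [hTj, h2, h3] at h
        have : (j : ℤ) = 2 ^ d + 2 ^ u := by omega
        exact_mod_cast this
      · right
        rw [hTj, h2, h3] at h
        have : (j : ℤ) + 2 ^ u = 2 ^ d := by omega
        exact_mod_cast this
  · intro r hdr hj2
    have hTval : T = 2 ^ (r + 1) ∨ T = -2 ^ (r + 1) := by
      have h2 : (2 : ℤ) ^ (d + 1) = 2 * 2 ^ d := by ring
      have h3 : (2 : ℤ) ^ (r + 1) = 2 * 2 ^ r := by ring
      rcases hj2 with h | h
      · left
        have h' : (j : ℤ) = 2 ^ d + 2 ^ r := by exact_mod_cast h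
        rw [hTj, h2, h3]
        omega
      · right
        have h' : (j : ℤ) + 2 ^ r = 2 ^ d := by exact_mod_cast h
        rw [hTj, h2, h3]
        omega
    have hTTval := hsquare _ hTval
    have hTne : T * T ≠ 0 := by
      rw [hTTval]
      positivity
    rcases hTTc with h0 | ⟨h0, hall⟩
    · exact absurd h0 hTne
    have he2 : e = 1 := by
      have h1 : (2 : ℤ) ^ (2 * (r + 1)) = 2 ^ (d + 1 + e) := hTTval.symm.trans h0
      have h2 : 2 ^ (2 * (r + 1)) = 2 ^ (d + 1 + e) := by exact_mod_cast h1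
      have h3 := Nat.pow_right_injective (le_refl 2) h2
      omega
    have hZ2 : Nat.card Z = 2 := by rw [he, he2, pow_one]
    have hΦZ : frattini G = Z := Subgroup.eq_of_le_of_card_ge hΦc (by rw [hZ2, hΦ])
    have hcommZ : commutator G = Z := by
      apply le_antisymm
      · rw [← hΦZ, commutator_def, Subgroup.commutator_le]
        intro x _ y _
        exact hcomm x y
      · -- `G` is not abelian
        have hne : ∃ x y : G, x * y * x⁻¹ * y⁻¹ ≠ 1 := by
          by_contra hcon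
          push Not at hcon
          have hZtop : Z = ⊤ := by
            rw [eq_top_iff]
            intro x _
            rw [hZ, Subgroup.mem_center_iff]
            intro y
            have := hcon y x
            calc y * x = (y * x * y⁻¹ * x⁻¹) * (x * y) := by group
              _ = x * y := by rw [this, one_mul]
          have hed' : e = d + 1 := by
            have h2 : Nat.card Z = 2 ^ (d + 1) := by rw [hZtop, Subgroup.card_top, hcardG]
            rw [he] at h2
            exact Nat.pow_right_injective (le_refl 2) h2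
          exact hZneG hall hed'
        obtain ⟨x, y, hxy⟩ := hne
        intro a ha
        by_cases ha1 : a = 1
        · rw [ha1]; exact one_mem _
        have hc := hcomm x y
        have : a = x * y * x⁻¹ * y⁻¹ := hΦ2 a (hΦZ ▸ ha) _ hc ha1 hxy
        rw [this]
        exact Subgroup.commutator_mem_commutator (Subgroup.mem_top x) (Subgroup.mem_top y)
    exact ⟨⟨hG, hΦZ, hcommZ⟩, hZ2⟩

end Cfsg.Agent.S3772
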