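import Cfsg.Statements.S3785
import Cfsg.Agent.Lib.PGroup.MinAct
import Cfsg.Agent.Lib.Core.Basic
import Cfsg.Agent.Lib.Geo.PrimSolvable

set_option autoImplicit false
open Cfsg

namespace Cfsg.Agent.S3785

open Subgroup Cfsg.Agent.Lib.Core

variable {G : Type*} [Group G] [Finite G]

theorem primary (r : ℕ) (hr : r.Prime) (y : G) :
    ∃ u v : G, y = u * v ∧ u ∈ zpowers y ∧ v ∈ zpowers y ∧ (∃ a, orderOf u = r ^ a) ∧
      (orderOf v).Coprime r ∧ orderOf v ∣ orderOf y := by
  have hne : orderOf y ≠ 0 := (orderOf_pos y).ne'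
  obtain ⟨e, m, hm, hn⟩ := Nat.exists_eq_pow_mul_and_not_dvd hne r hr.ne_one
  have hc : Nat.Coprime m r := ((Nat.Prime.coprime_iff_not_dvd hr).2 hm).symm
  have hc' : Nat.Coprime m (r ^ e) := Nat.Coprime.pow_right _ hc
  obtain ⟨a, b, hab⟩ := Nat.isCoprime_iff_coprime.2 hc'
  have h1 : y ^ (r ^ e * m) = 1 := by rw [← hn]; exact pow_orderOf_eq_one y
  refine ⟨y ^ ((a * m : ℤ)), y ^ ((b * (r ^ e : ℕ) : ℤ)), ?_, zpow_mem (mem_zpowers y) _,
    zpow_mem (mem_zpowers y) _, ?_, ?_, ?_⟩
  · rw [← zpow_add, hab, zpow_one]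
  · have : orderOf (y ^ ((a * m : ℤ))) ∣ r ^ e := by
      refine orderOf_dvd_of_pow_eq_one ?_
      rw [← zpow_natCast, ← zpow_mul]
      have : (a * m : ℤ) * ((r ^ e : ℕ) : ℤ) = a * ((r ^ e * m : ℕ) : ℤ) := by push_cast; ring
      rw [this, mul_comm, zpow_mul, zpow_natCast, h1, one_zpow]
    obtain ⟨a', -, h⟩ := (Nat.dvd_prime_pow hr).1 this
    exact ⟨a', h⟩
  · have : orderOf (y ^ ((b * (r ^ e : ℕ) : ℤ))) ∣ m := by
      refine orderOf_dvd_of_pow_eq_one ?_
      rw [← zpow_natCast, ← zpow_mul]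
      have : (b * ((r ^ e : ℕ) : ℤ)) * (m : ℤ) = b * ((r ^ e * m : ℕ) : ℤ) := by push_cast; ring
      rw [this, mul_comm, zpow_mul, zpow_natCast, h1, one_zpow]
    exact Nat.Coprime.coprime_dvd_left this hc
  · exact orderOf_dvd_of_pow_eq_one (by
      rw [← zpow_natCast, ← zpow_mul, mul_comm, zpow_mul, zpow_natCast, pow_orderOf_eq_one, one_zpow])

/-- The elements centralizing the prime-order elements of `F`. -/
abbrev cC (G : Type*) [Group G] : Subgroup G :=
  centralizer {x : G | x ∈ fittingSubgroup G ∧ (orderOf x).Prime}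

theorem fit_normal : (fittingSubgroup G).Normal := fittingSubgroup_normal G

theorem cC_normal : (cC G).Normal := by
  refine ⟨fun n hn g => ?_⟩
  rw [mem_centralizer_iff] at hn ⊢
  rintro x ⟨hxF, hxp⟩
  have hF := (fit_normal (G := G))
  have hx' : g⁻¹ * x * g⁻¹⁻¹ ∈ fittingSubgroup G := hF.conj_mem x hxF g⁻¹
  have hord : orderOf (g⁻¹ * x * g⁻¹⁻¹) = orderOf x := by
    have := MulEquiv.orderOf_eq (MulAut.conj g⁻¹) x
    simpa [MulAut.conj_apply] using this
  have := hn _ ⟨hx', hord ▸ hxp⟩
  simp only [inv_inv] at this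
  calc x * (g * n * g⁻¹) = g * (g⁻¹ * x * g * n) * g⁻¹ := by group
    _ = g * (n * (g⁻¹ * x * g)) * g⁻¹ := by rw [this]
    _ = _ := by group

theorem thompson (hodd : Odd (Nat.card (fittingSubgroup G))) {a : G} (ha : a ∈ cC G) (p : ℕ)
    [hp : Fact p.Prime] (hcop : (orderOf a).Coprime p) :
    a ∈ centralizer (pCore p G : Set G) := by
  have hn := pCore_normal p G
  have key : ∀ x ∈ pCore p G, a * x * a⁻¹ = x := by
    by_cases h2 : p = 2
    · subst h2
      intro x hx
      have hle : pCore 2 G ≤ fittingSubgroup G := pCore_le_fittingSubgroup 2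
      have hd : Nat.card (pCore 2 G) ∣ Nat.card (fittingSubgroup G) := card_dvd_of_le hle
      have h1 : pCore 2 G = ⊥ := by
        obtain ⟨k, hk⟩ := (pCore_isPGroup 2 G).exists_card_eq
        rw [hk] at hd
        have hodd' : Odd (2 ^ k) := Odd.of_dvd_nat hodd hd
        have hk0 : k = 0 := by
          by_contra hk0
          exact (Nat.not_even_iff_odd.2 hodd') ((Nat.even_pow.2 ⟨even_two, hk0⟩))
        rw [hk0, pow_zero] at hk
        exact Subgroup.eq_bot_of_card_eq _ hk
      rw [h1, mem_bot] at hx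
      simp [hx]
    · refine Cfsg.Agent.Lib.PGroup.centralizes_of_omega h2 (pCore_isPGroup p G) hcop
        (fun x hx => hn.conj_mem x hx a) ?_
      intro x hx hxp
      by_cases hx1 : x = 1
      · simp [hx1]
      have hord : orderOf x = p := orderOf_eq_prime hxp hx1
      have hmem : x ∈ fittingSubgroup G := pCore_le_fittingSubgroup p hx
      have := (mem_centralizer_iff.1 ha) x ⟨hmem, hord ▸ hp.out⟩
      rw [← this]
      group
  rw [mem_centralizer_iff]
  intro x hx
  have := key x hx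
  calc x * a = (a * x * a⁻¹) * a := by rw [this]
    _ = a * x := by group

theorem mem_of_coprime_sup {M R : Subgroup G} [hM : M.Normal] [hR : R.Normal] {r : ℕ} [hr : Fact r.Prime]
    (hMc : (Nat.card M).Coprime r) (hRp : IsPGroup r R) {v : G} (hv : v ∈ M ⊔ R)
    (hvc : (orderOf v).Coprime r) : v ∈ M := by
  have hv' : v ∈ ((M ⊔ R : Subgroup G) : Set G) := hv
  rw [Subgroup.mul_normal] at hv'
  obtain ⟨m, hm, s, hs, rfl⟩ := Set.mem_mul.1 hv'
  have hdisj : Disjoint M R := by
    rw [disjoint_iff_inf_le]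
    intro z ⟨hz1, hz2⟩
    have h1 : orderOf z ∣ Nat.card M := by
      have := orderOf_dvd_natCard (⟨z, hz1⟩ : M)
      rwa [Subgroup.orderOf_mk] at this
    obtain ⟨k, hk⟩ := IsPGroup.iff_orderOf.1 hRp (⟨z, hz2⟩ : R)
    rw [Subgroup.orderOf_mk] at hk
    have h2 : orderOf z ∣ r ^ k := by rw [hk]
    have hc : Nat.Coprime (Nat.card M) (r ^ k) := Nat.Coprime.pow_right _ hMc
    have : orderOf z = 1 := Nat.Coprime.eq_one_of_dvd (hc.coprime_dvd_left h1) h2
    exact mem_bot.2 (orderOf_eq_one_iff.1 this)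
  have hcomm : Commute m s := Subgroup.commute_of_normal_of_disjoint _ _ hM hR hdisj m s hm hs
  have hmpow : m ^ Nat.card M = 1 := by
    have := pow_card_eq_one' (G := M) (x := ⟨m, hm⟩)
    exact congrArg Subtype.val this
  have hs1 : s = 1 := by
    have h3 : (m * s) ^ Nat.card M = s ^ Nat.card M := by
      rw [hcomm.mul_pow, hmpow, one_mul]
    obtain ⟨k, hk⟩ := IsPGroup.iff_orderOf.1 hRp (⟨s, hs⟩ : R)
    rw [Subgroup.orderOf_mk] at hk
    have h4 : orderOf (s ^ Nat.card M) ∣ orderOf (m * s) := by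
      rw [← h3]; exact orderOf_pow_dvd _
    have h5 : orderOf (s ^ Nat.card M) ∣ r ^ k := by
      rw [← hk]; exact orderOf_pow_dvd _
    have hone : orderOf (s ^ Nat.card M) = 1 :=
      Nat.Coprime.eq_one_of_dvd ((Nat.Coprime.pow_right k hvc).coprime_dvd_left h4) h5
    have hsM : s ^ Nat.card M = 1 := orderOf_eq_one_iff.1 hone
    have hd : orderOf s ∣ Nat.card M := orderOf_dvd_of_pow_eq_one hsM
    rw [hk] at hd
    have hc : Nat.Coprime (r ^ k) (Nat.card M) := (Nat.Coprime.pow_right _ hMc).symm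
    have : r ^ k = 1 := Nat.Coprime.eq_one_of_dvd hc hd
    rw [← hk] at this
    exact orderOf_eq_one_iff.1 this
  rw [hs1, mul_one]
  exact hm

theorem primary_mem [Group.IsSolvable G] (hodd : Odd (Nat.card (fittingSubgroup G))) {x : G}
    (hx : x ∈ cC G) (r : ℕ) (hr : r.Prime) (a : ℕ) (hord : orderOf x = r ^ a) :
    x ∈ fittingSubgroup G := by
  classical
  haveI : Fact r.Prime := ⟨hr⟩
  haveI hCn : (cC G).Normal := cC_normal
  let X : Subgroup G := normalClosure {x}
  have hXn : X.Normal := normalClosure_normal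
  have hXC : X ≤ cC G := normalClosure_le_normal (by simpa using hx)
  have hcen : ∀ p : Nat.Primes, (p : ℕ) ≠ r → X ≤ centralizer (pCore (p : ℕ) G : Set G) := by
    intro p hp
    haveI : Fact (p : ℕ).Prime := ⟨p.2⟩
    haveI := pCore_normal (p : ℕ) G
    refine normalClosure_le_normal ?_
    rintro _ rfl
    refine thompson hodd hx (p : ℕ) ?_
    rw [hord]
    exact Nat.Coprime.pow_left _ ((Nat.coprime_primes hr p.2).2 (Ne.symm hp))
  let M : Subgroup G := ⨆ p : {p : Nat.Primes // (p : ℕ) ≠ r}, pCore ((p : Nat.Primes) : ℕ) G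
  haveI hMn : M.Normal := by
    haveI hinst : ∀ p : {p : Nat.Primes // (p : ℕ) ≠ r}, (pCore ((p : Nat.Primes) : ℕ) G).Normal :=
      fun p => by
        haveI : Fact ((p : Nat.Primes) : ℕ).Prime := ⟨p.1.2⟩
        exact pCore_normal _ G
    exact Subgroup.iSup_normal _
  haveI hRn : (pCore r G).Normal := pCore_normal r G
  have hMle : M ≤ pPrimeCore r G := by
    refine iSup_le fun p => ?_
    haveI : Fact ((p : Nat.Primes) : ℕ).Prime := ⟨p.1.2⟩
    refine le_pPrimeCore (pCore_normal _ G) ?_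
    obtain ⟨k, hk⟩ := (pCore_isPGroup ((p : Nat.Primes) : ℕ) G).exists_card_eq
    rw [hk]
    exact Nat.Coprime.pow_left _ ((Nat.coprime_primes p.1.2 hr).2 p.2)
  have hMc : (Nat.card M).Coprime r :=
    (pPrimeCore_coprime r G).coprime_dvd_left (card_dvd_of_le hMle)
  have hFeq : fittingSubgroup G = M ⊔ pCore r G := by
    apply le_antisymm
    · rw [fittingSubgroup_eq_iSup_pCore]
      refine iSup_le fun p => ?_
      by_cases hpr : (p : ℕ) = r
      · rw [hpr]
        exact le_sup_right
      · exact le_trans (le_iSup (fun p : {p : Nat.Primes // (p : ℕ) ≠ r} => pCore ((p : Nat.Primes) : ℕ) G) ⟨p, hpr⟩) le_sup_left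
    · refine sup_le (iSup_le fun p => ?_) (pCore_le_fittingSubgroup r)
      haveI : Fact ((p : Nat.Primes) : ℕ).Prime := ⟨p.1.2⟩
      exact pCore_le_fittingSubgroup _
  have hXM : ∀ y ∈ X, ∀ z ∈ M, z * y = y * z := by
    intro y hy z hz
    have hle : M ≤ centralizer ({y} : Set G) := by
      refine iSup_le fun p => ?_
      intro w hw
      rw [mem_centralizer_singleton_iff]
      exact (mem_centralizer_iff.1 (hcen p.1 p.2 hy)) w hw
    exact mem_centralizer_singleton_iff.1 (hle hz)
  have hcoprime_central : ∀ y ∈ X, (orderOf y).Coprime r → y ∈ M := by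
    intro y hy hyc
    have hyF : y ∈ fittingSubgroup G := by
      apply Cfsg.Agent.Lib.Geo.centralizer_fitting_le_of_solvable
      rw [mem_centralizer_iff]
      intro z hz
      have hz' : z ∈ ((M ⊔ pCore r G : Subgroup G) : Set G) := by rw [← hFeq]; exact hz
      rw [Subgroup.mul_normal] at hz'
      obtain ⟨m, hm, s, hs, rfl⟩ := Set.mem_mul.1 hz'
      have h1 := hXM y hy m hm
      have h2 := (mem_centralizer_iff.1 (thompson hodd (hXC hy) r hyc)) s hs
      calc m * s * y = m * (s * y) := by group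
        _ = m * (y * s) := by rw [h2]
        _ = (m * y) * s := by group
        _ = y * m * s := by rw [h1]
        _ = y * (m * s) := by group
    rw [hFeq] at hyF
    exact mem_of_coprime_sup hMc (pCore_isPGroup r G) hyF hyc
  have hnil : Group.IsNilpotent X := by
    have hpg : IsPGroup r (X ⧸ center X) := by
      intro q
      obtain ⟨y, rfl⟩ := QuotientGroup.mk_surjective q
      obtain ⟨u, v, huv, hu, hv, ⟨a, ha⟩, hvc, -⟩ := primary r hr (y : G)
      have hz : zpowers (y : G) ≤ X := by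
        rw [zpowers_le]; exact y.2
      have hvM : v ∈ M := hcoprime_central v (hz hv) hvc
      have hvcen : (⟨v, hz hv⟩ : X) ∈ center X := by
        rw [mem_center_iff]
        intro w
        exact Subtype.ext (hXM w.1 w.2 v hvM).symm
      have hy' : y = ⟨u, hz hu⟩ * ⟨v, hz hv⟩ := Subtype.ext huv
      have hmk : ((⟨v, hz hv⟩ : X) : X ⧸ center X) = 1 := (QuotientGroup.eq_one_iff _).2 hvcen
      refine ⟨a, ?_⟩
      rw [hy', QuotientGroup.mk_mul, hmk, mul_one, ← QuotientGroup.mk_pow]
      have : (⟨u, hz hu⟩ : X) ^ r ^ a = 1 := by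
        apply Subtype.ext
        show u ^ r ^ a = 1
        rw [← ha]
        exact pow_orderOf_eq_one u
      rw [this]
      rfl
    haveI : Group.IsNilpotent (X ⧸ center X) := hpg.isNilpotent
    exact of_quotient_center_nilpotent inferInstance
  have hXF : X ≤ fittingSubgroup G := le_fittingSubgroup hXn hnil
  exact hXF (subset_normalClosure (Set.mem_singleton x))

/-- Let G be a finite solvable group whose Fitting subgroup F(G) has odd order. If an element g of G commutes with every element of prime order of F(G), then g ∈ F(G). -/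
theorem result {G : Type*} [Group G] [Finite G] (hG : Group.IsSolvable G) (hodd : Odd (Nat.card (Cfsg.fittingSubgroup G))) (g : G) (hg : ∀ x ∈ Cfsg.fittingSubgroup G, (orderOf x).Prime → g * x = x * g) : g ∈ Cfsg.fittingSubgroup G := by
  have hgC : g ∈ cC G := by
    rw [mem_centralizer_iff]
    rintro x ⟨h1, h2⟩
    exact (hg x h1 h2).symm
  suffices h : ∀ n : ℕ, ∀ g ∈ cC G, orderOf g = n → g ∈ fittingSubgroup G from h _ g hgC rfl
  intro n
  induction n using Nat.strong_induction_on with
  | _ n ih =>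
    intro g hg hn
    by_cases h1 : n = 1
    · rw [h1, orderOf_eq_one_iff] at hn
      rw [hn]
      exact one_mem _
    obtain ⟨r, hr, hrn⟩ := Nat.exists_prime_and_dvd h1
    obtain ⟨u, v, huv, hu, hv, ⟨a, ha⟩, hvc, hvd⟩ := primary r hr g
    have hz : zpowers g ≤ cC G := by
      rw [zpowers_le]; exact hg
    rw [huv]
    refine mul_mem (primary_mem hodd (hz hu) r hr a ha) ?_
    have hlt : orderOf v < n := by
      have hpos : 0 < n := by rw [← hn]; exact orderOf_pos g
      refine lt_of_le_of_ne (Nat.le_of_dvd hpos (hn ▸ hvd)) ?_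
      intro he
      rw [he] at hvc
      exact (Nat.Prime.coprime_iff_not_dvd hr).1 hvc.symm hrn
    exact ih _ hlt v (hz hv) rfl

end Cfsg.Agent.S3785
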