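import Cfsg.Statements.S3798
import Mathlib
import Cfsg.Agent.Lib.PGroup.MinAct
import Cfsg.Agent.Lib.PGroup.PLength
import Cfsg.Agent.Lib.PGroup.MaxNormal
import Cfsg.Agent.Lib.PSolv.Basic
import Cfsg.Agent.Lib.Coprime.SZ
import Cfsg.Agent.Lib.FF.Lattice
import Cfsg.Agent.Lib.Transfer.Conj

set_option autoImplicit false
open Cfsg

namespace Cfsg.Agent.S3798

open Subgroup Cfsg.Agent.Lib.PGroup

universe u

variable {X : Type u} [Group X] [Finite X] {p : ℕ} [Fact p.Prime]

/-- Existence of complements to a normal `p`-subgroup in a `p'`-extension. -/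
theorem hall_exists (Q K : Subgroup X) [hQn : Q.Normal] (hQK : Q ≤ K) (hQp : IsPGroup p Q)
    (hc : (Q.relIndex K).Coprime p) : ∃ L : Subgroup X, L ≤ K ∧ L ⊓ Q = ⊥ ∧ Q ⊔ L = K := by
  have hN : Nat.Coprime (Nat.card (Q.subgroupOf K)) (Q.subgroupOf K).index := by
    have hpg : IsPGroup p (Q.subgroupOf K) := hQp.comap_of_injective K.subtype K.subtype_injective
    obtain ⟨n, hn⟩ := IsPGroup.iff_card.1 hpg
    rw [hn]
    exact Nat.Coprime.pow_left _ hc.symm
  obtain ⟨H, hH⟩ := Subgroup.exists_right_complement'_of_coprime hN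
  refine ⟨H.map K.subtype, Subgroup.map_subtype_le _, ?_, ?_⟩
  · rw [eq_bot_iff]
    rintro x ⟨⟨h, hh, rfl⟩, hxQ⟩
    have : h ∈ (Q.subgroupOf K) := hxQ
    have h1 : h = 1 := Subgroup.disjoint_def.1 hH.disjoint this hh
    rw [h1]
    simp
  · have e := congrArg (Subgroup.map K.subtype) hH.sup_eq_top
    rw [Subgroup.map_sup, Subgroup.map_subgroupOf_eq_of_le hQK, ← MonoidHom.range_eq_map,
      Subgroup.range_subtype] at e
    exact e

/-- Conjugacy of such complements. -/
theorem hall_conj (Q K : Subgroup X) [hQn : Q.Normal] (hQK : Q ≤ K) (hQp : IsPGroup p Q)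
    (hc : (Q.relIndex K).Coprime p) {L₁ L₂ : Subgroup X} (h1 : L₁ ≤ K) (h1' : L₁ ⊓ Q = ⊥)
    (h1'' : Q ⊔ L₁ = K) (h2 : L₂ ≤ K) (h2' : L₂ ⊓ Q = ⊥) (h2'' : Q ⊔ L₂ = K) :
    ∃ g ∈ Q, L₂ = L₁.map (MulAut.conj g).toMonoidHom := by
  have hcompl : ∀ L : Subgroup X, L ≤ K → L ⊓ Q = ⊥ → Q ⊔ L = K →
      IsComplement' (Q.subgroupOf K) (L.subgroupOf K) := by
    intro L hL hL' hL''
    refine Subgroup.isComplement'_of_disjoint_and_mul_eq_univ ?_ ?_
    · rw [Subgroup.disjoint_def]
      intro x hxQ hxL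
      have hx : (x : X) ∈ L ⊓ Q := ⟨hxL, hxQ⟩
      rw [hL'] at hx
      exact Subtype.ext (Subgroup.mem_bot.1 hx)
    · ext x
      simp only [Set.mem_univ, iff_true]
      have hx : (x : X) ∈ ((Q ⊔ L : Subgroup X) : Set X) := by
        rw [hL'']; exact x.2
      rw [Subgroup.normal_mul] at hx
      obtain ⟨q, hq, l, hl, hql⟩ := Set.mem_mul.1 hx
      refine Set.mem_mul.2 ⟨⟨q, hQK hq⟩, hq, ⟨l, hL hl⟩, hl, Subtype.ext hql⟩
  have hcard : (Nat.card (Q.subgroupOf K)).Coprime (Nat.card (L₁.subgroupOf K)) := by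
    have hC := hcompl L₁ h1 h1' h1''
    have hidx : (Q.subgroupOf K).index = Nat.card (L₁.subgroupOf K) := hC.symm.index_eq_card
    have hpg : IsPGroup p (Q.subgroupOf K) := hQp.comap_of_injective K.subtype K.subtype_injective
    obtain ⟨n, hn⟩ := IsPGroup.iff_card.1 hpg
    rw [hn, ← hidx]
    exact Nat.Coprime.pow_left _ hc.symm
  have hsolv : Group.IsSolvable (Q.subgroupOf K) := by
    have hpg : IsPGroup p (Q.subgroupOf K) := hQp.comap_of_injective K.subtype K.subtype_injective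
    haveI : Group.IsNilpotent (Q.subgroupOf K) := hpg.isNilpotent
    infer_instance
  obtain ⟨g, hg, e⟩ := Cfsg.Agent.Lib.Coprime.complement_conj hcard (hcompl L₁ h1 h1' h1'')
    (hcompl L₂ h2 h2' h2'') (Or.inl hsolv)
  refine ⟨g, hg, ?_⟩
  ext x
  constructor
  · intro hx
    have hx' : (⟨x, h2 hx⟩ : K) ∈ L₂.subgroupOf K := hx
    rw [e] at hx'
    obtain ⟨y, hy, hye⟩ := hx'
    refine ⟨y, hy, ?_⟩
    exact congrArg Subtype.val hye
  · rintro ⟨y, hy, rfl⟩
    have hyK : y ∈ K := h1 hy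
    have hx' : (⟨y, hyK⟩ : K) ∈ L₁.subgroupOf K := hy
    have h3 : (MulAut.conj g).toMonoidHom (⟨y, hyK⟩ : K) ∈ L₂.subgroupOf K := by
      rw [e]
      exact ⟨_, hx', rfl⟩
    exact h3

/-- The image of a complement under an automorphism fixing `Q` and `K` is conjugate by `Q`. -/
theorem hall_image (Q K : Subgroup X) [hQn : Q.Normal] (hQK : Q ≤ K) (hQp : IsPGroup p Q)
    (hc : (Q.relIndex K).Coprime p) {L : Subgroup X} (h1 : L ≤ K) (h1' : L ⊓ Q = ⊥)
    (h1'' : Q ⊔ L = K) (φ : X ≃* X) (hφQ : Q.map φ.toMonoidHom = Q)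
    (hφK : K.map φ.toMonoidHom = K) :
    ∃ g ∈ Q, L.map φ.toMonoidHom = L.map (MulAut.conj g).toMonoidHom := by
  refine hall_conj Q K hQK hQp hc h1 h1' h1'' ?_ ?_ ?_
  · rw [← hφK]
    exact Subgroup.map_mono h1
  · rw [← hφQ, ← Subgroup.map_inf _ _ _ φ.injective, h1', Subgroup.map_bot]
  · rw [← hφK, ← hφQ, ← Subgroup.map_sup]
    conv_rhs => rw [← h1'']

/-- The core of the theorem. -/
theorem core (hp : p ≠ 2) (hS : Cfsg.Agent.Lib.PSolv.PStep p X) (hO : pPrimeCore p X = ⊥)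
    (htr : ∀ u w : X, orderOf u = p → orderOf w = p → ∃ a : X ≃* X, u ∈ zpowers (a w)) :
    (Nat.card (X ⧸ pCore p X)).Coprime p := by
  classical
  have hpp : p.Prime := Fact.out
  by_contra hnc
  have hdq : p ∣ Nat.card (X ⧸ pCore p X) := by
    by_contra hnd
    exact hnc ((Nat.Prime.coprime_iff_not_dvd hpp).2 hnd).symm
  obtain ⟨Q, hQdef⟩ : ∃ Q, Q = pCore p X := ⟨_, rfl⟩
  haveI hQn : Q.Normal := by rw [hQdef]; infer_instance
  have hQp : IsPGroup p Q := by rw [hQdef]; exact Cfsg.Agent.Lib.Core.pCore_isPGroup p X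
  have hQchar : ∀ a : X ≃* X, Q.map a.toMonoidHom = Q := by
    intro a
    rw [hQdef]
    haveI : (pCore p X).Characteristic := inferInstance
    ext g
    constructor
    · rintro ⟨y, hy, rfl⟩
      have := (Subgroup.characteristic_iff_le_comap.1 this a) hy
      exact this
    · intro hg
      have := (Subgroup.characteristic_iff_le_comap.1 ‹_› a.symm) hg
      exact ⟨a.symm g, this, by simp⟩
  have hQmem : ∀ (a : X ≃* X) {g : X}, g ∈ Q → a g ∈ Q := by
    intro a g hg
    have := hQchar a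
    rw [← this]
    exact ⟨g, hg, rfl⟩
  have hcc : centralizer (Q : Set X) ≤ Q := by
    rw [hQdef]
    exact Cfsg.Agent.Lib.PSolv.centralizer_pCore_le hS hO
  rw [← hQdef] at hdq hnc
  have hdX : p ∣ Nat.card X := by
    refine hdq.trans ?_
    rw [← Subgroup.index_eq_card]
    exact Subgroup.index_dvd_card Q
  -- a Sylow subgroup and a central element of order `p` in it
  obtain ⟨P⟩ : Nonempty (Sylow p X) := inferInstance
  have hPbot : (⊤ : Subgroup P) ≠ ⊥ := by
    intro he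
    have h1 : (P : Subgroup X) = ⊥ := by
      rw [eq_bot_iff]
      intro x hx
      have : (⟨x, hx⟩ : P) ∈ (⊥ : Subgroup P) := by rw [← he]; trivial
      exact Subgroup.mem_bot.2 (congrArg Subtype.val (Subgroup.mem_bot.1 this))
    exact P.ne_bot_of_dvd_card hdX h1
  obtain ⟨z, -, hzc, hzo⟩ := exists_central_of_order_prime (G := ↥(P : Subgroup X)) P.isPGroup' hPbot
  have hzo' : orderOf (z : X) = p := (Subgroup.orderOf_coe z).trans hzo
  have hQP : Q ≤ P := by rw [hQdef]; exact Cfsg.Agent.Lib.Core.pCore_le_sylow P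
  -- all elements of order `p` commute with `Q`
  have hcomm : ∀ u : X, orderOf u = p → ∀ g ∈ Q, u * g = g * u := by
    intro u hu g hg
    obtain ⟨a, ha⟩ := htr u z hu hzo'
    have hg' : a.symm g ∈ Q := hQmem a.symm hg
    have h1 : (z : X) * a.symm g = a.symm g * z := by
      have := (Subgroup.mem_center_iff.1 hzc) (⟨a.symm g, hQP hg'⟩ : P)
      exact (congrArg Subtype.val this).symm
    have h2 : a z * g = g * a z := by
      have := congrArg a h1
      simpa using this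
    obtain ⟨k, rfl⟩ := ha
    have h3 : Commute (a z) g := h2
    exact (h3.zpow_left k)
  -- `Q` is non-trivial
  have hQne : Q ≠ ⊥ := by
    intro he
    have h1 : centralizer (Q : Set X) = ⊤ := by
      rw [he]; simp
    have h2 : (⊤ : Subgroup X) ≤ ⊥ := by
      rw [← h1]
      rw [he] at hcc
      simpa [he] using hcc
    have h3 : Nat.card X = 1 := by
      rw [Nat.card_eq_one_iff_unique]
      refine ⟨⟨fun a b => ?_⟩, inferInstance⟩
      have ha : a ∈ (⊥ : Subgroup X) := h2 (Subgroup.mem_top a)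
      have hb : b ∈ (⊥ : Subgroup X) := h2 (Subgroup.mem_top b)
      rw [Subgroup.mem_bot.1 ha, Subgroup.mem_bot.1 hb]
    rw [h3] at hdX
    exact hpp.one_lt.ne' (Nat.dvd_one.1 hdX)
  -- all elements of order `p` lie in `Q`
  have hmemQ : ∀ u : X, orderOf u = p → u ∈ Q := by
    have hdQ : p ∣ Nat.card Q := by
      obtain ⟨n, hn⟩ := IsPGroup.iff_card.1 hQp
      have hn0 : n ≠ 0 := by
        rintro rfl
        rw [pow_zero] at hn
        exact hQne ((Subgroup.eq_bot_iff_card _).2 hn)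
      rw [hn]
      exact dvd_pow_self p hn0
    obtain ⟨u₀, hu₀⟩ := exists_prime_orderOf_dvd_card' p hdQ
    have hu₀' : orderOf (u₀ : X) = p := (Subgroup.orderOf_coe u₀).trans hu₀
    intro u hu
    obtain ⟨a, ha⟩ := htr u u₀ hu hu₀'
    have : a u₀ ∈ Q := hQmem a u₀.2
    obtain ⟨k, rfl⟩ := ha
    exact Q.zpow_mem this k
  -- `K`
  have hRne : pPrimeCore p (X ⧸ Q) ≠ ⊥ := by
    intro hR
    have hlt : (⊥ : Subgroup (X ⧸ Q)) < ⊤ := by
      refine bot_lt_iff_ne_bot.2 ?_
      intro he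
      have : Nat.card (X ⧸ Q) = 1 := by
        have h4 : Subsingleton (X ⧸ Q) := Subgroup.subsingleton_iff.1 (by
          exact subsingleton_of_bot_eq_top he.symm)
        exact Nat.card_unique
      rw [this] at hdq
      exact hpp.one_lt.ne' (Nat.dvd_one.1 hdq)
    obtain ⟨D, hDn, hD1, -, hD⟩ := hS.quotient Q ⊥ ⊤ inferInstance inferInstance hlt
    rw [Subgroup.relIndex_bot_left] at hD
    rcases hD with hm | hc
    · have hDp : IsPGroup p D := IsPGroup.iff_card.2 hm
      have h1 : D ≤ pCore p (X ⧸ Q) := Cfsg.Agent.Lib.Core.le_pCore hDn hDp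
      have h2 : pCore p (X ⧸ Q) = ⊥ := by
        have := Cfsg.Agent.Lib.Core.pCore_quotient_pCore_eq_bot (p := p) (G := X)
        subst hQdef
        exact this
      rw [h2] at h1
      exact hD1.ne' (le_bot_iff.1 h1)
    · have h1 : D ≤ pPrimeCore p (X ⧸ Q) := Cfsg.Agent.Lib.Core.le_pPrimeCore hDn hc
      rw [hR] at h1
      exact hD1.ne' (le_bot_iff.1 h1)
  obtain ⟨K, hKdef⟩ : ∃ K : Subgroup X, K = (pPrimeCore p (X ⧸ Q)).comap (QuotientGroup.mk' Q) :=
    ⟨_, rfl⟩
  haveI hKn : K.Normal := by rw [hKdef]; infer_instance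
  have hQK : Q ≤ K := by rw [hKdef]; exact le_comap_self_pPrimeCore Q
  have hrel : (Q.relIndex K).Coprime p := by rw [hKdef]; exact relIndex_comap_pPrimeCore Q
  have hKne : K ≠ Q := by
    intro he
    apply hRne
    rw [eq_bot_iff]
    intro y hy
    obtain ⟨x, rfl⟩ := QuotientGroup.mk'_surjective Q y
    have hx : x ∈ K := by rw [hKdef]; exact hy
    rw [he] at hx
    exact Subgroup.mem_bot.2 ((QuotientGroup.eq_one_iff x).2 hx)
  -- `a(K) = K`
  have hKchar : ∀ a : X ≃* X, K.map a.toMonoidHom = K := by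
    intro a
    have hle : K.map a.toMonoidHom ≤ K := by
      rw [hKdef]
      refine le_comap_pPrimeCore ?_ ?_
      · rw [← hKdef]
        exact hKn.map _ a.surjective
      · rw [← hKdef]
        have hQa : Q ≤ K.map a.toMonoidHom := by
          conv_lhs => rw [← hQchar a]
          exact Subgroup.map_mono hQK
        have e1 : Q.relIndex (K.map a.toMonoidHom) = Q.relIndex K := by
          have h1 := Cfsg.Agent.Lib.FF.relIndex_mul_card hQa
          have h2 := Cfsg.Agent.Lib.FF.relIndex_mul_card hQK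
          have h3 : Nat.card (K.map a.toMonoidHom) = Nat.card K :=
            Subgroup.card_map_of_injective a.injective
          rw [h3, ← h2] at h1
          exact Nat.eq_of_mul_eq_mul_right Nat.card_pos h1
        rw [e1]
        exact hrel
    exact Subgroup.eq_of_le_of_card_ge hle (le_of_eq (by
      exact (Subgroup.card_map_of_injective a.injective).symm))
  obtain ⟨L, hLK, hLQ, hQL⟩ := hall_exists Q K hQK hQp hrel
  have hLne : L ≠ ⊥ := by
    rintro rfl
    rw [sup_bot_eq] at hQL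
    exact hKne hQL.symm
  -- a `p`-element outside `Q`
  have hPQ : ¬ (P : Subgroup X) ≤ Q := by
    intro hle
    have e : (P : Subgroup X) = Q := le_antisymm hle hQP
    apply P.not_dvd_index
    rw [e, Subgroup.index_eq_card]
    exact hdq
  obtain ⟨y₀, hy₀P, hy₀Q⟩ := SetLike.not_le_iff_exists.1 hPQ
  -- Frattini
  obtain ⟨g, hg, hgL⟩ := hall_image Q K hQK hQp hrel hLK hLQ hQL (MulAut.conj y₀) (hQchar _) (hKchar _)
  obtain ⟨y, hy⟩ : ∃ y, y = g⁻¹ * y₀ := ⟨_, rfl⟩
  have hyP : y ∈ (P : Subgroup X) := by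
    rw [hy]
    exact (P : Subgroup X).mul_mem ((P : Subgroup X).inv_mem (hQP hg)) hy₀P
  have hyQ : y ∉ Q := by
    intro hh
    apply hy₀Q
    have : y₀ = g * y := by rw [hy]; group
    rw [this]
    exact Q.mul_mem hg hh
  have hyN : y ∈ normalizer (L : Set X) := by
    refine Cfsg.Agent.Lib.Transfer.mem_normalizer_of_conj_mem ?_
    intro l hl
    have h1 : (MulAut.conj y₀).toMonoidHom l ∈ L.map (MulAut.conj y₀).toMonoidHom := ⟨l, hl, rfl⟩
    rw [hgL] at h1
    obtain ⟨l', hl', he⟩ := h1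
    have he' : g * l' * g⁻¹ = y₀ * l * y₀⁻¹ := he
    have : y * l * y⁻¹ = l' := by
      rw [hy]
      calc g⁻¹ * y₀ * l * (g⁻¹ * y₀)⁻¹ = g⁻¹ * (y₀ * l * y₀⁻¹) * g := by group
        _ = g⁻¹ * (g * l' * g⁻¹) * g := by rw [he']
        _ = l' := by group
    rw [this]
    exact hl'
  have hyne : y ≠ 1 := by
    rintro rfl
    exact hyQ Q.one_mem
  obtain ⟨k, hk⟩ := IsPGroup.iff_orderOf.1 P.isPGroup' (⟨y, hyP⟩ : P)
  have hk' : orderOf y = p ^ k := (Subgroup.orderOf_mk y hyP).symm.trans hk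
  have hk0 : k ≠ 0 := by
    rintro rfl
    rw [pow_zero] at hk'
    exact hyne (orderOf_eq_one_iff.1 hk')
  have hpd : p ∣ orderOf y := by
    rw [hk']
    exact dvd_pow_self p hk0
  obtain ⟨w, hw⟩ : ∃ w, w = y ^ (orderOf y / p) := ⟨_, rfl⟩
  have hwo : orderOf w = p := by
    rw [hw]
    exact orderOf_pow_orderOf_div (orderOf_pos y).ne' hpd
  have hwQ : w ∈ Q := hmemQ w hwo
  have hwN : w ∈ normalizer (L : Set X) := by
    rw [hw]
    exact pow_mem hyN _
  have hwL : ∀ l ∈ L, w * l = l * w := by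
    intro l hl
    have h1 : w * l * w⁻¹ ∈ L := (Subgroup.mem_normalizer_iff.1 hwN l).1 hl
    have h2 : w * l * w⁻¹ * l⁻¹ ∈ L := L.mul_mem h1 (L.inv_mem hl)
    have h3 : w * l * w⁻¹ * l⁻¹ ∈ Q := by
      have h4 : w * l * w⁻¹ * l⁻¹ = w * (l * w⁻¹ * l⁻¹) := by group
      rw [h4]
      exact Q.mul_mem hwQ (hQn.conj_mem _ (Q.inv_mem hwQ) l)
    have h5 : w * l * w⁻¹ * l⁻¹ ∈ L ⊓ Q := ⟨h2, h3⟩
    rw [hLQ, Subgroup.mem_bot] at h5
    have h6 : w * l * w⁻¹ = l := mul_inv_eq_one.1 h5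
    calc w * l = w * l * w⁻¹ * w := by group
      _ = l * w := by rw [h6]
  -- `L` centralizes all elements of order `p`
  have hfix : ∀ u : X, orderOf u = p → ∀ l ∈ L, l * u = u * l := by
    intro u hu l hl
    obtain ⟨a, ha⟩ := htr u w hu hwo
    have hvo : orderOf (a w) = p := by
      rw [MulEquiv.orderOf_eq]
      exact hwo
    obtain ⟨g', hg', hgL'⟩ := hall_image Q K hQK hQp hrel hLK hLQ hQL a (hQchar _) (hKchar _)
    have h1 : (MulAut.conj g').toMonoidHom l ∈ L.map a.toMonoidHom := by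
      rw [hgL']
      exact ⟨l, hl, rfl⟩
    obtain ⟨l₁, hl₁, he⟩ := h1
    have he' : a l₁ = g' * l * g'⁻¹ := he
    have hc1 : a w * a l₁ = a l₁ * a w := by
      rw [← map_mul, ← map_mul, hwL l₁ hl₁]
    have hc2 : a w * g' = g' * a w := hcomm _ hvo g' hg'
    have hc3 : Commute (a w) l := by
      have h2 : l = g'⁻¹ * a l₁ * g' := by rw [he']; group
      have h3 : Commute (a w) g' := hc2
      have h4 : Commute (a w) (a l₁) := hc1
      rw [h2]
      exact (h3.inv_right.mul_right h4).mul_right h3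
    obtain ⟨n, rfl⟩ := ha
    exact ((hc3.zpow_left n).eq).symm
  -- Thompson's lemma
  have hLcard : (Nat.card L).Coprime p := by
    have e1 : Q.relIndex K = Nat.card L := by
      rw [← hQL, Subgroup.relIndex_sup_left, ← Subgroup.inf_relIndex_right, inf_comm, hLQ,
        Subgroup.relIndex_bot_left]
    rw [← e1]
    exact hrel
  apply hLne
  rw [eq_bot_iff]
  intro l hl
  have hcop : (orderOf l).Coprime p := by
    have hd : orderOf l ∣ Nat.card L := by
      have := orderOf_dvd_natCard (⟨l, hl⟩ : L)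
      rwa [Subgroup.orderOf_mk] at this
    exact Nat.Coprime.coprime_dvd_left hd hLcard
  have hcen := centralizes_of_omega hp hQp hcop (fun x hx => hQn.conj_mem x hx l) (by
    intro x hx hxp
    by_cases hx1 : x = 1
    · simp [hx1]
    · have hxo : orderOf x = p := orderOf_eq_prime hxp hx1
      rw [hfix x hxo l hl]
      group)
  have hlC : l ∈ centralizer (Q : Set X) := by
    rw [Subgroup.mem_centralizer_iff]
    intro x hx
    have := hcen x hx
    calc x * l = (l * x * l⁻¹) * l := by rw [this]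
      _ = l * x := by group
  have hlQ : l ∈ L ⊓ Q := ⟨hl, hcc hlC⟩
  rw [hLQ] at hlQ
  exact hlQ

/-- Lifting elements of order `p` along the quotient by a `p'`-subgroup. -/
theorem exists_lift {G : Type*} [Group G] [Finite G] (N : Subgroup G) [N.Normal]
    (hN : (Nat.card N).Coprime p) (u : G ⧸ N) (hu : orderOf u = p) :
    ∃ s : G, orderOf s = p ∧ (s : G ⧸ N) = u := by
  have hpp : p.Prime := Fact.out
  obtain ⟨t, rfl⟩ := QuotientGroup.mk_surjective u
  obtain ⟨α, m, hm, hn⟩ := Nat.exists_eq_pow_mul_and_not_dvd (orderOf_pos t).ne' p hpp.ne_one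
  -- inverse of `m` modulo `p`
  have hcop : Nat.Coprime m p := ((Nat.Prime.coprime_iff_not_dvd hpp).2 hm).symm
  obtain ⟨m', hm'⟩ : ∃ m', m * m' % p = 1 % p := by
    obtain ⟨m', hm'⟩ := Nat.exists_mul_mod_eq_one_of_coprime hcop hpp.one_lt
    exact ⟨m', by rw [hm'.2, Nat.mod_eq_of_lt hpp.one_lt]⟩
  obtain ⟨s, hs⟩ : ∃ s, s = t ^ (m * m') := ⟨_, rfl⟩
  have hup : ((t : G) : G ⧸ N) ^ p = 1 := by rw [← hu]; exact pow_orderOf_eq_one _
  have hsu : (s : G ⧸ N) = (t : G ⧸ N) := by
    rw [hs, QuotientGroup.mk_pow]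
    have e : m * m' = p * (m * m' / p) + 1 % p := by
      have := Nat.div_add_mod (m * m') p
      rw [hm'] at this
      exact this.symm
    rw [e, pow_add, pow_mul, hup, one_pow, one_mul, Nat.mod_eq_of_lt hpp.one_lt, pow_one]
  have hspα : s ^ (p ^ α) = 1 := by
    rw [hs, ← pow_mul]
    have : m * m' * p ^ α = orderOf t * m' := by rw [hn]; ring
    rw [this, pow_mul, pow_orderOf_eq_one, one_pow]
  have hsN : s ^ p ∈ N := by
    rw [← QuotientGroup.eq_one_iff, QuotientGroup.mk_pow, hsu]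
    exact hup
  have hsp : s ^ p = 1 := by
    have hd1 : orderOf (s ^ p) ∣ Nat.card N := by
      have := orderOf_dvd_natCard (⟨s ^ p, hsN⟩ : N)
      rwa [Subgroup.orderOf_mk] at this
    have hd2 : orderOf (s ^ p) ∣ p ^ α := by
      refine orderOf_dvd_of_pow_eq_one ?_
      rw [← pow_mul, mul_comm, pow_mul, hspα, one_pow]
    have hc : Nat.Coprime (p ^ α) (Nat.card N) := Nat.Coprime.pow_left _ hN.symm
    have : orderOf (s ^ p) = 1 := Nat.Coprime.eq_one_of_dvd (hc.coprime_dvd_left hd2) hd1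
    exact orderOf_eq_one_iff.1 this
  refine ⟨s, orderOf_eq_prime hsp ?_, hsu⟩
  rintro rfl
  have hone : ((t : G) : G ⧸ N) = 1 := by rw [← hsu]; rfl
  rw [hone, orderOf_one] at hu
  exact hpp.one_lt.ne hu

/-- The Gaschütz–Yen Theorem: let G be a finite p-soluble group, p an odd prime dividing its order, such that the automorphism group of G permutes the subgroups of G of order p transitively. Then G has p-length at most 1. -/
theorem result {G : Type*} [Group G] [Finite G] {p : ℕ} [Fact p.Prime] (hp : p ≠ 2) (hdvd : p ∣ Nat.card G) (hG : Cfsg.IsPSolvable p G) (htrans : ∀ U V : Subgroup G, Nat.card U = p → Nat.card V = p → ∃ a : MulAut G, U.map a.toMonoidHom = V) : Cfsg.PLengthLE p 1 G := by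
  have hpp : p.Prime := Fact.out
  refine plength_one_of_core ?_
  have hNc : (Nat.card (pPrimeCore p G)).Coprime p := Cfsg.Agent.Lib.Core.pPrimeCore_coprime p G
  have hNchar : ∀ a : MulAut G, (pPrimeCore p G).map a.toMonoidHom = pPrimeCore p G := by
    intro a
    exact Subgroup.characteristic_iff_map_eq.1 inferInstance a
  refine core hp ((Cfsg.Agent.Lib.PSolv.pStep_of_isPSolvable hpp hG).quotient _)
    Cfsg.Agent.Lib.Core.pPrimeCore_quotient_eq_bot ?_
  intro u w hu hw
  obtain ⟨su, hsu, rfl⟩ := exists_lift _ hNc u hu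
  obtain ⟨sw, hsw, rfl⟩ := exists_lift _ hNc w hw
  obtain ⟨a, ha⟩ := htrans (zpowers sw) (zpowers su) (by rw [Nat.card_zpowers, hsw])
    (by rw [Nat.card_zpowers, hsu])
  have hmem : su ∈ (zpowers sw).map a.toMonoidHom := by
    rw [ha]
    exact mem_zpowers su
  obtain ⟨x, ⟨k, rfl⟩, hx⟩ := hmem
  refine ⟨QuotientGroup.congr _ _ a (hNchar a), ⟨k, ?_⟩⟩
  rw [← hx]
  show ((a sw : G) : G ⧸ pPrimeCore p G) ^ k = ((a (sw ^ k) : G) : G ⧸ pPrimeCore p G)
  rw [map_zpow, QuotientGroup.mk_zpow]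

end Cfsg.Agent.S3798
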