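import Cfsg.Statements.S3802
import Cfsg.Agent.Lib.Subnormal.Join
-- import your own Cfsg.Agent.* helpers here

set_option autoImplicit false
open Cfsg

namespace Cfsg.Agent.S3802

/-- Let G be a finite group, M a maximal subgroup of G and N a subnormal subgroup of G contained in M. Then N is contained in every conjugate of M, that is, N lies in the core of M in G. -/
theorem result {G : Type*} [Group G] [Finite G] (M N : Subgroup G) (hM : IsCoatom M) (hN : N.IsSubnormal) (hNM : N ≤ M) :
    N ≤ Subgroup.normalCore M := by
  by_cases hK : Subgroup.normalizer (Cfsg.Agent.Lib.Subnormal.subnormalCore M : Set G) = ⊤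
  · have hn : (Cfsg.Agent.Lib.Subnormal.subnormalCore M).Normal := Subgroup.normalizer_eq_top_iff.mp hK
    exact (Cfsg.Agent.Lib.Subnormal.le_subnormalCore hN hNM).trans
      (Subgroup.normal_le_normalCore.mpr (Cfsg.Agent.Lib.Subnormal.subnormalCore_le M))
  · have h1 : M = Subgroup.normalizer (Cfsg.Agent.Lib.Subnormal.subnormalCore M : Set G) :=
      (hM.le_iff.mp (Cfsg.Agent.Lib.Subnormal.le_normalizer_subnormalCore M)).resolve_left hK |>.symm
    have h2 := Cfsg.Agent.Lib.Subnormal.subnormalCore_eq_top_of_normalizer_le h1.symm.le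
    have h3 := Cfsg.Agent.Lib.Subnormal.subnormalCore_le M
    rw [h2] at h3
    exact absurd (top_le_iff.mp h3) hM.1

end Cfsg.Agent.S3802
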