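import Cfsg.Statements.S3815
import Mathlib

set_option autoImplicit false
open Cfsg

namespace Cfsg.Agent.S3815

/-- Let G be a finite group, p a prime and d ∈ G an element of order prime to p. If dg has order prime to p for every element g ∈ G of order prime to p, then d ∈ O_{p'}(G). -/
theorem result {G : Type*} [Group G] [Finite G] {p : ℕ} [Fact p.Prime]
    (d : G) (hd : (orderOf d).Coprime p)
    (h : ∀ g : G, (orderOf g).Coprime p → (orderOf (d * g)).Coprime p) :
    d ∈ Cfsg.pPrimeCore p G := by
  classical
  -- closure under products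
  have hmul : ∀ a b : G, ((orderOf a).Coprime p ∧ ∀ g : G, (orderOf g).Coprime p → (orderOf (a * g)).Coprime p) →
      ((orderOf b).Coprime p ∧ ∀ g : G, (orderOf g).Coprime p → (orderOf (b * g)).Coprime p) →
      ((orderOf (a * b)).Coprime p ∧ ∀ g : G, (orderOf g).Coprime p → (orderOf (a * b * g)).Coprime p) := by
    intro a b ha hb
    refine ⟨ha.2 b hb.1, fun g hg => ?_⟩
    rw [mul_assoc]
    exact ha.2 _ (hb.2 g hg)
  have hone : (orderOf (1 : G)).Coprime p ∧ ∀ g : G, (orderOf g).Coprime p → (orderOf ((1 : G) * g)).Coprime p := by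
    refine ⟨by simp, fun g hg => by simpa using hg⟩
  have hpow : ∀ a : G, ((orderOf a).Coprime p ∧ ∀ g : G, (orderOf g).Coprime p → (orderOf (a * g)).Coprime p) →
      ∀ n : ℕ, ((orderOf (a ^ n)).Coprime p ∧ ∀ g : G, (orderOf g).Coprime p → (orderOf (a ^ n * g)).Coprime p) := by
    intro a ha n
    induction n with
    | zero => simpa using hone
    | succ n ih => rw [pow_succ]; exact hmul _ _ ih ha
  let D : Subgroup G :=
    { carrier := {a : G | (orderOf a).Coprime p ∧ ∀ g : G, (orderOf g).Coprime p → (orderOf (a * g)).Coprime p}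
      mul_mem' := fun {a b} ha hb => hmul a b ha hb
      one_mem' := hone
      inv_mem' := by
        intro a ha
        have hpos : 0 < orderOf a := orderOf_pos a
        have : a⁻¹ = a ^ (orderOf a - 1) := by
          apply inv_eq_of_mul_eq_one_right
          rw [← pow_succ', Nat.sub_add_cancel hpos, pow_orderOf_eq_one]
        show (orderOf a⁻¹).Coprime p ∧ ∀ g : G, (orderOf g).Coprime p → (orderOf (a⁻¹ * g)).Coprime p
        rw [this]
        exact hpow a ha _ }
  have hconj : ∀ (x g : G), orderOf (g * x * g⁻¹) = orderOf x := by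
    intro x g
    have := orderOf_injective (MulAut.conj g).toMonoidHom (MulEquiv.injective _) x
    simpa [MulAut.conj_apply] using this
  have hD : D.Normal := by
    constructor
    intro a ha g
    refine ⟨by rw [hconj]; exact ha.1, fun g' hg' => ?_⟩
    have e : g * a * g⁻¹ * g' = g * (a * (g⁻¹ * g' * g)) * g⁻¹ := by group
    rw [e, hconj]
    apply ha.2
    have e2 : g⁻¹ * g' * g = g⁻¹ * g' * g⁻¹⁻¹ := by group
    rw [e2, hconj]; exact hg'
  have hcard : (Nat.card D).Coprime p := by
    rw [Nat.coprime_comm, Nat.Prime.coprime_iff_not_dvd (Fact.out : p.Prime)]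
    intro hdvd
    obtain ⟨x, hx⟩ := exists_prime_orderOf_dvd_card' p hdvd
    have h1 : (orderOf (x : G)).Coprime p := x.2.1
    rw [Subgroup.orderOf_coe, hx] at h1
    have : p = 1 := by simpa using h1
    exact (Fact.out : p.Prime).one_lt.ne' this
  have hle : D ≤ Cfsg.pPrimeCore p G := le_sSup ⟨hD, hcard⟩
  exact hle ⟨hd, h⟩

end Cfsg.Agent.S3815
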