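import Cfsg.Statements.S3819
import Cfsg.Agent.Lib.Hall.CoprimeCommutator
import Cfsg.Agent.Lib.Hall.CoprimeLemmas
import Cfsg.Agent.Lib.Techniques.Bender
import Cfsg.Agent.Lib.Core.Batch
import Cfsg.Agent.Lib.PGroup.Basic
-- import your own Cfsg.Agent.* helpers here

set_option autoImplicit false
open Cfsg

namespace Cfsg.Agent.S3819

open Subgroup Cfsg.Agent.Lib.Core Cfsg.Agent.Lib.Hall
open scoped Pointwise commutatorElement

/-- Lifting a fixed coset of a normalized subgroup of coprime order. -/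
theorem lift_coset {G : Type*} [Group G] [Finite G] (A N : Subgroup G) (hNA : A ≤ normalizer (N : Set G))
    (hcop : (Nat.card A).Coprime (Nat.card N)) (hsolv : Group.IsSolvable A ∨ Group.IsSolvable N)
    (k : G) (hk : k ∈ normalizer (N : Set G)) (hfix : ∀ a ∈ A, a * k * a⁻¹ * k⁻¹ ∈ N) :
    ∃ n ∈ N, n * k ∈ centralizer (A : Set G) := by
  let U : Subgroup G := N ⊔ A
  have hUn : U ≤ normalizer (N : Set G) := sup_le Subgroup.le_normalizer hNA
  have hNA1 : N ⊓ A = ⊥ := by
    rw [inf_comm]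
    exact inf_eq_bot_of_coprime' hcop
  let A₁ : Subgroup G := MulAut.conj k • A
  have hA₁U : A₁ ≤ U := by
    rintro x hx
    have hx : x ∈ MulAut.conj k • A := hx
    rw [mem_conj_smul_iff] at hx
    set a := k⁻¹ * x * k with ha
    have hxa : x = k * a * k⁻¹ := by rw [ha]; group
    have h2 : k * a * k⁻¹ * a⁻¹ ∈ N := by
      have h3 := N.inv_mem (hfix a hx)
      have h4 : k * a * k⁻¹ * a⁻¹ = (a * k * a⁻¹ * k⁻¹)⁻¹ := by group
      rwa [h4]
    rw [hxa]
    have h3 : k * a * k⁻¹ = (k * a * k⁻¹ * a⁻¹) * a := by group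
    rw [h3]
    exact Subgroup.mul_mem_sup h2 hx
  have hNA₁ : N ⊓ A₁ = ⊥ := by
    rw [eq_bot_iff]
    rintro x ⟨hx1, hx2⟩
    have hx2 : x ∈ MulAut.conj k • A := hx2
    rw [mem_conj_smul_iff] at hx2
    have h1 : k⁻¹ * x * k ∈ N := by
      have := (Subgroup.mem_normalizer_iff.mp (Subgroup.inv_mem _ hk) x).mp hx1
      simpa using this
    have h2 : k⁻¹ * x * k ∈ N ⊓ A := ⟨h1, hx2⟩
    rw [hNA1, Subgroup.mem_bot] at h2
    have h3 : x = k * (k⁻¹ * x * k) * k⁻¹ := by group
    rw [h3, h2]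
    simp
  have hsup : N ⊔ A₁ = U := by
    apply le_antisymm (sup_le le_sup_left hA₁U)
    apply sup_le le_sup_left
    intro a ha
    have h4 : k * a * k⁻¹ * a⁻¹ ∈ N := by
      have h5 := N.inv_mem (hfix a ha)
      have h6 : k * a * k⁻¹ * a⁻¹ = (a * k * a⁻¹ * k⁻¹)⁻¹ := by group
      rwa [h6]
    have h5 : a = (k * a * k⁻¹ * a⁻¹)⁻¹ * (k * a * k⁻¹) := by group
    rw [h5]
    exact Subgroup.mul_mem_sup (N.inv_mem h4) (conj_mem_conj_smul ha)
  have hcopN : (Nat.card N).Coprime (N.relIndex U) :=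
    Nat.Coprime.coprime_dvd_right (relIndex_dvd_card_of_sup N A hUn rfl) hcop.symm
  have hsol' : Group.IsSolvable N ∨ Group.IsSolvable A₁ := by
    rcases hsolv with h | h
    · right
      exact Group.isSolvable_of_surjective
        (f := ((MulAut.conj k).subgroupMap A).toMonoidHom) ((MulAut.conj k).subgroupMap A).surjective
    · left
      exact h
  obtain ⟨n, hn, hconj⟩ := exists_conj_rel' N U A₁ A le_sup_left hUn hsol' hcopN hNA₁ hsup hNA1 rfl
  refine ⟨n, hn, ?_⟩
  have hcA : n * k ∈ normalizer (A : Set G) := by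
    apply mem_normalizer_of_conj_smul_eq
    rw [← conj_smul_conj_smul]
    exact hconj
  rw [Subgroup.mem_centralizer_iff]
  intro a ha
  have h1 : (n * k) * a * (n * k)⁻¹ ∈ A := (Subgroup.mem_normalizer_iff.mp hcA a).mp ha
  have h4 : (n * k) * a * (n * k)⁻¹ * a⁻¹ ∈ A := A.mul_mem h1 (A.inv_mem ha)
  have h5 : a * n * a⁻¹ ∈ N := (Subgroup.mem_normalizer_iff.mp (hNA ha) n).mp hn
  have h6 : a * (n * k) * a⁻¹ * (n * k)⁻¹ ∈ N := by
    have e : a * (n * k) * a⁻¹ * (n * k)⁻¹ = (a * n * a⁻¹) * (a * k * a⁻¹ * k⁻¹) * n⁻¹ := by group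
    rw [e]
    exact N.mul_mem (N.mul_mem h5 (hfix a ha)) (N.inv_mem hn)
  have h7 : (n * k) * a * (n * k)⁻¹ * a⁻¹ ∈ N := by
    have e : (n * k) * a * (n * k)⁻¹ * a⁻¹ = (a * (n * k) * a⁻¹ * (n * k)⁻¹)⁻¹ := by group
    rw [e]
    exact N.inv_mem h6
  have h8 : (n * k) * a * (n * k)⁻¹ * a⁻¹ ∈ N ⊓ A := ⟨h7, h4⟩
  rw [hNA1, Subgroup.mem_bot] at h8
  have h9 : (n * k) * a * (n * k)⁻¹ = a := by
    calc (n * k) * a * (n * k)⁻¹ = (n * k) * a * (n * k)⁻¹ * a⁻¹ * a := by group
      _ = a := by rw [h8, one_mul]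
  calc a * (n * k) = (n * k) * a * (n * k)⁻¹ * (n * k) := by rw [h9]
    _ = (n * k) * a := by group

/-- A `p'`-element and a `p`-element in a `p`-group: trivial. -/
theorem mem_norm {Γ : Type*} [Group Γ] (N : Subgroup Γ) [hN : N.Normal] (g : Γ) : g ∈ normalizer (N : Set Γ) := by
  rw [Subgroup.mem_normalizer_iff]
  intro h
  constructor
  · exact fun hh => hN.conj_mem h hh g
  · intro hh
    have := hN.conj_mem _ hh g⁻¹
    have e : g⁻¹ * (g * h * g⁻¹) * g⁻¹⁻¹ = h := by group
    rwa [e] at this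

theorem eq_one_of_coprime_of_pgroup {Γ : Type*} [Group Γ] {q : ℕ} [Fact q.Prime] {Q : Subgroup Γ} (hQ : IsPGroup q Q) {y : Γ}
    (hy : y ∈ Q) (hc : (orderOf y).Coprime q) : y = 1 := by
  obtain ⟨k, hk⟩ := IsPGroup.iff_orderOf.mp hQ ⟨y, hy⟩
  have h1 : orderOf y = q ^ k := by
    rw [← Subgroup.orderOf_mk y hy]
    exact hk
  have h2 : orderOf y ∣ q ^ k := h1.dvd
  have h3 := Nat.Coprime.eq_one_of_dvd (Nat.Coprime.pow_right k hc) h2
  exact orderOf_eq_one_iff.mp h3

/-- Let G be a finite group with Sylow p-subgroup P and H = O_{p'}(G), and suppose G = PH and the commutator subgroup [H, P] is solvable. Let q be a prime and z an element of q-power order of C_H(P). Then (O_{q'}(C_H(z)) ∩ O_{q'}(C_H(P))) · [O_{q'}(C_H(z)), P] ≤ O_{q'}(H). -/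
theorem result {G : Type*} [Group G] [Finite G] {p : ℕ} [Fact p.Prime]
    (P : Sylow p G) (hPH : Cfsg.pPrimeCore p G ⊔ (P : Subgroup G) = ⊤)
    (hsol : Group.IsSolvable ↥⁅Cfsg.pPrimeCore p G, (P : Subgroup G)⁆)
    {q : ℕ} [Fact q.Prime] (z : G) (hzH : z ∈ Cfsg.pPrimeCore p G) (hzP : z ∈ Subgroup.centralizer ((P : Subgroup G) : Set G))
    (hz : ∃ k : ℕ, orderOf z = q ^ k) :
    ((Cfsg.pPrimeCore q ↥(Cfsg.pPrimeCore p G ⊓ Subgroup.centralizer ({z} : Set G))).map
        (Cfsg.pPrimeCore p G ⊓ Subgroup.centralizer ({z} : Set G)).subtype ⊓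
      (Cfsg.pPrimeCore q ↥(Cfsg.pPrimeCore p G ⊓ Subgroup.centralizer ((P : Subgroup G) : Set G))).map
        (Cfsg.pPrimeCore p G ⊓ Subgroup.centralizer ((P : Subgroup G) : Set G)).subtype) ⊔
    ⁅(Cfsg.pPrimeCore q ↥(Cfsg.pPrimeCore p G ⊓ Subgroup.centralizer ({z} : Set G))).map
        (Cfsg.pPrimeCore p G ⊓ Subgroup.centralizer ({z} : Set G)).subtype, (P : Subgroup G)⁆ ≤
    (Cfsg.pPrimeCore q ↥(Cfsg.pPrimeCore p G)).map (Cfsg.pPrimeCore p G).subtype := by
  classical
  set H : Subgroup G := Cfsg.pPrimeCore p G with hHdef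
  haveI hHn : H.Normal := pPrimeCore_normal p G
  have hHcop : (Nat.card H).Coprime p := pPrimeCore_coprime p G
  set C₁ : Subgroup G := H ⊓ centralizer ({z} : Set G) with hC₁
  set C₂ : Subgroup G := H ⊓ centralizer ((P : Subgroup G) : Set G) with hC₂
  set X : Subgroup G := (Cfsg.pPrimeCore q ↥C₁).map C₁.subtype with hX
  set Y : Subgroup G := (Cfsg.pPrimeCore q ↥C₂).map C₂.subtype with hY
  set O : Subgroup G := (Cfsg.pPrimeCore q ↥H).map H.subtype with hO
  haveI hOn : O.Normal := Cfsg.Agent.Lib.PGroup.map_subtype_normal_of_characteristic H _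
  have hqp : q.Prime := Fact.out
  have hOcop : (Nat.card O).Coprime q := by
    rw [hO, Subgroup.card_map_of_injective H.subtype_injective]
    exact pPrimeCore_coprime q H
  have hXcop : (Nat.card X).Coprime q := by
    rw [hX, Subgroup.card_map_of_injective C₁.subtype_injective]
    exact pPrimeCore_coprime q C₁
  have hYcop : (Nat.card Y).Coprime q := by
    rw [hY, Subgroup.card_map_of_injective C₂.subtype_injective]
    exact pPrimeCore_coprime q C₂
  have hXle : X ≤ C₁ := Subgroup.map_subtype_le _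
  have hYle : Y ≤ C₂ := Subgroup.map_subtype_le _
  have hOle : O ≤ H := Subgroup.map_subtype_le _
  have hXord : ∀ x ∈ X, (orderOf x).Coprime q := fun x hx =>
    Nat.Coprime.coprime_dvd_left (Subgroup.orderOf_dvd_natCard X hx) hXcop
  let π : G →* G ⧸ O := QuotientGroup.mk' O
  have hπsurj : Function.Surjective π := QuotientGroup.mk'_surjective O
  have hπ1 : ∀ x : G, π x = 1 ↔ x ∈ O := fun x => QuotientGroup.eq_one_iff x
  -- `O_{q'}` of the image of `H` is trivial
  have hF0 : ∀ T : Subgroup (G ⧸ O), T ≤ H.map π → (∀ h ∈ H, ∀ t ∈ T, π h * t * (π h)⁻¹ ∈ T) →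
      (Nat.card T).Coprime q → T = ⊥ := by
    intro T hTH hTn hTc
    let T₀ : Subgroup ↥H := (T.comap π).comap H.subtype
    have hT₀n : T₀.Normal := by
      refine ⟨fun n hn g => ?_⟩
      show π ((g : G) * (n : G) * (g : G)⁻¹) ∈ T
      rw [map_mul, map_mul, map_inv]
      exact hTn g g.2 _ hn
    have hT₀c : (Nat.card T₀).Coprime q := by
      rw [Nat.coprime_comm, Nat.Prime.coprime_iff_not_dvd hqp]
      intro hd
      obtain ⟨t, ht⟩ := exists_prime_orderOf_dvd_card' (G := T₀) q hd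
      have ht1 : orderOf (t : G) = q := by
        have h1 : orderOf ((t : ↥H) : G) = orderOf (t : ↥H) := Subgroup.orderOf_coe _
        have h2 : orderOf (t : ↥H) = orderOf t := Subgroup.orderOf_coe _
        rw [h1, h2, ht]
      have h2 : π (t : G) ∈ T := t.2
      have h3 : orderOf (π (t : G)) ∣ q := by
        rw [← ht1]
        exact orderOf_map_dvd _ _
      have h4 : orderOf (π (t : G)) ∣ Nat.card T := Subgroup.orderOf_dvd_natCard T h2
      have h5 : orderOf (π (t : G)) = 1 := Nat.eq_one_of_dvd_coprimes hTc h4 h3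
      have h6 : (t : G) ∈ O := (hπ1 _).mp (orderOf_eq_one_iff.mp h5)
      have h7 : q ∣ Nat.card O := by
        rw [← ht1]
        exact Subgroup.orderOf_dvd_natCard O h6
      have h8 := Nat.Coprime.eq_one_of_dvd hOcop.symm h7
      exact hqp.one_lt.ne' h8
    have hle : T₀ ≤ Cfsg.pPrimeCore q ↥H := le_pPrimeCore hT₀n hT₀c
    rw [eq_bot_iff]
    intro t ht
    obtain ⟨h, hh, rfl⟩ := hTH ht
    have h1 : (⟨h, hh⟩ : ↥H) ∈ T₀ := ht
    have h2 := hle h1
    have h3 : h ∈ O := ⟨⟨h, hh⟩, h2, rfl⟩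
    rw [Subgroup.mem_bot]
    exact (hπ1 h).mpr h3
  -- the commutator subgroup
  have hPH' : (P : Subgroup G) ≤ normalizer (H : Set G) := fun g _ => mem_norm H g
  set S : Subgroup G := ⁅H, (P : Subgroup G)⁆ with hS
  have hSle : S ≤ H := commutator_le_of_normalizes hPH'
  haveI hSn : S.Normal := by
    refine ⟨fun n hn g => ?_⟩
    have hg : g ∈ normalizer (S : Set G) := by
      have h1 : H ⊔ (P : Subgroup G) ≤ normalizer (S : Set G) :=
        sup_le (le_normalizer_commutator_left _ _) (le_normalizer_commutator_right hPH')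
      rw [hPH] at h1
      exact h1 (Subgroup.mem_top g)
    exact (Subgroup.mem_normalizer_iff.mp hg n).mp hn
  set St : Subgroup (G ⧸ O) := S.map π with hSt
  haveI hStn : St.Normal := Subgroup.Normal.map hSn π hπsurj
  haveI hStsol : Group.IsSolvable ↥St :=
    Group.isSolvable_of_surjective (f := π.subgroupMap S) (π.subgroupMap_surjective S)
  have hF1 : Cfsg.pPrimeCore q ↥St = ⊥ := by
    have h1 := hF0 ((Cfsg.pPrimeCore q ↥St).map St.subtype)
      ((Subgroup.map_subtype_le _).trans (Subgroup.map_mono hSle))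
      (fun h _ t ht => (Cfsg.Agent.Lib.PGroup.map_subtype_normal_of_characteristic St _).conj_mem t ht _)
      (by
        rw [Subgroup.card_map_of_injective St.subtype_injective]
        exact pPrimeCore_coprime q St)
    exact (Subgroup.map_eq_bot_iff_of_injective _ St.subtype_injective).mp h1
  set Qt : Subgroup (G ⧸ O) := (Cfsg.pCore q ↥St).map St.subtype with hQt
  haveI hQtn : Qt.Normal := Cfsg.Agent.Lib.PGroup.map_subtype_normal_of_characteristic St _
  have hQtp : IsPGroup q Qt := (pCore_isPGroup q St).map St.subtype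
  have hQtS : Qt ≤ St := Subgroup.map_subtype_le _
  have hCS : ∀ s ∈ St, (∀ y ∈ Qt, y * s = s * y) → s ∈ Qt := by
    intro s hs hc
    have h1 := centralizer_pCore_le (G := ↥St) q hF1
    have h2 : (⟨s, hs⟩ : ↥St) ∈ centralizer (Cfsg.pCore q ↥St : Set ↥St) := by
      rw [Subgroup.mem_centralizer_iff]
      intro y hy
      apply Subtype.ext
      exact hc _ ⟨y, hy, rfl⟩
    exact ⟨_, h1 h2, rfl⟩
  -- an element of `X` mapping into `Qt` is in `O`
  have hXQ : ∀ c ∈ X, π c ∈ Qt → π c = 1 := by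
    intro c hc hq
    refine eq_one_of_coprime_of_pgroup hQtp hq ?_
    exact Nat.Coprime.coprime_dvd_left (orderOf_map_dvd _ _) (hXord c hc)
  have hXn : ∀ x ∈ X, ∀ w ∈ C₁, w * x * w⁻¹ ∈ X := by
    intro x hx w hw
    obtain ⟨x₀, hx₀, rfl⟩ := hx
    have h1 := (pPrimeCore_normal q ↥C₁).conj_mem x₀ hx₀ ⟨w, hw⟩
    exact ⟨_, h1, rfl⟩
  have hYn : ∀ x ∈ Y, ∀ w ∈ C₂, w * x * w⁻¹ ∈ Y := by
    intro x hx w hw
    obtain ⟨x₀, hx₀, rfl⟩ := hx
    have h1 := (pPrimeCore_normal q ↥C₂).conj_mem x₀ hx₀ ⟨w, hw⟩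
    exact ⟨_, h1, rfl⟩
  have hz1 : z ∈ C₁ := Subgroup.mem_inf.mpr ⟨hzH, Subgroup.mem_centralizer_singleton_iff.mpr rfl⟩
  obtain ⟨kz, hkz⟩ := hz
  have hzcop : (Nat.card (zpowers z)).Coprime (Nat.card O) := by
    rw [Nat.card_zpowers, hkz]
    exact Nat.Coprime.pow_left kz hOcop.symm
  have hzcomm : ∀ x ∈ C₁, x * z = z * x := by
    intro x hx
    have := Subgroup.mem_centralizer_singleton_iff.mp hx.2
    exact this
  -- elements of `X` centralize `Qt`
  have hXcent : ∀ x ∈ X, ∀ y ∈ Qt, π x * y = y * π x := by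
    intro x hx
    have hxC := hXle hx
    refine Cfsg.Agent.Lib.Techniques.axb_element (p := q) (P := Qt) (B := zpowers (π z)) hQtp ?_ ?_ (π x) ?_ ?_ ?_ ?_
    · -- `zpowers (π z)` is a `q`-group
      rw [IsPGroup.iff_card, Nat.card_zpowers]
      have hd : orderOf (π z) ∣ q ^ kz := hkz ▸ orderOf_map_dvd _ _
      obtain ⟨j, -, hj⟩ := (Nat.dvd_prime_pow hqp).mp hd
      exact ⟨j, hj⟩
    · exact fun b _ => mem_norm Qt b
    · exact Nat.Coprime.coprime_dvd_left (orderOf_map_dvd _ _) (hXord x hx)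
    · intro y hy
      exact hQtn.conj_mem y hy _
    · intro b hb
      obtain ⟨k, rfl⟩ := Subgroup.mem_zpowers_iff.mp hb
      have h1 : Commute (π x) (π z) := by
        show π x * π z = π z * π x
        rw [← map_mul, ← map_mul, hzcomm x hxC]
      exact (h1.zpow_right k).eq
    · intro y hy hby
      obtain ⟨s, hs, rfl⟩ := hQtS hy
      have hzy : π z * π s = π s * π z := hby _ (Subgroup.mem_zpowers _)
      -- lift `s`
      obtain ⟨n, hn, hw⟩ := lift_coset (zpowers z) O
        (fun a _ => mem_norm O a) hzcop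
        (Or.inl (by
          haveI : IsCyclic (zpowers z) := inferInstance
          infer_instance)) s
        (mem_norm O s)
        (by
          intro a ha
          obtain ⟨k, rfl⟩ := Subgroup.mem_zpowers_iff.mp ha
          rw [← hπ1]
          have h1 : Commute (π z) (π s) := hzy
          have h2 := (h1.zpow_left k)
          simp only [map_mul, map_inv, map_zpow]
          rw [h2.eq]
          group)
      set w := n * s with hwdef
      have hwH : w ∈ H := H.mul_mem (hOle hn) (hSle hs)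
      have hwz : w ∈ C₁ := Subgroup.mem_inf.mpr ⟨hwH, by
        rw [Subgroup.mem_centralizer_iff] at hw
        have := hw z (Subgroup.mem_zpowers z)
        exact Subgroup.mem_centralizer_singleton_iff.mpr this.symm⟩
      have hπw : π w = π s := by
        rw [hwdef, map_mul, (hπ1 n).mpr hn, one_mul]
      have hc1 : x * (w * x⁻¹ * w⁻¹) ∈ X := X.mul_mem hx (hXn _ (X.inv_mem hx) w hwz)
      have hc2 : π (x * (w * x⁻¹ * w⁻¹)) ∈ Qt := by
        have e : π (x * (w * x⁻¹ * w⁻¹)) = (π x * π s * (π x)⁻¹) * (π s)⁻¹ := by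
          simp only [map_mul, map_inv, hπw]
          group
        rw [e]
        exact Qt.mul_mem (hQtn.conj_mem _ hy _) (Qt.inv_mem hy)
      have hc3 := hXQ _ hc1 hc2
      have e : π (x * (w * x⁻¹ * w⁻¹)) = (π x * π s * (π x)⁻¹) * (π s)⁻¹ := by
        simp only [map_mul, map_inv, hπw]
        group
      rw [e] at hc3
      have h4 : π x * π s * (π x)⁻¹ = π s := mul_inv_eq_one.mp hc3
      exact mul_inv_eq_iff_eq_mul.mp h4
  -- `P` normalizes `X`
  have hPX : ∀ g ∈ (P : Subgroup G), ∀ x ∈ X, g * x * g⁻¹ ∈ X := by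
    intro g hg x hx
    obtain ⟨x₀, hx₀, rfl⟩ := hx
    have hgz : g * z = z * g := (Subgroup.mem_centralizer_iff.mp hzP g hg)
    have hgn : g ∈ normalizer (C₁ : Set G) := by
      rw [Subgroup.mem_normalizer_iff]
      intro h
      have hgz' : g⁻¹ * z = z * g⁻¹ := by
        have := (Commute.inv_left (show Commute g z from hgz)).eq
        exact this
      constructor
      · intro hh
        refine Subgroup.mem_inf.mpr ⟨hHn.conj_mem h hh.1 g, Subgroup.mem_centralizer_singleton_iff.mpr ?_⟩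
        have h1 := Subgroup.mem_centralizer_singleton_iff.mp hh.2
        calc g * h * g⁻¹ * z = g * h * (g⁻¹ * z) := by group
          _ = g * (h * z) * g⁻¹ := by rw [hgz']; group
          _ = g * (z * h) * g⁻¹ := by rw [h1]
          _ = z * (g * h * g⁻¹) := by
            calc g * (z * h) * g⁻¹ = (g * z) * h * g⁻¹ := by group
              _ = z * (g * h * g⁻¹) := by rw [hgz]; group
      · intro hh
        have h0 := hHn.conj_mem _ hh.1 g⁻¹
        have e0 : g⁻¹ * (g * h * g⁻¹) * g⁻¹⁻¹ = h := by group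
        rw [e0] at h0
        refine Subgroup.mem_inf.mpr ⟨h0, Subgroup.mem_centralizer_singleton_iff.mpr ?_⟩
        have h1 := Subgroup.mem_centralizer_singleton_iff.mp hh.2
        have e : h = g⁻¹ * (g * h * g⁻¹) * g := by group
        rw [e]
        calc g⁻¹ * (g * h * g⁻¹) * g * z = g⁻¹ * (g * h * g⁻¹) * (g * z) := by group
          _ = g⁻¹ * ((g * h * g⁻¹) * z) * g := by rw [hgz]; group
          _ = g⁻¹ * (z * (g * h * g⁻¹)) * g := by rw [h1]
          _ = z * (g⁻¹ * (g * h * g⁻¹) * g) := by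
            calc g⁻¹ * (z * (g * h * g⁻¹)) * g = (g⁻¹ * z) * (g * h * g⁻¹) * g := by group
              _ = z * (g⁻¹ * (g * h * g⁻¹) * g) := by rw [hgz']; group
    let σ : ↥C₁ ≃* ↥C₁ := normalizerAut C₁ hgn
    have h1 : σ x₀ ∈ Cfsg.pPrimeCore q ↥C₁ :=
      (Subgroup.characteristic_iff_le_comap.mp (pPrimeCore_characteristic q ↥C₁) σ) hx₀
    exact ⟨_, h1, rfl⟩
  -- commutators with `P`
  have hcomm : ∀ x ∈ X, ∀ g ∈ (P : Subgroup G), ⁅x, g⁆ ∈ O := by
    intro x hx g hg
    have hxH : x ∈ H := (hXle hx).1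
    have hc1 : ⁅x, g⁆ ∈ S := Subgroup.commutator_mem_commutator hxH hg
    have hc2 : ⁅x, g⁆ ∈ X := by
      rw [commutatorElement_def]
      have e : x * g * x⁻¹ * g⁻¹ = x * (g * x⁻¹ * g⁻¹) := by group
      rw [e]
      exact X.mul_mem hx (hPX g hg _ (X.inv_mem hx))
    have hc3 : π ⁅x, g⁆ ∈ Qt := hCS _ ⟨_, hc1, rfl⟩ (fun y hy => (hXcent _ hc2 y hy).symm)
    exact (hπ1 _).mp (hXQ _ hc2 hc3)
  -- the intersection
  have hinter : X ⊓ Y ≤ O := by
    let Yt : Subgroup (G ⧸ O) := (Y.map π) ⊓ centralizer (Qt : Set (G ⧸ O))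
    have hYtc : (Nat.card Yt).Coprime q :=
      Nat.Coprime.coprime_dvd_left ((Subgroup.card_dvd_of_le inf_le_left).trans (Subgroup.card_map_dvd Y π)) hYcop
    -- it centralizes `St`
    have hcentS : ∀ t ∈ Yt, ∀ s ∈ St, t * s = s * t := by
      intro t ht s hs
      set d := t * s * t⁻¹ * s⁻¹ with hd
      have hd1 : d ∈ St := by
        rw [hd]
        exact St.mul_mem (hStn.conj_mem s hs t) (St.inv_mem hs)
      have hd2 : d ∈ centralizer (Qt : Set (G ⧸ O)) := by
        have hn : (centralizer (Qt : Set (G ⧸ O))).Normal := inferInstance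
        rw [hd]
        have e : t * s * t⁻¹ * s⁻¹ = t * (s * t⁻¹ * s⁻¹) := by group
        rw [e]
        exact Subgroup.mul_mem _ ht.2 (hn.conj_mem _ (Subgroup.inv_mem _ ht.2) s)
      have hd3 : d ∈ Qt := hCS d hd1 (fun y hy => Subgroup.mem_centralizer_iff.mp hd2 y hy)
      have htd : t * d = d * t := (Subgroup.mem_centralizer_iff.mp ht.2 d hd3).symm
      have hts : t * s * t⁻¹ = d * s := by
        rw [hd]
        group
      have hpow : ∀ n : ℕ, t ^ n * s * (t ^ n)⁻¹ = d ^ n * s := by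
        intro n
        induction n with
        | zero => simp
        | succ n ih =>
          have e1 : t ^ (n + 1) * s * (t ^ (n + 1))⁻¹ = t ^ n * (t * s * t⁻¹) * (t ^ n)⁻¹ := by
            rw [pow_succ]
            group
          rw [e1, hts]
          have e2 : t ^ n * (d * s) * (t ^ n)⁻¹ = (t ^ n * d * (t ^ n)⁻¹) * (t ^ n * s * (t ^ n)⁻¹) := by
            group
          have e3 : t ^ n * d * (t ^ n)⁻¹ = d := by
            have hc : Commute (t ^ n) d := (show Commute t d from htd).pow_left n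
            rw [hc.eq]
            group
          rw [e2, e3, ih, pow_succ']
          group
      have hn1 := hpow (orderOf t)
      rw [pow_orderOf_eq_one] at hn1
      have hn2 : d ^ orderOf t = 1 := by
        have h1 : (1 : G ⧸ O) * s * (1 : G ⧸ O)⁻¹ = s := by group
        rw [h1] at hn1
        exact (mul_eq_right.mp hn1.symm)
      have hn3 : (orderOf t).Coprime q :=
        Nat.Coprime.coprime_dvd_left (Subgroup.orderOf_dvd_natCard Yt ht) hYtc
      have hd4 : d = 1 := by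
        refine eq_one_of_coprime_of_pgroup hQtp hd3 ?_
        exact Nat.Coprime.coprime_dvd_left (orderOf_dvd_of_pow_eq_one hn2) hn3
      have h5 : t * s * t⁻¹ = s := by
        rw [hts, hd4, one_mul]
      exact mul_inv_eq_iff_eq_mul.mp h5
    have hdecomp : ∀ h ∈ H, ∃ s ∈ S, ∃ c ∈ C₂, s * c = h := by
      intro h hh
      have h1 := commutator_sup_centralizer (P : Subgroup G) H hPH'
        (by
          have hpp : IsPGroup p (P : Subgroup G) := P.isPGroup'
          obtain ⟨k, hk⟩ := IsPGroup.iff_card.mp hpp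
          rw [hk]
          exact Nat.Coprime.pow_left k hHcop.symm)
        (Or.inl (by
          haveI : Group.IsNilpotent ↥(P : Subgroup G) := P.isPGroup'.isNilpotent
          infer_instance))
      rw [← h1] at hh
      have h2 := (Subgroup.normal_mul S C₂)
      have h3 : h ∈ ((S ⊔ C₂ : Subgroup G) : Set G) := hh
      rw [h2] at h3
      obtain ⟨s, hs, c, hc, e⟩ := Set.mem_mul.mp h3
      exact ⟨s, hs, c, hc, e⟩
    have hYtbot : Yt = ⊥ := by
      refine hF0 Yt ?_ ?_ hYtc
      · intro t ht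
        obtain ⟨y, hy, e⟩ := ht.1
        exact ⟨y, (hYle hy).1, e⟩
      · intro h hh t ht
        obtain ⟨s, hs, c, hc, rfl⟩ := hdecomp h hh
        obtain ⟨y, hy, rfl⟩ := ht.1
        have hn : (centralizer (Qt : Set (G ⧸ O))).Normal := inferInstance
        have h1 : π c * π y * (π c)⁻¹ ∈ Yt := by
          refine ⟨⟨c * y * c⁻¹, hYn y hy c hc, by simp⟩, hn.conj_mem _ ht.2 _⟩
        have h2 := hcentS _ h1 (π s) ⟨s, hs, rfl⟩
        have e : π (s * c) * π y * (π (s * c))⁻¹ = π s * (π c * π y * (π c)⁻¹) * (π s)⁻¹ := by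
          simp only [map_mul, map_inv]
          group
        rw [e, ← h2]
        have e2 : π c * π y * (π c)⁻¹ * π s * (π s)⁻¹ = π c * π y * (π c)⁻¹ := by group
        rw [e2]
        exact h1
    rintro x ⟨hxX, hxY⟩
    have h1 : π x ∈ Yt := ⟨⟨x, hxY, rfl⟩, Subgroup.mem_centralizer_iff.mpr fun y hy => (hXcent x hxX y hy).symm⟩
    rw [hYtbot, Subgroup.mem_bot] at h1
    exact (hπ1 x).mp h1
  exact sup_le hinter (Subgroup.commutator_le.mpr hcomm)


end Cfsg.Agent.S3819
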