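import Cfsg.Statements.S3820
import Cfsg.Agent.Lib.FF.SylowIn
-- import your own Cfsg.Agent.* helpers here

set_option autoImplicit false
open Cfsg Cfsg.Agent.Lib.FF

namespace Cfsg.Agent.S3820

/-- Call a subgroup H of G pronormal if H and gHg⁻¹ are conjugate inside ⟨H, gHg⁻¹⟩ for every g ∈ G. Let S ≤ H ≤ G be subgroups of a finite group with S pronormal in G (for instance S a Sylow subgroup). Then H is pronormal in G if and only if H and gHg⁻¹ are conjugate inside ⟨H, gHg⁻¹⟩ for every g ∈ N_G(S). In particular H is pronormal whenever N_G(S) ≤ H. -/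
theorem result {G : Type*} [Group G] [Finite G] (S H : Subgroup G) (hSH : S ≤ H)
    (hS : Cfsg.IsPronormal S) :
    Cfsg.IsPronormal H ↔
      ∀ g ∈ Subgroup.normalizer (S : Set G), ∃ w ∈ H ⊔ H.map (MulAut.conj g).toMonoidHom,
        H.map (MulAut.conj g).toMonoidHom = H.map (MulAut.conj w).toMonoidHom := by
  classical
  constructor
  · intro hH g _
    exact hH g
  · intro h g
    obtain ⟨x, hx, hxe⟩ := hS g
    -- `n = x⁻¹ g` normalizes `S`
    have hn : x⁻¹ * g ∈ Subgroup.normalizer (S : Set G) := by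
      rw [mem_normalizer_iff_conj, ← conj_mul_conj, hxe, conj_mul_conj, inv_mul_cancel, conj_one']
    obtain ⟨y, hy, hye⟩ := h _ hn
    have hxL : x ∈ H ⊔ H.map (MulAut.conj g).toMonoidHom :=
      (sup_le_sup hSH (conj_mono g hSH)) hx
    have hHn : H.map (MulAut.conj (x⁻¹ * g)).toMonoidHom ≤ H ⊔ H.map (MulAut.conj g).toMonoidHom := by
      rw [← conj_mul_conj]
      have h1 : (H.map (MulAut.conj g).toMonoidHom).map (MulAut.conj x⁻¹).toMonoidHom ≤
          (H ⊔ H.map (MulAut.conj g).toMonoidHom).map (MulAut.conj x⁻¹).toMonoidHom :=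
        conj_mono _ le_sup_right
      rwa [conj_eq_of_mem (inv_mem hxL)] at h1
    have hyL : y ∈ H ⊔ H.map (MulAut.conj g).toMonoidHom :=
      (sup_le le_sup_left hHn) hy
    refine ⟨x * y, mul_mem hxL hyL, ?_⟩
    rw [← conj_mul_conj, ← hye, conj_mul_conj]
    simp

end Cfsg.Agent.S3820
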