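import Cfsg.Statements.S3821
import Cfsg.Agent.Lib.FF.SylowIn
-- import your own Cfsg.Agent.* helpers here

set_option autoImplicit false
open Cfsg Cfsg.Agent.Lib.FF

namespace Cfsg.Agent.S3821

/-- Let A be a normal subgroup of the finite group G and H a subgroup of A. Then H is pronormal in G (H and gHg⁻¹ conjugate inside ⟨H, gHg⁻¹⟩ for every g ∈ G) if and only if H is pronormal in A and G = A · N_G(H). -/
theorem result {G : Type*} [Group G] [Finite G] (A H : Subgroup G) [A.Normal] (hHA : H ≤ A) :
    Cfsg.IsPronormal H ↔ (Cfsg.IsPronormal (H.subgroupOf A) ∧ A ⊔ Subgroup.normalizer (H : Set G) = ⊤) := by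
  classical
  have hmap : ∀ u : A, ((H.subgroupOf A).map (MulAut.conj u).toMonoidHom).map A.subtype =
      H.map (MulAut.conj (u : G)).toMonoidHom := by
    intro u
    ext y
    rw [mem_conj_iff]
    constructor
    · rintro ⟨v, hv, rfl⟩
      have hv' : v ∈ (H.subgroupOf A).map (MulAut.conj u).toMonoidHom := hv
      rw [mem_conj_iff] at hv'
      exact hv'
    · intro hy
      have hyA : y ∈ A := by
        have h1 := hHA hy
        have h2 := A.mul_mem (A.mul_mem u.2 h1) (A.inv_mem u.2)
        simpa [mul_assoc] using h2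
      refine ⟨⟨y, hyA⟩, ?_, rfl⟩
      show (⟨y, hyA⟩ : A) ∈ (H.subgroupOf A).map (MulAut.conj u).toMonoidHom
      rw [mem_conj_iff]
      exact hy
  have hmap0 : (H.subgroupOf A).map A.subtype = H := Subgroup.map_subgroupOf_eq_of_le hHA
  constructor
  · intro hH
    constructor
    · intro u
      obtain ⟨x, hx, hxe⟩ := hH (u : G)
      have hle : H ⊔ H.map (MulAut.conj (u : G)).toMonoidHom ≤ A := by
        refine sup_le hHA ?_
        have := conj_mono (u : G) hHA
        have e : A.map (MulAut.conj (u : G)).toMonoidHom = A := normal_conj_eq _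
        rw [e] at this
        exact this
      refine ⟨⟨x, hle hx⟩, ?_, ?_⟩
      · have h1 : x ∈ ((H.subgroupOf A) ⊔ (H.subgroupOf A).map (MulAut.conj u).toMonoidHom).map A.subtype := by
          rw [Subgroup.map_sup, hmap0, hmap]
          exact hx
        obtain ⟨v, hv, hvx⟩ := h1
        have : v = ⟨x, hle hx⟩ := Subtype.ext hvx
        rw [← this]
        exact hv
      · apply Subgroup.map_injective A.subtype_injective
        rw [hmap, hmap]
        exact hxe
    · rw [eq_top_iff]
      intro g _
      obtain ⟨x, hx, hxe⟩ := hH g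
      have hle : H ⊔ H.map (MulAut.conj g).toMonoidHom ≤ A := by
        refine sup_le hHA ?_
        have := conj_mono g hHA
        have e : A.map (MulAut.conj g).toMonoidHom = A := normal_conj_eq _
        rw [e] at this
        exact this
      have hn : x⁻¹ * g ∈ Subgroup.normalizer (H : Set G) := by
        rw [mem_normalizer_iff_conj, ← conj_mul_conj, hxe, conj_mul_conj, inv_mul_cancel, conj_one']
      have e : g = x * (x⁻¹ * g) := by group
      rw [e]
      exact mul_mem ((le_sup_left : A ≤ A ⊔ _) (hle hx)) ((le_sup_right : _ ≤ A ⊔ _) hn)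
  · rintro ⟨hH, hsup⟩ g
    have hg : g ∈ A ⊔ Subgroup.normalizer (H : Set G) := by rw [hsup]; trivial
    obtain ⟨a, ha, n, hn, rfl⟩ := Subgroup.mem_sup_of_normal_left.mp hg
    have e : H.map (MulAut.conj (a * n)).toMonoidHom = H.map (MulAut.conj a).toMonoidHom := by
      rw [← conj_mul_conj, mem_normalizer_iff_conj.mp hn]
    rw [e]
    obtain ⟨x, hx, hxe⟩ := hH ⟨a, ha⟩
    refine ⟨x, ?_, ?_⟩
    · have h1 : (x : G) ∈ ((H.subgroupOf A) ⊔ (H.subgroupOf A).map (MulAut.conj (⟨a, ha⟩ : A)).toMonoidHom).map A.subtype :=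
        ⟨x, hx, rfl⟩
      rw [Subgroup.map_sup, hmap0, hmap] at h1
      exact h1
    · have h1 := congrArg (Subgroup.map A.subtype) hxe
      rw [hmap, hmap] at h1
      exact h1

end Cfsg.Agent.S3821
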