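import Cfsg.Statements.S3825
import Cfsg.Agent.Lib.PGroup.Involution
-- import your own Cfsg.Agent.* helpers here

set_option autoImplicit false
open Cfsg
open scoped commutatorElement

namespace Cfsg.Agent.S3825

/-- Let U be a subgroup of a finite group H and w an involution of H normalizing U and commuting with exactly two elements of U, the identity and y. If V is a non-cyclic elementary abelian 2-subgroup of U containing y which is normal in U and invariant under w, then V is a Sylow 2-subgroup of U, V has order 4, and U/V is abelian. -/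
theorem result {H : Type*} [Group H] [Finite H] (U : Subgroup H) (w : H) (hw : orderOf w = 2)
    (hwU : w ∈ Subgroup.normalizer (U : Set H)) (y : H) (hy : y ≠ 1) (hyU : y ∈ U)
    (hfix : ∀ u ∈ U, w * u * w⁻¹ = u ↔ (u = 1 ∨ u = y))
    (V : Subgroup H) (hVU : V ≤ U) (hVn : (V.subgroupOf U).Normal) (hVw : ∀ v ∈ V, w * v * w⁻¹ ∈ V)
    (hVe : Cfsg.IsElementaryAbelian 2 V) (hVc : ¬ IsCyclic ↥V) (hyV : y ∈ V) :
    ¬ 2 ∣ V.relIndex U ∧ Nat.card ↥V = 4 ∧ ⁅U, U⁆ ≤ V := by
  classical
  have hw2 : w * w = 1 := by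
    rw [← sq, ← hw, pow_orderOf_eq_one]
  have hwi : w⁻¹ = w := inv_eq_of_mul_eq_one_left hw2
  have hVcomm : ∀ a ∈ V, ∀ b ∈ V, a * b = b * a := fun a ha b hb =>
    congrArg Subtype.val (hVe.1.is_comm.comm ⟨a, ha⟩ ⟨b, hb⟩)
  have hV2 : ∀ a ∈ V, a * a = 1 := fun a ha => by
    rw [← sq]; exact hVe.2 a ha
  have hσσ : ∀ x, w * (w * x * w⁻¹) * w⁻¹ = x := by
    intro x
    rw [hwi]
    calc w * (w * x * w) * w = (w * w) * x * (w * w) := by group
      _ = x := by rw [hw2]; group
  -- the element `t`
  obtain ⟨t, htV, ht1, hty⟩ : ∃ t ∈ V, t ≠ 1 ∧ t ≠ y := by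
    by_contra hcon
    push Not at hcon
    apply hVc
    refine ⟨⟨y, hyV⟩, fun v => ?_⟩
    by_cases hv : (v : H) = 1
    · exact ⟨0, by apply Subtype.ext; simp [hv]⟩
    · have := hcon v v.2 hv
      exact ⟨1, by apply Subtype.ext; simp [this]⟩
  -- the action on `V`
  have hc : ∀ v ∈ V, w * v * w⁻¹ = v ∨ w * v * w⁻¹ = v * y := by
    intro v hv
    have hσv := hVw v hv
    let c := v⁻¹ * (w * v * w⁻¹)
    have hcV : c ∈ V := mul_mem (inv_mem hv) hσv
    have hcfix : w * c * w⁻¹ = c := by
      have e : w * c * w⁻¹ = (w * v * w⁻¹)⁻¹ * (w * (w * v * w⁻¹) * w⁻¹) := by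
        show w * (v⁻¹ * (w * v * w⁻¹)) * w⁻¹ = _
        group
      rw [e, hσσ]
      have hcc : c * c = 1 := hV2 c hcV
      have hcinv : c⁻¹ = c := inv_eq_of_mul_eq_one_left hcc
      have : (w * v * w⁻¹)⁻¹ * v = c⁻¹ := by
        show _ = (v⁻¹ * (w * v * w⁻¹))⁻¹
        group
      rw [this, hcinv]
    rcases (hfix c (hVU hcV)).mp hcfix with h0 | h0
    · left
      have : w * v * w⁻¹ = v * c := by
        show _ = v * (v⁻¹ * (w * v * w⁻¹))
        group
      rw [this, h0, mul_one]
    · right
      have : w * v * w⁻¹ = v * c := by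
        show _ = v * (v⁻¹ * (w * v * w⁻¹))
        group
      rw [this, h0]
  have hyy : y * y = 1 := hV2 y hyV
  have hσt : w * t * w⁻¹ = t * y := by
    rcases hc t htV with h0 | h0
    · rcases (hfix t (hVU htV)).mp h0 with h1 | h1
      · exact absurd h1 ht1
      · exact absurd h1 hty
    · exact h0
  -- the shape of `V`
  have hVel : ∀ v ∈ V, v = 1 ∨ v = y ∨ v = t ∨ v = t * y := by
    intro v hv
    rcases hc v hv with h0 | h0
    · rcases (hfix v (hVU hv)).mp h0 with h1 | h1
      · exact Or.inl h1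
      · exact Or.inr (Or.inl h1)
    · -- `v * t` is fixed
      have hvt : v * t ∈ V := mul_mem hv htV
      have hfixvt : w * (v * t) * w⁻¹ = v * t := by
        have e : w * (v * t) * w⁻¹ = (w * v * w⁻¹) * (w * t * w⁻¹) := by group
        rw [e, h0, hσt]
        have : v * y * (t * y) = v * t * (y * y) := by
          rw [mul_assoc v y, ← mul_assoc y t y, hVcomm y hyV t htV, mul_assoc t y y, mul_assoc v t]
        rw [this, hyy, mul_one]
      have htt : t * t = 1 := hV2 t htV
      rcases (hfix _ (hVU hvt)).mp hfixvt with h1 | h1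
      · right; right; left
        calc v = v * t * t := by rw [mul_assoc, htt, mul_one]
          _ = t := by rw [h1, one_mul]
      · right; right; right
        calc v = v * t * t := by rw [mul_assoc, htt, mul_one]
          _ = y * t := by rw [h1]
          _ = t * y := hVcomm y hyV t htV
  have hcard : Nat.card ↥V = 4 := by
    have hyt : y * t ∈ V := mul_mem hyV htV
    have e : (V : Set H) = {1, y, t, t * y} := by
      ext v
      constructor
      · intro hv
        simpa using hVel v hv
      · intro hv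
        simp only [Set.mem_insert_iff, Set.mem_singleton_iff] at hv
        rcases hv with rfl | rfl | rfl | rfl
        · exact one_mem _
        · exact hyV
        · exact htV
        · exact mul_mem htV hyV
    have h4 : ((({1, y, t, t * y} : Finset H)) : Set H) = {1, y, t, t * y} := by simp
    have h5 : Nat.card ↥V = (V : Set H).ncard := Nat.card_coe_set_eq _
    rw [h5, e, ← h4, Set.ncard_coe_finset]
    have hty2 : t * y ≠ 1 := by
      intro h
      apply hty
      calc t = t * (y * y) := by rw [hyy, mul_one]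
        _ = (t * y) * y := by group
        _ = y := by rw [h, one_mul]
    have hty3 : t * y ≠ y := by
      intro h
      exact ht1 (mul_eq_right.mp h)
    have hty4 : t * y ≠ t := by
      intro h
      exact hy (mul_eq_left.mp h)
    rw [Finset.card_insert_of_notMem, Finset.card_insert_of_notMem, Finset.card_insert_of_notMem,
      Finset.card_singleton]
    · simp only [Finset.mem_singleton]; exact fun h => hty4 h.symm
    · simp only [Finset.mem_insert, Finset.mem_singleton, not_or]
      exact ⟨hty.symm, hty3.symm⟩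
    · simp only [Finset.mem_insert, Finset.mem_singleton, not_or]
      exact ⟨hy.symm, ht1.symm, hty2.symm⟩
  -- elements of `U` with fixed coset lie in `V`
  have hcoset : ∀ u ∈ U, u⁻¹ * (w * u * w⁻¹) ∈ V → u ∈ V := by
    intro u hu hv
    set v := u⁻¹ * (w * u * w⁻¹) with hvdef
    have hσu : w * u * w⁻¹ = u * v := by rw [hvdef]; group
    have hvfix : w * v * w⁻¹ = v := by
      have e : w * v * w⁻¹ = (w * u * w⁻¹)⁻¹ * (w * (w * u * w⁻¹) * w⁻¹) := by
        rw [hvdef]; group
      rw [e, hσσ]
      have hvv : v * v = 1 := hV2 v hv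
      have hvinv : v⁻¹ = v := inv_eq_of_mul_eq_one_left hvv
      have : (w * u * w⁻¹)⁻¹ * u = v⁻¹ := by
        rw [hvdef]; group
      rw [this, hvinv]
    rcases (hfix v (hVU hv)).mp hvfix with h0 | h0
    · rw [h0, mul_one] at hσu
      rcases (hfix u hu).mp hσu with h1 | h1
      · rw [h1]; exact one_mem _
      · rw [h1]; exact hyV
    · have hut : w * (u * t) * w⁻¹ = u * t := by
        have e : w * (u * t) * w⁻¹ = (w * u * w⁻¹) * (w * t * w⁻¹) := by group
        rw [e, hσu, hσt, h0]
        have : u * y * (t * y) = u * t * (y * y) := by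
          rw [mul_assoc u y, ← mul_assoc y t y, hVcomm y hyV t htV, mul_assoc t y y, mul_assoc u t]
        rw [this, hyy, mul_one]
      have htt : t * t = 1 := hV2 t htV
      have hutU : u * t ∈ U := mul_mem hu (hVU htV)
      have e2 : u = u * t * t := by rw [mul_assoc, htt, mul_one]
      rw [e2]
      rcases (hfix _ hutU).mp hut with h1 | h1
      · rw [h1, one_mul]; exact htV
      · rw [h1]; exact mul_mem hyV htV
  -- the action on the quotient
  have hwU' : ∀ u ∈ U, w * u * w⁻¹ ∈ U := fun u hu => (Subgroup.mem_normalizer_iff.mp hwU u).mp hu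
  let σ : U →* U :=
    { toFun := fun u => ⟨w * u * w⁻¹, hwU' u u.2⟩
      map_one' := by apply Subtype.ext; simp
      map_mul' := fun a b => by apply Subtype.ext; show w * (a * b : H) * w⁻¹ = (w * a * w⁻¹) * (w * b * w⁻¹); group }
  have hσV : V.subgroupOf U ≤ (V.subgroupOf U).comap σ := by
    intro v hv
    exact hVw v hv
  let τ : (↥U ⧸ V.subgroupOf U) →* (↥U ⧸ V.subgroupOf U) := QuotientGroup.map _ _ σ hσV
  have hτ : ∀ u : U, τ (u : ↥U ⧸ V.subgroupOf U) = ((σ u : U) : ↥U ⧸ V.subgroupOf U) := fun _ => rfl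
  have hτ2 : ∀ x, τ (τ x) = x := by
    intro x
    obtain ⟨u, rfl⟩ := QuotientGroup.mk_surjective x
    rw [hτ, hτ]
    congr 1
    apply Subtype.ext
    exact hσσ _
  have hτf : ∀ x, τ x = x → x = 1 := by
    intro x hx
    obtain ⟨u, rfl⟩ := QuotientGroup.mk_surjective x
    rw [hτ, QuotientGroup.eq] at hx
    have h1 : ((σ u)⁻¹ * u : U).1 ∈ V := hx
    have h2 : (u : H)⁻¹ * (w * u * w⁻¹) ∈ V := by
      have h3 := inv_mem h1
      have e : (((σ u)⁻¹ * u : U).1)⁻¹ = (u : H)⁻¹ * (w * u * w⁻¹) := by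
        show ((w * (u : H) * w⁻¹)⁻¹ * (u : H))⁻¹ = _
        group
      rwa [e] at h3
    have h3 := hcoset u u.2 h2
    exact (QuotientGroup.eq_one_iff u).mpr h3
  refine ⟨?_, hcard, ?_⟩
  · have := Cfsg.Agent.Lib.PGroup.not_two_dvd_card_of_fixedPointFree τ hτ2 hτf
    rw [Subgroup.relIndex, Subgroup.index_eq_card]
    exact this
  · rw [Subgroup.commutator_le]
    intro a ha b hb
    have hcomm := Cfsg.Agent.Lib.PGroup.comm_of_fixedPointFree τ hτ2 hτf
      ((⟨a, ha⟩ : U) : ↥U ⧸ V.subgroupOf U) ((⟨b, hb⟩ : U) : ↥U ⧸ V.subgroupOf U)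
    have h1 : ((⁅(⟨a, ha⟩ : U), (⟨b, hb⟩ : U)⁆ : U) : ↥U ⧸ V.subgroupOf U) = 1 := by
      rw [commutatorElement_def]
      simp only [QuotientGroup.mk_mul, QuotientGroup.mk_inv]
      rw [hcomm]
      group
    have h2 := (QuotientGroup.eq_one_iff _).mp h1
    exact h2

end Cfsg.Agent.S3825
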