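import Cfsg.Statements.S3838
import Mathlib
import Cfsg.Agent.Lib.CycSylow.Basic

set_option autoImplicit false
open Cfsg

open Cfsg Cfsg.Agent.Lib.Transfer Cfsg.Agent.Lib.CycSylow

namespace Cfsg.Agent.S3838
theorem normal_complement_of_quotient {M : Type*} [Group M] [Finite M] {p : ℕ} [hp : Fact p.Prime]
    (P : Sylow p M) (Q : Subgroup M) [hQn : Q.Normal] (hQP : Q ≤ (P : Subgroup M))
    (hfr : ∀ y ∈ Q, ∃ w : (P : Subgroup M), w ∈ frattini (P : Subgroup M) ∧ (w : M) = y)
    (hN : ∀ g ∈ Subgroup.normalizer ((P : Subgroup M) : Set M), ∀ x ∈ (P : Subgroup M), g * x * g⁻¹ * x⁻¹ ∈ Q) :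
    HasNormalPComplement p M := by
  classical
  let π := QuotientGroup.mk' Q
  have hπ : Function.Surjective π := QuotientGroup.mk'_surjective Q
  have hπeq : ∀ a b : M, π a = π b ↔ a⁻¹ * b ∈ Q := fun a b => QuotientGroup.eq
  have hmap : ∀ h : M, π h ∈ (P : Subgroup M).map π ↔ h ∈ (P : Subgroup M) := by
    intro h
    constructor
    · rintro ⟨x, hx, hxh⟩
      have : x⁻¹ * h ∈ (P : Subgroup M) := hQP ((hπeq x h).1 hxh)
      have h2 : h = x * (x⁻¹ * h) := by group
      rw [h2]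
      exact Subgroup.mul_mem _ hx this
    · exact fun hh => ⟨h, hh, rfl⟩
  have hBurn : HasNormalPComplement p (M ⧸ Q) := by
    apply hasNormalPComplement_of_burnside (P.mapSurjective hπ)
    show Subgroup.normalizer (((P.mapSurjective hπ : Sylow p (M ⧸ Q)) : Subgroup (M ⧸ Q)) : Set (M ⧸ Q)) ≤
      Subgroup.centralizer (((P.mapSurjective hπ : Sylow p (M ⧸ Q)) : Subgroup (M ⧸ Q)) : Set (M ⧸ Q))
    rw [Sylow.coe_mapSurjective]
    intro gbar hgbar
    obtain ⟨g, rfl⟩ := hπ gbar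
    have hgN : g ∈ Subgroup.normalizer ((P : Subgroup M) : Set M) := by
      rw [Subgroup.mem_normalizer_iff]
      intro h
      have h1 := Subgroup.mem_normalizer_iff.1 hgbar (π h)
      have h2 : π g * π h * (π g)⁻¹ = π (g * h * g⁻¹) := by simp [map_mul, map_inv]
      show h ∈ (P : Subgroup M) ↔ g * h * g⁻¹ ∈ (P : Subgroup M)
      rw [← hmap h, ← hmap (g * h * g⁻¹), ← h2]
      exact h1
    rw [Subgroup.mem_centralizer_iff]
    rintro _ ⟨x, hx, rfl⟩
    have h3 := hN g hgN x hx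
    have h4 : π (g * x * g⁻¹ * x⁻¹) = 1 := (QuotientGroup.eq_one_iff _).2 h3
    simp only [map_mul, map_inv] at h4
    have h5 : π x * π g = π g * π x := by
      have : π g * π x * (π g)⁻¹ = π x := by
        rwa [mul_inv_eq_one] at h4
      rw [mul_inv_eq_iff_eq_mul] at this
      exact this.symm
    exact h5
  have hres := card_pResidual_coprime hBurn
  set Rbar := pResidual p (M ⧸ Q) with hRbar
  haveI hRbarN : Rbar.Normal := by
    have := Cfsg.Agent.Lib.Transfer.residual_map_normal (G := M ⧸ Q) (p := p) (⊤ : Subgroup (M ⧸ Q))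
    constructor
    intro x hx g
    rw [hRbar, pResidual_def'] at hx ⊢
    have hle : Subgroup.closure {g : M ⧸ Q | Nat.Coprime (orderOf g) p} ≤
        (Subgroup.closure {g : M ⧸ Q | Nat.Coprime (orderOf g) p}).comap (MulAut.conj g).toMonoidHom := by
      rw [Subgroup.closure_le]
      intro y hy
      apply Subgroup.subset_closure
      show Nat.Coprime (orderOf (g * y * g⁻¹)) p
      rw [orderOf_conj]
      exact hy
    exact hle hx
  let L : Subgroup M := Rbar.comap π
  haveI hLn : L.Normal := inferInstance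
  have hQL : Q ≤ L := by
    intro y hy
    show π y ∈ Rbar
    have hy1 : π y = 1 := (QuotientGroup.eq_one_iff y).2 hy
    rw [hy1]
    exact Rbar.one_mem
  have hLP : L ⊓ (P : Subgroup M) ≤ Q := by
    rintro y ⟨hy1, hy2⟩
    have h1 : π y ∈ Rbar := hy1
    have h2 : π y ∈ (P : Subgroup M).map π := ⟨y, hy2, rfl⟩
    have h3 : IsPGroup p ((P : Subgroup M).map π) := P.isPGroup'.map π
    obtain ⟨k, hk⟩ := h3 ⟨π y, h2⟩
    have h4 : (π y) ^ (p ^ k) = 1 := congrArg Subtype.val hk
    have h5 : (π y) ^ (Nat.card Rbar) = 1 := by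
      have := pow_card_eq_one' (G := Rbar) (x := ⟨π y, h1⟩)
      exact congrArg Subtype.val this
    have h6 : orderOf (π y) = 1 :=
      Nat.eq_one_of_dvd_coprimes (Nat.Coprime.pow_right k hres)
        (orderOf_dvd_of_pow_eq_one h5) (orderOf_dvd_of_pow_eq_one h4)
    exact (QuotientGroup.eq_one_iff y).1 (orderOf_eq_one_iff.1 h6)
  have hLcomp : HasNormalPComplement p L := by
    apply tate P L
    intro y hy
    obtain ⟨w, hw, hwy⟩ := hfr y (hLP hy)
    exact ⟨w, hw, hwy⟩
  have hLres := card_pResidual_coprime hLcomp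
  set R : Subgroup M := (pResidual p L).map L.subtype with hR
  haveI hRn : R.Normal := residual_map_normal L
  apply hasNormalPComplement_of_normal R
  · rw [hR, Subgroup.card_map_of_injective L.subtype_injective]
    exact hLres
  · intro q
    obtain ⟨x, rfl⟩ := QuotientGroup.mk_surjective q
    obtain ⟨k, hk⟩ := isPGroup_quotient_pResidual (G := M ⧸ Q) (p := p) ((π x : M ⧸ Q) : (M ⧸ Q) ⧸ Rbar)
    rw [← QuotientGroup.mk_pow, QuotientGroup.eq_one_iff] at hk
    have hxL : x ^ (p ^ k) ∈ L := by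
      show π (x ^ (p ^ k)) ∈ Rbar
      rw [map_pow]
      exact hk
    obtain ⟨j, hj⟩ := isPGroup_quotient_pResidual (G := L) (p := p) ((⟨_, hxL⟩ : L) : L ⧸ pResidual p L)
    rw [← QuotientGroup.mk_pow, QuotientGroup.eq_one_iff] at hj
    refine ⟨k + j, ?_⟩
    rw [← QuotientGroup.mk_pow, QuotientGroup.eq_one_iff, pow_add, pow_mul]
    exact ⟨_, hj, rfl⟩

/-- Let G be a finite group with Sylow p-subgroup P such that N_G(P) has a normal p-complement. Then N_G(Q) has a normal p-complement for every subgroup Q with [P, P] ≤ Q ≤ Φ(P). -/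
theorem result {G : Type*} [Group G] [Finite G] {p : ℕ} [Fact p.Prime] (P : Sylow p G) (hN : Cfsg.HasNormalPComplement p ↥(Subgroup.normalizer ((P : Subgroup G) : Set G))) (Q : Subgroup G) (h1 : (commutator ↥(P : Subgroup G)).map (P : Subgroup G).subtype ≤ Q) (h2 : Q ≤ (frattini ↥(P : Subgroup G)).map (P : Subgroup G).subtype) : Cfsg.HasNormalPComplement p ↥(Subgroup.normalizer (Q : Set G)) := by
  classical
  -- Q ≤ P
  have hQP : Q ≤ (P : Subgroup G) := h2.trans (Subgroup.map_subtype_le _)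
  set M : Subgroup G := Subgroup.normalizer (Q : Set G) with hM
  -- P normalizes Q
  have hPM : (P : Subgroup G) ≤ M := by
    intro x hx
    rw [hM, Subgroup.mem_normalizer_iff]
    intro y
    show y ∈ Q ↔ x * y * x⁻¹ ∈ Q
    have key : ∀ (a : G), a ∈ (P : Subgroup G) → ∀ y ∈ Q, a * y * a⁻¹ ∈ Q := by
      intro a ha y hy
      have hy' : y ∈ (P : Subgroup G) := hQP hy
      have : (⟨a, ha⟩ : (P : Subgroup G)) * ⟨y, hy'⟩ * (⟨a, ha⟩ : (P : Subgroup G))⁻¹ * (⟨y, hy'⟩ : (P : Subgroup G))⁻¹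
          ∈ commutator (P : Subgroup G) := by
        exact Subgroup.commutator_mem_commutator (Subgroup.mem_top _) (Subgroup.mem_top _)
      have h3 : a * y * a⁻¹ * y⁻¹ ∈ Q := h1 ⟨_, this, rfl⟩
      have h4 : a * y * a⁻¹ = (a * y * a⁻¹ * y⁻¹) * y := by group
      rw [h4]
      exact Q.mul_mem h3 hy
    constructor
    · exact key x hx y
    · intro h
      have := key x⁻¹ (Subgroup.inv_mem _ hx) _ h
      simpa [mul_assoc] using this
  let Ptil : Sylow p M := P.subtype hPM
  have hPtil : ∀ x : M, x ∈ (Ptil : Subgroup M) ↔ (x : G) ∈ (P : Subgroup G) := by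
    intro x
    rw [Sylow.coe_subtype, Subgroup.mem_subgroupOf]
  let Qtil : Subgroup M := Q.subgroupOf M
  haveI hQtil : Qtil.Normal := Subgroup.normal_in_normalizer
  refine normal_complement_of_quotient Ptil Qtil ?_ ?_ ?_
  · intro y hy
    rw [hPtil]
    exact hQP hy
  · intro y hy
    obtain ⟨w, hw, hwy⟩ := h2 (show (y : G) ∈ Q from hy)
    let ψ : (P : Subgroup G) →* (Ptil : Subgroup M) :=
      (Subgroup.inclusion hPM).codRestrict (Ptil : Subgroup M) (fun x => by
        rw [hPtil]; exact x.2)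
    have hψ : Function.Surjective ψ := by
      rintro ⟨⟨x, hxM⟩, hx⟩
      exact ⟨⟨x, (hPtil _).1 hx⟩, rfl⟩
    refine ⟨ψ w, frattini_le_comap_frattini_of_surjective hψ hw, ?_⟩
    apply Subtype.ext
    exact hwy
  · rintro ⟨g, hgM⟩ hg ⟨x, hxM⟩ hx
    have hxP : x ∈ (P : Subgroup G) := (hPtil _).1 hx
    have hgN : g ∈ Subgroup.normalizer ((P : Subgroup G) : Set G) := by
      rw [Subgroup.mem_normalizer_iff]
      intro h
      show h ∈ (P : Subgroup G) ↔ g * h * g⁻¹ ∈ (P : Subgroup G)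
      constructor
      · intro hh
        have h3 := (Subgroup.mem_normalizer_iff.1 hg ⟨h, hPM hh⟩).1 ((hPtil _).2 hh)
        exact (hPtil _).1 h3
      · intro hh
        have hhM : h ∈ M := by
          have h3 : h = g⁻¹ * (g * h * g⁻¹) * g := by group
          rw [h3]
          exact M.mul_mem (M.mul_mem (M.inv_mem hgM) (hPM hh)) hgM
        have h3 := (Subgroup.mem_normalizer_iff.1 hg ⟨h, hhM⟩).2 ((hPtil _).2 hh)
        exact (hPtil _).1 h3
    obtain ⟨T, N₀, hN₀, hc⟩ := hN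
    obtain ⟨⟨n, t⟩, hnt, -⟩ := hc.existsUnique ⟨g, hgN⟩
    have hnt' : ((n : Subgroup.normalizer ((P : Subgroup G) : Set G)) : G) * ((t : Subgroup.normalizer ((P : Subgroup G) : Set G)) : G) = g :=
      congrArg Subtype.val hnt
    have htP : (((t : Subgroup.normalizer ((P : Subgroup G) : Set G)) : G)) ∈ (P : Subgroup G) := by
      apply Cfsg.Agent.Lib.Invol.mem_sylow_of_normalizes P (t : Subgroup.normalizer ((P : Subgroup G) : Set G)).2
      obtain ⟨k, hk⟩ := (IsPGroup.iff_orderOf.1 T.isPGroup') t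
      exact ⟨k, by rw [← hk, Subgroup.orderOf_coe, Subgroup.orderOf_coe]⟩
    have hNcop := complement_card_coprime hc
    have hcent : ∀ y ∈ (P : Subgroup G), ((n : Subgroup.normalizer ((P : Subgroup G) : Set G)) : G) * y = y * ((n : Subgroup.normalizer ((P : Subgroup G) : Set G)) : G) := by
      intro y hy
      set n' : Subgroup.normalizer ((P : Subgroup G) : Set G) := n.1 with hn'
      let y' : Subgroup.normalizer ((P : Subgroup G) : Set G) := ⟨y, Subgroup.le_normalizer hy⟩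
      have hw1 : n' * y' * n'⁻¹ * y'⁻¹ ∈ N₀ := by
        have h3 : n' * y' * n'⁻¹ * y'⁻¹ = n' * (y' * n'⁻¹ * y'⁻¹) := by group
        rw [h3]
        exact N₀.mul_mem n.2 (hN₀.conj_mem _ (N₀.inv_mem n.2) y')
      have hw2 : ((n' * y' * n'⁻¹ * y'⁻¹ : Subgroup.normalizer ((P : Subgroup G) : Set G)) : G) ∈ (P : Subgroup G) := by
        have h3 : (n' : G) * y * (n' : G)⁻¹ ∈ (P : Subgroup G) :=
          (Subgroup.mem_normalizer_iff.1 n'.2 y).1 hy
        exact (P : Subgroup G).mul_mem h3 ((P : Subgroup G).inv_mem hy)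
      have hord1 : (n' * y' * n'⁻¹ * y'⁻¹) ^ (Nat.card N₀) = 1 := by
        have := pow_card_eq_one' (G := N₀) (x := ⟨_, hw1⟩)
        exact congrArg Subtype.val this
      obtain ⟨k, hk⟩ := P.isPGroup' ⟨_, hw2⟩
      have hord2 : (n' * y' * n'⁻¹ * y'⁻¹) ^ (p ^ k) = 1 := by
        apply Subtype.ext
        have h10 := congrArg Subtype.val hk
        exact h10
      have h6 : orderOf (n' * y' * n'⁻¹ * y'⁻¹) = 1 :=
        Nat.eq_one_of_dvd_coprimes (Nat.Coprime.pow_right k hNcop)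
          (orderOf_dvd_of_pow_eq_one hord1) (orderOf_dvd_of_pow_eq_one hord2)
      have h7 : n' * y' * n'⁻¹ * y'⁻¹ = 1 := orderOf_eq_one_iff.1 h6
      have h8 : n' * y' = y' * n' := by
        have h9 : n' * y' * n'⁻¹ = y' := by
          rwa [mul_inv_eq_one] at h7
        rw [mul_inv_eq_iff_eq_mul] at h9
        exact h9
      exact congrArg Subtype.val h8
    show g * x * g⁻¹ * x⁻¹ ∈ Q
    set t' : G := ((t : Subgroup.normalizer ((P : Subgroup G) : Set G)) : G) with ht'
    set n' : G := ((n : Subgroup.normalizer ((P : Subgroup G) : Set G)) : G) with hn'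
    have htx : t' * x * t'⁻¹ ∈ (P : Subgroup G) :=
      (P : Subgroup G).mul_mem ((P : Subgroup G).mul_mem htP hxP) ((P : Subgroup G).inv_mem htP)
    have e1 : g * x * g⁻¹ * x⁻¹ = t' * x * t'⁻¹ * x⁻¹ := by
      rw [← hnt']
      calc n' * t' * x * (n' * t')⁻¹ * x⁻¹ = n' * (t' * x * t'⁻¹) * n'⁻¹ * x⁻¹ := by group
        _ = (t' * x * t'⁻¹) * n' * n'⁻¹ * x⁻¹ := by rw [hcent _ htx]
        _ = t' * x * t'⁻¹ * x⁻¹ := by group
    rw [e1]
    apply h1
    refine ⟨(⟨t', htP⟩ : (P : Subgroup G)) * ⟨x, hxP⟩ * (⟨t', htP⟩ : (P : Subgroup G))⁻¹ * (⟨x, hxP⟩ : (P : Subgroup G))⁻¹, ?_, rfl⟩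
    exact Subgroup.commutator_mem_commutator (Subgroup.mem_top _) (Subgroup.mem_top _)

end Cfsg.Agent.S3838
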