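import Cfsg.Statements.S3858
import Cfsg.Agent.Lib.PGroup.Sylow
import Cfsg.Agent.Lib.FF.SylowIn
import Cfsg.Agent.Lib.Subnormal.Join
-- import your own Cfsg.Agent.* helpers here

set_option autoImplicit false
open Cfsg Subgroup

namespace Cfsg.Agent.S3858

/-- Let G be a finite group with a normal non-abelian simple subgroup T whose centralizer is trivial (G almost simple with socle T), r a prime and R a Sylow r-subgroup of G meeting T nontrivially. Then R lies in exactly one maximal subgroup of G if and only if G has exactly one conjugacy class of maximal subgroups whose index is prime to r. -/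
theorem result {G : Type*} [Group G] [Finite G] (T : Subgroup G) [T.Normal] (hT : IsSimpleGroup T) (hna : ¬ IsMulCommutative T)
    (hC : Subgroup.centralizer (T : Set G) = ⊥) {r : ℕ} [Fact r.Prime] (R : Sylow r G) (hR0 : (R : Subgroup G) ⊓ T ≠ ⊥) :
    (∃! M : Subgroup G, IsCoatom M ∧ (R : Subgroup G) ≤ M) ↔
      ((∃ M : Subgroup G, IsCoatom M ∧ ¬ r ∣ M.index) ∧
        ∀ M₁ M₂ : Subgroup G, IsCoatom M₁ → ¬ r ∣ M₁.index → IsCoatom M₂ → ¬ r ∣ M₂.index → ∃ g : G, M₂ = M₁.map (MulAut.conj g).toMonoidHom) := by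
  classical
  have hcoatom_index : ∀ M : Subgroup G, (R : Subgroup G) ≤ M → ¬ r ∣ M.index := by
    intro M hM hd
    exact R.not_dvd_index (hd.trans (Subgroup.index_dvd_of_le hM))
  let R₀ : Subgroup G := (R : Subgroup G) ⊓ T
  have hR₀N : normalizer (R₀ : Set G) ≠ ⊤ :=
    Cfsg.Agent.Lib.PGroup.normalizer_ne_top_of_le_simple (p := r) T hT hna inf_le_right
      (R.2.to_le inf_le_left) hR0
  -- normalizers of `R` and `R ∩ T`
  have hNN : normalizer ((R : Subgroup G) : Set G) ≤ normalizer (R₀ : Set G) := by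
    intro x hx
    rw [Subgroup.mem_normalizer_iff] at hx ⊢
    intro z
    have h1 := hx z
    have h2 : z ∈ T ↔ x * z * x⁻¹ ∈ T := by
      constructor
      · intro h; exact (inferInstance : T.Normal).conj_mem z h x
      · intro h
        have h3 := (inferInstance : T.Normal).conj_mem _ h x⁻¹
        have e : x⁻¹ * (x * z * x⁻¹) * x⁻¹⁻¹ = z := by group
        rwa [e] at h3
    constructor
    · intro hz
      obtain ⟨h3, h4⟩ := Subgroup.mem_inf.mp hz
      exact Subgroup.mem_inf.mpr ⟨h1.mp h3, h2.mp h4⟩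
    · intro hz
      obtain ⟨h3, h4⟩ := Subgroup.mem_inf.mp hz
      exact Subgroup.mem_inf.mpr ⟨h1.mpr h3, h2.mpr h4⟩
  constructor
  · rintro ⟨M, ⟨hM, hRM⟩, huniq⟩
    refine ⟨⟨M, hM, hcoatom_index M hRM⟩, ?_⟩
    have hconj : ∀ M₁ : Subgroup G, IsCoatom M₁ → ¬ r ∣ M₁.index → ∃ g : G, M₁ = M.map (MulAut.conj g).toMonoidHom := by
      intro M₁ h1 h2
      obtain ⟨g, hg⟩ := Cfsg.Agent.Lib.PGroup.exists_conj_sylow_le R h2
      have h3 : (R : Subgroup G) ≤ M₁.map (MulAut.conj g⁻¹).toMonoidHom := by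
        have := Cfsg.Agent.Lib.FF.conj_mono g⁻¹ hg
        rwa [Cfsg.Agent.Lib.Subnormal.conj_conj_inv] at this
      have hcoat : IsCoatom (M₁.map (MulAut.conj g⁻¹).toMonoidHom) :=
        (OrderIso.isCoatom_iff (MulEquiv.mapSubgroup (MulAut.conj g⁻¹)) M₁).mpr h1
      have h4 := huniq _ ⟨hcoat, h3⟩
      refine ⟨g, ?_⟩
      rw [← h4, Cfsg.Agent.Lib.Subnormal.conj_inv_conj]
    intro M₁ M₂ h1 h2 h3 h4
    obtain ⟨g₁, hg₁⟩ := hconj M₁ h1 h2
    obtain ⟨g₂, hg₂⟩ := hconj M₂ h3 h4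
    refine ⟨g₂ * g₁⁻¹, ?_⟩
    rw [hg₁, hg₂, Cfsg.Agent.Lib.FF.conj_mul_conj, mul_assoc, inv_mul_cancel, mul_one]
  · rintro ⟨⟨M₀, hM₀, hM₀i⟩, hclass⟩
    obtain h0 | ⟨M, hM, hNM⟩ := eq_top_or_exists_le_coatom (normalizer (R₀ : Set G))
    · exact absurd h0 hR₀N
    have hRN : normalizer ((R : Subgroup G) : Set G) ≤ M := hNN.trans hNM
    have hRM : (R : Subgroup G) ≤ M := Subgroup.le_normalizer.trans hRN
    refine ⟨M, ⟨hM, hRM⟩, ?_⟩
    rintro M₂ ⟨hM₂, hRM₂⟩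
    obtain ⟨g, hg⟩ := hclass M M₂ hM (hcoatom_index M hRM) hM₂ (hcoatom_index M₂ hRM₂)
    -- `R` and `R^{g⁻¹}` in `M`
    have h1 : ((g⁻¹ • R : Sylow r G) : Subgroup G) ≤ M := by
      rw [Cfsg.Agent.Lib.FF.coe_smul_sylow]
      have := Cfsg.Agent.Lib.FF.conj_mono g⁻¹ hRM₂
      rwa [hg, Cfsg.Agent.Lib.Subnormal.conj_conj_inv] at this
    obtain ⟨h, hh, hconj⟩ := (Cfsg.Agent.Lib.FF.isSylowIn_of_sylow_le R hRM).exists_conj
      (Cfsg.Agent.Lib.FF.isSylowIn_of_sylow_le (g⁻¹ • R) h1)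
    rw [Cfsg.Agent.Lib.FF.coe_smul_sylow] at hconj
    -- `g h ∈ N(R)`
    have h2 : g * h ∈ normalizer ((R : Subgroup G) : Set G) := by
      rw [Cfsg.Agent.Lib.FF.mem_normalizer_iff_conj, ← Cfsg.Agent.Lib.FF.conj_mul_conj, hconj,
        Cfsg.Agent.Lib.Subnormal.conj_inv_conj]
    have h3 : g ∈ M := by
      have h4 := M.mul_mem (hRN h2) (M.inv_mem hh)
      simpa using h4
    rw [hg, Cfsg.Agent.Lib.FF.conj_eq_of_mem h3]

end Cfsg.Agent.S3858
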