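import Cfsg.Statements.S3859
import Cfsg.Agent.Lib.PGroup.Sylow
import Cfsg.Agent.Lib.Core.Subnormal
-- import your own Cfsg.Agent.* helpers here

set_option autoImplicit false
open Cfsg Subgroup

namespace Cfsg.Agent.S3859

/-- Let G be a finite group with a normal non-abelian simple subgroup T whose centralizer is trivial (G almost simple with socle T), r a prime and R a Sylow r-subgroup of G meeting T nontrivially. If R lies in exactly one maximal subgroup of G, then G/T is an r-group. -/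
theorem result {G : Type*} [Group G] [Finite G] (T : Subgroup G) [T.Normal] (hT : IsSimpleGroup T) (hna : ¬ IsMulCommutative T)
    (hC : Subgroup.centralizer (T : Set G) = ⊥) {r : ℕ} [Fact r.Prime] (R : Sylow r G) (hR0 : (R : Subgroup G) ⊓ T ≠ ⊥)
    (huniq : ∃! M : Subgroup G, IsCoatom M ∧ (R : Subgroup G) ≤ M) : IsPGroup r (G ⧸ T) := by
  classical

  obtain ⟨M, ⟨hM, hRM⟩, huniq'⟩ := huniq
  let R₀ : Subgroup G := (R : Subgroup G) ⊓ T
  have hR₀N : normalizer (R₀ : Set G) ≠ ⊤ :=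
    Cfsg.Agent.Lib.PGroup.normalizer_ne_top_of_le_simple (p := r) T hT hna inf_le_right
      (R.2.to_le inf_le_left) hR0
  have hRN : (R : Subgroup G) ≤ normalizer (R₀ : Set G) := by
    intro x hx
    have hx' : x ∈ (R : Subgroup G) := hx
    rw [Subgroup.mem_normalizer_iff]
    intro z
    constructor
    · intro hz
      obtain ⟨h1, h2⟩ := Subgroup.mem_inf.mp hz
      exact Subgroup.mem_inf.mpr ⟨mul_mem (mul_mem hx' h1) (inv_mem hx'),
        (inferInstance : T.Normal).conj_mem z h2 x⟩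
    · intro hz
      obtain ⟨h1, h2⟩ := Subgroup.mem_inf.mp hz
      refine Subgroup.mem_inf.mpr ⟨?_, ?_⟩
      · have h3 : x⁻¹ * (x * z * x⁻¹) * x ∈ (R : Subgroup G) :=
          mul_mem (mul_mem (inv_mem hx') h1) hx'
        have e : x⁻¹ * (x * z * x⁻¹) * x = z := by group
        rwa [e] at h3
      · have h3 := (inferInstance : T.Normal).conj_mem _ h2 x⁻¹
        have e : x⁻¹ * (x * z * x⁻¹) * x⁻¹⁻¹ = z := by group
        rwa [e] at h3
  -- Frattini
  obtain ⟨Q, hQ⟩ := Cfsg.Agent.Lib.Core.sylow_inf_normal r T R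
  have hfrat : normalizer ((Q : Subgroup T).map T.subtype : Set G) ⊔ T = ⊤ := Sylow.normalizer_sup_eq_top Q
  have hQmap : (Q : Subgroup T).map T.subtype = R₀ := by
    rw [hQ, Subgroup.subgroupOf_map_subtype]
  rw [hQmap] at hfrat
  -- `R ⊔ T = ⊤`
  have hRT : (R : Subgroup G) ⊔ T = ⊤ := by
    by_contra hne
    obtain h0 | ⟨M', hM', hle⟩ := eq_top_or_exists_le_coatom ((R : Subgroup G) ⊔ T)
    · exact hne h0
    obtain h0 | ⟨M'', hM'', hle'⟩ := eq_top_or_exists_le_coatom (normalizer (R₀ : Set G))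
    · exact hR₀N h0
    have e1 : M' = M := huniq' M' ⟨hM', le_sup_left.trans hle⟩
    have e2 : M'' = M := huniq' M'' ⟨hM'', hRN.trans hle'⟩
    rw [e1] at hle
    rw [e2] at hle'
    apply hM.1
    rw [eq_top_iff, ← hfrat]
    exact sup_le hle' (le_sup_right.trans hle)
  -- conclusion
  intro x
  obtain ⟨g, rfl⟩ := QuotientGroup.mk'_surjective T x
  have hg : g ∈ (R : Subgroup G) ⊔ T := by rw [hRT]; trivial
  obtain ⟨u, hu, t, ht, rfl⟩ := Subgroup.mem_sup_of_normal_right.mp hg
  obtain ⟨k, hk⟩ := R.2 ⟨u, hu⟩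
  refine ⟨k, ?_⟩
  have hu1 : u ^ r ^ k = 1 := by simpa using congrArg Subtype.val hk
  have ht1 : QuotientGroup.mk' T t = 1 := (QuotientGroup.eq_one_iff t).mpr ht
  rw [map_mul, ht1, mul_one, ← map_pow, hu1, map_one]

end Cfsg.Agent.S3859
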