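import Cfsg.Statements.S3861
import Cfsg.Agent.S0200
import Cfsg.Agent.Lib.PGroup.Real
import Cfsg.Agent.Lib.Core.Basic
-- import your own Cfsg.Agent.* helpers here

set_option autoImplicit false
open Cfsg Cfsg.Agent.Lib.PGroup Cfsg.Agent.Lib.Core

namespace Cfsg.Agent.S3861

/-- A finite group G has no non-identity element of odd order that is conjugate to its inverse if and only if the Sylow 2-subgroups of G are normal. -/
theorem result {G : Type*} [Group G] [Finite G] (P : Sylow 2 G) : (∀ x : G, x ≠ 1 → Odd (orderOf x) → ¬ IsConj x x⁻¹) ↔ (P : Subgroup G).Normal := by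
  classical
  haveI : Fact (Nat.Prime 2) := ⟨Nat.prime_two⟩
  have hnot2 : ∀ {n : ℕ}, Odd n → ¬ 2 ∣ n := fun hn => by
    rw [← even_iff_two_dvd, Nat.not_even_iff_odd]; exact hn
  constructor
  · intro hR
    set Q := pCore 2 G with hQ
    have hQp : IsPGroup 2 Q := pCore_isPGroup 2 G
    have hodd : ¬ 2 ∣ Nat.card (G ⧸ Q) := by
      intro h2
      obtain ⟨t, ht⟩ := exists_prime_orderOf_dvd_card' (G := G ⧸ Q) 2 h2
      have hO : ∀ N : Subgroup (G ⧸ Q), N.Normal → IsPGroup 2 N → t ∉ N := by
        intro N hN hNp htN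
        have h0 : pCore 2 (G ⧸ Q) = ⊥ := pCore_quotient_pCore_eq_bot
        have h1 : N ≤ pCore 2 (G ⧸ Q) := le_pCore hN hNp
        rw [h0] at h1
        have := Subgroup.mem_bot.mp (h1 htN)
        rw [this, orderOf_one] at ht
        omega
      obtain ⟨h, hh, hho, hth⟩ := Cfsg.Agent.S0200.result t ht hO
      obtain ⟨z, hz, hzo, hzc⟩ := exists_real_lift Q hQp t h hh hho hth
      exact hR z hz hzo hzc
    have hle : (P : Subgroup G) ≤ Q := by
      intro x hx
      obtain ⟨k, hk⟩ := P.2 ⟨x, hx⟩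
      have hk' : x ^ 2 ^ k = 1 := by
        have := congrArg Subtype.val hk
        simpa using this
      rw [← QuotientGroup.eq_one_iff]
      have h1 : ((x : G ⧸ Q)) ^ 2 ^ k = 1 := by
        rw [← QuotientGroup.mk_pow, hk']; rfl
      have h2 : orderOf (x : G ⧸ Q) ∣ 2 ^ k := orderOf_dvd_of_pow_eq_one h1
      have h3 : orderOf (x : G ⧸ Q) ∣ Nat.card (G ⧸ Q) := orderOf_dvd_natCard _
      obtain ⟨j, _, hj⟩ := (Nat.dvd_prime_pow Nat.prime_two).mp h2
      rcases j with _ | j
      · exact orderOf_eq_one_iff.mp (by simpa using hj)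
      · exfalso
        apply hodd
        refine dvd_trans ?_ h3
        rw [hj, pow_succ]
        exact Dvd.intro_left _ rfl
    have he : (P : Subgroup G) = Q := le_antisymm hle (pCore_le_sylow P)
    rw [he]
    infer_instance
  · intro hP x hx hodd hconj
    obtain ⟨c, hc⟩ := isConj_iff.mp hconj
    obtain ⟨a, b, hab, hcomm, ⟨k, hk⟩, hb, -, hbm⟩ := Cfsg.Agent.Lib.Block.exists_jordan (p := 2) c
    -- `c ^ 2` centralizes `x`
    have hc2 : Commute (c ^ 2) x := by
      have e1 : c ^ 2 * x * (c ^ 2)⁻¹ = x := by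
        have : c ^ 2 * x * (c ^ 2)⁻¹ = c * (c * x * c⁻¹) * c⁻¹ := by rw [pow_two]; group
        rw [this, hc]
        have h3 : c * x⁻¹ * c⁻¹ = (c * x * c⁻¹)⁻¹ := by group
        rw [h3, hc, inv_inv]
      exact (mul_inv_eq_iff_eq_mul.mp e1)
    have hb2 : Commute (b ^ 2) x := by
      obtain ⟨i, hi⟩ := Subgroup.mem_zpowers_iff.mp hbm
      rw [← hi, ← zpow_natCast, ← zpow_mul, mul_comm, zpow_mul]
      exact (show Commute ((c ^ (2 : ℤ))) x by exact_mod_cast hc2).zpow_left i
    have hbx : Commute b x := by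
      have hoddb : Odd (orderOf b) := by
        rw [← Nat.not_even_iff_odd, even_iff_two_dvd]; exact hb
      obtain ⟨m, hm⟩ := hoddb
      have e : b = (b ^ 2) ^ (m + 1) := by
        rw [← pow_mul]
        have : 2 * (m + 1) = orderOf b + 1 := by omega
        rw [this, pow_succ, pow_orderOf_eq_one, one_mul]
      rw [e]
      exact hb2.pow_left _
    have hax : a * x * a⁻¹ = x⁻¹ := by
      rw [← hc, ← hab]
      have : a * b * x * (a * b)⁻¹ = a * (b * x * b⁻¹) * a⁻¹ := by group
      rw [this, hbx.eq]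
      group
    -- `a` lies in `P`
    have hnorm : (P : Subgroup G).Normal := hP
    have haP : a ∈ (P : Subgroup G) := by
      have hpg : IsPGroup 2 (Subgroup.zpowers a) := by
        apply IsPGroup.of_card (n := k)
        rw [Nat.card_zpowers, hk]
      obtain ⟨S, hS⟩ := hpg.exists_le_sylow
      have hSP : S = P := by
        haveI := Sylow.unique_of_normal P hP
        exact Subsingleton.elim _ _
      rw [← hSP]
      exact hS (Subgroup.mem_zpowers a)
    have hx2 : x⁻¹ * x⁻¹ ∈ (P : Subgroup G) := by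
      have h1 : x * a⁻¹ * x⁻¹ ∈ (P : Subgroup G) := hnorm.conj_mem _ (inv_mem haP) x
      have h2 := mul_mem haP h1
      have h3 : a * (x * a⁻¹ * x⁻¹) = (a * x * a⁻¹) * x⁻¹ := by group
      rw [h3, hax] at h2
      exact h2
    have h1 : x⁻¹ * x⁻¹ = 1 := by
      apply eq_one_of_mem_pgroup_of_coprime P.2 hx2
      intro h2
      apply hnot2 hodd
      refine h2.trans ?_
      apply orderOf_dvd_of_pow_eq_one
      rw [← pow_two, ← pow_mul, mul_comm, pow_mul, inv_pow, pow_orderOf_eq_one, inv_one, one_pow]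
    have hx2' : x ^ 2 = 1 := by
      rw [pow_two]
      have := congrArg (fun y => y⁻¹) h1
      simpa using this
    have h3 : orderOf x ∣ 2 := orderOf_dvd_of_pow_eq_one hx2'
    rcases (Nat.dvd_prime Nat.prime_two).mp h3 with h4 | h4
    · exact hx (orderOf_eq_one_iff.mp h4)
    · rw [h4] at hodd
      exact absurd hodd (by decide)

end Cfsg.Agent.S3861
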