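import Cfsg.Statements.S3863
import Mathlib
import Cfsg.Agent.Lib.PGroup.Basic

set_option autoImplicit false
open Cfsg

namespace Cfsg.Agent.S3863

/-- Let x be an element of the finite group G that is conjugate to its inverse. Then some 2-element conjugates x to its inverse; if the conjugacy class of x has odd size then x ^ 2 = 1; and x lies in, and is conjugate to its inverse inside, every normal subgroup of odd index. -/
theorem result {G : Type*} [Group G] [Finite G] (x : G) (hx : IsConj x x⁻¹) : (∃ t : G, (∃ j : ℕ, orderOf t = 2 ^ j) ∧ t * x * t⁻¹ = x⁻¹) ∧ (Odd (Subgroup.centralizer ({x} : Set G)).index → x ^ 2 = 1) ∧ ∀ (N : Subgroup G) [N.Normal], Odd N.index → ∃ hxN : x ∈ N, IsConj (⟨x, hxN⟩ : N) (⟨x, hxN⟩ : N)⁻¹ := by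
  classical
  obtain ⟨g, hg⟩ := isConj_iff.mp hx
  have hg2 : ∀ n : ℕ, g ^ (2 * n) * x * (g ^ (2 * n))⁻¹ = x := by
    intro n
    induction n with
    | zero => simp
    | succ n ih =>
      have : g ^ (2 * (n + 1)) = g * g * g ^ (2 * n) := by
        rw [mul_add, mul_one, add_comm, pow_add, pow_two]
      rw [this]
      have e : g * g * g ^ (2 * n) * x * (g * g * g ^ (2 * n))⁻¹
          = g * (g * (g ^ (2 * n) * x * (g ^ (2 * n))⁻¹) * g⁻¹) * g⁻¹ := by group
      rw [e, ih, hg]
      have : g * x⁻¹ * g⁻¹ = (g * x * g⁻¹)⁻¹ := by group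
      rw [this, hg, inv_inv]
  -- the 2-part of g
  have hgpos : orderOf g ≠ 0 := (orderOf_pos g).ne'
  obtain ⟨k, r, hr, hord⟩ := Nat.exists_eq_two_pow_mul_odd hgpos
  obtain ⟨s, hs⟩ := hr
  let t := g ^ r
  have htord : orderOf t = 2 ^ k := by
    have hdvd : r ∣ orderOf g := ⟨2 ^ k, by rw [hord]; ring⟩
    have := orderOf_pow_of_dvd (x := g) (n := r) (by omega) hdvd
    rw [show orderOf t = orderOf (g ^ r) from rfl, this, hord]
    exact Nat.mul_div_cancel _ (by omega)
  have htx : t * x * t⁻¹ = x⁻¹ := by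
    have : t = g ^ (2 * s) * g := by
      show g ^ r = _
      rw [hs, pow_succ]
    rw [this]
    have e : g ^ (2 * s) * g * x * (g ^ (2 * s) * g)⁻¹ = g ^ (2 * s) * (g * x * g⁻¹) * (g ^ (2 * s))⁻¹ := by
      group
    rw [e, hg]
    have e2 : g ^ (2 * s) * x⁻¹ * (g ^ (2 * s))⁻¹ = (g ^ (2 * s) * x * (g ^ (2 * s))⁻¹)⁻¹ := by group
    rw [e2, hg2]
  refine ⟨⟨t, ⟨k, htord⟩, htx⟩, ?_, ?_⟩
  · -- the conjugacy class has a fixed-point-free involution if `x ^ 2 ≠ 1`
    intro hodd
    by_contra hx2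
    have _ := Fintype.ofFinite G
    let Cl : Finset G := Finset.univ.filter (fun y => IsConj x y)
    have hcard : Cl.card = (Subgroup.centralizer ({x} : Set G)).index := by
      rw [Cfsg.Agent.Lib.PGroup.index_centralizer_singleton, ← Fintype.card_subtype, Nat.card_eq_fintype_card]
    have hsum : ∑ y ∈ Cl, (1 : ZMod 2) = 0 := by
      apply Finset.sum_involution (fun y _ => y⁻¹)
      · intro a _; decide
      · intro a ha _ h
        have h1 : IsConj x a := by simpa [Cl] using ha
        apply hx2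
        have h2 : a ^ 2 = 1 := by
          rw [pow_two]; exact mul_eq_one_iff_eq_inv.mpr h.symm
        obtain ⟨c, rfl⟩ := isConj_iff.mp h1
        have h3 : (c * x * c⁻¹) ^ 2 = c * x ^ 2 * c⁻¹ := by
          rw [pow_two, pow_two]; group
        rw [h3] at h2
        have := congrArg (fun y => c⁻¹ * y * c) h2
        simpa [mul_assoc] using this
      · intro a _; exact inv_inv a
      · intro a ha
        have h1 : IsConj x a := by simpa [Cl] using ha
        have h2 : IsConj a a⁻¹ := by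
          obtain ⟨c, rfl⟩ := isConj_iff.mp h1
          rw [isConj_iff]
          refine ⟨c * g * c⁻¹, ?_⟩
          have e : c * g * c⁻¹ * (c * x * c⁻¹) * (c * g * c⁻¹)⁻¹ = c * (g * x * g⁻¹) * c⁻¹ := by group
          rw [e, hg]; group
        simpa [Cl] using h1.trans h2
    have hc2 : ((Cl.card : ℕ) : ZMod 2) = 0 := by simpa using hsum
    rw [hcard, ZMod.natCast_eq_zero_iff] at hc2
    rcases hodd with ⟨m, hm⟩
    rw [hm] at hc2
    omega
  · intro N _ hN
    have hcop : (Nat.card (G ⧸ N)).Coprime 2 := by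
      rw [← Subgroup.index_eq_card]
      exact Nat.coprime_two_right.mpr hN
    have ht1 : (t : G ⧸ N) = 1 := by
      have h1 : orderOf (t : G ⧸ N) ∣ Nat.card (G ⧸ N) := orderOf_dvd_natCard _
      have h2 : orderOf (t : G ⧸ N) ∣ 2 ^ k := by
        rw [← htord]
        exact orderOf_map_dvd (QuotientGroup.mk' N) t
      have h3 : (orderOf (t : G ⧸ N)).Coprime (2 ^ k) := Nat.Coprime.coprime_dvd_left h1 (hcop.pow_right k)
      have : orderOf (t : G ⧸ N) = 1 := Nat.Coprime.eq_one_of_dvd h3 h2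
      exact orderOf_eq_one_iff.mp this
    have htN : t ∈ N := (QuotientGroup.eq_one_iff t).mp ht1
    have hxN : x ∈ N := by
      rw [← QuotientGroup.eq_one_iff]
      have h1 : ((t * x * t⁻¹ : G) : G ⧸ N) = (x⁻¹ : G) := by rw [htx]
      simp only [QuotientGroup.mk_mul, QuotientGroup.mk_inv, ht1, one_mul, inv_one, mul_one] at h1
      have h2 : (x : G ⧸ N) ^ 2 = 1 := by
        rw [pow_two]
        nth_rewrite 1 [h1]
        simp
      have h3 : orderOf (x : G ⧸ N) ∣ 2 := orderOf_dvd_of_pow_eq_one h2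
      have h4 : orderOf (x : G ⧸ N) ∣ Nat.card (G ⧸ N) := orderOf_dvd_natCard _
      have h5 : (orderOf (x : G ⧸ N)).Coprime 2 := Nat.Coprime.coprime_dvd_left h4 hcop
      exact orderOf_eq_one_iff.mp (Nat.Coprime.eq_one_of_dvd h5 h3)
    refine ⟨hxN, ?_⟩
    rw [isConj_iff]
    refine ⟨⟨t, htN⟩, ?_⟩
    apply Subtype.ext
    simpa using htx

end Cfsg.Agent.S3863
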