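import Cfsg.Statements.S3864
import Mathlib
import Cfsg.Agent.S1255

set_option autoImplicit false
open Cfsg

namespace Cfsg.Agent.S3864


open Cfsg.Agent.Lib.Invol Cfsg.Agent.Lib.Techniques Cfsg.Agent.S1255

section

variable {X : Type*} [Group X] [Finite X] {S : Sylow 2 X} {a k : ℕ} {x y : (S : Subgroup X)}

lemma refl_conj (h : DH a x y) (i : ℤ) :
    IsConj ((x ^ i * y : (S : Subgroup X)) : X) ((x ^ (i % 2) * y : (S : Subgroup X)) : X) := by
  have h1 := h.conj_zpow_refl (-(i / 2)) i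
  have e : i + 2 * -(i / 2) = i % 2 := by omega
  rw [e] at h1
  refine isConj_of_conj (g := ((x ^ (-(i / 2)) : (S : Subgroup X)) : X)) ?_
  exact congrArg Subtype.val h1

lemma invol_cases (h : DH a x y) (t : X) (ht : orderOf t = 2) :
    IsConj t ((x ^ (a : ℤ) : (S : Subgroup X)) : X) ∨ IsConj t ((x ^ (0 : ℤ) * y : (S : Subgroup X)) : X) ∨
      IsConj t ((x ^ (1 : ℤ) * y : (S : Subgroup X)) : X) := by
  obtain ⟨s, hs⟩ := exists_conj_into S t (k := 1) (by rw [ht, pow_one])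
  have hos : orderOf s = 2 := by
    have h1 : orderOf (s : X) = 2 := by rw [← orderOf_of_isConj hs, ht]
    rwa [Subgroup.orderOf_coe] at h1
  have hs2 : s * s = 1 := by
    have := pow_orderOf_eq_one s
    rwa [hos, pow_two] at this
  have hs1 : s ≠ 1 := by
    rintro rfl
    simp at hos
  rcases h.hform s with ⟨i, rfl⟩ | ⟨i, rfl⟩
  · left
    rw [h.eq_z_of_sq hs2 hs1] at hs
    exact hs
  · right
    have h1 := hs.trans (refl_conj h i)
    rcases Int.emod_two_eq_zero_or_one i with h0 | h0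
    · left
      rwa [h0] at h1
    · right
      rwa [h0] at h1

lemma exists_K_class (h : DH a x y) (hk : a = 2 ^ k) (ε : ℤ)
    (hK : ∀ U : Subgroup X, IsKleinFour U → U ≤ S →
      3 ∣ (Subgroup.centralizer (U : Set X)).relIndex (Subgroup.normalizer (U : Set X)) → U ≤ h.M' ε) :
    ∃ K : Subgroup X, K.Normal ∧ K ⊓ S = h.M' ε ∧ K.index = 2 := by
  have hgood : ∀ T : Subgroup X, T ≤ S → ∀ g : X, conjS g T ≤ S → GoodM (h.M' ε) (T : Set X) g := by
    refine h.family_dh hk (goodM_groupoid _) (goodM_centralizer _) (h.goodM_P ε) ?_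
    intro U hU hUS h3 g hg t ht
    have h1 : g * t * g⁻¹ ∈ U := (Subgroup.mem_normalizer_iff.1 hg t).1 ht
    exact hK U hU hUS h3 (U.mul_mem (U.inv_mem ht) h1)
  exact h.exists_K ε hgood

lemma mem_K {K : Subgroup X} {ε : ℤ} {h : DH a x y} (hK : K ⊓ S = h.M' ε) {t : X} (ht : t ∈ h.M' ε) : t ∈ K := by
  rw [← hK] at ht
  exact ht.1

lemma not_mem_K {K : Subgroup X} {ε : ℤ} {h : DH a x y} (hK : K ⊓ S = h.M' ε) {t : X} (htS : t ∈ (S : Subgroup X))
    (ht : t ∉ h.M' ε) : t ∉ K := by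
  intro h1
  apply ht
  rw [← hK]
  exact ⟨h1, htS⟩

lemma conj_mem_iff {K : Subgroup X} (hK : K.Normal) {s t : X} (h : IsConj s t) : s ∈ K ↔ t ∈ K := by
  obtain ⟨c, rfl⟩ := isConj_iff.1 h
  constructor
  · intro h1
    exact hK.conj_mem _ h1 c
  · intro h1
    have h2 := hK.conj_mem _ h1 c⁻¹
    have e : c⁻¹ * (c * s * c⁻¹) * c⁻¹⁻¹ = s := by group
    rwa [e] at h2

/-- No normal subgroup of index four when a reflection is conjugate to the central involution. -/
lemma no_index_four (h : DH a x y) (ha : (2 : ℤ) ∣ (a : ℤ)) (ε : ℤ)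
    (hfus : IsConj ((x ^ (a : ℤ) : (S : Subgroup X)) : X) ((x ^ ε * y : (S : Subgroup X)) : X))
    (N : Subgroup X) (hN : N.Normal) (hidx : N.index = 4) : False := by
  haveI := hN
  have hcard : Nat.card (X ⧸ N) = 2 ^ 2 := by
    rw [← Subgroup.index_eq_card, hidx]
    rfl
  haveI : Fact (Nat.Prime 2) := ⟨Nat.prime_two⟩
  have hcomm := IsPGroup.isMulCommutative_of_card_eq_prime_sq hcard
  have hsq : ((x ^ (2 : ℤ) : (S : Subgroup X)) : X) ∈ N := by
    have h1 := hcomm.is_comm.comm (QuotientGroup.mk' N (x : X)) (QuotientGroup.mk' N (y : X))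
    have h2 : (x : X) * y * (x : X)⁻¹ * (y : X)⁻¹ ∈ N := by
      rw [← QuotientGroup.eq_one_iff]
      have e : (((x : X) * y * (x : X)⁻¹ * (y : X)⁻¹ : X) : X ⧸ N) =
          QuotientGroup.mk' N (x : X) * QuotientGroup.mk' N (y : X) * (QuotientGroup.mk' N (x : X))⁻¹ *
            (QuotientGroup.mk' N (y : X))⁻¹ := rfl
      rw [e, h1]
      group
    have e2 : (x : X) * y * (x : X)⁻¹ * (y : X)⁻¹ = ((x ^ (2 : ℤ) : (S : Subgroup X)) : X) := by
      have h3 : y * x⁻¹ * y⁻¹ = x := by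
        calc y * x⁻¹ * y⁻¹ = (y * x * y⁻¹)⁻¹ := by group
          _ = x := by rw [h.hyx, inv_inv]
      have h4 : x * y * x⁻¹ * y⁻¹ = x ^ (2 : ℤ) := by
        calc x * y * x⁻¹ * y⁻¹ = x * (y * x⁻¹ * y⁻¹) := by group
          _ = x * x := by rw [h3]
          _ = x ^ (2 : ℤ) := (zpow_two x).symm
      exact congrArg Subtype.val h4
    rwa [e2] at h2
  have hrot : ∀ i : ℤ, (2 : ℤ) ∣ i → ((x ^ i : (S : Subgroup X)) : X) ∈ N := by
    rintro _ ⟨c, rfl⟩
    rw [zpow_mul, Subgroup.coe_zpow]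
    exact zpow_mem hsq c
  have hfus' : ((x ^ ε * y : (S : Subgroup X)) : X) ∈ N :=
    (conj_mem_iff hN hfus).1 (hrot _ ha)
  have hle : h.M ε ≤ N.subgroupOf (S : Subgroup X) := by
    intro s hs
    rw [Subgroup.mem_subgroupOf]
    rcases h.hform s with ⟨i, rfl⟩ | ⟨i, rfl⟩
    · exact hrot i ((h.M_rot ε i).1 hs)
    · have h2 := (h.M_refl ε i).1 hs
      have e : x ^ i * y = x ^ (i - ε) * (x ^ ε * y) := by
        rw [← mul_assoc, ← zpow_add, sub_add_cancel]
      rw [e, Subgroup.coe_mul]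
      exact N.mul_mem (hrot _ h2) hfus'
  have hsup : N ⊔ (S : Subgroup X) = ⊤ := by
    have h1 : (N ⊔ (S : Subgroup X)).index ∣ 4 := hidx ▸ Subgroup.index_dvd_of_le le_sup_left
    have h2 : ¬ 2 ∣ (N ⊔ (S : Subgroup X)).index := fun hd =>
      S.not_dvd_index (hd.trans (Subgroup.index_dvd_of_le le_sup_right))
    rw [← Subgroup.index_eq_one]
    have h3 := Nat.le_of_dvd (by norm_num) h1
    revert h1 h2 h3
    generalize (N ⊔ (S : Subgroup X)).index = n
    intro h1 h2 h3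
    interval_cases n <;> omega
  have hrel : N.relIndex (S : Subgroup X) = 4 := by
    rw [← Subgroup.relIndex_sup_right, sup_comm, hsup, Subgroup.relIndex_top_right, hidx]
  have h5 := Subgroup.index_dvd_of_le hle
  rw [h.M_index ε] at h5
  have h6 : (N.subgroupOf (S : Subgroup X)).index = 4 := hrel
  rw [h6] at h5
  omega

lemma card_classes (D : Finset (ConjClasses X))
    (hD : ∀ C : ConjClasses X, (∃ g : X, ConjClasses.mk g = C ∧ orderOf g = 2) ↔ C ∈ D) :
    Nat.card {C : ConjClasses X // ∃ g : X, ConjClasses.mk g = C ∧ orderOf g = 2} = D.card := by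
  classical
  rw [Nat.card_congr (Equiv.subtypeEquivRight hD)]
  show Nat.card ↥D = D.card
  rw [Nat.card_eq_fintype_card, Fintype.card_coe]

end

/-- Let G be a finite group whose Sylow 2-subgroups are dihedral of order 2 ^ n with n ≥ 3, and count the conjugacy classes of involutions of G. Then exactly one of the following holds: there is one class of involutions and no normal subgroup of index 2; there are two classes of involutions, a normal subgroup of index 2 and none of index 4; there are three classes of involutions and G has a normal 2-complement. -/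
theorem result {G : Type*} [Group G] [Finite G] (P : Sylow 2 G) (n : ℕ) (hn : 3 ≤ n) (hdih : Nonempty (↥(P : Subgroup G) ≃* DihedralGroup (2 ^ (n - 1)))) : (Nat.card {C : ConjClasses G // ∃ g : G, ConjClasses.mk g = C ∧ orderOf g = 2} = 1 ∧ ∀ N : Subgroup G, N.Normal → N.index ≠ 2) ∨ (Nat.card {C : ConjClasses G // ∃ g : G, ConjClasses.mk g = C ∧ orderOf g = 2} = 2 ∧ (∃ N : Subgroup G, N.Normal ∧ N.index = 2) ∧ ∀ N : Subgroup G, N.Normal → N.index ≠ 4) ∨ (Nat.card {C : ConjClasses G // ∃ g : G, ConjClasses.mk g = C ∧ orderOf g = 2} = 3 ∧ Cfsg.HasNormalPComplement 2 G) := by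
  classical
  obtain ⟨e⟩ := hdih
  have hm4 : 4 ≤ 2 ^ (n - 1) := by
    calc 4 = 2 ^ 2 := rfl
      _ ≤ 2 ^ (n - 1) := Nat.pow_le_pow_right (by norm_num) (by omega)
  obtain ⟨k, x, y, h, hmk⟩ := exists_DH P.isPGroup' (by omega) e
  have hk1 : 1 ≤ k := by
    by_contra h0
    have hk0 : k = 0 := by omega
    rw [hk0, pow_zero] at hmk
    omega
  have ha : (2 : ℤ) ∣ ((2 ^ k : ℕ) : ℤ) := by
    obtain ⟨j, rfl⟩ : ∃ j, k = j + 1 := ⟨k - 1, by omega⟩
    exact ⟨2 ^ j, by push_cast; ring⟩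
  obtain ⟨T₀, hT₀, hT₀P, hT₀M⟩ := h.exists_klein_M ha 0
  obtain ⟨T₁, hT₁, hT₁P, hT₁M⟩ := h.exists_klein_M ha 1
  have hrel : ∀ U' : Subgroup G, IsKleinFour U' → U' ≤ P →
      (U' ≤ h.M' 0 ∧ (Subgroup.centralizer (U' : Set G)).relIndex (Subgroup.normalizer (U' : Set G)) = (Subgroup.centralizer (T₀ : Set G)).relIndex (Subgroup.normalizer (T₀ : Set G))) ∨
      (U' ≤ h.M' 1 ∧ (Subgroup.centralizer (U' : Set G)).relIndex (Subgroup.normalizer (U' : Set G)) = (Subgroup.centralizer (T₁ : Set G)).relIndex (Subgroup.normalizer (T₁ : Set G))) := by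
    intro U' hU' hU'S
    rcases h.klein_cases ha hU' hU'S with h1 | h1
    · exact Or.inl ⟨h1, h.rel_eq hU' hU'S hT₀ hT₀P h1 hT₀M⟩
    · exact Or.inr ⟨h1, h.rel_eq hU' hU'S hT₁ hT₁P h1 hT₁M⟩
  set z : G := ((x ^ ((2 ^ k : ℕ) : ℤ) : (P : Subgroup G)) : G) with hz
  set y₀ : G := ((x ^ (0 : ℤ) * y : (P : Subgroup G)) : G) with hy₀
  set y₁ : G := ((x ^ (1 : ℤ) * y : (P : Subgroup G)) : G) with hy₁
  have hzo : orderOf z = 2 := by rw [hz, Subgroup.orderOf_coe, h.orderOf_z]
  have hy₀o : orderOf y₀ = 2 := by rw [hy₀, Subgroup.orderOf_coe, h.orderOf_refl]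
  have hy₁o : orderOf y₁ = 2 := by rw [hy₁, Subgroup.orderOf_coe, h.orderOf_refl]
  have hcases := invol_cases h
  have hzM : ∀ ε : ℤ, z ∈ h.M' ε := fun ε => h.mem_M'.2 ((h.M_rot ε _).2 ha)
  have hy₀M0 : y₀ ∈ h.M' 0 := h.mem_M'.2 ((h.M_refl 0 0).2 (by norm_num))
  have hy₁M1 : y₁ ∈ h.M' 1 := h.mem_M'.2 ((h.M_refl 1 1).2 (by norm_num))
  have hy₀M1 : y₀ ∉ h.M' 1 := fun h1 => by
    have := (h.M_refl 1 0).1 (h.mem_M'.1 h1)
    omega
  have hy₁M0 : y₁ ∉ h.M' 0 := fun h1 => by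
    have := (h.M_refl 0 1).1 (h.mem_M'.1 h1)
    omega
  have hy₀P : y₀ ∈ (P : Subgroup G) := Subtype.mem _
  have hy₁P : y₁ ∈ (P : Subgroup G) := Subtype.mem _
  -- fusion from divisibility by three
  have hfus : ∀ (ε : ℤ) (T : Subgroup G), IsKleinFour T → T ≤ P → T ≤ h.M' ε → (ε = 0 ∨ ε = 1) →
      3 ∣ (Subgroup.centralizer (T : Set G)).relIndex (Subgroup.normalizer (T : Set G)) →
      IsConj z ((x ^ ε * y : (P : Subgroup G)) : G) := by
    intro ε T hT hTP hTM hε h3
    obtain ⟨l, hl⟩ := h.exists_refl' hT hTP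
    have hzT : ((x ^ ((2 ^ k : ℕ) : ℤ) : (P : Subgroup G)) : G) ∈ T :=
      h.z_mem (h.klein_sub hT hTP) (l := l) hl
    have hne1 : ((x ^ l * y : (P : Subgroup G)) : G) ≠ 1 := fun h0 => h.refl_ne_one l (Subtype.ext h0)
    have hz1 : z ≠ 1 := fun h0 => h.z_ne_one (Subtype.ext h0)
    obtain ⟨g, -, hg⟩ := klein_trans_three hT h3 hzT hl hz1 hne1
    have h1 := (isConj_of_conj hg).trans (refl_conj h l)
    have h2 := (h.M_refl ε l).1 (h.le_of_le_M' hTM hl)
    have h4 : l % 2 = ε := by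
      rcases hε with rfl | rfl <;> omega
    rwa [h4] at h1
  have hhelper : ∀ {K : Subgroup G}, K.Normal → ∀ {s t : G}, s ∈ K → t ∉ K → ¬ IsConj s t := by
    intro K hK s t hs ht hc
    exact ht ((conj_mem_iff hK hc).1 hs)
  by_cases hp0 : 3 ∣ (Subgroup.centralizer (T₀ : Set G)).relIndex (Subgroup.normalizer (T₀ : Set G)) <;>
    by_cases hp1 : 3 ∣ (Subgroup.centralizer (T₁ : Set G)).relIndex (Subgroup.normalizer (T₁ : Set G))
  · -- one class
    left
    have hB : ∀ U : Subgroup G, U ≤ P → IsKleinFour U → 3 ∣ (Subgroup.centralizer (U : Set G)).relIndex (Subgroup.normalizer (U : Set G)) := by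
      intro U hUS hU
      rcases hrel U hU hUS with ⟨-, h1⟩ | ⟨-, h1⟩
      · rw [h1]; exact hp0
      · rw [h1]; exact hp1
    have hall := all_conj h hB
    constructor
    · have := card_classes (X := G) {ConjClasses.mk z} (by
        intro C
        rw [Finset.mem_singleton]
        constructor
        · rintro ⟨g, rfl, hg⟩
          exact ConjClasses.mk_eq_mk_iff_isConj.2 (hall g hg)
        · rintro rfl
          exact ⟨z, rfl, hzo⟩)
      rw [this, Finset.card_singleton]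
    · intro N _
      exact (left_of_all h (fun a b ha hb => (hall a ha).trans (hall b hb).symm)).1 N
  · -- two classes, `y₀` joins `z`
    right; left
    have hzy₀ : IsConj z y₀ := hfus 0 T₀ hT₀ hT₀P hT₀M (Or.inl rfl) hp0
    obtain ⟨K, hKn, hKP, hK2⟩ := exists_K_class h rfl 0 (fun U hU hUS h3 => by
      rcases hrel U hU hUS with ⟨h1, -⟩ | ⟨-, h1⟩
      · exact h1
      · rw [h1] at h3
        exact absurd h3 hp1)
    have hzK : z ∈ K := mem_K hKP (hzM 0)
    have hy₁K : y₁ ∉ K := not_mem_K hKP hy₁P hy₁M0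
    have hne : ConjClasses.mk z ≠ ConjClasses.mk y₁ := fun he =>
      hhelper hKn hzK hy₁K (ConjClasses.mk_eq_mk_iff_isConj.1 he)
    refine ⟨?_, ⟨K, hKn, hK2⟩, ?_⟩
    · have := card_classes (X := G) {ConjClasses.mk z, ConjClasses.mk y₁} (by
        intro C
        rw [Finset.mem_insert, Finset.mem_singleton]
        constructor
        · rintro ⟨g, rfl, hg⟩
          rcases hcases g hg with h1 | h1 | h1
          · exact Or.inl (ConjClasses.mk_eq_mk_iff_isConj.2 h1)
          · exact Or.inl (ConjClasses.mk_eq_mk_iff_isConj.2 (h1.trans hzy₀.symm))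
          · exact Or.inr (ConjClasses.mk_eq_mk_iff_isConj.2 h1)
        · rintro (rfl | rfl)
          · exact ⟨z, rfl, hzo⟩
          · exact ⟨y₁, rfl, hy₁o⟩)
      rw [this, Finset.card_pair hne]
    · intro N hN hidx
      exact no_index_four h ha 0 hzy₀ N hN hidx
  · -- two classes, `y₁` joins `z`
    right; left
    have hzy₁ : IsConj z y₁ := hfus 1 T₁ hT₁ hT₁P hT₁M (Or.inr rfl) hp1
    obtain ⟨K, hKn, hKP, hK2⟩ := exists_K_class h rfl 1 (fun U hU hUS h3 => by
      rcases hrel U hU hUS with ⟨-, h1⟩ | ⟨h1, -⟩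
      · rw [h1] at h3
        exact absurd h3 hp0
      · exact h1)
    have hzK : z ∈ K := mem_K hKP (hzM 1)
    have hy₀K : y₀ ∉ K := not_mem_K hKP hy₀P hy₀M1
    have hne : ConjClasses.mk z ≠ ConjClasses.mk y₀ := fun he =>
      hhelper hKn hzK hy₀K (ConjClasses.mk_eq_mk_iff_isConj.1 he)
    refine ⟨?_, ⟨K, hKn, hK2⟩, ?_⟩
    · have := card_classes (X := G) {ConjClasses.mk z, ConjClasses.mk y₀} (by
        intro C
        rw [Finset.mem_insert, Finset.mem_singleton]
        constructor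
        · rintro ⟨g, rfl, hg⟩
          rcases hcases g hg with h1 | h1 | h1
          · exact Or.inl (ConjClasses.mk_eq_mk_iff_isConj.2 h1)
          · exact Or.inr (ConjClasses.mk_eq_mk_iff_isConj.2 h1)
          · exact Or.inl (ConjClasses.mk_eq_mk_iff_isConj.2 (h1.trans hzy₁.symm))
        · rintro (rfl | rfl)
          · exact ⟨z, rfl, hzo⟩
          · exact ⟨y₀, rfl, hy₀o⟩)
      rw [this, Finset.card_pair hne]
    · intro N hN hidx
      exact no_index_four h ha 1 hzy₁ N hN hidx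
  · -- three classes
    right; right
    have hnot3 : ∀ U : Subgroup G, IsKleinFour U → U ≤ P →
        ¬ 3 ∣ (Subgroup.centralizer (U : Set G)).relIndex (Subgroup.normalizer (U : Set G)) := by
      intro U hU hUS h3
      rcases hrel U hU hUS with ⟨-, h1⟩ | ⟨-, h1⟩
      · rw [h1] at h3
        exact hp0 h3
      · rw [h1] at h3
        exact hp1 h3
    obtain ⟨K₀, hK₀n, hK₀P, -⟩ := exists_K_class h rfl 0 (fun U hU hUS h3 => absurd h3 (hnot3 U hU hUS))
    obtain ⟨K₁, hK₁n, hK₁P, -⟩ := exists_K_class h rfl 1 (fun U hU hUS h3 => absurd h3 (hnot3 U hU hUS))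
    have hne1 : ConjClasses.mk y₀ ≠ ConjClasses.mk y₁ := fun he =>
      hhelper hK₀n (mem_K hK₀P hy₀M0) (not_mem_K hK₀P hy₁P hy₁M0) (ConjClasses.mk_eq_mk_iff_isConj.1 he)
    have hne2 : ConjClasses.mk z ≠ ConjClasses.mk y₁ := fun he =>
      hhelper hK₀n (mem_K hK₀P (hzM 0)) (not_mem_K hK₀P hy₁P hy₁M0) (ConjClasses.mk_eq_mk_iff_isConj.1 he)
    have hne3 : ConjClasses.mk z ≠ ConjClasses.mk y₀ := fun he =>
      hhelper hK₁n (mem_K hK₁P (hzM 1)) (not_mem_K hK₁P hy₀P hy₀M1) (ConjClasses.mk_eq_mk_iff_isConj.1 he)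
    constructor
    · have := card_classes (X := G) {ConjClasses.mk z, ConjClasses.mk y₀, ConjClasses.mk y₁} (by
        intro C
        rw [Finset.mem_insert, Finset.mem_insert, Finset.mem_singleton]
        constructor
        · rintro ⟨g, rfl, hg⟩
          rcases hcases g hg with h1 | h1 | h1
          · exact Or.inl (ConjClasses.mk_eq_mk_iff_isConj.2 h1)
          · exact Or.inr (Or.inl (ConjClasses.mk_eq_mk_iff_isConj.2 h1))
          · exact Or.inr (Or.inr (ConjClasses.mk_eq_mk_iff_isConj.2 h1))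
        · rintro (rfl | rfl | rfl)
          · exact ⟨z, rfl, hzo⟩
          · exact ⟨y₀, rfl, hy₀o⟩
          · exact ⟨y₁, rfl, hy₁o⟩)
      rw [this, Finset.card_eq_three.2 ⟨_, _, _, hne3, hne2, hne1, rfl⟩]
    · have hF := h.frob_of rfl (fun U hU hUS g hg hcop => by
        obtain ⟨j, hj⟩ := two_pow_of_not_three (klein_relIndex_dvd hU) (hnot3 U hU hUS)
        exact mem_centralizer_of_rel hj hg hcop)
      obtain ⟨N, hN, hc⟩ := Cfsg.Agent.Lib.Transfer.frobenius P hF
      exact ⟨P, N, hN, hc⟩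


end Cfsg.Agent.S3864
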