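import Cfsg.Statements.S3867
import Cfsg.Agent.Lib.FF.SylowIn
import Cfsg.Agent.Lib.PGroup.ProductSet
-- import your own Cfsg.Agent.* helpers here

set_option autoImplicit false
open Cfsg Cfsg.Agent.Lib.FF Cfsg.Agent.Lib.PGroup

namespace Cfsg.Agent.S3867

/-- Let M and N be nontrivial normal subgroups of the finite group G with M ⊓ N trivial, and let p be a prime. Writing n(X) for the number of Sylow p-subgroups of a group X, one has n(G) · n(G/MN) = n(G/M) · n(G/N). -/
theorem result {G : Type*} [Group G] [Finite G] (p : ℕ) [Fact p.Prime] (M N : Subgroup G) [M.Normal] [N.Normal] (hM : M ≠ ⊥) (hN : N ≠ ⊥) (hMN : M ⊓ N = ⊥) : Nat.card (Sylow p G) * Nat.card (Sylow p (G ⧸ (M ⊔ N))) = Nat.card (Sylow p (G ⧸ M)) * Nat.card (Sylow p (G ⧸ N)) := by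
  classical
  let P : Sylow p G := Classical.choice Sylow.nonempty
  have key : ∀ (K : Subgroup G) [K.Normal], Nat.card (Sylow p (G ⧸ K)) =
      (Subgroup.normalizer (((P : Subgroup G) ⊔ K : Subgroup G) : Set G)).index := by
    intro K _
    have hf := QuotientGroup.mk'_surjective K
    rw [Sylow.card_eq_index_normalizer (P.mapSurjective hf)]
    rw [← Subgroup.index_comap_of_surjective _ hf]
    have e : ((P.mapSurjective hf : Sylow p (G ⧸ K)) : Set (G ⧸ K)) =
        (((P : Subgroup G).map (QuotientGroup.mk' K) : Subgroup (G ⧸ K)) : Set (G ⧸ K)) := rfl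
    rw [e, Subgroup.comap_normalizer_eq_of_surjective _ hf, Subgroup.comap_map_eq,
      QuotientGroup.ker_mk']
  rw [Sylow.card_eq_index_normalizer P, key, key, key]
  set Pg : Subgroup G := (P : Subgroup G) with hPg
  set L := Subgroup.normalizer (Pg : Set G) with hL
  set A := Subgroup.normalizer ((Pg ⊔ M : Subgroup G) : Set G) with hA
  set B := Subgroup.normalizer ((Pg ⊔ N : Subgroup G) : Set G) with hB
  set C := Subgroup.normalizer ((Pg ⊔ (M ⊔ N) : Subgroup G) : Set G) with hC
  have hAC : A ≤ C := by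
    intro x hx
    rw [hA, mem_normalizer_iff_conj] at hx
    rw [hC, mem_normalizer_iff_conj, ← sup_assoc, Subgroup.map_sup, hx, normal_conj_eq]
  have hBC : B ≤ C := by
    intro x hx
    rw [hB, mem_normalizer_iff_conj] at hx
    have e : Pg ⊔ (M ⊔ N) = (Pg ⊔ N) ⊔ M := by
      rw [sup_assoc, sup_comm M N]
    rw [hC, mem_normalizer_iff_conj, e, Subgroup.map_sup, hx, normal_conj_eq]
  have hLA : L ≤ A := by
    intro x hx
    rw [hL, mem_normalizer_iff_conj] at hx
    rw [hA, mem_normalizer_iff_conj, Subgroup.map_sup, hx, normal_conj_eq]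
  have hLB : L ≤ B := by
    intro x hx
    rw [hL, mem_normalizer_iff_conj] at hx
    rw [hB, mem_normalizer_iff_conj, Subgroup.map_sup, hx, normal_conj_eq]
  -- the intersection
  have hT : M ⊓ (Pg ⊔ N) ≤ Pg := by
    have hpT : IsPGroup p ↥(M ⊓ (Pg ⊔ N)) := by
      rintro ⟨t, ht⟩
      obtain ⟨htM, htP⟩ := Subgroup.mem_inf.mp ht
      obtain ⟨q, hq, n, hn, rfl⟩ := Subgroup.mem_sup_of_normal_right.mp htP
      obtain ⟨k, hk⟩ := P.2 ⟨q, hq⟩
      refine ⟨k, Subtype.ext ?_⟩
      have hk' : q ^ p ^ k = 1 := by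
        have := congrArg Subtype.val hk
        simpa using this
      have hmem : (q * n) ^ p ^ k ∈ N := by
        rw [← QuotientGroup.eq_one_iff, QuotientGroup.mk_pow, QuotientGroup.mk_mul,
          (QuotientGroup.eq_one_iff n).mpr hn, mul_one, ← QuotientGroup.mk_pow, hk']
        rfl
      have hmemM : (q * n) ^ p ^ k ∈ M := M.pow_mem htM _
      have : (q * n) ^ p ^ k ∈ M ⊓ N := Subgroup.mem_inf.mpr ⟨hmemM, hmem⟩
      rw [hMN, Subgroup.mem_bot] at this
      simpa using this
    obtain ⟨Q, hQ⟩ := hpT.exists_le_sylow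
    obtain ⟨g, hg⟩ := MulAction.exists_smul_eq G P Q
    have hQ' : (Q : Subgroup G) = Pg.map (MulAut.conj g).toMonoidHom := by
      rw [← hg]; exact coe_smul_sylow g P
    have hsub : Pg ⊓ M ≤ M ⊓ (Pg ⊔ N) := le_inf inf_le_right (inf_le_left.trans le_sup_left)
    have hcard : Nat.card ↥(M ⊓ (Pg ⊔ N)) ≤ Nat.card ↥(Pg ⊓ M) := by
      have h1 : M ⊓ (Pg ⊔ N) ≤ (Pg ⊓ M).map (MulAut.conj g).toMonoidHom := by
        have eM : M.map (MulAut.conj g).toMonoidHom = M := normal_conj_eq g
        rw [Subgroup.map_inf _ _ _ (MulEquiv.injective _), eM]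
        exact le_inf (hQ.trans hQ'.le) inf_le_left
      calc Nat.card ↥(M ⊓ (Pg ⊔ N)) ≤ Nat.card ↥((Pg ⊓ M).map (MulAut.conj g).toMonoidHom) :=
            Subgroup.card_le_of_le h1
        _ = _ := card_conj _ _
    have := Subgroup.eq_of_le_of_card_ge hsub hcard
    rw [← this]
    exact inf_le_left
  have hcap : (Pg ⊔ M) ⊓ (Pg ⊔ N) ≤ Pg := by
    intro y hy
    obtain ⟨hy1, hy2⟩ := Subgroup.mem_inf.mp hy
    obtain ⟨q, hq, m, hm, rfl⟩ := Subgroup.mem_sup_of_normal_right.mp hy1
    have hm2 : m ∈ Pg ⊔ N := by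
      have := (Pg ⊔ N).mul_mem ((Pg ⊔ N).inv_mem (le_sup_left (b := N) hq)) hy2
      simpa using this
    exact Pg.mul_mem hq (hT (Subgroup.mem_inf.mpr ⟨hm, hm2⟩))
  have hAB : A ⊓ B = L := by
    apply le_antisymm
    · intro x hx
      obtain ⟨hx1, hx2⟩ := Subgroup.mem_inf.mp hx
      rw [hA, mem_normalizer_iff_conj] at hx1
      rw [hB, mem_normalizer_iff_conj] at hx2
      rw [hL, mem_normalizer_iff_conj]
      apply Subgroup.eq_of_le_of_card_ge
      · have h1 : Pg.map (MulAut.conj x).toMonoidHom ≤ (Pg ⊔ M).map (MulAut.conj x).toMonoidHom :=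
          conj_mono x le_sup_left
        have h2 : Pg.map (MulAut.conj x).toMonoidHom ≤ (Pg ⊔ N).map (MulAut.conj x).toMonoidHom :=
          conj_mono x le_sup_left
        rw [hx1] at h1
        rw [hx2] at h2
        exact (le_inf h1 h2).trans hcap
      · rw [card_conj]
    · exact le_inf hLA hLB
  have hCprod : ∀ x ∈ C, ∃ a ∈ A, ∃ b ∈ B, x = a * b := by
    intro x hx
    rw [hC, mem_normalizer_iff_conj] at hx
    have hle : Pg.map (MulAut.conj x).toMonoidHom ≤ Pg ⊔ (M ⊔ N) := by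
      have := conj_mono x (le_sup_left : Pg ≤ Pg ⊔ (M ⊔ N))
      rwa [hx] at this
    have h1 : IsSylowIn p Pg (Pg ⊔ (M ⊔ N)) := isSylowIn_of_sylow_le P le_sup_left
    have h2 : IsSylowIn p (Pg.map (MulAut.conj x).toMonoidHom) (Pg ⊔ (M ⊔ N)) := by
      have := isSylowIn_of_sylow_le (x • P) (L := Pg ⊔ (M ⊔ N)) (by rw [coe_smul_sylow]; exact hle)
      rwa [coe_smul_sylow] at this
    obtain ⟨y, hy, hye⟩ := h1.exists_conj h2
    rw [sup_comm] at hy
    obtain ⟨k, hk, q, hq, rfl⟩ := Subgroup.mem_sup_of_normal_left.mp hy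
    obtain ⟨m, hm, n, hn, rfl⟩ := Subgroup.mem_sup_of_normal_left.mp hk
    have hq' : Pg.map (MulAut.conj q).toMonoidHom = Pg := conj_eq_of_mem hq
    rw [← conj_mul_conj, hq'] at hye
    have hl : (m * n)⁻¹ * x ∈ L := by
      rw [hL, mem_normalizer_iff_conj, ← conj_mul_conj, ← hye, conj_mul_conj, inv_mul_cancel, conj_one']
    refine ⟨m, ?_, n * ((m * n)⁻¹ * x), ?_, by group⟩
    · rw [hA, mem_normalizer_iff_conj]
      exact conj_eq_of_mem (le_sup_right (a := Pg) hm)
    · refine B.mul_mem ?_ (hLB hl)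
      rw [hB, mem_normalizer_iff_conj]
      exact conj_eq_of_mem (le_sup_right (a := Pg) hn)
  have hcard : Nat.card A * Nat.card B = Nat.card C * Nat.card L := by
    have := card_mul_card_eq_of_forall_mem A B C hAC hBC hCprod
    rwa [hAB] at this
  have e1 := Subgroup.index_mul_card L
  have e2 := Subgroup.index_mul_card A
  have e3 := Subgroup.index_mul_card B
  have e4 := Subgroup.index_mul_card C
  have hpos : 0 < Nat.card A * Nat.card B := Nat.mul_pos Nat.card_pos Nat.card_pos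
  apply Nat.eq_of_mul_eq_mul_right hpos
  calc L.index * C.index * (Nat.card A * Nat.card B) = L.index * C.index * (Nat.card C * Nat.card L) := by rw [hcard]
    _ = (L.index * Nat.card L) * (C.index * Nat.card C) := by ring
    _ = (A.index * Nat.card A) * (B.index * Nat.card B) := by rw [e1, e2, e3, e4]
    _ = A.index * B.index * (Nat.card A * Nat.card B) := by ring

end Cfsg.Agent.S3867
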