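import Cfsg.Statements.S3895
import Cfsg.Agent.Lib.PGroup.KClasses
-- import your own Cfsg.Agent.* helpers here

set_option autoImplicit false
open Cfsg

namespace Cfsg.Agent.S3895

/-- Let G be a finite group with Sylow 2-subgroup P, and write k₂(G) for the number of conjugacy classes of G consisting of 2-elements (elements of 2-power order, the identity included). Then k₂(G) > |P|/2 if and only if G has a normal 2-complement and P has more than |P|/2 conjugacy classes. -/
theorem result {G : Type*} [Group G] [Finite G] (P : Sylow 2 G) :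
    Nat.card ↥(P : Subgroup G) < 2 * Nat.card {c : ConjClasses G // ∀ x ∈ c.carrier, ∃ k : ℕ, orderOf x = 2 ^ k} ↔
      Cfsg.HasNormalPComplement 2 G ∧ Nat.card ↥(P : Subgroup G) < 2 * Nat.card (ConjClasses ↥(P : Subgroup G)) := by
  have hcard := Cfsg.Agent.Lib.PGroup.KClasses.card_sylow_eq_pPart P
  have hA : Cfsg.Agent.Lib.PGroup.KClasses.abA 2 = 2 := if_pos rfl
  have hB : Cfsg.Agent.Lib.PGroup.KClasses.abB 2 = 1 := if_pos rfl
  constructor
  · intro h
    have hN : Cfsg.HasNormalPComplement 2 G := by
      by_contra hN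
      have h1 := Cfsg.Agent.Lib.PGroup.KClasses.main_bound (p := 2) _ G rfl hN
      rw [hA, hB, ← hcard, one_mul] at h1
      exact absurd h (not_lt.mpr h1)
    refine ⟨hN, ?_⟩
    have h2 := Cfsg.Agent.Lib.PGroup.KClasses.kp_le_card_conjClasses P
    exact lt_of_lt_of_le h (Nat.mul_le_mul_left _ h2)
  · rintro ⟨hN, h⟩
    have h1 := Cfsg.Agent.Lib.PGroup.KClasses.card_conjClasses_le_kp P hN
    exact lt_of_lt_of_le h (Nat.mul_le_mul_left _ h1)

end Cfsg.Agent.S3895
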