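import Cfsg.Statements.S3897
import Cfsg.Agent.Lib.PGroup.KClasses
-- import your own Cfsg.Agent.* helpers here

set_option autoImplicit false
open Cfsg

namespace Cfsg.Agent.S3897

/-- Let p be an odd prime and G a finite group with Sylow p-subgroup P, and write k_p(G) for the number of conjugacy classes of G consisting of p-elements (elements of p-power order, the identity included). Then k_p(G) > (p + 1)|P|/(2p) if and only if G has a normal p-complement and P is abelian. -/
theorem result {G : Type*} [Group G] [Finite G] {p : ℕ} [Fact p.Prime] (hp : p ≠ 2) (P : Sylow p G) :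
    (p + 1) * Nat.card ↥(P : Subgroup G) < 2 * p * Nat.card {c : ConjClasses G // ∀ x ∈ c.carrier, ∃ k : ℕ, orderOf x = p ^ k} ↔
      Cfsg.HasNormalPComplement p G ∧ IsMulCommutative ↥(P : Subgroup G) := by
  have hcard := Cfsg.Agent.Lib.PGroup.KClasses.card_sylow_eq_pPart P
  have hA : Cfsg.Agent.Lib.PGroup.KClasses.abA p = 2 * p := if_neg hp
  have hB : Cfsg.Agent.Lib.PGroup.KClasses.abB p = p + 1 := if_neg hp
  have hpp : p.Prime := Fact.out
  constructor
  · intro h
    have hN : Cfsg.HasNormalPComplement p G := by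
      by_contra hN
      have h1 := Cfsg.Agent.Lib.PGroup.KClasses.main_bound (p := p) _ G rfl hN
      rw [hA, hB, ← hcard] at h1
      exact absurd h (not_lt.mpr h1)
    refine ⟨hN, ?_⟩
    by_contra hc
    have hex : ∃ x y : (P : Subgroup G), x * y ≠ y * x := by
      by_contra hex
      push Not at hex
      exact hc ⟨⟨hex⟩⟩
    have h1 := Cfsg.Agent.Lib.PGroup.KClasses.nonabelian_bound P.isPGroup' hex
    have h2 := Cfsg.Agent.Lib.PGroup.KClasses.kp_le_card_conjClasses P
    exact absurd h (not_lt.mpr ((Nat.mul_le_mul_left _ h2).trans h1))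
  · rintro ⟨hN, hc⟩
    have h1 := Cfsg.Agent.Lib.PGroup.KClasses.card_conjClasses_le_kp P hN
    have h2 : Nat.card (P : Subgroup G) ≤ Nat.card (ConjClasses (P : Subgroup G)) := by
      refine Nat.card_le_card_of_injective ConjClasses.mk ?_
      intro a b hab
      rw [ConjClasses.mk_eq_mk_iff_isConj] at hab
      obtain ⟨c, hc2⟩ := isConj_iff.mp hab
      have hcomm := hc.is_comm.comm c a
      rw [hcomm] at hc2
      simpa using hc2
    have h3 : Nat.card (P : Subgroup G) ≤ Nat.card {c : ConjClasses G // ∀ x ∈ c.carrier, ∃ k : ℕ, orderOf x = p ^ k} :=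
      h2.trans h1
    have h4 : 0 < Nat.card (P : Subgroup G) := Nat.card_pos
    have h5 : p + 1 < 2 * p := by have := hpp.two_le; omega
    calc (p + 1) * Nat.card (P : Subgroup G) < 2 * p * Nat.card (P : Subgroup G) :=
          Nat.mul_lt_mul_of_pos_right h5 h4
      _ ≤ _ := Nat.mul_le_mul_left _ h3

end Cfsg.Agent.S3897
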