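import Cfsg.Statements.S3898
import Cfsg.Agent.Lib.PGroup.KTwo
-- import your own Cfsg.Agent.* helpers here

set_option autoImplicit false
open Cfsg

namespace Cfsg.Agent.S3898

open Cfsg.Agent.Lib.PGroup.KClasses

/-- Let π be a finite set of primes containing 2 and G a finite group. Write k_π(G) for the number of conjugacy classes of G consisting of π-elements (elements all of whose order's prime divisors lie in π) and |G|_π for the π-part of the order of G. If k_π(G) > |G|_π/2, then G has a normal π-complement (a normal subgroup of order prime to π whose index is a π-number) and an abelian Hall subgroup for the set of odd primes in π. -/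
theorem result {G : Type*} [Group G] [Finite G] (π : Finset ℕ) (hπ : ∀ r ∈ π, r.Prime) (h2 : 2 ∈ π)
    (hk : π.prod (fun r => r ^ (Nat.card G).factorization r) < 2 * Nat.card {c : ConjClasses G // ∀ x ∈ c.carrier, ∀ r : ℕ, r.Prime → r ∣ orderOf x → r ∈ π}) :
    (∃ N : Subgroup G, N.Normal ∧ (∀ r : ℕ, r.Prime → r ∣ Nat.card ↥N → r ∉ π) ∧ ∀ r : ℕ, r.Prime → r ∣ N.index → r ∈ π) ∧ ∃ H : Subgroup G, Cfsg.IsPiHall ((↑π : Set ℕ) \ {2}) H ∧ IsMulCommutative ↥H := by
  classical
  haveI h2f : Fact (2 : ℕ).Prime := ⟨Nat.prime_two⟩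
  -- `G` is `2`-nilpotent
  have h2nil : Cfsg.HasNormalPComplement 2 G := by
    by_contra hN
    have h1 := main_bound (p := 2) _ G rfl hN
    have hA : abA 2 = 2 := if_pos rfl
    have hB : abB 2 = 1 := if_pos rfl
    rw [hA, hB, one_mul] at h1
    have h3 := lt_of_prod_lt (G := G) π hπ h2 (a := 1) (b := 2) (by simpa using hk)
    rw [one_mul] at h3
    exact absurd h3 (not_lt.mpr h1)
  obtain ⟨T, N, hN, hcN⟩ := h2nil
  haveI := hN
  have hNc := Cfsg.Agent.Lib.Transfer.complement_card_coprime hcN
  have hNodd : ¬ 2 ∣ Nat.card N := by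
    intro hd
    exact Nat.prime_two.one_lt.ne' (Nat.eq_one_of_dvd_coprimes hNc hd dvd_rfl)
  -- odd primes in `π`
  have hodd : ∀ r ∈ π, r ≠ 2 → ∀ (hf : Fact r.Prime), ∀ P : Sylow r G, IsMulCommutative (P : Subgroup G) ∧
      Cfsg.HasNormalPComplement r G := by
    intro r hr hr2 _ P
    have h3 := lt_of_prod_lt (G := G) π hπ hr (a := 1) (b := 2) (by simpa using hk)
    rw [one_mul] at h3
    have hab : IsMulCommutative (P : Subgroup G) := by
      by_contra hc
      have hex : ∃ x y : (P : Subgroup G), x * y ≠ y * x := by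
        by_contra hex
        push Not at hex
        exact hc ⟨⟨hex⟩⟩
      have h1 := nonabelian_bound_odd P.isPGroup' hr2 hex
      have h4 := kp_le_card_conjClasses P
      rw [card_sylow_eq_pPart P] at h1
      have h5 : 2 * kp r G ≤ 2 * Nat.card (ConjClasses (P : Subgroup G)) := Nat.mul_le_mul_left _ h4
      omega
    refine ⟨hab, ?_⟩
    by_contra hnot
    have hPN : (P : Subgroup G) ≤ N := by
      intro x hx
      apply (Cfsg.Agent.Lib.Transfer.mem_of_coprime_of_complement hcN x).mpr
      obtain ⟨k, hk'⟩ := pel_of_mem P.isPGroup' hx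
      rw [hk']
      apply Nat.Coprime.pow_left
      exact (Nat.coprime_primes (hπ r hr) Nat.prime_two).mpr hr2
    have hne : ∃ y ∈ (P : Subgroup G), y ∉ FF P := by
      by_contra hall
      push Not at hall
      apply hnot
      have hP : Subgroup.normalizer ((P : Subgroup G) : Set G) ≤ Subgroup.centralizer ((P : Subgroup G) : Set G) := by
        intro g hg
        refine Subgroup.mem_centralizer_iff.mpr fun y hy => ?_
        have := (mem_FF.mp (hall y hy)).2 g hg
        rw [mul_inv_eq_iff_eq_mul] at this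
        exact this.symm
      exact ⟨P, _, inferInstance, MonoidHom.ker_transferSylow_isComplement' P hP⟩
    haveI : Fintype (PC r G) := Fintype.ofFinite _
    have h6 := sum_bound hr2 P hab N hNodd hPN hne
    have h7 := kS_le_sum_mul (G := G) π hπ hr hr2 h2
    set B := ∏ s ∈ (π.erase r).erase 2, pPart s G with hB
    set S := ∑ d : PC r G, VV d.1 with hS
    have hprod : ∏ s ∈ π, pPart s G = pPart r G * (pPart 2 G * B) := by
      rw [← Finset.mul_prod_erase π _ hr, ← Finset.mul_prod_erase (π.erase r) _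
        (Finset.mem_erase.mpr ⟨fun h => hr2 h.symm, h2⟩)]
    have h8 : pPart r G * (pPart 2 G * B) < 2 * kS π G := by rw [← hprod]; exact hk
    rw [card_sylow_eq_pPart P] at h6
    have h9 : 2 * kS π G ≤ (pPart 2 G * pPart r G) * B :=
      calc 2 * kS π G ≤ 2 * (S * B) := Nat.mul_le_mul_left _ h7
        _ = (2 * S) * B := by ring
        _ ≤ _ := Nat.mul_le_mul_right _ h6
    have h10 : pPart r G * (pPart 2 G * B) = (pPart 2 G * pPart r G) * B := by ring
    omega
  have hcompl : ∀ r ∈ π, Cfsg.HasNormalPComplement r G := by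
    intro r hr
    by_cases hr2 : r = 2
    · subst hr2
      exact ⟨T, N, hN, hcN⟩
    · haveI : Fact r.Prime := ⟨hπ r hr⟩
      obtain ⟨P⟩ : Nonempty (Sylow r G) := inferInstance
      exact (hodd r hr hr2 inferInstance P).2
  obtain ⟨Nr, Pr, hn, hc, hq, hcp⟩ := exists_family hπ hcompl
  refine ⟨⟨infN π Nr, infN_normal hn, infN_not_dvd hc hπ, infN_index hn hq hπ⟩, ?_⟩
  have hσ : ∀ s ∈ π.erase 2, s.Prime := fun s hs => hπ s (Finset.mem_of_mem_erase hs)
  obtain ⟨Nr', Pr', hn', hc', hq', hcp'⟩ := exists_family hσ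
    (fun s hs => hcompl s (Finset.mem_of_mem_erase hs))
  obtain ⟨H, hH, hHc⟩ := exists_hall hn' hc' hq' hσ
  refine ⟨H, ?_, hHc ?_⟩
  · rwa [Finset.coe_erase] at hH
  · intro s hs x y
    haveI : Fact s.Prime := ⟨hσ s hs⟩
    haveI := hn' s hs
    obtain ⟨P, -, hcP⟩ := hcp' s hs
    have hs2 : s ≠ 2 := (Finset.mem_erase.mp hs).1
    exact comm_mem_of_complement hcP (hodd s (Finset.mem_of_mem_erase hs) hs2 inferInstance P).1 x y

end Cfsg.Agent.S3898
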