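import Cfsg.Statements.S3899
import Cfsg.Agent.Lib.PGroup.KSet
import Cfsg.Agent.S3897
-- import your own Cfsg.Agent.* helpers here

set_option autoImplicit false
open Cfsg

namespace Cfsg.Agent.S3899

open Cfsg.Agent.Lib.PGroup.KClasses

/-- Let π be a finite non-empty set of odd primes with smallest member p and G a finite group. Write k_π(G) for the number of conjugacy classes of G consisting of π-elements (elements all of whose order's prime divisors lie in π) and |G|_π for the π-part of the order of G. If k_π(G) > (p + 1)|G|_π/(2p), then G has a normal π-complement (a normal subgroup of order prime to π whose index is a π-number) and an abelian Hall π-subgroup. -/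
theorem result {G : Type*} [Group G] [Finite G] (π : Finset ℕ) (hπ : ∀ r ∈ π, r.Prime) (h2 : 2 ∉ π) (p : ℕ) (hp : p ∈ π)
    (hmin : ∀ r ∈ π, p ≤ r) (hk : (p + 1) * π.prod (fun r => r ^ (Nat.card G).factorization r) < 2 * p * Nat.card {c : ConjClasses G // ∀ x ∈ c.carrier, ∀ r : ℕ, r.Prime → r ∣ orderOf x → r ∈ π}) :
    (∃ N : Subgroup G, N.Normal ∧ (∀ r : ℕ, r.Prime → r ∣ Nat.card ↥N → r ∉ π) ∧ ∀ r : ℕ, r.Prime → r ∣ N.index → r ∈ π) ∧ ∃ H : Subgroup G, Cfsg.IsPiHall (↑π : Set ℕ) H ∧ IsMulCommutative ↥H := by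
  have hall : ∀ r ∈ π, ∀ (hf : Fact r.Prime), ∀ P : Sylow r G, Cfsg.HasNormalPComplement r G ∧
      IsMulCommutative (P : Subgroup G) := by
    intro r hr _ P
    have hr2 : r ≠ 2 := fun h => h2 (h ▸ hr)
    have hlt : (p + 1) * pPart r G < 2 * p * kp r G := lt_of_prod_lt π hπ hr hk
    have hpr := hmin r hr
    have hp0 : 0 < p := (hπ p hp).pos
    have hlt2 : (r + 1) * pPart r G < 2 * r * kp r G := by
      have h1 : p * ((r + 1) * pPart r G) < p * (2 * r * kp r G) := by
        calc p * ((r + 1) * pPart r G) = (p * (r + 1)) * pPart r G := by ring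
          _ ≤ (r * (p + 1)) * pPart r G := by
              apply Nat.mul_le_mul_right
              nlinarith
          _ = r * ((p + 1) * pPart r G) := by ring
          _ < r * (2 * p * kp r G) := Nat.mul_lt_mul_of_pos_left hlt (hπ r hr).pos
          _ = _ := by ring
      exact Nat.lt_of_mul_lt_mul_left h1
    exact (Cfsg.Agent.S3897.result hr2 P).mp (by rw [card_sylow_eq_pPart P]; exact hlt2)
  obtain ⟨Nr, Pr, hn, hc, hq, hcp⟩ := exists_family hπ (fun s hs => by
    haveI : Fact s.Prime := ⟨hπ s hs⟩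
    obtain ⟨P⟩ : Nonempty (Sylow s G) := inferInstance
    exact (hall s hs inferInstance P).1)
  haveI hI := infN_normal hn
  refine ⟨⟨infN π Nr, hI, infN_not_dvd hc hπ, infN_index hn hq hπ⟩, ?_⟩
  obtain ⟨H, hH, hHc⟩ := exists_hall hn hc hq hπ
  refine ⟨H, hH, hHc ?_⟩
  intro s hs x y
  haveI : Fact s.Prime := ⟨hπ s hs⟩
  haveI := hn s hs
  obtain ⟨P, -, hcP⟩ := hcp s hs
  exact comm_mem_of_complement hcP (hall s hs inferInstance P).2 x y

end Cfsg.Agent.S3899
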