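import Cfsg.Statements.S3903
import Mathlib
import Cfsg.Agent.Lib.Coprime.Action
import Cfsg.Agent.Lib.FF.SylowIn
import Cfsg.Agent.Lib.Core.Subnormal
import Cfsg.Agent.Lib.Transfer.Conj

set_option autoImplicit false
open Cfsg

namespace Cfsg.Agent.S3903

open Subgroup
open scoped Pointwise

variable {G : Type*} [Group G] [Finite G]

/-- A normal `p'`-subgroup of a group with a maximal `p`-subgroup is a solvable group (indeed an
`r`-group). -/
theorem solvable_of_coatom {p : ℕ} [Fact p.Prime] (T M : Subgroup G) [hMn : M.Normal]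
    (hT : IsPGroup p T) (hco : ∀ H : Subgroup G, T ≤ H → H = T ∨ H = ⊤)
    (hM : (Nat.card M).Coprime p) : Group.IsSolvable M := by
  classical
  by_cases hbot : Nat.card M = 1
  · haveI : Subsingleton M := (Nat.card_eq_one_iff_unique.mp hbot).1
    exact inferInstance
  obtain ⟨r, hr, hrM⟩ := Nat.exists_prime_and_dvd hbot
  haveI : Fact r.Prime := ⟨hr⟩
  have hrp : r ≠ p := by
    rintro rfl
    exact (Nat.Prime.coprime_iff_not_dvd hr).1 hM.symm hrM
  letI act : MulDistribMulAction T M :=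
    MulDistribMulAction.compHom M ((MulAut.conjNormal : G →* MulAut M).comp T.subtype)
  have hact : ∀ (t : T) (m : M), ((t • m : M) : G) = t * m * (t : G)⁻¹ := fun t m => rfl
  have hcop : (Nat.card T).Coprime (Nat.card M) := by
    obtain ⟨n, hn⟩ := IsPGroup.iff_card.1 hT
    rw [hn]
    exact Nat.Coprime.pow_left _ hM.symm
  haveI : Group.IsNilpotent T := hT.isNilpotent
  obtain ⟨P, hP⟩ := Cfsg.Agent.Lib.Coprime.exists_fixed_sylow (A := T) (G := M) hcop
    (Or.inl inferInstance) r
  set R : Subgroup G := (P : Subgroup M).map M.subtype with hRdef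
  have hRM : R ≤ M := by
    rintro _ ⟨m, _, rfl⟩
    exact m.2
  have hTR : ∀ t ∈ T, ∀ y ∈ R, t * y * t⁻¹ ∈ R := by
    rintro t ht _ ⟨m, hm, rfl⟩
    have h1 : ((⟨t, ht⟩ : T) • m) ∈ (((⟨t, ht⟩ : T) • P : Sylow r M) : Subgroup M) := by
      rw [Sylow.pointwise_smul_def]
      exact Subgroup.smul_mem_pointwise_smul m (⟨t, ht⟩ : T) _ hm
    rw [hP] at h1
    exact ⟨_, h1, hact _ _⟩
  have hRpr : IsPGroup r R := (P.isPGroup').map M.subtype
  -- `R` is not contained in `T`
  have hRne : ¬ R ≤ T := by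
    intro hle
    have hPbot : Nat.card P ≠ 1 := by
      intro h1
      have := P.ne_bot_of_dvd_card hrM
      apply this
      exact (Subgroup.eq_bot_iff_card _).2 h1
    have hbot' : R = ⊥ := by
      have hRp : IsPGroup p R := hT.to_le hle
      exact IsPGroup.disjoint_of_ne (p₁ := r) (p₂ := p) hrp R R hRpr hRp |>.eq_bot.symm ▸ by simp
    have : (P : Subgroup M) = ⊥ := by
      have := (Subgroup.map_eq_bot_iff_of_injective _ M.subtype_injective).1 hbot'
      exact this
    exact P.ne_bot_of_dvd_card hrM this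
  have htop : T ⊔ R = ⊤ := by
    rcases hco (T ⊔ R) le_sup_left with e | e
    · exact absurd (le_sup_right.trans e.le) hRne
    · exact e
  have hRn : R.Normal := by
    have hnorm : (⊤ : Subgroup G) ≤ normalizer (R : Set G) := by
      rw [← htop]
      refine sup_le ?_ le_normalizer
      intro t ht
      refine Cfsg.Agent.Lib.Transfer.mem_normalizer_of_conj_mem ?_
      exact fun y hy => hTR t ht y hy
    exact Subgroup.normalizer_eq_top_iff.1 (top_le_iff.1 hnorm)
  have hMR : M ≤ R := by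
    intro m hm
    have hm' : m ∈ ((T ⊔ R : Subgroup G) : Set G) := by rw [htop]; trivial
    rw [Subgroup.mul_normal] at hm'
    obtain ⟨t, ht, y, hy, rfl⟩ := Set.mem_mul.1 hm'
    have ht1 : t ∈ M := by
      have := M.mul_mem hm (M.inv_mem (hRM hy))
      simpa using this
    have ht2 : t = 1 := by
      have hd1 : orderOf t ∣ Nat.card M := by
        have := orderOf_dvd_natCard (⟨t, ht1⟩ : M)
        simpa [Subgroup.orderOf_mk] using this
      obtain ⟨j, hj⟩ := (IsPGroup.iff_orderOf.1 hT) ⟨t, ht⟩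
      have hj' : orderOf t = p ^ j := by simpa [Subgroup.orderOf_mk] using hj
      rw [hj'] at hd1
      have : Nat.Coprime (p ^ j) (Nat.card M) := Nat.Coprime.pow_left _ hM.symm
      have h1 := Nat.Coprime.eq_one_of_dvd this hd1
      rw [← hj'] at h1
      exact orderOf_eq_one_iff.1 h1
    subst ht2
    simpa using hy
  have hMr : IsPGroup r M := by
    have hle : M ≤ R := hMR
    exact hRpr.to_le hle
  haveI : Group.IsNilpotent M := hMr.isNilpotent
  exact inferInstance

/-- Elements commuting with an outside element of prime power order have the same kind of order. -/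
theorem centralizer_isPGroup (N : Subgroup G) [N.Normal]
    (h : ∀ x : G, x ∉ N → IsPrimePow (orderOf x)) {y : G} (hy : y ∉ N) {p k : ℕ}
    [Fact p.Prime] (hk : 0 < k) (hord : orderOf y = p ^ k) :
    IsPGroup p (centralizer ({y} : Set G)) := by
  classical
  have hp : p.Prime := Fact.out
  rw [IsPGroup.iff_orderOf]
  rintro ⟨z, hz⟩
  rw [Subgroup.orderOf_mk]
  have hzy : Commute y z := (Subgroup.mem_centralizer_singleton_iff.1 hz).symm
  have hzne : orderOf z ≠ 0 := (orderOf_pos z).ne'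
  refine ⟨_, Nat.eq_prime_pow_of_unique_prime_dvd hzne ?_⟩
  intro q hq hqd
  by_contra hqp
  have hqo : orderOf (z ^ (orderOf z / q)) = q := orderOf_pow_orderOf_div hzne hqd
  set w := z ^ (orderOf z / q) with hw
  have hwy : Commute y w := hzy.pow_right _
  have hcop : Nat.Coprime (orderOf y) (orderOf w) := by
    rw [hord, hqo]
    exact Nat.Coprime.pow_left _ ((Nat.coprime_primes hp hq).2 (Ne.symm hqp))
  have hmul : orderOf (y * w) = p ^ k * q := by
    rw [hwy.orderOf_mul_eq_mul_orderOf_of_coprime hcop, hord, hqo]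
  have hmem : y * w ∈ N := by
    by_contra hn
    have hpp := h _ hn
    rw [hmul, isPrimePow_nat_iff] at hpp
    obtain ⟨r, j, hr, hj, hrj⟩ := hpp
    have h1 : p ∣ r ^ j := by
      rw [hrj]
      exact Dvd.dvd.mul_right (dvd_pow_self p hk.ne') q
    have h2 : q ∣ r ^ j := by
      rw [hrj]
      exact Dvd.intro_left _ rfl
    have e1 := (Nat.prime_dvd_prime_iff_eq hp hr).1 (hp.dvd_of_dvd_pow h1)
    have e2 := (Nat.prime_dvd_prime_iff_eq hq hr).1 (hq.dvd_of_dvd_pow h2)
    exact hqp (e2.trans e1.symm)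
  apply hy
  rw [← QuotientGroup.eq_one_iff]
  have h1 : ((y : G) : G ⧸ N) ^ (p ^ k) = 1 := by
    rw [← QuotientGroup.mk_pow, ← hord, pow_orderOf_eq_one]
    rfl
  have h2 : ((y : G) : G ⧸ N) ^ q = 1 := by
    have hyw : ((y * w : G) : G ⧸ N) = 1 := (QuotientGroup.eq_one_iff _).2 hmem
    have : ((y : G) : G ⧸ N) * ((w : G) : G ⧸ N) = 1 := hyw
    have hw1 : ((w : G) : G ⧸ N) ^ q = 1 := by
      rw [← QuotientGroup.mk_pow, ← hqo, pow_orderOf_eq_one]
      rfl
    have e : ((y : G) : G ⧸ N) = (((w : G) : G ⧸ N))⁻¹ := eq_inv_of_mul_eq_one_left this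
    rw [e, inv_pow, hw1, inv_one]
  have hd1 := orderOf_dvd_of_pow_eq_one h1
  have hd2 := orderOf_dvd_of_pow_eq_one h2
  have hco : Nat.Coprime (p ^ k) q := Nat.Coprime.pow_left _ ((Nat.coprime_primes hp hq).2 (Ne.symm hqp))
  have := Nat.Coprime.eq_one_of_dvd (hco.coprime_dvd_left hd1) hd2
  exact orderOf_eq_one_iff.1 this

/-- Counting conjugates: the class of `u` under `N` has size at most `|N| / |C_N(u)|`. -/
theorem card_orbit_mul_le (N : Subgroup G) (u : G) [Fintype G] [Fintype N] [DecidableEq G] :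
    Nat.card ↥(N ⊓ centralizer ({u} : Set G)) *
      (Finset.univ.image (fun n : N => (n : G) * u * (n : G)⁻¹)).card ≤ Nat.card N := by
  classical
  rw [Nat.card_eq_fintype_card (α := N), ← Finset.card_univ (α := N)]
  refine Finset.mul_card_image_le_card _ _ (fun b hb => ?_)
  obtain ⟨n₁, -, rfl⟩ := Finset.mem_image.1 hb
  haveI : Fintype ↥(N ⊓ centralizer ({u} : Set G)) := Fintype.ofFinite _
  rw [Nat.card_eq_fintype_card, ← Finset.card_univ]
  refine Finset.card_le_card_of_injOn
    (fun c => ⟨(n₁ : G) * c, N.mul_mem n₁.2 c.2.1⟩) ?_ ?_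
  · intro c _
    simp only [Finset.coe_filter, Finset.mem_univ, true_and, Set.mem_setOf_eq]
    have hc : (c : G) * u = u * c := by
      have := Subgroup.mem_centralizer_singleton_iff.1 c.2.2
      exact this
    have : (n₁ : G) * c * u * ((n₁ : G) * c)⁻¹ = n₁ * u * (n₁ : G)⁻¹ := by
      calc (n₁ : G) * c * u * ((n₁ : G) * c)⁻¹ = n₁ * (c * u) * ((c : G)⁻¹ * (n₁ : G)⁻¹) := by group
        _ = n₁ * (u * c) * ((c : G)⁻¹ * (n₁ : G)⁻¹) := by rw [hc]
        _ = n₁ * u * (n₁ : G)⁻¹ := by group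
    exact this
  · intro c _ d _ hcd
    have : (n₁ : G) * c = n₁ * d := congrArg Subtype.val hcd
    exact Subtype.ext (mul_left_cancel this)

/-- **Counting**: a coset whose elements are conjugate under `N` into a subset `A`, with all
`N`-classes of the size making the count tight, meets each class in `A` just once. -/
theorem eq_of_conj_of_count (N : Subgroup G) (X A : Finset G) (c : ℕ) (hc : 0 < c)
    (hA : A.card = c) (hX : X.card = Nat.card N)
    (hO : ∀ u ∈ A, c ≤ Nat.card ↥(N ⊓ centralizer ({u} : Set G)))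
    (hcov : ∀ w ∈ X, ∃ u ∈ A, ∃ n ∈ N, w = n * u * n⁻¹)
    {u v : G} (hu : u ∈ A) (hv : v ∈ A) {n₀ : G} (hn₀ : n₀ ∈ N) (huv : v = n₀ * u * n₀⁻¹) :
    u = v := by
  classical
  by_contra hne
  haveI : Fintype G := Fintype.ofFinite _
  haveI : Fintype N := Fintype.ofFinite _
  set O : G → Finset G := fun u => Finset.univ.image (fun n : N => (n : G) * u * (n : G)⁻¹) with hOdef
  have hsub : X ⊆ (A.erase v).biUnion O := by
    intro w hw
    obtain ⟨a, ha, n, hn, rfl⟩ := hcov w hw
    by_cases hav : a = v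
    · subst hav
      refine Finset.mem_biUnion.2 ⟨u, Finset.mem_erase.2 ⟨hne, hu⟩, ?_⟩
      refine Finset.mem_image.2 ⟨⟨n * n₀, N.mul_mem hn hn₀⟩, Finset.mem_univ _, ?_⟩
      rw [huv]
      simp only [Subgroup.coe_mul]
      group
    · refine Finset.mem_biUnion.2 ⟨a, Finset.mem_erase.2 ⟨hav, ha⟩, ?_⟩
      exact Finset.mem_image.2 ⟨⟨n, hn⟩, Finset.mem_univ _, rfl⟩
  have h1 : c * X.card ≤ c * ∑ a ∈ A.erase v, (O a).card :=
    Nat.mul_le_mul_left _ ((Finset.card_le_card hsub).trans Finset.card_biUnion_le)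
  have h2 : c * ∑ a ∈ A.erase v, (O a).card ≤ ∑ _a ∈ A.erase v, Nat.card N := by
    rw [Finset.mul_sum]
    refine Finset.sum_le_sum ?_
    intro a ha
    exact (Nat.mul_le_mul_right _ (hO a (Finset.mem_of_mem_erase ha))).trans
      (card_orbit_mul_le N a)
  rw [Finset.sum_const, Finset.card_erase_of_mem hv, hA, smul_eq_mul] at h2
  have h3 := h1.trans h2
  rw [hX] at h3
  have hNpos : 0 < Nat.card N := Nat.card_pos
  have : (c - 1) * Nat.card N < c * Nat.card N :=
    Nat.mul_lt_mul_of_pos_right (by omega) hNpos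
  omega

theorem result {G : Type*} [Group G] [Finite G] (N : Subgroup G) [N.Normal] (hN : N ≠ ⊤)
    (h : ∀ x : G, x ∉ N → IsPrimePow (orderOf x) ∧ IsCoatom (Subgroup.centralizer ({x} : Set G))) : Group.IsSolvable ↥N := by
  classical
  have hpp : ∀ x : G, x ∉ N → IsPrimePow (orderOf x) := fun x hx => (h x hx).1
  -- the central case
  by_cases hcent : ∀ y : G, y ∉ N → N ≤ centralizer ({y} : Set G)
  · obtain ⟨y₀, hy₀⟩ : ∃ y, y ∉ N := by
      by_contra hall
      push_neg at hall
      exact hN (eq_top_iff.2 fun y _ => hall y)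
    refine isSolvable_of_comm ?_
    rintro ⟨a, ha⟩ ⟨b, hb⟩
    apply Subtype.ext
    show a * b = b * a
    have h1 : Commute (b * y₀) a := by
      have hby : b * y₀ ∉ N := fun hh => hy₀ (by simpa using N.mul_mem (N.inv_mem hb) hh)
      exact (Subgroup.mem_centralizer_singleton_iff.1 (hcent _ hby ha)).symm
    have h2 : Commute y₀ a := (Subgroup.mem_centralizer_singleton_iff.1 (hcent _ hy₀ ha)).symm
    have h3 : Commute b a := by
      have := h1.mul_left h2.inv_left
      simpa [mul_assoc] using this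
    exact h3.eq.symm
  push_neg at hcent
  obtain ⟨x, hxN, hxc⟩ := hcent
  obtain ⟨hxpp, hxco⟩ := h x hxN
  rw [isPrimePow_nat_iff] at hxpp
  obtain ⟨p, k, hp, hk, hpk⟩ := hxpp
  haveI : Fact p.Prime := ⟨hp⟩
  obtain ⟨T, hTdef⟩ : ∃ T, T = centralizer ({x} : Set G) := ⟨_, rfl⟩
  rw [← hTdef] at hxc hxco
  have hxT : x ∈ T := by
    rw [hTdef]; exact Subgroup.mem_centralizer_singleton_iff.2 rfl
  have hcoT : ∀ H : Subgroup G, T ≤ H → H = T ∨ H = ⊤ := by
    intro H hH
    rcases eq_or_lt_of_le hH with e | e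
    · exact Or.inl e.symm
    · exact Or.inr (hxco.2 _ e)
  have hNT : N ⊔ T = ⊤ := by
    rcases hcoT (N ⊔ T) le_sup_right with e | e
    · exact absurd (le_sup_left.trans e.le) hxc
    · exact e
  have hTp : IsPGroup p T := by
    rw [hTdef]
    exact centralizer_isPGroup N hpp hxN hk hpk.symm
  -- the `p`-group case
  by_cases hGp : IsPGroup p G
  · haveI : Group.IsNilpotent N := (hGp.to_subgroup N).isNilpotent
    exact inferInstance
  -- outside elements are `p`-elements
  have hyp : ∀ y : G, y ∉ N → ∃ j, 0 < j ∧ orderOf y = p ^ j := by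
    intro y hy
    have hy' := hpp y hy
    rw [isPrimePow_nat_iff] at hy'
    obtain ⟨q, j, hq, hj, hqj⟩ := hy'
    by_cases hqp : q = p
    · subst hqp
      exact ⟨j, hj, hqj.symm⟩
    exfalso
    apply hy
    have hy2 : y ∈ ((N ⊔ T : Subgroup G) : Set G) := by rw [hNT]; trivial
    rw [sup_comm, Subgroup.mul_normal] at hy2
    obtain ⟨t, ht, n, hn, rfl⟩ := Set.mem_mul.1 hy2
    rw [← QuotientGroup.eq_one_iff]
    obtain ⟨a, ha⟩ := (IsPGroup.iff_orderOf.1 hTp) ⟨t, ht⟩
    have ha' : orderOf t = p ^ a := by simpa [Subgroup.orderOf_mk] using ha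
    have e1 : ((t * n : G) : G ⧸ N) = (t : G ⧸ N) := by
      rw [QuotientGroup.mk_mul, (QuotientGroup.eq_one_iff n).2 hn, mul_one]
    have h1 : ((t * n : G) : G ⧸ N) ^ (p ^ a) = 1 := by
      rw [e1, ← QuotientGroup.mk_pow, ← ha', pow_orderOf_eq_one]
      rfl
    have h2 : ((t * n : G) : G ⧸ N) ^ (q ^ j) = 1 := by
      rw [← QuotientGroup.mk_pow, hqj, pow_orderOf_eq_one]
      rfl
    have hco : Nat.Coprime (p ^ a) (q ^ j) :=
      Nat.Coprime.pow _ _ ((Nat.coprime_primes hp hq).2 (Ne.symm hqp))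
    have := Nat.Coprime.eq_one_of_dvd (hco.coprime_dvd_left (orderOf_dvd_of_pow_eq_one h1))
      (orderOf_dvd_of_pow_eq_one h2)
    exact orderOf_eq_one_iff.1 this
  -- centralizers of outside elements are Sylow subgroups
  have hsyl : ∀ y : G, y ∉ N → ∃ S : Sylow p G, (S : Subgroup G) = centralizer ({y} : Set G) := by
    intro y hy
    obtain ⟨j, hj, hjo⟩ := hyp y hy
    have hCp := centralizer_isPGroup N hpp hy hj hjo
    obtain ⟨S, hS⟩ := hCp.exists_le_sylow
    refine ⟨S, ?_⟩
    rcases eq_or_lt_of_le hS with e | e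
    · exact e.symm
    · exfalso
      have := (h y hy).2.2 _ e
      apply hGp
      have hSp := S.isPGroup'
      rw [this] at hSp
      exact (IsPGroup.of_equiv hSp Subgroup.topEquiv)
  obtain ⟨S₀, hS₀⟩ := hsyl x hxN
  rw [← hTdef] at hS₀
  -- all are conjugate under `N`
  have hconj : ∀ y : G, y ∉ N → ∃ n ∈ N, centralizer ({y} : Set G) =
      T.map (MulAut.conj n).toMonoidHom := by
    intro y hy
    obtain ⟨S, hS⟩ := hsyl y hy
    obtain ⟨g, hg⟩ := MulAction.exists_smul_eq G S₀ S
    have hg2 : g ∈ ((N ⊔ T : Subgroup G) : Set G) := by rw [hNT]; trivial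
    rw [Subgroup.normal_mul] at hg2
    obtain ⟨n, hn, t, ht, rfl⟩ := Set.mem_mul.1 hg2
    refine ⟨n, hn, ?_⟩
    rw [← hS, ← hg]
    rw [← hS₀] at ht ⊢
    ext z
    rw [Sylow.coe_subgroup_smul]
    constructor
    · intro hz
      obtain ⟨w, hw, rfl⟩ := hz
      refine ⟨t * w * t⁻¹, ?_, ?_⟩
      · exact (S₀ : Subgroup G).mul_mem ((S₀ : Subgroup G).mul_mem ht hw) ((S₀ : Subgroup G).inv_mem ht)
      · simp [MulAut.conj_apply, mul_assoc]
    · rintro ⟨w, hw, rfl⟩
      refine ⟨t⁻¹ * w * t, ?_, ?_⟩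
      · exact (S₀ : Subgroup G).mul_mem ((S₀ : Subgroup G).mul_mem ((S₀ : Subgroup G).inv_mem ht) hw) ht
      · simp [MulAut.conj_apply, mul_assoc]
  -- the count
  obtain ⟨P0, hP0⟩ : ∃ P0 : Subgroup G, P0 = T ⊓ N := ⟨_, rfl⟩
  have hP0T : P0 ≤ T := hP0 ▸ inf_le_left
  have hP0N : P0 ≤ N := hP0 ▸ inf_le_right
  have hinfcard : ∀ u : G, u ∉ N → Nat.card ↥(N ⊓ centralizer ({u} : Set G)) = Nat.card P0 := by
    intro u hu
    obtain ⟨n, hn, e⟩ := hconj u hu
    have e2 : N ⊓ centralizer ({u} : Set G) = P0.map (MulAut.conj n).toMonoidHom := by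
      rw [e, hP0]
      ext z
      constructor
      · rintro ⟨hz1, w, hw, rfl⟩
        refine ⟨w, ⟨hw, ?_⟩, rfl⟩
        have : w = n⁻¹ * ((MulAut.conj n).toMonoidHom w) * n := by
          simp [MulAut.conj_apply, mul_assoc]
        rw [this]
        have h3 := (inferInstance : N.Normal).conj_mem _ hz1 n⁻¹
        simpa using h3
      · rintro ⟨w, ⟨hw1, hw2⟩, rfl⟩
        refine ⟨?_, w, hw1, rfl⟩
        exact (inferInstance : N.Normal).conj_mem _ hw2 n
    rw [e2]
    exact Cfsg.Agent.Lib.FF.card_conj P0 n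
  haveI : Fintype P0 := Fintype.ofFinite _
  haveI : Fintype N := Fintype.ofFinite _
  obtain ⟨A, hA⟩ : ∃ A : Finset G, A = Finset.univ.image (fun q : P0 => x * (q : G)) := ⟨_, rfl⟩
  obtain ⟨X, hX⟩ : ∃ X : Finset G, X = Finset.univ.image (fun q : N => x * (q : G)) := ⟨_, rfl⟩
  have hAc : A.card = Nat.card P0 := by
    rw [hA, Finset.card_image_of_injective, Finset.card_univ, Nat.card_eq_fintype_card]
    intro a b hab
    exact Subtype.ext (mul_left_cancel hab)
  have hXc : X.card = Nat.card N := by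
    rw [hX, Finset.card_image_of_injective, Finset.card_univ, Nat.card_eq_fintype_card]
    intro a b hab
    exact Subtype.ext (mul_left_cancel hab)
  have hoN : ∀ n ∈ N, x * n ∉ N := fun n hn hh => hxN (by simpa using N.mul_mem hh (N.inv_mem hn))
  have hmemA : ∀ q ∈ P0, x * q ∈ A := fun q hq => by
    rw [hA]
    exact Finset.mem_image.2 ⟨⟨q, hq⟩, Finset.mem_univ _, rfl⟩
  have hcov : ∀ w ∈ X, ∃ u ∈ A, ∃ n ∈ N, w = n * u * n⁻¹ := by
    intro w hw
    rw [hX] at hw
    obtain ⟨⟨n₂, hn₂⟩, -, rfl⟩ := Finset.mem_image.1 hw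
    have hwN : x * n₂ ∉ N := hoN _ hn₂
    obtain ⟨n, hn, e⟩ := hconj _ hwN
    have hmem : x * n₂ ∈ T.map (MulAut.conj n).toMonoidHom := by
      rw [← e]
      exact Subgroup.mem_centralizer_singleton_iff.2 rfl
    obtain ⟨t, ht, ht2⟩ := hmem
    have ht3 : n * t * n⁻¹ = x * n₂ := ht2
    have hq : x⁻¹ * t ∈ P0 := by
      rw [hP0]
      refine ⟨T.mul_mem (T.inv_mem hxT) ht, ?_⟩
      have : x⁻¹ * t = (x⁻¹ * n⁻¹ * x) * (n₂ * n) := by
        have : t = n⁻¹ * (x * n₂) * n := by rw [← ht3]; group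
        rw [this]
        group
      rw [this]
      refine N.mul_mem ?_ (N.mul_mem hn₂ hn)
      have := (inferInstance : N.Normal).conj_mem _ (N.inv_mem hn) x⁻¹
      simpa using this
    refine ⟨t, ?_, n, hn, ht3.symm⟩
    have := hmemA _ hq
    simpa using this
  have hcpos : 0 < Nat.card P0 := Nat.card_pos
  have hO : ∀ u ∈ A, Nat.card P0 ≤ Nat.card ↥(N ⊓ centralizer ({u} : Set G)) := by
    intro u hu
    rw [hA] at hu
    obtain ⟨⟨q, hq⟩, -, rfl⟩ := Finset.mem_image.1 hu
    rw [hinfcard _ (hoN _ (hP0N hq))]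
  have hcomm : ∀ a ∈ P0, ∀ b ∈ P0, a * b = b * a := by
    intro a ha b hb
    have hax : a * x = x * a := by
      have := hP0T ha
      rw [hTdef] at this
      exact Subgroup.mem_centralizer_singleton_iff.1 this
    have haba : a * b * a⁻¹ ∈ P0 := by
      rw [hP0] at ha hb ⊢
      refine ⟨T.mul_mem (T.mul_mem ha.1 hb.1) (T.inv_mem ha.1), ?_⟩
      exact N.mul_mem (N.mul_mem ha.2 hb.2) (N.inv_mem ha.2)
    have e := eq_of_conj_of_count N X A (Nat.card P0) hcpos hAc hXc hO hcov (hmemA b hb)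
      (hmemA _ haba) (hP0N ha) (by
        calc x * (a * b * a⁻¹) = (x * a) * b * a⁻¹ := by group
          _ = (a * x) * b * a⁻¹ := by rw [hax]
          _ = a * (x * b) * a⁻¹ := by group)
    have e2 : b = a * b * a⁻¹ := mul_left_cancel e
    calc a * b = a * b * a⁻¹ * a := by group
      _ = b * a := by rw [← e2]
  haveI hP0ab : IsMulCommutative P0 := ⟨⟨fun a b => Subtype.ext (hcomm a a.2 b b.2)⟩⟩
  -- normalizers
  have hTnorm : T ≤ normalizer (P0 : Set G) := by
    intro t ht
    refine Cfsg.Agent.Lib.Transfer.mem_normalizer_of_conj_mem ?_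
    intro y hy
    rw [hP0] at hy ⊢
    exact ⟨T.mul_mem (T.mul_mem ht hy.1) (T.inv_mem ht), (inferInstance : N.Normal).conj_mem _ hy.2 t⟩
  obtain ⟨R, hR⟩ : ∃ R : Subgroup G, R = N ⊓ normalizer (P0 : Set G) := ⟨_, rfl⟩
  -- Sylow subgroup of `N`
  obtain ⟨Q, hQ⟩ := Cfsg.Agent.Lib.Core.sylow_inf_normal p N S₀
  rw [hS₀] at hQ
  rcases hcoT (T ⊔ R) le_sup_left with e | e
  · -- Burnside
    have hRT : R ≤ T := le_sup_right.trans e.le
    have hmemQ : ∀ n : N, n ∈ (Q : Subgroup N) ↔ (n : G) ∈ P0 := by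
      intro n
      rw [hQ, Subgroup.mem_subgroupOf, hP0]
      exact ⟨fun hh => ⟨hh, n.2⟩, fun hh => hh.1⟩
    have hnc : normalizer ((Q : Subgroup N) : Set N) ≤ centralizer ((Q : Subgroup N) : Set N) := by
      intro g hg
      have hg1 : (g : G) ∈ normalizer (P0 : Set G) := by
        refine Cfsg.Agent.Lib.Transfer.mem_normalizer_of_conj_mem ?_
        intro y hy
        have hy' : (⟨y, hP0N hy⟩ : N) ∈ (Q : Subgroup N) := (hmemQ _).2 hy
        have := (Subgroup.mem_normalizer_iff.1 hg _).1 hy'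
        exact (hmemQ _).1 this
      have hg2 : (g : G) ∈ P0 := by
        rw [hP0]
        exact ⟨hRT (by rw [hR]; exact ⟨g.2, hg1⟩), g.2⟩
      rw [Subgroup.mem_centralizer_iff]
      intro y hy
      apply Subtype.ext
      exact hcomm _ ((hmemQ _).1 hy) _ hg2
    let f := MonoidHom.transferSylow Q hnc
    have hKnp : ¬ p ∣ Nat.card f.ker := MonoidHom.not_dvd_card_ker_transferSylow Q hnc
    obtain ⟨K', hK'⟩ : ∃ K' : Subgroup G, K' = f.ker.map N.subtype := ⟨_, rfl⟩
    have hK'card : Nat.card K' = Nat.card f.ker := by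
      rw [hK']
      exact Subgroup.card_map_of_injective N.subtype_injective
    have hK'mem : ∀ g : G, g ∈ K' ↔ g ∈ N ∧ (orderOf g).Coprime p := by
      intro g
      rw [hK']
      constructor
      · rintro ⟨k, hk, rfl⟩
        refine ⟨k.2, ?_⟩
        have hd : orderOf k ∣ Nat.card f.ker := by
          have := orderOf_dvd_natCard (⟨k, hk⟩ : f.ker)
          simpa [Subgroup.orderOf_mk] using this
        have hnd : ¬ p ∣ orderOf k := fun hh => hKnp (hh.trans hd)
        have e3 : orderOf (N.subtype k) = orderOf k := by simp [Subgroup.orderOf_coe]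
        rw [e3]
        exact ((Nat.Prime.coprime_iff_not_dvd hp).2 hnd).symm
      · rintro ⟨hg, hc⟩
        refine ⟨⟨g, hg⟩, ?_, rfl⟩
        rw [SetLike.mem_coe, MonoidHom.mem_ker]
        obtain ⟨j, hj⟩ := IsPGroup.iff_orderOf.1 Q.isPGroup' (f ⟨g, hg⟩)
        have hd : orderOf (f ⟨g, hg⟩) ∣ orderOf g := by
          have h10 := orderOf_map_dvd f (⟨g, hg⟩ : N)
          have e10 : orderOf (⟨g, hg⟩ : N) = orderOf g := Subgroup.orderOf_mk g hg
          rwa [e10] at h10
        have h1 : orderOf (f ⟨g, hg⟩) = 1 := by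
          rw [hj] at hd ⊢
          exact Nat.Coprime.eq_one_of_dvd (Nat.Coprime.pow_left _ hc.symm) hd
        exact orderOf_eq_one_iff.1 h1
    haveI hK'n : K'.Normal := by
      refine ⟨fun g hg a => ?_⟩
      rw [hK'mem] at hg ⊢
      refine ⟨(inferInstance : N.Normal).conj_mem _ hg.1 a, ?_⟩
      have e4 : orderOf (a * g * a⁻¹) = orderOf g := by
        have := MulEquiv.orderOf_eq (MulAut.conj a) g
        simpa [MulAut.conj_apply] using this
      rw [e4]
      exact hg.2
    have hK'c : (Nat.card K').Coprime p := by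
      rw [hK'card]
      exact ((Nat.Prime.coprime_iff_not_dvd hp).2 hKnp).symm
    have hsK' := solvable_of_coatom T K' hTp hcoT hK'c
    haveI : Group.IsSolvable f.ker := by
      have e5 : f.ker ≃* (f.ker.map N.subtype) :=
        Subgroup.equivMapOfInjective f.ker N.subtype N.subtype_injective
      rw [hK'] at hsK'
      exact Group.isSolvable_of_isSolvable_injective (f := e5.toMonoidHom) e5.injective
    haveI hQab : IsMulCommutative Q := by
      refine ⟨⟨fun a b => Subtype.ext (Subtype.ext ?_)⟩⟩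
      exact hcomm _ ((hmemQ _).1 a.2) _ ((hmemQ _).1 b.2)
    haveI : Group.IsSolvable Q := by
      refine isSolvable_of_comm ?_
      intro a b
      exact mul_comm' a b
    refine solvable_of_ker_le_range f.ker.subtype f ?_
    rw [Subgroup.range_subtype]
  · have hn : P0.Normal := by
      have htop : (⊤ : Subgroup G) ≤ normalizer (P0 : Set G) := by
        rw [← e]
        exact sup_le hTnorm (hR ▸ inf_le_right)
      exact Subgroup.normalizer_eq_top_iff.1 (top_le_iff.1 htop)
    haveI := hn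
    have hsurj : Function.Surjective (QuotientGroup.mk' P0) := QuotientGroup.mk'_surjective _
    haveI hMbn : (N.map (QuotientGroup.mk' P0)).Normal :=
      Subgroup.Normal.map inferInstance _ hsurj
    have hTb : IsPGroup p (T.map (QuotientGroup.mk' P0)) := hTp.map _
    have hcob : ∀ H : Subgroup (G ⧸ P0), T.map (QuotientGroup.mk' P0) ≤ H →
        H = T.map (QuotientGroup.mk' P0) ∨ H = ⊤ := by
      intro H hH
      have hle : T ≤ H.comap (QuotientGroup.mk' P0) := Subgroup.map_le_iff_le_comap.1 hH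
      rcases hcoT _ hle with e1 | e1
      · left
        rw [← Subgroup.map_comap_eq_self_of_surjective hsurj H, e1]
      · right
        rw [← Subgroup.map_comap_eq_self_of_surjective hsurj H, e1,
          Subgroup.map_top_of_surjective _ hsurj]
    have hMc : (Nat.card (N.map (QuotientGroup.mk' P0))).Coprime p := by
      have e6 : ((QuotientGroup.mk' P0).comp N.subtype).ker = (Q : Subgroup N) := by
        ext n
        rw [MonoidHom.mem_ker, hQ, Subgroup.mem_subgroupOf]
        simp only [MonoidHom.comp_apply, Subgroup.subtype_apply, QuotientGroup.mk'_apply,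
          QuotientGroup.eq_one_iff]
        rw [hP0]
        exact ⟨fun hh => hh.1, fun hh => ⟨hh, n.2⟩⟩
      have e7 : Nat.card (N.map (QuotientGroup.mk' P0)) = (Q : Subgroup N).index := by
        rw [← e6, Subgroup.index_ker, MonoidHom.range_comp, Subgroup.range_subtype]
      rw [e7]
      exact ((Nat.Prime.coprime_iff_not_dvd hp).2 Q.not_dvd_index).symm
    have hsMb := solvable_of_coatom _ _ hTb hcob hMc
    haveI : Group.IsSolvable (P0.subgroupOf N) := by
      refine isSolvable_of_comm ?_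
      intro a b
      exact Subtype.ext (Subtype.ext (hcomm _ a.2 _ b.2))
    refine solvable_of_ker_le_range (P0.subgroupOf N).subtype
      ((QuotientGroup.mk' P0).subgroupMap N) ?_
    intro n hn'
    rw [MonoidHom.mem_ker] at hn'
    have h8 : (QuotientGroup.mk' P0) (n : G) = 1 := congrArg Subtype.val hn'
    have h9 : (n : G) ∈ P0 := (QuotientGroup.eq_one_iff _).1 h8
    exact ⟨⟨n, h9⟩, rfl⟩

end Cfsg.Agent.S3903
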