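import Cfsg.Statements.S3905
import Mathlib
import Cfsg.Agent.Lib.PGroup.MaxCentF
-- import your own Cfsg.Agent.* helpers here

set_option autoImplicit false
open Cfsg

namespace Cfsg.Agent.S3905

/-- Let N be a normal subgroup of the finite group G such that for every element x of N outside the center of N the centralizer C_G(x) is a maximal subgroup of G. Then N/Z(N) is either an elementary abelian p-group for some prime p, or a Frobenius group whose kernel is an elementary abelian normal subgroup and whose complement has prime order. -/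
theorem result {G : Type*} [Group G] [Finite G] (N : Subgroup G) [N.Normal]
    (h : ∀ x : G, x ∈ N → x ∉ Subgroup.centralizer (N : Set G) → IsCoatom (Subgroup.centralizer ({x} : Set G))) :
    (∃ p : ℕ, p.Prime ∧ Cfsg.IsElementaryAbelian p (⊤ : Subgroup (↥N ⧸ Subgroup.center ↥N))) ∨
    (∃ (Q K : Subgroup (↥N ⧸ Subgroup.center ↥N)) (p : ℕ), p.Prime ∧ Cfsg.IsFrobeniusComplement Q ∧ (Nat.card ↥Q).Prime ∧
      K.Normal ∧ (K : Set (↥N ⧸ Subgroup.center ↥N)) = Cfsg.frobeniusKernel Q ∧ Cfsg.IsElementaryAbelian p K) := by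
  have hA := Cfsg.Agent.Lib.PGroup.MaxCent.act_normal N h
  rcases Cfsg.Agent.Lib.PGroup.MaxCent.core hA with ⟨p, hp, hc, he⟩ | ⟨K, Q, p, q, d⟩
  · left
    exact ⟨p, hp, ⟨⟨⟨fun a b => Subtype.ext (hc a b)⟩⟩, fun a _ => he a⟩⟩
  · right
    obtain ⟨h1, h2⟩ := d.frobenius
    refine ⟨Q, K, p, d.hp, h1, ?_, d.normal, h2, ⟨⟨⟨fun a b => Subtype.ext (d.comm a a.2 b b.2)⟩⟩, d.exp⟩⟩
    rw [d.card]; exact d.hq

end Cfsg.Agent.S3905
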