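import Cfsg.Statements.S3908
import Mathlib
import Cfsg.Agent.Lib.PGroup.ConjAb
import Cfsg.Agent.S0016
-- import your own Cfsg.Agent.* helpers here

set_option autoImplicit false
open Cfsg

namespace Cfsg.Agent.S3908

/-- Let G be a finite group in which any two abelian subgroups of the same order are conjugate. Then a Sylow 2-subgroup of G is cyclic, elementary abelian or generalized quaternion, and for an odd prime p a Sylow p-subgroup of G is cyclic or has exponent dividing p. -/
theorem result {G : Type*} [Group G] [Finite G] (hB : ∀ A B : Subgroup G, IsMulCommutative ↥A → IsMulCommutative ↥B → Nat.card ↥A = Nat.card ↥B → ∃ g : G, B = A.map (MulAut.conj g).toMonoidHom) :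
    (∀ P : Sylow 2 G, IsCyclic ↥(P : Subgroup G) ∨ Cfsg.IsElementaryAbelian 2 (P : Subgroup G) ∨ ∃ k : ℕ, Nonempty (↥(P : Subgroup G) ≃* QuaternionGroup (2 ^ k))) ∧
    ∀ (p : ℕ) [Fact p.Prime], p ≠ 2 → ∀ P : Sylow p G, IsCyclic ↥(P : Subgroup G) ∨ ∀ x ∈ (P : Subgroup G), x ^ p = 1 := by
  classical
  have hB' : Cfsg.Agent.Lib.PGroup.ConjAb.HB G := hB
  constructor
  · intro P
    haveI : Fact (Nat.Prime 2) := ⟨Nat.prime_two⟩
    rcases Cfsg.Agent.Lib.PGroup.ConjAb.sylow_dichotomy hB' 2 (P : Subgroup G) P.isPGroup' with h | h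
    · right; left
      refine ⟨?_, h⟩
      refine Cfsg.Agent.Lib.PGroup.isMulCommutative_of_comm ?_
      intro a ha b hb
      have h1 := h a ha
      have h2 := h b hb
      have h3 := h (a * b) (mul_mem ha hb)
      rw [pow_two] at h1 h2 h3
      have ha' : a⁻¹ = a := inv_eq_of_mul_eq_one_left h1
      have hb' : b⁻¹ = b := inv_eq_of_mul_eq_one_left h2
      have h4 : (a * b)⁻¹ = a * b := inv_eq_of_mul_eq_one_left h3
      rw [mul_inv_rev, ha', hb'] at h4
      exact h4.symm
    · rcases Cfsg.Agent.S0016.result 2 P.isPGroup' h with hc | ⟨-, n, hn⟩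
      · exact Or.inl hc
      · exact Or.inr (Or.inr ⟨n, hn⟩)
  · intro p _ hp2 P
    rcases Cfsg.Agent.Lib.PGroup.ConjAb.sylow_dichotomy hB' p (P : Subgroup G) P.isPGroup' with h | h
    · exact Or.inr h
    · rcases Cfsg.Agent.S0016.result p P.isPGroup' h with hc | ⟨h2, -⟩
      · exact Or.inl hc
      · exact absurd h2 hp2


end Cfsg.Agent.S3908
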