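import Cfsg.Statements.S3909
import Cfsg.Agent.Lib.PGroup.Basic
-- import your own Cfsg.Agent.* helpers here

set_option autoImplicit false
open Cfsg

namespace Cfsg.Agent.S3909

/-- Let G be a finite group in which any two abelian subgroups of the same order are conjugate. Let M be a normal subgroup of G. If M contains an element of the same order as a ∈ G, then a ∈ M; and if M is elementary abelian of order p^t with p prime and t ≥ 2, then M is the unique Sylow p-subgroup of G. -/
theorem result {G : Type*} [Group G] [Finite G] (hB : ∀ A B : Subgroup G, IsMulCommutative ↥A → IsMulCommutative ↥B → Nat.card ↥A = Nat.card ↥B → ∃ g : G, B = A.map (MulAut.conj g).toMonoidHom) (M : Subgroup G) [M.Normal] :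
    (∀ a : G, (∃ m ∈ M, orderOf m = orderOf a) → a ∈ M) ∧
    ∀ (p t : ℕ) [Fact p.Prime], 2 ≤ t → Nat.card ↥M = p ^ t → Cfsg.IsElementaryAbelian p M → ∀ P : Sylow p G, (P : Subgroup G) = M := by
  classical
  have hMconj : ∀ g : G, M.map (MulAut.conj g).toMonoidHom ≤ M := by
    rintro g _ ⟨m, hm, rfl⟩
    exact (inferInstance : M.Normal).conj_mem m hm g
  have hcommZ : ∀ x : G, IsMulCommutative (Subgroup.zpowers x) := fun x =>
    ⟨⟨fun a b => by
      obtain ⟨_, i, rfl⟩ := a
      obtain ⟨_, j, rfl⟩ := b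
      apply Subtype.ext
      show x ^ i * x ^ j = x ^ j * x ^ i
      rw [← zpow_add, ← zpow_add, add_comm]⟩⟩
  have hA : ∀ a : G, (∃ m ∈ M, orderOf m = orderOf a) → a ∈ M := by
    rintro a ⟨m, hm, hma⟩
    obtain ⟨g, hg⟩ := hB (Subgroup.zpowers m) (Subgroup.zpowers a) (hcommZ m) (hcommZ a)
      (by rw [Nat.card_zpowers, Nat.card_zpowers, hma])
    have h1 : a ∈ (Subgroup.zpowers m).map (MulAut.conj g).toMonoidHom := by
      rw [← hg]; exact Subgroup.mem_zpowers a
    have h2 : (Subgroup.zpowers m).map (MulAut.conj g).toMonoidHom ≤ M := by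
      refine (Subgroup.map_mono ?_).trans (hMconj g)
      rw [Subgroup.zpowers_le]; exact hm
    exact h2 h1
  refine ⟨hA, ?_⟩
  intro p t _ ht hcard hM P
  have hMp : IsPGroup p M := IsPGroup.of_card hcard
  have hMP : M ≤ P := by
    have h1 : IsPGroup p ↥((P : Subgroup G) ⊔ M) := P.2.to_sup_of_normal_right hMp
    have := P.is_maximal' h1 le_sup_left
    rw [← this]; exact le_sup_right
  have hexp : ∀ m ∈ M, m ^ p = 1 := hM.2
  -- no elements of order `p²`
  have hnop2 : ∀ x : G, orderOf x ≠ p ^ 2 := by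
    intro x hx
    have hdvd : p ^ 2 ∣ Nat.card M := by
      rw [hcard]; exact pow_dvd_pow p ht
    obtain ⟨E, hE⟩ := Sylow.exists_subgroup_card_pow_prime p hdvd
    let E' : Subgroup G := E.map M.subtype
    have hE' : Nat.card E' = p ^ 2 := by
      rw [Subgroup.card_map_of_injective M.subtype_injective, hE]
    have hE'M : E' ≤ M := Subgroup.map_subtype_le E
    have hE'c : IsMulCommutative E' := by
      refine ⟨⟨fun a b => ?_⟩⟩
      apply Subtype.ext
      have := hM.1.is_comm.comm ⟨a.1, hE'M a.2⟩ ⟨b.1, hE'M b.2⟩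
      show (a : G) * b = b * a
      exact congrArg Subtype.val this
    obtain ⟨g, hg⟩ := hB E' (Subgroup.zpowers x) hE'c (hcommZ x)
      (by rw [hE', Nat.card_zpowers, hx])
    have h1 : x ∈ M := by
      have h2 : x ∈ E'.map (MulAut.conj g).toMonoidHom := by
        rw [← hg]; exact Subgroup.mem_zpowers x
      exact ((Subgroup.map_mono hE'M).trans (hMconj g)) h2
    have h3 := hexp x h1
    have h4 : p ^ 2 ∣ p := by
      rw [← hx]; exact orderOf_dvd_of_pow_eq_one h3
    have hp := (Fact.out : p.Prime)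
    have := Nat.le_of_dvd hp.pos h4
    nlinarith [hp.two_le]
  apply le_antisymm _ hMP
  intro x hx
  obtain ⟨k, hk⟩ : ∃ k, orderOf x = p ^ k := by
    obtain ⟨k, hk⟩ := P.2 ⟨x, hx⟩
    have h5 : orderOf x ∣ p ^ k := orderOf_dvd_of_pow_eq_one (by simpa using congrArg Subtype.val hk)
    obtain ⟨j, -, hj⟩ := (Nat.dvd_prime_pow Fact.out).mp h5
    exact ⟨j, hj⟩
  have hk2 : k ≤ 1 := by
    by_contra hk2
    push Not at hk2
    have h6 : orderOf (x ^ p ^ (k - 2)) = p ^ 2 := by
      rw [orderOf_pow_of_dvd (by exact (pow_ne_zero _ (Fact.out : p.Prime).ne_zero)) (by rw [hk]; exact pow_dvd_pow p (by omega)), hk]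
      rw [Nat.pow_div (by omega) (Fact.out : p.Prime).pos]
      congr 1
      omega
    exact hnop2 _ h6
  have hk01 : k = 0 ∨ k = 1 := by omega
  rcases hk01 with rfl | rfl
  · rw [pow_zero, orderOf_eq_one_iff] at hk
    rw [hk]; exact one_mem _
  · apply hA
    have hd : p ∣ Nat.card M := by
      rw [hcard]; exact dvd_pow_self p (by omega)
    obtain ⟨m, hm⟩ := exists_prime_orderOf_dvd_card' p hd
    exact ⟨m, m.2, by rw [Subgroup.orderOf_coe, hm, hk, pow_one]⟩

end Cfsg.Agent.S3909
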