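import Cfsg.Statements.S3910
import Cfsg.Agent.Lib.PGroup.MaxNormal
import Cfsg.Agent.Lib.FF.SylowIn
-- import your own Cfsg.Agent.* helpers here

set_option autoImplicit false
open Cfsg Subgroup

namespace Cfsg.Agent.S3910

/-- A finite nilpotent group in which any two abelian subgroups of the same order are conjugate is cyclic. -/
theorem result {G : Type*} [Group G] [Finite G] (hB : ∀ A B : Subgroup G, IsMulCommutative ↥A → IsMulCommutative ↥B → Nat.card ↥A = Nat.card ↥B → ∃ g : G, B = A.map (MulAut.conj g).toMonoidHom) (hnil : Group.IsNilpotent G) : IsCyclic G := by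
  classical
  have hcomZ := Cfsg.Agent.Lib.PGroup.isMulCommutative_zpowers (G := G)
  obtain ⟨A, hAn, hAc, hC⟩ := Cfsg.Agent.Lib.PGroup.exists_normal_abelian_self_centralizing (G := G)
  -- normal cyclic subgroups
  have hnorm : ∀ (D : Subgroup G), D.Normal → IsMulCommutative D → ∀ x : G,
      Nat.card (zpowers x) = Nat.card D → zpowers x = D := by
    intro D hD hDc x hx
    obtain ⟨g, hg⟩ := hB D (zpowers x) hDc (hcomZ x) hx.symm
    rw [hg]
    have e : D.map (MulAut.conj g).toMonoidHom = D := Cfsg.Agent.Lib.FF.normal_conj_eq g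
    exact e
  -- `A` is cyclic
  have hAcyc : IsCyclic A := by
    letI : CommGroup A := { (inferInstance : Group A) with mul_comm := hAc.is_comm.comm }
    apply Cfsg.Agent.Lib.PGroup.isCyclic_of_card_pow_prime_le
    intro q hq
    let E : Subgroup A := (powMonoidHom q : A →* A).ker
    let E' : Subgroup G := E.map A.subtype
    have hE'mem : ∀ u, u ∈ E' ↔ u ∈ A ∧ u ^ q = 1 := by
      intro u
      constructor
      · rintro ⟨v, hv, rfl⟩
        refine ⟨v.2, ?_⟩
        have : v ^ q = 1 := hv
        simpa using congrArg Subtype.val this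
      · rintro ⟨h1, h2⟩
        refine ⟨⟨u, h1⟩, ?_, rfl⟩
        apply MonoidHom.mem_ker.mpr
        apply Subtype.ext
        exact h2
    have hE'n : E'.Normal := by
      constructor
      intro u hu g
      rw [hE'mem] at hu ⊢
      refine ⟨hAn.conj_mem u hu.1 g, ?_⟩
      rw [conj_pow, hu.2]
      group
    have hcardE : Nat.card E = Nat.card E' :=
      (Subgroup.card_map_of_injective A.subtype_injective).symm
    show Nat.card E ≤ q
    rw [hcardE]
    by_cases hE1 : E' = ⊥
    · rw [hE1, Subgroup.card_bot]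
      exact hq.one_lt.le
    · have h2 := Cfsg.Agent.Lib.Core.normal_inf_center_ne_bot E' hE1
      obtain ⟨⟨z, hzE, hzZ⟩, hz1⟩ := Subgroup.ne_bot_iff_exists_ne_one.mp h2
      have hz1' : z ≠ 1 := fun h => hz1 (Subtype.ext h)
      have hz2 := ((hE'mem z).mp hzE).2
      have hzo : orderOf z = q := by
        have : Fact q.Prime := ⟨hq⟩
        exact orderOf_eq_prime hz2 hz1'
      have hZn : (zpowers z).Normal := by
        constructor
        rintro _ ⟨i, rfl⟩ g
        refine ⟨i, ?_⟩
        have hzZ' : z ∈ center G := hzZ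
        have h3 : z ^ i ∈ center G := zpow_mem hzZ' i
        have h4 := Subgroup.mem_center_iff.mp h3 g
        show z ^ i = g * (fun n : ℤ => z ^ n) i * g⁻¹
        simp only
        rw [h4, mul_inv_cancel_right]
      have hle : E' ≤ zpowers z := by
        intro u hu
        by_cases hu1 : u = 1
        · rw [hu1]; exact one_mem _
        · have hu2 := ((hE'mem u).mp hu).2
          have huo : orderOf u = q := by
            have : Fact q.Prime := ⟨hq⟩
            exact orderOf_eq_prime hu2 hu1
          have h3 := hnorm (zpowers z) hZn (hcomZ z) u (by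
            rw [Nat.card_zpowers, Nat.card_zpowers, huo, hzo])
          rw [← h3]
          exact mem_zpowers u
      have := Subgroup.card_le_of_le hle
      rwa [Nat.card_zpowers, hzo] at this
  obtain ⟨a₀, ha₀⟩ := hAcyc.exists_generator
  let a : G := a₀
  have haA : a ∈ A := a₀.2
  have hAeq : A = zpowers a := by
    apply le_antisymm
    · intro u hu
      obtain ⟨i, hi⟩ := ha₀ ⟨u, hu⟩
      exact ⟨i, by simpa using congrArg Subtype.val hi⟩
    · rw [Subgroup.zpowers_le]; exact haA
  have han : orderOf a = Nat.card A := by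
    rw [hAeq, Nat.card_zpowers]
  -- powers of `a` generate normal subgroups
  have hDn : ∀ m : ℕ, (zpowers (a ^ m)).Normal := by
    intro m
    constructor
    rintro _ ⟨i, rfl⟩ g
    have h1 : g * a * g⁻¹ ∈ A := hAn.conj_mem a haA g
    rw [hAeq] at h1
    obtain ⟨r, hr⟩ := h1
    refine ⟨r * i, ?_⟩
    have hr' : a ^ r = g * a * g⁻¹ := hr
    show (a ^ m) ^ (r * i) = g * ((a ^ m) ^ i) * g⁻¹
    rw [← zpow_natCast a m, ← zpow_mul, ← zpow_mul]
    have e2 : a ^ ((m : ℤ) * (r * i)) = (a ^ r) ^ ((m : ℤ) * i) := by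
      rw [← zpow_mul]; congr 1; ring
    rw [e2, hr', conj_zpow]
  -- `G = A`
  have htop : A = ⊤ := by
    by_contra hne
    -- an element of prime order in the quotient
    have hQnt : Nontrivial (G ⧸ A) := by
      rw [QuotientGroup.nontrivial_iff]
      exact hne
    obtain ⟨p, hp, hpd⟩ := Nat.exists_prime_and_dvd (n := Nat.card (G ⧸ A)) (by
      intro h
      have := Nat.card_eq_one_iff_unique.mp h
      exact not_nontrivial_iff_subsingleton.mpr this.1 hQnt)
    have : Fact p.Prime := ⟨hp⟩
    obtain ⟨gbar, hgbar⟩ := exists_prime_orderOf_dvd_card' p hpd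
    obtain ⟨g, rfl⟩ := QuotientGroup.mk'_surjective A gbar
    have hg0 : orderOf g ≠ 0 := (orderOf_pos g).ne'
    obtain ⟨e, k₁, hk₁, hg⟩ := Nat.exists_eq_pow_mul_and_not_dvd hg0 p hp.ne_one
    let x : G := g ^ k₁
    have hk₁0 : k₁ ≠ 0 := by
      rintro rfl
      rw [mul_zero] at hg
      exact hg0 hg
    have hxo : orderOf x = p ^ e := by
      show orderOf (g ^ k₁) = p ^ e
      rw [orderOf_pow_of_dvd hk₁0 (by rw [hg]; exact dvd_mul_left k₁ _), hg]
      exact Nat.mul_div_cancel _ (Nat.pos_of_ne_zero hk₁0)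
    have hxA : x ∉ A := by
      intro h
      apply hk₁
      rw [← hgbar]
      apply orderOf_dvd_of_pow_eq_one
      rw [← map_pow]
      exact (QuotientGroup.eq_one_iff _).mpr h
    have hxpA : x ^ p ∈ A := by
      rw [← QuotientGroup.eq_one_iff]
      show QuotientGroup.mk' A ((g ^ k₁) ^ p) = 1
      rw [← pow_mul, mul_comm, pow_mul, map_pow, map_pow, ← hgbar, pow_orderOf_eq_one, one_pow]
    have he0 : e ≠ 0 := by
      rintro rfl
      rw [pow_zero, orderOf_eq_one_iff] at hxo
      exact hxA (by rw [hxo]; exact one_mem _)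
    have hxP : IsPGroup p (zpowers x) := IsPGroup.of_card (n := e) (by rw [Nat.card_zpowers, hxo])
    -- decompose the order of `a`
    have han0 : orderOf a ≠ 0 := (orderOf_pos a).ne'
    obtain ⟨f, n₁, hn₁, hn⟩ := Nat.exists_eq_pow_mul_and_not_dvd han0 p hp.ne_one
    have hn₁0 : n₁ ≠ 0 := by
      rintro rfl
      rw [mul_zero] at hn
      exact han0 hn
    by_cases hef : e ≤ f
    · -- a normal cyclic subgroup of the same order
      obtain ⟨c, hc⟩ : p ^ e ∣ orderOf a := by
        rw [hn]; exact (pow_dvd_pow p hef).trans (dvd_mul_right _ _)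
      have hc0 : c ≠ 0 := by
        rintro rfl
        rw [mul_zero] at hc
        exact han0 hc
      have hdo : orderOf (a ^ c) = p ^ e := by
        rw [orderOf_pow_of_dvd hc0 (by rw [hc]; exact dvd_mul_left c _), hc]
        exact Nat.mul_div_cancel _ (Nat.pos_of_ne_zero hc0)
      have h1 := hnorm (zpowers (a ^ c)) (hDn c) (hcomZ _) x (by
        rw [Nat.card_zpowers, Nat.card_zpowers, hdo, hxo])
      apply hxA
      have h2 : x ∈ zpowers (a ^ c) := by rw [← h1]; exact mem_zpowers x
      have h3 : zpowers (a ^ c) ≤ A := by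
        rw [Subgroup.zpowers_le]; exact pow_mem haA c
      exact h3 h2
    · push Not at hef
      -- `x ^ p` has order `p ^ (e - 1)`
      obtain ⟨e', rfl⟩ : ∃ e', e = e' + 1 := ⟨e - 1, by omega⟩
      have hxpo : orderOf (x ^ p) = p ^ e' := by
        rw [orderOf_pow_of_dvd hp.ne_zero (by rw [hxo]; exact dvd_pow_self p (by omega)), hxo]
        rw [pow_succ]
        exact Nat.mul_div_cancel _ hp.pos
      have hdvd : p ^ e' ∣ orderOf a := by
        rw [← hxpo, han]
        have : orderOf (⟨x ^ p, hxpA⟩ : A) = orderOf (x ^ p) := Subgroup.orderOf_mk _ _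
        rw [← this]
        exact orderOf_dvd_natCard _
      have hef' : e' ≤ f := by
        rw [hn] at hdvd
        have hc : Nat.Coprime (p ^ e') n₁ := ((Nat.Prime.coprime_iff_not_dvd hp).mpr hn₁).pow_left e'
        have h1 := hc.dvd_of_dvd_mul_right hdvd
        exact (Nat.pow_dvd_pow_iff_le_right hp.one_lt).mp h1
      have hfe : f = e' := by omega
      subst hfe
      -- the `p`-part of `a`
      have hdo : orderOf (a ^ n₁) = p ^ f := by
        rw [orderOf_pow_of_dvd hn₁0 (by rw [hn]; exact dvd_mul_left n₁ _), hn]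
        exact Nat.mul_div_cancel _ (Nat.pos_of_ne_zero hn₁0)
      have h1 := hnorm (zpowers (a ^ n₁)) (hDn n₁) (hcomZ _) (x ^ p) (by
        rw [Nat.card_zpowers, Nat.card_zpowers, hdo, hxpo])
      have h2 : a ^ n₁ ∈ zpowers (x ^ p) := by rw [h1]; exact mem_zpowers _
      obtain ⟨i, hi⟩ := h2
      have hi' : (x ^ p) ^ i = a ^ n₁ := hi
      have hc1 : Commute x (a ^ n₁) := by
        rw [← hi']
        have h3 : Commute x (x ^ p) := (Commute.refl x).pow_right p
        exact h3.zpow_right i
      -- the `p'`-part of `a`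
      have hpo : orderOf (a ^ p ^ f) = n₁ := by
        rw [orderOf_pow_of_dvd (pow_ne_zero _ hp.ne_zero) (by rw [hn]; exact dvd_mul_right _ _), hn]
        exact Nat.mul_div_cancel_left _ (pow_pos hp.pos _)
      have hc2 : Commute x (a ^ p ^ f) :=
        Cfsg.Agent.Lib.PGroup.commute_of_nilpotent_of_coprime hxP (by
          rw [hpo]
          exact ((Nat.Prime.coprime_iff_not_dvd hp).mpr hn₁).symm)
      -- so `x` commutes with `a`
      have hcop : Nat.Coprime n₁ (p ^ f) :=
        (((Nat.Prime.coprime_iff_not_dvd hp).mpr hn₁).symm).pow_right f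
      have hac : Commute x a := by
        have h3 : (n₁ : ℤ) * Nat.gcdA n₁ (p ^ f) + (p ^ f : ℕ) * Nat.gcdB n₁ (p ^ f) = 1 := by
          have := Nat.gcd_eq_gcd_ab n₁ (p ^ f)
          rw [hcop] at this
          push_cast at this ⊢
          linarith
        have h4 : a = (a ^ n₁) ^ (Nat.gcdA n₁ (p ^ f)) * (a ^ p ^ f) ^ (Nat.gcdB n₁ (p ^ f)) := by
          rw [← zpow_natCast a n₁, ← zpow_natCast a (p ^ f), ← zpow_mul, ← zpow_mul, ← zpow_add, h3,
            zpow_one]
        rw [h4]
        exact (hc1.zpow_right _).mul_right (hc2.zpow_right _)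
      apply hxA
      apply hC
      apply Subgroup.mem_centralizer_iff.mpr
      intro u hu
      rw [hAeq] at hu
      obtain ⟨i, rfl⟩ := hu
      exact ((hac.zpow_right i).eq).symm
  rw [htop] at hAcyc
  exact (Subgroup.topEquiv (G := G)).isCyclic.mp hAcyc

end Cfsg.Agent.S3910
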