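import Cfsg.Statements.S3917
import Cfsg.Agent.Lib.PGroup.Basic
-- import your own Cfsg.Agent.* helpers here

set_option autoImplicit false
open Cfsg

namespace Cfsg.Agent.S3917

/-- Say that a group has self-centralizing non-cyclic subgroups when every non-cyclic subgroup H satisfies C_G(H) ≤ H. A finite abelian group with self-centralizing non-cyclic subgroups is cyclic or elementary abelian of order p² for a prime p. -/
theorem result {G : Type*} [CommGroup G] [Finite G] (hX : (∀ H : Subgroup G, ¬ IsCyclic ↥H → Subgroup.centralizer (H : Set G) ≤ H)) :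
    IsCyclic G ∨ ∃ p : ℕ, p.Prime ∧ Nat.card G = p ^ 2 ∧ Monoid.exponent G = p := by
  classical
  by_cases hcyc : IsCyclic G
  · exact Or.inl hcyc
  right
  -- non-cyclic subgroups are everything
  have htop : ∀ H : Subgroup G, ¬ IsCyclic ↥H → H = ⊤ := by
    intro H hH
    have h1 := hX H hH
    have h2 : Subgroup.centralizer (H : Set G) = ⊤ := by
      rw [eq_top_iff]
      intro x _
      apply Subgroup.mem_centralizer_iff.mpr
      intro h _
      exact mul_comm h x
    rw [h2] at h1
    exact top_le_iff.mp h1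
  -- an element of maximal order
  have he0 : Monoid.exponent G ≠ 0 := Monoid.exponent_ne_zero_of_finite
  have hex : Monoid.ExponentExists G := Monoid.ExponentExists.of_finite
  obtain ⟨g, hg⟩ := Monoid.exists_orderOf_eq_exponent hex
  set e := Monoid.exponent G with he
  have hZ : Subgroup.zpowers g ≠ ⊤ := by
    intro h
    apply hcyc
    exact ⟨g, fun x => by
      have : x ∈ Subgroup.zpowers g := by rw [h]; trivial
      exact this⟩
  -- an element of prime order in the quotient
  have hQnt : Nontrivial (G ⧸ Subgroup.zpowers g) := by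
    rw [QuotientGroup.nontrivial_iff]
    exact hZ
  obtain ⟨q, hq, hqd⟩ := Nat.exists_prime_and_dvd (n := Nat.card (G ⧸ Subgroup.zpowers g)) (by
    intro h
    have := Nat.card_eq_one_iff_unique.mp h
    exact not_nontrivial_iff_subsingleton.mpr this.1 hQnt)
  have : Fact q.Prime := ⟨hq⟩
  obtain ⟨xbar, hxbar⟩ := exists_prime_orderOf_dvd_card' q hqd
  obtain ⟨x, rfl⟩ := QuotientGroup.mk'_surjective (Subgroup.zpowers g) xbar
  have hxZ : x ∉ Subgroup.zpowers g := by
    intro h
    have h1 : QuotientGroup.mk' (Subgroup.zpowers g) x = 1 := (QuotientGroup.eq_one_iff x).mpr h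
    rw [h1, orderOf_one] at hxbar
    exact hq.one_lt.ne hxbar
  have hxq : x ^ q ∈ Subgroup.zpowers g := by
    rw [← QuotientGroup.eq_one_iff]
    have : QuotientGroup.mk' (Subgroup.zpowers g) (x ^ q) = 1 := by
      rw [map_pow, ← hxbar, pow_orderOf_eq_one]
    exact this
  -- `q ∣ e`
  have hxe : x ^ e = 1 := Monoid.pow_exponent_eq_one x
  have hqe : q ∣ e := by
    rw [← hxbar]
    apply orderOf_dvd_of_pow_eq_one
    rw [← map_pow, hxe, map_one]
  obtain ⟨f, hf⟩ := hqe
  have hf0 : f ≠ 0 := by
    rintro rfl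
    exact he0 (by rw [hf, mul_zero])
  obtain ⟨a, ha⟩ := Subgroup.mem_zpowers_iff.mp hxq
  -- `x ^ q = g ^ a` with `q ∣ a`
  have hqa : (q : ℤ) ∣ a := by
    have h1 : g ^ (a * f) = 1 := by
      rw [zpow_mul, ha, zpow_natCast, ← pow_mul, ← hf, hxe]
    have h2 := orderOf_dvd_iff_zpow_eq_one.mpr h1
    rw [hg, hf] at h2
    push_cast at h2
    have hf' : (f : ℤ) ≠ 0 := by exact_mod_cast hf0
    exact (mul_dvd_mul_iff_right hf').mp h2
  obtain ⟨b, hb⟩ := hqa
  let y : G := x * g ^ (-b)
  have hyq : y ^ q = 1 := by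
    show (x * g ^ (-b)) ^ q = 1
    rw [mul_pow, ← zpow_natCast (g ^ (-b)), ← zpow_mul]
    have e1 : (-b) * (q : ℤ) = -a := by rw [hb]; ring
    rw [e1, zpow_neg, ha, mul_inv_cancel]
  have hyZ : y ∉ Subgroup.zpowers g := by
    intro h
    apply hxZ
    have : x = y * g ^ b := by
      show x = x * g ^ (-b) * g ^ b
      rw [mul_assoc, ← zpow_add]; simp
    rw [this]
    exact mul_mem h (Subgroup.zpow_mem_zpowers g b)
  let z : G := g ^ f
  have hzq : z ^ q = 1 := by
    show (g ^ f) ^ q = 1
    rw [← pow_mul, mul_comm, ← hf, ← hg, pow_orderOf_eq_one]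
  have hzord : orderOf z = q := by
    show orderOf (g ^ f) = q
    rw [orderOf_pow_of_dvd hf0 (by rw [hg, hf]; exact dvd_mul_left f q), hg, hf]
    exact Nat.mul_div_cancel _ (Nat.pos_of_ne_zero hf0)
  -- the `q`-torsion
  let H : Subgroup G := (powMonoidHom q : G →* G).ker
  have hHmem : ∀ u, u ∈ H ↔ u ^ q = 1 := fun u => MonoidHom.mem_ker
  have hHc : ¬ IsCyclic ↥H := by
    intro hH
    -- the generator
    obtain ⟨c, hc⟩ := hH.exists_generator
    have hcq : orderOf c ∣ q := by
      apply orderOf_dvd_of_pow_eq_one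
      apply Subtype.ext
      exact (hHmem _).mp c.2
    have hzH : z ∈ H := (hHmem z).mpr hzq
    have hyH : y ∈ H := (hHmem y).mpr hyq
    have hcard : Nat.card H = orderOf c := by
      rw [← Nat.card_zpowers c]
      have : Subgroup.zpowers c = ⊤ := by
        rw [eq_top_iff]; intro u _; exact hc u
      rw [this, Subgroup.card_top]
    -- `zpowers z = H`
    have hH1 : (Subgroup.zpowers z).subgroupOf H = ⊤ := by
      have hle : Subgroup.zpowers z ≤ H := by
        rw [Subgroup.zpowers_le]; exact hzH
      apply Subgroup.eq_top_of_card_eq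
      have e1 : Nat.card ↥((Subgroup.zpowers z).subgroupOf H) = Nat.card (Subgroup.zpowers z) :=
        Nat.card_congr (Subgroup.subgroupOfEquivOfLe hle).toEquiv
      rw [e1, Nat.card_zpowers, hzord, hcard]
      have h1 : q ∣ Nat.card H := by
        rw [← hzord]
        have : orderOf (⟨z, hzH⟩ : H) = orderOf z := Subgroup.orderOf_mk _ _
        rw [← this]
        exact orderOf_dvd_natCard _
      rw [hcard] at h1
      exact (Nat.dvd_antisymm h1 hcq)
    have hy' : (⟨y, hyH⟩ : H) ∈ (Subgroup.zpowers z).subgroupOf H := by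
      rw [hH1]; trivial
    have hy'' : y ∈ Subgroup.zpowers z := hy'
    apply hyZ
    have : Subgroup.zpowers z ≤ Subgroup.zpowers g := by
      rw [Subgroup.zpowers_le]
      exact Subgroup.npow_mem_zpowers g f
    exact this hy''
  have hHtop := htop H hHc
  have hall : ∀ u : G, u ^ q = 1 := fun u => (hHmem u).mp (by rw [hHtop]; trivial)
  have heq : e = q := by
    apply Nat.dvd_antisymm
    · exact Monoid.exponent_dvd_of_forall_pow_eq_one hall
    · exact ⟨f, hf⟩
  refine ⟨q, hq, ?_, heq⟩
  -- the order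
  have hgord : Nat.card (Subgroup.zpowers g) = q := by
    rw [Nat.card_zpowers, hg, heq]
  have hyord : orderOf y = q := by
    apply orderOf_eq_prime (hyq)
    intro h
    exact hyZ (by rw [h]; exact one_mem _)
  have hyc : Nat.card (Subgroup.zpowers y) = q := by rw [Nat.card_zpowers, hyord]
  -- the join of the two is non-cyclic
  have hJ : Subgroup.zpowers g ⊔ Subgroup.zpowers y = ⊤ := by
    apply htop
    intro hJc
    obtain ⟨c, hc⟩ := hJc.exists_generator
    have hcq : orderOf c ∣ q := by
      apply orderOf_dvd_of_pow_eq_one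
      apply Subtype.ext
      exact hall _
    have hcard : Nat.card ↥(Subgroup.zpowers g ⊔ Subgroup.zpowers y) = orderOf c := by
      rw [← Nat.card_zpowers c]
      have : Subgroup.zpowers c = ⊤ := by
        rw [eq_top_iff]; intro u _; exact hc u
      rw [this, Subgroup.card_top]
    have hle : Subgroup.zpowers g ≤ Subgroup.zpowers g ⊔ Subgroup.zpowers y := le_sup_left
    have h1 : Nat.card ↥(Subgroup.zpowers g ⊔ Subgroup.zpowers y) ≤ q := by
      rw [hcard]; exact Nat.le_of_dvd hq.pos hcq
    have h2 : Subgroup.zpowers g = Subgroup.zpowers g ⊔ Subgroup.zpowers y :=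
      Subgroup.eq_of_le_of_card_ge hle (by rw [hgord]; exact h1)
    apply hyZ
    rw [h2]
    exact (le_sup_right : Subgroup.zpowers y ≤ _) (Subgroup.mem_zpowers y)
  have hinf : Subgroup.zpowers g ⊓ Subgroup.zpowers y = ⊥ := by
    have hdvd : Nat.card ↥(Subgroup.zpowers g ⊓ Subgroup.zpowers y) ∣ q := by
      rw [← hyc]
      exact Subgroup.card_dvd_of_le inf_le_right
    rcases (Nat.dvd_prime hq).mp hdvd with h1 | h1
    · exact Subgroup.eq_bot_of_card_eq _ h1
    · exfalso
      have h2 : Subgroup.zpowers g ⊓ Subgroup.zpowers y = Subgroup.zpowers y :=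
        Subgroup.eq_of_le_of_card_ge inf_le_right (by rw [h1, hyc])
      apply hyZ
      have h3 : y ∈ Subgroup.zpowers g ⊓ Subgroup.zpowers y := by
        rw [h2]; exact Subgroup.mem_zpowers y
      exact h3.1
  have hNn : (Subgroup.zpowers g).Normal := inferInstance
  have h1 := Subgroup.relIndex_sup_left (Subgroup.zpowers y) (Subgroup.zpowers g)
  rw [hJ, Subgroup.relIndex_top_right] at h1
  have h2 := Cfsg.Agent.Lib.PGroup.card_inf_mul_relIndex (Subgroup.zpowers g) (Subgroup.zpowers y)
  rw [hinf, Subgroup.card_bot, one_mul, hyc] at h2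
  have h3 := Subgroup.card_mul_index (Subgroup.zpowers g)
  rw [h1, h2, hgord] at h3
  rw [← h3, sq]

end Cfsg.Agent.S3917
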