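import Cfsg.Statements.S3918
import Cfsg.Agent.Lib.PGroup.OddPGroup
import Cfsg.Agent.Lib.PGroup.Sylow
-- import your own Cfsg.Agent.* helpers here

set_option autoImplicit false
open Cfsg Subgroup Cfsg.Agent.Lib.PGroup

namespace Cfsg.Agent.S3918

/-- Say that a group has self-centralizing non-cyclic subgroups when every non-cyclic subgroup H satisfies C_G(H) ≤ H. For an odd prime p, a finite non-abelian p-group has self-centralizing non-cyclic subgroups if and only if it has order p³. -/
theorem result {G : Type*} [Group G] [Finite G] {p : ℕ} [Fact p.Prime] (hp : p ≠ 2) (hG : IsPGroup p G) (hna : ¬ IsMulCommutative G) :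
    (∀ H : Subgroup G, ¬ IsCyclic ↥H → Subgroup.centralizer (H : Set G) ≤ H) ↔ Nat.card G = p ^ 3 := by
  classical
  have hpp := (Fact.out : p.Prime)
  have hnil : Group.IsNilpotent G := hG.isNilpotent
  constructor
  · intro hself
    obtain ⟨A, hAn, hAc, hC⟩ := exists_normal_abelian_self_centralizing (G := G)
    have hAtop : A ≠ ⊤ := by
      rintro rfl
      apply hna
      refine ⟨⟨fun a b => ?_⟩⟩
      exact comm_of_isMulCommutative hAc (mem_top a) (mem_top b)
    -- `|A| > p`
    have hAcen : ¬ A ≤ center G := by
      intro hle
      apply hAtop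
      rw [eq_top_iff]
      refine le_trans ?_ hC
      intro x _
      apply Subgroup.mem_centralizer_iff.mpr
      intro a ha
      exact (Subgroup.mem_center_iff.mp (hle ha) x).symm
    have hA1 : A ≠ ⊥ := by
      rintro rfl
      exact hAcen bot_le
    obtain ⟨k, hk⟩ := IsPGroup.iff_card.mp (hG.to_subgroup A)
    have hk2 : 2 ≤ k := by
      by_contra hcon
      have hk01 : k = 0 ∨ k = 1 := by omega
      rcases hk01 with rfl | rfl
      · rw [pow_zero] at hk
        exact hA1 (Subgroup.eq_bot_of_card_eq A hk)
      · rw [pow_one] at hk
        exact hAcen (le_center_of_normal_of_card_eq_prime hG A hk)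
    obtain ⟨z, hzA, hzZ, hzo⟩ := exists_central_of_order_prime hG hA1
    have hzp : z ^ p = 1 := by rw [← hzo, pow_orderOf_eq_one]
    have hzleA : zpowers z ≤ A := by rw [Subgroup.zpowers_le]; exact hzA
    -- the main claim
    have hkeq : k = 2 := by
      by_cases hcyc : IsCyclic A
      · -- cyclic case
        obtain ⟨a₀, ha₀⟩ := hcyc.exists_generator
        let a : G := a₀
        have haA : a ∈ A := a₀.2
        have hAeq : A = zpowers a := by
          apply le_antisymm
          · intro u hu
            obtain ⟨i, hi⟩ := ha₀ ⟨u, hu⟩
            exact ⟨i, by simpa using congrArg Subtype.val hi⟩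
          · rw [Subgroup.zpowers_le]; exact haA
        have hao : orderOf a = p ^ k := by
          rw [← hk, hAeq, Nat.card_zpowers]
        obtain ⟨x, hx, hxp⟩ := exists_not_mem_pow_mem hG hAtop
        have hAn' : (zpowers a).Normal := by rw [← hAeq]; exact hAn
        have hC' : centralizer (zpowers a : Set G) ≤ zpowers a := by rw [← hAeq]; exact hC
        rw [hAeq] at hx hxp
        obtain ⟨y, hy1, hy2, hy3⟩ := exists_pow_eq_one_not_mem_of_cyclic_normal hG hp a hAn' hC' hx hxp
        rw [← hAeq] at hy2
        have hyz : y ∉ zpowers z := fun h => hy2 (hzleA h)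
        have hE := hself _ (not_isCyclic_sup_zpowers_central hzZ hzo hy1 hyz)
        have hap : a ^ p ∈ centralizer ((zpowers z ⊔ zpowers y : Subgroup G) : Set G) := by
          apply Subgroup.mem_centralizer_iff.mpr
          intro u hu
          obtain ⟨i, j, rfl⟩ := mem_sup_zpowers_central hzZ hu
          have h1 : z ^ i ∈ center G := zpow_mem hzZ i
          have h2 : Commute (z ^ i) (a ^ p) := (Subgroup.mem_center_iff.mp h1 _).symm
          have h3 : Commute y (a ^ p) := by
            show y * a ^ p = a ^ p * y
            calc y * a ^ p = (y * a ^ p * y⁻¹) * y := by group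
              _ = a ^ p * y := by rw [hy3]
          exact (h2.mul_left (h3.zpow_left j)).eq
        obtain ⟨i, j, hij⟩ := mem_sup_zpowers_central hzZ (hE hap)
        have hyj : y ^ j ∈ A := by
          have h1 : y ^ j = (z ^ i)⁻¹ * a ^ p := by rw [hij]; group
          rw [h1]
          exact mul_mem (inv_mem (zpow_mem hzA i)) (pow_mem haA p)
        have hyj1 := pow_eq_one_of_pow_mem_of_not_mem hy1 hy2 hyj
        have hapz : (a ^ p) ^ p = 1 := by
          rw [hij, hyj1, mul_one, ← zpow_natCast, ← zpow_mul, mul_comm, zpow_mul, zpow_natCast, hzp,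
            one_zpow]
        have hdvd : p ^ k ∣ p ^ 2 := by
          rw [← hao, sq]
          apply orderOf_dvd_of_pow_eq_one
          rw [pow_mul]
          exact hapz
        have := (Nat.pow_dvd_pow_iff_le_right hpp.one_lt).mp hdvd
        omega
      · -- non-cyclic case
        letI : CommGroup A := { (inferInstance : Group A) with mul_comm := hAc.is_comm.comm }
        have hex : ∃ q : ℕ, q.Prime ∧ q < Nat.card ((powMonoidHom q : A →* A).ker) := by
          by_contra hcon
          push Not at hcon
          exact hcyc (isCyclic_of_card_pow_prime_le hcon)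
        obtain ⟨q, hq, hqc⟩ := hex
        have hqp : q = p := by
          by_contra hne
          have hbot : (powMonoidHom q : A →* A).ker = ⊥ := by
            rw [eq_bot_iff]
            intro u hu
            have hu' : u ^ q = 1 := hu
            obtain ⟨m, hm⟩ := IsPGroup.iff_orderOf.mp (hG.to_subgroup A) u
            have h1 : orderOf u ∣ q := orderOf_dvd_of_pow_eq_one hu'
            rw [hm] at h1
            rw [Subgroup.mem_bot, ← orderOf_eq_one_iff, hm]
            cases m with
            | zero => simp
            | succ m =>
              exfalso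
              have h2 : p ∣ q := (dvd_pow_self p (by omega)).trans h1
              exact hne ((Nat.prime_dvd_prime_iff_eq hpp hq).mp h2).symm
          rw [hbot, Subgroup.card_bot] at hqc
          exact absurd hqc (by have := hq.one_lt; omega)
        subst hqp
        -- an element outside `⟨z⟩`
        obtain ⟨w, hwA, hw1, hwz⟩ : ∃ w ∈ A, w ^ q = 1 ∧ w ∉ zpowers z := by
          by_contra hcon
          push Not at hcon
          have hle : ((powMonoidHom q : A →* A).ker).map A.subtype ≤ zpowers z := by
            rintro _ ⟨u, hu, rfl⟩
            have hu' : u ^ q = 1 := hu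
            exact hcon u u.2 (by simpa using congrArg Subtype.val hu')
          have h1 := Subgroup.card_le_of_le hle
          rw [Subgroup.card_map_of_injective A.subtype_injective, Nat.card_zpowers, hzo] at h1
          omega
        have hE := hself _ (not_isCyclic_sup_zpowers_central hzZ hzo hw1 hwz)
        have hEA : zpowers z ⊔ zpowers w ≤ A := sup_le hzleA (by rw [Subgroup.zpowers_le]; exact hwA)
        have hAE : A ≤ zpowers z ⊔ zpowers w := by
          refine le_trans ?_ hE
          intro u hu
          apply Subgroup.mem_centralizer_iff.mpr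
          intro v hv
          exact comm_of_isMulCommutative hAc (hEA hv) hu
        have h1 : Nat.card A ≤ q ^ 2 := by
          rw [← card_sup_zpowers_central hzZ hzo hw1 hwz]
          exact Subgroup.card_le_of_le hAE
        rw [hk] at h1
        have := (Nat.pow_le_pow_iff_right hpp.one_lt).mp h1
        omega
    subst hkeq
    have hle := card_le_of_self_centralizing_card_sq hG hk hC
    obtain ⟨m, hm⟩ := IsPGroup.iff_card.mp hG
    rw [hm] at hle ⊢
    have hm3 := (Nat.pow_le_pow_iff_right hpp.one_lt).mp hle
    have hm4 : m = 3 := by
      by_contra hne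
      apply hna
      have hm2 : m ≤ 2 := by omega
      have h1 : IsCyclic G ∨ Nat.card G = p ^ 2 := by
        rcases (by omega : m = 0 ∨ m = 1 ∨ m = 2) with rfl | rfl | rfl
        · left
          rw [pow_zero] at hm
          have : Subsingleton G := (Nat.card_eq_one_iff_unique.mp hm).1
          infer_instance
        · left
          rw [pow_one] at hm
          exact isCyclic_of_prime_card hm
        · right; exact hm
      rcases h1 with h1 | h1
      · exact h1.isMulCommutative
      · exact IsPGroup.isMulCommutative_of_card_eq_prime_sq h1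
    rw [hm4]
  · intro hcard H hH
    obtain ⟨k, hk⟩ := IsPGroup.iff_card.mp (hG.to_subgroup H)
    have hkle : k ≤ 3 := by
      have h1 := Subgroup.card_subgroup_dvd_card H
      rw [hk, hcard] at h1
      exact (Nat.pow_dvd_pow_iff_le_right hpp.one_lt).mp h1
    have hk2 : 2 ≤ k := by
      by_contra hcon
      apply hH
      rcases (by omega : k = 0 ∨ k = 1) with rfl | rfl
      · rw [pow_zero] at hk
        have : Subsingleton H := (Nat.card_eq_one_iff_unique.mp hk).1
        infer_instance
      · rw [pow_one] at hk
        exact isCyclic_of_prime_card hk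
    rcases (by omega : k = 2 ∨ k = 3) with rfl | rfl
    · -- order `p²`
      intro x hx
      by_contra hxH
      have hHc : IsMulCommutative H := IsPGroup.isMulCommutative_of_card_eq_prime_sq hk
      have hc : IsMulCommutative (H ⊔ zpowers x : Subgroup G) :=
        Cfsg.Agent.Lib.Core.isMulCommutative_sup hHc (isMulCommutative_zpowers x) (by
          rintro a ha _ ⟨i, rfl⟩
          have h1 : x ^ i ∈ centralizer (H : Set G) := zpow_mem hx i
          exact Subgroup.mem_centralizer_iff.mp h1 a ha)
      have hlt : H < H ⊔ zpowers x := by
        refine lt_of_le_of_ne le_sup_left ?_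
        intro h
        apply hxH
        rw [h]
        exact (le_sup_right : zpowers x ≤ H ⊔ zpowers x) (mem_zpowers x)
      have hd : Nat.card ↥(H ⊔ zpowers x : Subgroup G) ∣ p ^ 3 := by
        rw [← hcard]; exact Subgroup.card_subgroup_dvd_card _
      obtain ⟨m, hm3, hm⟩ := (Nat.dvd_prime_pow hpp).mp hd
      have hlt2 := Cfsg.Agent.Lib.PGroup.card_lt_card_of_lt hlt
      rw [hm, hk] at hlt2
      have hm2 := (Nat.pow_lt_pow_iff_right hpp.one_lt).mp hlt2
      have hm4 : m = 3 := by omega
      have htop : H ⊔ zpowers x = ⊤ := Subgroup.eq_top_of_card_eq _ (by rw [hm, hm4, hcard])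
      rw [htop] at hc
      apply hna
      exact ⟨⟨fun a b => comm_of_isMulCommutative hc (mem_top a) (mem_top b)⟩⟩
    · have htop : H = ⊤ := Subgroup.eq_top_of_card_eq _ (by rw [hk, hcard])
      rw [htop]
      exact le_top

end Cfsg.Agent.S3918
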