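import Cfsg.Statements.S3919
import Mathlib
import Cfsg.Agent.S0016
import Cfsg.Agent.Lib.Transfer.MaxClass
import Cfsg.Agent.Lib.Transfer.MaxClass2
import Cfsg.Agent.Lib.Transfer.MaxClass3
import Cfsg.Agent.Lib.PSolv.Basic

set_option autoImplicit false
open Cfsg

namespace Cfsg.Agent.S3919

open Subgroup

/-- In a generalized quaternion group the element `xa 0` has a centralizer of order four. -/
theorem quat_centralizer (m : ℕ) [NeZero m] (g : QuaternionGroup m)
    (hg : g * QuaternionGroup.xa 0 = QuaternionGroup.xa 0 * g) :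
    g ∈ zpowers (QuaternionGroup.xa (0 : ZMod (2 * m))) := by
  have hm : (m : ℕ) ≠ 0 := NeZero.ne m
  have key : ∀ i : ZMod (2 * m), i + i = 0 → i = 0 ∨ i = (m : ZMod (2 * m)) := by
    intro i hi
    haveI : NeZero (2 * m) := ⟨by omega⟩
    obtain ⟨v, hv, rfl⟩ : ∃ v : ℕ, v < 2 * m ∧ i = (v : ZMod (2 * m)) :=
      ⟨i.val, ZMod.val_lt i, (ZMod.natCast_zmod_val i).symm⟩
    have h1 : ((v + v : ℕ) : ZMod (2 * m)) = 0 := by
      push_cast; exact hi
    rw [ZMod.natCast_eq_zero_iff] at h1
    obtain ⟨t, ht⟩ := h1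
    have ht' : v = m * t := by nlinarith
    have ht2 : t = 0 ∨ t = 1 := by
      have h5 : m * t < m * 2 := by rw [← ht']; omega
      have := Nat.lt_of_mul_lt_mul_left h5
      omega
    rcases ht2 with rfl | rfl
    · left
      rw [ht']; simp
    · right
      rw [ht']; simp
  have hx2 : (QuaternionGroup.xa (0 : ZMod (2 * m))) ^ 2 = QuaternionGroup.a (m : ZMod (2 * m)) :=
    QuaternionGroup.xa_sq 0
  cases g with
  | a i =>
    have h1 : QuaternionGroup.xa (0 - i) = QuaternionGroup.xa (0 + i) := by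
      simpa only [QuaternionGroup.a_mul_xa, QuaternionGroup.xa_mul_a] using hg
    have h2 : (0 : ZMod (2 * m)) - i = 0 + i := QuaternionGroup.xa.inj h1
    have h3 : i + i = 0 := by
      have h4 : i + i = (0 + i) - (0 - i) := by ring
      rw [h4, h2]; ring
    rcases key i h3 with rfl | rfl
    · have h5 : QuaternionGroup.a (0 : ZMod (2 * m)) = 1 := rfl
      rw [h5]; exact one_mem _
    · rw [← hx2]
      exact pow_mem (mem_zpowers _) 2
  | xa j =>
    have h1 : QuaternionGroup.a ((m : ZMod (2 * m)) + 0 - j) =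
        QuaternionGroup.a ((m : ZMod (2 * m)) + j - 0) := by
      simpa only [QuaternionGroup.xa_mul_xa] using hg
    have h2 : (m : ZMod (2 * m)) + 0 - j = (m : ZMod (2 * m)) + j - 0 := QuaternionGroup.a.inj h1
    have h3 : j + j = 0 := by
      have h4 : j + j = ((m : ZMod (2 * m)) + j - 0) - ((m : ZMod (2 * m)) + 0 - j) := by ring
      rw [h4, h2]; ring
    rcases key j h3 with rfl | rfl
    · exact mem_zpowers _
    · have h4 : QuaternionGroup.xa ((m : ZMod (2 * m))) =
          (QuaternionGroup.xa (0 : ZMod (2 * m))) ^ 2 * QuaternionGroup.xa (0 : ZMod (2 * m)) := by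
        rw [hx2, QuaternionGroup.a_mul_xa]
        congr 1
        have hz : (m : ZMod (2 * m)) + m = 0 := by
          have h6 : ((2 * m : ℕ) : ZMod (2 * m)) = 0 := ZMod.natCast_self _
          rw [← h6]; push_cast; ring
        have h7 : (0 : ZMod (2 * m)) - m = m := by
          rw [sub_eq_iff_eq_add]; exact hz.symm
        rw [h7]
      rw [h4]
      exact mul_mem (pow_mem (mem_zpowers _) 2) (mem_zpowers _)

theorem class_of_quaternion {G : Type*} [Group G] [Finite G] (n : ℕ) (hG : Nat.card G = 2 ^ n) (k : ℕ)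
    (e : G ≃* QuaternionGroup (2 ^ k)) : Group.nilpotencyClass G = n - 1 := by
  haveI hp2 : Fact (Nat.Prime 2) := ⟨Nat.prime_two⟩
  obtain ⟨t, ht⟩ : ∃ t : G, t = e.symm (QuaternionGroup.xa 0) := ⟨_, rfl⟩
  have hord : orderOf t = 4 := by
    rw [ht, MulEquiv.orderOf_eq, QuaternionGroup.orderOf_xa]
  have hcomm : ∀ x ∈ zpowers t, ∀ y ∈ zpowers t, x * y = y * x := by
    rintro _ ⟨i, rfl⟩ _ ⟨j, rfl⟩
    show t ^ i * t ^ j = t ^ j * t ^ i
    rw [← zpow_add, ← zpow_add, add_comm]
  have hC : centralizer ((zpowers t : Subgroup G) : Set G) = zpowers t := by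
    apply le_antisymm
    · intro g hg
      have h1 : t * g = g * t := (Subgroup.mem_centralizer_iff.mp hg) t (mem_zpowers t)
      have h2 : e g * QuaternionGroup.xa 0 = QuaternionGroup.xa 0 * e g := by
        have h3 := congrArg e h1
        rw [map_mul, map_mul, ht, MulEquiv.apply_symm_apply] at h3
        exact h3.symm
      have h3 := quat_centralizer (2 ^ k) (e g) h2
      obtain ⟨i, hi⟩ := Subgroup.mem_zpowers_iff.mp h3
      refine Subgroup.mem_zpowers_iff.mpr ⟨i, ?_⟩
      apply e.injective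
      rw [map_zpow, ht, MulEquiv.apply_symm_apply]
      exact hi
    · intro g hg
      rw [Subgroup.mem_centralizer_iff]
      intro y hy
      exact hcomm y hy g hg
  refine Cfsg.Agent.Lib.Transfer.class_of_self_centralizing (p := 2) n G hG (zpowers t) ?_ hC
  rw [Nat.card_zpowers, hord]; norm_num

/-- A `2`-group without Klein four subgroups has a unique subgroup of order two. -/
theorem uniq_of_no_klein {G : Type*} [Group G] [Finite G] (h2 : IsPGroup 2 G) [Nontrivial G]
    (hno : ∀ A : Subgroup G, Nat.card A = 4 → IsCyclic A) :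
    ∀ H K : Subgroup G, Nat.card H = 2 → Nat.card K = 2 → H = K := by
  haveI hp2 : Fact (Nat.Prime 2) := ⟨Nat.prime_two⟩
  haveI hcn := h2.center_nontrivial
  have h0 : ∃ z : G, z ∈ center G ∧ orderOf z = 2 := by
    have hzp : IsPGroup 2 (center G) := h2.to_subgroup _
    obtain ⟨k, hk⟩ := IsPGroup.iff_card.mp hzp
    have hk0 : k ≠ 0 := by
      rintro rfl
      have h1 : Nat.card (center G) = 1 := by simpa using hk
      exact (not_subsingleton _) (Nat.card_eq_one_iff_unique.mp h1).1
    have hd : 2 ∣ Nat.card (center G) := by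
      rw [hk]; exact dvd_pow_self 2 hk0
    obtain ⟨z, hz⟩ := exists_prime_orderOf_dvd_card' 2 hd
    exact ⟨z, z.2, by rw [Subgroup.orderOf_coe, hz]⟩
  obtain ⟨z, hzc, hzo⟩ := h0
  have hZ0card : Nat.card (zpowers z) = 2 := by rw [Nat.card_zpowers, hzo]
  haveI hZ0n : (zpowers z).Normal := by
    refine ⟨?_⟩
    rintro _ ⟨i, rfl⟩ g
    have hc : g * z = z * g := Subgroup.mem_center_iff.mp hzc g
    have : g * (fun x => z ^ x) i * g⁻¹ = z ^ i := by
      show g * z ^ i * g⁻¹ = z ^ i
      have hcm : Commute g (z ^ i) := Commute.zpow_right hc i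
      rw [hcm.eq]; group
    rw [this]
    exact zpow_mem (mem_zpowers z) i
  have hzcen : ∀ w ∈ zpowers z, ∀ g, g * w = w * g := by
    rintro _ ⟨i, rfl⟩ g
    exact Commute.zpow_right (Subgroup.mem_center_iff.mp hzc g) i
  have hzsq : ∀ w ∈ zpowers z, w ^ 2 = 1 := by
    intro w hw
    rw [← hZ0card]
    exact orderOf_dvd_iff_pow_eq_one.mp (Subgroup.orderOf_dvd_natCard _ hw)
  -- no second subgroup of order two
  have hall : ∀ L : Subgroup G, Nat.card L = 2 → L = zpowers z := by
    intro L hL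
    by_contra hne
    have hinf : L ⊓ zpowers z = ⊥ := by
      have h1 : Nat.card (L ⊓ zpowers z : Subgroup G) ∣ 2 := by
        rw [← hL]; exact Subgroup.card_dvd_of_le inf_le_left
      rcases (Nat.dvd_prime Nat.prime_two).mp h1 with h2' | h2'
      · exact Subgroup.eq_bot_of_card_eq _ h2'
      · exfalso
        apply hne
        have e1 : L ⊓ zpowers z = L := Subgroup.eq_of_le_of_card_ge inf_le_left (by rw [h2', hL])
        have e2 : L ⊓ zpowers z = zpowers z :=
          Subgroup.eq_of_le_of_card_ge inf_le_right (by rw [h2', hZ0card])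
        rw [← e1, e2]
    have hcard : Nat.card (L ⊔ zpowers z : Subgroup G) = 4 := by
      have h1 := Cfsg.Agent.Lib.PSolv.card_sup_mul_card_inf L (zpowers z)
      rw [hinf, Subgroup.card_bot, mul_one, hL, hZ0card] at h1
      exact h1
    haveI := hno _ hcard
    obtain ⟨g, hg⟩ := IsCyclic.exists_generator (α := (L ⊔ zpowers z : Subgroup G))
    have h1 : orderOf g = 4 := by
      rw [orderOf_eq_card_of_forall_mem_zpowers hg, hcard]
    have h3 : (g : G) ^ 2 = 1 := by
      obtain ⟨l, hl, w, hw, e⟩ := Subgroup.mem_sup_of_normal_right.mp g.2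
      rw [← e, (show Commute l w from hzcen w hw l).mul_pow, hzsq w hw, mul_one]
      have : l ^ Nat.card L = 1 :=
        orderOf_dvd_iff_pow_eq_one.mp (Subgroup.orderOf_dvd_natCard _ hl)
      rwa [hL] at this
    have h4 : g ^ 2 = 1 := Subtype.ext h3
    have h5 := orderOf_dvd_of_pow_eq_one h4
    rw [h1] at h5
    omega
  intro H K hH hK
  rw [hall H hH, hall K hK]

/-- Self-centralizing non-cyclic subgroups in groups of maximal class. -/
theorem backward {G : Type*} [Group G] [Finite G] (n : ℕ) (hn : 3 ≤ n) (hG : Nat.card G = 2 ^ n)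
    (hc : Group.nilpotencyClass G = n - 1) (H : Subgroup G) (hH : ¬ IsCyclic H) :
    centralizer (H : Set G) ≤ H := by
  haveI hp2 : Fact (Nat.Prime 2) := ⟨Nat.prime_two⟩
  obtain ⟨hidx, -⟩ := Cfsg.Agent.Lib.Transfer.max_class_data (p := 2) n (by omega) G hG hc
  obtain ⟨a, b, hao, hai, hb, -, ⟨r, O, hr, hO⟩, -⟩ :=
    Cfsg.Agent.Lib.Transfer.index_four_data n hn hG (by rw [hidx]; norm_num)
  obtain ⟨z₀, hz₀⟩ : ∃ z₀ : G, z₀ = a ^ 2 ^ (n - 2) := ⟨_, rfl⟩
  have hn1 : n - 1 = (n - 2) + 1 := by omega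
  have hz2 : z₀ ^ 2 = 1 := by
    rw [hz₀, ← pow_mul, ← pow_succ, ← hn1, ← hao, pow_orderOf_eq_one]
  have h2n : (2 : ℕ) ^ (n - 1) = 2 * 2 ^ (n - 2) := by rw [hn1, pow_succ]; ring
  -- the involutions of `⟨a⟩`
  have hinv : ∀ x ∈ zpowers a, x ^ 2 = 1 → x = 1 ∨ x = z₀ := by
    intro x hx hx2
    obtain ⟨j, rfl⟩ := Subgroup.mem_zpowers_iff.mp hx
    have h1 : a ^ (j * 2) = 1 := by
      rw [zpow_mul]; exact_mod_cast hx2
    have h3 : ((orderOf a : ℕ) : ℤ) ∣ j * 2 := orderOf_dvd_iff_zpow_eq_one.mpr h1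
    rw [hao, h2n] at h3
    have h4 : ((2 : ℤ) * 2 ^ (n - 2)) ∣ j * 2 := by exact_mod_cast h3
    obtain ⟨t, ht⟩ := h4
    have ht' : j = 2 ^ (n - 2) * t := by linarith
    rw [ht', zpow_mul]
    have h5 : a ^ ((2 : ℤ) ^ (n - 2)) = z₀ := by rw [hz₀]; exact_mod_cast rfl
    rw [h5]
    obtain ⟨s, hs | hs⟩ := Int.even_or_odd' t
    · left
      rw [hs, zpow_mul]
      have : z₀ ^ (2 : ℤ) = 1 := by exact_mod_cast hz2
      rw [this, one_zpow]
    · right
      rw [hs, zpow_add, zpow_mul]
      have : z₀ ^ (2 : ℤ) = 1 := by exact_mod_cast hz2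
      rw [this, one_zpow, one_mul, zpow_one]
  have hgab : ∀ g : G, g ∉ zpowers a → g * a * g⁻¹ = a ^ r := by
    intro g hg
    have hcC : b⁻¹ * g ∈ zpowers a := by
      rw [Subgroup.mul_mem_iff_of_index_two hai]
      simp [hb, hg]
    obtain ⟨c, hc'⟩ : ∃ c, c = b⁻¹ * g := ⟨_, rfl⟩
    have hgc : g = b * c := by rw [hc']; group
    have hca : c * a = a * c := by
      obtain ⟨i, hi⟩ := Subgroup.mem_zpowers_iff.mp (hc' ▸ hcC)
      rw [← hi]
      exact (Commute.zpow_left (Commute.refl a) i)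
    rw [hgc, ← hr]
    calc b * c * a * (b * c)⁻¹ = b * (c * a) * c⁻¹ * b⁻¹ := by group
      _ = b * (a * c) * c⁻¹ * b⁻¹ := by rw [hca]
      _ = b * a * b⁻¹ := by group
  have hcen : ∀ g : G, g ∉ zpowers a → ∀ x ∈ zpowers a, x * g = g * x → x = 1 ∨ x = z₀ := by
    intro g hg x hx hxg
    apply hinv x hx
    obtain ⟨j, rfl⟩ := Subgroup.mem_zpowers_iff.mp hx
    have h1 : g * a ^ j * g⁻¹ = (a ^ r) ^ j := by
      rw [← hgab g hg, conj_zpow]
    have h2 : g * a ^ j * g⁻¹ = a ^ j := by rw [← hxg]; group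
    rw [h2] at h1
    have h3 : a ^ ((r - 1) * j) = 1 := by
      rw [sub_mul, one_mul, zpow_sub, zpow_mul, ← h1, mul_inv_cancel]
    rw [hO] at h3
    -- `x²` has odd order and two-power order
    have h4 : ((a ^ j) ^ 2) ^ (2 * O + 1) = 1 := by
      rw [← h3]
      rw [← zpow_natCast, ← zpow_mul, ← zpow_mul]
      congr 1
      push_cast
      ring
    have h5 : ((a ^ j) ^ 2) ^ ((2 : ℤ) ^ (n - 1)) = 1 := by
      have h6 : a ^ ((2 : ℤ) ^ (n - 1)) = 1 := by
        have := pow_orderOf_eq_one a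
        rw [hao] at this
        exact_mod_cast this
      rw [← zpow_natCast, ← zpow_mul, ← zpow_mul]
      have e : j * (((2 : ℕ) : ℤ) * 2 ^ (n - 1)) = 2 ^ (n - 1) * (j * 2) := by push_cast; ring
      rw [e, zpow_mul, h6, one_zpow]
    obtain ⟨u, v, huv⟩ := Cfsg.Agent.Lib.Transfer.isCoprime_two_pow_of_odd (n - 1) O
    have h7 : (a ^ j) ^ 2 = ((a ^ j) ^ 2) ^ (u * 2 ^ (n - 1) + v * (2 * O + 1)) := by
      rw [huv, zpow_one]
    rw [h7, zpow_add, mul_comm u, zpow_mul, h5, one_zpow, one_mul, mul_comm v, zpow_mul, h4, one_zpow]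
  have hnotle : ¬ H ≤ zpowers a := fun hle => hH (Subgroup.isCyclic_of_le hle)
  obtain ⟨b', hb'H, hb'C⟩ := SetLike.not_le_iff_exists.mp hnotle
  have hz : z₀ ∈ H := by
    by_cases hex : ∃ h ∈ H, h ∈ zpowers a ∧ h ≠ 1
    · obtain ⟨h, hhH, hhC, hh1⟩ := hex
      have h1 : orderOf h ∣ 2 ^ (n - 1) := by
        rw [← hao]; exact orderOf_dvd_of_pow_eq_one (by
          obtain ⟨i, rfl⟩ := Subgroup.mem_zpowers_iff.mp hhC
          rw [← zpow_natCast, ← zpow_mul, mul_comm, zpow_mul, zpow_natCast, pow_orderOf_eq_one, one_zpow])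
      obtain ⟨m, -, hm⟩ := (Nat.dvd_prime_pow Nat.prime_two).mp h1
      have hm0 : m ≠ 0 := by
        rintro rfl
        rw [pow_zero, orderOf_eq_one_iff] at hm
        exact hh1 hm
      have he2 : (h ^ 2 ^ (m - 1)) ^ 2 = 1 := by
        rw [← pow_mul, ← pow_succ, show m - 1 + 1 = m by omega, ← hm, pow_orderOf_eq_one]
      have he1 : h ^ 2 ^ (m - 1) ≠ 1 := by
        apply pow_ne_one_of_lt_orderOf (by positivity)
        rw [hm]
        exact Nat.pow_lt_pow_right (by norm_num) (by omega)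
      rcases hinv _ (pow_mem hhC _) he2 with h3 | h3
      · exact absurd h3 he1
      · rw [← h3]; exact pow_mem hhH _
    · exfalso
      push Not at hex
      apply hH
      have e : H = zpowers b' := by
        apply le_antisymm
        · intro x hx
          by_cases hxC : x ∈ zpowers a
          · rw [hex x hx hxC]; exact one_mem _
          · have h1 : b'⁻¹ * x ∈ zpowers a := by
              rw [Subgroup.mul_mem_iff_of_index_two hai]
              simp [hb'C, hxC]
            have h2 := hex _ (mul_mem (inv_mem hb'H) hx) h1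
            have h3 : x = b' := (inv_mul_eq_one.mp h2).symm
            rw [h3]; exact mem_zpowers _
        · rw [Subgroup.zpowers_le]; exact hb'H
      rw [e]; infer_instance
  intro g hg
  have hgb : b' * g = g * b' := (Subgroup.mem_centralizer_iff.mp hg) b' hb'H
  by_cases hgC : g ∈ zpowers a
  · rcases hcen b' hb'C g hgC hgb.symm with h1 | h1
    · rw [h1]; exact one_mem _
    · rw [h1]; exact hz
  · have h1 : g * b'⁻¹ ∈ zpowers a := by
      rw [Subgroup.mul_mem_iff_of_index_two hai]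
      simp [hb'C, hgC]
    have h2 : g * b'⁻¹ * b' = b' * (g * b'⁻¹) := by
      calc g * b'⁻¹ * b' = g := by group
        _ = g * b' * b'⁻¹ := by group
        _ = b' * g * b'⁻¹ := by rw [hgb]
        _ = b' * (g * b'⁻¹) := by group
    have h3 : g = g * b'⁻¹ * b' := by group
    rcases hcen b' hb'C _ h1 h2 with h4 | h4
    · rw [h3, h4, one_mul]; exact hb'H
    · rw [h3, h4]; exact mul_mem hz hb'H

/-- Say that a group has self-centralizing non-cyclic subgroups when every non-cyclic subgroup H satisfies C_G(H) ≤ H. A finite non-abelian 2-group G of order 2^n has self-centralizing non-cyclic subgroups if and only if G has nilpotency class n − 1 (that is, G is dihedral, semidihedral or generalized quaternion). -/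
theorem result {G : Type*} [Group G] [Finite G] (hna : ¬ IsMulCommutative G) (n : ℕ) (hG : Nat.card G = 2 ^ n) :
    (∀ H : Subgroup G, ¬ IsCyclic ↥H → Subgroup.centralizer (H : Set G) ≤ H) ↔ (⊤ : Subgroup G).lowerCentralSeries (n - 2) ≠ ⊥ := by
  haveI hp2 : Fact (Nat.Prime 2) := ⟨Nat.prime_two⟩
  have h2 : IsPGroup 2 G := IsPGroup.of_card hG
  haveI hnil : Group.IsNilpotent G := h2.isNilpotent
  obtain ⟨j, -, hj2, hjn⟩ :=
    Cfsg.Agent.Lib.Transfer.card_center_quotient_of_nonabelian (p := 2) n hG hna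
  have hn : 3 ≤ n := by omega
  have hiff : (⊤ : Subgroup G).lowerCentralSeries (n - 2) ≠ ⊥ ↔ Group.nilpotencyClass G = n - 1 := by
    rw [Ne, Subgroup.lowerCentralSeries_eq_bot_iff_nilpotencyClass_le]
    have h1 := Cfsg.Agent.Lib.Transfer.class_le_of_card (p := 2) n G hG
    rw [max_eq_left (by omega)] at h1
    omega
  rw [hiff]
  constructor
  · intro hself
    by_cases hK : ∀ A : Subgroup G, Nat.card A = 4 → IsCyclic A
    · haveI : Nontrivial G := by
        rw [← Finite.one_lt_card_iff_nontrivial, hG]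
        exact Nat.one_lt_two_pow (by omega)
      rcases Cfsg.Agent.S0016.result 2 h2 (uniq_of_no_klein h2 hK) with hc | ⟨-, k, ⟨e⟩⟩
      · exfalso
        apply hna
        letI := IsCyclic.commGroup (α := G)
        exact ⟨⟨mul_comm⟩⟩
      · exact class_of_quaternion n hG k e
    · push Not at hK
      obtain ⟨A, hA, hAc⟩ := hK
      have hAm : IsMulCommutative A :=
        IsPGroup.isMulCommutative_of_card_eq_prime_sq (p := 2) (by rw [hA]; norm_num)
      refine Cfsg.Agent.Lib.Transfer.class_of_self_centralizing (p := 2) n G hG A (by rw [hA]; norm_num) ?_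
      apply le_antisymm (hself A hAc)
      intro x hx
      rw [Subgroup.mem_centralizer_iff]
      intro y hy
      exact congrArg Subtype.val (hAm.is_comm.comm ⟨y, hy⟩ ⟨x, hx⟩)
  · intro hc H hH
    exact backward n hn hG hc H hH

end Cfsg.Agent.S3919
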