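import Cfsg.Statements.S3920
-- import your own Cfsg.Agent.* helpers here

set_option autoImplicit false
open Cfsg

namespace Cfsg.Agent.S3920

open Subgroup DihedralGroup

/-- A subgroup without reflections is cyclic. -/
theorem exists_reflection (n : ℕ) [NeZero n] (H : Subgroup (DihedralGroup n)) (hH : ¬ IsCyclic H) :
    ∃ e, sr e ∈ H := by
  by_contra hcon
  push_neg at hcon
  apply hH
  have hle : H ≤ zpowers (r 1 : DihedralGroup n) := by
    intro x hx
    rcases x with i | i
    · refine ⟨(i.val : ℤ), ?_⟩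
      simp only [r_one_zpow]
      simp
    · exact absurd hx (hcon i)
  exact Subgroup.isCyclic_of_le hle

/-- A noncyclic subgroup contains a nontrivial rotation. -/
theorem exists_rotation (n : ℕ) [NeZero n] (H : Subgroup (DihedralGroup n)) (hH : ¬ IsCyclic H)
    {e : ZMod n} (he : sr e ∈ H) : ∃ d, d ≠ 0 ∧ r d ∈ H := by
  by_contra hcon
  push_neg at hcon
  apply hH
  have hle : H ≤ zpowers (sr e : DihedralGroup n) := by
    intro x hx
    rcases x with i | i
    · by_cases hi : i = 0
      · subst hi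
        exact one_mem _
      · exact absurd hx (hcon i hi)
    · have h1 : sr e * sr i ∈ H := mul_mem he hx
      rw [sr_mul_sr] at h1
      have h2 : i - e = 0 := by
        by_contra h3
        exact hcon _ h3 h1
      have h3 : i = e := sub_eq_zero.1 h2
      rw [h3]
      exact mem_zpowers _
  exact Subgroup.isCyclic_of_le hle

theorem good_odd (n : ℕ) (hodd : Odd n) (H : Subgroup (DihedralGroup n)) (hH : ¬ IsCyclic H)
    (g : DihedralGroup n) (hg : g ∈ centralizer (H : Set (DihedralGroup n))) : g ∈ H := by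
  haveI : NeZero n := ⟨by
    rintro rfl
    simp at hodd⟩
  obtain ⟨e, he⟩ := exists_reflection n H hH
  have h2 : IsUnit (2 : ZMod n) := by
    have := (ZMod.isUnit_iff_coprime 2 n).2 (Nat.coprime_two_left.2 hodd)
    simpa using this
  have hc := mem_centralizer_iff.1 hg _ he
  rcases g with i | j
  · rw [sr_mul_r, r_mul_sr] at hc
    have h1 : e + i = e - i := by simpa using hc
    have h3 : 2 * i = 0 := by
      have : i + i = 0 := by
        have h4 := add_left_cancel (a := e) (b := i) (c := -i) (by rw [h1, sub_eq_add_neg])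
        exact eq_neg_iff_add_eq_zero.1 h4
      rw [two_mul]
      exact this
    have h4 : i = 0 := (h2.mul_right_eq_zero).1 h3
    rw [h4]
    exact one_mem _
  · rw [sr_mul_sr, sr_mul_sr] at hc
    have h1 : j - e = e - j := by simpa using hc
    have h3 : 2 * (j - e) = 0 := by
      rw [two_mul]
      nth_rewrite 2 [h1]
      ring
    have h4 : j - e = 0 := (h2.mul_right_eq_zero).1 h3
    rw [sub_eq_zero.1 h4]
    exact he

theorem two_torsion (k : ℕ) (hk : 1 ≤ k) (i : ZMod (2 ^ k)) (hi : i * 2 = 0) :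
    i = 0 ∨ i = ((2 ^ (k - 1) : ℕ) : ZMod (2 ^ k)) := by
  haveI : NeZero (2 ^ k) := ⟨by positivity⟩
  obtain ⟨k', rfl⟩ : ∃ k', k = k' + 1 := ⟨k - 1, by omega⟩
  simp only [Nat.add_sub_cancel]
  have h1 : ((i.val * 2 : ℕ) : ZMod (2 ^ (k' + 1))) = 0 := by
    push_cast
    rw [ZMod.natCast_zmod_val]
    exact hi
  rw [ZMod.natCast_eq_zero_iff] at h1
  have hps : (2 : ℕ) ^ (k' + 1) = 2 ^ k' * 2 := pow_succ 2 k'
  have h2 : 2 ^ k' ∣ i.val :=
    Nat.dvd_of_mul_dvd_mul_right (by norm_num) (dvd_trans (dvd_of_eq hps.symm) h1)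
  obtain ⟨c, hc⟩ := h2
  have hlt : i.val < 2 ^ k' * 2 := lt_of_lt_of_eq (ZMod.val_lt i) hps
  have hc2 : c < 2 := by
    rw [hc] at hlt
    exact Nat.lt_of_mul_lt_mul_left hlt
  have hval : i = ((i.val : ℕ) : ZMod (2 ^ (k' + 1))) := (ZMod.natCast_zmod_val i).symm
  interval_cases c
  · left
    rw [hval, hc]
    simp
  · right
    rw [hval, hc]
    simp

theorem good_pow (k : ℕ) (hk : 2 ≤ k) (H : Subgroup (DihedralGroup (2 ^ k))) (hH : ¬ IsCyclic H)
    (g : DihedralGroup (2 ^ k)) (hg : g ∈ centralizer (H : Set (DihedralGroup (2 ^ k)))) : g ∈ H := by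
  haveI : NeZero (2 ^ k) := ⟨by positivity⟩
  obtain ⟨e, he⟩ := exists_reflection _ H hH
  obtain ⟨d, hd, hdH⟩ := exists_rotation _ H hH he
  -- the involution lies in `H`
  have hz : (r ((2 ^ (k - 1) : ℕ) : ZMod (2 ^ k)) : DihedralGroup (2 ^ k)) ∈ H := by
    have hord : orderOf (r d : DihedralGroup (2 ^ k)) ∣ 2 ^ (k + 1) := by
      have := orderOf_dvd_natCard (r d : DihedralGroup (2 ^ k))
      rwa [nat_card, ← pow_succ'] at this
    obtain ⟨u, -, hu⟩ := (Nat.dvd_prime_pow Nat.prime_two).1 hord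
    have hu0 : u ≠ 0 := by
      rintro rfl
      rw [pow_zero, orderOf_eq_one_iff, ← r_zero] at hu
      exact hd (r.inj hu)
    have h2d : 2 ∣ orderOf (r d : DihedralGroup (2 ^ k)) := by
      rw [hu]
      exact dvd_pow_self 2 hu0
    have hw := orderOf_pow_orderOf_div (x := (r d : DihedralGroup (2 ^ k))) (n := 2)
      (orderOf_pos _).ne' h2d
    obtain ⟨t, ht⟩ : ∃ t, t = orderOf (r d : DihedralGroup (2 ^ k)) / 2 := ⟨_, rfl⟩
    rw [← ht, r_pow] at hw
    have hmem : (r (d * (t : ZMod (2 ^ k))) : DihedralGroup (2 ^ k)) ∈ H := by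
      rw [← r_pow]
      exact pow_mem hdH t
    have h1 : (r (d * (t : ZMod (2 ^ k))) : DihedralGroup (2 ^ k)) ^ 2 = 1 := by
      have := pow_orderOf_eq_one (r (d * (t : ZMod (2 ^ k))) : DihedralGroup (2 ^ k))
      rwa [hw] at this
    rw [r_pow, ← r_zero] at h1
    have h2 := r.inj h1
    have h3 : d * (t : ZMod (2 ^ k)) * 2 = 0 := by simpa using h2
    rcases two_torsion k (by omega) _ h3 with h4 | h4
    · exfalso
      rw [h4, r_zero, orderOf_one] at hw
      norm_num at hw
    · rwa [← h4]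
  have hc := mem_centralizer_iff.1 hg _ he
  rcases g with i | j
  · rw [sr_mul_r, r_mul_sr] at hc
    have h1 : e + i = e - i := by simpa using hc
    have h3 : i * 2 = 0 := by
      have : i + i = 0 := by
        have h4 := add_left_cancel (a := e) (b := i) (c := -i) (by rw [h1, sub_eq_add_neg])
        exact eq_neg_iff_add_eq_zero.1 h4
      rw [mul_two]
      exact this
    rcases two_torsion k (by omega) _ h3 with h4 | h4
    · rw [h4]
      exact one_mem _
    · rw [h4]
      exact hz
  · rw [sr_mul_sr, sr_mul_sr] at hc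
    have h1 : j - e = e - j := by simpa using hc
    have h3 : (j - e) * 2 = 0 := by
      rw [mul_two]
      nth_rewrite 2 [h1]
      ring
    rcases two_torsion k (by omega) _ h3 with h4 | h4
    · rw [sub_eq_zero.1 h4]
      exact he
    · have h5 : j = e + ((2 ^ (k - 1) : ℕ) : ZMod (2 ^ k)) := by
        rw [← h4]
        ring
      have h6 : sr e * r ((2 ^ (k - 1) : ℕ) : ZMod (2 ^ k)) ∈ H := mul_mem he hz
      rw [sr_mul_r, ← h5] at h6
      exact h6

theorem bad (n a m : ℕ) (hm : Odd m) (hm1 : m ≠ 1) (hnm : n = 2 ^ (a + 1) * m) [NeZero n]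
    (h : ∀ H : Subgroup (DihedralGroup n), ¬ IsCyclic H →
      Subgroup.centralizer (H : Set (DihedralGroup n)) ≤ H) : False := by
  let v : DihedralGroup n → ZMod n := fun x => match x with
    | r i => i
    | sr i => i
  have hvr : ∀ i, v (r i) = i := fun _ => rfl
  have hvs : ∀ i, v (sr i) = i := fun _ => rfl
  let H : Subgroup (DihedralGroup n) :=
    { carrier := {x | (m : ZMod n) * v x = 0}
      mul_mem' := by
        intro x y hx hy
        rcases x with i | i <;> rcases y with j | j <;>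
          simp only [Set.mem_setOf_eq, hvr, hvs, r_mul_r, r_mul_sr, sr_mul_r, sr_mul_sr] at hx hy ⊢
        · rw [mul_add, hx, hy, add_zero]
        · rw [mul_sub, hx, hy, sub_zero]
        · rw [mul_add, hx, hy, add_zero]
        · rw [mul_sub, hx, hy, sub_zero]
      one_mem' := by
        show (m : ZMod n) * v (r 0) = 0
        rw [hvr, mul_zero]
      inv_mem' := by
        intro x hx
        rcases x with i | i
        · simp only [Set.mem_setOf_eq, hvr, inv_r] at hx ⊢
          rw [mul_neg, hx, neg_zero]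
        · simpa only [inv_sr] using hx }
  have hnpos : n ≠ 0 := NeZero.ne n
  have hmpos : 0 < m := hm.pos
  have hd0 : ((2 ^ (a + 1) : ℕ) : ZMod n) * (m : ZMod n) = 0 := by
    rw [← Nat.cast_mul, ← hnm]
    exact ZMod.natCast_self n
  have hr : (r ((2 ^ (a + 1) : ℕ) : ZMod n) : DihedralGroup n) ∈ H := by
    show (m : ZMod n) * v (r _) = 0
    rw [hvr, mul_comm]
    exact hd0
  have hs : (sr 0 : DihedralGroup n) ∈ H := by
    show (m : ZMod n) * v (sr 0) = 0
    rw [hvs, mul_zero]
  have hnc : ¬ IsCyclic H := by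
    intro hcyc
    letI := hcyc.commGroup
    have h1 := mul_comm (⟨_, hr⟩ : H) (⟨_, hs⟩ : H)
    have h2 := congrArg Subtype.val h1
    simp only [MulMemClass.mk_mul_mk, r_mul_sr, sr_mul_r, zero_sub, zero_add] at h2
    have h3 := sr.inj h2
    have h4 : ((2 ^ (a + 2) : ℕ) : ZMod n) = 0 := by
      have : ((2 ^ (a + 2) : ℕ) : ZMod n) = ((2 ^ (a + 1) : ℕ) : ZMod n) + ((2 ^ (a + 1) : ℕ) : ZMod n) := by
        rw [pow_succ 2 (a + 1)]
        push_cast
        ring
      rw [this]
      nth_rewrite 1 [← h3]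
      ring
    rw [ZMod.natCast_eq_zero_iff, hnm, pow_succ 2 (a + 1)] at h4
    have h5 : m ∣ 2 := Nat.dvd_of_mul_dvd_mul_left (by positivity) h4
    have h6 : m ≤ 2 := Nat.le_of_dvd (by norm_num) h5
    have : m = 1 ∨ m = 2 := by omega
    rcases this with rfl | rfl
    · exact hm1 rfl
    · exact absurd hm (by decide)
  -- the central involution
  obtain ⟨t, ht⟩ : ∃ t : ℕ, t = 2 ^ a * m := ⟨_, rfl⟩
  have htn : n = t * 2 := by rw [hnm, ht]; ring
  have h2t : ((t : ℕ) : ZMod n) * 2 = 0 := by
    have : ((t * 2 : ℕ) : ZMod n) = 0 := by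
      rw [← htn]
      exact ZMod.natCast_self n
    simpa using this
  have hneg : ((t : ℕ) : ZMod n) = -((t : ℕ) : ZMod n) := by
    rw [eq_neg_iff_add_eq_zero, ← mul_two]
    exact h2t
  have hcen : (r (t : ZMod n) : DihedralGroup n) ∈ centralizer (H : Set (DihedralGroup n)) := by
    rw [mem_centralizer_iff]
    intro x _
    rcases x with i | i
    · simp only [r_mul_r]
      rw [add_comm]
    · simp only [sr_mul_r, r_mul_sr]
      rw [sub_eq_add_neg, ← hneg]
  have hnot := h H hnc hcen
  have h1 : (m : ZMod n) * (t : ZMod n) = 0 := hnot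
  rw [← Nat.cast_mul, ZMod.natCast_eq_zero_iff, ht, hnm] at h1
  have h2 : 2 ^ (a + 1) * m ∣ (2 ^ a * m) * m := by
    rwa [mul_comm m] at h1
  have h3 : 2 * (2 ^ a * m) ∣ m * (2 ^ a * m) := by
    rw [mul_comm m (2 ^ a * m)]
    calc 2 * (2 ^ a * m) = 2 ^ (a + 1) * m := by ring
      _ ∣ _ := h2
  have h4 : 2 ∣ m := Nat.dvd_of_mul_dvd_mul_right (by positivity) h3
  exact (Nat.not_even_iff_odd.2 hm) (even_iff_two_dvd.2 h4)

/-- Say that a group has self-centralizing non-cyclic subgroups when every non-cyclic subgroup H satisfies C_G(H) ≤ H. For n ≥ 3, the dihedral group of order 2n has self-centralizing non-cyclic subgroups if and only if n is odd or a power of 2. -/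
theorem result (n : ℕ) (hn : 3 ≤ n) : (∀ H : Subgroup (DihedralGroup n), ¬ IsCyclic ↥H → Subgroup.centralizer (H : Set (DihedralGroup n)) ≤ H) ↔ (Odd n ∨ ∃ k : ℕ, n = 2 ^ k) := by
  classical
  haveI : NeZero n := ⟨by omega⟩
  constructor
  · intro h
    by_contra hcon
    push_neg at hcon
    obtain ⟨hodd, hpow⟩ := hcon
    obtain ⟨a, m, hm, hnm⟩ := Nat.exists_eq_two_pow_mul_odd (n := n) (by omega)
    have hm1 : m ≠ 1 := by
      rintro rfl
      exact hpow a (by rw [hnm, mul_one])
    have ha : a ≠ 0 := by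
      rintro rfl
      apply hodd
      rw [hnm, pow_zero, one_mul]
      exact hm
    obtain ⟨a', rfl⟩ : ∃ a', a = a' + 1 := ⟨a - 1, by omega⟩
    exact bad n a' m hm hm1 hnm h
  · rintro (hodd | ⟨k, hk⟩) H hH g hg
    · exact good_odd n hodd H hH g hg
    · subst hk
      have hk2 : 2 ≤ k := by
        by_contra hk2
        have : k = 0 ∨ k = 1 := by omega
        rcases this with rfl | rfl <;> norm_num at hn
      exact good_pow k hk2 H hH g hg

end Cfsg.Agent.S3920
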