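import Cfsg.Statements.S3937
import Cfsg.Agent.Lib.PGroup.Engel
-- import your own Cfsg.Agent.* helpers here

set_option autoImplicit false
open Cfsg Cfsg.Agent.Lib.PGroup Cfsg.Agent.Lib.Core

namespace Cfsg.Agent.S3937

/-- Baer's characterization of the Fitting subgroup: in a finite group G, an element g lies in the Fitting subgroup if and only if g is a left Engel element, that is, for every x there is n with [x, g, g, …, g] = 1 (n entries g, [a, b] = aba⁻¹b⁻¹). -/
theorem result {G : Type*} [Group G] [Finite G] (g : G) :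
    g ∈ Cfsg.fittingSubgroup G ↔ ∀ x : G, ∃ n : ℕ, (List.replicate n g).foldl (fun a b => a * b * a⁻¹ * b⁻¹) x = 1 := by
  show g ∈ fittingSubgroup G ↔ IsLeftEngel g
  constructor
  · intro hg x
    have hnorm : (fittingSubgroup G).Normal := inferInstance
    haveI := isNilpotent_fittingSubgroup G
    obtain ⟨c, hc⟩ := nilpotent_iff_lowerCentralSeries.mp
      (inferInstance : Group.IsNilpotent ↥(fittingSubgroup G))
    have hx1 : x * g * x⁻¹ * g⁻¹ ∈ fittingSubgroup G :=
      mul_mem (hnorm.conj_mem _ hg x) (inv_mem hg)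
    have key : ∀ n (y : ↥(fittingSubgroup G)),
        engelWord (⟨g, hg⟩ : ↥(fittingSubgroup G)) n y ∈ (⊤ : Subgroup ↥(fittingSubgroup G)).lowerCentralSeries n := by
      intro n y
      induction n with
      | zero => exact Subgroup.mem_top _
      | succ n ih =>
        rw [engelWord_succ, Subgroup.lowerCentralSeries_succ]
        exact Subgroup.subset_closure ⟨_, ih, _, Subgroup.mem_top _, rfl⟩
    refine ⟨c + 1, ?_⟩
    have h1 := key c ⟨_, hx1⟩
    rw [hc, Subgroup.mem_bot] at h1
    show engelWord g (c + 1) x = 1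
    rw [engelWord_succ']
    have h2 := map_engelWord (fittingSubgroup G).subtype ⟨g, hg⟩ c ⟨_, hx1⟩
    rw [h1, map_one] at h2
    exact h2.symm
  · intro h
    exact mem_fitting_of_isLeftEngel _ G rfl g h

end Cfsg.Agent.S3937
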