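import Cfsg.Statements.S3939
import Cfsg.Agent.Lib.PGroup.Hypercenter
-- import your own Cfsg.Agent.* helpers here

set_option autoImplicit false
open Cfsg

namespace Cfsg.Agent.S3939

/-- In a finite group G the set of elements g such that the subgroup generated by g and x is nilpotent for every x ∈ G is exactly the hypercenter of G (the last term of the upper central series). -/
theorem result {G : Type*} [Group G] [Finite G] (g : G) :
    (∀ x : G, Group.IsNilpotent ↥(Subgroup.closure ({x, g} : Set G))) ↔ g ∈ ⨆ n : ℕ, Subgroup.upperCentralSeries G n := by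
  constructor
  · intro h
    obtain ⟨k, hk⟩ := Cfsg.Agent.Lib.PGroup.exists_mem_upperCentralSeries_of_two_gen _ G rfl g h
    exact Subgroup.mem_iSup_of_mem k hk
  · intro h x
    obtain ⟨k, hk⟩ := (Subgroup.mem_iSup_of_directed (Subgroup.upperCentralSeries_mono (G := G)).directed_le).mp h
    exact Cfsg.Agent.Lib.PGroup.isNilpotent_closure_pair_of_mem_upperCentralSeries g x k hk

end Cfsg.Agent.S3939
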