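import Cfsg.Statements.S3941
import Cfsg.Agent.Lib.PGroup.Sylow
-- import your own Cfsg.Agent.* helpers here

set_option autoImplicit false
open Cfsg

namespace Cfsg.Agent.S3941

open Subgroup

theorem pclosed_of_equiv {X Y : Type*} [Group X] [Group Y] [Finite X] [Finite Y] {p : ℕ} [Fact p.Prime]
    (e : X ≃* Y) (h : Cfsg.IsPClosed p Y) : Cfsg.IsPClosed p X := by
  intro P
  have h1 := h (P.mapSurjective (f := e.toMonoidHom) e.surjective)
  have h2 : ((P.mapSurjective (f := e.toMonoidHom) e.surjective : Sylow p Y) : Subgroup Y) =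
      (P : Subgroup X).map e.toMonoidHom := rfl
  rw [h2] at h1
  have h3 := h1.comap e.toMonoidHom
  rwa [Subgroup.comap_map_eq_self_of_injective e.injective] at h3

theorem not_pclosed_A4 (h : Cfsg.IsPClosed 3 (alternatingGroup (Fin 4))) : False := by
  haveI : Fact (Nat.Prime 3) := ⟨by norm_num⟩
  let P : Sylow 3 (alternatingGroup (Fin 4)) := default
  haveI := h P
  let x : alternatingGroup (Fin 4) := ⟨c[0, 1, 2], Equiv.Perm.mem_alternatingGroup.2 (by decide)⟩
  let y : alternatingGroup (Fin 4) := ⟨c[1, 2, 3], Equiv.Perm.mem_alternatingGroup.2 (by decide)⟩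
  have hx : IsPGroup 3 (zpowers x) := IsPGroup.of_card (n := 1) (by
    rw [Nat.card_zpowers, pow_one]
    exact orderOf_eq_prime (by decide) (by decide))
  have hy : IsPGroup 3 (zpowers y) := IsPGroup.of_card (n := 1) (by
    rw [Nat.card_zpowers, pow_one]
    exact orderOf_eq_prime (by decide) (by decide))
  have h1 := Cfsg.Agent.Lib.PGroup.le_sylow_of_sylow_normal P hx (mem_zpowers x)
  have h2 := Cfsg.Agent.Lib.PGroup.le_sylow_of_sylow_normal P hy (mem_zpowers y)
  have h3 : x * y ∈ (P : Subgroup _) := mul_mem h1 h2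
  obtain ⟨k, hk⟩ := IsPGroup.iff_orderOf.1 P.isPGroup' ⟨x * y, h3⟩
  rw [Subgroup.orderOf_mk] at hk
  have h4 : orderOf (x * y) = 2 := orderOf_eq_prime (by decide) (by decide)
  rw [h4] at hk
  have h5 : 2 ∣ 3 ^ k := by rw [← hk]
  have h6 := Nat.Prime.dvd_of_dvd_pow Nat.prime_two h5
  omega

/-- Let n ≥ 5 and p an odd prime with p ≤ n, and suppose that every proper subgroup of the alternating group of degree n whose order is divisible by p has a normal Sylow p-subgroup. Then n = p. -/
theorem result (n p : ℕ) (hn : 5 ≤ n) [Fact p.Prime] (hp : p ≠ 2) (hpn : p ≤ n)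
    (h : ∀ H : Subgroup ↥(alternatingGroup (Fin n)), H ≠ ⊤ → p ∣ Nat.card ↥H → Cfsg.IsPClosed p ↥H) : n = p := by
  classical
  have hpp : p.Prime := Fact.out
  by_contra hne
  have hlt : p < n := lt_of_le_of_ne hpn (Ne.symm hne)
  haveI : NeZero n := ⟨by omega⟩
  let last : Fin n := ⟨n - 1, by omega⟩
  let α := {x : Fin n // x ≠ last}
  have hcardα : Nat.card α = n - 1 := by
    rw [Nat.card_eq_fintype_card]
    show Fintype.card {x : Fin n // ¬ x = last} = n - 1
    rw [Fintype.card_subtype_compl, Fintype.card_fin, Fintype.card_subtype_eq]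
  haveI hαnt : Nontrivial α := by
    refine Finite.one_lt_card_iff_nontrivial.1 ?_
    omega
  haveI : Nontrivial (Fin n) := Fin.nontrivial_iff_two_le.2 (by omega)
  let φ : alternatingGroup α →* alternatingGroup (Fin n) :=
    MonoidHom.codRestrict ((Equiv.Perm.ofSubtype (p := fun x : Fin n => x ≠ last)).comp
      (alternatingGroup α).subtype) _ (fun g => by
        show Equiv.Perm.sign (Equiv.Perm.ofSubtype (g : Equiv.Perm α)) = 1
        rw [Equiv.Perm.sign_ofSubtype]
        exact g.2)
  have hφ : Function.Injective φ := by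
    intro g h hgh
    have h1 : Equiv.Perm.ofSubtype (g : Equiv.Perm α) = Equiv.Perm.ofSubtype (h : Equiv.Perm α) :=
      congrArg Subtype.val hgh
    exact Subtype.ext (Equiv.Perm.ofSubtype_injective h1)
  have hKcard : Nat.card φ.range = Nat.card (alternatingGroup α) :=
    (Nat.card_congr (MonoidHom.ofInjective hφ).toEquiv).symm
  have hc1 := two_mul_nat_card_alternatingGroup (α := α)
  have hc2 := two_mul_nat_card_alternatingGroup (α := Fin n)
  rw [Nat.card_perm, hcardα] at hc1
  rw [Nat.card_perm, Nat.card_fin] at hc2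
  have hfac : n.factorial = n * (n - 1).factorial := by
    obtain ⟨m, rfl⟩ : ∃ m, n = m + 1 := ⟨n - 1, by omega⟩
    simp [Nat.factorial_succ]
  have hne_top : φ.range ≠ ⊤ := by
    intro h
    rw [h, Subgroup.card_top] at hKcard
    have h3 : n * (n - 1).factorial = (n - 1).factorial := by
      rw [← hfac, ← hc1, ← hc2, hKcard]
    have h4 : 0 < (n - 1).factorial := Nat.factorial_pos _
    have h5 : n = 1 := Nat.eq_of_mul_eq_mul_right h4 (by rw [h3, one_mul])
    omega
  have hdvd : p ∣ Nat.card (alternatingGroup α) := by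
    have h3 : p ∣ (n - 1).factorial := Nat.dvd_factorial hpp.pos (by omega)
    rw [← hc1] at h3
    exact (Nat.Coprime.dvd_of_dvd_mul_left
      ((Nat.coprime_primes hpp Nat.prime_two).2 hp) h3)
  have hcl := h φ.range hne_top (by rw [hKcard]; exact hdvd)
  have hclA : Cfsg.IsPClosed p (alternatingGroup α) :=
    pclosed_of_equiv (MonoidHom.ofInjective hφ) hcl
  by_cases h5 : 5 ≤ Nat.card α
  · haveI := alternatingGroup.isSimpleGroup h5
    let P : Sylow p (alternatingGroup α) := default
    have hne := P.ne_bot_of_dvd_card hdvd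
    rcases (hclA P).eq_bot_or_eq_top with h6 | h6
    · exact hne h6
    · have hpg : IsPGroup p (alternatingGroup α) := fun g => by
        have hg : g ∈ (P : Subgroup (alternatingGroup α)) := by
          rw [h6]
          trivial
        obtain ⟨k, hk⟩ := P.isPGroup' ⟨g, hg⟩
        exact ⟨k, congrArg Subtype.val hk⟩
      obtain ⟨m, hm⟩ := IsPGroup.iff_card.1 hpg
      have h7 : Nat.factorial 4 ∣ (n - 1).factorial := Nat.factorial_dvd_factorial (by omega)
      rw [← hc1, hm] at h7
      have h8 : 2 * 12 ∣ 2 * p ^ m := by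
        have : Nat.factorial 4 = 2 * 12 := by decide
        rwa [this] at h7
      have h9 : 12 ∣ p ^ m := Nat.dvd_of_mul_dvd_mul_left (by norm_num) h8
      have h10 : 2 ∣ p ^ m := dvd_trans (by norm_num) h9
      have h11 := Nat.Prime.dvd_of_dvd_pow Nat.prime_two h10
      exact hp ((Nat.prime_dvd_prime_iff_eq Nat.prime_two hpp).1 h11).symm
  · have hn5 : n = 5 := by omega
    have hp3 : p = 3 := by
      have : p < 5 := by omega
      interval_cases p <;> first | rfl | omega | (exact absurd hpp (by norm_num))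
    subst hp3
    have hcard4 : Fintype.card α = 4 := by
      rw [← Nat.card_eq_fintype_card]
      omega
    let e : α ≃ Fin 4 := Fintype.equivFinOfCardEq hcard4
    have hclF := pclosed_of_equiv (Equiv.altCongrHom e).symm hclA
    exact not_pclosed_A4 hclF

end Cfsg.Agent.S3941
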