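import Cfsg.Statements.S3946
import Mathlib
import Cfsg.Agent.Lib.Kegel.Basic

set_option autoImplicit false
open Cfsg

namespace Cfsg.Agent.S3946

/-- Call an automorphism α of order n of a group G splitting when x · α(x) · α²(x) ⋯ α^(n−1)(x) = 1 for every x ∈ G. A finite group admitting a splitting automorphism of prime order is nilpotent (this contains the case of a fixed-point-free automorphism of prime order). -/
theorem result {G : Type*} [Group G] [Finite G] (α : MulAut G) (hp : (orderOf α).Prime)
    (hsplit : ∀ x : G, (((List.range (orderOf α)).map (fun i : ℕ => (α ^ i) x)).prod = 1)) : Group.IsNilpotent G := by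
  classical
  set p := orderOf α with hpdef
  haveI : Fact p.Prime := ⟨hp⟩
  haveI : Finite (MulAut G) := inferInstance
  let A : Subgroup (MulAut G) := Subgroup.zpowers α
  let φ : A →* MulAut G := A.subtype
  haveI : Finite (G ⋊[φ] A) := Finite.of_equiv _ SemidirectProduct.equivProd.symm
  let K : Subgroup (G ⋊[φ] A) := (SemidirectProduct.inl : G →* G ⋊[φ] A).range
  haveI hKn : K.Normal := by
    show ((SemidirectProduct.inl : G →* G ⋊[φ] A).range).Normal
    rw [SemidirectProduct.range_inl_eq_ker_rightHom]
    exact MonoidHom.normal_ker _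
  let a : A := ⟨α, Subgroup.mem_zpowers α⟩
  let b : G ⋊[φ] A := SemidirectProduct.inr a
  have hap : a ^ p = 1 := by
    apply Subtype.ext
    simp [a, hpdef, pow_orderOf_eq_one]
  have hα1 : α ≠ 1 := by
    intro h
    rw [hpdef, h, orderOf_one] at hp
    exact Nat.not_prime_one hp
  have hbK : b ∉ K := by
    rintro ⟨n, hn⟩
    have h1 := congrArg SemidirectProduct.right hn
    have h2 : (1 : A) = a := h1
    have h3 : (1 : MulAut G) = α := congrArg Subtype.val h2
    exact hα1 h3.symm
  have hconj : ∀ (n : ℕ) (g : G), b ^ n * SemidirectProduct.inl g =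
      SemidirectProduct.inl ((α ^ n) g) * b ^ n := by
    intro n g
    have h1 := SemidirectProduct.inl_aut (φ := φ) (a ^ n) g
    have h2 : φ (a ^ n) = α ^ n := by simp [φ, a]
    rw [h2] at h1
    rw [h1, map_inv, map_pow]
    simp [b]
  have hformula : ∀ (g : G) (n : ℕ), (SemidirectProduct.inl g * b) ^ n =
      SemidirectProduct.inl ((List.range n).map (fun i : ℕ => (α ^ i) g)).prod * b ^ n := by
    intro g n
    induction n with
    | zero => simp
    | succ n ih =>
      rw [pow_succ, ih, List.range_succ, List.map_append, List.prod_append, map_mul, pow_succ]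
      simp only [List.map_cons, List.map_nil, List.prod_cons, List.prod_nil, mul_one]
      rw [mul_assoc, ← mul_assoc (b ^ n), hconj]
      simp only [mul_assoc]
  have hy : ∀ g : G, (SemidirectProduct.inl g * b) ^ p = 1 := by
    intro g
    rw [hformula, hsplit g, map_one, one_mul]
    show (SemidirectProduct.inr a) ^ p = 1
    rw [← map_pow, hap, map_one]
  have hright : ∀ (g : G) (k : ℕ), ((SemidirectProduct.inl g * b) ^ k).right = a ^ k := by
    intro g k
    have h1 : SemidirectProduct.rightHom ((SemidirectProduct.inl g * b) ^ k) = a ^ k := by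
      rw [map_pow, map_mul, SemidirectProduct.rightHom_inl, one_mul, SemidirectProduct.rightHom_inr]
    exact h1
  have hL : ∀ x : G ⋊[φ] A, x ∉ K → x ^ p = 1 := by
    intro x hx
    have hx1 : x.right ≠ 1 := by
      intro h
      apply hx
      refine ⟨x.left, ?_⟩
      rw [← SemidirectProduct.inl_left_mul_inr_right x]
      simp [h]
    obtain ⟨k, hk⟩ : ∃ k : ℕ, α ^ k = (x.right : MulAut G) :=
      mem_powers_iff_mem_zpowers.2 x.right.2
    have hak : a ^ k = x.right := by
      apply Subtype.ext
      simpa [a] using hk
    have hkc : k.Coprime p := by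
      rw [Nat.coprime_comm, Nat.Prime.coprime_iff_not_dvd hp]
      intro hd
      apply hx1
      rw [← hak]
      obtain ⟨c, rfl⟩ := hd
      rw [pow_mul, hap, one_pow]
    obtain ⟨m, hm⟩ := Nat.exists_mul_mod_eq_one_of_coprime hkc hp.one_lt
    have hinj : Function.Injective (fun g : G => ((SemidirectProduct.inl g * b) ^ k).left) := by
      intro g₁ g₂ h
      have h1 : (SemidirectProduct.inl g₁ * b) ^ k = (SemidirectProduct.inl g₂ * b) ^ k := by
        apply SemidirectProduct.ext h
        rw [hright, hright]
      have hback : ∀ g : G, ((SemidirectProduct.inl g * b) ^ k) ^ m = SemidirectProduct.inl g * b := by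
        intro g
        rw [← pow_mul, pow_eq_pow_mod _ (hy g), hm.2, pow_one]
      have h2 := hback g₁
      rw [h1, hback g₂] at h2
      exact SemidirectProduct.inl_injective (mul_right_cancel h2.symm)
    obtain ⟨g, hg⟩ := Finite.surjective_of_injective hinj x.left
    have hxy : (SemidirectProduct.inl g * b) ^ k = x := by
      apply SemidirectProduct.ext hg
      rw [hright, hak]
    rw [← hxy, ← pow_mul, mul_comm, pow_mul, hy, one_pow]
  have hnil : Group.IsNilpotent K := Cfsg.Agent.Lib.Kegel.kegel hp K hbK hL
  let e : G ≃* K := MonoidHom.ofInjective SemidirectProduct.inl_injective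
  exact nilpotent_of_surjective e.symm.toMonoidHom e.symm.surjective


end Cfsg.Agent.S3946
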