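import Cfsg.Statements.S3947
import Cfsg.Agent.Lib.Subnormal.Join

set_option autoImplicit false
open Cfsg

namespace Cfsg.Agent.S3947

section helpers

open Subgroup Cfsg.Agent.Lib.Subnormal
open Cfsg.Agent.Lib.FF (conj_mul_conj conj_one' conj_mono conj_eq_of_mem mem_normalizer_iff_conj card_conj)

universe u
variable {G : Type u} [Group G]

abbrev cj (g : G) (S : Subgroup G) : Subgroup G := S.map (MulAut.conj g).toMonoidHom

theorem cj_cj (a b : G) (S : Subgroup G) : cj a (cj b S) = cj (a * b) S := conj_mul_conj ..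
theorem cj_one (S : Subgroup G) : cj 1 S = S := conj_one' ..
theorem cj_mono (g : G) {S T : Subgroup G} (h : S ≤ T) : cj g S ≤ cj g T := conj_mono g h
theorem cj_inv_cj (g : G) (S : Subgroup G) : cj g⁻¹ (cj g S) = S := by
  rw [cj_cj, inv_mul_cancel, cj_one]
theorem cj_cj_inv (g : G) (S : Subgroup G) : cj g (cj g⁻¹ S) = S := by
  rw [cj_cj, mul_inv_cancel, cj_one]
theorem cj_eq_of_mem' {g : G} {S : Subgroup G} (h : g ∈ S) : cj g S = S := conj_eq_of_mem h
theorem mem_norm {g : G} {S : Subgroup G} : g ∈ normalizer (S : Set G) ↔ cj g S = S :=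
  mem_normalizer_iff_conj
theorem cj_eq_of_le [Finite G] {g : G} {S : Subgroup G} (h : cj g S ≤ S) : cj g S = S :=
  Subgroup.eq_of_le_of_card_ge h (card_conj S g).ge
theorem sn_cj (g : G) {X S : Subgroup G} (h : SN X S) : SN (cj g X) (cj g S) := h.conj g
theorem cj_top (g : G) : cj g (⊤ : Subgroup G) = ⊤ := conj_top' g

theorem coatom_cj {K : Subgroup G} (hK : IsCoatom K) (g : G) : IsCoatom (cj g K) := by
  refine ⟨fun h => hK.1 ?_, fun L hL => ?_⟩
  · have := cj_inv_cj g K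
    rw [h, cj_top] at this
    exact this.symm
  · have h1 : K < cj g⁻¹ L := by
      refine lt_of_le_of_ne ?_ (fun h => hL.ne ?_)
      · have := cj_mono g⁻¹ hL.le
        rwa [cj_inv_cj] at this
      · rw [h, cj_cj_inv]
    have h2 := hK.2 _ h1
    have h3 := cj_cj_inv g L
    rw [h2, cj_top] at h3
    exact h3.symm

def Full (E U : Subgroup G) : Prop :=
  ∀ N : Subgroup G, E ≤ N → N ≤ U → U ≤ normalizer (N : Set G) → N = U

theorem full_self (E : Subgroup G) : Full E E := fun _ h1 h2 _ => le_antisymm h2 h1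

theorem full_mono {E E' U : Subgroup G} (h : Full E U) (hh : E ≤ E') : Full E' U :=
  fun N h1 h2 h3 => h N (hh.trans h1) h2 h3

theorem le_norm_inf {N T U : Subgroup G} (hU : U ≤ normalizer (N : Set G)) (hTU : T ≤ U) :
    T ≤ normalizer ((N ⊓ T : Subgroup G) : Set G) := by
  intro t ht
  rw [Subgroup.mem_normalizer_iff]
  intro h
  constructor
  · intro hh
    exact ⟨(Subgroup.mem_normalizer_iff.mp (hU (hTU ht)) h).mp hh.1,
      T.mul_mem (T.mul_mem ht hh.2) (T.inv_mem ht)⟩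
  · intro hh
    refine ⟨(Subgroup.mem_normalizer_iff.mp (hU (hTU ht)) h).mpr hh.1, ?_⟩
    have := T.mul_mem (T.mul_mem (T.inv_mem ht) hh.2) ht
    simpa [mul_assoc] using this

theorem full_trans {E T U : Subgroup G} (hET : E ≤ T) (hFT : Full E T) (hTU : T ≤ U)
    (hF : Full T U) : Full E U := by
  intro N h1 h2 h3
  have h4 : N ⊓ T = T := hFT _ (le_inf h1 hET) inf_le_right (le_norm_inf h3 hTU)
  exact hF N (inf_eq_right.mp h4) h2 h3

theorem full_sSup {E : Subgroup G} (S : Set (Subgroup G)) (hS : ∀ U ∈ S, E ≤ U ∧ Full E U) :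
    Full E (sSup S) := by
  intro N h1 h2 h3
  refine le_antisymm h2 (sSup_le fun U hU => ?_)
  have h4 : N ⊓ U = U := (hS U hU).2 _ (le_inf h1 (hS U hU).1) inf_le_right
    (le_norm_inf h3 (le_sSup hU))
  exact inf_eq_right.mp h4

theorem full_sn {E U : Subgroup G} (h : SN U E) (hF : Full E U) : E = U := by
  by_contra hne
  obtain ⟨N₀, h1, h2, h3⟩ := h.exists_normal hne
  exact h2.ne (hF N₀ h1 h2.le h3)

theorem exists_closure [Finite G] {E X : Subgroup G} (hEX : E ≤ X) :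
    ∃ T, E ≤ T ∧ T ≤ X ∧ SN X T ∧ Full E T := by
  induction X using WellFoundedLT.induction with
  | ind X IH =>
  by_cases hF : Full E X
  · exact ⟨X, hEX, le_rfl, SN.refl, hF⟩
  · unfold Full at hF
    push_neg at hF
    obtain ⟨N, h1, h2, h3, h4⟩ := hF
    obtain ⟨T, a, b, c, d⟩ := IH N (lt_of_le_of_ne h2 h4) h1
    exact ⟨T, a, b.trans h2, (SN.of_normal h2 h3).trans c, d⟩

theorem exists_out [Finite G] {X D : Subgroup G} (hX : ¬ X ≤ D) :
    ∃ (Z : Subgroup G) (u : G), SN X Z ∧ Z ≤ D ∧ (∀ L, SN X L → L ≤ D → L ≤ Z) ∧ u ∈ X ∧ u ∉ D ∧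
      cj u Z = Z := by
  have h1 : SN X (sSup {L : Subgroup G | SN X L ∧ L ≤ D}) := sn_sSup _ fun _ h => h.1
  have h2 : sSup {L : Subgroup G | SN X L ∧ L ≤ D} ≤ D := sSup_le fun _ h => h.2
  have h3 : ∀ L, SN X L → L ≤ D → L ≤ sSup {L : Subgroup G | SN X L ∧ L ≤ D} :=
    fun L a b => le_sSup ⟨a, b⟩
  have hne : sSup {L : Subgroup G | SN X L ∧ L ≤ D} ≠ X := fun h => hX (h ▸ h2)
  obtain ⟨U, hU1, hU2, hU3⟩ := h1.exists_step hne
  have hUD : ¬ U ≤ D := fun h => hU1.not_ge (h3 U hU2 h)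
  obtain ⟨u, hu1, hu2⟩ := SetLike.not_le_iff_exists.mp hUD
  exact ⟨_, u, h1, h2, h3, hU2.le hu1, hu2, mem_norm.mp (hU3 hu1)⟩

theorem core [Finite G] (E : Subgroup G) : Full E ⊤ → E ≠ ⊤ →
    (∃ W : Subgroup G, W ≠ ⊤ ∧ ∀ U, E ≤ U → U ≠ ⊤ → Full E U → U ≤ W) →
    ∃! M : Subgroup G, IsCoatom M ∧ E ≤ M := by
  classical
  induction E using WellFoundedGT.induction with
  | ind E IH =>
  rintro hfull hne ⟨W, hW, hbd⟩
  have hYle : sSup {U : Subgroup G | E ≤ U ∧ U ≠ ⊤ ∧ Full E U} ≤ W :=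
    sSup_le fun U hU => hbd U hU.1 hU.2.1 hU.2.2
  obtain ⟨Y, hYdef⟩ : ∃ Y, Y = sSup {U : Subgroup G | E ≤ U ∧ U ≠ ⊤ ∧ Full E U} := ⟨_, rfl⟩
  rw [← hYdef] at hYle
  have hYtop : Y ≠ ⊤ := fun h => hW (top_le_iff.mp (h ▸ hYle))
  have hmemY : ∀ U, E ≤ U → U ≠ ⊤ → Full E U → U ≤ Y := fun U h1 h2 h3 => by
    rw [hYdef]; exact le_sSup ⟨h1, h2, h3⟩
  have hEY : E ≤ Y := hmemY E le_rfl hne (full_self E)
  have hFY : Full E Y := by
    rw [hYdef]; exact full_sSup _ (fun U hU => ⟨hU.1, hU.2.2⟩)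
  have hcoat : ∀ S : Subgroup G, S ≠ ⊤ → ∃ Q, IsCoatom Q ∧ S ≤ Q := fun S hS => by
    obtain h | ⟨Q, hQ, hSQ⟩ := eq_top_or_exists_le_coatom S
    · exact absurd h hS
    · exact ⟨Q, hQ, hSQ⟩
  by_cases hEq : Y = E
  · have hCand : Cand E := by
      refine ⟨fun h => hne (full_sn h hfull), fun X hX hXt => ?_⟩
      obtain ⟨T, h1, h2, h3, h4⟩ := exists_closure hX
      have hTt : T ≠ ⊤ := fun h => hXt (top_le_iff.mp (h ▸ h2))
      have : T = E := le_antisymm ((hmemY T h1 hTt h4).trans hEq.le) h1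
      rwa [this] at h3
    have W' : JoinBelow G := fun Z _ A B hA hB => sn_sup hA hB
    obtain ⟨M, hM, hEM⟩ := hcoat E hne
    exact ⟨M, ⟨hM, hEM⟩, fun K hK => zipper W' E hCand hK.1 hM hK.2 hEM⟩
  have hlt : E < Y := lt_of_le_of_ne hEY (Ne.symm hEq)
  have hsub : ∀ T, E < T → T ≠ ⊤ → Full E T → ∃! M : Subgroup G, IsCoatom M ∧ T ≤ M :=
    fun T hT hTt hFT => IH T hT (full_mono hfull hT.le) hTt ⟨Y, hYtop, fun U hTU hU hFU =>
      hmemY U (hT.le.trans hTU) hU (full_trans hT.le hFT hTU hFU)⟩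
  obtain ⟨M, ⟨hM, hYM⟩, hMu⟩ := hsub Y hlt hYtop hFY
  have hEM : E ≤ M := hEY.trans hYM
  have hsn : ∀ K : Subgroup G, IsCoatom K → E ≤ K → K ≠ M → SN K E := by
    intro K hK hEK hKM
    obtain ⟨T, h1, h2, h3, h4⟩ := exists_closure hEK
    have hTt : T ≠ ⊤ := fun h => hK.1 (top_le_iff.mp (h ▸ h2))
    by_cases hTE : T = E
    · rwa [hTE] at h3
    · exfalso
      obtain ⟨Q, _, hQu⟩ := hsub T (lt_of_le_of_ne h1 (Ne.symm hTE)) hTt h4
      exact hKM ((hQu K ⟨hK, h2⟩).trans (hQu M ⟨hM, (hmemY T h1 hTt h4).trans hYM⟩).symm)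
  have hnsn : ¬ SN M E := fun h => hEq ((full_sn (SN.of_le h hEY hYM) hFY).symm)
  have hsnc : ∀ (y : G) (K : Subgroup G), IsCoatom K → cj y E ≤ K → K ≠ cj y M →
      SN K (cj y E) := by
    intro y K hK hle hne'
    have h1 : E ≤ cj y⁻¹ K := by
      have := cj_mono y⁻¹ hle
      rwa [cj_inv_cj] at this
    have h2 : cj y⁻¹ K ≠ M := by
      intro h
      apply hne'
      rw [← h, cj_cj_inv]
    have h3 := sn_cj y (hsn _ (coatom_cj hK y⁻¹) h1 h2)
    rwa [cj_cj_inv] at h3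
  have hNM : ∀ g : G, cj g M = M → g ∈ M := by
    intro g hg
    by_contra hgM
    have h1 : M < normalizer (M : Set G) :=
      lt_of_le_of_ne Subgroup.le_normalizer (fun h => hgM (h.ge (mem_norm.mpr hg)))
    have h2 := hM.2 _ h1
    exact hM.1 (hfull M hEM le_top h2.ge)
  have hNE : ∀ g : G, cj g E = E → g ∈ M := by
    intro g hg
    apply hNM
    by_contra hne'
    have h1 : E ≤ cj g M := by
      have := cj_mono g hEM
      rwa [hg] at this
    have h2 := hsn _ (coatom_cj hM g) h1 hne'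
    have h3 := sn_cj g⁻¹ h2
    rw [cj_inv_cj] at h3
    have h4 : cj g⁻¹ E = E := by
      have := cj_inv_cj g E
      rwa [hg] at this
    rw [h4] at h3
    exact hnsn h3
  have hX : ∀ (y : G) (K : Subgroup G), IsCoatom K → K ≠ M → E ≤ K → cj y E ≤ K → cj y E ≤ M →
      cj y E ≠ E →
      (∀ K' : Subgroup G, IsCoatom K' → E ≤ K' → cj y E ≤ K' → K' ≠ M → K' ≠ cj y M) → False := by
    intro y K hK hKM hEK hBK hBM hBE hcond
    have hle : E ⊔ cj y E ≤ M := sup_le hEM hBM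
    have hE2t : E ⊔ cj y E ≠ ⊤ := fun h => hM.1 (top_le_iff.mp (h ▸ hle))
    have hE2 : E < E ⊔ cj y E := by
      refine lt_of_le_of_ne le_sup_left (fun h => hBE ?_)
      exact cj_eq_of_le (le_sup_right.trans h.ge)
    have hbd2 : ∀ U, E ⊔ cj y E ≤ U → U ≠ ⊤ → Full (E ⊔ cj y E) U → U ≤ M := by
      intro U hU hUt hFU
      obtain ⟨K', hK', hUK'⟩ := hcoat U hUt
      by_cases hK'M : K' = M
      · exact hK'M ▸ hUK'
      · have h1 := hsn K' hK' ((le_sup_left.trans hU).trans hUK') hK'M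
        have h2 := hsnc y K' hK' ((le_sup_right.trans hU).trans hUK')
          (hcond K' hK' ((le_sup_left.trans hU).trans hUK') ((le_sup_right.trans hU).trans hUK') hK'M)
        have h3 := SN.of_le (sn_sup h1 h2) hU hUK'
        have h4 := full_sn h3 hFU
        exact h4 ▸ hle
    obtain ⟨Q, _, hQu⟩ := IH _ hE2 (full_mono hfull hE2.le) hE2t ⟨M, hM.1, hbd2⟩
    exact hKM ((hQu K ⟨hK, sup_le hEK hBK⟩).trans (hQu M ⟨hM, hle⟩).symm)
  have key3 : ∀ (y : G) (K : Subgroup G), IsCoatom K → K ≠ M → E ≤ K → cj y E ≤ K → cj y E ≤ M →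
      cj y E ≠ E → E ≤ cj y M := by
    intro y K hK hKM hEK hBK hBM hBE
    by_contra hcon
    exact hX y K hK hKM hEK hBK hBM hBE (fun K' _ h1 _ _ h => hcon (h ▸ h1))
  have key1 : ∀ (y : G) (K : Subgroup G), y ∈ M → IsCoatom K → K ≠ M → E ≤ K → cj y E ≤ K →
      cj y E = E := by
    intro y K hy hK hKM hEK hBK
    by_contra hBE
    have hyM : cj y M = M := cj_eq_of_mem' hy
    have hBM : cj y E ≤ M := by
      have := cj_mono y hEM
      rwa [hyM] at this
    exact hX y K hK hKM hEK hBK hBM hBE (fun K' _ _ _ h h' => h (h'.trans hyM))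
  have lemS : ∀ K : Subgroup G, IsCoatom K → K ≠ M → E ≤ K →
      ∃ y ∈ M, y ∉ K ∧ cj y E = E ∧
        ∀ g : G, cj g E ≤ K ⊓ M → cj g E ≠ E → cj y (cj g E) ≤ K ⊓ M := by
    intro K hK hKM hEK
    have hMK : ¬ M ≤ K ⊓ M := fun h =>
      hKM ((hM.le_iff.mp (h.trans inf_le_left)).resolve_left hK.1)
    obtain ⟨Z, y, hZ1, hZ2, hZ3, hyM, hyD, hyZ⟩ := exists_out hMK
    have hyK : y ∉ K := fun h => hyD ⟨h, hyM⟩
    have hperm : ∀ g : G, cj g E ≤ K ⊓ M → cj g E ≠ E → cj y (cj g E) ≤ K ⊓ M := by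
      intro g hg hgE
      have hgM : cj g M ≠ M := fun h =>
        hgE (key1 g K (hNM g h) hK hKM hEK (hg.trans inf_le_left))
      have h1 : SN M (cj g E) := hsnc g M hM (hg.trans inf_le_right) (Ne.symm hgM)
      have h2 := hZ3 _ h1 hg
      have h3 := cj_mono y h2
      rw [hyZ] at h3
      exact h3.trans hZ2
    have hKD : ¬ K ≤ K ⊓ M := fun h =>
      hKM ((hK.le_iff.mp (h.trans inf_le_right)).resolve_left hM.1).symm
    obtain ⟨Z', x, hZ'1, hZ'2, hZ'3, hxK, hxD, hxZ⟩ := exists_out hKD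
    have hEZ' : E ≤ Z' := hZ'3 E (hsn K hK hEK hKM) (le_inf hEK hEM)
    have hxM : x ∉ M := fun h => hxD ⟨hxK, h⟩
    have hB0 : cj x E ≤ K ⊓ M := (cj_mono x hEZ').trans (hxZ.le.trans hZ'2)
    have hB0E : cj x E ≠ E := fun h => hxM (hNE x h)
    have h1 : cj y (cj x E) ≤ K ⊓ M := hperm x hB0 hB0E
    rw [cj_cj] at h1
    have hne1 : cj (y * x) E ≠ E := by
      intro h
      exact hxM ((Subgroup.mul_mem_cancel_left M hyM).mp (hNE _ h))
    have h2 : E ≤ cj (y * x) M :=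
      key3 (y * x) K hK hKM hEK (h1.trans inf_le_left) (h1.trans inf_le_right) hne1
    have h3 : E ≤ cj x M :=
      key3 x K hK hKM hEK (hB0.trans inf_le_left) (hB0.trans inf_le_right) hB0E
    have h4 : cj y E ≤ cj (y * x) M := by
      have := cj_mono y h3
      rwa [cj_cj] at this
    have hK1 : cj (y * x) M ≠ M := fun h =>
      hxM ((Subgroup.mul_mem_cancel_left M hyM).mp (hNM _ h))
    have hyE : cj y E = E := key1 y _ hyM (coatom_cj hM _) hK1 h2 h4
    exact ⟨y, hyM, hyK, hyE, hperm⟩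
  refine ⟨M, ⟨hM, hEM⟩, ?_⟩
  rintro K0 ⟨hK0, hEK0⟩
  by_contra hK0M
  obtain ⟨K, ⟨hK, hEK, hKM⟩, hmax⟩ := Set.exists_max_image
    {K : Subgroup G | IsCoatom K ∧ E ≤ K ∧ K ≠ M} (fun K => Nat.card ↥(K ⊓ M))
    (Set.toFinite _) ⟨K0, hK0, hEK0, hK0M⟩
  obtain ⟨R, hRdef⟩ : ∃ R, R = sSup {B : Subgroup G | (∃ g, B = cj g E) ∧ B ≤ K ⊓ M} := ⟨_, rfl⟩
  have hBR : ∀ g, cj g E ≤ K ⊓ M → cj g E ≤ R := fun g hg => by
    rw [hRdef]; exact le_sSup ⟨⟨g, rfl⟩, hg⟩
  have hRD : R ≤ K ⊓ M := by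
    rw [hRdef]; exact sSup_le fun B hB => hB.2
  have hER : E ≤ R := by
    have := hBR 1 (by rw [cj_one]; exact le_inf hEK hEM)
    rwa [cj_one] at this
  have hRt : R ≠ ⊤ := fun h => hM.1 (top_le_iff.mp (h ▸ (hRD.trans inf_le_right)))
  have hnorm : ∀ a : G, (∀ g, cj g E ≤ K ⊓ M → cj a (cj g E) ≤ R) →
      a ∈ normalizer (R : Set G) := by
    intro a ha
    apply mem_norm.mpr
    apply cj_eq_of_le
    have : R ≤ R.comap (MulAut.conj a).toMonoidHom := by
      conv_lhs => rw [hRdef]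
      refine sSup_le ?_
      rintro B ⟨⟨g, rfl⟩, hB⟩
      exact Subgroup.map_le_iff_le_comap.mp (ha g hB)
    exact Subgroup.map_le_iff_le_comap.mpr this
  have hDN : K ⊓ M ≤ normalizer (R : Set G) := by
    intro a ha
    refine hnorm a fun g hg => ?_
    have h := cj_mono a hg
    rw [cj_eq_of_mem' ha, cj_cj] at h
    rw [cj_cj]
    exact hBR _ h
  obtain ⟨y, hyM, hyK, hyE, hyp⟩ := lemS K hK hKM hEK
  have hyN : y ∈ normalizer (R : Set G) := by
    refine hnorm y fun g hg => ?_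
    by_cases hgE : cj g E = E
    · rw [hgE, hyE]; exact hER
    · have := hyp g hg hgE
      rw [cj_cj] at this ⊢
      exact hBR _ this
  have hKD : ¬ K ≤ K ⊓ M := fun h =>
    hKM ((hK.le_iff.mp (h.trans inf_le_right)).resolve_left hM.1).symm
  obtain ⟨u, huM, huN⟩ : ∃ u, u ∉ M ∧ u ∈ normalizer (R : Set G) := by
    by_cases hall : ∀ g, cj g E ≤ K ⊓ M → SN K (cj g E)
    · obtain ⟨Z', u, h1, h2, h3, h4, h5, h6⟩ := exists_out hKD
      refine ⟨u, fun h => h5 ⟨h4, h⟩, hnorm u fun g hg => ?_⟩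
      have h8 := h3 _ (hall g hg) hg
      have h9 := cj_mono u h8
      rw [h6] at h9
      have h10 := h9.trans h2
      rw [cj_cj] at h10 ⊢
      exact hBR _ h10
    · push_neg at hall
      obtain ⟨w, hw1, hw2⟩ := hall
      have hKw : K = cj w M := by
        by_contra h
        exact hw2 (hsnc w K hK (hw1.trans inf_le_left) h)
      have hK2 : IsCoatom (cj w⁻¹ M) := coatom_cj hM _
      have hK2M : cj w⁻¹ M ≠ M := by
        intro h
        have h' := cj_cj_inv w M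
        rw [h] at h'
        exact hKM (hKw.trans h')
      have hEK2 : E ≤ cj w⁻¹ M := by
        have := cj_mono w⁻¹ (hw1.trans inf_le_right)
        rwa [cj_inv_cj] at this
      obtain ⟨y2, h2M, h2K, h2E, h2p⟩ := lemS _ hK2 hK2M hEK2
      have hcu : ∀ S, cj (w * y2 * w⁻¹) S = cj w (cj y2 (cj w⁻¹ S)) := by
        intro S
        rw [cj_cj, cj_cj, mul_assoc]
      refine ⟨w * y2 * w⁻¹, ?_, hnorm _ fun g hg => ?_⟩
      · intro hu
        apply h2K
        refine ⟨_, hu, ?_⟩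
        show w⁻¹ * (w * y2 * w⁻¹) * w⁻¹⁻¹ = y2
        group
      · rw [hcu]
        by_cases hgw : cj g E = cj w E
        · rw [hgw, cj_inv_cj, h2E]
          exact hBR w hw1
        · have hA1 : cj w⁻¹ (cj g E) ≤ M := by
            have := cj_mono w⁻¹ (hg.trans inf_le_left)
            rw [hKw, cj_inv_cj] at this
            exact this
          have hA2 : cj w⁻¹ (cj g E) ≤ cj w⁻¹ M := cj_mono w⁻¹ (hg.trans inf_le_right)
          have hA3 : cj w⁻¹ (cj g E) ≠ E := by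
            intro h
            have h' := congrArg (cj w) h
            rw [cj_cj_inv] at h'
            exact hgw h'
          have hA4 : cj (w⁻¹ * g) E ≤ cj w⁻¹ M ⊓ M := by
            rw [← cj_cj]
            exact le_inf hA2 hA1
          have hA5 := h2p (w⁻¹ * g) hA4 (by rw [← cj_cj]; exact hA3)
          have hA6 : cj w (cj y2 (cj (w⁻¹ * g) E)) ≤ K ⊓ M := by
            refine le_inf ?_ ?_
            · rw [hKw]; exact cj_mono w (hA5.trans inf_le_right)
            · have := cj_mono w (hA5.trans inf_le_left)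
              rwa [cj_cj_inv] at this
          rw [cj_cj w⁻¹ g E, cj_cj, cj_cj]
          rw [cj_cj, cj_cj] at hA6
          exact hBR _ hA6
  have hNt : normalizer (R : Set G) ≠ ⊤ := fun h =>
    hRt (full_mono hfull hER R le_rfl le_top h.ge)
  obtain ⟨Q, hQ, hNQ⟩ := hcoat _ hNt
  have hRN : R ≤ normalizer (R : Set G) := Subgroup.le_normalizer
  have hQM : Q ≠ M := fun h => huM (h ▸ hNQ huN)
  have hEQ : E ≤ Q := hER.trans (hRN.trans hNQ)
  have hcard : Nat.card ↥(Q ⊓ M) ≤ Nat.card ↥(K ⊓ M) := hmax Q ⟨hQ, hEQ, hQM⟩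
  have hDle : K ⊓ M ≤ Q ⊓ M := le_inf (hDN.trans hNQ) inf_le_right
  have heq := Subgroup.eq_of_le_of_card_ge hDle hcard
  exact hyK (heq.ge ⟨hNQ hyN, hyM⟩).1

theorem full_top {A : Subgroup G} (hA : Subgroup.normalClosure (A : Set G) = ⊤) : Full A ⊤ := by
  intro N h1 _ h3
  haveI : N.Normal := ⟨fun n hn g =>
    (Subgroup.mem_normalizer_iff.mp (h3 (Subgroup.mem_top g)) n).mp hn⟩
  have h4 : Subgroup.normalClosure (A : Set G) ≤ N := Subgroup.normalClosure_le_normal h1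
  rw [hA] at h4
  exact top_le_iff.mp h4

theorem nc_of_full {A U : Subgroup G} (h1 : A ≤ U) (hF : Full A U) :
    Subgroup.normalClosure ((A.subgroupOf U : Subgroup ↥U) : Set ↥U) = ⊤ := by
  have hmem : ∀ (k : ↥U), k ∈ Subgroup.normalClosure ((A.subgroupOf U : Subgroup ↥U) : Set ↥U) →
      (k : G) ∈ (Subgroup.normalClosure ((A.subgroupOf U : Subgroup ↥U) : Set ↥U)).map U.subtype :=
    fun k hk => ⟨k, hk, rfl⟩
  have h2 := hF ((Subgroup.normalClosure ((A.subgroupOf U : Subgroup ↥U) : Set ↥U)).map U.subtype)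
    (fun a ha => hmem ⟨a, h1 ha⟩ (Subgroup.subset_normalClosure (by simpa [Subgroup.mem_subgroupOf] using ha)))
    (Subgroup.map_subtype_le _) (by
      intro u hu
      rw [Subgroup.mem_normalizer_iff]
      intro h
      constructor
      · rintro ⟨k, hk, rfl⟩
        exact hmem (⟨u, hu⟩ * k * (⟨u, hu⟩ : ↥U)⁻¹) ((Subgroup.normalClosure_normal).conj_mem k hk ⟨u, hu⟩)
      · rintro ⟨k, hk, hke⟩
        have h3 : h = ((⟨u, hu⟩ : ↥U)⁻¹ * k * (⟨u, hu⟩ : ↥U)⁻¹⁻¹ : ↥U) := by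
          have hke' : (k : G) = u * h * u⁻¹ := hke
          simp [hke']
          group
        rw [h3]
        exact hmem _ ((Subgroup.normalClosure_normal).conj_mem k hk _))
  rw [eq_top_iff]
  intro x _
  have hx : (x : G) ∈ (Subgroup.normalClosure ((A.subgroupOf U : Subgroup ↥U) : Set ↥U)).map U.subtype := by
    rw [h2]; exact x.2
  obtain ⟨k, hk, hke⟩ := hx
  have : k = x := Subtype.ext hke
  exact this ▸ hk

end helpers

/-- Let G be a finite group and A a proper subgroup of G whose normal closure is G. Let Y be the join of all proper subgroups H of G that contain A and are generated by their own conjugates of A (the normal closure of A in H is H). Then either Y = G, or A is contained in exactly one maximal subgroup of G. -/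
theorem result {G : Type*} [Group G] [Finite G] (A : Subgroup G) (hA : Subgroup.normalClosure (A : Set G) = ⊤) (hAG : A ≠ ⊤) :
    sSup {H : Subgroup G | A ≤ H ∧ H ≠ ⊤ ∧ Subgroup.normalClosure ((A.subgroupOf H : Subgroup ↥H) : Set ↥H) = ⊤} = ⊤ ∨
      ∃! M : Subgroup G, IsCoatom M ∧ A ≤ M := by
  by_cases hY : sSup {H : Subgroup G | A ≤ H ∧ H ≠ ⊤ ∧ Subgroup.normalClosure ((A.subgroupOf H : Subgroup ↥H) : Set ↥H) = ⊤} = ⊤
  · exact Or.inl hY
  · exact Or.inr (core A (full_top hA) hAG ⟨_, hY, fun U h1 h2 h3 => le_sSup ⟨h1, h2, nc_of_full h1 h3⟩⟩)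

end Cfsg.Agent.S3947
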