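import Cfsg.Statements.S3949
import Mathlib

set_option autoImplicit false
open Cfsg

namespace Cfsg.Agent.S3949

/-- Let G be a finite group and α an automorphism of G of order 2 such that the elements g·α(g)⁻¹ generate G. Let j be a positive integer such that 2^j divides the order of no element inverted by α. Then the set of values of the j-th iterate of the map c ↦ c·α(c)⁻¹ is exactly the set of elements of odd order inverted by α. -/
theorem result {G : Type*} [Group G] [Finite G] (α : MulAut G) (hα : orderOf α = 2) (hG : Subgroup.closure (Set.range (fun c : G => c * (α c)⁻¹)) = ⊤)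
    (j : ℕ) (hj : ∀ g : G, α g = g⁻¹ → ¬ 2 ^ j ∣ orderOf g) :
    Set.range ((fun c : G => c * (α c)⁻¹)^[j]) = {g : G | Odd (orderOf g) ∧ α g = g⁻¹} := by
  classical
  have hαα : ∀ g, α (α g) = g := by
    intro g
    have h : α ^ 2 = 1 := by rw [← hα]; exact pow_orderOf_eq_one α
    have := DFunLike.congr_fun h g
    simpa [pow_two] using this
  set f : G → G := fun c => c * (α c)⁻¹ with hf
  have hinv : ∀ c, α (f c) = (f c)⁻¹ := by
    intro c
    simp [hf, hαα]
  have hfv : ∀ v, α v = v⁻¹ → f v = v ^ 2 := by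
    intro v hv
    simp [hf, hv, pow_two]
  have hpowinv : ∀ (v : G) (n : ℕ), α v = v⁻¹ → α (v ^ n) = (v ^ n)⁻¹ := by
    intro v n hv
    rw [map_pow, hv, inv_pow]
  have hiter : ∀ (i : ℕ) (c : G), f^[i + 1] c = (f c) ^ 2 ^ i := by
    intro i c
    induction i with
    | zero => simp
    | succ i ih =>
      rw [Function.iterate_succ_apply', ih, hfv _ (hpowinv _ _ (hinv c)), ← pow_mul, pow_succ]
  have hj0 : j ≠ 0 := by
    rintro rfl
    exact hj 1 (by simp) (by simp)
  obtain ⟨i, rfl⟩ : ∃ i, j = i + 1 := ⟨j - 1, by omega⟩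
  ext x
  constructor
  · rintro ⟨c, rfl⟩
    show Odd (orderOf (f^[i + 1] c)) ∧ α (f^[i + 1] c) = (f^[i + 1] c)⁻¹
    rw [hiter]
    refine ⟨?_, hpowinv _ _ (hinv c)⟩
    -- write the order of `f c` as a power of two times an odd number
    have hpos : orderOf (f c) ≠ 0 := (orderOf_pos _).ne'
    obtain ⟨a, r, hr, hord⟩ := Nat.exists_eq_two_pow_mul_odd hpos
    have hai : a ≤ i := by
      by_contra h
      push Not at h
      apply hj (f c) (hinv c)
      rw [hord]
      exact Dvd.dvd.mul_right (pow_dvd_pow 2 (by omega)) r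
    have hgcd : Nat.gcd (orderOf (f c)) (2 ^ i) = 2 ^ a := by
      rw [hord]
      have hcop : Nat.Coprime r (2 ^ i) := Nat.Coprime.pow_right _ (Nat.coprime_two_right.mpr hr)
      rw [Nat.Coprime.gcd_mul_right_cancel _ hcop]
      exact Nat.gcd_eq_left (pow_dvd_pow 2 hai)
    rw [orderOf_pow, hgcd, hord, Nat.mul_div_cancel_left _ (by positivity)]
    exact hr
  · rintro ⟨hodd, hx⟩
    -- `2 ^ (i + 1)` is invertible modulo the odd order of `x`
    have hcop : Nat.Coprime (2 ^ (i + 1)) (orderOf x) :=
      Nat.Coprime.pow_left _ (Nat.coprime_two_left.mpr hodd)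
    by_cases hx1 : orderOf x = 1
    · refine ⟨1, ?_⟩
      have : x = 1 := orderOf_eq_one_iff.mp hx1
      rw [this]
      have hone : ∀ n, f^[n] 1 = 1 := by
        intro n
        induction n with
        | zero => rfl
        | succ n ih => rw [Function.iterate_succ_apply', ih]; simp [hf]
      exact hone _
    · have h1 : 1 < orderOf x := by
        have := orderOf_pos x
        omega
      obtain ⟨s, hs⟩ := Nat.exists_mul_mod_eq_one_of_coprime hcop h1
      refine ⟨x ^ s, ?_⟩
      show f^[i + 1] (x ^ s) = x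
      have hu : α (x ^ s) = (x ^ s)⁻¹ := hpowinv _ _ hx
      rw [hiter, hfv _ hu, ← pow_mul, ← pow_mul]
      have e : s * (2 * 2 ^ i) = 2 ^ (i + 1) * s := by ring
      rw [e, ← pow_mod_orderOf, hs.2, pow_one]

end Cfsg.Agent.S3949
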