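import Cfsg.Statements.S3976
import Mathlib
import Cfsg.Agent.S3975

set_option autoImplicit false
open Cfsg

namespace Cfsg.Agent.S3976

/-- Let `p` be a prime and `G` a group of order `p ^ m`. For every `s ≤ m` the number of normal subgroups of `G` of order `p ^ s` is congruent to `1` modulo `p`. -/
theorem result {G : Type*} [Group G] [Finite G] (p m s : ℕ) (hp : p.Prime) (hG : Nat.card G = p ^ m) (hs : s ≤ m) : Nat.card {H : Subgroup G // H.Normal ∧ Nat.card H = p ^ s} ≡ 1 [MOD p] := by
  classical
  haveI : Fact p.Prime := ⟨hp⟩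
  have hpG : IsPGroup p G := IsPGroup.of_card hG
  have hdiv : p ^ s ∣ Nat.card G := by rw [hG]; exact pow_dvd_pow p hs
  have h1 := Cfsg.Agent.S3975.result (G := G) p s hp hdiv
  letI act : MulAction G {H : Subgroup G // Nat.card H = p ^ s} :=
    { smul := fun g H => ⟨H.1.map (MulAut.conj g).toMonoidHom, by
        exact (Nat.card_congr (MulEquiv.subgroupMap (MulAut.conj g) H.1).symm.toEquiv).trans H.2⟩
      one_smul := fun H => Subtype.ext (by
        ext x
        show x ∈ H.1.map (MulAut.conj (1 : G)).toMonoidHom ↔ x ∈ H.1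
        simp)
      mul_smul := fun a b H => Subtype.ext (by
        ext x
        show x ∈ H.1.map (MulAut.conj (a * b)).toMonoidHom ↔
          x ∈ (H.1.map (MulAut.conj b).toMonoidHom).map (MulAut.conj a).toMonoidHom
        rw [Subgroup.map_map, map_mul]
        rfl) }
  have h2 := hpG.card_modEq_card_fixedPoints {H : Subgroup G // Nat.card H = p ^ s}
  have h3 : Nat.card (MulAction.fixedPoints G {H : Subgroup G // Nat.card H = p ^ s}) =
      Nat.card {H : Subgroup G // H.Normal ∧ Nat.card H = p ^ s} := by
    refine Nat.card_congr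
      { toFun := fun H => ⟨H.1.1, ?_, H.1.2⟩
        invFun := fun H => ⟨⟨H.1, H.2.2⟩, ?_⟩
        left_inv := fun H => rfl
        right_inv := fun H => rfl }
    · constructor
      intro x hx g
      have h4 : (H.1.1).map (MulAut.conj g).toMonoidHom = H.1.1 :=
        congrArg Subtype.val (H.2 g)
      rw [← h4]
      exact ⟨x, hx, rfl⟩
    · intro g
      apply Subtype.ext
      show H.1.map (MulAut.conj g).toMonoidHom = H.1
      haveI := H.2.1
      exact Subgroup.Normal.map_conj_eq H.1 g
  rw [h3] at h2
  exact h2.symm.trans h1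

end Cfsg.Agent.S3976
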