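import Cfsg.Statements.S3982
import Mathlib
import Cfsg.Agent.Lib.PSmall.Basic
import Cfsg.Agent.Lib.ClassSizes.PCentral
import Cfsg.Agent.Lib.Core.Basic

set_option autoImplicit false
open Cfsg

namespace Cfsg.Agent.S3982

open Subgroup Cfsg.Agent.Lib.Core

/-- A fixed-point-free involution inverts. -/
theorem inverts_of_fpf {G : Type*} [Group G] [Finite G] (R : Subgroup G) {y : G} (hy : y * y = 1)
    (hyR : ∀ g ∈ R, y * g * y⁻¹ ∈ R) (hfpf : ∀ g ∈ R, y * g * y⁻¹ = g → g = 1) :
    ∀ g ∈ R, y * g * y⁻¹ = g⁻¹ := by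
  have hyi : y⁻¹ = y := inv_eq_of_mul_eq_one_right hy
  let φ : R → R := fun u => ⟨(u : G)⁻¹ * (y * u * y⁻¹), R.mul_mem (R.inv_mem u.2) (hyR u u.2)⟩
  have hφ : Function.Injective φ := by
    intro u v huv
    have h1 : (u : G)⁻¹ * (y * u * y⁻¹) = (v : G)⁻¹ * (y * v * y⁻¹) := congrArg Subtype.val huv
    have h2 : y * ((v : G) * (u : G)⁻¹) * y⁻¹ = (v : G) * (u : G)⁻¹ := by
      calc y * ((v : G) * (u : G)⁻¹) * y⁻¹ = (y * v * y⁻¹) * (y * u * y⁻¹)⁻¹ := by group
        _ = (v : G) * (((v : G)⁻¹ * (y * v * y⁻¹)) * (y * u * y⁻¹)⁻¹) := by group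
        _ = (v : G) * (((u : G)⁻¹ * (y * u * y⁻¹)) * (y * u * y⁻¹)⁻¹) := by rw [h1]
        _ = (v : G) * (u : G)⁻¹ := by group
    have h3 := hfpf _ (R.mul_mem v.2 (R.inv_mem u.2)) h2
    apply Subtype.ext
    exact (mul_inv_eq_one.mp h3).symm
  have hsurj := Finite.surjective_of_injective hφ
  intro g hg
  obtain ⟨u, hu⟩ := hsurj ⟨g, hg⟩
  have hu' : (u : G)⁻¹ * (y * u * y⁻¹) = g := congrArg Subtype.val hu
  rw [← hu', hyi]
  have h5 : (y * (u : G) * y)⁻¹ = y * (u : G)⁻¹ * y := by
    rw [mul_inv_rev, mul_inv_rev, hyi]; group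
  calc y * ((u : G)⁻¹ * (y * u * y)) * y = y * (u : G)⁻¹ * y * u * (y * y) := by group
    _ = y * (u : G)⁻¹ * y * u := by rw [hy, mul_one]
    _ = ((u : G)⁻¹ * (y * u * y))⁻¹ := by
      rw [mul_inv_rev, inv_inv, h5]

end Cfsg.Agent.S3982

namespace Cfsg.Agent.S3982

open Subgroup Cfsg.Agent.Lib.Core

/-- Let p be an odd prime and G a finite group of even order divisible by p in which the centralizer of every non-identity p-element has odd order. If some nontrivial p-subgroup of G has a normalizer of even order, then the normalizer of every Sylow p-subgroup of G has even order. -/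
theorem result {G : Type*} [Group G] [Finite G] (p : ℕ) [Fact p.Prime] (hp2 : p ≠ 2) (hpG : p ∣ Nat.card G) (h2G : 2 ∣ Nat.card G) (hC : ∀ g : G, g ≠ 1 → (∃ k : ℕ, orderOf g = p ^ k) → Odd (Nat.card ↥(Subgroup.centralizer ({g} : Set G)))) (Q : Subgroup G) (hQ : IsPGroup p ↥Q) (hQ1 : Q ≠ ⊥) (hev : Even (Nat.card ↥(Subgroup.normalizer (Q : Set G)))) (P : Sylow p G) : Even (Nat.card ↥(Subgroup.normalizer ((P : Subgroup G) : Set G))) := by
  classical
  have hp : p.Prime := Fact.out
  haveI h2f : Fact (Nat.Prime 2) := ⟨Nat.prime_two⟩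
  -- an involution normalizing `Q`
  obtain ⟨y₀, hy₀⟩ := exists_prime_orderOf_dvd_card' 2 (even_iff_two_dvd.mp hev)
  set y : G := (y₀ : G) with hy
  have hyord : orderOf y = 2 := by rw [hy, Subgroup.orderOf_coe, hy₀]
  have hyy : y * y = 1 := by rw [← sq, ← hyord]; exact pow_orderOf_eq_one y
  have hyinv : y⁻¹ = y := inv_eq_of_mul_eq_one_right hyy
  have hyQ : y ∈ normalizer (Q : Set G) := y₀.2
  -- a maximal `y`-invariant `p`-subgroup above `Q`
  let 𝒮 : Set (Subgroup G) := {R | IsPGroup p R ∧ Q ≤ R ∧ y ∈ normalizer (R : Set G)}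
  have hQ𝒮 : Q ∈ 𝒮 := ⟨hQ, le_rfl, hyQ⟩
  obtain ⟨R, hQR, hRmax⟩ := (Set.toFinite 𝒮).exists_le_maximal hQ𝒮
  obtain ⟨hRp, hQR', hyR⟩ := hRmax.prop
  have hR1 : R ≠ ⊥ := by
    intro h
    rw [h] at hQR
    exact hQ1 (le_bot_iff.mp hQR)
  have hyRc : ∀ g ∈ R, y * g * y⁻¹ ∈ R := fun g hg => (mem_normalizer_iff.mp hyR g).mp hg
  have hpel : ∀ g ∈ R, ∃ k, orderOf g = p ^ k := fun g hg =>
    Cfsg.Agent.Lib.ClassSizes.exists_orderOf_eq_prime_pow_of_mem hRp hg
  -- odd centralizers
  have hoddC : ∀ g ∈ R, g ≠ 1 → ¬ 2 ∣ Nat.card (centralizer ({g} : Set G)) := by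
    intro g hg hg1
    exact Nat.odd_iff.mp (hC g hg1 (hpel g hg)) |> fun h => by omega
  have hfpf : ∀ g ∈ R, y * g * y⁻¹ = g → g = 1 := by
    intro g hg hgy
    by_contra hg1
    apply hoddC g hg hg1
    have hyC : y ∈ centralizer ({g} : Set G) := by
      rw [mem_centralizer_singleton_iff]
      exact mul_inv_eq_iff_eq_mul.mp hgy
    have := orderOf_dvd_natCard (⟨y, hyC⟩ : centralizer ({g} : Set G))
    rwa [Subgroup.orderOf_mk, hyord] at this
  have hinv := inverts_of_fpf R hyy hyRc hfpf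
  have hRcomm : ∀ a ∈ R, ∀ b ∈ R, a * b = b * a := by
    intro a ha b hb
    have h1 := hinv _ (R.mul_mem ha hb)
    have h2 : y * (a * b) * y⁻¹ = (y * a * y⁻¹) * (y * b * y⁻¹) := by group
    rw [h2, hinv a ha, hinv b hb, mul_inv_rev] at h1
    have h3 := congrArg (fun t => t⁻¹) h1
    simp only [mul_inv_rev, inv_inv] at h3
    exact h3.symm
  -- the Sylow subgroup containing `R`
  obtain ⟨T, hRT⟩ := hRp.exists_le_sylow
  have hRTeq : R = (T : Subgroup G) := by
    by_contra hne
    -- the normalizer grows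
    set N₁ : Subgroup G := (T : Subgroup G) ⊓ normalizer (R : Set G) with hN₁
    have hN₁p : IsPGroup p N₁ := T.isPGroup'.to_le inf_le_left
    have hRN₁ : R ≤ N₁ := le_inf hRT Subgroup.le_normalizer
    have hRltN₁ : R < N₁ := by
      apply lt_of_le_of_ne hRN₁
      intro heq
      haveI : Group.IsNilpotent (T : Subgroup G) := T.isPGroup'.isNilpotent
      have hcond := normalizerCondition_of_isNilpotent (G := (T : Subgroup G))
      by_cases htop2 : R.subgroupOf (T : Subgroup G) = ⊤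
      · apply hne
        apply le_antisymm hRT
        intro r hr
        have : (⟨r, hr⟩ : (T : Subgroup G)) ∈ R.subgroupOf (T : Subgroup G) := by rw [htop2]; trivial
        exact this
      · have hlt := hcond (R.subgroupOf (T : Subgroup G)) (lt_top_iff_ne_top.mpr htop2)
        obtain ⟨r, hr1, hr2⟩ := SetLike.exists_of_lt hlt
        apply hr2
        rw [Subgroup.mem_subgroupOf, heq]
        refine ⟨r.2, ?_⟩
        apply Cfsg.Agent.Lib.PSmall.mem_normalizer_of_conj_mem
        intro q hq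
        have h1 : (⟨q, hRT hq⟩ : (T : Subgroup G)) ∈ R.subgroupOf (T : Subgroup G) := hq
        have h2 := (mem_normalizer_iff.mp hr1 _).mp h1
        exact h2
    -- a central element of `N₁` in `R`
    haveI hR₁n : (R.subgroupOf N₁).Normal := by
      constructor
      intro n hn g
      rw [Subgroup.mem_subgroupOf] at hn ⊢
      exact (mem_normalizer_iff.mp g.2.2 n).mp hn
    haveI : Group.IsNilpotent N₁ := hN₁p.isNilpotent
    have hR₁ne : R.subgroupOf N₁ ≠ ⊥ := by
      intro h
      apply hR1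
      rw [eq_bot_iff]
      intro r hr
      have h1 : (⟨r, hRN₁ hr⟩ : N₁) ∈ R.subgroupOf N₁ := hr
      rw [h] at h1
      have h2 : (⟨r, hRN₁ hr⟩ : N₁) = 1 := h1
      exact congrArg Subtype.val h2
    have h3 := normal_inf_center_ne_bot (R.subgroupOf N₁) hR₁ne
    obtain ⟨⟨g₀, hg₀⟩, hg₀1⟩ := Subgroup.ne_bot_iff_exists_ne_one.mp h3
    set g : G := (g₀ : G) with hg
    have hgR : g ∈ R := hg₀.1
    have hg1 : g ≠ 1 := by
      intro h
      apply hg₀1
      apply Subtype.ext
      apply Subtype.ext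
      exact h
    have hgc : ∀ w ∈ N₁, w * g = g * w := by
      intro w hw
      have := (mem_center_iff.mp hg₀.2) ⟨w, hw⟩
      exact congrArg Subtype.val this
    -- the subgroup `H₀`
    set H₀ : Subgroup G := centralizer ({g} : Set G) ⊓ normalizer (R : Set G) with hH₀
    have hH₀odd : ¬ 2 ∣ Nat.card H₀ := fun h =>
      hoddC g hgR hg1 (h.trans (Subgroup.card_dvd_of_le inf_le_left))
    have hyH₀ : ∀ w ∈ H₀, y * w * y⁻¹ ∈ H₀ := by
      rintro w ⟨hw1, hw2⟩
      refine ⟨?_, ?_⟩
      · apply mem_centralizer_singleton_iff.mpr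
        have h4 : w * g = g * w := mem_centralizer_singleton_iff.mp hw1
        have h5 : w * g⁻¹ = g⁻¹ * w := by
          have := (Commute.inv_right (show Commute w g from h4))
          exact this
        have h6 : y * g⁻¹ * y⁻¹ = g := by
          have h7 := hinv g hgR
          have h8 : y * g⁻¹ * y⁻¹ = (y * g * y⁻¹)⁻¹ := by group
          rw [h8, h7, inv_inv]
        calc y * w * y⁻¹ * g = y * w * y⁻¹ * (y * g⁻¹ * y⁻¹) := by rw [h6]
          _ = y * (w * g⁻¹) * y⁻¹ := by group
          _ = y * (g⁻¹ * w) * y⁻¹ := by rw [h5]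
          _ = (y * g⁻¹ * y⁻¹) * (y * w * y⁻¹) := by group
          _ = g * (y * w * y⁻¹) := by rw [h6]
      · exact Subgroup.mul_mem _ (Subgroup.mul_mem _ hyR hw2) (Subgroup.inv_mem _ hyR)
    let α : MulAut H₀ :=
      { toFun := fun w => ⟨y * w * y⁻¹, hyH₀ w w.2⟩
        invFun := fun w => ⟨y * w * y⁻¹, hyH₀ w w.2⟩
        left_inv := fun w => by
          apply Subtype.ext
          show y * (y * (w : G) * y⁻¹) * y⁻¹ = w
          rw [hyinv]
          calc y * (y * (w : G) * y) * y = (y * y) * w * (y * y) := by group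
            _ = w := by rw [hyy]; group
        right_inv := fun w => by
          apply Subtype.ext
          show y * (y * (w : G) * y⁻¹) * y⁻¹ = w
          rw [hyinv]
          calc y * (y * (w : G) * y) * y = (y * y) * w * (y * y) := by group
            _ = w := by rw [hyy]; group
        map_mul' := fun a b => by
          apply Subtype.ext
          show y * ((a : G) * b) * y⁻¹ = (y * a * y⁻¹) * (y * b * y⁻¹)
          group }
    have hαα : α * α = 1 := by
      ext w
      show y * (y * (w : G) * y⁻¹) * y⁻¹ = w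
      rw [hyinv]
      calc y * (y * (w : G) * y) * y = (y * y) * w * (y * y) := by group
        _ = w := by rw [hyy]; group
    -- an `α`-invariant Sylow `p`-subgroup of `H₀`
    have hcardS : ¬ 2 ∣ Nat.card (Sylow p H₀) := by
      obtain ⟨S₀⟩ : Nonempty (Sylow p H₀) := inferInstance
      intro h
      apply hH₀odd
      exact h.trans (S₀.card_dvd_index.trans (Subgroup.index_dvd_card _))
    obtain ⟨S, hS⟩ := Cfsg.Agent.Lib.ClassSizes.exists_fixed_of_involutive
      (fun S : Sylow p H₀ => α • S) (fun S => by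
        show α • α • S = S
        rw [smul_smul, hαα, one_smul]) hcardS
    have hSinv : ∀ s ∈ (S : Subgroup H₀), α s ∈ (S : Subgroup H₀) := by
      intro s hs
      have h4 : (α • S : Sylow p H₀) = S := hS
      have h5 : α • s ∈ ((α • S : Sylow p H₀) : Subgroup H₀) := by
        rw [Sylow.pointwise_smul_def]
        exact Subgroup.smul_mem_pointwise_smul s α _ hs
      rw [h4] at h5
      exact h5
    set S' : Subgroup G := (S : Subgroup H₀).map H₀.subtype with hS'
    have hS'p : IsPGroup p S' := S.isPGroup'.map _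
    -- `R ≤ S'`
    have hRH₀ : R ≤ H₀ := by
      intro r hr
      refine ⟨mem_centralizer_singleton_iff.mpr (hRcomm r hr g hgR), Subgroup.le_normalizer hr⟩
    have hRS' : R ≤ S' := by
      haveI hRn : (R.subgroupOf H₀).Normal := by
        constructor
        intro n hn w
        rw [Subgroup.mem_subgroupOf] at hn ⊢
        exact (mem_normalizer_iff.mp w.2.2 n).mp hn
      have hRp' : IsPGroup p (R.subgroupOf H₀) :=
        hRp.comap_of_injective H₀.subtype H₀.subtype_injective |>.to_le (by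
          intro x hx; exact hx)
      have h4 := pCore_le_sylow S
      have h5 := le_pCore hRn hRp'
      intro r hr
      refine ⟨⟨r, hRH₀ hr⟩, h4 (h5 hr), rfl⟩
    have hyS' : y ∈ normalizer (S' : Set G) := by
      apply Cfsg.Agent.Lib.PSmall.mem_normalizer_of_conj_mem
      rintro _ ⟨s, hs, rfl⟩
      exact ⟨α s, hSinv s hs, rfl⟩
    have hS'R : S' ≤ R := hRmax.2 ⟨hS'p, hQR'.trans hRS', hyS'⟩ hRS'
    -- `N₁` is a `p`-subgroup of `H₀`
    have hN₁H₀ : N₁ ≤ H₀ := by
      intro w hw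
      exact ⟨mem_centralizer_singleton_iff.mpr (hgc w hw), hw.2⟩
    have hN₁p' : IsPGroup p (N₁.subgroupOf H₀) :=
      hN₁p.comap_of_injective H₀.subtype H₀.subtype_injective |>.to_le (by
        intro x hx; exact hx)
    obtain ⟨S₂, hS₂⟩ := hN₁p'.exists_le_sylow
    have hcard1 : Nat.card N₁ ≤ Nat.card R := by
      have h5 : Nat.card (N₁.subgroupOf H₀) = Nat.card N₁ :=
        Nat.card_congr (Subgroup.subgroupOfEquivOfLe hN₁H₀).toEquiv
      have h6 : Nat.card (N₁.subgroupOf H₀) ≤ Nat.card (S₂ : Subgroup H₀) :=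
        Subgroup.card_le_of_le hS₂
      have h7 : Nat.card (S₂ : Subgroup H₀) = Nat.card (S : Subgroup H₀) := by
        rw [Sylow.card_eq_multiplicity, Sylow.card_eq_multiplicity]
      have h8 : Nat.card (S : Subgroup H₀) = Nat.card S' :=
        Nat.card_congr (Subgroup.equivMapOfInjective _ H₀.subtype H₀.subtype_injective).toEquiv
      have h9 : Nat.card S' ≤ Nat.card R := Subgroup.card_le_of_le hS'R
      omega
    have := Subgroup.eq_of_le_of_card_ge hRN₁ hcard1
    exact hRltN₁.ne this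
  -- conclusion
  obtain ⟨t, rfl⟩ := MulAction.exists_smul_eq G T P
  have hy' : t * y * t⁻¹ ∈ normalizer (((t • T : Sylow p G) : Subgroup G) : Set G) := by
    apply Cfsg.Agent.Lib.PSmall.mem_normalizer_of_conj_mem
    intro w hw
    apply Cfsg.Agent.Lib.ClassSizes.mem_sylow_smul_iff.mpr
    have h1 : t⁻¹ * w * t ∈ (T : Subgroup G) := Cfsg.Agent.Lib.ClassSizes.mem_sylow_smul_iff.mp hw
    have h2 : y * (t⁻¹ * w * t) * y⁻¹ ∈ R := hyRc _ (by rw [hRTeq]; exact h1)
    have h3 : t⁻¹ * (t * y * t⁻¹ * w * (t * y * t⁻¹)⁻¹) * t = y * (t⁻¹ * w * t) * y⁻¹ := by group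
    rw [h3]
    show y * (t⁻¹ * w * t) * y⁻¹ ∈ (T : Subgroup G)
    rw [← hRTeq]
    exact h2
  have hord' : orderOf (t * y * t⁻¹) = 2 := by
    rw [← hyord]
    exact orderOf_eq_orderOf_iff.mpr fun k => by rw [conj_pow, conj_eq_one_iff]
  have := orderOf_dvd_natCard (⟨_, hy'⟩ : normalizer (((t • T : Sylow p G) : Subgroup G) : Set G))
  rw [Subgroup.orderOf_mk, hord'] at this
  exact even_iff_two_dvd.mpr this

end Cfsg.Agent.S3982
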