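import Cfsg.Statements.S3984
import Mathlib
import Cfsg.Agent.Lib.TISylow.Basic
import Cfsg.Agent.Lib.Coprime.SZ2
import Cfsg.Agent.Lib.Core.Conj

set_option autoImplicit false
open scoped Pointwise
open Cfsg

namespace Cfsg.Agent.S3984

/-- Let P be a Sylow p-subgroup of the finite group G that meets each conjugate g P g⁻¹ with g outside N_G(P) trivially, and let N be a normal subgroup of G of order prime to p. Then every Sylow p-subgroup Q of G ⧸ N meets each conjugate x Q x⁻¹ with x outside its normalizer trivially. -/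
theorem result {G : Type*} [Group G] [Finite G] (p : ℕ) [Fact p.Prime] (P : Sylow p G) (hTI : ∀ g : G, g ∉ Subgroup.normalizer ((P : Subgroup G) : Set G) → (P : Subgroup G) ⊓ (MulAut.conj g • (P : Subgroup G)) = ⊥) (N : Subgroup G) [N.Normal] (hN : (Nat.card ↥N).Coprime p) (Q : Sylow p (G ⧸ N)) : ∀ x : G ⧸ N, x ∉ Subgroup.normalizer ((Q : Subgroup (G ⧸ N)) : Set (G ⧸ N)) → (Q : Subgroup (G ⧸ N)) ⊓ (MulAut.conj x • (Q : Subgroup (G ⧸ N))) = ⊥ := by
  classical
  have hp : p.Prime := Fact.out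
  have hTI1 := Cfsg.Agent.Lib.TISylow.TI.of_inf hTI
  have hTIall : ∀ R : Sylow p G, Cfsg.Agent.Lib.TISylow.TI (R : Subgroup G) := fun R => hTI1.sylow R
  have hf : Function.Surjective (QuotientGroup.mk' N) := QuotientGroup.mk'_surjective N
  obtain ⟨R, rfl⟩ := Sylow.mapSurjective_surjective hf p Q
  intro x hx
  obtain ⟨g, rfl⟩ := hf x
  rw [eq_bot_iff]
  rintro y ⟨hyQ, hyQg⟩
  rw [Subgroup.mem_bot]
  by_contra hy1
  apply hx
  have hRmap : ((R.mapSurjective hf : Sylow p (G ⧸ N)) : Subgroup (G ⧸ N)) = (R : Subgroup G).map (QuotientGroup.mk' N) := rfl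
  rw [hRmap] at hyQ hyQg ⊢
  obtain ⟨a, haR, rfl⟩ := hyQ
  have h2 := Cfsg.Agent.Lib.Core.mem_conj_smul_iff.mp hyQg
  obtain ⟨c, hcR, hc⟩ := h2
  set b := g * c * g⁻¹ with hb
  have hfb : QuotientGroup.mk' N b = QuotientGroup.mk' N a := by
    rw [hb, map_mul, map_mul, map_inv, hc]; group
  have ha1 : a ≠ 1 := by
    rintro rfl
    simp at hy1
  have hordp : ∀ w ∈ (R : Subgroup G), (orderOf w).Coprime (Nat.card N) := by
    intro w hw
    obtain ⟨k, hk⟩ := Cfsg.Agent.Lib.ClassSizes.exists_orderOf_eq_prime_pow_of_mem R.isPGroup' hw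
    rw [hk]
    exact Nat.Coprime.pow_left _ hN.symm
  have hordb : (orderOf b).Coprime (Nat.card N) := by
    have : orderOf b = orderOf c := orderOf_eq_orderOf_iff.mpr fun k => by
      rw [hb, conj_pow, conj_eq_one_iff]
    rw [this]
    exact hordp c hcR
  have hoa : orderOf (a : G ⧸ N) = orderOf a := Cfsg.Agent.Lib.Coprime.orderOf_mk_of_coprime (hordp a haR)
  have hob : orderOf (b : G ⧸ N) = orderOf b := Cfsg.Agent.Lib.Coprime.orderOf_mk_of_coprime hordb
  have hoab : orderOf a = orderOf b := by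
    rw [← hoa, ← hob]
    exact congrArg orderOf hfb.symm
  have hsup : Subgroup.zpowers a ⊔ N = Subgroup.zpowers b ⊔ N := by
    have key : ∀ u v : G, QuotientGroup.mk' N u = QuotientGroup.mk' N v →
        Subgroup.zpowers u ⊔ N ≤ Subgroup.zpowers v ⊔ N := by
      intro u v huv
      refine sup_le ?_ le_sup_right
      rw [Subgroup.zpowers_le]
      have h3 : v⁻¹ * u ∈ N := QuotientGroup.eq.mp huv.symm
      have h4 : u = v * (v⁻¹ * u) := by group
      rw [h4]
      exact Subgroup.mul_mem_sup (Subgroup.mem_zpowers v) h3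
    exact le_antisymm (key a b hfb.symm) (key b a hfb)
  have hcop : (Nat.card N).Coprime (Nat.card (Subgroup.zpowers a)) := by
    rw [Nat.card_zpowers]
    exact (hordp a haR).symm
  have hsol : Group.IsSolvable N ∨ Group.IsSolvable (Subgroup.zpowers a) := by
    right
    exact isSolvable_of_comm (fun x y => IsMulCommutative.is_comm.comm x y)
  obtain ⟨n, hn, hnK⟩ := Cfsg.Agent.Lib.Coprime.exists_conj_of_sup_eq hcop
    (by rw [Nat.card_zpowers, Nat.card_zpowers, hoab]) hsup hsol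
  have h3 : n * a * n⁻¹ ∈ Subgroup.zpowers b := by
    rw [hnK]
    exact ⟨a, Subgroup.mem_zpowers a, rfl⟩
  obtain ⟨e, he⟩ := Subgroup.mem_zpowers_iff.mp h3
  -- `t = g⁻¹ n` normalizes `R`
  have h4 : g⁻¹ * n ∈ Subgroup.normalizer ((R : Subgroup G) : Set G) := by
    apply hTIall R (g⁻¹ * n) a haR ha1
    have h5 : (g⁻¹ * n) * a * (g⁻¹ * n)⁻¹ = g⁻¹ * (n * a * n⁻¹) * g := by group
    rw [h5, ← he, hb]
    have h6 : g⁻¹ * (g * c * g⁻¹) ^ e * g = c ^ e := by
      have := conj_zpow (a := g⁻¹) (b := g * c * g⁻¹) (i := e)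
      simp only [inv_inv] at this
      rw [← this]
      congr 1
      group
    rw [h6]
    exact (R : Subgroup G).zpow_mem hcR e
  have h5 : QuotientGroup.mk' N (g⁻¹ * n) ∈
      Subgroup.normalizer (((R : Subgroup G).map (QuotientGroup.mk' N) : Subgroup (G ⧸ N)) : Set (G ⧸ N)) :=
    Subgroup.le_normalizer_map _ ⟨_, h4, rfl⟩
  have h6 : QuotientGroup.mk' N (g⁻¹ * n) = (QuotientGroup.mk' N g)⁻¹ := by
    have hn1 : QuotientGroup.mk' N n = 1 := (QuotientGroup.eq_one_iff n).mpr hn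
    rw [map_mul, map_inv, hn1, mul_one]
  rw [h6] at h5
  simpa using Subgroup.inv_mem _ h5

end Cfsg.Agent.S3984
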