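import Cfsg.Statements.S3985
import Mathlib
import Cfsg.Agent.Lib.TISylow.Basic
import Cfsg.Agent.Lib.Coprime.SZ2
import Cfsg.Agent.Lib.Core.Conj
import Cfsg.Agent.Lib.Block.Jordan

set_option autoImplicit false
open scoped Pointwise
open Cfsg

namespace Cfsg.Agent.S3985

open Subgroup

/-- Let P be a cyclic Sylow p-subgroup of the finite group G. Then P meets each conjugate g P g⁻¹ with g outside N_G(P) trivially if and only if P is weakly self-centralizing: C_G(x) = C_G(P) for every non-identity x ∈ P. -/
theorem result {G : Type*} [Group G] [Finite G] (p : ℕ) [Fact p.Prime] (P : Sylow p G) (hcyc : IsCyclic ↥(P : Subgroup G)) : (∀ g : G, g ∉ Subgroup.normalizer ((P : Subgroup G) : Set G) → (P : Subgroup G) ⊓ (MulAut.conj g • (P : Subgroup G)) = ⊥) ↔ ∀ x : G, x ∈ (P : Subgroup G) → x ≠ 1 → Subgroup.centralizer ({x} : Set G) = Subgroup.centralizer ((P : Subgroup G) : Set G) := by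
  classical
  have hp : p.Prime := Fact.out
  obtain ⟨w₀, hw₀⟩ := IsCyclic.exists_generator (α := (P : Subgroup G))
  set w : G := (w₀ : G) with hw
  have hwP : w ∈ (P : Subgroup G) := w₀.2
  -- every element of `P` is a power of `w`
  have hpow : ∀ y ∈ (P : Subgroup G), ∃ j : ℕ, y = w ^ j := by
    intro y hy
    have h1 := hw₀ ⟨y, hy⟩
    have h2 : (⟨y, hy⟩ : (P : Subgroup G)) ∈ Submonoid.powers w₀ := by
      rw [(isOfFinOrder_of_finite w₀).mem_powers_iff_mem_zpowers]
      exact h1
    obtain ⟨j, hj⟩ := h2
    exact ⟨j, by rw [hw]; exact (congrArg Subtype.val hj).symm⟩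
  have hPcomm : ∀ a ∈ (P : Subgroup G), ∀ b ∈ (P : Subgroup G), a * b = b * a := by
    intro a ha b hb
    obtain ⟨i, rfl⟩ := hpow a ha
    obtain ⟨j, rfl⟩ := hpow b hb
    exact (Commute.refl w).pow_pow i j
  constructor
  · intro hTI x hxP hx1
    have hT := Cfsg.Agent.Lib.TISylow.TI.of_inf hTI
    apply le_antisymm
    · intro c hc
      have hcx : c * x = x * c := mem_centralizer_singleton_iff.mp hc
      have hcN : c ∈ Subgroup.normalizer ((P : Subgroup G) : Set G) := by
        apply hT c x hxP hx1
        rw [hcx]; simpa using hxP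
      obtain ⟨u, v, rfl, huv, ⟨k, hk⟩, hv, hu2, hv2⟩ := Cfsg.Agent.Lib.Block.exists_jordan (p := p) c
      have huN : u ∈ Subgroup.normalizer ((P : Subgroup G) : Set G) :=
        (Subgroup.zpowers_le.mpr hcN) hu2
      have hvN : v ∈ Subgroup.normalizer ((P : Subgroup G) : Set G) :=
        (Subgroup.zpowers_le.mpr hcN) hv2
      have hvx : v * x = x * v := mem_centralizer_singleton_iff.mp ((Subgroup.zpowers_le.mpr hc) hv2)
      -- the `p`-part lies in `P`
      have huP : u ∈ (P : Subgroup G) := by
        have hz : IsPGroup p (Subgroup.zpowers u) := by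
          apply IsPGroup.of_card (n := k)
          rw [Nat.card_zpowers, hk]
        have h1 : u ∈ Subgroup.zpowers u ⊓ Subgroup.normalizer ((P : Subgroup G) : Set G) :=
          ⟨Subgroup.mem_zpowers u, huN⟩
        have h2 : Subgroup.zpowers u ⊓ Subgroup.normalizer ((P : Subgroup G) : Set G) =
            Subgroup.zpowers u ⊓ (P : Subgroup G) := hz.inf_normalizer_sylow P
        rw [h2] at h1
        exact h1.2
      -- the `p'`-part centralizes `w`
      have hvw : v * w = w * v := by
        obtain ⟨j, hj⟩ := hpow (v * w * v⁻¹) ((mem_normalizer_iff.mp hvN w).mp hwP)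
        obtain ⟨e, he⟩ := hpow x hxP
        obtain ⟨l, hl⟩ := Cfsg.Agent.Lib.ClassSizes.exists_orderOf_eq_prime_pow_of_mem P.isPGroup' hwP
        apply Cfsg.Agent.Lib.Coprime.commute_of_conj_eq_pow hp hl hj _ hv
        -- `j ≡ 1` modulo `p`
        have h1 : x ^ j = x ^ 1 := by
          rw [pow_one]
          have h2 : v * x * v⁻¹ = x := by rw [hvx]; group
          rw [he, ← pow_mul, mul_comm, pow_mul, ← hj]
          conv_rhs => rw [← he, ← h2, he]
          rw [conj_pow]
        rw [pow_eq_pow_iff_modEq] at h1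
        have hxord : p ∣ orderOf x := by
          obtain ⟨m, hm⟩ := Cfsg.Agent.Lib.ClassSizes.exists_orderOf_eq_prime_pow_of_mem P.isPGroup' hxP
          rw [hm]
          apply dvd_pow_self
          rintro rfl
          simp at hm
          exact hx1 hm
        exact h1.of_dvd hxord
      rw [mem_centralizer_iff]
      intro y hy
      obtain ⟨j, rfl⟩ := hpow y hy
      have h1 : Commute v (w ^ j) := Commute.pow_right hvw j
      have h2 : Commute u (w ^ j) := hPcomm u huP _ hy
      exact (h2.mul_left h1).symm.eq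
    · intro c hc
      rw [mem_centralizer_singleton_iff]
      exact ((mem_centralizer_iff.mp hc) x hxP).symm
  · intro hC g hg
    rw [eq_bot_iff]
    rintro y ⟨hy1, hy2⟩
    rw [Subgroup.mem_bot]
    by_contra hne
    apply hg
    have hu := Cfsg.Agent.Lib.Core.mem_conj_smul_iff.mp hy2
    set u := g⁻¹ * y * g with hudef
    have hu1 : u ≠ 1 := by
      intro h
      apply hne
      have : y = g * u * g⁻¹ := by rw [hudef]; group
      rw [this, h]; group
    have hCy := hC y hy1 hne
    have hCu := hC u hu hu1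
    -- the conjugate of `P` centralizes `P`
    have hcen : ∀ a ∈ (P : Subgroup G), g * a * g⁻¹ ∈ Subgroup.centralizer ((P : Subgroup G) : Set G) := by
      intro a ha
      rw [← hCy, mem_centralizer_singleton_iff]
      have h1 : a * u = u * a := hPcomm a ha u hu
      have h2 : y = g * u * g⁻¹ := by rw [hudef]; group
      rw [h2]
      calc g * a * g⁻¹ * (g * u * g⁻¹) = g * (a * u) * g⁻¹ := by group
        _ = g * (u * a) * g⁻¹ := by rw [h1]
        _ = g * u * g⁻¹ * (g * a * g⁻¹) := by group
    set R : Sylow p G := g • P with hR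
    have hRmem : ∀ a, a ∈ (R : Subgroup G) ↔ g⁻¹ * a * g ∈ (P : Subgroup G) := fun a =>
      Cfsg.Agent.Lib.ClassSizes.mem_sylow_smul_iff
    have hRC : (P : Subgroup G) ≤ Subgroup.normalizer ((R : Subgroup G) : Set G) := by
      intro a ha
      rw [mem_normalizer_iff]
      have key : ∀ a' ∈ (P : Subgroup G), ∀ b ∈ (R : Subgroup G), a' * b * a'⁻¹ = b := by
        intro a' ha' b hb
        have h1 := hcen _ ((hRmem b).mp hb)
        have e : g * (g⁻¹ * b * g) * g⁻¹ = b := by group
        rw [e] at h1
        have h2 := (mem_centralizer_iff.mp h1) a' ha'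
        rw [h2]; group
      intro b
      constructor
      · intro hb
        rw [key a ha b hb]; exact hb
      · intro hb
        have h1 := key a⁻¹ (Subgroup.inv_mem _ ha) _ hb
        have e : a⁻¹ * (a * b * a⁻¹) * a⁻¹⁻¹ = b := by group
        rw [e] at h1
        rw [h1]; exact hb
    have hsup : IsPGroup p ((R : Subgroup G) ⊔ (P : Subgroup G) : Subgroup G) :=
      IsPGroup.to_sup_of_normal_left' R.isPGroup' P.isPGroup' hRC
    have h3 := P.3 hsup le_sup_right
    have hRP : (R : Subgroup G) ≤ (P : Subgroup G) := le_sup_left.trans h3.le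
    apply Cfsg.Agent.Lib.PSmall.mem_normalizer_of_conj_mem
    intro a ha
    apply hRP
    rw [hRmem]
    have e : g⁻¹ * (g * a * g⁻¹) * g = a := by group
    rwa [e]

end Cfsg.Agent.S3985
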