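import Cfsg.Statements.S3986
import Mathlib
import Cfsg.Agent.Lib.ClassSizes.Basic

set_option autoImplicit false
open Cfsg

namespace Cfsg.Agent.S3986

open Subgroup

section Helpers

variable {G : Type*} [Group G] [Finite G]

/-- A subgroup whose index has no prime divisor `r` with a Sylow `r`-subgroup inside it is everything. -/
theorem index_eq_one_of_sylow_le {X : Type*} [Group X] [Finite X] (L : Subgroup X)
    (h : ∀ r : ℕ, r.Prime → r ∣ L.index → ∃ (_ : Fact r.Prime) (R : Sylow r X), (R : Subgroup X) ≤ L) :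
    L.index = 1 := by
  by_contra hne
  obtain ⟨r, hr, hrd⟩ := Nat.exists_prime_and_dvd hne
  obtain ⟨_, R, hR⟩ := h r hr hrd
  exact R.not_dvd_index (hrd.trans (Subgroup.index_dvd_of_le hR))

theorem orderOf_sylow {X : Type*} [Group X] [Finite X] {r : ℕ} [Fact r.Prime] (R : Sylow r X) {x : X}
    (hx : x ∈ (R : Subgroup X)) : ∃ k, orderOf x = r ^ k :=
  Cfsg.Agent.Lib.ClassSizes.exists_orderOf_eq_prime_pow_of_mem R.isPGroup' hx

/-- Direct factor from commuting. -/
theorem directFactor_of_commute {p : ℕ} [hp : Fact p.Prime]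
    (h : ∀ x y : G, (∃ a : ℕ, orderOf x = p ^ a) → (∃ q b : ℕ, q.Prime ∧ q ≠ p ∧ orderOf y = q ^ b) → x * y = y * x) :
    ∃ (P : Sylow p G) (K : Subgroup G), (P : Subgroup G).Normal ∧ K.Normal ∧ (P : Subgroup G) ⊓ K = ⊥ ∧
      (P : Subgroup G) ⊔ K = ⊤ := by
  obtain ⟨P⟩ : Nonempty (Sylow p G) := inferInstance
  have hcen : ∀ r : ℕ, r.Prime → r ≠ p → ∀ y : G, (∃ k, orderOf y = r ^ k) → y ∈ centralizer ((P : Subgroup G) : Set G) := by
    intro r hr hrp y ⟨k, hk⟩
    rw [mem_centralizer_iff]
    intro x hx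
    exact h x y (orderOf_sylow P hx) ⟨r, k, hr, hrp, hk⟩
  have hcenle : centralizer ((P : Subgroup G) : Set G) ≤ normalizer ((P : Subgroup G) : Set G) :=
    Subgroup.centralizer_le_normalizer _
  have hPn : (P : Subgroup G).Normal := by
    have h1 : (normalizer ((P : Subgroup G) : Set G)).index = 1 := by
      apply index_eq_one_of_sylow_le
      intro r hr hrd
      have hrp : r ≠ p := by
        rintro rfl
        exact P.not_dvd_index (hrd.trans (Subgroup.index_dvd_of_le Subgroup.le_normalizer))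
      haveI : Fact r.Prime := ⟨hr⟩
      obtain ⟨R⟩ : Nonempty (Sylow r G) := inferInstance
      refine ⟨inferInstance, R, ?_⟩
      intro y hy
      exact hcenle (hcen r hr hrp y (orderOf_sylow R hy))
    exact Subgroup.normalizer_eq_top_iff.mp (Subgroup.index_eq_one.mp h1)
  have hco : (Nat.card (P : Subgroup G)).Coprime (P : Subgroup G).index := by
    obtain ⟨k, hk⟩ := IsPGroup.iff_card.mp P.isPGroup'
    rw [hk]
    exact Nat.Coprime.pow_left _ ((Nat.Prime.coprime_iff_not_dvd hp.out).mpr P.not_dvd_index)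
  obtain ⟨K, hK⟩ := Subgroup.exists_right_complement'_of_coprime hco
  -- `K` centralizes `P`
  have hKC : K ≤ centralizer ((P : Subgroup G) : Set G) := by
    have h1 : ((centralizer ((P : Subgroup G) : Set G)).subgroupOf K).index = 1 := by
      apply index_eq_one_of_sylow_le
      intro r hr hrd
      have hrp : r ≠ p := by
        rintro rfl
        have h2 : r ∣ Nat.card K := hrd.trans (Subgroup.index_dvd_card _)
        rw [← hK.symm.index_eq_card] at h2
        exact P.not_dvd_index h2
      haveI : Fact r.Prime := ⟨hr⟩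
      obtain ⟨R⟩ : Nonempty (Sylow r K) := inferInstance
      refine ⟨inferInstance, R, ?_⟩
      intro y hy
      rw [Subgroup.mem_subgroupOf]
      apply hcen r hr hrp
      obtain ⟨k, hk⟩ := orderOf_sylow R hy
      exact ⟨k, by rwa [Subgroup.orderOf_coe]⟩
    have h2 := Subgroup.index_eq_one.mp h1
    intro y hy
    have h3 : (⟨y, hy⟩ : K) ∈ (centralizer ((P : Subgroup G) : Set G)).subgroupOf K := by
      rw [h2]; trivial
    exact h3
  have hKn : K.Normal := by
    rw [← Subgroup.normalizer_eq_top_iff, eq_top_iff, ← hK.sup_eq_top, sup_le_iff]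
    constructor
    · refine le_trans ?_ (Subgroup.centralizer_le_normalizer (K : Set G))
      intro x hx
      rw [mem_centralizer_iff]
      intro y hy
      exact ((mem_centralizer_iff.mp (hKC hy)) x hx).symm
    · exact Subgroup.le_normalizer
  exact ⟨P, K, hPn, hKn, hK.disjoint.eq_bot, hK.sup_eq_top⟩

/-- In a direct product, a `p`-element lies in the Sylow factor, and `p'`-elements in the other one. -/
theorem mem_factors {p : ℕ} [hp : Fact p.Prime] {P : Sylow p G} {K : Subgroup G} (hPn : (P : Subgroup G).Normal)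
    (hKn : K.Normal) (hinf : (P : Subgroup G) ⊓ K = ⊥) (hsup : (P : Subgroup G) ⊔ K = ⊤) :
    (∀ x : G, (∃ a : ℕ, orderOf x = p ^ a) → x ∈ (P : Subgroup G)) ∧
      (∀ y : G, (orderOf y).Coprime p → y ∈ K) ∧
      (∀ x ∈ (P : Subgroup G), ∀ y ∈ K, x * y = y * x) := by
  have hdisj : Disjoint (P : Subgroup G) K := disjoint_iff.mpr hinf
  refine ⟨?_, ?_, ?_⟩
  · intro x hx
    obtain ⟨Q, hQ⟩ := Cfsg.Agent.Lib.ClassSizes.exists_sylow_mem_of_orderOf (p := p) hx
    haveI := Sylow.unique_of_normal P hPn
    have : Q = P := Subsingleton.elim _ _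
    rw [← this]; exact hQ
  · intro y hy
    have hy' : y ∈ (P : Subgroup G) ⊔ K := by rw [hsup]; trivial
    obtain ⟨t, ht, h, hh, rfl⟩ := Subgroup.mem_sup_of_normal_right.mp hy'
    have hc : Commute t h := Subgroup.commute_of_normal_of_disjoint _ _ hPn hKn hdisj t h ht hh
    set n := orderOf (t * h) with hn
    have h1 : t ^ n * h ^ n = 1 := by
      rw [← hc.mul_pow]; exact pow_orderOf_eq_one _
    have h2 : t ^ n ∈ K := by
      have : t ^ n = (h ^ n)⁻¹ := eq_inv_of_mul_eq_one_left h1
      rw [this]; exact K.inv_mem (K.pow_mem hh n)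
    have h3 : t ^ n ∈ (P : Subgroup G) := (P : Subgroup G).pow_mem ht n
    have h4 : t ^ n = 1 := by
      have : t ^ n ∈ (P : Subgroup G) ⊓ K := ⟨h3, h2⟩
      rw [hinf] at this
      exact this
    have h5 : orderOf t ∣ n := orderOf_dvd_of_pow_eq_one h4
    obtain ⟨j, hj⟩ := orderOf_sylow P ht
    have h6 : t = 1 := by
      rw [← orderOf_eq_one_iff]
      have h7 : (orderOf t).Coprime p := Nat.Coprime.coprime_dvd_left h5 hy
      rw [hj] at h7 ⊢
      cases j with
      | zero => simp
      | succ j =>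
        have := Nat.Coprime.eq_one_of_dvd h7.symm (dvd_pow_self p (Nat.succ_ne_zero j))
        exact absurd this hp.out.ne_one
    rw [h6, one_mul]; exact hh
  · intro x hx y hy
    exact Subgroup.commute_of_normal_of_disjoint _ _ hPn hKn hdisj x y hx hy

end Helpers


/-- Let p be a prime and G a finite group. Then some Sylow p-subgroup of G is a direct factor of G (it is normal and has a normal complement) if and only if every element of p-power order commutes with every element whose order is a power of a prime other than p. -/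
theorem result {G : Type*} [Group G] [Finite G] (p : ℕ) [Fact p.Prime] : (∃ (P : Sylow p G) (K : Subgroup G), (P : Subgroup G).Normal ∧ K.Normal ∧ (P : Subgroup G) ⊓ K = ⊥ ∧ (P : Subgroup G) ⊔ K = ⊤) ↔ ∀ x y : G, (∃ a : ℕ, orderOf x = p ^ a) → (∃ q b : ℕ, q.Prime ∧ q ≠ p ∧ orderOf y = q ^ b) → x * y = y * x := by
  constructor
  · rintro ⟨P, K, hPn, hKn, hinf, hsup⟩ x y hx ⟨q, b, hq, hqp, hy⟩
    obtain ⟨h1, h2, h3⟩ := mem_factors hPn hKn hinf hsup
    apply h3 x (h1 x hx) y (h2 y ?_)
    rw [hy]
    exact Nat.Coprime.pow_left _ ((Nat.coprime_primes hq Fact.out).mpr hqp)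
  · exact directFactor_of_commute

end Cfsg.Agent.S3986
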