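import Cfsg.Statements.S3995
import Cfsg.Agent.Lib.Coprime.FrobCount
import Cfsg.Agent.S3976
import Mathlib

set_option autoImplicit false
open Cfsg

namespace Cfsg.Agent.S3995

open Subgroup

universe u

variable {G : Type u} [Group G] [Finite G]

/-- The number of elements of order `m`. -/
noncomputable abbrev NN (G : Type u) [Group G] (m : ℕ) : ℕ := Nat.card {g : G // orderOf g = m}

theorem card_pow_eq (k : ℕ) (hk : k ≠ 0) :
    Nat.card {x : G // x ^ k = 1} = ∑ d ∈ k.divisors, NN G d := by
  classical
  haveI := Fintype.ofFinite G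
  rw [Nat.card_eq_fintype_card, Fintype.card_subtype]
  rw [Finset.card_eq_sum_card_fiberwise (f := orderOf) (t := k.divisors)]
  · apply Finset.sum_congr rfl
    intro d hd
    rw [NN, Nat.card_eq_fintype_card, Fintype.card_subtype]
    congr 1
    ext x
    simp only [Finset.mem_filter, Finset.mem_univ, true_and, and_iff_right_iff_imp]
    intro hx
    rw [← hx] at hd
    exact orderOf_dvd_iff_pow_eq_one.mp (Nat.mem_divisors.mp hd).1
  · intro x hx
    have hx' : x ^ k = 1 := by simpa using hx
    exact Nat.mem_divisors.mpr ⟨orderOf_dvd_of_pow_eq_one hx', hk⟩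

theorem NN_one : NN G 1 = 1 := by
  rw [NN, Nat.card_eq_one_iff_unique]
  refine ⟨⟨?_⟩, ⟨⟨1, orderOf_one⟩⟩⟩
  rintro ⟨a, ha⟩ ⟨b, hb⟩
  rw [orderOf_eq_one_iff] at ha hb
  subst ha; subst hb; rfl

theorem prime_dvd {p : ℕ} (hp : p.Prime) (hd : p ∣ Nat.card G) : p ∣ 1 + NN G p := by
  have := Cfsg.Agent.Lib.Coprime.frobenius_count (G := G) p hd
  rw [card_pow_eq p hp.ne_zero, hp.divisors, Finset.sum_pair hp.one_lt.ne, NN_one] at this
  exact this

theorem card_pow_prime {p : ℕ} (hp : p.Prime) :
    Nat.card {x : G // x ^ p = 1} = 1 + NN G p := by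
  rw [card_pow_eq p hp.ne_zero, hp.divisors, Finset.sum_pair hp.one_lt.ne, NN_one]

theorem prime_sq_dvd {p : ℕ} (hp : p.Prime) (hd : p ^ 2 ∣ Nat.card G) :
    p ^ 2 ∣ 1 + NN G p + NN G (p ^ 2) := by
  have := Cfsg.Agent.Lib.Coprime.frobenius_count (G := G) (p ^ 2) hd
  rw [card_pow_eq (p ^ 2) (pow_ne_zero 2 hp.ne_zero), Nat.sum_divisors_prime_pow hp] at this
  simpa [Finset.sum_range_succ, NN_one] using this

theorem two_cube_dvd (hd : 2 ^ 3 ∣ Nat.card G) :
    2 ^ 3 ∣ 1 + NN G 2 + NN G (2 ^ 2) + NN G (2 ^ 3) := by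
  have := Cfsg.Agent.Lib.Coprime.frobenius_count (G := G) (2 ^ 3) hd
  rw [card_pow_eq (2 ^ 3) (by norm_num), Nat.sum_divisors_prime_pow Nat.prime_two] at this
  simpa [Finset.sum_range_succ, NN_one] using this

/-- The key count: commuting pairs. -/
theorem card_mul_le {p : ℕ} (hp : p.Prime) (hd : p ∣ Nat.card G) {m : ℕ} (hm : 3 ≤ m)
    (hcop : Nat.Coprime p m) (hN : NN G m = NN G p) : 2 * NN G p ≤ NN G (p * m) := by
  classical
  haveI : Fact p.Prime := ⟨hp⟩
  have hc : ∀ x : {x : G // orderOf x = p}, ∃ y : G, orderOf y = m ∧ Commute (x : G) y := by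
    rintro ⟨x, hx⟩
    have hA : IsPGroup p (zpowers x) := by
      apply IsPGroup.of_card (n := 1)
      rw [Nat.card_zpowers, hx, pow_one]
    letI act : MulAction (zpowers x) {y : G // orderOf y = m} :=
      { smul := fun g y => ⟨(g : G) * y * (g : G)⁻¹, by
          have h0 : (g : G) * y * (g : G)⁻¹ = MulAut.conj (g : G) (y : G) := rfl
          rw [h0, MulEquiv.orderOf_eq]
          exact y.2⟩
        one_smul := fun y => Subtype.ext (by
          show ((1 : zpowers x) : G) * y * ((1 : zpowers x) : G)⁻¹ = y
          simp)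
        mul_smul := fun a b y => Subtype.ext (by
          show ((a * b : zpowers x) : G) * y * ((a * b : zpowers x) : G)⁻¹ =
            (a : G) * ((b : G) * y * (b : G)⁻¹) * (a : G)⁻¹
          simp only [Subgroup.coe_mul]
          group) }
    have h := hA.card_modEq_card_fixedPoints {y : G // orderOf y = m}
    by_contra hne
    push Not at hne
    have hemp : IsEmpty (MulAction.fixedPoints (zpowers x) {y : G // orderOf y = m}) := by
      refine ⟨fun w => ?_⟩
      obtain ⟨⟨y, hy⟩, hfix⟩ := w
      apply hne y hy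
      have h1 := hfix ⟨x, mem_zpowers x⟩
      have h2 : x * y * x⁻¹ = y := congrArg Subtype.val h1
      show x * y = y * x
      rw [mul_inv_eq_iff_eq_mul] at h2
      exact h2
    have h00 : Nat.card (MulAction.fixedPoints (zpowers x) {y : G // orderOf y = m}) = 0 :=
      Nat.card_of_isEmpty
    rw [h00] at h
    have h1 : p ∣ NN G m := Nat.modEq_zero_iff_dvd.mp h
    rw [hN] at h1
    have h2 := prime_dvd hp hd
    have h3 : p ∣ 1 := (Nat.dvd_add_left h1).mp h2
    exact hp.one_lt.ne' (Nat.dvd_one.mp h3)
  choose y hy hyc using hc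
  have hpm : ∀ (x : {x : G // orderOf x = p}) (w : G), orderOf w = m → Commute (x : G) w →
      orderOf ((x : G) * w) = p * m := by
    intro x w hw hcw
    have := hcw.orderOf_mul_eq_mul_orderOf_of_coprime (by rw [x.2, hw]; exact hcop)
    rw [this, x.2, hw]
  let F : {x : G // orderOf x = p} × Bool → {g : G // orderOf g = p * m} := fun q =>
    match q with
    | (x, true) => ⟨(x : G) * y x, hpm x _ (hy x) (hyc x)⟩
    | (x, false) => ⟨(x : G) * (y x)⁻¹, hpm x _ (by rw [orderOf_inv]; exact hy x) (hyc x).inv_right⟩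
  -- recovering the first factor
  obtain ⟨u, hu1, hu2⟩ := Nat.chineseRemainder hcop 1 0
  have hrec : ∀ (x : {x : G // orderOf x = p}) (w : G), orderOf w = m → Commute (x : G) w →
      ((x : G) * w) ^ u = x := by
    intro x w hw hcw
    rw [hcw.mul_pow]
    have h1 : (x : G) ^ u = (x : G) ^ 1 := by
      rw [pow_eq_pow_iff_modEq, x.2]
      exact hu1
    have h2 : w ^ u = 1 := by
      rw [← orderOf_dvd_iff_pow_eq_one, hw]
      exact (Nat.modEq_zero_iff_dvd.mp hu2)
    rw [h1, h2, mul_one, pow_one]
  have hne : ∀ x, y x ≠ (y x)⁻¹ := by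
    intro x h
    have h1 : (y x) ^ 2 = 1 := by
      rw [pow_two]
      nth_rewrite 1 [h]
      exact inv_mul_cancel _
    have h2 := orderOf_le_of_pow_eq_one (by norm_num) h1
    rw [hy x] at h2
    omega
  have hF : Function.Injective F := by
    rintro ⟨x, b⟩ ⟨x', b'⟩ hq
    have hval : ((F (x, b) : {g : G // orderOf g = p * m}) : G) = (F (x', b') : {g : G // orderOf g = p * m}) :=
      congrArg Subtype.val hq
    have hx : ∀ (x : {x : G // orderOf x = p}) (b : Bool),
        ((F (x, b) : {g : G // orderOf g = p * m}) : G) ^ u = x := by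
      intro x b
      cases b
      · exact hrec x _ (by rw [orderOf_inv]; exact hy x) (hyc x).inv_right
      · exact hrec x _ (hy x) (hyc x)
    have hxx : (x : G) = x' := by
      rw [← hx x b, ← hx x' b', hval]
    have hxx' : x = x' := Subtype.ext hxx
    subst hxx'
    cases b <;> cases b'
    · rfl
    · exfalso
      have h1 : (x : G) * (y x)⁻¹ = x * y x := hval
      exact hne x (mul_left_cancel h1).symm
    · exfalso
      have h1 : (x : G) * y x = x * (y x)⁻¹ := hval
      exact hne x (mul_left_cancel h1)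
    · rfl
  have h1 := Nat.card_le_card_of_injective F hF
  rw [Nat.card_prod, Nat.card_eq_fintype_card (α := Bool), Fintype.card_bool, mul_comm] at h1
  exact h1

/-- The recognition of the quaternion group. -/
theorem q8_iso {b y : G} (hb : orderOf b = 4) (hy2 : y ^ 2 = b ^ 2) (hyb : y * b * y⁻¹ = b⁻¹)
    (hy : y ∉ zpowers b) (hsurj : ∀ g : G, g ∈ zpowers b ∨ y⁻¹ * g ∈ zpowers b) :
    Nonempty (QuaternionGroup 2 ≃* G) := by
  have hb4 : b ^ 4 = 1 := by rw [← hb]; exact pow_orderOf_eq_one b
  let g : ZMod 4 → G := fun i => b ^ i.val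
  have hg_add : ∀ i j, g (i + j) = g i * g j := by
    intro i j
    show b ^ (i + j).val = b ^ i.val * b ^ j.val
    rw [ZMod.val_add, ← pow_add, ← pow_eq_pow_mod _ hb4]
  have hg0 : g 0 = 1 := by
    show b ^ (0 : ZMod 4).val = 1
    rw [ZMod.val_zero, pow_zero]
  have hgneg : ∀ i, g (-i) = (g i)⁻¹ := by
    intro i
    have := hg_add (-i) i
    rw [neg_add_cancel, hg0] at this
    exact eq_inv_of_mul_eq_one_left this.symm
  have hb' : y⁻¹ * b * y = b⁻¹ := by
    have h1 : y⁻¹ * (y * b * y⁻¹) * y = b := by group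
    rw [hyb] at h1
    have h2 : (y⁻¹ * b⁻¹ * y)⁻¹ = b⁻¹ := by rw [h1]
    simpa [mul_assoc] using h2
  have hconj : ∀ i, g i * y = y * g (-i) := by
    intro i
    rw [hgneg]
    have h1 : y⁻¹ * g i * y = (g i)⁻¹ := by
      show y⁻¹ * b ^ i.val * y = (b ^ i.val)⁻¹
      have h2 : y⁻¹ * b ^ i.val * y = (y⁻¹ * b * y) ^ i.val := by
        have := conj_pow (a := y⁻¹) (b := b) (i := i.val)
        simpa using this.symm
      rw [h2, hb', inv_pow]
    calc g i * y = y * (y⁻¹ * g i * y) := by group
      _ = y * (g i)⁻¹ := by rw [h1]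
  have hg2 : g 2 = b ^ 2 := rfl
  let f : QuaternionGroup 2 → G := fun q =>
    match q with
    | QuaternionGroup.a i => g i
    | QuaternionGroup.xa i => y * g i
  have hkey : ∀ i j : ZMod 4, g (2 + j - i) = y * g i * (y * g j) := by
    intro i j
    have e : y * g i * (y * g j) = (y * y) * (g (-i) * g j) := by
      calc y * g i * (y * g j) = y * (g i * y) * g j := by group
        _ = y * (y * g (-i)) * g j := by rw [hconj]
        _ = _ := by group
    rw [e, ← hg_add, ← pow_two, hy2, ← hg2, ← hg_add]
    congr 1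
    ring
  have hmul : ∀ p q, f (p * q) = f p * f q := by
    rintro (i | i) (j | j)
    · show g (i + j) = g i * g j
      exact hg_add i j
    · show y * g (j - i) = g i * (y * g j)
      rw [← mul_assoc, hconj, mul_assoc, ← hg_add, sub_eq_neg_add]
    · show y * g (i + j) = y * g i * g j
      rw [mul_assoc, hg_add]
    · exact hkey i j
  let φ : QuaternionGroup 2 →* G := MonoidHom.mk' f hmul
  have hinj : Function.Injective φ := by
    rw [injective_iff_map_eq_one]
    rintro (i | i) hi
    · have h1 : b ^ i.val = 1 := hi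
      have h2 := orderOf_dvd_of_pow_eq_one h1
      rw [hb] at h2
      have h3 : i.val < 4 := ZMod.val_lt i
      have h4 : i.val = 0 := by
        obtain ⟨k, hk⟩ := h2
        omega
      have h5 : i = 0 := (ZMod.val_eq_zero i).mp h4
      rw [h5]
      rfl
    · exfalso
      have h1 : y * g i = 1 := hi
      apply hy
      rw [eq_inv_of_mul_eq_one_left h1]
      exact inv_mem (pow_mem (mem_zpowers b) _)
  have hpw : ∀ w ∈ zpowers b, ∃ i, g i = w := by
    intro w hw
    rw [← mem_powers_iff_mem_zpowers] at hw
    obtain ⟨n, rfl⟩ := hw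
    refine ⟨(n : ZMod 4), ?_⟩
    show b ^ (n : ZMod 4).val = b ^ n
    rw [ZMod.val_natCast, ← pow_eq_pow_mod _ hb4]
  have hsur : Function.Surjective φ := by
    intro w
    rcases hsurj w with h | h
    · obtain ⟨i, hi⟩ := hpw w h
      exact ⟨QuaternionGroup.a i, hi⟩
    · obtain ⟨i, hi⟩ := hpw _ h
      refine ⟨QuaternionGroup.xa i, ?_⟩
      show y * g i = w
      rw [hi]; group
  exact ⟨MulEquiv.ofBijective φ ⟨hinj, hsur⟩⟩

/-- Exponent four with a unique involution. -/
theorem q8_or_z4 (hG : IsPGroup 2 G) (huniq : ∀ x y : G, orderOf x = 2 → orderOf y = 2 → x = y)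
    (h4 : ∀ x : G, x ^ 4 = 1) {a : G} (ha : orderOf a = 4) :
    Nonempty (G ≃* QuaternionGroup 2) ∨ (IsCyclic G ∧ Nat.card G = 4) := by
  classical
  haveI : Fact (Nat.Prime 2) := ⟨Nat.prime_two⟩
  obtain ⟨k, hk⟩ := IsPGroup.iff_card.mp hG
  have h4d : 2 ^ 2 ∣ Nat.card G := by
    have : 4 ∣ Nat.card G := by rw [← ha]; exact orderOf_dvd_natCard a
    simpa using this
  have hk2 : 2 ≤ k := by
    rw [hk] at h4d
    exact (Nat.pow_dvd_pow_iff_le_right (by norm_num)).mp h4d
  obtain ⟨A, hAn, hAc⟩ : ∃ A : Subgroup G, A.Normal ∧ Nat.card A = 2 ^ 2 := by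
    have hc := Cfsg.Agent.S3976.result 2 k 2 Nat.prime_two hk hk2
    by_contra hne
    push Not at hne
    have : IsEmpty {H : Subgroup G // H.Normal ∧ Nat.card H = 2 ^ 2} :=
      ⟨fun x => hne x.1 x.2.1 x.2.2⟩
    rw [Nat.card_of_isEmpty] at hc
    have h1 : 2 ∣ 1 := (Nat.modEq_zero_iff_dvd.mp hc.symm)
    omega
  set z : G := a ^ 2 with hz
  have hoz : orderOf z = 2 := by
    apply orderOf_eq_prime
    · rw [hz, ← pow_mul]; exact h4 a
    · intro h0
      have := orderOf_dvd_of_pow_eq_one h0
      rw [ha] at this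
      omega
  have hinv : ∀ x : G, x ^ 2 = 1 → x = 1 ∨ x = z := by
    intro x hx
    by_cases h1 : x = 1
    · exact Or.inl h1
    · exact Or.inr (huniq x z (orderOf_eq_prime hx h1) hoz)
  have hsq4 : ∀ b : G, orderOf b = 4 → b ^ 2 = z := by
    intro b hb
    apply huniq _ _ _ hoz
    apply orderOf_eq_prime
    · rw [← pow_mul]; exact h4 b
    · intro h0
      have := orderOf_dvd_of_pow_eq_one h0
      rw [hb] at this
      omega
  have hsq : ∀ x : G, x ^ 2 = 1 ∨ x ^ 2 = z := by
    intro x
    apply hinv
    rw [← pow_mul]; exact h4 x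
  -- an element of order four in `A`
  obtain ⟨b, hbA, hb⟩ : ∃ b ∈ A, orderOf b = 4 := by
    by_contra hne
    push Not at hne
    have hle : A ≤ zpowers z := by
      intro x hx
      have h1 : x ^ 2 = 1 := by
        have h2 : orderOf x ∣ 2 ^ 2 := orderOf_dvd_of_pow_eq_one (by simpa using h4 x)
        obtain ⟨j, hj, hj2⟩ := (Nat.dvd_prime_pow Nat.prime_two).mp h2
        have h3 : j ≠ 2 := by
          rintro rfl
          exact hne x hx (by rw [hj2]; norm_num)
        have h5 : orderOf x ∣ 2 := by
          rw [hj2]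
          have : j ≤ 1 := by omega
          exact (pow_dvd_pow 2 this).trans (by norm_num)
        exact orderOf_dvd_iff_pow_eq_one.mp h5
      rcases hinv x h1 with rfl | rfl
      · exact one_mem _
      · exact mem_zpowers _
    have := Subgroup.card_le_of_le hle
    rw [hAc, Nat.card_zpowers, hoz] at this
    omega
  have hzb : z = b ^ 2 := (hsq4 b hb).symm
  have hb4 : b ^ 4 = 1 := h4 b
  have hAb : A = zpowers b := by
    symm
    apply Subgroup.eq_of_le_of_card_ge (zpowers_le.mpr hbA)
    rw [hAc, Nat.card_zpowers, hb]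
    norm_num
  -- elements of order four in `⟨b⟩`
  have hw : ∀ w ∈ zpowers b, orderOf w = 4 → w = b ∨ w = b⁻¹ := by
    intro w hw hw4
    rw [← mem_powers_iff_mem_zpowers] at hw
    obtain ⟨n, hn⟩ := hw
    have hn' : w = b ^ n := hn.symm
    subst hn'
    rw [pow_eq_pow_mod n hb4] at hw4 ⊢
    have hlt : n % 4 < 4 := Nat.mod_lt _ (by norm_num)
    generalize n % 4 = i at hw4 hlt ⊢
    interval_cases i
    · simp at hw4
    · left; simp
    · exfalso
      rw [← hzb, hoz] at hw4
      omega
    · right
      rw [eq_inv_iff_mul_eq_one, ← pow_succ]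
      exact hb4
  have hcent : ∀ y : G, Commute y b → y ∈ zpowers b := by
    intro y hy
    have hz_mem : z ∈ zpowers b := by rw [hzb]; exact pow_mem (mem_zpowers b) 2
    rcases hsq y with h1 | h1
    · rcases hinv y h1 with rfl | rfl
      · exact one_mem _
      · exact hz_mem
    · have h2 : (y * b⁻¹) ^ 2 = 1 := by
        rw [(hy.inv_right).mul_pow, h1, inv_pow, ← hzb, mul_inv_cancel]
      have h3 : y * b⁻¹ ∈ zpowers b := by
        rcases hinv _ h2 with h4 | h4
        · rw [h4]; exact one_mem _
        · rw [h4]; exact hz_mem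
      have h5 : y = (y * b⁻¹) * b := by group
      rw [h5]
      exact mul_mem h3 (mem_zpowers b)
  have hconj : ∀ g : G, g * b * g⁻¹ = b ∨ g * b * g⁻¹ = b⁻¹ := by
    intro g
    apply hw
    · rw [← hAb]; exact hAn.conj_mem b hbA g
    · have h0 : g * b * g⁻¹ = MulAut.conj g b := rfl
      rw [h0, MulEquiv.orderOf_eq]; exact hb
  by_cases hall : ∀ g : G, g * b * g⁻¹ = b
  · right
    have htop : ∀ g : G, g ∈ zpowers b := by
      intro g
      apply hcent
      have := hall g
      rw [mul_inv_eq_iff_eq_mul] at this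
      exact this
    refine ⟨⟨b, htop⟩, ?_⟩
    have : zpowers b = ⊤ := eq_top_iff.mpr fun g _ => htop g
    rw [← Subgroup.card_top (G := G), ← this, Nat.card_zpowers, hb]
  · left
    push Not at hall
    obtain ⟨y, hy⟩ := hall
    have hyb : y * b * y⁻¹ = b⁻¹ := (hconj y).resolve_left hy
    have hycomm : ¬ Commute y b := by
      intro hc
      apply hy
      rw [mul_inv_eq_iff_eq_mul]
      exact hc
    have hy2 : y ^ 2 = b ^ 2 := by
      rcases hsq y with h1 | h1
      · exfalso
        rcases hinv y h1 with rfl | rfl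
        · exact hycomm (Commute.one_left b)
        · exact hycomm (by rw [hzb]; exact Commute.pow_left (Commute.refl b) 2)
      · rw [h1, hzb]
    have hynot : y ∉ zpowers b := by
      intro hm
      obtain ⟨i, rfl⟩ := mem_zpowers_iff.mp hm
      exact hycomm (Commute.zpow_left (Commute.refl b) i)
    have hsurj : ∀ g : G, g ∈ zpowers b ∨ y⁻¹ * g ∈ zpowers b := by
      intro g
      rcases hconj g with h1 | h1
      · left
        apply hcent
        rw [mul_inv_eq_iff_eq_mul] at h1
        exact h1
      · right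
        apply hcent
        have h2 : g * b = b⁻¹ * g := by
          rw [mul_inv_eq_iff_eq_mul] at h1
          exact h1
        have h3 : y * b = b⁻¹ * y := by
          rw [mul_inv_eq_iff_eq_mul] at hyb
          exact hyb
        show y⁻¹ * g * b = b * (y⁻¹ * g)
        have h4 : y⁻¹ * b⁻¹ = b * y⁻¹ := by
          have : b⁻¹ = y * b * y⁻¹ := hyb.symm
          rw [this]; group
        rw [mul_assoc, h2, ← mul_assoc, h4, mul_assoc]
    obtain ⟨e⟩ := q8_iso hb hy2 hyb hynot hsurj
    exact ⟨e.symm⟩

/-- A central involution outside a subgroup of index two. -/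
theorem iso_prod {P : Subgroup G} {z : G} (hz : orderOf z = 2) (hzc : ∀ g : G, Commute z g)
    (hzP : z ∉ P) (hidx : P.index = 2) : Nonempty (Multiplicative (ZMod 2) × P ≃* G) := by
  have hz2 : z ^ 2 = 1 := by rw [← hz]; exact pow_orderOf_eq_one z
  let f : Multiplicative (ZMod 2) × P → G := fun q => z ^ (Multiplicative.toAdd q.1).val * q.2
  have hmul : ∀ p q, f (p * q) = f p * f q := by
    rintro ⟨b, w⟩ ⟨b', w'⟩
    show z ^ (Multiplicative.toAdd b + Multiplicative.toAdd b').val * (w * w' : P) =
      z ^ (Multiplicative.toAdd b).val * w * (z ^ (Multiplicative.toAdd b').val * w')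
    rw [ZMod.val_add, ← pow_eq_pow_mod _ hz2, pow_add]
    have h1 : Commute (w : G) (z ^ (Multiplicative.toAdd b').val) := ((hzc w).symm).pow_right _
    simp only [Subgroup.coe_mul]
    calc z ^ (Multiplicative.toAdd b).val * z ^ (Multiplicative.toAdd b').val * ((w : G) * w')
        = z ^ (Multiplicative.toAdd b).val * (z ^ (Multiplicative.toAdd b').val * w) * w' := by
          simp only [mul_assoc]
      _ = z ^ (Multiplicative.toAdd b).val * (w * z ^ (Multiplicative.toAdd b').val) * w' := by
          rw [h1.eq]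
      _ = _ := by simp only [mul_assoc]
  let φ : Multiplicative (ZMod 2) × P →* G := MonoidHom.mk' f hmul
  have hval : ∀ b : Multiplicative (ZMod 2), (Multiplicative.toAdd b).val = 0 ∨ (Multiplicative.toAdd b).val = 1 := by
    intro b
    have := ZMod.val_lt (Multiplicative.toAdd b)
    omega
  have hinj : Function.Injective φ := by
    rw [injective_iff_map_eq_one]
    rintro ⟨b, w⟩ hq
    have h1 : z ^ (Multiplicative.toAdd b).val * w = 1 := hq
    rcases hval b with h | h
    · rw [h, pow_zero, one_mul] at h1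
      have hb : Multiplicative.toAdd b = 0 := (ZMod.val_eq_zero _).mp h
      have hb' : b = 1 := hb
      have hw : w = 1 := Subtype.ext h1
      rw [hb', hw]; rfl
    · exfalso
      rw [h, pow_one] at h1
      apply hzP
      rw [eq_inv_of_mul_eq_one_left h1]
      exact inv_mem w.2
  have hsur : Function.Surjective φ := by
    intro g
    by_cases hg : g ∈ P
    · refine ⟨(1, ⟨g, hg⟩), ?_⟩
      show z ^ (Multiplicative.toAdd (1 : Multiplicative (ZMod 2))).val * g = g
      have : (Multiplicative.toAdd (1 : Multiplicative (ZMod 2))).val = 0 := rfl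
      rw [this, pow_zero, one_mul]
    · have h1 : z⁻¹ * g ∈ P := by
        rw [Subgroup.mul_mem_iff_of_index_two hidx]
        simp [hzP, hg]
      refine ⟨(Multiplicative.ofAdd (1 : ZMod 2), ⟨z⁻¹ * g, h1⟩), ?_⟩
      show z ^ (1 : ZMod 2).val * (z⁻¹ * g) = g
      have : (1 : ZMod 2).val = 1 := rfl
      rw [this, pow_one]; group
  exact ⟨MulEquiv.ofBijective φ ⟨hinj, hsur⟩⟩

/-- Let G be a finite group such that the numbers of elements of each order that occurs in G (the numbers #{g : o(g) = m}, m ranging over the element orders of G) take exactly two values, 1 and some n ≠ 1. Then either G is a p-group of exponent p and order at least 3 for some prime p, or G is the quaternion group of order 8, or G is cyclic of order 4, or G ≅ Z₂ × P for a p-group P of exponent p with p an odd prime. -/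
theorem result {G : Type*} [Group G] [Finite G] (n : ℕ) (hn : n ≠ 1) (h : ((fun m : ℕ => Nat.card {g : G // orderOf g = m}) '' Set.range (orderOf : G → ℕ)) = {1, n}) :
    (∃ p : ℕ, p.Prime ∧ IsPGroup p G ∧ 3 ≤ Nat.card G ∧ Monoid.exponent G = p) ∨
      Nonempty (G ≃* QuaternionGroup 2) ∨ (IsCyclic G ∧ Nat.card G = 4) ∨
      (∃ (p : ℕ) (P : Type) (_ : Group P) (_ : Finite P), p.Prime ∧ p ≠ 2 ∧ IsPGroup p P ∧ Monoid.exponent P = p ∧
        Nonempty (G ≃* Multiplicative (ZMod 2) × P)) := by
  classical
  have hval : ∀ g : G, NN G (orderOf g) = 1 ∨ NN G (orderOf g) = n := by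
    intro g
    have h1 : NN G (orderOf g) ∈ ((fun m : ℕ => Nat.card {g : G // orderOf g = m}) ''
        Set.range (orderOf : G → ℕ)) := ⟨_, ⟨g, rfl⟩, rfl⟩
    rw [h] at h1
    simpa using h1
  have hnmem : n ∈ ((fun m : ℕ => Nat.card {g : G // orderOf g = m}) ''
      Set.range (orderOf : G → ℕ)) := by rw [h]; simp
  obtain ⟨_, ⟨g0, rfl⟩, hg0⟩ := hnmem
  have hg0' : NN G (orderOf g0) = n := hg0
  have hpos : ∀ g : G, 0 < NN G (orderOf g) := fun g => by
    haveI : Nonempty {x : G // orderOf x = orderOf g} := ⟨⟨g, rfl⟩⟩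
    exact Nat.card_pos
  have hn2 : 2 ≤ n := by
    have := hpos g0
    rw [hg0'] at this
    omega
  have hbig : ∀ g : G, 3 ≤ orderOf g → NN G (orderOf g) = n := by
    intro g hg
    rcases hval g with h1 | h1
    · exfalso
      rw [NN, Nat.card_eq_one_iff_unique] at h1
      obtain ⟨h2, -⟩ := h1
      have h3 : (⟨g, rfl⟩ : {x : G // orderOf x = orderOf g}) = ⟨g⁻¹, orderOf_inv g⟩ :=
        Subsingleton.elim _ _
      have h4 : g = g⁻¹ := congrArg Subtype.val h3
      have h5 : g ^ 2 = 1 := by
        rw [pow_two]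
        nth_rewrite 1 [h4]
        exact inv_mul_cancel _
      have h6 := orderOf_le_of_pow_eq_one (by norm_num) h5
      omega
    · exact h1
  have hR : ∀ p : ℕ, p.Prime → p ∣ Nat.card G → NN G p = n → ∀ g : G, 3 ≤ orderOf g →
      Nat.Coprime p (orderOf g) → False := by
    intro p hp hd hNp g hg hc
    have h1 := card_mul_le hp hd hg hc (by rw [hbig g hg, hNp])
    rw [hNp] at h1
    obtain ⟨w⟩ : Nonempty {x : G // orderOf x = p * orderOf g} := by
      by_contra hne
      rw [not_nonempty_iff] at hne
      rw [NN, Nat.card_of_isEmpty] at h1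
      omega
    have h2 : 3 ≤ orderOf w.1 := by
      rw [w.2]
      have := hp.pos
      nlinarith
    have h3 := hbig w.1 h2
    rw [w.2] at h3
    rw [h3] at h1
    omega
  have hcauchy : ∀ q : ℕ, q.Prime → q ∣ Nat.card G → ∃ u : G, orderOf u = q := by
    intro q hq hd
    haveI : Fact q.Prime := ⟨hq⟩
    exact exists_prime_orderOf_dvd_card' q hd
  by_cases hpn : ∃ p : ℕ, p.Prime ∧ p ∣ Nat.card G ∧ NN G p = n
  · obtain ⟨p, hp, hpd, hNp⟩ := hpn
    haveI : Fact p.Prime := ⟨hp⟩
    obtain ⟨u0, hu0⟩ := hcauchy p hp hpd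
    -- no element of order p^2
    have hno : ∀ g : G, orderOf g ≠ p ^ 2 := by
      intro g hg
      have hd2 : p ^ 2 ∣ Nat.card G := by rw [← hg]; exact orderOf_dvd_natCard g
      have h1 := prime_sq_dvd hp hd2
      have h3 : 3 ≤ orderOf g := by
        rw [hg]
        have := hp.two_le
        nlinarith
      have h2 := hbig g h3
      rw [hg] at h2
      rw [h2, hNp] at h1
      have h4 : p ∣ 1 + n + n := (Dvd.intro_left (p ^ 1) (by rw [pow_one]; ring)).trans h1
      have h5 := prime_dvd hp hpd
      rw [hNp] at h5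
      have h6 : p ∣ n := (Nat.dvd_add_right h5).mp h4
      have h7 : p ∣ 1 := (Nat.dvd_add_left h6).mp h5
      exact hp.one_lt.ne' (Nat.dvd_one.mp h7)
    -- `p`-elements have order dividing `p`
    have hpel : ∀ (g : G) (k : ℕ), g ^ p ^ k = 1 → g ^ p = 1 := by
      intro g k hg
      have hd := orderOf_dvd_of_pow_eq_one hg
      obtain ⟨j, hj, hj2⟩ := (Nat.dvd_prime_pow hp).mp hd
      have hj1 : j ≤ 1 := by
        by_contra hj3
        have hj4 : 2 ≤ j := by omega
        have hd3 : p ^ (j - 2) ∣ orderOf g := by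
          rw [hj2]; exact pow_dvd_pow p (by omega)
        have h1 := orderOf_pow_of_dvd (pow_ne_zero _ hp.ne_zero) hd3
        rw [hj2] at h1
        have h2 : p ^ j / p ^ (j - 2) = p ^ 2 := by
          rw [Nat.pow_div (by omega) hp.pos]
          congr 1
          omega
        rw [h2] at h1
        exact hno _ h1
      rw [← orderOf_dvd_iff_pow_eq_one, hj2]
      exact (pow_dvd_pow p hj1).trans (by rw [pow_one])
    by_cases hpg : IsPGroup p G
    · left
      refine ⟨p, hp, hpg, ?_, ?_⟩
      · have h1 : Nat.card {x : G // x ^ p = 1} ≤ Nat.card G :=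
          Nat.card_le_card_of_injective Subtype.val Subtype.val_injective
        rw [card_pow_prime hp, hNp] at h1
        omega
      · apply Nat.dvd_antisymm
        · apply Monoid.exponent_dvd_of_forall_pow_eq_one
          intro g
          obtain ⟨k, hk⟩ := hpg g
          exact hpel g k hk
        · rw [← hu0]; exact Monoid.order_dvd_exponent u0
    · right; right; right
      have hother : ∀ q : ℕ, q.Prime → q ∣ Nat.card G → q ≠ p → q = 2 := by
        intro q hq hd hne
        obtain ⟨u, hu⟩ := hcauchy q hq hd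
        by_contra hq2
        have h3 : 3 ≤ orderOf u := by
          rw [hu]
          have := hq.two_le
          omega
        exact hR p hp hpd hNp u h3 (by
          rw [hu]
          exact (Nat.coprime_primes hp hq).mpr (Ne.symm hne))
      obtain ⟨q, hq, hqd, hqp⟩ : ∃ q : ℕ, q.Prime ∧ q ∣ Nat.card G ∧ q ≠ p := by
        by_contra hne
        push Not at hne
        apply hpg
        apply IsPGroup.of_card (n := (Nat.card G).primeFactorsList.length)
        exact Nat.eq_prime_pow_of_unique_prime_dvd Nat.card_pos.ne' (fun {d} hd hdd => hne d hd hdd)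
      have hq2 := hother q hq hqd hqp
      subst hq2
      have hp2 : p ≠ 2 := fun h => hqp h.symm
      have hp3 : 3 ≤ p := by
        have := hp.two_le
        omega
      obtain ⟨z, hz⟩ := hcauchy 2 Nat.prime_two hqd
      have hN2 : NN G 2 = 1 := by
        have := hval z
        rw [hz] at this
        rcases this with h1 | h1
        · exact h1
        · exfalso
          exact hR 2 Nat.prime_two hqd h1 u0 (by rw [hu0]; exact hp3) (by
            rw [hu0]; exact (Nat.coprime_primes Nat.prime_two hp).mpr (Ne.symm hp2))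
      have huniq : ∀ x y : G, orderOf x = 2 → orderOf y = 2 → x = y := by
        intro x y hx hy
        rw [NN, Nat.card_eq_one_iff_unique] at hN2
        obtain ⟨h2, -⟩ := hN2
        have h3 : (⟨x, hx⟩ : {x : G // orderOf x = 2}) = ⟨y, hy⟩ := Subsingleton.elim _ _
        exact congrArg Subtype.val h3
      have hinvol : ∀ x : G, x ^ 2 = 1 → x = 1 ∨ x = z := by
        intro x hx
        by_cases h1 : x = 1
        · exact Or.inl h1
        · haveI : Fact (Nat.Prime 2) := ⟨Nat.prime_two⟩
          exact Or.inr (huniq x z (orderOf_eq_prime hx h1) hz)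
      have hzc : ∀ g : G, Commute z g := by
        intro g
        have h0 : g * z * g⁻¹ = MulAut.conj g z := rfl
        have h1 : g * z * g⁻¹ = z := huniq _ _ (by rw [h0, MulEquiv.orderOf_eq]; exact hz) hz
        rw [mul_inv_eq_iff_eq_mul] at h1
        exact h1.symm
      have hno4 : ∀ g : G, orderOf g ≠ 4 := by
        intro g hg
        exact hR p hp hpd hNp g (by rw [hg]; norm_num) (by
          rw [hg]
          have : Nat.Coprime p (2 ^ 2) :=
            Nat.Coprime.pow_right 2 ((Nat.coprime_primes hp Nat.prime_two).mpr hp2)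
          simpa using this)
      have h4nd : ¬ 2 ^ 2 ∣ Nat.card G := by
        intro hd
        haveI : Fact (Nat.Prime 2) := ⟨Nat.prime_two⟩
        obtain ⟨E, hE⟩ := Sylow.exists_subgroup_card_pow_prime 2 hd
        have hE2 : IsPGroup 2 E := IsPGroup.of_card hE
        have hle : E ≤ zpowers z := by
          intro x hx
          obtain ⟨k, hk⟩ := hE2 ⟨x, hx⟩
          have hk' : x ^ 2 ^ k = 1 := by simpa using congrArg (fun y : E => (y : G)) hk
          have hdv := orderOf_dvd_of_pow_eq_one hk'
          obtain ⟨j, hj, hj2⟩ := (Nat.dvd_prime_pow Nat.prime_two).mp hdv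
          have hj1 : j ≤ 1 := by
            by_contra hj3
            have hj4 : 2 ≤ j := by omega
            have hd3 : 2 ^ (j - 2) ∣ orderOf x := by
              rw [hj2]; exact pow_dvd_pow 2 (by omega)
            have h1 := orderOf_pow_of_dvd (pow_ne_zero _ (by norm_num)) hd3
            rw [hj2] at h1
            have h2 : 2 ^ j / 2 ^ (j - 2) = 4 := by
              rw [Nat.pow_div (by omega) (by norm_num)]
              have : j - (j - 2) = 2 := by omega
              rw [this]
            rw [h2] at h1
            exact hno4 _ h1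
          have hxs : x ^ 2 = 1 := by
            rw [← orderOf_dvd_iff_pow_eq_one, hj2]
            exact (pow_dvd_pow 2 hj1).trans (by norm_num)
          rcases hinvol x hxs with rfl | rfl
          · exact one_mem _
          · exact mem_zpowers _
        have := Subgroup.card_le_of_le hle
        rw [hE, Nat.card_zpowers, hz] at this
        omega
      obtain ⟨P⟩ : Nonempty (Sylow p G) := inferInstance
      have hidx : (P : Subgroup G).index = 2 := by
        have hd : (P : Subgroup G).index ∣ Nat.card G := Subgroup.index_dvd_card _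
        have hnp : ¬ p ∣ (P : Subgroup G).index := P.not_dvd_index
        have hi0 : (P : Subgroup G).index ≠ 0 := Subgroup.index_ne_zero_of_finite
        have hi2 : ∀ {d : ℕ}, d.Prime → d ∣ (P : Subgroup G).index → d = 2 := by
          intro d hdp hdd
          apply hother d hdp (hdd.trans hd)
          rintro rfl
          exact hnp hdd
        have hpow := Nat.eq_prime_pow_of_unique_prime_dvd hi0 hi2
        set t := ((P : Subgroup G).index).primeFactorsList.length with ht
        have ht1 : t ≤ 1 := by
          by_contra hlt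
          apply h4nd
          have h1 : 2 ^ t ∣ Nat.card G := by rw [← hpow]; exact hd
          exact (pow_dvd_pow 2 (by omega)).trans h1
        have ht0 : t ≠ 0 := by
          intro h0
          rw [h0, pow_zero] at hpow
          rw [Subgroup.index_eq_one] at hpow
          apply hpg
          have := P.isPGroup'
          rw [hpow] at this
          exact IsPGroup.of_equiv this Subgroup.topEquiv
        have : t = 1 := by omega
        rw [hpow, this, pow_one]
      have hzP : z ∉ (P : Subgroup G) := by
        intro hm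
        obtain ⟨k, hk⟩ := P.isPGroup' ⟨z, hm⟩
        have hk' : z ^ p ^ k = 1 := by simpa using congrArg (fun y : (P : Subgroup G) => (y : G)) hk
        have h1 := orderOf_dvd_of_pow_eq_one hk'
        rw [hz] at h1
        have h2 := Nat.Prime.dvd_of_dvd_pow Nat.prime_two h1
        rw [Nat.prime_dvd_prime_iff_eq Nat.prime_two hp] at h2
        exact hp2 h2.symm
      obtain ⟨e0⟩ := iso_prod hz hzc hzP hidx
      -- transfer to a type in the lowest universe
      let eM : Shrink.{0} (P : Subgroup G) ≃* (P : Subgroup G) := Shrink.mulEquiv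
      refine ⟨p, Shrink.{0} (P : Subgroup G), inferInstance, inferInstance, hp, hp2,
        P.isPGroup'.of_equiv eM.symm, ?_, ?_⟩
      · rw [Monoid.exponent_eq_of_mulEquiv eM]
        apply Nat.dvd_antisymm
        · apply Monoid.exponent_dvd_of_forall_pow_eq_one
          rintro ⟨g, hg⟩
          obtain ⟨k, hk⟩ := P.isPGroup' ⟨g, hg⟩
          have hk' : g ^ p ^ k = 1 := by simpa using congrArg (fun y : (P : Subgroup G) => (y : G)) hk
          apply Subtype.ext
          simpa using hpel g k hk'
        · obtain ⟨w, hw⟩ : ∃ w : (P : Subgroup G), orderOf w = p := by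
            have hd : p ∣ Nat.card (P : Subgroup G) := by
              have h1 := Subgroup.card_mul_index (P : Subgroup G)
              rw [hidx] at h1
              rw [← h1] at hpd
              exact (Nat.Coprime.dvd_of_dvd_mul_right
                ((Nat.coprime_primes hp Nat.prime_two).mpr hp2) hpd)
            exact exists_prime_orderOf_dvd_card' p hd
          have h9 := Monoid.order_dvd_exponent w
          rw [hw] at h9
          exact h9
      · exact ⟨e0.symm.trans (MulEquiv.prodCongr (MulEquiv.refl _) eM.symm)⟩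
  · -- a `2`-group with a unique involution
    push Not at hpn
    have hq2 : ∀ q : ℕ, q.Prime → q ∣ Nat.card G → q = 2 ∧ NN G 2 = 1 := by
      intro q hq hd
      obtain ⟨u, hu⟩ := hcauchy q hq hd
      have h1 : NN G q = 1 := by
        have := hval u
        rw [hu] at this
        exact this.resolve_right (hpn q hq hd)
      have h2 : q = 2 := by
        by_contra hne
        have h3 : 3 ≤ orderOf u := by
          rw [hu]
          have := hq.two_le
          omega
        have h4 := hbig u h3
        rw [hu] at h4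
        exact hpn q hq hd h4
      subst h2
      exact ⟨rfl, h1⟩
    haveI : Fact (Nat.Prime 2) := ⟨Nat.prime_two⟩
    have hG2 : IsPGroup 2 G := by
      apply IsPGroup.of_card (n := (Nat.card G).primeFactorsList.length)
      exact Nat.eq_prime_pow_of_unique_prime_dvd Nat.card_pos.ne' (fun {d} hd hdd => (hq2 d hd hdd).1)
    obtain ⟨j, hj⟩ := hG2 g0
    have hd0 := orderOf_dvd_of_pow_eq_one hj
    obtain ⟨e0, he0, he0o⟩ := (Nat.dvd_prime_pow Nat.prime_two).mp hd0
    have he2 : 2 ≤ e0 := by
      by_contra hlt
      have h1 : e0 = 0 ∨ e0 = 1 := by omega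
      rcases h1 with rfl | rfl
      · rw [pow_zero] at he0o
        rw [he0o, NN_one] at hg0'
        exact hn hg0'.symm
      · rw [pow_one] at he0o
        rw [he0o] at hg0'
        apply hpn 2 Nat.prime_two _ hg0'
        rw [← he0o]
        exact orderOf_dvd_natCard g0
    have hpowel : ∀ (g : G) (e i : ℕ), orderOf g = 2 ^ e → i ≤ e → orderOf (g ^ 2 ^ (e - i)) = 2 ^ i := by
      intro g e i hg hi
      have hd3 : 2 ^ (e - i) ∣ orderOf g := by
        rw [hg]; exact pow_dvd_pow 2 (by omega)
      rw [orderOf_pow_of_dvd (pow_ne_zero _ (by norm_num)) hd3, hg,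
        Nat.pow_div (by omega) (by norm_num)]
      congr 1
      omega
    have ha := hpowel g0 e0 2 he0o he2
    set a := g0 ^ 2 ^ (e0 - 2) with hadef
    have ha4 : orderOf a = 4 := by rw [ha]; norm_num
    have hN2 : NN G 2 = 1 := by
      have hd : 2 ∣ Nat.card G := by
        have : 4 ∣ Nat.card G := by rw [← ha4]; exact orderOf_dvd_natCard a
        exact (by norm_num : 2 ∣ 4).trans this
      exact (hq2 2 Nat.prime_two hd).2
    have hN4 : NN G 4 = n := by
      have := hbig a (by rw [ha4]; norm_num)
      rwa [ha4] at this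
    have hno8 : ∀ g : G, orderOf g ≠ 8 := by
      intro g hg
      have hd8 : 2 ^ 3 ∣ Nat.card G := by
        have : 8 ∣ Nat.card G := by rw [← hg]; exact orderOf_dvd_natCard g
        simpa using this
      have hd4 : 2 ^ 2 ∣ Nat.card G := (pow_dvd_pow 2 (by norm_num)).trans hd8
      have h1 := two_cube_dvd hd8
      have h2 := prime_sq_dvd Nat.prime_two hd4
      have hN8 : NN G 8 = n := by
        have := hbig g (by rw [hg]; norm_num)
        rwa [hg] at this
      have e1 : NN G (2 ^ 2) = n := by simpa using hN4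
      have e2 : NN G (2 ^ 3) = n := by simpa using hN8
      rw [hN2, e1, e2] at h1
      rw [hN2, e1] at h2
      obtain ⟨c, hc⟩ := h1
      obtain ⟨d, hd⟩ := h2
      omega
    have h4 : ∀ x : G, x ^ 4 = 1 := by
      intro x
      obtain ⟨k, hk⟩ := hG2 x
      have hd := orderOf_dvd_of_pow_eq_one hk
      obtain ⟨i, hi, hi2⟩ := (Nat.dvd_prime_pow Nat.prime_two).mp hd
      have hi3 : i ≤ 2 := by
        by_contra hlt
        have := hpowel x i 3 hi2 (by omega)
        exact hno8 _ (by rw [this]; norm_num)
      rw [← orderOf_dvd_iff_pow_eq_one, hi2]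
      exact (pow_dvd_pow 2 hi3).trans (by norm_num)
    have huniq : ∀ x y : G, orderOf x = 2 → orderOf y = 2 → x = y := by
      intro x y hx hy
      rw [NN, Nat.card_eq_one_iff_unique] at hN2
      obtain ⟨h2, -⟩ := hN2
      have h3 : (⟨x, hx⟩ : {x : G // orderOf x = 2}) = ⟨y, hy⟩ := Subsingleton.elim _ _
      exact congrArg Subtype.val h3
    rcases q8_or_z4 hG2 huniq h4 ha4 with h5 | h5
    · exact Or.inr (Or.inl h5)
    · exact Or.inr (Or.inr (Or.inl h5))


end Cfsg.Agent.S3995
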