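import Cfsg.Statements.S4009
import Mathlib

set_option autoImplicit false
open Cfsg

namespace Cfsg.Agent.S4009

open scoped commutatorElement

variable {P : Type*} [Group P]

/-- three subgroups -/
theorem three_subgroups_aux {A B C N : Subgroup P} [N.Normal]
    (h1 : ⁅⁅A, B⁆, C⁆ ≤ N) (h2 : ⁅⁅B, C⁆, A⁆ ≤ N) : ⁅⁅C, A⁆, B⁆ ≤ N := by
  let π := QuotientGroup.mk' N
  have hk : ∀ {X : Subgroup P}, X ≤ N ↔ X.map π = ⊥ := by
    intro X
    rw [Subgroup.map_eq_bot_iff, QuotientGroup.ker_mk']
  rw [hk] at h1 h2 ⊢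
  rw [Subgroup.map_commutator, Subgroup.map_commutator] at h1 h2 ⊢
  exact Subgroup.commutator_commutator_eq_bot_of_rotate h1 h2

/-- The lower central series of the whole group. -/
abbrev gam (P : Type*) [Group P] (i : ℕ) : Subgroup P := (⊤ : Subgroup P).lowerCentralSeries i

theorem comm_gam : ∀ j i : ℕ, ⁅gam P i, gam P j⁆ ≤ gam P (i + j + 1) := by
  intro j
  induction j with
  | zero =>
    intro i
    rw [gam, gam, Subgroup.lowerCentralSeries_zero, add_zero, gam, Subgroup.lowerCentralSeries_succ]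
  | succ j ih =>
    intro i
    have hj : gam P (j + 1) = ⁅gam P j, ⊤⁆ := rfl
    rw [Subgroup.commutator_comm, hj]
    have h1 : ⁅⁅(⊤ : Subgroup P), gam P i⁆, gam P j⁆ ≤ gam P (i + (j + 1) + 1) := by
      rw [Subgroup.commutator_comm ⊤]
      have := ih (i + 1)
      have e : i + 1 + j + 1 = i + (j + 1) + 1 := by omega
      rwa [e] at this
    have h2 : ⁅⁅gam P i, gam P j⁆, (⊤ : Subgroup P)⁆ ≤ gam P (i + (j + 1) + 1) := by
      have e : i + (j + 1) + 1 = (i + j + 1) + 1 := by omega
      rw [e]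
      exact Subgroup.commutator_mono (ih i) le_rfl
    exact three_subgroups_aux h1 h2

theorem gam_anti {i j : ℕ} (h : i ≤ j) : gam P j ≤ gam P i :=
  Subgroup.lowerCentralSeries_antitone _ h

theorem closure_comm_mem (W : Subgroup P) (S : Set P)
    (hN : ∀ u ∈ Subgroup.closure S, ∀ h ∈ W, u * h * u⁻¹ ∈ W)
    (hS : ∀ u ∈ S, ∀ v ∈ S, ⁅u, v⁆ ∈ W) :
    ∀ u ∈ Subgroup.closure S, ∀ v ∈ Subgroup.closure S, ⁅u, v⁆ ∈ W := by
  have step1 : ∀ v ∈ S, ∀ u ∈ Subgroup.closure S, ⁅u, v⁆ ∈ W := by
    intro v hv u hu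
    induction hu using Subgroup.closure_induction with
    | mem x hx => exact hS x hx v hv
    | one => simp [commutatorElement_def]
    | mul a b ha hb iha ihb =>
      have e : ⁅a * b, v⁆ = (a * ⁅b, v⁆ * a⁻¹) * ⁅a, v⁆ := by
        simp only [commutatorElement_def]; group
      rw [e]; exact W.mul_mem (hN a ha _ ihb) iha
    | inv a ha iha =>
      have e : ⁅a⁻¹, v⁆ = a⁻¹ * ⁅a, v⁆⁻¹ * a⁻¹⁻¹ := by
        simp only [commutatorElement_def]; group
      rw [e]; exact hN _ (inv_mem ha) _ (W.inv_mem iha)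
  intro u hu v hv
  induction hv using Subgroup.closure_induction with
  | mem x hx => exact step1 x hx u hu
  | one => simp [commutatorElement_def]
  | mul a b ha hb iha ihb =>
    have e : ⁅u, a * b⁆ = ⁅u, a⁆ * (a * ⁅u, b⁆ * a⁻¹) := by
      simp only [commutatorElement_def]; group
    rw [e]; exact W.mul_mem iha (hN a ha _ ihb)
  | inv a ha iha =>
    have e : ⁅u, a⁻¹⁆ = a⁻¹ * ⁅u, a⁆⁻¹ * a⁻¹⁻¹ := by
      simp only [commutatorElement_def]; group
    rw [e]; exact hN _ (inv_mem ha) _ (W.inv_mem iha)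

/-- In the one-generator case the commutator drops by one extra step. -/
theorem comm_cyc {i : ℕ} {z : P} (hz : z ∈ gam P i) {K : Subgroup P}
    (hK : K ≤ Subgroup.closure ({z} ∪ (gam P (i + 1) : Set P))) :
    ⁅K, K⁆ ≤ gam P (2 * i + 2) := by
  have hsub : Subgroup.closure ({z} ∪ (gam P (i + 1) : Set P)) ≤ gam P i := by
    rw [Subgroup.closure_le]
    rintro u (rfl | hu)
    · exact hz
    · exact gam_anti (Nat.le_succ i) hu
  have hW : ∀ u ∈ ({z} ∪ (gam P (i + 1) : Set P)), ∀ v ∈ ({z} ∪ (gam P (i + 1) : Set P)),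
      ⁅u, v⁆ ∈ gam P (2 * i + 2) := by
    intro u hu v hv
    rcases hu with rfl | hu
    · rcases hv with rfl | hv
      · simp [commutatorElement_def]
      · have := comm_gam (P := P) (i + 1) i (Subgroup.commutator_mem_commutator hz hv)
        have e : i + (i + 1) + 1 = 2 * i + 2 := by omega
        rwa [e] at this
    · have hv' : v ∈ gam P i := by
        rcases hv with rfl | hv
        · exact hz
        · exact gam_anti (Nat.le_succ i) hv
      have := comm_gam (P := P) i (i + 1) (Subgroup.commutator_mem_commutator hu hv')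
      have e : i + 1 + i + 1 = 2 * i + 2 := by omega
      rwa [e] at this
  have hn : (gam P (2 * i + 2)).Normal := inferInstance
  have := closure_comm_mem (gam P (2 * i + 2)) _
    (fun u _ h hh => hn.conj_mem h hh u) hW
  exact Subgroup.commutator_le.2 (fun a ha b hb => this a (hK ha) b (hK hb))

/-- In the two-generator case the commutator is cyclic modulo the next term. -/
theorem comm_two {i : ℕ} {x y : P} (hx : x ∈ gam P i) (hy : y ∈ gam P i)
    (hA : gam P i ≤ Subgroup.closure ({x, y} ∪ (gam P (i + 1) : Set P))) :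
    ⁅gam P i, gam P i⁆ ≤ Subgroup.closure ({⁅x, y⁆} ∪ (gam P (2 * i + 2) : Set P)) := by
  set W := Subgroup.closure ({⁅x, y⁆} ∪ (gam P (2 * i + 2) : Set P)) with hWdef
  have hVW : ∀ v ∈ gam P (2 * i + 2), v ∈ W := fun v hv =>
    Subgroup.subset_closure (Or.inr hv)
  have hwW : ⁅x, y⁆ ∈ W := Subgroup.subset_closure (Or.inl rfl)
  have hsub : Subgroup.closure ({x, y} ∪ (gam P (i + 1) : Set P)) ≤ gam P i := by
    rw [Subgroup.closure_le]
    rintro u (hu | hu)
    · rcases hu with rfl | hu
      · exact hx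
      · rw [Set.mem_singleton_iff] at hu; rw [hu]; exact hy
    · exact gam_anti (Nat.le_succ i) hu
  have hw : ⁅x, y⁆ ∈ gam P (2 * i + 1) := by
    have := comm_gam (P := P) i i (Subgroup.commutator_mem_commutator hx hy)
    have e : i + i + 1 = 2 * i + 1 := by omega
    rwa [e] at this
  have hN : ∀ u ∈ Subgroup.closure ({x, y} ∪ (gam P (i + 1) : Set P)), ∀ h ∈ W, u * h * u⁻¹ ∈ W := by
    intro u hu h hh
    have hu' : u ∈ gam P i := hsub hu
    induction hh using Subgroup.closure_induction with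
    | mem a ha =>
      rcases ha with rfl | ha
      · have h1 : ⁅u, ⁅x, y⁆⁆ ∈ gam P (2 * i + 2) := by
          have := comm_gam (P := P) (2 * i + 1) i (Subgroup.commutator_mem_commutator hu' hw)
          exact gam_anti (by omega) this
        have e : u * ⁅x, y⁆ * u⁻¹ = ⁅u, ⁅x, y⁆⁆ * ⁅x, y⁆ := by
          rw [commutatorElement_def u]; group
        rw [e]; exact W.mul_mem (hVW _ h1) hwW
      · exact hVW _ ((inferInstance : (gam P (2 * i + 2)).Normal).conj_mem a ha u)
    | one => simp
    | mul a b _ _ iha ihb =>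
      have e : u * (a * b) * u⁻¹ = (u * a * u⁻¹) * (u * b * u⁻¹) := by group
      rw [e]; exact W.mul_mem iha ihb
    | inv a _ iha =>
      have e : u * a⁻¹ * u⁻¹ = (u * a * u⁻¹)⁻¹ := by group
      rw [e]; exact W.inv_mem iha
  have hS : ∀ u ∈ ({x, y} ∪ (gam P (i + 1) : Set P)), ∀ v ∈ ({x, y} ∪ (gam P (i + 1) : Set P)),
      ⁅u, v⁆ ∈ W := by
    have hmemA : ∀ u ∈ ({x, y} ∪ (gam P (i + 1) : Set P)), u ∈ gam P i := fun u hu =>
      hsub (Subgroup.subset_closure hu)
    have hb1 : ∀ u ∈ gam P i, ∀ v ∈ gam P (i + 1), ⁅u, v⁆ ∈ W := by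
      intro u hu v hv
      have := comm_gam (P := P) (i + 1) i (Subgroup.commutator_mem_commutator hu hv)
      have e : i + (i + 1) + 1 = 2 * i + 2 := by omega
      rw [e] at this
      exact hVW _ this
    have hb2 : ∀ u ∈ gam P (i + 1), ∀ v ∈ gam P i, ⁅u, v⁆ ∈ W := by
      intro u hu v hv
      have := comm_gam (P := P) i (i + 1) (Subgroup.commutator_mem_commutator hu hv)
      have e : i + 1 + i + 1 = 2 * i + 2 := by omega
      rw [e] at this
      exact hVW _ this
    intro u hu v hv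
    rcases hv with hv | hv
    · rcases hu with hu | hu
      · have hyx : ⁅y, x⁆ ∈ W := by
          rw [← commutatorElement_inv]; exact W.inv_mem hwW
        have hxx : ∀ t : P, ⁅t, t⁆ ∈ W := fun t => by
          rw [commutatorElement_self]; exact W.one_mem
        rcases hu with rfl | hu <;> rcases hv with rfl | hv
        · exact hxx _
        · rw [Set.mem_singleton_iff] at hv; rw [hv]; exact hwW
        · rw [Set.mem_singleton_iff] at hu; rw [hu]; exact hyx
        · rw [Set.mem_singleton_iff] at hu hv; rw [hu, hv]; exact hxx _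
      · exact hb2 u hu v (hmemA v (Or.inl hv))
    · exact hb1 u (hmemA u hu) v hv
  have := closure_comm_mem W _ hN hS
  exact Subgroup.commutator_le.2 (fun a ha b hb => this a (hA ha) b (hA hb))

/-- Exponent of a subgroup of a `p`-group. -/
noncomputable def lgp (p : ℕ) (H : Subgroup P) : ℕ := Nat.log p (Nat.card H)

section
variable {p : ℕ} [hp : Fact p.Prime] [Finite P] (hP : IsPGroup p P)
include hP

theorem card_lgp (H : Subgroup P) : Nat.card H = p ^ lgp p H := by
  obtain ⟨n, hn⟩ := IsPGroup.iff_card.mp (hP.to_subgroup H)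
  rw [lgp, hn, Nat.log_pow hp.out.one_lt]

theorem lgp_mono {H K : Subgroup P} (h : H ≤ K) : lgp p H ≤ lgp p K := by
  have h1 := Subgroup.card_le_of_le h
  rw [card_lgp hP H, card_lgp hP K] at h1
  exact (Nat.pow_le_pow_iff_right hp.out.one_lt).mp h1

theorem eq_of_lgp {H K : Subgroup P} (h : H ≤ K) (h2 : lgp p K ≤ lgp p H) : H = K := by
  apply Subgroup.eq_of_le_of_card_ge h
  rw [card_lgp hP H, card_lgp hP K]
  exact Nat.pow_le_pow_right hp.out.pos h2

theorem lgp_lt {H K : Subgroup P} (h : H ≤ K) (hne : H ≠ K) : lgp p H < lgp p K := by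
  by_contra hc
  exact hne (eq_of_lgp hP h (not_lt.mp hc))

theorem lgp_pos {K : Subgroup P} (hne : K ≠ ⊥) : 1 ≤ lgp p K :=
  Nat.succ_le_of_lt (lt_of_le_of_lt (Nat.zero_le _) (lgp_lt hP (bot_le) (Ne.symm hne)))

theorem exists_one {A B : Subgroup P} (hle : lgp p A ≤ lgp p B + 1) (hBA : B ≤ A) :
    ∃ z ∈ A, A ≤ Subgroup.closure ({z} ∪ (B : Set P)) := by
  have hB : ∀ z, B ≤ Subgroup.closure ({z} ∪ (B : Set P)) := fun z x hx =>
    Subgroup.subset_closure (Or.inr hx)
  by_cases h : A ≤ B
  · exact ⟨1, A.one_mem, h.trans (hB 1)⟩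
  · obtain ⟨z, hzA, hzB⟩ := SetLike.not_le_iff_exists.mp h
    refine ⟨z, hzA, ?_⟩
    set H := Subgroup.closure ({z} ∪ (B : Set P))
    have hHA : H ≤ A := by
      rw [Subgroup.closure_le]
      rintro u (rfl | hu)
      · exact hzA
      · exact hBA hu
    have hBH : B ≠ H := by
      intro e
      exact hzB (e ▸ Subgroup.subset_closure (Or.inl rfl))
    have hBle : B ≤ H := hB z
    have := lgp_lt hP hBle hBH
    exact (eq_of_lgp hP hHA (by omega)).ge

theorem exists_two {A B : Subgroup P} (hle : lgp p A ≤ lgp p B + 2) (hBA : B ≤ A) :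
    ∃ x ∈ A, ∃ y ∈ A, A ≤ Subgroup.closure ({x, y} ∪ (B : Set P)) := by
  by_cases h : A ≤ B
  · refine ⟨1, A.one_mem, 1, A.one_mem, h.trans ?_⟩
    intro x hx
    exact Subgroup.subset_closure (Or.inr hx)
  obtain ⟨z, hzA, hzB⟩ := SetLike.not_le_iff_exists.mp h
  set H₁ := Subgroup.closure ({z} ∪ (B : Set P)) with hH₁
  have hBH₁ : B ≤ H₁ := fun x hx => Subgroup.subset_closure (Or.inr hx)
  have hzH₁ : z ∈ H₁ := Subgroup.subset_closure (Or.inl rfl)
  have hne₁ : B ≠ H₁ := fun e => hzB (e ▸ hzH₁)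
  have hl₁ := lgp_lt hP hBH₁ hne₁
  by_cases h₁ : A ≤ H₁
  · refine ⟨z, hzA, z, hzA, h₁.trans ?_⟩
    rw [hH₁]
    apply Subgroup.closure_mono
    simp
  obtain ⟨y, hyA, hyH⟩ := SetLike.not_le_iff_exists.mp h₁
  refine ⟨z, hzA, y, hyA, ?_⟩
  set H₂ := Subgroup.closure ({z, y} ∪ (B : Set P)) with hH₂
  have hH₁₂ : H₁ ≤ H₂ := by
    rw [hH₁, hH₂]
    apply Subgroup.closure_mono
    rintro u (rfl | hu)
    · exact Or.inl (Or.inl rfl)
    · exact Or.inr hu
  have hyH₂ : y ∈ H₂ := Subgroup.subset_closure (Or.inl (Or.inr rfl))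
  have hne₂ : H₁ ≠ H₂ := fun e => hyH (e ▸ hyH₂)
  have hl₂ := lgp_lt hP hH₁₂ hne₂
  have hH₂A : H₂ ≤ A := by
    rw [hH₂, Subgroup.closure_le]
    rintro u (hu | hu)
    · rcases hu with rfl | hu
      · exact hzA
      · rw [Set.mem_singleton_iff] at hu; rw [hu]; exact hyA
    · exact hBA hu
  exact (eq_of_lgp hP hH₂A (by omega)).ge

theorem gam_strict {j : ℕ} (hne : gam P j ≠ ⊥) : gam P (j + 1) ≠ gam P j := by
  intro e
  apply hne
  have hnil : Group.IsNilpotent P := hP.isNilpotent
  obtain ⟨c, hc⟩ := Subgroup.nilpotent_iff_lowerCentralSeries.mp hnil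
  have hst : ∀ m, gam P (j + m) = gam P j := by
    intro m
    induction m with
    | zero => rfl
    | succ m ih =>
      have h1 : gam P (j + (m + 1)) = ⁅gam P (j + m), ⊤⁆ := rfl
      rw [h1, ih]
      exact e
  have h2 : gam P (j + c) ≤ gam P c := gam_anti (by omega)
  rw [hst c] at h2
  exact le_bot_iff.mp (h2.trans (le_of_eq hc))

theorem chain (i : ℕ) : ∀ d, gam P (i + d) ≠ ⊥ →
    lgp p (gam P (i + d)) + d ≤ lgp p (gam P i) := by
  intro d
  induction d with
  | zero => intro _; simp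
  | succ d ih =>
    intro hne
    have hne' : gam P (i + d) ≠ ⊥ := by
      intro e
      apply hne
      exact le_bot_iff.mp ((gam_anti (by omega)).trans (le_of_eq e))
    have h1 := ih hne'
    have h2 := lgp_lt (p := p) hP (H := gam P (i + d + 1)) (K := gam P (i + d))
      (gam_anti (P := P) (Nat.le_succ (i + d))) (gam_strict hP hne')
    have e : i + (d + 1) = i + d + 1 := rfl
    rw [e]
    omega

end

/-- The extra exponents of the two claims. -/
def Fn : ℕ → ℕ
  | 0 => 1
  | r + 1 => 2 * (r + 1)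

def Gn : ℕ → ℕ
  | 0 => 1
  | r + 1 => 2 ^ (r + 1) + Fn r

theorem Fn_le1 (r : ℕ) : Fn (r + 1) ≤ 2 ^ (r + 1) + Fn r := by
  cases r with
  | zero => simp [Fn]
  | succ s =>
    have : 1 ≤ 2 ^ s := Nat.one_le_two_pow
    simp only [Fn]
    omega

theorem Fn_le2 (r : ℕ) : Fn (r + 1) ≤ 1 + Gn r := by
  cases r with
  | zero => simp [Fn, Gn]
  | succ s =>
    cases s with
    | zero => simp [Fn, Gn]
    | succ t =>
      have : 1 ≤ 2 ^ t := Nat.one_le_two_pow
      simp only [Fn, Gn]
      omega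

theorem Fn_le3 (r : ℕ) : Fn (r + 1) ≤ Fn r + 2 := by
  cases r with
  | zero => simp [Fn]
  | succ s => simp only [Fn]; omega

/-- Iterated commutator. -/
def comI (K : Subgroup P) : Subgroup P := ⁅K, K⁆

theorem comI_iter_bot (m : ℕ) : (comI (P := P))^[m] ⊥ = ⊥ := by
  induction m with
  | zero => rfl
  | succ m ih =>
    rw [Function.iterate_succ_apply]
    have : comI (⊥ : Subgroup P) = ⊥ := Subgroup.commutator_bot_left _
    rw [this, ih]

theorem derived_eq_iter (m : ℕ) : derivedSeries P m = (comI (P := P))^[m] ⊤ := by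
  induction m with
  | zero => rfl
  | succ m ih =>
    rw [Function.iterate_succ_apply', ← ih]
    rfl

theorem main_claim {p : ℕ} [hp : Fact p.Prime] [Finite P] (hP : IsPGroup p P) (r : ℕ) :
    ∀ (i : ℕ) (K : Subgroup P),
      (K ≤ gam P i → (comI (P := P))^[r + 1] K ≠ ⊥ →
        (i + 1) * 2 ^ (r + 1) + 1 + Fn r ≤ lgp p (gam P i) + (i + 1)) ∧
      (∀ z ∈ gam P i, K ≤ Subgroup.closure ({z} ∪ (gam P (i + 1) : Set P)) →
        (comI (P := P))^[r + 1] K ≠ ⊥ →
        (i + 1) * 2 ^ (r + 1) + 1 + Gn r ≤ lgp p (gam P i) + (i + 1)) := by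
  have hmain : ∀ (i : ℕ), gam P (i + 1) ≤ gam P i := fun i => gam_anti (Nat.le_succ i)
  induction r with
  | zero =>
    intro i K
    have hbase : ∀ (K₁ : Subgroup P), K₁ ≠ ⊥ → K₁ ≤ gam P (2 * i + 2) → i + 3 ≤ lgp p (gam P i) := by
      intro K₁ hne hle
      have h0 : gam P (2 * i + 2) ≠ ⊥ := fun e => hne (le_bot_iff.mp (e ▸ hle))
      have h1 := lgp_pos (p := p) hP h0
      have h2 := chain (p := p) hP i (i + 2) (by
        have e : i + (i + 2) = 2 * i + 2 := by omega
        rw [e]; exact h0)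
      have e : i + (i + 2) = 2 * i + 2 := by omega
      rw [e] at h2
      omega
    constructor
    · intro hK hne
      have hK1 : comI K ≠ ⊥ := by simpa using hne
      by_cases hc : lgp p (gam P i) ≤ lgp p (gam P (i + 1)) + 1
      · obtain ⟨z, hz, hA⟩ := exists_one hP hc (hmain i)
        have := hbase _ hK1 (comm_cyc hz (hK.trans hA))
        simp only [Fn, pow_one]
        omega
      · have hle : comI K ≤ gam P (2 * i + 1) := by
          have := (Subgroup.commutator_mono hK hK).trans (comm_gam (P := P) i i)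
          have e : i + i + 1 = 2 * i + 1 := by omega
          rwa [e] at this
        have h0 : gam P (2 * i + 1) ≠ ⊥ := fun e => hK1 (le_bot_iff.mp (e ▸ hle))
        have h1 := lgp_pos (p := p) hP h0
        have h2 := chain (p := p) hP (i + 1) i (by
          have e : i + 1 + i = 2 * i + 1 := by omega
          rw [e]; exact h0)
        have e : i + 1 + i = 2 * i + 1 := by omega
        rw [e] at h2
        simp only [Fn, pow_one]
        omega
    · intro z hz hK hne
      have hK1 : comI K ≠ ⊥ := by simpa using hne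
      have := hbase _ hK1 (comm_cyc hz hK)
      simp only [Gn, pow_one]
      omega
  | succ r ih =>
    intro i K
    have hne1 : (comI (P := P))^[r + 1 + 1] K ≠ ⊥ → (comI (P := P))^[r + 1] (comI K) ≠ ⊥ := by
      intro h
      rwa [Function.iterate_succ_apply] at h
    have hnz : ∀ K₁ : Subgroup P, (comI (P := P))^[r + 1] K₁ ≠ ⊥ → K₁ ≠ ⊥ := by
      intro K₁ h e
      exact h (by rw [e, comI_iter_bot])
    have hX : ∀ m : ℕ, m = i + 1 → True := fun _ _ => trivial
    -- the cyclic-type estimate, used in two places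
    have hcyc : ∀ K₁ : Subgroup P, K₁ ≤ gam P (2 * i + 2) → (comI (P := P))^[r + 1] K₁ ≠ ⊥ →
        (i + 1) * 2 ^ (r + 1 + 1) + 2 ^ (r + 1) + 1 + Fn r ≤ lgp p (gam P i) + (i + 1) := by
      intro K₁ hle hne
      have h0 : gam P (2 * i + 2) ≠ ⊥ := fun e => hnz _ hne (le_bot_iff.mp (e ▸ hle))
      have h1 := (ih (2 * i + 2) K₁).1 hle hne
      have h2 := chain (p := p) hP i (i + 2) (by
        have e : i + (i + 2) = 2 * i + 2 := by omega
        rw [e]; exact h0)
      have e : i + (i + 2) = 2 * i + 2 := by omega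
      rw [e] at h2
      have e2 : (2 * i + 2 + 1) * 2 ^ (r + 1) = (i + 1) * 2 ^ (r + 1 + 1) + 2 ^ (r + 1) := by
        ring
      rw [e2] at h1
      omega
    constructor
    · intro hK hne
      have hK1 := hne1 hne
      have hle : comI K ≤ gam P (2 * i + 1) := by
        have := (Subgroup.commutator_mono hK hK).trans (comm_gam (P := P) i i)
        have e : i + i + 1 = 2 * i + 1 := by omega
        rwa [e] at this
      have h0 : gam P (2 * i + 1) ≠ ⊥ := fun e => hnz _ hK1 (le_bot_iff.mp (e ▸ hle))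
      have h2 := chain (p := p) hP (i + 1) i (by
        have e : i + 1 + i = 2 * i + 1 := by omega
        rw [e]; exact h0)
      have e : i + 1 + i = 2 * i + 1 := by omega
      rw [e] at h2
      have e2 : (2 * i + 1 + 1) * 2 ^ (r + 1) = (i + 1) * 2 ^ (r + 1 + 1) := by ring
      by_cases hc1 : lgp p (gam P i) ≤ lgp p (gam P (i + 1)) + 1
      · obtain ⟨z, hz, hA⟩ := exists_one hP hc1 (hmain i)
        have h3 := hcyc _ (comm_cyc hz (hK.trans hA)) hK1
        have h4 := Fn_le1 r
        omega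
      · by_cases hc2 : lgp p (gam P i) ≤ lgp p (gam P (i + 1)) + 2
        · obtain ⟨x, hx, y, hy, hA⟩ := exists_two hP hc2 (hmain i)
          have hK2 : comI K ≤ Subgroup.closure ({⁅x, y⁆} ∪ (gam P (2 * i + 2) : Set P)) :=
            (Subgroup.commutator_mono hK hK).trans (comm_two hx hy hA)
          have hw : ⁅x, y⁆ ∈ gam P (2 * i + 1) := by
            have := comm_gam (P := P) i i (Subgroup.commutator_mem_commutator hx hy)
            have e : i + i + 1 = 2 * i + 1 := by omega
            rwa [e] at this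
          have h3 := (ih (2 * i + 1) (comI K)).2 _ hw hK2 hK1
          rw [e2] at h3
          have h4 := Fn_le2 r
          omega
        · have h3 := (ih (2 * i + 1) (comI K)).1 hle hK1
          rw [e2] at h3
          have h4 := Fn_le3 r
          omega
    · intro z hz hK hne
      have hK1 := hne1 hne
      have h3 := hcyc _ (comm_cyc hz hK) hK1
      have e3 : Gn (r + 1) = 2 ^ (r + 1) + Fn r := rfl
      rw [e3]
      omega

/-- Let P be a finite p-group of order p^n whose derived length is exactly k + 1 (the k-th derived subgroup is nontrivial and the (k+1)-st is trivial). Then n ≥ 2^k + 2k − 2. -/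
theorem result {P : Type*} [Group P] [Finite P] (p : ℕ) [Fact p.Prime] (n k : ℕ) (hcard : Nat.card P = p ^ n) (hk : derivedSeries P k ≠ ⊥) (hk' : derivedSeries P (k + 1) = ⊥) : 2 ^ k + 2 * k ≤ n + 2 := by
  have hP : IsPGroup p P := IsPGroup.of_card hcard
  cases k with
  | zero => simp
  | succ r =>
    have hn : lgp p (gam P 0) = n := by
      have h0 : gam P 0 = ⊤ := rfl
      rw [lgp, h0, Subgroup.card_top, hcard, Nat.log_pow (Fact.out : p.Prime).one_lt]
    have h1 := (main_claim hP r 0 ⊤).1 le_rfl (by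
      rw [← derived_eq_iter]; exact hk)
    rw [hn] at h1
    cases r with
    | zero => simp [Fn] at h1 ⊢; omega
    | succ s =>
      simp only [Fn] at h1
      omega


end Cfsg.Agent.S4009
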