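import Cfsg.Statements.S4010
import Cfsg.Agent.Lib.Perm.PermModule
import Mathlib

set_option autoImplicit false
open Cfsg
open scoped commutatorElement

namespace Cfsg.Agent.S4010

universe u v w

section General

variable {P : Type u} {K : Type w} {V : Type v} [Group P] [Field K] [AddCommGroup V] [Module K V]

/-- Restriction to an invariant subspace. -/
def restr (ρ : P →* Module.End K V) (U : Submodule K V) (h : ∀ g, ∀ v ∈ U, ρ g v ∈ U) :
    P →* Module.End K U where
  toFun g := (ρ g).restrict (h g)
  map_one' := by ext v; simp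
  map_mul' x y := by ext v; simp

theorem restr_apply (ρ : P →* Module.End K V) (U : Submodule K V) (h : ∀ g, ∀ v ∈ U, ρ g v ∈ U)
    (g : P) (v : U) : ((restr ρ U h g v : U) : V) = ρ g v := rfl

/-- The action on the quotient by an invariant subspace. -/
def quotRep (ρ : P →* Module.End K V) (U : Submodule K V) (h : ∀ g, ∀ v ∈ U, ρ g v ∈ U) :
    P →* Module.End K (V ⧸ U) where
  toFun g := U.mapQ U (ρ g) (fun v hv => h g v hv)
  map_one' := by
    apply Submodule.linearMap_qext
    ext v
    simp
  map_mul' x y := by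
    apply Submodule.linearMap_qext
    ext v
    simp

theorem quotRep_mk (ρ : P →* Module.End K V) (U : Submodule K V) (h : ∀ g, ∀ v ∈ U, ρ g v ∈ U)
    (g : P) (v : V) : quotRep ρ U h g (Submodule.Quotient.mk v) = Submodule.Quotient.mk (ρ g v) := rfl

/-- The socle chain. -/
def soc (ρ : P →* Module.End K V) : ℕ → Submodule K V
  | 0 => ⊥
  | i + 1 => ⨅ g : P, (soc ρ i).comap (ρ g - 1)

theorem mem_soc_succ (ρ : P →* Module.End K V) (i : ℕ) (v : V) :
    v ∈ soc ρ (i + 1) ↔ ∀ g, ρ g v - v ∈ soc ρ i := by
  simp [soc, Submodule.mem_iInf]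

theorem soc_mono_succ (ρ : P →* Module.End K V) (i : ℕ) : soc ρ i ≤ soc ρ (i + 1) := by
  induction i with
  | zero =>
    intro v hv
    have hv0 : v = 0 := by simpa [soc] using hv
    subst hv0
    exact Submodule.zero_mem _
  | succ i ih =>
    intro v hv
    rw [mem_soc_succ] at hv ⊢
    exact fun g => ih (hv g)

theorem soc_mono (ρ : P →* Module.End K V) : Monotone (soc ρ) :=
  monotone_nat_of_le_succ (soc_mono_succ ρ)

theorem soc_invariant (ρ : P →* Module.End K V) (i : ℕ) (g : P) (v : V) (hv : v ∈ soc ρ i) :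
    ρ g v ∈ soc ρ i := by
  cases i with
  | zero =>
    have hv0 : v = 0 := by simpa [soc] using hv
    subst hv0
    simp [soc]
  | succ i =>
    have h1 := (mem_soc_succ ρ i v).1 hv g
    have h2 := soc_mono_succ ρ i h1
    have h3 : ρ g v = (ρ g v - v) + v := by abel
    rw [h3]
    exact Submodule.add_mem _ h2 hv

theorem sub_mem_soc_pred (ρ : P →* Module.End K V) (i : ℕ) (g : P) (v : V) (hv : v ∈ soc ρ i) :
    ρ g v - v ∈ soc ρ (i - 1) := by
  cases i with
  | zero =>
    have hv0 : v = 0 := by simpa [soc] using hv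
    subst hv0
    simp [soc]
  | succ i => exact (mem_soc_succ ρ i v).1 hv g

/-- The elements lowering the socle chain by `2 ^ k`. -/
def lower (ρ : P →* Module.End K V) (k : ℕ) : Subgroup P where
  carrier := {x | ∀ i, ∀ v ∈ soc ρ i, ρ x v - v ∈ soc ρ (i - 2 ^ k)}
  one_mem' := by
    intro i v _
    simp
  mul_mem' := by
    intro x y hx hy i v hv
    have h1 := hx i (ρ y v) (soc_invariant ρ i y v hv)
    have h2 := hy i v hv
    have h3 : ρ (x * y) v - v = (ρ x (ρ y v) - ρ y v) + (ρ y v - v) := by
      rw [map_mul, Module.End.mul_apply]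
      abel
    rw [h3]
    exact Submodule.add_mem _ h1 h2
  inv_mem' := by
    intro x hx i v hv
    have h1 := hx i (ρ x⁻¹ v) (soc_invariant ρ i _ v hv)
    have h2 : ρ x (ρ x⁻¹ v) = v := by
      rw [← Module.End.mul_apply, ← map_mul, mul_inv_cancel, map_one, Module.End.one_apply]
    rw [h2] at h1
    have h3 : ρ x⁻¹ v - v = -(v - ρ x⁻¹ v) := by abel
    rw [h3]
    exact Submodule.neg_mem _ h1

theorem mem_lower (ρ : P →* Module.End K V) (k : ℕ) (x : P) :
    x ∈ lower ρ k ↔ ∀ i, ∀ v ∈ soc ρ i, ρ x v - v ∈ soc ρ (i - 2 ^ k) := Iff.rfl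

theorem commutator_mem_lower (ρ : P →* Module.End K V) (k : ℕ) (x y : P) (hx : x ∈ lower ρ k)
    (hy : y ∈ lower ρ k) : ⁅x, y⁆ ∈ lower ρ (k + 1) := by
  intro i v hv
  set u := ρ (x⁻¹ * y⁻¹) v with hu
  have huv : u ∈ soc ρ i := soc_invariant ρ i _ v hv
  have hvu : v = ρ (y * x) u := by
    rw [hu, ← Module.End.mul_apply, ← map_mul]
    have : y * x * (x⁻¹ * y⁻¹) = 1 := by group
    rw [this, map_one, Module.End.one_apply]
  have hc : ρ ⁅x, y⁆ v = ρ (x * y) u := by
    rw [hu, ← Module.End.mul_apply, ← map_mul]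
    congr 2
    rw [commutatorElement_def]
    group
  have hpow : i - 2 ^ (k + 1) = i - 2 ^ k - 2 ^ k := by
    rw [Nat.sub_sub, pow_succ]
    congr 1
    ring
  rw [hc, hpow]
  have e : ρ (x * y) u - v
      = (ρ x (ρ y u - u) - (ρ y u - u)) - (ρ y (ρ x u - u) - (ρ x u - u)) := by
    rw [hvu, map_mul, map_mul, Module.End.mul_apply, Module.End.mul_apply, map_sub, map_sub]
    abel
  rw [e]
  exact Submodule.sub_mem _ (hx _ _ (hy i u huv)) (hy _ _ (hx i u huv))

theorem derivedSeries_le_lower (ρ : P →* Module.End K V) (k : ℕ) :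
    derivedSeries P k ≤ lower ρ k := by
  induction k with
  | zero =>
    intro x _ i v hv
    simpa using sub_mem_soc_pred ρ i x v hv
  | succ k ih =>
    rw [derivedSeries_succ, Subgroup.commutator_le]
    intro x hx y hy
    exact commutator_mem_lower ρ k x y (ih hx) (ih hy)

/-- If `A - 1` squares to zero and a power of `A` invertible in `K` is one, then `A = 1`. -/
theorem eq_one_of_sq {A : Module.End K V} (hN : (A - 1) * (A - 1) = 0) (m : ℕ) (hm : (m : K) ≠ 0)
    (h : A ^ m = 1) : A = 1 := by
  have key : ∀ j : ℕ, A ^ j = 1 + (j : K) • (A - 1) := by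
    intro j
    induction j with
    | zero => simp
    | succ j ih =>
      have e : (1 + (j : K) • (A - 1)) * A
          = 1 + (A - 1) + (j : K) • ((A - 1) * (A - 1)) + (j : K) • (A - 1) := by
        have : A = 1 + (A - 1) := by abel
        nth_rewrite 2 [this]
        rw [mul_add, add_mul, add_mul, smul_mul_assoc, smul_mul_assoc]
        simp only [mul_one, one_mul]
        abel
      rw [pow_succ, ih, e, hN, smul_zero, add_zero, Nat.cast_succ, add_smul, one_smul]
      abel
  have h1 := key m
  rw [h] at h1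
  have h2 : (m : K) • (A - 1) = 0 := by
    have := h1
    exact (add_eq_left.mp this.symm)
  have h3 : A - 1 = 0 := by
    rcases smul_eq_zero.mp h2 with h | h
    · exact absurd h hm
    · exact h
  exact sub_eq_zero.mp h3

end General

section Unipotent

variable {P : Type u} {K : Type w} {V : Type v} [Group P] [Finite P] [Field K] [AddCommGroup V]
  [Module K V]

theorem soc_lt_succ {p : ℕ} [Fact p.Prime] [CharP K p] (hP : IsPGroup p P)
    (ρ : P →* Module.End K V) (i : ℕ) (hi : soc ρ i ≠ ⊤) : soc ρ i < soc ρ (i + 1) := by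
  refine lt_of_le_of_ne (soc_mono_succ ρ i) ?_
  intro heq
  obtain ⟨v₀, hv₀⟩ : ∃ v, v ∉ soc ρ i := by
    by_contra hcon
    push_neg at hcon
    exact hi (Submodule.eq_top_iff'.mpr hcon)
  have hne : (Submodule.Quotient.mk v₀ : V ⧸ soc ρ i) ≠ 0 := by
    rwa [Ne, Submodule.Quotient.mk_eq_zero]
  obtain ⟨u, -, hu0, hufix⟩ := Cfsg.Agent.Lib.Perm.exists_fixed_vector hP
    (quotRep ρ (soc ρ i) (soc_invariant ρ i)) ⊤ (fun _ _ _ => trivial) _ trivial hne
  obtain ⟨v, rfl⟩ := Submodule.Quotient.mk_surjective _ u
  have hv : v ∈ soc ρ (i + 1) := by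
    rw [mem_soc_succ]
    intro g
    have := hufix g
    rw [quotRep_mk] at this
    exact (Submodule.Quotient.eq _).mp this
  rw [← heq] at hv
  exact hu0 ((Submodule.Quotient.mk_eq_zero _).mpr hv)

theorem lemmaA {p : ℕ} [Fact p.Prime] [CharP K p] [FiniteDimensional K V] (hP : IsPGroup p P)
    (ρ : P →* Module.End K V) (x : P)
    (hx : x ∈ derivedSeries P (Nat.log 2 (Module.finrank K V) + 1)) : ρ x = 1 := by
  set n := Module.finrank K V with hn
  have hgrow : ∀ i, soc ρ i = ⊤ ∨ i ≤ Module.finrank K (soc ρ i) := by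
    intro i
    induction i with
    | zero => exact Or.inr (Nat.zero_le _)
    | succ i ih =>
      by_cases htop : soc ρ i = ⊤
      · left
        exact top_le_iff.mp (htop ▸ soc_mono_succ ρ i)
      · right
        have h1 := ih.resolve_left htop
        have h2 := Submodule.finrank_lt_finrank_of_lt (soc_lt_succ hP ρ i htop)
        omega
  have htop : soc ρ n = ⊤ := by
    rcases hgrow n with h | h
    · exact h
    · apply Submodule.eq_top_of_finrank_eq
      exact le_antisymm (Submodule.finrank_le _) h
  have hlow := derivedSeries_le_lower ρ _ hx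
  ext v
  have h1 := hlow n v (by rw [htop]; trivial)
  have h2 : n - 2 ^ (Nat.log 2 n + 1) = 0 := by
    have := Nat.lt_pow_succ_log_self (b := 2) (by norm_num) n
    omega
  rw [h2] at h1
  have h3 : ρ x v - v = 0 := by simpa [soc] using h1
  simpa using sub_eq_zero.mp h3

end Unipotent

section Exists

/-- In a nilpotent group, a proper subset containing one has an element outside it whose commutators
all lie inside. -/
theorem exists_central_mod {P : Type*} [Group P] [Group.IsNilpotent P] (Z : Set P) (h1 : (1 : P) ∈ Z)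
    (hZ : ∃ g, g ∉ Z) : ∃ a, a ∉ Z ∧ ∀ g, ⁅a, g⁆ ∈ Z := by
  by_contra hcon
  push_neg at hcon
  have hall : ∀ n, ∀ x ∈ Subgroup.upperCentralSeries P n, x ∈ Z := by
    intro n
    induction n with
    | zero =>
      intro x hx
      have : x = 1 := by simpa using hx
      rwa [this]
    | succ n ih =>
      intro x hx
      by_contra hxZ
      obtain ⟨g, hg⟩ := hcon x hxZ
      exact hg (ih _ (Subgroup.mem_upperCentralSeries_succ_iff.mp hx g))
  obtain ⟨c, hc⟩ := Group.IsNilpotent.nilpotent P
  obtain ⟨g, hg⟩ := hZ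
  exact hg (hall c g (by rw [hc]; trivial))

end Exists

section Coprime

variable {K : Type w} [Field K] [IsAlgClosed K]

/-- The commuting subgroup of an element of the image. -/
def comm {P : Type u} {V : Type v} [Group P] [AddCommGroup V] [Module K V]
    (ρ : P →* Module.End K V) (a : P) : Subgroup P where
  carrier := {g | ρ g * ρ a = ρ a * ρ g}
  one_mem' := by simp
  mul_mem' := by
    intro x y hx hy
    have hx' : ρ x * ρ a = ρ a * ρ x := hx
    have hy' : ρ y * ρ a = ρ a * ρ y := hy
    change ρ (x * y) * ρ a = ρ a * ρ (x * y)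
    rw [map_mul, mul_assoc, hy', ← mul_assoc, hx', mul_assoc]
  inv_mem' := by
    intro x hx
    have hx' : ρ x * ρ a = ρ a * ρ x := hx
    change ρ x⁻¹ * ρ a = ρ a * ρ x⁻¹
    have h1 : ρ x⁻¹ * ρ x = 1 := by rw [← map_mul, inv_mul_cancel, map_one]
    have h2 : ρ x * ρ x⁻¹ = 1 := by rw [← map_mul, mul_inv_cancel, map_one]
    calc ρ x⁻¹ * ρ a = ρ x⁻¹ * ρ a * (ρ x * ρ x⁻¹) := by rw [h2, mul_one]
      _ = ρ x⁻¹ * (ρ x * ρ a) * ρ x⁻¹ := by rw [hx']; simp only [mul_assoc]
      _ = ρ a * ρ x⁻¹ := by rw [← mul_assoc, h1, one_mul]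

theorem derived_le_map {P : Type u} [Group P] (M : Subgroup P)
    (hM : derivedSeries P 1 ≤ M) (k : ℕ) :
    derivedSeries P (k + 1) ≤ (derivedSeries M k).map M.subtype := by
  induction k with
  | zero =>
    rw [derivedSeries_zero, ← MonoidHom.range_eq_map, Subgroup.range_subtype]
    exact hM
  | succ k ih =>
    rw [derivedSeries_succ P (k + 1), derivedSeries_succ M k, Subgroup.map_commutator]
    exact Subgroup.commutator_mono ih ih

theorem lemmaB (q : ℕ) [Fact q.Prime] (hq : (q : K) ≠ 0) : ∀ (n : ℕ) (P : Type u) [Group P] [Finite P],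
    IsPGroup q P → ∀ (V : Type v) [AddCommGroup V] [Module K V] [FiniteDimensional K V]
    (ρ : P →* Module.End K V), Module.finrank K V = n →
    ∀ x ∈ derivedSeries P (Nat.log 2 n + 1), ρ x = 1 := by
  intro n
  induction n using Nat.strong_induction_on with
  | _ n ih =>
  intro P _ _ hP V _ _ _ ρ hn x hx
  by_cases hred : ∃ U : Submodule K V, U ≠ ⊥ ∧ U ≠ ⊤ ∧ ∀ g, ∀ v ∈ U, ρ g v ∈ U
  · -- reducible
    obtain ⟨U, h0, h1, hU⟩ := hred
    have d0 : 0 < Module.finrank K U := Module.finrank_pos_iff.mpr (by
      exact Submodule.nontrivial_iff_ne_bot.mpr h0)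
    have d1 : Module.finrank K U < n := hn ▸ Submodule.finrank_lt h1
    have dq := Submodule.finrank_quotient_add_finrank U
    have d2 : Module.finrank K (V ⧸ U) < n := by omega
    have hmono : ∀ m, m ≤ n → x ∈ derivedSeries P (Nat.log 2 m + 1) := fun m hm =>
      derivedSeries_antitone P (Nat.succ_le_succ (Nat.log_mono_right hm)) hx
    have a1 := ih _ d1 P hP U (restr ρ U hU) rfl x (hmono _ d1.le)
    have a2 := ih _ d2 P hP (V ⧸ U) (quotRep ρ U hU) rfl x (hmono _ d2.le)
    obtain ⟨k, hk⟩ := hP x
    have hxk : (x ^ q ^ k : P) = 1 := by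
      exact_mod_cast hk
    apply eq_one_of_sq (m := q ^ k) _ (by exact_mod_cast pow_ne_zero k hq)
    · rw [← map_pow, hxk, map_one]
    · ext v
      have hv1 : ρ x v - v ∈ U := by
        have := LinearMap.congr_fun a2 (Submodule.Quotient.mk v)
        rw [quotRep_mk, Module.End.one_apply] at this
        exact (Submodule.Quotient.eq _).mp this
      have hv2 := LinearMap.congr_fun a1 ⟨_, hv1⟩
      have hv3 := congrArg Subtype.val hv2
      rw [restr_apply] at hv3
      simp only [Module.End.one_apply] at hv3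
      simp only [Module.End.mul_apply, LinearMap.sub_apply, Module.End.one_apply, LinearMap.zero_apply]
      rw [hv3]
      exact sub_self _
  · -- irreducible
    push_neg at hred
    have hirr : ∀ U : Submodule K V, U ≠ ⊥ → (∀ g, ∀ v ∈ U, ρ g v ∈ U) → U = ⊤ := by
      intro U h0 hU
      by_contra h1
      obtain ⟨g, v, hv, hgv⟩ := hred U h0 h1
      exact hgv (hU g v hv)
    have hinv1 : ∀ g, ρ g * ρ g⁻¹ = 1 := fun g => by rw [← map_mul, mul_inv_cancel, map_one]
    have hinv2 : ∀ g, ρ g⁻¹ * ρ g = 1 := fun g => by rw [← map_mul, inv_mul_cancel, map_one]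
    rcases subsingleton_or_nontrivial V with hV | hV
    · ext v
      exact Subsingleton.elim _ _
    haveI : Group.IsNilpotent P := hP.isNilpotent
    by_cases hsc : ∀ g, ∃ c : K, ρ g = c • 1
    · -- the image is scalar
      have hD : derivedSeries P 1 ≤ ρ.ker := by
        rw [derivedSeries_succ, Subgroup.commutator_le]
        intro g _ h _
        obtain ⟨c, hc⟩ := hsc g
        obtain ⟨d, hd⟩ := hsc h
        rw [MonoidHom.mem_ker, commutatorElement_def, map_mul, map_mul, map_mul]
        have hcomm : ρ g * ρ h = ρ h * ρ g := by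
          rw [hc, hd]
          simp [smul_smul, mul_comm]
        rw [hcomm, mul_assoc (ρ h), hinv1, mul_one, hinv1]
      exact hD (derivedSeries_antitone P (Nat.succ_le_succ (Nat.zero_le _)) hx)
    push_neg at hsc
    obtain ⟨a, ha, hag⟩ := exists_central_mod {g : P | ∃ c : K, ρ g = c • 1} ⟨1, by simp⟩
      (by obtain ⟨g, hg⟩ := hsc; exact ⟨g, fun ⟨c, hc⟩ => hg c hc⟩)
    -- the scalars attached to `a`
    have hex : ∀ g, ∃ c : K, ρ a * ρ g = c • (ρ g * ρ a) := by
      intro g
      obtain ⟨c, hc⟩ := hag g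
      refine ⟨c, ?_⟩
      rw [commutatorElement_def, map_mul, map_mul, map_mul] at hc
      calc ρ a * ρ g = (ρ a * ρ g * ρ a⁻¹ * ρ g⁻¹) * (ρ g * ρ a) := by
            simp only [mul_assoc]
            rw [← mul_assoc (ρ g⁻¹), hinv2, one_mul, hinv2, mul_one]
        _ = c • (ρ g * ρ a) := by rw [hc, smul_mul_assoc, one_mul]
    choose c hc using hex
    have hunit : ∀ g, IsUnit (ρ g) := fun g => IsUnit.of_mul_eq_one _ (hinv1 g)
    have hcanc : ∀ (g : P) (s t : K), s • ρ g = t • ρ g → s = t := by
      intro g s t h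
      have hne : ρ g ≠ 0 := (hunit g).ne_zero
      exact smul_left_injective K hne h
    have hcmul : ∀ g h, c (g * h) = c g * c h := by
      intro g h
      apply hcanc (g * h * a)
      rw [map_mul, map_mul]
      have e := hc (g * h)
      rw [map_mul] at e
      rw [← e, ← mul_assoc, hc g, smul_mul_assoc, mul_assoc, hc h, mul_smul_comm, smul_smul]
      simp only [mul_assoc]
    have hcone : c 1 = 1 := by
      apply hcanc a
      have e := hc 1
      rw [map_one, mul_one, one_mul] at e
      rw [one_smul]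
      exact e.symm
    have hcom : ∀ g h : P, c ⁅g, h⁆ = 1 := by
      intro g h
      have h1 : c g * c g⁻¹ = 1 := by rw [← hcmul, mul_inv_cancel, hcone]
      have h2 : c h * c h⁻¹ = 1 := by rw [← hcmul, mul_inv_cancel, hcone]
      rw [commutatorElement_def, hcmul, hcmul, hcmul]
      calc c g * c h * c g⁻¹ * c h⁻¹ = (c g * c g⁻¹) * (c h * c h⁻¹) := by ring
        _ = 1 := by rw [h1, h2, one_mul]
    have hcM : ∀ g, c g = 1 → g ∈ comm ρ a := by
      intro g hg
      have e := hc g
      rw [hg, one_smul] at e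
      exact e.symm
    have hMD : derivedSeries P 1 ≤ comm ρ a := by
      rw [derivedSeries_succ, Subgroup.commutator_le]
      intro g _ h _
      exact hcM _ (hcom g h)
    -- the eigenspace
    obtain ⟨l, hl⟩ := Module.End.exists_eigenvalue (ρ a)
    set W := Module.End.eigenspace (ρ a) l with hW
    have hW0 : W ≠ ⊥ := hl
    have hWmem : ∀ v, v ∈ W ↔ ρ a v = l • v := fun v => Module.End.mem_eigenspace_iff
    have hWtop : W ≠ ⊤ := by
      intro htop
      apply ha
      refine ⟨l, ?_⟩
      ext v
      have : v ∈ W := by rw [htop]; trivial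
      simpa using (hWmem v).1 this
    have hMW : ∀ g : comm ρ a, ∀ v ∈ W, (ρ.comp (comm ρ a).subtype) g v ∈ W := by
      intro g v hv
      rw [hWmem] at hv ⊢
      have e : ρ (g : P) * ρ a = ρ a * ρ (g : P) := g.2
      simp only [MonoidHom.comp_apply, Subgroup.subtype_apply]
      rw [← Module.End.mul_apply, ← e, Module.End.mul_apply, hv, map_smul]
    -- an element moving the eigenspace
    obtain ⟨t, ht⟩ : ∃ t, c t ≠ 1 := by
      by_contra hcon
      push_neg at hcon
      apply hWtop
      apply hirr W hW0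
      intro g v hv
      exact hMW ⟨g, hcM g (hcon g)⟩ v hv
    have hl0 : l ≠ 0 := by
      rintro rfl
      obtain ⟨v, hv⟩ := hl.exists_hasEigenvector
      have h1 : ρ a v = 0 := by simpa using hv.apply_eq_smul
      have h2 : v = 0 := by
        have := LinearMap.congr_fun (hinv2 a) v
        simpa [h1] using this.symm
      exact hv.2 h2
    have hdisj : Disjoint W (W.map (ρ t)) := by
      rw [Submodule.disjoint_def]
      rintro v hv ⟨u, hu, rfl⟩
      have hu' := (hWmem u).1 hu
      have hv' := (hWmem _).1 hv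
      have h3 : ρ a (ρ t u) = (c t * l) • ρ t u := by
        rw [← Module.End.mul_apply, hc t, LinearMap.smul_apply, Module.End.mul_apply, hu', map_smul,
          smul_smul]
      rw [h3] at hv'
      have h4 : (c t * l - l) • ρ t u = 0 := by
        rw [sub_smul, hv', sub_self]
      rcases smul_eq_zero.mp h4 with h5 | h5
      · exfalso
        apply ht
        have : (c t - 1) * l = 0 := by linear_combination h5
        rcases mul_eq_zero.mp this with h6 | h6
        · exact sub_eq_zero.mp h6
        · exact absurd h6 hl0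
      · exact h5
    have hinj : Function.Injective (ρ t) := by
      intro u v huv
      have := congrArg (ρ t⁻¹) huv
      have h1 := LinearMap.congr_fun (hinv2 t) u
      have h2 := LinearMap.congr_fun (hinv2 t) v
      simp only [Module.End.mul_apply, Module.End.one_apply] at h1 h2
      rwa [h1, h2] at this
    have hdim := Submodule.finrank_add_finrank_le_of_disjoint hdisj
    rw [← (Submodule.equivMapOfInjective (ρ t) hinj W).finrank_eq, hn] at hdim
    have hn1pos : Module.finrank K W ≠ 0 := by
      have : 0 < Module.finrank K W := Module.finrank_pos_iff.mpr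
        (Submodule.nontrivial_iff_ne_bot.mpr hW0)
      omega
    have hlt : Module.finrank K W < n := by omega
    have hlog : Nat.log 2 (Module.finrank K W) + 1 ≤ Nat.log 2 n := by
      rw [← Nat.log_mul_base (by norm_num) hn1pos]
      exact Nat.log_mono_right (by omega)
    have hIH := ih _ hlt (comm ρ a) (hP.to_subgroup _) W (restr (ρ.comp (comm ρ a).subtype) W hMW) rfl
    -- the fixed points of the derived term
    let X : Submodule K V := ⨅ y : derivedSeries P (Nat.log 2 n + 1), LinearMap.ker (ρ (y : P) - 1)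
    have hXmem : ∀ v, v ∈ X ↔ ∀ y ∈ derivedSeries P (Nat.log 2 n + 1), ρ y v = v := by
      intro v
      simp only [X, Submodule.mem_iInf, LinearMap.mem_ker, LinearMap.sub_apply, Module.End.one_apply,
        sub_eq_zero, Subtype.forall]
    have hXW : W ≤ X := by
      intro v hv
      rw [hXmem]
      intro y hy
      obtain ⟨y', hy', rfl⟩ := derived_le_map (comm ρ a) hMD _ hy
      have hy2 : y' ∈ derivedSeries (comm ρ a) (Nat.log 2 (Module.finrank K W) + 1) :=
        derivedSeries_antitone _ hlog hy'
      have := LinearMap.congr_fun (hIH y' hy2) ⟨v, hv⟩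
      exact congrArg Subtype.val this
    have hXtop : X = ⊤ := by
      apply hirr X
      · intro h
        rw [h, le_bot_iff] at hXW
        exact hW0 hXW
      · intro g v hv
        rw [hXmem] at hv ⊢
        intro y hy
        have hn := (derivedSeries_normal P (Nat.log 2 n + 1)).conj_mem y hy g⁻¹
        rw [inv_inv] at hn
        have := hv _ hn
        have e : ρ y (ρ g v) = ρ g (ρ (g⁻¹ * y * g) v) := by
          rw [← Module.End.mul_apply, ← Module.End.mul_apply, ← map_mul, ← map_mul]
          congr 2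
          group
        rw [e, this]
    ext v
    exact (hXmem v).1 (by rw [hXtop]; trivial) x hx

end Coprime

/-- Let F be a field, n ≥ 1, and P a finite p-group (p a prime) admitting an injective homomorphism into the general linear group of degree n over F. Then the derived length of P is at most ⌊log₂ n⌋ + 1: that term of the derived series of P is trivial. -/
theorem result {P : Type*} [Group P] [Finite P] (p : ℕ) [Fact p.Prime] (hP : IsPGroup p P) (F : Type*) [Field F] (n : ℕ) (hn : 1 ≤ n) (ρ : P →* Matrix.GeneralLinearGroup (Fin n) F) (hρ : Function.Injective ρ) : derivedSeries P (Nat.log 2 n + 1) = ⊥ := by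
  classical
  let K := AlgebraicClosure F
  let φ : Matrix (Fin n) (Fin n) F →* ((Fin n → K) →ₗ[K] (Fin n → K)) :=
    ((Matrix.toLinAlgEquiv' (R := K) (n := Fin n)).toAlgHom.toRingHom.toMonoidHom).comp
      ((algebraMap F K).mapMatrix.toMonoidHom)
  have hφ : Function.Injective φ := by
    intro A B hAB
    have h1 : (algebraMap F K).mapMatrix A = (algebraMap F K).mapMatrix B :=
      (Matrix.toLinAlgEquiv' (R := K) (n := Fin n)).injective hAB
    exact Matrix.map_injective (algebraMap F K).injective h1
  let ρ' : P →* Module.End K (Fin n → K) :=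
    φ.comp ((Units.coeHom _).comp ρ)
  have hfin : Module.finrank K (Fin n → K) = n := Module.finrank_fin_fun K
  rw [eq_bot_iff]
  intro x hx
  have hx' : x ∈ derivedSeries P (Nat.log 2 (Module.finrank K (Fin n → K)) + 1) := by
    rwa [hfin]
  have hone : ρ' x = 1 := by
    by_cases hpK : (p : K) = 0
    · haveI : CharP K p := (CharP.charP_iff_prime_eq_zero (Fact.out : p.Prime)).mpr hpK
      exact lemmaA hP ρ' x hx'
    · exact lemmaB p hpK _ P hP (Fin n → K) ρ' rfl x hx'
  have h1 : ρ x = 1 := by
    apply Units.ext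
    apply hφ
    rw [Units.val_one, map_one]
    exact hone
  have h2 : ρ x = ρ 1 := by rw [h1, map_one]
  simpa using hρ h2

end Cfsg.Agent.S4010
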