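import Cfsg.Statements.S4013
import Mathlib
import Cfsg.Agent.Lib.ClassSizes.Basic
import Cfsg.Agent.Lib.Coprime.SZ

set_option autoImplicit false
open Cfsg

namespace Cfsg.Agent.S4013

/-- Let G be a finite p-group (p prime) and N < M normal subgroups of G such that for some g ∈ M ∖ N the conjugacy class of g is exactly M ∖ N. Then p = 2 and N has index 2 in M. -/
theorem result {G : Type*} [Group G] [Finite G] (p : ℕ) [Fact p.Prime] (hG : IsPGroup p G) (N M : Subgroup G) [N.Normal] [M.Normal] (hNM : N < M) (g : G) (hgM : g ∈ M) (hgN : g ∉ N) (hcl : {h : G | IsConj g h} = (M : Set G) \ (N : Set G)) : p = 2 ∧ N.relIndex M = 2 := by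
  have hp : p.Prime := Fact.out
  classical
  have hMN : N ≤ M := hNM.le
  obtain ⟨e, he⟩ := IsPGroup.iff_card.mp hG
  obtain ⟨a, ha⟩ := IsPGroup.iff_card.mp (hG.to_subgroup N)
  -- the relative index
  have hrel : N.relIndex M * Nat.card N = Nat.card M := by
    have h1 := (N.subgroupOf M).card_mul_index
    have h2 : Nat.card (N.subgroupOf M) = Nat.card N := by
      rw [Subgroup.subgroupOf, ]
      exact Nat.card_congr (Subgroup.subgroupOfEquivOfLe hMN).toEquiv
    rw [h2] at h1
    rw [mul_comm]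
    exact h1
  obtain ⟨c, hc⟩ := IsPGroup.iff_card.mp (hG.to_subgroup M)
  have hreldvd : N.relIndex M ∣ p ^ c := by rw [← hc, ← hrel]; exact dvd_mul_right _ _
  obtain ⟨b, -, hb⟩ := (Nat.dvd_prime_pow hp).mp hreldvd
  have hNpos : 0 < Nat.card N := Nat.card_pos
  have hb0 : b ≠ 0 := by
    rintro rfl
    rw [hb, pow_zero, one_mul] at hrel
    have : N = M := Subgroup.eq_of_le_of_card_ge hMN hrel.ge
    exact hNM.ne this
  -- the class size
  have hcard : Nat.card {h : G // IsConj g h} = Nat.card M - Nat.card N := by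
    have h1 : Nat.card {h : G // IsConj g h} = Set.ncard ((M : Set G) \ (N : Set G)) := by
      rw [← hcl, ← Nat.card_coe_set_eq]
      rfl
    rw [h1, Set.ncard_diff (by exact hMN) (Set.toFinite _)]
    rw [← Nat.card_coe_set_eq, ← Nat.card_coe_set_eq]
    rfl
  have hdvd : Nat.card {h : G // IsConj g h} ∣ p ^ e := by
    rw [Cfsg.Agent.Lib.ClassSizes.card_isConj_eq_index, ← he]
    exact Subgroup.index_dvd_card _
  obtain ⟨d, -, hd⟩ := (Nat.dvd_prime_pow hp).mp hdvd
  have hpb : 1 ≤ p ^ b := Nat.one_le_pow _ _ hp.pos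
  have h3 : (p ^ b - 1) * Nat.card N = p ^ d := by
    rw [← hd, hcard, Nat.sub_mul, one_mul, ← hb, hrel]
  have h4 : p ^ b - 1 ∣ p ^ d := Dvd.intro _ h3
  obtain ⟨j, -, hj⟩ := (Nat.dvd_prime_pow hp).mp h4
  have hj0 : j = 0 := by
    by_contra hne
    have h5 : p ∣ p ^ b - 1 := by rw [hj]; exact dvd_pow_self p hne
    have h6 : p ∣ p ^ b := dvd_pow_self p hb0
    have h7 : p ∣ 1 := by
      have := Nat.dvd_sub h6 h5
      rwa [Nat.sub_sub_self hpb] at this
    exact hp.one_lt.ne' (Nat.dvd_one.mp h7)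
  rw [hj0, pow_zero] at hj
  have h8 : p ^ b = 2 := by omega
  have hp2 : p = 2 := by
    have h9 : p ∣ 2 := by rw [← h8]; exact dvd_pow_self p hb0
    exact (Nat.prime_dvd_prime_iff_eq hp Nat.prime_two).mp h9
  refine ⟨hp2, ?_⟩
  rw [hb, h8]

end Cfsg.Agent.S4013
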