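import Cfsg.Statements.S4023
import Mathlib
import Cfsg.Agent.Lib.PGroup.OddPGroup
import Cfsg.Agent.Lib.FF.RankOne
import Cfsg.Agent.Lib.Frobenius.Quaternion
import Cfsg.Agent.Lib.Cl.CycNormal

set_option autoImplicit false
open Cfsg

namespace Cfsg.Agent.S4023


open Subgroup Cfsg.Agent.Lib.PGroup

section Core

variable {X : Type*} [Group X] [Finite X] {p : ℕ} [hp : Fact p.Prime]

lemma card_sup_zpowers_eq (hX : IsPGroup p X) (A : Subgroup X) {n : ℕ} (hA : Nat.card A = p ^ n) {y : X}
    (hy : y ∈ normalizer (A : Set X)) (hyp : y ^ p = 1) (hyA : y ∉ A) :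
    Nat.card ↥(zpowers y ⊔ A) = p ^ (n + 1) := by
  have hle : zpowers y ≤ normalizer (A : Set X) := by rw [zpowers_le]; exact hy
  have hset := coe_mul_of_left_le_normalizer_right (zpowers y) A hle
  have hyo : orderOf y = p := orderOf_eq_prime hyp (fun h => hyA (by rw [h]; exact one_mem _))
  have h1 : Nat.card ↥(zpowers y ⊔ A) ≤ p * p ^ n := by
    have h2 := Set.natCard_mul_le (s := ((zpowers y : Subgroup X) : Set X)) (t := ((A : Subgroup X) : Set X))
    rw [← hset] at h2
    have h3 : Nat.card ((zpowers y : Subgroup X) : Set X) = p := by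
      show Nat.card (zpowers y) = p
      rw [Nat.card_zpowers, hyo]
    have h4 : Nat.card ((A : Subgroup X) : Set X) = p ^ n := hA
    rw [h3, h4] at h2
    exact h2
  obtain ⟨m, hm⟩ := IsPGroup.iff_card.1 (hX.to_subgroup (zpowers y ⊔ A))
  have hlt : A < zpowers y ⊔ A := by
    refine lt_of_le_of_ne le_sup_right (fun h => hyA ?_)
    rw [h]
    exact mem_sup_left (mem_zpowers y)
  have h2 : Nat.card A < Nat.card ↥(zpowers y ⊔ A) := by
    have h3 := Subgroup.card_dvd_of_le hlt.le
    have hne : Nat.card A ≠ Nat.card ↥(zpowers y ⊔ A) := fun he =>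
      hlt.ne (Subgroup.eq_of_le_of_card_ge hlt.le he.ge)
    exact lt_of_le_of_ne (Nat.le_of_dvd Nat.card_pos h3) hne
  rw [hA, hm] at h2
  rw [hm] at h1 ⊢
  rw [← pow_succ'] at h1
  have h3 := (Nat.pow_lt_pow_iff_right hp.out.one_lt).1 h2
  have h4 := (Nat.pow_le_pow_iff_right hp.out.one_lt).1 h1
  congr 1
  omega

lemma exists_upper (hX : IsPGroup p X) (N : Subgroup X) [N.Normal] (hN : N ≠ ⊤) :
    ∃ x : X, x ∉ N ∧ ∀ g : X, x * g * x⁻¹ * g⁻¹ ∈ N := by
  have hQ : IsPGroup p (X ⧸ N) := hX.to_quotient N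
  haveI : Nontrivial (X ⧸ N) := QuotientGroup.nontrivial_iff.2 hN
  haveI := hQ.center_nontrivial
  obtain ⟨⟨q, hq⟩, hq1⟩ := exists_ne (1 : center (X ⧸ N))
  obtain ⟨x, rfl⟩ := QuotientGroup.mk'_surjective N q
  refine ⟨x, ?_, ?_⟩
  · intro h
    apply hq1
    apply Subtype.ext
    exact (QuotientGroup.eq_one_iff x).2 h
  · intro g
    rw [← QuotientGroup.eq_one_iff]
    have h1 := Subgroup.mem_center_iff.1 hq (QuotientGroup.mk' N g)
    have h2 : ((x * g * x⁻¹ * g⁻¹ : X) : X ⧸ N) =
        QuotientGroup.mk' N x * QuotientGroup.mk' N g * (QuotientGroup.mk' N x)⁻¹ * (QuotientGroup.mk' N g)⁻¹ := rfl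
    rw [h2, ← h1]
    group

lemma normal_zpowers_central {c : X} (hc : c ∈ center X) : (zpowers c).Normal := by
  constructor
  rintro _ ⟨i, rfl⟩ g
  have h3 : c ^ i ∈ center X := zpow_mem hc i
  have h4 := Subgroup.mem_center_iff.mp h3 g
  refine ⟨i, ?_⟩
  show c ^ i = g * c ^ i * g⁻¹
  rw [h4, mul_inv_cancel_right]

/-- Exponent `p`, nonabelian, and abelian subgroups conjugate only to abelian ones: order `p ^ 3`. -/
theorem card_of_exp (hX : IsPGroup p X) (hexp : ∀ x : X, x ^ p = 1) (hnc : ¬ IsMulCommutative X)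
    (hAb : ∀ H K : Subgroup X, Nat.card H = Nat.card K → IsMulCommutative H → IsMulCommutative K) :
    Nat.card X = p ^ 3 := by
  have hZne : center X ≠ ⊤ := by
    intro h
    apply hnc
    refine ⟨⟨fun a b => ?_⟩⟩
    have : a ∈ center X := by rw [h]; trivial
    exact (Subgroup.mem_center_iff.1 this b).symm
  obtain ⟨x, hxZ, hxg⟩ := exists_upper hX (center X) hZne
  obtain ⟨y, hy⟩ : ∃ y : X, x * y * x⁻¹ * y⁻¹ ≠ 1 := by
    by_contra hall
    push Not at hall
    apply hxZ
    rw [Subgroup.mem_center_iff]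
    intro g
    have := hall g
    have h1 : x * g = g * x := by
      have h2 := congrArg (fun z => z * g * x) this
      simpa [mul_assoc] using h2
    exact h1.symm
  set c := x * y * x⁻¹ * y⁻¹ with hc
  have hcZ : c ∈ center X := hxg y
  have hco : orderOf c = p := orderOf_eq_prime (hexp c) hy
  have hle : zpowers c ≤ center X := by rw [zpowers_le]; exact hcZ
  have hxc : x ∉ zpowers c := fun h => hxZ (hle h)
  set A := zpowers c ⊔ zpowers x with hA
  have hAcard : Nat.card A = p ^ 2 := card_sup_zpowers_central hcZ hco (hexp x) hxc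
  have hAcomm : IsMulCommutative A := isMulCommutative_sup_zpowers_central hcZ
  have hxA : x ∈ A := mem_sup_right (mem_zpowers x)
  have hcA : c ∈ A := mem_sup_left (mem_zpowers c)
  have hyN : y ∈ normalizer (A : Set X) := by
    apply mem_normalizer_fintype
    intro n hn
    have hle2 : A ≤ A.comap (MulAut.conj y).toMonoidHom := by
      refine sup_le ?_ ?_
      · rw [zpowers_le, mem_comap]
        show y * c * y⁻¹ ∈ A
        rw [Subgroup.mem_center_iff.1 hcZ y, mul_inv_cancel_right]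
        exact hcA
      · rw [zpowers_le, mem_comap]
        show y * x * y⁻¹ ∈ A
        have : y * x * y⁻¹ = c⁻¹ * x := by rw [hc]; group
        rw [this]
        exact mul_mem (inv_mem hcA) hxA
    exact hle2 hn
  have hyA : y ∉ A := by
    intro h
    apply hy
    have h1 := hAcomm.is_comm.comm ⟨x, hxA⟩ ⟨y, h⟩
    have h2 : x * y = y * x := congrArg Subtype.val h1
    rw [hc, h2]
    group
  have hK := card_sup_zpowers_eq hX A hAcard hyN (hexp y) hyA
  set K := zpowers y ⊔ A with hKdef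
  have hKnc : ¬ IsMulCommutative K := by
    intro hcomm
    have hxK : x ∈ K := mem_sup_right hxA
    have hyK : y ∈ K := mem_sup_left (mem_zpowers y)
    have h1 := hcomm.is_comm.comm ⟨x, hxK⟩ ⟨y, hyK⟩
    have h2 : x * y = y * x := congrArg Subtype.val h1
    apply hy
    rw [hc, h2]
    group
  obtain ⟨m, hm⟩ := IsPGroup.iff_card.1 hX
  have hdvd := Subgroup.card_subgroup_dvd_card K
  rw [hK, hm] at hdvd
  have hm3 : 2 + 1 ≤ m := (Nat.pow_dvd_pow_iff_le_right hp.out.one_lt).1 hdvd
  by_contra hne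
  have hm4 : 4 ≤ m := by
    by_contra hlt
    have : m = 3 := by omega
    rw [hm, this] at hne
    exact hne rfl
  -- an abelian subgroup of order p ^ 3
  haveI hcn := normal_zpowers_central hcZ
  have hcne : zpowers c ≠ ⊤ := by
    intro h
    have h1 : Nat.card (zpowers c) = Nat.card X := by rw [h, Subgroup.card_top]
    rw [Nat.card_zpowers, hco, hm] at h1
    have h2 : p ^ 1 = p ^ m := by rw [pow_one]; exact h1
    have := Nat.pow_right_injective hp.out.two_le h2
    omega
  obtain ⟨z, hzc, hzg⟩ := exists_upper hX (zpowers c) hcne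
  set E := zpowers c ⊔ zpowers z with hE
  have hEcard : Nat.card E = p ^ 2 := card_sup_zpowers_central hcZ hco (hexp z) hzc
  have hEcomm : IsMulCommutative E := isMulCommutative_sup_zpowers_central hcZ
  -- the centralizer of z has index at most p
  have hmem : ∀ g : X, g * z * g⁻¹ * z⁻¹ ∈ zpowers c := by
    intro g
    have := inv_mem (hzg g)
    have h2 : (z * g * z⁻¹ * g⁻¹)⁻¹ = g * z * g⁻¹ * z⁻¹ := by group
    rwa [h2] at this
  let f : X →* zpowers c := MonoidHom.mk' (fun g => ⟨g * z * g⁻¹ * z⁻¹, hmem g⟩) (by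
    intro a b
    apply Subtype.ext
    show a * b * z * (a * b)⁻¹ * z⁻¹ = (a * z * a⁻¹ * z⁻¹) * (b * z * b⁻¹ * z⁻¹)
    have hd : b * z * b⁻¹ * z⁻¹ ∈ center X := hle (hmem b)
    have h1 := (Subgroup.mem_center_iff.1 hd a)
    have h2 := (Subgroup.mem_center_iff.1 hd (a * z * a⁻¹ * z⁻¹))
    calc a * b * z * (a * b)⁻¹ * z⁻¹ = a * (b * z * b⁻¹ * z⁻¹) * z * a⁻¹ * z⁻¹ := by group
      _ = (b * z * b⁻¹ * z⁻¹) * a * z * a⁻¹ * z⁻¹ := by rw [h1]
      _ = (b * z * b⁻¹ * z⁻¹) * (a * z * a⁻¹ * z⁻¹) := by group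
      _ = (a * z * a⁻¹ * z⁻¹) * (b * z * b⁻¹ * z⁻¹) := h2.symm)
  have hkf : ∀ g : X, g ∈ f.ker ↔ g * z = z * g := by
    intro g
    rw [MonoidHom.mem_ker]
    constructor
    · intro h
      have h1 : g * z * g⁻¹ * z⁻¹ = 1 := congrArg Subtype.val h
      have h2 := congrArg (fun w => w * z * g) h1
      simpa [mul_assoc] using h2
    · intro h
      apply Subtype.ext
      show g * z * g⁻¹ * z⁻¹ = 1
      rw [h]
      group
  have hidx : f.ker.index ≤ p := by
    rw [Subgroup.index_ker]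
    have h1 := Subgroup.card_le_card_group f.range
    rwa [Nat.card_zpowers, hco] at h1
  have hC1 : p ^ 3 ≤ Nat.card f.ker := by
    have h1 := Subgroup.card_mul_index f.ker
    rw [hm] at h1
    have hpos : 0 < p := hp.out.pos
    by_contra hlt
    push Not at hlt
    have h2 : p ^ 4 ≤ p ^ m := Nat.pow_le_pow_right hpos hm4
    have h3 : Nat.card f.ker * f.ker.index < p ^ 3 * p := by
      calc Nat.card f.ker * f.ker.index ≤ Nat.card f.ker * p := Nat.mul_le_mul_left _ hidx
        _ < p ^ 3 * p := Nat.mul_lt_mul_of_pos_right hlt hpos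
    rw [h1, ← pow_succ] at h3
    exact absurd (lt_of_le_of_lt h2 h3) (lt_irrefl _)
  have hEle : E ≤ f.ker := by
    refine sup_le ?_ ?_
    · rw [zpowers_le, hkf]
      exact (Subgroup.mem_center_iff.1 hcZ z).symm
    · rw [zpowers_le, hkf]
  have hElt : E < f.ker := by
    refine lt_of_le_of_ne hEle (fun he => ?_)
    rw [← he, hEcard] at hC1
    have := (Nat.pow_le_pow_iff_right hp.out.one_lt).1 hC1
    omega
  obtain ⟨b, hbK, hbE⟩ := SetLike.exists_of_lt hElt
  have hbz : b * z = z * b := (hkf b).1 hbK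
  have hbcomm : ∀ n ∈ E, b * n = n * b := by
    have hle4 : E ≤ centralizer ({b} : Set X) := by
      refine sup_le ?_ ?_
      · rw [zpowers_le, mem_centralizer_iff]
        rintro _ rfl
        exact Subgroup.mem_center_iff.1 hcZ _
      · rw [zpowers_le, mem_centralizer_iff]
        rintro _ rfl
        exact hbz
    intro n hn
    have := mem_centralizer_iff.1 (hle4 hn) b rfl
    exact this
  have hbN : b ∈ normalizer (E : Set X) := by
    apply mem_normalizer_fintype
    intro n hn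
    rw [hbcomm n hn, mul_inv_cancel_right]
    exact hn
  have hB := card_sup_zpowers_eq hX E hEcard hbN (hexp b) hbE
  have hBcomm : IsMulCommutative ↥(zpowers b ⊔ E) :=
    Cfsg.Agent.Lib.Core.isMulCommutative_sup (isMulCommutative_zpowers b) hEcomm (by
      rintro _ ⟨i, rfl⟩ n hn
      have h1 : Commute b n := hbcomm n hn
      exact (h1.zpow_left i).eq)
  exact hKnc (hAb _ _ (hB.trans hK.symm) hBcomm)

lemma pow_eq_one_of_card (hX : IsPGroup p X) (V : Subgroup X) (hV : Nat.card V = p ^ 2)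
    (hVe : ∀ v ∈ V, v ^ p = 1)
    (hPow : ∀ H K : Subgroup X, Nat.card H = Nat.card K → ∀ n : ℕ, (∀ h ∈ H, h ^ n = 1) → ∀ k ∈ K, k ^ n = 1)
    (x : X) : x ^ p = 1 := by
  obtain ⟨k, hk⟩ := IsPGroup.iff_orderOf.1 hX x
  by_contra hne
  have hk2 : 2 ≤ k := by
    by_contra hlt
    have h1 : k ≤ 1 := by omega
    apply hne
    have h2 : orderOf x ∣ p := by
      rw [hk]
      calc p ^ k ∣ p ^ 1 := pow_dvd_pow p h1
        _ = p := pow_one p
    exact orderOf_dvd_iff_pow_eq_one.1 h2
  have hd : p ^ 2 ∣ orderOf x := by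
    rw [hk]
    exact pow_dvd_pow p hk2
  have ho := orderOf_pow_orderOf_div (x := x) (orderOf_pos x).ne' hd
  set y := x ^ (orderOf x / p ^ 2) with hy
  have hc : Nat.card (zpowers y) = p ^ 2 := by rw [Nat.card_zpowers, ho]
  have h1 := hPow V (zpowers y) (hV.trans hc.symm) p hVe y (mem_zpowers y)
  have h2 := orderOf_dvd_of_pow_eq_one h1
  rw [ho] at h2
  have h3 := Nat.le_of_dvd hp.out.pos h2
  have h4 : p * 1 < p * p := Nat.mul_lt_mul_of_pos_left hp.out.one_lt hp.out.pos
  rw [pow_two] at h3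
  omega

end Core

section Q8

variable {X : Type*} [Group X] [Finite X]

/-- The quaternion subgroup generated by `a`, `b`. -/
def qM (a b : X) (hn : ∀ y ∈ zpowers a, b * y * b⁻¹ ∈ zpowers a) (hn' : ∀ y ∈ zpowers a, b⁻¹ * y * b ∈ zpowers a)
    (hb : b * b ∈ zpowers a) : Subgroup X where
  carrier := {x | x ∈ zpowers a ∨ b * x ∈ zpowers a}
  one_mem' := Or.inl (one_mem _)
  mul_mem' := by
    rintro x y (hx | hx) (hy | hy)
    · exact Or.inl (mul_mem hx hy)
    · right
      have : b * (x * y) = (b * x * b⁻¹) * (b * y) := by group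
      rw [this]
      exact mul_mem (hn x hx) hy
    · right
      have : b * (x * y) = (b * x) * y := by group
      rw [this]
      exact mul_mem hx hy
    · left
      have : x * y = (b⁻¹ * (b * x) * b) * ((b * b)⁻¹ * (b * y)) := by group
      rw [this]
      exact mul_mem (hn' _ hx) (mul_mem (inv_mem hb) hy)
  inv_mem' := by
    rintro x (hx | hx)
    · exact Or.inl (inv_mem hx)
    · right
      have : b * x⁻¹ = (b * (b * x)⁻¹ * b⁻¹) * (b * b) := by group
      rw [this]
      exact mul_mem (hn _ (inv_mem hx)) hb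

theorem q8_core (hX : IsPGroup 2 X) (hnc : ¬ IsCyclic X)
    (hV : ¬ ∃ V : Subgroup X, Nat.card V = 2 ^ 2 ∧ ∀ v ∈ V, v ^ 2 = 1)
    (hab : ∀ E : Subgroup X, IsMulCommutative E → IsCyclic E)
    (hPow : ∀ H K : Subgroup X, Nat.card H = Nat.card K → ∀ n : ℕ, (∀ h ∈ H, h ^ n = 1) → ∀ k ∈ K, k ^ n = 1) :
    Nonempty (X ≃* QuaternionGroup 2) := by
  haveI : Fact (Nat.Prime 2) := ⟨Nat.prime_two⟩
  obtain ⟨a, b, ha4, ha2, hb2, hba⟩ := Cfsg.Agent.Lib.Frobenius.exists_q8_pair hX hab hnc
  -- the central involution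
  haveI hnt : Nontrivial X := by
    by_contra h
    rw [not_nontrivial_iff_subsingleton] at h
    exact hnc inferInstance
  haveI hcn : Nontrivial (center X) := hX.center_nontrivial
  have hd2 : 2 ∣ Nat.card (center X) := by
    obtain ⟨k, hk⟩ := IsPGroup.iff_card.mp (hX.to_subgroup (center X))
    have h3 : 1 < Nat.card (center X) := Finite.one_lt_card
    rw [hk] at h3 ⊢
    rcases k with _ | k
    · simp at h3
    · exact dvd_pow_self 2 (by omega)
  obtain ⟨t₀', ht₀'⟩ := exists_prime_orderOf_dvd_card' 2 hd2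
  set t₀ : X := t₀'.1 with ht₀def
  have ht₀Z : t₀ ∈ center X := t₀'.2
  have ht₀o : orderOf t₀ = 2 := by
    rw [ht₀def, Subgroup.orderOf_coe]
    exact ht₀'
  have ht₀2 : t₀ ^ 2 = 1 := by rw [← ht₀o, pow_orderOf_eq_one]
  have huniq : ∀ t : X, t ^ 2 = 1 → t ≠ 1 → t = t₀ := by
    intro t ht ht1
    by_contra hne
    apply hV
    have hm : t ∉ zpowers t₀ := by
      rintro ⟨i, hi⟩
      have hi' : t₀ ^ i = t := hi
      rcases Int.emod_two_eq_zero_or_one i with h0 | h0
      · apply ht1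
        obtain ⟨j, hj⟩ : ∃ j, i = 2 * j := ⟨i / 2, by omega⟩
        rw [← hi', hj, zpow_mul]
        show (t₀ ^ ((2 : ℕ) : ℤ)) ^ j = 1
        rw [zpow_natCast, ht₀2, one_zpow]
      · apply hne
        obtain ⟨j, hj⟩ : ∃ j, i = 2 * j + 1 := ⟨i / 2, by omega⟩
        rw [← hi', hj, zpow_add, zpow_mul, zpow_one]
        show (t₀ ^ ((2 : ℕ) : ℤ)) ^ j * t₀ = t₀
        rw [zpow_natCast, ht₀2, one_zpow, one_mul]
    exact ⟨zpowers t₀ ⊔ zpowers t, card_sup_zpowers_central ht₀Z ht₀o ht hm,
      fun v hv => pow_eq_one_of_mem_sup ht₀Z ht₀2 ht hv⟩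
  set z := a ^ 2 with hz
  have hz2 : z ^ 2 = 1 := by
    rw [hz, ← pow_mul]
    exact ha4
  have hzt : z = t₀ := huniq z hz2 ha2
  have hzZ : z ∈ center X := hzt ▸ ht₀Z
  -- elements of zpowers a
  have hb4 : b * b = z := by rw [← pow_two]; exact hb2
  have hconj : ∀ i : ℤ, b * a ^ i * b⁻¹ = a ^ (-i) := by
    intro i
    have h1 : b * a ^ i * b⁻¹ = (b * a * b⁻¹) ^ i := by
      rw [conj_zpow]
    rw [h1, hba, inv_zpow, zpow_neg]
  have hconj' : ∀ i : ℤ, b⁻¹ * a ^ i * b = a ^ (-i) := by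
    intro i
    have h1 := hconj (-i)
    rw [neg_neg] at h1
    rw [← h1]
    group
  have hn : ∀ y ∈ zpowers a, b * y * b⁻¹ ∈ zpowers a := by
    rintro _ ⟨i, rfl⟩
    show b * a ^ i * b⁻¹ ∈ zpowers a
    rw [hconj]
    exact zpow_mem_zpowers a _
  have hn' : ∀ y ∈ zpowers a, b⁻¹ * y * b ∈ zpowers a := by
    rintro _ ⟨i, rfl⟩
    show b⁻¹ * a ^ i * b ∈ zpowers a
    rw [hconj']
    exact zpow_mem_zpowers a _
  have hbb : b * b ∈ zpowers a := by
    rw [hb4, hz]
    exact npow_mem_zpowers a 2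
  let M : Subgroup X := qM a b hn hn' hbb
  have hMa : zpowers a ≤ M := fun x hx => Or.inl hx
  have hbnot : b ∉ zpowers a := by
    rintro ⟨i, rfl⟩
    have h1 := hconj 1
    rw [zpow_one] at h1
    have h2 : (a : X) ^ i * a * (a ^ i)⁻¹ = a := by
      have : Commute (a ^ i) a := (Commute.refl a).zpow_left i
      rw [this.eq, mul_inv_cancel_right]
    have h3 : (a : X) = a ^ (-1 : ℤ) := by
      calc (a : X) = a ^ i * a * (a ^ i)⁻¹ := h2.symm
        _ = a ^ (-1 : ℤ) := h1
    apply ha2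
    have h4 := congrArg (fun w => w * a) h3
    simp only [zpow_neg, zpow_one, inv_mul_cancel] at h4
    show a ^ 2 = 1
    rw [pow_two]
    exact h4
  have hbM : b ∈ M := Or.inr (by
    show b * b ∈ zpowers a
    exact hbb)
  have hao : orderOf a = 2 ^ 2 := by
    have h1 : orderOf a ∣ 2 ^ 2 := orderOf_dvd_of_pow_eq_one ha4
    obtain ⟨k, hk, hk2⟩ := (Nat.dvd_prime_pow Nat.prime_two).1 h1
    interval_cases k
    · exfalso
      rw [pow_zero] at hk2
      apply ha2
      show a ^ 2 = 1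
      rw [orderOf_eq_one_iff.1 hk2, one_pow]
    · exfalso
      apply ha2
      show a ^ 2 = 1
      have h5 : orderOf a = 2 := by simpa using hk2
      rw [← h5]
      exact pow_orderOf_eq_one a
    · exact hk2
  have hAcard : Nat.card (zpowers a) = 4 := by rw [Nat.card_zpowers, hao]; rfl
  have hMcard : Nat.card M = 8 := by
    have hidx : ((zpowers a).subgroupOf M).index = 2 := by
      rw [Subgroup.index_eq_two_iff]
      refine ⟨⟨b, hbM⟩, ?_⟩
      rintro ⟨w, hw⟩
      simp only [Subgroup.mem_subgroupOf, Subgroup.coe_mul]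
      rcases hw with hw | hw
      · refine Or.inr ⟨hw, fun h => hbnot ?_⟩
        have : b = w⁻¹ * (w * b) := by group
        rw [this]
        exact mul_mem (inv_mem hw) h
      · by_cases hw' : w ∈ zpowers a
        · refine Or.inr ⟨hw', fun h => hbnot ?_⟩
          have : b = w⁻¹ * (w * b) := by group
          rw [this]
          exact mul_mem (inv_mem hw') h
        · refine Or.inl ⟨?_, hw'⟩
          have : w * b = b⁻¹ * (b * w) * b := by group
          rw [this]
          exact hn' _ hw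
    have h1 := Subgroup.card_mul_index ((zpowers a).subgroupOf M)
    have h2 : Nat.card ((zpowers a).subgroupOf M) = Nat.card (zpowers a) :=
      Nat.card_congr (Subgroup.subgroupOfEquivOfLe hMa).toEquiv
    rw [hidx, h2, hAcard] at h1
    omega
  have hMexp : ∀ m ∈ M, m ^ 4 = 1 := by
    rintro m (hm | ⟨i, hi⟩)
    · obtain ⟨i, rfl⟩ := hm
      show (a ^ i) ^ 4 = 1
      rw [← zpow_natCast, ← zpow_mul, mul_comm, zpow_mul, zpow_natCast, ha4, one_zpow]
    · have hm : m = b⁻¹ * a ^ i := by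
        have hi' : a ^ i = b * m := hi
        rw [hi']
        group
      have h2 : m * m = z := by
        rw [hm]
        calc b⁻¹ * a ^ i * (b⁻¹ * a ^ i) = (b⁻¹ * a ^ i * b) * (b⁻¹ * b⁻¹) * a ^ i := by group
          _ = a ^ (-i) * (b * b)⁻¹ * a ^ i := by rw [hconj']; group
          _ = a ^ (-i) * z⁻¹ * a ^ i := by rw [hb4]
          _ = z⁻¹ * a ^ (-i) * a ^ i := by
            have h3 : z⁻¹ ∈ center X := inv_mem hzZ
            rw [Subgroup.mem_center_iff.1 h3 (a ^ (-i))]
          _ = z⁻¹ := by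
            rw [mul_assoc, ← zpow_add, neg_add_cancel, zpow_zero, mul_one]
          _ = z := by
            have h3 : z * z = 1 := by rw [← pow_two]; exact hz2
            exact inv_eq_of_mul_eq_one_left h3
      have : m ^ 4 = (m * m) * (m * m) := by
        calc m ^ 4 = m ^ (2 + 2) := rfl
          _ = m ^ 2 * m ^ 2 := pow_add _ _ _
          _ = (m * m) * (m * m) := by rw [pow_two]
      rw [this, h2, ← pow_two, hz2]
  -- fourth powers
  have hall4 : ∀ x : X, x ^ 4 = 1 := by
    intro x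
    obtain ⟨k, hk⟩ := IsPGroup.iff_orderOf.1 hX x
    by_contra hne
    have hk3 : 3 ≤ k := by
      by_contra hlt
      have h1 : k ≤ 2 := by omega
      apply hne
      have h2 : orderOf x ∣ 4 := by
        rw [hk]
        calc 2 ^ k ∣ 2 ^ 2 := pow_dvd_pow 2 h1
          _ = 4 := rfl
      exact orderOf_dvd_iff_pow_eq_one.1 h2
    have hd : 2 ^ 3 ∣ orderOf x := by
      rw [hk]
      exact pow_dvd_pow 2 hk3
    have ho := orderOf_pow_orderOf_div (x := x) (orderOf_pos x).ne' hd
    set y := x ^ (orderOf x / 2 ^ 3) with hy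
    have hc : Nat.card (zpowers y) = 8 := by rw [Nat.card_zpowers, ho]; rfl
    have h1 := hPow M (zpowers y) (hMcard.trans hc.symm) 4 hMexp y (mem_zpowers y)
    have h2 := orderOf_dvd_of_pow_eq_one h1
    rw [ho] at h2
    norm_num at h2
  -- squares
  have hsq : ∀ u : X, u ≠ 1 → u ≠ z → u * u = z := by
    intro u hu1 huz
    by_contra hne
    have h1 : (u * u) ^ 2 = 1 := by
      have := hall4 u
      rw [← this, ← pow_two, ← pow_mul]
    have h2 : u * u = 1 := by
      by_contra h3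
      exact hne ((huniq _ h1 h3).trans hzt.symm)
    exact huz ((huniq u (by rw [pow_two]; exact h2) hu1).trans hzt.symm)
  have hinv : ∀ u : X, u ≠ 1 → u ≠ z → u⁻¹ = u * z := by
    intro u hu1 huz
    have h1 := hsq u hu1 huz
    apply inv_eq_of_mul_eq_one_left
    have h2 : u * (u * z) = z * z := by rw [← mul_assoc, h1]
    have hzz : z * z = 1 := by rw [← pow_two]; exact hz2
    have h3 : u * z * u = 1 := by
      rw [mul_assoc, ← (Subgroup.mem_center_iff.1 hzZ u), ← mul_assoc, h1, hzz]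
    exact h3
  have hanti : ∀ u v : X, u ≠ 1 → u ≠ z → v ≠ 1 → v ≠ z → u * v ≠ 1 → u * v ≠ z → v * u = u * v * z := by
    intro u v hu1 huz hv1 hvz huv1 huvz
    have h1 := hsq _ huv1 huvz
    have h2 : v * u = u⁻¹ * ((u * v) * (u * v)) * v⁻¹ := by group
    rw [h2, h1, hinv u hu1 huz, hinv v hv1 hvz]
    have hcu := Subgroup.mem_center_iff.1 hzZ
    have hzz : z * z = 1 := by rw [← pow_two]; exact hz2
    calc u * z * z * (v * z) = u * (z * z) * (v * z) := by group
      _ = u * v * z := by rw [hzz]; group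
  -- M is everything
  have hMtop : M = ⊤ := by
    by_contra hne
    obtain ⟨w, hw⟩ : ∃ w : X, w ∉ M := by
      by_contra hall
      push Not at hall
      exact hne (eq_top_iff.2 fun x _ => hall x)
    have hnotM : ∀ {u : X}, u ∉ M → u ≠ 1 ∧ u ≠ z := by
      intro u hu
      refine ⟨fun h => hu (h ▸ one_mem _), fun h => hu ?_⟩
      rw [h]
      exact hMa (npow_mem_zpowers a 2)
    have haM : a ∈ M := hMa (mem_zpowers a)
    have ha1 : a ≠ 1 := by
      rintro rfl
      exact ha2 (one_pow 2)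
    have haz : a ≠ z := by
      intro h
      have h1 : a * a = a := by rw [← pow_two, ← hz, ← h]
      exact ha1 (mul_eq_left.1 h1)
    have hb1 : b ≠ 1 := fun h => hbnot (h ▸ one_mem _)
    have hbz : b ≠ z := fun h => hbnot (h ▸ npow_mem_zpowers a 2)
    have hab1 : a * b ≠ 1 := by
      intro h
      apply hbnot
      have : b = a⁻¹ := eq_inv_of_mul_eq_one_right h
      rw [this]
      exact inv_mem (mem_zpowers a)
    have habz : a * b ≠ z := by
      intro h
      apply hbnot
      have : b = a⁻¹ * z := by rw [← h]; group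
      rw [this]
      exact mul_mem (inv_mem (mem_zpowers a)) (npow_mem_zpowers a 2)
    obtain ⟨hw1, hwz⟩ := hnotM hw
    have hawM : a * w ∉ M := fun h => hw (by
      have : w = a⁻¹ * (a * w) := by group
      rw [this]
      exact mul_mem (inv_mem haM) h)
    have hbwM : b * w ∉ M := fun h => hw (by
      have : w = b⁻¹ * (b * w) := by group
      rw [this]
      exact mul_mem (inv_mem hbM) h)
    have habwM : a * (b * w) ∉ M := fun h => hbwM (by
      have : b * w = a⁻¹ * (a * (b * w)) := by group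
      rw [this]
      exact mul_mem (inv_mem haM) h)
    obtain ⟨haw1, hawz⟩ := hnotM hawM
    obtain ⟨hbw1, hbwz⟩ := hnotM hbwM
    obtain ⟨habw1, habwz⟩ := hnotM habwM
    have e1 := hanti a b ha1 haz hb1 hbz hab1 habz
    have e2 := hanti a w ha1 haz hw1 hwz haw1 hawz
    have e3 := hanti a (b * w) ha1 haz hbw1 hbwz habw1 habwz
    have hcz := Subgroup.mem_center_iff.1 hzZ
    have e4 : b * w * a = a * (b * w) := by
      have hzz : z * z = 1 := by rw [← pow_two]; exact hz2
      calc b * w * a = b * (w * a) := by group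
        _ = b * (a * w * z) := by rw [e2]
        _ = (b * a) * w * z := by group
        _ = (a * b * z) * w * z := by rw [e1]
        _ = a * b * (z * w) * z := by group
        _ = a * b * (w * z) * z := by rw [hcz w]
        _ = a * (b * w) * (z * z) := by group
        _ = a * (b * w) := by rw [hzz, mul_one]
    rw [e4] at e3
    have hz1 : z = 1 := by
      have := e3
      exact (mul_eq_left.1 this.symm)
    exact ha2 hz1
  have hcard : Nat.card X = 8 := by
    rw [← Subgroup.card_top (G := X), ← hMtop]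
    exact hMcard
  have hg2 : b ^ 2 = a ^ 2 ^ (2 - 1) := by
    rw [hb2]
    rfl
  obtain ⟨m, ⟨e⟩⟩ := Cfsg.Agent.Lib.Cl.quaternion_of_inverts hao (by norm_num) (by rw [hcard]; rfl) hbnot hg2 hba
  have hm : m ≠ 0 := by
    rintro rfl
    have h1 := Nat.card_congr e.toEquiv
    rw [hcard] at h1
    have h2 : Nat.card (QuaternionGroup 0) = 0 := by
      haveI : Infinite (ZMod (2 * 0)) := (inferInstance : Infinite ℤ)
      haveI : Infinite (QuaternionGroup 0) :=
        Infinite.of_injective (QuaternionGroup.a (n := 0)) (fun _ _ he => QuaternionGroup.a.inj he)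
      exact Nat.card_eq_zero_of_infinite
    omega
  haveI : NeZero m := ⟨hm⟩
  have hm2 : m = 2 := by
    have h1 := Nat.card_congr e.toEquiv
    rw [hcard, Nat.card_eq_fintype_card, QuaternionGroup.card] at h1
    omega
  subst hm2
  exact ⟨e⟩

end Q8

section Main

variable {X : Type*} [Group X] [Finite X] {p : ℕ} [hp : Fact p.Prime]

theorem core (hX : IsPGroup p X)
    (hPow : ∀ H K : Subgroup X, Nat.card H = Nat.card K → ∀ n : ℕ, (∀ h ∈ H, h ^ n = 1) → ∀ k ∈ K, k ^ n = 1)
    (hAb : ∀ H K : Subgroup X, Nat.card H = Nat.card K → IsMulCommutative H → IsMulCommutative K) :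
    IsCyclic X ∨ (IsMulCommutative X ∧ ∀ x : X, x ^ p = 1) ∨ (p = 2 ∧ Nonempty (X ≃* QuaternionGroup 2)) ∨
      (p ≠ 2 ∧ ¬ IsMulCommutative X ∧ Nat.card X = p ^ 3 ∧ Monoid.exponent X = p) := by
  by_cases hV : ∃ V : Subgroup X, Nat.card V = p ^ 2 ∧ ∀ v ∈ V, v ^ p = 1
  · obtain ⟨V, hVc, hVe⟩ := hV
    have hexp := pow_eq_one_of_card hX V hVc hVe hPow
    by_cases hcomm : IsMulCommutative X
    · exact Or.inr (Or.inl ⟨hcomm, hexp⟩)
    · refine Or.inr (Or.inr (Or.inr ⟨?_, hcomm, card_of_exp hX hexp hcomm hAb, ?_⟩))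
      · rintro rfl
        apply hcomm
        refine ⟨⟨fun a b => ?_⟩⟩
        have h1 : ∀ x : X, x⁻¹ = x := fun x => inv_eq_of_mul_eq_one_left (by rw [← pow_two]; exact hexp x)
        calc a * b = (a * b)⁻¹ := (h1 _).symm
          _ = b⁻¹ * a⁻¹ := mul_inv_rev a b
          _ = b * a := by rw [h1, h1]
      · haveI : Nontrivial X := by
          by_contra h
          rw [not_nontrivial_iff_subsingleton] at h
          exact hcomm ⟨⟨fun a b => Subsingleton.elim _ _⟩⟩
        rw [Monoid.exponent_eq_prime_iff hp.out]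
        intro g hg
        exact orderOf_eq_prime (hexp g) hg
  · have hrank : ∀ E : Subgroup X, IsMulCommutative E → (∀ a ∈ E, a ^ p = 1) → Nat.card E ≤ p := by
      intro E hEc hEe
      by_contra hlt
      push Not at hlt
      obtain ⟨k, hk⟩ := IsPGroup.iff_card.1 (hX.to_subgroup E)
      have hk2 : 2 ≤ k := by
        by_contra h
        have h1 : k ≤ 1 := by omega
        have h2 : p ^ k ≤ p ^ 1 := Nat.pow_le_pow_right hp.out.pos h1
        rw [pow_one, ← hk] at h2
        omega
      have h3 : p ^ 2 ≤ Nat.card E := by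
        rw [hk]
        exact Nat.pow_le_pow_right hp.out.pos hk2
      obtain ⟨V, hVE, hVc⟩ := Sylow.exists_subgroup_le_card_pow_prime_of_le_card hp.out hX h3
      exact hV ⟨V, hVc, fun v hv => hEe v (hVE hv)⟩
    by_cases hp2 : p = 2
    · subst hp2
      by_cases hcyc : IsCyclic X
      · exact Or.inl hcyc
      · refine Or.inr (Or.inr (Or.inl ⟨rfl, q8_core hX hcyc hV ?_ hPow⟩))
        intro E hE
        exact Cfsg.Agent.Lib.FF.isCyclic_of_abelian_rank_le_one hE (hX.to_subgroup E) hrank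
    · exact Or.inl (Cfsg.Agent.Lib.FF.isCyclic_of_rank_le_one hX hp2 hrank)

end Main


/-- Let p be a prime and G a finite group in which any two p-subgroups of the same order are conjugate, with Sylow p-subgroup P. Then P is cyclic, or elementary abelian, or p = 2 and P is a quaternion group of order 8, or p is odd and P is non-abelian of order p³ and exponent p. -/
theorem result {G : Type*} [Group G] [Finite G]
    {p : ℕ} [Fact p.Prime] (hC : ∀ H K : Subgroup G, IsPGroup p H → IsPGroup p K → Nat.card H = Nat.card K →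
      ∃ g : G, K = H.map (MulAut.conj g).toMonoidHom) (P : Sylow p G) :
    IsCyclic P ∨ Cfsg.IsElementaryAbelian p (P : Subgroup G) ∨
      (p = 2 ∧ Nonempty ((P : Subgroup G) ≃* QuaternionGroup 2)) ∨
      (p ≠ 2 ∧ ¬ IsMulCommutative P ∧ Nat.card P = p ^ 3 ∧ Monoid.exponent P = p) := by
  have hX : IsPGroup p (P : Subgroup G) := P.isPGroup'
  have hconj : ∀ H K : Subgroup ↥(P : Subgroup G), Nat.card H = Nat.card K → ∃ g : G, ∀ k ∈ K,
      ∃ h ∈ H, (k : G) = g * (h : G) * g⁻¹ := by
    intro H K hHK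
    have hcH : Nat.card (H.map (P : Subgroup G).subtype) = Nat.card H :=
      Subgroup.card_map_of_injective (P : Subgroup G).subtype_injective
    have hcK : Nat.card (K.map (P : Subgroup G).subtype) = Nat.card K :=
      Subgroup.card_map_of_injective (P : Subgroup G).subtype_injective
    have hpH : IsPGroup p (H.map (P : Subgroup G).subtype) := by
      rw [IsPGroup.iff_card]
      obtain ⟨k, hk⟩ := IsPGroup.iff_card.1 (hX.to_subgroup H)
      exact ⟨k, hcH.trans hk⟩
    have hpK : IsPGroup p (K.map (P : Subgroup G).subtype) := by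
      rw [IsPGroup.iff_card]
      obtain ⟨k, hk⟩ := IsPGroup.iff_card.1 (hX.to_subgroup K)
      exact ⟨k, hcK.trans hk⟩
    obtain ⟨g, hg⟩ := hC _ _ hpH hpK (hcH.trans (hHK.trans hcK.symm))
    refine ⟨g, fun k hk => ?_⟩
    have h1 : (k : G) ∈ K.map (P : Subgroup G).subtype := ⟨k, hk, rfl⟩
    rw [hg] at h1
    obtain ⟨_, ⟨h, hh, rfl⟩, h2⟩ := h1
    exact ⟨h, hh, h2.symm⟩
  have hPow : ∀ H K : Subgroup ↥(P : Subgroup G), Nat.card H = Nat.card K → ∀ n : ℕ,
      (∀ h ∈ H, h ^ n = 1) → ∀ k ∈ K, k ^ n = 1 := by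
    intro H K hHK n hn k hk
    obtain ⟨g, hg⟩ := hconj H K hHK
    obtain ⟨h, hh, he⟩ := hg k hk
    apply Subtype.ext
    have h1 : ((h ^ n : ↥(P : Subgroup G)) : G) = 1 := by rw [hn h hh]; rfl
    show (k : G) ^ n = 1
    rw [he, conj_pow]
    rw [SubgroupClass.coe_pow] at h1
    rw [h1]
    group
  have hAb : ∀ H K : Subgroup ↥(P : Subgroup G), Nat.card H = Nat.card K → IsMulCommutative H →
      IsMulCommutative K := by
    intro H K hHK hcomm
    obtain ⟨g, hg⟩ := hconj H K hHK
    refine ⟨⟨fun a b => ?_⟩⟩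
    apply Subtype.ext
    apply Subtype.ext
    obtain ⟨h₁, hh₁, he₁⟩ := hg a a.2
    obtain ⟨h₂, hh₂, he₂⟩ := hg b b.2
    have h3 : h₁ * h₂ = h₂ * h₁ := congrArg Subtype.val (hcomm.is_comm.comm ⟨h₁, hh₁⟩ ⟨h₂, hh₂⟩)
    have h4 : (h₁ : G) * h₂ = h₂ * h₁ := congrArg Subtype.val h3
    show ((a : ↥(P : Subgroup G)) : G) * ((b : ↥(P : Subgroup G)) : G) =
      ((b : ↥(P : Subgroup G)) : G) * ((a : ↥(P : Subgroup G)) : G)
    rw [he₁, he₂]
    calc g * (h₁ : G) * g⁻¹ * (g * h₂ * g⁻¹) = g * ((h₁ : G) * h₂) * g⁻¹ := by group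
      _ = g * ((h₂ : G) * h₁) * g⁻¹ := by rw [h4]
      _ = g * (h₂ : G) * g⁻¹ * (g * h₁ * g⁻¹) := by group
  rcases core hX hPow hAb with h | ⟨h1, h2⟩ | h | h
  · exact Or.inl h
  · refine Or.inr (Or.inl ⟨h1, fun a ha => ?_⟩)
    have := h2 ⟨a, ha⟩
    exact congrArg Subtype.val this
  · exact Or.inr (Or.inr (Or.inl h))
  · exact Or.inr (Or.inr (Or.inr h))


end Cfsg.Agent.S4023
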