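import Cfsg.Statements.S4024
import Mathlib
import Cfsg.Agent.S4023
import Cfsg.Agent.Lib.Fusion.ModelPSolv

set_option autoImplicit false
open Cfsg

namespace Cfsg.Agent.S4024


open Subgroup Cfsg.Agent.Lib.PGroup Cfsg.Agent.S4023

section V

variable {X : Type*} [Group X] [Finite X] {p : ℕ} [hp : Fact p.Prime]

/-- In an abelian exponent-`p` group a nontrivial subgroup unique of its order is everything. -/
theorem eq_top_comm (hX : IsPGroup p X) (hexp : ∀ x : X, x ^ p = 1) (hc : IsMulCommutative X)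
    (D : Subgroup X) (hD : D ≠ ⊥) (hU : ∀ Q : Subgroup X, Nat.card Q = Nat.card D → Q = D) : D = ⊤ := by
  by_contra hne
  obtain ⟨x, hx⟩ : ∃ x : X, x ∉ D := by
    by_contra hall
    push Not at hall
    exact hne (eq_top_iff.2 fun x _ => hall x)
  obtain ⟨k, hk⟩ := IsPGroup.iff_card.1 (hX.to_subgroup D)
  have hk0 : k ≠ 0 := by
    rintro rfl
    rw [pow_zero] at hk
    exact hD (Subgroup.eq_bot_of_card_eq _ hk)
  obtain ⟨m, rfl⟩ : ∃ m, k = m + 1 := ⟨k - 1, by omega⟩
  have hle : p ^ m ≤ Nat.card D := by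
    rw [hk]
    exact Nat.pow_le_pow_right hp.out.pos (by omega)
  obtain ⟨D₀, hD₀, hD₀c⟩ := Sylow.exists_subgroup_le_card_pow_prime_of_le_card hp.out hX hle
  have hxN : x ∈ normalizer (D₀ : Set X) := by
    apply mem_normalizer_fintype
    intro n hn
    have : x * n * x⁻¹ = n := by
      rw [hc.is_comm.comm x n, mul_inv_cancel_right]
    rw [this]
    exact hn
  have hxD₀ : x ∉ D₀ := fun h => hx (hD₀ h)
  have hQ := card_sup_zpowers_eq hX D₀ hD₀c hxN (hexp x) hxD₀
  have h1 := hU _ (hQ.trans hk.symm)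
  apply hx
  rw [← h1]
  exact mem_sup_left (mem_zpowers x)

/-- In a group of order `p ^ 3` of exponent `p` a nontrivial subgroup unique of its order is everything. -/
theorem eq_top_cube (hX : IsPGroup p X) (hexp : ∀ x : X, x ^ p = 1) (hc : Nat.card X = p ^ 3)
    (D : Subgroup X) (hD : D ≠ ⊥) (hU : ∀ Q : Subgroup X, Nat.card Q = Nat.card D → Q = D) : D = ⊤ := by
  by_contra hne
  obtain ⟨x, hx⟩ : ∃ x : X, x ∉ D := by
    by_contra hall
    push Not at hall
    exact hne (eq_top_iff.2 fun x _ => hall x)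
  obtain ⟨k, hk⟩ := IsPGroup.iff_card.1 (hX.to_subgroup D)
  have hk0 : k ≠ 0 := by
    rintro rfl
    rw [pow_zero] at hk
    exact hD (Subgroup.eq_bot_of_card_eq _ hk)
  have hx1 : x ≠ 1 := fun h => hx (h ▸ one_mem _)
  have hxo : orderOf x = p := orderOf_eq_prime (hexp x) hx1
  have hk3 : k ≤ 2 := by
    by_contra hlt
    apply hne
    have hdvd := Subgroup.card_subgroup_dvd_card D
    rw [hk, hc] at hdvd
    have h3 : k ≤ 3 := (Nat.pow_dvd_pow_iff_le_right hp.out.one_lt).1 hdvd
    have h4 : k = 3 := by omega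
    apply Subgroup.eq_top_of_card_eq
    rw [hk, hc, h4]
  have hk' : k = 1 ∨ k = 2 := by omega
  rcases hk' with rfl | rfl
  · apply hx
    have h1 := hU (zpowers x) (by rw [Nat.card_zpowers, hxo, hk, pow_one])
    rw [← h1]
    exact mem_zpowers x
  · -- a central element
    haveI hnt : Nontrivial X := by
      by_contra h
      rw [not_nontrivial_iff_subsingleton] at h
      exact hx1 (Subsingleton.elim _ _)
    haveI hcn : Nontrivial (center X) := hX.center_nontrivial
    obtain ⟨⟨c, hcZ⟩, hc1⟩ := exists_ne (1 : center X)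
    have hc1' : c ≠ 1 := fun h => hc1 (Subtype.ext h)
    have hco : orderOf c = p := orderOf_eq_prime (hexp c) hc1'
    by_cases hcD : c ∈ D
    · have hxc : x ∉ zpowers c := fun h => hx ((zpowers_le.2 hcD) h)
      have hQ := card_sup_zpowers_central hcZ hco (hexp x) hxc
      have h1 := hU _ (hQ.trans hk.symm)
      apply hx
      rw [← h1]
      exact mem_sup_right (mem_zpowers x)
    · obtain ⟨⟨y, hyD⟩, hy1⟩ := Subgroup.ne_bot_iff_exists_ne_one.1 hD
      have hy1' : y ≠ 1 := fun h => hy1 (Subtype.ext h)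
      have hyo : orderOf y = p := orderOf_eq_prime (hexp y) hy1'
      have hyc : y ∉ zpowers c := by
        intro h
        have h2 : zpowers y = zpowers c := Subgroup.eq_of_le_of_card_ge (zpowers_le.2 h) (by
          rw [Nat.card_zpowers, Nat.card_zpowers, hco, hyo])
        apply hcD
        have h3 : c ∈ zpowers y := by rw [h2]; exact mem_zpowers c
        exact (zpowers_le.2 hyD) h3
      have hQ := card_sup_zpowers_central hcZ hco (hexp y) hyc
      have h1 := hU _ (hQ.trans hk.symm)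
      apply hcD
      rw [← h1]
      exact mem_sup_left (mem_zpowers c)

end V

section G

variable {G : Type*} [Group G] [Finite G] {p : ℕ} [hp : Fact p.Prime]

lemma pCore_quot_ne_bot (H : Subgroup G) [hHn : H.Normal] (hsolv : Cfsg.IsPSolvable p H)
    (hdiv : p ∣ Nat.card H) : Cfsg.pCore p (G ⧸ Cfsg.pPrimeCore p G) ≠ ⊥ := by
  classical
  haveI hLn : (Cfsg.pPrimeCore p G).Normal := Cfsg.Agent.Lib.Core.pPrimeCore_normal p G
  set L := Cfsg.pPrimeCore p G with hL
  let π := QuotientGroup.mk' L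
  set Hb : Subgroup (G ⧸ L) := H.map π with hHb
  haveI hHbn : Hb.Normal := Subgroup.Normal.map hHn π (QuotientGroup.mk'_surjective L)
  have hsolvb : Cfsg.IsPSolvable p Hb :=
    Cfsg.Agent.Lib.Fusion.isPSolvable_of_surjective hp.out (π.subgroupMap H) (π.subgroupMap_surjective H) hsolv
  have hO : Cfsg.pPrimeCore p (G ⧸ L) = ⊥ := Cfsg.Agent.Lib.Core.pPrimeCore_quotient_eq_bot
  have hOb : Cfsg.pPrimeCore p Hb = ⊥ := by
    have h1 := Cfsg.Agent.Lib.Core.map_pPrimeCore_of_normal (p := p) Hb
    rw [hO, inf_bot_eq] at h1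
    exact (Subgroup.map_eq_bot_iff_of_injective _ Hb.subtype_injective).1 h1
  have hHbne : (⊥ : Subgroup Hb) < ⊤ := by
    rw [bot_lt_iff_ne_bot]
    intro h
    have h1 : Hb = ⊥ := by
      rw [eq_bot_iff]
      intro x hx
      have : (⟨x, hx⟩ : Hb) ∈ (⊤ : Subgroup Hb) := trivial
      rw [h] at this
      exact congrArg Subtype.val ((Subgroup.mem_bot).1 this)
    -- then H ≤ L
    have h2 : H ≤ L := by
      intro x hx
      have h3 : π x ∈ Hb := ⟨x, hx, rfl⟩
      rw [h1, Subgroup.mem_bot] at h3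
      exact (QuotientGroup.eq_one_iff x).1 h3
    have h3 := Subgroup.card_dvd_of_le h2
    exact Cfsg.Agent.Lib.Core.not_dvd_card_pPrimeCore (p := p) (G := G) (hdiv.trans h3)
  obtain ⟨D, hDn, hD1, -, hD2⟩ := Cfsg.Agent.Lib.PSolv.pStep_of_isPSolvable hp.out hsolvb ⊥ ⊤ inferInstance inferInstance hHbne
  have hcardD : (⊥ : Subgroup Hb).relIndex D = Nat.card D := by
    rw [Subgroup.relIndex_bot_left]
  rw [hcardD] at hD2
  rcases hD2 with ⟨m, hm⟩ | hcop
  · have hDp : IsPGroup p D := IsPGroup.of_card hm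
    have hle := Cfsg.Agent.Lib.Core.le_pCore hDn hDp
    have h1 := Cfsg.Agent.Lib.Core.map_pCore_of_normal (p := p) Hb
    intro hbot
    rw [hbot, inf_bot_eq] at h1
    have h2 : Cfsg.pCore p Hb = ⊥ := (Subgroup.map_eq_bot_iff_of_injective _ Hb.subtype_injective).1 h1
    rw [h2] at hle
    exact hD1.ne' (le_bot_iff.1 hle)
  · have hle := Cfsg.Agent.Lib.Core.le_pPrimeCore hDn hcop
    rw [hOb] at hle
    exact absurd (le_bot_iff.1 hle) hD1.ne'

end G


/-- Let p be an odd prime and G a finite group in which any two p-subgroups of the same order are conjugate, with Sylow p-subgroup P. If H is a normal p-solvable subgroup of G whose order is divisible by p, then P is abelian, and either P ≤ H or P is cyclic. -/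
theorem result {G : Type*} [Group G] [Finite G]
    {p : ℕ} [Fact p.Prime] (hp : p ≠ 2) (hC : ∀ H K : Subgroup G, IsPGroup p H → IsPGroup p K → Nat.card H = Nat.card K →
      ∃ g : G, K = H.map (MulAut.conj g).toMonoidHom) (P : Sylow p G)
    (H : Subgroup G) [H.Normal] (hsolv : Cfsg.IsPSolvable p H) (hdiv : p ∣ Nat.card H) :
    IsMulCommutative P ∧ ((P : Subgroup G) ≤ H ∨ IsCyclic P) := by
  have hX : IsPGroup p (P : Subgroup G) := P.isPGroup'
  -- uniqueness of the intersection with a normal subgroup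
  have hU : ∀ N : Subgroup G, N.Normal → ∀ Q : Subgroup ↥(P : Subgroup G),
      Nat.card Q = Nat.card (N.comap (P : Subgroup G).subtype) → Q = N.comap (P : Subgroup G).subtype := by
    intro N hNn Q hQ
    set D := N.comap (P : Subgroup G).subtype with hD
    have hcQ : Nat.card (Q.map (P : Subgroup G).subtype) = Nat.card Q :=
      Subgroup.card_map_of_injective (P : Subgroup G).subtype_injective
    have hcD : Nat.card (D.map (P : Subgroup G).subtype) = Nat.card D :=
      Subgroup.card_map_of_injective (P : Subgroup G).subtype_injective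
    have hpQ : IsPGroup p (Q.map (P : Subgroup G).subtype) := by
      rw [IsPGroup.iff_card]
      obtain ⟨k, hk⟩ := IsPGroup.iff_card.1 (hX.to_subgroup Q)
      exact ⟨k, hcQ.trans hk⟩
    have hpD : IsPGroup p (D.map (P : Subgroup G).subtype) := by
      rw [IsPGroup.iff_card]
      obtain ⟨k, hk⟩ := IsPGroup.iff_card.1 (hX.to_subgroup D)
      exact ⟨k, hcD.trans hk⟩
    obtain ⟨g, hg⟩ := hC _ _ hpD hpQ (hcD.trans (hQ.symm.trans hcQ.symm))
    have hle : Q ≤ D := by
      intro q hq
      have h1 : (q : G) ∈ Q.map (P : Subgroup G).subtype := ⟨q, hq, rfl⟩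
      rw [hg] at h1
      obtain ⟨_, ⟨d, hd, rfl⟩, h2⟩ := h1
      have hdN : (d : G) ∈ N := hd
      show (q : G) ∈ N
      have h3 : (q : G) = g * (d : G) * g⁻¹ := h2.symm
      rw [h3]
      exact hNn.conj_mem _ hdN g
    exact Subgroup.eq_of_le_of_card_ge hle hQ.ge
  have hne : ∀ N : Subgroup G, N.Normal → p ∣ Nat.card N → N.comap (P : Subgroup G).subtype ≠ ⊥ := by
    intro N hNn hd h0
    haveI := hNn
    have h1 := Sylow.ne_bot_of_dvd_card (Cfsg.Agent.Lib.PSolv.sylowSubgroupOf P N) hd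
    apply h1
    rw [Cfsg.Agent.Lib.PSolv.coe_sylowSubgroupOf, eq_bot_iff]
    intro x hx
    have h2 : (⟨x, hx⟩ : ↥(P : Subgroup G)) ∈ N.comap (P : Subgroup G).subtype := x.2
    rw [h0, Subgroup.mem_bot] at h2
    have h3 : (x : G) = 1 := congrArg (fun y : ↥(P : Subgroup G) => (y : G)) h2
    exact Subgroup.mem_bot.2 (Subtype.ext h3)
  have hsub : ∀ N : Subgroup G, N.comap (P : Subgroup G).subtype = ⊤ → (P : Subgroup G) ≤ N := by
    intro N hN x hx
    have h1 : (⟨x, hx⟩ : ↥(P : Subgroup G)) ∈ N.comap (P : Subgroup G).subtype := by rw [hN]; trivial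
    exact h1
  rcases Cfsg.Agent.S4023.result hC P with h | h | h | h
  · exact ⟨IsCyclic.isMulCommutative, Or.inr h⟩
  · refine ⟨h.1, Or.inl ?_⟩
    have hexp : ∀ x : ↥(P : Subgroup G), x ^ p = 1 := fun x => Subtype.ext (h.2 x x.2)
    exact hsub H (eq_top_comm hX hexp h.1 _ (hne H inferInstance hdiv) (hU H inferInstance))
  · exact absurd h.1 hp
  · exfalso
    obtain ⟨-, hnc, hcard, hex⟩ := h
    have hexp : ∀ x : ↥(P : Subgroup G), x ^ p = 1 := fun x => by
      have := Monoid.pow_exponent_eq_one x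
      rwa [hex] at this
    apply hnc
    -- the central subgroup of `O_p` modulo `O_{p'}`
    haveI hLn : (Cfsg.pPrimeCore p G).Normal := Cfsg.Agent.Lib.Core.pPrimeCore_normal p G
    set L := Cfsg.pPrimeCore p G with hL
    set W := Cfsg.pCore p (G ⧸ L) with hW
    haveI hWn : W.Normal := Cfsg.Agent.Lib.Core.pCore_normal p _
    have hWne : W ≠ ⊥ := pCore_quot_ne_bot H hsolv hdiv
    have hWp : IsPGroup p W := Cfsg.Agent.Lib.Core.pCore_isPGroup p _
    set C := W ⊓ centralizer (W : Set (G ⧸ L)) with hC'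
    haveI hCn : C.Normal := by
      haveI : (centralizer (W : Set (G ⧸ L))).Normal := Subgroup.normal_centralizer
      infer_instance
    have hCne : C ≠ ⊥ := by
      haveI : Nontrivial W := (Subgroup.nontrivial_iff_ne_bot W).2 hWne
      haveI hcn : Nontrivial (center W) := hWp.center_nontrivial
      obtain ⟨⟨c, hcZ⟩, hc1⟩ := exists_ne (1 : center W)
      have hc1' : (c : G ⧸ L) ≠ 1 := fun h => hc1 (Subtype.ext (Subtype.ext h))
      intro hbot
      apply hc1'
      have hmem : (c : G ⧸ L) ∈ C := by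
        refine ⟨c.2, ?_⟩
        show (c : G ⧸ L) ∈ centralizer (W : Set (G ⧸ L))
        rw [mem_centralizer_iff]
        intro w hw
        have := Subgroup.mem_center_iff.1 hcZ ⟨w, hw⟩
        exact congrArg Subtype.val this
      rw [hbot] at hmem
      exact hmem
    set T := C.comap (QuotientGroup.mk' L) with hT
    haveI hTn : T.Normal := Subgroup.Normal.comap hCn _
    have hTd : p ∣ Nat.card T := by
      rw [hT, Cfsg.Agent.Lib.Core.card_comap_of_surjective _ (QuotientGroup.mk'_surjective L)]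
      apply Dvd.dvd.mul_left
      have hCp : IsPGroup p C := hWp.to_le inf_le_left
      obtain ⟨k, hk⟩ := IsPGroup.iff_card.1 hCp
      rw [hk]
      refine dvd_pow_self p ?_
      rintro rfl
      rw [pow_zero] at hk
      exact hCne (Subgroup.eq_bot_of_card_eq _ hk)
    have htop := eq_top_cube hX hexp hcard _ (hne T hTn hTd) (hU T hTn)
    have hPT := hsub T htop
    refine ⟨⟨fun a b => ?_⟩⟩
    apply Subtype.ext
    have ha : QuotientGroup.mk' L (a : G) ∈ C := hPT a.2
    have hb : QuotientGroup.mk' L (b : G) ∈ C := hPT b.2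
    have hab : QuotientGroup.mk' L (a : G) * QuotientGroup.mk' L (b : G) =
        QuotientGroup.mk' L (b : G) * QuotientGroup.mk' L (a : G) :=
      (mem_centralizer_iff.1 ha.2 _ hb.1).symm
    have hcmm : (a : G) * b * (a : G)⁻¹ * (b : G)⁻¹ ∈ L := by
      rw [← QuotientGroup.eq_one_iff]
      have : (((a : G) * b * (a : G)⁻¹ * (b : G)⁻¹ : G) : G ⧸ L) =
          QuotientGroup.mk' L (a : G) * QuotientGroup.mk' L (b : G) * (QuotientGroup.mk' L (a : G))⁻¹ *
            (QuotientGroup.mk' L (b : G))⁻¹ := rfl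
      rw [this, hab]
      group
    have hcmmP : (a : G) * b * (a : G)⁻¹ * (b : G)⁻¹ ∈ (P : Subgroup G) :=
      mul_mem (mul_mem (mul_mem a.2 b.2) (inv_mem a.2)) (inv_mem b.2)
    have hbot : (P : Subgroup G) ⊓ L = ⊥ := by
      apply Subgroup.inf_eq_bot_of_coprime
      obtain ⟨k, hk⟩ := IsPGroup.iff_card.1 hX
      rw [hk]
      exact (Nat.Coprime.pow_right k (Cfsg.Agent.Lib.Core.pPrimeCore_coprime (p := p) (G := G))).symm
    have h1 : (a : G) * b * (a : G)⁻¹ * (b : G)⁻¹ ∈ (P : Subgroup G) ⊓ L := ⟨hcmmP, hcmm⟩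
    rw [hbot, Subgroup.mem_bot] at h1
    have h2 := congrArg (fun w : G => w * (b : G) * (a : G)) h1
    simpa [mul_assoc] using h2


end Cfsg.Agent.S4024
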