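import Cfsg.Statements.S4027
import Mathlib
import Cfsg.Agent.Lib.Cl.NoInvert

set_option autoImplicit false
open Cfsg

namespace Cfsg.Agent.S4027

/-- Let G be a finite group in which every element x of odd order satisfies N_G(⟨x⟩) = C_G(x). Then the Sylow 2-subgroups of G are normal. -/
theorem result {G : Type*} [Group G] [Finite G]
    (hirr : ∀ x : G, (∀ r : ℕ, r.Prime → r ∣ orderOf x → r ≠ 2) →
      Subgroup.normalizer ((Subgroup.zpowers x : Subgroup G) : Set G) ≤ Subgroup.centralizer {x}) (P : Sylow 2 G) :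
    (P : Subgroup G).Normal := by
  refine Cfsg.Agent.Lib.Cl.normal_of_noInv ?_ P
  intro v w q hq hq2 hv hw
  have hn : w ∈ Subgroup.normalizer ((Subgroup.zpowers v : Subgroup G) : Set G) := by
    apply Cfsg.Agent.Lib.Hall.mem_normalizer_of_conj_le
    intro a ha
    obtain ⟨i, rfl⟩ := Subgroup.mem_zpowers_iff.mp ha
    rw [← conj_zpow, hw]
    exact zpow_mem (inv_mem (Subgroup.mem_zpowers v)) i
  have h1 := hirr v (by
    intro r hr hrd hr2
    rw [hv] at hrd
    rw [hr2] at hrd
    exact hq2 ((Nat.prime_dvd_prime_iff_eq Nat.prime_two hq).mp hrd).symm) hn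
  rw [Subgroup.mem_centralizer_singleton_iff] at h1
  have h2 : w * v * w⁻¹ = v := by rw [h1]; group
  rw [h2] at hw
  have h3 : v ^ 2 = 1 := by
    rw [pow_two]
    nth_rewrite 1 [hw]
    simp
  have h4 := orderOf_dvd_of_pow_eq_one h3
  rw [hv] at h4
  exact hq2 ((Nat.prime_dvd_prime_iff_eq hq Nat.prime_two).mp h4)

end Cfsg.Agent.S4027
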