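import Cfsg.Statements.S4028
import Mathlib
import Cfsg.Agent.Lib.TISylow.Basic
import Cfsg.Agent.Lib.Coprime.SZ2
import Cfsg.Agent.Lib.Block.Jordan

set_option autoImplicit false
open Cfsg

namespace Cfsg.Agent.S4028

open Subgroup

/-- Let G be a finite group with Sylow 2-subgroup P. Then N_G(⟨x⟩) = C_G(x) holds for every 2-element x of G if and only if N_P(⟨y⟩) = C_P(y) holds for every y ∈ P (computed inside P). -/
theorem result {G : Type*} [Group G] [Finite G] (P : Sylow 2 G) :
    (∀ x : G, (∀ r : ℕ, r.Prime → r ∣ orderOf x → r = 2) →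
      Subgroup.normalizer ((Subgroup.zpowers x : Subgroup G) : Set G) ≤ Subgroup.centralizer {x}) ↔
    (∀ y : ↥(P : Subgroup G), Subgroup.normalizer ((Subgroup.zpowers y : Subgroup ↥(P : Subgroup G)) : Set ↥(P : Subgroup G)) ≤
        Subgroup.centralizer {y}) := by
  classical
  haveI : Fact (Nat.Prime 2) := ⟨Nat.prime_two⟩
  constructor
  · intro h y a ha
    -- the order of `y`
    obtain ⟨k, hk⟩ := Cfsg.Agent.Lib.ClassSizes.exists_orderOf_eq_prime_pow_of_mem P.isPGroup' y.2
    have h2 : ∀ r : ℕ, r.Prime → r ∣ orderOf (y : G) → r = 2 := by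
      intro r hr hd
      rw [hk] at hd
      exact (Nat.prime_dvd_prime_iff_eq hr Nat.prime_two).mp (hr.dvd_of_dvd_pow hd)
    have h3 : (a : G) ∈ normalizer ((zpowers (y : G) : Subgroup G) : Set G) := by
      apply Cfsg.Agent.Lib.PSmall.mem_normalizer_of_conj_mem
      intro b hb
      obtain ⟨e, rfl⟩ := mem_zpowers_iff.mp hb
      have h4 : a * y * a⁻¹ ∈ zpowers y := (mem_normalizer_iff.mp ha y).mp (mem_zpowers y)
      obtain ⟨f, hf⟩ := mem_zpowers_iff.mp h4
      rw [← conj_zpow]
      have h5 : (a : G) * y * (a : G)⁻¹ = (y : G) ^ f := by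
        have := congrArg Subtype.val hf
        simpa using this.symm
      rw [h5, ← zpow_mul]
      exact zpow_mem_zpowers _ _
    have h4 := mem_centralizer_singleton_iff.mp (h _ h2 h3)
    exact mem_centralizer_singleton_iff.mpr (Subtype.ext h4)
  · intro h x hx a ha
    have hx0 : orderOf x ≠ 0 := (orderOf_pos x).ne'
    obtain ⟨k, hk⟩ : ∃ k, orderOf x = 2 ^ k :=
      ⟨_, Nat.eq_prime_pow_of_unique_prime_dvd hx0 fun {d} hd hdd => hx d hd hdd⟩
    obtain ⟨u, v, rfl, huv, ⟨m, hm⟩, hv, hu2, hv2⟩ := Cfsg.Agent.Lib.Block.exists_jordan (p := 2) a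
    have huN : u ∈ normalizer ((zpowers x : Subgroup G) : Set G) := (zpowers_le.mpr ha) hu2
    have hvN : v ∈ normalizer ((zpowers x : Subgroup G) : Set G) := (zpowers_le.mpr ha) hv2
    -- the odd part
    have hvx : v * x = x * v := by
      have h1 : v * x * v⁻¹ ∈ zpowers x := (mem_normalizer_iff.mp hvN x).mp (mem_zpowers x)
      have h2 : v * x * v⁻¹ ∈ Submonoid.powers x := by
        rw [(isOfFinOrder_of_finite x).mem_powers_iff_mem_zpowers]
        exact h1
      obtain ⟨j, hj⟩ := h2
      have hj' : v * x * v⁻¹ = x ^ j := hj.symm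
      cases k with
      | zero =>
        rw [pow_zero] at hk
        rw [orderOf_eq_one_iff.mp hk]
        simp
      | succ k =>
        apply Cfsg.Agent.Lib.Coprime.commute_of_conj_eq_pow Nat.prime_two hk hj' _ hv
        have h3 : orderOf (x ^ j) = orderOf x := by
          rw [← hj']
          exact orderOf_eq_orderOf_iff.mpr fun e => by rw [conj_pow, conj_eq_one_iff]
        have h4 : Nat.gcd (orderOf x) j = 1 := by
          have h5 := orderOf_pow (G := G) x (n := j)
          rw [h3] at h5
          have h6 := (Nat.div_eq_self.mp h5.symm)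
          rcases h6 with h6 | h6
          · exact absurd h6 hx0
          · exact h6
        have h6 : ¬ 2 ∣ j := by
          intro hd
          have h7 : 2 ∣ Nat.gcd (orderOf x) j :=
            Nat.dvd_gcd (by rw [hk]; exact dvd_pow_self 2 (Nat.succ_ne_zero k)) hd
          rw [h4] at h7
          omega
        rw [Nat.ModEq]
        omega
    -- the `2`-part
    have hux : u * x = x * u := by
      have hzx : IsPGroup 2 (zpowers x) := IsPGroup.of_card (n := k) (by rw [Nat.card_zpowers, hk])
      have hzu : IsPGroup 2 (zpowers u) := IsPGroup.of_card (n := m) (by rw [Nat.card_zpowers, hm])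
      have hle : zpowers u ≤ normalizer ((zpowers x : Subgroup G) : Set G) := zpowers_le.mpr huN
      have hH : IsPGroup 2 (zpowers x ⊔ zpowers u : Subgroup G) :=
        IsPGroup.to_sup_of_normal_left' hzx hzu hle
      obtain ⟨Q, hQ⟩ := hH.exists_le_sylow
      obtain ⟨g, rfl⟩ := MulAction.exists_smul_eq G P Q
      have hx' : g⁻¹ * x * g ∈ (P : Subgroup G) :=
        Cfsg.Agent.Lib.ClassSizes.mem_sylow_smul_iff.mp (hQ (Subgroup.mem_sup_left (mem_zpowers x)))
      have hu' : g⁻¹ * u * g ∈ (P : Subgroup G) :=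
        Cfsg.Agent.Lib.ClassSizes.mem_sylow_smul_iff.mp (hQ (Subgroup.mem_sup_right (mem_zpowers u)))
      let y : (P : Subgroup G) := ⟨g⁻¹ * x * g, hx'⟩
      let b : (P : Subgroup G) := ⟨g⁻¹ * u * g, hu'⟩
      have hb : b ∈ normalizer ((zpowers y : Subgroup (P : Subgroup G)) : Set (P : Subgroup G)) := by
        apply Cfsg.Agent.Lib.PSmall.mem_normalizer_of_conj_mem
        intro z hz
        obtain ⟨e, rfl⟩ := mem_zpowers_iff.mp hz
        rw [← conj_zpow]
        have h1 : u * x * u⁻¹ ∈ zpowers x := (mem_normalizer_iff.mp huN x).mp (mem_zpowers x)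
        obtain ⟨f, hf⟩ := mem_zpowers_iff.mp h1
        have h2 : b * y * b⁻¹ = y ^ f := by
          apply Subtype.ext
          simp only [y, b, Subgroup.coe_mul, Subgroup.coe_inv, Subgroup.coe_zpow]
          have h3 : g⁻¹ * u * g * (g⁻¹ * x * g) * (g⁻¹ * u * g)⁻¹ = g⁻¹ * (u * x * u⁻¹) * g := by group
          rw [h3, ← hf]
          have h4 := conj_zpow (a := g⁻¹) (b := x) (i := f)
          simp only [inv_inv] at h4
          exact h4.symm
        rw [h2, ← zpow_mul]
        exact zpow_mem_zpowers _ _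
      have h3 := mem_centralizer_singleton_iff.mp (h y hb)
      have h4 : g⁻¹ * u * g * (g⁻¹ * x * g) = g⁻¹ * x * g * (g⁻¹ * u * g) := congrArg Subtype.val h3
      have h5 : g⁻¹ * (u * x) * g = g⁻¹ * (x * u) * g := by
        calc g⁻¹ * (u * x) * g = g⁻¹ * u * g * (g⁻¹ * x * g) := by group
          _ = g⁻¹ * x * g * (g⁻¹ * u * g) := h4
          _ = g⁻¹ * (x * u) * g := by group
      exact mul_left_cancel (mul_right_cancel h5)
    have h1 : Commute u x := hux
    have h2 : Commute v x := hvx
    exact mem_centralizer_singleton_iff.mpr (h1.mul_left h2)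

end Cfsg.Agent.S4028
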