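import Cfsg.Statements.S4029
import Mathlib
import Cfsg.Agent.Lib.Char.Complete
import Cfsg.Agent.Lib.Char.Burnside
import Cfsg.Agent.Lib.Char.Ops
import Cfsg.Agent.Lib.Cl.Extraspecial

set_option autoImplicit false
open Cfsg

namespace Cfsg.Agent.S4029


open Cfsg (classInner IsCharacter IsIrrCharacter IrrCharacter IsClassFunction) in
open Cfsg.Agent.Lib.Char in
open scoped ComplexConjugate in
theorem card_frattini_le {P : Type*} [Group P] [Finite P] (hP : IsPGroup 2 P)
    (hirr : ∀ y : P, Subgroup.normalizer ((Subgroup.zpowers y : Subgroup P) : Set P) ≤ Subgroup.centralizer {y}) :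
    Nat.card (P ⧸ frattini P) ≤ Nat.card {c : ConjClasses P // ∃ y : P, ConjClasses.mk y = c ∧ orderOf y = 2} + 1 := by
  classical
  haveI := Fintype.ofFinite P
  haveI : Fintype (ConjClasses P) := Fintype.ofFinite _
  -- real elements
  have hreal : ∀ g : P, IsConj g g⁻¹ ↔ g ^ 2 = 1 := by
    intro g
    constructor
    · intro h
      obtain ⟨c, hc⟩ := isConj_iff.mp h
      have hn : c ∈ Subgroup.normalizer ((Subgroup.zpowers g : Subgroup P) : Set P) := by
        rw [Subgroup.mem_normalizer_iff]
        intro x
        constructor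
        · rintro ⟨k, rfl⟩
          refine ⟨-k, ?_⟩
          show g ^ (-k) = c * g ^ k * c⁻¹
          rw [← conj_zpow, hc, inv_zpow, zpow_neg]
        · rintro ⟨k, hk⟩
          have hk' : g ^ k = c * x * c⁻¹ := hk
          refine ⟨-k, ?_⟩
          show g ^ (-k) = x
          have h2 : c * x * c⁻¹ = c * g ^ (-k) * c⁻¹ := by
            rw [← hk', ← conj_zpow, hc, zpow_neg, inv_zpow, inv_inv]
          have h3 : x = g ^ (-k) := by
            have := mul_right_cancel (mul_left_cancel (a := c) (by simpa [mul_assoc] using h2 : c * (x * c⁻¹) = c * (g ^ (-k) * c⁻¹)))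
            exact this
          exact h3.symm
      have hc2 : c ∈ Subgroup.centralizer ({g} : Set P) := hirr g hn
      rw [Subgroup.mem_centralizer_singleton_iff] at hc2
      have h3 : g⁻¹ = g := by
        rw [← hc, hc2, mul_assoc, mul_inv_cancel, mul_one]
      rw [pow_two]
      nth_rewrite 1 [← h3]
      exact inv_mul_cancel g
    · intro h
      have h1 : g⁻¹ = g := by
        rw [inv_eq_iff_mul_eq_one, ← pow_two]
        exact h
      rw [h1]
  -- the multiplicities
  have hnat : ∀ χ : IrrCharacter P, ∃ n : ℕ,
      classInner (fun g => (χ : P → ℂ) g * (χ : P → ℂ) g) (fun _ => (1 : ℂ)) = n := fun χ =>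
    classInner_isCharacter_nat (IsCharacter.mul (IsIrrCharacter.isCharacter χ.2) (IsIrrCharacter.isCharacter χ.2))
      (IsIrrCharacter.isCharacter isIrrCharacter_one)
  choose n hn using hnat
  set T := Nat.card {c : ConjClasses P // ∃ y : P, ConjClasses.mk y = c ∧ orderOf y = 2} with hT
  -- the count of classes
  have hcount : (Finset.univ.filter (fun c : ConjClasses P => c.out ^ 2 = 1)).card = T + 1 := by
    have h1 : (Finset.univ.filter (fun c : ConjClasses P => c.out ^ 2 = 1)) =
        insert (ConjClasses.mk (1 : P)) (Finset.univ.filter (fun c : ConjClasses P => ∃ y : P, ConjClasses.mk y = c ∧ orderOf y = 2)) := by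
      ext c
      simp only [Finset.mem_filter, Finset.mem_univ, true_and, Finset.mem_insert]
      have hout : ConjClasses.mk c.out = c := Quotient.out_eq c
      constructor
      · intro h
        by_cases h1 : c.out = 1
        · left
          rw [← hout, h1]
        · right
          exact ⟨c.out, hout, orderOf_eq_prime h h1⟩
      · rintro (rfl | ⟨y, rfl, hy⟩)
        · have hout : ConjClasses.mk (ConjClasses.mk (1 : P)).out = ConjClasses.mk (1 : P) := Quotient.out_eq _
          have h2 := ConjClasses.mk_eq_mk_iff_isConj.mp hout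
          have h3 := isConj_one_right.mp h2.symm
          rw [h3, one_pow]
        · have hout : ConjClasses.mk (ConjClasses.mk y).out = ConjClasses.mk y := Quotient.out_eq _
          have h2 := (ConjClasses.mk_eq_mk_iff_isConj.mp hout).symm
          obtain ⟨c, hc⟩ := isConj_iff.mp h2
          rw [← hc, conj_pow, ← hy, pow_orderOf_eq_one, mul_one, mul_inv_cancel]
    rw [h1, Finset.card_insert_of_notMem, hT, Nat.card_eq_fintype_card, Fintype.card_subtype]
    simp only [Finset.mem_filter, Finset.mem_univ, true_and, not_exists, not_and]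
    intro y hy
    rw [ConjClasses.mk_eq_mk_iff_isConj] at hy
    have := isConj_one_right.mp hy.symm
    rw [this, orderOf_one]
    omega
  have hsum : ∑ χ : IrrCharacter P, (n χ : ℂ) = ((T + 1 : ℕ) : ℂ) := by
    have hcardne : (Nat.card P : ℂ) ≠ 0 := by exact_mod_cast Nat.card_pos.ne'
    calc ∑ χ : IrrCharacter P, (n χ : ℂ)
        = ∑ χ : IrrCharacter P, classInner (fun g => (χ : P → ℂ) g * (χ : P → ℂ) g) (fun _ => (1 : ℂ)) :=
          Finset.sum_congr rfl (fun χ _ => (hn χ).symm)
      _ = (Nat.card P : ℂ)⁻¹ * ∑ g : P, ∑ χ : IrrCharacter P, (χ : P → ℂ) g * conj ((χ : P → ℂ) g⁻¹) := by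
          simp only [classInner, map_one, mul_one]
          rw [← Finset.mul_sum, Finset.sum_comm]
          congr 1
          refine Finset.sum_congr rfl (fun g _ => Finset.sum_congr rfl (fun χ _ => ?_))
          rw [Cfsg.Agent.Lib.Char.IsCharacter.map_inv' (IsIrrCharacter.isCharacter χ.2) g, Complex.conj_conj]
      _ = (Nat.card P : ℂ)⁻¹ * ∑ g : P, (if g ^ 2 = 1 then (Nat.card (Subgroup.centralizer ({g} : Set P)) : ℂ) else 0) := by
          congr 1
          refine Finset.sum_congr rfl (fun g _ => ?_)
          rw [second_orthogonality g g⁻¹]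
          simp only [hreal g]
      _ = (Nat.card P : ℂ)⁻¹ * ∑ c : ConjClasses P, (if c.out ^ 2 = 1 then (Nat.card P : ℂ) else 0) := by
          congr 1
          rw [sum_classFunction_eq_sum_conjClasses]
          · refine Finset.sum_congr rfl (fun c _ => ?_)
            split_ifs with h
            · rw [← index_mul_card_centralizer c.out]
              simp
            · simp
          · intro g x
            have h1 : (x * g * x⁻¹) ^ 2 = 1 ↔ g ^ 2 = 1 := by
              rw [conj_pow]
              constructor
              · intro h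
                have : x * g ^ 2 * x⁻¹ = x * 1 * x⁻¹ := by rw [h]; group
                exact mul_left_cancel (mul_right_cancel this)
              · intro h
                rw [h]
                group
            simp only [h1]
            have h2 : IsConj (x * g * x⁻¹) g := (isConj_iff.mpr ⟨x, rfl⟩).symm
            rw [card_centralizer_of_isConj h2]
      _ = ((T + 1 : ℕ) : ℂ) := by
          rw [Finset.sum_ite, Finset.sum_const_zero, add_zero, Finset.sum_const, hcount]
          rw [nsmul_eq_mul]
          field_simp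
  have hsumN : ∑ χ : IrrCharacter P, n χ = T + 1 := by
    exact_mod_cast hsum
  -- the linear characters
  have hsqE : ∀ x : P ⧸ frattini P, x * x = 1 := by
    intro x
    obtain ⟨a, rfl⟩ := QuotientGroup.mk_surjective x
    rw [← QuotientGroup.mk_mul, ← pow_two]
    exact (QuotientGroup.eq_one_iff _).mpr (Cfsg.Agent.Lib.Cl.sq_mem_frattini_two hP a)
  have hinvE : ∀ x : P ⧸ frattini P, x⁻¹ = x := fun x => inv_eq_of_mul_eq_one_left (hsqE x)
  letI iE : CommGroup (P ⧸ frattini P) :=
    { (inferInstance : Group (P ⧸ frattini P)) with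
      mul_comm := by
        intro a b
        rw [← hinvE (a * b), mul_inv_rev, hinvE, hinvE] }
  haveI : NeZero (Monoid.exponent (P ⧸ frattini P)) := ⟨Monoid.exponent_ne_zero_of_finite⟩
  have hcardH : Nat.card ((P ⧸ frattini P) →* ℂˣ) = Nat.card (P ⧸ frattini P) :=
    CommGroup.card_monoidHom_of_hasEnoughRootsOfUnity _ ℂ
  let Ψ : ((P ⧸ frattini P) →* ℂˣ) → IrrCharacter P := fun ψ =>
    ⟨fun g => ((ψ.comp (QuotientGroup.mk' (frattini P)) g : ℂˣ) : ℂ), isIrrCharacter_of_hom _⟩
  have hΨapp : ∀ ψ g, (Ψ ψ : P → ℂ) g = ((ψ (g : P ⧸ frattini P) : ℂˣ) : ℂ) := fun _ _ => rfl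
  have hΨ : Function.Injective Ψ := by
    intro ψ ψ' h
    ext x
    have h1 := congrFun (congrArg Subtype.val h) x
    exact h1
  have hΨn : ∀ ψ, n (Ψ ψ) = 1 := by
    intro ψ
    have h1 := hn (Ψ ψ)
    have h2 : classInner (fun g => (Ψ ψ : P → ℂ) g * (Ψ ψ : P → ℂ) g) (fun _ => (1 : ℂ)) = 1 := by
      simp only [classInner, map_one, mul_one, hΨapp]
      have h3 : ∀ g : P, ((ψ (g : P ⧸ frattini P) : ℂˣ) : ℂ) * ((ψ (g : P ⧸ frattini P) : ℂˣ) : ℂ) = 1 := by
        intro g
        rw [← Units.val_mul, ← map_mul, hsqE, map_one, Units.val_one]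
      simp only [h3]
      rw [Finset.sum_const, Finset.card_univ, nsmul_eq_mul, mul_one, ← Nat.card_eq_fintype_card]
      have hcardne : (Nat.card P : ℂ) ≠ 0 := by exact_mod_cast Nat.card_pos.ne'
      exact inv_mul_cancel₀ hcardne
    rw [h2] at h1
    exact_mod_cast h1.symm
  haveI : Fintype ((P ⧸ frattini P) →* ℂˣ) := Fintype.ofFinite _
  calc Nat.card (P ⧸ frattini P) = Nat.card ((P ⧸ frattini P) →* ℂˣ) := hcardH.symm
    _ = (Finset.univ.image Ψ).card := by
        rw [Finset.card_image_of_injective _ hΨ, Finset.card_univ, Nat.card_eq_fintype_card]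
    _ = ∑ χ ∈ Finset.univ.image Ψ, n χ := by
        rw [Finset.sum_image (fun a _ b _ h => hΨ h), Finset.card_image_of_injective _ hΨ]
        simp [hΨn]
    _ ≤ ∑ χ : IrrCharacter P, n χ :=
        Finset.sum_le_sum_of_subset (Finset.subset_univ _)
    _ = T + 1 := hsumN

/-- Let P be a finite 2-group in which N_P(⟨y⟩) = C_P(y) for every y ∈ P. If s is the number of conjugacy classes of involutions of P, then #(P/Φ(P)) ≤ s + 1; in particular the subgroup generated by the involutions of P has order at least #(P/Φ(P)). -/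
theorem result {P : Type*} [Group P] [Finite P] (hP : IsPGroup 2 P)
    (hirr : ∀ y : P, Subgroup.normalizer ((Subgroup.zpowers y : Subgroup P) : Set P) ≤ Subgroup.centralizer {y}) :
    Nat.card (P ⧸ frattini P) ≤ Nat.card {c : ConjClasses P // ∃ y : P, ConjClasses.mk y = c ∧ orderOf y = 2} + 1 ∧
    Nat.card (P ⧸ frattini P) ≤ Nat.card (Subgroup.closure {y : P | orderOf y = 2}) := by
  refine ⟨card_frattini_le hP hirr, (card_frattini_le hP hirr).trans ?_⟩
  classical
  have hrep : ∀ c : {c : ConjClasses P // ∃ y : P, ConjClasses.mk y = c ∧ orderOf y = 2},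
      ∃ y : P, ConjClasses.mk y = c.1 ∧ orderOf y = 2 := fun c => c.2
  choose y hy hy2 using hrep
  let f : Option {c : ConjClasses P // ∃ y : P, ConjClasses.mk y = c ∧ orderOf y = 2} →
      Subgroup.closure {y : P | orderOf y = 2} := fun o => match o with
    | none => 1
    | some c => ⟨y c, Subgroup.subset_closure (hy2 c)⟩
  have hf : Function.Injective f := by
    intro a b hab
    rcases a with _ | a <;> rcases b with _ | b
    · rfl
    · exfalso
      have h1 : (1 : P) = y b := congrArg Subtype.val hab
      have := hy2 b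
      rw [← h1, orderOf_one] at this
      omega
    · exfalso
      have h1 : y a = (1 : P) := congrArg Subtype.val hab
      have := hy2 a
      rw [h1, orderOf_one] at this
      omega
    · have h1 : y a = y b := congrArg Subtype.val hab
      have h2 : a.1 = b.1 := by rw [← hy a, ← hy b, h1]
      rw [Subtype.ext h2]
  have := Nat.card_le_card_of_injective f hf
  rwa [Finite.card_option] at this


end Cfsg.Agent.S4029
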