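import Cfsg.Statements.S4032
import Mathlib
import Cfsg.Agent.Lib.Coprime.SZ2
import Cfsg.Agent.Lib.PSmall.Basic

set_option autoImplicit false
open Cfsg

namespace Cfsg.Agent.S4032

open Subgroup

/-- Let π be a set of primes and G a finite group in which N_G(⟨x⟩) = C_G(x) for every π-element x. If N is a normal subgroup of G whose order is divisible by no prime of π, then G/N has the same property: N_{G/N}(⟨y⟩) = C_{G/N}(y) for every π-element y of G/N. -/
theorem result {G : Type*} [Group G] [Finite G] (π : Set ℕ)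
    (hirr : ∀ x : G, (∀ r : ℕ, r.Prime → r ∣ orderOf x → r ∈ π) →
      Subgroup.normalizer ((Subgroup.zpowers x : Subgroup G) : Set G) ≤ Subgroup.centralizer {x})
    (N : Subgroup G) [N.Normal] (hN : ∀ r : ℕ, r.Prime → r ∣ Nat.card N → r ∉ π) :
    ∀ y : G ⧸ N, (∀ r : ℕ, r.Prime → r ∣ orderOf y → r ∈ π) →
      Subgroup.normalizer ((Subgroup.zpowers y : Subgroup (G ⧸ N)) : Set (G ⧸ N)) ≤ Subgroup.centralizer {y} := by
  classical
  intro y hy u' hu'
  obtain ⟨g, rfl⟩ := QuotientGroup.mk_surjective y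
  obtain ⟨u, rfl⟩ := QuotientGroup.mk_surjective u'
  set m := orderOf (g : G ⧸ N) with hm
  have hm0 : m ≠ 0 := (orderOf_pos _).ne'
  -- `m` is prime to `|N|`
  have hco : m.Coprime (Nat.card N) := by
    rw [Nat.coprime_iff_gcd_eq_one] 
    by_contra hne
    obtain ⟨r, hr, hrd⟩ := Nat.exists_prime_and_dvd hne
    exact hN r hr (hrd.trans (Nat.gcd_dvd_right _ _)) (hy r hr (hrd.trans (Nat.gcd_dvd_left _ _)))
  -- a lift of order dividing `m`
  obtain ⟨s, hs1, hs2⟩ := Nat.chineseRemainder hco 1 0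
  have hgm : g ^ m ∈ N := by
    rw [← QuotientGroup.eq_one_iff, QuotientGroup.mk_pow, hm, pow_orderOf_eq_one]
  have hgmk : (g ^ m) ^ Nat.card N = 1 := by
    have := pow_card_eq_one' (x := (⟨_, hgm⟩ : N))
    exact congrArg Subtype.val this
  set x := g ^ s with hx
  have hxm : x ^ m = 1 := by
    obtain ⟨w, hw⟩ := (Nat.modEq_zero_iff_dvd).mp hs2
    rw [hx, hw, ← pow_mul, show Nat.card N * w * m = m * Nat.card N * w by ring, pow_mul, pow_mul, hgmk, one_pow]
  have hxmk : (x : G ⧸ N) = (g : G ⧸ N) := by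
    rw [hx, QuotientGroup.mk_pow, ← pow_mod_orderOf, ← hm, show s % m = 1 % m from hs1,
      hm, pow_mod_orderOf, pow_one]
  have hxord : orderOf x ∣ m := orderOf_dvd_of_pow_eq_one hxm
  have hxco : (orderOf x).Coprime (Nat.card N) := Nat.Coprime.coprime_dvd_left hxord hco
  have hxπ : ∀ r : ℕ, r.Prime → r ∣ orderOf x → r ∈ π := fun r hr hd => hy r hr (hd.trans hxord)
  have hxordeq : orderOf x = m := by
    rw [hm, ← hxmk]
    exact (Cfsg.Agent.Lib.Coprime.orderOf_mk_of_coprime hxco).symm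
  rw [← hxmk] at hu' ⊢
  -- conjugate by `u`
  set x' := u * x * u⁻¹ with hx'
  have hx'ord : orderOf x' = orderOf x := orderOf_eq_orderOf_iff.mpr fun k => by
    rw [hx', conj_pow, conj_eq_one_iff]
  have hzk : (x' : G ⧸ N) ∈ zpowers (x : G ⧸ N) := by
    have := (mem_normalizer_iff.mp hu' (x : G ⧸ N)).mp (mem_zpowers _)
    exact this
  -- the images generate the same subgroup
  have hx'mk : orderOf (x' : G ⧸ N) = orderOf x' :=
    Cfsg.Agent.Lib.Coprime.orderOf_mk_of_coprime (by rw [hx'ord]; exact hxco)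
  have hxmkord : orderOf (x : G ⧸ N) = orderOf x := Cfsg.Agent.Lib.Coprime.orderOf_mk_of_coprime hxco
  have hzeq : zpowers (x' : G ⧸ N) = zpowers (x : G ⧸ N) := by
    apply Subgroup.eq_of_le_of_card_ge
    · rw [zpowers_le]; exact hzk
    · rw [Nat.card_zpowers, Nat.card_zpowers, hx'mk, hxmkord, hx'ord]
  have key : ∀ a b : G, zpowers (a : G ⧸ N) = zpowers (b : G ⧸ N) → zpowers a ⊔ N ≤ zpowers b ⊔ N := by
    intro a b hab
    refine sup_le ?_ le_sup_right
    rw [zpowers_le]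
    have h1 : (a : G ⧸ N) ∈ zpowers (b : G ⧸ N) := hab ▸ mem_zpowers _
    obtain ⟨e, he⟩ := mem_zpowers_iff.mp h1
    have h2 : (b ^ e)⁻¹ * a ∈ N := by
      apply QuotientGroup.eq.mp
      rw [QuotientGroup.mk_zpow, he]
    have h3 : a = b ^ e * ((b ^ e)⁻¹ * a) := by group
    rw [h3]
    exact Subgroup.mul_mem_sup (Subgroup.zpow_mem _ (mem_zpowers b) e) h2
  have hsup : zpowers x ⊔ N = zpowers x' ⊔ N := le_antisymm (key _ _ hzeq.symm) (key _ _ hzeq)
  obtain ⟨n, hn, hnK⟩ := Cfsg.Agent.Lib.Coprime.exists_conj_of_sup_eq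
    (N := N) (H := zpowers x) (K := zpowers x')
    (by rw [Nat.card_zpowers]; exact hxco.symm)
    (by rw [Nat.card_zpowers, Nat.card_zpowers, hx'ord]) hsup
    (Or.inr (isSolvable_of_comm (fun x y => IsMulCommutative.is_comm.comm x y)))
  -- `n⁻¹ u` normalizes `⟨x⟩`
  have hNx : n⁻¹ * u ∈ normalizer ((zpowers x : Subgroup G) : Set G) := by
    have h1 : x' ∈ (zpowers x).map (MulAut.conj n).toMonoidHom := by
      rw [← hnK]; exact mem_zpowers _
    obtain ⟨z, hz, hzeq2⟩ := h1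
    obtain ⟨e, rfl⟩ := mem_zpowers_iff.mp hz
    have h2 : (n⁻¹ * u) * x * (n⁻¹ * u)⁻¹ = x ^ e := by
      have h3 : n * x ^ e * n⁻¹ = x' := hzeq2
      calc (n⁻¹ * u) * x * (n⁻¹ * u)⁻¹ = n⁻¹ * x' * n := by rw [hx']; group
        _ = x ^ e := by rw [← h3]; group
    apply Cfsg.Agent.Lib.PSmall.mem_normalizer_of_conj_mem
    intro w hw
    obtain ⟨f, rfl⟩ := mem_zpowers_iff.mp hw
    rw [← conj_zpow, h2, ← zpow_mul]
    exact zpow_mem_zpowers _ _
  have h5 := hirr x hxπ hNx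
  have h6 : n⁻¹ * u * x = x * (n⁻¹ * u) := mem_centralizer_singleton_iff.mp h5
  rw [mem_centralizer_singleton_iff]
  have h7 : ((n⁻¹ * u : G) : G ⧸ N) = (u : G ⧸ N) := by
    rw [QuotientGroup.mk_mul, QuotientGroup.mk_inv, (QuotientGroup.eq_one_iff n).mpr hn]
    simp
  have h8 := congrArg (fun t : G => (t : G ⧸ N)) h6
  simp only [QuotientGroup.mk_mul] at h8
  rw [← QuotientGroup.mk_mul, h7] at h8
  exact h8

end Cfsg.Agent.S4032
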