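import Cfsg.Statements.S4036
import Mathlib

set_option autoImplicit false
open Cfsg

namespace Cfsg.Agent.S4036

/-- Let P be a finite abelian p-group and K a group of automorphisms of P (a subgroup of Aut P) whose order is divisible by p. If all non-identity elements of K have the same fixed-point subgroup on P, then K has no non-trivial normal subgroup of order prime to p. -/
theorem result {P : Type*} [CommGroup P] [Finite P] {p : ℕ}
    [Fact p.Prime] (hP : IsPGroup p P) (K : Subgroup (MulAut P)) (hK : p ∣ Nat.card K)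
    (hfix : ∀ x y : MulAut P, x ∈ K → y ∈ K → x ≠ 1 → y ≠ 1 → ∀ v : P, x v = v ↔ y v = v) :
    ∀ N : Subgroup ↥K, N.Normal → ¬ p ∣ Nat.card N → N = ⊥ := by
  classical
  intro N hN hNp
  by_contra hne
  have hp : p.Prime := Fact.out
  haveI : Finite (MulAut P) :=
    Finite.of_injective (fun a : MulAut P => (a : P → P)) (fun a b h => MulEquiv.ext (congrFun h))
  haveI := Fintype.ofFinite N
  haveI := Fintype.ofFinite P
  -- a nontrivial element of `N`
  obtain ⟨⟨n₀, hn₀⟩, hn₀1⟩ := Subgroup.ne_bot_iff_exists_ne_one.mp hne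
  have hn₀' : ((n₀ : K) : MulAut P) ≠ 1 := by
    intro h
    apply hn₀1
    apply Subtype.ext
    apply Subtype.ext
    exact h
  obtain ⟨v₀, hv₀⟩ : ∃ v : P, ((n₀ : K) : MulAut P) v ≠ v := by
    by_contra hall
    push Not at hall
    exact hn₀' (MulEquiv.ext hall)
  -- an element of order `p`
  obtain ⟨t, ht⟩ := exists_prime_orderOf_dvd_card' p hK
  have ht' : orderOf (t : MulAut P) = p := by rw [Subgroup.orderOf_coe, ht]
  have ht1 : (t : MulAut P) ≠ 1 := by
    intro h
    rw [h, orderOf_one] at ht'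
    exact hp.one_lt.ne ht'
  -- the norm map
  let e : P → P := fun v => ∏ n : N, ((n : K) : MulAut P) v
  have he_mul : ∀ v w, e (v * w) = e v * e w := by
    intro v w
    simp only [e, map_mul, Finset.prod_mul_distrib]
  have he_one : e 1 = 1 := by simp [e]
  have he_inv : ∀ v, e v⁻¹ = (e v)⁻¹ := by
    intro v
    simp only [e, map_inv, Finset.prod_inv_distrib]
  have he_right : ∀ (m : N) (v : P), e (((m : K) : MulAut P) v) = e v := by
    intro m v
    apply Fintype.prod_equiv (Equiv.mulRight m)
    intro n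
    rfl
  have he_conj : ∀ (s : K) (v : P), e ((s : MulAut P) v) = (s : MulAut P) (e v) := by
    intro s v
    simp only [e, map_prod]
    let σ : N ≃ N :=
      { toFun := fun n => ⟨s⁻¹ * n * s, by
          have := hN.conj_mem n n.2 s⁻¹
          simpa using this⟩
        invFun := fun n => ⟨s * n * s⁻¹, hN.conj_mem n n.2 s⟩
        left_inv := fun n => by
          apply Subtype.ext
          simp [mul_assoc]
        right_inv := fun n => by
          apply Subtype.ext
          simp [mul_assoc] }
    apply Fintype.prod_equiv σ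
    intro n
    show (n : K).1 (s.1 v) = s.1 ((((s⁻¹ * n * s : K) : MulAut P)) v)
    simp [MulAut.mul_apply]
  -- the kernel
  let W : Subgroup P :=
    { carrier := {v | e v = 1}
      mul_mem' := fun {a b} ha hb => by
        show e (a * b) = 1
        rw [he_mul, ha, hb, one_mul]
      one_mem' := he_one
      inv_mem' := fun {a} ha => by
        show e a⁻¹ = 1
        rw [he_inv, ha, inv_one] }
  have hu : ((n₀ : K) : MulAut P) v₀ * v₀⁻¹ ∈ W := by
    show e _ = 1
    rw [he_mul, show e (((n₀ : K) : MulAut P) v₀) = e v₀ from he_right ⟨n₀, hn₀⟩ v₀, he_inv, mul_inv_cancel]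
  have hune : ((n₀ : K) : MulAut P) v₀ * v₀⁻¹ ≠ 1 := by
    intro h
    exact hv₀ (mul_inv_eq_one.mp h)
  have hWinv : ∀ v ∈ W, (t : MulAut P) v ∈ W := by
    intro v hv
    show e _ = 1
    rw [he_conj, show e v = 1 from hv, map_one]
  have hWinv' : ∀ v ∈ W, (t : MulAut P)⁻¹ v ∈ W := by
    intro v hv
    show e _ = 1
    have := he_conj t⁻¹ v
    simp only [Subgroup.coe_inv] at this
    rw [this, show e v = 1 from hv, map_one]
  -- the map on `W`
  let g : Function.End W := fun w => ⟨(t : MulAut P) w, hWinv w w.2⟩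
  have hgpow : ∀ (k : ℕ) (w : W), ((g ^ k) w : P) = ((t : MulAut P) ^ k) w := by
    intro k w
    induction k with
    | zero => simp; rfl
    | succ k ih =>
      rw [pow_succ', pow_succ', MulAut.mul_apply]
      show (t : MulAut P) (((g ^ k) w : W) : P) = _
      rw [ih]
  have hg1 : g ^ p ^ 1 = 1 := by
    funext w
    apply Subtype.ext
    rw [pow_one, hgpow, ← ht', pow_orderOf_eq_one]
    rfl
  haveI := Fintype.ofFinite W
  have hmod := Equiv.Perm.card_fixedPoints_modEq hg1
  have hWp : IsPGroup p W := hP.to_subgroup W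
  haveI hWnt : Nontrivial W := ⟨⟨⟨_, hu⟩, 1, fun h => hune (congrArg Subtype.val h)⟩⟩
  obtain ⟨k, hk, hWc⟩ := hWp.nontrivial_iff_card.mp hWnt
  have hdvd : p ∣ Fintype.card (Function.fixedPoints g) := by
    have h1 : p ∣ Fintype.card W := by
      rw [← Nat.card_eq_fintype_card, hWc]
      exact dvd_pow_self p hk.ne'
    exact (Nat.modEq_zero_iff_dvd.mp (hmod.symm.trans (Nat.modEq_zero_iff_dvd.mpr h1)))
  have hfix1 : (1 : W) ∈ Function.fixedPoints g := by
    show g 1 = 1
    apply Subtype.ext
    show (t : MulAut P) 1 = 1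
    exact map_one _
  have hpos : 0 < Fintype.card (Function.fixedPoints g) := Fintype.card_pos_iff.mpr ⟨⟨1, hfix1⟩⟩
  have h2 : 1 < Fintype.card (Function.fixedPoints g) :=
    lt_of_lt_of_le hp.one_lt (Nat.le_of_dvd hpos hdvd)
  obtain ⟨⟨w, hw⟩, hw1⟩ := Fintype.exists_ne_of_one_lt_card h2 ⟨1, hfix1⟩
  have hw1' : (w : P) ≠ 1 := fun h => hw1 (Subtype.ext (Subtype.ext h))
  have htw : (t : MulAut P) w = w := congrArg Subtype.val hw
  have hnw : ∀ n : N, ((n : K) : MulAut P) w = w := by
    intro n
    by_cases hn1 : ((n : K) : MulAut P) = 1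
    · rw [hn1]; rfl
    · exact (hfix _ _ t.2 (n : K).2 ht1 hn1 w).mp htw
  have hew : e w = 1 := w.2
  have hprod : e w = (w : P) ^ Nat.card N := by
    simp only [e, hnw]
    rw [Finset.prod_const, Finset.card_univ, Nat.card_eq_fintype_card]
  rw [hprod] at hew
  have h3 := orderOf_dvd_of_pow_eq_one hew
  obtain ⟨j, hj⟩ := IsPGroup.iff_orderOf.mp hP (w : P)
  have hj0 : j ≠ 0 := by
    rintro rfl
    rw [pow_zero] at hj
    exact hw1' (orderOf_eq_one_iff.mp hj)
  exact hNp ((dvd_pow_self p hj0).trans (hj ▸ h3))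

end Cfsg.Agent.S4036
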