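import Cfsg.Statements.S4040
import Mathlib
import Cfsg.Agent.Lib.FrobThm.Thompson
import Cfsg.Agent.Lib.Hall.CoprimeSylow
import Cfsg.Agent.Lib.Transfer.Frobenius
import Cfsg.Agent.Lib.FrobThm.PNil

set_option autoImplicit false
open Cfsg

namespace Cfsg.Agent.S4040


universe u

section Aux

variable {G : Type u} [Group G] [Finite G]

open QuotientGroup in
theorem quotient_coatom' {M Q : Subgroup G} [Q.Normal] (hmax : IsCoatom M) (hQ : Q ≤ M) :
    IsCoatom (M.map (mk' Q)) := by
  have hsurj := mk'_surjective Q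
  refine ⟨?_, fun X hX => ?_⟩
  · intro h
    apply hmax.1
    have : (M.map (mk' Q)).comap (mk' Q) = M := by
      rw [Subgroup.comap_map_eq, ker_mk']
      exact sup_eq_left.2 hQ
    rw [h, Subgroup.comap_top] at this
    exact this.symm
  · have h1 : M < X.comap (mk' Q) := by
      refine lt_of_le_of_ne (Subgroup.map_le_iff_le_comap.1 hX.le) ?_
      intro h
      apply hX.ne
      rw [h, Subgroup.map_comap_eq_self_of_surjective hsurj]
    have h2 := hmax.2 _ h1
    rw [← Subgroup.map_comap_eq_self_of_surjective hsurj X, h2,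
      Subgroup.map_top_of_surjective _ hsurj]

theorem pnil_of_coreFree {M : Subgroup G} (hmax : IsCoatom M) (hnil : Group.IsNilpotent M)
    (hodd : Odd (Nat.card M))
    (hcf : ∀ Q : Subgroup G, Q.Normal → Q ≠ ⊥ → ¬ Q ≤ M) (p : ℕ) [hp : Fact p.Prime]
    (hpm : p ∣ Nat.card M) :
    Cfsg.Agent.Lib.FrobThm.PNil p (⊤ : Subgroup G) ∧ ∃ P : Sylow p G, (P : Subgroup G) ≤ M := by
  classical
  have hp2 : p ≠ 2 := by
    rintro rfl
    exact (Nat.not_even_iff_odd.2 hodd) (even_iff_two_dvd.2 hpm)
  have hnil' : Group.IsNilpotent M := hnil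
  have hM : Cfsg.Agent.Lib.FrobThm.PNil p M :=
    (Cfsg.Agent.Lib.FrobThm.hasNormalPComplement_iff_pNil M).1
      (Cfsg.Agent.Lib.Transfer.hasNormalPComplement_of_isNilpotent hnil)
  -- an arbitrary subgroup whose normalizer contains `M` and which lies in `M`
  have hnorm : ∀ X : Subgroup G, X ≤ M → X ≠ ⊥ → M ≤ Subgroup.normalizer (X : Set G) →
      Subgroup.normalizer (X : Set G) = M := by
    intro X hXM hXb hle
    by_contra hne
    have h1 := hmax.2 _ (lt_of_le_of_ne hle (Ne.symm hne))
    have h2 : X.Normal := Subgroup.normalizer_eq_top_iff.1 h1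
    exact hcf X h2 hXb hXM
  obtain ⟨S₁⟩ : Nonempty (Sylow p M) := inferInstance
  have hS₁n : (S₁ : Subgroup M).Normal :=
    Sylow.normal_of_normalizerCondition (normalizerCondition_of_isNilpotent) S₁
  have hsub : Subsingleton (Sylow p M) := (Sylow.unique_of_normal S₁ hS₁n).instSubsingleton
  set S : Subgroup G := (S₁ : Subgroup M).map M.subtype with hS
  have hSM : S ≤ M := by
    rintro x ⟨y, -, rfl⟩
    exact y.2
  have hSp : IsPGroup p S := S₁.2.map _
  have hSb : S ≠ ⊥ := by
    intro h
    have h1 := S₁.ne_bot_of_dvd_card hpm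
    apply h1
    exact (Subgroup.map_eq_bot_iff_of_injective _ M.subtype_injective).1 h
  have hMS : M ≤ Subgroup.normalizer (S : Set G) := by
    have hsg : S.subgroupOf M = (S₁ : Subgroup M) :=
      Subgroup.comap_map_eq_self_of_injective M.subtype_injective _
    apply (Subgroup.normal_subgroupOf_iff_le_normalizer hSM).1
    rw [hsg]
    exact hS₁n
  have hNS := hnorm S hSM hSb hMS
  obtain ⟨P₀, hSP⟩ := hSp.exists_le_sylow
  -- `p`-subgroups of `M` lie in `S`
  have hinM : ∀ x ∈ (P₀ : Subgroup G), x ∈ M → x ∈ S := by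
    intro x hxP hxM
    have hpg : IsPGroup p ((P₀ : Subgroup G).subgroupOf M) :=
      P₀.2.comap_of_injective _ M.subtype_injective
    obtain ⟨S₂, hS₂⟩ := hpg.exists_le_sylow
    have : S₂ = S₁ := Subsingleton.elim _ _
    subst this
    refine ⟨⟨x, hxM⟩, hS₂ ?_, rfl⟩
    exact hxP
  have hP₀ : (P₀ : Subgroup G) ≤ S := by
    by_contra hne
    have hnc : NormalizerCondition (P₀ : Subgroup G) :=
      @normalizerCondition_of_isNilpotent _ _ P₀.2.isNilpotent
    have hlt : S.subgroupOf (P₀ : Subgroup G) < ⊤ := by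
      refine lt_top_iff_ne_top.2 ?_
      intro h
      exact hne (Subgroup.subgroupOf_eq_top.1 h)
    have h1 := hnc _ hlt
    obtain ⟨y, hy1, hy2⟩ := SetLike.exists_of_lt h1
    apply hy2
    have hy3 : (y : G) ∈ Subgroup.normalizer (S : Set G) := by
      rw [Subgroup.mem_normalizer_iff]
      intro z
      rw [Subgroup.mem_normalizer_iff] at hy1
      constructor
      · intro hz
        have hz' : z ∈ (P₀ : Subgroup G) := hSP hz
        have := (hy1 ⟨z, hz'⟩).1 (by simpa [Subgroup.mem_subgroupOf] using hz)
        simpa [Subgroup.mem_subgroupOf] using this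
      · intro hz
        have hz' : (y : G) * z * (y : G)⁻¹ ∈ (P₀ : Subgroup G) := hSP hz
        have hz2 : z ∈ (P₀ : Subgroup G) := by
          have h5 := (P₀ : Subgroup G).mul_mem ((P₀ : Subgroup G).mul_mem (inv_mem y.2) hz') y.2
          simpa [mul_assoc] using h5
        have := (hy1 ⟨z, hz2⟩).2 (by simpa [Subgroup.mem_subgroupOf] using hz)
        simpa [Subgroup.mem_subgroupOf] using this
    rw [hNS] at hy3
    exact hinM _ y.2 hy3
  have hPS : (P₀ : Subgroup G) = S := le_antisymm hP₀ hSP
  refine ⟨?_, P₀, hPS ▸ hSM⟩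
  have hNP : M ≤ Subgroup.normalizer ((P₀ : Subgroup G) : Set G) := by rw [hPS]; exact hMS
  have hPb : (P₀ : Subgroup G) ≠ ⊥ := by rw [hPS]; exact hSb
  have hPM : (P₀ : Subgroup G) ≤ M := by rw [hPS]; exact hSM
  have hJ : Cfsg.Agent.Lib.FrobThm.PNil p
      (Subgroup.normalizer (Cfsg.Agent.Lib.FrobThm.JJ p (P₀ : Subgroup G) : Set G)) := by
    rw [hnorm _ (Cfsg.Agent.Lib.FrobThm.JJ_le.trans hPM)
      (Cfsg.Agent.Lib.FrobThm.JJ_ne_bot (dvd_refl p) P₀.2 hPb)
      (fun u hu => Cfsg.Agent.Lib.FrobThm.JJ_normalized (hNP hu))]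
    exact hM
  have hZ : Cfsg.Agent.Lib.FrobThm.PNil p
      (Subgroup.centralizer (Cfsg.Agent.Lib.FrobThm.ZZ (P₀ : Subgroup G) : Set G)) := by
    refine hM.mono ?_
    have h1 := hnorm _ ((Cfsg.Agent.Lib.FrobThm.ZZ_le _).trans hPM)
      (Cfsg.Agent.Lib.FrobThm.ZZ_ne_bot P₀.2 hPb)
      (fun u hu => Cfsg.Agent.Lib.FrobThm.ZZ_normalized (hNP hu))
    rw [← h1]
    exact Subgroup.centralizer_le_normalizer _
  exact Cfsg.Agent.Lib.FrobThm.thompson_pnil hp2 (dvd_refl p) P₀ hJ hZ

/-- The subgroup of elements of order prime to `m`, given `p`-nilpotence for `p ∣ m`. -/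
def coprimeSub (m : ℕ)
    (h : ∀ p : ℕ, p.Prime → p ∣ m → ∀ x y : G, (orderOf x).Coprime p → (orderOf y).Coprime p →
      (orderOf (x * y)).Coprime p) : Subgroup G where
  carrier := {x | (orderOf x).Coprime m}
  mul_mem' := by
    intro a b ha hb
    simp only [Set.mem_setOf_eq] at ha hb ⊢
    by_contra hne
    obtain ⟨p, hp, h1, h2⟩ := Nat.Prime.not_coprime_iff_dvd.1 hne
    have h3 := h p hp h2 a b (ha.coprime_dvd_right h2) (hb.coprime_dvd_right h2)
    exact (Nat.Prime.coprime_iff_not_dvd hp).1 h3.symm h1
  one_mem' := by simp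
  inv_mem' := by
    intro a ha
    simpa using ha

theorem main_aux : ∀ (n : ℕ) (G : Type u) [Group G] [Finite G] (M : Subgroup G), Nat.card G = n →
    IsCoatom M → Group.IsNilpotent M → Odd (Nat.card M) → Group.IsSolvable G := by
  intro n
  induction n using Nat.strong_induction_on with
  | _ n ih =>
  intro G _ _ M hcard hmax hnil hodd
  classical
  by_cases hQ : ∃ Q : Subgroup G, Q.Normal ∧ Q ≠ ⊥ ∧ Q ≤ M
  · obtain ⟨Q, hQn, hQb, hQM⟩ := hQ
    have hlt : Nat.card (G ⧸ Q) < n := by
      rw [← hcard]
      have h1 := Subgroup.card_eq_card_quotient_mul_card_subgroup Q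
      have h2 : 1 < Nat.card Q := by
        have : Nontrivial Q := (Subgroup.nontrivial_iff_ne_bot Q).2 hQb
        exact Finite.one_lt_card
      have h3 : 0 < Nat.card (G ⧸ Q) := Nat.card_pos
      nlinarith
    have hmapnil : Group.IsNilpotent (M.map (QuotientGroup.mk' Q)) := by
      have h1 : Function.Surjective ((QuotientGroup.mk' Q).subgroupMap M) :=
        (QuotientGroup.mk' Q).subgroupMap_surjective M
      exact nilpotent_of_surjective _ h1
    have hmapodd : Odd (Nat.card (M.map (QuotientGroup.mk' Q))) :=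
      Odd.of_dvd_nat hodd (Subgroup.card_map_dvd _ _)
    have h1 : Group.IsSolvable (G ⧸ Q) :=
      ih _ hlt (G ⧸ Q) (M.map (QuotientGroup.mk' Q)) rfl (quotient_coatom' hmax hQM) hmapnil hmapodd
    have h2 : Group.IsSolvable Q := by
      have h3 : Group.IsSolvable M := inferInstance
      exact solvable_of_solvable_injective (f := Subgroup.inclusion hQM) (Subgroup.inclusion_injective hQM)
    exact solvable_of_ker_le_range Q.subtype (QuotientGroup.mk' Q) (by simp)
  · have hcf : ∀ Q : Subgroup G, Q.Normal → Q ≠ ⊥ → ¬ Q ≤ M := by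
      intro Q h1 h2 h3
      exact hQ ⟨Q, h1, h2, h3⟩
    set m := Nat.card M with hm
    have hPN : ∀ p : ℕ, p.Prime → p ∣ m → ∀ x y : G, (orderOf x).Coprime p → (orderOf y).Coprime p →
        (orderOf (x * y)).Coprime p := by
      intro p hp hpm x y hx hy
      haveI : Fact p.Prime := ⟨hp⟩
      exact (pnil_of_coreFree hmax hnil hodd hcf p hpm).1 x trivial y trivial hx hy
    set T : Subgroup G := coprimeSub m hPN with hT
    have hTmem : ∀ x, x ∈ T ↔ (orderOf x).Coprime m := fun x => Iff.rfl
    have hTn : T.Normal := by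
      constructor
      intro x hx g
      rw [hTmem] at hx ⊢
      rw [Cfsg.Agent.Lib.Techniques.orderOf_conj_eq]
      exact hx
    -- elements of `M ⊓ T` are trivial
    have hinf : ∀ x, x ∈ M → x ∈ T → x = 1 := by
      intro x hxM hxT
      have h1 : orderOf x ∣ m := by
        have := orderOf_dvd_natCard (⟨x, hxM⟩ : M)
        rwa [Subgroup.orderOf_mk] at this
      have h2 : (orderOf x).Coprime m := hxT
      have h3 := Nat.Coprime.eq_one_of_dvd h2 h1
      exact orderOf_eq_one_iff.1 h3
    -- a prime divisor of the index gives an element of `T` outside `M`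
    have hTM : M ⊔ T = ⊤ := by
      by_contra hne
      have h0 : T ≤ M := by
        by_contra h1
        exact hne (hmax.2 _ (lt_of_le_of_ne le_sup_left (by
          intro h2
          exact h1 (h2 ▸ le_sup_right))))
      have hTbot : T = ⊥ := by
        by_contra h1
        exact hcf T hTn h1 h0
      -- an element of prime order not dividing `m`
      have hidx : M.index ≠ 1 := by
        intro h
        exact hmax.1 (Subgroup.index_eq_one.1 h)
      obtain ⟨q, hq, hqi⟩ := Nat.exists_prime_and_dvd hidx
      haveI : Fact q.Prime := ⟨hq⟩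
      have hqG : q ∣ Nat.card G := hqi.trans (Subgroup.index_dvd_card M)
      obtain ⟨x, hx⟩ := exists_prime_orderOf_dvd_card' q hqG
      have hqm : ¬ q ∣ m := by
        intro hqm
        obtain ⟨P, hPM⟩ := (pnil_of_coreFree hmax hnil hodd hcf q hqm).2
        apply P.not_dvd_index
        exact hqi.trans (Subgroup.index_dvd_of_le hPM)
      have hxT : x ∈ T := by
        rw [hTmem, hx]
        exact (Nat.Prime.coprime_iff_not_dvd hq).2 hqm
      rw [hTbot, Subgroup.mem_bot] at hxT
      rw [hxT, orderOf_one] at hx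
      exact hq.one_lt.ne hx
    -- `G / T` is solvable
    have hquot : Group.IsSolvable (G ⧸ T) := by
      have hsurj : Function.Surjective ((QuotientGroup.mk' T).comp M.subtype) := by
        intro y
        obtain ⟨g, rfl⟩ := QuotientGroup.mk'_surjective T y
        have hg : g ∈ M ⊔ T := by rw [hTM]; trivial
        obtain ⟨a, ha, b, hb, rfl⟩ := Subgroup.mem_sup_of_normal_right.1 hg
        refine ⟨⟨a, ha⟩, ?_⟩
        simp only [MonoidHom.comp_apply, Subgroup.subtype_apply, QuotientGroup.mk'_apply]
        rw [QuotientGroup.eq]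
        simpa using hb
      have : Group.IsSolvable M := inferInstance
      exact solvable_of_surjective hsurj
    -- `T` is a `q`-group
    have hTsol : Group.IsSolvable T := by
      by_cases hTb : T = ⊥
      · have : Subsingleton T := by
          rw [hTb]
          infer_instance
        infer_instance
      · obtain ⟨q, hq, hqT⟩ : ∃ q, q.Prime ∧ q ∣ Nat.card T := by
          refine Nat.exists_prime_and_dvd ?_
          intro h1
          exact hTb (Subgroup.card_eq_one.1 h1)
        haveI : Fact q.Prime := ⟨hq⟩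
        have hcop : (Nat.card M).Coprime (Nat.card T) := by
          by_contra hne
          obtain ⟨p, hp, h1, h2⟩ := Nat.Prime.not_coprime_iff_dvd.1 hne
          haveI : Fact p.Prime := ⟨hp⟩
          obtain ⟨x, hx⟩ := exists_prime_orderOf_dvd_card' (G := T) p h2
          have h3 : (orderOf (x : G)).Coprime m := x.2
          rw [Subgroup.orderOf_coe, hx] at h3
          exact (Nat.Prime.coprime_iff_not_dvd hp).1 h3 h1
        have hsM : Group.IsSolvable M := inferInstance
        obtain ⟨P, hP⟩ := Cfsg.Agent.Lib.Hall.exists_invariant_sylow M T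
          (by rw [Subgroup.normalizer_eq_top]; exact le_top) hcop (Or.inl hsM) q
        set R : Subgroup G := (P : Subgroup T).map T.subtype with hR
        have hRT : R ≤ T := by
          rintro x ⟨y, -, rfl⟩
          exact y.2
        have hRp : IsPGroup q R := P.2.map _
        have hRb : R ≠ ⊥ := by
          intro h
          exact P.ne_bot_of_dvd_card hqT
            ((Subgroup.map_eq_bot_iff_of_injective _ T.subtype_injective).1 h)
        have hMR : M ⊔ R = ⊤ := by
          refine hmax.2 _ (lt_of_le_of_ne le_sup_left ?_)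
          intro h
          have hRM : R ≤ M := h ▸ le_sup_right
          apply hRb
          rw [eq_bot_iff]
          intro x hx
          exact hinf x (hRM hx) (hRT hx)
        have hTR : T ≤ R := by
          intro t ht
          have h1 : t ∈ M ⊔ R := by rw [hMR]; trivial
          obtain ⟨a, ha, b, hb, rfl⟩ := (Cfsg.Agent.Lib.FrobThm.mem_sup_of_le_normalizer hP).1 h1
          have h2 : a ∈ T := by
            have := T.mul_mem ht (T.inv_mem (hRT hb))
            simpa using this
          rw [hinf a ha h2, one_mul]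
          exact hb
        have hTp : IsPGroup q T := hRp.to_le hTR
        have hTn' : Group.IsNilpotent T := hTp.isNilpotent
        infer_instance
    exact solvable_of_ker_le_range T.subtype (QuotientGroup.mk' T) (by simp)

end Aux

/-- A finite group possessing a maximal subgroup that is nilpotent of odd order is solvable. -/
theorem result {G : Type*} [Group G] [Finite G]
    (M : Subgroup G) (hmax : IsCoatom M) (hnil : Group.IsNilpotent M) (hodd : Odd (Nat.card M)) :
    Group.IsSolvable G := by
  exact main_aux _ G M rfl hmax hnil hodd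


end Cfsg.Agent.S4040
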