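import Cfsg.Statements.S4043
import Mathlib
import Cfsg.Agent.Lib.Coprime.SZ
import Cfsg.Agent.Lib.Coprime.SZ2
import Cfsg.Agent.Lib.Core.Basic

set_option autoImplicit false
open Cfsg

namespace Cfsg.Agent.S4043

/-- Let G be a finite group that is the semidirect product of a normal p-subgroup N by a subgroup A, and also of N by a subgroup A₁, where p is a prime and A and A₁ both have normal p-complements. If C_N(A) = C_N(A₁) = 1, then A₁ is conjugate to A by an element of N. -/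
theorem result {G : Type*} [Group G] [Finite G] {p : ℕ}
    [Fact p.Prime] (N : Subgroup G) [N.Normal] (hN : IsPGroup p N) (A A₁ : Subgroup G)
    (hA : A.IsComplement' N) (hA₁ : A₁.IsComplement' N)
    (hAp : Cfsg.HasNormalPComplement p A) (hA₁p : Cfsg.HasNormalPComplement p A₁)
    (hC : ∀ n : G, n ∈ N → (∀ a : G, a ∈ A → a * n * a⁻¹ = n) → n = 1)
    (hC₁ : ∀ n : G, n ∈ N → (∀ a : G, a ∈ A₁ → a * n * a⁻¹ = n) → n = 1) :
    ∃ n : G, n ∈ N ∧ A₁ = A.map (MulAut.conj n).toMonoidHom := by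
  classical
  obtain ⟨P₀, B₀, hB₀n, hB₀c⟩ := hAp
  obtain ⟨P₁, B₁, hB₁n, hB₁c⟩ := hA₁p
  -- images in G
  let B' : Subgroup G := B₀.map A.subtype
  let U' : Subgroup G := (P₀ : Subgroup A).map A.subtype
  let C' : Subgroup G := B₁.map A₁.subtype
  let V' : Subgroup G := (P₁ : Subgroup A₁).map A₁.subtype
  have hB'A : B' ≤ A := Subgroup.map_subtype_le _
  have hC'A : C' ≤ A₁ := Subgroup.map_subtype_le _
  have hV'A : V' ≤ A₁ := Subgroup.map_subtype_le _
  have hU'A : U' ≤ A := Subgroup.map_subtype_le _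
  have hcB' : Nat.card B' = Nat.card B₀ := Subgroup.card_map_of_injective A.subtype_injective
  have hcU' : Nat.card U' = Nat.card (P₀ : Subgroup A) := Subgroup.card_map_of_injective A.subtype_injective
  have hcC' : Nat.card C' = Nat.card B₁ := Subgroup.card_map_of_injective A₁.subtype_injective
  have hcV' : Nat.card V' = Nat.card (P₁ : Subgroup A₁) := Subgroup.card_map_of_injective A₁.subtype_injective
  have hpB' : ¬ p ∣ Nat.card B' := by
    rw [hcB', ← hB₀c.index_eq_card]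
    exact P₀.not_dvd_index
  have hpC' : ¬ p ∣ Nat.card C' := by
    rw [hcC', ← hB₁c.index_eq_card]
    exact P₁.not_dvd_index
  have hU'p : IsPGroup p U' := P₀.isPGroup'.map _
  have hV'p : IsPGroup p V' := P₁.isPGroup'.map _
  -- decompositions
  have hAdec : ∀ a ∈ A, ∃ b ∈ B', ∃ u ∈ U', a = b * u := by
    intro a ha
    obtain ⟨⟨b, u⟩, h⟩ := hB₀c.2 ⟨a, ha⟩
    refine ⟨(b : A), ⟨b, b.2, rfl⟩, ((u : (P₀ : Subgroup A)) : A), ⟨u, u.2, rfl⟩, ?_⟩
    have := congrArg Subtype.val h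
    simpa using this.symm
  have hA₁dec : ∀ a ∈ A₁, ∃ b ∈ C', ∃ u ∈ V', a = b * u := by
    intro a ha
    obtain ⟨⟨b, u⟩, h⟩ := hB₁c.2 ⟨a, ha⟩
    refine ⟨(b : A₁), ⟨b, b.2, rfl⟩, ((u : (P₁ : Subgroup A₁)) : A₁), ⟨u, u.2, rfl⟩, ?_⟩
    have := congrArg Subtype.val h
    simpa using this.symm
  have hB'norm : ∀ a ∈ A, ∀ b ∈ B', a * b * a⁻¹ ∈ B' := by
    rintro a ha _ ⟨b, hb, rfl⟩
    exact ⟨_, hB₀n.conj_mem b hb ⟨a, ha⟩, rfl⟩
  have hC'norm : ∀ a ∈ A₁, ∀ b ∈ C', a * b * a⁻¹ ∈ C' := by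
    rintro a ha _ ⟨b, hb, rfl⟩
    exact ⟨_, hB₁n.conj_mem b hb ⟨a, ha⟩, rfl⟩
  have hcardA : Nat.card A = Nat.card A₁ :=
    Nat.eq_of_mul_eq_mul_right Nat.card_pos (hA.card_mul.trans hA₁.card_mul.symm)
  -- the orders of the complements agree
  have hcBC : Nat.card B' = Nat.card C' := by
    have h1 : Nat.card B' * Nat.card U' = Nat.card A := by
      rw [hcB', hcU']; exact hB₀c.card_mul
    have h2 : Nat.card C' * Nat.card V' = Nat.card A₁ := by
      rw [hcC', hcV']; exact hB₁c.card_mul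
    have hnd : ∀ x y x' y' : ℕ, x * y = x' * y' → ¬ p ∣ x → ¬ p ∣ x' → (∃ k, y = p ^ k) → (∃ k, y' = p ^ k) → x = x' := by
      intro x y x' y' h hx hx' ⟨k, hk⟩ ⟨l, hl⟩
      subst hk hl
      have hcop : x.Coprime (p ^ l) := Nat.Coprime.pow_right _ ((Nat.Prime.coprime_iff_not_dvd Fact.out).mpr hx).symm
      have hcop' : x'.Coprime (p ^ k) := Nat.Coprime.pow_right _ ((Nat.Prime.coprime_iff_not_dvd Fact.out).mpr hx').symm
      exact Nat.dvd_antisymm (hcop.dvd_of_dvd_mul_right (Dvd.intro _ h)) (hcop'.dvd_of_dvd_mul_right (Dvd.intro _ h.symm))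
    exact hnd _ _ _ _ (by rw [h1, h2, hcardA]) hpB' hpC' (IsPGroup.iff_card.mp hU'p) (IsPGroup.iff_card.mp hV'p)
  -- the normal subgroup D = N ⊔ B'
  have hGdec : ∀ g : G, ∃ a ∈ A, ∃ n ∈ N, g = a * n := by
    intro g
    obtain ⟨⟨a, n⟩, h⟩ := hA.2 g
    exact ⟨a, a.2, n, n.2, h.symm⟩
  have hGdec₁ : ∀ g : G, ∃ a ∈ A₁, ∃ n ∈ N, g = a * n := by
    intro g
    obtain ⟨⟨a, n⟩, h⟩ := hA₁.2 g
    exact ⟨a, a.2, n, n.2, h.symm⟩
  have hDmem : ∀ x, x ∈ N ⊔ B' ↔ ∃ n ∈ N, ∃ b ∈ B', x = n * b := by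
    intro x
    rw [Subgroup.mem_sup_of_normal_left]
    constructor
    · rintro ⟨n, hn, b, hb, rfl⟩
      exact ⟨n, hn, b, hb, rfl⟩
    · rintro ⟨n, hn, b, hb, rfl⟩
      exact ⟨n, hn, b, hb, rfl⟩
  have hDn : (N ⊔ B').Normal := by
    constructor
    intro x hx g
    rw [hDmem] at hx ⊢
    obtain ⟨n, hn, b, hb, rfl⟩ := hx
    obtain ⟨a, ha, m, hm, rfl⟩ := hGdec g
    -- conjugate first by m then by a
    have h1 : m * b * m⁻¹ * b⁻¹ ∈ N := by
      have h2 : b * m⁻¹ * b⁻¹ ∈ N := ‹N.Normal›.conj_mem _ (N.inv_mem hm) b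
      have h3 : m * b * m⁻¹ * b⁻¹ = m * (b * m⁻¹ * b⁻¹) := by group
      rw [h3]
      exact N.mul_mem hm h2
    refine ⟨a * (m * n * m⁻¹ * (m * b * m⁻¹ * b⁻¹)) * a⁻¹, ?_, a * b * a⁻¹, hB'norm a ha b hb, ?_⟩
    · refine ‹N.Normal›.conj_mem _ (N.mul_mem (‹N.Normal›.conj_mem _ hn m) h1) a
    · group
  have hC'le : C' ≤ N ⊔ B' := by
    intro c hc
    haveI := hDn
    have hordc : (orderOf c).Coprime p := by
      have h1 : orderOf c ∣ Nat.card C' := Subgroup.orderOf_dvd_natCard C' hc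
      have h2 : (Nat.card C').Coprime p := ((Nat.Prime.coprime_iff_not_dvd Fact.out).mpr hpC').symm
      exact Nat.Coprime.coprime_dvd_left h1 h2
    obtain ⟨a, ha, m, hm, hcam⟩ := hGdec c
    obtain ⟨b, hb, u, hu, rfl⟩ := hAdec a ha
    -- in the quotient, c equals u
    let φ := QuotientGroup.mk' (N ⊔ B')
    have hφb : φ b = 1 := (QuotientGroup.eq_one_iff b).mpr ((le_sup_right : B' ≤ N ⊔ B') hb)
    have hφm : φ m = 1 := (QuotientGroup.eq_one_iff m).mpr ((le_sup_left : N ≤ N ⊔ B') hm)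
    have hφc : φ c = φ u := by
      rw [hcam, map_mul, map_mul, hφb, hφm, one_mul, mul_one]
    obtain ⟨e, he⟩ := (IsPGroup.iff_orderOf.mp hU'p) ⟨u, hu⟩
    have he' : u ^ p ^ e = 1 := by
      have h0 : orderOf u = p ^ e := by
        rw [← he]
        exact (Subgroup.orderOf_mk u hu).symm
      rw [← h0]
      exact pow_orderOf_eq_one u
    have h5 : φ c ^ p ^ e = 1 := by rw [hφc, ← map_pow, he', map_one]
    have h6 : φ c ^ orderOf c = 1 := by rw [← map_pow, pow_orderOf_eq_one, map_one]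
    have h7 : orderOf (φ c) = 1 := by
      have h8 : orderOf (φ c) ∣ Nat.gcd (p ^ e) (orderOf c) :=
        Nat.dvd_gcd (orderOf_dvd_of_pow_eq_one h5) (orderOf_dvd_of_pow_eq_one h6)
      rw [Nat.Coprime.gcd_eq_one (Nat.Coprime.pow_left _ hordc.symm)] at h8
      exact Nat.dvd_one.mp h8
    exact (QuotientGroup.eq_one_iff c).mp (orderOf_eq_one_iff.mp h7)
  have hcopN : (Nat.card N).Coprime (Nat.card B') := by
    obtain ⟨k, hk⟩ := IsPGroup.iff_card.mp hN
    rw [hk]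
    exact Nat.Coprime.pow_left _ ((Nat.Prime.coprime_iff_not_dvd Fact.out).mpr hpB')
  have hcopN' : (Nat.card N).Coprime (Nat.card C') := by rwa [← hcBC]
  have hsup : B' ⊔ N = C' ⊔ N := by
    symm
    apply Subgroup.eq_of_le_of_card_ge
    · exact sup_le (by rw [sup_comm]; exact hC'le) le_sup_right
    · have h1 : Nat.card (B' ⊔ N : Subgroup G) ∣ Nat.card B' * Nat.card N :=
        Cfsg.Agent.Lib.Core.card_sup_dvd B' N
      have h2 : Nat.card C' * Nat.card N ∣ Nat.card (C' ⊔ N : Subgroup G) :=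
        hcopN'.symm.mul_dvd_of_dvd_of_dvd (Subgroup.card_dvd_of_le le_sup_left)
          (Subgroup.card_dvd_of_le le_sup_right)
      rw [← hcBC] at h2
      exact Nat.le_of_dvd Nat.card_pos (h1.trans h2)
  have hNsol : Group.IsSolvable N := by
    haveI := hN.isNilpotent
    infer_instance
  obtain ⟨n, hn, hCn⟩ := Cfsg.Agent.Lib.Coprime.exists_conj_of_sup_eq hcopN hcBC hsup (Or.inl hNsol)
  refine ⟨n, hn, ?_⟩
  -- the normaliser of C' lies in A₁
  have hNC'bot : ∀ x ∈ N, ∀ y ∈ C', x = y → x = 1 := by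
    intro x hx y hy hxy
    subst hxy
    have h1 : orderOf x ∣ Nat.card N := Subgroup.orderOf_dvd_natCard N hx
    have h2 : orderOf x ∣ Nat.card C' := Subgroup.orderOf_dvd_natCard C' hy
    have h3 := Nat.dvd_gcd h1 h2
    rw [hcopN'.gcd_eq_one] at h3
    exact orderOf_eq_one_iff.mp (Nat.dvd_one.mp h3)
  let C0 : Subgroup G := N ⊓ Subgroup.normalizer (C' : Set G)
  have hC0comm : ∀ x ∈ C0, ∀ c ∈ C', x * c = c * x := by
    intro x hx c hc
    have h1 : x * c * x⁻¹ ∈ C' := (Subgroup.mem_normalizer_iff.mp hx.2 c).mp hc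
    have h2 : x * c * x⁻¹ * c⁻¹ ∈ N := by
      have h3 : c * x⁻¹ * c⁻¹ ∈ N := ‹N.Normal›.conj_mem _ (N.inv_mem hx.1) c
      have h4 : x * c * x⁻¹ * c⁻¹ = x * (c * x⁻¹ * c⁻¹) := by group
      rw [h4]
      exact N.mul_mem hx.1 h3
    have h5 := hNC'bot _ h2 _ (C'.mul_mem h1 (C'.inv_mem hc)) rfl
    calc x * c = (x * c * x⁻¹ * c⁻¹) * (c * x) := by group
      _ = c * x := by rw [h5, one_mul]
  have hC'normA₁ : A₁ ≤ Subgroup.normalizer (C' : Set G) := by
    intro a ha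
    apply Subgroup.mem_normalizer_iff.mpr
    intro c
    constructor
    · exact hC'norm a ha c
    · intro hc
      have := hC'norm a⁻¹ (A₁.inv_mem ha) _ hc
      simpa [mul_assoc] using this
  have hC0stable : ∀ v ∈ V', ∀ x ∈ C0, v * x * v⁻¹ ∈ C0 := by
    intro v hv x hx
    refine ⟨‹N.Normal›.conj_mem _ hx.1 v, ?_⟩
    have hv' := hC'normA₁ (hV'A hv)
    exact Subgroup.mul_mem _ (Subgroup.mul_mem _ hv' hx.2) (Subgroup.inv_mem _ hv')
  have hC0bot : C0 = ⊥ := by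
    by_contra hne
    have hC0p : IsPGroup p C0 := hN.to_le inf_le_left
    letI act : MulAction V' C0 :=
      { smul := fun v x => ⟨(v : G) * x * (v : G)⁻¹, hC0stable v v.2 x x.2⟩
        one_smul := fun x => by
          apply Subtype.ext
          show ((1 : V') : G) * x * ((1 : V') : G)⁻¹ = x
          simp
        mul_smul := fun v w x => by
          apply Subtype.ext
          show ((v * w : V') : G) * x * ((v * w : V') : G)⁻¹ = (v : G) * ((w : G) * x * (w : G)⁻¹) * (v : G)⁻¹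
          simp only [Subgroup.coe_mul]
          group }
    have h1 : (1 : C0) ∈ MulAction.fixedPoints V' C0 := by
      intro v
      apply Subtype.ext
      show (v : G) * ((1 : C0) : G) * (v : G)⁻¹ = ((1 : C0) : G)
      simp
    have hpd : p ∣ Nat.card C0 := by
      obtain ⟨k, hk⟩ := IsPGroup.iff_card.mp hC0p
      have hk0 : k ≠ 0 := by
        rintro rfl
        rw [pow_zero] at hk
        exact hne (Subgroup.card_eq_one.mp hk)
      rw [hk]
      exact dvd_pow_self p hk0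
    obtain ⟨b, hb, hb1⟩ := hV'p.exists_fixed_point_of_prime_dvd_card_of_fixed_point C0 hpd h1
    have hb2 : (b : G) ≠ 1 := fun h0 => hb1 (Subtype.ext h0.symm)
    apply hb2
    apply hC₁ b b.2.1
    intro a ha
    obtain ⟨c, hc, v, hv, rfl⟩ := hA₁dec a ha
    have h3 : (v : G) * (b : G) * v⁻¹ = b := by
      have := hb ⟨v, hv⟩
      exact congrArg Subtype.val this
    have h4 := hC0comm b b.2 c hc
    calc c * v * b * (c * v)⁻¹ = c * (v * b * v⁻¹) * c⁻¹ := by group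
      _ = c * b * c⁻¹ := by rw [h3]
      _ = b := by rw [← h4]; group
  have hnormle : Subgroup.normalizer (C' : Set G) ≤ A₁ := by
    intro x hx
    obtain ⟨a, ha, m, hm, rfl⟩ := hGdec₁ x
    have h1 : m ∈ Subgroup.normalizer (C' : Set G) := by
      have h2 : m = a⁻¹ * (a * m) := by group
      rw [h2]
      exact Subgroup.mul_mem _ (Subgroup.inv_mem _ (hC'normA₁ ha)) hx
    have h3 : m ∈ C0 := ⟨hm, h1⟩
    rw [hC0bot, Subgroup.mem_bot] at h3
    rw [h3, mul_one]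
    exact ha
  -- conclusion
  symm
  apply Subgroup.eq_of_le_of_card_ge
  · rintro _ ⟨a, ha, rfl⟩
    apply hnormle
    apply Subgroup.mem_normalizer_iff.mpr
    intro c
    have hconj : ∀ a ∈ A, ∀ c ∈ C', (n * a * n⁻¹) * c * (n * a * n⁻¹)⁻¹ ∈ C' := by
      intro a ha c hc
      rw [hCn] at hc ⊢
      obtain ⟨b, hb, rfl⟩ := hc
      refine ⟨a * b * a⁻¹, hB'norm a ha b hb, ?_⟩
      simp only [MulEquiv.coe_toMonoidHom, MulAut.conj_apply]
      group
    show c ∈ C' ↔ (n * a * n⁻¹) * c * (n * a * n⁻¹)⁻¹ ∈ C'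
    constructor
    · exact hconj a ha c
    · intro hc
      have := hconj a⁻¹ (A.inv_mem ha) _ hc
      have h9 : n * a⁻¹ * n⁻¹ * (n * a * n⁻¹ * c * (n * a * n⁻¹)⁻¹) * (n * a⁻¹ * n⁻¹)⁻¹ = c := by group
      rwa [h9] at this
  · have h1 : Nat.card (A.map (MulAut.conj n).toMonoidHom) = Nat.card A :=
      Subgroup.card_map_of_injective (MulAut.conj n).injective
    rw [h1, hcardA]

end Cfsg.Agent.S4043
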