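import Cfsg.Statements.S4049
import Mathlib
import Cfsg.Agent.Lib.Cl.NoInvert

set_option autoImplicit false
open Cfsg

namespace Cfsg.Agent.S4049

/-- Let G be a finite group such that N_G(H)/C_G(H) has odd order for every nontrivial subgroup H of odd order. Then the Sylow 2-subgroups of G are normal. -/
theorem result {G : Type*} [Group G] [Finite G]
    (hhom : ∀ H : Subgroup G, H ≠ ⊥ → ¬ 2 ∣ Nat.card ↥H →
        ¬ 2 ∣ (Subgroup.centralizer (H : Set G)).relIndex (Subgroup.normalizer (H : Set G))) (P : Sylow 2 G) :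
    (P : Subgroup G).Normal := by
  refine Cfsg.Agent.Lib.Cl.normal_of_noInv ?_ P
  intro v w q hq hq2 hv hw
  have hn : w ∈ Subgroup.normalizer ((Subgroup.zpowers v : Subgroup G) : Set G) := by
    apply Cfsg.Agent.Lib.Hall.mem_normalizer_of_conj_le
    intro a ha
    obtain ⟨i, rfl⟩ := Subgroup.mem_zpowers_iff.mp ha
    rw [← conj_zpow, hw]
    exact zpow_mem (inv_mem (Subgroup.mem_zpowers v)) i
  set H : Subgroup G := Subgroup.zpowers v with hH
  have hv1 : v ≠ 1 := by
    intro h
    rw [h, orderOf_one] at hv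
    exact hq.ne_one hv.symm
  have hH1 : H ≠ ⊥ := by
    intro h
    exact hv1 (Subgroup.zpowers_eq_bot.mp h)
  have hHodd : ¬ 2 ∣ Nat.card H := by
    rw [hH, Nat.card_zpowers, hv]
    intro h
    exact hq2 ((Nat.prime_dvd_prime_iff_eq Nat.prime_two hq).mp h).symm
  apply hhom H hH1 hHodd
  -- the centralizer is normal in the normalizer
  let C := (Subgroup.centralizer (H : Set G)).subgroupOf (Subgroup.normalizer (H : Set G))
  haveI hCn : C.Normal := by
    refine ⟨fun c hc n => ?_⟩
    apply Subgroup.mem_subgroupOf.mpr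
    rw [Subgroup.mem_centralizer_iff]
    intro h hh
    have hc' : (c : G) ∈ Subgroup.centralizer (H : Set G) := Subgroup.mem_subgroupOf.mp hc
    rw [Subgroup.mem_centralizer_iff] at hc'
    have h1 : (n : G)⁻¹ * h * n ∈ H := by
      have hninv := (Subgroup.mem_normalizer_iff.mp n.2 h).mp hh
      have h2 := (Subgroup.mem_normalizer_iff.mp (inv_mem n.2) h).mp hh
      simpa using h2
    have h3 := hc' _ h1
    show h * ((n : G) * c * (n : G)⁻¹) = (n : G) * c * (n : G)⁻¹ * h
    have h4 : h = n * ((n : G)⁻¹ * h * n) * (n : G)⁻¹ := by group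
    calc h * ((n : G) * c * (n : G)⁻¹)
        = n * (((n : G)⁻¹ * h * n) * c) * (n : G)⁻¹ := by group
      _ = n * (c * ((n : G)⁻¹ * h * n)) * (n : G)⁻¹ := by rw [h3]
      _ = (n : G) * c * (n : G)⁻¹ * h := by group
  have hmemC : ∀ x : Subgroup.normalizer (H : Set G), x ∈ C ↔ Commute (x : G) v := by
    intro x
    constructor
    · intro hx
      have h1 : (x : G) ∈ Subgroup.centralizer (H : Set G) := Subgroup.mem_subgroupOf.mp hx
      rw [Subgroup.mem_centralizer_iff] at h1
      exact (h1 v (Subgroup.mem_zpowers v)).symm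
    · intro hx
      apply Subgroup.mem_subgroupOf.mpr
      rw [Subgroup.mem_centralizer_iff]
      intro h hh
      obtain ⟨i, rfl⟩ := Subgroup.mem_zpowers_iff.mp hh
      exact (hx.zpow_right i).symm
  -- the image of `w` has order two
  let wb : Subgroup.normalizer (H : Set G) ⧸ C := QuotientGroup.mk ⟨w, hn⟩
  have hwC : ¬ Commute w v := by
    intro hc
    have h2 : w * v * w⁻¹ = v := by
      rw [hc.eq]; group
    rw [h2] at hw
    have h3 : v ^ 2 = 1 := by
      rw [pow_two]
      nth_rewrite 1 [hw]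
      simp
    have h4 := orderOf_dvd_of_pow_eq_one h3
    rw [hv] at h4
    exact hq2 ((Nat.prime_dvd_prime_iff_eq hq Nat.prime_two).mp h4)
  haveI : Fact (Nat.Prime 2) := ⟨Nat.prime_two⟩
  have hw2 : orderOf wb = 2 := by
    apply orderOf_eq_prime
    · show ((( (⟨w, hn⟩ : Subgroup.normalizer (H : Set G)) ^ 2 : Subgroup.normalizer (H : Set G))) : Subgroup.normalizer (H : Set G) ⧸ C) = 1
      rw [QuotientGroup.eq_one_iff, hmemC]
      show Commute (w ^ 2) v
      show w ^ 2 * v = v * w ^ 2
      have h1 : w * v = v⁻¹ * w := by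
        rw [← hw]; group
      have h2 : w * v⁻¹ = v * w := by
        have h3 : w * v⁻¹ * w⁻¹ = v := by
          have := congrArg (·⁻¹) hw
          simpa [mul_assoc] using this
        calc w * v⁻¹ = (w * v⁻¹ * w⁻¹) * w := by group
          _ = v * w := by rw [h3]
      calc w ^ 2 * v = w * (w * v) := by rw [pow_two, mul_assoc]
        _ = w * (v⁻¹ * w) := by rw [h1]
        _ = (w * v⁻¹) * w := by rw [mul_assoc]
        _ = (v * w) * w := by rw [h2]
        _ = v * w ^ 2 := by rw [pow_two, mul_assoc]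
    · intro h
      apply hwC
      have := (QuotientGroup.eq_one_iff _).mp h
      exact (hmemC _).mp this
  have h5 : orderOf wb ∣ Nat.card (Subgroup.normalizer (H : Set G) ⧸ C) := orderOf_dvd_natCard wb
  rw [hw2] at h5
  exact h5

end Cfsg.Agent.S4049
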