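import Cfsg.Statements.S4050
import Mathlib
import Cfsg.Agent.Lib.Cl.PiClosed

set_option autoImplicit false
open Cfsg

namespace Cfsg.Agent.S4050

open Cfsg.Agent.Lib.Cl.PiClosed

/-- Let π be a set of primes and G a finite group. The π-elements of G (elements whose order is divisible only by primes of π) form a subgroup if and only if G is π-separable (it has a chain of normal subgroups from 1 to G with each successive index divisible only by primes in π or only by primes outside π) and N_G(H)/C_G(H) is a π'-group for every nontrivial π'-subgroup H of G. -/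
theorem result {G : Type*} [Group G] [Finite G] (π : Set ℕ)
    (hπ : ∀ p ∈ π, p.Prime) :
    (∃ K : Subgroup G, ∀ x : G, x ∈ K ↔ ∀ p : ℕ, p.Prime → p ∣ orderOf x → p ∈ π) ↔
    ((∃ (n : ℕ) (H : Fin (n + 1) → Subgroup G), H 0 = ⊥ ∧ H (Fin.last n) = ⊤ ∧ Monotone H ∧ (∀ i, (H i).Normal) ∧
      ∀ i : Fin n, (∀ q : ℕ, q.Prime → q ∣ (H i.castSucc).relIndex (H i.succ) → q ∈ π) ∨
        (∀ q : ℕ, q.Prime → q ∣ (H i.castSucc).relIndex (H i.succ) → q ∉ π)) ∧
     (∀ H : Subgroup G, H ≠ ⊥ → (∀ p : ℕ, p.Prime → p ∣ Nat.card ↥H → p ∉ π) →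
        ∀ p : ℕ, p.Prime → p ∣ (Subgroup.centralizer (H : Set G)).relIndex (Subgroup.normalizer (H : Set G)) → p ∉ π)) := by
  classical
  constructor
  · rintro ⟨K, hKmem⟩
    have hKn : K.Normal := ⟨fun x hx g => (hKmem _).2 (PE.conj ((hKmem x).1 hx) g)⟩
    have hHom : Hom π G := by
      intro U hU hc y hy hPE
      have hyK : y ∈ K := (hKmem y).2 hPE
      rw [Subgroup.mem_centralizer_iff]
      intro u hu
      have h1 : y * u⁻¹ * y⁻¹ ∈ U := (Subgroup.mem_normalizer_iff.1 hy _).1 (U.inv_mem hu)
      have h2 : u * (y * u⁻¹ * y⁻¹) ∈ U := U.mul_mem hu h1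
      have h3 : u * (y * u⁻¹ * y⁻¹) ∈ K := by
        have h4 : u * y * u⁻¹ ∈ K := hKn.conj_mem y hyK u
        have h5 := K.mul_mem h4 (K.inv_mem hyK)
        simpa [mul_assoc] using h5
      have h6 : PE π (u * (y * u⁻¹ * y⁻¹)) := (hKmem _).1 h3
      have h7 : u * (y * u⁻¹ * y⁻¹) = 1 := by
        by_contra hne
        have h5 : orderOf (u * (y * u⁻¹ * y⁻¹)) ≠ 1 := fun h => hne (orderOf_eq_one_iff.1 h)
        obtain ⟨p, hp, hd⟩ := Nat.exists_prime_and_dvd h5
        exact hc p hp (hd.trans (orderOf_dvd_card_of_mem h2)) (h6 p hp hd)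
      have h8 : u * y * u⁻¹ = y := by
        have h9 : u * y * u⁻¹ * y⁻¹ = 1 := by simpa [mul_assoc] using h7
        exact mul_inv_eq_one.1 h9
      exact mul_inv_eq_iff_eq_mul.1 h8
    refine ⟨⟨2, ![⊥, K, ⊤], rfl, rfl, ?_, ?_, ?_⟩, homI_of_hom hHom⟩
    · intro i j hij
      fin_cases i <;> fin_cases j <;> simp_all
    · intro i
      fin_cases i
      · exact Subgroup.normal_bot
      · exact hKn
      · exact (inferInstance : (⊤ : Subgroup G).Normal)
    · intro i
      fin_cases i
      · left
        intro q hq hd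
        haveI : Fact q.Prime := ⟨hq⟩
        have hd' : q ∣ Nat.card K := by simpa using hd
        obtain ⟨x, hx⟩ := exists_prime_orderOf_dvd_card' q hd'
        have h1 : PE π (x : G) := (hKmem _).1 x.2
        apply h1 q hq
        rw [Subgroup.orderOf_coe, hx]
      · right
        intro q hq hd hqπ
        haveI : Fact q.Prime := ⟨hq⟩
        have hd' : q ∣ Nat.card (G ⧸ K) := by
          have h1 : q ∣ K.index := by simpa using hd
          rwa [← Subgroup.index_eq_card]
        obtain ⟨z, hz⟩ := exists_prime_orderOf_dvd_card' q hd'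
        obtain ⟨x, rfl⟩ := QuotientGroup.mk'_surjective K z
        refine no_prime_quot (π := π) (QuotientGroup.mk' K) hq hqπ hz ?_
        rw [QuotientGroup.mk'_apply, QuotientGroup.eq_one_iff]
        exact (hKmem _).2 (PE_pow_ordCompl hq hqπ x)
  · rintro ⟨⟨n, H, hH0, hHl, hHm, hHn, hHf⟩, hhom⟩
    have hom' : Hom π G := hom_of_homI hhom
    -- closure in each term
    have hP : ∀ i : Fin (n + 1), ∀ x ∈ H i, ∀ y ∈ H i, PE π x → PE π y → PE π (x * y) := by
      intro i
      induction i using Fin.induction with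
      | zero =>
        intro x hx y hy _ _
        rw [hH0, Subgroup.mem_bot] at hx hy
        rw [hx, hy, one_mul]
        exact PE_one
      | succ i ih =>
        intro x hx y hy h1 h2
        haveI hn : (H i.castSucc).Normal := hHn _
        set Y := H i.succ with hY
        set K' : Subgroup Y := (H i.castSucc).subgroupOf Y with hK'
        haveI hK'n : K'.Normal := inferInstance
        have hK1 : ∀ a ∈ K', ∀ b ∈ K', PE π a → PE π b → PE π (a * b) := by
          intro a ha b hb h3 h4
          have h5 := ih (a : G) ha (b : G) hb (PE_coe.2 h3) (PE_coe.2 h4)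
          exact PE_coe.1 h5
        have hQ1 : ∀ a b : Y ⧸ K', PE π a → PE π b → PE π (a * b) := by
          have hcard : Nat.card (Y ⧸ K') = (H i.castSucc).relIndex (H i.succ) := by
            rw [← Subgroup.index_eq_card]
            rfl
          rcases hHf i with h3 | h3
          · intro a b _ _
            refine PE_of_dvd_num (n := Nat.card (Y ⧸ K')) (orderOf_dvd_natCard _) ?_
            rw [hcard]
            exact h3
          · have h4 : ∀ a : Y ⧸ K', PE π a → a = 1 := by
              intro a ha
              by_contra hne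
              have h5 : orderOf a ≠ 1 := fun h => hne (orderOf_eq_one_iff.1 h)
              obtain ⟨p, hp, hd⟩ := Nat.exists_prime_and_dvd h5
              have h6 : p ∣ (H i.castSucc).relIndex (H i.succ) := by
                rw [← hcard]
                exact hd.trans (orderOf_dvd_natCard _)
              exact h3 p hp h6 (ha p hp hd)
            intro a b ha hb
            rw [h4 a ha, h4 b hb, one_mul]
            exact PE_one
        have h6 := core (hom'.subgroup Y) K' hK1 hQ1 ⟨x, hx⟩ ⟨y, hy⟩ (PE_coe.1 h1) (PE_coe.1 h2)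
        exact PE_coe.2 h6
    refine exists_subgroup_iff.2 ?_
    intro x y hx hy
    exact hP (Fin.last n) x (by rw [hHl]; trivial) y (by rw [hHl]; trivial) hx hy


end Cfsg.Agent.S4050
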