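import Cfsg.Statements.S4051
import Mathlib
import Cfsg.Agent.Lib.Cl.PiClosed

set_option autoImplicit false
open Cfsg

namespace Cfsg.Agent.S4051

/-- Let π be a set of primes and G a finite group such that N_G(H)/C_G(H) is a π'-group for every nontrivial π'-subgroup H of G. If K is a normal subgroup of G such that the π-elements of K form a subgroup and the π-elements of G/K form a subgroup, then the π-elements of G form a subgroup. -/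
theorem result {G : Type*} [Group G] [Finite G] (π : Set ℕ)
    (hπ : ∀ p ∈ π, p.Prime) (hhom : (∀ H : Subgroup G, H ≠ ⊥ → (∀ p : ℕ, p.Prime → p ∣ Nat.card ↥H → p ∉ π) →
        ∀ p : ℕ, p.Prime → p ∣ (Subgroup.centralizer (H : Set G)).relIndex (Subgroup.normalizer (H : Set G)) → p ∉ π))
    (K : Subgroup G) [K.Normal]
    (hK : ∃ L : Subgroup ↥K, ∀ x : ↥K, x ∈ L ↔ ∀ p : ℕ, p.Prime → p ∣ orderOf x → p ∈ π)
    (hQ : ∃ L : Subgroup (G ⧸ K), ∀ x : G ⧸ K, x ∈ L ↔ ∀ p : ℕ, p.Prime → p ∣ orderOf x → p ∈ π) :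
    (∃ K : Subgroup G, ∀ x : G, x ∈ K ↔ ∀ p : ℕ, p.Prime → p ∣ orderOf x → p ∈ π) := by
  classical
  have hom' : Cfsg.Agent.Lib.Cl.PiClosed.Hom π G := Cfsg.Agent.Lib.Cl.PiClosed.hom_of_homI hhom
  obtain ⟨L₀, hL₀⟩ := hK
  have hK' : ∀ x ∈ K, ∀ y ∈ K, Cfsg.Agent.Lib.Cl.PiClosed.PE π x → Cfsg.Agent.Lib.Cl.PiClosed.PE π y →
      Cfsg.Agent.Lib.Cl.PiClosed.PE π (x * y) := by
    intro x hx y hy h1 h2
    have h3 : (⟨x, hx⟩ : K) ∈ L₀ := (hL₀ _).2 (Cfsg.Agent.Lib.Cl.PiClosed.PE_coe.1 h1)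
    have h4 : (⟨y, hy⟩ : K) ∈ L₀ := (hL₀ _).2 (Cfsg.Agent.Lib.Cl.PiClosed.PE_coe.1 h2)
    have h5 := (hL₀ _).1 (L₀.mul_mem h3 h4)
    exact Cfsg.Agent.Lib.Cl.PiClosed.PE_coe.2 h5
  have hQ' := (Cfsg.Agent.Lib.Cl.PiClosed.exists_subgroup_iff (G := G ⧸ K) (π := π)).1 hQ
  exact Cfsg.Agent.Lib.Cl.PiClosed.exists_subgroup_iff.2 (Cfsg.Agent.Lib.Cl.PiClosed.core hom' K hK' hQ')


end Cfsg.Agent.S4051
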