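import Cfsg.Statements.S4056
import Mathlib
import Cfsg.Agent.Lib.Core.PFrattini

set_option autoImplicit false
open Cfsg
open scoped commutatorElement

namespace Cfsg.Agent.S4056

/-- In a finite 2-group of nilpotency class at most 2 and exponent dividing 4, the Frattini subgroup lies in the centre and is elementary abelian. -/
theorem result {P : Type*} [Group P] [Finite P] (hP : IsPGroup 2 P)
    (hcl : Group.nilpotencyClass P ≤ 2) (hexp : Monoid.exponent P ∣ 4) :
    frattini P ≤ Subgroup.center P ∧ Cfsg.IsElementaryAbelian 2 (frattini P) := by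
  classical
  haveI h2f : Fact (Nat.Prime 2) := ⟨Nat.prime_two⟩
  haveI : Group.IsNilpotent P := hP.isNilpotent
  have hucs : Subgroup.upperCentralSeries P 2 = ⊤ :=
    Subgroup.upperCentralSeries_eq_top_iff_nilpotencyClass_le.mpr hcl
  have hcen : ∀ x y : P, ⁅x, y⁆ ∈ Subgroup.center P := by
    intro x y
    have hx : x ∈ Subgroup.upperCentralSeries P 2 := by rw [hucs]; trivial
    have h1 := (Subgroup.mem_upperCentralSeries_succ_iff (G := P) (n := 1) (x := x)).mp hx y
    rw [Subgroup.upperCentralSeries_one] at h1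
    exact h1
  have hc : ∀ (a x y : P), a * ⁅x, y⁆ = ⁅x, y⁆ * a := fun a x y =>
    (Subgroup.mem_center_iff.mp (hcen x y)) a
  have h4 : ∀ x : P, x ^ 4 = 1 := by
    intro x
    obtain ⟨k, hk⟩ := hexp
    rw [hk, pow_mul, Monoid.pow_exponent_eq_one, one_pow]
  have hconj : ∀ (x y : P) (n : ℕ), x ^ n * y * (x ^ n)⁻¹ = ⁅x, y⁆ ^ n * y := by
    intro x y n
    induction n with
    | zero => simp
    | succ n ih =>
      have h1 : x ^ (n + 1) * y * (x ^ (n + 1))⁻¹ = x * (x ^ n * y * (x ^ n)⁻¹) * x⁻¹ := by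
        rw [pow_succ']; group
      rw [h1, ih]
      have h2 : x * (⁅x, y⁆ ^ n * y) * x⁻¹ = (x * ⁅x, y⁆ ^ n) * y * x⁻¹ := by group
      have h3 : x * ⁅x, y⁆ ^ n = ⁅x, y⁆ ^ n * x :=
        (Commute.pow_right (show Commute x ⁅x, y⁆ from hc x x y) n)
      rw [h2, h3, pow_succ]
      rw [commutatorElement_def]
      group
  have hc4 : ∀ x y : P, ⁅x, y⁆ ^ 4 = 1 := by
    intro x y
    have h1 := hconj x y 4
    rw [h4, one_mul, inv_one, mul_one] at h1
    exact (mul_eq_right.mp h1.symm)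
  have hsqcomm : ∀ x y : P, x ^ 2 * y ^ 2 = y ^ 2 * x ^ 2 := by
    intro x y
    have h1 := hconj x y 2
    have h2 : x ^ 2 * y ^ 2 * (x ^ 2)⁻¹ = (x ^ 2 * y * (x ^ 2)⁻¹) ^ 2 := by
      rw [conj_pow]
    have h3 : (⁅x, y⁆ ^ 2 * y) ^ 2 = y ^ 2 := by
      have hcomm : Commute (⁅x, y⁆ ^ 2) y := Commute.pow_left (show Commute ⁅x, y⁆ y from (hc y x y).symm) 2
      rw [hcomm.mul_pow, ← pow_mul, show 2 * 2 = 4 from rfl, hc4, one_mul]
    rw [h1, h3] at h2
    exact mul_inv_eq_iff_eq_mul.mp h2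
  have hd : ∀ x y : P, ⁅y, x⁆ ^ 2 = 1 := by
    intro x y
    set d := ⁅y, x⁆ with hd
    have hyx : y * x = d * x * y := by
      rw [hd, commutatorElement_def]; group
    have hcd : ∀ a : P, a * d = d * a := fun a => hc a y x
    have h1 : (x * y) ^ 2 = d * x ^ 2 * y ^ 2 := by
      calc (x * y) ^ 2 = x * (y * x) * y := by rw [sq]; group
        _ = x * (d * x * y) * y := by rw [hyx]
        _ = (x * d) * x * y * y := by group
        _ = (d * x) * x * y * y := by rw [hcd]
        _ = d * x ^ 2 * y ^ 2 := by rw [sq, sq]; group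
    have h2 : (x * y) ^ 4 = d ^ 2 := by
      have e : (x * y) ^ 4 = ((x * y) ^ 2) ^ 2 := by rw [← pow_mul]
      rw [e, h1]
      have h3 : Commute d (x ^ 2 * y ^ 2) := (hcd _).symm
      rw [mul_assoc, h3.mul_pow]
      have h5 : Commute (x ^ 2) (y ^ 2) := hsqcomm x y
      rw [h5.mul_pow, ← pow_mul, ← pow_mul, show 2 * 2 = 4 from rfl, h4, h4]
      simp
    rw [← h2, h4]
  have hsqcen : ∀ x : P, x ^ 2 ∈ Subgroup.center P := by
    intro x
    rw [Subgroup.mem_center_iff]
    intro y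
    have h1 := hconj x y 2
    rw [hd y x, one_mul] at h1
    exact (mul_inv_eq_iff_eq_mul.mp h1).symm
  let T : Subgroup P :=
    { carrier := {a | a ∈ Subgroup.center P ∧ a ^ 2 = 1}
      mul_mem' := by
        rintro a b ⟨ha, ha2⟩ ⟨hb, hb2⟩
        refine ⟨Subgroup.mul_mem _ ha hb, ?_⟩
        have : Commute a b := (Subgroup.mem_center_iff.mp ha b).symm
        rw [this.mul_pow, ha2, hb2, one_mul]
      one_mem' := ⟨Subgroup.one_mem _, one_pow _⟩
      inv_mem' := by
        rintro a ⟨ha, ha2⟩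
        exact ⟨Subgroup.inv_mem _ ha, by rw [inv_pow, ha2, inv_one]⟩ }
  have hT : frattini P ≤ T := by
    apply Cfsg.Agent.Lib.Core.frattini_le_of_elementary 2
    · apply Subgroup.commutator_le.mpr
      intro a _ b _
      exact ⟨hcen a b, hd b a⟩
    · intro x
      refine ⟨hsqcen x, ?_⟩
      rw [← pow_mul]
      exact h4 x
  refine ⟨fun a ha => (hT ha).1, ?_, fun a ha => (hT ha).2⟩
  constructor
  constructor
  rintro ⟨a, ha⟩ ⟨b, hb⟩
  apply Subtype.ext
  exact (Subgroup.mem_center_iff.mp (hT hb).1 a)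

end Cfsg.Agent.S4056
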