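import Cfsg.Statements.S4058
import Mathlib
import Cfsg.Agent.Lib.CharExtra.FS
import Cfsg.Agent.Lib.Core.PFrattini
import Cfsg.Agent.Lib.Degree.Sums

set_option autoImplicit false
open Cfsg

namespace Cfsg.Agent.S4058

open scoped ComplexConjugate
open Cfsg (classInner IsCharacter IsIrrCharacter IrrCharacter charDegree)
open Cfsg.Agent.Lib.Char
open Cfsg.Agent.Lib.CharExtra
open Cfsg.Agent.Lib.Degree
open MulAction

universe u

section aux

variable {G : Type u} [Group G]

/-- The complex function attached to a real linear character. -/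
def toC (l : G →* ℤˣ) (g : G) : ℂ := (((l g : ℤˣ) : ℤ) : ℂ)

theorem toC_eq (l : G →* ℤˣ) (g : G) : toC l g = 1 ∨ toC l g = -1 := by
  unfold toC
  rcases Int.units_eq_one_or (l g) with h | h <;> rw [h] <;> simp

theorem toC_of_ne (l : G →* ℤˣ) (g : G) (h : l g ≠ 1) : toC l g = -1 := by
  unfold toC
  rcases Int.units_eq_one_or (l g) with h' | h'
  · exact absurd h' h
  · rw [h']; simp

theorem toC_of_eq (l : G →* ℤˣ) (g : G) (h : l g = 1) : toC l g = 1 := by
  unfold toC
  rw [h]; simp

theorem toC_mul (l m : G →* ℤˣ) (g : G) : toC (l * m) g = toC l g * toC m g := by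
  simp [toC]

theorem toC_apply_mul (l : G →* ℤˣ) (a b : G) : toC l (a * b) = toC l a * toC l b := by
  simp [toC]

theorem toC_one_left (g : G) : toC (1 : G →* ℤˣ) g = 1 := by simp [toC]

theorem toC_one_right (l : G →* ℤˣ) : toC l 1 = 1 := by simp [toC]

theorem toC_mul_self (l : G →* ℤˣ) (g : G) : toC l g * toC l g = 1 := by
  rcases toC_eq l g with h | h <;> rw [h] <;> simp

theorem conj_toC (l : G →* ℤˣ) (g : G) : conj (toC l g) = toC l g := by
  rcases toC_eq l g with h | h <;> rw [h] <;> simp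

theorem isCharacter_toC (l : G →* ℤˣ) : IsCharacter G (toC l) := by
  have h := isIrrCharacter_of_hom ((Units.map (Int.castRingHom ℂ).toMonoidHom).comp l)
  have h2 : (fun g => ((((Units.map (Int.castRingHom ℂ).toMonoidHom).comp l) g : ℂˣ) : ℂ)) = toC l := by
    funext g
    simp [toC]
  rw [h2] at h
  exact IsIrrCharacter.isCharacter h

variable [Fintype G]

theorem mul_isIrr (l : G →* ℤˣ) {χ : G → ℂ} (hχ : IsIrrCharacter G χ) :
    IsIrrCharacter G (fun g => toC l g * χ g) := by
  apply isIrr_of_character_norm_one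
  · exact IsCharacter.mul (isCharacter_toC l) (IsIrrCharacter.isCharacter hχ)
  · rw [← classInner_irr_self hχ]
    unfold classInner
    congr 1
    apply Finset.sum_congr rfl
    intro g _
    rw [map_mul, conj_toC]
    have := toC_mul_self l g
    linear_combination (χ g * conj (χ g)) * this

/-- Multiplication of irreducible characters by real linear characters. -/
noncomputable def act : MulAction (G →* ℤˣ) (IrrCharacter G) where
  smul l χ := ⟨fun g => toC l g * χ.1 g, mul_isIrr l χ.2⟩
  one_smul χ := by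
    apply Subtype.ext
    funext g
    change toC 1 g * χ.1 g = χ.1 g
    rw [toC_one_left, one_mul]
  mul_smul l m χ := by
    apply Subtype.ext
    funext g
    change toC (l * m) g * χ.1 g = toC l g * (toC m g * χ.1 g)
    rw [toC_mul, mul_assoc]

theorem sum_toC_eq_zero (l : G →* ℤˣ) (hl : l ≠ 1) : ∑ g, toC l g = 0 := by
  obtain ⟨g₀, hg₀⟩ : ∃ g₀, l g₀ ≠ 1 := by
    by_contra hcon
    push_neg at hcon
    exact hl (MonoidHom.ext hcon)
  have h1 : ∑ g, toC l (g₀ * g) = ∑ g, toC l g := Equiv.sum_comp (Equiv.mulLeft g₀) (toC l)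
  simp only [toC_apply_mul, toC_of_ne l g₀ hg₀, ← Finset.mul_sum] at h1
  have h2 : (2 : ℂ) * ∑ g, toC l g = 0 := by linear_combination -h1
  simpa using h2

/-- The key inequality. -/
theorem stab_le (χ : IrrCharacter G) (S : Subgroup (G →* ℤˣ))
    (hS : ∀ l ∈ S, ∀ g, toC l g * χ.1 g = χ.1 g) : Nat.card S ≤ charDegree χ.1 ^ 2 := by
  classical
  haveI : Fintype S := Fintype.ofFinite S
  let K : Finset G := Finset.univ.filter (fun g => ∀ l ∈ S, l g = 1)
  have hoff : ∀ g, g ∉ K → χ.1 g = 0 := by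
    intro g hg
    have h1 : ¬ ∀ l ∈ S, l g = 1 := fun h => hg (Finset.mem_filter.mpr ⟨Finset.mem_univ _, h⟩)
    push_neg at h1
    obtain ⟨l, hl, hlg⟩ := h1
    have h2 := hS l hl g
    rw [toC_of_ne l g hlg] at h2
    have h3 : (2 : ℂ) * χ.1 g = 0 := by linear_combination -h2
    simpa using h3
  have hdeg : χ.1 1 = (charDegree χ.1 : ℂ) := map_one_eq_charDegree (IsIrrCharacter.isCharacter χ.2)
  have hbound : ∀ g, ‖χ.1 g‖ ^ 2 ≤ (charDegree χ.1 : ℝ) ^ 2 := by
    intro g
    have h1 := irr_norm_le χ g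
    rw [hdeg] at h1
    simp only [Complex.norm_natCast] at h1
    exact pow_le_pow_left₀ (norm_nonneg _) h1 2
  have hsum : (∑ g, ‖χ.1 g‖ ^ 2 : ℝ) = (Nat.card G : ℝ) := by
    have h1 := classInner_irr_self χ.2
    rw [classInner_self_eq] at h1
    have h2 : ((Nat.card G : ℝ)⁻¹ * ∑ g, ‖χ.1 g‖ ^ 2 : ℝ) = 1 := by exact_mod_cast h1
    have h3 : (Nat.card G : ℝ) ≠ 0 := by
      exact_mod_cast (Nat.card_pos (α := G)).ne'
    field_simp at h2
    linarith
  have hle : (Nat.card G : ℝ) ≤ (K.card : ℝ) * (charDegree χ.1 : ℝ) ^ 2 := by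
    rw [← hsum]
    calc (∑ g, ‖χ.1 g‖ ^ 2 : ℝ) ≤ ∑ g, (if g ∈ K then (charDegree χ.1 : ℝ) ^ 2 else 0) := by
          apply Finset.sum_le_sum
          intro g _
          split_ifs with h
          · exact hbound g
          · rw [hoff g h]; simp
      _ = (K.card : ℝ) * (charDegree χ.1 : ℝ) ^ 2 := by
          rw [Finset.sum_ite_mem, Finset.univ_inter, Finset.sum_const, nsmul_eq_mul]
  -- `|K| |S| = |G|`
  have heq : (K.card : ℂ) * (Nat.card S : ℂ) = (Nat.card G : ℂ) := by
    have h1 : ∑ l : S, ∑ g, toC (l : G →* ℤˣ) g = (Nat.card G : ℂ) := by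
      rw [Finset.sum_eq_single (1 : S)]
      · simp only [OneMemClass.coe_one, toC_one_left, Finset.sum_const, Finset.card_univ,
          nsmul_eq_mul, mul_one, Nat.card_eq_fintype_card]
      · intro l _ hl
        apply sum_toC_eq_zero
        intro h
        exact hl (Subtype.ext h)
      · intro h
        exact absurd (Finset.mem_univ _) h
    rw [← h1, Finset.sum_comm]
    have h2 : ∀ g, ∑ l : S, toC (l : G →* ℤˣ) g = if g ∈ K then (Nat.card S : ℂ) else 0 := by
      intro g
      split_ifs with h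
      · have h3 : ∀ l : S, toC (l : G →* ℤˣ) g = 1 := fun l =>
          toC_of_eq _ _ ((Finset.mem_filter.mp h).2 l l.2)
        simp only [h3, Finset.sum_const, Finset.card_univ, nsmul_eq_mul, mul_one,
          Nat.card_eq_fintype_card]
      · have h1 : ¬ ∀ l ∈ S, l g = 1 := fun h' => h (Finset.mem_filter.mpr ⟨Finset.mem_univ _, h'⟩)
        push_neg at h1
        obtain ⟨l₀, hl₀, hl₀g⟩ := h1
        have h3 : ∑ l : S, toC (((⟨l₀, hl₀⟩ : S) * l : S) : G →* ℤˣ) g = ∑ l : S, toC (l : G →* ℤˣ) g :=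
          Equiv.sum_comp (Equiv.mulLeft (⟨l₀, hl₀⟩ : S)) (fun l : S => toC (l : G →* ℤˣ) g)
        simp only [Subgroup.coe_mul, toC_mul, toC_of_ne l₀ g hl₀g, ← Finset.mul_sum] at h3
        have h4 : (2 : ℂ) * ∑ l : S, toC (l : G →* ℤˣ) g = 0 := by linear_combination -h3
        simpa using h4
    simp only [h2]
    rw [Finset.sum_ite_mem, Finset.univ_inter, Finset.sum_const, nsmul_eq_mul]
  have heq' : K.card * Nat.card S = Nat.card G := by exact_mod_cast heq
  have hKpos : 0 < K.card := by
    apply Finset.card_pos.mpr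
    refine ⟨1, Finset.mem_filter.mpr ⟨Finset.mem_univ _, fun l _ => map_one l⟩⟩
  have hle' : Nat.card G ≤ K.card * charDegree χ.1 ^ 2 := by exact_mod_cast hle
  rw [← heq'] at hle'
  exact Nat.le_of_mul_le_mul_left hle' hKpos

theorem fsInd_smul (l : G →* ℤˣ) (χ : G → ℂ) :
    fsInd (fun g => toC l g * χ g) = fsInd χ := by
  unfold fsInd
  congr 1
  apply Finset.sum_congr rfl
  intro s _
  change toC l (s * s) * χ (s * s) = χ (s * s)
  rw [toC_apply_mul, toC_mul_self, one_mul]

end aux

/-- Sums over orbits. -/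
theorem sum_orbits {A X : Type*} [Group A] [MulAction A X] [Fintype X] (f : X → ℂ)
    (hf : ∀ (a : A) (x : X), f (a • x) = f x) (D : ℂ)
    (hdiv : ∀ x : X, ∃ z : ℤ, (Nat.card (orbit A x) : ℂ) * f x = D * z) :
    ∃ z : ℤ, ∑ x, f x = D * z := by
  classical
  haveI : Fintype (orbitRel.Quotient A X) := Fintype.ofFinite _
  haveI : ∀ q : orbitRel.Quotient A X, Fintype (orbit A q.out) := fun _ => Fintype.ofFinite _
  have h : ∑ x, f x = ∑ q : orbitRel.Quotient A X, (Nat.card (orbit A q.out) : ℂ) * f q.out := by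
    rw [← Equiv.sum_comp (MulAction.selfEquivSigmaOrbits A X).symm, Fintype.sum_sigma]
    apply Finset.sum_congr rfl
    intro q _
    have h1 : ∀ y : orbit A q.out, f ((MulAction.selfEquivSigmaOrbits A X).symm ⟨q, y⟩) = f q.out := by
      rintro ⟨_, a, rfl⟩
      exact hf a _
    simp only [h1, Finset.sum_const, Finset.card_univ, nsmul_eq_mul, Nat.card_eq_fintype_card]
  choose z hz using hdiv
  refine ⟨∑ q : orbitRel.Quotient A X, z q.out, ?_⟩
  rw [h]
  push_cast
  rw [Finset.mul_sum]
  exact Finset.sum_congr rfl fun q _ => hz q.out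

/-- An elementary abelian `2`-group has at least as many real linear characters as elements. -/
theorem card_le_homs {V : Type*} [CommGroup V] [Finite V] (h : ∀ v : V, v * v = 1) :
    Nat.card V ≤ Nat.card (V →* ℤˣ) := by
  classical
  letI : Module (ZMod 2) (Additive V) := AddCommGroup.zmodModule (fun x => by
    change Additive.ofMul (Additive.toMul x ^ 2) = 0
    rw [pow_two, h]
    rfl)
  haveI : Module.Finite (ZMod 2) (Additive V) := Module.Finite.of_finite
  let φ : ZMod 2 → ℤˣ := fun a => if a = 0 then 1 else -1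
  have hφ : ∀ a b : ZMod 2, φ (a + b) = φ a * φ b := by decide
  have hφi : Function.Injective φ := by decide
  have hcard : Nat.card (Module.Dual (ZMod 2) (Additive V)) = Nat.card V := by
    have h1 := Module.natCard_eq_pow_finrank (K := ZMod 2) (V := Module.Dual (ZMod 2) (Additive V))
    have h2 := Module.natCard_eq_pow_finrank (K := ZMod 2) (V := Additive V)
    rw [Subspace.dual_finrank_eq] at h1
    rw [h1, ← h2]
    rfl
  rw [← hcard]
  refine Nat.card_le_card_of_injective (fun f : Module.Dual (ZMod 2) (Additive V) =>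
    ({ toFun := fun v => φ (f (Additive.ofMul v))
       map_one' := by
        rw [ofMul_one, map_zero]
        rfl
       map_mul' := fun a b => by
        rw [ofMul_mul, map_add, hφ] } : V →* ℤˣ)) ?_
  intro f f' hff
  ext v
  have h1 := DFunLike.congr_fun hff (Additive.toMul v)
  exact hφi h1

/-- Let G be a finite 2-group with #(G/Φ(G)) ≥ 2^(2k+1). Then the number of elements x of G with x² = 1 is divisible by 2^(k+1). -/
theorem result {G : Type*} [Group G] [Finite G] (hG : IsPGroup 2 G) (k : ℕ)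
    (hgen : 2 ^ (2 * k + 1) ≤ Nat.card (G ⧸ frattini G)) :
    2 ^ (k + 1) ∣ Nat.card {x : G // x ^ 2 = 1} := by
  classical
  haveI := Fintype.ofFinite G
  letI : MulAction (G →* ℤˣ) (IrrCharacter G) := act
  have hp2 : Nat.Prime 2 := Nat.prime_two
  haveI : Fact (Nat.Prime 2) := ⟨hp2⟩
  -- the group of real linear characters
  obtain ⟨e, he⟩ : ∃ e, Nat.card (G →* ℤˣ) = 2 ^ e := by
    apply IsPGroup.iff_card.mp
    intro l
    refine ⟨1, ?_⟩
    apply MonoidHom.ext
    intro g
    change (l g) ^ (2 ^ 1) = 1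
    rw [pow_one]
    exact Int.units_pow_two _
  -- many characters
  have hcard : Nat.card (G ⧸ frattini G) ≤ Nat.card (G →* ℤˣ) := by
    obtain ⟨h1, h2⟩ := Cfsg.Agent.Lib.Core.frattini_pgroup 2 hG
    letI cg : CommGroup (G ⧸ frattini G) :=
      { (inferInstance : Group (G ⧸ frattini G)) with
        mul_comm := by
          intro a b
          obtain ⟨a, rfl⟩ := QuotientGroup.mk'_surjective (frattini G) a
          obtain ⟨b, rfl⟩ := QuotientGroup.mk'_surjective (frattini G) b
          rw [← map_mul, ← map_mul]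
          apply (QuotientGroup.eq).mpr
          have h4 : (a * b)⁻¹ * (b * a) = (b⁻¹ * a⁻¹ * b * a) := by group
          rw [h4]
          have h5 := h1 (Subgroup.commutator_mem_commutator (Subgroup.mem_top b⁻¹)
            (Subgroup.mem_top a⁻¹))
          rw [commutatorElement_def, inv_inv, inv_inv] at h5
          exact h5 }
    have h3 := card_le_homs (V := G ⧸ frattini G) (by
      intro v
      obtain ⟨a, rfl⟩ := QuotientGroup.mk'_surjective (frattini G) v
      rw [← pow_two, ← map_pow]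
      exact (QuotientGroup.eq_one_iff _).mpr (h2 a))
    refine h3.trans (Nat.card_le_card_of_injective
      (fun l : (G ⧸ frattini G) →* ℤˣ => l.comp (QuotientGroup.mk' (frattini G))) ?_)
    intro l l' hll
    apply MonoidHom.ext
    intro v
    obtain ⟨a, rfl⟩ := QuotientGroup.mk'_surjective (frattini G) v
    exact DFunLike.congr_fun hll a
  have he2 : 2 * k + 1 ≤ e := by
    have h1 := hgen.trans hcard
    rw [he] at h1
    exact (Nat.pow_le_pow_iff_right (by norm_num)).mp h1
  obtain ⟨n, hn⟩ : ∃ n, Nat.card G = 2 ^ n := IsPGroup.iff_card.mp hG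
  -- the orbit sum
  obtain ⟨z, hz⟩ := sum_orbits (A := G →* ℤˣ) (X := IrrCharacter G)
    (fun χ => fsInd χ.1 * χ.1 1)
    (by
      intro l χ
      change fsInd (fun g => toC l g * χ.1 g) * (toC l 1 * χ.1 1) = _
      rw [fsInd_smul, toC_one_right, one_mul])
    ((2 : ℂ) ^ (k + 1))
    (by
      intro χ
      -- sizes
      have h1 : Nat.card (orbit (G →* ℤˣ) χ) * Nat.card (stabilizer (G →* ℤˣ) χ) =
          Nat.card (G →* ℤˣ) := by
        rw [← Nat.card_prod]
        exact Nat.card_congr (orbitProdStabilizerEquivGroup (G →* ℤˣ) χ)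
      rw [he] at h1
      obtain ⟨ω, -, hω⟩ := (Nat.dvd_prime_pow hp2).mp (Dvd.intro _ h1)
      obtain ⟨σ, -, hσ⟩ := (Nat.dvd_prime_pow hp2).mp (Dvd.intro_left _ h1)
      have hωσ : ω + σ = e := by
        rw [hω, hσ, ← pow_add] at h1
        exact Nat.pow_right_injective (le_refl 2) h1
      obtain ⟨γ, -, hγ⟩ := (Nat.dvd_prime_pow hp2).mp
        ((charDegree_dvd_card χ.2).trans (by rw [hn]))
      have hst := stab_le χ (stabilizer (G →* ℤˣ) χ) (by
        intro l hl g
        have h2 : l • χ = χ := hl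
        exact congrFun (congrArg Subtype.val h2) g)
      rw [hσ, hγ, ← pow_mul] at hst
      have hσγ : σ ≤ γ * 2 := (Nat.pow_le_pow_iff_right (by norm_num)).mp hst
      have hexp : k + 1 ≤ ω + γ := by omega
      obtain ⟨t, ht⟩ : ∃ t, ω + γ = (k + 1) + t := ⟨ω + γ - (k + 1), by omega⟩
      have hdeg : χ.1 1 = ((2 : ℂ) ^ γ) := by
        rw [map_one_eq_charDegree (IsIrrCharacter.isCharacter χ.2), hγ]
        push_cast
        rfl
      have hν : ∃ ν : ℤ, fsInd χ.1 = ν := by
        by_cases hr : ∀ g : G, (χ.1 g).im = 0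
        · rcases fsInd_of_real χ hr with h | h
          · exact ⟨1, by simp [h]⟩
          · exact ⟨-1, by simp [h]⟩
        · exact ⟨0, by simp [fsInd_of_not_real χ hr]⟩
      obtain ⟨ν, hν⟩ := hν
      refine ⟨ν * 2 ^ t, ?_⟩
      rw [hω, hdeg, hν]
      push_cast
      have e1 : (2 : ℂ) ^ ω * ((ν : ℂ) * 2 ^ γ) = ν * (2 ^ (ω + γ)) := by
        rw [pow_add]; ring
      rw [e1, ht, pow_add]
      ring)
  have hsum := sum_fsInd_mul (G := G) 1
  rw [hz] at hsum
  -- conclusion
  have hcount : (Finset.univ.filter fun s : G => s * s = 1).card = Nat.card {x : G // x ^ 2 = 1} := by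
    rw [Nat.card_eq_fintype_card, Fintype.card_subtype]
    congr 1
    ext x
    simp [pow_two]
  rw [← hcount]
  have h3 : (((Finset.univ.filter fun s : G => s * s = 1).card : ℤ) : ℂ) = (((2 ^ (k + 1) * z : ℤ)) : ℂ) := by
    push_cast
    exact hsum.symm
  have h4 : ((Finset.univ.filter fun s : G => s * s = 1).card : ℤ) = 2 ^ (k + 1) * z :=
    Int.cast_injective h3
  have h5 : ((2 ^ (k + 1) : ℕ) : ℤ) ∣ ((Finset.univ.filter fun s : G => s * s = 1).card : ℤ) := by
    rw [h4]
    push_cast
    exact dvd_mul_right _ _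
  exact Int.natCast_dvd_natCast.mp h5

end Cfsg.Agent.S4058
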