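import Cfsg.Statements.S4065
import Mathlib

set_option autoImplicit false
open Cfsg

open Matrix

namespace Cfsg.Agent.S4065
theorem comm_trans_fin_two {F : Type*} [Field F] (a b c : Matrix (Fin 2) (Fin 2) F)
    (hb : ¬ (b 0 1 = 0 ∧ b 1 0 = 0 ∧ b 0 0 = b 1 1)) (hab : a * b = b * a) (hcb : c * b = b * c) :
    a * c = c * a := by
  have h1 := congrFun (congrFun hab 0) 0
  have h2 := congrFun (congrFun hab 0) 1
  have h3 := congrFun (congrFun hab 1) 0
  have h4 := congrFun (congrFun hcb 0) 0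
  have h5 := congrFun (congrFun hcb 0) 1
  have h6 := congrFun (congrFun hcb 1) 0
  simp only [Matrix.mul_apply, Fin.sum_univ_two] at h1 h2 h3 h4 h5 h6
  have T1 : a 0 1 * c 1 0 = a 1 0 * c 0 1 := by
    by_cases hq : b 0 1 = 0
    · by_cases hr : b 1 0 = 0
      · have ht : b 0 0 - b 1 1 ≠ 0 := fun h => hb ⟨hq, hr, sub_eq_zero.1 h⟩
        apply mul_left_cancel₀ (mul_ne_zero ht ht)
        grind
      · apply mul_left_cancel₀ hr
        grind
    · apply mul_left_cancel₀ hq
      grind
  have T2 : (a 0 0 - a 1 1) * c 0 1 = a 0 1 * (c 0 0 - c 1 1) := by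
    by_cases hq : b 0 1 = 0
    · by_cases hr : b 1 0 = 0
      · have ht : b 0 0 - b 1 1 ≠ 0 := fun h => hb ⟨hq, hr, sub_eq_zero.1 h⟩
        apply mul_left_cancel₀ ht
        grind
      · apply mul_left_cancel₀ hr
        grind
    · apply mul_left_cancel₀ hq
      grind
  have T3 : (a 0 0 - a 1 1) * c 1 0 = a 1 0 * (c 0 0 - c 1 1) := by
    by_cases hq : b 0 1 = 0
    · by_cases hr : b 1 0 = 0
      · have ht : b 0 0 - b 1 1 ≠ 0 := fun h => hb ⟨hq, hr, sub_eq_zero.1 h⟩
        apply mul_left_cancel₀ ht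
        grind
      · apply mul_left_cancel₀ hr
        grind
    · apply mul_left_cancel₀ hq
      grind
  ext i j
  simp only [Matrix.mul_apply, Fin.sum_univ_two]
  fin_cases i <;> fin_cases j <;> simp <;> grind

theorem psl_comm_trans {F : Type*} [Field F] [CharP F 2]
    (u v w : Matrix.ProjectiveSpecialLinearGroup (Fin 2) F) (hv : v ≠ 1)
    (huv : u * v = v * u) (hwv : w * v = v * w) : u * w = w * u := by
  classical
  have hcen : Subgroup.center (SpecialLinearGroup (Fin 2) F) = ⊥ := by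
    rw [eq_bot_iff]
    intro A hA
    obtain ⟨r, hr, hr'⟩ := Matrix.SpecialLinearGroup.mem_center_iff.1 hA
    rw [Subgroup.mem_bot]
    have hr2 : r ^ 2 = 1 := by simpa using hr
    have hr1 : r = 1 := by
      have : (r - 1) ^ 2 = 0 := by
        have h2 : (2 : F) = 0 := CharP.cast_eq_zero F 2
        have : (r - 1) ^ 2 = r ^ 2 - 2 * r + 1 := by ring
        rw [this, hr2, h2]; ring_nf; rw [show (2 : F) = 0 from h2]
      have := pow_eq_zero_iff (two_ne_zero) |>.1 this
      exact sub_eq_zero.1 this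
    apply Subtype.ext
    rw [← hr', hr1]
    simp
  have hker : ∀ a : SpecialLinearGroup (Fin 2) F,
      ((a : SpecialLinearGroup (Fin 2) F) : Matrix.ProjectiveSpecialLinearGroup (Fin 2) F) = 1 → a = 1 := by
    intro a ha
    have : a ∈ Subgroup.center (SpecialLinearGroup (Fin 2) F) := (QuotientGroup.eq_one_iff a).1 ha
    rw [hcen, Subgroup.mem_bot] at this
    exact this
  have hlift : ∀ a b : SpecialLinearGroup (Fin 2) F,
      (a : Matrix.ProjectiveSpecialLinearGroup (Fin 2) F) * b = b * a → a * b = b * a := by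
    intro a b hab
    have h1 : (((a * b) * (b * a)⁻¹ : SpecialLinearGroup (Fin 2) F) : Matrix.ProjectiveSpecialLinearGroup (Fin 2) F) = 1 := by
      rw [QuotientGroup.mk_mul, QuotientGroup.mk_inv, QuotientGroup.mk_mul, QuotientGroup.mk_mul]
      rw [hab]; simp
    exact mul_inv_eq_one.1 (hker _ h1)
  obtain ⟨a, rfl⟩ := QuotientGroup.mk_surjective u
  obtain ⟨b, rfl⟩ := QuotientGroup.mk_surjective v
  obtain ⟨c, rfl⟩ := QuotientGroup.mk_surjective w
  have hab := hlift a b huv
  have hcb := hlift c b hwv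
  have hb1 : b ≠ 1 := by
    rintro rfl
    exact hv rfl
  have hns : ¬ ((b : Matrix (Fin 2) (Fin 2) F) 0 1 = 0 ∧ (b : Matrix (Fin 2) (Fin 2) F) 1 0 = 0 ∧
      (b : Matrix (Fin 2) (Fin 2) F) 0 0 = (b : Matrix (Fin 2) (Fin 2) F) 1 1) := by
    rintro ⟨h1, h2, h3⟩
    apply hb1
    have hdet := b.2
    rw [Matrix.det_fin_two, h1, h2] at hdet
    have hr : (b : Matrix (Fin 2) (Fin 2) F) 1 1 = 1 := by
      have h2' : (2 : F) = 0 := CharP.cast_eq_zero F 2
      set r := (b : Matrix (Fin 2) (Fin 2) F) 1 1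
      have : (r - 1) ^ 2 = 0 := by
        rw [h3] at hdet
        have e : (r - 1) ^ 2 = r * r - 0 * 0 - 2 * r + 1 := by ring
        rw [e, hdet, h2']; ring_nf; rw [show (2 : F) = 0 from h2']
      exact sub_eq_zero.1 (pow_eq_zero_iff two_ne_zero |>.1 this)
    apply Subtype.ext
    ext i j
    fin_cases i <;> fin_cases j <;> simp [h1, h2, h3, hr]
  have hac := comm_trans_fin_two a.1 b.1 c.1 hns (congrArg Subtype.val hab) (congrArg Subtype.val hcb)
  have : a * c = c * a := Subtype.ext hac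
  rw [← QuotientGroup.mk_mul, ← QuotientGroup.mk_mul, this]

/-- Let F be a finite field with 2ⁿ elements, n ≥ 2. In PSL₂(F) the centralizer of every element meets each of its conjugates by elements outside its normalizer trivially. -/
theorem result (n : ℕ) (hn : 2 ≤ n)
    (x : Matrix.ProjectiveSpecialLinearGroup (Fin 2) (GaloisField 2 n)) :
    Cfsg.IsTISubset (Subgroup.centralizer ({x} : Set (Matrix.ProjectiveSpecialLinearGroup (Fin 2) (GaloisField 2 n))) :
      Set (Matrix.ProjectiveSpecialLinearGroup (Fin 2) (GaloisField 2 n))) := by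
  classical
  intro g hg y hy hgy
  by_contra hy1
  apply hg
  have hct := psl_comm_trans (F := GaloisField 2 n)
  have hx : x ≠ 1 := by
    rintro rfl
    apply hy1
    apply hg.elim
    rw [Subgroup.mem_normalizer_iff]
    intro h
    simp [Subgroup.mem_centralizer_iff]
  have hmem : ∀ z : Matrix.ProjectiveSpecialLinearGroup (Fin 2) (GaloisField 2 n),
      z ∈ Subgroup.centralizer ({x} : Set _) ↔ z * x = x * z := by
    intro z
    rw [Subgroup.mem_centralizer_iff]
    simp [eq_comm]
  have hy' : y * x = x * y := (hmem y).1 hy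
  have hgy' : (g * y * g⁻¹) * x = x * (g * y * g⁻¹) := (hmem _).1 hgy
  have hgy1 : g * y * g⁻¹ ≠ 1 := by
    intro h
    apply hy1
    have : y = g⁻¹ * (g * y * g⁻¹) * g := by group
    rw [this, h]; group
  have h1 : ∀ z, z * x = x * z ↔ z * y = y * z := fun z =>
    ⟨fun h => hct z x y hx h hy', fun h => hct z y x hy1 h hy'.symm⟩
  have h2 : ∀ z, z * x = x * z ↔ z * (g * y * g⁻¹) = (g * y * g⁻¹) * z := fun z =>
    ⟨fun h => hct z x _ hx h hgy', fun h => hct z _ x hgy1 h hgy'.symm⟩
  rw [Subgroup.mem_normalizer_iff]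
  intro z
  show z ∈ Subgroup.centralizer ({x} : Set _) ↔ g * z * g⁻¹ ∈ Subgroup.centralizer ({x} : Set _)
  rw [hmem, hmem, h1, h2]
  constructor
  · intro h
    have : g * z * g⁻¹ * (g * y * g⁻¹) = g * (z * y) * g⁻¹ := by group
    rw [this, h]; group
  · intro h
    have h3 : g * (z * y) * g⁻¹ = g * (y * z) * g⁻¹ := by
      calc g * (z * y) * g⁻¹ = g * z * g⁻¹ * (g * y * g⁻¹) := by group
        _ = g * y * g⁻¹ * (g * z * g⁻¹) := h
        _ = g * (y * z) * g⁻¹ := by group
    have h4 := mul_right_cancel h3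
    exact mul_left_cancel h4

end Cfsg.Agent.S4065
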