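import Cfsg.Statements.S4066
import Mathlib
import Cfsg.Agent.Lib.ClassSizes.Basic
import Cfsg.Agent.Lib.Core.Basic

set_option autoImplicit false
open Cfsg

namespace Cfsg.Agent.S4066

open Subgroup Cfsg.Agent.Lib.Core

universe u

/-- An element of `p`-power order whose conjugates commute lies in `O_p(G)`. -/
theorem mem_pCore_of_conj_commute {G : Type*} [Group G] [Finite G] {p : ℕ} [Fact p.Prime] {u : G} {k : ℕ}
    (hu : orderOf u = p ^ k) (hc : ∀ g h : G, (g * u * g⁻¹) * (h * u * h⁻¹) = (h * u * h⁻¹) * (g * u * g⁻¹)) :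
    u ∈ pCore p G := by
  set S := Group.conjugatesOfSet ({u} : Set G) with hS
  have hmem : ∀ a, a ∈ S ↔ ∃ g : G, g * u * g⁻¹ = a := by
    intro a
    rw [hS, Group.mem_conjugatesOfSet_iff]
    constructor
    · rintro ⟨t, ht, h⟩
      rw [Set.mem_singleton_iff] at ht
      subst ht
      obtain ⟨g, hg⟩ := isConj_iff.mp h
      exact ⟨g, hg⟩
    · rintro ⟨g, hg⟩
      exact ⟨u, rfl, isConj_iff.mpr ⟨g, hg⟩⟩
  have hcomm : ∀ a ∈ S, ∀ b ∈ S, a * b = b * a := by
    intro a ha b hb
    obtain ⟨g, rfl⟩ := (hmem a).mp ha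
    obtain ⟨h, rfl⟩ := (hmem b).mp hb
    exact hc g h
  have hN : normalClosure ({u} : Set G) = Subgroup.closure S := rfl
  haveI hcc : IsMulCommutative (Subgroup.closure S) := Subgroup.isMulCommutative_closure hcomm
  have hpow : ∀ y ∈ Subgroup.closure S, y ^ p ^ k = 1 := by
    intro y hy
    induction hy using Subgroup.closure_induction with
    | mem x hx =>
      obtain ⟨g, rfl⟩ := (hmem x).mp hx
      rw [conj_pow, ← hu, pow_orderOf_eq_one]
      group
    | one => simp
    | mul a b ha hb h1 h2 =>
      have hab : Commute a b := by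
        have := hcc.is_comm.comm ⟨a, ha⟩ ⟨b, hb⟩
        exact congrArg Subtype.val this
      rw [hab.mul_pow, h1, h2, one_mul]
    | inv a _ h1 =>
      rw [inv_pow, h1, inv_one]
  have hpg : IsPGroup p (normalClosure ({u} : Set G)) := by
    rw [IsPGroup.iff_orderOf]
    intro y
    have h1 : orderOf y ∣ p ^ k := by
      apply orderOf_dvd_of_pow_eq_one
      apply Subtype.ext
      simpa using hpow y y.2
    obtain ⟨j, -, hj⟩ := (Nat.dvd_prime_pow Fact.out).mp h1
    exact ⟨j, hj⟩
  exact le_pCore (Subgroup.normalClosure_normal) hpg (Subgroup.subset_normalClosure rfl)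

theorem aux (n : ℕ) : ∀ (G : Type u) [Group G] [Finite G], Nat.card G = n →
    (∀ x : G, Cfsg.IsTISubset (Subgroup.centralizer ({x} : Set G) : Set G)) →
    ∀ {p : ℕ} [Fact p.Prime] (P Q : Sylow p G), P ≠ Q → (P : Subgroup G) ⊓ (Q : Subgroup G) = ⊥ := by
  induction n using Nat.strong_induction_on with
  | _ n ih =>
  intro G _ _ hn hTI p _ P Q hPQ
  by_contra hne
  obtain ⟨⟨x, hxmem⟩, hx1⟩ := Subgroup.ne_bot_iff_exists_ne_one.mp hne
  have hx1' : x ≠ 1 := fun h => hx1 (Subtype.ext h)
  obtain ⟨hxP, hxQ⟩ := hxmem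
  haveI : Nontrivial (P : Subgroup G) := ⟨⟨⟨x, hxP⟩, 1, fun h => hx1' (congrArg Subtype.val h)⟩⟩
  haveI := P.isPGroup'.center_nontrivial
  obtain ⟨⟨z₀, hz₀⟩, hz₀1⟩ := exists_ne (1 : center (P : Subgroup G))
  set z : G := (z₀ : G) with hz
  have hzP : z ∈ (P : Subgroup G) := z₀.2
  have hz1 : z ≠ 1 := by
    intro h
    apply hz₀1
    apply Subtype.ext
    apply Subtype.ext
    exact h
  have hzc : ∀ w ∈ (P : Subgroup G), w * z = z * w := by
    intro w hw
    have := (mem_center_iff.mp hz₀) ⟨w, hw⟩
    exact congrArg Subtype.val this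
  obtain ⟨g, rfl⟩ := MulAction.exists_smul_eq G P Q
  set A := centralizer ({z} : Set G) with hA
  have hPA : (P : Subgroup G) ≤ A := fun w hw => mem_centralizer_singleton_iff.mpr (hzc w hw)
  have hy : g⁻¹ * x * g ∈ (P : Subgroup G) := Cfsg.Agent.Lib.ClassSizes.mem_sylow_smul_iff.mp hxQ
  have hgA : g ∈ normalizer (A : Set G) := by
    by_contra h
    have h1 := hTI z g h (g⁻¹ * x * g) (hPA hy) (by
      have e : g * (g⁻¹ * x * g) * g⁻¹ = x := by group
      rw [e]
      exact hPA hxP)
    apply hx1'
    have e : x = g * (g⁻¹ * x * g) * g⁻¹ := by group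
    rw [e, h1]; group
  have hQA : ((g • P : Sylow p G) : Subgroup G) ≤ A := by
    intro w hw
    have h1 : g⁻¹ * w * g ∈ (P : Subgroup G) := Cfsg.Agent.Lib.ClassSizes.mem_sylow_smul_iff.mp hw
    have h2 := (mem_normalizer_iff.mp hgA (g⁻¹ * w * g)).mp (hPA h1)
    have e : g * (g⁻¹ * w * g) * g⁻¹ = w := by group
    rwa [e] at h2
  by_cases hAtop : A = ⊤
  · -- `z` is central
    have hcen : ∀ y : G, y * z = z * y := by
      intro y
      have : y ∈ A := by rw [hAtop]; trivial
      exact mem_centralizer_singleton_iff.mp this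
    have hnorm : ∀ a t : G, t ∈ normalizer ((centralizer ({a} : Set G) : Subgroup G) : Set G) := by
      intro a t
      by_contra h
      apply hz1
      refine hTI a t h z (mem_centralizer_singleton_iff.mpr ?_) ?_
      · exact (hcen a).symm
      · have e : t * z * t⁻¹ = z := by rw [hcen t]; group
        rw [e]
        exact mem_centralizer_singleton_iff.mpr (hcen a).symm
    have hle : (P : Subgroup G) ≤ ((g • P : Sylow p G) : Subgroup G) := by
      intro u hu
      obtain ⟨k, hk⟩ := Cfsg.Agent.Lib.ClassSizes.exists_orderOf_eq_prime_pow_of_mem P.isPGroup' hu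
      have h1 : u ∈ pCore p G := by
        apply mem_pCore_of_conj_commute hk
        intro a b
        -- `t u t⁻¹` commutes with `u`
        have h2 := (mem_normalizer_iff.mp (hnorm u (b⁻¹ * a)) u).mp
          (mem_centralizer_singleton_iff.mpr rfl)
        have h3 : (b⁻¹ * a) * u * (b⁻¹ * a)⁻¹ * u = u * ((b⁻¹ * a) * u * (b⁻¹ * a)⁻¹) :=
          mem_centralizer_singleton_iff.mp h2
        calc (a * u * a⁻¹) * (b * u * b⁻¹) = b * ((b⁻¹ * a) * u * (b⁻¹ * a)⁻¹ * u) * b⁻¹ := by group
          _ = b * (u * ((b⁻¹ * a) * u * (b⁻¹ * a)⁻¹)) * b⁻¹ := by rw [h3]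
          _ = (b * u * b⁻¹) * (a * u * a⁻¹) := by group
      exact pCore_le_sylow _ h1
    apply hPQ
    have := P.3 (g • P : Sylow p G).isPGroup' hle
    exact Sylow.ext this.symm
  · -- induct
    have hlt : Nat.card A < n := by
      rw [← hn]
      exact lt_of_le_of_ne (Subgroup.card_le_card_group A) fun h => hAtop (Subgroup.eq_top_of_card_eq A h)
    have hTI' : ∀ a : A, Cfsg.IsTISubset (Subgroup.centralizer ({a} : Set A) : Set A) := by
      intro a t ht y hy hty
      by_contra hy1
      apply ht
      have hy2 : (y : G) ∈ centralizer ({(a : G)} : Set G) := by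
        have : y * a = a * y := mem_centralizer_singleton_iff.mp hy
        exact mem_centralizer_singleton_iff.mpr (congrArg Subtype.val this)
      have hty2 : (t : G) * y * (t : G)⁻¹ ∈ centralizer ({(a : G)} : Set G) := by
        have : t * y * t⁻¹ * a = a * (t * y * t⁻¹) := mem_centralizer_singleton_iff.mp hty
        exact mem_centralizer_singleton_iff.mpr (congrArg Subtype.val this)
      have htn : (t : G) ∈ normalizer ((centralizer ({(a : G)} : Set G) : Subgroup G) : Set G) := by
        by_contra h
        apply hy1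
        apply Subtype.ext
        exact hTI a t h y hy2 hty2
      rw [mem_normalizer_iff]
      intro b
      have h1 := mem_normalizer_iff.mp htn b
      constructor
      · intro hb
        have hb1 : (b : G) ∈ centralizer ({(a : G)} : Set G) := by
          have : b * a = a * b := mem_centralizer_singleton_iff.mp hb
          exact mem_centralizer_singleton_iff.mpr (congrArg Subtype.val this)
        have h2 := h1.mp hb1
        have : (t * b * t⁻¹) * a = a * (t * b * t⁻¹) := by
          apply Subtype.ext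
          exact mem_centralizer_singleton_iff.mp h2
        exact mem_centralizer_singleton_iff.mpr this
      · intro hb
        have hb1 : (t : G) * b * (t : G)⁻¹ ∈ centralizer ({(a : G)} : Set G) := by
          have : t * b * t⁻¹ * a = a * (t * b * t⁻¹) := mem_centralizer_singleton_iff.mp hb
          exact mem_centralizer_singleton_iff.mpr (congrArg Subtype.val this)
        have h2 := h1.mpr hb1
        have : b * a = a * b := by
          apply Subtype.ext
          exact mem_centralizer_singleton_iff.mp h2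
        exact mem_centralizer_singleton_iff.mpr this
    let P' : Sylow p A := P.subtype hPA
    let Q' : Sylow p A := (g • P : Sylow p G).subtype hQA
    have hP'mem : ∀ y : A, y ∈ (P' : Subgroup A) ↔ (y : G) ∈ (P : Subgroup G) := fun y => by
      simp [P', Sylow.coe_subtype, Subgroup.mem_subgroupOf]
    have hQ'mem : ∀ y : A, y ∈ (Q' : Subgroup A) ↔ (y : G) ∈ ((g • P : Sylow p G) : Subgroup G) := fun y => by
      simp [Q', Sylow.coe_subtype, Subgroup.mem_subgroupOf]
    have hne' : P' ≠ Q' := by
      intro h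
      apply hPQ
      have hle : (P : Subgroup G) ≤ ((g • P : Sylow p G) : Subgroup G) := by
        intro u hu
        have h1 : (⟨u, hPA hu⟩ : A) ∈ (P' : Subgroup A) := (hP'mem _).mpr hu
        rw [h] at h1
        exact (hQ'mem _).mp h1
      have := P.3 (g • P : Sylow p G).isPGroup' hle
      exact Sylow.ext this.symm
    have h1 := ih _ hlt A rfl hTI' P' Q' hne'
    have h2 : (⟨x, hPA hxP⟩ : A) ∈ (P' : Subgroup A) ⊓ (Q' : Subgroup A) :=
      ⟨(hP'mem _).mpr hxP, (hQ'mem _).mpr hxQ⟩
    rw [h1, Subgroup.mem_bot] at h2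
    exact hx1' (congrArg Subtype.val h2)

end Cfsg.Agent.S4066

namespace Cfsg.Agent.S4066

/-- Let G be a finite group in which the centralizer of every element meets each of its conjugates by elements outside its normalizer trivially. Then any two distinct Sylow p-subgroups of G, for any prime p, intersect trivially. -/
theorem result {G : Type*} [Group G] [Finite G] (hTI : ∀ x : G, Cfsg.IsTISubset (Subgroup.centralizer ({x} : Set G) : Set G))
    {p : ℕ} [Fact p.Prime] (P Q : Sylow p G) (hPQ : P ≠ Q) : (P : Subgroup G) ⊓ (Q : Subgroup G) = ⊥ :=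
  aux _ G rfl hTI P Q hPQ

end Cfsg.Agent.S4066
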