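import Cfsg.Statements.S4074
import Mathlib

set_option autoImplicit false
open Cfsg

namespace Cfsg.Agent.S4074

theorem neg_eq_self_zmod2 : ∀ a : ZMod 2, -a = a := by decide

/-- For n > 2, every non-abelian subgroup of the dihedral group of order 2n is self-normalizing if and only if n = 4 or n is odd. -/
theorem result (n : ℕ) (hn : 2 < n) :
    (∀ H : Subgroup (DihedralGroup n), ¬ IsMulCommutative H → Subgroup.normalizer (H : Set (DihedralGroup n)) = H) ↔
    (n = 4 ∨ Odd n) := by
  classical
  haveI : NeZero n := ⟨by omega⟩
  haveI : Fact (Nat.Prime 2) := ⟨Nat.prime_two⟩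
  constructor
  · intro h
    by_contra hne
    push Not at hne
    obtain ⟨hn4, hodd⟩ := hne
    have heven : Even n := Nat.not_odd_iff_even.mp hodd
    have h2n : 2 ∣ n := even_iff_two_dvd.mp heven
    have hn6 : 6 ≤ n := by
      obtain ⟨k, hk⟩ := h2n
      omega
    let c : ZMod n →+* ZMod 2 := ZMod.castHom h2n (ZMod 2)
    let f : DihedralGroup n → Multiplicative (ZMod 2) := fun x => match x with
      | DihedralGroup.r i => Multiplicative.ofAdd (c i)
      | DihedralGroup.sr i => Multiplicative.ofAdd (c i)
    have hchar : ∀ a : ZMod 2, -a = a := neg_eq_self_zmod2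
    have hfmul : ∀ x y, f (x * y) = f x * f y := by
      intro x y
      cases x <;> cases y <;> simp only [f, DihedralGroup.r_mul_r, DihedralGroup.r_mul_sr,
        DihedralGroup.sr_mul_r, DihedralGroup.sr_mul_sr, map_add, map_sub, ← ofAdd_add] <;>
      congr 1 <;> rw [sub_eq_add_neg, hchar] <;> ring
    let φ : DihedralGroup n →* Multiplicative (ZMod 2) := MonoidHom.mk' f hfmul
    let H := φ.ker
    have hHn : H.Normal := inferInstance
    have hnorm : Subgroup.normalizer (H : Set (DihedralGroup n)) = ⊤ := Subgroup.normalizer_eq_top_iff.mpr hHn
    have hr1 : DihedralGroup.r (1 : ZMod n) ∉ H := by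
      intro hmem
      have h1 : Multiplicative.ofAdd (c 1) = 1 := hmem
      rw [map_one] at h1
      have h2 : (1 : ZMod 2) = 0 := h1
      exact absurd h2 one_ne_zero
    have hnc : ¬ IsMulCommutative H := by
      intro hcomm
      have hr2 : DihedralGroup.r (2 : ZMod n) ∈ H := by
        show Multiplicative.ofAdd (c 2) = 1
        rw [map_ofNat]
        rfl
      have hs0 : DihedralGroup.sr (0 : ZMod n) ∈ H := by
        show Multiplicative.ofAdd (c 0) = 1
        rw [map_zero]
        rfl
      have h1 := hcomm.is_comm.comm (⟨_, hr2⟩ : H) ⟨_, hs0⟩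
      have h2 : DihedralGroup.r (2 : ZMod n) * DihedralGroup.sr 0 = DihedralGroup.sr 0 * DihedralGroup.r 2 :=
        congrArg Subtype.val h1
      rw [DihedralGroup.r_mul_sr, DihedralGroup.sr_mul_r] at h2
      have h3 : (0 : ZMod n) - 2 = 0 + 2 := DihedralGroup.sr.inj h2
      have h4 : ((4 : ℕ) : ZMod n) = 0 := by
        push_cast
        linear_combination (-1 : ZMod n) * h3
      rw [ZMod.natCast_eq_zero_iff] at h4
      have := Nat.le_of_dvd (by norm_num) h4
      omega
    have h1 := h H hnc
    rw [hnorm] at h1
    apply hr1
    rw [← h1]
    trivial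
  · rintro (rfl | hodd) H hH
    · -- `n = 4`
      have hHtop : H = ⊤ := by
        by_contra hne
        apply hH
        have hcard : Nat.card (DihedralGroup 4) = 8 := by
          rw [DihedralGroup.nat_card]
        have hd : Nat.card H ∣ 8 := hcard ▸ Subgroup.card_subgroup_dvd_card H
        have hlt : Nat.card H ≠ 8 := fun h =>
          hne (Subgroup.eq_top_of_card_eq H (by rw [h, hcard]))
        have hd3 : Nat.card H ∣ 2 ^ 3 := by simpa using hd
        obtain ⟨k, hk3, hk⟩ := (Nat.dvd_prime_pow Nat.prime_two).mp hd3
        interval_cases k
        · simp only [pow_zero] at hk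
          haveI : Subsingleton H := (Nat.card_eq_one_iff_unique.mp hk).1
          exact ⟨⟨fun a b => Subsingleton.elim _ _⟩⟩
        · simp only [pow_one] at hk
          haveI : IsCyclic H := isCyclic_of_prime_card hk
          exact inferInstance
        · exact IsPGroup.isMulCommutative_of_card_eq_prime_sq hk
        · exact absurd (by simpa using hk) hlt
      rw [hHtop]
      exact Subgroup.normalizer_eq_top_iff.mpr inferInstance
    · -- `n` odd
      obtain ⟨i, hi⟩ : ∃ i, DihedralGroup.sr (i : ZMod n) ∈ H := by
        by_contra hno
        push Not at hno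
        apply hH
        refine ⟨⟨?_⟩⟩
        rintro ⟨a, ha⟩ ⟨b, hb⟩
        apply Subtype.ext
        cases a with
        | sr i => exact absurd ha (hno i)
        | r i =>
          cases b with
          | sr j => exact absurd hb (hno j)
          | r j =>
            show DihedralGroup.r i * DihedralGroup.r j = DihedralGroup.r j * DihedralGroup.r i
            rw [DihedralGroup.r_mul_r, DihedralGroup.r_mul_r, add_comm]
      have hrot : ∀ j : ZMod n, DihedralGroup.r j ∈ Subgroup.normalizer (H : Set (DihedralGroup n)) →
          DihedralGroup.r j ∈ H := by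
        intro j hj
        have h1 := (Subgroup.mem_normalizer_iff.mp hj _).mp hi
        have h2 : DihedralGroup.r j * DihedralGroup.sr i * (DihedralGroup.r j)⁻¹ = DihedralGroup.sr (i - 2 * j) := by
          rw [DihedralGroup.inv_r, DihedralGroup.r_mul_sr, DihedralGroup.sr_mul_r]
          congr 1
          ring
        rw [h2] at h1
        have h3 : DihedralGroup.sr i * DihedralGroup.sr (i - 2 * j) = DihedralGroup.r (-(2 * j)) := by
          rw [DihedralGroup.sr_mul_sr]
          congr 1
          ring
        have h4 : DihedralGroup.r (-(2 * j)) ∈ H := h3 ▸ H.mul_mem hi h1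
        have h5 : DihedralGroup.r (2 * j) ∈ H := by
          have := H.inv_mem h4
          rwa [DihedralGroup.inv_r, neg_neg] at this
        have hpow : ∀ (a : ZMod n) (k : ℕ), (DihedralGroup.r a) ^ k = DihedralGroup.r ((k : ZMod n) * a) := by
          intro a k
          induction k with
          | zero =>
            rw [pow_zero, Nat.cast_zero, zero_mul]
            rfl
          | succ k ih =>
            rw [pow_succ, ih, DihedralGroup.r_mul_r]
            congr 1
            push_cast
            ring
        obtain ⟨m, hm⟩ := hodd
        have h6 : DihedralGroup.r j = (DihedralGroup.r (2 * j)) ^ (m + 1) := by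
          rw [hpow]
          congr 1
          have h7 : ((2 * m + 1 : ℕ) : ZMod n) = 0 := by
            rw [← hm]; exact ZMod.natCast_self n
          push_cast at h7 ⊢
          linear_combination (-j) * h7
        rw [h6]
        exact H.pow_mem h5 _
      apply le_antisymm
      · intro g hg
        cases g with
        | r j => exact hrot j hg
        | sr j =>
          have h1 : DihedralGroup.sr j * DihedralGroup.sr i = DihedralGroup.r (i - j) :=
            DihedralGroup.sr_mul_sr j i
          have h2 : DihedralGroup.r (i - j) ∈ H := by
            apply hrot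
            rw [← h1]
            exact Subgroup.mul_mem _ hg (Subgroup.le_normalizer hi)
          have h3 : DihedralGroup.sr j = DihedralGroup.r (i - j) * DihedralGroup.sr i := by
            rw [DihedralGroup.r_mul_sr]
            congr 1
            ring
          rw [h3]
          exact H.mul_mem h2 hi
      · exact Subgroup.le_normalizer

end Cfsg.Agent.S4074
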