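import Cfsg.Statements.S4075
import Mathlib

set_option autoImplicit false
open Cfsg

namespace Cfsg.Agent.S4075

/-- Let G be a finite nilpotent group. Every non-abelian subgroup of G is self-normalizing if and only if G is abelian or G is a minimal non-abelian p-group for some prime p (non-abelian of prime-power order with every proper subgroup abelian). -/
theorem result {G : Type*} [Group G] [Finite G]
    [Group.IsNilpotent G] :
    (∀ H : Subgroup G, ¬ IsMulCommutative H → Subgroup.normalizer (H : Set G) = H) ↔
    (IsMulCommutative G ∨ (IsPrimePow (Nat.card G) ∧ ¬ IsMulCommutative G ∧ ∀ H : Subgroup G, H ≠ ⊤ → IsMulCommutative H)) := by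
  classical
  constructor
  · intro h
    by_cases hc : IsMulCommutative G
    · exact Or.inl hc
    refine Or.inr ?_
    have hprop : ∀ H : Subgroup G, H ≠ ⊤ → IsMulCommutative H := by
      intro H hH
      by_contra hnc
      have h1 := h H hnc
      have hcond := normalizerCondition_of_isNilpotent (G := G)
      have h2 := hcond H (lt_top_iff_ne_top.mpr hH)
      rw [h1] at h2
      exact lt_irrefl _ h2
    refine ⟨?_, hc, hprop⟩
    by_contra hpp
    apply hc
    have hSyl : ∀ (p : ℕ) [Fact p.Prime] (P : Sylow p G), IsMulCommutative (P : Subgroup G) := by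
      intro p _ P
      apply hprop
      intro htop
      have hpG : IsPGroup p G := by
        have := P.isPGroup'
        rw [htop] at this
        exact this.of_equiv Subgroup.topEquiv
      obtain ⟨k, hk⟩ := IsPGroup.iff_card.mp hpG
      apply hpp
      rcases Nat.eq_zero_or_pos k with rfl | hk0
      · exfalso
        apply hc
        rw [pow_zero] at hk
        haveI : Subsingleton G := (Nat.card_eq_one_iff_unique.mp hk).1
        exact ⟨⟨fun a b => Subsingleton.elim _ _⟩⟩
      · rw [hk]
        exact ⟨p, k, (Fact.out : p.Prime).prime, hk0, rfl⟩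
    obtain ⟨e⟩ := ((Group.isNilpotent_of_finite_tfae (G := G)).out 0 4 rfl rfl).mp inferInstance
    refine ⟨⟨fun a b => ?_⟩⟩
    have key : e.symm a * e.symm b = e.symm b * e.symm a := by
      funext p P
      haveI : Fact (p : ℕ).Prime := ⟨Nat.prime_of_mem_primeFactors p.2⟩
      have := hSyl (p : ℕ) P
      exact this.is_comm.comm _ _
    have h3 := congrArg e key
    simpa using h3
  · rintro (hc | ⟨-, -, hprop⟩) H hH
    · exfalso
      apply hH
      exact ⟨⟨fun a b => Subtype.ext (hc.is_comm.comm _ _)⟩⟩
    · have hHtop : H = ⊤ := by
        by_contra hne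
        exact hH (hprop H hne)
      rw [hHtop]
      exact Subgroup.normalizer_eq_top_iff.mpr inferInstance

end Cfsg.Agent.S4075
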