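import Cfsg.Statements.S4080
import Mathlib

set_option autoImplicit false
set_option linter.style.haveILetI false
open Cfsg

namespace Cfsg.Agent.S4080

open Matrix

/-- A nilpotent `2 × 2` matrix over a field squares to zero. -/
theorem sq_eq_zero_of_nilpotent {F : Type*} [Field F] (M : Matrix (Fin 2) (Fin 2) F) {k : ℕ}
    (hk : M ^ k = 0) : M ^ 2 = 0 := by
  have hnil : IsNilpotent M := ⟨k, hk⟩
  have h1 := Matrix.isNilpotent_charpoly_sub_pow_of_isNilpotent hnil
  have h2 : M.charpoly - Polynomial.X ^ Fintype.card (Fin 2) = 0 := h1.eq_zero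
  have h3 : M.charpoly = Polynomial.X ^ 2 := by
    have := sub_eq_zero.mp h2
    simpa using this
  have h4 := Matrix.aeval_self_charpoly M
  rw [h3] at h4
  simpa using h4

/-- The main computation in `M₂(ℤ/p²)`. -/
theorem natCast_mul_sub_one_eq_zero {p : ℕ} [hp : Fact p.Prime] (hp3 : 3 < p) (B : Matrix (Fin 2) (Fin 2) (ZMod (p ^ 2)))
    (hB : B ^ p = 1) : (p : Matrix (Fin 2) (Fin 2) (ZMod (p ^ 2))) * (B - 1) = 0 := by
  classical
  have hpp : p.Prime := hp.out
  haveI : NeZero (p ^ 2) := ⟨pow_ne_zero 2 hpp.ne_zero⟩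
  haveI hch : CharP (Matrix (Fin 2) (Fin 2) (ZMod (p ^ 2))) (p ^ 2) := Matrix.charP (p ^ 2)
  have hdvd : p ∣ p ^ 2 := dvd_pow_self p two_ne_zero
  let c : ZMod (p ^ 2) →+* ZMod p := ZMod.castHom hdvd (ZMod p)
  set N : Matrix (Fin 2) (Fin 2) (ZMod (p ^ 2)) := B - 1 with hN
  have hBN : B = N + 1 := by rw [hN]; abel
  let P : Matrix (Fin 2) (Fin 2) (ZMod (p ^ 2)) := ((p : ℕ) : Matrix (Fin 2) (Fin 2) (ZMod (p ^ 2)))
  have hPP : P * P = 0 := by
    show ((p : ℕ) : Matrix (Fin 2) (Fin 2) (ZMod (p ^ 2))) * ((p : ℕ) : Matrix (Fin 2) (Fin 2) (ZMod (p ^ 2))) = 0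
    rw [← Nat.cast_mul, ← sq]
    exact CharP.cast_eq_zero _ (p ^ 2)
  have hPc : ∀ X : Matrix (Fin 2) (Fin 2) (ZMod (p ^ 2)), P * X = X * P := fun X =>
    (Nat.cast_commute p X)
  -- reduction mod `p`
  have hNbar : (c.mapMatrix N) ^ p = 0 := by
    have h1 : c.mapMatrix N = c.mapMatrix B - 1 := by
      rw [hN, map_sub, map_one]
    have h2 : (c.mapMatrix B) ^ p = 1 := by
      rw [← map_pow, hB, map_one]
    haveI : CharP (Matrix (Fin 2) (Fin 2) (ZMod p)) p := Matrix.charP p
    rw [h1, sub_pow_char_of_commute p (Commute.one_right _), h2]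
    simp
  have hNbar2 := sq_eq_zero_of_nilpotent _ hNbar
  have hdiv : ∀ y : ZMod (p ^ 2), c y = 0 → ∃ z : ZMod (p ^ 2), y = (p : ZMod (p ^ 2)) * z := by
    intro y hy
    have h1 : ((y.val : ℕ) : ZMod (p ^ 2)) = y := ZMod.natCast_zmod_val y
    rw [← h1, map_natCast, ZMod.natCast_eq_zero_iff] at hy
    obtain ⟨k, hk⟩ := hy
    refine ⟨(k : ZMod (p ^ 2)), ?_⟩
    rw [← h1, hk]
    push_cast
    rfl
  have hentry : ∀ i j, ∃ z : ZMod (p ^ 2), (N ^ 2) i j = (p : ZMod (p ^ 2)) * z := by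
    intro i j
    apply hdiv
    have h1 : c.mapMatrix (N ^ 2) = 0 := by rw [map_pow]; exact hNbar2
    have h2 := congrFun (congrFun h1 i) j
    simpa using h2
  choose z hz using hentry
  let M : Matrix (Fin 2) (Fin 2) (ZMod (p ^ 2)) := Matrix.of z
  have hN2 : N ^ 2 = P * M := by
    ext i j
    have h3 : (P * M) i j = (p : ZMod (p ^ 2)) * z i j := by
      show (((p : ℕ) : Matrix (Fin 2) (Fin 2) (ZMod (p ^ 2))) * M) i j = _
      rw [← nsmul_eq_mul, Matrix.smul_apply, nsmul_eq_mul]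
      rfl
    rw [h3, hz]
  have hterm : ∀ k, 2 ≤ k → k ≤ p → N ^ k * (1 : Matrix (Fin 2) (Fin 2) (ZMod (p ^ 2))) ^ (p - k) * (p.choose k : ℕ) = 0 := by
    intro k hk2 hkp
    rw [one_pow, mul_one]
    by_cases hkeq : k = p
    · -- the top term
      subst hkeq
      have h4 : N ^ k = N ^ 2 * N ^ 2 * N ^ (k - 4) := by
        rw [← pow_add, ← pow_add]
        congr 1
        omega
      rw [h4, hN2]
      have h5 : P * M * (P * M) = (P * P) * (M * M) := by
        calc P * M * (P * M) = P * (M * P) * M := by noncomm_ring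
          _ = P * (P * M) * M := by rw [hPc M]
          _ = (P * P) * (M * M) := by noncomm_ring
      rw [h5, hPP]
      simp
    · have hlt : k < p := lt_of_le_of_ne hkp hkeq
      obtain ⟨e, he⟩ := hpp.dvd_choose_self (by omega) hlt
      rw [he]
      have h4 : N ^ k = N ^ 2 * N ^ (k - 2) := by
        rw [← pow_add]
        congr 1
        omega
      rw [h4, hN2, Nat.cast_mul]
      have h5 : P * M * N ^ (k - 2) * (((p : ℕ) : Matrix (Fin 2) (Fin 2) (ZMod (p ^ 2))) * (e : Matrix (Fin 2) (Fin 2) (ZMod (p ^ 2)))) =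
          (P * P) * (M * N ^ (k - 2) * (e : Matrix (Fin 2) (Fin 2) (ZMod (p ^ 2)))) := by
        show P * M * N ^ (k - 2) * (P * (e : Matrix (Fin 2) (Fin 2) (ZMod (p ^ 2)))) = _
        have h6 : M * N ^ (k - 2) * P = P * (M * N ^ (k - 2)) := (hPc _).symm
        calc P * M * N ^ (k - 2) * (P * (e : Matrix (Fin 2) (Fin 2) (ZMod (p ^ 2))))
            = P * (M * N ^ (k - 2) * P) * (e : Matrix (Fin 2) (Fin 2) (ZMod (p ^ 2))) := by noncomm_ring
          _ = P * (P * (M * N ^ (k - 2))) * (e : Matrix (Fin 2) (Fin 2) (ZMod (p ^ 2))) := by rw [h6]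
          _ = _ := by noncomm_ring
      rw [h5, hPP, zero_mul]
  have hexp : (N + 1) ^ p = 1 + N * P := by
    rw [(Commute.one_right N).add_pow]
    have h6 : ∀ k ∈ Finset.range (p + 1), k ∉ ({0, 1} : Finset ℕ) →
        N ^ k * (1 : Matrix (Fin 2) (Fin 2) (ZMod (p ^ 2))) ^ (p - k) * (p.choose k : ℕ) = 0 := by
      intro k hk hk2
      apply hterm
      · simp only [Finset.mem_insert, Finset.mem_singleton, not_or] at hk2
        omega
      · have := Finset.mem_range.mp hk
        omega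
    rw [← Finset.sum_subset (s₁ := ({0, 1} : Finset ℕ)) (by
      intro x hx
      simp only [Finset.mem_insert, Finset.mem_singleton] at hx
      rcases hx with rfl | rfl
      · simp
      · simp; exact hpp.pos) h6]
    rw [Finset.sum_pair (by norm_num)]
    simp [P]
  rw [← hBN, hB] at hexp
  have h7 : N * P = 0 := by
    have : 1 + N * P = 1 + 0 := by rw [← hexp, add_zero]
    exact add_left_cancel this
  rw [← hPc N] at h7
  exact h7

end Cfsg.Agent.S4080

namespace Cfsg.Agent.S4080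

/-- Let p > 3 be a prime and L the direct product of two cyclic groups of order p². Every automorphism of L of order p fixes every element of order p of L. -/
theorem result {p : ℕ} [Fact p.Prime] (hp : 3 < p)
    (a : MulAut (Multiplicative (ZMod (p ^ 2) × ZMod (p ^ 2)))) (ha : orderOf a = p)
    (x : Multiplicative (ZMod (p ^ 2) × ZMod (p ^ 2))) (hx : orderOf x = p) : a x = x := by
  classical
  have hpp : p.Prime := Fact.out
  haveI : NeZero (p ^ 2) := ⟨pow_ne_zero 2 hpp.ne_zero⟩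
  -- the additive map attached to an automorphism
  let φ₀ : MulAut (Multiplicative (ZMod (p ^ 2) × ZMod (p ^ 2))) →
      ((ZMod (p ^ 2) × ZMod (p ^ 2)) →+ (ZMod (p ^ 2) × ZMod (p ^ 2))) := fun b =>
    AddMonoidHom.mk' (fun v => Multiplicative.toAdd (b (Multiplicative.ofAdd v))) (by
      intro v w
      rw [ofAdd_add, map_mul, toAdd_mul])
  let φ : MulAut (Multiplicative (ZMod (p ^ 2) × ZMod (p ^ 2))) →
      Module.End (ZMod (p ^ 2)) (ZMod (p ^ 2) × ZMod (p ^ 2)) := fun b => (φ₀ b).toZModLinearMap (p ^ 2)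
  have hφ : ∀ b v, φ b v = Multiplicative.toAdd (b (Multiplicative.ofAdd v)) := fun b v => rfl
  have hφpow : ∀ (k : ℕ) (v), ((φ a) ^ k) v = φ (a ^ k) v := by
    intro k v
    induction k generalizing v with
    | zero =>
      show ((1 : Module.End (ZMod (p ^ 2)) (ZMod (p ^ 2) × ZMod (p ^ 2)))) v = _
      rw [hφ, pow_zero]
      rfl
    | succ k ih =>
      have h1 : φ a ^ (k + 1) = φ a ^ k * φ a := pow_succ (φ a) k
      have h2 : a ^ (k + 1) = a ^ k * a := pow_succ a k
      rw [h1, Module.End.mul_apply, ih, hφ, hφ, hφ, h2, MulAut.mul_apply]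
      simp
  have hφp : (φ a) ^ p = 1 := by
    refine LinearMap.ext fun v => ?_
    rw [hφpow, hφ]
    have h0 : a ^ p = 1 := orderOf_dvd_iff_pow_eq_one.mp ha.dvd
    rw [h0]
    rfl
  -- the matrix
  let b₀ := Module.Basis.finTwoProd (ZMod (p ^ 2))
  let Φ := LinearMap.toMatrixAlgEquiv b₀
  have hB : (Φ (φ a)) ^ p = 1 := by
    rw [← map_pow, hφp, map_one]
  have h1 := natCast_mul_sub_one_eq_zero hp (Φ (φ a)) hB
  have h2 : ((p : ℕ) : Module.End (ZMod (p ^ 2)) (ZMod (p ^ 2) × ZMod (p ^ 2))) * (φ a - 1) = 0 := by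
    apply Φ.injective
    rw [map_mul, map_sub, map_one, map_natCast, map_zero]
    exact h1
  have h3 : ∀ w, p • (φ a w - w) = 0 := by
    intro w
    have := congrArg (fun f => f w) h2
    simpa [Module.End.mul_apply, Module.End.natCast_apply] using this
  -- elements of order `p` are multiples of `p`
  have hxp : x ^ p = 1 := orderOf_dvd_iff_pow_eq_one.mp hx.dvd
  have hdiv : ∀ y : ZMod (p ^ 2), p • y = 0 → ∃ z : ZMod (p ^ 2), y = p • z := by
    intro y hy
    have h4 : ((y.val : ℕ) : ZMod (p ^ 2)) = y := ZMod.natCast_zmod_val y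
    rw [← h4, ← Nat.cast_smul_eq_nsmul (ZMod (p ^ 2)), smul_eq_mul, ← Nat.cast_mul, ZMod.natCast_eq_zero_iff] at hy
    have h5 : p ∣ y.val := by
      have hy' : p * p ∣ p * y.val := by
        have h9 : p ^ 2 = p * p := sq p
        exact h9 ▸ hy
      exact (Nat.mul_dvd_mul_iff_left hpp.pos).mp hy'
    obtain ⟨k, hk⟩ := h5
    refine ⟨(k : ZMod (p ^ 2)), ?_⟩
    rw [← h4, hk, Nat.cast_mul, nsmul_eq_mul]
  have hx0 : p • Multiplicative.toAdd x = 0 := by
    have := congrArg Multiplicative.toAdd hxp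
    simpa using this
  obtain ⟨u, hu⟩ := hdiv (Multiplicative.toAdd x).1 (congrArg Prod.fst hx0)
  obtain ⟨v, hv⟩ := hdiv (Multiplicative.toAdd x).2 (congrArg Prod.snd hx0)
  have hxw : Multiplicative.toAdd x = p • (u, v) := by
    ext
    · simpa using hu
    · simpa using hv
  have h6 : φ a (Multiplicative.toAdd x) = Multiplicative.toAdd x := by
    rw [hxw, map_nsmul]
    have h7 := h3 (u, v)
    rw [smul_sub, sub_eq_zero] at h7
    exact h7
  have h8 : Multiplicative.toAdd (a x) = Multiplicative.toAdd x := h6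
  exact Multiplicative.toAdd.injective h8

end Cfsg.Agent.S4080
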