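import Cfsg.Statements.S4084
import Mathlib

set_option autoImplicit false
open Cfsg

namespace Cfsg.Agent.S4084

/-- Abstract characterisation: an element of order `p * q` exists iff some double centralizer has order divisible by `p * q`. -/
theorem exists_order_iff {G : Type*} [Group G] [Finite G] {p q : ℕ} (hp : p.Prime) (hq : q.Prime) (hpq : p ≠ q) :
    (∃ g : G, orderOf g = p * q) ↔
      ∃ x : G, p * q ∣ Nat.card (Subgroup.centralizer (Subgroup.centralizer ({x} : Set G) : Set G)) := by
  classical
  have hxC : ∀ x : G, x ∈ Subgroup.centralizer ({x} : Set G) := by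
    intro x; rw [Subgroup.mem_centralizer_singleton_iff]
  constructor
  · rintro ⟨g, hg⟩
    refine ⟨g, ?_⟩
    rw [← hg]
    apply Subgroup.orderOf_dvd_natCard
    rw [Subgroup.mem_centralizer_iff]
    intro h hh
    have hh' : h ∈ Subgroup.centralizer ({g} : Set G) := hh
    rw [Subgroup.mem_centralizer_singleton_iff] at hh'
    exact hh'
  · rintro ⟨x, hx⟩
    set B := Subgroup.centralizer (Subgroup.centralizer ({x} : Set G) : Set G) with hB
    have hBC : B ≤ Subgroup.centralizer ({x} : Set G) := by
      intro y hy
      rw [hB, Subgroup.mem_centralizer_iff] at hy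
      rw [Subgroup.mem_centralizer_singleton_iff]
      exact (hy x (hxC x)).symm
    have hcomm : ∀ a b : B, a * b = b * a := by
      rintro ⟨a, ha⟩ ⟨b, hb⟩
      ext
      have : (a : G) * b = b * a := by
        rw [hB, Subgroup.mem_centralizer_iff] at ha
        exact (ha b (hBC hb)).symm
      simpa using this
    have hpB : p ∣ Nat.card B := (Dvd.intro _ rfl).trans hx
    have hqB : q ∣ Nat.card B := (Dvd.intro_left _ rfl).trans hx
    haveI := Fact.mk hp
    haveI := Fact.mk hq
    obtain ⟨a, ha⟩ := exists_prime_orderOf_dvd_card' p hpB
    obtain ⟨b, hb⟩ := exists_prime_orderOf_dvd_card' q hqB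
    have hcop : Nat.Coprime (orderOf a) (orderOf b) := by
      rw [ha, hb]; exact (Nat.coprime_primes hp hq).2 hpq
    have h1 : orderOf (a * b) = p * q := by
      rw [(show Commute a b from hcomm a b).orderOf_mul_eq_mul_orderOf_of_coprime hcop, ha, hb]
    refine ⟨((a * b : B) : G), ?_⟩
    rw [Subgroup.orderOf_coe, h1]

/-- Let G and H be finite groups whose commuting graphs are isomorphic: there is a bijection e : G → H with x, y commuting exactly when e(x), e(y) commute. Then G and H have the same prime graph: for distinct primes p, q, G has an element of order pq if and only if H does (and #G = #H, so the prime divisors agree). -/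
theorem result {G H : Type*} [Group G] [Finite G] [Group H] [Finite H] (e : G ≃ H)
    (he : ∀ x y : G, Commute x y ↔ Commute (e x) (e y))
    {p q : ℕ} (hp : p.Prime) (hq : q.Prime) (hpq : p ≠ q) :
    (∃ g : G, orderOf g = p * q) ↔ (∃ h : H, orderOf h = p * q) := by
  rw [exists_order_iff hp hq hpq, exists_order_iff hp hq hpq]
  -- e transports double centralizers
  have hC : ∀ (S : Set G) (y : G), y ∈ Subgroup.centralizer S ↔ e y ∈ Subgroup.centralizer (e '' S) := by
    intro S y
    simp only [Subgroup.mem_centralizer_iff, Set.forall_mem_image]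
    constructor
    · intro h z hz
      exact (he y z).1 (h z hz).symm |>.symm |> fun h => h
    · intro h z hz
      exact ((he y z).2 (h hz).symm).symm
  have himg : ∀ S : Set G, e '' (Subgroup.centralizer S : Set G) = (Subgroup.centralizer (e '' S) : Set H) := by
    intro S
    ext y
    constructor
    · rintro ⟨z, hz, rfl⟩
      exact (hC S z).1 hz
    · intro hy
      refine ⟨e.symm y, ?_, by simp⟩
      have := (hC S (e.symm y)).2 (by simpa using hy)
      exact this
  have hcard : ∀ x : G, Nat.card (Subgroup.centralizer (Subgroup.centralizer ({x} : Set G) : Set G)) =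
      Nat.card (Subgroup.centralizer (Subgroup.centralizer ({e x} : Set H) : Set H)) := by
    intro x
    have h1 : (Subgroup.centralizer (Subgroup.centralizer ({e x} : Set H) : Set H) : Set H) =
        e '' (Subgroup.centralizer (Subgroup.centralizer ({x} : Set G) : Set G) : Set G) := by
      rw [himg, himg]; simp
    have h2 : Nat.card (Subgroup.centralizer (Subgroup.centralizer ({e x} : Set H) : Set H)) =
        Nat.card ((Subgroup.centralizer (Subgroup.centralizer ({e x} : Set H) : Set H) : Set H)) := rfl
    rw [h2, h1, Nat.card_image_of_injective e.injective]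
    rfl
  constructor
  · rintro ⟨x, hx⟩
    exact ⟨e x, by rwa [← hcard]⟩
  · rintro ⟨y, hy⟩
    refine ⟨e.symm y, ?_⟩
    rw [hcard]; simpa using hy

end Cfsg.Agent.S4084
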