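import Cfsg.Statements.S4086
import Cfsg.Agent.Lib.Coprime.Elem
import Mathlib

set_option autoImplicit false
open Cfsg

namespace Cfsg.Agent.S4086

/-- For a finite group G the following are equivalent: every non-identity element has prime-power order; whenever two elements generate a cyclic subgroup, one of them is a power of the other (the enhanced power graph of G coincides with its power graph). -/
theorem result {G : Type*} [Group G] [Finite G] :
    (∀ g : G, g ≠ 1 → IsPrimePow (orderOf g)) ↔
    (∀ x y : G, IsCyclic ↥(Subgroup.closure ({x, y} : Set G)) → (x ∈ Subgroup.zpowers y ∨ y ∈ Subgroup.zpowers x)) := by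
  classical
  constructor
  · intro h x y hcyc
    by_cases hx : x = 1
    · left; rw [hx]; exact Subgroup.one_mem _
    by_cases hy : y = 1
    · right; rw [hy]; exact Subgroup.one_mem _
    set C := Subgroup.closure ({x, y} : Set G) with hC
    have hx' : x ∈ C := Subgroup.subset_closure (by simp)
    have hy' : y ∈ C := Subgroup.subset_closure (by simp)
    obtain ⟨g, hg⟩ := hcyc
    have hgne : (g : G) ≠ 1 := by
      intro h1
      have : (g : C) = 1 := Subtype.ext h1
      obtain ⟨i, hi⟩ := hg ⟨x, hx'⟩
      apply hx
      have := congrArg Subtype.val hi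
      simpa [‹(g : C) = 1›] using this.symm
    obtain ⟨p, a, hp, ha, hpa⟩ := (isPrimePow_nat_iff _).1 (h (g : G) hgne)
    haveI : IsCyclic C := ⟨g, hg⟩
    have hgo : orderOf g = p ^ a := by rw [← Subgroup.orderOf_coe]; exact hpa.symm
    have hxo := orderOf_dvd_of_mem_zpowers (hg ⟨x, hx'⟩)
    have hyo := orderOf_dvd_of_mem_zpowers (hg ⟨y, hy'⟩)
    rw [hgo] at hxo hyo
    obtain ⟨b, -, hb⟩ := (Nat.dvd_prime_pow hp).1 hxo
    obtain ⟨c, -, hc⟩ := (Nat.dvd_prime_pow hp).1 hyo
    rcases le_total b c with hbc | hbc
    · left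
      have hd : orderOf (⟨x, hx'⟩ : C) ∣ orderOf (⟨y, hy'⟩ : C) := by
        rw [hb, hc]; exact pow_dvd_pow p hbc
      have := Cfsg.Agent.Lib.Coprime.mem_zpowers_of_orderOf_dvd hd
      obtain ⟨k, hk⟩ := Subgroup.mem_zpowers_iff.mp this
      exact Subgroup.mem_zpowers_iff.mpr ⟨k, by simpa using congrArg Subtype.val hk⟩
    · right
      have hd : orderOf (⟨y, hy'⟩ : C) ∣ orderOf (⟨x, hx'⟩ : C) := by
        rw [hb, hc]; exact pow_dvd_pow p hbc
      have := Cfsg.Agent.Lib.Coprime.mem_zpowers_of_orderOf_dvd hd
      obtain ⟨k, hk⟩ := Subgroup.mem_zpowers_iff.mp this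
      exact Subgroup.mem_zpowers_iff.mpr ⟨k, by simpa using congrArg Subtype.val hk⟩
  · intro h g hg
    by_contra hnp
    -- order of g is not a prime power: split it into two coprime factors
    have hn1 : orderOf g ≠ 1 := by
      intro h1; exact hg (orderOf_eq_one_iff.mp h1)
    have hn0 : orderOf g ≠ 0 := (orderOf_pos g).ne'
    set n := orderOf g with hn
    set p := n.minFac with hp
    have hpp : p.Prime := Nat.minFac_prime hn1
    set a := n.factorization p with ha
    set u := p ^ a with hu
    set v := n / u with hv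
    have huv : u * v = n := Nat.mul_div_cancel' (Nat.ordProj_dvd n p)
    have hcop : Nat.Coprime u v := by
      have := Nat.coprime_ordCompl hpp hn0
      exact Nat.Coprime.pow_left a this
    have ha0 : a ≠ 0 := by
      have : p ∣ n := Nat.minFac_dvd n
      exact (hpp.factorization_pos_of_dvd hn0 this).ne'
    have hv1 : v ≠ 1 := by
      intro hv1
      apply hnp
      have : n = p ^ a := by rw [← huv, hv1, mul_one]
      rw [this]
      exact hpp.isPrimePow.pow ha0
    have hu1 : u ≠ 1 := by
      intro hu1
      have := (Nat.one_lt_pow ha0 hpp.one_lt)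
      omega
    set x := g ^ u with hx
    set y := g ^ v with hy
    have hxo : orderOf x = v := by
      rw [hx, orderOf_pow' _ (pow_pos hpp.pos a).ne', ← hn, Nat.gcd_eq_right ⟨v, huv.symm⟩]
    have hyo : orderOf y = u := by
      rw [hy, orderOf_pow' _ (by intro h0; rw [h0] at huv; omega), ← hn, Nat.gcd_eq_right ⟨u, by rw [← huv, mul_comm]⟩]
      rw [← huv, Nat.mul_div_cancel]
      exact Nat.pos_of_ne_zero (by intro h0; rw [h0] at huv; omega)
    have hcyc : IsCyclic ↥(Subgroup.closure ({x, y} : Set G)) := by
      have hle : Subgroup.closure ({x, y} : Set G) ≤ Subgroup.zpowers g := by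
        rw [Subgroup.closure_le]
        rintro z (rfl | rfl)
        · exact Subgroup.npow_mem_zpowers g u
        · exact Subgroup.npow_mem_zpowers g v
      exact Subgroup.isCyclic_of_le hle
    rcases h x y hcyc with hm | hm
    · have := orderOf_dvd_of_mem_zpowers hm
      rw [hxo, hyo] at this
      have h1 : v = 1 := Nat.Coprime.eq_one_of_dvd hcop.symm this
      exact hv1 h1
    · have := orderOf_dvd_of_mem_zpowers hm
      rw [hxo, hyo] at this
      exact hu1 (Nat.Coprime.eq_one_of_dvd hcop this)

end Cfsg.Agent.S4086
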