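import Cfsg.Statements.S4089
import Mathlib
import Cfsg.Agent.Lib.Subnormal.Join
import Cfsg.Agent.Lib.Amalgam.YL
import Cfsg.Agent.Lib.Amalgam.Kieler
import Cfsg.Agent.Lib.Amalgam.Vertex
import Cfsg.Agent.Lib.Amalgam.ParaChar
import Cfsg.Agent.Lib.Core.Basic

set_option autoImplicit false
open Cfsg

namespace Cfsg.Agent.S4089


open Subgroup Cfsg.Agent.Lib.Subnormal Cfsg.Agent.Lib.Amalgam

section Aux

variable {G : Type*} [Group G] [Finite G] {p : ℕ} [hp : Fact p.Prime]

/-- Every subgroup of a `p`-subgroup is subnormal in it. -/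
theorem sn_of_pgroup {X S : Subgroup G} (hX : IsPGroup p X) (hS : S ≤ X) : SN X S := by
  induction S using WellFoundedGT.induction with
  | ind S ih =>
    by_cases hSX : S = X
    · rw [hSX]; exact SN.refl
    have hnc : NormalizerCondition X := @normalizerCondition_of_isNilpotent _ _ hX.isNilpotent
    have hlt : S.subgroupOf X < ⊤ :=
      lt_top_iff_ne_top.2 fun h => hSX (le_antisymm hS (Subgroup.subgroupOf_eq_top.1 h))
    have h1 := hnc _ hlt
    obtain ⟨y, hy1, hy2⟩ := SetLike.exists_of_lt h1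
    set T : Subgroup G := X ⊓ normalizer (S : Set G) with hT
    have hyT : (y : G) ∈ normalizer (S : Set G) := by
      rw [Subgroup.mem_normalizer_iff]
      intro z
      rw [Subgroup.mem_normalizer_iff] at hy1
      constructor
      · intro hz
        have := (hy1 ⟨z, hS hz⟩).1 (by simpa [Subgroup.mem_subgroupOf] using hz)
        simpa [Subgroup.mem_subgroupOf] using this
      · intro hz
        have hz' : (y : G) * z * (y : G)⁻¹ ∈ X := hS hz
        have hz2 : z ∈ X := by
          have h5 := X.mul_mem (X.mul_mem (inv_mem y.2) hz') y.2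
          simpa [mul_assoc] using h5
        have := (hy1 ⟨z, hz2⟩).2 (by simpa [Subgroup.mem_subgroupOf] using hz)
        simpa [Subgroup.mem_subgroupOf] using this
    have hST : S < T := by
      refine lt_of_le_of_ne (le_inf hS Subgroup.le_normalizer) ?_
      intro h
      apply hy2
      have : (y : G) ∈ T := ⟨y.2, hyT⟩
      rw [← h] at this
      exact this
    exact SN.step (ih T hST inf_le_left) hST.le inf_le_right

theorem pCoreOf_mono_of_sn {X S : Subgroup G} (h : SN X S) : pCoreOf p S ≤ pCoreOf p X := by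
  induction h with
  | refl => exact le_rfl
  | @step H K _ hHK hN ih =>
    refine le_trans ?_ ih
    exact le_pCoreOf_of_normal (pCoreOf_isPGroup H) ((pCoreOf_le_self H).trans hHK)
      (hN.trans (normalizer_le_normalizer_pCoreOf H))

theorem le_pCoreOf_of_sn {X S : Subgroup G} (h : SN X S) (hS : IsPGroup p S) : S ≤ pCoreOf p X :=
  (le_pCoreOf_of_normal hS le_rfl Subgroup.le_normalizer).trans (pCoreOf_mono_of_sn h)

theorem forward {H : Subgroup G} (hH : IsPGroup p H) {g : G}
    (h : SN (H ⊔ Subgroup.zpowers g) H) :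
    ∃ R : Subgroup G, H ≤ R ∧ pCoreOf p (normalizer (R : Set G)) = R ∧ g ∈ normalizer (R : Set G) := by
  classical
  set X : Subgroup G := H ⊔ Subgroup.zpowers g with hX
  have hgX : g ∈ X := (le_sup_right : Subgroup.zpowers g ≤ X) (Subgroup.mem_zpowers g)
  set C : Set (Subgroup G) := {R | IsPGroup p R ∧ H ≤ R ∧ g ∈ normalizer (R : Set G)} with hC
  have h0 : pCoreOf p X ∈ C :=
    ⟨pCoreOf_isPGroup X, le_pCoreOf_of_sn h hH, le_normalizer_pCoreOf X hgX⟩
  obtain ⟨R, -, hR⟩ := (Set.toFinite C).exists_le_maximal h0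
  refine ⟨R, hR.1.2.1, ?_, hR.1.2.2⟩
  have h1 : R ≤ pCoreOf p (normalizer (R : Set G)) :=
    le_pCoreOf_of_normal hR.1.1 Subgroup.le_normalizer le_rfl
  refine le_antisymm ?_ h1
  refine hR.2 ⟨pCoreOf_isPGroup _, hR.1.2.1.trans h1, ?_⟩ h1
  exact le_normalizer_pCoreOf _ hR.1.2.2

theorem backward {H R : Subgroup G} {g : G} (hHR : H ≤ R)
    (hR : pCoreOf p (normalizer (R : Set G)) = R) (hg : g ∈ normalizer (R : Set G)) :
    SN (H ⊔ Subgroup.zpowers g) H := by
  have hRp : IsPGroup p R := hR ▸ pCoreOf_isPGroup _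
  set X : Subgroup G := H ⊔ Subgroup.zpowers g with hX
  have hXN : X ≤ normalizer (R : Set G) :=
    sup_le (hHR.trans Subgroup.le_normalizer) ((Subgroup.zpowers_le).2 hg)
  have h1 : SN X (R ⊓ X) := by
    refine SN.of_normal inf_le_right ?_
    intro x hx
    have h2 := hXN hx
    rw [Subgroup.mem_normalizer_iff] at h2 ⊢
    intro z
    constructor
    · rintro ⟨hzR, hzX⟩
      exact ⟨(h2 z).1 hzR, X.mul_mem (X.mul_mem hx hzX) (X.inv_mem hx)⟩
    · rintro ⟨hzR, hzX⟩
      refine ⟨(h2 z).2 hzR, ?_⟩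
      have := X.mul_mem (X.mul_mem (X.inv_mem hx) hzX) hx
      simpa [mul_assoc] using this
  have h2 : SN (R ⊓ X) H :=
    sn_of_pgroup (hRp.to_le inf_le_left) (le_inf hHR le_sup_left)
  exact h1.trans h2

/-- `R = O_p(N(R))` is the intersection of the Sylow subgroups above it. -/
theorem inter_le {R : Subgroup G} (hR : pCoreOf p (normalizer (R : Set G)) = R) :
    sInf {K : Subgroup G | ∃ Q : Sylow p G, R ≤ (Q : Subgroup G) ∧ K = (Q : Subgroup G)} ≤ R := by
  classical
  have hRp : IsPGroup p R := hR ▸ pCoreOf_isPGroup _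
  set W : Subgroup G := sInf {K : Subgroup G | ∃ Q : Sylow p G, R ≤ (Q : Subgroup G) ∧ K = (Q : Subgroup G)}
    with hW
  obtain ⟨Q₀, hQ₀⟩ := hRp.exists_le_sylow
  have hWQ : W ≤ Q₀ := sInf_le ⟨Q₀, hQ₀, rfl⟩
  have hWp : IsPGroup p W := Q₀.2.to_le hWQ
  have hRW : R ≤ W := le_sInf (by
    rintro K ⟨Q, hQ, rfl⟩
    exact hQ)
  by_contra hne
  have hne' : R ≠ W := fun h => hne h.ge
  obtain ⟨U, hRU, hU, hUN⟩ := (sn_of_pgroup hWp hRW).exists_step hne'
  obtain ⟨u, hu1, hu2⟩ := SetLike.exists_of_lt hRU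
  have huW : u ∈ W := hU.le hu1
  have huN : u ∈ normalizer (R : Set G) := hUN hu1
  apply hu2
  rw [← hR]
  refine ⟨⟨u, huN⟩, ?_, rfl⟩
  rw [Cfsg.Agent.Lib.Core.pCore_eq_iInf_sylow, SetLike.mem_coe, Subgroup.mem_iInf]
  intro T
  have hT' : IsPGroup p ((T : Subgroup _).map (normalizer (R : Set G)).subtype) := T.2.map _
  obtain ⟨Q, hQ⟩ := hT'.exists_le_sylow
  have hRQ : R ≤ Q := by
    exact (hR.ge.trans (pCoreOf_le_sylow T)).trans hQ
  have hWQ' : W ≤ (Q : Subgroup G) := sInf_le ⟨Q, hRQ, rfl⟩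
  have huQ : u ∈ (Q : Subgroup G) := hWQ' huW
  have hTQ : (T : Subgroup _) ≤ (Q : Subgroup G).subgroupOf (normalizer (R : Set G)) := by
    intro x hx
    exact hQ ⟨x, hx, rfl⟩
  have hpg : IsPGroup p ((Q : Subgroup G).subgroupOf (normalizer (R : Set G))) :=
    Q.2.comap_of_injective _ (Subgroup.subtype_injective _)
  have := T.is_maximal' hpg hTQ
  rw [← this]
  exact huQ

end Aux

/-- Let G be a finite group, p a prime and H a p-subgroup of G. Then the set of elements g of G such that H is subnormal in the subgroup generated by H and g is the union of the normalizers N_G(R) over the subgroups R of G containing H with R = O_p(N_G(R)); and this set does not change when H is replaced by the intersection of all Sylow p-subgroups of G containing H. -/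
theorem result {G : Type*} [Group G] [Finite G] (p : ℕ) [Fact p.Prime]
    (H : Subgroup G) (hH : IsPGroup p H) :
    {g : G | ((H).subgroupOf (H ⊔ Subgroup.zpowers g)).IsSubnormal} =
      {g : G | ∃ R : Subgroup G, H ≤ R ∧ (Cfsg.pCore p (Subgroup.normalizer (R : Set G))).map (Subgroup.normalizer (R : Set G)).subtype = R ∧ g ∈ Subgroup.normalizer (R : Set G)} ∧
    ∀ g : G, (((H).subgroupOf (H ⊔ Subgroup.zpowers g)).IsSubnormal ↔
      (((sInf {K : Subgroup G | ∃ Q : Sylow p G, H ≤ (Q : Subgroup G) ∧ K = (Q : Subgroup G)})).subgroupOf ((sInf {K : Subgroup G | ∃ Q : Sylow p G, H ≤ (Q : Subgroup G) ∧ K = (Q : Subgroup G)}) ⊔ Subgroup.zpowers g)).IsSubnormal) := by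
  classical
  have hiff : ∀ (K : Subgroup G) (g : G), (K.subgroupOf (K ⊔ Subgroup.zpowers g)).IsSubnormal ↔
      SN (K ⊔ Subgroup.zpowers g) K := fun K g => (sn_iff_subgroupOf le_sup_left).symm
  refine ⟨?_, ?_⟩
  · ext g
    simp only [Set.mem_setOf_eq]
    rw [hiff]
    constructor
    · intro h
      exact forward hH h
    · rintro ⟨R, hHR, hR, hg⟩
      exact backward hHR hR hg
  · intro g
    rw [hiff, hiff]
    set I : Subgroup G := sInf {K : Subgroup G | ∃ Q : Sylow p G, H ≤ (Q : Subgroup G) ∧ K = (Q : Subgroup G)} with hI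
    obtain ⟨Q₀, hQ₀⟩ := hH.exists_le_sylow
    have hIp : IsPGroup p I := Q₀.2.to_le (sInf_le ⟨Q₀, hQ₀, rfl⟩)
    have hHI : H ≤ I := le_sInf (by
      rintro K ⟨Q, hQ, rfl⟩
      exact hQ)
    constructor
    · intro h
      obtain ⟨R, hHR, hR, hg⟩ := forward hH h
      refine backward ?_ hR hg
      refine le_trans ?_ (inter_le hR)
      refine le_sInf ?_
      rintro K ⟨Q, hQ, rfl⟩
      exact sInf_le ⟨Q, hHR.trans hQ, rfl⟩
    · intro h
      obtain ⟨R, hHR, hR, hg⟩ := forward hIp h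
      exact backward (hHI.trans hHR) hR hg


end Cfsg.Agent.S4089
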