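import Cfsg.Statements.S4090
import Mathlib
import Cfsg.Agent.Lib.Techniques.SubnormCount2

set_option autoImplicit false
open scoped BigOperators
open Cfsg

namespace Cfsg.Agent.S4090

/-- Let G be a finite p-solvable group, H a p-subgroup of G and P a Sylow p-subgroup, and fix a chain of normal subgroups 1 = M₀ ≤ M₁ ≤ ⋯ ≤ Mₙ = G of G each of whose factors is a p-group or a p'-group. Then the number of elements g of G such that H is subnormal in the subgroup generated by H and g equals the order of P times the product, over the factors Mᵢ₊₁/Mᵢ of order prime to p, of the order of the centralizer of H in Mᵢ₊₁/Mᵢ (counted as the number of u ∈ Mᵢ₊₁ with [h, u] ∈ Mᵢ for all h ∈ H, divided by the order of Mᵢ). -/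
theorem result {G : Type*} [Group G] [Finite G] (p : ℕ) [Fact p.Prime]
    (hG : Cfsg.IsPSolvable p G) (H : Subgroup G) (hH : IsPGroup p H) (P : Sylow p G)
    (n : ℕ) (M : Fin (n + 1) → Subgroup G) (h0 : M 0 = ⊥) (hn : M (Fin.last n) = ⊤) (hmono : Monotone M)
    (hnormal : ∀ i, (M i).Normal)
    (hfac : ∀ i : Fin n, (∃ m : ℕ, (M i.castSucc).relIndex (M i.succ) = p ^ m) ∨ ((M i.castSucc).relIndex (M i.succ)).Coprime p) :
    Nat.card {g : G // ((H).subgroupOf (H ⊔ Subgroup.zpowers g)).IsSubnormal} =
      Nat.card (P : Subgroup G) *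
        ∏ i : Fin n, (if ((M i.castSucc).relIndex (M i.succ)).Coprime p then
          Nat.card {u : G // u ∈ M i.succ ∧ ∀ h ∈ H, h * u * h⁻¹ * u⁻¹ ∈ M i.castSucc} / Nat.card (M i.castSucc)
          else 1) := by
  classical
  open Cfsg.Agent.Lib.Techniques.SubnormCount in
  have hNorm : ∀ i, (M i).Normal := hnormal
  have hle : ∀ i : Fin n, M i.castSucc ≤ M i.succ := fun i => hmono (Fin.castSucc_lt_succ).le
  obtain ⟨t, ht⟩ : ∃ t : Fin n → ℕ, t = fun i => if ((M i.castSucc).relIndex (M i.succ)).Coprime p then 1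
      else (M i.castSucc).relIndex (M i.succ) := ⟨_, rfl⟩
  obtain ⟨r, hr⟩ : ∃ r : Fin n → ℕ, r = fun i => (if ((M i.castSucc).relIndex (M i.succ)).Coprime p then
          Nat.card {u : G // u ∈ M i.succ ∧ ∀ h ∈ H, h * u * h⁻¹ * u⁻¹ ∈ M i.castSucc} / Nat.card (M i.castSucc)
          else 1) := ⟨_, rfl⟩
  obtain ⟨T, hT⟩ : ∃ T : Subgroup G → ℕ, T = fun N =>
      Nat.card {g // Cfsg.Agent.Lib.Techniques.SubnormCount.TT H P N g} := ⟨_, rfl⟩
  have key : ∀ d k : ℕ, ∀ hk : k + d = n,
      T (M ⟨k, by omega⟩) * ∏ i ∈ Finset.univ.filter (fun i : Fin n => i.1 < k), t i =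
        (∏ i, t i) * (∏ i ∈ Finset.univ.filter (fun i : Fin n => k ≤ i.1), r i) * Nat.card (M ⟨k, by omega⟩) := by
    intro d
    induction d with
    | zero =>
      intro k hk
      obtain rfl : k = n := by omega
      have h1 : (⟨k, by omega⟩ : Fin (k + 1)) = Fin.last k := rfl
      have h2 : Finset.univ.filter (fun i : Fin k => i.1 < k) = Finset.univ :=
        Finset.filter_true_of_mem fun i _ => i.2
      have h3 : Finset.univ.filter (fun i : Fin k => k ≤ i.1) = ∅ :=
        Finset.filter_false_of_mem fun i _ => by have := i.2; omega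
      simp only [h1, hn, h2, h3, Finset.prod_empty, mul_one, Subgroup.card_top]
      rw [hT]
      simp only [Cfsg.Agent.Lib.Techniques.SubnormCount.tc_top]
      ring
    | succ d ih =>
      intro k hk
      have hih := ih (k + 1) (by omega)
      obtain ⟨i₀, hi₀⟩ : ∃ i₀ : Fin n, i₀ = ⟨k, by omega⟩ := ⟨_, rfl⟩
      have e1 : (⟨k, by omega⟩ : Fin (n + 1)) = i₀.castSucc := by rw [hi₀]; rfl
      have e2 : (⟨k + 1, by omega⟩ : Fin (n + 1)) = i₀.succ := by rw [hi₀]; rfl
      have f1 : Finset.univ.filter (fun i : Fin n => i.1 < k + 1) =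
          insert i₀ (Finset.univ.filter (fun i : Fin n => i.1 < k)) := by
        ext i
        simp only [Finset.mem_filter, Finset.mem_univ, true_and, Finset.mem_insert, hi₀, Fin.ext_iff]
        omega
      have f2 : Finset.univ.filter (fun i : Fin n => k ≤ i.1) =
          insert i₀ (Finset.univ.filter (fun i : Fin n => k + 1 ≤ i.1)) := by
        ext i
        simp only [Finset.mem_filter, Finset.mem_univ, true_and, Finset.mem_insert, hi₀, Fin.ext_iff]
        omega
      have n1 : i₀ ∉ Finset.univ.filter (fun i : Fin n => i.1 < k) := by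
        simp [hi₀]
      have n2 : i₀ ∉ Finset.univ.filter (fun i : Fin n => k + 1 ≤ i.1) := by
        simp [hi₀]
      rw [f1, Finset.prod_insert n1, e2] at hih
      rw [f2, Finset.prod_insert n2, e1]
      haveI hA : (M i₀.castSucc).Normal := hNorm _
      haveI hB : (M i₀.succ).Normal := hNorm _
      have hBpos : 0 < Nat.card (M i₀.succ) := Nat.card_pos
      by_cases hc : ((M i₀.castSucc).relIndex (M i₀.succ)).Coprime p
      · have t0 : t i₀ = 1 := by rw [ht]; exact if_pos hc
        have r0 : r i₀ = Nat.card {u : G // u ∈ M i₀.succ ∧ ∀ h ∈ H, h * u * h⁻¹ * u⁻¹ ∈ M i₀.castSucc} /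
            Nat.card (M i₀.castSucc) := by rw [hr]; exact if_pos hc
        have h1 := Cfsg.Agent.Lib.Techniques.SubnormCount.tc_coprime hH P (hle i₀) hc
        have h2 : Nat.card (Cfsg.Agent.Lib.Techniques.SubnormCount.cSub H (M i₀.castSucc) (M i₀.succ)) =
            Nat.card (M i₀.castSucc) * r i₀ := by
          rw [r0]
          refine (Nat.mul_div_cancel' ?_).symm
          exact Subgroup.card_dvd_of_le (Cfsg.Agent.Lib.Techniques.SubnormCount.le_cSub (hle i₀))
        have hxy : T (M i₀.castSucc) * Nat.card (M i₀.succ) = Nat.card (M i₀.castSucc) * r i₀ * T (M i₀.succ) := by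
          rw [hT, ← h2]; exact h1
        rw [t0, one_mul] at hih
        refine Nat.eq_of_mul_eq_mul_right hBpos ?_
        calc T (M i₀.castSucc) * (∏ i ∈ Finset.univ.filter (fun i : Fin n => i.1 < k), t i) * Nat.card (M i₀.succ)
            = (T (M i₀.castSucc) * Nat.card (M i₀.succ)) * (∏ i ∈ Finset.univ.filter (fun i : Fin n => i.1 < k), t i) := by ring
          _ = Nat.card (M i₀.castSucc) * r i₀ * (T (M i₀.succ) * ∏ i ∈ Finset.univ.filter (fun i : Fin n => i.1 < k), t i) := by
              rw [hxy]; ring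
          _ = _ := by rw [hih]; ring
      · obtain ⟨m, hm⟩ : ∃ m, (M i₀.castSucc).relIndex (M i₀.succ) = p ^ m := (hfac i₀).resolve_right hc
        have t0 : t i₀ = (M i₀.castSucc).relIndex (M i₀.succ) := by rw [ht]; exact if_neg hc
        have r0 : r i₀ = 1 := by rw [hr]; exact if_neg hc
        have h1 : T (M i₀.castSucc) = T (M i₀.succ) := by
          rw [hT]
          exact Cfsg.Agent.Lib.Techniques.SubnormCount.tc_pfactor H P (hle i₀) hm
        have h2 : Nat.card (M i₀.succ) = t i₀ * Nat.card (M i₀.castSucc) := by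
          rw [t0]
          exact (Cfsg.Agent.Lib.Techniques.SubnormCount.rel_mul_card (hle i₀)).symm
        have h3 : 0 < t i₀ := by
          rw [t0, hm]
          exact pow_pos (Fact.out : p.Prime).pos _
        rw [r0, one_mul, h1]
        refine Nat.eq_of_mul_eq_mul_right h3 ?_
        calc T (M i₀.succ) * (∏ i ∈ Finset.univ.filter (fun i : Fin n => i.1 < k), t i) * t i₀
            = T (M i₀.succ) * (t i₀ * ∏ i ∈ Finset.univ.filter (fun i : Fin n => i.1 < k), t i) := by ring
          _ = _ := by rw [hih, h2]; ring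
  have hk0 := key n 0 (by omega)
  have e0 : (⟨0, by omega⟩ : Fin (n + 1)) = 0 := rfl
  have f3 : Finset.univ.filter (fun i : Fin n => i.1 < 0) = ∅ := by simp
  have f4 : Finset.univ.filter (fun i : Fin n => 0 ≤ i.1) = Finset.univ := by simp
  simp only [e0, h0, f3, f4, Finset.prod_empty, mul_one, Subgroup.card_bot] at hk0
  -- the product of the `t i` is the order of a Sylow subgroup
  have hrel : ∀ k : ℕ, ∀ hk : k ≤ n, (∏ i ∈ Finset.univ.filter (fun i : Fin n => i.1 < k),
      (M i.castSucc).relIndex (M i.succ)) = Nat.card (M ⟨k, by omega⟩) := by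
    intro k
    induction k with
    | zero =>
      intro _
      simp [e0, h0, f3]
    | succ k ih =>
      intro hk
      have hih := ih (by omega)
      obtain ⟨i₀, hi₀⟩ : ∃ i₀ : Fin n, i₀ = ⟨k, by omega⟩ := ⟨_, rfl⟩
      have e1 : (⟨k, by omega⟩ : Fin (n + 1)) = i₀.castSucc := by rw [hi₀]; rfl
      have e2 : (⟨k + 1, by omega⟩ : Fin (n + 1)) = i₀.succ := by rw [hi₀]; rfl
      have f1 : Finset.univ.filter (fun i : Fin n => i.1 < k + 1) =
          insert i₀ (Finset.univ.filter (fun i : Fin n => i.1 < k)) := by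
        ext i
        simp only [Finset.mem_filter, Finset.mem_univ, true_and, Finset.mem_insert, hi₀, Fin.ext_iff]
        omega
      have n1 : i₀ ∉ Finset.univ.filter (fun i : Fin n => i.1 < k) := by
        simp [hi₀]
      rw [f1, Finset.prod_insert n1, hih, e1, e2]
      exact Cfsg.Agent.Lib.Techniques.SubnormCount.rel_mul_card (hle i₀)
  have hall : (∏ i : Fin n, (M i.castSucc).relIndex (M i.succ)) = Nat.card G := by
    have := hrel n le_rfl
    have f5 : Finset.univ.filter (fun i : Fin n => i.1 < n) = Finset.univ :=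
      Finset.filter_true_of_mem fun i _ => i.2
    have e3 : (⟨n, by omega⟩ : Fin (n + 1)) = Fin.last n := rfl
    rw [f5, e3, hn, Subgroup.card_top] at this
    exact this
  obtain ⟨b, hb⟩ : ∃ b : Fin n → ℕ, b = fun i => if ((M i.castSucc).relIndex (M i.succ)).Coprime p then
      (M i.castSucc).relIndex (M i.succ) else 1 := ⟨_, rfl⟩
  have htb : (∏ i, t i) * ∏ i, b i = Nat.card G := by
    rw [← Finset.prod_mul_distrib, ← hall]
    refine Finset.prod_congr rfl fun i _ => ?_
    have ht' : t i = if ((M i.castSucc).relIndex (M i.succ)).Coprime p then 1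
      else (M i.castSucc).relIndex (M i.succ) := by rw [ht]
    have hb' : b i = if ((M i.castSucc).relIndex (M i.succ)).Coprime p then
      (M i.castSucc).relIndex (M i.succ) else 1 := by rw [hb]
    rw [ht', hb']
    by_cases hc : ((M i.castSucc).relIndex (M i.succ)).Coprime p
    · rw [if_pos hc, if_pos hc, one_mul]
    · rw [if_neg hc, if_neg hc, mul_one]
  have hbc : (∏ i, b i).Coprime p := by
    refine Nat.Coprime.prod_left fun i _ => ?_
    have hb' : b i = if ((M i.castSucc).relIndex (M i.succ)).Coprime p then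
      (M i.castSucc).relIndex (M i.succ) else 1 := by rw [hb]
    rw [hb']
    by_cases hc : ((M i.castSucc).relIndex (M i.succ)).Coprime p
    · rw [if_pos hc]; exact hc
    · rw [if_neg hc]; exact Nat.coprime_one_left p
  have htp : ∃ c, (∏ i, t i) = p ^ c := by
    refine Finset.prod_induction _ (fun x => ∃ c, x = p ^ c) ?_ ⟨0, by simp⟩ ?_
    · rintro a b ⟨c, rfl⟩ ⟨d, rfl⟩
      exact ⟨c + d, (pow_add p c d).symm⟩
    · intro i _
      have ht' : t i = if ((M i.castSucc).relIndex (M i.succ)).Coprime p then 1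
        else (M i.castSucc).relIndex (M i.succ) := by rw [ht]
      rw [ht']
      by_cases hc : ((M i.castSucc).relIndex (M i.succ)).Coprime p
      · exact ⟨0, by rw [if_pos hc, pow_zero]⟩
      · obtain ⟨m, hm⟩ := (hfac i).resolve_right hc
        exact ⟨m, by rw [if_neg hc, hm]⟩
  have hPcard : (∏ i, t i) = Nat.card (P : Subgroup G) := by
    obtain ⟨c, hc⟩ := htp
    obtain ⟨e, he⟩ := IsPGroup.iff_card.mp P.isPGroup'
    have hidx : (P : Subgroup G).index.Coprime p :=
      (Nat.Coprime.symm ((Nat.Prime.coprime_iff_not_dvd (Fact.out : p.Prime)).mpr P.not_dvd_index))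
    have h1 : Nat.card (P : Subgroup G) * (P : Subgroup G).index = Nat.card G := Subgroup.card_mul_index _
    rw [hc, he]
    rw [he] at h1
    rw [hc] at htb
    apply Nat.dvd_antisymm
    · have : p ^ c ∣ p ^ e * (P : Subgroup G).index := by
        rw [h1, ← htb]; exact dvd_mul_right _ _
      exact (Nat.Coprime.pow_left c (Nat.Coprime.symm hidx)).dvd_of_dvd_mul_right this
    · have : p ^ e ∣ p ^ c * ∏ i, b i := by
        rw [htb, ← h1]; exact dvd_mul_right _ _
      exact (Nat.Coprime.pow_left e (Nat.Coprime.symm hbc)).dvd_of_dvd_mul_right this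
  have hfirst := (Cfsg.Agent.Lib.Techniques.SubnormCount.main hH P).1
  have hsecond := Cfsg.Agent.Lib.Techniques.SubnormCount.card_conj_fiber_sylow H P
  have hbot : T ⊥ = Nat.card {g : G // H ≤ (P : Subgroup G).map (MulAut.conj g).toMonoidHom} := by
    rw [hT]
    exact Nat.card_congr (Equiv.subtypeEquivRight fun g =>
      Cfsg.Agent.Lib.Techniques.SubnormCount.tt_bot_iff H P g)
  rw [hfirst, ← hsecond, ← hbot, hk0, hPcard, hr]

end Cfsg.Agent.S4090
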