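import Cfsg.Statements.S4153
import Mathlib

set_option autoImplicit false
open Cfsg

namespace Cfsg.Agent.S4153

open Subgroup

section
variable {G : Type*} [Group G] {p : ℕ} [hp : Fact p.Prime]

theorem pel_of_pow {g : G} {k : ℕ} (h : g ^ p ^ k = 1) : ∃ j : ℕ, orderOf g = p ^ j := by
  obtain ⟨j, -, hj⟩ := (Nat.dvd_prime_pow hp.out).mp (orderOf_dvd_of_pow_eq_one h)
  exact ⟨j, hj⟩

omit hp in
theorem pow_of_pel {g : G} (h : ∃ j : ℕ, orderOf g = p ^ j) : ∃ j : ℕ, g ^ p ^ j = 1 := by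
  obtain ⟨j, hj⟩ := h
  exact ⟨j, by rw [← hj]; exact pow_orderOf_eq_one g⟩

omit hp in
theorem pel_of_mem {H : Subgroup G} (hH : IsPGroup p H) {g : G} (hg : g ∈ H) [hp' : Fact p.Prime] :
    ∃ j : ℕ, orderOf g = p ^ j := by
  obtain ⟨k, hk⟩ := hH ⟨g, hg⟩
  have : g ^ p ^ k = 1 := by simpa using congrArg Subtype.val hk
  exact pel_of_pow this

omit hp in
theorem pel_conj (c : G) {g : G} (h : ∃ j : ℕ, orderOf g = p ^ j) :
    ∃ j : ℕ, orderOf (c * g * c⁻¹) = p ^ j := by
  obtain ⟨j, hj⟩ := h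
  refine ⟨j, ?_⟩
  rw [← hj, ← MulAut.conj_apply]
  exact MulEquiv.orderOf_eq _ g

theorem isPGroup_zpowers_of_pel {g : G} (h : ∃ j : ℕ, orderOf g = p ^ j) :
    IsPGroup p (zpowers g) := by
  obtain ⟨j, hj⟩ := h
  exact IsPGroup.of_card (n := j) (by rw [Nat.card_zpowers, hj])

variable [Finite G]

theorem exists_lift {N : Subgroup G} [N.Normal] (P : Sylow p G) {b : G ⧸ N}
    (hb : ∃ j : ℕ, orderOf b = p ^ j) :
    ∃ c y : G, y ∈ (P : Subgroup G) ∧ ((c * y * c⁻¹ : G) : G ⧸ N) = b := by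
  have hπ : Function.Surjective (QuotientGroup.mk' N) := QuotientGroup.mk'_surjective N
  obtain ⟨R, hR⟩ := (isPGroup_zpowers_of_pel hb).exists_le_sylow
  obtain ⟨d, hd⟩ := MulAction.exists_smul_eq (G ⧸ N) (P.mapSurjective hπ) R
  have hbR : b ∈ (R : Subgroup (G ⧸ N)) := hR (mem_zpowers b)
  rw [← hd, Sylow.coe_subgroup_smul, Subgroup.mem_smul_pointwise_iff_exists] at hbR
  obtain ⟨s, hs, hsb⟩ := hbR
  rw [Sylow.coe_mapSurjective, Subgroup.mem_map] at hs
  obtain ⟨y, hy, rfl⟩ := hs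
  obtain ⟨c, rfl⟩ := hπ d
  refine ⟨c, y, hy, ?_⟩
  rw [← hsb, MulAut.smul_def, MulAut.conj_apply]
  rfl

theorem mem_sylow_of_central (P : Sylow p G) {n : G} (hn : n ∈ center G)
    (h : ∃ j : ℕ, orderOf n = p ^ j) : n ∈ (P : Subgroup G) := by
  obtain ⟨R, hR⟩ := (isPGroup_zpowers_of_pel h).exists_le_sylow
  obtain ⟨d, hd⟩ := MulAction.exists_smul_eq G R P
  have hnR : n ∈ (R : Subgroup G) := hR (mem_zpowers n)
  rw [← hd, Sylow.coe_subgroup_smul, Subgroup.mem_smul_pointwise_iff_exists]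
  refine ⟨n, hnR, ?_⟩
  rw [MulAut.smul_def, MulAut.conj_apply, Subgroup.mem_center_iff.mp hn d, mul_inv_cancel_right]

theorem card_sylow_eq {N : Subgroup G} [N.Normal] (P : Sylow p G) (Pbar : Sylow p (G ⧸ N)) :
    Nat.card (P : Subgroup G) = Nat.card (Pbar : Subgroup (G ⧸ N)) *
      Nat.card (N.subgroupOf (P : Subgroup G)) := by
  have hπ : Function.Surjective (QuotientGroup.mk' N) := QuotientGroup.mk'_surjective N
  let f : (P : Subgroup G) →* G ⧸ N := (QuotientGroup.mk' N).comp (P : Subgroup G).subtype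
  have hker : f.ker = N.subgroupOf (P : Subgroup G) := by
    ext x
    rw [MonoidHom.mem_ker, Subgroup.mem_subgroupOf]
    show ((x : G) : G ⧸ N) = 1 ↔ _
    exact QuotientGroup.eq_one_iff _
  have hrange : f.range = ((P.mapSurjective hπ : Sylow p (G ⧸ N)) : Subgroup (G ⧸ N)) := by
    rw [Sylow.coe_mapSurjective]
    show ((QuotientGroup.mk' N).comp (P : Subgroup G).subtype).range = _
    rw [MonoidHom.range_comp, Subgroup.range_subtype]
  have h1 := Subgroup.card_mul_index f.ker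
  rw [Subgroup.index_ker, hrange, hker] at h1
  rw [← h1, mul_comm]
  congr 1
  rw [Sylow.card_eq_multiplicity, Sylow.card_eq_multiplicity]

end

/-- Let G be a finite group, p a prime, N a normal subgroup, P a Sylow p-subgroup of G and P̄ a Sylow p-subgroup of G/N. Count the elements of p-power order, the identity included. Then (number of such elements of G/N)/#P̄ ≤ (number of such elements of G)/#P, stated as a cross-multiplied inequality, with equality when N is central. -/
theorem result {G : Type*} [Group G] [Finite G] (p : ℕ) [Fact p.Prime] (N : Subgroup G) [N.Normal]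
    (P : Sylow p G) (Pbar : Sylow p (G ⧸ N)) :
    Nat.card {g : (G ⧸ N) // ∃ k : ℕ, orderOf g = p ^ k} * Nat.card (P : Subgroup G) ≤ Nat.card {g : G // ∃ k : ℕ, orderOf g = p ^ k} * Nat.card (Pbar : Subgroup (G ⧸ N)) ∧
    (N ≤ Subgroup.center G → Nat.card {g : (G ⧸ N) // ∃ k : ℕ, orderOf g = p ^ k} * Nat.card (P : Subgroup G) = Nat.card {g : G // ∃ k : ℕ, orderOf g = p ^ k} * Nat.card (Pbar : Subgroup (G ⧸ N))) := by
  classical
  haveI := Fintype.ofFinite G
  haveI := Fintype.ofFinite (G ⧸ N)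
  have hcard := card_sylow_eq P Pbar
  set c₀ := Nat.card (N.subgroupOf (P : Subgroup G)) with hc₀
  let T : Finset G := Finset.univ.filter fun g => ∃ k : ℕ, orderOf g = p ^ k
  let Tb : Finset (G ⧸ N) := Finset.univ.filter fun g => ∃ k : ℕ, orderOf g = p ^ k
  have hT : Nat.card {g : G // ∃ k : ℕ, orderOf g = p ^ k} = T.card := by
    rw [Nat.card_eq_fintype_card, Fintype.card_subtype]
  have hTb : Nat.card {g : (G ⧸ N) // ∃ k : ℕ, orderOf g = p ^ k} = Tb.card := by
    rw [Nat.card_eq_fintype_card, Fintype.card_subtype]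
  have hmap : ∀ g ∈ T, ((g : G) : G ⧸ N) ∈ Tb := by
    intro g hg
    obtain ⟨k, hk⟩ := pow_of_pel (Finset.mem_filter.mp hg).2
    refine Finset.mem_filter.mpr ⟨Finset.mem_univ _, pel_of_pow (k := k) ?_⟩
    rw [← QuotientGroup.mk_pow, hk]
    rfl
  have hfib : T.card = ∑ b ∈ Tb, (T.filter fun a => ((a : G) : G ⧸ N) = b).card :=
    Finset.card_eq_sum_card_fiberwise hmap
  have hlow : ∀ b ∈ Tb, c₀ ≤ (T.filter fun a => ((a : G) : G ⧸ N) = b).card := by
    intro b hb
    obtain ⟨c, y, hy, hcy⟩ := exists_lift (N := N) P (Finset.mem_filter.mp hb).2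
    haveI : Fintype (N.subgroupOf (P : Subgroup G)) := Fintype.ofFinite _
    rw [hc₀, Nat.card_eq_fintype_card, ← Finset.card_univ]
    refine Finset.card_le_card_of_injOn
      (fun q : N.subgroupOf (P : Subgroup G) => c * (y * ((q : (P : Subgroup G)) : G)) * c⁻¹) ?_ ?_
    · intro q _
      have hq : (((q : (P : Subgroup G)) : G)) ∈ N := Subgroup.mem_subgroupOf.mp q.2
      refine Finset.mem_coe.mpr (Finset.mem_filter.mpr ⟨Finset.mem_filter.mpr ⟨Finset.mem_univ _, ?_⟩, ?_⟩)
      · exact pel_conj c (pel_of_mem P.isPGroup' (mul_mem hy (q : (P : Subgroup G)).2))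
      · rw [← hcy]
        rw [QuotientGroup.eq]
        have : (c * (y * ((q : (P : Subgroup G)) : G)) * c⁻¹)⁻¹ * (c * y * c⁻¹) =
            c * ((q : (P : Subgroup G)) : G)⁻¹ * c⁻¹ := by group
        rw [this]
        exact (inferInstance : N.Normal).conj_mem _ (inv_mem hq) c
    · intro q _ q' _ hqq
      have h1 : c * (y * ((q : (P : Subgroup G)) : G)) * c⁻¹ =
          c * (y * ((q' : (P : Subgroup G)) : G)) * c⁻¹ := hqq
      have h2 : ((q : (P : Subgroup G)) : G) = ((q' : (P : Subgroup G)) : G) := by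
        have := mul_right_cancel h1
        exact mul_left_cancel (mul_left_cancel this)
      exact Subtype.ext (Subtype.ext h2)
  have hle : Tb.card * c₀ ≤ T.card := by
    rw [hfib]
    have := Finset.card_nsmul_le_sum Tb _ c₀ hlow
    simpa using this
  rw [hT, hTb, hcard]
  constructor
  · calc Tb.card * (Nat.card (Pbar : Subgroup (G ⧸ N)) * c₀)
        = (Tb.card * c₀) * Nat.card (Pbar : Subgroup (G ⧸ N)) := by ring
      _ ≤ T.card * Nat.card (Pbar : Subgroup (G ⧸ N)) := Nat.mul_le_mul_right _ hle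
  · intro hNc
    have hup : ∀ b ∈ Tb, (T.filter fun a => ((a : G) : G ⧸ N) = b).card ≤ c₀ := by
      intro b hb
      obtain ⟨c, y, hy, hcy⟩ := exists_lift (N := N) P (Finset.mem_filter.mp hb).2
      haveI : Fintype (N.subgroupOf (P : Subgroup G)) := Fintype.ofFinite _
      rw [hc₀, Nat.card_eq_fintype_card, ← Finset.card_univ]
      refine le_trans (Finset.card_le_card (t := (Finset.univ : Finset (N.subgroupOf (P : Subgroup G))).image
        (fun q : N.subgroupOf (P : Subgroup G) => (c * y * c⁻¹) * ((q : (P : Subgroup G)) : G))) ?_) Finset.card_image_le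
      intro g hg
      obtain ⟨hgT, hgb⟩ := Finset.mem_filter.mp hg
      have hgpel := (Finset.mem_filter.mp hgT).2
      set x := c * y * c⁻¹ with hx
      have hxpel : ∃ j : ℕ, orderOf x = p ^ j := pel_conj c (pel_of_mem P.isPGroup' hy)
      have hnN : x⁻¹ * g ∈ N := by
        rw [← QuotientGroup.eq, hcy, hgb]
      have hncen : x⁻¹ * g ∈ center G := hNc hnN
      have hcomm : Commute x⁻¹ g := by
        have h1 : g = x * (x⁻¹ * g) := by group
        have h2 : Commute x⁻¹ (x⁻¹ * g) := (Subgroup.mem_center_iff.mp hncen x⁻¹)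
        have h3 : Commute x⁻¹ x := by simp [Commute, SemiconjBy]
        rw [h1]
        simpa using h3.mul_right h2
      obtain ⟨k, hk⟩ := pow_of_pel hgpel
      obtain ⟨l, hl⟩ := pow_of_pel hxpel
      have hnpow : (x⁻¹ * g) ^ p ^ (k + l) = 1 := by
        rw [hcomm.mul_pow, inv_pow, pow_add]
        have h1 : g ^ (p ^ k * p ^ l) = 1 := by rw [pow_mul, hk, one_pow]
        have h2 : x ^ (p ^ k * p ^ l) = 1 := by rw [mul_comm, pow_mul, hl, one_pow]
        rw [h1, h2]; simp
      have hnP : x⁻¹ * g ∈ (P : Subgroup G) := mem_sylow_of_central P hncen (pel_of_pow hnpow)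
      refine Finset.mem_image.mpr ⟨⟨⟨x⁻¹ * g, hnP⟩, Subgroup.mem_subgroupOf.mpr hnN⟩, Finset.mem_univ _, ?_⟩
      show x * (x⁻¹ * g) = g
      group
    have hge : T.card ≤ Tb.card * c₀ := by
      rw [hfib]
      have := Finset.sum_le_card_nsmul Tb _ c₀ hup
      simpa using this
    have heq : T.card = Tb.card * c₀ := le_antisymm hge hle
    rw [heq]
    ring

end Cfsg.Agent.S4153
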