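import Cfsg.Statements.S4092
import Mathlib
import Cfsg.Agent.S4153

set_option autoImplicit false
open Cfsg

namespace Cfsg.Agent.S4092

open Subgroup Cfsg.Agent.S4153

section
variable {G : Type*} [Group G] [Finite G] {p : ℕ} [hp : Fact p.Prime]

omit hp in
/-- A `p`-subgroup properly contained in another one is properly normalized. -/
theorem exists_normalizer_elt {Q D : Subgroup G} (hQ : IsPGroup p Q) (hDQ : D ≤ Q) (hne : D ≠ Q)
    [hp' : Fact p.Prime] : ∃ x ∈ Q, x ∉ D ∧ x ∈ normalizer (D : Set G) := by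
  haveI : Group.IsNilpotent Q := hQ.isNilpotent
  have hlt : D.subgroupOf Q < ⊤ := by
    rw [lt_top_iff_ne_top]
    intro h
    apply hne
    apply le_antisymm hDQ
    rwa [Subgroup.subgroupOf_eq_top] at h
  obtain ⟨x, hx, hxn⟩ := SetLike.exists_of_lt (normalizerCondition_of_isNilpotent _ hlt)
  refine ⟨x, x.2, fun h => hxn (Subgroup.mem_subgroupOf.mpr h), ?_⟩
  rw [Subgroup.mem_normalizer_iff]
  intro g
  by_cases hg : g ∈ Q
  · have h1 := (Subgroup.mem_normalizer_iff.mp hx) ⟨g, hg⟩
    rw [Subgroup.mem_subgroupOf, Subgroup.mem_subgroupOf] at h1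
    simpa using h1
  · have h1 : g ∉ D := fun h => hg (hDQ h)
    have h2 : (x : G) * g * (x : G)⁻¹ ∉ D := by
      intro h
      apply hg
      have h3 := hDQ h
      have h4 : g = (x : G)⁻¹ * ((x : G) * g * (x : G)⁻¹) * x := by group
      rw [h4]
      exact mul_mem (mul_mem (inv_mem x.2) h3) x.2
    simp [h1, h2]

omit hp in
theorem normal_le_sylow {X : Type*} [Group X] [Finite X] [Fact p.Prime] (S : Sylow p X) (N : Subgroup X)
    [N.Normal] (hN : IsPGroup p N) : N ≤ (S : Subgroup X) := by
  have h1 := S.is_maximal' (Q := (S : Subgroup X) ⊔ N) (S.isPGroup'.to_sup_of_normal_right hN) le_sup_left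
  have h2 : N ≤ (S : Subgroup X) ⊔ N := le_sup_right
  rwa [h1] at h2

end

/-- Let G be a finite group, p a prime and P a Sylow p-subgroup of G that is not normal in G. Then G has at least p·#P elements of p-power order (the identity included). -/
theorem result {G : Type*} [Group G] [Finite G] (p : ℕ) [Fact p.Prime]
    (P : Sylow p G) (hP : ¬ (P : Subgroup G).Normal) :
    p * Nat.card (P : Subgroup G) ≤ Nat.card {g : G // ∃ k : ℕ, orderOf g = p ^ k} := by
  classical
  haveI := Fintype.ofFinite G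
  obtain ⟨Q, hQ⟩ : ∃ Q : Sylow p G, Q ≠ P := by
    by_contra hcon
    push Not at hcon
    haveI : Subsingleton (Sylow p G) := ⟨fun a b => by rw [hcon a, hcon b]⟩
    exact hP (Sylow.normal_of_subsingleton P)
  let α := {q : Sylow p G × Sylow p G // q.1 ≠ q.2}
  haveI : Nonempty α := ⟨⟨(Q, P), hQ⟩⟩
  obtain ⟨⟨⟨P1, P2⟩, hne⟩, hmax⟩ := Finite.exists_max
    (fun q : α => Nat.card ((q.1.1 : Subgroup G) ⊓ (q.1.2 : Subgroup G) : Subgroup G))
  dsimp only at hne hmax
  set D : Subgroup G := (P1 : Subgroup G) ⊓ (P2 : Subgroup G) with hD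
  have hDp : IsPGroup p D := P1.isPGroup'.to_le inf_le_left
  have key : ∀ S S' : Sylow p G, D ≤ S → D ≤ S' → ∀ x, x ∈ (S : Subgroup G) → x ∈ (S' : Subgroup G) →
      x ∉ D → S = S' := by
    intro S S' hS hS' x hx hx' hxD
    by_contra hSS
    have h1 := hmax ⟨(S, S'), hSS⟩
    have h2 : D = (S : Subgroup G) ⊓ (S' : Subgroup G) :=
      Subgroup.eq_of_le_of_card_ge (le_inf hS hS') h1
    exact hxD (by rw [h2]; exact ⟨hx, hx'⟩)
  have hcardeq : ∀ S : Sylow p G, Nat.card (S : Subgroup G) = Nat.card (P : Subgroup G) := by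
    intro S
    rw [Sylow.card_eq_multiplicity, Sylow.card_eq_multiplicity]
  have hDne : ∀ S S' : Sylow p G, S ≠ S' → D = (S : Subgroup G) → D ≤ S' → False := by
    intro S S' hne' h1 h2
    apply hne'
    apply Sylow.ext
    apply Subgroup.eq_of_le_of_card_ge (by rw [← h1]; exact h2)
    rw [hcardeq S', hcardeq S]
  have hD1 : D ≠ (P1 : Subgroup G) := fun h => hDne P1 P2 hne h inf_le_right
  have hD2 : D ≠ (P2 : Subgroup G) := fun h => hDne P2 P1 hne.symm h inf_le_left
  obtain ⟨x1, hx1, hx1D, hx1N⟩ := exists_normalizer_elt P1.isPGroup' inf_le_left hD1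
  obtain ⟨x2, hx2, hx2D, hx2N⟩ := exists_normalizer_elt P2.isPGroup' inf_le_right hD2
  set H : Subgroup G := normalizer (D : Set G) with hH
  haveI : (D.subgroupOf H).Normal := (Subgroup.normal_subgroupOf_iff_le_normalizer Subgroup.le_normalizer).mpr le_rfl
  have hDsp : IsPGroup p (D.subgroupOf H) := hDp.comap_of_injective H.subtype Subtype.val_injective
  have hDle : D ≤ H := Subgroup.le_normalizer
  have hF : ∀ s : Sylow p H, ∃ R : Sylow p G, ((s : Subgroup H).map H.subtype) ≤ R :=
    fun s => (s.isPGroup'.map H.subtype).exists_le_sylow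
  choose F hF using hF
  have hDF : ∀ s : Sylow p H, D ≤ (F s : Subgroup G) := by
    intro s x hx
    apply hF s
    have h1 : (⟨x, hDle hx⟩ : H) ∈ D.subgroupOf H := Subgroup.mem_subgroupOf.mpr hx
    exact ⟨⟨x, hDle hx⟩, normal_le_sylow s _ hDsp h1, rfl⟩
  have hFinj : Function.Injective F := by
    intro s s' h
    apply Sylow.ext
    have hpg : IsPGroup p ((F s : Subgroup G).subgroupOf H) :=
      (F s).isPGroup'.comap_of_injective H.subtype Subtype.val_injective
    have h1 : (s : Subgroup H) ≤ (F s : Subgroup G).subgroupOf H := by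
      intro y hy
      exact hF s ⟨y, hy, rfl⟩
    have h2 : (s' : Subgroup H) ≤ (F s : Subgroup G).subgroupOf H := by
      intro y hy
      rw [h]
      exact hF s' ⟨y, hy, rfl⟩
    rw [← s.is_maximal' hpg h1, s'.is_maximal' hpg h2]
  -- two Sylow subgroups of `H`
  obtain ⟨s1, hs1⟩ := (isPGroup_zpowers_of_pel (p := p) (g := (⟨x1, hx1N⟩ : H)) (by
      rw [Subgroup.orderOf_mk x1 hx1N]
      exact pel_of_mem P1.isPGroup' hx1)).exists_le_sylow
  obtain ⟨s2, hs2⟩ := (isPGroup_zpowers_of_pel (p := p) (g := (⟨x2, hx2N⟩ : H)) (by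
      rw [Subgroup.orderOf_mk x2 hx2N]
      exact pel_of_mem P2.isPGroup' hx2)).exists_le_sylow
  have hs12 : s1 ≠ s2 := by
    intro h
    have h1 : F s1 = P1 := by
      apply key _ _ (hDF s1) inf_le_left x1 _ hx1 hx1D
      exact hF s1 ⟨⟨x1, hx1N⟩, hs1 (mem_zpowers _), rfl⟩
    have h2 : F s1 = P2 := by
      apply key _ _ (hDF s1) inf_le_right x2 _ hx2 hx2D
      rw [h]
      exact hF s2 ⟨⟨x2, hx2N⟩, hs2 (mem_zpowers _), rfl⟩
    exact hne (h1.symm.trans h2)
  haveI := Fintype.ofFinite (Sylow p H)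
  have hn : p + 1 ≤ Fintype.card (Sylow p H) := by
    have h1 := card_sylow_modEq_one p H
    rw [Nat.card_eq_fintype_card] at h1
    have h2 : 2 ≤ Fintype.card (Sylow p H) := Fintype.one_lt_card_iff.mpr ⟨s1, s2, hs12⟩
    have h3 : p ∣ Fintype.card (Sylow p H) - 1 := (Nat.modEq_iff_dvd' (by omega)).mp h1.symm
    have h4 := Nat.le_of_dvd (by omega) h3
    omega
  -- the count
  let A : Sylow p H → Finset G := fun s => Finset.univ.filter fun g => g ∈ (F s : Subgroup G) ∧ g ∉ D
  let C : Finset G := Finset.univ.filter fun g => g ∈ D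
  let U : Finset G := Finset.univ.filter fun g => ∃ k : ℕ, orderOf g = p ^ k
  have hU : Nat.card {g : G // ∃ k : ℕ, orderOf g = p ^ k} = U.card := by
    rw [Nat.card_eq_fintype_card, Fintype.card_subtype]
  have hCc : C.card = Nat.card D := by
    rw [Nat.card_eq_fintype_card]
    exact (Fintype.card_subtype _).symm
  have hAc : ∀ s, (A s).card + C.card = Nat.card (P : Subgroup G) := by
    intro s
    rw [← hcardeq (F s), Nat.card_eq_fintype_card]
    rw [show Fintype.card (F s : Subgroup G) = (Finset.univ.filter fun g => g ∈ (F s : Subgroup G)).card from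
      Fintype.card_subtype _]
    rw [← Finset.card_union_of_disjoint]
    · congr 1
      ext g
      simp only [A, C, Finset.mem_union, Finset.mem_filter, Finset.mem_univ, true_and]
      constructor
      · rintro (⟨h, -⟩ | h)
        · exact h
        · exact hDF s h
      · intro h
        by_cases hg : g ∈ D
        · exact Or.inr hg
        · exact Or.inl ⟨h, hg⟩
    · rw [Finset.disjoint_left]
      intro g hg hg'
      exact (Finset.mem_filter.mp hg).2.2 (Finset.mem_filter.mp hg').2
  have hdisj : (↑(Finset.univ : Finset (Sylow p H)) : Set (Sylow p H)).PairwiseDisjoint A := by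
    intro s _ s' _ hss
    rw [Function.onFun, Finset.disjoint_left]
    intro g hg hg'
    obtain ⟨h1, h2⟩ := (Finset.mem_filter.mp hg).2
    have h3 := (Finset.mem_filter.mp hg').2.1
    exact hss (hFinj (key _ _ (hDF s) (hDF s') g h1 h3 h2))
  have hB : (Finset.univ.biUnion A).card = Fintype.card (Sylow p H) * (Nat.card (P : Subgroup G) - C.card) := by
    rw [Finset.card_biUnion hdisj]
    rw [Finset.sum_congr rfl (g := fun _ => Nat.card (P : Subgroup G) - C.card) (fun s _ => by
      have := hAc s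
      omega)]
    simp
  have hsub : Finset.univ.biUnion A ∪ C ⊆ U := by
    intro g hg
    refine Finset.mem_filter.mpr ⟨Finset.mem_univ _, ?_⟩
    rcases Finset.mem_union.mp hg with h | h
    · obtain ⟨s, -, hs⟩ := Finset.mem_biUnion.mp h
      exact pel_of_mem (F s).isPGroup' (Finset.mem_filter.mp hs).2.1
    · exact pel_of_mem hDp (Finset.mem_filter.mp h).2
  have hdisj2 : Disjoint (Finset.univ.biUnion A) C := by
    rw [Finset.disjoint_left]
    intro g hg hg'
    obtain ⟨s, -, hs⟩ := Finset.mem_biUnion.mp hg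
    exact (Finset.mem_filter.mp hs).2.2 (Finset.mem_filter.mp hg').2
  have hle := Finset.card_le_card hsub
  rw [Finset.card_union_of_disjoint hdisj2, hB] at hle
  -- arithmetic
  have hPD : p * C.card ≤ Nat.card (P : Subgroup G) := by
    rw [hCc, ← hcardeq P1]
    have h1 : Nat.card D ∣ Nat.card (P1 : Subgroup G) := Subgroup.card_dvd_of_le inf_le_left
    obtain ⟨c, hc⟩ := h1
    have hc1 : c ≠ 1 := by
      rintro rfl
      apply hD1
      apply Subgroup.eq_of_le_of_card_ge inf_le_left
      rw [hc, mul_one]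
    have hcdvd : c ∣ Nat.card (P1 : Subgroup G) := ⟨_, by rw [hc, mul_comm]⟩
    obtain ⟨j, hj⟩ := (IsPGroup.iff_card.mp P1.isPGroup')
    rw [hj] at hcdvd
    obtain ⟨m, -, rfl⟩ := (Nat.dvd_prime_pow (Fact.out : p.Prime)).mp hcdvd
    have hm : m ≠ 0 := by
      rintro rfl
      exact hc1 (pow_zero p)
    have hple : p ≤ p ^ m := Nat.le_self_pow hm p
    rw [hc, mul_comm]
    exact Nat.mul_le_mul_left _ hple
  rw [hU]
  refine le_trans ?_ hle
  obtain ⟨e, he⟩ : ∃ e, Nat.card (P : Subgroup G) = C.card + e := by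
    have := hAc s1
    exact ⟨(A s1).card, by omega⟩
  rw [he] at hPD ⊢
  have h5 : C.card + e - C.card = e := by omega
  rw [h5]
  have h6 : (p + 1) * e ≤ Fintype.card (Sylow p H) * e := Nat.mul_le_mul_right _ hn
  nlinarith

end Cfsg.Agent.S4092
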