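import Cfsg.Statements.S4093
import Mathlib
import Cfsg.Agent.S4153

set_option autoImplicit false
open scoped BigOperators
open Cfsg

namespace Cfsg.Agent.S4093

open Subgroup Cfsg.Agent.S4153

section
variable {G : Type*} [Group G] [Finite G]

/-- The conjugates of `x` under `N` form a set with size the index of the centralizer. -/
theorem card_orbit_eq (N : Subgroup G) (x : G) :
    Nat.card {g : G // ∃ n ∈ N, g = n * x * n⁻¹} = ((centralizer {x}).subgroupOf N).index := by
  classical
  let K := (centralizer {x}).subgroupOf N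
  let f : N ⧸ K → {g : G // ∃ n ∈ N, g = n * x * n⁻¹} :=
    Quotient.lift (s := QuotientGroup.leftRel K)
      (fun n : N => (⟨n * x * (n : G)⁻¹, n, n.2, rfl⟩ : {g : G // ∃ n ∈ N, g = n * x * n⁻¹})) (by
      intro a b hab
      have hab' : a⁻¹ * b ∈ K := QuotientGroup.leftRel_apply.mp hab
      have h1 : ((a⁻¹ * b : N) : G) ∈ centralizer {x} := Subgroup.mem_subgroupOf.mp hab'
      rw [Subgroup.mem_centralizer_singleton_iff] at h1
      apply Subtype.ext
      show (a : G) * x * (a : G)⁻¹ = (b : G) * x * (b : G)⁻¹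
      have h2 : (a : G)⁻¹ * b * x = x * ((a : G)⁻¹ * b) := by simpa using h1
      have h3 : (b : G) * x = a * x * ((a : G)⁻¹ * b) := by
        calc (b : G) * x = a * ((a : G)⁻¹ * b * x) := by group
          _ = a * (x * ((a : G)⁻¹ * b)) := by rw [h2]
          _ = a * x * ((a : G)⁻¹ * b) := by group
      rw [h3]; group)
  have hinj : Function.Injective f := by
    intro u v
    induction u using QuotientGroup.induction_on with
    | H a =>
    induction v using QuotientGroup.induction_on with
    | H b =>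
    intro h
    have h' : (a : G) * x * (a : G)⁻¹ = (b : G) * x * (b : G)⁻¹ := congrArg Subtype.val h
    rw [QuotientGroup.eq]
    apply Subgroup.mem_subgroupOf.mpr
    rw [Subgroup.mem_centralizer_singleton_iff]
    show ((a : G)⁻¹ * b) * x = x * ((a : G)⁻¹ * b)
    have h3 : (b : G) * x = a * x * ((a : G)⁻¹ * b) := by
      have h4 : (a : G) * x = (b : G) * x * (b : G)⁻¹ * a := by
        rw [← h']; group
      rw [h4]; group
    calc (a : G)⁻¹ * b * x = (a : G)⁻¹ * ((b : G) * x) := by group
      _ = (a : G)⁻¹ * (a * x * ((a : G)⁻¹ * b)) := by rw [h3]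
      _ = x * ((a : G)⁻¹ * b) := by group
  have hsurj : Function.Surjective f := by
    rintro ⟨g, n, hn, rfl⟩
    exact ⟨QuotientGroup.mk ⟨n, hn⟩, rfl⟩
  have := Nat.card_congr (Equiv.ofBijective f ⟨hinj, hsurj⟩)
  rw [← this]
  rfl

theorem div_eq_card_orbit (N : Subgroup G) (x : G) :
    Nat.card N / Nat.card ↥(N ⊓ centralizer ({x} : Set G)) =
      Nat.card {g : G // ∃ n ∈ N, g = n * x * n⁻¹} := by
  rw [card_orbit_eq]
  have h1 := Subgroup.card_mul_index ((centralizer {x}).subgroupOf N)
  have h2 : Nat.card ((centralizer ({x} : Set G)).subgroupOf N) =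
      Nat.card ↥(N ⊓ centralizer ({x} : Set G)) := by
    rw [← Subgroup.inf_subgroupOf_left]
    exact Nat.card_congr (Subgroup.subgroupOfEquivOfLe inf_le_left).toEquiv
  rw [h2] at h1
  rw [← h1]
  exact Nat.mul_div_cancel_left _ Nat.card_pos

end

/-- Let G be a finite group with a normal subgroup N complementing a Sylow p-subgroup P (a normal p-complement). Then the number of elements of G of p-power order equals the sum over x ∈ P of the index of C_N(x) in N. -/
theorem result {G : Type*} [Group G] [Finite G] (p : ℕ) [Fact p.Prime]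
    (P : Sylow p G) (N : Subgroup G) [N.Normal] (hNP : N.IsComplement' (P : Subgroup G)) :
    Nat.card {g : G // ∃ k : ℕ, orderOf g = p ^ k} =
      ∑ᶠ x : (P : Subgroup G), Nat.card N / Nat.card ↥(N ⊓ Subgroup.centralizer ({(x : G)} : Set G)) := by
  classical
  haveI := Fintype.ofFinite (P : Subgroup G)
  rw [finsum_eq_sum_of_fintype]
  simp only [div_eq_card_orbit]
  rw [← Nat.card_sigma]
  symm
  let f : (Σ x : (P : Subgroup G), {g : G // ∃ n ∈ N, g = n * (x : G) * n⁻¹}) →
      {g : G // ∃ k : ℕ, orderOf g = p ^ k} := fun q =>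
    ⟨q.2.1, by
      obtain ⟨n, -, hn⟩ := q.2.2
      rw [hn]
      exact pel_conj n (pel_of_mem P.isPGroup' q.1.2)⟩
  apply Nat.card_eq_of_bijective f
  constructor
  · rintro ⟨x, g, n, hn, hg⟩ ⟨x', g', n', hn', hg'⟩ h
    have hgg : g = g' := congrArg Subtype.val h
    subst hgg
    have hNn : N.Normal := inferInstance
    -- compare classes modulo `N`
    have h1 : (x : G)⁻¹ * (x' : G) ∈ N := by
      have hq : ((x : G) : G ⧸ N) = ((x' : G) : G ⧸ N) := by
        have e : ∀ (m u : G), m ∈ N → ((m * u * m⁻¹ : G) : G ⧸ N) = (u : G ⧸ N) := by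
          intro m u hm
          rw [QuotientGroup.eq]
          have e3 : (m * u * m⁻¹)⁻¹ * u = m * (u⁻¹ * m⁻¹ * u⁻¹⁻¹) := by group
          rw [e3]
          exact mul_mem hm (hNn.conj_mem _ (inv_mem hm) _)
        have e1 := e n (x : G) hn
        have e2 := e n' (x' : G) hn'
        rw [← hg] at e1
        rw [← hg'] at e2
        rw [← e1, e2]
      exact QuotientGroup.eq.mp hq
    have h4 : (x : G)⁻¹ * (x' : G) ∈ (P : Subgroup G) := mul_mem (inv_mem x.2) x'.2
    have h5 : (x : G)⁻¹ * (x' : G) = 1 := by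
      have := hNP.disjoint
      exact Subgroup.disjoint_def.mp this h1 h4
    have hxx : x = x' := Subtype.ext (inv_mul_eq_one.mp h5)
    subst hxx
    rfl
  · rintro ⟨g, hg⟩
    obtain ⟨R, hR⟩ := (isPGroup_zpowers_of_pel hg).exists_le_sylow
    obtain ⟨d, hd⟩ := MulAction.exists_smul_eq G P R
    have hgR : g ∈ (R : Subgroup G) := hR (mem_zpowers g)
    rw [← hd, Sylow.coe_subgroup_smul, Subgroup.mem_smul_pointwise_iff_exists] at hgR
    obtain ⟨y, hy, hyg⟩ := hgR
    rw [MulAut.smul_def, MulAut.conj_apply] at hyg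
    obtain ⟨⟨n, z⟩, hnz, -⟩ := hNP.existsUnique d
    have hnz' : (n : G) * (z : G) = d := hnz
    have hw : (z : G) * y * (z : G)⁻¹ ∈ (P : Subgroup G) := mul_mem (mul_mem z.2 hy) (inv_mem z.2)
    refine ⟨⟨⟨_, hw⟩, ⟨g, n, n.2, ?_⟩⟩, rfl⟩
    rw [← hyg, ← hnz']
    group

end Cfsg.Agent.S4093
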