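import Cfsg.Statements.S4106
import Mathlib
import Cfsg.Agent.Lib.Cl.KPi

set_option autoImplicit false
open Cfsg

namespace Cfsg.Agent.S4106

/-- Let G be a finite group, π a set of primes and m the π-part of the order of G. Then the number of conjugacy classes of G consisting of π-elements (elements whose order is divisible only by primes in π) is at most m. -/
theorem result {G : Type*} [Group G] [Finite G]
    (π : Set ℕ) (hπ : ∀ q ∈ π, q.Prime)
    (m : ℕ) (hm : m ∣ Nat.card G) (hmπ : ∀ q : ℕ, q.Prime → q ∣ m → q ∈ π)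
    (hm' : ∀ q ∈ π, ¬ q ∣ Nat.card G / m) :
    Nat.card {C : ConjClasses G // ∀ q : ℕ, q.Prime → (∃ g : G, ConjClasses.mk g = C ∧ q ∣ orderOf g) → q ∈ π} ≤ m := by
  classical
  set T : Finset ℕ := (Nat.card G).primeFactors.filter (· ∈ π) with hT
  have hG0 : Nat.card G ≠ 0 := Nat.card_pos.ne'
  have hm0 : m ≠ 0 := by
    rintro rfl
    exact hG0 (Nat.eq_zero_of_zero_dvd hm)
  have hTp : ∀ q ∈ T, q.Prime := fun q hq =>
    Nat.prime_of_mem_primeFactors (Finset.mem_filter.mp hq).1
  have h1 := Cfsg.Agent.Lib.Cl.card_piClass_le T hTp G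
  have hprod : ∏ q ∈ T, q ^ (Nat.card G).factorization q = m := by
    have hfac : ∀ q ∈ T, (Nat.card G).factorization q = m.factorization q := by
      intro q hq
      have hqπ : q ∈ π := (Finset.mem_filter.mp hq).2
      have hq' := hTp q hq
      obtain ⟨k, hk⟩ := hm
      have hk0 : k ≠ 0 := by
        rintro rfl
        exact hG0 (by rw [hk, mul_zero])
      have hdiv : Nat.card G / m = k := by
        rw [hk]; exact Nat.mul_div_cancel_left k (Nat.pos_of_ne_zero hm0)
      have hnd := hm' q hqπ
      rw [hdiv] at hnd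
      rw [hk, Nat.factorization_mul hm0 hk0, Finsupp.add_apply,
        Nat.factorization_eq_zero_of_not_dvd hnd, add_zero]
    rw [Finset.prod_congr rfl (fun q hq => by rw [hfac q hq])]
    conv_rhs => rw [← Nat.factorization_prod_pow_eq_self hm0]
    rw [Finsupp.prod, Nat.support_factorization]
    symm
    apply Finset.prod_subset
    · intro q hq
      have hq' := Nat.prime_of_mem_primeFactors hq
      have hqd := Nat.dvd_of_mem_primeFactors hq
      exact Finset.mem_filter.mpr ⟨Nat.mem_primeFactors.mpr ⟨hq', hqd.trans hm, hG0⟩, hmπ q hq' hqd⟩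
    · intro q _ hq
      have : m.factorization q = 0 := by
        rw [← Finsupp.notMem_support_iff, Nat.support_factorization]
        exact hq
      rw [this, pow_zero]
  rw [hprod] at h1
  refine le_trans ?_ h1
  apply Nat.card_le_card_of_injective
    (fun C => (⟨C.1, fun q hq hex => by
      obtain ⟨g, hg, hqg⟩ := hex
      have h3 : q ∣ Nat.card G := hqg.trans (orderOf_dvd_natCard g)
      exact Finset.mem_coe.mpr (Finset.mem_filter.mpr
        ⟨Nat.mem_primeFactors.mpr ⟨hq, h3, hG0⟩, C.2 q hq ⟨g, hg, hqg⟩⟩)⟩ :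
      {C : ConjClasses G // Cfsg.Agent.Lib.Cl.PiClass (↑T : Set ℕ) C}))
  intro C C' h
  have h' := congrArg Subtype.val h
  exact Subtype.ext h'

end Cfsg.Agent.S4106
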