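import Cfsg.Statements.S4107
import Cfsg.Agent.Lib.Core.Basic
import Mathlib

set_option autoImplicit false
open Cfsg

namespace Cfsg.Agent.S4107

open Subgroup Cfsg.Agent.Lib.Core

theorem isPGroup_of_mem_pCore {G : Type*} [Group G] [Finite G] (N : Subgroup G) [N.Normal]
    (heq : ∀ x : G, x ∉ N → ∀ n ∈ N, orderOf (x * n) = orderOf x) (q : ℕ) [Fact q.Prime] {x : G}
    (hx : x ∈ pCore q G) (hxN : x ∉ N) : IsPGroup q N := by
  intro n
  have hQ := pCore_isPGroup q G
  obtain ⟨a, ha⟩ := (IsPGroup.iff_orderOf.mp hQ) ⟨x, hx⟩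
  have hax : orderOf x = q ^ a := by
    rw [← Subgroup.orderOf_mk x hx]; exact ha
  have h1 : (x * n) ^ (q ^ a) = 1 := by
    rw [← hax, ← heq x hxN n n.2]
    exact pow_orderOf_eq_one _
  have h2 : (QuotientGroup.mk (x * n) : G ⧸ pCore q G) = QuotientGroup.mk (n : G) := by
    rw [QuotientGroup.mk_mul]
    have : (QuotientGroup.mk x : G ⧸ pCore q G) = 1 := (QuotientGroup.eq_one_iff _).mpr hx
    rw [this, one_mul]
  have h3 : (n : G) ^ (q ^ a) ∈ pCore q G := by
    rw [← QuotientGroup.eq_one_iff, QuotientGroup.mk_pow, ← h2, ← QuotientGroup.mk_pow, h1]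
    rfl
  obtain ⟨b, hb⟩ := hQ ⟨_, h3⟩
  refine ⟨a + b, Subtype.ext ?_⟩
  have h4 : ((n : G) ^ (q ^ a)) ^ (q ^ b) = 1 := congrArg Subtype.val hb
  simpa [pow_add, pow_mul] using h4

/-- Let G be a finite group and N a proper non-trivial normal subgroup such that for every x outside N all elements of the coset xN have the same order as x. Then N ≤ F(G) or F(G) ≤ N, where F(G) is the Fitting subgroup; and if N is properly contained in F(G) then F(G) has prime-power order. -/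
theorem result {G : Type*} [Group G] [Finite G] (N : Subgroup G) [N.Normal] (hN1 : N ≠ ⊥) (hN2 : N ≠ ⊤)
    (heq : ∀ x : G, x ∉ N → ∀ n ∈ N, orderOf (x * n) = orderOf x) :
    (N ≤ Cfsg.fittingSubgroup G ∨ Cfsg.fittingSubgroup G ≤ N) ∧
    (N < Cfsg.fittingSubgroup G → IsPrimePow (Nat.card (Cfsg.fittingSubgroup G))) := by
  classical
  by_cases hF : fittingSubgroup G ≤ N
  · exact ⟨Or.inr hF, fun h => absurd hF (not_le_of_gt h)⟩
  -- a prime `q` with `O_q(G) ≰ N`
  obtain ⟨q, hq, x, hx, hxN⟩ : ∃ q : ℕ, q.Prime ∧ ∃ x ∈ pCore q G, x ∉ N := by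
    by_contra hcon
    push Not at hcon
    apply hF
    rw [fittingSubgroup_eq_iSup_pCore]
    apply iSup_le
    intro p x hx
    exact hcon p p.2 x hx
  haveI : Fact q.Prime := ⟨hq⟩
  have hNq : IsPGroup q N := isPGroup_of_mem_pCore N heq q hx hxN
  have hNle : N ≤ pCore q G := le_pCore ‹_› hNq
  have hNF : N ≤ fittingSubgroup G := hNle.trans (pCore_le_fittingSubgroup q)
  refine ⟨Or.inl hNF, fun _ => ?_⟩
  -- other primes
  have hother : ∀ r : ℕ, r.Prime → r ≠ q → pCore r G = ⊥ := by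
    intro r hr hrq
    haveI : Fact r.Prime := ⟨hr⟩
    by_contra hne
    obtain ⟨y', hy'⟩ := Subgroup.ne_bot_iff_exists_ne_one.mp hne
    obtain ⟨y, hy, hy1⟩ : ∃ y ∈ pCore r G, y ≠ 1 := ⟨y', y'.2, fun h => hy' (Subtype.ext h)⟩
    have hdisj : ∀ z, z ∈ pCore r G → z ∈ pCore q G → z = 1 := by
      intro z h1 h2
      have h3 : IsPGroup r (pCore r G) := pCore_isPGroup r G
      have h4 : IsPGroup q (pCore q G) := pCore_isPGroup q G
      obtain ⟨a, ha⟩ := IsPGroup.iff_orderOf.mp h3 ⟨z, h1⟩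
      obtain ⟨b, hb⟩ := IsPGroup.iff_orderOf.mp h4 ⟨z, h2⟩
      rw [Subgroup.orderOf_mk] at ha hb
      have h5 : orderOf z = 1 := by
        have hc : (r ^ a).Coprime (q ^ b) :=
          Nat.Coprime.pow _ _ ((Nat.coprime_primes hr hq).mpr hrq)
        have := Nat.Coprime.eq_one_of_dvd hc (by rw [← ha, ← hb])
        rw [ha, this]
      exact orderOf_eq_one_iff.mp h5
    have hyN : y ∉ N := fun h => hy1 (hdisj y hy (hNle h))
    obtain ⟨n', hn'⟩ := Subgroup.ne_bot_iff_exists_ne_one.mp hN1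
    obtain ⟨n, hn, hn1⟩ : ∃ n ∈ N, n ≠ 1 := ⟨n', n'.2, fun h => hn' (Subtype.ext h)⟩
    have hcomm : Commute y n := by
      have h1 : y * n * y⁻¹ * n⁻¹ ∈ pCore r G := by
        have : y * n * y⁻¹ * n⁻¹ = y * (n * y⁻¹ * n⁻¹) := by group
        rw [this]
        exact Subgroup.mul_mem _ hy ((pCore_normal r G).conj_mem _ (Subgroup.inv_mem _ hy) _)
      have h2 : y * n * y⁻¹ * n⁻¹ ∈ pCore q G := by
        refine Subgroup.mul_mem _ ?_ (Subgroup.inv_mem _ (hNle hn))
        exact (pCore_normal q G).conj_mem _ (hNle hn) _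
      have h3 := hdisj _ h1 h2
      rw [mul_inv_eq_one, mul_inv_eq_iff_eq_mul] at h3
      exact h3
    have hcop : (orderOf y).Coprime (orderOf n) := by
      obtain ⟨a, ha⟩ := IsPGroup.iff_orderOf.mp (pCore_isPGroup r G) ⟨y, hy⟩
      obtain ⟨b, hb⟩ := IsPGroup.iff_orderOf.mp (pCore_isPGroup q G) ⟨n, hNle hn⟩
      rw [Subgroup.orderOf_mk] at ha hb
      rw [ha, hb]
      exact Nat.Coprime.pow _ _ ((Nat.coprime_primes hr hq).mpr hrq)
    have h1 := hcomm.orderOf_mul_eq_mul_orderOf_of_coprime hcop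
    rw [heq y hyN n hn] at h1
    have h2 : orderOf n = 1 := by
      have hpos := orderOf_pos y
      exact Nat.eq_of_mul_eq_mul_left hpos (by rw [← h1, mul_one])
    exact hn1 (orderOf_eq_one_iff.mp h2)
  have hFle : fittingSubgroup G ≤ pCore q G := by
    rw [fittingSubgroup_eq_iSup_pCore]
    apply iSup_le
    intro r
    by_cases hr : (r : ℕ) = q
    · rw [hr]
    · rw [hother r r.2 hr]
      exact bot_le
  have hFq : IsPGroup q (fittingSubgroup G) := (pCore_isPGroup q G).to_le hFle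
  obtain ⟨k, hk⟩ := IsPGroup.iff_card.mp hFq
  rw [hk]
  have hk0 : k ≠ 0 := by
    rintro rfl
    rw [pow_zero] at hk
    have h1 : fittingSubgroup G = ⊥ := by
      exact (Subgroup.card_eq_one).mp hk
    rw [h1] at hNF
    exact hN1 (le_bot_iff.mp hNF)
  exact hq.isPrimePow.pow hk0

end Cfsg.Agent.S4107
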