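import Cfsg.Statements.S4108
import Mathlib

set_option autoImplicit false
open Cfsg

namespace Cfsg.Agent.S4108

open scoped Pointwise

/-- Let G be a finite group, p a prime and N a proper non-trivial normal p-subgroup such that for every x outside N all elements of the coset xN have the same order as x. Then every non-trivial subgroup H of G of order prime to p acts fixed-point-freely on N: NH is a Frobenius group with complement H and kernel N. -/
theorem result {G : Type*} [Group G] [Finite G] (N : Subgroup G) [N.Normal] (hN1 : N ≠ ⊥) (hN2 : N ≠ ⊤)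
    (heq : ∀ x : G, x ∉ N → ∀ n ∈ N, orderOf (x * n) = orderOf x)
    (p : ℕ) [Fact p.Prime] (hNp : IsPGroup p N) :
    ∀ H : Subgroup G, H ≠ ⊥ → (Nat.card H).Coprime p →
      Cfsg.IsFrobeniusComplement (H.subgroupOf (N ⊔ H)) ∧ Cfsg.frobeniusKernel (H.subgroupOf (N ⊔ H)) = (N.subgroupOf (N ⊔ H) : Set ↥(N ⊔ H)) := by
  classical
  intro H hH1 hHp
  haveI hNn : N.Normal := inferInstance
  have horderH : ∀ h ∈ H, (orderOf h).Coprime p := by
    intro h hh
    have h1 : orderOf h ∣ Nat.card H := by
      rw [← Subgroup.orderOf_mk h hh]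
      exact orderOf_dvd_natCard _
    exact Nat.Coprime.coprime_dvd_left h1 hHp
  have horderN : ∀ n ∈ N, ∃ k, orderOf n = p ^ k := by
    intro n hn
    obtain ⟨k, hk⟩ := hNp ⟨n, hn⟩
    have hk' : n ^ p ^ k = 1 := by simpa using congrArg Subtype.val hk
    obtain ⟨j, -, hj⟩ := (Nat.dvd_prime_pow (Fact.out : p.Prime)).mp (orderOf_dvd_of_pow_eq_one hk')
    exact ⟨j, hj⟩
  have hdisj : ∀ x, x ∈ H → x ∈ N → x = 1 := by
    intro x hxH hxN
    obtain ⟨k, hk⟩ := horderN x hxN
    have h1 := horderH x hxH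
    rw [hk] at h1
    have h2 : k = 0 := by
      by_contra hk0
      have h3 : Nat.Coprime p p := Nat.Coprime.coprime_dvd_left (dvd_pow_self p hk0) h1
      rw [Nat.coprime_self] at h3
      exact (Fact.out : p.Prime).ne_one h3
    rw [h2, pow_zero] at hk
    exact orderOf_eq_one_iff.mp hk
  -- the action is fixed-point-free
  have hfpf : ∀ h ∈ H, h ≠ 1 → ∀ n ∈ N, h * n = n * h → n = 1 := by
    intro h hh hh1 n hn hc
    have hhN : h ∉ N := fun hN => hh1 (hdisj h hh hN)
    have h1 := heq h hhN n hn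
    obtain ⟨k, hk⟩ := horderN n hn
    have hcop : (orderOf h).Coprime (orderOf n) := by
      rw [hk]
      exact Nat.Coprime.pow_right k (horderH h hh)
    have h2 := (show Commute h n from hc).orderOf_mul_eq_mul_orderOf_of_coprime hcop
    rw [h1] at h2
    have h3 : orderOf n = 1 := by
      have h4 : orderOf h * 1 = orderOf h * orderOf n := by rw [mul_one]; exact h2
      exact (Nat.eq_of_mul_eq_mul_left (orderOf_pos h) h4).symm
    exact orderOf_eq_one_iff.mp h3
  set L : Subgroup G := N ⊔ H with hL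
  have hNL : N ≤ L := le_sup_left
  have hHL : H ≤ L := le_sup_right
  have hLform : ∀ x : L, ∃ n ∈ N, ∃ h ∈ H, (x : G) = n * h := by
    intro x
    obtain ⟨n, hn, h, hh, hx⟩ := Subgroup.mem_sup_of_normal_left.mp x.2
    exact ⟨n, hn, h, hh, hx.symm⟩
  have hmemconj : ∀ (g : L) (x : L) (K : Subgroup G), x ∈ MulAut.conj g • K.subgroupOf L ↔
      ((g : G)⁻¹ * x * g) ∈ K := by
    intro g x K
    rw [Subgroup.mem_pointwise_smul_iff_inv_smul_mem, Subgroup.mem_subgroupOf, MulAut.smul_def,
      MulAut.conj_inv_apply]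
    simp
  refine ⟨⟨?_, ?_, ?_⟩, ?_⟩
  · intro h
    apply hH1
    rw [eq_bot_iff]
    intro x hx
    have h1 : (⟨x, hHL hx⟩ : L) ∈ H.subgroupOf L := Subgroup.mem_subgroupOf.mpr hx
    rw [h, Subgroup.mem_bot] at h1
    have := congrArg Subtype.val h1
    exact this
  · intro h
    apply hN1
    rw [eq_bot_iff]
    intro x hx
    have h1 : (⟨x, hNL hx⟩ : L) ∈ H.subgroupOf L := by rw [h]; trivial
    exact hdisj x (Subgroup.mem_subgroupOf.mp h1) hx
  · intro g hg
    rw [eq_bot_iff]
    intro x hx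
    obtain ⟨hx1, hx2⟩ := Subgroup.mem_inf.mp hx
    rw [hmemconj] at hx2
    rw [Subgroup.mem_bot]
    have hxH : (x : G) ∈ H := Subgroup.mem_subgroupOf.mp hx1
    obtain ⟨n, hn, h₀, hh₀, hgf⟩ := hLform g
    by_contra hx1'
    have hx1'' : (x : G) ≠ 1 := fun h => hx1' (Subtype.ext h)
    -- `z = h₀⁻¹ x h₀` lies in `H`... compute
    have hy : (h₀)⁻¹ * (n⁻¹ * (x : G) * n) * h₀ ∈ H := by
      rw [hgf] at hx2
      have : (n * h₀)⁻¹ * (x : G) * (n * h₀) = h₀⁻¹ * (n⁻¹ * (x : G) * n) * h₀ := by group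
      rwa [this] at hx2
    have hz : n⁻¹ * (x : G) * n ∈ H := by
      have : n⁻¹ * (x : G) * n = h₀ * (h₀⁻¹ * (n⁻¹ * (x : G) * n) * h₀) * h₀⁻¹ := by group
      rw [this]
      exact mul_mem (mul_mem hh₀ hy) (inv_mem hh₀)
    have hcomm : (x : G)⁻¹ * (n⁻¹ * (x : G) * n) = 1 := by
      apply hdisj _ (mul_mem (inv_mem hxH) hz)
      have : (x : G)⁻¹ * (n⁻¹ * (x : G) * n) = ((x : G)⁻¹ * n⁻¹ * (x : G)) * n := by group
      rw [this]
      refine mul_mem ?_ hn
      have h5 := hNn.conj_mem _ (inv_mem hn) (x : G)⁻¹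
      simpa using h5
    have hcomm' : (x : G) * n = n * (x : G) := by
      have h1 : n⁻¹ * (x : G) * n = x := (inv_mul_eq_one.mp hcomm).symm
      have h2 : (x : G) * n = n * (n⁻¹ * (x : G) * n) := by group
      rw [h2, h1]
    have hn1 := hfpf _ hxH hx1'' n hn hcomm'
    apply hg
    apply Subgroup.mem_subgroupOf.mpr
    rw [hgf, hn1, one_mul]
    exact hh₀
  · ext x
    constructor
    · rintro (rfl | hx)
      · exact one_mem (N.subgroupOf L)
      · obtain ⟨n, hn, h₀, hh₀, hxf⟩ := hLform x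
        by_cases hh1 : h₀ = 1
        · apply Subgroup.mem_subgroupOf.mpr
          rw [hxf, hh1, mul_one]
          exact hn
        · exfalso
          -- the coset `N h₀` consists of `N`-conjugates of `h₀`
          haveI := Fintype.ofFinite N
          let f : N → N := fun m => ⟨m * (h₀ * (m : G)⁻¹ * h₀⁻¹), mul_mem m.2 (hNn.conj_mem _ (inv_mem m.2) h₀)⟩
          have hfinj : Function.Injective f := by
            intro m m' hmm
            have h1 : (m : G) * (h₀ * (m : G)⁻¹ * h₀⁻¹) = m' * (h₀ * (m' : G)⁻¹ * h₀⁻¹) :=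
              congrArg Subtype.val hmm
            have h2 : h₀ * ((m' : G)⁻¹ * m) = ((m' : G)⁻¹ * m) * h₀ := by
              have h3 : (m : G) * (h₀ * (m : G)⁻¹) = m' * (h₀ * (m' : G)⁻¹) := by
                have h4 := congrArg (· * h₀) h1
                simpa [mul_assoc] using h4
              have h5 : (m : G) * h₀ = m' * (h₀ * (m' : G)⁻¹) * m := by
                rw [← h3]; group
              calc h₀ * ((m' : G)⁻¹ * m) = (m' : G)⁻¹ * (m' * (h₀ * (m' : G)⁻¹) * m) := by group
                _ = (m' : G)⁻¹ * ((m : G) * h₀) := by rw [h5]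
                _ = ((m' : G)⁻¹ * m) * h₀ := by group
            have h3 := hfpf h₀ hh₀ hh1 _ (mul_mem (inv_mem m'.2) m.2) h2
            apply Subtype.ext
            exact (inv_mul_eq_one.mp h3).symm
          have hfsurj : Function.Surjective f := Finite.surjective_of_injective hfinj
          obtain ⟨m, hm⟩ := hfsurj ⟨n, hn⟩
          have hm' : (m : G) * (h₀ * (m : G)⁻¹ * h₀⁻¹) = n := congrArg Subtype.val hm
          have hmL : (m : G) ∈ L := hNL m.2
          apply hx ⟨m, hmL⟩
          rw [hmemconj]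
          show (m : G)⁻¹ * (x : G) * m ∈ H
          rw [hxf, ← hm']
          have : (m : G)⁻¹ * ((m : G) * (h₀ * (m : G)⁻¹ * h₀⁻¹) * h₀) * m = h₀ := by group
          rw [this]
          exact hh₀
    · intro hx
      have hxN : (x : G) ∈ N := Subgroup.mem_subgroupOf.mp hx
      by_cases hx1 : x = 1
      · exact Or.inl hx1
      · right
        intro g hg
        rw [hmemconj] at hg
        have h1 : (g : G)⁻¹ * x * g ∈ N := by
          have := hNn.conj_mem _ hxN (g : G)⁻¹
          simpa using this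
        have h2 := hdisj _ hg h1
        apply hx1
        apply Subtype.ext
        have h3 : (x : G) = g * ((g : G)⁻¹ * x * g) * (g : G)⁻¹ := by group
        rw [h3, h2]
        simp

end Cfsg.Agent.S4108
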