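import Cfsg.Statements.S4112
import Mathlib
import Cfsg.Agent.Lib.Core.Basic

set_option autoImplicit false
open Cfsg

namespace Cfsg.Agent.S4112

open Subgroup

section
variable {X : Type*} [Group X] [Finite X]

/-- A Sylow subgroup for a prime not dividing the index of a normal subgroup lies in it. -/
theorem sylow_le_of_not_dvd {q : ℕ} [hq : Fact q.Prime] (N : Subgroup X) [N.Normal]
    (h : ¬ q ∣ N.index) (S : Sylow q X) : (S : Subgroup X) ≤ N := by
  intro x hx
  obtain ⟨a, ha⟩ := S.isPGroup' ⟨x, hx⟩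
  have ha' : x ^ q ^ a = 1 := by simpa using congrArg Subtype.val ha
  rw [← QuotientGroup.eq_one_iff]
  have h1 : ((x : X) : X ⧸ N) ^ q ^ a = 1 := by
    rw [← QuotientGroup.mk_pow, ha']; rfl
  have h2 : ((x : X) : X ⧸ N) ^ N.index = 1 := by
    rw [Subgroup.index_eq_card]; exact pow_card_eq_one'
  have hc : Nat.Coprime (q ^ a) N.index := Nat.Coprime.pow_left a ((Nat.Prime.coprime_iff_not_dvd hq.out).mpr h)
  exact (pow_eq_one_iff_of_coprime hc).mp ⟨h1, h2⟩

theorem exists_proper_of_prime {q : ℕ} [hq : Fact q.Prime] (N : Subgroup X) [N.Normal]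
    (h1 : q ∣ Nat.card N) (h2 : ¬ q ∣ N.index) : ∃ K : Subgroup X, K ≠ ⊤ ∧ K ⊔ N = ⊤ := by
  obtain ⟨S⟩ : Nonempty (Sylow q X) := inferInstance
  have hSN := sylow_le_of_not_dvd N h2 S
  have hSne : (S : Subgroup X) ≠ ⊥ :=
    S.ne_bot_of_dvd_card (h1.trans (Subgroup.card_subgroup_dvd_card N))
  by_cases hnorm : normalizer ((S : Subgroup X) : Set X) = ⊤
  · haveI hSn : (S : Subgroup X).Normal := Subgroup.normalizer_eq_top_iff.mp hnorm
    obtain ⟨K, hK⟩ := Subgroup.exists_right_complement'_of_coprime S.card_coprime_index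
    refine ⟨K, ?_, ?_⟩
    · rintro rfl
      have h3 : Disjoint (S : Subgroup X) (⊤ : Subgroup X) := hK.disjoint
      exact hSne (disjoint_top.mp h3)
    · have h3 : (S : Subgroup X) ⊔ K ≤ K ⊔ N := sup_le (hSN.trans le_sup_right) le_sup_left
      have h4 : (S : Subgroup X) ⊔ K = ⊤ := hK.sup_eq_top
      rw [h4] at h3
      exact eq_top_iff.mpr h3
  · exact ⟨_, hnorm, S.normalizer_sup_eq_top' hSN⟩

end

theorem card_subgroupOf_eq {X : Type*} [Group X] (M H : Subgroup X) :
    Nat.card (M.subgroupOf H) = Nat.card ↥(H ⊓ M) := by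
  rw [← Subgroup.inf_subgroupOf_left]
  exact Nat.card_congr (Subgroup.subgroupOfEquivOfLe inf_le_left).toEquiv

/-- Let G be a finite group and M ≤ N non-trivial proper normal subgroups such that for every g outside N the conjugacy class of g is a union of cosets of M (equivalently gm is conjugate to g for every m ∈ M). Then (1) and (2) below are equivalent, and they imply (3): (1) every g outside N acts fixed-point-freely on M, that is C_G(x) ≤ N for every x ∈ M, x ≠ 1; (2) the index of N in G is coprime to the order of M; (3) there is a subgroup H of G with HN = G and H ∩ M = 1. -/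
theorem result {G : Type*} [Group G] [Finite G] (N M : Subgroup G) [N.Normal] [M.Normal] (hMN : M ≤ N) (hM1 : M ≠ ⊥) (hN2 : N ≠ ⊤)
    (hcam : ∀ g : G, g ∉ N → ∀ m ∈ M, ∃ x : G, x * g * x⁻¹ = g * m) :
    ((∀ x ∈ M, x ≠ 1 → Subgroup.centralizer ({x} : Set G) ≤ N) ↔ N.index.Coprime (Nat.card M)) ∧
    ((∀ x ∈ M, x ≠ 1 → Subgroup.centralizer ({x} : Set G) ≤ N) → ∃ H : Subgroup G, H ⊔ N = ⊤ ∧ H ⊓ M = ⊥) := by
  classical
  have hNMnorm : ∀ g : G, ∀ m ∈ M, g * m * g⁻¹ ∈ M := fun g m hm => (inferInstance : M.Normal).conj_mem m hm g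
  have h12 : (∀ x ∈ M, x ≠ 1 → Subgroup.centralizer ({x} : Set G) ≤ N) → N.index.Coprime (Nat.card M) := by
    intro hfp
    by_contra hcop
    obtain ⟨q, hq, hqi, hqM⟩ := Nat.Prime.not_coprime_iff_dvd.mp hcop
    haveI : Fact q.Prime := ⟨hq⟩
    obtain ⟨Q⟩ : Nonempty (Sylow q G) := inferInstance
    have hQN : ¬ (Q : Subgroup G) ≤ N := by
      intro h
      exact Q.not_dvd_index (hqi.trans (Subgroup.index_dvd_of_le h))
    obtain ⟨g, hgQ, hgN⟩ := SetLike.not_le_iff_exists.mp hQN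
    -- a nontrivial element of `Q ∩ M`
    obtain ⟨x, hx⟩ := exists_prime_orderOf_dvd_card' (G := M) q hqM
    have hx' : orderOf (x : G) = q := by rw [← hx]; exact Subgroup.orderOf_coe x
    have hxp : IsPGroup q (zpowers (x : G)) :=
      IsPGroup.of_card (n := 1) (by rw [Nat.card_zpowers, hx', pow_one])
    obtain ⟨R, hR⟩ := hxp.exists_le_sylow
    obtain ⟨d, hd⟩ := MulAction.exists_smul_eq G R Q
    have hxR : (x : G) ∈ (R : Subgroup G) := hR (mem_zpowers _)
    have hxQ : d * (x : G) * d⁻¹ ∈ (Q : Subgroup G) := by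
      rw [← hd, Sylow.coe_subgroup_smul, Subgroup.mem_smul_pointwise_iff_exists]
      exact ⟨x, hxR, rfl⟩
    have hx1 : d * (x : G) * d⁻¹ ≠ 1 := by
      intro h
      have h1 : (x : G) = 1 := by
        have h2 : d * (x : G) * d⁻¹ * d = 1 * d := by rw [h]
        simpa [mul_assoc] using h2
      rw [h1, orderOf_one] at hx'
      exact hq.ne_one hx'.symm
    haveI : Group.IsNilpotent (Q : Subgroup G) := Q.isPGroup'.isNilpotent
    haveI : (M.subgroupOf (Q : Subgroup G)).Normal := inferInstance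
    have hne : M.subgroupOf (Q : Subgroup G) ≠ ⊥ := by
      intro h
      have h3 : (⟨_, hxQ⟩ : (Q : Subgroup G)) ∈ M.subgroupOf (Q : Subgroup G) :=
        Subgroup.mem_subgroupOf.mpr (hNMnorm d x x.2)
      rw [h, Subgroup.mem_bot] at h3
      exact hx1 (congrArg Subtype.val h3)
    have h4 := Cfsg.Agent.Lib.Core.normal_inf_center_ne_bot (M.subgroupOf (Q : Subgroup G)) hne
    obtain ⟨⟨z, hz⟩, hz1⟩ := (Subgroup.ne_bot_iff_exists_ne_one).mp h4
    have hz1' : (z : G) ≠ 1 := by
      intro h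
      apply hz1
      apply Subtype.ext
      apply Subtype.ext
      exact h
    have hzM : (z : G) ∈ M := Subgroup.mem_subgroupOf.mp hz.1
    apply hgN
    apply hfp _ hzM hz1'
    rw [Subgroup.mem_centralizer_singleton_iff]
    have h5 := Subgroup.mem_center_iff.mp hz.2 ⟨g, hgQ⟩
    exact congrArg Subtype.val h5
  have h21 : N.index.Coprime (Nat.card M) → (∀ x ∈ M, x ≠ 1 → Subgroup.centralizer ({x} : Set G) ≤ N) := by
    intro hcop x hxM hx1 g hg
    by_contra hgN
    rw [Subgroup.mem_centralizer_singleton_iff] at hg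
    have hgx : Commute g x := hg
    -- pass to a prime-power part
    have hb : ((g : G) : G ⧸ N) ≠ 1 := by
      rwa [Ne, QuotientGroup.eq_one_iff]
    have hob : orderOf ((g : G) : G ⧸ N) ≠ 1 := by
      rwa [Ne, orderOf_eq_one_iff]
    obtain ⟨r, hr, hrd⟩ := Nat.exists_prime_and_dvd hob
    have hrindex : r ∣ N.index := by
      rw [Subgroup.index_eq_card]
      exact hrd.trans (orderOf_dvd_natCard _)
    have hrM : ¬ r ∣ Nat.card M := fun h => hr.one_lt.ne' (Nat.eq_one_of_dvd_coprimes hcop hrindex h)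
    have ho0 : orderOf g ≠ 0 := (orderOf_pos g).ne'
    obtain ⟨a, b, hb1, hab⟩ := Nat.exists_eq_pow_mul_and_not_dvd ho0 r hr.ne_one
    have hg' : (g ^ b) ^ r ^ a = 1 := by
      rw [← pow_mul, mul_comm, ← hab]; exact pow_orderOf_eq_one g
    have hg'N : g ^ b ∉ N := by
      intro h
      have h1 : ((g : G) : G ⧸ N) ^ b = 1 := by
        rw [← QuotientGroup.mk_pow]
        exact (QuotientGroup.eq_one_iff _).mpr h
      exact hb1 (hrd.trans (orderOf_dvd_of_pow_eq_one h1))
    obtain ⟨y, hy⟩ := hcam (g ^ b) hg'N x hxM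
    have hord : orderOf (g ^ b * x) = orderOf (g ^ b) := by
      rw [← hy, ← MulAut.conj_apply]
      exact MulEquiv.orderOf_eq _ _
    have hpow : (g ^ b * x) ^ r ^ a = 1 := by
      rw [← orderOf_dvd_iff_pow_eq_one, hord, orderOf_dvd_iff_pow_eq_one]
      exact hg'
    have hc : Commute (g ^ b) x := hgx.pow_left b
    rw [hc.mul_pow, hg', one_mul] at hpow
    -- `x` has order dividing a power of `r`, and dividing the order of `M`
    have h1 : orderOf x ∣ r ^ a := orderOf_dvd_of_pow_eq_one hpow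
    have h2 : orderOf x ∣ Nat.card M := by
      rw [← Subgroup.orderOf_mk x hxM]
      exact orderOf_dvd_natCard _
    have h3 : orderOf x = 1 := by
      have hcop2 : Nat.Coprime (r ^ a) (Nat.card M) :=
        Nat.Coprime.pow_left a ((Nat.Prime.coprime_iff_not_dvd hr).mpr hrM)
      exact Nat.eq_one_of_dvd_coprimes hcop2 h1 h2
    exact hx1 (orderOf_eq_one_iff.mp h3)
  refine ⟨⟨h12, h21⟩, ?_⟩
  intro hfp
  have hcop := h12 hfp
  have hfin : {H : Subgroup G | H ⊔ N = ⊤}.Finite := Set.toFinite _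
  obtain ⟨H, hH⟩ := hfin.exists_minimal ⟨⊤, by simp⟩
  refine ⟨H, hH.1, ?_⟩
  by_contra hne
  have hc1 : Nat.card ↥(H ⊓ M) ≠ 1 := fun h => hne (Subgroup.card_eq_one.mp h)
  obtain ⟨q, hq, hqd⟩ := Nat.exists_prime_and_dvd hc1
  haveI : Fact q.Prime := ⟨hq⟩
  have hqM : q ∣ Nat.card M := hqd.trans (Subgroup.card_dvd_of_le inf_le_right)
  have hqi : ¬ q ∣ N.index := fun h => hq.one_lt.ne' (Nat.eq_one_of_dvd_coprimes hcop h hqM)
  have hq1 : q ∣ Nat.card (N.subgroupOf H) := by
    rw [card_subgroupOf_eq]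
    exact hqd.trans (Subgroup.card_dvd_of_le (inf_le_inf_left H hMN))
  have hq2 : ¬ q ∣ (N.subgroupOf H).index := by
    have h3 : (N.subgroupOf H).index = N.index := by
      have h4 : N.relIndex H = N.relIndex (N ⊔ H) := (Subgroup.relIndex_sup_left H N).symm
      rw [sup_comm, hH.1, Subgroup.relIndex_top_right] at h4
      exact h4
    rwa [h3]
  obtain ⟨K, hK, hKN⟩ := exists_proper_of_prime (N.subgroupOf H) hq1 hq2
  have hK' : (K.map H.subtype) ⊔ N = ⊤ := by
    rw [eq_top_iff, ← hH.1]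
    refine sup_le ?_ le_sup_right
    intro h hh
    have h5 : (⟨h, hh⟩ : H) ∈ K ⊔ N.subgroupOf H := by rw [hKN]; trivial
    have h6 := Subgroup.mem_map_of_mem H.subtype h5
    rw [Subgroup.map_sup] at h6
    have h7 : (N.subgroupOf H).map H.subtype ≤ N := by
      rintro _ ⟨v, hv, rfl⟩
      exact Subgroup.mem_subgroupOf.mp hv
    exact (sup_le_sup_left h7 _) h6
  have hKle : K.map H.subtype ≤ H := by
    rintro _ ⟨v, -, rfl⟩
    exact v.2
  have hle := hH.2 hK' hKle
  apply hK
  rw [eq_top_iff]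
  intro h _
  obtain ⟨v, hv, hvh⟩ := hle h.2
  have : v = h := Subtype.ext hvh
  rwa [← this]

end Cfsg.Agent.S4112
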