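import Cfsg.Statements.S4115
import Cfsg.Agent.Lib.FrobWie.Main

set_option autoImplicit false
universe u
open Cfsg

namespace Cfsg.Agent.S4115

/-- Let G be a finite group and H a subgroup that meets each of its conjugates by elements outside N_G(H) trivially and whose order is coprime to its index in N_G(H). Then H has a normal complement in N_G(H) if and only if H has a normal complement in G. Moreover, if H is not normal in G and has a normal complement in N_G(H), then H is isomorphic to a Frobenius complement of some finite Frobenius group. -/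
theorem result {G : Type u} [Group G] [Finite G] (H : Subgroup G)
    (hTI : Cfsg.IsTISubset (H : Set G)) (hHall : (Nat.card H).Coprime (H.subgroupOf (Subgroup.normalizer (H : Set G))).index) :
    ((∃ K : Subgroup (Subgroup.normalizer (H : Set G)), K.Normal ∧ K.IsComplement' (H.subgroupOf (Subgroup.normalizer (H : Set G)))) ↔
      (∃ N : Subgroup G, N.Normal ∧ N.IsComplement' H)) ∧
    (¬ H.Normal → (∃ K : Subgroup (Subgroup.normalizer (H : Set G)), K.Normal ∧ K.IsComplement' (H.subgroupOf (Subgroup.normalizer (H : Set G)))) →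
      ∃ (F : Type u) (_ : Group F) (_ : Finite F) (C : Subgroup F), Cfsg.IsFrobeniusComplement C ∧ Nonempty (H ≃* C)) := by
  have hHN : H ≤ Subgroup.normalizer (H : Set G) := Subgroup.le_normalizer
  have hTI' : ∀ g, g ∉ Subgroup.normalizer (H : Set G) → ∀ x ∈ H, g * x * g⁻¹ ∈ H → x = 1 :=
    fun g hg x hx h => hTI g hg x hx h
  have hnorm : ∀ n ∈ Subgroup.normalizer (H : Set G), ∀ h ∈ H, n * h * n⁻¹ ∈ H :=
    fun n hn h hh => (Subgroup.mem_normalizer_iff.mp hn h).mp hh
  refine ⟨⟨?_, ?_⟩, ?_⟩
  · rintro ⟨K, hK, hc⟩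
    obtain ⟨T, hT, hTc, -, -⟩ := Cfsg.Agent.Lib.FrobWie.exists_T hHN hTI' hHall K hc
    exact ⟨T, hT, hTc⟩
  · rintro ⟨M, hM, hc⟩
    exact Cfsg.Agent.Lib.FrobWie.complement_restrict hHN M hc
  · rintro hnn ⟨K, hK, hc⟩
    obtain ⟨T, hT, hTc, hstr, hU⟩ := Cfsg.Agent.Lib.FrobWie.exists_T hHN hTI' hHall K hc
    refine Cfsg.Agent.Lib.FrobWie.frob_of_T hHN hTI' hHall hnorm ?_ ?_ hTc hstr hU
    · intro h
      exact hnn (Subgroup.normalizer_eq_top_iff.mp h)
    · rintro rfl
      exact hnn inferInstance

end Cfsg.Agent.S4115
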