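import Cfsg.Statements.S4116
import Cfsg.Agent.Lib.Coprime.UniqueFix
import Cfsg.Agent.Lib.ClassSizes.Basic
import Mathlib

set_option autoImplicit false
open Cfsg

namespace Cfsg.Agent.S4116

open Subgroup

/-- An element of the normalizer of `H` of order coprime to the index of `H` lies in `H`. -/
theorem mem_of_mem_normalizer {G : Type*} [Group G] [Finite G] (H : Subgroup G) {y : G}
    (hy : y ∈ normalizer (H : Set G)) (hcop : (orderOf y).Coprime H.index) : y ∈ H := by
  set N := normalizer (H : Set G) with hN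
  set Q : Subgroup N := H.subgroupOf N with hQ
  haveI hQn : Q.Normal := Subgroup.normal_in_normalizer
  have hHN : H ≤ N := le_normalizer
  have hcard : Nat.card (N ⧸ Q) ∣ H.index := by
    have h1 : H.relIndex N * N.index = H.index := Subgroup.relIndex_mul_index hHN
    have h2 : Nat.card (N ⧸ Q) = H.relIndex N := by
      rw [← Subgroup.index_eq_card]; rfl
    rw [h2]
    exact ⟨N.index, h1.symm⟩
  have h1 : ((⟨y, hy⟩ : N) : N ⧸ Q) ^ Nat.card (N ⧸ Q) = 1 := pow_card_eq_one'
  have h2 : (⟨y, hy⟩ : N) ^ Nat.card (N ⧸ Q) ∈ Q := by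
    rw [← QuotientGroup.eq_one_iff, QuotientGroup.mk_pow]
    exact h1
  have h3 : y ^ Nat.card (N ⧸ Q) ∈ H := by
    have := Subgroup.mem_subgroupOf.mp h2
    simpa using this
  exact Cfsg.Agent.Lib.ClassSizes.mem_of_pow_mem_of_coprime H y _
    ((hcop.coprime_dvd_right hcard).symm) h3

/-- Let G be a finite group with a subgroup H whose order is coprime to its index (a Hall subgroup) and which meets each of its conjugates by elements outside N_G(H) trivially. Then every subgroup of G whose order is divisible only by primes dividing the order of H lies in a conjugate of H. -/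
theorem result {G : Type*} [Group G] [Finite G] (H : Subgroup G)
    (hHall : (Nat.card H).Coprime H.index) (hTI : Cfsg.IsTISubset (H : Set G))
    (K : Subgroup G) (hK : ∀ q : ℕ, q.Prime → q ∣ Nat.card K → q ∣ Nat.card H) :
    ∃ g : G, K ≤ H.map (MulAut.conj g).toMonoidHom := by
  classical
  have hKcop : (Nat.card K).Coprime H.index := by
    refine Nat.coprime_of_dvd ?_
    intro q hq h1 h2
    have h3 : q ∣ Nat.gcd (Nat.card H) H.index := Nat.dvd_gcd (hK q hq h1) h2
    rw [hHall] at h3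
    exact hq.one_lt.ne' (Nat.dvd_one.mp h3)
  set N := normalizer (H : Set G) with hN
  -- elements of `K` normalizing a conjugate of `H` lie in it
  have hA : ∀ k ∈ K, ∀ g : G, g⁻¹ * k * g ∈ N → g⁻¹ * k * g ∈ H := by
    intro k hk g hg
    refine mem_of_mem_normalizer H hg ?_
    refine hKcop.coprime_dvd_left ?_
    apply orderOf_dvd_of_pow_eq_one
    have h1 : k ^ Nat.card K = 1 := by
      have : (⟨k, hk⟩ : K) ^ Nat.card K = 1 := pow_card_eq_one'
      exact congrArg Subtype.val this
    have h2 : (g⁻¹ * k * g) ^ Nat.card K = g⁻¹ * k ^ Nat.card K * g := by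
      have := conj_pow (a := g⁻¹) (b := k) (i := Nat.card K)
      simpa using this
    rw [h2, h1]; group
  -- non-identity elements of `K` lie in conjugates of `H`
  have hB : ∀ x ∈ K, x ≠ 1 → ∃ g : G, g⁻¹ * x * g ∈ H := by
    intro x hx hx1
    have hord1 : orderOf x ≠ 1 := fun h => hx1 (orderOf_eq_one_iff.mp h)
    have hord0 : orderOf x ≠ 0 := (orderOf_pos x).ne'
    set q := (orderOf x).minFac with hq
    have hqp : q.Prime := Nat.minFac_prime hord1
    haveI : Fact q.Prime := ⟨hqp⟩
    have hqx : q ∣ orderOf x := Nat.minFac_dvd _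
    set y := x ^ (orderOf x / q) with hy
    have hyo : orderOf y = q := orderOf_pow_orderOf_div hord0 hqx
    have hy1 : y ≠ 1 := by
      intro h
      rw [h, orderOf_one] at hyo
      exact hqp.one_lt.ne hyo
    have hqK : q ∣ Nat.card K := by
      refine hqx.trans ?_
      have : orderOf (⟨x, hx⟩ : K) ∣ Nat.card K := orderOf_dvd_natCard _
      simpa using this
    have hqH : q ∣ Nat.card H := hK q hqp hqK
    have hnd : ¬ q ∣ Nat.card (G ⧸ H) := by
      rw [← Subgroup.index_eq_card]
      intro h3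
      have h4 : q ∣ Nat.gcd (Nat.card H) H.index := Nat.dvd_gcd hqH h3
      rw [hHall] at h4
      exact hqp.one_lt.ne' (Nat.dvd_one.mp h4)
    have hpg : IsPGroup q (zpowers y) := by
      apply IsPGroup.of_card (n := 1)
      rw [Nat.card_zpowers, hyo, pow_one]
    obtain ⟨ω, hω⟩ := hpg.nonempty_fixed_point_of_prime_not_dvd_card (G ⧸ H) hnd
    obtain ⟨g, rfl⟩ := QuotientGroup.mk_surjective ω
    refine ⟨g, ?_⟩
    have h5 := hω ⟨y, mem_zpowers y⟩
    have h6 : (QuotientGroup.mk (y * g) : G ⧸ H) = QuotientGroup.mk g := h5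
    rw [QuotientGroup.eq] at h6
    have h7 : g⁻¹ * y * g ∈ H := by
      have : g⁻¹ * y * g = ((y * g)⁻¹ * g)⁻¹ := by group
      rw [this]
      exact H.inv_mem h6
    have h8 : g⁻¹ * x * g ∈ N := by
      by_contra hc
      have h9 := hTI (g⁻¹ * x * g) hc (g⁻¹ * y * g) h7 (by
        have hcomm : x * y = y * x := by
          rw [hy, ← pow_succ', ← pow_succ]
        have : (g⁻¹ * x * g) * (g⁻¹ * y * g) * (g⁻¹ * x * g)⁻¹ = g⁻¹ * y * g := by
          calc (g⁻¹ * x * g) * (g⁻¹ * y * g) * (g⁻¹ * x * g)⁻¹ = g⁻¹ * (x * y) * x⁻¹ * g := by group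
            _ = g⁻¹ * (y * x) * x⁻¹ * g := by rw [hcomm]
            _ = g⁻¹ * y * g := by group
        rw [this]
        exact h7)
      apply hy1
      have : y = g * (g⁻¹ * y * g) * g⁻¹ := by group
      rw [this, h9]; group
    exact hA x hx g h8
  -- uniqueness of the conjugate
  have hC : ∀ x : G, x ≠ 1 → ∀ g g' : G, g⁻¹ * x * g ∈ H → g'⁻¹ * x * g' ∈ H → g'⁻¹ * g ∈ N := by
    intro x hx1 g g' h1 h2
    by_contra hc
    have h3 := hTI (g'⁻¹ * g) hc (g⁻¹ * x * g) h1 (by
      have : (g'⁻¹ * g) * (g⁻¹ * x * g) * (g'⁻¹ * g)⁻¹ = g'⁻¹ * x * g' := by group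
      rw [this]
      exact h2)
    apply hx1
    have : x = g * (g⁻¹ * x * g) * g⁻¹ := by group
    rw [this, h3]; group
  -- the action of `K` on the conjugates of `H`
  have hsmul : ∀ (k : K) (g : G), k • (QuotientGroup.mk g : G ⧸ N) = QuotientGroup.mk ((k : G) * g) :=
    fun _ _ => rfl
  have hfix : ∀ (k : K) (g : G), k • (QuotientGroup.mk g : G ⧸ N) = QuotientGroup.mk g ↔
      g⁻¹ * (k : G) * g ∈ N := by
    intro k g
    rw [hsmul, QuotientGroup.eq]
    constructor
    · intro h
      have : g⁻¹ * (k : G) * g = (((k : G) * g)⁻¹ * g)⁻¹ := by group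
      rw [this]
      exact N.inv_mem h
    · intro h
      have : ((k : G) * g)⁻¹ * g = (g⁻¹ * (k : G) * g)⁻¹ := by group
      rw [this]
      exact N.inv_mem h
  have hHN : H ≤ N := le_normalizer
  obtain ⟨ω, hω⟩ := Cfsg.Agent.Lib.Coprime.exists_fixed_of_unique_fix (K := K) (Ω := G ⧸ N) (by
    intro k hk1
    have hk1' : (k : G) ≠ 1 := fun h => hk1 (Subtype.ext h)
    obtain ⟨g, hg⟩ := hB k k.2 hk1'
    refine ⟨QuotientGroup.mk g, (hfix k g).mpr (hHN hg), ?_⟩
    intro ω hω
    obtain ⟨g', rfl⟩ := QuotientGroup.mk_surjective ω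
    have h1 := hA k k.2 g' ((hfix k g').mp hω)
    have h2 := hC k hk1' g' g h1 hg
    exact (QuotientGroup.eq.mpr h2).symm ▸ rfl)
  obtain ⟨g, rfl⟩ := QuotientGroup.mk_surjective ω
  refine ⟨g, fun k hk => ?_⟩
  have h1 := hA k hk g ((hfix ⟨k, hk⟩ g).mp (hω ⟨k, hk⟩))
  exact ⟨_, h1, by simp [mul_assoc]⟩

end Cfsg.Agent.S4116
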