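import Cfsg.Statements.S4117
import Mathlib
import Cfsg.Agent.Lib.GS1.ZCoprime

set_option autoImplicit false
open Cfsg
open scoped commutatorElement

namespace Cfsg.Agent.S4117

/-- Let A be a finite group acting on the finite group G by automorphisms with the orders of A and G coprime, and suppose every Sylow subgroup of G is cyclic. Then the fixed-point subgroup C_G(A) is a Hall subgroup of G (its order is coprime to its index), the subgroup [G, A] generated by the elements g⁻¹·a(g) is cyclic and normal with [G, A] ∩ C_G(A) = 1 and [G, A]·C_G(A) = G. -/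
theorem result {G A : Type*} [Group G] [Finite G] [Group A] [Finite A]
    [MulDistribMulAction A G] (hcop : (Nat.card A).Coprime (Nat.card G))
    (hcyc : ∀ (p : ℕ) [Fact p.Prime] (P : Sylow p G), IsCyclic (P : Subgroup G)) :
    (Nat.card (MulAction.fixedPoints A G : Set G)).Coprime (Nat.card G / Nat.card (MulAction.fixedPoints A G : Set G)) ∧
    IsCyclic (Subgroup.closure {y : G | ∃ (a : A) (g : G), y = g⁻¹ * a • g}) ∧
    (Subgroup.closure {y : G | ∃ (a : A) (g : G), y = g⁻¹ * a • g}).Normal ∧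
    (Subgroup.closure {y : G | ∃ (a : A) (g : G), y = g⁻¹ * a • g} : Set G) ∩ MulAction.fixedPoints A G = {1} ∧
    Subgroup.closure {y : G | ∃ (a : A) (g : G), y = g⁻¹ * a • g} ⊔ Subgroup.closure (MulAction.fixedPoints A G) = ⊤ := by
  classical
  let φ : A →* MulAut G := MulDistribMulAction.toMulAut A G
  have hφ : ∀ (a : A) (g : G), φ a g = a • g := fun _ _ => rfl
  let il : G →* G ⋊[φ] A := SemidirectProduct.inl
  let ir : A →* G ⋊[φ] A := SemidirectProduct.inr
  have hil : Function.Injective il := SemidirectProduct.inl_injective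
  have hir : Function.Injective ir := SemidirectProduct.inr_injective
  have haut : ∀ (a : A) (g : G), il (a • g) = ir a * il g * (ir a)⁻¹ := by
    intro a g
    rw [← map_inv, ← hφ]
    exact SemidirectProduct.inl_aut a g
  haveI : Finite (G ⋊[φ] A) := Finite.of_equiv _ SemidirectProduct.equivProd.symm
  let H : Subgroup (G ⋊[φ] A) := il.range
  let B : Subgroup (G ⋊[φ] A) := ir.range
  have hHn : H.Normal := by
    have : H = (SemidirectProduct.rightHom : G ⋊[φ] A →* A).ker := SemidirectProduct.range_inl_eq_ker_rightHom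
    rw [this]
    infer_instance
  have hcardH : Nat.card H = Nat.card G := Nat.card_congr (MonoidHom.ofInjective hil).toEquiv.symm
  have hcardB : Nat.card B = Nat.card A := Nat.card_congr (MonoidHom.ofInjective hir).toEquiv.symm
  haveI hZG : IsZGroup G := ⟨fun p hp P => by
    haveI := Fact.mk hp
    exact hcyc p P⟩
  haveI hZ : IsZGroup H := IsZGroup.of_injective (f := (MonoidHom.ofInjective hil).symm.toMonoidHom)
    (MonoidHom.ofInjective hil).symm.injective
  have hBH : B ≤ Subgroup.normalizer (H : Set (G ⋊[φ] A)) := by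
    rw [Subgroup.normalizer_eq_top_iff.mpr hHn]
    exact le_top
  have hcop' : (Nat.card B).Coprime (Nat.card H) := by
    rw [hcardB, hcardH]
    exact hcop
  obtain ⟨h1, h2, h3, h4, h5⟩ := Cfsg.Agent.Lib.GS1.zgroup_coprime H B hBH hcop'
  obtain ⟨S, hSd⟩ : ∃ S : Subgroup G, S = Subgroup.closure {y : G | ∃ (a : A) (g : G), y = g⁻¹ * a • g} := ⟨_, rfl⟩
  rw [← hSd]
  have hS : S.map il = ⁅H, B⁆ := by
    apply le_antisymm
    · rw [Subgroup.map_le_iff_le_comap, hSd, Subgroup.closure_le]
      rintro _ ⟨a, g, rfl⟩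
      show il (g⁻¹ * a • g) ∈ ⁅H, B⁆
      have e : il (g⁻¹ * a • g) = ⁅il g⁻¹, ir a⁆ := by
        rw [map_mul, haut, commutatorElement_def, map_inv]
        group
      rw [e]
      exact Subgroup.commutator_mem_commutator ⟨g⁻¹, rfl⟩ ⟨a, rfl⟩
    · rw [Subgroup.commutator_le]
      rintro _ ⟨g, rfl⟩ _ ⟨a, rfl⟩
      have e : ⁅il g, ir a⁆ = il (g⁻¹⁻¹ * a • g⁻¹) := by
        rw [map_mul, haut, commutatorElement_def, map_inv, map_inv]
        group
      rw [e]
      refine ⟨_, ?_, rfl⟩
      rw [hSd]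
      exact Subgroup.subset_closure ⟨a, g⁻¹, rfl⟩
  let F₀ : Subgroup G := FixedPoints.subgroup A G
  have hF₀ : ∀ g, g ∈ F₀ ↔ g ∈ MulAction.fixedPoints A G := fun g => Iff.rfl
  have hcl : Subgroup.closure (MulAction.fixedPoints A G) = F₀ := by
    have : (F₀ : Set G) = MulAction.fixedPoints A G := rfl
    rw [← this, Subgroup.closure_eq]
  have hcardF : Nat.card (MulAction.fixedPoints A G : Set G) = Nat.card F₀ := rfl
  have hC : F₀.map il = H ⊓ Subgroup.centralizer (B : Set (G ⋊[φ] A)) := by
    apply le_antisymm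
    · rintro _ ⟨g, hg, rfl⟩
      refine ⟨⟨g, rfl⟩, ?_⟩
      show il g ∈ Subgroup.centralizer (B : Set (G ⋊[φ] A))
      rw [Subgroup.mem_centralizer_iff]
      rintro _ ⟨a, rfl⟩
      have e1 : a • g = g := hg a
      have e2 := haut a g
      rw [e1] at e2
      calc ir a * il g = (ir a * il g * (ir a)⁻¹) * ir a := by group
        _ = il g * ir a := by rw [← e2]
    · rintro _ ⟨⟨g, rfl⟩, hc⟩
      refine ⟨g, ?_, rfl⟩
      intro a
      apply hil
      rw [haut]
      have := Subgroup.mem_centralizer_iff.mp hc (ir a) ⟨a, rfl⟩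
      rw [this]
      group
  have hcS : Nat.card S = Nat.card ↥⁅H, B⁆ := by
    rw [← hS]
    exact Nat.card_congr (S.equivMapOfInjective il hil).toEquiv
  have hcC : Nat.card F₀ = Nat.card ↥(H ⊓ Subgroup.centralizer (B : Set (G ⋊[φ] A))) := by
    rw [← hC]
    exact Nat.card_congr (F₀.equivMapOfInjective il hil).toEquiv
  have hcG : Nat.card G = Nat.card F₀ * Nat.card S := by
    have h6 := Cfsg.Agent.Lib.Hall.card_sup_of_le_normalizer (P := H ⊓ Subgroup.centralizer (B : Set (G ⋊[φ] A)))
      (Q := ⁅H, B⁆) (inf_le_left.trans h2) (by rw [inf_comm]; exact h3)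
    rw [sup_comm, h4, hcardH] at h6
    rw [h6, hcS, hcC]
  have hF0pos : 0 < Nat.card F₀ := Nat.card_pos
  refine ⟨?_, ?_, ?_, ?_, ?_⟩
  · rw [hcardF, hcG, Nat.mul_div_cancel_left _ hF0pos, hcS, hcC]
    exact h5.symm
  · rw [← hS] at h1
    exact isCyclic_of_surjective _ (S.equivMapOfInjective il hil).symm.surjective
  · constructor
    intro y hy g
    have h7 : il y ∈ S.map il := ⟨y, hy, rfl⟩
    rw [hS] at h7
    have h8 := (Subgroup.mem_normalizer_iff.mp (h2 (⟨g, rfl⟩ : il g ∈ H)) _).mp h7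
    rw [← hS] at h8
    obtain ⟨w, hw, hwe⟩ := h8
    have : w = g * y * g⁻¹ := hil (by rw [hwe]; simp)
    rwa [this] at hw
  · ext x
    constructor
    · rintro ⟨hx1, hx2⟩
      have h7 : il x ∈ ⁅H, B⁆ ⊓ (H ⊓ Subgroup.centralizer (B : Set (G ⋊[φ] A))) := by
        refine ⟨?_, ?_⟩
        · rw [← hS]
          exact ⟨x, hx1, rfl⟩
        · rw [← hC]
          exact ⟨x, hx2, rfl⟩
      rw [h3, Subgroup.mem_bot] at h7
      exact hil (by rw [h7, map_one])
    · rintro rfl
      exact ⟨one_mem _, one_mem F₀⟩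
  · rw [hcl]
    apply Subgroup.map_injective hil
    rw [Subgroup.map_sup, hS, hC, h4]
    exact (MonoidHom.range_eq_map il)

end Cfsg.Agent.S4117
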