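import Cfsg.Statements.S4126
import Mathlib
import Cfsg.Agent.Lib.Cl.CritExp

set_option autoImplicit false
open Cfsg

namespace Cfsg.Agent.S4126

/-- Let G be a finite group and p a prime. Suppose every element of order p, and when p = 2 also every element of order 4, has a conjugacy class of p-power size. Then G has a normal p-complement. -/
theorem result {G : Type*} [Group G] [Finite G] (p : ℕ) [Fact p.Prime]
    (h : ∀ x : G, (orderOf x = p ∨ (p = 2 ∧ orderOf x = 4)) → ∃ a : ℕ, (Subgroup.centralizer ({x} : Set G)).index = p ^ a) :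
    Cfsg.HasNormalPComplement p G := by
  classical
  obtain ⟨P⟩ : Nonempty (Sylow p G) := inferInstance
  have hF : Cfsg.Agent.Lib.Transfer.FrobeniusHyp p (P : Subgroup G) := by
    intro Q hQ g hg hgc
    have hQp : IsPGroup p Q := P.2.to_le hQ
    set a : MulAut Q := Q.normalizerMonoidHom ⟨g, hg⟩ with ha_def
    have ha : (orderOf a).Coprime p := by
      have h1 := orderOf_map_dvd Q.normalizerMonoidHom ⟨g, hg⟩
      rw [Subgroup.orderOf_mk] at h1
      exact Nat.Coprime.coprime_dvd_left h1 hgc
    have hcoe : ∀ x : Q, (a x : G) = g * x * g⁻¹ := fun x => rfl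
    have ha1 : a = 1 := by
      refine Cfsg.Agent.Lib.Cl.CritExp.eq_one_of_fix_exp hQp a ha ?_
      intro W hWinv hWexp x hx
      have hgood : ∀ w ∈ W.map Q.subtype, Cfsg.Agent.Lib.Cl.CritExp.Good p w := by
        rintro _ ⟨z, hz, rfl⟩
        have hze : (z : G) ^ (p ^ Cfsg.Agent.Lib.Cl.CritExp.expE p) = 1 := by
          have := congrArg Subtype.val (hWexp z hz)
          simpa using this
        obtain ⟨j, hj, hord⟩ := (Nat.dvd_prime_pow (Fact.out : p.Prime)).1 (orderOf_dvd_of_pow_eq_one hze)
        refine ⟨⟨j, hord⟩, ?_⟩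
        show ∃ e, (Subgroup.centralizer ({(z : G)} : Set G)).index = p ^ e
        rcases j with _ | _ | j
        · have hz1 : (z : G) = 1 := orderOf_eq_one_iff.1 (by simpa using hord)
          refine ⟨0, ?_⟩
          rw [hz1]
          simp
        · exact h _ (Or.inl (by simpa using hord))
        · have hp2 : p = 2 := by
            by_contra hne
            simp [Cfsg.Agent.Lib.Cl.CritExp.expE, hne] at hj
          subst hp2
          have hj0 : j = 0 := by
            simp [Cfsg.Agent.Lib.Cl.CritExp.expE] at hj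
            omega
          subst hj0
          exact h _ (Or.inr ⟨rfl, by simpa using hord⟩)
      have h1 := Cfsg.Agent.Lib.Cl.CritExp.centralizes_of_good g hgc (W.map Q.subtype)
        (by
          rintro _ ⟨z, hz, rfl⟩
          exact ⟨a z, hWinv z hz, rfl⟩) hgood (x : G) ⟨x, hx, rfl⟩
      exact Subtype.ext h1
    have h2 : (⟨g, hg⟩ : Subgroup.normalizer (Q : Set G)) ∈ Q.normalizerMonoidHom.ker := ha1
    rw [Subgroup.normalizerMonoidHom_ker] at h2
    exact h2
  obtain ⟨N, hN, hc⟩ := Cfsg.Agent.Lib.Transfer.frobenius P hF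
  exact ⟨P, N, hN, hc⟩


end Cfsg.Agent.S4126
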