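import Cfsg.Statements.S4138
import Mathlib
import Cfsg.Agent.Lib.TopClass.Final
import Cfsg.Agent.Lib.ClassSizes.Basic

set_option autoImplicit false
open Cfsg

namespace Cfsg.Agent.S4138


open Cfsg.Agent.Lib.TopClass
open scoped Pointwise

theorem mk_mem_map_iff {G : Type*} [Group G] {D : Subgroup G} (hD : Subgroup.center G ≤ D) {g : G} :
    ((g : G) : G ⧸ Subgroup.center G) ∈ D.map (QuotientGroup.mk' (Subgroup.center G)) ↔ g ∈ D := by
  constructor
  · rintro ⟨d, hd, hdg⟩
    have h1 : ((d : G) : G ⧸ Subgroup.center G) = (g : G ⧸ Subgroup.center G) := hdg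
    rw [QuotientGroup.eq] at h1
    have h2 := D.mul_mem hd (hD h1)
    simpa using h2
  · intro h
    exact ⟨g, h, rfl⟩


/-- Let G be a finite group whose two largest conjugacy class sizes m > n > 1 are coprime, and let x, y ∈ G have classes of sizes n and m respectively. Then C_G(x) and C_G(y) are abelian, and G/Z(G) is a Frobenius group with kernel C_G(x)/Z(G) and complement C_G(y)/Z(G). -/
theorem result {G : Type*} [Group G] [Finite G] (m n : ℕ) (hmn : n < m) (hn : 1 < n)
    (hcop : m.Coprime n) (htop : ∀ z : G, (Subgroup.centralizer ({z} : Set G)).index ≤ m) (hsecond : ∀ z : G, (Subgroup.centralizer ({z} : Set G)).index < m → (Subgroup.centralizer ({z} : Set G)).index ≤ n)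
    (x y : G) (hx : (Subgroup.centralizer ({x} : Set G)).index = n) (hy : (Subgroup.centralizer ({y} : Set G)).index = m) :
    IsMulCommutative (Subgroup.centralizer ({x} : Set G)) ∧ IsMulCommutative (Subgroup.centralizer ({y} : Set G)) ∧
    Cfsg.IsFrobeniusComplement ((Subgroup.centralizer ({y} : Set G)).map (QuotientGroup.mk' (Subgroup.center G))) ∧
    Cfsg.frobeniusKernel ((Subgroup.centralizer ({y} : Set G)).map (QuotientGroup.mk' (Subgroup.center G))) =
      ((Subgroup.centralizer ({x} : Set G)).map (QuotientGroup.mk' (Subgroup.center G)) : Set (G ⧸ Subgroup.center G)) := by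
  have T : Top m n x y := ⟨hmn, hn, hcop, htop, hsecond, hx, hy⟩
  classical
  set π := QuotientGroup.mk' (Subgroup.center G) with hπ
  have hZx : Subgroup.center G ≤ Cn x := center_le_Cn x
  have hZy : Subgroup.center G ≤ Cn y := center_le_Cn y
  haveI hHn : (Cn x).Normal := T.Cn_normal T.hx
  have hcc : (Cn x).index.Coprime (Cn y).index := by
    show (cl x).Coprime (cl y)
    rw [T.hx, T.hy]; exact T.hcop.symm
  have hxy := T.inf_eq_center T.hx T.hy
  have hmk : ∀ (D : Subgroup G), Subgroup.center G ≤ D → ∀ (g : G), π g ∈ D.map π ↔ g ∈ D :=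
    fun D hD g => mk_mem_map_iff hD
  have hsurj : Function.Surjective π := QuotientGroup.mk'_surjective _
  have hker : ∀ g : G, π g = 1 ↔ g ∈ Subgroup.center G := fun g => QuotientGroup.eq_one_iff g
  -- the action on the kernel
  have hconjmem : ∀ (D : Subgroup G), Subgroup.center G ≤ D → ∀ g u : G,
      π u ∈ MulAut.conj (π g) • D.map π ↔ g⁻¹ * u * g ∈ D := by
    intro D hD g u
    rw [Cfsg.Agent.Lib.ClassSizes.mem_conj_smul_iff]
    have h1 : (π g)⁻¹ * π u * π g = π (g⁻¹ * u * g) := by simp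
    rw [h1]
    exact hmk D hD _
  refine ⟨⟨⟨?_⟩⟩, ⟨⟨?_⟩⟩, ⟨?_, ?_, ?_⟩, ?_⟩
  · rintro ⟨a, ha⟩ ⟨b, hb⟩
    apply Subtype.ext
    exact mem_Cn.mp (T.le_Cn_of_mem_N T.hx hb ha)
  · rintro ⟨a, ha⟩ ⟨b, hb⟩
    apply Subtype.ext
    exact mem_Cn.mp (T.le_Cn_of_mem_M T.hy hb ha)
  · -- not trivial
    intro h
    have h1 : Cn y ≤ Subgroup.center G := by
      intro j hj
      have h2 : π j ∈ (Cn y).map π := ⟨j, hj, rfl⟩
      rw [h, Subgroup.mem_bot] at h2
      exact (hker j).mp h2
    have h2 := T.relIndex_center_M T.hy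
    rw [Subgroup.relIndex_eq_one.mpr h1] at h2
    omega
  · -- not everything
    intro h
    have h1 : Cn y = ⊤ := by
      rw [eq_top_iff]
      intro g _
      have h2 : π g ∈ (Cn y).map π := by rw [h]; trivial
      exact (hmk _ hZy _).mp h2
    have h2 : (Cn y).index = m := T.hy
    rw [h1, Subgroup.index_top] at h2
    omega
  · -- trivial intersections
    intro gt hgt
    obtain ⟨g, rfl⟩ := hsurj gt
    have hg : g ∉ Cn y := fun h => hgt ((hmk _ hZy _).mpr h)
    rw [eq_bot_iff]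
    rintro vt ⟨hv1, hv2⟩
    obtain ⟨v, hv, rfl⟩ := hv1
    replace hv2 : π v ∈ MulAut.conj (π g) • (Cn y).map π := hv2
    rw [hconjmem _ hZy] at hv2
    rw [Subgroup.mem_bot, hker]
    by_contra hvz
    obtain ⟨t, ht, j, hj, rfl⟩ := exists_mul_of_coprime hcc g
    set w := j * ((t * j)⁻¹ * v * (t * j)) * j⁻¹ with hw
    have hwy : w ∈ Cn y := (Cn y).mul_mem ((Cn y).mul_mem hj hv2) ((Cn y).inv_mem hj)
    have htw : t * w * t⁻¹ = v := by rw [hw]; group
    have hζy : t * w * t⁻¹ * w⁻¹ ∈ Cn y := by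
      rw [htw]
      exact (Cn y).mul_mem hv ((Cn y).inv_mem hwy)
    have hζx : t * w * t⁻¹ * w⁻¹ ∈ Cn x := by
      have h2 : t * w * t⁻¹ * w⁻¹ = t * (w * t⁻¹ * w⁻¹) := by group
      rw [h2]
      exact (Cn x).mul_mem ht (hHn.conj_mem _ ((Cn x).inv_mem ht) w)
    have hζz : t * w * t⁻¹ * w⁻¹ ∈ Subgroup.center G := hxy ▸ ⟨hζx, hζy⟩
    have hwz : w ∉ Subgroup.center G := by
      intro h
      apply hvz
      rw [← htw]
      have h2 := cl_eq_one_iff.mpr h
      rw [← cl_conj t w] at h2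
      exact cl_eq_one_iff.mp h2
    have h3 : w * t * w⁻¹ * t⁻¹ ∈ Subgroup.center G := by
      have h4 := Subgroup.inv_mem _ hζz
      have h5 : (t * w * t⁻¹ * w⁻¹)⁻¹ = w * t * w⁻¹ * t⁻¹ := by group
      rwa [h5] at h4
    have htz := T.fpf T.hx T.hy hwy hwz ht h3
    exact hg ((Cn y).mul_mem (hZy htz) hj)
  · -- the kernel
    ext ut
    obtain ⟨u, rfl⟩ := hsurj ut
    rw [SetLike.mem_coe, hmk _ hZx]
    constructor
    · rintro (h | h)
      · exact hZx ((hker u).mp h)
      · by_contra hux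
        obtain ⟨t, ht, j, hj, rfl⟩ := exists_mul_of_coprime hcc u
        have hjz : j ∉ Subgroup.center G := by
          intro hz
          exact hux ((Cn x).mul_mem ht (hZx hz))
        -- the map on the kernel
        let Ht : Subgroup (G ⧸ Subgroup.center G) := (Cn x).map π
        have hHtn : Ht.Normal := Subgroup.Normal.map hHn π hsurj
        let φ : Ht → Ht := fun c =>
          ⟨(c : G ⧸ Subgroup.center G) * (π j * (c : G ⧸ Subgroup.center G)⁻¹ * (π j)⁻¹),
            Ht.mul_mem c.2 (hHtn.conj_mem _ (Ht.inv_mem c.2) _)⟩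
        have hφ : Function.Injective φ := by
          rintro ⟨c₁, hc₁⟩ ⟨c₂, hc₂⟩ hcc'
          have h1 : c₁ * (π j * c₁⁻¹ * (π j)⁻¹) = c₂ * (π j * c₂⁻¹ * (π j)⁻¹) :=
            congrArg Subtype.val hcc'
          obtain ⟨d₁, hd₁, rfl⟩ := hc₁
          obtain ⟨d₂, hd₂, rfl⟩ := hc₂
          have h2 : π (j * (d₂⁻¹ * d₁) * j⁻¹ * (d₂⁻¹ * d₁)⁻¹) = 1 := by
            simp only [map_mul, map_inv] at h1 ⊢
            have h3 : (π d₂)⁻¹ * (π d₁ * (π j * (π d₁)⁻¹ * (π j)⁻¹)) = π j * (π d₂)⁻¹ * (π j)⁻¹ := by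
              rw [h1]; group
            calc π j * ((π d₂)⁻¹ * π d₁) * (π j)⁻¹ * ((π d₂)⁻¹ * π d₁)⁻¹
                = (π j * (π d₂)⁻¹ * (π j)⁻¹) * (π j * π d₁ * (π j)⁻¹) * (π d₁)⁻¹ * π d₂ := by group
              _ = ((π d₂)⁻¹ * (π d₁ * (π j * (π d₁)⁻¹ * (π j)⁻¹))) * (π j * π d₁ * (π j)⁻¹) * (π d₁)⁻¹ * π d₂ := by
                  rw [h3]
              _ = 1 := by group
          have h4 := T.fpf T.hx T.hy hj hjz ((Cn x).mul_mem ((Cn x).inv_mem hd₂) hd₁) ((hker _).mp h2)
          have h5 : π (d₂⁻¹ * d₁) = 1 := (hker _).mpr h4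
          apply Subtype.ext
          have h6 : π d₂⁻¹ * π d₁ = 1 := by rw [← map_mul]; exact h5
          rw [map_inv] at h6
          exact (inv_mul_eq_one.mp h6).symm
        have hφs := Finite.injective_iff_surjective.mp hφ
        obtain ⟨⟨c, hc⟩, hcφ⟩ := hφs ⟨π t, t, ht, rfl⟩
        have h1 : c * (π j * c⁻¹ * (π j)⁻¹) = π t := congrArg Subtype.val hcφ
        obtain ⟨c₀, hc₀, rfl⟩ := hc
        refine h (π c₀) ?_
        rw [hconjmem _ hZy, ← hmk _ hZy]
        have h2 : π (c₀⁻¹ * (t * j) * c₀) = π j := by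
          simp only [map_mul, map_inv]
          rw [← h1]
          group
        rw [h2]
        exact (hmk _ hZy _).mpr hj
    · intro hux
      by_cases hu1 : π u = 1
      · exact Or.inl hu1
      · refine Or.inr ?_
        intro gt hgt
        obtain ⟨g, rfl⟩ := hsurj gt
        rw [hconjmem _ hZy] at hgt
        have h1 : g⁻¹ * u * g ∈ Cn x := by
          have h2 := hHn.conj_mem _ hux g⁻¹
          rwa [inv_inv] at h2
        have h2 : g⁻¹ * u * g ∈ Subgroup.center G := hxy ▸ ⟨h1, hgt⟩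
        apply hu1
        rw [hker]
        have h3 := cl_eq_one_iff.mpr h2
        have h4 : cl (g⁻¹ * u * g) = cl u := by
          have := cl_conj g⁻¹ u
          rwa [inv_inv] at this
        rw [h4] at h3
        exact cl_eq_one_iff.mp h3

end Cfsg.Agent.S4138
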