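import Cfsg.Statements.S4139
import Mathlib

set_option autoImplicit false
open Cfsg

namespace Cfsg.Agent.S4139

open Subgroup (centralizer center zpowers mem_zpowers)
open scoped Pointwise

section Gen

variable {X : Type*} [Group X] [Finite X]

/-- Class size of an element. -/
noncomputable def cs (x : X) : ℕ := (centralizer ({x} : Set X)).index

theorem card_carrier_cs (g : X) : Nat.card (ConjClasses.mk g).carrier = cs g := by
  have h1 := Subgroup.card_mul_index (MulAction.stabilizer (ConjAct X) g)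
  rw [MulAction.index_stabilizer, ConjAct.orbit_eq_carrier_conjClasses,
    ← Subgroup.nat_card_centralizer_nat_card_stabilizer, ← Nat.card_coe_set_eq] at h1
  have h2 := Subgroup.card_mul_index (centralizer ({g} : Set X))
  have h3 : Nat.card (ConjAct X) = Nat.card X :=
    Nat.card_congr (ConjAct.toConjAct (G := X)).symm.toEquiv
  have hpos : 0 < Nat.card (centralizer ({g} : Set X)) := Nat.card_pos
  rw [cs]
  apply Nat.eq_of_mul_eq_mul_left hpos
  rw [h1, h2, h3]

theorem cs_conj (g x : X) : cs (g * x * g⁻¹) = cs x := by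
  rw [← card_carrier_cs, ← card_carrier_cs]
  have : ConjClasses.mk (g * x * g⁻¹) = ConjClasses.mk x := by
    rw [ConjClasses.mk_eq_mk_iff_isConj]
    exact (isConj_iff.mpr ⟨g, rfl⟩).symm
  rw [this]

/-- The elements with `p`-power class size. -/
def EE (p : ℕ) : Set X := {x | ∃ k : ℕ, cs x = p ^ k}

theorem one_mem_EE (p : ℕ) : (1 : X) ∈ EE p := by
  refine ⟨0, ?_⟩
  rw [pow_zero, cs, Subgroup.index_eq_one]
  ext g
  simp [Subgroup.mem_centralizer_singleton_iff]

theorem exists_stable : ∃ n : ℕ, Subgroup.upperCentralSeries X (n + 1) = Subgroup.upperCentralSeries X n := by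
  obtain ⟨n, hn⟩ := WellFoundedGT.monotone_chain_condition
    (⟨Subgroup.upperCentralSeries X, Subgroup.upperCentralSeries_mono X⟩ : ℕ →o Subgroup X)
  exact ⟨n, (hn (n + 1) (Nat.le_succ n)).symm⟩

theorem isNilpotent_ucs (n : ℕ) : Group.IsNilpotent (Subgroup.upperCentralSeries X n) := by
  rw [Subgroup.nilpotent_iff_finite_ascending_central_series]
  refine ⟨n, fun i => (Subgroup.upperCentralSeries X i).subgroupOf _, ⟨?_, ?_⟩, ?_⟩
  · simp [Subgroup.upperCentralSeries_zero]
  · intro x i hx g
    rw [Subgroup.mem_subgroupOf] at hx ⊢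
    exact Subgroup.mem_upperCentralSeries_succ_iff.mp hx g
  · exact Subgroup.subgroupOf_self _

theorem exists_S (n p : ℕ) [Fact p.Prime] : ∃ S : Subgroup X, S.Normal ∧ IsPGroup p S ∧
    S ≤ Subgroup.upperCentralSeries X n ∧
      ∀ u ∈ Subgroup.upperCentralSeries X n, (∃ k : ℕ, u ^ (p ^ k) = 1) → u ∈ S := by
  have hnil := isNilpotent_ucs (X := X) n
  obtain ⟨S₀⟩ : Nonempty (Sylow p (Subgroup.upperCentralSeries X n)) := inferInstance
  have hnorm : (S₀ : Subgroup (Subgroup.upperCentralSeries X n)).Normal :=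
    (((Group.isNilpotent_of_finite_tfae (G := Subgroup.upperCentralSeries X n)).out 0 3).mp hnil :
      ∀ (p : ℕ) (_hp : Fact p.Prime) (P : Sylow p (Subgroup.upperCentralSeries X n)),
        (↑P : Subgroup (Subgroup.upperCentralSeries X n)).Normal) p inferInstance S₀
  haveI := Sylow.characteristic_of_normal S₀ hnorm
  refine ⟨(S₀ : Subgroup (Subgroup.upperCentralSeries X n)).map (Subgroup.upperCentralSeries X n).subtype,
    inferInstance, S₀.2.map _, Subgroup.map_subtype_le _, ?_⟩
  rintro u hu ⟨k, hk⟩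
  have hpg : IsPGroup p (zpowers (⟨u, hu⟩ : Subgroup.upperCentralSeries X n)) := by
    rintro ⟨y, hy⟩
    obtain ⟨j, rfl⟩ := Subgroup.mem_zpowers_iff.mp hy
    refine ⟨k, ?_⟩
    ext
    have h0 : ((⟨u, hu⟩ : Subgroup.upperCentralSeries X n)) ^ (p ^ k) = 1 := by
      ext
      simpa using hk
    simp only [SubmonoidClass.mk_pow, OneMemClass.coe_one]
    rw [← zpow_natCast, ← zpow_mul, mul_comm, zpow_mul, zpow_natCast, h0, one_zpow]
    simp
  obtain ⟨Q, hQ⟩ := hpg.exists_le_sylow
  have hQS : Q = S₀ := by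
    haveI := Sylow.unique_of_normal S₀ hnorm
    exact Subsingleton.elim _ _
  subst hQS
  exact ⟨⟨u, hu⟩, hQ (mem_zpowers _), rfl⟩

theorem comm_S {p : ℕ} {S : Subgroup X} [hS : S.Normal] (hp : IsPGroup p S) {w : X} {m : ℕ}
    (hw : w ^ m = 1) (hm : m.Coprime p) :
    ∀ i : ℕ, ∀ s ∈ S, s ∈ Subgroup.upperCentralSeries X i → w * s = s * w := by
  intro i
  induction i with
  | zero =>
    intro s _ hs
    have h0 : s = 1 := by simpa [Subgroup.upperCentralSeries_zero] using hs
    simp [h0]
  | succ i ih =>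
    intro s hsS hsi
    have h1 := Subgroup.mem_upperCentralSeries_succ_iff.mp hsi w
    set c := s * w * s⁻¹ * w⁻¹ with hc
    have hcS : c ∈ S := by
      have h0 : w * s⁻¹ * w⁻¹ ∈ S := hS.conj_mem _ (S.inv_mem hsS) w
      have h2 : c = s * (w * s⁻¹ * w⁻¹) := by simp [hc, mul_assoc]
      rw [h2]
      exact S.mul_mem hsS h0
    have hcw : w * c = c * w := ih c hcS h1
    have h3 : w * s⁻¹ * w⁻¹ = s⁻¹ * c := by simp [hc, mul_assoc]
    have h4 : ∀ k : ℕ, w ^ k * s⁻¹ * (w ^ k)⁻¹ = s⁻¹ * c ^ k := by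
      intro k
      induction k with
      | zero => simp
      | succ k ih' =>
        have hcomm : w * c ^ k * w⁻¹ = c ^ k := by
          have h0 : Commute w (c ^ k) := Commute.pow_right hcw k
          rw [h0.eq]
          simp
        calc w ^ (k + 1) * s⁻¹ * (w ^ (k + 1))⁻¹ = w * (w ^ k * s⁻¹ * (w ^ k)⁻¹) * w⁻¹ := by
              rw [pow_succ']
              group
          _ = w * (s⁻¹ * c ^ k) * w⁻¹ := by rw [ih']
          _ = (w * s⁻¹ * w⁻¹) * (w * c ^ k * w⁻¹) := by group
          _ = s⁻¹ * c * c ^ k := by rw [h3, hcomm]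
          _ = s⁻¹ * c ^ (k + 1) := by rw [pow_succ', mul_assoc]
    have h5 : c ^ m = 1 := by
      have h0 := h4 m
      rw [hw] at h0
      simpa using h0.symm
    obtain ⟨j, hj⟩ := hp ⟨c, hcS⟩
    have hj' : c ^ (p ^ j) = 1 := by simpa using congrArg Subtype.val hj
    have h6 : c = 1 := by
      have hd1 := orderOf_dvd_of_pow_eq_one h5
      have hd2 := orderOf_dvd_of_pow_eq_one hj'
      have h0 : orderOf c ∣ Nat.gcd m (p ^ j) := Nat.dvd_gcd hd1 hd2
      rw [Nat.Coprime.gcd_eq_one (hm.pow_right j)] at h0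
      exact orderOf_eq_one_iff.mp (Nat.dvd_one.mp h0)
    have h7 : s * w * s⁻¹ * w⁻¹ = 1 := h6
    have h8 := mul_inv_eq_one.mp h7
    have h9 := mul_inv_eq_iff_eq_mul.mp h8
    exact h9.symm

theorem exists_decomp (p : ℕ) [hp : Fact p.Prime] (x : X) : ∃ (u y : X) (a m : ℕ), u * y = x ∧
    u ∈ zpowers x ∧ y ∈ zpowers x ∧ u ^ (p ^ a) = 1 ∧ y ^ m = 1 ∧ m.Coprime p := by
  have ho : orderOf x ≠ 0 := (orderOf_pos x).ne'
  set a := (orderOf x).factorization p
  set m := ordCompl[p] (orderOf x)
  have hm : m.Coprime p := (Nat.coprime_ordCompl hp.out ho).symm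
  have hoeq : p ^ a * m = orderOf x := Nat.ordProj_mul_ordCompl_eq_self _ _
  have hg : ((Nat.gcd (p ^ a) m : ℕ) : ℤ) = 1 := by
    rw [Nat.Coprime.gcd_eq_one (Nat.Coprime.pow_left a hm.symm)]
    rfl
  rw [Nat.gcd_eq_gcd_ab] at hg
  set A := Nat.gcdA (p ^ a) m
  set B := Nat.gcdB (p ^ a) m
  have hx1 : x ^ ((p ^ a * m : ℕ) : ℤ) = 1 := by
    rw [zpow_natCast, hoeq, pow_orderOf_eq_one]
  refine ⟨x ^ ((m : ℤ) * B), x ^ (((p ^ a : ℕ) : ℤ) * A), a, m, ?_, ?_, ?_, ?_, ?_, hm⟩
  · rw [← zpow_add]
    have : (m : ℤ) * B + ((p ^ a : ℕ) : ℤ) * A = 1 := by linarith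
    rw [this, zpow_one]
  · exact Subgroup.zpow_mem _ (mem_zpowers x) _
  · exact Subgroup.zpow_mem _ (mem_zpowers x) _
  · rw [← zpow_natCast, ← zpow_mul]
    have : (m : ℤ) * B * ((p ^ a : ℕ) : ℤ) = ((p ^ a * m : ℕ) : ℤ) * B := by
      push_cast
      ring
    rw [this, zpow_mul, hx1, one_zpow]
  · rw [← zpow_natCast, ← zpow_mul]
    have : ((p ^ a : ℕ) : ℤ) * A * (m : ℤ) = ((p ^ a * m : ℕ) : ℤ) * A := by
      push_cast
      ring
    rw [this, zpow_mul, hx1, one_zpow]

theorem cs_mul_central (x : X) {z : X} (hz : z ∈ center X) : cs (x * z) = cs x := by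
  have hz' := Subgroup.mem_center_iff.mp hz
  have : centralizer ({x * z} : Set X) = centralizer ({x} : Set X) := by
    ext g
    rw [Subgroup.mem_centralizer_singleton_iff, Subgroup.mem_centralizer_singleton_iff]
    constructor
    · intro h
      have h1 : g * x * z = x * g * z := by
        calc g * x * z = g * (x * z) := by group
          _ = x * z * g := by rw [h]
          _ = x * (z * g) := by group
          _ = x * (g * z) := by rw [hz' g]
          _ = x * g * z := by group
      exact mul_right_cancel h1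
    · intro h
      calc g * (x * z) = g * x * z := by group
        _ = x * g * z := by rw [h]
        _ = x * (g * z) := by group
        _ = x * (z * g) := by rw [hz' g]
        _ = x * z * g := by group
  rw [cs, cs, this]

section Fixed

variable {p : ℕ} [hp : Fact p.Prime] {S : Subgroup X} [hS : S.Normal]

theorem mul_mem_EE_of_mem_S (hSp : IsPGroup p S) {n : ℕ} (hSN : S ≤ Subgroup.upperCentralSeries X n)
    {x s : X} (hx : x ∈ EE p) (hs : s ∈ S) : x * s ∈ EE p := by
  obtain ⟨k, hk⟩ := hx
  have hne : cs (x * s) ≠ 0 := Subgroup.index_ne_zero_of_finite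
  have huniq : ∀ {d : ℕ}, Nat.Prime d → d ∣ cs (x * s) → d = p := by
    intro q hq hqd
    by_contra hqp
    haveI : Fact q.Prime := ⟨hq⟩
    obtain ⟨Q₀⟩ : Nonempty (Sylow q (centralizer ({x} : Set X))) := inferInstance
    have hQC : (Q₀ : Subgroup (centralizer ({x} : Set X))).map (centralizer ({x} : Set X)).subtype
        ≤ centralizer ({x * s} : Set X) := by
      rintro w ⟨w', hw', rfl⟩
      obtain ⟨j, hj⟩ := Q₀.2 ⟨w', hw'⟩
      have hwj : (w' : X) ^ (q ^ j) = 1 := by
        have := congrArg (fun t => ((t : centralizer ({x} : Set X)) : X)) (congrArg Subtype.val hj)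
        simpa using this
      have hcop : (q ^ j).Coprime p :=
        Nat.Coprime.pow_left _ ((Nat.coprime_primes hq hp.out).mpr hqp)
      have h1 := comm_S hSp hwj hcop n s hs (hSN hs)
      have h2 : (w' : X) * x = x * w' := Subgroup.mem_centralizer_singleton_iff.mp w'.2
      rw [Subgroup.mem_centralizer_singleton_iff]
      change (w' : X) * (x * s) = x * s * w'
      calc (w' : X) * (x * s) = (w' * x) * s := by group
        _ = x * (w' * s) := by rw [h2]; group
        _ = x * (s * w') := by rw [h1]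
        _ = x * s * w' := by group
    have hcardQ : Nat.card ((Q₀ : Subgroup (centralizer ({x} : Set X))).map
        (centralizer ({x} : Set X)).subtype) = q ^ (Nat.card (centralizer ({x} : Set X))).factorization q := by
      rw [Subgroup.card_map_of_injective (Subgroup.subtype_injective _)]
      exact Sylow.card_eq_multiplicity Q₀
    have h1 := Subgroup.card_dvd_of_le hQC
    rw [hcardQ] at h1
    have h2 := (centralizer ({x * s} : Set X)).card_mul_index
    have h3 := (centralizer ({x} : Set X)).card_mul_index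
    set v := (Nat.card (centralizer ({x} : Set X))).factorization q
    have h4 : q ^ (v + 1) ∣ Nat.card X := by
      rw [← h2, pow_succ]
      exact Nat.mul_dvd_mul h1 hqd
    have hk' : (centralizer ({x} : Set X)).index = p ^ k := hk
    rw [← h3, hk'] at h4
    have hcop2 : (q ^ (v + 1)).Coprime (p ^ k) :=
      Nat.Coprime.pow _ _ ((Nat.coprime_primes hq hp.out).mpr hqp)
    have h5 := hcop2.dvd_of_dvd_mul_right h4
    exact Nat.pow_succ_factorization_not_dvd Nat.card_pos.ne' hq h5
  exact ⟨_, Nat.eq_prime_pow_of_unique_prime_dvd hne huniq⟩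

theorem mul_mem_EE_of_mem_T (hSp : IsPGroup p S) {n : ℕ} (hSN : S ≤ Subgroup.upperCentralSeries X n)
    {x t : X} (hx : x ∈ EE p) (ht : t ∈ S ⊔ center X) : x * t ∈ EE p := by
  have h0 := Subgroup.normal_mul S (center X)
  have ht' : t ∈ (S : Set X) * (center X : Set X) := by
    rw [← h0]
    exact ht
  obtain ⟨s, hs, z, hz, rfl⟩ := Set.mem_mul.mp ht'
  rw [← mul_assoc]
  obtain ⟨k, hk⟩ := mul_mem_EE_of_mem_S hSp hSN hx hs
  exact ⟨k, by rw [cs_mul_central _ hz, hk]⟩


theorem pow_of_commutator {A : Type*} [Group A] {q h c : A} (hzq : q * h = c * h * q)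
    (hc : ∀ w, c * w = w * c) : ∀ k : ℕ, q * h ^ k = c ^ k * h ^ k * q := by
  intro k
  induction k with
  | zero => simp
  | succ k ih =>
    calc q * h ^ (k + 1) = (q * h ^ k) * h := by rw [pow_succ, mul_assoc]
      _ = c ^ k * h ^ k * q * h := by rw [ih]
      _ = c ^ k * h ^ k * (q * h) := by group
      _ = c ^ k * h ^ k * (c * h * q) := by rw [hzq]
      _ = c ^ k * (h ^ k * c) * h * q := by group
      _ = c ^ k * (c * h ^ k) * h * q := by rw [hc (h ^ k)]
      _ = c ^ (k + 1) * h ^ (k + 1) * q := by rw [pow_succ c, pow_succ h]; group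

theorem eq_one_of_pow_pow {s : X} {m j : ℕ} (hm : m.Coprime p) (h1 : s ^ m = 1)
    (h2 : s ^ (p ^ j) = 1) : s = 1 := by
  have hd1 := orderOf_dvd_of_pow_eq_one h1
  have hd2 := orderOf_dvd_of_pow_eq_one h2
  have h0 : orderOf s ∣ Nat.gcd m (p ^ j) := Nat.dvd_gcd hd1 hd2
  rw [Nat.Coprime.gcd_eq_one (hm.pow_right j)] at h0
  exact orderOf_eq_one_iff.mp (Nat.dvd_one.mp h0)

theorem key (hSp : IsPGroup p S) {n : ℕ}
    (hstab : Subgroup.upperCentralSeries X (n + 1) = Subgroup.upperCentralSeries X n)
    (hSN : S ≤ Subgroup.upperCentralSeries X n)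
    (hall : ∀ u ∈ Subgroup.upperCentralSeries X n, (∃ k : ℕ, u ^ (p ^ k) = 1) → u ∈ S)
    {x : X} (hx : x ∈ EE p) (hcomm : ∀ g : X, x * g * x⁻¹ * g⁻¹ ∈ S ⊔ center X) :
    x ∈ S ⊔ center X := by
  classical
  have hZN : ∀ z ∈ center X, z ∈ Subgroup.upperCentralSeries X n := by
    intro z hz
    rw [← hstab, Subgroup.mem_upperCentralSeries_succ_iff]
    intro y
    have h0 : z * y * z⁻¹ * y⁻¹ = 1 := by
      rw [← Subgroup.mem_center_iff.mp hz y]
      group
    change z * y * z⁻¹ * y⁻¹ ∈ _
    rw [h0]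
    exact Subgroup.one_mem _
  set ρ : X →* X ⧸ S := QuotientGroup.mk' S with hρ
  have hρker : ∀ y : X, ρ y = 1 ↔ y ∈ S := fun y => QuotientGroup.eq_one_iff y
  have hρsurj : Function.Surjective ρ := QuotientGroup.mk'_surjective S
  have hnoP : ∀ z ∈ center X, ∀ j : ℕ, (ρ z) ^ (p ^ j) = 1 → ρ z = 1 := by
    intro z hz j h
    rw [← map_pow, hρker] at h
    obtain ⟨i, hi⟩ := hSp ⟨_, h⟩
    have hi' : (z ^ (p ^ j)) ^ (p ^ i) = 1 := by simpa using congrArg Subtype.val hi
    rw [hρker]
    apply hall z (hZN z hz)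
    refine ⟨j + i, ?_⟩
    rw [pow_add, pow_mul]
    exact hi'
  have hcenρ : ∀ z ∈ center X, ∀ w : X ⧸ S, ρ z * w = w * ρ z := by
    intro z hz w
    obtain ⟨w', rfl⟩ := hρsurj w
    rw [← map_mul, ← map_mul, Subgroup.mem_center_iff.mp hz w']
  set q := ρ x with hq
  have hcen : ∀ h : X ⧸ S, ∃ z ∈ center X, q * h = ρ z * h * q := by
    intro h
    obtain ⟨g, rfl⟩ := hρsurj h
    have h0 := hcomm g
    have h1 : x * g * x⁻¹ * g⁻¹ ∈ (S : Set X) * (center X : Set X) := by
      rw [← Subgroup.normal_mul S (center X)]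
      exact h0
    obtain ⟨s, hs, z, hz, hsz⟩ := Set.mem_mul.mp h1
    refine ⟨z, hz, ?_⟩
    have h2 : ρ s = 1 := (hρker s).mpr hs
    have h3 : q * ρ g * q⁻¹ * (ρ g)⁻¹ = ρ z := by
      rw [hq, ← map_inv, ← map_inv, ← map_mul, ← map_mul, ← map_mul, ← hsz, map_mul, h2, one_mul]
    calc q * ρ g = (q * ρ g * q⁻¹ * (ρ g)⁻¹) * ρ g * q := by group
      _ = ρ z * ρ g * q := by rw [h3]
  have hKn : (centralizer ({q} : Set (X ⧸ S))).Normal := by
    refine ⟨fun y hy h => ?_⟩
    rw [Subgroup.mem_centralizer_singleton_iff] at hy ⊢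
    obtain ⟨z, hz, hzq⟩ := hcen h
    have hcw := hcenρ z hz
    set c := ρ z
    have hqeq : q = c * h * q * h⁻¹ := by rw [← hzq]; group
    calc h * y * h⁻¹ * q = h * y * h⁻¹ * (c * h * q * h⁻¹) := by rw [← hqeq]
      _ = (h * y * h⁻¹ * c) * h * q * h⁻¹ := by group
      _ = (c * (h * y * h⁻¹)) * h * q * h⁻¹ := by rw [hcw (h * y * h⁻¹)]
      _ = c * h * (y * q) * h⁻¹ := by group
      _ = c * h * (q * y) * h⁻¹ := by rw [hy]
      _ = (c * h * q) * y * h⁻¹ := by group
      _ = q * h * y * h⁻¹ := by rw [← hzq]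
      _ = q * (h * y * h⁻¹) := by group
  have hstK : ((centralizer ({q} : Set (X ⧸ S))).comap ρ).index =
      (centralizer ({q} : Set (X ⧸ S))).index := Subgroup.index_comap_of_surjective _ hρsurj
  have hC : centralizer ({x} : Set X) ≤ (centralizer ({q} : Set (X ⧸ S))).comap ρ := by
    intro g hg
    rw [Subgroup.mem_comap, Subgroup.mem_centralizer_singleton_iff]
    rw [Subgroup.mem_centralizer_singleton_iff] at hg
    rw [hq, ← map_mul, ← map_mul, hg]
  obtain ⟨k, hk⟩ := hx
  have hdvd : (centralizer ({q} : Set (X ⧸ S))).index ∣ p ^ k := by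
    rw [← hk, ← hstK]
    exact Subgroup.index_dvd_of_le hC
  have hqcen : ∀ h : X ⧸ S, q * h = h * q := by
    intro h
    obtain ⟨z, hz, hzq⟩ := hcen h
    have hcw := hcenρ z hz
    have hpw := pow_of_commutator hzq hcw (centralizer ({q} : Set (X ⧸ S))).index
    have hmem := Subgroup.pow_index_mem (centralizer ({q} : Set (X ⧸ S))) h
    rw [Subgroup.mem_centralizer_singleton_iff] at hmem
    rw [← hmem] at hpw
    have hce : ρ z ^ (centralizer ({q} : Set (X ⧸ S))).index = 1 := by
      have h0 := hpw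
      have h1 : h ^ (centralizer ({q} : Set (X ⧸ S))).index * q =
          1 * (h ^ (centralizer ({q} : Set (X ⧸ S))).index * q) := by rw [one_mul]
      rw [h1, mul_assoc (ρ z ^ _)] at h0
      exact (mul_right_cancel h0).symm
    obtain ⟨d, hd⟩ := hdvd
    have hck : ρ z ^ (p ^ k) = 1 := by rw [hd, pow_mul, hce, one_pow]
    have hc1 := hnoP z hz k hck
    rw [hc1, one_mul] at hzq
    exact hzq
  have hxN : x ∈ Subgroup.upperCentralSeries X n := by
    rw [← hstab, Subgroup.mem_upperCentralSeries_succ_iff]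
    intro g
    apply hSN
    rw [← hρker]
    change ρ (x * g * x⁻¹ * g⁻¹) = 1
    rw [map_mul, map_mul, map_mul, map_inv, map_inv, ← hq, hqcen (ρ g)]
    group
  obtain ⟨u, y, a, m, hxe, hu, hy, hua, hym, hm⟩ := exists_decomp p x
  have huS : u ∈ S := hall u (Subgroup.zpowers_le.mpr hxN hu) ⟨a, hua⟩
  have hρy : ∀ h : X ⧸ S, ρ y * h = h * ρ y := by
    intro h
    obtain ⟨j, rfl⟩ := Subgroup.mem_zpowers_iff.mp hy
    rw [map_zpow, ← hq]
    exact (Commute.zpow_left (hqcen h) j).eq
  have hycen : y ∈ center X := by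
    rw [Subgroup.mem_center_iff]
    intro g
    have hs : y⁻¹ * (g * y * g⁻¹) ∈ S := by
      rw [← hρker, map_mul, map_mul, map_mul, map_inv, map_inv, ← hρy (ρ g)]
      group
    set s := y⁻¹ * (g * y * g⁻¹) with hsdef
    have hcm : y * s = s * y := comm_S hSp hym hm n s hs (hSN hs)
    have e1 : g * y * g⁻¹ = y * s := by rw [hsdef]; group
    have e2 : (g * y * g⁻¹) ^ m = 1 := by rw [conj_pow, hym]; group
    have e3 : s ^ m = 1 := by
      rw [e1, (show Commute y s from hcm).mul_pow, hym, one_mul] at e2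
      exact e2
    obtain ⟨j, hj⟩ := hSp ⟨s, hs⟩
    have hj' : s ^ (p ^ j) = 1 := by simpa using congrArg Subtype.val hj
    have hs1 : s = 1 := eq_one_of_pow_pow hm e3 hj'
    rw [hs1, mul_one] at e1
    exact mul_inv_eq_iff_eq_mul.mp e1
  rw [← hxe]
  exact Subgroup.mul_mem_sup huS hycen

theorem card_T : Nat.card (S ⊔ center X : Subgroup X) = Nat.card S * S.relIndex (center X) := by
  have h1 : S.relIndex (S ⊔ center X) = S.relIndex (center X) := Subgroup.relIndex_sup_left _ _
  rw [← h1, Subgroup.relIndex]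
  have h2 := Subgroup.card_mul_index (S.subgroupOf (S ⊔ center X))
  have h3 : Nat.card (S.subgroupOf (S ⊔ center X)) = Nat.card S :=
    Nat.card_congr (Subgroup.subgroupOfEquivOfLe le_sup_left).toEquiv
  rw [h3] at h2
  exact h2.symm

theorem relIndex_eq (hSp : IsPGroup p S)
    (hallZ : ∀ z ∈ center X, (∃ k : ℕ, z ^ (p ^ k) = 1) → z ∈ S) :
    S.relIndex (center X) = ordCompl[p] (Nat.card (center X)) := by
  have hWp : IsPGroup p (S.subgroupOf (center X)) := by
    rintro ⟨w, hw⟩
    obtain ⟨k, hk⟩ := hSp ⟨(w : X), Subgroup.mem_subgroupOf.mp hw⟩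
    refine ⟨k, ?_⟩
    ext
    simpa using congrArg Subtype.val hk
  obtain ⟨i, hi⟩ := IsPGroup.iff_card.mp hWp
  obtain ⟨Q⟩ : Nonempty (Sylow p (center X)) := inferInstance
  have hQW : (Q : Subgroup (center X)) ≤ S.subgroupOf (center X) := by
    intro w hw
    rw [Subgroup.mem_subgroupOf]
    obtain ⟨k, hk⟩ := Q.2 ⟨w, hw⟩
    exact hallZ w w.2 ⟨k, by simpa using congrArg (fun t => ((t : center X) : X)) (congrArg Subtype.val hk)⟩
  have hnd : ¬ p ∣ (S.subgroupOf (center X)).index := fun h =>
    Q.not_dvd_index (h.trans (Subgroup.index_dvd_of_le hQW))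
  have h1 := (S.subgroupOf (center X)).card_mul_index
  rw [hi] at h1
  rw [← h1, Nat.ordCompl_self_pow_mul _ _ (Fact.out : p.Prime), Subgroup.relIndex]
  exact ((Nat.ordCompl_eq_self_iff_zero_or_not_dvd _ (Fact.out : p.Prime)).mpr (Or.inr hnd)).symm

theorem main_G (P : Sylow p X) (hSp : IsPGroup p S) {n : ℕ}
    (hstab : Subgroup.upperCentralSeries X (n + 1) = Subgroup.upperCentralSeries X n)
    (hSN : S ≤ Subgroup.upperCentralSeries X n)
    (hall : ∀ u ∈ Subgroup.upperCentralSeries X n, (∃ k : ℕ, u ^ (p ^ k) = 1) → u ∈ S)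
    (hE : Nat.card (EE p : Set X) = Nat.card P * S.relIndex (center X)) :
    Nat.card S = Nat.card P := by
  classical
  set T : Subgroup X := S ⊔ center X with hT
  haveI hTn : T.Normal := Subgroup.sup_normal S (center X)
  set π : X →* X ⧸ T := QuotientGroup.mk' T with hπ
  have hπker : ∀ y : X, π y = 1 ↔ y ∈ T := fun y => QuotientGroup.eq_one_iff y
  -- the image of `EE p`
  let E' : Type _ := {a : X ⧸ T // ∃ x ∈ (EE p : Set X), π x = a}
  have hcard : Nat.card (EE p : Set X) = Nat.card E' * Nat.card T := by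
    rw [← Nat.card_prod]
    refine Nat.card_congr ?_
    refine
      { toFun := fun e => (⟨π e.1, e.1, e.2, rfl⟩, ⟨(Quotient.out (π e.1))⁻¹ * e.1, ?_⟩)
        invFun := fun a => ⟨Quotient.out a.1.1 * a.2.1, ?_⟩
        left_inv := ?_
        right_inv := ?_ }
    · have h0 : (QuotientGroup.mk (Quotient.out (π e.1)) : X ⧸ T) = QuotientGroup.mk e.1 :=
        QuotientGroup.out_eq' _
      exact QuotientGroup.eq.mp h0
    · obtain ⟨⟨a, x, hx, hxa⟩, t, ht⟩ := a
      have h0 : (QuotientGroup.mk x : X ⧸ T) = QuotientGroup.mk (Quotient.out a) := by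
        rw [QuotientGroup.out_eq']
        exact hxa
      have h1 : x⁻¹ * Quotient.out a ∈ T := QuotientGroup.eq.mp h0
      have h2 : Quotient.out a * t = x * (x⁻¹ * Quotient.out a * t) := by group
      change Quotient.out a * t ∈ EE p
      rw [h2]
      exact mul_mem_EE_of_mem_T hSp hSN hx (T.mul_mem h1 ht)
    · intro e
      ext
      simp
    · rintro ⟨⟨a, ha⟩, t, ht⟩
      have h0 : π (Quotient.out a) = a := QuotientGroup.out_eq' _
      have h1 : π t = 1 := (hπker t).mpr ht
      ext
      · simp [h0, h1]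
      · simp [h0, h1]
  have hTc : Nat.card T = Nat.card S * S.relIndex (center X) := card_T
  have hb : S.relIndex (center X) ≠ 0 := by
    rw [Subgroup.relIndex]
    exact Subgroup.index_ne_zero_of_finite
  have hPeq : Nat.card P = Nat.card E' * Nat.card S := by
    apply Nat.eq_of_mul_eq_mul_right (Nat.pos_of_ne_zero hb)
    rw [← hE, hcard, hTc, mul_assoc]
  have hclosed : ∀ (g : X) (a : E'), ∃ x ∈ (EE p : Set X), π x = π g * a.1 * (π g)⁻¹ := by
    rintro g ⟨a, x, ⟨k, hk⟩, rfl⟩
    exact ⟨g * x * g⁻¹, ⟨k, by rw [cs_conj, hk]⟩, by simp⟩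
  letI act : MulAction P E' :=
    { smul := fun g a => ⟨π g.1 * a.1 * (π g.1)⁻¹, hclosed g.1 a⟩
      one_smul := fun a => Subtype.ext (by
        change π ((1 : P) : X) * a.1 * (π ((1 : P) : X))⁻¹ = a.1
        simp)
      mul_smul := fun g h a => Subtype.ext (by
        change π ((g * h : P) : X) * a.1 * (π ((g * h : P) : X))⁻¹ =
          π g.1 * (π h.1 * a.1 * (π h.1)⁻¹) * (π g.1)⁻¹
        rw [Subgroup.coe_mul, map_mul]
        group) }
  let a₀ : E' := ⟨1, 1, one_mem_EE p, map_one π⟩
  have ha₀ : a₀ ∈ MulAction.fixedPoints P E' := by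
    intro g
    apply Subtype.ext
    change π g.1 * 1 * (π g.1)⁻¹ = 1
    simp
  have hnd : ¬ p ∣ Nat.card E' := by
    intro hpd
    obtain ⟨b, hb', hne⟩ := P.2.exists_fixed_point_of_prime_dvd_card_of_fixed_point E' hpd ha₀
    obtain ⟨b, x, hx, rfl⟩ := b
    apply hne
    have hfix : ∀ g ∈ (P : Subgroup X), π g * π x * (π g)⁻¹ = π x := by
      intro g hg
      exact congrArg Subtype.val (hb' ⟨g, hg⟩)
    have h1 : (P : Subgroup X) ≤ (centralizer ({π x} : Set (X ⧸ T))).comap π := by
      intro g hg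
      rw [Subgroup.mem_comap, Subgroup.mem_centralizer_singleton_iff]
      exact mul_inv_eq_iff_eq_mul.mp (hfix g hg)
    have h2 : centralizer ({x} : Set X) ≤ (centralizer ({π x} : Set (X ⧸ T))).comap π := by
      intro g hg
      rw [Subgroup.mem_comap, Subgroup.mem_centralizer_singleton_iff]
      rw [Subgroup.mem_centralizer_singleton_iff] at hg
      rw [← map_mul, ← map_mul, hg]
    have hx' := hx
    obtain ⟨k, hk⟩ := hx'
    have h3 : ((centralizer ({π x} : Set (X ⧸ T))).comap π).index ∣ p ^ k := by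
      rw [← hk]
      exact Subgroup.index_dvd_of_le h2
    have h4 : ¬ p ∣ ((centralizer ({π x} : Set (X ⧸ T))).comap π).index := fun h =>
      P.not_dvd_index (h.trans (Subgroup.index_dvd_of_le h1))
    have h5 : ((centralizer ({π x} : Set (X ⧸ T))).comap π).index = 1 := by
      obtain ⟨i, _, hi'⟩ := (Nat.dvd_prime_pow hp.out).mp h3
      rcases i with _ | i
      · simpa using hi'
      · exact absurd (by rw [hi', pow_succ]; exact Nat.dvd_mul_left _ _) h4
    have h6 := Subgroup.index_eq_one.mp h5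
    have hcomm : ∀ g : X, x * g * x⁻¹ * g⁻¹ ∈ S ⊔ center X := by
      intro g
      rw [← hT, ← hπker]
      have hg : g ∈ (centralizer ({π x} : Set (X ⧸ T))).comap π := by rw [h6]; exact Subgroup.mem_top g
      rw [Subgroup.mem_comap, Subgroup.mem_centralizer_singleton_iff] at hg
      rw [map_mul, map_mul, map_mul, map_inv, map_inv, ← hg]
      group
    have hxT := key hSp hstab hSN hall hx hcomm
    apply Subtype.ext
    exact ((hπker x).mpr hxT).symm
  obtain ⟨v, hv⟩ := IsPGroup.iff_card.mp P.2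
  have hdv : Nat.card E' ∣ p ^ v := by
    rw [← hv, hPeq]
    exact Nat.dvd_mul_right _ _
  have hone : Nat.card E' = 1 := by
    obtain ⟨i, _, hi'⟩ := (Nat.dvd_prime_pow hp.out).mp hdv
    rcases i with _ | i
    · simpa using hi'
    · exact absurd (by rw [hi', pow_succ]; exact Nat.dvd_mul_left _ _) hnd
  rw [hPeq, hone, one_mul]

theorem card_EE_nilp (P : Sylow p X) (hSp : IsPGroup p S) {n : ℕ}
    (htop : Subgroup.upperCentralSeries X n = ⊤)
    (hall : ∀ u : X, (∃ k : ℕ, u ^ (p ^ k) = 1) → u ∈ S) :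
    Nat.card (EE p : Set X) = Nat.card P * S.relIndex (center X) := by
  have hSN : S ≤ Subgroup.upperCentralSeries X n := by rw [htop]; exact le_top
  have hPS : (P : Subgroup X) ≤ S := by
    intro g hg
    obtain ⟨k, hk⟩ := P.2 ⟨g, hg⟩
    exact hall g ⟨k, by simpa using congrArg Subtype.val hk⟩
  have hcS : Nat.card S = Nat.card P := by
    obtain ⟨Q, hQ⟩ := hSp.exists_le_sylow
    have h1 : Nat.card Q = Nat.card P := by
      rw [Sylow.card_eq_multiplicity Q, Sylow.card_eq_multiplicity P]
    exact le_antisymm (h1 ▸ Subgroup.card_le_of_le hQ) (Subgroup.card_le_of_le hPS)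
  have hset : (EE p : Set X) = ((S ⊔ center X : Subgroup X) : Set X) := by
    ext x
    constructor
    · intro hx
      obtain ⟨k, hk⟩ := hx
      obtain ⟨u, y, a, m, hxe, hu, hy, hua, hym, hm⟩ := exists_decomp p x
      have huS : u ∈ S := hall u ⟨a, hua⟩
      have hC : S ≤ centralizer ({y} : Set X) := by
        intro s hs
        rw [Subgroup.mem_centralizer_singleton_iff]
        exact (comm_S hSp hym hm n s hs (hSN hs)).symm
      have hC2 : centralizer ({x} : Set X) ≤ centralizer ({y} : Set X) := by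
        intro g hg
        rw [Subgroup.mem_centralizer_singleton_iff] at hg ⊢
        obtain ⟨j, rfl⟩ := Subgroup.mem_zpowers_iff.mp hy
        exact (Commute.zpow_right (show Commute g x from hg) j).eq
      have h3 : (centralizer ({y} : Set X)).index ∣ p ^ k := by
        rw [← hk]
        exact Subgroup.index_dvd_of_le hC2
      have h4 : ¬ p ∣ (centralizer ({y} : Set X)).index := fun h =>
        P.not_dvd_index (h.trans (Subgroup.index_dvd_of_le (hPS.trans hC)))
      have h5 : (centralizer ({y} : Set X)).index = 1 := by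
        obtain ⟨i, _, hi'⟩ := (Nat.dvd_prime_pow hp.out).mp h3
        rcases i with _ | i
        · simpa using hi'
        · exact absurd (by rw [hi', pow_succ]; exact Nat.dvd_mul_left _ _) h4
      have h6 := Subgroup.index_eq_one.mp h5
      have hycen : y ∈ center X := by
        rw [Subgroup.mem_center_iff]
        intro g
        have hg : g ∈ centralizer ({y} : Set X) := by rw [h6]; exact Subgroup.mem_top g
        exact Subgroup.mem_centralizer_singleton_iff.mp hg
      rw [← hxe]
      exact Subgroup.mul_mem_sup huS hycen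
    · intro hx
      have h0 := mul_mem_EE_of_mem_T hSp hSN (one_mem_EE p) hx
      rwa [one_mul] at h0
  have h0 : Nat.card (EE p : Set X) = Nat.card (S ⊔ center X : Subgroup X) := by
    rw [hset]
    rfl
  rw [h0, card_T, hcS]

end Fixed

theorem fiber_card (k : ℕ) : Nat.card {x : X // cs x = k} =
    k * Nat.card {C : ConjClasses X // Nat.card C.carrier = k} := by
  classical
  haveI := Fintype.ofFinite X
  haveI : Fintype (ConjClasses X) := Fintype.ofFinite _
  have hL : Nat.card {x : X // cs x = k} = (Finset.univ.filter (fun x : X => cs x = k)).card := by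
    rw [Nat.card_eq_fintype_card, Fintype.card_subtype]
  have hR : Nat.card {C : ConjClasses X // Nat.card C.carrier = k} =
      (Finset.univ.filter (fun C : ConjClasses X => Nat.card C.carrier = k)).card := by
    rw [Nat.card_eq_fintype_card, Fintype.card_subtype]
  rw [hL, hR, Finset.card_eq_sum_card_fiberwise (f := ConjClasses.mk)
    (t := Finset.univ.filter (fun C : ConjClasses X => Nat.card C.carrier = k))]
  · have : ∀ C ∈ Finset.univ.filter (fun C : ConjClasses X => Nat.card C.carrier = k),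
        ((Finset.univ.filter (fun x : X => cs x = k)).filter (fun x => ConjClasses.mk x = C)).card = k := by
      intro C hC
      have hC' : Nat.card C.carrier = k := (Finset.mem_filter.mp hC).2
      have h1 : Nat.card C.carrier = Nat.card {x : X // ConjClasses.mk x = C} :=
        Nat.card_congr (Equiv.subtypeEquivRight fun x => ConjClasses.mem_carrier_iff_mk_eq)
      have e1 : ((Finset.univ.filter (fun x : X => cs x = k)).filter
          (fun x => ConjClasses.mk x = C)).card =
          (Finset.univ.filter (fun x : X => ConjClasses.mk x = C)).card := by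
        congr 1
        ext x
        simp only [Finset.mem_filter, Finset.mem_univ, true_and, and_iff_right_iff_imp]
        intro hx
        rw [← card_carrier_cs, hx, hC']
      rw [e1, ← hC', h1, Nat.card_eq_fintype_card, Fintype.card_subtype]
    rw [Finset.sum_congr rfl this, Finset.sum_const, smul_eq_mul, mul_comm]
  · intro x hx
    have hx' : cs x = k := (Finset.mem_filter.mp hx).2
    simp only [Finset.coe_filter, Finset.mem_univ, true_and, Set.mem_setOf_eq]
    rw [card_carrier_cs, hx']

theorem cs_lt {M : ℕ} (hM : Nat.card X < M) (x : X) : cs x < M :=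
  lt_of_le_of_lt (Nat.le_of_dvd Nat.card_pos (Subgroup.index_dvd_card _)) hM

theorem count_A (A : ℕ → Prop) (M : ℕ) (hM : Nat.card X < M) : Nat.card {x : X // A (cs x)} =
    ∑ k ∈ Finset.range M, (open Classical in if A k then
      k * Nat.card {C : ConjClasses X // Nat.card C.carrier = k} else 0) := by
  classical
  haveI := Fintype.ofFinite X
  have hL : Nat.card {x : X // A (cs x)} = (Finset.univ.filter (fun x : X => A (cs x))).card := by
    rw [Nat.card_eq_fintype_card, Fintype.card_subtype]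
  rw [hL, Finset.card_eq_sum_card_fiberwise (f := cs) (t := Finset.range M)]
  · refine Finset.sum_congr rfl fun k _ => ?_
    by_cases hk : A k
    · rw [if_pos hk, ← fiber_card, Nat.card_eq_fintype_card, Fintype.card_subtype]
      congr 1
      ext x
      simp only [Finset.mem_filter, Finset.mem_univ, true_and]
      constructor
      · exact fun h => h.2
      · intro h
        exact ⟨h ▸ hk, h⟩
    · rw [if_neg hk, Finset.card_eq_zero, Finset.filter_eq_empty_iff]
      intro x hx h
      exact hk (h ▸ (Finset.mem_filter.mp hx).2)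
  · intro x _
    simpa using cs_lt hM x

theorem card_center_eq : Nat.card (center X) = Nat.card {x : X // cs x = 1} := by
  refine Nat.card_congr (Equiv.subtypeEquivRight fun x => ?_)
  rw [cs, Subgroup.index_eq_one, Subgroup.mem_center_iff]
  constructor
  · intro h
    ext g
    simp [Subgroup.mem_centralizer_singleton_iff, h g]
  · intro h g
    have hg : g ∈ centralizer ({x} : Set X) := by rw [h]; exact Subgroup.mem_top g
    exact Subgroup.mem_centralizer_singleton_iff.mp hg

theorem center_le_of_stable {n : ℕ}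
    (hstab : Subgroup.upperCentralSeries X (n + 1) = Subgroup.upperCentralSeries X n) :
    center X ≤ Subgroup.upperCentralSeries X n := by
  intro z hz
  rw [← hstab, Subgroup.mem_upperCentralSeries_succ_iff]
  intro y
  have h0 : z * y * z⁻¹ * y⁻¹ = 1 := by
    rw [← Subgroup.mem_center_iff.mp hz y]
    group
  change z * y * z⁻¹ * y⁻¹ ∈ _
  rw [h0]
  exact Subgroup.one_mem _

end Gen

/-- Let G and H be finite groups such that for every natural number k, G and H have the same number of conjugacy classes of size k. If H is nilpotent then G is nilpotent. -/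
theorem result {G H : Type*} [Group G] [Finite G] [Group H] [Finite H]
    (hH : Group.IsNilpotent H)
    (h : ∀ k : ℕ, Nat.card {C : ConjClasses G // Nat.card C.carrier = k} = Nat.card {C : ConjClasses H // Nat.card C.carrier = k}) :
    Group.IsNilpotent G := by
  classical
  have htr : ∀ A : ℕ → Prop, Nat.card {x : G // A (cs x)} = Nat.card {x : H // A (cs x)} := by
    intro A
    rw [count_A A (Nat.card G + Nat.card H + 1) (by omega),
      count_A A (Nat.card G + Nat.card H + 1) (by omega)]
    refine Finset.sum_congr rfl fun k _ => ?_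
    rw [h k]
  have hGH : Nat.card G = Nat.card H := by
    have h0 := htr (fun _ => True)
    exact ((Nat.card_congr (Equiv.subtypeUnivEquiv fun _ => trivial)).symm.trans h0).trans
      (Nat.card_congr (Equiv.subtypeUnivEquiv fun _ => trivial))
  have hZ : Nat.card (center G) = Nat.card (center H) := by
    rw [card_center_eq, card_center_eq]
    exact htr (fun k => k = 1)
  obtain ⟨n, hstab⟩ := exists_stable (X := G)
  suffices htop : Subgroup.upperCentralSeries G n = ⊤ from ⟨⟨n, htop⟩⟩
  rw [← Subgroup.index_eq_one]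
  by_contra hne
  obtain ⟨q, hq, hqd⟩ := Nat.exists_prime_and_dvd hne
  haveI : Fact q.Prime := ⟨hq⟩
  obtain ⟨S, hSn, hSp, hSN, hall⟩ := exists_S (X := G) n q
  haveI := hSn
  obtain ⟨P⟩ : Nonempty (Sylow q G) := inferInstance
  obtain ⟨n', hn'⟩ := hH.nilpotent'
  obtain ⟨S', hS'n, hS'p, hS'N, hall'⟩ := exists_S (X := H) n' q
  haveI := hS'n
  obtain ⟨P'⟩ : Nonempty (Sylow q H) := inferInstance
  have hall'' : ∀ u : H, (∃ k : ℕ, u ^ (q ^ k) = 1) → u ∈ S' := fun u hu =>
    hall' u (by rw [hn']; exact Subgroup.mem_top u) hu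
  have hEH := card_EE_nilp P' hS'p hn' hall''
  have hrG := relIndex_eq (S := S) hSp (fun z hz hk => hall z (center_le_of_stable hstab hz) hk)
  have hrH := relIndex_eq (S := S') hS'p (fun z _ hk => hall'' z hk)
  have hPc : Nat.card P = Nat.card P' := by
    rw [Sylow.card_eq_multiplicity P, Sylow.card_eq_multiplicity P', hGH]
  have hE : Nat.card (EE q : Set G) = Nat.card (EE q : Set H) :=
    htr (fun k => ∃ j : ℕ, k = q ^ j)
  have hfinal : Nat.card S = Nat.card P := main_G P hSp hstab hSN hall (by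
    rw [hE, hEH, hrG, hrH, hPc, hZ])
  have h1 : Nat.card S ∣ Nat.card (Subgroup.upperCentralSeries G n) := Subgroup.card_dvd_of_le hSN
  rw [hfinal, Sylow.card_eq_multiplicity P] at h1
  have h2 := (Subgroup.upperCentralSeries G n).card_mul_index
  have h3 : q ^ ((Nat.card G).factorization q + 1) ∣ Nat.card G := by
    rw [pow_succ]
    conv_rhs => rw [← h2]
    exact Nat.mul_dvd_mul h1 hqd
  exact Nat.pow_succ_factorization_not_dvd Nat.card_pos.ne' hq h3

end Cfsg.Agent.S4139
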