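import Cfsg.Statements.S4142
import Cfsg.Agent.Lib.Coprime.SZ
import Mathlib

set_option autoImplicit false
open Cfsg

namespace Cfsg.Agent.S4142

open Subgroup

theorem key {G : Type*} [Group G] [Finite G] (N : Subgroup G) [hNn : N.Normal] (g : G) :
    (∀ n ∈ N, ∃ x : G, x * g * x⁻¹ = g * n) ↔
      Nat.card (Subgroup.centralizer ({g} : Set G)) =
        Nat.card (Subgroup.centralizer ({(QuotientGroup.mk g : G ⧸ N)} : Set (G ⧸ N))) := by
  classical
  set C := centralizer ({g} : Set G) with hC
  set Cb := centralizer ({(QuotientGroup.mk g : G ⧸ N)} : Set (G ⧸ N)) with hCb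
  set D : Subgroup G := Cb.comap (QuotientGroup.mk' N) with hD
  have hND : N ≤ D := by
    intro x hx
    rw [hD, Subgroup.mem_comap]
    have : QuotientGroup.mk' N x = 1 := (QuotientGroup.eq_one_iff _).mpr hx
    rw [this]
    exact Subgroup.one_mem _
  have hDcard : Nat.card D = Nat.card N * Nat.card Cb := by
    have h0 : D.map (QuotientGroup.mk' N) = Cb :=
      Subgroup.map_comap_eq_self_of_surjective (QuotientGroup.mk'_surjective N) _
    rw [Cfsg.Agent.Lib.Coprime.card_eq_card_map_mk_mul hND, h0]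
  have hmemD : ∀ x : G, x ∈ D ↔ g⁻¹ * (x * g * x⁻¹) ∈ N := by
    intro x
    rw [hD, Subgroup.mem_comap, hCb, Subgroup.mem_centralizer_iff]
    constructor
    · intro h
      have h1 := h _ rfl
      have h2 : (QuotientGroup.mk g * QuotientGroup.mk x : G ⧸ N) = QuotientGroup.mk x * QuotientGroup.mk g := h1
      rw [← QuotientGroup.mk_mul, ← QuotientGroup.mk_mul, QuotientGroup.eq] at h2
      have h3 : g⁻¹ * (x * g * x⁻¹) = x * ((g * x)⁻¹ * (x * g)) * x⁻¹ := by group
      rw [h3]
      exact hNn.conj_mem _ h2 _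
    · intro h y hy
      rw [Set.mem_singleton_iff] at hy
      subst hy
      change (QuotientGroup.mk g * QuotientGroup.mk x : G ⧸ N) = QuotientGroup.mk x * QuotientGroup.mk g
      rw [← QuotientGroup.mk_mul, ← QuotientGroup.mk_mul, QuotientGroup.eq]
      have h3 : (g * x)⁻¹ * (x * g) = x⁻¹ * (g⁻¹ * (x * g * x⁻¹)) * x := by group
      rw [h3]
      have := hNn.conj_mem _ h x⁻¹
      simpa using this
  have hCD : C ≤ D := by
    intro x hx
    rw [hmemD]
    have h1 : g * x = x * g := Subgroup.mem_centralizer_iff.mp hx g rfl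
    have : g⁻¹ * (x * g * x⁻¹) = 1 := by
      rw [← h1]; group
    rw [this]
    exact N.one_mem
  -- the map `D → N`
  let ψ : D → N := fun x => ⟨g⁻¹ * ((x : G) * g * (x : G)⁻¹), (hmemD x).mp x.2⟩
  have hψ : ∀ x y : D, ψ x = ψ y ↔ (x : G)⁻¹ * y ∈ C := by
    intro x y
    constructor
    · intro h
      have h1 : g⁻¹ * ((x : G) * g * (x : G)⁻¹) = g⁻¹ * ((y : G) * g * (y : G)⁻¹) :=
        congrArg Subtype.val h
      have h2 := mul_left_cancel h1
      rw [hC, Subgroup.mem_centralizer_iff]
      intro z hz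
      rw [Set.mem_singleton_iff] at hz
      subst hz
      calc z * ((x : G)⁻¹ * y) = (x : G)⁻¹ * ((x : G) * z * (x : G)⁻¹) * y := by group
        _ = (x : G)⁻¹ * ((y : G) * z * (y : G)⁻¹) * y := by rw [h2]
        _ = _ := by group
    · intro h
      apply Subtype.ext
      have h1 := Subgroup.mem_centralizer_iff.mp h g rfl
      change g⁻¹ * ((x : G) * g * (x : G)⁻¹) = g⁻¹ * ((y : G) * g * (y : G)⁻¹)
      congr 1
      calc (x : G) * g * (x : G)⁻¹ = (x : G) * (g * ((x : G)⁻¹ * y)) * (y : G)⁻¹ := by group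
        _ = (x : G) * (((x : G)⁻¹ * y) * g) * (y : G)⁻¹ := by rw [h1]
        _ = _ := by group
  set C' : Subgroup D := C.subgroupOf D with hC'
  have hC'card : Nat.card C' = Nat.card C := Cfsg.Agent.Lib.Coprime.card_subgroupOf_of_le hCD
  let ψb : D ⧸ C' → N := fun q => q.liftOn' ψ (by
    intro a b hab
    rw [QuotientGroup.leftRel_apply] at hab
    exact (hψ a b).mpr hab)
  have hψb : ∀ x : D, ψb (QuotientGroup.mk x) = ψ x := fun _ => rfl
  have hinj : Function.Injective ψb := by
    intro a b
    obtain ⟨x, rfl⟩ := QuotientGroup.mk_surjective a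
    obtain ⟨y, rfl⟩ := QuotientGroup.mk_surjective b
    intro h
    rw [hψb, hψb] at h
    rw [QuotientGroup.eq]
    exact (hψ x y).mp h
  have hsize : Nat.card (D ⧸ C') * Nat.card C = Nat.card N * Nat.card Cb := by
    rw [← hDcard, ← hC'card, ← Subgroup.index_eq_card, Subgroup.index_mul_card]
  have hCpos : 0 < Nat.card C := Nat.card_pos
  have hNpos : 0 < Nat.card N := Nat.card_pos
  have hCbpos : 0 < Nat.card Cb := Nat.card_pos
  constructor
  · intro h
    -- surjective
    have hsurj : Function.Surjective ψb := by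
      intro n
      obtain ⟨x, hx⟩ := h n n.2
      have hxD : x ∈ D := by
        rw [hmemD]
        have : g⁻¹ * (x * g * x⁻¹) = n := by rw [hx]; group
        rw [this]
        exact n.2
      refine ⟨QuotientGroup.mk ⟨x, hxD⟩, ?_⟩
      rw [hψb]
      apply Subtype.ext
      change g⁻¹ * (x * g * x⁻¹) = n
      rw [hx]; group
    have hcard : Nat.card (D ⧸ C') = Nat.card N := Nat.card_eq_of_bijective ψb ⟨hinj, hsurj⟩
    rw [hcard] at hsize
    exact Nat.eq_of_mul_eq_mul_left hNpos hsize
  · intro h n hn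
    have hcard : Nat.card (D ⧸ C') = Nat.card N := by
      rw [← h] at hsize
      exact Nat.eq_of_mul_eq_mul_right hCpos hsize
    have hbij : Function.Bijective ψb :=
      (Nat.bijective_iff_injective_and_card ψb).mpr ⟨hinj, hcard⟩
    obtain ⟨q, hq⟩ := hbij.2 ⟨n, hn⟩
    obtain ⟨x, rfl⟩ := QuotientGroup.mk_surjective q
    rw [hψb] at hq
    have h1 : g⁻¹ * ((x : G) * g * (x : G)⁻¹) = n := congrArg Subtype.val hq
    refine ⟨x, ?_⟩
    rw [← h1]; group

/-- Let G be a finite group and N a normal subgroup. Then the conjugacy class of every element g outside N is a union of cosets of N (gn is conjugate to g for all n ∈ N) if and only if for every g outside N the centralizer of g in G has the same order as the centralizer of gN in G/N. -/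
theorem result {G : Type*} [Group G] [Finite G] (N : Subgroup G) [N.Normal] :
    (∀ g : G, g ∉ N → ∀ n ∈ N, ∃ x : G, x * g * x⁻¹ = g * n) ↔
      ∀ g : G, g ∉ N → Nat.card (Subgroup.centralizer ({g} : Set G)) =
        Nat.card (Subgroup.centralizer ({(QuotientGroup.mk g : G ⧸ N)} : Set (G ⧸ N))) :=
  forall_congr' fun g => imp_congr_right fun _ => key N g

end Cfsg.Agent.S4142
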