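import Cfsg.Statements.S4146
import Mathlib
import Cfsg.Agent.Lib.FourSizes.Alpha

set_option autoImplicit false
open Cfsg

namespace Cfsg.Agent.S4146

/-- Let G be a finite group whose conjugacy class sizes are exactly 1, n, m and nm for coprime integers n, m > 1. Then G is nilpotent and n and m are prime powers. -/
theorem result {G : Type*} [Group G] [Finite G] (n m : ℕ) (hn : 1 < n) (hm : 1 < m) (hcop : n.Coprime m)
    (h : Set.range (fun x : G => (Subgroup.centralizer ({x} : Set G)).index) = ({1, n, m, n * m} : Set ℕ)) :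
    Group.IsNilpotent G ∧ IsPrimePow n ∧ IsPrimePow m := by
  have hmem : ∀ N : ℕ, N ∈ ({1, n, m, n * m} : Set ℕ) →
      ∃ x : G, (Subgroup.centralizer ({x} : Set G)).index = N := by
    intro N hN
    rw [← h] at hN
    exact hN
  refine Cfsg.Agent.Lib.FourSizes.main (G := G) (n := n) (m := m)
    { hn := hn, hm := hm, hcop := hcop, h := ?_, exn := hmem n (by simp), exm := hmem m (by simp),
      exnm := hmem (n * m) (by simp) }
  intro x
  have h1 : (Subgroup.centralizer ({x} : Set G)).index ∈ ({1, n, m, n * m} : Set ℕ) := by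
    rw [← h]
    exact ⟨x, rfl⟩
  simpa using h1

end Cfsg.Agent.S4146
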