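import Cfsg.Statements.S4152
import Mathlib
import Cfsg.Agent.Lib.Cl.KPi2

set_option autoImplicit false
open Cfsg

namespace Cfsg.Agent.S4152

open Subgroup Cfsg.Agent.Lib.Cl

section
variable {G : Type*} [Group G] [Finite G]

theorem claimB (N : Subgroup G) [N.Normal] (π : Set ℕ) (b : G ⧸ N) [Fintype G] [Fintype N]
    [DecidablePred (IsPi (G := N) π)] (E : Finset G) (hE : ∀ x, x ∈ E ↔ IsPi π x ∧ ((x : G) : G ⧸ N) = b) :
    ∑ x ∈ E, Nat.card ↥(N ⊓ centralizer ({x} : Set G)) ≤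
      Nat.card N * Nat.card {C : ConjClasses N // PiClass π C} := by
  classical
  rw [← sum_centralizer_eq (X := N) π]
  have hdec := fun n : G => exists_decomp_pi n π
  choose Y hYz Z hZz hYZ hY hZ using hdec
  have hex : ∀ u : G, ∃ a : G, (∃ c : G, ((c : G) : G ⧸ N) = b ∧ Commute c u) →
      ((a : G) : G ⧸ N) = b ∧ Commute a u := by
    intro u
    by_cases h : ∃ c : G, ((c : G) : G ⧸ N) = b ∧ Commute c u
    · obtain ⟨c, hc⟩ := h
      exact ⟨c, fun _ => hc⟩
    · exact ⟨1, fun h' => absurd h' h⟩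
  choose x₀ hx₀ using hex
  rw [Finset.sum_subtype E hE (fun x => Nat.card ↥(N ⊓ centralizer ({x} : Set G)))]
  rw [Finset.sum_subtype (Finset.univ.filter (IsPi (G := N) π)) (p := IsPi (G := N) π) (by simp)
    (fun x => Nat.card (centralizer ({x} : Set N)))]
  rw [← Nat.card_sigma, ← Nat.card_sigma]
  -- the map
  let A := Σ x : {x : G // IsPi π x ∧ ((x : G) : G ⧸ N) = b}, ↥(N ⊓ centralizer ({(x : G)} : Set G))
  let B := Σ u : {u : N // IsPi (G := N) π u}, centralizer ({(u : N)} : Set N)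
  have hnN : ∀ a : A, (a.2 : G) ∈ N := fun a => a.2.2.1
  have hnC : ∀ a : A, Commute (a.2 : G) (a.1 : G) := fun a =>
    Subgroup.mem_centralizer_singleton_iff.mp a.2.2.2
  have hYN : ∀ a : A, Y (a.2 : G) ∈ N := fun a =>
    (zpowers_le.mpr (hnN a)) (hYz _)
  have hZN : ∀ a : A, Z (a.2 : G) ∈ N := fun a =>
    (zpowers_le.mpr (hnN a)) (hZz _)
  have hYpi : ∀ a : A, IsPi (G := N) π (⟨Y (a.2 : G), hYN a⟩ : N) := by
    intro a q hq hd
    rw [Subgroup.orderOf_mk] at hd
    exact hY _ q hq hd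
  have hYcomm : ∀ a : A, Commute (a.1 : G) (Y (a.2 : G)) := by
    intro a
    obtain ⟨i, hi⟩ := mem_zpowers_iff.mp (hYz (a.2 : G))
    rw [← hi]
    exact (hnC a).symm.zpow_right i
  have hZcomm : ∀ a : A, Commute (a.1 : G) (Z (a.2 : G)) := by
    intro a
    obtain ⟨i, hi⟩ := mem_zpowers_iff.mp (hZz (a.2 : G))
    rw [← hi]
    exact (hnC a).symm.zpow_right i
  have hYZc : ∀ n : G, Commute (Y n) (Z n) := by
    intro n
    obtain ⟨i, hi⟩ := mem_zpowers_iff.mp (hYz n)
    obtain ⟨j, hj⟩ := mem_zpowers_iff.mp (hZz n)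
    rw [← hi, ← hj]
    exact (Commute.refl n).zpow_zpow i j
  have hx₀spec : ∀ a : A, ((x₀ (Y (a.2 : G)) : G) : G ⧸ N) = b ∧ Commute (x₀ (Y (a.2 : G))) (Y (a.2 : G)) :=
    fun a => hx₀ _ ⟨(a.1 : G), a.1.2.2, hYcomm a⟩
  have hmN : ∀ a : A, (x₀ (Y (a.2 : G)))⁻¹ * (a.1 : G) * Z (a.2 : G) ∈ N := by
    intro a
    refine mul_mem ?_ (hZN a)
    rw [← QuotientGroup.eq, (hx₀spec a).1, a.1.2.2]
  have hmC : ∀ a : A, (⟨(x₀ (Y (a.2 : G)))⁻¹ * (a.1 : G) * Z (a.2 : G), hmN a⟩ : N) ∈
      centralizer ({(⟨Y (a.2 : G), hYN a⟩ : N)} : Set N) := by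
    intro a
    rw [Subgroup.mem_centralizer_singleton_iff]
    apply Subtype.ext
    show (x₀ (Y (a.2 : G)))⁻¹ * (a.1 : G) * Z (a.2 : G) * Y (a.2 : G) =
      Y (a.2 : G) * ((x₀ (Y (a.2 : G)))⁻¹ * (a.1 : G) * Z (a.2 : G))
    have h1 : Commute ((x₀ (Y (a.2 : G)))⁻¹ * (a.1 : G) * Z (a.2 : G)) (Y (a.2 : G)) :=
      (((hx₀spec a).2.inv_left).mul_left (hYcomm a)).mul_left (hYZc _).symm
    exact h1.eq
  let φ : A → B := fun a =>
    ⟨⟨⟨Y (a.2 : G), hYN a⟩, hYpi a⟩, ⟨⟨(x₀ (Y (a.2 : G)))⁻¹ * (a.1 : G) * Z (a.2 : G), hmN a⟩, hmC a⟩⟩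
  have hφ : Function.Injective φ := by
    intro a a' h
    have h1 : Y (a.2 : G) = Y (a'.2 : G) := by
      have := congrArg (fun s : B => ((s.1 : N) : G)) h
      exact this
    have h2 : (x₀ (Y (a.2 : G)))⁻¹ * (a.1 : G) * Z (a.2 : G) =
        (x₀ (Y (a'.2 : G)))⁻¹ * (a'.1 : G) * Z (a'.2 : G) := by
      have := congrArg (fun s : B => (((s.2 : centralizer ({(s.1 : N)} : Set N)) : N) : G)) h
      exact this
    rw [← h1] at h2
    have h3 : (a.1 : G) * Z (a.2 : G) = (a'.1 : G) * Z (a'.2 : G) := by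
      have := mul_left_cancel (a := (x₀ (Y (a.2 : G)))⁻¹)
        (b := (a.1 : G) * Z (a.2 : G)) (c := (a'.1 : G) * Z (a'.2 : G)) (by
          rw [← mul_assoc, ← mul_assoc]; exact h2)
      exact this
    obtain ⟨h4, h5⟩ := pi_unique a.1.2.1 (hZ _) (hZcomm a) a'.1.2.1 (hZ _) (hZcomm a') h3
    have h6 : (a.2 : G) = (a'.2 : G) := by
      rw [hYZ (a.2 : G), hYZ (a'.2 : G), h1, h5]
    obtain ⟨⟨x, hx⟩, ⟨n, hn⟩⟩ := a
    obtain ⟨⟨x', hx'⟩, ⟨n', hn'⟩⟩ := a'
    simp only at h4 h6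
    subst h4
    subst h6
    rfl
  exact Nat.card_le_card_of_injective φ hφ

end

/-- Let G be a finite group, N a normal subgroup and π a set of primes. Then the number of conjugacy classes of π-elements of G (elements whose order is divisible only by primes in π) is at most the number of conjugacy classes of π-elements of N (under conjugation by N) times the number of conjugacy classes of π-elements of G/N. -/
theorem result {G : Type*} [Group G] [Finite G] (N : Subgroup G) [N.Normal] (π : Set ℕ) :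
    Nat.card {C : ConjClasses G // ∀ q : ℕ, q.Prime → (∃ g : G, ConjClasses.mk g = C ∧ q ∣ orderOf g) → q ∈ π} ≤ Nat.card {C : ConjClasses N // ∀ q : ℕ, q.Prime → (∃ g : N, ConjClasses.mk g = C ∧ q ∣ orderOf g) → q ∈ π} * Nat.card {C : ConjClasses (G ⧸ N) // ∀ q : ℕ, q.Prime → (∃ g : (G ⧸ N), ConjClasses.mk g = C ∧ q ∣ orderOf g) → q ∈ π} := by
  classical
  haveI := Fintype.ofFinite G
  haveI := Fintype.ofFinite (G ⧸ N)
  haveI := Fintype.ofFinite N
  change Nat.card {C : ConjClasses G // PiClass π C} ≤ Nat.card {C : ConjClasses N // PiClass π C} *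
    Nat.card {C : ConjClasses (G ⧸ N) // PiClass π C}
  set kG := Nat.card {C : ConjClasses G // PiClass π C} with hkG
  set kN := Nat.card {C : ConjClasses N // PiClass π C} with hkN
  set kQ := Nat.card {C : ConjClasses (G ⧸ N) // PiClass π C} with hkQ
  have h1 := sum_centralizer_eq (X := G) π
  have h2 := sum_centralizer_eq (X := G ⧸ N) π
  rw [← hkG] at h1
  rw [← hkQ] at h2
  have hmaps : ∀ x ∈ Finset.univ.filter (IsPi (G := G) π),
      ((x : G) : G ⧸ N) ∈ Finset.univ.filter (IsPi (G := G ⧸ N) π) := by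
    intro x hx
    refine Finset.mem_filter.mpr ⟨Finset.mem_univ _, fun q hq hd => ?_⟩
    have h3 : orderOf ((x : G) : G ⧸ N) ∣ orderOf x := orderOf_map_dvd (QuotientGroup.mk' N) x
    exact (Finset.mem_filter.mp hx).2 q hq (hd.trans h3)
  have hchain : Nat.card G * kG ≤ (Nat.card N * kN) * (Nat.card (G ⧸ N) * kQ) := by
    rw [← h1, ← h2]
    calc ∑ x ∈ Finset.univ.filter (IsPi (G := G) π), Nat.card (centralizer ({x} : Set G))
        ≤ ∑ x ∈ Finset.univ.filter (IsPi (G := G) π), Nat.card ↥(N ⊓ centralizer ({x} : Set G)) *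
            Nat.card (centralizer ({((x : G) : G ⧸ N)} : Set (G ⧸ N))) :=
          Finset.sum_le_sum (fun x _ => card_centralizer_le N x)
      _ = ∑ b ∈ Finset.univ.filter (IsPi (G := G ⧸ N) π),
            ∑ x ∈ (Finset.univ.filter (IsPi (G := G) π)).filter (fun x => ((x : G) : G ⧸ N) = b),
              Nat.card ↥(N ⊓ centralizer ({x} : Set G)) *
                Nat.card (centralizer ({((x : G) : G ⧸ N)} : Set (G ⧸ N))) :=
          (Finset.sum_fiberwise_of_maps_to hmaps _).symm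
      _ = ∑ b ∈ Finset.univ.filter (IsPi (G := G ⧸ N) π),
            (∑ x ∈ (Finset.univ.filter (IsPi (G := G) π)).filter (fun x => ((x : G) : G ⧸ N) = b),
              Nat.card ↥(N ⊓ centralizer ({x} : Set G))) *
                Nat.card (centralizer ({b} : Set (G ⧸ N))) := by
          apply Finset.sum_congr rfl
          intro b _
          rw [Finset.sum_mul]
          apply Finset.sum_congr rfl
          intro x hx
          rw [(Finset.mem_filter.mp hx).2]
      _ ≤ ∑ b ∈ Finset.univ.filter (IsPi (G := G ⧸ N) π),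
            (Nat.card N * kN) * Nat.card (centralizer ({b} : Set (G ⧸ N))) := by
          apply Finset.sum_le_sum
          intro b _
          apply Nat.mul_le_mul_right
          apply claimB N π b
          intro x
          simp [Finset.mem_filter]
      _ = (Nat.card N * kN) * ∑ b ∈ Finset.univ.filter (IsPi (G := G ⧸ N) π),
            Nat.card (centralizer ({b} : Set (G ⧸ N))) := by
          rw [Finset.mul_sum]
  have hG : Nat.card G = Nat.card (G ⧸ N) * Nat.card N :=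
    Subgroup.card_eq_card_quotient_mul_card_subgroup N
  have hpos : 0 < Nat.card G := Nat.card_pos
  have h3 : Nat.card G * kG ≤ Nat.card G * (kN * kQ) := by
    calc Nat.card G * kG ≤ (Nat.card N * kN) * (Nat.card (G ⧸ N) * kQ) := hchain
      _ = Nat.card G * (kN * kQ) := by rw [hG]; ring
  exact Nat.le_of_mul_le_mul_left h3 hpos

end Cfsg.Agent.S4152
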