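import Cfsg.Statements.S4154
import Cfsg.Agent.Lib.Coprime.SZ
import Mathlib

set_option autoImplicit false
open Cfsg

namespace Cfsg.Agent.S4154

open Subgroup

/-- Let G be a finite group and α an automorphism of G such that every element of G is the product of an element fixed by α and an element of the form g⁻¹α(g). If N is a normal α-invariant subgroup, then the automorphism ᾱ induced on G/N has the same property, and every coset fixed by ᾱ contains an element fixed by α (so the fixed points of ᾱ are the images of the fixed points of α). -/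
theorem result {G : Type*} [Group G] [Finite G] (α : MulAut G)
    (hccp : ∀ x : G, ∃ c g : G, α c = c ∧ x = c * (g⁻¹ * α g))
    (N : Subgroup G) [N.Normal] (hN : ∀ n ∈ N, α n ∈ N) :
    (∀ x : G, ∃ c g : G, c⁻¹ * α c ∈ N ∧ x⁻¹ * (c * (g⁻¹ * α g)) ∈ N) ∧
    (∀ x : G, x⁻¹ * α x ∈ N → ∃ c : G, α c = c ∧ c⁻¹ * x ∈ N) := by
  classical
  refine ⟨?_, ?_⟩
  · intro x
    obtain ⟨c, g, hc, hx⟩ := hccp x
    refine ⟨c, g, by rw [hc]; simp [N.one_mem], by rw [← hx]; simp [N.one_mem]⟩
  · -- counting in `G / N`
    let mk : G →* G ⧸ N := QuotientGroup.mk' N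
    have hmk : ∀ x y : G, mk x = mk y ↔ x⁻¹ * y ∈ N := fun x y => QuotientGroup.eq
    -- the twisted action
    letI ac : MulAction G (G ⧸ N) :=
      { smul := fun g z => mk g * z * (mk (α g))⁻¹
        one_smul := fun z => by
          change mk 1 * z * (mk (α 1))⁻¹ = z
          simp
        mul_smul := fun g h z => by
          change mk (g * h) * z * (mk (α (g * h)))⁻¹ = mk g * (mk h * z * (mk (α h))⁻¹) * (mk (α g))⁻¹
          simp only [map_mul, mul_inv_rev]
          group }
    have hsm : ∀ (g : G) (z : G ⧸ N), g • z = mk g * z * (mk (α g))⁻¹ := fun _ _ => rfl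
    set S : Subgroup G := MulAction.stabilizer G (1 : G ⧸ N) with hS
    have hmemS : ∀ g : G, g ∈ S ↔ g⁻¹ * α g ∈ N := by
      intro g
      rw [hS, MulAction.mem_stabilizer_iff, hsm, mul_one, mul_inv_eq_one, hmk]
    set O := MulAction.orbit G (1 : G ⧸ N) with hO
    have hNS : N ≤ S := by
      intro n hn
      rw [hmemS]
      exact N.mul_mem (N.inv_mem hn) (hN n hn)
    let Fix : Subgroup G :=
      { carrier := {c | α c = c}
        one_mem' := map_one α
        mul_mem' := fun {a b} ha hb => by
          change α (a * b) = a * b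
          rw [map_mul, show α a = a from ha, show α b = b from hb]
        inv_mem' := fun {a} ha => by
          change α a⁻¹ = a⁻¹
          rw [map_inv, show α a = a from ha] }
    set F₀ : Subgroup (G ⧸ N) := Fix.map mk with hF₀
    set Sb : Subgroup (G ⧸ N) := S.map mk with hSb
    have hF₀le : F₀ ≤ Sb := by
      apply Subgroup.map_mono
      intro c hc
      rw [hmemS, show α c = c from hc]
      simp [N.one_mem]
    have hc1 : Nat.card O * Nat.card S = Nat.card G := by
      haveI := Fintype.ofFinite G
      haveI := Fintype.ofFinite O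
      haveI := Fintype.ofFinite S
      have := MulAction.card_orbit_mul_card_stabilizer_eq_card_group G (1 : G ⧸ N)
      rw [← Nat.card_eq_fintype_card, ← Nat.card_eq_fintype_card, ← Nat.card_eq_fintype_card] at this
      exact this
    have hc2 : Nat.card S = Nat.card N * Nat.card Sb :=
      Cfsg.Agent.Lib.Coprime.card_eq_card_map_mk_mul hNS
    have hc3 : Nat.card G = Nat.card N * Nat.card (G ⧸ N) := by
      have := N.card_mul_index
      rw [Subgroup.index_eq_card] at this
      exact this.symm
    have hc4 : Nat.card (G ⧸ N) = Nat.card O * Nat.card Sb := by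
      have hNpos : 0 < Nat.card N := Nat.card_pos
      apply Nat.eq_of_mul_eq_mul_left hNpos
      rw [← hc3, ← hc1, hc2]
      ring
    have hc5 : Nat.card (G ⧸ N) ≤ Nat.card F₀ * Nat.card O := by
      have hsurj : Function.Surjective (fun p : F₀ × O => (p.1 : G ⧸ N) * (p.2 : G ⧸ N)) := by
        intro z
        obtain ⟨x, rfl⟩ := QuotientGroup.mk_surjective z
        obtain ⟨c, g, hc, hx⟩ := hccp x
        refine ⟨(⟨mk c, c, hc, rfl⟩, ⟨g⁻¹ • (1 : G ⧸ N), MulAction.mem_orbit _ _⟩), ?_⟩
        change mk c * (g⁻¹ • (1 : G ⧸ N)) = mk x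
        rw [hsm, hx]
        simp [map_mul, map_inv]
      have := Nat.card_le_card_of_surjective _ hsurj
      rwa [Nat.card_prod] at this
    haveI : Nonempty O := ⟨⟨1, MulAction.mem_orbit_self 1⟩⟩
    have hOpos : 0 < Nat.card O := Nat.card_pos
    have hc6 : Nat.card Sb ≤ Nat.card F₀ := by
      rw [hc4, mul_comm] at hc5
      exact Nat.le_of_mul_le_mul_right hc5 hOpos
    have hFS : F₀ = Sb := Subgroup.eq_of_le_of_card_ge hF₀le hc6
    intro x hx
    have h1 : mk x ∈ Sb := ⟨x, (hmemS x).mpr hx, rfl⟩
    rw [← hFS] at h1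
    obtain ⟨c, hc, hcx⟩ := h1
    exact ⟨c, hc, (hmk c x).mp hcx⟩

end Cfsg.Agent.S4154
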