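import Cfsg.Statements.S4156
import Mathlib

set_option autoImplicit false
open Cfsg

namespace Cfsg.Agent.S4156


/-- The deleted permutation matrix, in the basis `e_i - e_last`. -/
noncomputable def rho {n : ℕ} {F : Type*} [Field F] (σ : Equiv.Perm (Fin (n + 1))) : Matrix (Fin n) (Fin n) F :=
  Matrix.of fun j i => (if Fin.castSucc j = σ (Fin.castSucc i) then (1 : F) else 0) -
    (if Fin.castSucc j = σ (Fin.last n) then (1 : F) else 0)

theorem rho_one {n : ℕ} {F : Type*} [Field F] : (rho (1 : Equiv.Perm (Fin (n + 1))) : Matrix (Fin n) (Fin n) F) = 1 := by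
  ext j i
  simp [rho, Matrix.of_apply, Equiv.Perm.one_apply, Matrix.one_apply, (Fin.castSucc_lt_last j).ne]

theorem rho_mul {n : ℕ} {F : Type*} [Field F] (σ τ : Equiv.Perm (Fin (n + 1))) :
    (rho (σ * τ) : Matrix (Fin n) (Fin n) F) = rho σ * rho τ := by
  ext j i
  set d : Fin (n + 1) → F := fun l => (if Fin.castSucc j = σ l then (1 : F) else 0) -
    (if Fin.castSucc j = σ (Fin.last n) then (1 : F) else 0) with hd
  have hdl : d (Fin.last n) = 0 := by simp [hd]
  have e0 : (rho (σ * τ) : Matrix (Fin n) (Fin n) F) j i =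
      (if Fin.castSucc j = σ (τ (Fin.castSucc i)) then (1 : F) else 0) -
        (if Fin.castSucc j = σ (τ (Fin.last n)) then (1 : F) else 0) := rfl
  rw [e0, Matrix.mul_apply]
  have e1 : ∀ l : Fin n, (rho σ : Matrix (Fin n) (Fin n) F) j l = d (Fin.castSucc l) := fun l => rfl
  have e1' : ∀ l : Fin n, (rho τ : Matrix (Fin n) (Fin n) F) l i =
      (if Fin.castSucc l = τ (Fin.castSucc i) then (1 : F) else 0) -
      (if Fin.castSucc l = τ (Fin.last n) then (1 : F) else 0) := fun l => rfl
  simp only [e1, e1']
  have e2 : ∑ l : Fin n, d (Fin.castSucc l) * ((if Fin.castSucc l = τ (Fin.castSucc i) then (1 : F) else 0) -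
      (if Fin.castSucc l = τ (Fin.last n) then (1 : F) else 0)) =
      ∑ l : Fin (n + 1), d l * ((if l = τ (Fin.castSucc i) then (1 : F) else 0) -
      (if l = τ (Fin.last n) then (1 : F) else 0)) := by
    rw [Fin.sum_univ_castSucc, hdl, zero_mul, add_zero]
  rw [e2]
  have e3 : ∀ x : Fin (n + 1), ∑ l : Fin (n + 1), d l * (if l = x then (1 : F) else 0) = d x := by
    intro x
    simp
  simp only [mul_sub, Finset.sum_sub_distrib, e3]
  simp only [hd]
  ring

noncomputable def rhoHom (n : ℕ) (F : Type*) [Field F] : Equiv.Perm (Fin (n + 1)) →* Matrix (Fin n) (Fin n) F where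
  toFun := rho
  map_one' := rho_one
  map_mul' := rho_mul

theorem rho_inj {n : ℕ} (hn : 2 ≤ n) {F : Type*} [Field F] {σ : Equiv.Perm (Fin (n + 1))}
    (h : (rho σ : Matrix (Fin n) (Fin n) F) = 1) : σ = 1 := by
  have hent : ∀ j i : Fin n, (if Fin.castSucc j = σ (Fin.castSucc i) then (1 : F) else 0) -
    (if Fin.castSucc j = σ (Fin.last n) then (1 : F) else 0) = if j = i then 1 else 0 := by
    intro j i
    have := congrFun (congrFun h j) i
    simpa [rho, Matrix.one_apply] using this
  have hlast : σ (Fin.last n) = Fin.last n := by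
    by_contra hne
    obtain ⟨j₀, hj₀⟩ : ∃ j₀ : Fin n, Fin.castSucc j₀ = σ (Fin.last n) := by
      refine ⟨⟨(σ (Fin.last n)).val, ?_⟩, ?_⟩
      · have h1 := (σ (Fin.last n)).isLt
        have h2 : (σ (Fin.last n)).val ≠ n := fun h3 => hne (Fin.ext h3)
        omega
      · exact Fin.ext rfl
    obtain ⟨i, hi⟩ : ∃ i : Fin n, j₀ ≠ i := by
      by_cases h0 : j₀.val = 0
      · exact ⟨⟨1, by omega⟩, fun h3 => by
          have := congrArg Fin.val h3
          simp only at this
          omega⟩
      · exact ⟨⟨0, by omega⟩, fun h3 => h0 (congrArg Fin.val h3)⟩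
    have := hent j₀ i
    rw [if_neg hi, if_pos hj₀, if_neg] at this
    · simp at this
    · rw [hj₀]
      intro h3
      have := σ.injective h3
      exact (Fin.castSucc_lt_last i).ne this.symm
  ext1 x
  induction x using Fin.lastCases with
  | last => simpa using hlast
  | cast i =>
    have := hent i i
    rw [if_pos rfl, hlast, if_neg (Fin.castSucc_lt_last i).ne, sub_zero] at this
    by_contra hne
    rw [if_neg] at this
    · simp at this
    · intro h3
      exact hne (by simpa using h3.symm)

theorem hom_trivial {H C : Type*} [Group H] [IsSimpleGroup H] [CommGroup C]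
    (hc : Subgroup.center H = ⊥) (φ : H →* C) (x : H) : φ x = 1 := by
  have hk : φ.ker = ⊥ ∨ φ.ker = ⊤ := IsSimpleGroup.eq_bot_or_eq_top_of_normal _ inferInstance
  rcases hk with hk | hk
  · exfalso
    have hinj : Function.Injective φ := (MonoidHom.ker_eq_bot_iff φ).mp hk
    have htop : Subgroup.center H = ⊤ := by
      rw [eq_top_iff]
      intro y _
      rw [Subgroup.mem_center_iff]
      intro z
      apply hinj
      rw [map_mul, map_mul, mul_comm]
    rw [hc] at htop
    exact bot_ne_top htop
  · exact (MonoidHom.mem_ker).mp (hk ▸ Subgroup.mem_top x)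

/-- Let n ≥ 5 and F a finite field. Then the projective special linear group PSL_n(F) contains a subgroup isomorphic to the alternating group of degree n + 1. -/
theorem result (n : ℕ) (hn : 5 ≤ n) (F : Type*) [Field F] [Finite F] :
    ∃ f : alternatingGroup (Fin (n + 1)) →* Matrix.ProjectiveSpecialLinearGroup (Fin n) F, Function.Injective f := by
  classical
  have hcard : Nat.card (Fin (n + 1)) = n + 1 := by simp
  haveI hsimple : IsSimpleGroup (alternatingGroup (Fin (n + 1))) :=
    alternatingGroup.isSimpleGroup (by rw [hcard]; omega)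
  have hcenter : Subgroup.center (alternatingGroup (Fin (n + 1))) = ⊥ :=
    alternatingGroup.center_eq_bot (by rw [hcard]; omega)
  -- determinant one
  let R : alternatingGroup (Fin (n + 1)) →* Matrix (Fin n) (Fin n) F :=
    (rhoHom n F).comp (alternatingGroup (Fin (n + 1))).subtype
  have hdet : ∀ σ : alternatingGroup (Fin (n + 1)), (R σ).det = 1 := by
    intro σ
    have := hom_trivial hcenter (MonoidHom.toHomUnits ((Matrix.detMonoidHom (n := Fin n) (R := F)).comp R)) σ
    simpa using congrArg Units.val this
  let S : alternatingGroup (Fin (n + 1)) →* Matrix.SpecialLinearGroup (Fin n) F :=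
    { toFun := fun σ => ⟨R σ, hdet σ⟩
      map_one' := by
        apply Subtype.ext
        exact map_one R
      map_mul' := fun σ τ => by
        apply Subtype.ext
        exact map_mul R σ τ }
  have hSinj : Function.Injective S := by
    rw [injective_iff_map_eq_one]
    intro σ hσ
    have h1 : R σ = 1 := congrArg Subtype.val hσ
    have h2 : (σ : Equiv.Perm (Fin (n + 1))) = 1 := rho_inj (by omega) h1
    exact Subtype.ext h2
  let f : alternatingGroup (Fin (n + 1)) →* Matrix.ProjectiveSpecialLinearGroup (Fin n) F :=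
    (QuotientGroup.mk' (Subgroup.center (Matrix.SpecialLinearGroup (Fin n) F))).comp S
  refine ⟨f, ?_⟩
  have hk : f.ker = ⊥ ∨ f.ker = ⊤ := IsSimpleGroup.eq_bot_or_eq_top_of_normal _ inferInstance
  rcases hk with hk | hk
  · exact (MonoidHom.ker_eq_bot_iff f).mp hk
  · exfalso
    have htop : Subgroup.center (alternatingGroup (Fin (n + 1))) = ⊤ := by
      rw [eq_top_iff]
      intro y _
      rw [Subgroup.mem_center_iff]
      intro z
      have hy : f y = 1 := (MonoidHom.mem_ker).mp (hk ▸ Subgroup.mem_top y)
      have hy' : S y ∈ Subgroup.center (Matrix.SpecialLinearGroup (Fin n) F) :=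
        (QuotientGroup.eq_one_iff _).mp hy
      apply hSinj
      rw [map_mul, map_mul]
      exact (Subgroup.mem_center_iff.mp hy') (S z)
    rw [hcenter] at htop
    exact bot_ne_top htop


end Cfsg.Agent.S4156
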