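import Cfsg.Statements.S4160
import Mathlib

set_option autoImplicit false
open Cfsg

namespace Cfsg.Agent.S4160

open Subgroup

theorem exists_sylow_centralizer {G : Type*} [Group G] [Finite G] {r : ℕ} [Fact r.Prime] (x : G)
    (hx : ¬ r ∣ (centralizer ({x} : Set G)).index) :
    ∃ P : Sylow r G, x ∈ centralizer ((P : Subgroup G) : Set G) := by
  obtain ⟨P₀⟩ : Nonempty (Sylow r G) := inferInstance
  have hnd : ¬ r ∣ Nat.card (G ⧸ centralizer ({x} : Set G)) := by
    rwa [← Subgroup.index_eq_card]
  obtain ⟨ω, hω⟩ := P₀.isPGroup'.nonempty_fixed_point_of_prime_not_dvd_card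
    (G ⧸ centralizer ({x} : Set G)) hnd
  obtain ⟨g, rfl⟩ := QuotientGroup.mk_surjective ω
  refine ⟨g⁻¹ • P₀, ?_⟩
  rw [Subgroup.mem_centralizer_iff]
  intro y hy
  have hy' : y ∈ (g⁻¹ • P₀ : Sylow r G) := hy
  have hy2 : y ∈ ((g⁻¹ • P₀ : Sylow r G) : Subgroup G) := hy'
  rw [Sylow.coe_subgroup_smul, Subgroup.mem_pointwise_smul_iff_inv_smul_mem] at hy2
  have hy3 : g * y * g⁻¹ ∈ (P₀ : Subgroup G) := by
    simpa [MulAut.smul_def] using hy2
  have h5 := hω ⟨g * y * g⁻¹, hy3⟩
  have h6 : (QuotientGroup.mk (g * y * g⁻¹ * g) : G ⧸ centralizer ({x} : Set G)) = QuotientGroup.mk g := h5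
  rw [QuotientGroup.eq] at h6
  have h7 : (g * y * g⁻¹ * g)⁻¹ * g = y⁻¹ := by group
  rw [h7] at h6
  have h8 := Subgroup.mem_centralizer_iff.mp h6 x rfl
  -- `x y⁻¹ = y⁻¹ x`
  have h9 : y * x = x * y := by
    calc y * x = y * (x * y⁻¹) * y := by group
      _ = y * (y⁻¹ * x) * y := by rw [h8]
      _ = x * y := by group
  exact h9

theorem card_centralizer_sylow {G : Type*} [Group G] [Finite G] {r : ℕ} [Fact r.Prime]
    (P Q : Sylow r G) :
    Nat.card (centralizer ((P : Subgroup G) : Set G)) = Nat.card (centralizer ((Q : Subgroup G) : Set G)) := by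
  obtain ⟨g, rfl⟩ := MulAction.exists_smul_eq G Q P
  have hmem : ∀ y, y ∈ ((g • Q : Sylow r G) : Subgroup G) ↔ g⁻¹ * y * g ∈ (Q : Subgroup G) := by
    intro y
    rw [Sylow.coe_subgroup_smul, Subgroup.mem_pointwise_smul_iff_inv_smul_mem]
    simp [MulAut.smul_def]
  refine Nat.card_congr (Equiv.subtypeEquiv (MulAut.conj g⁻¹).toEquiv ?_)
  intro x
  simp only [MulEquiv.toEquiv_eq_coe, Subgroup.mem_centralizer_iff]
  constructor
  · intro h y hy
    have hy' : y ∈ (Q : Subgroup G) := hy
    have h1 := h (g * y * g⁻¹) (by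
      change g * y * g⁻¹ ∈ ((g • Q : Sylow r G) : Subgroup G)
      rw [hmem]
      simpa [mul_assoc] using hy')
    simp only [MulEquiv.coe_toEquiv, MulAut.conj_apply, inv_inv]
    calc y * (g⁻¹ * x * g) = g⁻¹ * ((g * y * g⁻¹) * x) * g := by group
      _ = g⁻¹ * (x * (g * y * g⁻¹)) * g := by rw [h1]
      _ = _ := by group
  · intro h y hy
    have hy' : y ∈ ((g • Q : Sylow r G) : Subgroup G) := hy
    rw [hmem] at hy'
    have h1 := h (g⁻¹ * y * g) hy'
    simp only [MulEquiv.coe_toEquiv, MulAut.conj_apply, inv_inv] at h1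
    calc y * x = g * ((g⁻¹ * y * g) * (g⁻¹ * x * g)) * g⁻¹ := by group
      _ = g * ((g⁻¹ * x * g) * (g⁻¹ * y * g)) * g⁻¹ := by rw [h1]
      _ = x * y := by group

/-- If `G` is not `r`-nilpotent then the centralizers of Sylow `r`-subgroups cover at most half of `G`. -/
theorem two_mul_card_le {G : Type*} [Group G] [Finite G] {r : ℕ} [Fact r.Prime]
    (h : ¬ Cfsg.HasNormalPComplement r G) :
    2 * Nat.card {x : G // ∃ P : Sylow r G, x ∈ centralizer ((P : Subgroup G) : Set G)}
      ≤ Nat.card G := by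
  classical
  haveI : Fintype G := Fintype.ofFinite G
  haveI : Fintype (Sylow r G) := Fintype.ofFinite _
  obtain ⟨P₀⟩ : Nonempty (Sylow r G) := inferInstance
  set N := normalizer ((P₀ : Subgroup G) : Set G) with hN
  set C := centralizer ((P₀ : Subgroup G) : Set G) with hC
  have hCN : C ≤ N := centralizer_le_normalizer _
  have hNC : ¬ N ≤ C := by
    intro hle
    apply h
    exact ⟨P₀, _, MonoidHom.normal_ker _, MonoidHom.ker_transferSylow_isComplement' P₀ hle⟩
  have h2c : 2 * Nat.card C ≤ Nat.card N := by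
    have hdvd := Subgroup.card_dvd_of_le hCN
    obtain ⟨k, hk⟩ := hdvd
    have hk2 : k ≠ 1 := by
      rintro rfl
      apply hNC
      have : C = N := Subgroup.eq_of_le_of_card_ge hCN (by omega)
      rw [this]
    have hk0 : k ≠ 0 := by
      rintro rfl
      have : 0 < Nat.card N := Nat.card_pos
      omega
    have : 2 ≤ k := by omega
    rw [hk]
    have hp : 0 < Nat.card C := Nat.card_pos
    nlinarith
  have hsub : Finset.univ.filter (fun x : G => ∃ P : Sylow r G, x ∈ centralizer ((P : Subgroup G) : Set G))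
      ⊆ Finset.univ.biUnion (fun P : Sylow r G =>
        Finset.univ.filter (fun x : G => x ∈ centralizer ((P : Subgroup G) : Set G))) := by
    intro x hx
    simpa using hx
  have h1 := (Finset.card_le_card hsub).trans Finset.card_biUnion_le
  have h3 : ∀ P : Sylow r G,
      (Finset.univ.filter (fun x : G => x ∈ centralizer ((P : Subgroup G) : Set G))).card = Nat.card C := by
    intro P
    rw [hC, ← card_centralizer_sylow P P₀, Nat.card_eq_fintype_card]
    exact (Fintype.card_of_subtype _ (by simp)).symm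
  rw [Finset.sum_congr rfl (fun P _ => h3 P), Finset.sum_const, smul_eq_mul, Finset.card_univ,
    ← Nat.card_eq_fintype_card, P₀.card_eq_index_normalizer] at h1
  have h4 : N.index * Nat.card N = Nat.card G := N.index_mul_card
  have h5 : Nat.card {x : G // ∃ P : Sylow r G, x ∈ centralizer ((P : Subgroup G) : Set G)}
      ≤ N.index * Nat.card C := by
    rw [Nat.card_eq_fintype_card, Fintype.card_subtype]
    exact h1
  calc _ ≤ 2 * (N.index * Nat.card C) := Nat.mul_le_mul_left 2 h5
    _ = N.index * (2 * Nat.card C) := by ring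
    _ ≤ N.index * Nat.card N := Nat.mul_le_mul_left _ h2c
    _ = Nat.card G := h4

/-- Let G be a finite group and p ≠ q primes each dividing the size of some conjugacy class of G, such that no conjugacy class size is divisible by pq. Then G has a normal p-complement or a normal q-complement. -/
theorem result {G : Type*} [Group G] [Finite G] (p q : ℕ) (hp : p.Prime) (hq : q.Prime) (hpq : p ≠ q)
    (hp' : ∃ x : G, p ∣ (Subgroup.centralizer ({x} : Set G)).index) (hq' : ∃ x : G, q ∣ (Subgroup.centralizer ({x} : Set G)).index) (h : ∀ x : G, ¬ p * q ∣ (Subgroup.centralizer ({x} : Set G)).index) :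
    Cfsg.HasNormalPComplement p G ∨ Cfsg.HasNormalPComplement q G := by
  classical
  haveI := Fintype.ofFinite G
  haveI : Fact p.Prime := ⟨hp⟩
  haveI : Fact q.Prime := ⟨hq⟩
  by_contra hcon
  push Not at hcon
  have h1 := two_mul_card_le hcon.1
  have h2 := two_mul_card_le hcon.2
  set A := Finset.univ.filter (fun x : G => ∃ P : Sylow p G, x ∈ centralizer ((P : Subgroup G) : Set G)) with hA
  set B := Finset.univ.filter (fun x : G => ∃ P : Sylow q G, x ∈ centralizer ((P : Subgroup G) : Set G)) with hB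
  have hA' : Nat.card {x : G // ∃ P : Sylow p G, x ∈ centralizer ((P : Subgroup G) : Set G)} = A.card := by
    rw [Nat.card_eq_fintype_card]
    exact Fintype.card_of_subtype _ (by simp [hA])
  have hB' : Nat.card {x : G // ∃ P : Sylow q G, x ∈ centralizer ((P : Subgroup G) : Set G)} = B.card := by
    rw [Nat.card_eq_fintype_card]
    exact Fintype.card_of_subtype _ (by simp [hB])
  rw [hA'] at h1
  rw [hB'] at h2
  have hcover : A ∪ B = Finset.univ := by
    ext x
    simp only [Finset.mem_union, Finset.mem_univ, iff_true]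
    by_cases hxp : p ∣ (centralizer ({x} : Set G)).index
    · right
      have hxq : ¬ q ∣ (centralizer ({x} : Set G)).index := fun hxq =>
        h x ((Nat.Prime.coprime_iff_not_dvd hp).mpr (fun hd => hpq ((Nat.prime_dvd_prime_iff_eq hp hq).mp hd))
          |>.mul_dvd_of_dvd_of_dvd hxp hxq)
      simpa [hB] using exists_sylow_centralizer x hxq
    · left
      simpa [hA] using exists_sylow_centralizer x hxp
  have h1A : (1 : G) ∈ A := by
    obtain ⟨P₀⟩ : Nonempty (Sylow p G) := inferInstance
    simp only [hA, Finset.mem_filter, Finset.mem_univ, true_and]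
    exact ⟨P₀, Subgroup.one_mem _⟩
  have h1B : (1 : G) ∈ B := by
    obtain ⟨P₀⟩ : Nonempty (Sylow q G) := inferInstance
    simp only [hB, Finset.mem_filter, Finset.mem_univ, true_and]
    exact ⟨P₀, Subgroup.one_mem _⟩
  have h3 := Finset.card_union_add_card_inter A B
  rw [hcover, Finset.card_univ, ← Nat.card_eq_fintype_card] at h3
  have h4 : 1 ≤ (A ∩ B).card := Finset.card_pos.mpr ⟨1, Finset.mem_inter.mpr ⟨h1A, h1B⟩⟩
  omega

end Cfsg.Agent.S4160
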