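import Cfsg.Statements.S4168
import Mathlib

set_option autoImplicit false
open Cfsg

namespace Cfsg.Agent.S4168

/-- Let L be a finite quasisimple group (perfect with L/Z(L) simple). Then every prime dividing the order of the centre Z(L) also divides the order of L/Z(L). -/
theorem result {L : Type*} [Group L] [Finite L] (hL : Cfsg.IsQuasisimple L)
    (p : ℕ) (hp : p.Prime) (hdiv : p ∣ Nat.card (Subgroup.center L)) : p ∣ (Subgroup.center L).index := by
  haveI : Fact p.Prime := ⟨hp⟩
  obtain ⟨z, hz⟩ := exists_prime_orderOf_dvd_card' (G := Subgroup.center L) p hdiv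
  have hperf : commutator L = ⊤ := hL.1.commutator_eq_top
  have key : ∀ g : L, g ^ (Subgroup.center L).index = 1 := by
    intro g
    have hle : commutator L ≤ (MonoidHom.transferCenterPow L).ker := by
      rw [_root_.commutator_def, Subgroup.commutator_le]
      intro a _ b _
      rw [MonoidHom.mem_ker, commutatorElement_def, map_mul, map_mul, map_mul, map_inv, map_inv]
      have hc : MonoidHom.transferCenterPow L a * MonoidHom.transferCenterPow L b =
          MonoidHom.transferCenterPow L b * MonoidHom.transferCenterPow L a :=
        Subtype.ext (Subgroup.mem_center_iff.mp (MonoidHom.transferCenterPow L b).2 _)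
      rw [hc]
      group
    have hg : g ∈ (MonoidHom.transferCenterPow L).ker := hle (by rw [hperf]; exact Subgroup.mem_top g)
    have h1 := MonoidHom.transferCenterPow_apply (G := L) g
    rw [MonoidHom.mem_ker.mp hg] at h1
    exact h1.symm
  have h1 : (z : L) ^ (Subgroup.center L).index = 1 := key _
  have h2 : orderOf (z : L) = p := by
    rw [← hz]; exact Subgroup.orderOf_coe z
  rw [← h2]
  exact orderOf_dvd_of_pow_eq_one h1

end Cfsg.Agent.S4168
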