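import Cfsg.Statements.S4169
import Mathlib

set_option autoImplicit false
open Cfsg
open scoped commutatorElement

namespace Cfsg.Agent.S4169

lemma comm_mul {P : Type*} [Group P] (a b y : P)
    (hb : b * y * b⁻¹ * y⁻¹ ∈ Subgroup.center P) :
    a * b * y * (a * b)⁻¹ * y⁻¹ = (a * y * a⁻¹ * y⁻¹) * (b * y * b⁻¹ * y⁻¹) := by
  have hc := Subgroup.mem_center_iff.mp hb
  calc a * b * y * (a * b)⁻¹ * y⁻¹
      = (a * (b * y * b⁻¹ * y⁻¹)) * (y * a⁻¹ * y⁻¹) := by group
    _ = ((b * y * b⁻¹ * y⁻¹) * a) * (y * a⁻¹ * y⁻¹) := by rw [hc a]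
    _ = (b * y * b⁻¹ * y⁻¹) * (a * y * a⁻¹ * y⁻¹) := by group
    _ = (a * y * a⁻¹ * y⁻¹) * (b * y * b⁻¹ * y⁻¹) := (hc _).symm

/-- The elements commuting with `x` modulo the centre. -/
def tSub {P : Type*} [Group P] (x : P) : Subgroup P where
  carrier := {t | t * x * t⁻¹ * x⁻¹ ∈ Subgroup.center P}
  one_mem' := by simp
  mul_mem' := by
    intro a b ha hb
    simp only [Set.mem_ofPred_eq] at ha hb ⊢
    rw [comm_mul a b x hb]
    exact Subgroup.mul_mem _ ha hb
  inv_mem' := by
    intro a ha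
    simp only [Set.mem_ofPred_eq] at ha ⊢
    have h1 := comm_mul a⁻¹ a x ha
    have h2 : a⁻¹ * x * a⁻¹⁻¹ * x⁻¹ = (a * x * a⁻¹ * x⁻¹)⁻¹ := by
      apply eq_inv_of_mul_eq_one_left
      rw [← h1]; group
    rw [h2]
    exact Subgroup.inv_mem _ ha

lemma mem_tSub {P : Type*} [Group P] (x t : P) :
    t ∈ tSub x ↔ t * x * t⁻¹ * x⁻¹ ∈ Subgroup.center P := Iff.rfl

/-- The commutator homomorphism into the centre. -/
def cHom {P : Type*} [Group P] (S : Subgroup P) (y : P)
    (hy : ∀ t ∈ S, t * y * t⁻¹ * y⁻¹ ∈ Subgroup.center P) : S →* Subgroup.center P :=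
  MonoidHom.mk' (fun t => ⟨t.1 * y * t.1⁻¹ * y⁻¹, hy t.1 t.2⟩) (by
    intro a b
    apply Subtype.ext
    exact comm_mul a.1 b.1 y (hy b.1 b.2))

lemma cHom_apply {P : Type*} [Group P] (S : Subgroup P) (y : P)
    (hy : ∀ t ∈ S, t * y * t⁻¹ * y⁻¹ ∈ Subgroup.center P) (t : S) :
    ((cHom S y hy t : Subgroup.center P) : P) = t.1 * y * t.1⁻¹ * y⁻¹ := rfl

lemma comm_eq_one_iff {P : Type*} [Group P] (t y : P) :
    t * y * t⁻¹ * y⁻¹ = 1 ↔ t ∈ Subgroup.centralizer ({y} : Set P) := by
  rw [Subgroup.mem_centralizer_singleton_iff]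
  constructor
  · intro h
    have := mul_inv_eq_one.mp h
    have h2 := mul_inv_eq_iff_eq_mul.mp this
    exact h2
  · intro h
    rw [h]; group

lemma relIndex_cHom {P : Type*} [Group P] (S : Subgroup P) (y : P)
    (hy : ∀ t ∈ S, t * y * t⁻¹ * y⁻¹ ∈ Subgroup.center P) :
    (Subgroup.centralizer ({y} : Set P)).relIndex S = Nat.card (cHom S y hy).range := by
  have hker : (cHom S y hy).ker = (Subgroup.centralizer ({y} : Set P)).subgroupOf S := by
    ext t
    rw [MonoidHom.mem_ker, Subgroup.mem_subgroupOf, ← comm_eq_one_iff]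
    constructor
    · intro h
      have := congrArg Subtype.val h
      simpa [cHom_apply] using this
    · intro h
      apply Subtype.ext
      simpa [cHom_apply] using h
  rw [Subgroup.relIndex, ← hker, Subgroup.index_ker]

theorem key {P : Type*} [Group P] [Finite P] (m : ℕ)
    (hidx : ∀ x : P, x ∉ Subgroup.center P → (Subgroup.centralizer ({x} : Set P)).index = m)
    (x q b : P) (hb : q * x * q⁻¹ * x⁻¹ = b) (hb2 : b ∈ Subgroup.upperCentralSeries P 2)
    (hbZ : b ∉ Subgroup.center P) : Subgroup.centralizer ({b} : Set P) ≤ tSub x := by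
  have hxZ : x ∉ Subgroup.center P := by
    intro h
    apply hbZ
    have h1 := Subgroup.mem_center_iff.mp h q
    have : b = 1 := by
      rw [← hb, h1]; group
    rw [this]; exact Subgroup.one_mem _
  have hbc : ∀ t : P, t * b * t⁻¹ * b⁻¹ ∈ Subgroup.center P := by
    intro t
    have h1 := Subgroup.mem_upperCentralSeries_succ_iff.mp (show b ∈ Subgroup.upperCentralSeries P (1 + 1) from hb2) t
    rw [Subgroup.upperCentralSeries_one, commutatorElement_def] at h1
    have h2 : t * b * t⁻¹ * b⁻¹ = (b * t * b⁻¹ * t⁻¹)⁻¹ := by group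
    rw [h2]; exact Subgroup.inv_mem _ h1
  have hqx : q * x * q⁻¹ = b * x := by rw [← hb]; group
  have hxT' : ∀ t ∈ tSub x, t * x * t⁻¹ * x⁻¹ ∈ Subgroup.center P :=
    fun t ht => (mem_tSub x t).mp ht
  have hrange : (cHom (tSub x) b (fun t _ => hbc t)).range
      ≤ (cHom (tSub x) x hxT').range := by
    rintro _ ⟨t, rfl⟩
    have ht : t.1 * x * t.1⁻¹ * x⁻¹ ∈ Subgroup.center P := t.2
    have ht' := Subgroup.mem_center_iff.mp ht
    -- the central element
    set c : P := (t.1 * b * t.1⁻¹ * b⁻¹) * (t.1 * x * t.1⁻¹ * x⁻¹) with hc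
    have hcZ : c ∈ Subgroup.center P := Subgroup.mul_mem _ (hbc t.1) ht
    have h1 : t.1 * (b * x) * t.1⁻¹ * (b * x)⁻¹ = c := by
      rw [hc]
      calc t.1 * (b * x) * t.1⁻¹ * (b * x)⁻¹
          = (t.1 * b * t.1⁻¹) * (t.1 * x * t.1⁻¹ * x⁻¹) * b⁻¹ := by group
        _ = (t.1 * b * t.1⁻¹) * ((t.1 * x * t.1⁻¹ * x⁻¹) * b⁻¹) := by group
        _ = (t.1 * b * t.1⁻¹) * (b⁻¹ * (t.1 * x * t.1⁻¹ * x⁻¹)) := by rw [ht' b⁻¹]
        _ = _ := by group
    have h2 : (q⁻¹ * t.1 * q) * x * (q⁻¹ * t.1 * q)⁻¹ * x⁻¹ = c := by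
      have h3 : (q⁻¹ * t.1 * q) * x * (q⁻¹ * t.1 * q)⁻¹ * x⁻¹
          = q⁻¹ * (t.1 * (q * x * q⁻¹) * t.1⁻¹ * (q * x * q⁻¹)⁻¹) * q := by group
      rw [h3, hqx, h1, Subgroup.mem_center_iff.mp hcZ q⁻¹]
      group
    have hT : q⁻¹ * t.1 * q ∈ tSub x := by
      rw [mem_tSub, h2]; exact hcZ
    refine ⟨⟨q⁻¹ * t.1 * q, hT⟩ * t⁻¹, ?_⟩
    rw [map_mul, map_inv]
    apply Subtype.ext
    change ((q⁻¹ * t.1 * q) * x * (q⁻¹ * t.1 * q)⁻¹ * x⁻¹) * (t.1 * x * t.1⁻¹ * x⁻¹)⁻¹
      = t.1 * b * t.1⁻¹ * b⁻¹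
    rw [h2, hc]
    group
  have h1 := relIndex_cHom (tSub x) x hxT'
  have h2 := relIndex_cHom (tSub x) b (fun t _ => hbc t)
  have h3 : Nat.card (cHom (tSub x) b (fun t _ => hbc t)).range
      ≤ Nat.card (cHom (tSub x) x hxT').range :=
    Nat.card_le_card_of_injective (Subgroup.inclusion hrange) (Subgroup.inclusion_injective hrange)
  have hxT : Subgroup.centralizer ({x} : Set P) ≤ tSub x := by
    intro t ht
    rw [mem_tSub, (comm_eq_one_iff t x).mpr ht]
    exact Subgroup.one_mem _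
  have h4 : (Subgroup.centralizer ({x} : Set P)).relIndex (tSub x) * (tSub x).index = m := by
    rw [Subgroup.relIndex_mul_index hxT]; exact hidx x hxZ
  have h5 : ((Subgroup.centralizer ({b} : Set P)) ⊓ tSub x).index
      = (Subgroup.centralizer ({b} : Set P)).relIndex (tSub x) * (tSub x).index := by
    rw [← Subgroup.inf_relIndex_right, Subgroup.relIndex_mul_index inf_le_right]
  have h6 : ((Subgroup.centralizer ({b} : Set P)) ⊓ tSub x).relIndex
      (Subgroup.centralizer ({b} : Set P)) * (Subgroup.centralizer ({b} : Set P)).index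
      = ((Subgroup.centralizer ({b} : Set P)) ⊓ tSub x).index :=
    Subgroup.relIndex_mul_index inf_le_left
  have hm0 : 0 < m := by
    rw [← hidx b hbZ]; exact Nat.pos_of_ne_zero Subgroup.index_ne_zero_of_finite
  have h7 : ((Subgroup.centralizer ({b} : Set P)) ⊓ tSub x).relIndex
      (Subgroup.centralizer ({b} : Set P)) * m ≤ 1 * m := by
    rw [one_mul]
    have := hidx b hbZ
    rw [this] at h6
    rw [h6, h5, h2]
    calc _ ≤ Nat.card (cHom (tSub x) x hxT').range * (tSub x).index :=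
          Nat.mul_le_mul_right _ h3
      _ = m := by rw [← h1]; exact h4
  have h8 := Nat.le_of_mul_le_mul_right h7 hm0
  have h9 : ((Subgroup.centralizer ({b} : Set P)) ⊓ tSub x).relIndex
      (Subgroup.centralizer ({b} : Set P)) ≠ 0 := by
    rw [Subgroup.relIndex]; exact Subgroup.index_ne_zero_of_finite
  have h10 : ((Subgroup.centralizer ({b} : Set P)) ⊓ tSub x).relIndex
      (Subgroup.centralizer ({b} : Set P)) = 1 := by omega
  exact (Subgroup.relIndex_eq_one.mp h10).trans inf_le_right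

/-- Let P be a finite p-group whose conjugacy classes have exactly two sizes (1 and one other value). Then P has nilpotency class at most 3. -/
theorem result {P : Type*} [Group P] [Finite P] {p : ℕ} [Fact p.Prime] (hP : IsPGroup p P)
    (m : ℕ) (hm : 1 < m) (h : ∀ x : P, (Subgroup.centralizer ({x} : Set P)).index = 1 ∨ (Subgroup.centralizer ({x} : Set P)).index = m) :
    upperCentralSeries P 3 = ⊤ := by
  change Subgroup.upperCentralSeries P 3 = ⊤
  have hidx : ∀ x : P, x ∉ Subgroup.center P → (Subgroup.centralizer ({x} : Set P)).index = m := by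
    intro x hx
    rcases h x with h1 | h1
    · exfalso
      apply hx
      have h2 := Subgroup.index_eq_one.mp h1
      have h3 := Subgroup.centralizer_eq_top_iff_subset.mp h2
      exact h3 rfl
    · exact h1
  -- the derived subgroup centralizes `Z₂`
  have hder : ∀ b ∈ Subgroup.upperCentralSeries P 2, commutator P ≤ Subgroup.centralizer ({b} : Set P) := by
    intro b hb
    have hbc : ∀ t : P, t * b * t⁻¹ * b⁻¹ ∈ Subgroup.center P := by
      intro t
      have h1 := Subgroup.mem_upperCentralSeries_succ_iff.mp (show b ∈ Subgroup.upperCentralSeries P (1 + 1) from hb) t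
      rw [Subgroup.upperCentralSeries_one, commutatorElement_def] at h1
      have h2 : t * b * t⁻¹ * b⁻¹ = (b * t * b⁻¹ * t⁻¹)⁻¹ := by group
      rw [h2]; exact Subgroup.inv_mem _ h1
    have hT : ∀ t ∈ (⊤ : Subgroup P), t * b * t⁻¹ * b⁻¹ ∈ Subgroup.center P := fun t _ => hbc t
    rw [commutator_def, Subgroup.commutator_le]
    intro g₁ _ g₂ _
    have hcomm : ∀ u v : Subgroup.center P, u * v * u⁻¹ * v⁻¹ = 1 := fun u v => by
      have huv : u * v = v * u := Subtype.ext (Subgroup.mem_center_iff.mp u.2 v.1).symm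
      rw [huv]; group
    have h1 : (cHom ⊤ b hT) ((⟨g₁, trivial⟩ : (⊤ : Subgroup P)) * ⟨g₂, trivial⟩ *
        (⟨g₁, trivial⟩ : (⊤ : Subgroup P))⁻¹ * (⟨g₂, trivial⟩ : (⊤ : Subgroup P))⁻¹) = 1 := by
      rw [map_mul, map_mul, map_mul, map_inv, map_inv]
      exact hcomm _ _
    have h3 := congrArg Subtype.val h1
    rw [← comm_eq_one_iff]
    exact h3
  -- `G' ∩ Z₃ ≤ Z₂`
  have hB : ∀ e ∈ commutator P, e ∈ Subgroup.upperCentralSeries P 3 → e ∈ Subgroup.upperCentralSeries P 2 := by
    intro e he he3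
    by_contra hn
    have hn' : ¬ ∀ y, ⁅e, y⁆ ∈ Subgroup.upperCentralSeries P 1 := by
      intro hall
      exact hn (Subgroup.mem_upperCentralSeries_succ_iff.mpr hall)
    obtain ⟨q, hq⟩ := not_forall.mp hn'
    rw [Subgroup.upperCentralSeries_one] at hq
    have ha2 : ⁅e, q⁆ ∈ Subgroup.upperCentralSeries P 2 :=
      Subgroup.mem_upperCentralSeries_succ_iff.mp (show e ∈ Subgroup.upperCentralSeries P (2 + 1) from he3) q
    have hk := key m hidx q e ⁅e, q⁆ (commutatorElement_def e q).symm ha2 hq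
    exact hq (hk (hder _ ha2 he))
  -- induction
  have hC : ∀ n : ℕ, ∀ e ∈ commutator P, e ∈ Subgroup.upperCentralSeries P (n + 3) → e ∈ Subgroup.upperCentralSeries P 2 := by
    intro n
    induction n with
    | zero => simpa using hB
    | succ n ih =>
      intro e he hen
      apply hB e he
      apply Subgroup.mem_upperCentralSeries_succ_iff.mpr
      intro y
      apply ih
      · have h1 : ⁅e, y⁆ = e * (y * e⁻¹ * y⁻¹) := by rw [commutatorElement_def]; group
        rw [h1]
        exact Subgroup.mul_mem _ he (Subgroup.Normal.conj_mem inferInstance _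
          (Subgroup.inv_mem _ he) y)
      · exact Subgroup.mem_upperCentralSeries_succ_iff.mp
          (show e ∈ Subgroup.upperCentralSeries P (n + 3 + 1) from hen) y
  have hnil : Group.IsNilpotent P := hP.isNilpotent
  obtain ⟨n, hn⟩ := hnil.nilpotent'
  rw [eq_top_iff]
  intro g _
  apply Subgroup.mem_upperCentralSeries_succ_iff.mpr
  intro y
  apply hC n
  · rw [commutator_def]
    exact Subgroup.commutator_mem_commutator (Subgroup.mem_top g) (Subgroup.mem_top y)
  · have : Subgroup.upperCentralSeries P n ≤ Subgroup.upperCentralSeries P (n + 3) :=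
      Subgroup.upperCentralSeries_mono P (by omega)
    exact this (by rw [hn]; trivial)

end Cfsg.Agent.S4169
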