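import Cfsg.Statements.S4172
import Cfsg.Agent.Lib.FrattSyl.Basic

set_option autoImplicit false
open Cfsg

namespace Cfsg.Agent.S4172

open scoped commutatorElement

/-- Let p be a prime and G a finite group with a non-commutative Sylow p-subgroup P whose Frattini subgroup has index p² in P (P is generated by two elements). Suppose G has no nontrivial normal subgroup of order prime to p and the Frattini subgroup of P contains no nontrivial normal subgroup of G. Then the generalized Fitting subgroup F*(G) is the unique minimal normal subgroup of G, the image of P in G/F*(G) is cyclic, and if F*(G) is not commutative then P permutes the components of G transitively by conjugation. -/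
theorem result {G : Type*} [Group G] [Finite G] (p : ℕ) [Fact p.Prime] (P : Sylow p G) (hna : ¬ IsMulCommutative (P : Subgroup G)) (hgen : (frattini ↥(P : Subgroup G)).index = p ^ 2) (hcore : Cfsg.pPrimeCore p G = ⊥) (hfrat : ((frattini ↥(P : Subgroup G)).map (P : Subgroup G).subtype).normalCore = ⊥) [hFn : (Cfsg.generalizedFittingSubgroup G).Normal] :
    (Cfsg.generalizedFittingSubgroup G ≠ ⊥ ∧ ∀ K : Subgroup G, K.Normal → K ≠ ⊥ → Cfsg.generalizedFittingSubgroup G ≤ K) ∧
      IsCyclic ↥((P : Subgroup G).map (QuotientGroup.mk' (Cfsg.generalizedFittingSubgroup G))) ∧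
      (¬ IsMulCommutative (Cfsg.generalizedFittingSubgroup G) → ∀ K L : Subgroup G, Cfsg.IsComponent K → Cfsg.IsComponent L → ∃ x ∈ (P : Subgroup G), L = K.map (MulAut.conj x).toMonoidHom) := by
  classical
  have hnoncomm : ∀ H : Subgroup G, ¬ IsMulCommutative H → ∃ a ∈ H, ∃ b ∈ H, a * b ≠ b * a := by
    intro H hH
    by_contra hcon
    push Not at hcon
    exact hH ⟨⟨fun a b => Subtype.ext (hcon a a.2 b b.2)⟩⟩
  have hna' := hnoncomm _ hna
  obtain ⟨a, ha, b, hb, hab⟩ := hna'
  have hc1 : ⁅a, b⁆ ≠ 1 := fun h => hab (commutatorElement_eq_one_iff_mul_comm.mp h)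
  set N : Subgroup G := Subgroup.normalClosure {⁅a, b⁆} with hN
  haveI hNn : N.Normal := Subgroup.normalClosure_normal
  have hcN : ⁅a, b⁆ ∈ N := Subgroup.subset_normalClosure rfl
  have hNb : N ≠ ⊥ := by
    intro h
    rw [h, Subgroup.mem_bot] at hcN
    exact hc1 hcN
  have hnorm : ∀ K : Subgroup G, K.Normal → (P : Subgroup G) ≤ Subgroup.normalizer (K : Set G) :=
    fun K hK => Subgroup.le_normalizer_of_normal
  have hmin : ∀ K : Subgroup G, K.Normal → K ≠ ⊥ → N ≤ K := by
    intro K hK hKb
    haveI := hK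
    apply Subgroup.normalClosure_le_normal
    intro c hc
    rw [Set.mem_singleton_iff.mp hc]
    exact Cfsg.Agent.Lib.FrattSyl.commutator_mem_of_normalizes _ K (hnorm K hK) hgen
      (Cfsg.Agent.Lib.FrattSyl.inf_sylow_not_le P hcore hfrat K hKb) ha hb
  have hgb : Cfsg.generalizedFittingSubgroup G ≠ ⊥ := by
    intro h
    have h1 := Cfsg.Agent.Lib.FStar.centralizer_gen_le (G := G)
    have h2 : a ∈ Subgroup.centralizer ((Cfsg.generalizedFittingSubgroup G : Subgroup G) : Set G) := by
      rw [Subgroup.mem_centralizer_iff]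
      intro g hg
      rw [h, Subgroup.coe_bot, Set.mem_singleton_iff] at hg
      rw [hg]; group
    have h3 := h1 h2
    rw [h, Subgroup.mem_bot] at h3
    apply hab
    rw [h3]; group
  have hNF : N ≤ Cfsg.generalizedFittingSubgroup G := hmin _ hFn hgb
  have hFN : Cfsg.generalizedFittingSubgroup G ≤ N := by
    by_cases hc : ∀ a ∈ N, ∀ b ∈ N, a * b = b * a
    · exact Cfsg.Agent.Lib.FrattSyl.gen_le_of_comm P hcore hfrat hgen ⟨a, ha, b, hb, hab⟩ N hNb hmin hc
    · push Not at hc
      obtain ⟨_, hf, hl⟩ := Cfsg.Agent.Lib.FrattSyl.gen_le_of_noncomm N hmin hc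
      unfold Cfsg.generalizedFittingSubgroup
      rw [hf, sup_bot_eq]
      exact hl
  have hFeq : Cfsg.generalizedFittingSubgroup G = N := le_antisymm hFN hNF
  refine ⟨⟨hgb, fun K hK hKb => hFN.trans (hmin K hK hKb)⟩, ?_, ?_⟩
  · obtain ⟨x, hxP, hx⟩ := Cfsg.Agent.Lib.FrattSyl.exists_gen_of_normalizes _ _ (hnorm _ hFn) hgen
      (Cfsg.Agent.Lib.FrattSyl.inf_sylow_not_le P hcore hfrat _ hgb)
    refine ⟨⟨⟨QuotientGroup.mk' _ x, x, hxP, rfl⟩, ?_⟩⟩
    rintro ⟨_, u, hu, rfl⟩
    obtain ⟨j, hj, n, rfl⟩ := hx u hu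
    refine Subgroup.mem_zpowers_iff.mpr ⟨n, Subtype.ext ?_⟩
    simpa using hj
  · intro hnc K L hK hL
    have hnc' := hnoncomm _ hnc
    rw [hFeq] at hnc'
    obtain ⟨hC, hf, hl⟩ := Cfsg.Agent.Lib.FrattSyl.gen_le_of_noncomm N hmin hnc'
    have hNl : N ≤ Cfsg.layer G := by
      rw [← hFeq]
      unfold Cfsg.generalizedFittingSubgroup
      rw [hf, sup_bot_eq]
    refine Cfsg.Agent.Lib.FrattSyl.components_transitive P hcore hgen ha hb hc1 ?_ hK hL
    intro x hx
    have h1 : Cfsg.layer G ≤ Subgroup.centralizer ({x} : Set G) := by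
      refine sSup_le fun M hM m hm => ?_
      rw [Subgroup.mem_centralizer_iff]
      rintro _ rfl
      exact (hx M hM m hm).symm
    have h2 : x ∈ Subgroup.centralizer (N : Set G) := by
      rw [Subgroup.mem_centralizer_iff]
      intro h hh
      exact (Subgroup.mem_centralizer_iff.mp (h1 (hNl hh)) x rfl).symm
    rw [hC, Subgroup.mem_bot] at h2
    exact h2

end Cfsg.Agent.S4172
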