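import Cfsg.Statements.S4177
import Mathlib

set_option autoImplicit false
open Cfsg

namespace Cfsg.Agent.S4177

open Subgroup

theorem sum_eq_smul {k V H ι : Type*} [Field k] [AddCommGroup V] [Module k V] [Group H] [Fintype ι]
    (ρ : Representation k H V) (a : V)
    (hspan : Submodule.span k {u : V | ∃ h : H, ρ h a = u} = ⊤) (f : ι → H) (w : V)
    (hw : ∀ h : H, ∑ i : ι, ρ (f i) (ρ h a) = w) (v : V) : ∃ c : k, ∑ i : ι, ρ (f i) v = c • w := by
  have hv : v ∈ Submodule.span k {u : V | ∃ h : H, ρ h a = u} := by rw [hspan]; trivial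
  induction hv using Submodule.span_induction with
  | mem x hx =>
    obtain ⟨h, rfl⟩ := hx
    exact ⟨1, by rw [hw h, one_smul]⟩
  | zero => exact ⟨0, by simp⟩
  | add x y _ _ hx hy =>
    obtain ⟨c, hc⟩ := hx
    obtain ⟨d, hd⟩ := hy
    exact ⟨c + d, by simp only [map_add, Finset.sum_add_distrib, hc, hd, add_smul]⟩
  | smul t x _ hx =>
    obtain ⟨c, hc⟩ := hx
    exact ⟨t * c, by simp only [map_smul, ← Finset.smul_sum, hc, mul_smul]⟩

/-- Let k be a field whose characteristic does not divide the order of the finite group H (for instance a field of characteristic zero), and ρ a k-linear representation of H on V. Let a be a vector whose H-orbit spans V. Then the space of H-fixed vectors has dimension at most 1, and every vector b whose H-orbit has size coprime to the size of the orbit of a is fixed by H. -/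
theorem result {k V H : Type*} [Field k] [AddCommGroup V] [Module k V] [Group H] [Finite H]
    (hchar : ¬ ringChar k ∣ Nat.card H) (ρ : Representation k H V) (a : V)
    (hspan : Submodule.span k {u : V | ∃ h : H, ρ h a = u} = ⊤) :
    Module.finrank k ρ.invariants ≤ 1 ∧
    ∀ b : V, (Nat.card {u : V | ∃ h : H, ρ h a = u}).Coprime (Nat.card {u : V | ∃ h : H, ρ h b = u}) → ∀ h : H, ρ h b = b := by
  classical
  haveI := Fintype.ofFinite H
  have hne : (Nat.card H : k) ≠ 0 := by
    intro h0
    exact hchar ((CharP.cast_eq_zero_iff k (ringChar k) _).mp h0)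
  set s : V := ∑ h : H, ρ h a with hs
  have hsinv : ∀ g : H, ρ g s = s := by
    intro g
    rw [hs, map_sum]
    exact Fintype.sum_equiv (Equiv.mulLeft g) _ _ (fun x => by simp)
  have hsum : ∀ h : H, ∑ g : H, ρ (id g) (ρ h a) = s := by
    intro h
    exact Fintype.sum_equiv (Equiv.mulRight h) _ _ (fun x => by simp)
  constructor
  · have hsmem : s ∈ ρ.invariants := (Representation.mem_invariants ρ s).mpr hsinv
    refine finrank_le_one (⟨s, hsmem⟩ : ρ.invariants) (fun w => ?_)
    obtain ⟨c, hc⟩ := sum_eq_smul ρ a hspan (id : H → H) s hsum (w : V)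
    have hw : ∀ g : H, ρ g (w : V) = w := (Representation.mem_invariants ρ _).mp w.2
    have h1 : (Nat.card H : k) • (w : V) = c • s := by
      rw [← hc]
      simp only [id, hw, Finset.sum_const, Finset.card_univ]
      rw [Nat.card_eq_fintype_card, Nat.cast_smul_eq_nsmul]
    refine ⟨(Nat.card H : k)⁻¹ * c, Subtype.ext ?_⟩
    show ((Nat.card H : k)⁻¹ * c) • s = w
    rw [mul_smul, ← h1, smul_smul, inv_mul_cancel₀ hne, one_smul]
  · intro b hcop h
    letI act : MulAction H V :=
      { smul := fun h v => ρ h v
        one_smul := fun v => by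
          show ρ 1 v = v
          simp
        mul_smul := fun x y v => by
          show ρ (x * y) v = ρ x (ρ y v)
          simp }
    have hsm : ∀ (h : H) (v : V), h • v = ρ h v := fun _ _ => rfl
    set A := MulAction.stabilizer H a with hA
    set B := MulAction.stabilizer H b with hB
    have hAc : Nat.card {u : V | ∃ h : H, ρ h a = u} = A.index := by
      rw [hA, MulAction.index_stabilizer]
      exact Nat.card_coe_set_eq (MulAction.orbit H a)
    have hBc : Nat.card {u : V | ∃ h : H, ρ h b = u} = B.index := by
      rw [hB, MulAction.index_stabilizer]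
      exact Nat.card_coe_set_eq (MulAction.orbit H b)
    rw [hAc, hBc] at hcop
    -- `B` is transitive on the orbit of `a`
    have htrans : MulAction.orbit B a = MulAction.orbit H a := by
      have hsub : MulAction.orbit B a ⊆ MulAction.orbit H a := by
        rintro _ ⟨β, rfl⟩
        exact ⟨β, rfl⟩
      have hfin : (MulAction.orbit H a).Finite := Set.finite_range _
      apply Set.eq_of_subset_of_ncard_le hsub _ hfin
      rw [← MulAction.index_stabilizer, ← MulAction.index_stabilizer]
      have hst : MulAction.stabilizer B a = A.subgroupOf B := by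
        ext β
        simp [Subgroup.mem_subgroupOf, MulAction.mem_stabilizer_iff, hA, Subgroup.smul_def]
      rw [hst]
      have h1 := Subgroup.relIndex_mul_index (inf_le_left : A ⊓ B ≤ A)
      have h2 := Subgroup.relIndex_mul_index (inf_le_right : A ⊓ B ≤ B)
      rw [Subgroup.inf_relIndex_right] at h2
      have h3 : A.index ∣ A.relIndex B * B.index := by
        rw [h2, ← h1]
        exact Dvd.intro_left _ rfl
      have h4 : A.index ∣ A.relIndex B := hcop.dvd_of_dvd_mul_right h3
      have h5 : A.relIndex B ≠ 0 := Subgroup.FiniteIndex.index_ne_zero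
      exact Nat.le_of_dvd (Nat.pos_of_ne_zero h5) h4
    have hBfix : ∀ β : B, ρ (β : H) b = b := fun β => β.2
    haveI := Fintype.ofFinite B
    set w : V := ∑ β : B, ρ (β : H) a with hw
    have hw1 : ∀ h : H, ∑ β : B, ρ ((fun β : B => (β : H)) β) (ρ h a) = w := by
      intro h
      have h1 : h • a ∈ MulAction.orbit B a := by rw [htrans]; exact ⟨h, rfl⟩
      obtain ⟨β₀, hβ₀⟩ := h1
      have h2 : ρ h a = ρ (β₀ : H) a := hβ₀.symm
      rw [h2, hw]
      exact Fintype.sum_equiv (Equiv.mulRight β₀) _ _ (fun x => by simp)
    have hHw : (Nat.card H : k) • w = (Nat.card B : k) • s := by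
      have h1 : ∑ h : H, ∑ β : B, ρ (β : H) (ρ h a) = (Nat.card H : k) • w := by
        simp only [fun h : H => hw1 h, Finset.sum_const, Finset.card_univ]
        rw [Nat.card_eq_fintype_card, Nat.cast_smul_eq_nsmul]
      have h2 : ∑ h : H, ∑ β : B, ρ (β : H) (ρ h a) = (Nat.card B : k) • s := by
        rw [Finset.sum_comm]
        have : ∀ β : B, ∑ h : H, ρ (β : H) (ρ h a) = s := by
          intro β
          rw [← map_sum, ← hs, hsinv]
        simp only [this, Finset.sum_const, Finset.card_univ]
        rw [Nat.card_eq_fintype_card, Nat.cast_smul_eq_nsmul]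
      rw [← h1, h2]
    obtain ⟨c, hc⟩ := sum_eq_smul ρ a hspan (fun β : B => (β : H)) w hw1 b
    have hbB : (Nat.card B : k) • b = c • w := by
      rw [← hc]
      simp only [hBfix, Finset.sum_const, Finset.card_univ]
      rw [Nat.card_eq_fintype_card, Nat.cast_smul_eq_nsmul]
    have hBne : (Nat.card B : k) ≠ 0 := by
      intro h0
      apply hne
      obtain ⟨m, hm⟩ := Subgroup.card_subgroup_dvd_card B
      rw [hm, Nat.cast_mul, h0, zero_mul]
    have hfinal : (Nat.card H : k) • b = c • s := by
      have h1 : (Nat.card B : k) • ((Nat.card H : k) • b) = (Nat.card B : k) • (c • s) := by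
        rw [smul_comm, hbB, smul_comm, hHw, smul_comm]
      exact (smul_right_injective V hBne) h1
    have h2 : (Nat.card H : k) • ρ h b = (Nat.card H : k) • b := by
      rw [← map_smul, hfinal, map_smul, hsinv]
    exact (smul_right_injective V hne) h2

end Cfsg.Agent.S4177
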