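import Cfsg.Statements.S4178
import Mathlib

set_option autoImplicit false
open Cfsg

namespace Cfsg.Agent.S4178

theorem index_le_of_map {H T : Type*} [Group H] [Finite H] [Finite T] (R : Subgroup H) (τ : H → T)
    (hτ : ∀ a b : H, τ a = τ b → b⁻¹ * a ∈ R) : R.index ≤ Nat.card T := by
  classical
  rw [Subgroup.index_eq_card]
  refine Nat.card_le_card_of_injective (fun q : H ⧸ R => τ q.out) ?_
  intro p q hpq
  have h1 := hτ _ _ hpq
  have h2 : (QuotientGroup.mk q.out : H ⧸ R) = QuotientGroup.mk p.out := QuotientGroup.eq.mpr h1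
  rw [QuotientGroup.out_eq', QuotientGroup.out_eq'] at h2
  exact h2.symm

theorem card_ne_zero_subtype {X : Type*} [AddCommGroup X] [Finite X] :
    Nat.card {x : X // x ≠ 0} = Nat.card X - 1 := by
  classical
  haveI := Fintype.ofFinite X
  rw [Nat.card_eq_fintype_card, Nat.card_eq_fintype_card, Fintype.card_subtype_compl]
  simp

/-- Let F be a finite field with q elements, V a non-zero finite-dimensional F-space of dimension d, H a group of invertible linear maps of V, and R the subgroup of H generated by the elements of H that fix some non-zero vector (have eigenvalue 1). Then the index of R in H is at most q^d − 1; and if H leaves invariant some proper non-zero subspace, the index is at most q^(d/2) − 1. -/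
theorem result {F V : Type*} [Field F] [Fintype F] [AddCommGroup V] [Module F V] [FiniteDimensional F V] [Nontrivial V]
    (H : Subgroup (V ≃ₗ[F] V)) :
    (Subgroup.closure {h : ↥H | ∃ v : V, v ≠ 0 ∧ (h : V ≃ₗ[F] V) v = v}).index ≤ Fintype.card F ^ Module.finrank F V - 1 ∧
    ((∃ W : Submodule F V, W ≠ ⊥ ∧ W ≠ ⊤ ∧ ∀ h ∈ H, ∀ w ∈ W, h w ∈ W) →
      ((Subgroup.closure {h : ↥H | ∃ v : V, v ≠ 0 ∧ (h : V ≃ₗ[F] V) v = v}).index : ℝ) ≤ Real.sqrt ((Fintype.card F : ℝ) ^ Module.finrank F V) - 1) := by
  classical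
  haveI : Finite V := Module.finite_of_finite F
  haveI : Finite (V ≃ₗ[F] V) := Finite.of_injective (fun e => (e : V → V)) (fun a b h => LinearEquiv.ext (congrFun h))
  set R := Subgroup.closure {h : ↥H | ∃ v : V, v ≠ 0 ∧ (h : V ≃ₗ[F] V) v = v} with hR
  set q := Fintype.card F with hq
  have hcard : ∀ (X : Type _) [AddCommGroup X] [Module F X] [Module.Finite F X],
      Nat.card X = q ^ Module.finrank F X := by
    intro X _ _ _
    rw [hq, Module.natCard_eq_pow_finrank (K := F) (V := X), Nat.card_eq_fintype_card]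
  have hfix : ∀ (h : H) (v : V), v ≠ 0 → (h : V ≃ₗ[F] V) v = v → h ∈ R :=
    fun h v hv hhv => Subgroup.subset_closure ⟨v, hv, hhv⟩
  constructor
  · obtain ⟨v, hv⟩ := exists_ne (0 : V)
    have h1 := index_le_of_map R (fun h : H => (⟨(h : V ≃ₗ[F] V) v, by
      simpa using hv⟩ : {x : V // x ≠ 0})) (by
      intro a b hab
      have h2 : (a : V ≃ₗ[F] V) v = (b : V ≃ₗ[F] V) v := congrArg Subtype.val hab
      apply hfix _ v hv
      change ((b : V ≃ₗ[F] V)⁻¹ * (a : V ≃ₗ[F] V)) v = v
      rw [LinearEquiv.mul_apply, h2]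
      exact (b : V ≃ₗ[F] V).symm_apply_apply v)
    rwa [card_ne_zero_subtype, hcard V] at h1
  · rintro ⟨W, hW0, hWt, hWinv⟩
    -- bound through `W`
    obtain ⟨v, hvW, hv⟩ := Submodule.exists_mem_ne_zero_of_ne_bot hW0
    have hWinv' : ∀ (h : H), ∀ w ∈ W, ((h : V ≃ₗ[F] V)) w ∈ W := fun h => hWinv h h.2
    have h1 := index_le_of_map R (fun h : H => (⟨⟨(h : V ≃ₗ[F] V) v, hWinv' h v hvW⟩, by
      intro h0
      have h2 : (h : V ≃ₗ[F] V) v = 0 := congrArg Subtype.val h0
      exact hv (by simpa using h2)⟩ : {x : W // x ≠ 0})) (by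
      intro a b hab
      have h2 : (a : V ≃ₗ[F] V) v = (b : V ≃ₗ[F] V) v :=
        congrArg (fun z : {x : W // x ≠ 0} => ((z.1 : W) : V)) hab
      apply hfix _ v hv
      change ((b : V ≃ₗ[F] V)⁻¹ * (a : V ≃ₗ[F] V)) v = v
      rw [LinearEquiv.mul_apply, h2]
      exact (b : V ≃ₗ[F] V).symm_apply_apply v)
    rw [card_ne_zero_subtype, hcard W] at h1
    -- bound through `V / W`
    obtain ⟨u, huW⟩ : ∃ u : V, u ∉ W := by
      by_contra hc
      push Not at hc
      exact hWt (Submodule.eq_top_iff'.mpr hc)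
    have hnot : ∀ (h : H), (h : V ≃ₗ[F] V) u ∉ W := by
      intro h hmem
      apply huW
      have := hWinv' h⁻¹ _ hmem
      have h2 : ((h⁻¹ : H) : V ≃ₗ[F] V) ((h : V ≃ₗ[F] V) u) = u := by
        change ((h : V ≃ₗ[F] V)⁻¹ : V ≃ₗ[F] V) ((h : V ≃ₗ[F] V) u) = u
        exact (h : V ≃ₗ[F] V).symm_apply_apply u
      rwa [h2] at this
    have hkey : ∀ t : H, (t : V ≃ₗ[F] V) u - u ∈ W → t ∈ R := by
      intro t ht
      by_cases hcase : ∃ w ∈ W, w ≠ 0 ∧ (t : V ≃ₗ[F] V) w = w
      · obtain ⟨w, -, hw0, hw⟩ := hcase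
        exact hfix t w hw0 hw
      · push Not at hcase
        let g : W → W := fun w => ⟨(t : V ≃ₗ[F] V) w - w, W.sub_mem (hWinv' t _ w.2) w.2⟩
        have hg : Function.Injective g := by
          intro a b hab
          have h2 : (t : V ≃ₗ[F] V) a - a = (t : V ≃ₗ[F] V) b - b := congrArg Subtype.val hab
          by_contra hne
          apply hcase ((a : V) - b) (W.sub_mem a.2 b.2)
          · intro h0
            exact hne (Subtype.ext (sub_eq_zero.mp h0))
          · rw [map_sub]
            have : (t : V ≃ₗ[F] V) a - (t : V ≃ₗ[F] V) b = (a : V) - b := by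
              rw [sub_eq_sub_iff_sub_eq_sub]
              exact h2
            exact this
        have hgs : Function.Surjective g := Finite.surjective_of_injective hg
        obtain ⟨w, hw⟩ := hgs ⟨-((t : V ≃ₗ[F] V) u - u), W.neg_mem ht⟩
        have hw' : (t : V ≃ₗ[F] V) w - w = -((t : V ≃ₗ[F] V) u - u) := congrArg Subtype.val hw
        apply hfix t (u + w)
        · intro h0
          apply huW
          have : u = -(w : V) := eq_neg_of_add_eq_zero_left h0
          rw [this]
          exact W.neg_mem w.2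
        · rw [map_add]
          have : (t : V ≃ₗ[F] V) u + (t : V ≃ₗ[F] V) w - (u + w)
              = ((t : V ≃ₗ[F] V) u - u) + ((t : V ≃ₗ[F] V) w - w) := by abel
          rw [← sub_eq_zero, this, hw']
          abel
    haveI : Finite (V ⧸ W) := Finite.of_surjective W.mkQ (Submodule.mkQ_surjective W)
    have h3 := index_le_of_map R (fun h : H => (⟨(W.mkQ ((h : V ≃ₗ[F] V) u)), by
      intro h0
      exact hnot h ((Submodule.Quotient.mk_eq_zero W).mp h0)⟩ : {x : V ⧸ W // x ≠ 0})) (by
      intro a b hab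
      have h2 : W.mkQ ((a : V ≃ₗ[F] V) u) = W.mkQ ((b : V ≃ₗ[F] V) u) := congrArg Subtype.val hab
      apply hkey
      have h4 : (a : V ≃ₗ[F] V) u - (b : V ≃ₗ[F] V) u ∈ W := by
        rw [← Submodule.Quotient.eq]
        exact h2
      have h5 := hWinv' b⁻¹ _ h4
      have h6 : ((b⁻¹ : H) : V ≃ₗ[F] V) ((a : V ≃ₗ[F] V) u - (b : V ≃ₗ[F] V) u)
          = ((b⁻¹ * a : H) : V ≃ₗ[F] V) u - u := by
        rw [map_sub]
        congr 1
        change ((b : V ≃ₗ[F] V)⁻¹ : V ≃ₗ[F] V) ((b : V ≃ₗ[F] V) u) = u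
        exact (b : V ≃ₗ[F] V).symm_apply_apply u
      rwa [h6] at h5)
    rw [card_ne_zero_subtype, hcard (V ⧸ W)] at h3
    have hqpos : 0 < q := Fintype.card_pos
    have hdim : Module.finrank F (V ⧸ W) + Module.finrank F W = Module.finrank F V :=
      Submodule.finrank_quotient_add_finrank W
    set i := R.index with hi
    have hk1 : i + 1 ≤ q ^ Module.finrank F W := by
      have h5 : 0 < q ^ Module.finrank F W := pow_pos hqpos _
      have h6 : 1 < q ^ Module.finrank F W := by
        have hq2 : 1 < q := Fintype.one_lt_card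
        have hfr : Module.finrank F W ≠ 0 := by
          intro h0
          exact hW0 (Submodule.finrank_eq_zero.mp h0)
        exact Nat.one_lt_pow hfr hq2
      omega
    have hk2 : i + 1 ≤ q ^ Module.finrank F (V ⧸ W) := by
      have h6 : 1 < q ^ Module.finrank F (V ⧸ W) := by
        have hq2 : 1 < q := Fintype.one_lt_card
        have hfr : Module.finrank F (V ⧸ W) ≠ 0 := by
          intro h0
          have : Module.finrank F W = Module.finrank F V := by omega
          exact hWt (Submodule.eq_top_of_finrank_eq this)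
        exact Nat.one_lt_pow hfr hq2
      omega
    have hsq : (i + 1) ^ 2 ≤ q ^ Module.finrank F V := by
      rw [← hdim, pow_add, sq]
      exact Nat.mul_le_mul hk2 hk1
    have hfinal : ((i : ℝ) + 1) ≤ Real.sqrt ((q : ℝ) ^ Module.finrank F V) := by
      apply Real.le_sqrt_of_sq_le
      exact_mod_cast hsq
    linarith

end Cfsg.Agent.S4178
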