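import Cfsg.Statements.S4186
import Mathlib

set_option autoImplicit false
open Cfsg

namespace Cfsg.Agent.S4186

/-- Let T and X be subgroups of a group with T a finite 2-group normalizing X but not centralizing it. Then some element of T inverts some non-identity element of X under conjugation. -/
theorem result {G : Type*} [Group G] (T X : Subgroup G) [Finite ↥T] (hT : IsPGroup 2 ↥T) (hTN : T ≤ Subgroup.normalizer (X : Set G)) (hTC : ¬ T ≤ Subgroup.centralizer (X : Set G)) : ∃ t ∈ T, ∃ x ∈ X, x ≠ 1 ∧ t * x * t⁻¹ = x⁻¹ := by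
  classical
  -- strong induction on the order of an element of T acting nontrivially
  have key : ∀ (n : ℕ) (t : T), orderOf t = n → ¬ (t : G) ∈ Subgroup.centralizer (X : Set G) →
      ∃ t ∈ T, ∃ x ∈ X, x ≠ 1 ∧ t * x * t⁻¹ = x⁻¹ := by
    intro n
    induction n using Nat.strong_induction_on with
    | _ n ih =>
      rintro ⟨t, ht⟩ hn hnc
      change ¬ t ∈ Subgroup.centralizer (X : Set G) at hnc
      by_cases h2 : t ^ 2 ∈ Subgroup.centralizer (X : Set G)
      · -- `t` acts as an involution
        rw [Subgroup.mem_centralizer_iff] at hnc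
        push Not at hnc
        obtain ⟨x, hx, hxt⟩ := hnc
        have hxX : x ∈ X := hx
        have hN := hTN ht
        rw [Subgroup.mem_normalizer_iff] at hN
        have hx' : t * x * t⁻¹ ∈ X := by
          have := (hN x).1 hxX
          simpa using this
        refine ⟨t, ht, x⁻¹ * (t * x * t⁻¹), ?_, ?_, ?_⟩
        · exact X.mul_mem (X.inv_mem hxX) hx'
        · intro h1
          apply hxt
          have : t * x * t⁻¹ = x := by
            have := congrArg (fun y => x * y) h1
            simpa using this
          calc x * t = (t * x * t⁻¹) * t := by rw [this]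
            _ = t * x := by group
        · have hc : x * t ^ 2 = t ^ 2 * x := by
            rw [Subgroup.mem_centralizer_iff] at h2
            exact (h2 x hxX)
          have hc' : t * (t * x * t⁻¹) * t⁻¹ = x := by
            have : t * (t * x * t⁻¹) * t⁻¹ = t ^ 2 * x * (t ^ 2)⁻¹ := by
              simp only [pow_two, mul_inv_rev, mul_assoc]
            rw [this, ← hc]; simp
          calc t * (x⁻¹ * (t * x * t⁻¹)) * t⁻¹
              = (t * x * t⁻¹)⁻¹ * (t * (t * x * t⁻¹) * t⁻¹) := by group
            _ = (t * x * t⁻¹)⁻¹ * x := by rw [hc']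
            _ = (x⁻¹ * (t * x * t⁻¹))⁻¹ := by group
      · -- replace t by t^2, of smaller order
        have ht2 : t ^ 2 ∈ T := T.pow_mem ht 2
        obtain ⟨k, hk⟩ := hT ⟨t, ht⟩
        have hord : orderOf (⟨t, ht⟩ : T) ≠ 1 := by
          intro h1
          have : (⟨t, ht⟩ : T) = 1 := orderOf_eq_one_iff.mp h1
          have ht1 : t = 1 := by simpa using congrArg Subtype.val this
          apply h2
          rw [ht1]; simp
        have hpos : 0 < orderOf (⟨t, ht⟩ : T) := orderOf_pos _
        have h2dvd : 2 ∣ orderOf (⟨t, ht⟩ : T) := by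
          obtain ⟨j, hj⟩ := (Nat.dvd_prime_pow Nat.prime_two).1 (orderOf_dvd_of_pow_eq_one hk)
          rcases j with _ | j
          · exact absurd (by simpa using hj.2) hord
          · rw [hj.2]; exact dvd_pow_self 2 (by omega)
        have hlt : orderOf ((⟨t, ht⟩ : T) ^ 2) < n := by
          rw [orderOf_pow' _ (by norm_num), Nat.gcd_eq_right h2dvd, ← hn]
          exact Nat.div_lt_self hpos (by norm_num)
        exact ih _ hlt ((⟨t, ht⟩ : T) ^ 2) rfl h2
  rw [SetLike.le_def] at hTC
  push Not at hTC
  obtain ⟨t, ht, hnc⟩ := hTC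
  exact key _ ⟨t, ht⟩ rfl hnc

end Cfsg.Agent.S4186
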