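import Cfsg.Statements.S4188
import Mathlib
import Cfsg.Agent.Lib.FrattIdx.Rep

set_option autoImplicit false
open Cfsg

open Cfsg.Agent.Lib.FrattIdx

namespace Cfsg.Agent.S4188


/-- Let G be a finite group that is the semidirect product of a normal abelian subgroup N of odd order by a 2-subgroup P, and suppose N is the unique minimal normal subgroup of G. Then the index of the Frattini subgroup of P in P is at most #N − 1. -/
theorem result {G : Type*} [Group G] [Finite G] (N P : Subgroup G) (hN : N.Normal) (hNab : IsMulCommutative ↥N) (hNodd : Odd (Nat.card ↥N)) (hP : IsPGroup 2 ↥P) (hdisj : N ⊓ P = ⊥) (hprod : N ⊔ P = ⊤) (hmin : N ≠ ⊥ ∧ ∀ M : Subgroup G, M.Normal → M ≠ ⊥ → N ≤ M) : (frattini ↥P).index ≤ Nat.card ↥N - 1 := by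
  classical
  have hNb := hmin.1
  have hfin : Finite N := inferInstance
  haveI : Nontrivial N := (Subgroup.nontrivial_iff_ne_bot N).2 hNb
  have hone : Nat.card N ≠ 1 := Finite.one_lt_card.ne'
  obtain ⟨r, hrp, hrd⟩ := Nat.exists_prime_and_dvd hone
  haveI : Fact r.Prime := ⟨hrp⟩
  have hr2 : r ≠ 2 := by
    rintro rfl
    obtain ⟨k, hk⟩ := hNodd
    omega
  -- the exponent
  have hexp : ∀ x ∈ N, x ^ r = 1 := by
    let E : Subgroup G :=
      { carrier := {x | x ∈ N ∧ x ^ r = 1}
        mul_mem' := by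
          rintro a b ⟨ha, ha2⟩ ⟨hb, hb2⟩
          refine ⟨N.mul_mem ha hb, ?_⟩
          have hc : Commute a b := by
            have := mul_comm' (⟨a, ha⟩ : N) ⟨b, hb⟩
            exact congrArg Subtype.val this
          rw [hc.mul_pow, ha2, hb2, one_mul]
        one_mem' := ⟨N.one_mem, one_pow r⟩
        inv_mem' := by
          rintro a ⟨ha, ha2⟩
          exact ⟨N.inv_mem ha, by rw [inv_pow, ha2, inv_one]⟩ }
    have hEn : E.Normal := by
      refine ⟨fun a ha g => ⟨hN.conj_mem a ha.1 g, ?_⟩⟩
      rw [conj_pow, ha.2]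
      group
    have hEb : E ≠ ⊥ := by
      obtain ⟨⟨x, hxN⟩, hx⟩ := exists_prime_orderOf_dvd_card' r hrd
      intro h
      have hm : x ∈ E := ⟨hxN, by
        have := pow_orderOf_eq_one (⟨x, hxN⟩ : N)
        rw [hx] at this
        exact congrArg Subtype.val this⟩
      rw [h, Subgroup.mem_bot] at hm
      have h1 : (⟨x, hxN⟩ : N) = 1 := Subtype.ext hm
      rw [h1, orderOf_one] at hx
      exact hrp.one_lt.ne hx
    intro x hx
    exact (hmin.2 E hEn hEb hx).2
  haveI := hN
  let φ : P →* MulAut N := (MulAut.conjNormal (H := N)).comp P.subtype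
  -- faithfulness
  have hinj : Function.Injective φ := by
    refine (injective_iff_map_eq_one φ).2 ?_
    intro k hk
    by_contra hk1
    let C : Subgroup G := (φ.ker).map P.subtype
    have hCN : ∀ c ∈ C, ∀ n ∈ N, c * n = n * c := by
      rintro c ⟨p, hp, rfl⟩ n hn
      have h1 : φ p = 1 := hp
      have h2 : (p : G) * n * (p : G)⁻¹ = n := by
        have h3 := DFunLike.congr_fun h1 ⟨n, hn⟩
        exact congrArg Subtype.val h3
      show (p : G) * n = n * p
      calc (p : G) * n = ((p : G) * n * (p : G)⁻¹) * p := by group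
        _ = n * p := by rw [h2]
    have hCn : C.Normal := by
      constructor
      intro c hc g
      have hg : g ∈ N ⊔ P := by
        rw [hprod]
        trivial
      obtain ⟨n, hn, p, hp, rfl⟩ := Subgroup.mem_sup_of_normal_left.1 hg
      obtain ⟨c', hc', rfl⟩ := hc
      have hcp : (⟨p, hp⟩ : P) * c' * (⟨p, hp⟩ : P)⁻¹ ∈ φ.ker := (MonoidHom.normal_ker φ).conj_mem c' hc' ⟨p, hp⟩
      have h1 : p * (c' : G) * p⁻¹ ∈ C := ⟨_, hcp, rfl⟩
      have h2 := hCN _ h1 n hn
      have h3 : n * p * P.subtype c' * (n * p)⁻¹ = (p * (c' : G) * p⁻¹ * n) * n⁻¹ := by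
        calc n * p * P.subtype c' * (n * p)⁻¹ = (n * (p * (c' : G) * p⁻¹)) * n⁻¹ := by
              simp only [Subgroup.subtype_apply]
              group
          _ = _ := by rw [h2]
      rw [h3, mul_inv_cancel_right]
      exact h1
    have hCb : C ≠ ⊥ := by
      intro h
      have h1 : (k : G) ∈ C := ⟨k, hk, rfl⟩
      rw [h, Subgroup.mem_bot] at h1
      exact hk1 (Subtype.ext h1)
    have hle := hmin.2 C hCn hCb
    have hle2 : C ≤ P := by
      rintro c ⟨p, -, rfl⟩
      exact p.2
    apply hNb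
    rw [eq_bot_iff, ← hdisj]
    exact le_inf le_rfl (hle.trans hle2)
  letI : CommGroup N := { (inferInstance : Group N) with mul_comm := mul_comm' }
  exact frattini_index_le_of_aut r hr2 (fun a => Subtype.ext (by
    rw [Subgroup.coe_pow]
    exact hexp _ a.2)) φ hinj hP Finite.one_lt_card

end Cfsg.Agent.S4188
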