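import Cfsg.Statements.S4189
import Mathlib
import Cfsg.Agent.Lib.Cl.MaxClass
import Cfsg.Agent.S3995

set_option autoImplicit false
open Cfsg

namespace Cfsg.Agent.S4189

open Subgroup Cfsg.Agent.Lib.Cl

theorem pow_apply_of_eq_pow {P : Type*} [Group P] (σ : MulAut P) (a : P) (i : ℕ) (h : σ a = a ^ i)
    (k : ℕ) : (σ ^ k) a = a ^ (i ^ k) := by
  induction k with
  | zero => simp
  | succ k ih =>
    rw [pow_succ, MulAut.mul_apply, h, map_pow, ih, ← pow_mul, pow_succ]

theorem pow_apply_of_eq_mul {P : Type*} [Group P] (σ : MulAut P) (x c : P) (h : σ x = x * c)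
    (hc : σ c = c) (k : ℕ) : (σ ^ k) x = x * c ^ k := by
  induction k with
  | zero => simp
  | succ k ih =>
    rw [pow_succ, MulAut.mul_apply, h, map_mul, ih]
    have : (σ ^ k) c = c := by
      clear ih
      induction k with
      | zero => simp
      | succ k ih2 => rw [pow_succ, MulAut.mul_apply, hc, ih2]
    rw [this, mul_assoc, pow_succ]

/-- An automorphism of odd prime order cannot normalize a cyclic subgroup of index two. -/
theorem aut_eq_one_of_invariant {P : Type*} [Group P] [Finite P] (hP : IsPGroup 2 P) {a : P}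
    (ha : (zpowers a).index = 2) {n : ℕ} (hn : orderOf a = 2 ^ n) {l : ℕ} (hl : l.Prime)
    (hl2 : l ≠ 2) {σ : MulAut P} (hσ : orderOf σ = l) (hinv : σ a ∈ zpowers a) : σ = 1 := by
  have hσl : σ ^ l = 1 := by rw [← hσ]; exact pow_orderOf_eq_one σ
  have hl0 : l ≠ 0 := hl.ne_zero
  -- `σ` fixes `a`
  have hfix : σ a = a := by
    obtain ⟨i, hi⟩ := (mem_powers_iff_mem_zpowers).mpr hinv
    have h1 := pow_apply_of_eq_pow σ a i hi.symm l
    rw [hσl, MulAut.one_apply] at h1
    have h2 : a ^ 1 = a ^ (i ^ l) := by rw [pow_one]; exact h1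
    have h3 : 1 ≡ i ^ l [MOD orderOf a] := (pow_eq_pow_iff_modEq).mp h2
    have h4 : Nat.Coprime i (orderOf a) := by
      have h5 := h3.gcd_eq
      have h6 : Nat.Coprime (i ^ l) (orderOf a) := by
        unfold Nat.Coprime
        rw [← h5]; simp
      exact Nat.Coprime.coprime_dvd_left (dvd_pow_self i hl0) h6
    have h7 : i ^ (Nat.totient (orderOf a)) ≡ 1 [MOD orderOf a] := Nat.ModEq.pow_totient h4
    have hcop : Nat.Coprime l (Nat.totient (orderOf a)) := by
      rw [hn]
      rcases Nat.eq_zero_or_pos n with rfl | hnpos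
      · simp
      · rw [Nat.totient_prime_pow Nat.prime_two hnpos]
        simp only [Nat.sub_self, Nat.add_one_sub_one, pow_one, mul_one]
        apply Nat.Coprime.pow_right
        exact (Nat.coprime_primes hl Nat.prime_two).mpr hl2
    have h8 : (i : ZMod (orderOf a)) = 1 := by
      have h9 : (i : ZMod (orderOf a)) ^ l = 1 := by
        have := (ZMod.natCast_eq_natCast_iff _ _ _).mpr h3.symm
        simpa using this
      have h10 : (i : ZMod (orderOf a)) ^ (Nat.totient (orderOf a)) = 1 := by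
        have := (ZMod.natCast_eq_natCast_iff _ _ _).mpr h7
        simpa using this
      exact (pow_eq_one_iff_of_coprime hcop).mp ⟨h9, h10⟩
    have h11 : i ≡ 1 [MOD orderOf a] := by
      have : (i : ZMod (orderOf a)) = ((1 : ℕ) : ZMod (orderOf a)) := by simpa using h8
      exact (ZMod.natCast_eq_natCast_iff _ _ _).mp this
    have h12 : a ^ i = a ^ 1 := (pow_eq_pow_iff_modEq).mpr h11
    have hi' : a ^ i = σ a := hi
    rw [← hi', h12, pow_one]
  have hfixA : ∀ x ∈ zpowers a, σ x = x := by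
    intro x hx
    obtain ⟨k, rfl⟩ := mem_zpowers_iff.mp hx
    rw [map_zpow, hfix]
  ext x
  rw [MulAut.one_apply]
  by_cases hx : x ∈ zpowers a
  · exact hfixA x hx
  have hσx : σ x ∉ zpowers a := by
    intro h
    have h1 := hfixA _ h
    exact hx (by rw [← σ.injective h1]; exact h)
  have hc : x⁻¹ * σ x ∈ zpowers a := by
    rw [Subgroup.mul_mem_iff_of_index_two ha]
    simp [hx, hσx]
  have h1 := pow_apply_of_eq_mul σ x (x⁻¹ * σ x) (by group) (hfixA _ hc) l
  rw [hσl, MulAut.one_apply] at h1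
  have h2 : (x⁻¹ * σ x) ^ l = 1 := by
    have h3 : x * 1 = x * (x⁻¹ * σ x) ^ l := by rw [mul_one]; exact h1
    exact (mul_left_cancel h3).symm
  obtain ⟨k, hk⟩ := hP (x⁻¹ * σ x)
  have h3 : x⁻¹ * σ x = 1 := (pow_eq_one_iff_of_coprime
    (Nat.Coprime.pow_right k ((Nat.coprime_primes hl Nat.prime_two).mpr hl2))).mp ⟨h2, hk⟩
  exact (eq_of_inv_mul_eq_one h3).symm

/-- Let P be a finite non-abelian 2-group whose commutator subgroup has index 4 and whose automorphism group is not a 2-group (some automorphism has order that is not a power of 2). Then P is isomorphic to the quaternion group of order 8. -/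
theorem result {P : Type*} [Group P] [Finite P] (hP : IsPGroup 2 P) (hna : ¬ IsMulCommutative P) (h4 : (commutator P).index = 4) (haut : ¬ IsPGroup 2 (MulAut P)) : Nonempty (P ≃* QuaternionGroup 2) := by
  obtain ⟨a, ha⟩ := exists_cyclic_index_two _ P rfl hP h4
  haveI : Fact (Nat.Prime 2) := ⟨Nat.prime_two⟩
  obtain ⟨l, hl, hl2, σ, hσ⟩ : ∃ l : ℕ, l.Prime ∧ l ≠ 2 ∧ ∃ σ : MulAut P, orderOf σ = l := by
    by_contra hcon
    push Not at hcon
    apply haut
    apply IsPGroup.of_card (n := (Nat.card (MulAut P)).primeFactorsList.length)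
    apply Nat.eq_prime_pow_of_unique_prime_dvd Nat.card_pos.ne'
    intro d hd hdc
    by_contra hd2
    haveI : Fact d.Prime := ⟨hd⟩
    obtain ⟨σ, hσ⟩ := exists_prime_orderOf_dvd_card' (G := MulAut P) d hdc
    exact hcon d hd hd2 σ hσ
  obtain ⟨n, hn⟩ : ∃ n, orderOf a = 2 ^ n := by
    obtain ⟨k, hk⟩ := hP a
    obtain ⟨j, -, hj⟩ := (Nat.dvd_prime_pow Nat.prime_two).mp (orderOf_dvd_of_pow_eq_one hk)
    exact ⟨j, hj⟩
  have hcard : Nat.card P = 2 ^ n * 2 := by
    have := Subgroup.card_mul_index (zpowers a)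
    rw [Nat.card_zpowers, ha, hn] at this
    rw [← this]
  have hcardS' : Nat.card P = Nat.card (commutator P) * 4 := by
    rw [← h4, Subgroup.card_mul_index]
  have h0 : 0 < Nat.card (commutator P) := Nat.card_pos
  have hS'ne : Nat.card (commutator P) ≠ 1 := by
    intro h
    have h1 := (Subgroup.card_eq_one).mp h
    apply hna
    refine ⟨⟨fun x y => ?_⟩⟩
    have h3 : x * y * x⁻¹ * y⁻¹ ∈ commutator P := by
      rw [_root_.commutator_def, ← commutatorElement_def]
      exact Subgroup.commutator_mem_commutator (mem_top x) (mem_top y)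
    rw [h1, mem_bot, mul_inv_eq_one, mul_inv_eq_iff_eq_mul] at h3
    exact h3
  haveI hU : (zpowers a).Normal := Subgroup.normal_of_index_eq_two ha
  have hAab : ∀ x ∈ zpowers a, ∀ y ∈ zpowers a, x * y = y * x := by
    intro x hx y hy
    obtain ⟨k, rfl⟩ := mem_zpowers_iff.mp hx
    obtain ⟨l, rfl⟩ := mem_zpowers_iff.mp hy
    exact (Commute.refl a).zpow_zpow k l
  by_cases hinv : σ a ∈ zpowers a
  · exfalso
    have h1 := aut_eq_one_of_invariant hP ha hn hl hl2 hσ hinv
    rw [h1, orderOf_one] at hσ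
    exact hl.ne_one hσ.symm
  set b : P := σ a with hb
  have hbo : orderOf b = 2 ^ n := by
    rw [hb, ← hn]
    exact MulEquiv.orderOf_eq σ a
  have hbidx : (zpowers b).index = 2 := by
    have h1 := Subgroup.card_mul_index (zpowers b)
    rw [Nat.card_zpowers, hbo, hcard] at h1
    exact Nat.eq_of_mul_eq_mul_left (by positivity) h1
  set w : P := b * a * b⁻¹ * a⁻¹ with hw
  have hwA : w ∈ zpowers a :=
    mul_mem (hU.conj_mem a (mem_zpowers a) b) (inv_mem (mem_zpowers a))
  have hwa : Commute w a := hAab w hwA a (mem_zpowers a)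
  have hpow : ∀ k : ℤ, b * a ^ k * b⁻¹ = w ^ k * a ^ k := by
    intro k
    have h1 : b * a * b⁻¹ = w * a := by rw [hw]; group
    have h2' : b * a ^ k * b⁻¹ = (b * a * b⁻¹) ^ k := by
      rw [conj_zpow]
    rw [h2', h1, hwa.mul_zpow]
  have hw2 : w ^ 2 = 1 := by
    have h3 := hpow 2
    have h4' : b * a ^ (2 : ℤ) * b⁻¹ = a ^ (2 : ℤ) := by
      have h5 : a ^ 2 ∈ zpowers b := Subgroup.sq_mem_of_index_two hbidx a
      have h6 : Commute b (a ^ 2) := by
        obtain ⟨k, hk⟩ := mem_zpowers_iff.mp h5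
        rw [← hk]
        exact (Commute.refl b).zpow_right k
      have : a ^ (2 : ℤ) = a ^ 2 := by norm_cast
      rw [this, mul_inv_eq_iff_eq_mul]
      exact h6.eq
    rw [h4'] at h3
    have h5 : w ^ (2 : ℤ) = 1 := mul_eq_right.mp h3.symm
    have : w ^ (2 : ℤ) = w ^ 2 := by norm_cast
    rwa [this] at h5
  have hS'le := comm_le_of_index_two ha hAab hinv (zpowers w) (by rw [zpowers_le]; exact hwA) (by
    intro y hy
    obtain ⟨k, rfl⟩ := mem_zpowers_iff.mp hy
    rw [hpow k, mul_inv_cancel_right]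
    exact zpow_mem (mem_zpowers w) k)
  have h5 : Nat.card (commutator P) ≤ 2 := by
    calc Nat.card (commutator P) ≤ Nat.card (zpowers w) := Subgroup.card_le_of_le hS'le
      _ = orderOf w := Nat.card_zpowers w
      _ ≤ 2 := orderOf_le_of_pow_eq_one (by norm_num) hw2
  have hcard8 : Nat.card P = 8 := by omega
  have hn2 : n = 2 := by
    have h6 : 2 ^ n = 2 ^ 2 := by omega
    exact Nat.pow_right_injective (le_refl 2) h6
  subst hn2
  have ha4 : a ^ 4 = 1 := by
    have : a ^ (2 ^ 2) = 1 := by rw [← hn]; exact pow_orderOf_eq_one a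
    simpa using this
  have hb4 : b ^ 4 = 1 := by
    have : b ^ (2 ^ 2) = 1 := by rw [← hbo]; exact pow_orderOf_eq_one b
    simpa using this
  have ha2 : a ^ 2 ≠ 1 := by
    intro h
    have h1 := orderOf_dvd_of_pow_eq_one h
    rw [hn] at h1
    norm_num at h1
  have hb2 : b ^ 2 ≠ 1 := by
    intro h
    have h1 := orderOf_dvd_of_pow_eq_one h
    rw [hbo] at h1
    norm_num at h1
  have hmod : ∀ x ∈ zpowers a, x = 1 ∨ x = a ∨ x = a ^ 2 ∨ x = a ^ 3 := by
    intro x hx
    obtain ⟨k, hk⟩ := (mem_powers_iff_mem_zpowers).mpr hx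
    have hk' : a ^ k = x := hk
    subst hk'
    have h1 : a ^ k = a ^ (k % 4) := pow_eq_pow_mod k ha4
    have h2 : k % 4 < 4 := Nat.mod_lt _ (by norm_num)
    rw [h1]
    show a ^ (k % 4) = 1 ∨ a ^ (k % 4) = a ∨ a ^ (k % 4) = a ^ 2 ∨ a ^ (k % 4) = a ^ 3
    interval_cases (k % 4) <;> simp
  have hbsq : b ^ 2 = a ^ 2 := by
    have h1 : b ^ 2 ∈ zpowers a := Subgroup.sq_mem_of_index_two ha b
    rcases hmod _ h1 with h | h | h | h
    · exact absurd h hb2
    · exfalso
      apply ha2
      rw [← h, ← pow_mul]; exact hb4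
    · exact h
    · exfalso
      apply ha2
      have h3 : (b ^ 2) ^ 2 = 1 := by rw [← pow_mul]; exact hb4
      rw [h, ← pow_mul] at h3
      have h6 : a ^ (3 * 2) = a ^ 2 * a ^ 4 := by rw [← pow_add]
      rw [h6, ha4, mul_one] at h3
      exact h3
  have hbab : b * a * b⁻¹ = a⁻¹ := by
    have h1 : b * a * b⁻¹ ∈ zpowers a := hU.conj_mem a (mem_zpowers a) b
    have hsq : (b * a * b⁻¹) ^ 2 ≠ 1 := by
      rw [conj_pow]
      intro h
      apply ha2
      have h2 : b * a ^ 2 * b⁻¹ * b = 1 * b := by rw [h]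
      simpa [mul_assoc] using h2
    rcases hmod _ h1 with h | h | h | h
    · exfalso; apply hsq; rw [h]; simp
    · exfalso
      have h3 := comm_le_of_index_two ha hAab hinv ⊥ bot_le (by
        intro y hy
        obtain ⟨k, rfl⟩ := mem_zpowers_iff.mp hy
        have hc : Commute b a := by
          rw [mul_inv_eq_iff_eq_mul] at h
          exact h
        rw [mem_bot, mul_inv_eq_one, mul_inv_eq_iff_eq_mul]
        exact (hc.zpow_right k).eq)
      apply hS'ne
      rw [le_bot_iff.mp h3]; exact Subgroup.card_bot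
    · exfalso; apply hsq; rw [h, ← pow_mul]
      have : a ^ (2 * 2) = a ^ 4 := by norm_num
      rw [this, ha4]
    · rw [h, eq_inv_iff_mul_eq_one, ← pow_succ]
      exact ha4
  obtain ⟨e⟩ := Cfsg.Agent.S3995.q8_iso (b := a) (y := b) (by rw [hn]; norm_num) hbsq hbab hinv (by
    intro g
    by_cases hg : g ∈ zpowers a
    · exact Or.inl hg
    · right
      rw [Subgroup.mul_mem_iff_of_index_two ha]
      have : b⁻¹ ∉ zpowers a := fun h => hinv (by simpa using inv_mem h)
      simp [hg, this])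
  exact ⟨e.symm⟩

end Cfsg.Agent.S4189
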