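import Cfsg.Statements.S4196
import Mathlib
import Cfsg.Agent.S4195
import Cfsg.Agent.Lib.ClassSizes.Basic

set_option autoImplicit false
open Cfsg

namespace Cfsg.Agent.S4196

open Cfsg.Agent.Lib.ClassSizes in
/-- A finite group G has elementary abelian Sylow 2-subgroups (commutative with every element squaring to the identity) if and only if every 2-element of G has a Sylow 2-subgroup in its centralizer and is conjugate to its inverse. -/
theorem result {G : Type*} [Group G] [Finite G] (P : Sylow 2 G) :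
    (IsMulCommutative (P : Subgroup G) ∧ ∀ x ∈ (P : Subgroup G), x ^ 2 = 1) ↔
      ∀ x : G, (∃ k : ℕ, orderOf x = 2 ^ k) → (∃ Q : Sylow 2 G, (Q : Subgroup G) ≤ Subgroup.centralizer ({x} : Set G)) ∧ IsConj x x⁻¹ := by
  haveI : Fact (Nat.Prime 2) := ⟨Nat.prime_two⟩
  constructor
  · rintro ⟨-, h2⟩ x hx
    obtain ⟨Q, hQ⟩ := exists_sylow_mem_of_orderOf (p := 2) hx
    obtain ⟨g, rfl⟩ := MulAction.exists_smul_eq G P Q
    have hsq : ∀ y ∈ g • P, y ^ 2 = 1 := by
      intro y hy
      have h3 := h2 _ (mem_sylow_smul_iff.mp hy)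
      have h4 : (g⁻¹ * y * g) ^ 2 = g⁻¹ * y ^ 2 * g := by
        simp [sq, mul_assoc]
      rw [h4] at h3
      have : y ^ 2 = g * (g⁻¹ * y ^ 2 * g) * g⁻¹ := by group
      rw [this, h3]; simp
    have hcomm : ∀ a ∈ g • P, ∀ b ∈ g • P, a * b = b * a := by
      intro a ha b hb
      have h1 := hsq _ ((g • P : Sylow 2 G).toSubgroup.mul_mem ha hb)
      have ha' := hsq a ha
      have hb' := hsq b hb
      rw [sq] at h1 ha' hb'
      have hai : a⁻¹ = a := inv_eq_of_mul_eq_one_left ha'
      have hbi : b⁻¹ = b := inv_eq_of_mul_eq_one_left hb'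
      have : (a * b)⁻¹ = a * b := inv_eq_of_mul_eq_one_left h1
      rw [mul_inv_rev, hai, hbi] at this
      exact this.symm
    refine ⟨⟨g • P, ?_⟩, ?_⟩
    · intro y hy
      rw [Subgroup.mem_centralizer_singleton_iff]
      exact hcomm _ hy _ hQ
    · have : x⁻¹ = x := inv_eq_of_mul_eq_one_left (by rw [← sq]; exact hsq x hQ)
      rw [this]
  · intro h
    have hsq : ∀ x ∈ (P : Subgroup G), x ^ 2 = 1 := by
      intro x hx
      by_cases hx1 : x = 1
      · simp [hx1]
      have hk := exists_orderOf_eq_prime_pow_of_mem P.isPGroup' hx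
      obtain ⟨⟨Q, hQ⟩, hr⟩ := h x hk
      have := Cfsg.Agent.S4195.result x hx1 Q hQ hr
      rw [← this]; exact pow_orderOf_eq_one x
    refine ⟨⟨⟨fun a b => ?_⟩⟩, hsq⟩
    have h1 := hsq _ ((P : Subgroup G).mul_mem a.2 b.2)
    have ha' := hsq _ a.2
    have hb' := hsq _ b.2
    rw [sq] at h1 ha' hb'
    have hai : (a : G)⁻¹ = a := inv_eq_of_mul_eq_one_left ha'
    have hbi : (b : G)⁻¹ = b := inv_eq_of_mul_eq_one_left hb'
    have : ((a : G) * b)⁻¹ = a * b := inv_eq_of_mul_eq_one_left h1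
    rw [mul_inv_rev, hai, hbi] at this
    exact Subtype.ext this.symm

end Cfsg.Agent.S4196
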