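import Cfsg.Statements.S4230
import Mathlib

set_option autoImplicit false
open Cfsg

namespace Cfsg.Agent.S4230

/-- Let p be an odd prime, q a natural number not divisible by p, and e the multiplicative order of q modulo p. For a natural number f, p divides the value at q of the f-th cyclotomic polynomial if and only if f = e·p^j for some j ≥ 0. -/
theorem result (p q f : ℕ) (hp : p.Prime) (hp2 : p ≠ 2) (hpq : ¬ p ∣ q) :
    ((p : ℤ) ∣ (Polynomial.cyclotomic f ℤ).eval (q : ℤ)) ↔ ∃ j : ℕ, f = orderOf (q : ZMod p) * p ^ j := by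
  haveI : Fact p.Prime := ⟨hp⟩
  have hq : (q : ZMod p) ≠ 0 := by
    rwa [Ne, ZMod.natCast_eq_zero_iff]
  have heval : ∀ n, ((p : ℤ) ∣ (Polynomial.cyclotomic n ℤ).eval (q : ℤ)) ↔
      (Polynomial.cyclotomic n (ZMod p)).eval (q : ZMod p) = 0 := by
    intro n
    rw [← ZMod.intCast_zmod_eq_zero_iff_dvd, ← Polynomial.map_cyclotomic_int n (ZMod p)]
    have := Polynomial.eval_intCast_map (Int.castRingHom (ZMod p)) (Polynomial.cyclotomic n ℤ) (q : ℤ)
    rw [Int.cast_natCast] at this
    rw [this]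
    rfl
  have hroot : ∀ m, ¬ p ∣ m → ((Polynomial.cyclotomic m (ZMod p)).eval (q : ZMod p) = 0 ↔
      orderOf (q : ZMod p) = m) := by
    intro m hm
    haveI : NeZero (m : ZMod p) := ⟨by rwa [Ne, ZMod.natCast_eq_zero_iff]⟩
    rw [← Polynomial.IsRoot.def, Polynomial.isRoot_cyclotomic_iff]
    constructor
    · intro h
      exact h.eq_orderOf.symm
    · intro h
      rw [← h]
      exact IsPrimitiveRoot.orderOf _
  have hmul : ∀ j m, ¬ p ∣ m → ((Polynomial.cyclotomic (p ^ j * m) (ZMod p)).eval (q : ZMod p) = 0 ↔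
      (Polynomial.cyclotomic m (ZMod p)).eval (q : ZMod p) = 0) := by
    intro j m hm
    rcases Nat.eq_zero_or_pos j with rfl | hj
    · simp
    · rw [Polynomial.cyclotomic_mul_prime_pow_eq (ZMod p) hm hj, Polynomial.eval_pow]
      have hpos : p ^ j - p ^ (j - 1) ≠ 0 := by
        have : p ^ (j - 1) < p ^ j := Nat.pow_lt_pow_right hp.one_lt (by omega)
        omega
      exact pow_eq_zero_iff hpos
  have hordnd : ¬ p ∣ orderOf (q : ZMod p) := by
    intro h
    have h1 := ZMod.orderOf_dvd_card_sub_one hq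
    have h2 := Nat.le_of_dvd (by have := hp.two_le; omega) (h.trans h1)
    have := hp.two_le
    omega
  rw [heval]
  constructor
  · intro h
    rcases Nat.eq_zero_or_pos f with rfl | hf
    · simp at h
    · obtain ⟨j, m, hm, rfl⟩ := Nat.exists_eq_pow_mul_and_not_dvd hf.ne' p hp.ne_one
      rw [hmul j m hm, hroot m hm] at h
      exact ⟨j, by rw [h, mul_comm]⟩
  · rintro ⟨j, rfl⟩
    rw [mul_comm, hmul j _ hordnd, hroot _ hordnd]

end Cfsg.Agent.S4230
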