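import Cfsg.Statements.S4237
import Mathlib
import Cfsg.Agent.Lib.ClassSizes.Kulakoff

set_option autoImplicit false
open Cfsg

namespace Cfsg.Agent.S4237

/-- Let G be a finite group, p a prime and a a natural number such that p^(a+1) divides the order of G. Then the number of subgroups of G of order p^a is congruent to 1 or to 1 + p modulo p². -/
theorem result {G : Type*} [Group G] [Finite G] (p a : ℕ) (hp : p.Prime) (hdvd : p ^ (a + 1) ∣ Nat.card G) :
    Nat.card {H : Subgroup G // Nat.card H = p ^ a} ≡ 1 [MOD p ^ 2] ∨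
      Nat.card {H : Subgroup G // Nat.card H = p ^ a} ≡ 1 + p [MOD p ^ 2] := by
  haveI : Fact p.Prime := ⟨hp⟩
  by_cases hp2 : p = 2
  · subst hp2
    have h1 := Cfsg.Agent.S3975.result (G := G) 2 a hp ((pow_dvd_pow 2 (Nat.le_succ a)).trans hdvd)
    have h2 : Nat.card {H : Subgroup G // Nat.card H = 2 ^ a} % 2 = 1 := h1
    unfold Nat.ModEq
    omega
  obtain ⟨S⟩ : Nonempty (Sylow p G) := inferInstance
  have hP : IsPGroup p (S : Subgroup G) := S.isPGroup'
  have hS : ∀ Q : Subgroup G, IsPGroup p Q → Nat.card Q ≤ Nat.card (S : Subgroup G) := by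
    intro Q hQ
    obtain ⟨R, hR⟩ := hQ.exists_le_sylow
    have h1 := Subgroup.card_le_of_le hR
    have h2 : Nat.card (R : Subgroup G) = Nat.card (S : Subgroup G) := by
      rw [Sylow.card_eq_multiplicity, Sylow.card_eq_multiplicity]
    omega
  have hdiv : p ^ (a + 1) ∣ Nat.card (S : Subgroup G) := S.pow_dvd_card_of_pow_dvd_card hdvd
  have h := Lib.ClassSizes.KulSylow.card_modEq_sylow hP hS hdiv
  obtain ⟨n, hn⟩ := IsPGroup.iff_card.1 hP
  have han : a + 1 ≤ n := by
    rw [hn] at hdiv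
    exact (Nat.pow_dvd_pow_iff_le_right hp.one_lt).1 hdiv
  by_cases hcy : IsCyclic (S : Subgroup G)
  · left
    rw [Lib.ClassSizes.Kulakoff.cyc_count hn (by omega)] at h
    exact h
  by_cases ha : a = 0
  · left
    subst ha
    have h1 : Nat.card {H : Subgroup (S : Subgroup G) // Nat.card H = p ^ 0} = 1 := by
      rw [Nat.card_eq_one_iff_unique]
      refine ⟨⟨fun A B => Subtype.ext ?_⟩, ⟨⟨⊥, by simp⟩⟩⟩
      rw [Subgroup.eq_bot_of_card_eq A.1 (by simpa using A.2), Subgroup.eq_bot_of_card_eq B.1 (by simpa using B.2)]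
    rwa [h1] at h
  · right
    exact h.trans (Lib.ClassSizes.Kulakoff.kulakoff hp2 n _ hn hcy a (by omega) (by omega))

end Cfsg.Agent.S4237
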