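import Cfsg.Statements.S4238
import Mathlib
import Cfsg.Agent.Lib.ClassSizes.SectionExp

set_option autoImplicit false
open Cfsg

namespace Cfsg.Agent.S4238

/-- Let G be a finite group and p a prime. Then G has a normal p-complement if and only if every section K = H/N of G (N a normal subgroup of a subgroup H) whose largest normal subgroup of order prime to p is trivial contains an element whose order equals the exponent of K. -/
theorem result {G : Type*} [Group G] [Finite G] (p : ℕ) [Fact p.Prime] :
    Cfsg.HasNormalPComplement p G ↔
      ∀ (H : Subgroup G) (N : Subgroup H) [N.Normal], Cfsg.pPrimeCore p (H ⧸ N) = ⊥ →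
        ∃ k : H ⧸ N, orderOf k = Monoid.exponent (H ⧸ N) := by
  exact Cfsg.Agent.Lib.ClassSizes.SectionExp.hasNormalPComplement_iff_sections

end Cfsg.Agent.S4238
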