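import Cfsg.Statements.S4249
import Cfsg.Agent.Lib.Kegel.Basic
import Mathlib

set_option autoImplicit false
open Cfsg

namespace Cfsg.Agent.S4249

/-- Let G be a finite group and p a prime such that G is not a p-group, and suppose the Hughes subgroup H_p(G), generated by all elements g with g^p ≠ 1, is a proper subgroup. Then H_p(G) is nilpotent and has index p in G. -/
theorem result {G : Type*} [Group G] [Finite G] (p : ℕ) (hp : p.Prime) (hG : ¬ IsPGroup p G)
    (hH : Subgroup.closure {g : G | g ^ p ≠ 1} ≠ ⊤) :
    Group.IsNilpotent (Subgroup.closure {g : G | g ^ p ≠ 1}) ∧ (Subgroup.closure {g : G | g ^ p ≠ 1}).index = p := by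
  set K := Subgroup.closure {g : G | g ^ p ≠ 1} with hK
  haveI hKn : K.Normal := by
    refine ⟨fun n hn g => ?_⟩
    induction hn using Subgroup.closure_induction with
    | mem x hx =>
      apply Subgroup.subset_closure
      show (g * x * g⁻¹) ^ p ≠ 1
      rw [conj_pow]
      intro h
      apply hx
      have := congrArg (fun t => g⁻¹ * t * g) h
      simpa [mul_assoc] using this
    | one => simp [K.one_mem]
    | mul x y _ _ hx hy =>
      have e : g * (x * y) * g⁻¹ = (g * x * g⁻¹) * (g * y * g⁻¹) := by group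
      rw [e]
      exact K.mul_mem hx hy
    | inv x _ hx =>
      have e : g * x⁻¹ * g⁻¹ = (g * x * g⁻¹)⁻¹ := by group
      rw [e]
      exact K.inv_mem hx
  obtain ⟨b, hb⟩ : ∃ b, b ∉ K := by
    by_contra hcon
    push Not at hcon
    exact hH (eq_top_iff.2 fun x _ => hcon x)
  have hL : ∀ x, x ∉ K → x ^ p = 1 := by
    intro x hx
    by_contra h
    exact hx (Subgroup.subset_closure h)
  exact ⟨Cfsg.Agent.Lib.Kegel.kegel hp K hb hL, Cfsg.Agent.Lib.Kegel.index_eq_prime hp K hb hL hG⟩

end Cfsg.Agent.S4249
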