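import Cfsg.Statements.S4252
import Mathlib
import Cfsg.Agent.Lib.ClassSizes.Basic

set_option autoImplicit false
open Cfsg
open scoped Pointwise

namespace Cfsg.Agent.S4252

/-- Let a finite group G act on a finite set Ω with more than one point, transitively but not regularly, so that no non-identity element of G fixes two distinct points. Then the stabilizer H of any point is a Frobenius complement in G (nontrivial, proper, meeting its other conjugates trivially), and the Frobenius kernel of G with respect to H (the identity together with the elements lying in no conjugate of H) is exactly the set consisting of the identity and the elements fixing no point. -/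
theorem result {G Ω : Type*} [Group G] [Finite G] [Fintype Ω] [MulAction G Ω] (hΩ : 1 < Fintype.card Ω)
    (htrans : ∀ α β : Ω, ∃ g : G, g • α = β) (hnreg : ∃ g : G, g ≠ 1 ∧ ∃ α : Ω, g • α = α)
    (hfix : ∀ g : G, g ≠ 1 → ∀ α β : Ω, g • α = α → g • β = β → α = β) (α : Ω) :
    Cfsg.IsFrobeniusComplement (MulAction.stabilizer G α) ∧
      Cfsg.frobeniusKernel (MulAction.stabilizer G α) = {g : G | g = 1 ∨ ∀ ω : Ω, g • ω ≠ ω} := by
  have hconj : ∀ (g x : G), x ∈ MulAut.conj g • MulAction.stabilizer G α ↔ x • (g • α) = g • α := by
    intro g x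
    rw [Cfsg.Agent.Lib.ClassSizes.mem_conj_smul_iff, MulAction.mem_stabilizer_iff]
    constructor
    · intro h
      have : x • (g • α) = g • ((g⁻¹ * x * g) • α) := by
        simp [mul_smul]
      rw [this, h]
    · intro h
      simp only [mul_smul]
      rw [h]; simp
  refine ⟨⟨?_, ?_, ?_⟩, ?_⟩
  · intro h
    obtain ⟨g, hg1, β, hβ⟩ := hnreg
    obtain ⟨c, hc⟩ := htrans α β
    have : c⁻¹ * g * c ∈ MulAction.stabilizer G α := by
      rw [MulAction.mem_stabilizer_iff]
      simp only [mul_smul]
      rw [hc, hβ, ← hc]; simp
    rw [h, Subgroup.mem_bot] at this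
    apply hg1
    have h2 : g = c * (c⁻¹ * g * c) * c⁻¹ := by group
    rw [h2, this]; simp
  · intro h
    obtain ⟨β, hβ⟩ : ∃ β : Ω, β ≠ α := by
      have := Fintype.one_lt_card_iff_nontrivial.mp hΩ
      exact exists_ne α
    obtain ⟨c, hc⟩ := htrans α β
    have : c ∈ MulAction.stabilizer G α := by rw [h]; trivial
    rw [MulAction.mem_stabilizer_iff, hc] at this
    exact hβ this
  · intro g hg
    rw [eq_bot_iff]
    rintro x ⟨hx1, hx2⟩
    rw [Subgroup.mem_bot]
    by_contra hx
    have h1 : x • α = α := hx1
    have h2 : x • (g • α) = g • α := (hconj g x).mp hx2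
    have := hfix x hx α (g • α) h1 h2
    apply hg
    rw [MulAction.mem_stabilizer_iff]
    exact this.symm
  · ext x
    simp only [Cfsg.frobeniusKernel, Set.mem_setOf_eq]
    constructor
    · rintro (h | h)
      · exact Or.inl h
      · refine Or.inr fun ω hω => ?_
        obtain ⟨c, hc⟩ := htrans α ω
        apply h c
        rw [hconj, hc]
        exact hω
    · rintro (h | h)
      · exact Or.inl h
      · refine Or.inr fun g hg => ?_
        exact h _ ((hconj g x).mp hg)

end Cfsg.Agent.S4252
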