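import Cfsg.Statements.S4253
import Mathlib
import Cfsg.Agent.Lib.ClassSizes.Basic

set_option autoImplicit false
open Cfsg
open scoped Pointwise

namespace Cfsg.Agent.S4253

/-- Let H be a Frobenius complement in a finite group G (a nontrivial proper subgroup meeting each conjugate gHg⁻¹ with g outside H trivially). Then in the action of G on the left cosets of H by left multiplication, no non-identity element of G fixes two distinct cosets. -/
theorem result {G : Type*} [Group G] [Finite G] (H : Subgroup G) (hH : Cfsg.IsFrobeniusComplement H)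
    (g : G) (hg : g ≠ 1) (a b : G ⧸ H) (ha : g • a = a) (hb : g • b = b) : a = b := by
  induction a using QuotientGroup.induction_on with
  | H x =>
  induction b using QuotientGroup.induction_on with
  | H y =>
  have h1 : x⁻¹ * (g * x) ∈ H := by
    have : ((g * x : G) : G ⧸ H) = (x : G ⧸ H) := ha
    exact QuotientGroup.eq.mp this.symm
  have h2 : y⁻¹ * (g * y) ∈ H := by
    have : ((g * y : G) : G ⧸ H) = (y : G ⧸ H) := hb
    exact QuotientGroup.eq.mp this.symm
  by_contra hne
  have hz : y⁻¹ * x ∉ H := by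
    intro hz
    apply hne
    apply QuotientGroup.eq.mpr
    have : x⁻¹ * y = (y⁻¹ * x)⁻¹ := by group
    rw [this]
    exact H.inv_mem hz
  have h3 := hH.2.2 _ hz
  have h4 : y⁻¹ * (g * y) ∈ H ⊓ (MulAut.conj (y⁻¹ * x) • H) := by
    refine Subgroup.mem_inf.mpr ⟨h2, ?_⟩
    rw [Cfsg.Agent.Lib.ClassSizes.mem_conj_smul_iff]
    have : (y⁻¹ * x)⁻¹ * (y⁻¹ * (g * y)) * (y⁻¹ * x) = x⁻¹ * (g * x) := by group
    rw [this]
    exact h1
  rw [h3, Subgroup.mem_bot] at h4
  apply hg
  have : g = y * (y⁻¹ * (g * y)) * y⁻¹ := by group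
  rw [this, h4]; simp

end Cfsg.Agent.S4253
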