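import Cfsg.Statements.S4261
import Mathlib
import Cfsg.Agent.Lib.Core.MinNormal2

set_option autoImplicit false
open Cfsg

namespace Cfsg.Agent.S4261

/-- Let M be a maximal subgroup of a finite solvable group G such that x^[G : M] lies in M for every x in G. Then M is normal in G. -/
theorem result {G : Type*} [Group G] [Finite G] (hG : Group.IsSolvable G) (M : Subgroup G) (hM : IsCoatom M)
    (hexp : ∀ x : G, x ^ M.index ∈ M) : M.Normal := by
  classical
  haveI := hG
  obtain ⟨p, n, hp, hn, hk⟩ := Cfsg.Agent.Lib.Core.isPrimePow_index_of_coatom M hM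
  have hp' : p.Prime := hp.nat_prime
  haveI : Fact p.Prime := ⟨hp'⟩
  have hK : ∀ x : G, x ^ M.index ∈ M.normalCore := by
    intro x g
    have := hexp (g * x * g⁻¹)
    rwa [conj_pow] at this
  have hpG : IsPGroup p (G ⧸ M.normalCore) := by
    intro g
    obtain ⟨x, rfl⟩ := QuotientGroup.mk_surjective g
    refine ⟨n, ?_⟩
    rw [← QuotientGroup.mk_pow, hk, QuotientGroup.eq_one_iff]
    exact hK x
  haveI hNil : Group.IsNilpotent (G ⧸ M.normalCore) := hpG.isNilpotent
  let φ := QuotientGroup.mk' M.normalCore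
  have hφ : Function.Surjective φ := QuotientGroup.mk'_surjective _
  have hcm : (M.map φ).comap φ = M := by
    rw [Subgroup.comap_map_eq_self]
    simpa [φ] using M.normalCore_le
  have hne : M.map φ ≠ ⊤ := fun h => hM.1 (by rw [← hcm, h, Subgroup.comap_top])
  have h1 := Group.normalizerCondition_of_isNilpotent (G := G ⧸ M.normalCore) (M.map φ)
    (lt_top_iff_ne_top.mpr hne)
  obtain ⟨y, hy, hy2⟩ := SetLike.exists_of_lt h1
  obtain ⟨g, rfl⟩ := hφ y
  have h2 : M < (Subgroup.normalizer ((M.map φ : Subgroup (G ⧸ M.normalCore)) : Set (G ⧸ M.normalCore))).comap φ := by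
    refine lt_of_le_of_ne ?_ ?_
    · intro m hm
      exact Subgroup.le_normalizer (Subgroup.mem_map_of_mem φ hm)
    · intro heq
      have hgM : g ∈ M := by
        rw [heq]; exact hy
      exact hy2 (Subgroup.mem_map_of_mem φ hgM)
  have h3 := hM.2 _ h2
  have h4 : Subgroup.normalizer ((M.map φ : Subgroup (G ⧸ M.normalCore)) : Set (G ⧸ M.normalCore)) = ⊤ := by
    rw [eq_top_iff]
    intro z _
    obtain ⟨w, rfl⟩ := hφ z
    have : w ∈ (Subgroup.normalizer ((M.map φ : Subgroup (G ⧸ M.normalCore)) : Set (G ⧸ M.normalCore))).comap φ := by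
      rw [h3]; trivial
    exact this
  haveI h5 : (M.map φ).Normal := Subgroup.normalizer_eq_top_iff.mp h4
  rw [← hcm]
  exact Subgroup.Normal.comap h5 φ

end Cfsg.Agent.S4261
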