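import Cfsg.Statements.S4262
import Mathlib
import Cfsg.Agent.Lib.ClassSizes.SylowNumber

set_option autoImplicit false
open Cfsg

namespace Cfsg.Agent.S4262

open Subgroup MulAction
open Cfsg.Agent.Lib.ClassSizes
open scoped IsMulCommutative Pointwise

variable {G : Type*} [Group G] [Finite G]

/-- Abbreviation: the centralizer of an element. -/
abbrev Cz (g : G) : Subgroup G := centralizer ({g} : Set G)

theorem mem_Cz {g x : G} : x ∈ Cz g ↔ x * g = g * x := by
  rw [mem_centralizer_singleton_iff]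

theorem self_mem_Cz (g : G) : g ∈ Cz g := mem_Cz.2 rfl

theorem pow_mem_Cz_self (g : G) (n : ℕ) : g ^ n ∈ Cz g := (Cz g).pow_mem (self_mem_Cz g) n

/-- For commuting elements of coprime orders, each one is a power of their product. -/
theorem exists_pow_mul_eq {a b : G} (hab : a * b = b * a) (hco : Nat.Coprime (orderOf a) (orderOf b)) :
    ∃ k : ℕ, (a * b) ^ k = a := by
  obtain ⟨k, hk1, hk2⟩ := Nat.chineseRemainder hco 1 0
  refine ⟨k, ?_⟩
  have hc : Commute a b := hab
  rw [hc.mul_pow]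
  have h1 : a ^ k = a ^ 1 := (pow_eq_pow_iff_modEq).2 hk1
  have h2 : b ^ k = b ^ 0 := (pow_eq_pow_iff_modEq).2 hk2
  rw [h1, h2, pow_one, pow_zero, mul_one]

theorem Cz_le_Cz_pow (g : G) (n : ℕ) : Cz g ≤ Cz (g ^ n) := by
  intro x hx
  rw [mem_Cz] at hx ⊢
  have : Commute x g := hx
  exact (this.pow_right n).eq

section TrivialCenter

variable (hZ : center G = ⊥) (h : ∀ g : G, g ∉ center G → IsCoatom (Cz g))

include hZ h in
theorem coatom_of_ne_one {g : G} (hg : g ≠ 1) : IsCoatom (Cz g) := by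
  apply h
  rw [hZ, mem_bot]
  exact hg

include hZ h in
theorem Cz_eq_of_le {g u : G} (hg : g ≠ 1) (hu : u ≠ 1) (hle : Cz g ≤ Cz u) : Cz u = Cz g := by
  have h1 := coatom_of_ne_one hZ h hg
  have h2 := coatom_of_ne_one hZ h hu
  by_contra hne
  exact h2.1 (h1.2 _ (lt_of_le_of_ne hle (Ne.symm hne)))

include hZ h in
/-- Elements of coprime orders that commute have the same centralizer. -/
theorem Cz_eq_of_coprime {a b : G} (ha : a ≠ 1) (hb : b ≠ 1) (hab : a * b = b * a)
    (hco : Nat.Coprime (orderOf a) (orderOf b)) : Cz a = Cz b := by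
  have hy : a * b ≠ 1 := by
    intro hy
    have h1 : a = b⁻¹ := eq_inv_of_mul_eq_one_left hy
    have h2 : orderOf a = orderOf b := by rw [h1, orderOf_inv]
    rw [h2, Nat.coprime_self] at hco
    apply hb
    exact orderOf_eq_one_iff.1 hco
  obtain ⟨k, hk⟩ := exists_pow_mul_eq hab hco
  obtain ⟨l, hl⟩ := exists_pow_mul_eq (a := b) (b := a) hab.symm hco.symm
  rw [← hab] at hl
  have h1 : Cz (a * b) ≤ Cz a := by
    have := Cz_le_Cz_pow (a * b) k
    rwa [hk] at this
  have h2 : Cz (a * b) ≤ Cz b := by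
    have := Cz_le_Cz_pow (a * b) l
    rwa [hl] at this
  rw [Cz_eq_of_le hZ h hy ha h1, Cz_eq_of_le hZ h hy hb h2]

/-- Prime power criterion. -/
theorem exists_orderOf_eq_pow {x : G} {p : ℕ} (hp : p.Prime)
    (hx : ∀ s : ℕ, s.Prime → s ∣ orderOf x → s = p) : ∃ k : ℕ, orderOf x = p ^ k := by
  have h0 : orderOf x ≠ 0 := (orderOf_pos x).ne'
  refine ⟨(orderOf x).factorization p, ?_⟩
  refine Nat.eq_of_factorization_eq h0 (pow_ne_zero _ hp.ne_zero) (fun s => ?_)
  by_cases hs : s = p
  · subst hs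
    simp [hp.factorization_pow]
  · rw [hp.factorization_pow]
    simp only [Finsupp.single_apply, if_neg (Ne.symm hs)]
    by_contra hne
    have hs1 : s ∈ (orderOf x).factorization.support := Finsupp.mem_support_iff.2 hne
    rw [Nat.support_factorization, Nat.mem_primeFactors] at hs1
    exact hs (hx s hs1.1 hs1.2.1)

/-- A power of `x` of prime order `s`. -/
theorem exists_pow_orderOf_prime {x : G} {s : ℕ} (hs : s.Prime) (hd : s ∣ orderOf x) :
    ∃ b : G, (∃ n : ℕ, b = x ^ n) ∧ orderOf b = s := by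
  refine ⟨x ^ (orderOf x / s), ⟨_, rfl⟩, ?_⟩
  exact orderOf_pow_orderOf_div (orderOf_pos x).ne' hd

include hZ h in
/-- A non-abelian centralizer is a `p`-group. -/
theorem isPGroup_of_not_comm {g : G} (hg : g ≠ 1) (hna : ¬ ∀ x ∈ Cz g, ∀ y ∈ Cz g, x * y = y * x) :
    ∃ p : ℕ, p.Prime ∧ ∀ x ∈ Cz g, ∃ k : ℕ, orderOf x = p ^ k := by
  classical
  have hg1 : orderOf g ≠ 1 := fun h1 => hg (orderOf_eq_one_iff.1 h1)
  set p := (orderOf g).minFac with hp
  have hpp : p.Prime := Nat.minFac_prime hg1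
  refine ⟨p, hpp, ?_⟩
  -- the central subgroup of `Cz g`
  set A : Subgroup G := centralizer ((Cz g : Subgroup G) : Set G) with hA
  have hgA : g ∈ A := by
    rw [hA, mem_centralizer_iff]
    intro v hv
    exact mem_Cz.1 hv
  have hCzA : ∀ u ∈ A, u ≠ 1 → Cz u = Cz g := by
    intro u hu hu1
    apply Cz_eq_of_le hZ h hg hu1
    intro v hv
    rw [mem_Cz]
    exact (mem_centralizer_iff.1 hu) v hv
  have hAM : A ≤ Cz g := by
    intro u hu
    rw [mem_Cz]
    exact ((mem_centralizer_iff.1 hu) g (self_mem_Cz g)).symm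
  obtain ⟨a₀, ⟨n₀, hn₀⟩, ha₀⟩ := exists_pow_orderOf_prime hpp (Nat.minFac_dvd (orderOf g))
  have ha₀A : a₀ ∈ A := by
    rw [hn₀]
    exact A.pow_mem hgA _
  have ha₀1 : a₀ ≠ 1 := by
    intro h1
    rw [h1, orderOf_one] at ha₀
    exact hpp.one_lt.ne ha₀
  -- elements of `Cz g` outside `A`
  have hout : ∀ x ∈ Cz g, x ∉ A → ∀ s : ℕ, s.Prime → s ∣ orderOf x → s = p := by
    intro x hx hxA s hs hsd
    by_contra hne
    obtain ⟨b, ⟨n, hn⟩, hb⟩ := exists_pow_orderOf_prime hs hsd
    have hb1 : b ≠ 1 := by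
      intro h1
      rw [h1, orderOf_one] at hb
      exact hs.one_lt.ne hb
    have hx1 : x ≠ 1 := by
      intro h1
      rw [h1] at hxA
      exact hxA A.one_mem
    have hbx : Cz b = Cz x := by
      apply Cz_eq_of_le hZ h hx1 hb1
      rw [hn]
      exact Cz_le_Cz_pow x n
    have hbM : b ∈ Cz g := by
      rw [hn]
      exact (Cz g).pow_mem hx n
    have hcomm : a₀ * b = b * a₀ := ((mem_centralizer_iff.1 ha₀A) b hbM).symm
    have hco : Nat.Coprime (orderOf a₀) (orderOf b) := by
      rw [ha₀, hb]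
      exact (Nat.coprime_primes hpp hs).2 (Ne.symm hne)
    have h3 := Cz_eq_of_coprime hZ h ha₀1 hb1 hcomm hco
    rw [hCzA a₀ ha₀A ha₀1, hbx] at h3
    apply hxA
    rw [hA, mem_centralizer_iff]
    intro v hv
    rw [h3] at hv
    exact mem_Cz.1 hv
  -- pick an element outside `A`
  obtain ⟨x₀, hx₀, hx₀A⟩ : ∃ x ∈ Cz g, x ∉ A := by
    by_contra hcon
    push Not at hcon
    apply hna
    intro x hx y hy
    exact ((mem_centralizer_iff.1 (hcon x hx)) y hy).symm
  have hx₀1 : x₀ ≠ 1 := by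
    intro h1
    rw [h1] at hx₀A
    exact hx₀A A.one_mem
  have hordx₀ : orderOf x₀ ≠ 1 := fun h1 => hx₀1 (orderOf_eq_one_iff.1 h1)
  have hsx₀ : p ∣ orderOf x₀ := by
    have h1 := hout x₀ hx₀ hx₀A _ (Nat.minFac_prime hordx₀) (Nat.minFac_dvd _)
    rw [← h1]
    exact Nat.minFac_dvd _
  obtain ⟨b₀, ⟨n, hn⟩, hb₀⟩ := exists_pow_orderOf_prime hpp hsx₀
  have hb₀1 : b₀ ≠ 1 := by
    intro h1
    rw [h1, orderOf_one] at hb₀
    exact hpp.one_lt.ne hb₀
  have hb₀x : Cz b₀ = Cz x₀ := by
    apply Cz_eq_of_le hZ h hx₀1 hb₀1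
    rw [hn]
    exact Cz_le_Cz_pow x₀ n
  have hb₀M : b₀ ∈ Cz g := by
    rw [hn]
    exact (Cz g).pow_mem hx₀ n
  have hx₀ne : Cz x₀ ≠ Cz g := by
    intro h3
    apply hx₀A
    rw [hA, mem_centralizer_iff]
    intro v hv
    rw [← h3] at hv
    exact mem_Cz.1 hv
  intro x hx
  by_cases hxA : x ∈ A
  · apply exists_orderOf_eq_pow hpp
    intro s hs hsd
    by_contra hne
    obtain ⟨a, ⟨m, hm⟩, ha⟩ := exists_pow_orderOf_prime hs hsd
    have haA : a ∈ A := by
      rw [hm]
      exact A.pow_mem hxA _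
    have ha1 : a ≠ 1 := by
      intro h1
      rw [h1, orderOf_one] at ha
      exact hs.one_lt.ne ha
    have hcomm : a * b₀ = b₀ * a := ((mem_centralizer_iff.1 haA) b₀ hb₀M).symm
    have hco : Nat.Coprime (orderOf a) (orderOf b₀) := by
      rw [ha, hb₀]
      exact (Nat.coprime_primes hs hpp).2 hne
    have h3 := Cz_eq_of_coprime hZ h ha1 hb₀1 hcomm hco
    rw [hCzA a haA ha1, hb₀x] at h3
    exact hx₀ne h3.symm
  · exact exists_orderOf_eq_pow hpp (hout x hx hxA)

include hZ h in
/-- The abelian maximal centralizer case. -/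
theorem solvable_of_comm_centralizer {g : G} (hg : g ≠ 1)
    (hab : ∀ x ∈ Cz g, ∀ y ∈ Cz g, x * y = y * x) (hnn : ¬ (Cz g).Normal) :
    Group.IsSolvable G := by
  classical
  set M : Subgroup G := Cz g with hM
  have hcoat : IsCoatom M := coatom_of_ne_one hZ h hg
  -- D1
  have hD1 : ∀ u ∈ M, u ≠ 1 → Cz u = M := by
    intro u hu hu1
    apply Cz_eq_of_le hZ h hg hu1
    intro v hv
    rw [mem_Cz]
    exact hab v hv u hu
  -- D2
  have hD2 : normalizer (M : Set G) = M := by
    by_contra hne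
    have h1 : M < normalizer (M : Set G) := lt_of_le_of_ne le_normalizer (Ne.symm hne)
    apply hnn
    exact normalizer_eq_top_iff.1 (hcoat.2 _ h1)
  -- D3
  have hD3 : ∀ x u : G, u ∈ M → x⁻¹ * u * x ∈ M → u ≠ 1 → x ∈ M := by
    intro x u hu hv hu1
    set v := x⁻¹ * u * x with hvdef
    have hv1 : v ≠ 1 := by
      intro h1
      apply hu1
      have : u = x * v * x⁻¹ := by rw [hvdef]; group
      rw [this, h1]
      group
    have hu2 := hD1 u hu hu1
    have hv2 := hD1 v hv hv1
    rw [← hD2, mem_normalizer_iff]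
    intro w
    constructor
    · intro hw
      rw [← hu2, mem_Cz]
      rw [← hv2, mem_Cz] at hw
      have h3 : u = x * v * x⁻¹ := by rw [hvdef]; group
      rw [h3]
      calc x * w * x⁻¹ * (x * v * x⁻¹) = x * (w * v) * x⁻¹ := by group
        _ = x * (v * w) * x⁻¹ := by rw [hw]
        _ = x * v * x⁻¹ * (x * w * x⁻¹) := by group
    · intro hw
      rw [← hv2, mem_Cz]
      rw [← hu2, mem_Cz] at hw
      rw [hvdef]
      calc w * (x⁻¹ * u * x) = x⁻¹ * ((x * w * x⁻¹) * u) * x := by group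
        _ = x⁻¹ * (u * (x * w * x⁻¹)) * x := by rw [hw]
        _ = x⁻¹ * u * x * w := by group
  -- gcd
  have hcop : Nat.Coprime (Nat.card M) M.index := by
    apply Nat.coprime_of_dvd
    intro q hq hq1 hq2
    haveI : Fact q.Prime := ⟨hq⟩
    obtain ⟨z, hz⟩ := exists_prime_orderOf_dvd_card' q hq1
    have hz' : orderOf (z : G) = q := by rw [Subgroup.orderOf_coe, hz]
    have hz1 : (z : G) ≠ 1 := by
      intro h1
      rw [h1, orderOf_one] at hz'
      exact hq.one_lt.ne hz'
    have hA : IsPGroup q (zpowers (z : G)) :=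
      IsPGroup.of_card (n := 1) (by rw [Nat.card_zpowers, hz', pow_one])
    have h1 := hA.card_modEq_card_fixedPoints (G ⧸ M)
    have hfix : Nat.card (fixedPoints (zpowers (z : G)) (G ⧸ M)) = 1 := by
      have hb : ((1 : G) : G ⧸ M) ∈ fixedPoints (zpowers (z : G)) (G ⧸ M) := by
        rintro ⟨a, n, rfl⟩
        change (((z : G) ^ n * 1 : G) : G ⧸ M) = ((1 : G) : G ⧸ M)
        rw [QuotientGroup.eq]
        simp only [mul_one]
        exact M.inv_mem (M.zpow_mem z.2 n)
      rw [Nat.card_eq_one_iff_unique]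
      refine ⟨⟨?_⟩, ⟨⟨_, hb⟩⟩⟩
      have hall : ∀ y : fixedPoints (zpowers (z : G)) (G ⧸ M), y = ⟨_, hb⟩ := by
        rintro ⟨y, hy⟩
        obtain ⟨x, rfl⟩ := QuotientGroup.mk_surjective y
        apply Subtype.ext
        have h2 := hy ⟨(z : G), mem_zpowers _⟩
        change (((z : G) * x : G) : G ⧸ M) = (x : G ⧸ M) at h2
        rw [QuotientGroup.eq] at h2
        have h3 : x⁻¹ * (z : G)⁻¹ * x ∈ M := by
          have : ((z : G) * x)⁻¹ * x = x⁻¹ * (z : G)⁻¹ * x := by group
          rwa [this] at h2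
        have h4 := hD3 x (z : G)⁻¹ (M.inv_mem z.2) h3 (inv_ne_one.2 hz1)
        change (x : G ⧸ M) = ((1 : G) : G ⧸ M)
        rw [QuotientGroup.eq]
        simpa using h4
      intro a b
      rw [hall a, hall b]
    rw [hfix, ← Subgroup.index_eq_card] at h1
    have h5 : M.index % q = 0 := Nat.mod_eq_zero_of_dvd hq2
    have h6 : M.index % q = 1 % q := h1
    rw [h5, Nat.mod_eq_of_lt hq.one_lt] at h6
    exact absurd h6 (by norm_num)
  -- the transfer
  haveI hcommM : IsMulCommutative M := ⟨⟨fun a b => Subtype.ext (hab a a.2 b b.2)⟩⟩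
  let V : G →* M := MonoidHom.transfer (MonoidHom.id M)
  have hVm : ∀ m ∈ M, ((V m : M) : G) = m ^ M.index := by
    intro m hm
    have key : ∀ (k : ℕ) (g₀ : G), g₀⁻¹ * m ^ k * g₀ ∈ M → g₀⁻¹ * m ^ k * g₀ = m ^ k := by
      intro k g₀ hg₀
      by_cases hk : m ^ k = 1
      · rw [hk]
        group
      have h1 := hD3 g₀ (m ^ k) (M.pow_mem hm k) hg₀ hk
      have h2 := hab g₀⁻¹ (M.inv_mem h1) (m ^ k) (M.pow_mem hm k)
      rw [h2]
      group
    have h3 := MonoidHom.transfer_eq_pow (MonoidHom.id M) m key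
    rw [show V m = MonoidHom.transfer (MonoidHom.id M) m from rfl, h3]
    rfl
  have hVM : ∀ m : M, V (m : G) = m ^ M.index := by
    intro m
    apply Subtype.ext
    rw [hVm m m.2]
    rfl
  set K : Subgroup G := V.ker with hK
  have hKM : ∀ m ∈ M, m ∈ K → m = 1 := by
    intro m hm hmK
    have h1 : ((V m : M) : G) = 1 := by
      rw [show V m = 1 from hmK]
      rfl
    rw [hVm m hm] at h1
    have h2 : orderOf m ∣ Nat.card M := Subgroup.orderOf_dvd_natCard _ hm
    have h3 := Nat.eq_one_of_dvd_coprimes hcop h2 (orderOf_dvd_of_pow_eq_one h1)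
    exact orderOf_eq_one_iff.1 h3
  have hVsurj : Function.Surjective V := by
    intro w
    obtain ⟨m, rfl⟩ := (powCoprime hcop).surjective w
    exact ⟨m, hVM m⟩
  have hKindex : K.index = Nat.card M := by
    rw [hK, Subgroup.index_ker, MonoidHom.range_eq_top.2 hVsurj]
    simp
  have hKcard : Nat.card K = M.index := by
    have h1 := Subgroup.card_mul_index K
    have h2 := Subgroup.card_mul_index M
    rw [hKindex, ← h2] at h1
    exact Nat.eq_of_mul_eq_mul_right Nat.card_pos (h1.trans (mul_comm _ _))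
  have hMne : M.index ≠ 1 := by
    intro h1
    exact hcoat.1 (Subgroup.index_eq_one.1 h1)
  obtain ⟨r, hr, hrd⟩ := Nat.exists_prime_and_dvd (n := Nat.card K) (by rw [hKcard]; exact hMne)
  haveI : Fact r.Prime := ⟨hr⟩
  obtain ⟨R₀⟩ : Nonempty (Sylow r K) := inferInstance
  set R : Subgroup G := (R₀ : Subgroup K).map K.subtype with hR
  have hRK : R ≤ K := by
    rintro _ ⟨x, _, rfl⟩
    exact x.2
  have hRne : R ≠ ⊥ := by
    intro h1
    have h2 : (R₀ : Subgroup K) = ⊥ := by
      rwa [hR, Subgroup.map_eq_bot_iff_of_injective _ K.subtype_injective] at h1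
    exact R₀.ne_bot_of_dvd_card hrd h2
  have hRp : IsPGroup r R := R₀.isPGroup'.map _
  have hFr : normalizer (R : Set G) ⊔ K = ⊤ := Sylow.normalizer_sup_eq_top R₀
  set W : Subgroup G := normalizer (R : Set G) with hW
  -- Schur--Zassenhaus in `W`
  have hWindex : (K.subgroupOf W).index = Nat.card M := by
    have h1 : K.relIndex (W ⊔ K) = K.relIndex W := Subgroup.relIndex_sup_right W K
    rw [hFr, Subgroup.relIndex_top_right, hKindex] at h1
    exact h1.symm
  have hWcard : Nat.card (K.subgroupOf W) ∣ M.index := by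
    rw [← hKcard]
    have h1 : Nat.card (K.subgroupOf W) = Nat.card ↥(K ⊓ W) := by
      rw [← Subgroup.subgroupOf_map_subtype, Subgroup.card_map_of_injective W.subtype_injective]
    rw [h1]
    exact Subgroup.card_dvd_of_le inf_le_left
  have hcoW : Nat.Coprime (Nat.card (K.subgroupOf W)) (K.subgroupOf W).index := by
    rw [hWindex]
    exact Nat.Coprime.coprime_dvd_left hWcard hcop.symm
  obtain ⟨Hc, hHc⟩ := Subgroup.exists_right_complement'_of_coprime hcoW
  have hHccard : Nat.card Hc = Nat.card M := by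
    rw [← hWindex]
    exact hHc.symm.index_eq_card.symm
  set C' : Subgroup G := Hc.map W.subtype with hC'
  have hC'card : Nat.card C' = Nat.card M :=
    (Subgroup.card_map_of_injective W.subtype_injective).trans hHccard
  have hC'W : C' ≤ W := by
    rintro _ ⟨x, _, rfl⟩
    exact x.2
  have hC'K : ∀ c ∈ C', c ∈ K → c = 1 := by
    rintro _ ⟨x, hx, rfl⟩ hxK
    have h1 : x ∈ K.subgroupOf W := hxK
    have h2 : x = 1 := hHc.disjoint.le_bot ⟨h1, hx⟩
    rw [h2]
    rfl
  have hC'comm : ∀ a ∈ C', ∀ b ∈ C', a * b = b * a := by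
    intro a ha b hb
    have h1 : a * b * (b * a)⁻¹ ∈ K := by
      change V (a * b * (b * a)⁻¹) = 1
      rw [map_mul, map_inv, map_mul, map_mul, hcommM.is_comm.comm (V a) (V b)]
      simp
    have h2 := hC'K _ (C'.mul_mem (C'.mul_mem ha hb) (C'.inv_mem (C'.mul_mem hb ha))) h1
    exact mul_inv_eq_one.1 h2
  have hMne1 : Nat.card M ≠ 1 := by
    intro h1
    have h2 : M = ⊥ := (Subgroup.eq_bot_of_card_eq M h1)
    apply hg
    have : g ∈ M := self_mem_Cz g
    rw [h2, mem_bot] at this
    exact this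
  set q := (Nat.card M).minFac with hq
  have hqp : q.Prime := Nat.minFac_prime hMne1
  haveI : Fact q.Prime := ⟨hqp⟩
  have hqM : q ∣ Nat.card M := Nat.minFac_dvd _
  have hqn : ¬ q ∣ M.index := fun h1 => hqp.one_lt.ne' (Nat.eq_one_of_dvd_coprimes hcop hqM h1)
  obtain ⟨c₀, hc₀⟩ := exists_prime_orderOf_dvd_card' (G := C') q (by rw [hC'card]; exact hqM)
  set c : G := (c₀ : G) with hc
  have hcC' : c ∈ C' := c₀.2
  have hco : orderOf c = q := by rw [hc, Subgroup.orderOf_coe, hc₀]
  have hc1 : c ≠ 1 := by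
    intro h1
    rw [h1, orderOf_one] at hco
    exact hqp.one_lt.ne hco
  obtain ⟨Q₀⟩ : Nonempty (Sylow q M) := inferInstance
  have hQ' : IsPGroup q ((Q₀ : Subgroup M).map M.subtype) := Q₀.isPGroup'.map _
  have hQ'i : ¬ q ∣ ((Q₀ : Subgroup M).map M.subtype).index := by
    rw [Subgroup.index_map_subtype]
    intro h1
    rcases (Nat.Prime.dvd_mul hqp).1 h1 with h2 | h2
    · exact Q₀.not_dvd_index h2
    · exact hqn h2
  let Qs : Sylow q G := hQ'.toSylow hQ'i
  have hzq : IsPGroup q (zpowers c) :=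
    IsPGroup.of_card (n := 1) (by rw [Nat.card_zpowers, hco, pow_one])
  obtain ⟨S', hS'⟩ := hzq.exists_le_sylow
  obtain ⟨t, ht⟩ := MulAction.exists_smul_eq G Qs S'
  have hcS' : c ∈ S' := hS' (mem_zpowers c)
  rw [← ht, mem_sylow_smul_iff] at hcS'
  have hc'M : t⁻¹ * c * t ∈ M := by
    obtain ⟨y, _, hy⟩ := hcS'
    rw [← hy]
    exact y.2
  have hc'1 : t⁻¹ * c * t ≠ 1 := by
    intro h1
    apply hc1
    have : c = t * (t⁻¹ * c * t) * t⁻¹ := by group
    rw [this, h1]
    group
  have hc'C := hD1 _ hc'M hc'1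
  have hcard2 : Nat.card (Cz c) = Nat.card M := by
    rw [← hc'C]
    refine Nat.card_congr ((MulAut.conj t⁻¹).toEquiv.subtypeEquiv ?_)
    intro a
    rw [mem_Cz, mem_Cz]
    simp only [MulEquiv.toEquiv_eq_coe, EquivLike.coe_coe, MulAut.conj_apply, inv_inv]
    constructor
    · intro h1
      calc t⁻¹ * a * t * (t⁻¹ * c * t) = t⁻¹ * (a * c) * t := by group
        _ = t⁻¹ * (c * a) * t := by rw [h1]
        _ = t⁻¹ * c * t * (t⁻¹ * a * t) := by group
    · intro h1
      calc a * c = t * (t⁻¹ * a * t * (t⁻¹ * c * t)) * t⁻¹ := by group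
        _ = t * (t⁻¹ * c * t * (t⁻¹ * a * t)) * t⁻¹ := by rw [h1]
        _ = c * a := by group
  have hC'Cz : C' ≤ Cz c := by
    intro a ha
    rw [mem_Cz]
    exact hC'comm a ha c hcC'
  have hC'eq : C' = Cz c :=
    Subgroup.eq_of_le_of_card_ge hC'Cz (by rw [hcard2, hC'card])
  have hcoat2 : IsCoatom (Cz c) := coatom_of_ne_one hZ h hc1
  have hRC : ¬ R ≤ Cz c := by
    intro h1
    apply hRne
    rw [eq_bot_iff]
    intro x hx
    rw [mem_bot]
    exact hC'K x (by rw [hC'eq]; exact h1 hx) (hRK hx)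
  have hsup : R ⊔ Cz c = ⊤ := by
    apply hcoat2.2
    refine lt_of_le_of_ne le_sup_right ?_
    intro h1
    apply hRC
    rw [h1]
    exact le_sup_left
  have hRN : R.Normal := by
    rw [← normalizer_eq_top_iff, eq_top_iff, ← hsup]
    apply sup_le le_normalizer
    rw [← hC'eq]
    exact hC'W
  -- conclusion
  let π := QuotientGroup.mk' R
  have hπ : Function.Surjective π := QuotientGroup.mk'_surjective R
  have hmap : (Cz c).map π = ⊤ := by
    have h1 : (R ⊔ Cz c).map π = ⊤ := by
      rw [hsup, Subgroup.map_top_of_surjective _ hπ]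
    rw [Subgroup.map_sup] at h1
    have h2 : R.map π = ⊥ := by
      rw [Subgroup.map_eq_bot_iff, QuotientGroup.ker_mk']
    rwa [h2, bot_sup_eq] at h1
  haveI hQsolv : Group.IsSolvable (G ⧸ R) := by
    apply Group.isSolvable_of_comm
    intro a b
    have ha : a ∈ (Cz c).map π := by rw [hmap]; trivial
    have hb : b ∈ (Cz c).map π := by rw [hmap]; trivial
    obtain ⟨a', ha', rfl⟩ := ha
    obtain ⟨b', hb', rfl⟩ := hb
    rw [← hC'eq] at ha' hb'
    rw [← map_mul, ← map_mul, hC'comm a' ha' b' hb']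
  haveI hRnil : Group.IsNilpotent R := hRp.isNilpotent
  exact Group.isSolvable_of_ker_le_range R.subtype π (by
    rw [QuotientGroup.ker_mk', Subgroup.range_subtype])

omit [Finite G] in
theorem card_center_le {p : ℕ} [hp : Fact p.Prime] [Finite G] (Q : Subgroup G) (hQ : IsPGroup p Q)
    (hna : ¬ ∀ x ∈ Q, ∀ y ∈ Q, x * y = y * x) :
    p ^ 2 * Nat.card (center Q) ≤ Nat.card Q := by
  have h1 := Subgroup.card_mul_index (center Q)
  obtain ⟨n, hn⟩ := IsPGroup.iff_card.1 hQ
  have hdvd : (center Q).index ∣ p ^ n := by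
    rw [← hn]
    exact Subgroup.index_dvd_card _
  obtain ⟨i, _, hi⟩ := (Nat.dvd_prime_pow hp.out).1 hdvd
  have hnc : (center Q) ≠ ⊤ := by
    intro h2
    apply hna
    intro x hx y hy
    have h3 : (⟨x, hx⟩ : Q) ∈ center Q := by rw [h2]; trivial
    have h4 := (mem_center_iff.1 h3) ⟨y, hy⟩
    exact (congrArg Subtype.val h4).symm
  have hi0 : i ≠ 0 := by
    rintro rfl
    rw [pow_zero, Subgroup.index_eq_one] at hi
    exact hnc hi
  have hi1 : i ≠ 1 := by
    rintro rfl
    rw [pow_one] at hi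
    haveI : IsCyclic (Q ⧸ center Q) := isCyclic_of_prime_card (p := p) (by
      rw [← Subgroup.index_eq_card]
      exact hi)
    have h5 : (QuotientGroup.mk' (center Q)).ker ≤ center Q := by
      rw [QuotientGroup.ker_mk']
    have h6 := (QuotientGroup.mk' (center Q)).isMulCommutative_of_isCyclic_of_ker_le_center h5
    apply hna
    intro x hx y hy
    exact congrArg Subtype.val (h6.is_comm.comm ⟨x, hx⟩ ⟨y, hy⟩)
  have h7 : 2 ≤ i := by omega
  rw [← h1, hi, mul_comm]
  exact Nat.mul_le_mul_left _ (Nat.pow_le_pow_right hp.out.pos h7)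

theorem sum_inv_sq_lt (S : Finset ℕ) (hS : ∀ p ∈ S, p.Prime) :
    ∑ p ∈ S, (1 / (p : ℚ) ^ 2) < 1 / 2 := by
  have key : ∀ N : ℕ, 17 ≤ N →
      ∑ n ∈ (Finset.range N).filter Nat.Prime, (1 / (n : ℚ) ^ 2) + 1 / ((N : ℚ) - 1) ≤
        1 / 4 + 1 / 9 + 1 / 25 + 1 / 49 + 1 / 121 + 1 / 169 + 1 / 16 := by
    intro N hN
    induction N, hN using Nat.le_induction with
    | base =>
      rw [Finset.sum_filter]
      simp only [Finset.sum_range_succ, Finset.sum_range_zero]
      norm_num
    | succ N hN ih =>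
      have hN' : (17 : ℚ) ≤ N := by exact_mod_cast hN
      rw [Finset.sum_filter] at ih ⊢
      rw [Finset.sum_range_succ]
      have h1 : (if N.Prime then (1 / (N : ℚ) ^ 2) else 0) ≤ 1 / (N : ℚ) ^ 2 := by
        split_ifs
        · exact le_rfl
        · positivity
      have h2 : 1 / (N : ℚ) ^ 2 + 1 / (((N + 1 : ℕ) : ℚ) - 1) ≤ 1 / ((N : ℚ) - 1) := by
        push_cast
        have h3 : (0 : ℚ) < N - 1 := by linarith
        have h4 : (0 : ℚ) < N := by linarith
        rw [add_sub_cancel_right, div_add_div _ _ (by positivity) (by positivity),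
          div_le_div_iff₀ (by positivity) h3]
        nlinarith
      linarith
  set M := max (S.sup id + 1) 17 with hM
  have hsub : S ⊆ (Finset.range M).filter Nat.Prime := by
    intro p hp
    rw [Finset.mem_filter, Finset.mem_range]
    refine ⟨?_, hS p hp⟩
    have h1 : p ≤ S.sup id := Finset.le_sup (f := id) hp
    have h2 : S.sup id + 1 ≤ M := le_max_left _ _
    omega
  have hM17 : 17 ≤ M := le_max_right _ _
  have h1 := key M hM17
  have h2 : ∑ p ∈ S, (1 / (p : ℚ) ^ 2) ≤ ∑ n ∈ (Finset.range M).filter Nat.Prime, (1 / (n : ℚ) ^ 2) :=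
    Finset.sum_le_sum_of_subset_of_nonneg hsub (fun _ _ _ => by positivity)
  have hM' : (17 : ℚ) ≤ M := by exact_mod_cast hM17
  have h3 : (0 : ℚ) ≤ 1 / ((M : ℚ) - 1) := by
    apply div_nonneg (by norm_num)
    linarith
  have h4 : (1 / 4 + 1 / 9 + 1 / 25 + 1 / 49 + 1 / 121 + 1 / 169 + 1 / 16 : ℚ) < 1 / 2 := by norm_num
  linarith

/-- Elements central in a non-abelian Sylow `p`-subgroup `R`. -/
def ZSet {p : ℕ} (R : Sylow p G) : Set G :=
  {u | (¬ ∀ x ∈ (R : Subgroup G), ∀ y ∈ (R : Subgroup G), x * y = y * x) ∧ u ∈ (R : Subgroup G) ∧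
    ∀ v ∈ (R : Subgroup G), u * v = v * u}

theorem ncard_ZSet_le {p : ℕ} [hp : Fact p.Prime] (R : Sylow p G) :
    p ^ 2 * (ZSet R).ncard ≤ Nat.card (R : Subgroup G) := by
  by_cases hna : ∀ x ∈ (R : Subgroup G), ∀ y ∈ (R : Subgroup G), x * y = y * x
  · have : ZSet R = ∅ := by
      apply Set.eq_empty_of_forall_notMem
      intro u h3
      exact h3.1 hna
    rw [this]
    simp
  · refine le_trans ?_ (card_center_le (p := p) (R : Subgroup G) R.isPGroup' hna)
    apply Nat.mul_le_mul_left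
    rw [← Nat.card_coe_set_eq]
    refine Nat.card_le_card_of_injective
      (fun u => (⟨⟨u.1, u.2.2.1⟩, ?_⟩ : center (R : Subgroup G))) ?_
    · rw [mem_center_iff]
      intro v
      exact Subtype.ext (u.2.2.2 v v.2).symm
    · intro a b hab
      apply Subtype.ext
      exact congrArg (fun w : center (R : Subgroup G) => ((w : (R : Subgroup G)) : G)) hab

/-- Elements central in some non-abelian Sylow `p`-subgroup. -/
def ESet (p : ℕ) : Set G := ⋃ R : Sylow p G, ZSet R

theorem ncard_ESet_le {p : ℕ} (hpp : p.Prime) : p ^ 2 * (ESet (G := G) p).ncard ≤ Nat.card G := by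
  classical
  haveI : Fact p.Prime := ⟨hpp⟩
  haveI : Fintype (Sylow p G) := Fintype.ofFinite _
  have h1 : (ESet (G := G) p).ncard ≤ ∑ R : Sylow p G, (ZSet R).ncard := by
    have := Finset.set_ncard_biUnion_le (Finset.univ : Finset (Sylow p G)) (fun R => ZSet R)
    simpa [ESet] using this
  obtain ⟨P⟩ : Nonempty (Sylow p G) := inferInstance
  have h3 : ∀ R : Sylow p G, Nat.card (R : Subgroup G) = Nat.card (P : Subgroup G) := by
    intro R
    have h4 := Sylow.card_eq_multiplicity R
    have h5 := Sylow.card_eq_multiplicity P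
    exact h4.trans h5.symm
  have h4 : Nat.card (Sylow p G) * Nat.card (P : Subgroup G) ≤ Nat.card G := by
    rw [Sylow.card_eq_index_normalizer P]
    have h5 := Subgroup.card_mul_index (normalizer ((P : Subgroup G) : Set G))
    have h6 : Nat.card (P : Subgroup G) ≤ Nat.card (normalizer ((P : Subgroup G) : Set G)) :=
      Subgroup.card_le_of_le Subgroup.le_normalizer
    rw [← h5, mul_comm]
    exact Nat.mul_le_mul_right _ h6
  calc p ^ 2 * (ESet (G := G) p).ncard ≤ p ^ 2 * ∑ R : Sylow p G, (ZSet R).ncard :=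
        Nat.mul_le_mul_left _ h1
    _ = ∑ R : Sylow p G, p ^ 2 * (ZSet R).ncard := by rw [Finset.mul_sum]
    _ ≤ ∑ _R : Sylow p G, Nat.card (P : Subgroup G) :=
        Finset.sum_le_sum (fun R _ => (ncard_ZSet_le R).trans (h3 R).le)
    _ = Nat.card (Sylow p G) * Nat.card (P : Subgroup G) := by
        rw [Finset.sum_const, Finset.card_univ, smul_eq_mul, Nat.card_eq_fintype_card (α := Sylow p G)]
    _ ≤ Nat.card G := h4

/-- The counting contradiction: a group cannot be covered by the centers of its non-abelian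
Sylow subgroups. -/
theorem no_all_sylow [Nontrivial G]
    (hall : ∀ g : G, g ≠ 1 → ∃ p : ℕ, p.Prime ∧ p ∣ Nat.card G ∧ ∃ R : Sylow p G, g ∈ ZSet R) :
    False := by
  classical
  set n := Nat.card G with hn
  set S := n.primeFactors with hS
  have hSp : ∀ p ∈ S, p.Prime := fun p hp => Nat.prime_of_mem_primeFactors hp
  have hcover : ({1}ᶜ : Set G) ⊆ ⋃ p ∈ S, ESet (G := G) p := by
    intro g hg
    obtain ⟨p, hp, hpd, R, hR⟩ := hall g hg
    refine Set.mem_biUnion (x := p) ?_ (Set.mem_iUnion.2 ⟨R, hR⟩)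
    rw [Finset.mem_coe, hS, Nat.mem_primeFactors]
    exact ⟨hp, hpd, Nat.card_pos.ne'⟩
  have hcard : n - 1 ≤ ∑ p ∈ S, (ESet (G := G) p).ncard := by
    have h1 := Set.ncard_le_ncard hcover (Set.toFinite _)
    rw [Set.ncard_compl, Set.ncard_singleton] at h1
    exact h1.trans (Finset.set_ncard_biUnion_le S _)
  have hnpos : (2 : ℕ) ≤ n := Finite.one_lt_card
  have hq1 : ((n : ℚ) - 1) ≤ ∑ p ∈ S, ((ESet (G := G) p).ncard : ℚ) := by
    have h1 : ((n - 1 : ℕ) : ℚ) ≤ ((∑ p ∈ S, (ESet (G := G) p).ncard : ℕ) : ℚ) := by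
      exact_mod_cast hcard
    have h2 : ((n - 1 : ℕ) : ℚ) = (n : ℚ) - 1 := by
      rw [Nat.cast_sub (by omega)]
      simp
    rw [h2] at h1
    push_cast at h1
    exact h1
  have hq2 : ∑ p ∈ S, ((ESet (G := G) p).ncard : ℚ) ≤ ∑ p ∈ S, ((n : ℚ) * (1 / (p : ℚ) ^ 2)) := by
    apply Finset.sum_le_sum
    intro p hp
    have h1 := ncard_ESet_le (G := G) (hSp p hp)
    have h2 : ((p : ℚ) ^ 2 * ((ESet (G := G) p).ncard : ℚ)) ≤ n := by exact_mod_cast h1
    have hp0 : (0 : ℚ) < (p : ℚ) ^ 2 := by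
      have := (hSp p hp).pos
      positivity
    rw [mul_one_div, le_div_iff₀ hp0]
    linarith
  have hq3 := sum_inv_sq_lt S hSp
  rw [← Finset.mul_sum] at hq2
  have hn2 : (2 : ℚ) ≤ n := by exact_mod_cast hnpos
  nlinarith

include hZ h in
theorem solvable_of_trivial_center : Group.IsSolvable G := by
  classical
  by_cases hnt : Nontrivial G
  swap
  · rw [not_nontrivial_iff_subsingleton] at hnt
    infer_instance
  by_cases hn : ∃ g : G, g ≠ 1 ∧ (Cz g).Normal
  · obtain ⟨g, hg, hgn⟩ := hn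
    have hMs : Group.IsSolvable (Cz g) := by
      by_cases hc : ∀ x ∈ Cz g, ∀ y ∈ Cz g, x * y = y * x
      · apply Group.isSolvable_of_comm
        intro a b
        exact Subtype.ext (hc a a.2 b b.2)
      · obtain ⟨p, hp, hpe⟩ := isPGroup_of_not_comm hZ h hg hc
        haveI : Fact p.Prime := ⟨hp⟩
        have hP : IsPGroup p (Cz g) := by
          intro x
          obtain ⟨k, hk⟩ := hpe x x.2
          refine ⟨k, ?_⟩
          rw [← hk]
          apply Subtype.ext
          simp [pow_orderOf_eq_one]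
        haveI := hP.isNilpotent
        infer_instance
    have hco := coatom_of_ne_one hZ h hg
    obtain ⟨x, hx⟩ : ∃ x : G, x ∉ Cz g := by
      by_contra hcon
      push Not at hcon
      apply hco.1
      rw [eq_top_iff]
      intro y _
      exact hcon y
    let π := QuotientGroup.mk' (Cz g)
    have hπ : Function.Surjective π := QuotientGroup.mk'_surjective _
    have hE : (zpowers (π x)).comap π = ⊤ := by
      apply hco.2
      refine lt_of_le_of_ne ?_ ?_
      · intro y hy
        have : π y = 1 := (QuotientGroup.eq_one_iff y).2 hy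
        rw [Subgroup.mem_comap, this]
        exact one_mem _
      · intro h3
        apply hx
        rw [h3, Subgroup.mem_comap]
        exact mem_zpowers _
    haveI hQs : Group.IsSolvable (G ⧸ Cz g) := by
      apply Group.isSolvable_of_comm
      intro a b
      obtain ⟨a', rfl⟩ := hπ a
      obtain ⟨b', rfl⟩ := hπ b
      have ha : a' ∈ (zpowers (π x)).comap π := by rw [hE]; trivial
      have hb : b' ∈ (zpowers (π x)).comap π := by rw [hE]; trivial
      obtain ⟨i, hi⟩ := Subgroup.mem_zpowers_iff.1 (Subgroup.mem_comap.1 ha)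
      obtain ⟨j, hj⟩ := Subgroup.mem_zpowers_iff.1 (Subgroup.mem_comap.1 hb)
      rw [← hi, ← hj, ← zpow_add, ← zpow_add, add_comm]
    exact Group.isSolvable_of_ker_le_range (Cz g).subtype π (by
      rw [QuotientGroup.ker_mk', Subgroup.range_subtype])
  push Not at hn
  by_cases hab : ∃ g : G, g ≠ 1 ∧ ∀ x ∈ Cz g, ∀ y ∈ Cz g, x * y = y * x
  · obtain ⟨g, hg, hc⟩ := hab
    exact solvable_of_comm_centralizer hZ h hg hc (hn g hg)
  by_contra hns
  push Not at hab
  apply no_all_sylow (G := G)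
  intro g hg
  have hc : ¬ ∀ x ∈ Cz g, ∀ y ∈ Cz g, x * y = y * x := by
    obtain ⟨x, hx, y, hy, hxy⟩ := hab g hg
    intro h3
    exact hxy (h3 x hx y hy)
  obtain ⟨p, hp, hpe⟩ := isPGroup_of_not_comm hZ h hg hc
  haveI : Fact p.Prime := ⟨hp⟩
  have hP : IsPGroup p (Cz g) := by
    intro x
    obtain ⟨k, hk⟩ := hpe x x.2
    refine ⟨k, ?_⟩
    rw [← hk]
    apply Subtype.ext
    simp [pow_orderOf_eq_one]
  obtain ⟨P, hPle⟩ := hP.exists_le_sylow
  have hco := coatom_of_ne_one hZ h hg
  have hPeq : (P : Subgroup G) ≠ ⊤ := by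
    intro h3
    apply hns
    have hGp : IsPGroup p G := by
      have h4 := P.isPGroup'
      intro x
      have hx : x ∈ (P : Subgroup G) := by rw [h3]; trivial
      obtain ⟨k, hk⟩ := h4 ⟨x, hx⟩
      exact ⟨k, congrArg Subtype.val hk⟩
    haveI := hGp.isNilpotent
    infer_instance
  have hCzP : Cz g = P := by
    by_contra hne
    exact hPeq (hco.2 _ (lt_of_le_of_ne hPle hne))
  refine ⟨p, hp, ?_, P, ?_⟩
  · obtain ⟨k, hk⟩ := hpe g (self_mem_Cz g)
    have h1 : orderOf g ∣ Nat.card G := orderOf_dvd_natCard g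
    have hk0 : k ≠ 0 := by
      rintro rfl
      rw [pow_zero] at hk
      exact hg (orderOf_eq_one_iff.1 hk)
    rw [hk] at h1
    exact (dvd_pow_self p hk0).trans h1
  · refine ⟨?_, ?_, ?_⟩
    · rw [← hCzP]
      exact hc
    · rw [← hCzP]
      exact self_mem_Cz g
    · rw [← hCzP]
      intro v hv
      exact (mem_Cz.1 hv).symm

end TrivialCenter

theorem hyp_quotient (h : ∀ g : G, g ∉ center G → IsCoatom (Cz g)) :
    ∀ g : G ⧸ center G, g ∉ center (G ⧸ center G) → IsCoatom (Cz g) := by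
  intro b hb
  let π := QuotientGroup.mk' (center G)
  have hπ : Function.Surjective π := QuotientGroup.mk'_surjective _
  obtain ⟨g, rfl⟩ := hπ b
  have hg : g ∉ center G := by
    intro h1
    apply hb
    have : π g = 1 := (QuotientGroup.eq_one_iff g).2 h1
    rw [this]
    exact one_mem _
  have hco := h g hg
  have hle : Cz g ≤ (Cz (π g)).comap π := by
    intro y hy
    rw [Subgroup.mem_comap, mem_Cz, ← map_mul, ← map_mul, mem_Cz.1 hy]
  have hne : (Cz (π g)).comap π ≠ ⊤ := by
    intro h1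
    apply hb
    rw [mem_center_iff]
    intro y
    obtain ⟨y', rfl⟩ := hπ y
    have : y' ∈ (Cz (π g)).comap π := by rw [h1]; trivial
    exact mem_Cz.1 (Subgroup.mem_comap.1 this)
  have heq : (Cz (π g)).comap π = Cz g := by
    by_contra hcon
    exact hne (hco.2 _ (lt_of_le_of_ne hle (Ne.symm hcon)))
  refine ⟨?_, ?_⟩
  · intro h1
    apply hne
    rw [h1, Subgroup.comap_top]
  · intro H hH
    have h2 : Cz g < H.comap π := by
      rw [← heq]
      refine lt_of_le_of_ne (Subgroup.comap_mono hH.le) ?_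
      intro h3
      apply hH.ne
      have := congrArg (Subgroup.map π) h3
      rwa [Subgroup.map_comap_eq_self_of_surjective hπ, Subgroup.map_comap_eq_self_of_surjective hπ] at this
    have h3 := hco.2 _ h2
    have := congrArg (Subgroup.map π) h3
    rwa [Subgroup.map_comap_eq_self_of_surjective hπ, Subgroup.map_top_of_surjective _ hπ] at this

theorem main_solvable : ∀ (n : ℕ) (G : Type u_1) [Group G] [Finite G], Nat.card G = n →
    (∀ g : G, g ∉ center G → IsCoatom (Cz g)) → Group.IsSolvable G := by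
  intro n
  induction n using Nat.strong_induction_on with
  | _ n ih =>
    intro G _ _ hn h
    by_cases hZ : center G = ⊥
    · exact solvable_of_trivial_center hZ h
    · have hlt : Nat.card (G ⧸ center G) < n := by
        have h1 := Subgroup.card_eq_card_quotient_mul_card_subgroup (center G)
        have h2 : 1 < Nat.card (center G) := by
          by_contra hcon
          have h3 : Nat.card (center G) = 1 := by
            have : 0 < Nat.card (center G) := Nat.card_pos
            omega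
          exact hZ (Subgroup.eq_bot_of_card_eq _ h3)
        have h4 : 0 < Nat.card (G ⧸ center G) := Nat.card_pos
        rw [← hn, h1]
        nlinarith
      haveI := ih _ hlt (G ⧸ center G) rfl (hyp_quotient h)
      haveI : Group.IsSolvable (center G) := by
        apply Group.isSolvable_of_comm
        intro a b
        exact mul_comm a b
      exact Group.isSolvable_of_ker_le_range (center G).subtype (QuotientGroup.mk' (center G)) (by
        rw [QuotientGroup.ker_mk', Subgroup.range_subtype])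

/-- Let G be a finite group in which the centralizer of every non-central element is a maximal subgroup of G. Then G is solvable. -/
theorem result {G : Type*} [Group G] [Finite G]
    (h : ∀ g : G, g ∉ Subgroup.center G → IsCoatom (Subgroup.centralizer ({g} : Set G))) :
    Group.IsSolvable G :=
  main_solvable _ G rfl h

end Cfsg.Agent.S4262
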