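import Cfsg.Statements.S4263
import Mathlib
import Cfsg.Agent.Lib.Core.Basic

set_option autoImplicit false
open Cfsg

namespace Cfsg.Agent.S4263

theorem mem_of_pow_mem_of_coprime {G : Type*} [Group G] (H : Subgroup G) (y : G) (k : ℕ)
    (hk : Nat.Coprime k (orderOf y)) (hy : y ^ k ∈ H) : y ∈ H := by
  have h1 : y = (y ^ k) ^ (Nat.gcdA k (orderOf y)) := by
    have h2 := Nat.gcd_eq_gcd_ab k (orderOf y)
    rw [hk] at h2
    have h3 : y ^ ((k : ℤ) * Nat.gcdA k (orderOf y) + (orderOf y : ℤ) * Nat.gcdB k (orderOf y)) = y := by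
      rw [← h2]; simp
    rw [zpow_add, zpow_mul y (orderOf y : ℤ), zpow_natCast y (orderOf y), pow_orderOf_eq_one] at h3
    simp only [one_zpow, mul_one] at h3
    rw [zpow_mul, zpow_natCast] at h3
    exact h3.symm
  rw [h1]
  exact H.zpow_mem hy _

theorem relIndex_eq_relIndex_sup {G : Type*} [Group G] [Finite G] (H F : Subgroup G) [F.Normal] :
    H.relIndex F = H.relIndex (H ⊔ F) := by
  have h1 := Subgroup.relIndex_mul_relIndex (H ⊓ F) F (H ⊔ F) inf_le_right le_sup_right
  have h2 := Subgroup.relIndex_mul_relIndex (H ⊓ F) H (H ⊔ F) inf_le_left le_sup_left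
  have h3 : F.relIndex (H ⊔ F) = F.relIndex H := Subgroup.relIndex_sup_right H F
  have h4 : (H ⊓ F).relIndex H = F.relIndex H := Subgroup.inf_relIndex_left H F
  have h5 : (H ⊓ F).relIndex F = H.relIndex F := Subgroup.inf_relIndex_right H F
  rw [h3, h5] at h1
  rw [h4] at h2
  have hne : F.relIndex H ≠ 0 := Subgroup.index_ne_zero_of_finite
  have : H.relIndex F * F.relIndex H = F.relIndex H * H.relIndex (H ⊔ F) := h1.trans h2.symm
  rw [mul_comm] at this
  exact Nat.eq_of_mul_eq_mul_left (Nat.pos_of_ne_zero hne) this

theorem pow_index_mem_of_nilpotent {F : Type*} [Group F] [Finite F] [Group.IsNilpotent F]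
    (K : Subgroup F) (y : F) : y ^ K.index ∈ K := by
  induction' h : K.index using Nat.strong_induction_on with n ih generalizing K
  by_cases hK : K = ⊤
  · subst hK; simp
  · have hlt : K < ⊤ := lt_top_iff_ne_top.mpr hK
    have hN : K < Subgroup.normalizer (K : Set F) := (Group.normalizerCondition_of_isNilpotent (G := F)) K hlt
    set L := Subgroup.normalizer (K : Set F) with hL
    have hidx : L.index < K.index := Subgroup.index_strictAnti hN
    have h1 := ih L.index (h ▸ hidx) L rfl
    -- `K` normal in `L`
    have hKL : K ≤ L := hN.le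
    have h2 : K.relIndex L * L.index = K.index := Subgroup.relIndex_mul_index hKL
    have hnorm : (K.subgroupOf L).Normal := Subgroup.normal_subgroupOf_of_le_normalizer le_rfl
    have h3 : ((⟨y ^ L.index, h1⟩ : L)) ^ (K.subgroupOf L).index ∈ K.subgroupOf L :=
      Subgroup.pow_index_mem _ _
    have h4 : (y ^ L.index) ^ K.relIndex L ∈ K := by
      rw [Subgroup.mem_subgroupOf] at h3
      simpa [Subgroup.relIndex] using h3
    rw [← h, ← h2, mul_comm, pow_mul]
    exact h4

/-- Let G be a finite group. An element x lies in the Fitting subgroup F(G) if and only if, for every subgroup H of G, the power x^[G : H] lies in H. -/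
theorem result {G : Type*} [Group G] [Finite G] (x : G) :
    x ∈ Cfsg.fittingSubgroup G ↔ ∀ H : Subgroup G, x ^ H.index ∈ H := by
  constructor
  · intro hx H
    set F := Cfsg.fittingSubgroup G with hF
    have : F.Normal := Cfsg.Agent.Lib.Core.fittingSubgroup_normal G
    have : Group.IsNilpotent F := Cfsg.Agent.Lib.Core.isNilpotent_fittingSubgroup G
    have h1 := pow_index_mem_of_nilpotent (H.subgroupOf F) (⟨x, hx⟩ : F)
    rw [Subgroup.mem_subgroupOf] at h1
    have h2 : x ^ H.relIndex F ∈ H := by simpa [Subgroup.relIndex] using h1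
    have h3 : H.relIndex F ∣ H.index := by
      rw [relIndex_eq_relIndex_sup H F]
      exact Subgroup.relIndex_dvd_index_of_le le_sup_left
    obtain ⟨k, hk⟩ := h3
    rw [hk, pow_mul]
    exact H.pow_mem h2 k
  · intro h
    set F := Cfsg.fittingSubgroup G with hF
    have : F.Normal := Cfsg.Agent.Lib.Core.fittingSubgroup_normal G
    set d := orderOf ((x : G ⧸ F)) with hd
    have hd1 : d = 1 := by
      by_contra hne
      obtain ⟨p, hp, hpd⟩ := Nat.exists_prime_and_dvd hne
      have : Fact p.Prime := ⟨hp⟩
      have hn : d ∣ orderOf x := by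
        have := orderOf_map_dvd (QuotientGroup.mk' F) x
        simpa using this
      set n := orderOf x with hn'
      have hn0 : 0 < n := orderOf_pos x
      set v := n.factorization p with hv
      set m := ordCompl[p] n with hm
      have hnm : p ^ v * m = n := Nat.ordProj_mul_ordCompl_eq_self n p
      set y := x ^ m with hy
      have hyp : y ^ p ^ v = 1 := by
        rw [hy, ← pow_mul, mul_comm, hnm, hn', pow_orderOf_eq_one]
      have hyo : orderOf y ∣ p ^ v := orderOf_dvd_of_pow_eq_one hyp
      have hyP : y ∈ Cfsg.pCore p G := by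
        rw [Cfsg.Agent.Lib.Core.mem_pCore_iff_forall_sylow]
        intro P
        have h1 := h (P : Subgroup G)
        have h2 : y ^ (P : Subgroup G).index ∈ (P : Subgroup G) := by
          rw [hy, ← pow_mul, mul_comm, pow_mul]
          exact Subgroup.pow_mem _ h1 _
        apply mem_of_pow_mem_of_coprime _ _ _ _ h2
        have h3 : Nat.Coprime (P : Subgroup G).index p := by
          exact ((Nat.Prime.coprime_iff_not_dvd hp).mpr P.not_dvd_index).symm
        exact Nat.Coprime.coprime_dvd_right hyo (Nat.Coprime.pow_right v h3)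
      have hyF : y ∈ F := Cfsg.Agent.Lib.Core.pCore_le_fittingSubgroup p hyP
      have hdm : d ∣ m := by
        apply orderOf_dvd_of_pow_eq_one
        have : ((y : G) : G ⧸ F) = 1 := (QuotientGroup.eq_one_iff _).mpr hyF
        rw [hy] at this
        simpa using this
      have hpm : p ∣ m := hpd.trans hdm
      exact (Nat.not_dvd_ordCompl hp hn0.ne') hpm
    have := orderOf_eq_one_iff.mp hd1
    exact (QuotientGroup.eq_one_iff _).mp this

end Cfsg.Agent.S4263
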