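import Cfsg.Statements.S4269
import Mathlib
import Cfsg.Agent.Lib.Hall.CoprimeLemmas
import Cfsg.Agent.Lib.Hall.CoprimeAction

set_option autoImplicit false
open Cfsg

namespace Cfsg.Agent.S4269

/-- Let G be a finite group, V an abelian normal subgroup and H a subgroup with HV = G. Then H is pronormal in G (H and gHg⁻¹ are conjugate inside the subgroup they generate, for every g) if and only if every H-invariant subgroup U of V satisfies U = N_U(H)·[H, U], that is, U is the join of U ∩ N_G(H) and the commutator subgroup [H, U]. -/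
theorem result {G : Type*} [Group G] [Finite G]
    (V : Subgroup G) [V.Normal] (hV : IsMulCommutative ↥V) (H : Subgroup G) (hHV : H ⊔ V = ⊤) :
    Cfsg.IsPronormal H ↔
      ∀ U : Subgroup G, U ≤ V → (∀ h ∈ H, U.map (MulAut.conj h).toMonoidHom = U) →
        U = (U ⊓ Subgroup.normalizer (H : Set G)) ⊔ ⁅H, U⁆ := by
  classical
  have hmap : ∀ (n : G), n ∈ Subgroup.normalizer (H : Set G) → H.map (MulAut.conj n).toMonoidHom = H := by
    intro n hn
    ext x
    simp only [Subgroup.mem_map, MulEquiv.coe_toMonoidHom, MulAut.conj_apply]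
    rw [Subgroup.mem_normalizer_iff] at hn
    constructor
    · rintro ⟨y, hy, rfl⟩
      exact (hn y).mp hy
    · intro hx
      refine ⟨n⁻¹ * x * n, ?_, by group⟩
      rw [hn]
      have : n * (n⁻¹ * x * n) * n⁻¹ = x := by group
      rwa [this]
  have hmul : ∀ (g n : G), n ∈ Subgroup.normalizer (H : Set G) →
      H.map (MulAut.conj (g * n)).toMonoidHom = H.map (MulAut.conj g).toMonoidHom := by
    intro g n hn
    conv_rhs => rw [← hmap n hn]
    rw [Subgroup.map_map]
    congr 1
    ext x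
    simp [mul_assoc]
  have hinv : ∀ (g x : G), H.map (MulAut.conj g).toMonoidHom = H.map (MulAut.conj x).toMonoidHom →
      x⁻¹ * g ∈ Subgroup.normalizer (H : Set G) := by
    intro g x h
    apply Cfsg.Agent.Lib.Hall.mem_normalizer_of_conj_le
    intro a ha
    have h1 : g * a * g⁻¹ ∈ H.map (MulAut.conj x).toMonoidHom := by
      rw [← h]
      exact ⟨a, ha, by simp⟩
    obtain ⟨b, hb, hbe⟩ := h1
    have : x⁻¹ * g * a * (x⁻¹ * g)⁻¹ = b := by
      simp only [MulEquiv.coe_toMonoidHom, MulAut.conj_apply] at hbe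
      have : g * a * g⁻¹ = x * b * x⁻¹ := hbe.symm
      calc x⁻¹ * g * a * (x⁻¹ * g)⁻¹ = x⁻¹ * (g * a * g⁻¹) * x := by group
        _ = b := by rw [this]; group
    rw [this]; exact hb
  have hcomm : ∀ a ∈ V, ∀ b ∈ V, a * b = b * a := by
    intro a ha b hb
    have := hV.is_comm.comm ⟨a, ha⟩ ⟨b, hb⟩
    exact congrArg Subtype.val this
  constructor
  · intro hpro U hUV hU
    set W := ⁅H, U⁆ with hW
    have hconjU : ∀ h ∈ H, ∀ u ∈ U, h * u * h⁻¹ ∈ U := by
      intro h hh u hu
      rw [← hU h hh]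
      exact ⟨u, hu, by simp⟩
    have hWU : W ≤ U := by
      rw [hW, Subgroup.commutator_le]
      intro h hh u hu
      rw [commutatorElement_def]
      exact U.mul_mem (hconjU h hh u hu) (U.inv_mem hu)
    apply le_antisymm
    · intro u hu
      obtain ⟨x, hx, hxe⟩ := hpro u
      have hHW : H ≤ Subgroup.normalizer (W : Set G) := by
        intro h hh
        apply Cfsg.Agent.Lib.Hall.mem_normalizer_of_conj_le
        intro w hw
        have hmapW : W.map (MulAut.conj h).toMonoidHom = W := by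
          rw [hW, Subgroup.map_commutator, hU h hh, hmap h (Subgroup.le_normalizer hh)]
        rw [← hmapW]
        exact ⟨w, hw, by simp⟩
      have hsub : H ⊔ H.map (MulAut.conj u).toMonoidHom ≤ W ⊔ H := by
        apply sup_le le_sup_right
        rintro _ ⟨y, hy, rfl⟩
        have hc : y * u * y⁻¹ * u⁻¹ ∈ W := Subgroup.commutator_mem_commutator hy hu
        have : (MulAut.conj u).toMonoidHom y = (y * u * y⁻¹ * u⁻¹)⁻¹ * y := by
          simp [mul_assoc]
        rw [this]
        exact Subgroup.mul_mem _ (Subgroup.mem_sup_left (W.inv_mem hc)) (Subgroup.mem_sup_right hy)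
      obtain ⟨w, hw, h', hh', rfl⟩ :=
        Cfsg.Agent.Lib.Hall.exists_mul_of_mem_sup_normalizes hHW (hsub hx)
      rw [hmul w h' (Subgroup.le_normalizer hh')] at hxe
      have hn := hinv u w hxe
      have hu' : u = w * (w⁻¹ * u) := by group
      rw [hu']
      exact Subgroup.mul_mem _ (Subgroup.mem_sup_right hw)
        (Subgroup.mem_sup_left ⟨U.mul_mem (U.inv_mem (hWU hw)) hu, hn⟩)
    · exact sup_le inf_le_left hWU
  · intro hyp g
    have hg : g ∈ V ⊔ H := by
      rw [sup_comm, hHV]; exact Subgroup.mem_top g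
    have hHn : H ≤ Subgroup.normalizer (V : Set G) := by
      intro h _
      apply Cfsg.Agent.Lib.Hall.mem_normalizer_of_conj_le
      intro n hn
      exact ‹V.Normal›.conj_mem n hn h
    obtain ⟨v, hv, h', hh', rfl⟩ := Cfsg.Agent.Lib.Hall.exists_mul_of_mem_sup_normalizes hHn hg
    rw [hmul v h' (Subgroup.le_normalizer hh')]
    -- the `H`-closure of `v`
    set U : Subgroup G := Subgroup.closure {z | ∃ k ∈ H, z = k * v * k⁻¹} with hU
    have hUV : U ≤ V := by
      rw [hU, Subgroup.closure_le]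
      rintro _ ⟨k, _, rfl⟩
      exact ‹V.Normal›.conj_mem v hv k
    have hvU : v ∈ U := Subgroup.subset_closure ⟨1, H.one_mem, by simp⟩
    have hUinv : ∀ h ∈ H, U.map (MulAut.conj h).toMonoidHom = U := by
      intro h hh
      rw [hU, MonoidHom.map_closure]
      congr 1
      ext z
      constructor
      · rintro ⟨_, ⟨k, hk, rfl⟩, rfl⟩
        exact ⟨h * k, H.mul_mem hh hk, by simp [mul_assoc]⟩
      · rintro ⟨k, hk, rfl⟩
        exact ⟨h⁻¹ * k * v * (h⁻¹ * k)⁻¹, ⟨h⁻¹ * k, H.mul_mem (H.inv_mem hh) hk, rfl⟩, by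
          simp [mul_assoc]⟩
    have hdec := hyp U hUV hUinv
    set W := ⁅H, U⁆ with hW
    have hVW : (U ⊓ Subgroup.normalizer (H : Set G)) ≤ Subgroup.normalizer (W : Set G) := by
      intro n hn
      have hWV : W ≤ V := by
        rw [hW, Subgroup.commutator_le]
        intro h hh u hu
        rw [commutatorElement_def]
        exact V.mul_mem (‹V.Normal›.conj_mem u (hUV hu) h) (V.inv_mem (hUV hu))
      apply Cfsg.Agent.Lib.Hall.mem_normalizer_of_conj_le
      intro w hw
      have : n * w * n⁻¹ = w := by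
        rw [hcomm n (hUV hn.1) w (hWV hw)]; group
      rw [this]; exact hw
    have hv' : v ∈ W ⊔ (U ⊓ Subgroup.normalizer (H : Set G)) := by
      rw [sup_comm, ← hdec]; exact hvU
    obtain ⟨w, hw, n, hn, rfl⟩ := Cfsg.Agent.Lib.Hall.exists_mul_of_mem_sup_normalizes hVW hv'
    rw [hmul w n hn.2]
    refine ⟨w, ?_, rfl⟩
    -- `[H, U]` lies in the join
    have hmn := hmul w n hn.2
    set J := H ⊔ H.map (MulAut.conj w).toMonoidHom with hJ
    have hHJ : H ≤ J := le_sup_left
    have hconj : ∀ y ∈ H, (w * n) * y * (w * n)⁻¹ ∈ J := by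
      intro y hy
      apply (le_sup_right : H.map (MulAut.conj w).toMonoidHom ≤ J)
      rw [← hmn]
      exact ⟨y, hy, by simp only [MulEquiv.coe_toMonoidHom, MulAut.conj_apply]⟩
    have hcv : ∀ h ∈ H, h * (w * n) * h⁻¹ * (w * n)⁻¹ ∈ J := by
      intro h hh
      have : h * (w * n) * h⁻¹ * (w * n)⁻¹ = h * ((w * n) * h⁻¹ * (w * n)⁻¹) := by group
      rw [this]
      exact J.mul_mem (hHJ hh) (hconj _ (H.inv_mem hh))
    have hcU : ∀ z ∈ U, ∀ h ∈ H, h * z * h⁻¹ * z⁻¹ ∈ J ∧ h * z * h⁻¹ * z⁻¹ ∈ V := by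
      intro z hz
      induction hz using Subgroup.closure_induction with
      | mem z hz =>
        obtain ⟨k, hk, rfl⟩ := hz
        intro h hh
        refine ⟨?_, ?_⟩
        · have : h * (k * (w * n) * k⁻¹) * h⁻¹ * (k * (w * n) * k⁻¹)⁻¹ =
              k * ((k⁻¹ * h * k) * (w * n) * (k⁻¹ * h * k)⁻¹ * (w * n)⁻¹) * k⁻¹ := by group
          rw [this]
          exact J.mul_mem (J.mul_mem (hHJ hk)
            (hcv _ (H.mul_mem (H.mul_mem (H.inv_mem hk) hh) hk))) (hHJ (H.inv_mem hk))
        · exact V.mul_mem (‹V.Normal›.conj_mem _ (‹V.Normal›.conj_mem _ hv k) h)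
            (V.inv_mem (‹V.Normal›.conj_mem _ hv k))
      | one =>
        intro h hh
        have : h * 1 * h⁻¹ * (1 : G)⁻¹ = 1 := by group
        rw [this]
        exact ⟨J.one_mem, V.one_mem⟩
      | mul a b ha hb iha ihb =>
        intro h hh
        have ha' := hUV ha
        have hb' := hUV hb
        obtain ⟨ja, va⟩ := iha h hh
        obtain ⟨jb, vb⟩ := ihb h hh
        have e : h * (a * b) * h⁻¹ * (a * b)⁻¹ = (h * a * h⁻¹ * a⁻¹) * (h * b * h⁻¹ * b⁻¹) := by
          have := hcomm a ha' (h * b * h⁻¹ * b⁻¹) vb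
          calc h * (a * b) * h⁻¹ * (a * b)⁻¹
              = (h * a * h⁻¹ * a⁻¹) * (a * (h * b * h⁻¹ * b⁻¹)) * a⁻¹ := by group
            _ = (h * a * h⁻¹ * a⁻¹) * (h * b * h⁻¹ * b⁻¹) := by rw [this]; group
        rw [e]
        exact ⟨J.mul_mem ja jb, V.mul_mem va vb⟩
      | inv a ha iha =>
        intro h hh
        have ha' := hUV ha
        obtain ⟨ja, va⟩ := iha h hh
        have e : h * a⁻¹ * h⁻¹ * a⁻¹⁻¹ = (h * a * h⁻¹ * a⁻¹)⁻¹ := by
          have hb : h * a * h⁻¹ ∈ V := ‹V.Normal›.conj_mem a ha' h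
          have c : Commute a (h * a * h⁻¹) := hcomm a ha' _ hb
          have c' := c.inv_right
          calc h * a⁻¹ * h⁻¹ * a⁻¹⁻¹ = (h * a * h⁻¹)⁻¹ * a := by group
            _ = a * (h * a * h⁻¹)⁻¹ := c'.symm
            _ = (h * a * h⁻¹ * a⁻¹)⁻¹ := by group
        rw [e]
        exact ⟨J.inv_mem ja, V.inv_mem va⟩
    have hWJ : W ≤ J := by
      rw [hW, Subgroup.commutator_le]
      intro h hh z hz
      exact (hcU z hz h hh).1
    exact hWJ hw


end Cfsg.Agent.S4269
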