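import Cfsg.Statements.S4321
import Mathlib
import Cfsg.Agent.Lib.PSingGraph.Core

set_option autoImplicit false
open Cfsg

open Cfsg.Agent.Lib.PSingGraph

namespace Cfsg.Agent.S4321


/-- Let `G` be a finite group and `p` a prime not dividing the order of the centre of `G`. Consider the primes dividing the size of some conjugacy class of a `p`-singular element (an element of order divisible by `p`), two of them adjacent when their product divides such a class size. Then any two distinct such primes are joined by a path with at most 3 edges (the graph is connected of diameter at most 3). -/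
theorem result {G : Type*} [Group G] [Finite G] (p : ℕ) [Fact p.Prime]
    (hZ : ¬ p ∣ Nat.card ↥(Subgroup.center G)) (r s : ℕ) (hr : (r.Prime ∧ ∃ x : G, p ∣ orderOf x ∧ r ∣ (Subgroup.centralizer ({x} : Set G)).index)) (hs : (s.Prime ∧ ∃ x : G, p ∣ orderOf x ∧ s ∣ (Subgroup.centralizer ({x} : Set G)).index)) (hrs : r ≠ s) :
    (∃ x : G, p ∣ orderOf x ∧ r * s ∣ (Subgroup.centralizer ({x} : Set G)).index) ∨ (∃ t : ℕ, (t.Prime ∧ ∃ x : G, p ∣ orderOf x ∧ t ∣ (Subgroup.centralizer ({x} : Set G)).index) ∧ t ≠ r ∧ t ≠ s ∧ (∃ x : G, p ∣ orderOf x ∧ r * t ∣ (Subgroup.centralizer ({x} : Set G)).index) ∧ (∃ x : G, p ∣ orderOf x ∧ t * s ∣ (Subgroup.centralizer ({x} : Set G)).index)) ∨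
      (∃ t u : ℕ, (t.Prime ∧ ∃ x : G, p ∣ orderOf x ∧ t ∣ (Subgroup.centralizer ({x} : Set G)).index) ∧ (u.Prime ∧ ∃ x : G, p ∣ orderOf x ∧ u ∣ (Subgroup.centralizer ({x} : Set G)).index) ∧ t ≠ r ∧ u ≠ s ∧ t ≠ u ∧ (∃ x : G, p ∣ orderOf x ∧ r * t ∣ (Subgroup.centralizer ({x} : Set G)).index) ∧ (∃ x : G, p ∣ orderOf x ∧ t * u ∣ (Subgroup.centralizer ({x} : Set G)).index) ∧ (∃ x : G, p ∣ orderOf x ∧ u * s ∣ (Subgroup.centralizer ({x} : Set G)).index)) := by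
  classical
  obtain ⟨hrp, a, ha, hra⟩ := hr
  obtain ⟨hsp, b, hb, hsb⟩ := hs
  by_contra hcon
  let A : ℕ → Prop := fun t => t = r ∨ (t.Prime ∧ t ≠ r ∧ ∃ x : G, p ∣ orderOf x ∧ r * t ∣ nn x)
  let B : ℕ → Prop := fun u => u = s ∨ (u.Prime ∧ u ≠ s ∧ ∃ x : G, p ∣ orderOf x ∧ u * s ∣ nn x)
  have hdirect : ¬ ∃ x : G, p ∣ orderOf x ∧ r * s ∣ nn x := fun h => hcon (Or.inl h)
  have hcop : ∀ {t u : ℕ}, t.Prime → u.Prime → t ≠ u → ∀ {m : ℕ}, t ∣ m → u ∣ m → t * u ∣ m := by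
    intro t u ht hu htu m h1 h2
    exact Nat.Coprime.mul_dvd_of_dvd_of_dvd ((Nat.coprime_primes ht hu).2 htu) h1 h2
  have S : Sep p G A B := by
    intro w hw t u ht hu htw huw hAt hBu
    rcases hAt with rfl | ⟨-, htr, x, hx, hxd⟩
    · rcases hBu with rfl | ⟨-, hus, x', hx', hxd'⟩
      · exact hdirect ⟨w, hw, hcop hrp hsp hrs htw huw⟩
      · by_cases hut : u = t
        · subst hut
          exact hdirect ⟨x', hx', hxd'⟩
        · refine hcon (Or.inr (Or.inl ⟨u, ⟨hu, w, hw, huw⟩, hut, hus, ⟨w, hw, hcop hrp hu (Ne.symm hut) htw huw⟩, ⟨x', hx', hxd'⟩⟩))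
    · rcases hBu with rfl | ⟨-, hus, x', hx', hxd'⟩
      · by_cases hts : t = u
        · subst hts
          exact hdirect ⟨x, hx, hxd⟩
        · refine hcon (Or.inr (Or.inl ⟨t, ⟨ht, w, hw, htw⟩, htr, hts, ⟨x, hx, hxd⟩, ⟨w, hw, hcop ht hsp hts htw huw⟩⟩))
      · by_cases htu : t = u
        · subst htu
          refine hcon (Or.inr (Or.inl ⟨t, ⟨ht, w, hw, htw⟩, htr, hus, ⟨x, hx, hxd⟩, ⟨x', hx', hxd'⟩⟩))
        · refine hcon (Or.inr (Or.inr ⟨t, u, ⟨ht, w, hw, htw⟩, ⟨hu, w, hw, huw⟩, htr, hus, htu, ⟨x, hx, hxd⟩, ⟨w, hw, hcop ht hu htu htw huw⟩, ⟨x', hx', hxd'⟩⟩))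
  have hA : Cls p G A r := by
    refine ⟨Or.inl rfl, fun w hw hrw t ht htw => ?_⟩
    by_cases htr : t = r
    · exact Or.inl htr
    · exact Or.inr ⟨ht, htr, w, hw, hcop hrp ht (Ne.symm htr) hrw htw⟩
  have hB : Cls p G B s := by
    refine ⟨Or.inl rfl, fun w hw hsw t ht htw => ?_⟩
    by_cases hts : t = s
    · exact Or.inl hts
    · exact Or.inr ⟨ht, hts, w, hw, hcop ht hsp hts htw hsw⟩
  by_cases hpb : p ∣ nn b
  · by_cases hpa : p ∣ nn a
    · exact S a ha p p (Fact.out) (Fact.out) hpa hpa (hA.2 a ha hra p (Fact.out) hpa) (hB.2 b hb hsb p (Fact.out) hpb)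
    · exact core hZ S.symm hB hA hrp hb hsb ha hra hpa
  · exact core hZ S hA hB hsp ha hra hb hsb hpb

end Cfsg.Agent.S4321
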