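import Cfsg.Statements.S4331
import Mathlib
import Cfsg.Agent.Lib.ClassSizes.AGammaL

set_option autoImplicit false
open Cfsg

namespace Cfsg.Agent.S4331

/-- There is a finite solvable group G with a subgroup A of order 2 such that every conjugacy class of G contains an element g for which A is subnormal in the subgroup generated by A and g, and yet A is not contained in O_2(G). (So the corresponding criteria for odd primes fail at the prime 2, even for solvable groups.) -/
theorem result :
    ∃ (G : Type) (_ : Group G) (_ : Finite G) (A : Subgroup G), Group.IsSolvable G ∧ Nat.card A = 2 ∧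
      (∀ c : G, ∃ g : G, IsConj c g ∧ (A.subgroupOf (A ⊔ Subgroup.zpowers g)).IsSubnormal) ∧
      ¬ A ≤ Cfsg.pCore 2 G := by
  exact Cfsg.Agent.Lib.ClassSizes.AGammaL.main

end Cfsg.Agent.S4331
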