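import Cfsg.Statements.S4337
import Mathlib
import Cfsg.Agent.Lib.ClassSizes.SwapSolv

set_option autoImplicit false
open Cfsg

namespace Cfsg.Agent.S4337

/-- In a finite symmetric group, any three transpositions generate a solvable subgroup. -/
theorem result (n : ℕ) (a b c : Equiv.Perm (Fin n))
    (ha : a.IsSwap) (hb : b.IsSwap) (hc : c.IsSwap) :
    Group.IsSolvable (Subgroup.closure ({a, b, c} : Set (Equiv.Perm (Fin n)))) := by
  obtain ⟨a1, a2, -, rfl⟩ := ha
  obtain ⟨b1, b2, -, rfl⟩ := hb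
  obtain ⟨c1, c2, -, rfl⟩ := hc
  exact Cfsg.Agent.Lib.ClassSizes.SwapSolv.three_swaps a1 a2 b1 b2 c1 c2

end Cfsg.Agent.S4337
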