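import Cfsg.Statements.S4342
import Mathlib

set_option autoImplicit false
open Cfsg

namespace Cfsg.Agent.S4342

/-- Let H be a normal subgroup of a finite group G and p a prime not dividing the index of H. Then the number of Sylow p-subgroups of H/Z(H) equals the number of Sylow p-subgroups of G. -/
theorem result {G : Type*} [Group G] [Finite G]
    (p : ℕ) [Fact p.Prime] (H : Subgroup G) [H.Normal] (hp : ¬ p ∣ H.index) :
    Nat.card (Sylow p (H ⧸ Subgroup.center H)) = Nat.card (Sylow p G) := by
  classical
  have hle : ∀ P : Sylow p G, (P : Subgroup G) ≤ H := by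
    intro P x hx
    obtain ⟨k, hk⟩ := P.isPGroup' ⟨x, hx⟩
    have hk' : x ^ (p ^ k) = 1 := by simpa using congrArg Subtype.val hk
    have h1 : ((x : G ⧸ H)) ^ (p ^ k) = 1 := by rw [← QuotientGroup.mk_pow, hk']; rfl
    have h2 : (x : G ⧸ H) ^ (H.index) = 1 := pow_card_eq_one' (G := G ⧸ H)
    have hcop : Nat.Coprime (p ^ k) H.index :=
      Nat.Coprime.pow_left _ ((Nat.Prime.coprime_iff_not_dvd Fact.out).2 hp)
    have h3 : (x : G ⧸ H) = 1 := by
      have := pow_gcd_eq_one.mpr ⟨h1, h2⟩
      rwa [hcop, pow_one] at this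
    exact (QuotientGroup.eq_one_iff x).mp h3
  have hA : Nat.card (Sylow p G) = Nat.card (Sylow p H) := by
    refine Nat.card_congr (Equiv.ofBijective (fun P => P.subtype (hle P)) ⟨?_, ?_⟩)
    · intro P Q h
      exact Sylow.subtype_injective h
    · intro P
      obtain ⟨Q, hQ⟩ := Sylow.exists_comap_subtype_eq P
      refine ⟨Q, ?_⟩
      apply Sylow.ext
      rw [Sylow.coe_subtype]
      exact hQ
  have hB : Nat.card (Sylow p H) = Nat.card (Sylow p (H ⧸ Subgroup.center H)) := by
    have hf := QuotientGroup.mk'_surjective (Subgroup.center H)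
    refine Nat.card_congr (Equiv.ofBijective (Sylow.mapSurjective hf)
      ⟨?_, Sylow.mapSurjective_surjective hf p⟩)
    intro P Q h
    have hmap : (P : Subgroup H).map (QuotientGroup.mk' (Subgroup.center H))
        = (Q : Subgroup H).map (QuotientGroup.mk' (Subgroup.center H)) := by
      have := congrArg (fun R : Sylow p (H ⧸ Subgroup.center H) => (R : Subgroup (H ⧸ Subgroup.center H))) h
      simpa using this
    have hQle : (Q : Subgroup H) ≤ (P : Subgroup H) ⊔ Subgroup.center H := by
      intro x hx
      have h1 : x ∈ ((P : Subgroup H).map (QuotientGroup.mk' (Subgroup.center H))).comap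
          (QuotientGroup.mk' (Subgroup.center H)) := by
        rw [hmap]
        exact Subgroup.mem_map_of_mem _ hx
      rw [Subgroup.comap_map_eq, QuotientGroup.ker_mk'] at h1
      exact h1
    have hPle : (P : Subgroup H) ≤ (P : Subgroup H) ⊔ Subgroup.center H := le_sup_left
    have hn : (P : Subgroup H) ⊔ Subgroup.center H ≤ Subgroup.normalizer ((P : Subgroup H) : Set H) :=
      sup_le Subgroup.le_normalizer (Subgroup.center_le_normalizer _)
    haveI hN : (((P : Subgroup H).subgroupOf ((P : Subgroup H) ⊔ Subgroup.center H))).Normal :=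
      (Subgroup.normal_subgroupOf_iff_le_normalizer hPle).mpr hn
    have hN' : (((P.subtype hPle : Sylow p ↥((P : Subgroup H) ⊔ Subgroup.center H)) :
        Subgroup ↥((P : Subgroup H) ⊔ Subgroup.center H))).Normal := by
      rw [Sylow.coe_subtype]
      exact hN
    letI := Sylow.unique_of_normal (P.subtype hPle) hN'
    exact Sylow.subtype_injective (hP := hPle) (hQ := hQle) (Subsingleton.elim _ _)
  rw [hA, hB]

end Cfsg.Agent.S4342
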