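import Cfsg.Statements.S4344
import Mathlib
import Cfsg.Agent.Lib.ClassSizes.Basic

set_option autoImplicit false
open Cfsg

namespace Cfsg.Agent.S4344

/-- Let S be a finite non-abelian simple group, M a maximal subgroup of S and C a cyclic normal subgroup of M. If a Sylow p-subgroup P of S (for a prime p dividing the order of S) is contained in C, then the number of Sylow p-subgroups of S equals the index of M. -/
theorem result {S : Type*} [Group S] [Finite S]
    [IsSimpleGroup S] (hS : ¬ IsMulCommutative S) (p : ℕ) [Fact p.Prime] (hp : p ∣ Nat.card S)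
    (M : Subgroup S) (hM : IsCoatom M) (C : Subgroup S) (hCM : C ≤ M) (hCn : (C.subgroupOf M).Normal)
    (hC : IsCyclic C) (P : Sylow p S) (hP : (P : Subgroup S) ≤ C) :
    Nat.card (Sylow p S) = M.index := by
  have hcomm : ∀ a ∈ C, ∀ b ∈ C, a * b = b * a := by
    intro a ha b hb
    letI := IsCyclic.commGroup (α := C)
    have := mul_comm (⟨a, ha⟩ : C) ⟨b, hb⟩
    exact congrArg Subtype.val this
  -- `M` normalizes `P`
  have hMN : M ≤ Subgroup.normalizer ((P : Subgroup S) : Set S) := by
    intro m hm
    -- conjugate of `P` by `m`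
    set Q : Sylow p S := m • P with hQ
    have hQC : (Q : Subgroup S) ≤ C := by
      intro z hz
      have hz' := Cfsg.Agent.Lib.ClassSizes.mem_sylow_smul_iff.mp hz
      have h1 : m⁻¹ * z * m ∈ C := hP hz'
      have h2 := hCn.conj_mem ⟨m⁻¹ * z * m, by simpa [Subgroup.mem_subgroupOf] using hCM h1⟩
        (by simpa [Subgroup.mem_subgroupOf] using h1) ⟨m, hm⟩
      rw [Subgroup.mem_subgroupOf] at h2
      have h3 : z = m * (m⁻¹ * z * m) * m⁻¹ := by group
      rw [h3]
      simpa using h2
    have hnorm : (Q : Subgroup S) ≤ Subgroup.normalizer ((P : Subgroup S) : Set S) := by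
      intro q hq
      rw [Subgroup.mem_normalizer_iff]
      intro x
      constructor
      · intro hx
        have : q * x * q⁻¹ = x := by
          rw [hcomm q (hQC hq) x (hP hx)]; simp
        rw [this]; exact hx
      · intro hx
        have h1 : q⁻¹ * (q * x * q⁻¹) * q = x := by group
        have hq' : q * x * q⁻¹ ∈ C := hP hx
        have : q⁻¹ * (q * x * q⁻¹) * q = q * x * q⁻¹ := by
          rw [hcomm q⁻¹ (C.inv_mem (hQC hq)) _ hq']; simp
        rw [← h1, this]; exact hx
    have hpg : IsPGroup p (((Q : Subgroup S) ⊔ (P : Subgroup S) : Subgroup S)) :=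
      IsPGroup.to_sup_of_normal_right' Q.isPGroup' P.isPGroup' hnorm
    have hsup : ((Q : Subgroup S) ⊔ (P : Subgroup S)) = P :=
      P.is_maximal' hpg le_sup_right
    have hle : (Q : Subgroup S) ≤ P := hsup ▸ le_sup_left
    have heq : (Q : Subgroup S) = P := by
      apply Subgroup.eq_of_le_of_card_ge hle
      rw [Sylow.card_eq_multiplicity, Sylow.card_eq_multiplicity]
    rw [Subgroup.mem_normalizer_iff]
    intro x
    change x ∈ (P : Subgroup S) ↔ m * x * m⁻¹ ∈ (P : Subgroup S)
    constructor
    · intro hx
      have : m * x * m⁻¹ ∈ (Q : Subgroup S) := by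
        apply Cfsg.Agent.Lib.ClassSizes.mem_sylow_smul_iff.mpr
        have h9 : m⁻¹ * (m * x * m⁻¹) * m = x := by group
        rw [h9]; exact hx
      rw [heq] at this
      exact this
    · intro hx
      have : m * x * m⁻¹ ∈ (Q : Subgroup S) := by
        rw [heq]; exact hx
      have h2 := Cfsg.Agent.Lib.ClassSizes.mem_sylow_smul_iff.mp this
      have h9 : m⁻¹ * (m * x * m⁻¹) * m = x := by group
      rw [h9] at h2
      exact h2
  have hnetop : Subgroup.normalizer ((P : Subgroup S) : Set S) ≠ ⊤ := by
    intro htop
    have hnormal : (P : Subgroup S).Normal := Subgroup.normalizer_eq_top_iff.mp htop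
    rcases hnormal.eq_bot_or_eq_top with h | h
    · have hcard := Sylow.ne_bot_of_dvd_card P hp
      exact hcard h
    · apply hS
      have hpg : IsPGroup p S := by
        have := P.isPGroup'
        rw [h] at this
        exact (IsPGroup.of_equiv this Subgroup.topEquiv)
      haveI : Nontrivial S := IsSimpleGroup.toNontrivial
      have hcenter : Subgroup.center S = ⊤ := by
        rcases (inferInstance : (Subgroup.center S).Normal).eq_bot_or_eq_top with h1 | h1
        · exfalso
          haveI := hpg.center_nontrivial
          exact (Subgroup.nontrivial_iff_ne_bot _).mp inferInstance h1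
        · exact h1
      exact ⟨⟨fun a b => (Subgroup.mem_center_iff.mp (hcenter ▸ Subgroup.mem_top a) b).symm⟩⟩
  have heq : Subgroup.normalizer ((P : Subgroup S) : Set S) = M := by
    rcases hM.le_iff.mp hMN with h | h
    · exact absurd h hnetop
    · exact h
  rw [Sylow.card_eq_index_normalizer P]
  exact congrArg Subgroup.index heq

end Cfsg.Agent.S4344
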