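import Cfsg.Statements.S4354
import Mathlib
import Cfsg.Agent.Lib.ClassSizes.PCentral

set_option autoImplicit false
open Cfsg

namespace Cfsg.Agent.S4354

open Cfsg.Agent.Lib.ClassSizes
open scoped Pointwise

variable {G : Type*} [Group G] [Finite G] {p : ℕ} [Fact p.Prime]

lemma hered_normal
    (hG : ∀ x : G, (∃ k : ℕ, orderOf x = p ^ k) → ¬ p ∣ (Subgroup.centralizer ({x} : Set G)).index)
    (N : Subgroup G) [N.Normal] (x : N) (hx : ∃ k : ℕ, orderOf x = p ^ k) :
    ¬ p ∣ (Subgroup.centralizer ({x} : Set N)).index := by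
  have hx' : ∃ k : ℕ, orderOf (x : G) = p ^ k := by
    obtain ⟨k, hk⟩ := hx
    exact ⟨k, by rw [Subgroup.orderOf_coe, hk]⟩
  have h1 := hG x hx'
  intro h2
  apply h1
  have h3 : Subgroup.centralizer ({x} : Set N) =
      (Subgroup.centralizer ({(x : G)} : Set G)).subgroupOf N := by
    ext y
    simp only [Subgroup.mem_subgroupOf, Subgroup.mem_centralizer_singleton_iff]
    constructor
    · intro h
      have := congrArg (Subtype.val) h
      simpa using this
    · intro h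
      exact Subtype.ext (by simpa using h)
  rw [h3] at h2
  exact h2.trans (relIndex_dvd_index_of_normal_right _ N)

lemma hered_quotient
    (hG : ∀ x : G, (∃ k : ℕ, orderOf x = p ^ k) → ¬ p ∣ (Subgroup.centralizer ({x} : Set G)).index)
    (N : Subgroup G) [N.Normal] (x : G ⧸ N) (hx : ∃ k : ℕ, orderOf x = p ^ k) :
    ¬ p ∣ (Subgroup.centralizer ({x} : Set (G ⧸ N))).index := by
  obtain ⟨y, hy, rfl⟩ :=
    exists_lift_orderOf_prime_pow (QuotientGroup.mk' N) (QuotientGroup.mk'_surjective N) hx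
  have h1 := hG y hy
  intro h2
  apply h1
  have h3 : (Subgroup.centralizer ({y} : Set G)).map (QuotientGroup.mk' N) ≤
      Subgroup.centralizer ({QuotientGroup.mk' N y} : Set (G ⧸ N)) := by
    rintro _ ⟨z, hz, rfl⟩
    rw [SetLike.mem_coe, Subgroup.mem_centralizer_singleton_iff] at hz
    rw [Subgroup.mem_centralizer_singleton_iff, ← map_mul, ← map_mul, hz]
  exact h2.trans ((Subgroup.index_dvd_of_le h3).trans
    (Subgroup.index_map_dvd _ (QuotientGroup.mk'_surjective N)))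

/-- The Sylow subgroup `P ∩ N` of a normal subgroup. -/
noncomputable def sylowOf (P : Sylow p G) (N : Subgroup G) [N.Normal] : Sylow p N :=
  IsPGroup.toSylow (P := (P : Subgroup G).subgroupOf N) (IsPGroup.comap_subtype P.isPGroup') (by
    intro h
    exact P.not_dvd_index (h.trans (relIndex_dvd_index_of_normal_right (P : Subgroup G) N)))

lemma mem_sylowOf (P : Sylow p G) (N : Subgroup G) [N.Normal] (x : N) :
    x ∈ sylowOf P N ↔ (x : G) ∈ P := Iff.rfl

lemma isPElement_of_mem (P : Sylow p G) {y : G} (hy : y ∈ P) : ∃ k : ℕ, orderOf y = p ^ k := by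
  obtain ⟨k, hk⟩ := (P.isPGroup' ⟨y, hy⟩)
  have : orderOf (⟨y, hy⟩ : (P : Subgroup G)) = orderOf y := Subgroup.orderOf_mk y hy
  have h2 := orderOf_dvd_of_pow_eq_one hk
  obtain ⟨m, _, hm⟩ := (Nat.dvd_prime_pow (Fact.out : p.Prime)).1 h2
  exact ⟨m, by rw [← this, hm]⟩

lemma step2
    (hG : ∀ x : G, (∃ k : ℕ, orderOf x = p ^ k) → ¬ p ∣ (Subgroup.centralizer ({x} : Set G)).index)
    (N : Subgroup G) [hNn : N.Normal] (hN : ∀ S : Sylow p N, IsMulCommutative S) (P : Sylow p G)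
    {y a : G} (hy : y ∈ P) (haP : a ∈ P) (haN : a ∈ N) : y * a = a * y := by
  classical
  have hyo := isPElement_of_mem P hy
  obtain ⟨Q, hQC, hyQ⟩ := exists_sylow_le_centralizer hyo (hG y hyo)
  obtain ⟨⟨h, hhN⟩, hh⟩ := MulAction.exists_smul_eq N (sylowOf P N) (sylowOf Q N)
  set A : Subgroup G := (P : Subgroup G) ⊓ N with hA
  have hyA : ∀ b ∈ A, y * b * y⁻¹ ∈ A := fun b hb =>
    ⟨P.mul_mem (P.mul_mem hy hb.1) (P.inv_mem hy), hNn.conj_mem b hb.2 y⟩
  have hyA' : ∀ b ∈ A, y⁻¹ * b * y ∈ A := fun b hb => by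
    have h1 : y⁻¹ * b * y⁻¹⁻¹ ∈ A :=
      ⟨P.mul_mem (P.mul_mem (P.inv_mem hy) hb.1) (P.inv_mem (P.inv_mem hy)),
        hNn.conj_mem b hb.2 y⁻¹⟩
    simpa using h1
  have hAab : ∀ b ∈ A, ∀ b' ∈ A, b * b' = b' * b := by
    intro b hb b' hb'
    have h1 := (hN (sylowOf P N)).is_comm.comm
      (⟨⟨b, hb.2⟩, (mem_sylowOf P N _).2 hb.1⟩ : sylowOf P N)
      (⟨⟨b', hb'.2⟩, (mem_sylowOf P N _).2 hb'.1⟩ : sylowOf P N)
    have h2 := congrArg (fun w : sylowOf P N => ((w : N) : G)) h1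
    simpa using h2
  have hhA : ∀ b ∈ A, h * b * h⁻¹ ∈ Q := by
    intro b hb
    have h1 : (⟨h * b * h⁻¹, hNn.conj_mem b hb.2 h⟩ : N) ∈ sylowOf Q N := by
      rw [← hh, mem_sylow_smul_iff, mem_sylowOf]
      have : (((⟨h, hhN⟩ : N)⁻¹ * (⟨h * b * h⁻¹, hNn.conj_mem b hb.2 h⟩ : N) * (⟨h, hhN⟩ : N) : N) : G)
          = b := by
        simp [mul_assoc]
      rw [this]
      exact hb.1
    exact (mem_sylowOf Q N _).1 h1
  have hcomm : ∀ b ∈ A, y * (h * b * h⁻¹) = (h * b * h⁻¹) * y := by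
    intro b hb
    have h1 := hQC (hhA b hb)
    rw [Subgroup.mem_centralizer_singleton_iff] at h1
    exact h1.symm
  set z : G := h⁻¹ * y * h with hzdef
  have hz : ∀ b ∈ A, z * b = b * z := by
    intro b hb
    have h1 := hcomm b hb
    have h2 : z * b = h⁻¹ * (y * (h * b * h⁻¹)) * h := by
      simp only [hzdef]; group
    have h3 : b * z = h⁻¹ * ((h * b * h⁻¹) * y) * h := by
      simp only [hzdef]; group
    rw [h2, h3, h1]
  set c : G := y⁻¹ * z with hcdef
  have hcN : c ∈ N := by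
    have h1 : y⁻¹ * h⁻¹ * y⁻¹⁻¹ ∈ N := hNn.conj_mem _ (N.inv_mem hhN) _
    have h2 : c = (y⁻¹ * h⁻¹ * y⁻¹⁻¹) * h := by
      simp only [hcdef, hzdef]; group
    rw [h2]
    exact N.mul_mem h1 hhN
  have hc1 : ∀ b ∈ A, c * b * c⁻¹ = y⁻¹ * b * y := by
    intro b hb
    have h1 : c * b * c⁻¹ = y⁻¹ * (z * b) * z⁻¹ * y := by
      simp only [hcdef]; group
    rw [h1, hz b hb]
    group
  have hc2 : ∀ b ∈ A, c⁻¹ * b * c = y * b * y⁻¹ := by
    intro b hb
    have h1 : c⁻¹ * b * c = z⁻¹ * y * b * y⁻¹ * z := by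
      simp only [hcdef]; group
    have h2 : z⁻¹ * y * b * y⁻¹ * z = z⁻¹ * ((y * b * y⁻¹) * z) := by group
    rw [h1, h2, ← hz _ (hyA b hb)]
    group
  have hcnorm : c ∈ Subgroup.normalizer (A : Set G) := by
    rw [Subgroup.mem_normalizer_iff]
    intro b
    constructor
    · intro hb
      rw [hc1 b hb]
      exact hyA' b hb
    · intro hb
      have h1 := hc2 _ hb
      have h2 : c⁻¹ * (c * b * c⁻¹) * c = b := by group
      rw [h2] at h1
      rw [h1]
      exact hyA _ hb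
  set L : Subgroup G := N ⊓ Subgroup.normalizer (A : Set G) with hL
  have hcL : c ∈ L := ⟨hcN, hcnorm⟩
  have hAL : A ≤ L := fun b hb => ⟨hb.2, Subgroup.le_normalizer hb⟩
  have hLN : L ≤ N := inf_le_left
  have hAN : A ≤ N := inf_le_right
  have hnd : ¬ p ∣ (A.subgroupOf L).index := by
    intro h1
    have h2 : A.relIndex L ∣ A.relIndex N :=
      ⟨_, (Subgroup.relIndex_mul_relIndex A L N hAL hLN).symm⟩
    have h3 : A.relIndex N = (P : Subgroup G).relIndex N := Subgroup.inf_relIndex_right _ _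
    have h4 : (P : Subgroup G).relIndex N ∣ (P : Subgroup G).index :=
      relIndex_dvd_index_of_normal_right _ N
    exact P.not_dvd_index ((h1.trans h2).trans (h3 ▸ h4))
  haveI hnorm : (A.subgroupOf L).Normal :=
    Subgroup.normal_subgroupOf_of_le_normalizer inf_le_right
  obtain ⟨k, hk⟩ := hyo
  have hyk : y ^ p ^ k = 1 := by rw [← hk]; exact pow_orderOf_eq_one y
  have h1 : c ^ (A.subgroupOf L).index ∈ Subgroup.centralizer (A : Set G) := by
    have h2 := Subgroup.pow_index_mem (A.subgroupOf L) (⟨c, hcL⟩ : L)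
    rw [Subgroup.mem_subgroupOf] at h2
    have h3 : c ^ (A.subgroupOf L).index ∈ A := by simpa using h2
    rw [Subgroup.mem_centralizer_iff]
    intro b hb
    exact hAab _ hb _ h3
  have hpow : ∀ (n : ℕ) (b : G), b ∈ A → c ^ n * b * (c ^ n)⁻¹ = (y ^ n)⁻¹ * b * y ^ n := by
    intro n
    induction n with
    | zero => intro b _; simp
    | succ n ih =>
      intro b hb
      have h2 : c ^ (n + 1) * b * (c ^ (n + 1))⁻¹ = c ^ n * (c * b * c⁻¹) * (c ^ n)⁻¹ := by
        rw [pow_succ]; group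
      rw [h2, hc1 b hb, ih _ (hyA' b hb), pow_succ]
      group
  have h3 : c ^ p ^ k ∈ Subgroup.centralizer (A : Set G) := by
    rw [Subgroup.mem_centralizer_iff]
    intro b hb
    have h4 := hpow (p ^ k) b hb
    rw [hyk] at h4
    simp only [inv_one, one_mul, mul_one] at h4
    rw [mul_inv_eq_iff_eq_mul] at h4
    exact h4.symm
  have hco : Nat.Coprime (A.subgroupOf L).index (p ^ k) :=
    Nat.Coprime.pow_right _ ((Nat.Prime.coprime_iff_not_dvd Fact.out).2 hnd).symm
  have h4 : c ∈ Subgroup.centralizer (A : Set G) :=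
    mem_of_pow_mem_of_pow_mem _ c _ _ hco h1 h3
  have hamem : a ∈ A := ⟨haP, haN⟩
  have h5 := hc1 a hamem
  rw [Subgroup.mem_centralizer_iff] at h4
  have h6 := h4 a hamem
  rw [← h6] at h5
  have h7 : a = y⁻¹ * a * y := by
    rw [← h5]; group
  calc y * a = y * (y⁻¹ * a * y) := by rw [← h7]
    _ = a * y := by group

lemma step3
    (hG : ∀ x : G, (∃ k : ℕ, orderOf x = p ^ k) → ¬ p ∣ (Subgroup.centralizer ({x} : Set G)).index)
    (N : Subgroup G) [hNn : N.Normal] (hN : ∀ S : Sylow p N, IsMulCommutative S)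
    (hQ : ∀ S : Sylow p (G ⧸ N), IsMulCommutative S) (P : Sylow p G)
    {x w : G} (hx : x ∈ P) (hw : w ∈ P) : x * w = w * x := by
  classical
  have hxo := isPElement_of_mem P hx
  obtain ⟨Q, hQC, hxQ⟩ := exists_sylow_le_centralizer hxo (hG x hxo)
  obtain ⟨g, hg⟩ := MulAction.exists_smul_eq G P Q
  set u : G := g⁻¹ * x * g with hu
  have huP : u ∈ P := by
    rw [← hg] at hxQ
    exact mem_sylow_smul_iff.1 hxQ
  have huZ : ∀ v ∈ P, u * v = v * u := by
    intro v hv
    have h1 : g * v * g⁻¹ ∈ Q := by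
      rw [← hg, mem_sylow_smul_iff]
      have : g⁻¹ * (g * v * g⁻¹) * g = v := by group
      rwa [this]
    have h2 := hQC h1
    rw [Subgroup.mem_centralizer_singleton_iff] at h2
    have h3 : u * v = g⁻¹ * (x * (g * v * g⁻¹)) * g := by
      simp only [hu]; group
    have h4 : v * u = g⁻¹ * ((g * v * g⁻¹) * x) * g := by
      simp only [hu]; group
    rw [h3, h4, h2]
  let π := QuotientGroup.mk' N
  have hπ : Function.Surjective π := QuotientGroup.mk'_surjective N
  let Pb : Sylow p (G ⧸ N) := P.mapSurjective hπ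
  have hxb : π x ∈ Pb := ⟨x, hx, rfl⟩
  have hub : (π g)⁻¹ * π x * π g ∈ Pb := ⟨u, huP, by simp [hu]⟩
  haveI := hQ Pb
  obtain ⟨nb, hnb, hnb2⟩ := Pb.conj_eq_normalizer_conj_of_mem (π x) (π g) hxb hub
  obtain ⟨t, rfl⟩ := hπ nb
  have ht : ∀ s ∈ (P : Subgroup G), ∃ r ∈ (P : Subgroup G), r⁻¹ * (t * s * t⁻¹) ∈ N := by
    intro s hs
    have h1 : π t * π s * (π t)⁻¹ ∈ Pb :=
      (Subgroup.mem_normalizer_iff.1 hnb (π s)).1 ⟨s, hs, rfl⟩
    obtain ⟨r, hr, hr2⟩ := h1
    refine ⟨r, hr, ?_⟩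
    have h2 : π r = π (t * s * t⁻¹) := by rw [hr2]; simp
    exact QuotientGroup.eq.1 h2
  obtain ⟨n, hn, hnt⟩ := exists_mul_mem_normalizer N P t ht
  set s : G := n * t with hs
  have hsπ : π s = π t := by
    have : π n = 1 := (QuotientGroup.eq_one_iff n).2 hn
    simp [hs, this]
  set v : G := s⁻¹ * x * s with hv
  have hvP : v ∈ P := by
    have h1 := (Subgroup.mem_normalizer_iff.1 (Subgroup.inv_mem _ hnt) x).1 hx
    rw [inv_inv] at h1
    exact h1
  have hvπ : π v = π u := by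
    simp only [hv, hu, map_mul, map_inv, hsπ]
    exact hnb2.symm
  have huv : u⁻¹ * v ∈ N := QuotientGroup.eq.1 hvπ.symm
  have huvP : u⁻¹ * v ∈ P := P.mul_mem (P.inv_mem huP) hvP
  have hvZ : ∀ r ∈ P, v * r = r * v := by
    intro r hr
    have h1 := step2 hG N hN P hr huvP huv
    have h2 : v = u * (u⁻¹ * v) := by group
    rw [h2, mul_assoc, ← h1, ← mul_assoc, huZ r hr, mul_assoc]
  have hr : s⁻¹ * w * s ∈ P := by
    have h1 := (Subgroup.mem_normalizer_iff.1 (Subgroup.inv_mem _ hnt) w).1 hw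
    rw [inv_inv] at h1
    exact h1
  have h5 := hvZ _ hr
  have h6 : x * w = s * (v * (s⁻¹ * w * s)) * s⁻¹ := by
    simp only [hv]; group
  have h7 : w * x = s * ((s⁻¹ * w * s) * v) * s⁻¹ := by
    simp only [hv]; group
  rw [h6, h7, h5]

/-- Let G be a finite group and p a prime such that the Sylow p-subgroups of G are non-abelian while every element of p-power order has conjugacy class size prime to p, and suppose no nontrivial proper normal subgroup N of G has this property and no quotient G/N by such an N has it. Then G is simple. -/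
theorem result {G : Type*} [Group G] [Finite G]
    (p : ℕ) [Fact p.Prime] (h : ((∃ P : Sylow p G, ¬ IsMulCommutative P) ∧ ∀ x : G, (∃ k : ℕ, orderOf x = p ^ k) → ¬ p ∣ (Subgroup.centralizer ({x} : Set G)).index))
    (hmin : ∀ (N : Subgroup G) [N.Normal], N ≠ ⊥ → N ≠ ⊤ →
      ¬ ((∃ P : Sylow p N, ¬ IsMulCommutative P) ∧ ∀ x : N, (∃ k : ℕ, orderOf x = p ^ k) → ¬ p ∣ (Subgroup.centralizer ({x} : Set N)).index) ∧
      ¬ ((∃ P : Sylow p (G ⧸ N), ¬ IsMulCommutative P) ∧ ∀ x : (G ⧸ N), (∃ k : ℕ, orderOf x = p ^ k) → ¬ p ∣ (Subgroup.centralizer ({x} : Set (G ⧸ N))).index)) :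
    IsSimpleGroup G := by
  obtain ⟨⟨P, hP⟩, hG⟩ := h
  have key : ∀ (N : Subgroup G) [N.Normal], N ≠ ⊥ → N ≠ ⊤ → False := by
    intro N _ h1 h2
    have hmin' := hmin N h1 h2
    have hNab : ∀ S : Sylow p N, IsMulCommutative S := by
      intro S
      by_contra hS
      exact hmin'.1 ⟨⟨S, hS⟩, hered_normal hG N⟩
    have hQab : ∀ S : Sylow p (G ⧸ N), IsMulCommutative S := by
      intro S
      by_contra hS
      exact hmin'.2 ⟨⟨S, hS⟩, hered_quotient hG N⟩
    apply hP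
    exact ⟨⟨fun a b => Subtype.ext (step3 hG N hNab hQab P a.2 b.2)⟩⟩
  haveI : Nontrivial G := by
    by_contra hcon
    rw [not_nontrivial_iff_subsingleton] at hcon
    exact hP ⟨⟨fun a b => Subtype.ext (Subsingleton.elim _ _)⟩⟩
  refine ⟨fun N hN => ?_⟩
  by_contra hcon
  push Not at hcon
  exact key N hcon.1 hcon.2

end Cfsg.Agent.S4354
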