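import Cfsg.Statements.S4365
import Mathlib
import Cfsg.Agent.Lib.Cl.KPi2
import Cfsg.Agent.Lib.Cl.PrimeGraph

set_option autoImplicit false
open Cfsg

namespace Cfsg.Agent.S4365

open Subgroup Cfsg.Agent.Lib.Cl

section
variable {P : Type*} [Group P]

theorem mem_cent_iff {y t : P} : t ∈ centralizer ({y} : Set P) ↔ Commute t y :=
  Subgroup.mem_centralizer_singleton_iff

/-- Multiplying by a central element does not change the centralizer. -/
theorem cent_central_mul {y z : P} (hz : z ∈ center P) :
    centralizer ({z * y} : Set P) = centralizer ({y} : Set P) := by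
  ext t
  rw [mem_cent_iff, mem_cent_iff]
  have hzt : Commute t z := (Subgroup.mem_center_iff.mp hz t)
  constructor
  · intro h
    have h1 : t * (z * y) = (z * y) * t := h
    have h2 : t * z * y = z * y * t := by rw [mul_assoc]; exact h1
    rw [hzt.eq, mul_assoc z, mul_assoc z] at h2
    exact mul_left_cancel h2
  · intro h
    exact hzt.mul_right h

theorem pow_mem_of_central_commutators {a x : P}
    (hax : ∀ g : P, g * a * g⁻¹ * a⁻¹ ∈ center P) (k : ℕ) :
    ∃ z ∈ center P, (a * x) ^ k = z * a ^ k * x ^ k := by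
  induction k with
  | zero => exact ⟨1, one_mem _, by simp⟩
  | succ k ih =>
    obtain ⟨z, hz, h⟩ := ih
    refine ⟨z * (x ^ k * a * (x ^ k)⁻¹ * a⁻¹), mul_mem hz (hax _), ?_⟩
    set c := x ^ k * a * (x ^ k)⁻¹ * a⁻¹ with hc
    have hcc : c ∈ center P := hax _
    have h1 : x ^ k * a = c * a * x ^ k := by rw [hc]; group
    rw [pow_succ, h]
    calc z * a ^ k * x ^ k * (a * x) = z * a ^ k * (x ^ k * a) * x := by group
      _ = z * a ^ k * (c * a * x ^ k) * x := by rw [h1]
      _ = z * (a ^ k * c) * a * x ^ k * x := by group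
      _ = z * (c * a ^ k) * a * x ^ k * x := by rw [(Subgroup.mem_center_iff.mp hcc (a ^ k))]
      _ = z * c * a ^ (k + 1) * x ^ (k + 1) := by rw [pow_succ, pow_succ]; group

end

/-- Let P be a finite p-group whose conjugacy class sizes are exactly 1 and pᵃ for some a ≥ 1. Then every element of P has its p-th power in the center of P (P/Z(P) has exponent p). -/
theorem result {P : Type*} [Group P] [Finite P] (p : ℕ) [Fact p.Prime]
    (hP : IsPGroup p P) (a : ℕ) (ha : 1 ≤ a)
    (hcs : {k : ℕ | ∃ x : P, (Subgroup.centralizer ({x} : Set P)).index = k} = {1, p ^ a}) (x : P) :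
    x ^ p ∈ Subgroup.center P := by
  classical
  have hp : p.Prime := Fact.out
  by_contra hx
  -- class sizes
  have hsize : ∀ y : P, y ∉ center P → (centralizer ({y} : Set P)).index = p ^ a := by
    intro y hy
    have h1 : (centralizer ({y} : Set P)).index ∈ ({1, p ^ a} : Set ℕ) := by
      rw [← hcs]; exact ⟨y, rfl⟩
    rcases h1 with h1 | h1
    · exfalso
      apply hy
      rw [Subgroup.index_eq_one] at h1
      rw [Subgroup.mem_center_iff]
      intro g
      have : g ∈ centralizer ({y} : Set P) := by rw [h1]; trivial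
      exact mem_cent_iff.mp this
    · exact h1
  have hK : ∀ y y' : P, y ∉ center P → y' ∉ center P → centralizer ({y} : Set P) ≤ centralizer ({y'} : Set P) →
      centralizer ({y} : Set P) = centralizer ({y'} : Set P) := by
    intro y y' hy hy' hle
    apply Subgroup.eq_of_le_of_card_ge hle
    have h1 := Subgroup.card_mul_index (centralizer ({y} : Set P))
    have h2 := Subgroup.card_mul_index (centralizer ({y'} : Set P))
    rw [hsize y hy] at h1
    rw [hsize y' hy'] at h2
    have hpos : 0 < p ^ a := pow_pos hp.pos a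
    exact le_of_eq (Nat.eq_of_mul_eq_mul_right hpos (h2.trans h1.symm))
  have hle_pow : ∀ (y : P) (k : ℕ), centralizer ({y} : Set P) ≤ centralizer ({y ^ k} : Set P) := by
    intro y k t ht
    rw [mem_cent_iff] at ht ⊢
    exact ht.pow_right k
  have hxZ : x ∉ center P := fun h => hx (pow_mem h p)
  have hCx : centralizer ({x} : Set P) = centralizer ({x ^ p} : Set P) :=
    hK _ _ hxZ hx (hle_pow x p)
  -- a central element modulo the center
  have hQnt : Nontrivial (P ⧸ center P) := by
    refine ⟨⟨(x : P ⧸ center P), 1, ?_⟩⟩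
    rwa [Ne, QuotientGroup.eq_one_iff]
  have hQp : IsPGroup p (P ⧸ center P) := hP.to_quotient _
  obtain ⟨⟨ab, habc⟩, hab0⟩ := Subgroup.ne_bot_iff_exists_ne_one.mp (hQp.bot_lt_center).ne'
  have hab1 : ab ≠ 1 := fun h0 => hab0 (Subtype.ext h0)
  obtain ⟨k, hk⟩ := hQp ab
  obtain ⟨w, hw, hwo⟩ := exists_pow_order_prime hp hk hab1
  have hwc : w ∈ center (P ⧸ center P) := by
    obtain ⟨i, rfl⟩ := mem_zpowers_iff.mp hw
    exact zpow_mem habc i
  obtain ⟨b, rfl⟩ := QuotientGroup.mk_surjective w
  -- `b` is our element `a`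
  have hbZ : b ∉ center P := by
    intro h
    have : ((b : P) : P ⧸ center P) = 1 := (QuotientGroup.eq_one_iff b).mpr h
    rw [this, orderOf_one] at hwo
    exact hp.ne_one hwo.symm
  have hbp : b ^ p ∈ center P := by
    rw [← QuotientGroup.eq_one_iff, QuotientGroup.mk_pow, ← hwo]
    exact pow_orderOf_eq_one _
  have hbc : ∀ g : P, g * b * g⁻¹ * b⁻¹ ∈ center P := by
    intro g
    rw [← QuotientGroup.eq_one_iff]
    have h1 := Subgroup.mem_center_iff.mp hwc (g : P ⧸ center P)
    simp only [QuotientGroup.mk_mul, QuotientGroup.mk_inv]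
    rw [h1]
    group
  -- `x` commutes with `b`
  have hxb : Commute x b := by
    by_contra hne
    obtain ⟨z, hz, hzeq⟩ := pow_mem_of_central_commutators (x := x) hbc p
    have h1 : (b * x) ^ p = (z * b ^ p) * x ^ p := hzeq
    have hzb : z * b ^ p ∈ center P := mul_mem hz hbp
    have h2 : centralizer ({(b * x) ^ p} : Set P) = centralizer ({x ^ p} : Set P) := by
      rw [h1, cent_central_mul hzb]
    have h3 : (b * x) ^ p ∉ center P := by
      intro h
      apply hx
      have h4 : x ^ p = (z * b ^ p)⁻¹ * (b * x) ^ p := by rw [h1]; group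
      rw [h4]
      exact mul_mem (inv_mem hzb) h
    have h5 : b * x ∉ center P := fun h => h3 (pow_mem h p)
    have h6 := hK _ _ h5 h3 (hle_pow (b * x) p)
    have h7 : x ∈ centralizer ({b * x} : Set P) := by
      rw [h6, h2, ← hCx]
      exact mem_cent_iff.mpr (Commute.refl x)
    rw [mem_cent_iff] at h7
    apply hne
    have h8 : x * (b * x) = (b * x) * x := h7
    have h9 : (x * b) * x = (b * x) * x := by rw [mul_assoc]; exact h8
    exact mul_right_cancel h9
  -- the centralizer of `x` is the centralizer of `b`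
  have hDb : centralizer ({x} : Set P) = centralizer ({b} : Set P) := by
    have h1 : (x * b) ^ p = b ^ p * x ^ p := by
      rw [hxb.mul_pow, (Subgroup.mem_center_iff.mp hbp (x ^ p))]
    have h2 : centralizer ({(x * b) ^ p} : Set P) = centralizer ({x ^ p} : Set P) := by
      rw [h1, cent_central_mul hbp]
    have h3 : (x * b) ^ p ∉ center P := by
      intro h
      apply hx
      have h4 : x ^ p = (b ^ p)⁻¹ * (x * b) ^ p := by rw [h1]; group
      rw [h4]
      exact mul_mem (inv_mem hbp) h
    have h5 : x * b ∉ center P := fun h => h3 (pow_mem h p)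
    have h6 := hK _ _ h5 h3 (hle_pow (x * b) p)
    apply hK _ _ hxZ hbZ
    intro t ht
    have h7 : t ∈ centralizer ({x * b} : Set P) := by
      rw [h6, h2, ← hCx]; exact ht
    rw [mem_cent_iff] at h7 ht ⊢
    have h8 : t * (x * b) = (x * b) * t := h7
    have h9 : x * (t * b) = x * (b * t) := by
      calc x * (t * b) = (x * t) * b := by group
        _ = (t * x) * b := by rw [ht.eq]
        _ = t * (x * b) := by group
        _ = (x * b) * t := h8
        _ = x * (b * t) := by group
    exact mul_left_cancel h9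
  set D : Subgroup P := centralizer ({x} : Set P) with hD
  -- `D` is normal
  have hDn : ∀ g : P, ∀ d ∈ D, g * d * g⁻¹ ∈ D := by
    intro g d hd
    rw [hDb] at hd ⊢
    rw [mem_cent_iff] at hd ⊢
    -- `g⁻¹ b g = b c` with `c` central
    have hc := hbc g⁻¹
    set c := g⁻¹ * b * g⁻¹⁻¹ * b⁻¹ with hcdef
    have h1 : g⁻¹ * b * g = c * b := by rw [hcdef]; group
    have hcd : Commute d c := Subgroup.mem_center_iff.mp hc d
    have h2 : Commute d (g⁻¹ * b * g) := by
      rw [h1]; exact hcd.mul_right hd
    have h3 : d * (g⁻¹ * b * g) = (g⁻¹ * b * g) * d := h2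
    show g * d * g⁻¹ * b = b * (g * d * g⁻¹)
    calc g * d * g⁻¹ * b = g * (d * (g⁻¹ * b * g)) * g⁻¹ := by group
      _ = g * ((g⁻¹ * b * g) * d) * g⁻¹ := by rw [h3]
      _ = b * (g * d * g⁻¹) := by group
  -- `k ^ p ∈ D`
  have hpow : ∀ k : P, k ^ p ∈ D := by
    intro k
    rw [hDb, mem_cent_iff]
    have hc := hbc k
    set c := k * b * k⁻¹ * b⁻¹ with hcdef
    have h1 : k * b * k⁻¹ = c * b := by rw [hcdef]; group
    have hcp : ∀ j : ℕ, k ^ j * b * (k ^ j)⁻¹ = c ^ j * b := by
      intro j
      induction j with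
      | zero => simp
      | succ j ih =>
        rw [pow_succ', pow_succ']
        calc k * k ^ j * b * (k * k ^ j)⁻¹ = k * (k ^ j * b * (k ^ j)⁻¹) * k⁻¹ := by group
          _ = k * (c ^ j * b) * k⁻¹ := by rw [ih]
          _ = (k * c ^ j) * (b * k⁻¹) := by group
          _ = (c ^ j * k) * (b * k⁻¹) := by
              rw [(Subgroup.mem_center_iff.mp (pow_mem hc j) k)]
          _ = c ^ j * (k * b * k⁻¹) := by group
          _ = c * c ^ j * b := by
              rw [h1]
              rw [← mul_assoc, (show c ^ j * c = c * c ^ j from (Commute.refl c).pow_left j)]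
    have hcp1 : c ^ p = 1 := by
      -- compare the two ways of conjugating `b ^ p`
      have h2 : k * b ^ p * k⁻¹ = b ^ p := by
        rw [Subgroup.mem_center_iff.mp hbp k, mul_inv_cancel_right]
      have h3 : k * b ^ p * k⁻¹ = (c * b) ^ p := by
        rw [← h1, conj_pow]
      have h4 : (c * b) ^ p = c ^ p * b ^ p := by
        rw [(show Commute c b from (Subgroup.mem_center_iff.mp hc b).symm).mul_pow]
      rw [h3, h4] at h2
      exact mul_eq_right.mp h2
    have h5 := hcp p
    rw [hcp1, one_mul, mul_inv_eq_iff_eq_mul] at h5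
    exact h5
  -- an element outside `D`
  obtain ⟨h, hhD⟩ : ∃ h : P, h ∉ D := by
    by_contra hcon
    push Not at hcon
    apply hxZ
    rw [Subgroup.mem_center_iff]
    intro g
    exact mem_cent_iff.mp (hcon g)
  let u : P → P := fun g => g * x * g⁻¹
  have hucomm : ∀ g t, Commute (u g) t → t ∈ D := by
    intro g t ht
    have h1 : g⁻¹ * t * g ∈ D := by
      rw [mem_cent_iff]
      have h2 : (g * x * g⁻¹) * t = t * (g * x * g⁻¹) := ht
      show g⁻¹ * t * g * x = x * (g⁻¹ * t * g)
      calc g⁻¹ * t * g * x = g⁻¹ * (t * (g * x * g⁻¹)) * g := by group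
        _ = g⁻¹ * ((g * x * g⁻¹) * t) * g := by rw [h2]
        _ = x * (g⁻¹ * t * g) := by group
    have h3 := hDn g _ h1
    have h4 : g * (g⁻¹ * t * g) * g⁻¹ = t := by group
    rwa [h4] at h3
  have hDu : ∀ g, ∀ d ∈ D, Commute d (u g) := by
    intro g d hd
    have h1 : g⁻¹ * d * g ∈ D := by
      have := hDn g⁻¹ d hd
      simpa using this
    have h2 : (g⁻¹ * d * g) * x = x * (g⁻¹ * d * g) := mem_cent_iff.mp h1
    show d * (g * x * g⁻¹) = (g * x * g⁻¹) * d
    calc d * (g * x * g⁻¹) = g * ((g⁻¹ * d * g) * x) * g⁻¹ := by group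
      _ = g * (x * (g⁻¹ * d * g)) * g⁻¹ := by rw [h2]
      _ = (g * x * g⁻¹) * d := by group
  -- the key step
  have hinjf : ∀ g g' : P, u g * h * (u g)⁻¹ = u g' * h * (u g')⁻¹ → g⁻¹ * g' ∈ D := by
    intro g g' hgg
    set v := (u g)⁻¹ * u g' with hv
    have hvh : Commute v h := by
      show ((u g)⁻¹ * u g') * h = h * ((u g)⁻¹ * u g')
      have h1 : u g' * h = u g * h * (u g)⁻¹ * u g' := by
        rw [hgg]; group
      calc (u g)⁻¹ * u g' * h = (u g)⁻¹ * (u g' * h) := by group
        _ = (u g)⁻¹ * (u g * h * (u g)⁻¹ * u g') := by rw [h1]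
        _ = h * ((u g)⁻¹ * u g') := by group
    have hvZ : v ∈ center P := by
      by_contra hvn
      have h1 : D ≤ centralizer ({v} : Set P) := by
        intro d hd
        rw [mem_cent_iff]
        exact (hDu g d hd).inv_right.mul_right (hDu g' d hd)
      have h2 := hK _ _ hxZ hvn h1
      apply hhD
      rw [hD, h2, mem_cent_iff]
      exact hvh.symm
    set k := g⁻¹ * g' with hkdef
    have h0 : u g' = u g * v := by rw [hv]; group
    have hvc : ∀ t : P, t * v = v * t := fun t => Subgroup.mem_center_iff.mp hvZ t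
    have h3 : k * x * k⁻¹ = x * v := by
      calc k * x * k⁻¹ = g⁻¹ * (g' * x * g'⁻¹) * g := by rw [hkdef]; group
        _ = g⁻¹ * (u g * v) * g := by
            show g⁻¹ * u g' * g = _
            rw [h0]
        _ = g⁻¹ * u g * (v * g) := by group
        _ = g⁻¹ * u g * (g * v) := by rw [hvc g]
        _ = x * v := by
            show g⁻¹ * (g * x * g⁻¹) * (g * v) = x * v
            group
    have hxv : Commute x v := hvc x
    have hkj : ∀ j : ℕ, k ^ j * x * (k ^ j)⁻¹ = x * v ^ j := by
      intro j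
      induction j with
      | zero => simp
      | succ j ih =>
        rw [pow_succ', pow_succ']
        calc k * k ^ j * x * (k * k ^ j)⁻¹ = k * (k ^ j * x * (k ^ j)⁻¹) * k⁻¹ := by group
          _ = k * (x * v ^ j) * k⁻¹ := by rw [ih]
          _ = k * x * (v ^ j * k⁻¹) := by group
          _ = k * x * (k⁻¹ * v ^ j) := by
              rw [(Subgroup.mem_center_iff.mp (pow_mem hvZ j) k⁻¹)]
          _ = (k * x * k⁻¹) * v ^ j := by group
          _ = x * v * v ^ j := by rw [h3]
          _ = x * (v * v ^ j) := by group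
    have hvp : v ^ p = 1 := by
      have h4 := hkj p
      have h5 : Commute (k ^ p) x := mem_cent_iff.mp (hpow k)
      have h6 : k ^ p * x * (k ^ p)⁻¹ = x := by
        rw [h5.eq]; group
      rw [h6] at h4
      exact (mul_eq_left.mp h4.symm)
    have h7 : k * x ^ p * k⁻¹ = x ^ p := by
      rw [← conj_pow, h3, hxv.mul_pow, hvp, mul_one]
    have h8 : k ∈ centralizer ({x ^ p} : Set P) := by
      rw [mem_cent_iff]
      show k * x ^ p = x ^ p * k
      have := congrArg (· * k) h7
      simpa using this
    rw [← hCx] at h8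
    exact h8
  -- the contradiction
  let f : P ⧸ D → (ConjClasses.mk h).carrier := fun q =>
    ⟨u q.out * h * (u q.out)⁻¹, by
      rw [ConjClasses.mem_carrier_iff_mk_eq, ConjClasses.mk_eq_mk_iff_isConj, isConj_comm, isConj_iff]
      exact ⟨u q.out, rfl⟩⟩
  have hfinj : Function.Injective f := by
    intro q q' hq
    have h1 : u q.out * h * (u q.out)⁻¹ = u q'.out * h * (u q'.out)⁻¹ := congrArg Subtype.val hq
    have h2 := hinjf _ _ h1
    have h3 : ((q.out : P) : P ⧸ D) = ((q'.out : P) : P ⧸ D) := QuotientGroup.eq.mpr h2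
    rwa [QuotientGroup.out_eq', QuotientGroup.out_eq'] at h3
  have hcard1 : Nat.card (P ⧸ D) = p ^ a := by
    rw [← Subgroup.index_eq_card]
    exact hsize x hxZ
  have hhZ : h ∉ center P := by
    intro hh
    apply hhD
    rw [mem_cent_iff]
    exact (Subgroup.mem_center_iff.mp hh x).symm
  have hcard2 : Nat.card (ConjClasses.mk h).carrier = p ^ a := by
    rw [Nat.card_coe_set_eq]
    have h1 := card_cent_mul_carrier h
    have h2 := Subgroup.card_mul_index (centralizer ({h} : Set P))
    rw [hsize h hhZ] at h2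
    exact Nat.eq_of_mul_eq_mul_left Nat.card_pos (h1.trans h2.symm)
  have hbij : Function.Bijective f :=
    (Nat.bijective_iff_injective_and_card f).mpr ⟨hfinj, hcard1.trans hcard2.symm⟩
  obtain ⟨q, hq⟩ := hbij.2 ⟨h, by rw [ConjClasses.mem_carrier_iff_mk_eq]⟩
  have h1 : u q.out * h * (u q.out)⁻¹ = h := congrArg Subtype.val hq
  apply hhD
  apply hucomm q.out
  show u q.out * h = h * u q.out
  rw [mul_inv_eq_iff_eq_mul] at h1
  exact h1

end Cfsg.Agent.S4365
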