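import Cfsg.Statements.S4376
import Mathlib
import Cfsg.Agent.Lib.Piwek.Data
import Cfsg.Agent.Lib.ClassSizes.OrderType

set_option autoImplicit false
open Cfsg

namespace Cfsg.Agent.S4376

/-- There are finite groups G and H having the same number of elements of each order (the same order type) with G solvable and H not solvable. -/
theorem result :
    ∃ (G : Type) (_ : Group G) (_ : Finite G) (H : Type) (_ : Group H) (_ : Finite H),
      Group.IsSolvable G ∧ ¬ Group.IsSolvable H ∧ ∀ n : ℕ, Nat.card {g : G // orderOf g = n} = Nat.card {h : H // orderOf h = n} := by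
  open Cfsg.Agent.Lib.Piwek in
  exact
    have hfS := bigFinite lS
    have hfN := bigFinite lN
    ⟨Big lS, bigGroup lS, hfS, Big lN, bigGroup lN, hfN, bigSolvable lS solv_lS,
      bigNotSolvable rP (by decide) _ not_solv_rP,
      Cfsg.Agent.Lib.ClassSizes.orderType_iff.2 fun n => by
        rw [cnt_big lS check_lS, cnt_big lN check_lN]
        exact val_eq _ (gcd_mem_div84 n)⟩

end Cfsg.Agent.S4376
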