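import Cfsg.Statements.S4377
import Mathlib
import Cfsg.Agent.Lib.ClassSizes.OrderType

set_option autoImplicit false
open Cfsg

namespace Cfsg.Agent.S4377

/-- Two finite groups have the same number of elements of each order if and only if, for every n, they have the same number of elements g with gⁿ = 1. -/
theorem result {G H : Type*} [Group G] [Finite G] [Group H] [Finite H] :
    (∀ n : ℕ, Nat.card {g : G // orderOf g = n} = Nat.card {h : H // orderOf h = n}) ↔
      ∀ n : ℕ, Nat.card {g : G // g ^ n = 1} = Nat.card {h : H // h ^ n = 1} := by
  exact Cfsg.Agent.Lib.ClassSizes.orderType_iff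

end Cfsg.Agent.S4377
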