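import Cfsg.Statements.S4387
import Mathlib
import Cfsg.Agent.Lib.Derangement.Basic
import Cfsg.Agent.Lib.PGroup.Basic

set_option autoImplicit false
open Pointwise
open Cfsg

namespace Cfsg.Agent.S4387

/-- Let G be a non-trivial finite group in which any two maximal subgroups are conjugate. Then G is cyclic of prime-power order. -/
theorem result {G : Type*} [Group G] [Finite G] [Nontrivial G]
    (h : ∀ M N : Subgroup G, IsCoatom M → IsCoatom N → ∃ g : G, N = MulAut.conj g • M) :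
    IsCyclic G ∧ IsPrimePow (Nat.card G) := by
  classical
  obtain ⟨M, hM, -⟩ : ∃ M : Subgroup G, IsCoatom M ∧ ⊥ ≤ M :=
    (eq_top_or_exists_le_coatom (⊥ : Subgroup G)).resolve_left bot_ne_top
  obtain ⟨x, hx⟩ := Cfsg.Agent.Lib.Derangement.exists_not_mem_conj M hM.1
  have htop : Subgroup.zpowers x = ⊤ := by
    by_contra hne
    obtain ⟨N, hN, hle⟩ := (eq_top_or_exists_le_coatom (Subgroup.zpowers x)).resolve_left hne
    obtain ⟨g, hg⟩ := h M N hM hN
    have hxN : x ∈ N := hle (Subgroup.mem_zpowers x)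
    rw [hg] at hxN
    apply hx g
    rw [Subgroup.mem_pointwise_smul_iff_inv_smul_mem] at hxN
    simpa [MulAut.smul_def, MulAut.conj_inv_apply] using hxN
  have hcyc : IsCyclic G := ⟨⟨x, fun y => by
    have : y ∈ Subgroup.zpowers x := by rw [htop]; trivial
    exact this⟩⟩
  refine ⟨hcyc, ?_⟩
  have hcard : orderOf x = Nat.card G := by
    rw [← Nat.card_zpowers, htop, Subgroup.card_top]
  have hidx : ∀ p : ℕ, p.Prime → p ∣ Nat.card G → ∃ N : Subgroup G, IsCoatom N ∧ N.index = p := by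
    intro p hp hpd
    have h1 : (Subgroup.zpowers (x ^ p)).index = p := by
      have h2 := (Subgroup.zpowers (x ^ p)).card_mul_index
      rw [Nat.card_zpowers, orderOf_pow_of_dvd hp.ne_zero (hcard ▸ hpd), hcard] at h2
      obtain ⟨c, hc⟩ := hpd
      have hpos : 0 < Nat.card G := Nat.card_pos
      have hc0 : 0 < c := by
        rcases Nat.eq_zero_or_pos c with rfl | h
        · simp at hc; omega
        · exact h
      rw [hc, Nat.mul_div_cancel_left _ hp.pos] at h2
      have h3 : c * (Subgroup.zpowers (x ^ p)).index = c * p := by rw [h2]; ring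
      exact Nat.eq_of_mul_eq_mul_left hc0 h3
    exact ⟨_, Cfsg.Agent.Lib.PGroup.isCoatom_of_index_prime (by rw [h1]; exact hp), h1⟩
  rw [isPrimePow_iff_unique_prime_dvd]
  have hne1 : Nat.card G ≠ 1 := Finite.one_lt_card.ne'
  obtain ⟨p, hp, hpd⟩ := Nat.exists_prime_and_dvd hne1
  refine ⟨p, ⟨hp, hpd⟩, ?_⟩
  rintro q ⟨hq, hqd⟩
  obtain ⟨N₁, hN₁, hi₁⟩ := hidx p hp hpd
  obtain ⟨N₂, hN₂, hi₂⟩ := hidx q hq hqd
  obtain ⟨g, hg⟩ := h N₁ N₂ hN₁ hN₂
  have h3 : N₂.index = N₁.index := by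
    rw [hg]
    exact Subgroup.index_map_equiv N₁ (MulAut.conj g)
  omega

end Cfsg.Agent.S4387
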