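import Cfsg.Statements.S4396
import Mathlib
import Cfsg.Agent.Lib.FrobFree.Main
import Cfsg.Agent.Lib.Perm.PermModule

set_option autoImplicit false
open Cfsg

namespace Cfsg.Agent.S4396


open Module
open scoped Pointwise

theorem eq_top_of_sylows {G : Type*} [Group G] [Finite G] (K : Subgroup G)
    (h : ∀ p : ℕ, p.Prime → ∃ S : Sylow p G, (S : Subgroup G) ≤ K) : K = ⊤ := by
  rw [← Subgroup.index_eq_one]
  by_contra hne
  obtain ⟨p, hp, hd⟩ := Nat.exists_prime_and_dvd hne
  haveI : Fact p.Prime := ⟨hp⟩
  obtain ⟨S, hS⟩ := h p hp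
  exact S.not_dvd_index (hd.trans (Subgroup.index_dvd_of_le hS))

theorem isInternal_of_finrank {k V ι : Type*} [Field k] [AddCommGroup V] [Module k V]
    [FiniteDimensional k V] [Fintype ι] [DecidableEq ι] (M : ι → Submodule k V)
    (hsup : (⨆ i, M i) = ⊤) (hsum : ∑ i, finrank k (M i) = finrank k V) :
    DirectSum.IsInternal M := by
  classical
  have hsurj : Function.Surjective (DirectSum.coeLinearMap M) := by
    rw [← LinearMap.range_eq_top, DirectSum.range_coeLinearMap, hsup]
  have hfin : finrank k (DirectSum ι fun i => M i) = finrank k V := by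
    rw [Module.finrank_directSum, hsum]
  have hinj : Function.Injective (DirectSum.coeLinearMap M) :=
    (LinearMap.injective_iff_surjective_of_finrank_eq_finrank hfin).2 hsurj
  exact ⟨hinj, hsurj⟩

theorem exists_E {k A : Type*} [Field k] [Group A] [Finite A] (Fk : Subgroup A) [Fk.Normal]
    (hnil : Group.IsNilpotent ↥Fk) :
    ∃ E : Subgroup A, E.Normal ∧ E ≤ Fk ∧ ((Nat.card E : ℕ) : k) ≠ 0 ∧
      ∀ r : ℕ, r.Prime → ((r : ℕ) : k) ≠ 0 → ∀ S : Sylow r ↥Fk, ∀ x : ↥Fk, x ∈ S → (x : A) ∈ E := by
  classical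
  haveI := hnil
  let 𝔖 : Set (Subgroup A) := {N | N.Normal ∧ N ≤ Fk ∧ ((Nat.card N : ℕ) : k) ≠ 0}
  have hbot : (⊥ : Subgroup A) ∈ 𝔖 := by
    refine ⟨inferInstance, bot_le, ?_⟩
    simp
  obtain ⟨E, -, hmax⟩ := (Set.toFinite 𝔖).exists_le_maximal hbot
  obtain ⟨hEn, hEF, hEk⟩ := hmax.prop
  refine ⟨E, hEn, hEF, hEk, ?_⟩
  intro r hr hrk S x hx
  haveI : Fact r.Prime := ⟨hr⟩
  haveI hSn : (S : Subgroup ↥Fk).Normal := inferInstance
  haveI hSc : (S : Subgroup ↥Fk).Characteristic := Sylow.characteristic_of_normal S hSn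
  let T : Subgroup A := (S : Subgroup ↥Fk).map Fk.subtype
  haveI hTn : T.Normal := inferInstance
  haveI := hEn
  have hET : (E ⊔ T) ∈ 𝔖 := by
    refine ⟨Subgroup.sup_normal E T, sup_le hEF ?_, ?_⟩
    · rintro _ ⟨y, _, rfl⟩
      exact y.2
    · have h1 : Nat.card E * E.relIndex (E ⊔ T) = Nat.card ↥(E ⊔ T) := by
        have := Subgroup.relIndex_mul_relIndex (⊥ : Subgroup A) E (E ⊔ T) bot_le le_sup_left
        simpa [Subgroup.relIndex_bot_left] using this
      have h2 : E.relIndex (E ⊔ T) = E.relIndex T := Subgroup.relIndex_sup_left T E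
      have h3 : E.relIndex T ∣ Nat.card T := Subgroup.relIndex_dvd_card E T
      have h4 : Nat.card T = Nat.card (S : Subgroup ↥Fk) :=
        Nat.card_congr (Subgroup.equivMapOfInjective _ _ Fk.subtype_injective).symm.toEquiv
      obtain ⟨n, hn⟩ := IsPGroup.iff_card.1 S.isPGroup'
      have h5 : (((E.relIndex (E ⊔ T) : ℕ)) : k) ≠ 0 := by
        intro h0
        rw [h2] at h0
        obtain ⟨c, hc⟩ := h3
        have h6 : ((Nat.card T : ℕ) : k) = 0 := by
          rw [hc]
          push_cast
          rw [h0, zero_mul]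
        rw [h4, hn] at h6
        push_cast at h6
        exact pow_ne_zero _ hrk h6
      rw [← h1]
      push_cast
      exact mul_ne_zero hEk h5
  have hle : E ⊔ T ≤ E := hmax.le_of_ge hET le_sup_left
  exact hle (le_sup_right (a := E) (b := T) ⟨x, hx, rfl⟩)

/-- Let the finite group A act faithfully and linearly on a finite-dimensional vector space V over a field k, and suppose A is a Frobenius group with nilpotent kernel F (every Frobenius kernel is nilpotent) and complement H such that F fixes no nonzero vector. Then V is free as a module for H: there is a subspace W with V the direct sum of the translates hW, h ∈ H. (No assumption on the characteristic of k.) -/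
theorem result {k V A : Type*} [Field k] [AddCommGroup V] [Module k V] [FiniteDimensional k V] [Group A] [Finite A] [DecidableEq A]
    (ρ : Representation k A V) (hρ : Function.Injective ρ)
    (Fk Hc : Subgroup A) [Fk.Normal] (hHc : Cfsg.IsFrobeniusComplement Hc) (hker : Cfsg.frobeniusKernel Hc = (Fk : Set A)) (hnil : Group.IsNilpotent ↥Fk)
    (hCF : ∀ v : V, (∀ f ∈ Fk, ρ f v = v) → v = 0) :
    ∃ W : Submodule k V, DirectSum.IsInternal (fun h : ↥Hc => W.map (ρ (h : A))) := by
  classical
  haveI hnil' := hnil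
  obtain ⟨E, hEn, hEF, hEk, hEsyl⟩ := exists_E (k := k) Fk hnil
  haveI := hEn
  -- no vector is fixed by `E`
  have h0 : ∀ v : V, (∀ e ∈ E, ρ e v = v) → v = 0 := by
    intro v hv
    by_contra hv0
    let U : Submodule k V :=
      { carrier := {u | ∀ e ∈ E, ρ e u = u}
        add_mem' := by
          intro a b ha hb e he
          rw [map_add, ha e he, hb e he]
        zero_mem' := by
          intro e he
          simp
        smul_mem' := by
          intro c a ha e he
          rw [map_smul, ha e he] }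
    have hU : ∀ f : ↥Fk, ∀ u ∈ U, ρ (f : A) u ∈ U := by
      intro f u hu e he
      have h1 : ρ e (ρ (f : A) u) = ρ (f : A) (ρ ((f : A)⁻¹ * e * (f : A)) u) := by
        rw [← Module.End.mul_apply, ← Module.End.mul_apply, ← map_mul, ← map_mul]
        congr 2
        group
      rw [h1, hu _ (by simpa using hEn.conj_mem e he (f : A)⁻¹)]
    -- a nonzero vector of `U` fixed by the Sylow subgroup at the characteristic
    obtain ⟨p, hp⟩ := CharP.exists k
    obtain ⟨u, huU, hu0, hufix⟩ : ∃ u ∈ U, u ≠ 0 ∧
        ∀ r : ℕ, r.Prime → ((r : ℕ) : k) = 0 → ∃ S : Sylow r ↥Fk, ∀ x ∈ S, ρ ((x : ↥Fk) : A) u = u := by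
      rcases CharP.char_is_prime_or_zero k p with hpp | hp0
      · haveI : Fact p.Prime := ⟨hpp⟩
        obtain ⟨S⟩ : Nonempty (Sylow p ↥Fk) := inferInstance
        let ρ' : ↥(S : Subgroup ↥Fk) →* Module.End k V :=
          (ρ.comp Fk.subtype).comp (S : Subgroup ↥Fk).subtype
        obtain ⟨u, huU, hu0, hfix⟩ := Cfsg.Agent.Lib.Perm.exists_fixed_vector
          (IsPGroup.of_surjective (S.isPGroup') (MonoidHom.id _) Function.surjective_id) ρ' U
          (fun g u hu => hU _ u hu) v hv hv0
        refine ⟨u, huU, hu0, ?_⟩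
        intro r hr hrk
        have hpr : p ∣ r := (CharP.cast_eq_zero_iff k p r).1 hrk
        have hpr' : p = r := (Nat.prime_dvd_prime_iff_eq hpp hr).1 hpr
        subst hpr'
        exact ⟨S, fun x hx => hfix ⟨x, hx⟩⟩
      · subst hp0
        refine ⟨v, hv, hv0, ?_⟩
        intro r hr hrk
        have h0r : 0 ∣ r := (CharP.cast_eq_zero_iff k 0 r).1 hrk
        exact absurd (Nat.eq_zero_of_zero_dvd h0r) hr.ne_zero
    -- the stabiliser of `u` in `Fk` contains a Sylow subgroup for every prime
    let K : Subgroup ↥Fk :=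
      { carrier := {f | ρ (f : A) u = u}
        mul_mem' := by
          intro a b ha hb
          show ρ ((a * b : ↥Fk) : A) u = u
          rw [Subgroup.coe_mul, map_mul, Module.End.mul_apply]
          show ρ (a : A) (ρ (b : A) u) = u
          rw [show ρ (b : A) u = u from hb]
          exact ha
        one_mem' := by
          show ρ ((1 : ↥Fk) : A) u = u
          simp
        inv_mem' := by
          intro a ha
          show ρ ((a⁻¹ : ↥Fk) : A) u = u
          have ha' : ρ (a : A) u = u := ha
          calc ρ ((a⁻¹ : ↥Fk) : A) u = ρ ((a⁻¹ : ↥Fk) : A) (ρ (a : A) u) := by rw [ha']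
            _ = u := by
              rw [← Module.End.mul_apply, ← map_mul]
              simp }
    have hKtop : K = ⊤ := by
      apply eq_top_of_sylows
      intro r hr
      haveI : Fact r.Prime := ⟨hr⟩
      by_cases hrk : ((r : ℕ) : k) = 0
      · obtain ⟨S, hS⟩ := hufix r hr hrk
        exact ⟨S, fun x hx => hS x hx⟩
      · obtain ⟨S⟩ : Nonempty (Sylow r ↥Fk) := inferInstance
        exact ⟨S, fun x hx => huU _ (hEsyl r hr hrk S x hx)⟩
    apply hu0
    apply hCF
    intro f hf
    have : (⟨f, hf⟩ : ↥Fk) ∈ K := by rw [hKtop]; trivial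
    exact this
  -- the Frobenius facts
  have hFH : ∀ x : A, x ∈ Fk → x ∈ Hc → x = 1 := by
    intro x hxF hxH
    have h1 : x ∈ Cfsg.frobeniusKernel Hc := by rw [hker]; exact hxF
    rcases h1 with h1 | h1
    · exact h1
    · exfalso
      apply h1 1
      simpa using hxH
  have hfp : ∀ (h : ↥Hc) (e : ↥E), (h : A) * (e : A) * (h : A)⁻¹ = (e : A) → h = 1 ∨ e = 1 := by
    intro h e hhe
    by_cases hh : h = 1
    · exact Or.inl hh
    right
    by_cases heH : (e : A) ∈ Hc
    · exact Subtype.ext (hFH _ (hEF e.2) heH)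
    · exfalso
      apply hh
      have hb := hHc.2.2 (e : A) heH
      have hmem : (h : A) ∈ Hc ⊓ (MulAut.conj (e : A) • Hc) := by
        refine ⟨h.2, ?_⟩
        show (h : A) ∈ MulAut.conj (e : A) • Hc
        rw [Subgroup.mem_pointwise_smul_iff_inv_smul_mem]
        have h2 : (MulAut.conj (e : A))⁻¹ • (h : A) = (e : A)⁻¹ * (h : A) * (e : A) := by
          simp [MulAut.smul_def]
        rw [h2]
        have h3 : (e : A)⁻¹ * (h : A) * (e : A) = (h : A) := by
          have h4 : (h : A) * (e : A) = (e : A) * (h : A) := by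
            calc (h : A) * (e : A) = (h : A) * (e : A) * (h : A)⁻¹ * (h : A) := by group
              _ = (e : A) * (h : A) := by rw [hhe]
          rw [mul_assoc, h4]
          group
        rw [h3]
        exact h.2
      rw [hb] at hmem
      exact Subtype.ext (by simpa using hmem)
  haveI : Fintype ↥Hc := Fintype.ofFinite _
  haveI hEnil : Group.IsNilpotent ↥E := by
    have h1 : Group.IsNilpotent ↥(E.subgroupOf Fk) := inferInstance
    exact nilpotent_of_mulEquiv (Subgroup.subgroupOfEquivOfLe hEF)
  obtain ⟨W, hW1, hW2⟩ := Cfsg.Agent.Lib.FrobFree.free_general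
    (ρ.comp E.subtype : ↥E →* Module.End k V)
    (MonoidHom.toHomUnits (ρ.comp Hc.subtype) : ↥Hc →* (Module.End k V)ˣ)
    ((MulAut.conjNormal (H := E)).comp Hc.subtype : ↥Hc →* MulAut ↥E)
    (by
      intro h e
      rw [← map_inv, MonoidHom.coe_toHomUnits, MonoidHom.coe_toHomUnits]
      simp only [MonoidHom.comp_apply, Subgroup.coe_subtype, Subgroup.coe_inv, ← map_mul]
      simp [MulAut.conjNormal_apply])
    (by
      intro h e he
      apply hfp h e
      have := congrArg (Subtype.val) he
      simpa [MulAut.conjNormal_apply] using this)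
    hEk
    (by
      intro v hv
      exact h0 v (fun e he => hv ⟨e, he⟩))
  refine ⟨W, ?_⟩
  have hinj : ∀ h : ↥Hc, Function.Injective (ρ (h : A)) := by
    intro h x y hxy
    have h1 := congrArg (ρ ((h : A)⁻¹)) hxy
    rw [← Module.End.mul_apply, ← Module.End.mul_apply, ← map_mul] at h1
    simpa using h1
  apply isInternal_of_finrank
  · exact hW1
  · have h1 : ∀ h : ↥Hc, finrank k ↥(W.map (ρ (h : A))) = finrank k W := by
      intro h
      exact LinearEquiv.finrank_eq (Submodule.equivMapOfInjective (ρ (h : A)) (hinj h) W).symm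
    rw [Finset.sum_congr rfl (fun h _ => h1 h), Finset.sum_const, Finset.card_univ, smul_eq_mul]
    exact hW2

end Cfsg.Agent.S4396
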