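import Cfsg.Statements.S4398
import Mathlib
import Cfsg.Agent.Lib.ClassSizes.SecRank2
import Cfsg.Agent.Lib.Cl.MaxClass

set_option autoImplicit false
open Cfsg

namespace Cfsg.Agent.S4398

/-- Let S be a finite 2-group of sectional 2-rank at most 2 that contains a subgroup isomorphic to the dihedral group of order 8 or to the quaternion group of order 8. Then S is dihedral of order at least 8, semidihedral of order at least 16 (order 2^(k+4) with an element a of order 2^(k+3) and an involution b with b a b⁻¹ = a^(2^(k+2)−1)), or generalized quaternion of order at least 8. -/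
theorem result {S : Type*} [Group S] [Finite S] (h2 : IsPGroup 2 S) (hr : Cfsg.SectionalPRankLE 2 2 S)
    (hsub : ∃ H : Subgroup S, Nonempty (↥H ≃* DihedralGroup 4) ∨ Nonempty (↥H ≃* QuaternionGroup 2)) :
    ((∃ k : ℕ, Nonempty (S ≃* DihedralGroup (2 ^ (k + 2)))) ∨
      (∃ k : ℕ, Nat.card S = 2 ^ (k + 4) ∧ ∃ a b : S, orderOf a = 2 ^ (k + 3) ∧ orderOf b = 2 ∧ b * a * b⁻¹ = a ^ (2 ^ (k + 2) - 1)) ∨
      (∃ k : ℕ, Nonempty (S ≃* QuaternionGroup (2 ^ (k + 1))))) := by
  have hm := Cfsg.Agent.Lib.ClassSizes.SecRank2.metacyclic_of_sectional h2 hr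
  have key : ∃ c g : S, orderOf c = 4 ∧ g * c * g⁻¹ = c⁻¹ ∧ (g ^ 2 = 1 ∨ g ^ 2 = c ^ 2) := by
    obtain ⟨H, ⟨⟨e⟩⟩ | ⟨⟨e⟩⟩⟩ := hsub
    · refine ⟨(e.symm (DihedralGroup.r 1) : H), (e.symm (DihedralGroup.sr 0) : H), ?_, ?_, Or.inl ?_⟩
      · rw [Subgroup.orderOf_coe, MulEquiv.orderOf_eq, DihedralGroup.orderOf_r_one]
      · have h1 : (DihedralGroup.sr 0 : DihedralGroup 4) * DihedralGroup.r 1 * (DihedralGroup.sr 0)⁻¹ =
            (DihedralGroup.r 1)⁻¹ := by decide
        have h3 := congrArg e.symm h1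
        rw [map_mul, map_mul, map_inv, map_inv] at h3
        exact congrArg Subtype.val h3
      · have h1 : (DihedralGroup.sr 0 : DihedralGroup 4) ^ 2 = 1 := by decide
        have h3 := congrArg e.symm h1
        rw [map_pow, map_one] at h3
        exact congrArg Subtype.val h3
    · refine ⟨(e.symm (QuaternionGroup.a 1) : H), (e.symm (QuaternionGroup.xa 0) : H), ?_, ?_, Or.inr ?_⟩
      · rw [Subgroup.orderOf_coe, MulEquiv.orderOf_eq, QuaternionGroup.orderOf_a_one]
      · have h1 : (QuaternionGroup.xa 0 : QuaternionGroup 2) * QuaternionGroup.a 1 * (QuaternionGroup.xa 0)⁻¹ =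
            (QuaternionGroup.a 1)⁻¹ := by decide
        have h3 := congrArg e.symm h1
        rw [map_mul, map_mul, map_inv, map_inv] at h3
        exact congrArg Subtype.val h3
      · have h1 : (QuaternionGroup.xa 0 : QuaternionGroup 2) ^ 2 = (QuaternionGroup.a 1) ^ 2 := by decide
        have h3 := congrArg e.symm h1
        rw [map_pow, map_pow] at h3
        exact congrArg Subtype.val h3
  obtain ⟨c, g, hc, hg, hg2⟩ := key
  obtain ⟨hidx, hcard⟩ := Cfsg.Agent.Lib.ClassSizes.SecRank2.index_four h2 hm hc hg hg2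
  rcases Cfsg.Agent.Lib.Cl.classify_of_commutator_index_four h2 hidx with h | h
  · omega
  · exact h

end Cfsg.Agent.S4398
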