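import Cfsg.Statements.S4406
import Mathlib
import Cfsg.Agent.Lib.Hall.CoprimeLemmas

set_option autoImplicit false
open Cfsg

namespace Cfsg.Agent.S4406

abbrev T := ↥(alternatingGroup (Fin 4))

set_option maxRecDepth 100000 in
lemma l0 : Nat.card T = 12 := by
  rw [Nat.card_eq_fintype_card]; decide
set_option maxRecDepth 100000 in
lemma l1 : ∀ t : T, t ^ 4 = 1 → t ^ 2 = 1 := by decide
set_option maxRecDepth 100000 in
lemma l2 : ∀ t : T, t ^ 9 = 1 → t ^ 3 = 1 := by decide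
set_option maxRecDepth 100000 in
set_option synthInstance.maxHeartbeats 0 in
set_option synthInstance.maxSize 100000 in
set_option maxHeartbeats 0 in
lemma l3 : ∀ c t t₂ : T, c^3=1 → c≠1 → t^2=1 → t≠1 → t₂^2=1 → t₂≠1 → t₂≠t → t₂ = c*t*c⁻¹ ∨ t₂ = c⁻¹*t*c := by decide
set_option maxRecDepth 100000 in
set_option synthInstance.maxHeartbeats 0 in
set_option synthInstance.maxSize 100000 in
set_option maxHeartbeats 0 in
lemma l4 : ∀ c t : T, c^3=1 → c≠1 → t^2=1 → t≠1 → c * (c*t*c⁻¹) * c⁻¹ = t * (c*t*c⁻¹) := by decide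

lemma exists_e (c t t₂ : T) (hc : c ^ 3 = 1) (hc1 : c ≠ 1) (ht : t ^ 2 = 1) (ht1 : t ≠ 1) (ht₂ : t₂ ^ 2 = 1)
    (ht₂1 : t₂ ≠ 1) (hne : t₂ ≠ t) : ∃ e : T, (e = c ∨ e = c⁻¹) ∧ t₂ = e * t * e⁻¹ := by
  rcases l3 c t t₂ hc hc1 ht ht1 ht₂ ht₂1 hne with h | h
  · exact ⟨c, Or.inl rfl, h⟩
  · exact ⟨c⁻¹, Or.inr rfl, by simpa using h⟩

lemma card_Q (Q : Sylow 3 (T × T)) : Nat.card (Q : Subgroup (T × T)) = 9 := by
  have hc : Nat.card (T × T) = 144 := by rw [Nat.card_prod, l0]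
  have h1 : 3 ^ 2 ∣ Nat.card (Q : Subgroup (T × T)) :=
    Q.pow_dvd_card_of_pow_dvd_card (by rw [hc]; norm_num)
  obtain ⟨k, hk⟩ := IsPGroup.iff_card.mp Q.isPGroup'
  have h2 : Nat.card (Q : Subgroup (T × T)) ∣ 144 := hc ▸ Subgroup.card_subgroup_dvd_card _
  rw [hk] at h1 h2 ⊢
  have h3 : 2 ≤ k := (Nat.pow_dvd_pow_iff_le_right (by norm_num)).mp h1
  have h4 : k ≤ 2 := by
    by_contra hk3
    have : 3 ^ 3 ∣ 3 ^ k := pow_dvd_pow 3 (by omega)
    have := this.trans h2
    norm_num at this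
  have : k = 2 := by omega
  subst this; norm_num

lemma exists_ker (Q : Subgroup (T × T)) (hQ : Nat.card Q = 9) (f : (T × T) →* T) :
    ∃ x ∈ Q, x ≠ 1 ∧ f x = 1 := by
  let g : Q →* T := f.comp Q.subtype
  have h1 : Nat.card g.range ∣ 9 := hQ ▸ Subgroup.card_range_dvd g
  have h2 : Nat.card g.range ∣ 12 := l0 ▸ Subgroup.card_subgroup_dvd_card _
  have h3 : Nat.card g.range ∣ 3 := by
    have := Nat.dvd_gcd h1 h2
    simpa using this
  have h4 : Nat.card g.range < Nat.card Q := by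
    have := Nat.le_of_dvd (by norm_num) h3
    omega
  haveI : Fintype Q := Fintype.ofFinite _
  haveI : Fintype g.range := Fintype.ofFinite _
  rw [Nat.card_eq_fintype_card, Nat.card_eq_fintype_card] at h4
  obtain ⟨x, y, hxy, h⟩ := Fintype.exists_ne_map_eq_of_card_lt (g.rangeRestrict) h4
  refine ⟨(x : T × T)⁻¹ * y, Q.mul_mem (Q.inv_mem x.2) y.2, ?_, ?_⟩
  · intro h'
    apply hxy
    ext1
    exact (inv_mul_eq_one.mp h')
  · have h5 : g x = g y := congrArg Subtype.val h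
    have h6 : f (x : T × T) = f (y : T × T) := h5
    rw [map_mul, map_inv, h6]; simp

lemma pow9 (Q : Subgroup (T × T)) (hQ : Nat.card Q = 9) (x : T × T) (hx : x ∈ Q) : x ^ 9 = 1 := by
  have := pow_card_eq_one' (x := (⟨x, hx⟩ : Q))
  rw [hQ] at this
  simpa using congrArg Subtype.val this

/-- In the direct product P = A₄ × A₄, let X be the Sylow 2-subgroup, X₁ and X₂ its intersections with the two direct factors, Q a Sylow 3-subgroup and Q₁, Q₂ its intersections with the two factors. Then every subgroup B of X of order 4 either meets X₁ or X₂ nontrivially, or is normalized by one of the two subgroups of Q of order 3 other than Q₁ and Q₂. -/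
theorem result
    (X : Sylow 2 (↥(alternatingGroup (Fin 4)) × ↥(alternatingGroup (Fin 4))))
    (Q : Sylow 3 (↥(alternatingGroup (Fin 4)) × ↥(alternatingGroup (Fin 4))))
    (B : Subgroup (↥(alternatingGroup (Fin 4)) × ↥(alternatingGroup (Fin 4)))) (hBX : B ≤ (X : Subgroup _)) (hB4 : Nat.card ↥B = 4) :
    B ⊓ ((X : Subgroup _) ⊓ Subgroup.prod ⊤ ⊥) ≠ ⊥ ∨ B ⊓ ((X : Subgroup _) ⊓ Subgroup.prod ⊥ ⊤) ≠ ⊥ ∨
      ∃ R : Subgroup (↥(alternatingGroup (Fin 4)) × ↥(alternatingGroup (Fin 4))), R ≤ (Q : Subgroup _) ∧ Nat.card ↥R = 3 ∧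
        R ≠ (Q : Subgroup _) ⊓ Subgroup.prod ⊤ ⊥ ∧ R ≠ (Q : Subgroup _) ⊓ Subgroup.prod ⊥ ⊤ ∧ R ≤ Subgroup.normalizer (B : Set _) := by
  classical
  by_contra hcon
  simp only [not_or, not_not] at hcon
  obtain ⟨h1, h2, h3⟩ := hcon
  -- B is disjoint from the factors
  have hB1 : ∀ x ∈ B, x.2 = 1 → x = 1 := by
    intro x hx hx2
    have : x ∈ B ⊓ ((X : Subgroup _) ⊓ Subgroup.prod ⊤ ⊥) :=
      ⟨hx, hBX hx, Subgroup.mem_prod.mpr ⟨Subgroup.mem_top _, hx2⟩⟩
    rw [h1] at this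
    exact this
  have hB2 : ∀ x ∈ B, x.1 = 1 → x = 1 := by
    intro x hx hx2
    have : x ∈ B ⊓ ((X : Subgroup _) ⊓ Subgroup.prod ⊥ ⊤) :=
      ⟨hx, hBX hx, Subgroup.mem_prod.mpr ⟨hx2, Subgroup.mem_top _⟩⟩
    rw [h2] at this
    exact this
  have hsq : ∀ x ∈ B, x.1 ^ 2 = 1 ∧ x.2 ^ 2 = 1 := by
    intro x hx
    have h := pow_card_eq_one' (x := (⟨x, hx⟩ : B))
    rw [hB4] at h
    have h' : x ^ 4 = 1 := by simpa using congrArg Subtype.val h
    have h1 : x.1 ^ 4 = 1 := by simpa using congrArg Prod.fst h'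
    have h2 : x.2 ^ 4 = 1 := by simpa using congrArg Prod.snd h'
    exact ⟨l1 _ h1, l1 _ h2⟩
  have hsq' : ∀ x ∈ B, x * x = 1 := by
    intro x hx
    obtain ⟨h1, h2⟩ := hsq x hx
    ext1
    · simpa [pow_two] using h1
    · simpa [pow_two] using h2
  -- two generators
  have hBcard : (B : Set (T × T)).ncard = 4 := by
    exact hB4
  obtain ⟨a, haB, ha1⟩ : ∃ a ∈ B, a ≠ 1 := by
    by_contra hall
    push Not at hall
    have : B = ⊥ := (Subgroup.eq_bot_iff_forall B).mpr hall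
    rw [this] at hB4
    simp at hB4
  obtain ⟨b, hbB, hb⟩ : ∃ b ∈ (B : Set (T × T)), b ∉ ({1, a} : Set (T × T)) := by
    apply Set.exists_mem_notMem_of_ncard_lt_ncard
    · rw [hBcard]
      have := Set.ncard_insert_le (1 : T × T) {a}
      rw [Set.ncard_singleton] at this
      omega
    · exact Set.toFinite _
  have hb1 : b ≠ 1 := fun h => hb (by simp [h])
  have hba : b ≠ a := fun h => hb (by simp [h])
  have hbB' : b ∈ B := hbB
  -- coordinates
  have ht1 : a.1 ≠ 1 := fun h => ha1 (hB2 a haB h)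
  have hs1 : a.2 ≠ 1 := fun h => ha1 (hB1 a haB h)
  have ht21 : b.1 ≠ 1 := fun h => hb1 (hB2 b hbB' h)
  have hs21 : b.2 ≠ 1 := fun h => hb1 (hB1 b hbB' h)
  have hmem : a⁻¹ * b ∈ B := B.mul_mem (B.inv_mem haB) hbB'
  have hne1 : a⁻¹ * b ≠ 1 := fun h => hba (inv_mul_eq_one.mp h).symm
  have htt : b.1 ≠ a.1 := by
    intro h
    apply hne1
    apply hB2 _ hmem
    simp [h]
  have hss : b.2 ≠ a.2 := by
    intro h
    apply hne1
    apply hB1 _ hmem
    simp [h]
  -- elements of Q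
  have hQ9 := card_Q Q
  obtain ⟨x, hxQ, hx1, hx2⟩ := exists_ker (Q : Subgroup (T × T)) hQ9 (MonoidHom.snd T T)
  obtain ⟨y, hyQ, hy1, hy2⟩ := exists_ker (Q : Subgroup (T × T)) hQ9 (MonoidHom.fst T T)
  have hx2' : x.2 = 1 := hx2
  have hy2' : y.1 = 1 := hy2
  have hc₁ : x.1 ≠ 1 := fun h => hx1 (Prod.ext h hx2')
  have hc₂ : y.2 ≠ 1 := fun h => hy1 (Prod.ext hy2' h)
  have hc₁3 : x.1 ^ 3 = 1 := l2 _ (by simpa using congrArg Prod.fst (pow9 _ hQ9 x hxQ))
  have hc₂3 : y.2 ^ 3 = 1 := l2 _ (by simpa using congrArg Prod.snd (pow9 _ hQ9 y hyQ))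
  obtain ⟨e₁, he₁, he₁t⟩ := exists_e x.1 a.1 b.1 hc₁3 hc₁ (hsq a haB).1 ht1 (hsq b hbB').1 ht21 htt
  obtain ⟨e₂, he₂, he₂t⟩ := exists_e y.2 a.2 b.2 hc₂3 hc₂ (hsq a haB).2 hs1 (hsq b hbB').2 hs21 hss
  have he₁3 : e₁ ^ 3 = 1 := by
    rcases he₁ with rfl | rfl
    · exact hc₁3
    · simp [hc₁3]
  have he₂3 : e₂ ^ 3 = 1 := by
    rcases he₂ with rfl | rfl
    · exact hc₂3
    · simp [hc₂3]
  have he₁1 : e₁ ≠ 1 := by
    rcases he₁ with rfl | rfl
    · exact hc₁
    · simpa using hc₁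
  have he₂1 : e₂ ≠ 1 := by
    rcases he₂ with rfl | rfl
    · exact hc₂
    · simpa using hc₂
  set r : T × T := (e₁, e₂) with hr
  have hrQ : r ∈ (Q : Subgroup (T × T)) := by
    have hx' : (e₁, (1 : T)) ∈ (Q : Subgroup (T × T)) := by
      rcases he₁ with rfl | rfl
      · have : ((x.1, 1) : T × T) = x := Prod.ext rfl hx2'.symm
        rw [this]; exact hxQ
      · have : ((x.1⁻¹, 1) : T × T) = x⁻¹ := Prod.ext rfl (by simp [hx2'])
        rw [this]; exact Subgroup.inv_mem _ hxQ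
    have hy' : ((1 : T), e₂) ∈ (Q : Subgroup (T × T)) := by
      rcases he₂ with rfl | rfl
      · have : ((1, y.2) : T × T) = y := Prod.ext hy2'.symm rfl
        rw [this]; exact hyQ
      · have : ((1, y.2⁻¹) : T × T) = y⁻¹ := Prod.ext (by simp [hy2']) rfl
        rw [this]; exact Subgroup.inv_mem _ hyQ
    have := Subgroup.mul_mem _ hx' hy'
    simpa [hr] using this
  have hr3 : r ^ 3 = 1 := Prod.ext he₁3 he₂3
  have hr1 : r ≠ 1 := fun h => he₁1 (congrArg Prod.fst h)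
  haveI : Fact (Nat.Prime 3) := ⟨by norm_num⟩
  have hrord : orderOf r = 3 := orderOf_eq_prime hr3 hr1
  -- conjugation
  have hra : r * a * r⁻¹ = b := Prod.ext he₁t.symm he₂t.symm
  have hrb : r * b * r⁻¹ = a * b := by
    apply Prod.ext
    · show e₁ * b.1 * e₁⁻¹ = a.1 * b.1
      rw [he₁t]
      exact l4 e₁ a.1 he₁3 he₁1 (hsq a haB).1 ht1
    · show e₂ * b.2 * e₂⁻¹ = a.2 * b.2
      rw [he₂t]
      exact l4 e₂ a.2 he₂3 he₂1 (hsq a haB).2 hs1
  have hBeq : ∀ h ∈ B, h = 1 ∨ h = a ∨ h = b ∨ h = a * b := by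
    have hsub : (({1, a, b, a * b} : Finset (T × T)) : Set (T × T)) ⊆ (B : Set (T × T)) := by
      intro z hz
      simp only [Finset.coe_insert, Finset.coe_singleton, Set.mem_insert_iff,
        Set.mem_singleton_iff] at hz
      rcases hz with rfl | rfl | rfl | rfl
      · exact B.one_mem
      · exact haB
      · exact hbB'
      · exact B.mul_mem haB hbB'
    have hcard : ({1, a, b, a * b} : Finset (T × T)).card = 4 := by
      have h1 : (1 : T × T) ∉ ({a, b, a * b} : Finset (T × T)) := by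
        simp only [Finset.mem_insert, Finset.mem_singleton, not_or]
        refine ⟨ha1.symm, hb1.symm, ?_⟩
        intro h
        have : a = b := by
          have h2 := hsq' a haB
          have : a * a = a * b := by rw [h2, ← h]
          exact (mul_left_cancel this).symm ▸ rfl
        exact hba this.symm
      have h2 : a ∉ ({b, a * b} : Finset (T × T)) := by
        simp only [Finset.mem_insert, Finset.mem_singleton, not_or]
        refine ⟨hba.symm, ?_⟩
        intro h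
        exact hb1 (by simpa using h)
      have h3 : b ∉ ({a * b} : Finset (T × T)) := by
        simp only [Finset.mem_singleton]
        intro h
        exact ha1 (by simpa using h)
      rw [Finset.card_insert_of_notMem h1, Finset.card_insert_of_notMem h2,
        Finset.card_insert_of_notMem h3, Finset.card_singleton]
    have heq := Set.eq_of_subset_of_ncard_le hsub
      (by rw [Set.ncard_coe_finset, hcard, hBcard]) (Set.toFinite _)
    intro h hh
    have : h ∈ (({1, a, b, a * b} : Finset (T × T)) : Set (T × T)) := by rw [heq]; exact hh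
    simpa using this
  have hnorm : r ∈ Subgroup.normalizer (B : Set (T × T)) := by
    apply Cfsg.Agent.Lib.Hall.mem_normalizer_of_conj_le
    intro h hh
    rcases hBeq h hh with rfl | rfl | rfl | rfl
    · simpa using B.one_mem
    · rw [hra]; exact hbB'
    · rw [hrb]; exact B.mul_mem haB hbB'
    · have : r * (a * b) * r⁻¹ = (r * a * r⁻¹) * (r * b * r⁻¹) := by group
      rw [this, hra, hrb]
      exact B.mul_mem hbB' (B.mul_mem haB hbB')
  apply h3 ⟨Subgroup.zpowers r, ?_, ?_, ?_, ?_, ?_⟩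
  · exact (Subgroup.zpowers_le).mpr hrQ
  · rw [Nat.card_zpowers, hrord]
  · intro h
    have hm : r ∈ Subgroup.zpowers r := Subgroup.mem_zpowers r
    rw [h] at hm
    exact he₂1 (Subgroup.mem_prod.mp hm.2).2
  · intro h
    have hm : r ∈ Subgroup.zpowers r := Subgroup.mem_zpowers r
    rw [h] at hm
    exact he₁1 (Subgroup.mem_prod.mp hm.2).1
  · exact (Subgroup.zpowers_le).mpr hnorm

end Cfsg.Agent.S4406
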