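import Cfsg.Statements.S4420
import Mathlib
import Cfsg.Agent.Lib.PGroup.Basic

set_option autoImplicit false
open Cfsg

namespace Cfsg.Agent.S4420

/-- Structure of groups in which every element outside some proper subgroup has square 1. Let H be a finite group with a proper subgroup A such that every element outside A has square 1. Then H has an abelian normal subgroup B of index 2 such that every element outside B is an involution inverting every element of B; and if H is not an elementary abelian 2-group, B is the only abelian normal subgroup of index 2 with this property. -/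
theorem result {H : Type*} [Group H] [Finite H] (A : Subgroup H) (hA : A ≠ ⊤) (hD : ∀ x : H, x ∉ A → x ^ 2 = 1) :
    ∃ B : Subgroup H, B.Normal ∧ IsMulCommutative ↥B ∧ B.index = 2 ∧
      (∀ x : H, x ∉ B → x ^ 2 = 1 ∧ ∀ b ∈ B, x * b * x⁻¹ = b⁻¹) ∧
      (¬ (IsMulCommutative H ∧ ∀ x : H, x ^ 2 = 1) →
        ∀ B' : Subgroup H, B'.Normal → IsMulCommutative ↥B' → B'.index = 2 →
          (∀ x : H, x ∉ B' → x ^ 2 = 1 ∧ ∀ b ∈ B', x * b * x⁻¹ = b⁻¹) → B' = B) := by
  classical
  obtain ⟨x₀, hx₀⟩ : ∃ x₀, x₀ ∉ A := by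
    by_contra hcon
    push Not at hcon
    exact hA (eq_top_iff.mpr fun x _ => hcon x)
  have hinv : ∀ x, x ∉ A → ∀ a ∈ A, x * a * x⁻¹ = a⁻¹ := by
    intro x hx a ha
    have h1 : x * a ∉ A := fun h => hx (by simpa using A.mul_mem h (A.inv_mem ha))
    have h2 := hD _ h1
    have h3 := hD _ hx
    rw [pow_two] at h2 h3
    have h4 : x⁻¹ = x := inv_eq_of_mul_eq_one_left h3
    rw [h4]
    exact eq_inv_of_mul_eq_one_left (by rw [← h2]; group)
  have hcommA : ∀ a ∈ A, ∀ b ∈ A, a * b = b * a := by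
    intro a ha b hb
    have h1 := hinv x₀ hx₀ (a * b) (A.mul_mem ha hb)
    have h2 : x₀ * (a * b) * x₀⁻¹ = (x₀ * a * x₀⁻¹) * (x₀ * b * x₀⁻¹) := by group
    rw [h2, hinv x₀ hx₀ a ha, hinv x₀ hx₀ b hb] at h1
    have h3 : (b * a)⁻¹ = (a * b)⁻¹ := by rw [← h1]; group
    exact (inv_injective h3).symm
  have hsqcomm : (∀ x : H, x ^ 2 = 1) → ∀ x y : H, x * y = y * x := by
    intro hs x y
    have h1 := hs (x * y)
    have h2 := hs x
    have h3 := hs y
    rw [pow_two] at h1 h2 h3
    have h4 : x⁻¹ = x := inv_eq_of_mul_eq_one_left h2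
    have h5 : y⁻¹ = y := inv_eq_of_mul_eq_one_left h3
    have h6 : (x * y)⁻¹ = x * y := inv_eq_of_mul_eq_one_left h1
    rw [mul_inv_rev, h4, h5] at h6
    exact h6.symm
  have huniq : ∀ B B' : Subgroup H, IsMulCommutative ↥B' → B.index = 2 → B'.index = 2 → B' ≠ B →
      (∀ x : H, x ∉ B → x ^ 2 = 1 ∧ ∀ b ∈ B, x * b * x⁻¹ = b⁻¹) →
      (∀ x : H, x ∉ B' → x ^ 2 = 1 ∧ ∀ b ∈ B', x * b * x⁻¹ = b⁻¹) → ∀ x : H, x ^ 2 = 1 := by
    intro B B' hcomm hB hB' hne h1 h2 x
    by_cases hxB : x ∈ B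
    · by_cases hxB' : x ∈ B'
      · obtain ⟨y, hy, hyB⟩ : ∃ y ∈ B', y ∉ B := by
          by_contra hcon
          push Not at hcon
          have hle : B' ≤ B := hcon
          have hco : IsCoatom B' :=
            Cfsg.Agent.Lib.PGroup.isCoatom_of_index_prime (by rw [hB']; exact Nat.prime_two)
          rcases hle.lt_or_eq with hlt | heq
          · have := hco.2 B hlt
            rw [this, Subgroup.index_top] at hB
            omega
          · exact hne heq
        have h3 := (h1 y hyB).2 x hxB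
        have h4 : y * x = x * y := by
          have := hcomm.is_comm.comm (⟨y, hy⟩ : B') ⟨x, hxB'⟩
          simpa using congrArg Subtype.val this
        rw [h4] at h3
        have h5 : x = x⁻¹ := by rw [← h3]; group
        rw [pow_two]
        nth_rewrite 1 [h5]
        group
      · exact (h2 x hxB').1
    · exact (h1 x hxB).1
  by_cases hall : ∀ x : H, x ^ 2 = 1
  · haveI : Nontrivial H := ⟨⟨x₀, 1, fun h => hx₀ (h ▸ A.one_mem)⟩⟩
    obtain ⟨B, hB, -⟩ : ∃ B : Subgroup H, IsCoatom B ∧ ⊥ ≤ B :=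
      (eq_top_or_exists_le_coatom (⊥ : Subgroup H)).resolve_left bot_ne_top
    haveI : Fact (Nat.Prime 2) := ⟨Nat.prime_two⟩
    have hpg : IsPGroup 2 H := fun g => ⟨1, by simpa using hall g⟩
    have hi : B.index = 2 := Cfsg.Agent.Lib.PGroup.index_eq_prime_of_isCoatom hpg hB
    have hab := hsqcomm hall
    refine ⟨B, Subgroup.normal_of_index_eq_two hi, ⟨⟨fun a b => Subtype.ext (hab _ _)⟩⟩, hi, ?_, ?_⟩
    · intro x _
      refine ⟨hall x, fun b _ => ?_⟩
      rw [hab x b, mul_inv_cancel_right]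
      have h1 := hall b
      rw [pow_two] at h1
      exact (inv_eq_of_mul_eq_one_left h1).symm
    · intro hnot
      exact absurd ⟨⟨⟨hab⟩⟩, hall⟩ hnot
  · push Not at hall
    obtain ⟨a, ha⟩ := hall
    have haA : a ∈ A := by
      by_contra h
      exact ha (hD a h)
    have hx₀inv : x₀⁻¹ = x₀ := by
      have h3 := hD _ hx₀
      rw [pow_two] at h3
      exact inv_eq_of_mul_eq_one_left h3
    have hy : ∀ y, y ∉ A → x₀ * y ∈ A := by
      intro y hy
      by_contra h
      have h1 := hinv _ h a haA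
      have h2 : x₀ * y * a * (x₀ * y)⁻¹ = x₀ * (y * a * y⁻¹) * x₀⁻¹ := by group
      rw [h2, hinv y hy a haA] at h1
      have h3 : x₀ * a⁻¹ * x₀⁻¹ = (x₀ * a * x₀⁻¹)⁻¹ := by group
      rw [h3, hinv x₀ hx₀ a haA, inv_inv] at h1
      apply ha
      rw [pow_two]
      nth_rewrite 1 [h1]
      group
    have hi : A.index = 2 := by
      rw [Subgroup.index_eq_two_iff]
      refine ⟨x₀, fun b => ?_⟩
      by_cases hb : b ∈ A
      · refine Or.inr ⟨hb, fun h => hx₀ ?_⟩
        simpa using A.mul_mem (A.inv_mem hb) h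
      · refine Or.inl ⟨?_, hb⟩
        have h1 := hy b⁻¹ (fun h => hb (by simpa using A.inv_mem h))
        have h2 := A.inv_mem h1
        rw [mul_inv_rev, inv_inv, hx₀inv] at h2
        exact h2
    have hcomA : IsMulCommutative ↥A :=
      ⟨⟨fun a b => Subtype.ext (hcommA _ a.2 _ b.2)⟩⟩
    refine ⟨A, Subgroup.normal_of_index_eq_two hi, hcomA, hi,
      fun x hx => ⟨hD x hx, hinv x hx⟩, ?_⟩
    intro hnot B' _ hc hi' h2
    by_contra hne
    have hs := huniq A B' hc hi hi' hne (fun x hx => ⟨hD x hx, hinv x hx⟩) h2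
    exact hnot ⟨⟨⟨hsqcomm hs⟩⟩, hs⟩

end Cfsg.Agent.S4420
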