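import Cfsg.Statements.S4538
import Mathlib
import Cfsg.Agent.Lib.SLn.Block

set_option autoImplicit false
open Cfsg

namespace Cfsg.Agent.S4538

open Cfsg.Agent.Lib.SLn Cfsg.Agent.Lib.Block

/-- Let F be a finite field of characteristic p and n ≥ 2. Relative to a maximal ideal M of the algebraic integers containing p, the group SL(n, F) has exactly one p-block of defect zero, and every other p-block has full defect (its defect equals the exponent of p in the order of the group, so its defect groups are Sylow p-subgroups). -/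
theorem result {F : Type*} [Field F] [Fintype F] (n : ℕ) (hn : 2 ≤ n) (p : ℕ) [Fact p.Prime] [CharP F p] (M : Ideal Cfsg.AlgInt) (hM : Cfsg.IsPModular p M) : Nat.card {B : Set (Cfsg.IrrCharacter (Matrix.SpecialLinearGroup (Fin n) F)) // Cfsg.IsPBlock M B ∧ Cfsg.blockDefect p B = 0} = 1 ∧ ∀ B : Set (Cfsg.IrrCharacter (Matrix.SpecialLinearGroup (Fin n) F)), Cfsg.IsPBlock M B → Cfsg.blockDefect p B = 0 ∨ Cfsg.blockDefect p B = (Nat.card (Matrix.SpecialLinearGroup (Fin n) F)).factorization p := by
  classical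
  have hpp : p.Prime := Fact.out
  haveI := isPModular_isPrime hM
  set G := Matrix.SpecialLinearGroup (Fin n) F with hG
  letI : Fintype G := Fintype.ofFinite _
  have hn0 : 0 < n := by omega
  let St : IrrCharacter G := StI hn0
  have hSt : ∀ χ : IrrCharacter G, p ^ (Nat.card G).factorization p ∣ charDegree (χ : G → ℂ) → χ = St :=
    fun χ hχ => St_unique hn p χ hχ
  have hStdeg : p ^ (Nat.card G).factorization p ∣ charDegree (St : G → ℂ) := ppart_SL p _ (StI_deg hn0)
  have hR : ∀ D₀ : Subgroup G, IsPGroup p D₀ → D₀ ≠ ⊥ →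
      (∀ Q : Subgroup (Subgroup.normalizer (D₀ : Set G)), Q.Normal → IsPGroup p Q → Q ≤ D₀.subgroupOf (Subgroup.normalizer (D₀ : Set G))) →
      ∀ x ∈ Subgroup.centralizer (D₀ : Set G), ¬ p ∣ orderOf x → x ∈ Subgroup.center G :=
    fun D₀ h1 h2 h3 x h4 h5 => rad_sl hn0 p D₀ h1 h2 h3 x h4 h5
  have hsing : blockOf M (St : G → ℂ) = {St} := by
    apply blockOf_eq_singleton_of_not_dvd hM
    rw [not_dvd_card_div_iff hpp (Cfsg.Agent.Lib.Char.charDegree_dvd_card St.2)]
    exact hStdeg
  have hdeg0 : ∀ χ : IrrCharacter G, charDegree (χ : G → ℂ) ≠ 0 := by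
    intro χ h0
    have := Cfsg.Agent.Lib.Char.charDegree_dvd_card χ.2
    rw [h0, zero_dvd_iff] at this
    exact Nat.card_pos.ne' this
  have hStB : blockDefect p ({St} : Set (IrrCharacter G)) = 0 := by
    unfold blockDefect
    rw [Set.image_singleton, csInf_singleton]
    have := (hpp.pow_dvd_iff_le_factorization (hdeg0 St)).1 hStdeg
    omega
  have hzero : ∀ B, IsPBlock M B → blockDefect p B = 0 → B = {St} := by
    intro B hB h0
    obtain ⟨χ, hχ⟩ := IsPBlock_nonempty hB
    have h1 : χ = St := by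
      apply hSt
      unfold blockDefect at h0
      have h3 : (Nat.card G).factorization p ≤ sInf ((fun χ : IrrCharacter G => (charDegree (χ : G → ℂ)).factorization p) '' B) := by
        omega
      have h4 : sInf ((fun χ : IrrCharacter G => (charDegree (χ : G → ℂ)).factorization p) '' B) ≤ (charDegree (χ : G → ℂ)).factorization p :=
        Nat.sInf_le ⟨χ, hχ, rfl⟩
      exact (hpp.pow_dvd_iff_le_factorization (hdeg0 χ)).2 (h3.trans h4)
    rw [← hsing, ← h1]
    exact blockOf_eq_of_mem hB hχ
  refine ⟨?_, fun B hB => ?_⟩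
  · rw [Nat.card_eq_one_iff_unique]
    refine ⟨⟨?_⟩, ⟨⟨{St}, hsing ▸ isPBlock_blockOf St, hStB⟩⟩⟩
    rintro ⟨B, hB, h0⟩ ⟨B', hB', h0'⟩
    exact Subtype.ext ((hzero B hB h0).trans (hzero B' hB' h0').symm)
  · by_cases hS : St ∈ B
    · left
      have h1 := blockOf_eq_of_mem hB hS
      rw [hsing] at h1
      rw [h1]
      exact hStB
    · right
      obtain ⟨S, hS'⟩ := Cfsg.Agent.Lib.BNSt.exists_sylow_defect hM hSt hR hB hS
      have h1 := card_defect_group hM hB hS'
      rw [Sylow.card_eq_multiplicity] at h1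
      exact (Nat.pow_right_injective hpp.two_le h1).symm

end Cfsg.Agent.S4538
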