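import Cfsg.Statements.S4550
import Mathlib
import Cfsg.Agent.Lib.BPair.GalFix2

set_option autoImplicit false
open Cfsg
open Cfsg.Agent.Lib.Block Cfsg.Agent.Lib.Char Cfsg.Agent.Lib.CharExtra Cfsg.Agent.Lib.BPair

namespace Cfsg.Agent.S4550

/-- Let G be a finite group of even order and M a maximal ideal of the algebraic integers containing 2. Let k be a natural number with g ^ k = g ^ 3 for every 2-element g and g ^ k = g for every element g of odd order (such k exist); an irreducible character χ is unchanged by g ↦ g ^ k exactly when it is fixed by the field automorphism that cubes the 2-power roots of unity and fixes the roots of unity of odd order. Then the number of members χ of the principal 2-block of odd degree with χ (g ^ k) = χ g for all g is even. -/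
theorem result {G : Type*} [Group G] [Finite G] (M : Ideal Cfsg.AlgInt) (hM : Cfsg.IsPModular 2 M) (hev : Even (Nat.card G)) (k : ℕ) (hk₁ : ∀ g : G, (∃ j : ℕ, orderOf g = 2 ^ j) → g ^ k = g ^ 3) (hk₂ : ∀ g : G, Odd (orderOf g) → g ^ k = g) : Even (Nat.card {χ : Cfsg.IrrCharacter G // χ ∈ Cfsg.principalBlock M G ∧ Odd (Cfsg.charDegree (χ : G → ℂ)) ∧ ∀ g : G, (χ : G → ℂ) (g ^ k) = (χ : G → ℂ) g}) := by
  classical
  haveI : Fintype G := Fintype.ofFinite G
  haveI := isPModular_isPrime hM
  -- `k` is coprime to the order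
  have hk : k.Coprime (Nat.card G) := by
    refine Nat.Coprime.symm (Nat.coprime_of_dvd ?_)
    intro r hr hrG hrk
    haveI : Fact r.Prime := ⟨hr⟩
    obtain ⟨x, hx⟩ := exists_prime_orderOf_dvd_card' r hrG
    have h1 : x ^ k = 1 := by
      obtain ⟨m, rfl⟩ := hrk
      rw [pow_mul, ← hx, pow_orderOf_eq_one, one_pow]
    have hx1 : x ≠ 1 := by
      intro h
      rw [h, orderOf_one] at hx
      exact hr.one_lt.ne hx
    by_cases hr2 : r = 2
    · have h2 := hk₁ x ⟨1, by rw [hx, hr2]; norm_num⟩
      have h3 : x ^ 2 = 1 := by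
        rw [← hr2, ← hx, pow_orderOf_eq_one]
      rw [h1] at h2
      apply hx1
      have h4 : x ^ 3 = x := by
        rw [pow_succ, h3, one_mul]
      rw [← h4, ← h2]
    · have hodd : Odd (orderOf x) := by
        rw [hx]
        exact hr.odd_of_ne_two hr2
      rw [hk₂ x hodd] at h1
      exact hx1 h1
  -- the action on odd order elements is trivial
  have hreg : ∀ x : G, ¬ 2 ∣ orderOf x → x ^ k = x := fun x hx =>
    hk₂ x (Nat.not_even_iff_odd.mp (fun h => hx h.two_dvd))
  -- `2`-power order
  obtain ⟨e, he⟩ : ∃ e, ∀ g : G, g ^ (k ^ (2 ^ e)) = g := by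
    refine ⟨(Nat.card G).factorization 2, fun g => ?_⟩
    obtain ⟨x, y, rfl, hcomm, ⟨j, hj⟩, hy⟩ := isPPart_exists (p := 2) g
    set a := (Nat.card G).factorization 2 with ha
    have hyodd := hreg y hy
    have hstep : ∀ i : ℕ, (x * y) ^ (k ^ i) = x ^ (3 ^ i) * y := by
      intro i
      induction i with
      | zero => simp
      | succ i ih =>
        rw [pow_succ, pow_mul, ih]
        have hc : Commute (x ^ 3 ^ i) y := hcomm.pow_left _
        rw [hc.mul_pow, hyodd]
        have h2 : orderOf (x ^ 3 ^ i) ∣ 2 ^ j := by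
          rw [← hj]
          exact orderOf_pow_dvd _
        obtain ⟨l, -, hl⟩ := (Nat.dvd_prime_pow Nat.prime_two).mp h2
        rw [hk₁ _ ⟨l, hl⟩, ← pow_mul, pow_succ]
    rw [hstep]
    congr 1
    have hjle : 2 ^ j ∣ Nat.card G := by
      rw [← hj]
      exact orderOf_dvd_natCard x
    have hja : j ≤ a := (Nat.Prime.pow_dvd_iff_le_factorization Nat.prime_two Nat.card_pos.ne').mp hjle
    have h3 : 3 ^ (2 ^ a) ≡ 1 [MOD 2 ^ j] := by
      have h4 := Nat.ModEq.pow_totient (x := 3) (n := 2 ^ j) (Nat.Coprime.pow_right _ (by norm_num))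
      have h5 : Nat.totient (2 ^ j) ∣ 2 ^ a := by
        rcases Nat.eq_zero_or_pos j with rfl | hj0
        · simp
        · rw [Nat.totient_prime_pow Nat.prime_two hj0]
          simp only [Nat.add_one_sub_one, mul_one]
          exact pow_dvd_pow 2 (by omega)
      obtain ⟨m, hm⟩ := h5
      rw [hm, pow_mul]
      simpa using h4.pow m
    have h6 : x ^ (3 ^ (2 ^ a)) = x ^ 1 := by
      rw [pow_eq_pow_iff_modEq, hj]
      exact h3
    rw [h6, pow_one]
  have hit : ∀ χ : IrrCharacter G, (galI hk)^[2 ^ e] χ = χ := by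
    intro χ
    apply Subtype.ext
    funext t
    rw [galI_iterate, he]
  set T := (Finset.univ.filter fun χ : IrrCharacter G => χ ∈ principalBlock M G ∧ Odd (charDegree (χ : G → ℂ))) with hT
  have hTf : ∀ χ ∈ T, galI hk χ ∈ T := by
    intro χ hχ
    rw [hT, Finset.mem_filter] at hχ ⊢
    refine ⟨Finset.mem_univ _, mem_principal_galI hM hk hreg hχ.2.1, ?_⟩
    have h1 : charDegree ((galI hk χ : IrrCharacter G) : G → ℂ) = charDegree (χ : G → ℂ) := by
      unfold charDegree
      rw [galI_apply, one_pow]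
    rw [h1]
    exact hχ.2.2
  have hev2 := even_card_odd_principal (M := M) (G := G) hM hev
  have hm := card_fixed_modEq 2 T (galI hk) hTf e (fun χ _ => hit χ)
  have hcard : Nat.card {χ : IrrCharacter G // χ ∈ principalBlock M G ∧ Odd (charDegree (χ : G → ℂ)) ∧
      ∀ g : G, (χ : G → ℂ) (g ^ k) = (χ : G → ℂ) g} = (T.filter fun χ => galI hk χ = χ).card := by
    have h3 : (T.filter fun χ => galI hk χ = χ).card = Nat.card {x // x ∈ T.filter fun χ => galI hk χ = χ} := by
      rw [Nat.card_eq_fintype_card, Fintype.card_coe]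
    rw [h3]
    refine Nat.card_congr (Equiv.subtypeEquivRight fun χ => ?_)
    rw [Finset.mem_filter, hT, Finset.mem_filter]
    constructor
    · rintro ⟨h1, h2, h4⟩
      refine ⟨⟨Finset.mem_univ _, h1, h2⟩, ?_⟩
      apply Subtype.ext
      funext g
      exact h4 g
    · rintro ⟨⟨_, h1, h2⟩, h4⟩
      exact ⟨h1, h2, fun g => congrFun (congrArg Subtype.val h4) g⟩
  rw [hcard]
  rw [Nat.even_iff] at hev2 ⊢
  have hm' := hm
  unfold Nat.ModEq at hm'
  rw [← hm']
  exact hev2

end Cfsg.Agent.S4550
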