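import Cfsg.Statements.S4551
import Mathlib
import Cfsg.Agent.Lib.BPair.AlperinDade2

set_option autoImplicit false
open Cfsg
open Cfsg.Agent.Lib.Block Cfsg.Agent.Lib.Char Cfsg.Agent.Lib.CharExtra Cfsg.Agent.Lib.BPair

namespace Cfsg.Agent.S4551

/-- Let N be a normal subgroup of the finite group G of index prime to p, P a Sylow p-subgroup of G with G = N·C_G(P), and M a maximal ideal of the algebraic integers containing p. Then restriction to N is a bijection from the principal p-block of G onto the principal p-block of N: every member of the principal block of G restricts to a member of the principal block of N, and every member of the principal block of N is the restriction of exactly one member of the principal block of G. -/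
theorem result {G : Type*} [Group G] [Finite G] (p : ℕ) [Fact p.Prime] (M : Ideal Cfsg.AlgInt) (hM : Cfsg.IsPModular p M) (N : Subgroup G) [N.Normal] (hidx : ¬ p ∣ N.index) (P : Sylow p G) (hsup : N ⊔ Subgroup.centralizer ((P : Subgroup G) : Set G) = ⊤) : (∀ χ ∈ Cfsg.principalBlock M G, ∃ θ ∈ Cfsg.principalBlock M ↥N, ∀ n : N, (χ : G → ℂ) n = (θ : N → ℂ) n) ∧ ∀ θ ∈ Cfsg.principalBlock M ↥N, ∃! χ : Cfsg.IrrCharacter G, χ ∈ Cfsg.principalBlock M G ∧ ∀ n : N, (χ : G → ℂ) n = (θ : N → ℂ) n := by
  classical
  haveI : Fintype G := Fintype.ofFinite G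
  have hPN : (P : Subgroup G) ≤ N := by
    have h1 : IsPGroup p ((P : Subgroup G).map (QuotientGroup.mk' N)) := P.isPGroup'.map _
    obtain ⟨k, hk⟩ := IsPGroup.iff_card.mp h1
    have h2 : Nat.card ((P : Subgroup G).map (QuotientGroup.mk' N)) ∣ N.index := by
      have := Subgroup.card_subgroup_dvd_card ((P : Subgroup G).map (QuotientGroup.mk' N))
      exact this
    have hk0 : k = 0 := by
      by_contra hk0
      apply hidx
      rw [hk] at h2
      exact (dvd_pow_self p hk0).trans h2
    rw [hk0, pow_zero, Subgroup.card_eq_one] at hk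
    rw [Subgroup.map_eq_bot_iff, QuotientGroup.ker_mk'] at hk
    exact hk
  have hdec : ∀ g : G, ∃ n ∈ N, ∃ c ∈ Subgroup.centralizer ((P : Subgroup G) : Set G), g = n * c := by
    intro g
    have h1 : g ∈ N ⊔ Subgroup.centralizer ((P : Subgroup G) : Set G) := by
      rw [hsup]
      exact Subgroup.mem_top g
    rw [← SetLike.mem_coe, Subgroup.normal_mul, Set.mem_mul] at h1
    obtain ⟨n, hn, c, hc, e⟩ := h1
    exact ⟨n, hn, c, hc, e.symm⟩
  exact alperin_dade (P := (P : Subgroup G)) ⟨hM, hPN, P.not_dvd_index, hidx, hdec⟩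

end Cfsg.Agent.S4551
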