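import Cfsg.Statements.S4558
import Cfsg.Agent.Lib.Char.Constituent
import Mathlib

set_option autoImplicit false
open Cfsg

namespace Cfsg.Agent.S4558

open Cfsg.Agent.Lib.Char

/-- Frobenius in a commutative ring: `(∑ a i) ^ (p ^ j) ≡ ∑ a i ^ (p ^ j)` mod `p`. -/
lemma exists_sum_pow {R : Type*} [CommRing R] {ι : Type*} (p : ℕ) (hp : p.Prime) (j : ℕ) (s : Finset ι)
    (a : ι → R) : ∃ w : R, (∑ i ∈ s, a i) ^ p ^ j = ∑ i ∈ s, a i ^ p ^ j + p * w := by
  classical
  induction s using Finset.induction_on with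
  | empty =>
    refine ⟨0, ?_⟩
    have : p ^ j ≠ 0 := pow_ne_zero _ hp.ne_zero
    simp [zero_pow this]
  | insert i s hi ih =>
    obtain ⟨w, hw⟩ := ih
    obtain ⟨r, hr⟩ := exists_add_pow_prime_pow_eq hp (a i) (∑ i ∈ s, a i) j
    refine ⟨a i * (∑ i ∈ s, a i) * r + w, ?_⟩
    rw [Finset.sum_insert hi, Finset.sum_insert hi, hr, hw]
    ring

/-- Let χ be a character of the finite group G and g an element of p-power order for the prime p. If χ g = 0, then p divides the degree of χ. -/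
theorem result {G : Type*} [Group G] [Finite G] (p : ℕ) [Fact p.Prime] (χ : G → ℂ) (hχ : Cfsg.IsCharacter G χ) (g : G) (hg : ∃ j : ℕ, orderOf g = p ^ j) (h0 : χ g = 0) : p ∣ Cfsg.charDegree χ := by
  have hp : p.Prime := Fact.out
  obtain ⟨n, ρ, rfl⟩ := hχ
  obtain ⟨j, hj⟩ := hg
  have hof : IsOfFinOrder g := isOfFinOrder_of_finite g
  obtain ⟨ζ, hζ, hsum⟩ := character_eq_sum_roots ρ g hof
  have hn : orderOf g ≠ 0 := (orderOf_pos_iff.mpr hof).ne'
  have hint : ∀ i, IsIntegral ℤ (ζ i) := fun i => root_isIntegral hn (hζ i)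
  let R := integralClosure ℤ ℂ
  let a : Fin (Module.finrank ℂ (Fin n → ℂ)) → R := fun i => ⟨ζ i, hint i⟩
  obtain ⟨w, hw⟩ := exists_sum_pow (R := R) p hp j Finset.univ a
  have h1 : (∑ i, ζ i) = 0 := by
    have := hsum 1
    simp only [zpow_one] at this
    rw [← this]; exact h0
  have hw' := congrArg (fun z : R => (z : ℂ)) hw
  simp only [a] at hw'
  push_cast at hw'
  rw [h1] at hw'
  have h2 : ∀ i, ζ i ^ p ^ j = 1 := fun i => by rw [← hj]; exact hζ i
  simp only [h2] at hw'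
  have hpj : p ^ j ≠ 0 := pow_ne_zero _ hp.ne_zero
  rw [zero_pow hpj] at hw'
  simp only [Finset.sum_const, Finset.card_univ, Fintype.card_fin, nsmul_eq_mul, mul_one] at hw'
  have hdeg : Cfsg.charDegree ρ.character = Module.finrank ℂ (Fin n → ℂ) :=
    charDegree_natCast (Representation.char_one ρ)
  rw [hdeg]
  have hpc : (p : ℂ) ≠ 0 := by exact_mod_cast hp.ne_zero
  have h3 : ((Module.finrank ℂ (Fin n → ℂ) : ℕ) : ℂ) / (p : ℂ) = -(w : ℂ) := by
    rw [div_eq_iff hpc]
    linear_combination -hw'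
  apply nat_dvd_of_isIntegral_div hp.ne_zero
  rw [h3]
  exact (w.2).neg

end Cfsg.Agent.S4558
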