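import Cfsg.Statements.S4560
import Mathlib
import Cfsg.Agent.Lib.AltChar.Moments

set_option autoImplicit false
open Cfsg
open scoped Pointwise

namespace Cfsg.Agent.S4560


open MulAction Cfsg.Agent.Lib.AltChar in
theorem fC_sub {X : Type} [DecidableEq X] (H : Subgroup (Equiv.Perm X)) (x : H) :
    fC X x = fC X (x : Equiv.Perm X) := rfl

open MulAction Cfsg.Agent.Lib.AltChar in
theorem fC_pairs_sub {X : Type} [DecidableEq X] (H : Subgroup (Equiv.Perm X)) (x : H) :
    fC (Pairs X) x = fC (Pairs X) (x : Equiv.Perm X) := rfl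

open MulAction Cfsg.Agent.Lib.AltChar in
/-- A permutation without `2`-cycles fixes exactly the pairs of fixed points. -/
theorem card_fixedBy_pairs {X : Type} [DecidableEq X] [Fintype X] (g : Equiv.Perm X)
    (hg : ∀ x, g (g x) = x → g x = x) :
    Nat.card (fixedBy (Pairs X) g) = (Nat.card (fixedBy X g)).choose 2 := by
  classical
  let F : Finset X := Finset.univ.filter fun x => g x = x
  have hF : Nat.card (fixedBy X g) = F.card := by
    rw [Nat.card_eq_fintype_card]
    refine Fintype.card_of_subtype F ?_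
    intro x
    simp [F, mem_fixedBy, Equiv.Perm.smul_def]
  rw [hF, ← Finset.card_powersetCard, ← Nat.card_eq_finsetCard]
  refine Nat.card_congr
    { toFun := fun A => ⟨A.1.1, ?_⟩
      invFun := fun B => ⟨⟨B.1, (Finset.mem_powersetCard.mp B.2).2⟩, ?_⟩
      left_inv := fun A => rfl
      right_inv := fun B => rfl }
  · -- a fixed pair consists of fixed points
    rw [Finset.mem_powersetCard]
    refine ⟨?_, A.1.2⟩
    have hfix : g • A.1.1 = A.1.1 := congrArg Subtype.val (mem_fixedBy.mp A.2)
    obtain ⟨a, b, hab, hA⟩ := exists_pair A.1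
    have hmem : ∀ x ∈ A.1.1, g x ∈ A.1.1 := fun x hx => by
      rw [← hfix]
      exact Finset.smul_mem_smul_finset hx
    intro x hx
    simp only [F, Finset.mem_filter, Finset.mem_univ, true_and]
    rw [hA] at hx
    have ha : a ∈ A.1.1 := by simp [hA]
    have hb : b ∈ A.1.1 := by simp [hA]
    have h1 := hmem a ha
    have h2 := hmem b hb
    rw [hA, Finset.mem_insert, Finset.mem_singleton] at h1 h2
    rcases h1 with h1 | h1
    · rcases h2 with h2 | h2
      · exact absurd (g.injective (h1.trans h2.symm)) hab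
      · simp only [Finset.mem_insert, Finset.mem_singleton] at hx
        rcases hx with rfl | rfl
        · exact h1
        · exact h2
    · rcases h2 with h2 | h2
      · have h3 : g (g a) = a := by rw [h1, h2]
        exact absurd ((hg a h3).symm.trans h1) hab
      · exact absurd (g.injective (h1.trans h2.symm)) hab
  · -- conversely
    rw [mem_fixedBy]
    apply Subtype.ext
    have hB := (Finset.mem_powersetCard.mp B.2).1
    change g • B.1 = B.1
    ext x
    rw [Finset.mem_smul_finset]
    constructor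
    · rintro ⟨y, hy, rfl⟩
      have := hB hy
      simp only [F, Finset.mem_filter, Finset.mem_univ, true_and] at this
      rw [Equiv.Perm.smul_def, this]
      exact hy
    · intro hx
      have := hB hx
      simp only [F, Finset.mem_filter, Finset.mem_univ, true_and] at this
      exact ⟨x, hx, by rw [Equiv.Perm.smul_def, this]⟩

open MulAction Cfsg.Agent.Lib.AltChar in
theorem card_fixedBy_perm {X : Type} [DecidableEq X] [Fintype X] (g : Equiv.Perm X) :
    Nat.card (fixedBy X g) = Fintype.card X - g.cycleType.sum := by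
  rw [← Equiv.Perm.card_fixedPoints, ← Nat.card_eq_fintype_card]
  refine Nat.card_congr (Equiv.setCongr ?_)
  ext x
  simp [mem_fixedBy, Equiv.Perm.smul_def, Function.IsFixedPt]

/-- No `2`-cycles. -/
theorem no_two_cycles {X : Type} [DecidableEq X] [Fintype X] (g : Equiv.Perm X)
    (h : 2 ∉ g.cycleType) (x : X) (hx : g (g x) = x) : g x = x := by
  by_contra hne
  have hc : (g.cycleOf x).IsCycle := Equiv.Perm.isCycle_cycleOf g hne
  have h1 : g.cycleOf x ^ 2 = 1 := by
    rw [hc.pow_eq_one_iff]
    refine ⟨x, ?_, ?_⟩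
    · rwa [Equiv.Perm.cycleOf_apply_self]
    · rw [Equiv.Perm.cycleOf_pow_apply_self, pow_two, Equiv.Perm.mul_apply, hx]
  have h2 : (g.cycleOf x).support.card ∈ g.cycleType := by
    rw [Equiv.Perm.cycleType_def, Multiset.mem_map]
    exact ⟨_, Equiv.Perm.cycleOf_mem_cycleFactorsFinset_iff.mpr (Equiv.Perm.mem_support.mpr hne),
      rfl⟩
  have h3 : orderOf (g.cycleOf x) = (g.cycleOf x).support.card := hc.orderOf
  have h4 : orderOf (g.cycleOf x) ∣ 2 := orderOf_dvd_of_pow_eq_one h1
  have h5 : 2 ≤ (g.cycleOf x).support.card := hc.two_le_card_support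
  have h6 : (g.cycleOf x).support.card ≤ 2 := h3 ▸ Nat.le_of_dvd (by norm_num) h4
  have h7 : (g.cycleOf x).support.card = 2 := le_antisymm h6 h5
  exact h (h7 ▸ h2)

open MulAction Cfsg.Agent.Lib.AltChar in
/-- The vanishing criterion. -/
theorem exists_irr_vanishing (n : ℕ) (hn : 7 ≤ n) (g : Equiv.Perm (Fin n))
    (hg : g ∈ alternatingGroup (Fin n))
    (h : Nat.card (fixedBy (Fin n) g) = 1 ∨ ((∀ x, g (g x) = x → g x = x) ∧
      (Nat.card (fixedBy (Fin n) g) = 0 ∨ Nat.card (fixedBy (Fin n) g) = 2))) :
    ∃ χ : Cfsg.IrrCharacter (alternatingGroup (Fin n)),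
      (χ : alternatingGroup (Fin n) → ℂ) ⟨g, hg⟩ = 0 ∧
      ∃ ψ : Cfsg.IrrCharacter (Equiv.Perm (Fin n)), ∀ x : alternatingGroup (Fin n),
        (ψ : Equiv.Perm (Fin n) → ℂ) x = (χ : alternatingGroup (Fin n) → ℂ) x := by
  have hcard : Nat.card (Fin n) = n := by simp
  have h4 : 4 ≤ Nat.card (Fin n) := by omega
  haveI i1 : IsMultiplyPretransitive (Equiv.Perm (Fin n)) (Fin n) 4 :=
    Equiv.Perm.isMultiplyPretransitive (Fin n) 4
  haveI i2 : IsMultiplyPretransitive (alternatingGroup (Fin n)) (Fin n) 4 := by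
    haveI := alternatingGroup.isMultiplyPretransitive (Fin n)
    exact isMultiplyPretransitive_of_le (n := Nat.card (Fin n) - 2) (by omega) (by omega)
  rcases h with h | ⟨h2, h | h⟩
  · refine ⟨⟨_, irr_f_sub_one (G := alternatingGroup (Fin n)) (X := Fin n) h4⟩, ?_,
      ⟨_, irr_f_sub_one (G := Equiv.Perm (Fin n)) (X := Fin n) h4⟩, fun x => rfl⟩
    change fC (Fin n) (⟨g, hg⟩ : alternatingGroup (Fin n)) - 1 = 0
    rw [fC_sub]
    simp only [fC, h, Nat.cast_one, sub_self]
  · refine ⟨⟨_, irr_d_sub_f (G := alternatingGroup (Fin n)) (X := Fin n) h4⟩, ?_,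
      ⟨_, irr_d_sub_f (G := Equiv.Perm (Fin n)) (X := Fin n) h4⟩, fun x => rfl⟩
    change fC (Pairs (Fin n)) (⟨g, hg⟩ : alternatingGroup (Fin n)) -
      fC (Fin n) (⟨g, hg⟩ : alternatingGroup (Fin n)) = 0
    rw [fC_sub, fC_pairs_sub]
    simp only [fC, card_fixedBy_pairs g h2, h]
    norm_num
  · refine ⟨⟨_, irr_sq_sub_d (G := alternatingGroup (Fin n)) (X := Fin n) h4⟩, ?_,
      ⟨_, irr_sq_sub_d (G := Equiv.Perm (Fin n)) (X := Fin n) h4⟩, fun x => rfl⟩
    change (fC (Fin n) (⟨g, hg⟩ : alternatingGroup (Fin n)) - 1) ^ 2 -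
      fC (Pairs (Fin n)) (⟨g, hg⟩ : alternatingGroup (Fin n)) = 0
    rw [fC_sub, fC_pairs_sub]
    simp only [fC, card_fixedBy_pairs g h2, h]
    norm_num

/-- An even element of `2`-power order with `q * c` moved points: `c = 2` or `c = 4`. -/
theorem exists_two_element (n q c : ℕ) (hc : c = 2 ∨ c = 4) (hq : Even q ∨ 3 ≤ q)
    (hn : q * c ≤ n) : ∃ g : Equiv.Perm (Fin n), g ∈ alternatingGroup (Fin n) ∧
      (∃ j, orderOf g = 2 ^ j) ∧ g.cycleType.sum = q * c ∧ (c = 4 → 2 ∉ g.cycleType) := by
  classical
  by_cases hev : Even q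
  · obtain ⟨g, hg⟩ := (Equiv.Perm.exists_with_cycleType_iff (α := Fin n)
      (m := Multiset.replicate q c)).mpr ⟨by simpa using hn, by
        intro a ha
        rw [Multiset.eq_of_mem_replicate ha]
        omega⟩
    have hdvd : orderOf g ∣ 2 ^ 3 := by
      rw [← Equiv.Perm.lcm_cycleType, Multiset.lcm_dvd, hg]
      intro b hb
      rw [Multiset.eq_of_mem_replicate hb]
      rcases hc with rfl | rfl <;> norm_num
    obtain ⟨j, -, hj⟩ := (Nat.dvd_prime_pow Nat.prime_two).mp hdvd
    refine ⟨g, ?_, ⟨j, hj⟩, by simp [hg], ?_⟩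
    · rw [Equiv.Perm.mem_alternatingGroup, Equiv.Perm.sign_of_cycleType, hg]
      simp only [Multiset.sum_replicate, Multiset.card_replicate, smul_eq_mul]
      apply Even.neg_one_pow
      rcases hc with rfl | rfl
      · exact Even.add (hev.mul_right _) hev
      · exact Even.add (hev.mul_right _) hev
    · rintro rfl
      rw [hg]
      intro hmem
      have := Multiset.eq_of_mem_replicate hmem
      omega
  · have hq3 : 3 ≤ q := hq.resolve_left hev
    obtain ⟨g, hg⟩ := (Equiv.Perm.exists_with_cycleType_iff (α := Fin n)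
      (m := (2 * c) ::ₘ Multiset.replicate (q - 2) c)).mpr ⟨by
        simp only [Multiset.sum_cons, Multiset.sum_replicate, smul_eq_mul]
        obtain ⟨r, rfl⟩ : ∃ r, q = r + 2 := ⟨q - 2, by omega⟩
        simp only [Nat.add_sub_cancel, Fintype.card_fin]
        have : 2 * c + r * c = (r + 2) * c := by ring
        omega, by
        intro a ha
        rcases Multiset.mem_cons.mp ha with rfl | ha
        · omega
        · rw [Multiset.eq_of_mem_replicate ha]
          omega⟩
    have hdvd : orderOf g ∣ 2 ^ 3 := by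
      rw [← Equiv.Perm.lcm_cycleType, Multiset.lcm_dvd, hg]
      intro b hb
      rcases Multiset.mem_cons.mp hb with rfl | hb
      · rcases hc with rfl | rfl <;> norm_num
      · rw [Multiset.eq_of_mem_replicate hb]
        rcases hc with rfl | rfl <;> norm_num
    obtain ⟨j, -, hj⟩ := (Nat.dvd_prime_pow Nat.prime_two).mp hdvd
    obtain ⟨r, rfl⟩ : ∃ r, q = r + 2 := ⟨q - 2, by omega⟩
    refine ⟨g, ?_, ⟨j, hj⟩, ?_, ?_⟩
    · rw [Equiv.Perm.mem_alternatingGroup, Equiv.Perm.sign_of_cycleType, hg]
      simp only [Multiset.sum_cons, Multiset.sum_replicate, Multiset.card_cons,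
        Multiset.card_replicate, smul_eq_mul, Nat.add_sub_cancel]
      apply Even.neg_one_pow
      have hr : Odd r := by
        rcases Nat.even_or_odd r with h | h
        · exact absurd (h.add even_two) hev
        · exact h
      have h1 : Even (r + 1) := hr.add_one
      rcases hc with rfl | rfl
      · have : 2 * 2 + r * 2 + (r + 1) = 2 * (2 + r) + (r + 1) := by ring
        rw [this]
        exact Even.add (even_two.mul_right _) h1
      · have : 2 * 4 + r * 4 + (r + 1) = 2 * (4 + 2 * r) + (r + 1) := by ring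
        rw [this]
        exact Even.add (even_two.mul_right _) h1
    · rw [hg]
      simp only [Multiset.sum_cons, Multiset.sum_replicate, smul_eq_mul, Nat.add_sub_cancel]
      ring
    · rintro rfl
      rw [hg]
      intro hmem
      rcases Multiset.mem_cons.mp hmem with h | h
      · omega
      · have := Multiset.eq_of_mem_replicate h
        omega

/-- An even element of order `3` with `3 * m` moved points. -/
theorem exists_three_element (n m : ℕ) (hm : 1 ≤ m) (hn : 3 * m ≤ n) :
    ∃ g : Equiv.Perm (Fin n), g ∈ alternatingGroup (Fin n) ∧ orderOf g = 3 ∧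
      g.cycleType.sum = 3 * m ∧ 2 ∉ g.cycleType := by
  classical
  obtain ⟨g, hg⟩ := (Equiv.Perm.exists_with_cycleType_iff (α := Fin n)
    (m := Multiset.replicate m 3)).mpr ⟨by
      simp only [Multiset.sum_replicate, smul_eq_mul, Fintype.card_fin]
      omega, by
      intro a ha
      rw [Multiset.eq_of_mem_replicate ha]
      omega⟩
  have hdvd : orderOf g ∣ 3 := by
    rw [← Equiv.Perm.lcm_cycleType, Multiset.lcm_dvd, hg]
    intro b hb
    rw [Multiset.eq_of_mem_replicate hb]
  have hne : orderOf g ≠ 1 := by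
    intro h1
    have h2 : g = 1 := orderOf_eq_one_iff.mp h1
    rw [h2, Equiv.Perm.cycleType_one] at hg
    have h3 : Multiset.card (Multiset.replicate m 3) = 0 := by rw [← hg]; rfl
    simp at h3
    omega
  refine ⟨g, ?_, ?_, by simp [hg]; ring, ?_⟩
  · rw [Equiv.Perm.mem_alternatingGroup, Equiv.Perm.sign_of_cycleType, hg]
    simp only [Multiset.sum_replicate, Multiset.card_replicate, smul_eq_mul]
    apply Even.neg_one_pow
    exact ⟨2 * m, by ring⟩
  · rcases (Nat.dvd_prime Nat.prime_three).mp hdvd with h | h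
    · exact absurd h hne
    · exact h
  · rw [hg]
    intro hmem
    have := Multiset.eq_of_mem_replicate hmem
    omega

/-- For n ≥ 7 the alternating group on n letters has an irreducible character that vanishes at some 2-element and is the restriction of an irreducible character of the symmetric group, and an irreducible character that vanishes at some element of order 3 and is the restriction of an irreducible character of the symmetric group. -/
theorem result (n : ℕ) (hn : 7 ≤ n) : (∃ χ : Cfsg.IrrCharacter (alternatingGroup (Fin n)), (∃ x : alternatingGroup (Fin n), (∃ j : ℕ, orderOf x = 2 ^ j) ∧ (χ : alternatingGroup (Fin n) → ℂ) x = 0) ∧ ∃ ψ : Cfsg.IrrCharacter (Equiv.Perm (Fin n)), ∀ x : alternatingGroup (Fin n), (ψ : Equiv.Perm (Fin n) → ℂ) x = (χ : alternatingGroup (Fin n) → ℂ) x) ∧ (∃ χ : Cfsg.IrrCharacter (alternatingGroup (Fin n)), (∃ y : alternatingGroup (Fin n), orderOf y = 3 ∧ (χ : alternatingGroup (Fin n) → ℂ) y = 0) ∧ ∃ ψ : Cfsg.IrrCharacter (Equiv.Perm (Fin n)), ∀ x : alternatingGroup (Fin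 n), (ψ : Equiv.Perm (Fin n) → ℂ) x = (χ : alternatingGroup (Fin n) → ℂ) x) := by
  classical
  open MulAction in
  constructor
  · -- a `2`-element
    have hcases : ∃ g : Equiv.Perm (Fin n), g ∈ alternatingGroup (Fin n) ∧ (∃ j, orderOf g = 2 ^ j) ∧
        (Nat.card (MulAction.fixedBy (Fin n) g) = 1 ∨ ((∀ x, g (g x) = x → g x = x) ∧
          (Nat.card (MulAction.fixedBy (Fin n) g) = 0 ∨
            Nat.card (MulAction.fixedBy (Fin n) g) = 2))) := by
      rcases Nat.even_or_odd n with he | ho
      · obtain ⟨r, rfl⟩ := he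
        rcases Nat.even_or_odd r with he' | ho'
        · -- `n = 4 q`
          obtain ⟨q, rfl⟩ := he'
          obtain ⟨g, hg, ho, hs, h2⟩ := exists_two_element (q + q + (q + q)) q 4 (Or.inr rfl)
            (by
              by_cases h : Even q
              · exact Or.inl h
              · right
                have : q ≠ 2 := by
                  rintro rfl
                  exact h even_two
                omega) (by omega)
          refine ⟨g, hg, ho, Or.inr ⟨no_two_cycles g (h2 rfl), Or.inl ?_⟩⟩
          rw [card_fixedBy_perm, hs]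
          simp
          omega
        · -- `n = 4 q + 2`
          obtain ⟨q, rfl⟩ := ho'
          obtain ⟨g, hg, ho, hs, h2⟩ := exists_two_element (2 * q + 1 + (2 * q + 1)) q 4 (Or.inr rfl)
            (by
              by_cases h : Even q
              · exact Or.inl h
              · right
                have : q ≠ 2 := by
                  rintro rfl
                  exact h even_two
                omega) (by omega)
          refine ⟨g, hg, ho, Or.inr ⟨no_two_cycles g (h2 rfl), Or.inr ?_⟩⟩
          rw [card_fixedBy_perm, hs]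
          simp
          omega
      · -- `n = 2 q + 1`
        obtain ⟨q, rfl⟩ := ho
        obtain ⟨g, hg, ho, hs, -⟩ := exists_two_element (2 * q + 1) q 2 (Or.inl rfl)
          (Or.inr (by omega)) (by omega)
        refine ⟨g, hg, ho, Or.inl ?_⟩
        rw [card_fixedBy_perm, hs]
        simp
        omega
    obtain ⟨g, hg, ho, hc⟩ := hcases
    obtain ⟨χ, h0, ψ, hψ⟩ := exists_irr_vanishing n hn g hg hc
    refine ⟨χ, ⟨⟨g, hg⟩, ?_, h0⟩, ψ, hψ⟩
    obtain ⟨j, hj⟩ := ho
    exact ⟨j, by rw [← hj]; exact Subgroup.orderOf_mk g hg⟩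
  · -- an element of order `3`
    have hcases : ∃ g : Equiv.Perm (Fin n), g ∈ alternatingGroup (Fin n) ∧ orderOf g = 3 ∧
        (Nat.card (MulAction.fixedBy (Fin n) g) = 1 ∨ ((∀ x, g (g x) = x → g x = x) ∧
          (Nat.card (MulAction.fixedBy (Fin n) g) = 0 ∨
            Nat.card (MulAction.fixedBy (Fin n) g) = 2))) := by
      obtain ⟨g, hg, ho, hs, h2⟩ := exists_three_element n (n / 3) (by omega) (by omega)
      refine ⟨g, hg, ho, ?_⟩
      have hf : Nat.card (MulAction.fixedBy (Fin n) g) = n % 3 := by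
        rw [card_fixedBy_perm, hs]
        simp
        omega
      have hlt : n % 3 < 3 := Nat.mod_lt _ (by norm_num)
      rw [hf]
      interval_cases h3 : n % 3
      · exact Or.inr ⟨no_two_cycles g h2, Or.inl rfl⟩
      · exact Or.inl rfl
      · exact Or.inr ⟨no_two_cycles g h2, Or.inr rfl⟩
    obtain ⟨g, hg, ho, hc⟩ := hcases
    obtain ⟨χ, h0, ψ, hψ⟩ := exists_irr_vanishing n hn g hg hc
    refine ⟨χ, ⟨⟨g, hg⟩, ?_, h0⟩, ψ, hψ⟩
    rw [← ho]
    exact Subgroup.orderOf_mk g hg

end Cfsg.Agent.S4560
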