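import Cfsg.Statements.S4561
import Mathlib
import Cfsg.Agent.Lib.CharExtra.CentralType

set_option autoImplicit false
universe u
open Cfsg
open Cfsg.Agent.Lib.CharExtra.CentralType Cfsg.Agent.Lib.Char

namespace Cfsg.Agent.S4561

/-- For every finite solvable group G there is a finite group H with a faithful irreducible character χ whose degree squared equals the index of the centre Z(H) (so χ is fully ramified over the centre), such that G is isomorphic to a subgroup of H/Z(H), the primes dividing the orders of H, of Z(H) and of G are the same, and the order of Z(H) is squarefree. -/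
theorem result {G : Type u} [Group G] [Finite G] (hsolv : Group.IsSolvable G) : ∃ (H : Type u) (_ : Group H) (_ : Finite H) (χ : Cfsg.IrrCharacter H), (∀ h : H, (χ : H → ℂ) h = (χ : H → ℂ) 1 → h = 1) ∧ (Cfsg.charDegree (χ : H → ℂ)) ^ 2 = (Subgroup.center H).index ∧ (∃ f : G →* H ⧸ Subgroup.center H, Function.Injective f) ∧ (∀ p : ℕ, p.Prime → ((p ∣ Nat.card H ↔ p ∣ Nat.card G) ∧ (p ∣ Nat.card (Subgroup.center H) ↔ p ∣ Nat.card G))) ∧ Squarefree (Nat.card (Subgroup.center H)) := by
  classical
  obtain ⟨G₁, A, _, _, _, _, _, hreg, hexp, f, hf⟩ := exists_regAff _ G rfl hsolv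
  letI : Fintype A := Fintype.ofFinite A
  letI : Fintype G₁ := Fintype.ofFinite G₁
  have hm0 : rad (Nat.card G) ≠ 0 := (rad_pos _).ne'
  haveI : NeZero (rad (Nat.card G)) := ⟨hm0⟩
  have hG0 : Nat.card G ≠ 0 := Nat.card_pos.ne'
  refine ⟨TH (rad (Nat.card G)) hreg, inferInstance, inferInstance,
    ⟨chiFn (rad (Nat.card G)) hreg,
      isIrr_of_character_norm_one (chiFn_isCharacter _ hreg) (chi_norm hreg hexp)⟩, ?_, ?_, ?_, ?_, ?_⟩
  · exact fun w hw => chi_faithful hreg hexp w hw
  · have h1 : charDegree (chiFn (rad (Nat.card G)) hreg) = Nat.card A :=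
      charDegree_natCast (chi_one _ hreg)
    show charDegree (chiFn (rad (Nat.card G)) hreg) ^ 2 = _
    rw [h1]
    have h2 := (Subgroup.center (TH (rad (Nat.card G)) hreg)).card_mul_index
    rw [card_center hreg hexp, card_th' hreg hexp] at h2
    have h3 : rad (Nat.card G) * (Subgroup.center (TH (rad (Nat.card G)) hreg)).index =
        rad (Nat.card G) * (Nat.card A ^ 2) := by
      rw [h2]
      ring
    exact (Nat.eq_of_mul_eq_mul_left (rad_pos _) h3).symm
  · refine ⟨(QuotientGroup.mk' _).comp (SemidirectProduct.inr.comp f), ?_⟩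
    rw [injective_iff_map_eq_one]
    intro x hx
    have h1 : (SemidirectProduct.inr (f x) : TH (rad (Nat.card G)) hreg) ∈
        Subgroup.center (TH (rad (Nat.card G)) hreg) := (QuotientGroup.eq_one_iff _).1 hx
    rw [center_eq hreg hexp] at h1
    obtain ⟨ζ, hζ⟩ := h1
    have h2 : (1 : G₁) = f x := congrArg SemidirectProduct.right hζ
    exact (map_eq_one_iff f hf).1 h2.symm
  · intro p hp
    have h1 := prime_dvd_rad hG0 hp
    constructor
    · rw [card_th' hreg hexp]
      constructor
      · intro h2
        have h3 : p ∣ Nat.card A → p ∣ Nat.card G := by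
          intro h4
          haveI : Fact p.Prime := ⟨hp⟩
          rw [Nat.card_eq_fintype_card] at h4
          obtain ⟨a, ha⟩ := exists_prime_addOrderOf_dvd_card p h4
          rw [← h1, ← ha]
          exact addOrderOf_dvd_of_nsmul_eq_zero (hexp a)
        rcases (Nat.Prime.dvd_mul hp).1 h2 with h4 | h4
        · rcases (Nat.Prime.dvd_mul hp).1 h4 with h5 | h5
          · exact h1.1 h5
          · exact h3 h5
        · exact h3 h4
      · intro h2
        exact Dvd.dvd.mul_right (Dvd.dvd.mul_right (h1.2 h2) _) _
    · rw [card_center hreg hexp]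
      exact h1
  · rw [card_center hreg hexp]
    exact rad_squarefree _

end Cfsg.Agent.S4561
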