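import Cfsg.Statements.S4566
import Cfsg.Agent.Lib.CharExtra.Central
import Mathlib

set_option autoImplicit false
open Cfsg

namespace Cfsg.Agent.S4566

/-- Let N be a central subgroup of the finite group G, ψ a faithful irreducible (hence degree-one) character of N, and χ an irreducible character of G whose restriction to N contains ψ. If g ∈ G and some x ∈ G has commutator x⁻¹ g⁻¹ x g in N but different from 1, then χ g = 0. -/
theorem result {G : Type*} [Group G] [Fintype G] (N : Subgroup G) [Fintype N] (hN : N ≤ Subgroup.center G) (ψ : Cfsg.IrrCharacter ↥N) (hfaith : ∀ n : ↥N, (ψ : ↥N → ℂ) n = (ψ : ↥N → ℂ) 1 → n = 1) (χ : Cfsg.IrrCharacter G) (hover : Cfsg.classInner (fun n : ↥N => (χ : G → ℂ) n) (ψ : ↥N → ℂ) ≠ 0) (g x : G) (hcomm : x⁻¹ * g⁻¹ * x * g ∈ N) (hne' : x⁻¹ * g⁻¹ * x * g ≠ 1) : (χ : G → ℂ) g = 0 := by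
  have hχ : Cfsg.IsCharacter G (χ : G → ℂ) := Cfsg.Agent.Lib.Char.IsIrrCharacter.isCharacter χ.2
  have h1 : (χ : G → ℂ) 1 ≠ 0 := Cfsg.Agent.Lib.Char.map_one_ne_zero_of_irr χ.2
  set c : G := x⁻¹ * g⁻¹ * x * g with hc
  have hres := Cfsg.Agent.Lib.CharExtra.restrict_eq_of_over χ N hN ψ hover
  have hconj : x⁻¹ * g * x = g * c⁻¹ := by
    rw [hc]; group
  have h2 : (χ : G → ℂ) g = (χ : G → ℂ) (g * c⁻¹) := by
    rw [← hconj]
    have := Cfsg.Agent.Lib.Char.IsCharacter.conj_apply hχ g x⁻¹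
    simpa using this.symm
  have hcinv : c⁻¹ ∈ Subgroup.center G := (Subgroup.center G).inv_mem (hN hcomm)
  rw [Cfsg.Agent.Lib.CharExtra.irr_mul_central χ hcinv] at h2
  have h3 := hres ⟨c⁻¹, N.inv_mem hcomm⟩
  simp only at h3
  rw [h3] at h2
  by_contra hne
  have h4 : (ψ : N → ℂ) ⟨c⁻¹, N.inv_mem hcomm⟩ = 1 := by
    field_simp at h2
    exact h2.symm
  -- `ψ 1 = 1` from the restriction at `1`
  have h6 : (ψ : N → ℂ) 1 = 1 := by
    have := hres 1
    simp only [OneMemClass.coe_one] at this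
    have h7 : (χ : G → ℂ) 1 * ((ψ : N → ℂ) 1 - 1) = 0 := by linear_combination -this
    have := (mul_eq_zero.1 h7).resolve_left h1
    linear_combination this
  have h8 := hfaith ⟨c⁻¹, N.inv_mem hcomm⟩ (by rw [h4, h6])
  apply hne'
  have h9 : c⁻¹ = 1 := congrArg Subtype.val h8
  simpa using h9

end Cfsg.Agent.S4566
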