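import Cfsg.Agent.Lib.CharExtra.Central
import Cfsg.Agent.Lib.Char.Complete
import Cfsg.Agent.Lib.Char.Degrees
import Cfsg.Agent.Lib.Core.Basic
import Cfsg.Agent.Lib.Degree.Linear
import Cfsg.Agent.Lib.Block.Group
import Cfsg.Statements.S4567
import Mathlib

set_option autoImplicit false
open Cfsg

namespace Cfsg.Agent.S4567

open scoped ComplexConjugate
open Cfsg.Agent.Lib.Char Cfsg.Agent.Lib.CharExtra Cfsg.Agent.Lib.Degree

section
variable {G : Type*} [Group G] (N : Subgroup G)

/-- special elements -/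
def Spec (g : G) : Prop := ∀ x : G, x⁻¹ * g⁻¹ * x * g ∈ N → x * g = g * x

variable {N}

theorem spec_conj [N.Normal] {g : G} (h : Spec N g) (y : G) : Spec N (y * g * y⁻¹) := by
  intro x hx
  have h1 : (y⁻¹ * x * y)⁻¹ * g⁻¹ * (y⁻¹ * x * y) * g ∈ N := by
    have := Subgroup.Normal.conj_mem ‹N.Normal› _ hx y⁻¹
    convert this using 1
    group
  have h2 := h _ h1
  have h3 : x * (y * g * y⁻¹) = y * ((y⁻¹ * x * y) * g) * y⁻¹ := by group
  rw [h3, h2]
  group

theorem spec_mul_central (hN : N ≤ Subgroup.center G) {g n : G} (hn : n ∈ N) (h : Spec N g) :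
    Spec N (g * n) := by
  intro x hx
  have hc := Subgroup.mem_center_iff.1 (hN hn)
  have hc' : ∀ z, n⁻¹ * z = z * n⁻¹ := fun z => by
    have := Subgroup.mem_center_iff.1 (Subgroup.inv_mem _ (hN hn)) z
    exact this.symm
  have h1 : x⁻¹ * g⁻¹ * x * g ∈ N := by
    have h2 : x⁻¹ * (g * n)⁻¹ * x * (g * n) = x⁻¹ * g⁻¹ * x * g := by
      rw [mul_inv_rev, hc' g⁻¹]
      have : x⁻¹ * (g⁻¹ * n⁻¹) * x * (g * n) = x⁻¹ * g⁻¹ * (n⁻¹ * x) * g * n := by group
      rw [this, hc' x]
      have h5 := hc (x⁻¹ * g⁻¹ * x * g)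
      calc x⁻¹ * g⁻¹ * (x * n⁻¹) * g * n = x⁻¹ * g⁻¹ * x * (n⁻¹ * g) * n := by group
        _ = x⁻¹ * g⁻¹ * x * (g * n⁻¹) * n := by rw [hc' g]
        _ = _ := by group
    rwa [h2] at hx
  have h3 := h x h1
  calc x * (g * n) = (x * g) * n := by group
    _ = (g * x) * n := by rw [h3]
    _ = g * (x * n) := by group
    _ = g * (n * x) := by rw [hc x]
    _ = (g * n) * x := by group

theorem spec_of_mk_eq [N.Normal] (hN : N ≤ Subgroup.center G) {g g' : G}
    (h : (g : G ⧸ N) = (g' : G ⧸ N)) (hg : Spec N g) : Spec N g' := by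
  have h1 : g⁻¹ * g' ∈ N := QuotientGroup.eq.1 h
  have := spec_mul_central hN h1 hg
  simpa using this

/-- for special elements the centralizer is the pullback of the centralizer in the quotient -/
theorem comap_centralizer [N.Normal] {g : G} (h : Spec N g) :
    (Subgroup.centralizer ({(g : G ⧸ N)} : Set (G ⧸ N))).comap (QuotientGroup.mk' N) =
      Subgroup.centralizer ({g} : Set G) := by
  ext x
  simp only [Subgroup.mem_comap, Subgroup.mem_centralizer_iff, Set.mem_singleton_iff, forall_eq,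
    QuotientGroup.mk'_apply]
  constructor
  · intro hx
    have h1 : ((x * g : G) : G ⧸ N) = ((g * x : G) : G ⧸ N) := by
      simp only [QuotientGroup.mk_mul]
      exact hx.symm
    have h2 := QuotientGroup.eq.1 h1
    have h3 : x⁻¹ * g⁻¹ * x * g ∈ N := by
      have := Subgroup.inv_mem _ h2
      convert this using 1
      group
    exact (h x h3).symm
  · intro hx
    rw [← QuotientGroup.mk_mul, ← QuotientGroup.mk_mul, hx]

end

section
variable {G : Type*} [Group G] [Fintype G] (N : Subgroup G) [Fintype N]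

theorem isConj_mul_central {a b c : G} (hc : c ∈ Subgroup.center G) (h : IsConj a b) :
    IsConj (a * c) (b * c) := by
  obtain ⟨y, rfl⟩ := isConj_iff.1 h
  refine isConj_iff.2 ⟨y, ?_⟩
  have := Subgroup.mem_center_iff.1 hc
  calc y * (a * c) * y⁻¹ = y * a * (c * y⁻¹) := by group
    _ = y * a * (y⁻¹ * c) := by rw [this y⁻¹]
    _ = _ := by group

theorem sum_spec (hN : N ≤ Subgroup.center G) (ψ : IrrCharacter N)
    (hfaith : ∀ n : ↥N, (ψ : ↥N → ℂ) n = (ψ : ↥N → ℂ) 1 → n = 1)
    (hψ1 : (ψ : N → ℂ) 1 = 1) (g : G) [Decidable (Spec N g)]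
    [∀ n : N, Decidable (IsConj (g * n) g)] :
    ∑ n : N, (if IsConj (g * n) g then conj ((ψ : N → ℂ) n) else 0) =
      if Spec N g then 1 else 0 := by
  split_ifs with hs
  · rw [Finset.sum_eq_single (1 : N)]
    · have h1 : IsConj (g * ((1 : N) : G)) g := by rw [Subgroup.coe_one, mul_one]
      rw [if_pos h1, hψ1]
      simp
    · intro n _ hn
      rw [if_neg]
      intro hc
      apply hn
      obtain ⟨y, hy⟩ := isConj_iff.1 hc
      have hnc := Subgroup.mem_center_iff.1 (hN n.2)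
      have h0 : y * g * y⁻¹ * n = g := by
        calc y * g * y⁻¹ * n = y * g * (y⁻¹ * n) := by group
          _ = y * g * (n * y⁻¹) := by rw [hnc y⁻¹]
          _ = y * (g * n) * y⁻¹ := by group
          _ = g := hy
      have h1 : y * g * y⁻¹ = g * (n : G)⁻¹ := by
        rw [eq_mul_inv_iff_mul_eq]; exact h0
      have h2 : (y⁻¹)⁻¹ * g⁻¹ * y⁻¹ * g = n := by
        calc (y⁻¹)⁻¹ * g⁻¹ * y⁻¹ * g = (y * g * y⁻¹)⁻¹ * g := by group
          _ = (g * (n : G)⁻¹)⁻¹ * g := by rw [h1]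
          _ = n := by group
      have h3 := hs y⁻¹ (h2 ▸ n.2)
      have h4 : y * g * y⁻¹ = g := by
        calc y * g * y⁻¹ = y * (g * y⁻¹) := by group
          _ = y * (y⁻¹ * g) := by rw [h3]
          _ = g := by group
      rw [h4] at h1
      have h5 : (n : G)⁻¹ = 1 := by
        have := mul_left_cancel (a := g) (b := (n : G)⁻¹) (c := 1) (by rw [← h1]; simp)
        exact this
      exact Subtype.ext (by simpa using h5)
    · simp
  · unfold Spec at hs
    push Not at hs
    obtain ⟨x, hx, hne⟩ := hs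
    let n₁ : N := ⟨x⁻¹ * g⁻¹ * x * g, hx⟩
    have hn₁ : n₁ ≠ 1 := by
      intro h
      apply hne
      have h1 : x⁻¹ * g⁻¹ * x * g = 1 := congrArg Subtype.val h
      have h2 : (g * x)⁻¹ * (x * g) = 1 := by
        rw [← h1]; group
      exact (inv_mul_eq_one.1 h2).symm
    have hcen : (n₁ : G) ∈ Subgroup.center G := hN n₁.2
    have hcen' : (n₁⁻¹ : N).1 ∈ Subgroup.center G := hN (n₁⁻¹).2
    have hc1 : IsConj (g * ((n₁ : G))⁻¹) g := by
      refine isConj_iff.2 ⟨x, ?_⟩
      change x * (g * (x⁻¹ * g⁻¹ * x * g)⁻¹) * x⁻¹ = g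
      group
    have hc2 : IsConj (g * (n₁ : G)) g := by
      have := isConj_mul_central hcen hc1
      simp only [inv_mul_cancel_right] at this
      exact this.symm
    have hstep : ∀ n : N, IsConj (g * ((n * n₁ : N) : G)) g ↔ IsConj (g * n) g := by
      intro n
      rw [Subgroup.coe_mul]
      constructor
      · intro h
        have h1 := isConj_mul_central (c := ((n₁ : G))⁻¹) (Subgroup.inv_mem _ hcen) h
        have h2 : g * ((n : G) * n₁) * ((n₁ : G))⁻¹ = g * n := by group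
        rw [h2] at h1
        exact h1.trans hc1
      · intro h
        have h1 := isConj_mul_central hcen h
        rw [mul_assoc] at h1
        exact h1.trans hc2
    have hmul : ∀ n : N, (ψ : N → ℂ) (n * n₁) = (ψ : N → ℂ) n * (ψ : N → ℂ) n₁ :=
      fun n => irr_linear_mul ψ hψ1 n n₁
    have hψn : (ψ : N → ℂ) n₁ ≠ 1 := by
      intro h
      exact hn₁ (hfaith n₁ (by rw [h, hψ1]))
    let φ : N → ℂ := fun n => if IsConj (g * n) g then conj ((ψ : N → ℂ) n) else 0
    have hφ : ∀ n : N, φ (n * n₁) = φ n * conj ((ψ : N → ℂ) n₁) := by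
      intro n
      by_cases hc : IsConj (g * (n : G)) g
      · simp only [φ]
        rw [if_pos hc, if_pos ((hstep n).2 hc), hmul, map_mul]
      · simp only [φ]
        rw [if_neg hc, if_neg (fun h => hc ((hstep n).1 h)), zero_mul]
    set S := ∑ n : N, φ n with hS
    have h1 : S = S * conj ((ψ : N → ℂ) n₁) := by
      calc S = ∑ n : N, φ (Equiv.mulRight n₁ n) := (Equiv.sum_comp (Equiv.mulRight n₁) φ).symm
        _ = ∑ n : N, φ n * conj ((ψ : N → ℂ) n₁) := Finset.sum_congr rfl fun n _ => hφ n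
        _ = _ := by rw [hS, Finset.sum_mul]
    have h2 : S * (1 - conj ((ψ : N → ℂ) n₁)) = 0 := by
      rw [mul_sub, mul_one, ← h1, sub_self]
    rcases mul_eq_zero.1 h2 with h3 | h3
    · exact h3
    · exfalso
      apply hψn
      have h4 : conj ((ψ : N → ℂ) n₁) = 1 := (sub_eq_zero.1 h3).symm
      have := congrArg conj h4
      simpa using this

/-- the weighted fibre sum of an irreducible character on the central subgroup -/
theorem over_sum (hN : N ≤ Subgroup.center G) (ψ : IrrCharacter N)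
    (χ : IrrCharacter G) (g : G)
    [Decidable (classInner (fun n : N => (χ : G → ℂ) n) (ψ : N → ℂ) ≠ 0)] :
    ∑ n : N, (χ : G → ℂ) (g * n) * conj ((ψ : N → ℂ) n) =
      (Nat.card N : ℂ) *
        (if classInner (fun n : N => (χ : G → ℂ) n) (ψ : N → ℂ) ≠ 0 then (χ : G → ℂ) g else 0) := by
  have hχ1 : (χ : G → ℂ) 1 ≠ 0 := map_one_ne_zero_of_irr χ.2
  have hcard : (Nat.card N : ℂ) ≠ 0 := by exact_mod_cast Nat.card_pos.ne'
  have h1 : ∑ n : N, (χ : G → ℂ) (g * n) * conj ((ψ : N → ℂ) n) =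
      ((χ : G → ℂ) g / (χ : G → ℂ) 1) * ((Nat.card N : ℂ) *
        classInner (fun n : N => (χ : G → ℂ) n) (ψ : N → ℂ)) := by
    unfold classInner
    rw [← mul_assoc (Nat.card N : ℂ), mul_inv_cancel₀ hcard, one_mul, Finset.mul_sum]
    refine Finset.sum_congr rfl fun n _ => ?_
    rw [irr_mul_central χ (hN n.2)]
    ring
  rw [h1]
  split_ifs with h
  · have h2 : (fun n : N => (χ : G → ℂ) n) = ((χ : G → ℂ) 1) • (ψ : N → ℂ) := by
      funext n
      exact restrict_eq_of_over χ N hN ψ h n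
    rw [h2, classInner_smul_left, classInner_irr_self ψ.2]
    field_simp
  · push Not at h
    rw [h]
    simp

end

theorem result {G : Type*} [Group G] [Fintype G] (N : Subgroup G) [N.Normal] [Fintype N] (hN : N ≤ Subgroup.center G) (ψ : Cfsg.IrrCharacter ↥N) (hfaith : ∀ n : ↥N, (ψ : ↥N → ℂ) n = (ψ : ↥N → ℂ) 1 → n = 1) : Nat.card {χ : Cfsg.IrrCharacter G // Cfsg.classInner (fun n : ↥N => (χ : G → ℂ) n) (ψ : ↥N → ℂ) ≠ 0} = Nat.card {C : ConjClasses (G ⧸ N) // ∃ g : G, ConjClasses.mk (g : G ⧸ N) = C ∧ ∀ x : G, x⁻¹ * g⁻¹ * x * g ∈ N → x * g = g * x} := by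
  classical
  have hcomm : ∀ a b : N, a * b = b * a := by
    intro a b
    apply Subtype.ext
    exact (Subgroup.mem_center_iff.1 (hN a.2) b.1).symm
  have hψ1 : (ψ : N → ℂ) 1 = 1 := charDegree_eq_one_of_comm hcomm ψ.2
  haveI : Fintype (G ⧸ N) := Fintype.ofFinite _
  haveI : Fintype (ConjClasses (G ⧸ N)) := Fintype.ofFinite _
  -- the counted numbers as sums
  set c : ℕ := Nat.card {χ : Cfsg.IrrCharacter G // Cfsg.classInner (fun n : ↥N => (χ : G → ℂ) n) (ψ : ↥N → ℂ) ≠ 0} with hc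
  set d : ℕ := Nat.card {C : ConjClasses (G ⧸ N) // ∃ g : G, ConjClasses.mk (g : G ⧸ N) = C ∧ ∀ x : G, x⁻¹ * g⁻¹ * x * g ∈ N → x * g = g * x} with hd
  have hcsum : (c : ℂ) = ∑ χ : IrrCharacter G,
      (if classInner (fun n : N => (χ : G → ℂ) n) (ψ : N → ℂ) ≠ 0 then 1 else 0 : ℂ) := by
    rw [hc, Nat.card_eq_fintype_card, Fintype.card_subtype, Finset.card_filter]
    push_cast
    rfl
  have hT1 : ∑ g : G, ∑ χ : IrrCharacter G,
      (∑ n : N, (χ : G → ℂ) (g * n) * conj ((ψ : N → ℂ) n)) * conj ((χ : G → ℂ) g) =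
      (Nat.card N : ℂ) * Nat.card G * c := by
    simp only [over_sum N hN ψ]
    rw [Finset.sum_comm, hcsum, Finset.mul_sum]
    refine Finset.sum_congr rfl fun χ _ => ?_
    have h1 : ∑ g : G, (χ : G → ℂ) g * conj ((χ : G → ℂ) g) = (Nat.card G : ℂ) := by
      have h2 := classInner_irr_self χ.2
      unfold classInner at h2
      have hcard : (Nat.card G : ℂ) ≠ 0 := by exact_mod_cast Nat.card_pos.ne'
      field_simp at h2
      exact h2
    split_ifs with h
    · simp only [mul_assoc]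
      rw [← Finset.mul_sum, h1]
      ring
    · simp
  have hT2 : ∑ g : G, ∑ χ : IrrCharacter G,
      (∑ n : N, (χ : G → ℂ) (g * n) * conj ((ψ : N → ℂ) n)) * conj ((χ : G → ℂ) g) =
      ∑ g : G, (Nat.card (Subgroup.centralizer ({g} : Set G)) : ℂ) * (if Spec N g then 1 else 0) := by
    refine Finset.sum_congr rfl fun g _ => ?_
    rw [← sum_spec N hN ψ hfaith hψ1 g, Finset.mul_sum]
    simp only [Finset.sum_mul]
    rw [Finset.sum_comm]
    refine Finset.sum_congr rfl fun n _ => ?_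
    have h1 := second_orthogonality' ((g * n : G)) g
    have h2 : ∑ χ : IrrCharacter G, (χ : G → ℂ) (g * n) * conj ((ψ : N → ℂ) n) * conj ((χ : G → ℂ) g) =
        conj ((ψ : N → ℂ) n) * ∑ χ : IrrCharacter G, (χ : G → ℂ) (g * n) * conj ((χ : G → ℂ) g) := by
      rw [Finset.mul_sum]
      exact Finset.sum_congr rfl fun χ _ => by ring
    rw [h2, h1]
    split_ifs <;> ring
  let Spec' : G ⧸ N → Prop := fun q => ∃ g : G, (g : G ⧸ N) = q ∧ Spec N g
  have hSpec' : ∀ g : G, Spec' (g : G ⧸ N) ↔ Spec N g := by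
    intro g
    constructor
    · rintro ⟨g', h1, h2⟩
      exact spec_of_mk_eq hN h1 h2
    · exact fun h => ⟨g, rfl, h⟩
  have hSpecConj : ∀ q x : G ⧸ N, Spec' (x * q * x⁻¹) ↔ Spec' q := by
    have key : ∀ q x : G ⧸ N, Spec' q → Spec' (x * q * x⁻¹) := by
      rintro q x ⟨g, rfl, hg⟩
      obtain ⟨y, rfl⟩ := QuotientGroup.mk_surjective x
      refine ⟨y * g * y⁻¹, ?_, spec_conj hg y⟩
      simp
    intro q x
    refine ⟨fun h => ?_, key q x⟩
    have := key _ x⁻¹ h
    simpa [mul_assoc] using this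
  let F : G ⧸ N → ℂ := fun q =>
    (Nat.card (Subgroup.centralizer ({q} : Set (G ⧸ N))) : ℂ) * (if Spec' q then 1 else 0)
  have hF : ∀ g : G, (Nat.card (Subgroup.centralizer ({g} : Set G)) : ℂ) * (if Spec N g then 1 else 0) =
      (Nat.card N : ℂ) * F (g : G ⧸ N) := by
    intro g
    simp only [F]
    by_cases h : Spec N g
    · rw [if_pos h, if_pos ((hSpec' g).2 h), ← comap_centralizer h,
        Cfsg.Agent.Lib.Core.card_comap_of_surjective (QuotientGroup.mk' N)
          (QuotientGroup.mk'_surjective N), QuotientGroup.ker_mk']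
      push_cast
      ring
    · rw [if_neg h, if_neg (fun h2 => h ((hSpec' g).1 h2))]
      ring
  have hFclass : ∀ q x : G ⧸ N, F (x * q * x⁻¹) = F q := by
    intro q x
    simp only [F]
    have hc : IsConj (x * q * x⁻¹) q := (isConj_iff.2 ⟨x, rfl⟩).symm
    rw [Cfsg.Agent.Lib.Block.card_centralizer_of_isConj hc]
    by_cases h : Spec' q
    · rw [if_pos h, if_pos ((hSpecConj q x).2 h)]
    · rw [if_neg h, if_neg (fun h2 => h ((hSpecConj q x).1 h2))]
  have hdsum : (d : ℂ) = ∑ C : ConjClasses (G ⧸ N), (if Spec' C.out then 1 else 0 : ℂ) := by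
    rw [hd, Nat.card_eq_fintype_card, Fintype.card_subtype, Finset.card_filter]
    push_cast
    refine Finset.sum_congr rfl fun C _ => ?_
    have : (∃ g : G, ConjClasses.mk (g : G ⧸ N) = C ∧ ∀ x : G, x⁻¹ * g⁻¹ * x * g ∈ N → x * g = g * x) ↔ Spec' C.out := by
      constructor
      · rintro ⟨g, h1, h2⟩
        have h3 : ConjClasses.mk C.out = ConjClasses.mk (g : G ⧸ N) := by
          rw [h1]; exact C.out_eq
        obtain ⟨y, hy⟩ := isConj_iff.1 (ConjClasses.mk_eq_mk_iff_isConj.1 h3.symm)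
        rw [← hy]
        exact (hSpecConj _ y).2 ((hSpec' g).2 h2)
      · rintro ⟨g, h1, h2⟩
        exact ⟨g, by rw [h1]; exact C.out_eq, h2⟩
    simp only [this]
  have hFsum : ∑ q : G ⧸ N, F q = (Nat.card (G ⧸ N) : ℂ) * d := by
    rw [Cfsg.Agent.Lib.Char.sum_classFunction_eq_sum_conjClasses F hFclass, hdsum, Finset.mul_sum]
    refine Finset.sum_congr rfl fun C _ => ?_
    simp only [F, nsmul_eq_mul]
    rw [← mul_assoc]
    congr 1
    rw [← Nat.cast_mul, Subgroup.index_mul_card]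
  have hsum2 : ∑ g : G, (Nat.card (Subgroup.centralizer ({g} : Set G)) : ℂ) * (if Spec N g then 1 else 0) =
      (Nat.card N : ℂ) * ((Nat.card N : ℂ) * ∑ q : G ⧸ N, F q) := by
    simp only [hF]
    rw [← Finset.mul_sum, Cfsg.Agent.Lib.Char.sum_eq_sum_quotient_sum N (fun g : G => F (g : G ⧸ N))]
    congr 1
    rw [Finset.mul_sum]
    refine Finset.sum_congr rfl fun q _ => ?_
    have h1 : ∀ a : N, F (((q.out * a : G)) : G ⧸ N) = F q := by
      intro a
      have : ((q.out * a : G) : G ⧸ N) = q := by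
        rw [QuotientGroup.mk_mul, QuotientGroup.out_eq']
        simp
      rw [this]
    simp only [h1, Finset.sum_const, Finset.card_univ, nsmul_eq_mul, Nat.card_eq_fintype_card]
  have hcardG : (Nat.card G : ℂ) = Nat.card N * Nat.card (G ⧸ N) := by
    have := Subgroup.card_mul_index N
    rw [Subgroup.index_eq_card] at this
    rw [← this]
    push_cast
    rfl
  have hNne : (Nat.card N : ℂ) ≠ 0 := by exact_mod_cast Nat.card_pos.ne'
  have hQne : (Nat.card (G ⧸ N) : ℂ) ≠ 0 := by exact_mod_cast Nat.card_pos.ne'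
  have hfinal : (c : ℂ) = d := by
    have h1 := hT1.symm.trans (hT2.trans hsum2)
    rw [hFsum, hcardG] at h1
    have h2 : ((Nat.card N : ℂ) * Nat.card N * Nat.card (G ⧸ N)) * c =
        ((Nat.card N : ℂ) * Nat.card N * Nat.card (G ⧸ N)) * d := by
      linear_combination h1
    exact mul_left_cancel₀ (by simp [hNne, hQne]) h2
  exact_mod_cast hfinal

end Cfsg.Agent.S4567
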