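import Cfsg.Statements.S4574
import Cfsg.Agent.Lib.Degree.Burnside
import Cfsg.Agent.Lib.Char.Integral
import Cfsg.Agent.Lib.Char.Constituent
import Mathlib

set_option autoImplicit false
open Cfsg

namespace Cfsg.Agent.S4574

/-- Let χ be an irreducible character of the finite group G, of degree d, and let Z(χ) be the set of elements g with |χ g| = d (the centre of χ). Then χ vanishes on at least (d ^ 2 - 1) · |Z(χ)| elements of G, with equality when every value |χ g| is 0, 1 or d. -/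
theorem result {G : Type*} [Group G] [Fintype G] [DecidableEq G] (χ : G → ℂ) (hχ : Cfsg.IsIrrCharacter G χ) : (Cfsg.charDegree χ ^ 2 - 1) * (Finset.univ.filter (fun g : G => ‖χ g‖ = (Cfsg.charDegree χ : ℝ))).card ≤ (Finset.univ.filter (fun g : G => χ g = 0)).card ∧ ((∀ g : G, ‖χ g‖ = 0 ∨ ‖χ g‖ = 1 ∨ ‖χ g‖ = (Cfsg.charDegree χ : ℝ)) → (Cfsg.charDegree χ ^ 2 - 1) * (Finset.univ.filter (fun g : G => ‖χ g‖ = (Cfsg.charDegree χ : ℝ))).card = (Finset.univ.filter (fun g : G => χ g = 0)).card) := by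
  classical
  obtain ⟨n, ρ, hρ, rfl⟩ := id hχ
  set χ : G → ℂ := ρ.character with hχdef
  have hχc : Cfsg.IsCharacter G χ := Cfsg.Agent.Lib.Char.IsIrrCharacter.isCharacter hχ
  set d := Cfsg.charDegree χ with hd
  have hdχ : χ 1 = (d : ℂ) := Cfsg.Agent.Lib.Char.map_one_eq_charDegree hχc
  have hfin : Module.finrank ℂ (Fin n → ℂ) = d := by
    have h1 : χ 1 = (Module.finrank ℂ (Fin n → ℂ) : ℂ) := Representation.char_one ρ
    rw [hdχ] at h1
    exact_mod_cast h1.symm
  have hdpos : 0 < d := Cfsg.Agent.Lib.Char.charDegree_pos_of_irr hχ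
  set Z := Finset.univ.filter (fun g : G => ‖χ g‖ = (d : ℝ)) with hZ
  set S : Finset G := Finset.univ.filter (fun g : G => ‖χ g‖ ≠ (d : ℝ)) with hS
  have hscal : ∀ g : G, ‖χ g‖ = (d : ℝ) ↔ ∃ c : ℂ, ρ g = c • 1 := by
    intro g
    have h1 := Cfsg.Agent.Lib.Char.norm_character_eq_iff ρ g (isOfFinOrder_of_finite g)
    rw [hfin] at h1
    exact h1
  have hSclosed : ∀ g ∈ S, ∀ k : ℕ, k.Coprime (Nat.card G) → g ^ k ∈ S := by
    intro g hg k hk
    rw [hS, Finset.mem_filter] at hg ⊢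
    refine ⟨Finset.mem_univ _, fun h => hg.2 ?_⟩
    obtain ⟨c, hc⟩ := (hscal _).1 h
    rw [hscal]
    -- `g` is a power of `g ^ k`
    have hpos : 0 < Nat.card G := Nat.card_pos
    rcases Nat.lt_or_ge 1 (Nat.card G) with h1 | h1
    · obtain ⟨m, -, hm⟩ := Nat.exists_mul_mod_eq_one_of_coprime hk h1
      have hg' : g = (g ^ k) ^ m := by
        rw [← pow_mul, ← pow_mod_natCard, hm, pow_one]
      refine ⟨c ^ m, ?_⟩
      rw [hg', map_pow, hc, smul_pow, one_pow]
    · have h2 : Nat.card G = 1 := by omega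
      have : Subsingleton G := (Nat.card_eq_one_iff_unique.1 h2).1
      refine ⟨1, ?_⟩
      rw [Subsingleton.elim g 1, map_one, one_smul]
  have hburn := Cfsg.Agent.Lib.Degree.card_support_le_sum_norm_sq hχc S hSclosed
  -- sum over `G`
  have hsum : ∑ g, ‖χ g‖ ^ 2 = (Nat.card G : ℝ) :=
    Cfsg.Agent.Lib.Degree.irr_sum_norm_sq (⟨χ, hχ⟩ : Cfsg.IrrCharacter G)
  have hsplit : ∑ g, ‖χ g‖ ^ 2 = ∑ g ∈ Z, ‖χ g‖ ^ 2 + ∑ g ∈ S, ‖χ g‖ ^ 2 := by
    rw [hZ, hS, ← Finset.sum_filter_add_sum_filter_not Finset.univ (fun g : G => ‖χ g‖ = (d : ℝ))]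
  have hZsum : ∑ g ∈ Z, ‖χ g‖ ^ 2 = (Z.card : ℝ) * (d : ℝ) ^ 2 := by
    rw [Finset.sum_congr rfl (fun g hg => by rw [(Finset.mem_filter.1 hg).2])]
    simp
  -- the partition of `G`
  set Y := Finset.univ.filter (fun g : G => χ g = 0) with hY
  set X := S.filter (fun g => χ g ≠ 0) with hX
  have hdne : (d : ℝ) ≠ 0 := by exact_mod_cast hdpos.ne'
  have hpart : (Z.card : ℝ) + X.card + Y.card = (Nat.card G : ℝ) := by
    have h1 : Y ⊆ S := by
      intro g hg
      rw [hY, Finset.mem_filter] at hg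
      rw [hS, Finset.mem_filter]
      refine ⟨Finset.mem_univ _, ?_⟩
      rw [hg.2, norm_zero]
      exact hdne.symm
    have h2 : S.card = X.card + Y.card := by
      rw [hX, ← Finset.card_filter_add_card_filter_not (s := S) (fun g => χ g ≠ 0)]
      congr 1
      apply congrArg
      ext g
      simp only [Finset.mem_filter, not_not, hY, Finset.mem_univ, true_and]
      constructor
      · exact fun h => h.2
      · exact fun h => ⟨h1 (by simp [hY, h]), h⟩
    have h3 : Z.card + S.card = Nat.card G := by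
      rw [hZ, hS, Finset.card_filter_add_card_filter_not, Finset.card_univ, Nat.card_eq_fintype_card]
    have h4 : Z.card + (X.card + Y.card) = Nat.card G := by rw [← h2]; exact h3
    rw [← h4]; push_cast; ring
  have hmain : (X.card : ℝ) ≤ ∑ g ∈ S, ‖χ g‖ ^ 2 := hburn
  have hdd : (1 : ℝ) ≤ (d : ℝ) ^ 2 := by
    have : (1 : ℝ) ≤ (d : ℝ) := by exact_mod_cast hdpos
    nlinarith
  have hcast : (((d ^ 2 - 1) * Z.card : ℕ) : ℝ) = ((d : ℝ) ^ 2 - 1) * (Z.card : ℝ) := by
    have : 1 ≤ d ^ 2 := Nat.one_le_pow _ _ hdpos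
    push_cast [Nat.cast_sub this]
    ring
  constructor
  · have : ((d : ℝ) ^ 2 - 1) * (Z.card : ℝ) ≤ (Y.card : ℝ) := by
      rw [hsum] at hsplit
      rw [hZsum] at hsplit
      nlinarith
    rw [← hcast] at this
    exact_mod_cast this
  · intro hval
    have hX2 : (X.card : ℝ) = ∑ g ∈ S, ‖χ g‖ ^ 2 := by
      rw [hX, Finset.card_filter]
      push_cast
      refine (Finset.sum_congr rfl fun g hg => ?_)
      rw [hS, Finset.mem_filter] at hg
      rcases hval g with h | h | h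
      · have h0 : χ g = 0 := norm_eq_zero.1 h
        simp [h0]
      · have h0 : χ g ≠ 0 := by
          intro h2
          rw [h2, norm_zero] at h
          exact zero_ne_one h
        simp [h0, h]
      · exact absurd h hg.2
    have : ((d : ℝ) ^ 2 - 1) * (Z.card : ℝ) = (Y.card : ℝ) := by
      rw [hsum] at hsplit
      rw [hZsum] at hsplit
      nlinarith
    rw [← hcast] at this
    exact_mod_cast this

end Cfsg.Agent.S4574
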