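import Cfsg.Statements.S4582
import Mathlib

set_option autoImplicit false
open Cfsg

namespace Cfsg.Agent.S4582

open Subgroup


section

variable {G : Type*} [Group G]

open MonoidHom Subgroup.leftTransversals in
lemma transfer_mem (H N : Subgroup G) [H.FiniteIndex] [N.Normal] (hsup : N ⊔ H = ⊤)
    {A : Type*} [CommGroup A] (ϕ : H →* A) (x : H) :
    transfer ϕ (x : G) * (ϕ x ^ H.index)⁻¹ ∈ (N.subgroupOf H).map ϕ := by
  classical
  have hex : ∀ q : G ⧸ H, ∃ t ∈ N, (t : G ⧸ H) = q := by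
    intro q
    obtain ⟨g, rfl⟩ := QuotientGroup.mk_surjective q
    have hg : g ∈ N ⊔ H := by rw [hsup]; trivial
    obtain ⟨n, hn, h, hh, rfl⟩ := Subgroup.mem_sup_of_normal_left.1 hg
    refine ⟨n, hn, ?_⟩
    rw [QuotientGroup.eq]
    simpa using hh
  choose f hfN hf using hex
  let T : H.LeftTransversal := ⟨Set.range f, isComplement_range_left hf⟩
  rw [MonoidHom.transfer_def ϕ T (x : G)]
  letI := H.fintypeQuotientOfFiniteIndex
  have hidx : H.index = Fintype.card (G ⧸ H) := by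
    rw [Subgroup.index, Nat.card_eq_fintype_card]
  rw [hidx, ← Finset.card_univ, ← Finset.prod_const]
  change (∏ q : G ⧸ H, ϕ ⟨_, _⟩) * _ ∈ _
  rw [← Finset.prod_inv_distrib, ← Finset.prod_mul_distrib]
  apply Subgroup.prod_mem
  intro q _
  -- the term
  have h1 : ((T.2.leftQuotientEquiv q : _) : G) = f q :=
    Subgroup.IsComplement.leftQuotientEquiv_apply hf q
  have h2 : (((x : G) • T).2.leftQuotientEquiv q : G) = (x : G) * f ((x : G)⁻¹ • q) := by
    rw [smul_apply_eq_smul_apply_inv_smul]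
    rw [Subgroup.IsComplement.leftQuotientEquiv_apply hf]
    rfl
  set y : H := ⟨_, _⟩ with hy
  have hy' : (y : G) = (f q)⁻¹ * ((x : G) * f ((x : G)⁻¹ • q)) := by
    rw [hy]
    simp only
    rw [h1, h2]
  refine ⟨x⁻¹ * y, ?_, ?_⟩
  · rw [SetLike.mem_coe, Subgroup.mem_subgroupOf]
    have : ((x⁻¹ * y : H) : G) = ((x : G)⁻¹ * (f q)⁻¹ * (x : G)) * f ((x : G)⁻¹ • q) := by
      rw [Subgroup.coe_mul, hy', Subgroup.coe_inv]
      group
    rw [this]
    refine N.mul_mem ?_ (hfN _)
    have h3 := (inferInstance : N.Normal).conj_mem _ (N.inv_mem (hfN q)) (x : G)⁻¹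
    simpa using h3
  · rw [map_mul, map_inv, mul_comm]

end

/-- the core: the case `G = N P` -/
theorem core {G : Type*} [Group G] [Finite G] (N : Subgroup G) [N.Normal] (P : Sylow 2 G)
    (hsup : N ⊔ (P : Subgroup G) = ⊤)
    (hP : ∀ x ∈ (P : Subgroup G), x ^ 2 ∈ ((P : Subgroup G) ⊓ N) ⊔ ⁅(P : Subgroup G), (P : Subgroup G)⁆)
    (hQ : ∀ x ∈ (P : Subgroup G) ⊓ N, x ^ 2 ∈ ⁅(P : Subgroup G) ⊓ N, (P : Subgroup G) ⊓ N⁆)
    (hodd : Odd (Nat.card (Abelianization N))) :
    ∀ x ∈ (P : Subgroup G), x ^ 2 ∈ ⁅(P : Subgroup G), (P : Subgroup G)⁆ := by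
  haveI : Fact (Nat.Prime 2) := ⟨Nat.prime_two⟩
  let A := Abelianization (P : Subgroup G)
  let φ : (P : Subgroup G) →* A := Abelianization.of
  haveI : (P : Subgroup G).FiniteIndex := inferInstance
  let V : G →* A := MonoidHom.transfer φ
  -- `A` is a `2`-group
  have hA : IsPGroup 2 A := P.2.of_surjective φ (QuotientGroup.mk'_surjective _)
  -- commutators map to 1
  have hφ : ∀ y : (P : Subgroup G), (y : G) ∈ ⁅(P : Subgroup G), (P : Subgroup G)⁆ → φ y = 1 := by
    intro y hy
    have h1 : y ∈ commutator (P : Subgroup G) := by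
      rw [← Subgroup.map_subtype_commutator] at hy
      obtain ⟨z, hz, hzy⟩ := hy
      have : z = y := Subtype.ext hzy
      exact this ▸ hz
    have h2 : y ∈ φ.ker := by
      change y ∈ (QuotientGroup.mk' _).ker
      rw [QuotientGroup.ker_mk']
      exact h1
    exact h2
  have hcomm' : ∀ y : (P : Subgroup G), φ y = 1 → (y : G) ∈ ⁅(P : Subgroup G), (P : Subgroup G)⁆ := by
    intro y hy
    have h2 : y ∈ φ.ker := hy
    have h3 : φ.ker = commutator (P : Subgroup G) := QuotientGroup.ker_mk' _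
    rw [h3] at h2
    rw [← Subgroup.map_subtype_commutator]
    exact ⟨y, h2, rfl⟩
  -- (1) `V (N) = 1`
  have hVN : ∀ n ∈ N, V n = 1 := by
    intro n hn
    let f : N →* A := V.comp N.subtype
    let g : Abelianization N →* A := Abelianization.lift f
    have hg : g (Abelianization.of ⟨n, hn⟩) = V n := by
      simp [g, f]
    rw [← hg]
    obtain ⟨k, hk⟩ := hA.exists_card_eq
    have h1 : orderOf (g (Abelianization.of ⟨n, hn⟩)) ∣ Nat.card (Abelianization N) :=
      (orderOf_map_dvd g _).trans (orderOf_dvd_natCard _)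
    have h2 : orderOf (g (Abelianization.of ⟨n, hn⟩)) ∣ 2 ^ k := by
      rw [← hk]
      exact orderOf_dvd_natCard _
    have h3 : Nat.Coprime (Nat.card (Abelianization N)) (2 ^ k) :=
      Nat.Coprime.pow_right k (Nat.coprime_two_right.2 hodd)
    have h4 := Nat.eq_one_of_dvd_coprimes h3 h1 h2
    exact orderOf_eq_one_iff.1 h4
  -- `V` kills commutators
  have hVc : ⁅(P : Subgroup G), (P : Subgroup G)⁆ ≤ V.ker := by
    rw [Subgroup.commutator_le]
    intro a _ b _
    rw [MonoidHom.mem_ker, map_commutatorElement, commutatorElement_eq_one_iff_commute]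
    exact Commute.all _ _
  have hVsq : ∀ x ∈ (P : Subgroup G), V x ^ 2 = 1 := by
    intro x hx
    rw [← map_pow]
    have h1 : ((P : Subgroup G) ⊓ N) ⊔ ⁅(P : Subgroup G), (P : Subgroup G)⁆ ≤ V.ker := by
      refine sup_le ?_ hVc
      intro q hq
      exact hVN q hq.2
    exact h1 (hP x hx)
  -- `B`
  have hB : ∀ b ∈ (N.subgroupOf (P : Subgroup G)).map φ, b ^ 2 = 1 := by
    rintro _ ⟨q, hq, rfl⟩
    rw [← map_pow]
    apply hφ
    have hq' : (q : G) ∈ N := hq
    have h1 := hQ q ⟨q.2, hq'⟩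
    have h2 : ⁅(P : Subgroup G) ⊓ N, (P : Subgroup G) ⊓ N⁆ ≤ ⁅(P : Subgroup G), (P : Subgroup G)⁆ :=
      Subgroup.commutator_mono inf_le_left inf_le_left
    simpa using h2 h1
  intro x hx
  have hmain := transfer_mem (P : Subgroup G) N hsup φ ⟨x, hx⟩
  obtain ⟨b, hb⟩ : ∃ b ∈ (N.subgroupOf (P : Subgroup G)).map φ,
      V x * (φ ⟨x, hx⟩ ^ (P : Subgroup G).index)⁻¹ = b := ⟨_, hmain, rfl⟩
  obtain ⟨hb1, hb2⟩ := hb
  have hb3 := hB b hb1
  have h1 := hVsq x hx
  have hV : V x = b * φ ⟨x, hx⟩ ^ (P : Subgroup G).index := by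
    rw [← hb2]; simp
  rw [hV, mul_pow, hb3, one_mul, ← pow_mul] at h1
  have hoddidx : ¬ 2 ∣ (P : Subgroup G).index := P.not_dvd_index
  have hord : orderOf (φ ⟨x, hx⟩) ∣ (P : Subgroup G).index * 2 := orderOf_dvd_of_pow_eq_one h1
  obtain ⟨k, hk⟩ := hA.exists_card_eq
  have hd : orderOf (φ ⟨x, hx⟩) ∣ 2 ^ k := by
    rw [← hk]; exact orderOf_dvd_natCard _
  obtain ⟨j, -, hj⟩ := (Nat.dvd_prime_pow Nat.prime_two).1 hd
  have hj1 : j ≤ 1 := by
    by_contra hcon
    have h2 : 2 ^ 2 ∣ (P : Subgroup G).index * 2 := by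
      refine dvd_trans (pow_dvd_pow 2 (by omega : 2 ≤ j)) ?_
      rw [← hj]; exact hord
    have h3 : 2 ∣ (P : Subgroup G).index := by
      rw [pow_two] at h2
      exact Nat.dvd_of_mul_dvd_mul_right (by norm_num) h2
    exact hoddidx h3
  have hsq : φ ⟨x, hx⟩ ^ 2 = 1 := by
    apply orderOf_dvd_iff_pow_eq_one.1
    rw [hj]
    exact pow_dvd_pow 2 hj1
  rw [← map_pow] at hsq
  have := hcomm' _ hsq
  simpa using this

/-- Let N be a normal subgroup of the finite group G, P a Sylow 2-subgroup of G and Q = P ∩ N. Suppose that P/QP' and Q/Q' are elementary abelian (every square of an element of P lies in the subgroup generated by Q and the derived subgroup of P, and every square of an element of Q lies in the derived subgroup of Q), and that the commutator factor group N/N' has odd order. Then P/P' is elementary abelian. -/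
theorem result {G : Type*} [Group G] [Finite G] (N : Subgroup G) [N.Normal] (P : Sylow 2 G)
    (hP : ∀ x ∈ (P : Subgroup G), x ^ 2 ∈ ((P : Subgroup G) ⊓ N) ⊔ ⁅(P : Subgroup G), (P : Subgroup G)⁆)
    (hQ : ∀ x ∈ (P : Subgroup G) ⊓ N, x ^ 2 ∈ ⁅(P : Subgroup G) ⊓ N, (P : Subgroup G) ⊓ N⁆)
    (hodd : Odd (Nat.card (Abelianization N))) :
    ∀ x ∈ (P : Subgroup G), x ^ 2 ∈ ⁅(P : Subgroup G), (P : Subgroup G)⁆ := by
  -- reduce to `K = N P`
  let K : Subgroup G := N ⊔ (P : Subgroup G)
  have hPK : (P : Subgroup G) ≤ K := le_sup_right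
  have hNK : N ≤ K := le_sup_left
  let N₁ : Subgroup K := N.subgroupOf K
  let P₁ : Sylow 2 K := P.subtype hPK
  have hP₁ : (P₁ : Subgroup K) = (P : Subgroup G).subgroupOf K := P.coe_subtype hPK
  have hmapN : N₁.map K.subtype = N := by
    simp [N₁, Subgroup.subgroupOf_map_subtype, hNK]
  have hmapP : (P₁ : Subgroup K).map K.subtype = (P : Subgroup G) := by
    rw [hP₁]
    simp [Subgroup.subgroupOf_map_subtype, hPK]
  have hmapinf : ((P₁ : Subgroup K) ⊓ N₁).map K.subtype = (P : Subgroup G) ⊓ N := by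
    rw [Subgroup.map_inf _ _ K.subtype K.subtype_injective, hmapP, hmapN]
  have hmem : ∀ (X : Subgroup K) (y : K), y ∈ X ↔ (y : G) ∈ X.map K.subtype := by
    intro X y
    exact (Subgroup.mem_map_iff_mem K.subtype_injective).symm
  have hcard : Nat.card (Abelianization N₁) = Nat.card (Abelianization N) := by
    apply Nat.card_congr
    exact (MulEquiv.abelianizationCongr (Subgroup.subgroupOfEquivOfLe hNK)).toEquiv
  have hsup : N₁ ⊔ (P₁ : Subgroup K) = ⊤ := by
    apply Subgroup.map_injective K.subtype_injective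
    rw [Subgroup.map_sup, hmapN, hmapP, ← MonoidHom.range_eq_map, Subgroup.range_subtype]
  haveI : N₁.Normal := inferInstance
  have h1 := core N₁ P₁ hsup (by
      intro y hy
      rw [hmem, Subgroup.map_sup, Subgroup.map_commutator, hmapinf, hmapP]
      have h2 : (y : G) ∈ (P : Subgroup G) := by
        have := (hmem _ y).1 hy
        rwa [hmapP] at this
      simpa using hP y h2) (by
      intro y hy
      rw [hmem, Subgroup.map_commutator, hmapinf]
      have h2 : (y : G) ∈ (P : Subgroup G) ⊓ N := by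
        have := (hmem _ y).1 hy
        rwa [hmapinf] at this
      simpa using hQ y h2) (by rw [hcard]; exact hodd)
  intro x hx
  have h2 := h1 ⟨x, hPK hx⟩ (by
    rw [hmem, hmapP]; exact hx)
  rw [hmem, Subgroup.map_commutator, hmapP] at h2
  simpa using h2

end Cfsg.Agent.S4582
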