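import Cfsg.Statements.S4584
import Cfsg.Agent.Lib.PSmall.Basic
import Mathlib

set_option autoImplicit false
open Cfsg

namespace Cfsg.Agent.S4584

open Subgroup Cfsg.Agent.Lib.PSmall

/-- Let p be a prime and P a group of order p^4. Then the derived subgroup P' has order p if and only if the centre Z(P) has index p^2 in P. -/
theorem result {P : Type*} [Group P] [Finite P] (p : ℕ) [Fact p.Prime] (hP : Nat.card P = p ^ 4) :
    Nat.card (commutator P) = p ↔ (Subgroup.center P).index = p ^ 2 := by
  have hp : p.Prime := Fact.out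
  refine ⟨fun h => ?_, fun h => card_commutator_of_index_center hp h⟩
  have hPp : IsPGroup p P := IsPGroup.of_card hP
  haveI : Nontrivial P := by
    rw [← Finite.one_lt_card_iff_nontrivial, hP]
    exact one_lt_pow₀ hp.one_lt (by norm_num)
  have hnc : center P ≠ ⊤ := by
    intro h1
    have h2 : commutator P = ⊥ := by
      rw [eq_bot_iff, _root_.commutator_def, Subgroup.commutator_le]
      intro a _ b _
      have ha : a ∈ center P := by rw [h1]; trivial
      rw [Subgroup.mem_bot, commutatorElement_eq_one_iff_commute]
      exact ((Subgroup.mem_center_iff.1 ha) b).symm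
    rw [h2] at h
    simp at h
    exact hp.one_lt.ne h
  obtain ⟨x, hx⟩ : ∃ x : P, x ∉ center P := by
    by_contra hcon
    push Not at hcon
    exact hnc (eq_top_iff.2 fun x _ => hcon x)
  have hdvd : ∀ K : Subgroup P, K.index ∣ p ^ 4 := by
    intro K
    rw [← hP]
    exact Subgroup.index_dvd_card K
  have hcen : ∀ y : P, y ∉ center P → (centralizer ({y} : Set P)).index = p := by
    intro y hy
    have hle := index_centralizer_le_card_commutator y
    rw [h] at hle
    obtain ⟨i, hi, hi'⟩ := (Nat.dvd_prime_pow hp).1 (hdvd (centralizer ({y} : Set P)))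
    rw [hi'] at hle ⊢
    have hi1 : i ≤ 1 := by
      by_contra hcon
      have : p ^ 2 ≤ p ^ i := Nat.pow_le_pow_right hp.pos (by omega)
      have h3 : p * 1 < p ^ 2 := by
        rw [pow_two]
        exact Nat.mul_lt_mul_of_pos_left hp.one_lt hp.pos
      omega
    interval_cases i
    · exfalso
      rw [pow_zero] at hi'
      have h3 := Subgroup.index_eq_one.1 hi'
      apply hy
      rw [Subgroup.mem_center_iff]
      intro g
      have : g ∈ centralizer ({y} : Set P) := by rw [h3]; trivial
      rw [Subgroup.mem_centralizer_singleton_iff] at this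
      exact this
    · simp
  set C := centralizer ({x} : Set P) with hCdef
  have hCidx : C.index = p := hcen x hx
  have hCcard : Nat.card C = p ^ 3 := by
    have h1 := Subgroup.card_mul_index C
    rw [hCidx, hP] at h1
    have h2 : Nat.card C * p = p ^ 3 * p := by rw [h1]; ring
    exact Nat.eq_of_mul_eq_mul_right hp.pos h2
  -- `C` is abelian.
  have hCab : center C = ⊤ := by
    apply center_eq_top_of_index_dvd_prime hp
    let B : Subgroup P := (center C).map C.subtype
    have hZB : center P ≤ B := by
      intro z hz
      have hzC : z ∈ C := by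
        rw [hCdef, Subgroup.mem_centralizer_singleton_iff]
        exact ((Subgroup.mem_center_iff.1 hz) x).symm
      refine ⟨⟨z, hzC⟩, ?_, rfl⟩
      rw [SetLike.mem_coe, Subgroup.mem_center_iff]
      intro g
      apply Subtype.ext
      exact (Subgroup.mem_center_iff.1 hz) g
    have hxC : x ∈ C := by rw [hCdef, Subgroup.mem_centralizer_singleton_iff]
    have hxB : x ∈ B := by
      refine ⟨⟨x, hxC⟩, ?_, rfl⟩
      rw [SetLike.mem_coe, Subgroup.mem_center_iff]
      intro g
      apply Subtype.ext
      have hg : (g : P) ∈ centralizer ({x} : Set P) := g.2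
      rw [Subgroup.mem_centralizer_singleton_iff] at hg
      exact hg
    have hlt : center P < B := lt_of_le_of_ne hZB (fun h1 => hx (h1 ▸ hxB))
    have hcB : Nat.card B = Nat.card (center C) := Nat.card_congr
      ((Subgroup.equivMapOfInjective (center C) C.subtype C.subtype_injective).toEquiv.symm)
    obtain ⟨k, hk⟩ := (hPp.to_subgroup (center P)).exists_card_eq
    obtain ⟨l, hl⟩ := (hPp.to_subgroup B).exists_card_eq
    have hcl : Nat.card (center P) < Nat.card B :=
      lt_of_le_of_ne (Subgroup.card_le_of_le hZB) (fun h1 => hlt.ne (Subgroup.eq_of_le_of_card_ge hZB h1.ge))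
    rw [hk, hl] at hcl
    have hkl : k < l := (Nat.pow_lt_pow_iff_right hp.one_lt).1 hcl
    have hk0 : k ≠ 0 := by
      rintro rfl
      have h1 : center P = ⊥ := by
        apply Subgroup.card_eq_one.1
        simpa using hk
      have h2 := hPp.center_nontrivial
      rw [h1] at h2
      exact not_subsingleton _ (inferInstance : Subsingleton (⊥ : Subgroup P)) |>.elim
    have h2 : p ^ 2 ∣ Nat.card (center C) := by
      rw [← hcB, hl]
      exact pow_dvd_pow p (by omega)
    obtain ⟨c, hc⟩ := h2
    have h3 := Subgroup.card_mul_index (center C)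
    rw [hc, hCcard] at h3
    have h4 : p ^ 2 * (c * (center C).index) = p ^ 2 * p := by rw [← mul_assoc, h3]; ring
    have h5 := Nat.eq_of_mul_eq_mul_left (pow_pos hp.pos 2) h4
    exact Dvd.intro_left _ h5
  -- choose `z` outside `C`.
  have hCne : C ≠ ⊤ := by
    intro h1
    rw [h1, Subgroup.index_top] at hCidx
    exact hp.one_lt.ne hCidx
  obtain ⟨z, hz⟩ : ∃ z : P, z ∉ C := by
    by_contra hcon
    push Not at hcon
    exact hCne (eq_top_iff.2 fun x _ => hcon x)
  have hD : C ⊓ centralizer ({z} : Set P) ≤ center P := by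
    rintro d ⟨hd1, hd2⟩
    have hCE : C ≤ centralizer ({d} : Set P) := by
      intro c hc
      rw [Subgroup.mem_centralizer_singleton_iff]
      have hcC : (⟨c, hc⟩ : C) ∈ center C := by rw [hCab]; trivial
      have := (Subgroup.mem_center_iff.1 hcC) ⟨d, hd1⟩
      exact (congrArg Subtype.val this).symm
    have hzE : z ∈ centralizer ({d} : Set P) := by
      rw [Subgroup.mem_centralizer_singleton_iff]
      have hd2' : d ∈ centralizer ({z} : Set P) := hd2
      rw [Subgroup.mem_centralizer_singleton_iff] at hd2'
      exact hd2'.symm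
    rcases eq_top_or_eq_of_le_of_index_prime hp hCE hCidx with h1 | h1
    · rw [Subgroup.mem_center_iff]
      intro g
      have : g ∈ centralizer ({d} : Set P) := by rw [h1]; trivial
      rw [Subgroup.mem_centralizer_singleton_iff] at this
      exact this
    · exact absurd (h1 ▸ hzE) hz
  have hDidx : (C ⊓ centralizer ({z} : Set P)).index ≤ p ^ 2 := by
    calc (C ⊓ centralizer ({z} : Set P)).index ≤ C.index * (centralizer ({z} : Set P)).index :=
          Subgroup.index_inf_le
      _ ≤ p * p := by
          rw [hCidx]
          exact Nat.mul_le_mul_left _ (h ▸ index_centralizer_le_card_commutator z)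
      _ = p ^ 2 := by ring
  have hZle : (center P).index ≤ p ^ 2 := by
    refine le_trans (Nat.le_of_dvd ?_ (Subgroup.index_dvd_of_le hD)) hDidx
    exact Nat.pos_of_ne_zero (Subgroup.index_ne_zero_of_finite)
  obtain ⟨i, hi, hi'⟩ := (Nat.dvd_prime_pow hp).1 (hdvd (center P))
  rw [hi'] at hZle ⊢
  have hi2 : i ≤ 2 := by
    by_contra hcon
    have h3 : p ^ 3 ≤ p ^ i := Nat.pow_le_pow_right hp.pos (by omega)
    have h4 : p ^ 2 * 1 < p ^ 2 * p := Nat.mul_lt_mul_of_pos_left hp.one_lt (pow_pos hp.pos 2)
    have h5 : p ^ 3 = p ^ 2 * p := by ring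
    omega
  interval_cases i
  · exfalso
    rw [pow_zero] at hi'
    exact hnc (Subgroup.index_eq_one.1 hi')
  · exfalso
    apply hnc
    apply center_eq_top_of_index_dvd_prime hp
    rw [hi']; simp
  · rfl

end Cfsg.Agent.S4584
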