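import Cfsg.Statements.S4585
import Cfsg.Agent.Lib.PSmall.Basic
import Mathlib

set_option autoImplicit false
open Cfsg

namespace Cfsg.Agent.S4585

open Subgroup Cfsg.Agent.Lib.PSmall

abbrev γ (P : Type*) [Group P] (n : ℕ) : Subgroup P := Subgroup.lowerCentralSeries (⊤ : Subgroup P) n

lemma gamma_lt {P : Type*} [Group P] [Group.IsNilpotent P] (n : ℕ) (h : γ P n ≠ ⊥) : γ P (n + 1) < γ P n := by
  have hle : γ P (n + 1) ≤ γ P n := Subgroup.lowerCentralSeries_antitone _ (Nat.le_succ n)
  refine lt_of_le_of_ne hle fun heq => h ?_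
  have hall : ∀ k, γ P (n + k) = γ P n := by
    intro k
    induction k with
    | zero => rfl
    | succ k ih =>
      have : γ P (n + (k + 1)) = ⁅γ P (n + k), ⊤⁆ := rfl
      rw [this, ih]
      exact heq
  have h1 := (Subgroup.lowerCentralSeries_eq_bot_iff_nilpotencyClass_le (G := P) (n := n + Group.nilpotencyClass P)).2 (by omega)
  rw [← hall (Group.nilpotencyClass P)]
  exact h1

lemma index_commutator_ne_prime {P : Type*} [Group P] [Finite P] [Group.IsNilpotent P] {p : ℕ} (hp : p.Prime)
    (h : commutator P ≠ ⊥) : (commutator P).index ≠ p := by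
  intro hi
  have hlt : γ P 2 < γ P 1 := gamma_lt 1 (show γ P 1 ≠ ⊥ from h)
  haveI : (γ P 2).Normal := Subgroup.normal_of_characteristic _
  let Q := P ⧸ γ P 2
  let π : P →* Q := QuotientGroup.mk' (γ P 2)
  have hπ : Function.Surjective π := QuotientGroup.mk'_surjective _
  let K : Subgroup P := (center Q).comap π
  have hKidx : K.index = (center Q).index := Subgroup.index_comap_of_surjective _ hπ
  have hK : commutator P ≤ K := by
    intro x hx
    rw [Subgroup.mem_comap, Subgroup.mem_center_iff]
    intro q
    obtain ⟨g, rfl⟩ := hπ q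
    rw [← map_mul, ← map_mul]
    apply (QuotientGroup.eq_iff_div_mem).2
    have h2 : g * x / (x * g) = (x * g * x⁻¹ * g⁻¹)⁻¹ := by
      rw [div_eq_mul_inv]; group
    rw [h2]
    apply inv_mem
    have h3 : (γ P 2) = ⁅γ P 1, ⊤⁆ := rfl
    rw [h3]
    have hx' : x ∈ γ P 1 := hx
    have := Subgroup.commutator_mem_commutator hx' (Subgroup.mem_top g)
    rwa [commutatorElement_def] at this
  have hQ : center Q = ⊤ := by
    apply center_eq_top_of_index_dvd_prime hp
    rw [← hKidx, ← hi]
    exact Subgroup.index_dvd_of_le hK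
  have hQcomm : IsMulCommutative Q := by
    apply IsMulCommutative.of_comm
    intro x y
    have hx : x ∈ center Q := by rw [hQ]; trivial
    exact ((Subgroup.mem_center_iff.1 hx) y).symm
  have h1 : commutator P ≤ γ P 2 :=
    Subgroup.Normal.quotient_commutative_iff_commutator_le.1 hQcomm
  exact absurd (lt_of_lt_of_le hlt (show γ P 1 ≤ γ P 2 from h1)) (lt_irrefl _)

/-- Let p be a prime and P a group of order p^4. Then P' has index p^2 in P if and only if P has maximal nilpotency class, that is, nilpotency class exactly 3. -/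
theorem result {P : Type*} [Group P] [Finite P] (p : ℕ) [Fact p.Prime] (hP : Nat.card P = p ^ 4) :
    (commutator P).index = p ^ 2 ↔ Group.nilpotencyClass P = 3 := by
  have hp : p.Prime := Fact.out
  have hPp : IsPGroup p P := IsPGroup.of_card hP
  haveI : Group.IsNilpotent P := hPp.isNilpotent
  have hcl : Group.nilpotencyClass P = 3 ↔ γ P 3 = ⊥ ∧ γ P 2 ≠ ⊥ := by
    rw [Subgroup.lowerCentralSeries_eq_bot_iff_nilpotencyClass_le, Ne, Subgroup.lowerCentralSeries_eq_bot_iff_nilpotencyClass_le]
    omega
  rw [hcl]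
  have hcardsub : ∀ K : Subgroup P, ∃ k, Nat.card K = p ^ k := fun K => (hPp.to_subgroup K).exists_card_eq
  have hmul := Subgroup.card_mul_index (commutator P)
  rw [hP] at hmul
  have hγ1 : γ P 1 = commutator P := rfl
  have hmono : ∀ {A B : Subgroup P}, A < B → Nat.card A < Nat.card B := fun {A B} h =>
    lt_of_le_of_ne (Subgroup.card_le_of_le h.le) (fun h1 => h.ne (Subgroup.eq_of_le_of_card_ge h.le h1.ge))
  constructor
  · intro hi
    rw [hi] at hmul
    have hc : Nat.card (commutator P) = p ^ 2 := by
      have h2 : Nat.card (commutator P) * p ^ 2 = p ^ 2 * p ^ 2 := by rw [hmul]; ring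
      exact Nat.eq_of_mul_eq_mul_right (pow_pos hp.pos 2) h2
    have hc1 : commutator P ≠ ⊥ := by
      intro h1
      rw [h1] at hc
      simp at hc
      have := one_lt_pow₀ hp.one_lt (two_ne_zero)
      omega
    have h21 : γ P 2 < γ P 1 := gamma_lt 1 (show γ P 1 ≠ ⊥ from hc1)
    constructor
    · by_contra h3
      have h32 : γ P 3 < γ P 2 := gamma_lt 2 (fun h4 => h3 (by
        have h5 : γ P 3 = ⁅γ P 2, ⊤⁆ := rfl
        rw [h5, h4]; exact Subgroup.commutator_bot_left _))
      obtain ⟨a, ha⟩ := hcardsub (γ P 3)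
      obtain ⟨b, hb⟩ := hcardsub (γ P 2)
      have h4 := hmono h32
      have h5 := hmono h21
      rw [hγ1, hc, hb] at h5
      rw [ha, hb] at h4
      have h6 := (Nat.pow_lt_pow_iff_right hp.one_lt).1 h4
      have h7 := (Nat.pow_lt_pow_iff_right hp.one_lt).1 h5
      have h8 : a = 0 := by omega
      subst h8
      rw [pow_zero] at ha
      exact h3 (Subgroup.card_eq_one.1 ha)
    · intro h2
      -- `P' ≤ Z(P)`.
      have hle : commutator P ≤ center P := by
        intro x hx
        rw [Subgroup.mem_center_iff]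
        intro g
        have h3 : (γ P 2) = ⁅γ P 1, ⊤⁆ := rfl
        have hx' : x ∈ γ P 1 := hx
        have h4 := Subgroup.commutator_mem_commutator hx' (Subgroup.mem_top g)
        rw [← h3, h2, Subgroup.mem_bot, commutatorElement_eq_one_iff_commute] at h4
        exact h4.symm
      have hZ : (center P).index ≤ p ^ 2 := by
        rw [← hi]
        exact Nat.le_of_dvd (Nat.pos_of_ne_zero (Subgroup.index_ne_zero_of_finite))
          (Subgroup.index_dvd_of_le hle)
      have hZd : (center P).index ∣ p ^ 4 := by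
        rw [← hP]; exact Subgroup.index_dvd_card _
      obtain ⟨i, hi1, hi2⟩ := (Nat.dvd_prime_pow hp).1 hZd
      rw [hi2] at hZ
      have hi3 : i ≤ 2 := (Nat.pow_le_pow_iff_right hp.one_lt).1 hZ
      have hcc : center P ≠ ⊤ := by
        intro h3
        apply hc1
        rw [eq_bot_iff, _root_.commutator_def, Subgroup.commutator_le]
        intro a _ b _
        have ha : a ∈ center P := by rw [h3]; trivial
        rw [Subgroup.mem_bot, commutatorElement_eq_one_iff_commute]
        exact ((Subgroup.mem_center_iff.1 ha) b).symm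
      interval_cases i
      · rw [pow_zero] at hi2
        exact hcc (Subgroup.index_eq_one.1 hi2)
      · apply hcc
        apply center_eq_top_of_index_dvd_prime hp
        rw [hi2]; simp
      · have h5 := card_commutator_of_index_center hp hi2
        rw [hc] at h5
        have h6 := one_lt_pow₀ hp.one_lt (n := 2) two_ne_zero
        have h7 : p * 1 < p * p := Nat.mul_lt_mul_of_pos_left hp.one_lt hp.pos
        rw [pow_two] at h5
        omega
  · rintro ⟨h3, h2⟩
    have hc1 : γ P 1 ≠ ⊥ := by
      intro h1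
      apply h2
      have h5 : γ P 2 = ⁅γ P 1, ⊤⁆ := rfl
      rw [h5, h1]; exact Subgroup.commutator_bot_left _
    have h21 : γ P 2 < γ P 1 := gamma_lt 1 hc1
    obtain ⟨a, ha⟩ := hcardsub (γ P 1)
    obtain ⟨b, hb⟩ := hcardsub (γ P 2)
    have h5 := hmono h21
    rw [ha, hb] at h5
    have h6 := (Nat.pow_lt_pow_iff_right hp.one_lt).1 h5
    have hb0 : b ≠ 0 := by
      rintro rfl
      exact h2 (Subgroup.card_eq_one.1 (by simpa using hb))
    have hidx : (commutator P).index ∣ p ^ 4 := by
      rw [← hP]; exact Subgroup.index_dvd_card _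
    obtain ⟨i, hi1, hi2⟩ := (Nat.dvd_prime_pow hp).1 hidx
    have hha : Nat.card (commutator P) = p ^ a := ha
    rw [hi2, hha, ← pow_add] at hmul
    have hsum : a + i = 4 := ((Nat.pow_right_injective hp.two_le) hmul).symm ▸ rfl
    have hi0 : i ≠ 0 := by
      rintro rfl
      have h7 : commutator P = ⊤ := Subgroup.index_eq_one.1 (by simpa using hi2)
      have h8 : γ P 1 < γ P 0 := gamma_lt 0 (by
        intro h9
        apply hc1
        exact le_bot_iff.1 ((Subgroup.lowerCentralSeries_antitone _ (Nat.zero_le 1)).trans h9.le))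
      have h9 : γ P 0 = ⊤ := rfl
      rw [h9, hγ1, h7] at h8
      exact lt_irrefl _ h8
    have hi1' : i ≠ 1 := by
      rintro rfl
      exact index_commutator_ne_prime hp hc1 (by simpa using hi2)
    have : i = 2 := by omega
    rw [hi2, this]

end Cfsg.Agent.S4585
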