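import Cfsg.Statements.S4586
import Cfsg.Agent.Lib.PSmall.Basic
import Mathlib

set_option autoImplicit false
open Cfsg

namespace Cfsg.Agent.S4586

open Subgroup Cfsg.Agent.Lib.PSmall

lemma formula {P : Type*} [Group P] [Finite P] (p : ℕ) (hp : p.Prime) (N : Subgroup P) [N.Normal]
    (hN : N.index = p) (x : P) (hx : x ∉ N) :
    (commutator P).index * Nat.card (commutator N) =
      p * Nat.card {n : N // x * n * x⁻¹ * (n : P)⁻¹ ∈ (commutator N).map N.subtype} := by
  classical
  let A := Abelianization N
  let σ : A →* A := Abelianization.map (MulAut.conjNormal x).toMonoidHom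
  let φ : A →* A := σ / MonoidHom.id A
  let of' : N →* A := Abelianization.of
  have hof : Function.Surjective of' := QuotientGroup.mk'_surjective _
  have hofker : of'.ker = commutator N := QuotientGroup.ker_mk' _
  let y : N → N := fun n => (MulAut.conjNormal x n) * n⁻¹
  have hyval : ∀ n : N, ((y n : N) : P) = x * n * x⁻¹ * (n : P)⁻¹ := by
    intro n
    simp [y, MulAut.conjNormal_apply]
  have hφof : ∀ n : N, φ (of' n) = of' (y n) := by
    intro n
    change σ (of' n) / of' n = of' (y n)
    have : σ (of' n) = of' (MulAut.conjNormal x n) := rfl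
    rw [this, div_eq_mul_inv, ← map_inv, ← map_mul]
  -- the subgroup of elements killed by `φ`
  let K : Subgroup N := φ.ker.comap of'
  have hKmem : ∀ n : N, n ∈ K ↔ x * n * x⁻¹ * (n : P)⁻¹ ∈ (commutator N).map N.subtype := by
    intro n
    rw [Subgroup.mem_comap, MonoidHom.mem_ker, hφof, ← MonoidHom.mem_ker, hofker, ← hyval]
    constructor
    · intro h; exact ⟨_, h, rfl⟩
    · rintro ⟨m, hm, hmn⟩
      have : m = y n := Subtype.ext hmn
      exact this ▸ hm
  have hcardK : Nat.card {n : N // x * n * x⁻¹ * (n : P)⁻¹ ∈ (commutator N).map N.subtype} = Nat.card K := by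
    apply Nat.card_congr
    exact Equiv.subtypeEquivRight (fun n => (hKmem n).symm)
  -- sizes
  have hNcard : Nat.card N = Nat.card A * Nat.card (commutator N) := by
    have h1 := Subgroup.card_mul_index (commutator N)
    have h2 : (commutator N).index = Nat.card A := rfl
    rw [← h1, h2, mul_comm]
  have hKidx : K.index = φ.ker.index := Subgroup.index_comap_of_surjective _ hof
  have hcardK2 : Nat.card K = Nat.card φ.ker * Nat.card (commutator N) := by
    have h1 := Subgroup.card_mul_index K
    have h2 := Subgroup.card_mul_index φ.ker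
    rw [hKidx] at h1
    rw [hNcard, ← h2] at h1
    have hpos : 0 < φ.ker.index := Nat.pos_of_ne_zero Subgroup.index_ne_zero_of_finite
    have h3 : Nat.card K * φ.ker.index = (Nat.card φ.ker * Nat.card (commutator N)) * φ.ker.index := by
      rw [h1]; ring
    exact Nat.eq_of_mul_eq_mul_right hpos h3
  let R : Subgroup N := φ.range.comap of'
  have hRidx : R.index = Nat.card φ.ker := by
    have h1 : R.index = φ.range.index := Subgroup.index_comap_of_surjective _ hof
    rw [h1]
    have h2 := Subgroup.card_mul_index φ.range
    have h3 := Subgroup.card_mul_index φ.ker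
    rw [Subgroup.index_ker] at h3
    have hpos : 0 < Nat.card φ.range := Nat.card_pos
    have h4 : Nat.card φ.range * φ.range.index = Nat.card φ.range * Nat.card φ.ker := by
      rw [h2, ← h3, mul_comm]
    exact Nat.eq_of_mul_eq_mul_left hpos h4
  have hN'R : commutator N ≤ R := by
    intro m hm
    rw [Subgroup.mem_comap]
    have : of' m = 1 := by
      rw [← MonoidHom.mem_ker, hofker]; exact hm
    rw [this]
    exact one_mem _
  have hyR : ∀ n : N, y n ∈ R := by
    intro n
    rw [Subgroup.mem_comap, ← hφof]
    exact ⟨_, rfl⟩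
  let R' : Subgroup P := R.map N.subtype
  have hRidx' : R'.index = Nat.card φ.ker * p := by
    rw [Subgroup.index_map_subtype, hRidx, hN]
  have hmain : commutator P = R' := by
    apply le_antisymm
    · -- normality of `R'`
      have hRn : R.Normal := Subgroup.Normal.of_commutator_le _ hN'R
      have hcomm_mem : ∀ n : N, x * n * x⁻¹ * (n : P)⁻¹ ∈ R' := by
        intro n
        exact ⟨y n, hyR n, hyval n⟩
      have hnorm : R'.Normal := by
        rw [← Subgroup.normalizer_eq_top_iff]
        have hle : N ≤ normalizer (R' : Set P) := by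
          intro n hn
          apply mem_normalizer_of_conj_mem
          rintro _ ⟨r, hr, rfl⟩
          refine ⟨⟨n, hn⟩ * r * (⟨n, hn⟩ : N)⁻¹, hRn.conj_mem r hr _, ?_⟩
          simp
        rcases eq_top_or_eq_of_le_of_index_prime hp hle hN with h1 | h1
        · exact h1
        · exfalso
          apply hx
          rw [← h1]
          apply mem_normalizer_of_conj_mem
          rintro _ ⟨r, hr, rfl⟩
          have h2 := hcomm_mem r
          have h3 : x * (r : P) * x⁻¹ = (x * r * x⁻¹ * (r : P)⁻¹) * r := by group
          simp only [Subgroup.subtype_apply]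
          rw [h3]
          exact R'.mul_mem h2 ⟨r, hr, rfl⟩
      let Q := P ⧸ R'
      let π : P →* Q := QuotientGroup.mk' R'
      have hπ : Function.Surjective π := QuotientGroup.mk'_surjective _
      have hnc : ∀ n ∈ N, π n ∈ center Q := by
        intro n hn
        have hle : N ≤ (centralizer ({π n} : Set Q)).comap π := by
          intro m hm
          rw [Subgroup.mem_comap, Subgroup.mem_centralizer_singleton_iff, ← map_mul, ← map_mul]
          apply (QuotientGroup.eq_iff_div_mem).2
          have h1 : m * n / (n * m) = ((⟨m, hm⟩ * ⟨n, hn⟩ * (⟨m, hm⟩ : N)⁻¹ * (⟨n, hn⟩ : N)⁻¹ : N) : P) := by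
            simp [div_eq_mul_inv]; group
          rw [h1]
          refine ⟨(⟨m, hm⟩ * ⟨n, hn⟩ * (⟨m, hm⟩ : N)⁻¹ * (⟨n, hn⟩ : N)⁻¹ : N), ?_, rfl⟩
          apply hN'R
          have := Subgroup.commutator_mem_commutator (Subgroup.mem_top (⟨m, hm⟩ : N)) (Subgroup.mem_top (⟨n, hn⟩ : N))
          rwa [commutatorElement_def, ← _root_.commutator_def] at this
        rcases eq_top_or_eq_of_le_of_index_prime hp hle hN with h1 | h1
        · rw [Subgroup.mem_center_iff]
          intro q
          obtain ⟨g, rfl⟩ := hπ q
          have : g ∈ (centralizer ({π n} : Set Q)).comap π := by rw [h1]; trivial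
          rw [Subgroup.mem_comap, Subgroup.mem_centralizer_singleton_iff] at this
          exact this
        · exfalso
          apply hx
          rw [← h1, Subgroup.mem_comap, Subgroup.mem_centralizer_singleton_iff, ← map_mul, ← map_mul]
          apply (QuotientGroup.eq_iff_div_mem).2
          have h2 : x * n / (n * x) = x * n * x⁻¹ * n⁻¹ := by
            rw [div_eq_mul_inv]; group
          rw [h2]
          exact hcomm_mem ⟨n, hn⟩
      have hQ : center Q = ⊤ := by
        apply center_eq_top_of_index_dvd_prime hp
        have hK : N ≤ (center Q).comap π := fun n hn => hnc n hn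
        rw [← Subgroup.index_comap_of_surjective _ hπ, ← hN]
        exact Subgroup.index_dvd_of_le hK
      have hQcomm : IsMulCommutative Q := by
        apply IsMulCommutative.of_comm
        intro a b
        have ha : a ∈ center Q := by rw [hQ]; trivial
        exact ((Subgroup.mem_center_iff.1 ha) b).symm
      exact Subgroup.Normal.quotient_commutative_iff_commutator_le.1 hQcomm
    · rintro _ ⟨r, hr, rfl⟩
      have hr' : r ∈ R := hr
      rw [Subgroup.mem_comap] at hr'
      obtain ⟨a, ha⟩ := hr'
      obtain ⟨n, rfl⟩ := hof a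
      rw [hφof] at ha
      -- `r = y n * m`
      have h1 : (y n)⁻¹ * r ∈ commutator N := by
        rw [← hofker, MonoidHom.mem_ker, map_mul, map_inv, ← ha]
        simp
      have h2 : r = y n * ((y n)⁻¹ * r) := by group
      rw [h2, map_mul]
      have hcommP : ∀ a b : P, a * b * a⁻¹ * b⁻¹ ∈ commutator P := by
        intro a b
        have := Subgroup.commutator_mem_commutator (Subgroup.mem_top a) (Subgroup.mem_top b)
        rwa [commutatorElement_def, ← _root_.commutator_def] at this
      refine (commutator P).mul_mem ?_ ?_
      · simp only [Subgroup.subtype_apply]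
        rw [hyval]
        exact hcommP _ _
      · have h3 : (commutator N).map N.subtype ≤ commutator P := by
          rw [_root_.commutator_def, Subgroup.map_commutator]
          exact Subgroup.commutator_mono le_top le_top
        exact h3 ⟨_, h1, rfl⟩
  rw [hmain, hRidx', hcardK, hcardK2]
  ring

/-- Let p be a prime, P a finite p-group and N a normal subgroup of P of index p. For x ∈ P write c(x) for the number of elements n of N whose commutator x n x⁻¹ n⁻¹ lies in the derived subgroup N' (so c(x)/#N' is the order of the centralizer of x acting on N/N'). Then [P : P'] = p² if and only if c(x) = p·#N' for every x ∈ P outside N, and also if and only if c(x) = p·#N' for some x ∈ P outside N. -/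
theorem result {P : Type*} [Group P] [Finite P] (p : ℕ) [Fact p.Prime] (hP : IsPGroup p P) (N : Subgroup P) [N.Normal] (hN : N.index = p) :
    ((commutator P).index = p ^ 2 ↔ ∀ x : P, x ∉ N →
        Nat.card {n : N // x * n * x⁻¹ * (n : P)⁻¹ ∈ (commutator N).map N.subtype} = p * Nat.card (commutator N)) ∧
    ((commutator P).index = p ^ 2 ↔ ∃ x : P, x ∉ N ∧
        Nat.card {n : N // x * n * x⁻¹ * (n : P)⁻¹ ∈ (commutator N).map N.subtype} = p * Nat.card (commutator N)) := by
  have hp : p.Prime := Fact.out
  have hfor := formula (P := P) p hp N hN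
  obtain ⟨x₀, hx₀⟩ : ∃ x₀ : P, x₀ ∉ N := by
    by_contra hcon
    push Not at hcon
    have h1 : N = ⊤ := eq_top_iff.2 fun x _ => hcon x
    rw [h1, Subgroup.index_top] at hN
    exact hp.one_lt.ne hN
  have hpos : 0 < Nat.card (commutator N) := Nat.card_pos
  have h1 : ∀ x, x ∉ N → ((commutator P).index = p ^ 2 ↔
      Nat.card {n : N // x * n * x⁻¹ * (n : P)⁻¹ ∈ (commutator N).map N.subtype} = p * Nat.card (commutator N)) := by
    intro x hx
    have h2 := hfor x hx
    constructor
    · intro h3
      rw [h3] at h2
      have h4 : p * (p * Nat.card (commutator N)) = p * Nat.card {n : N // x * n * x⁻¹ * (n : P)⁻¹ ∈ (commutator N).map N.subtype} := by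
        rw [← h2]; ring
      exact (Nat.eq_of_mul_eq_mul_left hp.pos h4).symm
    · intro h3
      rw [h3] at h2
      have h4 : (commutator P).index * Nat.card (commutator N) = p ^ 2 * Nat.card (commutator N) := by
        rw [h2]; ring
      exact Nat.eq_of_mul_eq_mul_right hpos h4
  constructor
  · exact ⟨fun h x hx => (h1 x hx).1 h, fun h => (h1 x₀ hx₀).2 (h x₀ hx₀)⟩
  · exact ⟨fun h => ⟨x₀, hx₀, (h1 x₀ hx₀).1 h⟩, fun ⟨x, hx, h⟩ => (h1 x hx).2 h⟩

end Cfsg.Agent.S4586
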