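import Cfsg.Statements.S4588
import Mathlib
import Cfsg.Agent.Lib.FF.KP4

set_option autoImplicit false
open Cfsg

namespace Cfsg.Agent.S4588

/-- Let G be a finite group, p a prime and M a maximal ideal of the algebraic integers containing p. If some p-element x of G (possibly x = 1) has centralizer whose order has p-part at most p², then the principal p-block of G contains at most p² irreducible characters of degree prime to p. -/
theorem result {G : Type*} [Group G] [Finite G] (p : ℕ) [Fact p.Prime] (M : Ideal Cfsg.AlgInt) (hM : Cfsg.IsPModular p M)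
    (hx : ∃ x : G, (∃ k : ℕ, orderOf x = p ^ k) ∧ (Nat.card (Subgroup.centralizer ({x} : Set G))).factorization p ≤ 2) :
    Nat.card {χ : Cfsg.IrrCharacter G // χ ∈ Cfsg.principalBlock M G ∧ ¬ p ∣ Cfsg.charDegree (χ : G → ℂ)} ≤ p ^ 2 := by
    classical
  haveI : Fintype G := Fintype.ofFinite _
  obtain ⟨x, hu, h2⟩ := hx
  have h := Cfsg.Agent.Lib.FF.count_principal_height_zero (p := p) hM hu h2
  rw [Nat.card_eq_fintype_card, Fintype.card_subtype]
  convert h using 2


end Cfsg.Agent.S4588
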