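import Cfsg.Statements.S4602
import Cfsg.Agent.Lib.PSolv.Basic
import Mathlib

set_option autoImplicit false
open Cfsg

namespace Cfsg.Agent.S4602

open Subgroup Cfsg.Agent.Lib.PSolv

/-- Let G be a finite p-solvable group and q a prime different from p. Some Sylow p-subgroup of G normalizes some Sylow q-subgroup of G if and only if q does not divide the order of G/O_{p'}(G), the quotient by the largest normal subgroup of order prime to p. -/
theorem result {G : Type*} [Group G] [Finite G] (p q : ℕ) [Fact p.Prime] [Fact q.Prime] (hpq : p ≠ q) (hsolv : Cfsg.IsPSolvable p G) :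
    (∃ (P : Sylow p G) (Q : Sylow q G), (P : Subgroup G) ≤ Subgroup.normalizer ((Q : Subgroup G) : Set G)) ↔ ¬ q ∣ (Cfsg.pPrimeCore p G).index := by
  have hp : p.Prime := Fact.out
  have hq : q.Prime := Fact.out
  set K := Cfsg.pPrimeCore p G with hK
  haveI hKn : K.Normal := Cfsg.Agent.Lib.Core.pPrimeCore_normal p G
  constructor
  · rintro ⟨P, Q, hPQ⟩
    suffices h : (Q : Subgroup G) ≤ K from not_dvd_index_of_sylow_le Q h
    let π : G →* G ⧸ K := QuotientGroup.mk' K
    have hπ : Function.Surjective π := QuotientGroup.mk'_surjective K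
    have hstep : PStep p (G ⧸ K) := (pStep_of_isPSolvable hp hsolv).quotient K
    have hcore : Cfsg.pPrimeCore p (G ⧸ K) = ⊥ := Cfsg.Agent.Lib.Core.pPrimeCore_quotient_eq_bot
    have hHH := centralizer_pCore_le hstep hcore
    set L := Cfsg.pCore p (G ⧸ K) with hL
    haveI hLn : L.Normal := Cfsg.Agent.Lib.Core.pCore_normal p _
    have hLp : IsPGroup p L := Cfsg.Agent.Lib.Core.pCore_isPGroup p _
    let Pb := P.mapSurjective hπ
    have hLP : L ≤ (Pb : Subgroup (G ⧸ K)) := Cfsg.Agent.Lib.Core.pCore_le_sylow Pb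
    let Qb : Subgroup (G ⧸ K) := (Q : Subgroup G).map π
    have hQbq : IsPGroup q Qb := Q.2.map π
    have hdisj : L ⊓ Qb = ⊥ := (IsPGroup.disjoint_of_ne p q hpq L Qb hLp hQbq).eq_bot
    have hnorm : ∀ ℓ ∈ L, ∀ u ∈ Qb, ℓ * u * ℓ⁻¹ ∈ Qb := by
      intro ℓ hℓ u hu
      have h1 : ℓ ∈ (P : Subgroup G).map π := by
        have := hLP hℓ
        rwa [Sylow.coe_mapSurjective] at this
      obtain ⟨x, hx, rfl⟩ := h1
      obtain ⟨y, hy, rfl⟩ := hu
      refine ⟨x * y * x⁻¹, ?_, by simp⟩
      exact (Subgroup.mem_set_normalizer_iff.1 (hPQ hx) y).1 hy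
    have hcomm : ∀ ℓ ∈ L, ∀ u ∈ Qb, ℓ * u * ℓ⁻¹ * u⁻¹ = 1 := by
      intro ℓ hℓ u hu
      have h1 : ℓ * u * ℓ⁻¹ * u⁻¹ ∈ L ⊓ Qb := by
        constructor
        · have h2 := hLn.conj_mem ℓ⁻¹ (L.inv_mem hℓ) u
          have h3 : ℓ * u * ℓ⁻¹ * u⁻¹ = ℓ * (u * ℓ⁻¹ * u⁻¹) := by group
          rw [h3]
          exact L.mul_mem hℓ h2
        · exact Qb.mul_mem (hnorm ℓ hℓ u hu) (Qb.inv_mem hu)
      rw [hdisj, Subgroup.mem_bot] at h1
      exact h1
    have hQbL : Qb ≤ L := by
      intro u hu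
      apply hHH
      rw [Subgroup.mem_centralizer_iff]
      intro ℓ hℓ
      have h1 := hcomm ℓ hℓ u hu
      have h2 : ℓ * u * ℓ⁻¹ = u := by
        have := congrArg (fun z => z * u) h1
        simpa using this
      calc ℓ * u = ℓ * u * ℓ⁻¹ * ℓ := by group
        _ = u * ℓ := by rw [h2]
    have hQbot : Qb = ⊥ := by
      rw [eq_bot_iff, ← hdisj]
      exact le_inf hQbL le_rfl
    intro y hy
    have h1 : π y ∈ Qb := ⟨y, hy, rfl⟩
    rw [hQbot, Subgroup.mem_bot] at h1
    have h2 : y ∈ π.ker := h1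
    rwa [QuotientGroup.ker_mk'] at h2
  · intro h
    obtain ⟨Q⟩ : Nonempty (Sylow q G) := inferInstance
    have hQK : (Q : Subgroup G) ≤ K := by
      let π : G →* G ⧸ K := QuotientGroup.mk' K
      have hQbq : IsPGroup q ((Q : Subgroup G).map π) := Q.2.map π
      obtain ⟨k, hk⟩ := hQbq.exists_card_eq
      have hd : Nat.card ((Q : Subgroup G).map π) ∣ K.index := by
        rw [Subgroup.index_eq_card]
        exact Subgroup.card_subgroup_dvd_card _
      have hk0 : k = 0 := by
        by_contra hk0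
        apply h
        rw [hk] at hd
        exact (dvd_pow_self q hk0).trans hd
      subst hk0
      have hbot : (Q : Subgroup G).map π = ⊥ := Subgroup.card_eq_one.1 (by simpa using hk)
      intro y hy
      have h1 : π y ∈ (Q : Subgroup G).map π := ⟨y, hy, rfl⟩
      rw [hbot, Subgroup.mem_bot] at h1
      have h2 : y ∈ π.ker := h1
      rwa [QuotientGroup.ker_mk'] at h2
    have htop := Q.normalizer_sup_eq_top' hQK
    have hdvd := index_dvd_card_of_sup_eq_top _ K htop
    have hnp : ¬ p ∣ (normalizer (Q : Set G)).index := by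
      intro hd
      exact Cfsg.Agent.Lib.Core.not_dvd_card_pPrimeCore (hd.trans hdvd)
    obtain ⟨P, hP⟩ := exists_sylow_le_of_not_dvd_index hnp
    exact ⟨P, Q, hP⟩

end Cfsg.Agent.S4602
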