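import Cfsg.Statements.S4601
import Cfsg.Agent.S4602
import Cfsg.Agent.Lib.PSmall.Basic
import Cfsg.Agent.Lib.PSolv.Glauberman
import Mathlib

set_option autoImplicit false
open Cfsg

namespace Cfsg.Agent.S4601

open Subgroup Cfsg.Agent.Lib.PSolv
open scoped Pointwise


section

variable {p q : ℕ} [Fact p.Prime] [Fact q.Prime]

lemma exists_lift {G H : Type*} [Group G] [Finite G] [Group H] (π : G →* H) (hπ : Function.Surjective π)
    (y : H) (k : ℕ) (hy : orderOf y = q ^ k) : ∃ x : G, (∃ j : ℕ, orderOf x = q ^ j) ∧ π x = y := by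
  have hq : q.Prime := Fact.out
  obtain ⟨x₀, rfl⟩ := hπ y
  have hn : orderOf x₀ ≠ 0 := (orderOf_pos x₀).ne'
  obtain ⟨a, m, hm, hnm⟩ := Nat.exists_eq_pow_mul_and_not_dvd hn q hq.ne_one
  rcases Nat.eq_zero_or_pos k with rfl | hk
  · refine ⟨1, ⟨0, by simp⟩, ?_⟩
    rw [pow_zero, orderOf_eq_one_iff] at hy
    rw [map_one, hy]
  have hcop : Nat.Coprime m (q ^ k) := ((Nat.Prime.coprime_iff_not_dvd hq).2 hm).symm.pow_right k
  have h1 : 1 < q ^ k := one_lt_pow₀ hq.one_lt hk.ne'
  obtain ⟨e, -, he⟩ := Nat.exists_mul_mod_eq_one_of_coprime hcop h1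
  refine ⟨x₀ ^ (m * e), ?_, ?_⟩
  · have hd : orderOf (x₀ ^ (m * e)) ∣ q ^ a := by
      apply orderOf_dvd_of_pow_eq_one
      rw [← pow_mul]
      have : m * e * q ^ a = orderOf x₀ * e := by rw [hnm]; ring
      rw [this, pow_mul, pow_orderOf_eq_one, one_pow]
    obtain ⟨j, -, hj⟩ := (Nat.dvd_prime_pow hq).1 hd
    exact ⟨j, hj⟩
  · rw [map_pow, ← pow_mod_orderOf, hy, he, pow_one]

lemma hyp_quot {G H : Type*} [Group G] [Finite G] [Group H] (π : G →* H) (hπ : Function.Surjective π)
    (hyp : ∀ y : G, (∃ k : ℕ, orderOf y = q ^ k) → ¬ p ∣ (centralizer ({y} : Set G)).index) :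
    ∀ y : H, (∃ k : ℕ, orderOf y = q ^ k) → ¬ p ∣ (centralizer ({y} : Set H)).index := by
  rintro y ⟨k, hk⟩ hd
  obtain ⟨x, hx, rfl⟩ := exists_lift π hπ y k hk
  apply hyp x hx
  refine hd.trans ?_
  rw [← Subgroup.index_comap_of_surjective _ hπ]
  apply Subgroup.index_dvd_of_le
  intro z hz
  rw [Subgroup.mem_comap, Subgroup.mem_centralizer_singleton_iff]
  rw [Subgroup.mem_centralizer_singleton_iff] at hz
  rw [← map_mul, ← map_mul, hz]

theorem qsolv_case.{u} : ∀ (n : ℕ) (G : Type u) [Group G] [Finite G], Nat.card G = n → PStep q G →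
    (∀ y : G, (∃ k : ℕ, orderOf y = q ^ k) → ¬ p ∣ (centralizer ({y} : Set G)).index) →
    ∃ (P : Sylow p G) (Q : Sylow q G), (P : Subgroup G) ≤ normalizer ((Q : Subgroup G) : Set G) := by
  intro n
  induction n using Nat.strong_induction_on with
  | _ n ih =>
  intro G _ _ hn hstep hyp
  have hp : p.Prime := Fact.out
  have hq : q.Prime := Fact.out
  by_cases htriv : (⊥ : Subgroup G) = ⊤
  · obtain ⟨P⟩ : Nonempty (Sylow p G) := inferInstance
    obtain ⟨Q⟩ : Nonempty (Sylow q G) := inferInstance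
    refine ⟨P, Q, fun x _ => ?_⟩
    have hx : x ∈ (⊥ : Subgroup G) := by rw [htriv]; trivial
    rw [Subgroup.mem_bot] at hx
    rw [hx]
    exact one_mem _
  have hlt : (⊥ : Subgroup G) < ⊤ := lt_of_le_of_ne bot_le htriv
  obtain ⟨D, hDn, hbot, -, hD⟩ := hstep ⊥ ⊤ inferInstance inferInstance hlt
  haveI := hDn
  rw [Subgroup.relIndex_bot_left] at hD
  let π : G →* G ⧸ D := QuotientGroup.mk' D
  have hπ : Function.Surjective π := QuotientGroup.mk'_surjective D
  have hcardlt : Nat.card (G ⧸ D) < n := by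
    have h1 := Subgroup.card_eq_card_quotient_mul_card_subgroup D
    have h2 : 1 < Nat.card D := by
      rw [Finite.one_lt_card_iff_nontrivial, Subgroup.nontrivial_iff_ne_bot]
      exact hbot.ne'
    have h3 : 0 < Nat.card (G ⧸ D) := Nat.card_pos
    rw [← hn, h1]
    nlinarith
  obtain ⟨Pb, Qb, hPQb⟩ := ih _ hcardlt (G ⧸ D) rfl (hstep.quotient D) (hyp_quot π hπ hyp)
  obtain ⟨P, rfl⟩ := Sylow.mapSurjective_surjective hπ p Pb
  obtain ⟨Q, rfl⟩ := Sylow.mapSurjective_surjective hπ q Qb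
  rw [Sylow.coe_mapSurjective] at hPQb
  rw [Sylow.coe_mapSurjective] at hPQb
  set Qt : Subgroup G := (Q : Subgroup G) ⊔ D with hQt
  have hQtc : ((Q : Subgroup G).map π).comap π = Qt := by
    rw [Subgroup.comap_map_eq, QuotientGroup.ker_mk']
  have hPN : ∀ x ∈ (P : Subgroup G), x ∈ normalizer (Qt : Set G) := by
    intro x hx
    apply Cfsg.Agent.Lib.PSmall.mem_normalizer_of_conj_mem
    intro y hy
    rw [← hQtc, Subgroup.mem_comap] at hy ⊢
    have h2 := (Subgroup.mem_set_normalizer_iff.1 (hPQb ⟨x, hx, rfl⟩) (π y)).1 hy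
    rw [map_mul, map_mul, map_inv]
    exact h2
  rcases hD with ⟨m, hm⟩ | hcop
  · have hDq : IsPGroup q D := IsPGroup.of_card hm
    have hDQ : D ≤ (Q : Subgroup G) := by
      have h1 := Cfsg.Agent.Lib.Core.le_pCore hDn hDq
      exact h1.trans (Cfsg.Agent.Lib.Core.pCore_le_sylow Q)
    have h1 : Qt = (Q : Subgroup G) := sup_eq_left.2 hDQ
    rw [h1] at hPN
    exact ⟨P, Q, hPN⟩
  · have hnq : ¬ q ∣ Nat.card D := by
      intro hd
      have := Nat.Coprime.eq_one_of_dvd hcop.symm hd
      exact hq.one_lt.ne this.symm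
    obtain ⟨R₁, hR₁⟩ := exists_invariant_sylow (p := p) (Q : Subgroup G) D Q.2 hnq
    have hcent : ∀ γ ∈ (Q : Subgroup G), ∀ r : D, r ∈ R₁ → γ * (r : G) * γ⁻¹ = r := by
      intro γ hγ
      have hQp : IsPGroup q (Subgroup.zpowers γ) := Q.2.to_le (Subgroup.zpowers_le.2 hγ)
      have hqel : ∃ k : ℕ, orderOf γ = q ^ k := by
        obtain ⟨k, hk⟩ := hQp.exists_card_eq
        exact ⟨k, by rwa [Nat.card_zpowers] at hk⟩
      obtain ⟨P₂, hP₂⟩ := exists_sylow_le_of_not_dvd_index (hyp γ hqel)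
      have h3 := centralizes_of_invariant (Subgroup.zpowers γ) D hQp hnq R₁ (sylowSubgroupOf P₂ D)
        (fun g hg r hr => hR₁ g (Subgroup.zpowers_le.2 hγ hg) r hr) (by
          intro g hg r hr
          have hr1 : (r : G) ∈ (P₂ : Subgroup G) := hr
          have hr2 := hP₂ hr1
          rw [Subgroup.mem_centralizer_singleton_iff] at hr2
          obtain ⟨k, rfl⟩ := hg
          have hc : Commute (r : G) γ := hr2
          have hc2 : Commute (r : G) (γ ^ k) := hc.zpow_right k
          simp only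
          rw [← hc2.eq]
          group)
      exact h3 γ (Subgroup.mem_zpowers γ)
    -- the action of `P` on the Sylow subgroups of `Qt`
    have hQQt : (Q : Subgroup G) ≤ Qt := le_sup_left
    have hDQt : D ≤ Qt := le_sup_right
    let Ω : SubMulAction (P : Subgroup G) (Sylow q G) :=
      { carrier := {S | (S : Subgroup G) ≤ Qt}
        smul_mem' := by
          intro x S hS
          change (((x : G) • S : Sylow q G) : Subgroup G) ≤ Qt
          rw [Sylow.coe_subgroup_smul]
          intro z hz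
          rw [Subgroup.mem_smul_pointwise_iff_exists] at hz
          obtain ⟨s, hs, rfl⟩ := hz
          exact (Subgroup.mem_set_normalizer_iff.1 (hPN x x.2) s).1 (hS hs) }
    have hΩ : (Ω : Set (Sylow q G)) = MulAction.orbit D Q := by
      ext S
      constructor
      · intro hS
        have hS' : (S : Subgroup G) ≤ Qt := hS
        obtain ⟨t, ht⟩ := MulAction.exists_smul_eq Qt (Q.subtype hQQt) (S.subtype hS')
        rw [Sylow.smul_subtype] at ht
        have h4 : (t • Q : Sylow q G) = S := Sylow.subtype_injective ht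
        obtain ⟨u, hu, d, hd, hud⟩ := Subgroup.mem_sup_of_normal_right.1 t.2
        have h5 : u • Q = Q := Sylow.smul_eq_iff_mem_normalizer.2 (Subgroup.le_normalizer hu)
        have h6 : (t : G) = (u * d * u⁻¹) * u := by rw [← hud]; group
        have hdn : u * d * u⁻¹ ∈ D := hDn.conj_mem d hd u
        refine ⟨⟨u * d * u⁻¹, hdn⟩, ?_⟩
        rw [← h4]
        change ((u * d * u⁻¹ : G)) • Q = (t : G) • Q
        calc (u * d * u⁻¹ : G) • Q = (u * d * u⁻¹ : G) • (u • Q) := by rw [h5]
          _ = ((u * d * u⁻¹) * u : G) • Q := (mul_smul _ _ _).symm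
          _ = (t : G) • Q := by rw [h6]
      · rintro ⟨d, rfl⟩
        change (((d : G) • Q : Sylow q G) : Subgroup G) ≤ Qt
        rw [Sylow.coe_subgroup_smul]
        intro z hz
        rw [Subgroup.mem_smul_pointwise_iff_exists] at hz
        obtain ⟨s, hs, rfl⟩ := hz
        exact Qt.mul_mem (Qt.mul_mem (hDQt d.2) (hQQt hs)) (Qt.inv_mem (hDQt d.2))
    have hΩcard : ¬ p ∣ Nat.card Ω := by
      have h4 : Nat.card Ω = (MulAction.stabilizer D Q).index := by
        rw [MulAction.index_stabilizer, ← hΩ]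
        rfl
      rw [h4]
      apply not_dvd_index_of_sylow_le R₁
      intro r hr
      rw [MulAction.mem_stabilizer_iff]
      change (r : G) • Q = Q
      rw [Sylow.smul_eq_iff_mem_normalizer]
      apply Cfsg.Agent.Lib.PSmall.mem_normalizer_of_conj_mem
      intro u hu
      have h5 := hcent u hu r hr
      have h6 : (r : G) * u * (r : G)⁻¹ = u := by
        have h7 : Commute u (r : G) := by
          have h8 := congrArg (fun z => z * u) h5
          simp only [inv_mul_cancel_right] at h8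
          exact h8
        rw [← h7.eq]; group
      rw [h6]; exact hu
    obtain ⟨S, hS⟩ := P.2.nonempty_fixed_point_of_prime_not_dvd_card Ω hΩcard
    refine ⟨P, S.1, ?_⟩
    intro x hx
    have h5 := hS ⟨x, hx⟩
    have h6 : (x • S.1 : Sylow q G) = S.1 := congrArg Subtype.val h5
    exact Sylow.smul_eq_iff_mem_normalizer.1 h6

end

/-- Let p and q be primes and G a finite group that is p-solvable or q-solvable, in which no q-element has conjugacy class size divisible by p. Then some Sylow p-subgroup of G normalizes some Sylow q-subgroup of G. -/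
theorem result {G : Type*} [Group G] [Finite G] (p q : ℕ) [Fact p.Prime] [Fact q.Prime] (hsolv : Cfsg.IsPSolvable p G ∨ Cfsg.IsPSolvable q G)
    (h : ∀ y : G, (∃ k : ℕ, orderOf y = q ^ k) → ¬ p ∣ (Subgroup.centralizer ({y} : Set G)).index) :
    ∃ (P : Sylow p G) (Q : Sylow q G), (P : Subgroup G) ≤ Subgroup.normalizer ((Q : Subgroup G) : Set G) := by
  have hp : p.Prime := Fact.out
  have hq : q.Prime := Fact.out
  by_cases hpq : p = q
  · subst hpq
    obtain ⟨P⟩ : Nonempty (Sylow p G) := inferInstance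
    exact ⟨P, P, Subgroup.le_normalizer⟩
  rcases hsolv with hsolv | hsolv
  · -- the `p`-solvable case
    apply ((Cfsg.Agent.S4602.result p q hpq hsolv).2 ?_)
    set K := Cfsg.pPrimeCore p G with hK
    haveI hKn : K.Normal := Cfsg.Agent.Lib.Core.pPrimeCore_normal p G
    intro hd
    let π : G →* G ⧸ K := QuotientGroup.mk' K
    have hπ : Function.Surjective π := QuotientGroup.mk'_surjective K
    rw [Subgroup.index_eq_card] at hd
    obtain ⟨yb, hyb⟩ := exists_prime_orderOf_dvd_card' q hd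
    obtain ⟨y, hy, rfl⟩ := exists_lift π hπ yb 1 (by rw [hyb, pow_one])
    obtain ⟨P, hP⟩ := exists_sylow_le_of_not_dvd_index (h y hy)
    have hstep : PStep p (G ⧸ K) := (pStep_of_isPSolvable hp hsolv).quotient K
    have hcore : Cfsg.pPrimeCore p (G ⧸ K) = ⊥ := Cfsg.Agent.Lib.Core.pPrimeCore_quotient_eq_bot
    have hHH := centralizer_pCore_le hstep hcore
    have hLP : Cfsg.pCore p (G ⧸ K) ≤ ((P.mapSurjective hπ : Sylow p (G ⧸ K)) : Subgroup (G ⧸ K)) :=
      Cfsg.Agent.Lib.Core.pCore_le_sylow _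
    rw [Sylow.coe_mapSurjective] at hLP
    have hmem : π y ∈ Cfsg.pCore p (G ⧸ K) := by
      apply hHH
      rw [Subgroup.mem_centralizer_iff]
      intro ℓ hℓ
      obtain ⟨x, hx, rfl⟩ := hLP hℓ
      have h1 := hP hx
      rw [Subgroup.mem_centralizer_singleton_iff] at h1
      rw [← map_mul, ← map_mul, h1]
    have hLp : IsPGroup p (Cfsg.pCore p (G ⧸ K)) := Cfsg.Agent.Lib.Core.pCore_isPGroup p _
    obtain ⟨k, hk⟩ := hLp.exists_card_eq
    have h2 : orderOf (⟨π y, hmem⟩ : Cfsg.pCore p (G ⧸ K)) = q := by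
      rw [← Subgroup.orderOf_coe]
      exact hyb
    have h3 := orderOf_dvd_natCard (⟨π y, hmem⟩ : Cfsg.pCore p (G ⧸ K))
    rw [h2, hk] at h3
    exact hpq ((Nat.prime_dvd_prime_iff_eq hq hp).1 (hq.dvd_of_dvd_pow h3)).symm
  · exact qsolv_case _ G rfl (pStep_of_isPSolvable hq hsolv) h

end Cfsg.Agent.S4601
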