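import Cfsg.Statements.S4604
import Cfsg.Agent.Lib.Block.PEltInd

set_option autoImplicit false
open Cfsg

namespace Cfsg.Agent.S4604

/-- Let G be a finite group, p a prime and p^a the p-part of the order of G. Let x, y ∈ G and let x′, y′ be their p-regular parts: x′ has order prime to p, commutes with x·x′⁻¹, and x·x′⁻¹ has p-power order (likewise for y). Then x′ and y′ are conjugate in G if and only if for every irreducible character χ of G the algebraic integer χ(x)^(p^a) − χ(y)^(p^a) is p times an algebraic integer. -/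
theorem result {G : Type*} [Group G] [Finite G] (p : ℕ) [Fact p.Prime] (x y x' y' : G)
    (hx : (∃ k : ℕ, orderOf (x * x'⁻¹) = p ^ k) ∧ Commute (x * x'⁻¹) x' ∧ ¬ p ∣ orderOf x')
    (hy : (∃ k : ℕ, orderOf (y * y'⁻¹) = p ^ k) ∧ Commute (y * y'⁻¹) y' ∧ ¬ p ∣ orderOf y') :
    IsConj x' y' ↔ ∀ χ : Cfsg.IrrCharacter G, ∃ γ : Cfsg.AlgInt,
      (χ : G → ℂ) x ^ (p ^ (Nat.card G).factorization p) - (χ : G → ℂ) y ^ (p ^ (Nat.card G).factorization p) = (p : ℂ) * (γ : ℂ) := by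
  classical
  haveI : Fintype G := Fintype.ofFinite G
  obtain ⟨hx1, hx2, hx3⟩ := hx
  obtain ⟨hy1, hy2, hy3⟩ := hy
  obtain ⟨q, hq⟩ : ∃ q, q = p ^ (Nat.card G).factorization p := ⟨_, rfl⟩
  rw [← hq]
  have hxq : x ^ q = x' ^ q := by
    rw [hq]
    exact Cfsg.Agent.Lib.Block.pow_eq_of_regular_part p hx1 hx2
  have hyq : y ^ q = y' ^ q := by
    rw [hq]
    exact Cfsg.Agent.Lib.Block.pow_eq_of_regular_part p hy1 hy2
  have hcong : ∀ (χ : Cfsg.IrrCharacter G) (g : G), ∃ γ : ℂ, IsIntegral ℤ γ ∧ (χ : G → ℂ) g ^ q - (χ : G → ℂ) (g ^ q) = (p : ℂ) * γ := by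
    intro χ g
    rw [hq]
    exact Cfsg.Agent.Lib.Block.exists_char_pow_sub p (Cfsg.Agent.Lib.Char.IsIrrCharacter.isCharacter χ.2) g _
  constructor
  · intro h χ
    obtain ⟨γ₁, h1, h2⟩ := hcong χ x
    obtain ⟨γ₂, h3, h4⟩ := hcong χ y
    refine ⟨⟨γ₁ - γ₂, h1.sub h3⟩, ?_⟩
    have h5 : (χ : G → ℂ) (x ^ q) = (χ : G → ℂ) (y ^ q) := by
      rw [hxq, hyq]
      obtain ⟨c, hc⟩ := isConj_iff.1 (h.pow q)
      rw [← hc]
      exact (Cfsg.Agent.Lib.Char.IsCharacter.isClassFunction (Cfsg.Agent.Lib.Char.IsIrrCharacter.isCharacter χ.2) _ _).symm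
    push_cast
    rw [h5] at h2
    linear_combination h2 - h4
  · intro h
    have hcop : ∀ z : G, ¬ p ∣ orderOf z → Nat.Coprime p (orderOf z) := fun z hz =>
      (Nat.Prime.coprime_iff_not_dvd (Fact.out)).2 hz
    have hq1 : q.Coprime (orderOf x' * orderOf y') := by
      rw [hq]
      exact Nat.Coprime.pow_left _ (Nat.Coprime.mul_right (hcop _ hx3) (hcop _ hy3))
    refine Cfsg.Agent.Lib.Block.isConj_of_pow_isConj hq1 ?_
    have hreg : ∀ z : G, ¬ p ∣ orderOf z → ¬ p ∣ orderOf (z ^ q) := by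
      intro z hz h1
      exact hz (h1.trans (orderOf_pow_dvd _))
    refine Cfsg.Agent.Lib.Block.isConj_of_congr p _ _ (hreg _ hx3) (hreg _ hy3) fun χ => ?_
    obtain ⟨γ, hγ⟩ := h χ
    obtain ⟨γ₁, h1, h2⟩ := hcong χ x
    obtain ⟨γ₂, h3, h4⟩ := hcong χ y
    refine ⟨(γ : ℂ) - γ₁ + γ₂, ((γ.2.sub h1).add h3), ?_⟩
    rw [← hxq, ← hyq]
    linear_combination hγ - h2 + h4

end Cfsg.Agent.S4604
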