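import Cfsg.Statements.S4611
import Mathlib
import Cfsg.Agent.Lib.Degree.Cod
import Cfsg.Agent.Lib.Char.Complete
import Cfsg.Agent.Lib.CharExtra.PSolvOfSolv
import Cfsg.Agent.S4736

set_option autoImplicit false
open Cfsg
open Cfsg.Agent.Lib.Block Cfsg.Agent.Lib.Char Cfsg.Agent.Lib.CharExtra

namespace Cfsg.Agent.S4611

/-- Let G be a finite solvable group and π a nonempty set of primes, each dividing the order of G; fix for each p in π a maximal ideal M p of the algebraic integers containing p. Then the only irreducible character lying in the principal p-block for every p in π is the principal character if and only if G is generated by the subgroups O_{p'}(G), p in π (the largest normal subgroups of order prime to p). -/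
theorem result {G : Type*} [Group G] [Finite G] [Group.IsSolvable G] (π : Set ℕ) (hπ : ∀ p ∈ π, p.Prime ∧ p ∣ Nat.card G) (hne : π.Nonempty) (M : ℕ → Ideal Cfsg.AlgInt) (hM : ∀ p ∈ π, Cfsg.IsPModular p (M p)) :
    (∀ χ : Cfsg.IrrCharacter G, (∀ p ∈ π, χ ∈ Cfsg.principalBlock (M p) G) → (χ : G → ℂ) = fun _ => 1) ↔
      ⨆ p ∈ π, Cfsg.pPrimeCore p G = ⊤ := by
  classical
  haveI : Fintype G := Fintype.ofFinite G
  have key : ∀ χ : IrrCharacter G, ∀ p ∈ π, (χ ∈ principalBlock (M p) G ↔ ∀ n ∈ pPrimeCore p G, (χ : G → ℂ) n = (χ : G → ℂ) 1) := by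
    intro χ p hp
    haveI : Fact p.Prime := ⟨(hπ p hp).1⟩
    exact Cfsg.Agent.S4736.mem_principalBlock_iff_of_psolvable (hM p hp) (isPSolvable_of_isSolvable p G) χ
  set L : Subgroup G := ⨆ p ∈ π, pPrimeCore p G with hL
  have hLn : L.Normal := by
    refine Subgroup.biSup_normal π (fun p => pPrimeCore p G) fun p _ => inferInstance
  constructor
  · intro h
    by_contra hne
    haveI := hLn
    have hnt : Nontrivial (G ⧸ L) := QuotientGroup.nontrivial_iff.mpr hne
    haveI : Fintype (G ⧸ L) := Fintype.ofFinite _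
    -- a nonprincipal character of the quotient
    have hex : ∃ ψ : IrrCharacter (G ⧸ L), (ψ : G ⧸ L → ℂ) ≠ fun _ => 1 := by
      by_contra hcon
      push Not at hcon
      have h1 := sum_degree_sq (G := G ⧸ L)
      have h2 : ∀ ψ : IrrCharacter (G ⧸ L), ψ = oneIrr (G ⧸ L) := fun ψ => Subtype.ext (hcon ψ)
      rw [Finset.sum_eq_single (oneIrr (G ⧸ L)) (fun ψ _ hψ => absurd (h2 ψ) hψ) (fun h3 => absurd (Finset.mem_univ _) h3)] at h1
      have h3 : ((oneIrr (G ⧸ L) : IrrCharacter (G ⧸ L)) : G ⧸ L → ℂ) 1 = 1 := rfl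
      rw [h3, one_pow] at h1
      have h4 : Nat.card (G ⧸ L) = 1 := by exact_mod_cast h1.symm
      have h5 := Finite.one_lt_card (α := G ⧸ L)
      omega
    obtain ⟨ψ, hψ⟩ := hex
    have hχ := h (Lib.Degree.inflate L ψ) (by
      intro p hp
      rw [key _ p hp]
      intro n hn
      have h1 : n ∈ L := by
        rw [hL]
        exact (le_iSup₂ (f := fun p (_ : p ∈ π) => pPrimeCore p G) p hp) hn
      exact Lib.Degree.inflate_kerContains L ψ n h1)
    apply hψ
    funext q
    obtain ⟨g, rfl⟩ := QuotientGroup.mk_surjective q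
    exact congrFun hχ g
  · intro hsup χ hχ
    by_contra hne
    have hker : L ≤ Lib.Degree.kerOf (χ : G → ℂ) := by
      refine iSup₂_le fun p hp n hn => ?_
      rw [Lib.Degree.mem_kerOf_iff (IsIrrCharacter.isCharacter χ.2)]
      exact (key χ p hp).mp (hχ p hp) n hn
    rw [hsup] at hker
    have hconst : ∀ g, (χ : G → ℂ) g = (χ : G → ℂ) 1 := fun g =>
      (Lib.Degree.mem_kerOf_iff (IsIrrCharacter.isCharacter χ.2)).mp (hker (Subgroup.mem_top g))
    have h0 := classInner_irr_of_ne χ.2 (isIrrCharacter_one (G := G)) hne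
    rw [classInner_def] at h0
    simp only [hconst, map_one, mul_one, Finset.sum_const, Finset.card_univ, nsmul_eq_mul] at h0
    have hG : (Nat.card G : ℂ) ≠ 0 := by
      have : Nat.card G ≠ 0 := Nat.card_pos.ne'
      exact_mod_cast this
    rw [← Nat.card_eq_fintype_card] at h0
    rw [← mul_assoc, inv_mul_cancel₀ hG, one_mul] at h0
    exact isIrr_one_ne_zero χ.2 h0

end Cfsg.Agent.S4611
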