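import Cfsg.Statements.S4620
import Cfsg.Agent.Lib.TISylow.Basic
import Mathlib

set_option autoImplicit false
open scoped Pointwise
open Cfsg

namespace Cfsg.Agent.S4620

open Subgroup Cfsg.Agent.Lib.TISylow

/-- Let H be a finite group with no nontrivial normal p-subgroup and no nontrivial normal subgroup of order prime to p, whose Sylow p-subgroup P is nontrivial and a trivial-intersection set (P meets its conjugates by elements outside N_H(P) trivially). Then H has a unique minimal normal subgroup N; N is non-abelian simple with trivial centralizer in H (so H embeds in Aut(N)), and a Sylow p-subgroup of N is again a nontrivial trivial-intersection set in N. -/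
theorem result {H : Type*} [Group H] [Finite H] (p : ℕ) [Fact p.Prime] (hOp : Cfsg.pCore p H = ⊥) (hOp' : Cfsg.pPrimeCore p H = ⊥) (P : Sylow p H) (hP1 : (P : Subgroup H) ≠ ⊥)
    (hTI : ∀ g : H, g ∉ Subgroup.normalizer ((P : Subgroup H) : Set H) → (P : Subgroup H) ⊓ (MulAut.conj g • (P : Subgroup H)) = ⊥) :
    ∃ N : Subgroup H, N.Normal ∧ N ≠ ⊥ ∧ (∀ K : Subgroup H, K.Normal → K ≠ ⊥ → N ≤ K) ∧
      IsSimpleGroup N ∧ ¬ IsMulCommutative N ∧ Subgroup.centralizer (N : Set H) = ⊥ ∧
      ∀ Q : Sylow p N, (Q : Subgroup N) ≠ ⊥ ∧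
        ∀ n : N, n ∉ Subgroup.normalizer ((Q : Subgroup N) : Set N) → (Q : Subgroup N) ⊓ (MulAut.conj n • (Q : Subgroup N)) = ⊥ := by
  have hp : p.Prime := Fact.out
  have hall : ∀ Q : Sylow p H, TI (Q : Subgroup H) := fun Q => (TI.of_inf hTI).sylow Q
  have htop : (⊤ : Subgroup H) ≠ ⊥ := by
    intro h1
    apply hP1
    rw [eq_bot_iff]
    intro x _
    rw [← h1]; trivial
  obtain ⟨N, hNn, hN1, -, hNmin⟩ := Cfsg.Agent.Lib.Core.exists_minimal_normal_le (inferInstance : (⊤ : Subgroup H).Normal) htop
  -- commuting lemma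
  have hnc : ∀ A B : Subgroup H, A.Normal → B.Normal → A ≠ ⊥ → B ≠ ⊥ → (∀ a ∈ A, ∀ b ∈ B, a * b = b * a) → False := by
    intro A B hA hB hA1 hB1 hAB
    exact not_commute hall hOp hOp' A B hA1 hB1 hAB
  have hcommin : ∀ (A B : Subgroup H), A.Normal → B.Normal → A ⊓ B = ⊥ → ∀ a ∈ A, ∀ b ∈ B, a * b = b * a := by
    intro A B hA hB hAB a ha b hb
    have h1 : a * b * a⁻¹ * b⁻¹ ∈ A ⊓ B := by
      constructor
      · have h2 := hA.conj_mem a⁻¹ (A.inv_mem ha) b
        have h3 : a * b * a⁻¹ * b⁻¹ = a * (b * a⁻¹ * b⁻¹) := by group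
        rw [h3]
        exact A.mul_mem ha h2
      · exact B.mul_mem (hB.conj_mem b hb a) (B.inv_mem hb)
    rw [hAB, Subgroup.mem_bot] at h1
    have h2 : a * b * a⁻¹ = b := by
      have := congrArg (fun z => z * b) h1
      simpa using this
    calc a * b = a * b * a⁻¹ * a := by group
      _ = b * a := by rw [h2]
  -- the facts in `N`
  have hOpN : Cfsg.pCore p N = ⊥ := by
    have h1 := Cfsg.Agent.Lib.Core.map_pCore_of_normal (p := p) N
    rw [hOp, inf_bot_eq] at h1
    exact (Subgroup.map_eq_bot_iff_of_injective _ N.subtype_injective).1 h1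
  have hOp'N : Cfsg.pPrimeCore p N = ⊥ := by
    have h1 := Cfsg.Agent.Lib.Core.map_pPrimeCore_of_normal (p := p) N
    rw [hOp', inf_bot_eq] at h1
    exact (Subgroup.map_eq_bot_iff_of_injective _ N.subtype_injective).1 h1
  have hallN : ∀ Q : Sylow p N, TI (Q : Subgroup N) := fun Q => TI.subgroup hall N Q
  have hNcard : p ∣ Nat.card N := by
    by_contra hnd
    apply hN1
    have h1 : (Nat.card N).Coprime p := ((Nat.Prime.coprime_iff_not_dvd hp).2 hnd).symm
    have h2 := Cfsg.Agent.Lib.Core.le_pPrimeCore hNn h1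
    rw [hOp'] at h2
    exact le_bot_iff.1 h2
  refine ⟨N, hNn, hN1, ?_, ?_, ?_, ?_, ?_⟩
  · -- every nontrivial normal subgroup contains `N`
    intro K hK hK1
    obtain ⟨L, hLn, hL1, hLK, hLmin⟩ := Cfsg.Agent.Lib.Core.exists_minimal_normal_le hK hK1
    have hLN : L = N := by
      by_contra hne
      have h1 : L ⊓ N = ⊥ := by
        rcases hLmin (L ⊓ N) (by haveI := hLn; haveI := hNn; infer_instance) inf_le_left with h2 | h2
        · exact h2
        · exfalso
          have h3 : L ≤ N := h2 ▸ inf_le_right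
          rcases hNmin L hLn h3 with h4 | h4
          · exact hL1 h4
          · exact hne h4
      exact hnc L N hLn hNn hL1 hN1 (hcommin L N hLn hNn h1)
    exact hLN ▸ hLK
  · -- simple
    haveI : Nontrivial N := (Subgroup.nontrivial_iff_ne_bot N).2 hN1
    refine ⟨?_⟩
    intro S hS
    by_cases hS1 : S = ⊥
    · exact Or.inl hS1
    right
    obtain ⟨T, hTn, hT1, hTS, hTmin⟩ := Cfsg.Agent.Lib.Core.exists_minimal_normal_le hS hS1
    have hconj : ∀ e : N ≃* N, T.map e.toMonoidHom = T := by
      intro e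
      set T' := T.map e.toMonoidHom with hT'
      have hT'n : T'.Normal := hTn.map _ e.surjective
      have hT'1 : T' ≠ ⊥ := by
        rw [hT', Ne, Subgroup.map_eq_bot_iff_of_injective _ e.injective]
        exact hT1
      have hcomm : ∀ (A B : Subgroup N), A.Normal → B.Normal → A ⊓ B = ⊥ → ∀ a ∈ A, ∀ b ∈ B, a * b = b * a := by
        intro A B hA hB hAB a ha b hb
        have h1 : a * b * a⁻¹ * b⁻¹ ∈ A ⊓ B := by
          constructor
          · have h2 := hA.conj_mem a⁻¹ (A.inv_mem ha) b
            have h3 : a * b * a⁻¹ * b⁻¹ = a * (b * a⁻¹ * b⁻¹) := by group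
            rw [h3]
            exact A.mul_mem ha h2
          · exact B.mul_mem (hB.conj_mem b hb a) (B.inv_mem hb)
        rw [hAB, Subgroup.mem_bot] at h1
        have h2 : a * b * a⁻¹ = b := by
          have := congrArg (fun z => z * b) h1
          simpa using this
        calc a * b = a * b * a⁻¹ * a := by group
          _ = b * a := by rw [h2]
      rcases hTmin (T ⊓ T') (by haveI := hTn; haveI := hT'n; infer_instance) inf_le_left with h2 | h2
      · exfalso
        exact not_commute hallN hOpN hOp'N T T' hT1 hT'1 (hcomm T T' hTn hT'n h2)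
      · have hle : T ≤ T' := h2 ▸ inf_le_right
        symm
        apply Subgroup.eq_of_le_of_card_ge hle
        rw [hT', Subgroup.card_map_of_injective e.injective]
    -- the image of `T` in `H` is normal
    have hTt : (T.map N.subtype).Normal := by
      constructor
      rintro _ ⟨t, ht, rfl⟩ h
      obtain ⟨e, he⟩ : ∃ e : N ≃* N, ∀ t : N, ((e t : N) : H) = h * t * h⁻¹ :=
        ⟨MulAut.conjNormal h, fun t => MulAut.conjNormal_apply h t⟩
      have h1 : e t ∈ T.map e.toMonoidHom := ⟨t, ht, rfl⟩
      rw [hconj e] at h1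
      refine ⟨_, h1, ?_⟩
      simp [he]
    have hTN : T.map N.subtype ≤ N := Subgroup.map_subtype_le _
    rcases hNmin _ hTt hTN with h1 | h1
    · exfalso
      exact hT1 ((Subgroup.map_eq_bot_iff_of_injective _ N.subtype_injective).1 h1)
    · rw [eq_top_iff]
      intro n _
      apply hTS
      have hn : (n : H) ∈ T.map N.subtype := by rw [h1]; exact n.2
      obtain ⟨t, ht, hnt⟩ := hn
      have : t = n := Subtype.ext hnt
      exact this ▸ ht
  · -- nonabelian
    intro hab
    apply hnc N N hNn hNn hN1 hN1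
    intro a ha b hb
    have := mul_comm' (⟨a, ha⟩ : N) ⟨b, hb⟩
    exact congrArg Subtype.val this
  · -- centralizer
    by_contra hC
    have hCn : (Subgroup.centralizer (N : Set H)).Normal := inferInstance
    apply hnc _ N hCn hNn hC hN1
    intro a ha b hb
    exact (Subgroup.mem_centralizer_iff.1 ha b hb).symm
  · -- Sylow
    intro Q
    constructor
    · exact Q.ne_bot_of_dvd_card hNcard
    · intro n hn
      exact (hallN Q).inf_eq_bot n hn

end Cfsg.Agent.S4620
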