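import Cfsg.Statements.S4623
import Mathlib
import Cfsg.Agent.Lib.AltChar.SylowExp

set_option autoImplicit false
open Cfsg

namespace Cfsg.Agent.S4623


open Cfsg.Agent.Lib.AltChar in
theorem conj_pow_mem {X : Type} (p : ℕ) {G H : Subgroup (Equiv.Perm X)} (g : Equiv.Perm X)
    (hH : H = G.map (MulAut.conj g).toMonoidHom) (hG : ∀ x ∈ G, x ^ p ∈ ⁅G, G⁆) :
    ∀ x ∈ H, x ^ p ∈ ⁅H, H⁆ := by
  subst hH
  rintro _ ⟨y, hy, rfl⟩
  rw [← Subgroup.map_commutator, ← map_pow]
  exact Subgroup.mem_map_of_mem _ (hG y hy)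

open Cfsg.Agent.Lib.AltChar in
/-- The intersection of the model with the alternating group. -/
theorem model_inf_alt {n : ℕ} {G U : Subgroup (Equiv.Perm (Fin n))} (h : IsModel 2 G U) :
    ∀ x ∈ G ⊓ alternatingGroup (Fin n), x ^ 2 ∈ ⁅G ⊓ alternatingGroup (Fin n), G ⊓ alternatingGroup (Fin n)⁆ := by
  obtain ⟨hU, hE, hdec, hs⟩ := h
  have hs' := hs rfl
  have hU' : U ≤ G ⊓ alternatingGroup (Fin n) := fun u hu => ⟨hU hu, hs' u hu⟩
  rintro x ⟨hx, hxa⟩
  obtain ⟨b, hb, u, hu, rfl, hbp⟩ := hdec x hx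
  have hba : b ∈ alternatingGroup (Fin n) := by
    have h1 : Equiv.Perm.sign (b * u) = 1 := hxa
    rw [map_mul, hs' u hu, mul_one] at h1
    exact h1
  refine mul_pow_mem_commutator _ 2 ⟨hb, hba⟩ (hU' hu) (by rw [hbp]; exact one_mem _) ?_
  exact Subgroup.commutator_mono hU' hU' (hE u hu)

/-- The sign is trivial on an odd `p`-group. -/
theorem sign_eq_one_of_pgroup {n p : ℕ} (hp : p.Prime) (hp2 : p ≠ 2) {S : Subgroup (Equiv.Perm (Fin n))}
    (hS : IsPGroup p S) (x : Equiv.Perm (Fin n)) (hx : x ∈ S) : Equiv.Perm.sign x = 1 := by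
  obtain ⟨k, hk⟩ := hS ⟨x, hx⟩
  have h1 : x ^ p ^ k = 1 := congrArg Subtype.val hk
  have h2 : Equiv.Perm.sign x ^ p ^ k = 1 := by rw [← map_pow, h1, map_one]
  rcases Int.units_eq_one_or (Equiv.Perm.sign x) with h | h
  · exact h
  · rw [h] at h2
    have hodd : Odd (p ^ k) := (hp.odd_of_ne_two hp2).pow
    rw [hodd.neg_one_pow] at h2
    exact absurd h2 (by decide)

/-- For every prime p and every n, a Sylow p-subgroup P of the symmetric group on n letters has P/P' elementary abelian (the p-th power of every element of P lies in the derived subgroup of P), and the same holds for a Sylow p-subgroup of the alternating group on n letters. -/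
theorem result (p : ℕ) [Fact p.Prime] (n : ℕ) (P : Sylow p (Equiv.Perm (Fin n))) (Q : Sylow p (alternatingGroup (Fin n))) :
    (∀ x : (P : Subgroup (Equiv.Perm (Fin n))), x ^ p ∈ commutator (P : Subgroup (Equiv.Perm (Fin n)))) ∧
    (∀ x : (Q : Subgroup (alternatingGroup (Fin n))), x ^ p ∈ commutator (Q : Subgroup (alternatingGroup (Fin n)))) := by
  open Cfsg.Agent.Lib.AltChar in
  obtain ⟨G, U, hmod, g, hg⟩ := sylow_perm_pow_mem p n P
  have hP := conj_pow_mem p g hg hmod.pow_mem
  constructor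
  · intro x
    rw [mem_commutator_coe]
    simpa using hP x.1 x.2
  · -- the alternating group
    intro x
    rw [mem_commutator_coe]
    have hQp : IsPGroup p ((Q : Subgroup (alternatingGroup (Fin n))).map (alternatingGroup (Fin n)).subtype) :=
      Q.isPGroup'.map _
    obtain ⟨S, hS⟩ := hQp.exists_le_sylow
    obtain ⟨G', U', hmod', g', hg'⟩ := sylow_perm_pow_mem p n S
    have hQS : (Q : Subgroup (alternatingGroup (Fin n))) =
        (S : Subgroup (Equiv.Perm (Fin n))).comap (alternatingGroup (Fin n)).subtype := by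
      refine (Q.is_maximal' (S.isPGroup'.comap_of_injective _ (Subgroup.subtype_injective _)) ?_).symm
      intro y hy
      exact hS (Subgroup.mem_map_of_mem _ hy)
    have hQmap : (Q : Subgroup (alternatingGroup (Fin n))).map (alternatingGroup (Fin n)).subtype =
        (S : Subgroup (Equiv.Perm (Fin n))) ⊓ alternatingGroup (Fin n) := by
      rw [hQS, Subgroup.map_comap_eq, Subgroup.range_subtype, inf_comm]
    have key : ∀ y ∈ (S : Subgroup (Equiv.Perm (Fin n))) ⊓ alternatingGroup (Fin n),
        y ^ p ∈ ⁅(S : Subgroup (Equiv.Perm (Fin n))) ⊓ alternatingGroup (Fin n),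
          (S : Subgroup (Equiv.Perm (Fin n))) ⊓ alternatingGroup (Fin n)⁆ := by
      by_cases hp2 : p = 2
      · subst hp2
        refine conj_pow_mem 2 g' ?_ (model_inf_alt hmod')
        have hA : (alternatingGroup (Fin n)).map (MulAut.conj g').toMonoidHom = alternatingGroup (Fin n) :=
          Subgroup.Normal.map_conj_eq _ _
        rw [hg', Subgroup.map_inf _ _ _ (MulAut.conj g').injective, hA]
      · have hsub : (S : Subgroup (Equiv.Perm (Fin n))) ≤ alternatingGroup (Fin n) := fun y hy =>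
          sign_eq_one_of_pgroup (Fact.out) hp2 S.isPGroup' y hy
        rw [inf_eq_left.mpr hsub]
        exact conj_pow_mem p g' hg' hmod'.pow_mem
    have h1 : ((x : alternatingGroup (Fin n)) : Equiv.Perm (Fin n)) ∈
        (S : Subgroup (Equiv.Perm (Fin n))) ⊓ alternatingGroup (Fin n) := by
      rw [← hQmap]
      exact Subgroup.mem_map_of_mem _ x.2
    have h2 := key _ h1
    rw [← hQmap, ← Subgroup.map_commutator] at h2
    obtain ⟨y, hy, hyx⟩ := h2
    have : y = ((x : alternatingGroup (Fin n)) ^ p) := Subtype.ext (by simpa using hyx)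
    rw [this] at hy
    simpa using hy

end Cfsg.Agent.S4623
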