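import Cfsg.Statements.S4628
import Mathlib
import Cfsg.Agent.Lib.AltChar.GL2Data
import Cfsg.Agent.Lib.Known3.SelfCent

set_option autoImplicit false
open Cfsg
open scoped MatrixGroups

namespace Cfsg.Agent.S4628


open Matrix Cfsg.Agent.Lib.AltChar in
/-- The embedding `GL_{2m} → SL_{2m+1}`. -/
noncomputable def glToSL (m : ℕ) (F : Type*) [Field F] :
    GL (Fin 2 × Fin m) F →* Matrix.SpecialLinearGroup (Fin 2 × Fin m ⊕ Unit) F where
  toFun g := ⟨fromBlocks g.1 0 0 (diagonal fun _ => (((GeneralLinearGroup.det g)⁻¹ : Fˣ) : F)), by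
    rw [det_fromBlocks_zero₂₁, det_diagonal]
    simp only [Finset.univ_unique, Finset.prod_singleton, map_inv, Units.val_inv_eq_inv_val,
      GeneralLinearGroup.val_det_apply]
    exact mul_inv_cancel₀ (by simpa using (GeneralLinearGroup.det g).ne_zero)⟩
  map_one' := by
    apply Subtype.ext
    simp
  map_mul' g h := by
    apply Subtype.ext
    change fromBlocks (g * h).1 0 0 _ = fromBlocks g.1 0 0 _ * fromBlocks h.1 0 0 _
    rw [fromBlocks_multiply]
    simp only [Units.val_mul, Matrix.mul_zero, Matrix.zero_mul, add_zero, zero_add,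
      diagonal_mul_diagonal, map_mul, _root_.mul_inv_rev]
    congr 2
    funext _
    simp [mul_comm]

open Matrix in
theorem glToSL_injective (m : ℕ) (F : Type*) [Field F] : Function.Injective (glToSL m F) := by
  intro g h hgh
  have e : ∀ g : GL (Fin 2 × Fin m) F, ((glToSL m F g).1).toBlocks₁₁ = g.1 := fun g =>
    toBlocks_fromBlocks₁₁ _ _ _ _
  apply Units.ext
  rw [← e g, ← e h, hgh]

/-- Let F be a finite field of odd order q with 4 dividing q + 1, and m ≥ 1. Then a Sylow 2-subgroup P of SL_{2m+1}(F) has P/P' elementary abelian: the square of every element of P lies in the derived subgroup of P. -/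
theorem result {F : Type*} [Field F] [Fintype F] (hF : Odd (Fintype.card F)) (hq : 4 ∣ Fintype.card F + 1) (m : ℕ) (hm : 1 ≤ m) (P : Sylow 2 (Matrix.SpecialLinearGroup (Fin (2 * m + 1)) F)) :
    ∀ x : (P : Subgroup (Matrix.SpecialLinearGroup (Fin (2 * m + 1)) F)), x ^ 2 ∈ commutator (P : Subgroup (Matrix.SpecialLinearGroup (Fin (2 * m + 1)) F)) := by
  classical
  open Matrix Cfsg.Agent.Lib.AltChar Cfsg.Agent.Lib.Known3.SelfCent in
  haveI : Fact (Nat.Prime 2) := ⟨Nat.prime_two⟩
  have hq2 : 2 ≤ Fintype.card F := Fintype.one_lt_card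
  obtain ⟨H, K, hD, hH⟩ := exists_gl2Data (F := F) hq
  obtain ⟨T, U, hT, hmod⟩ := exists_model 2 m (Fin m) (by simp)
  have hc : Fintype.card (Fin 2 × Fin m ⊕ Unit) = 2 * m + 1 := by simp
  let e := Fintype.equivFinOfCardEq hc
  let φ : GL (Fin 2 × Fin m) F →* Matrix.SpecialLinearGroup (Fin (2 * m + 1)) F :=
    (slR e F).toMonoidHom.comp (glToSL m F)
  have hφ : Function.Injective φ := (slR e F).injective.comp (glToSL_injective m F)
  have hW := glWrData (F := F) (m := m) |>.map φ hφ
  refine sylow_exp_of_sub 2 (wrSub hW H T) ?_ (pow_mem_wrSub hW 2 hD.expH hmod.pow_mem) P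
  rw [card_wrSub, hH, hT, Nat.factorization_def _ Nat.prime_two, ← pow_mul, ← pow_add]
  congr 1
  have h1 := val_card_SL hF (2 * m + 1) (by omega)
  have h2 := val_card_GL hF 2
  have h3 := fVal_two_mul hq2 hq 1
  have h4 := fVal_two_mul hq2 hq m
  have h5 := fVal_two_mul_add_one hq2 hq m
  have h6 := val_sub_one_of_three hq2 hq
  simp only [mul_one, Nat.factorial_one, padicValNat_one_right, add_zero, one_mul] at h3
  rw [h2]
  have e2 : fVal (Fintype.card F) 2 = 1 + padicValNat 2 (Fintype.card F ^ 2 - 1) := h3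
  rw [e2]
  have e3 := mul_comm (1 + padicValNat 2 (Fintype.card F ^ 2 - 1)) m
  omega

end Cfsg.Agent.S4628
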