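import Cfsg.Statements.S4741
import Mathlib
import Cfsg.Agent.Lib.Degree.Sums
import Cfsg.Agent.Lib.Degree.ClassProd
import Cfsg.Agent.Lib.Block.Height
import Cfsg.Agent.Lib.Block.MinMax
import Cfsg.Agent.Lib.Block.Osima
import Cfsg.Agent.Lib.CharExtra.DefectClass

set_option autoImplicit false
open Cfsg

namespace Cfsg.Agent.S4741


open Cfsg.Agent.Lib.Block Cfsg.Agent.Lib.Char Cfsg.Agent.Lib.Degree
open Cfsg.Agent.Lib.CharExtra

section Pair

variable {G : Type*} [Group G] [Fintype G]

open Classical in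
/-- The number of pairs `(c, d)` with `(c x c⁻¹)(d y d⁻¹)⁻¹ = w`. -/
noncomputable def pairCount (x y w : G) : ℕ :=
  (Finset.univ.filter (fun q : G × G => (q.1 * x * q.1⁻¹) * (q.2 * y * q.2⁻¹)⁻¹ = w)).card

theorem pairCount_cast (x y w : G) :
    (pairCount x y w : ℂ) = (Fintype.card G : ℂ) *
      ∑ χ : IrrCharacter G, (χ : G → ℂ) w⁻¹ * (χ : G → ℂ) x * (χ : G → ℂ) y⁻¹ / (χ : G → ℂ) 1 := by
  classical
  have hG : (Fintype.card G : ℂ) ≠ 0 := by
    exact_mod_cast Fintype.card_ne_zero
  apply mul_left_cancel₀ hG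
  have h1 : (Fintype.card G : ℂ) * pairCount x y w =
      ∑ c : G, ∑ d : G, ∑ χ : IrrCharacter G,
        (χ : G → ℂ) 1 * (χ : G → ℂ) ((c * x * c⁻¹) * (d * y * d⁻¹)⁻¹ * w⁻¹) := by
    simp_rw [sum_irr_degree_mul]
    rw [pairCount, Finset.card_filter, ← Finset.sum_product', Nat.cast_sum, Finset.mul_sum]
    refine Finset.sum_congr rfl fun q _ => ?_
    by_cases hq : (q.1 * x * q.1⁻¹) * (q.2 * y * q.2⁻¹)⁻¹ = w
    · rw [if_pos hq, if_pos (by rw [hq]; simp)]
      simp
    · rw [if_neg hq, if_neg]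
      · simp
      · intro h2
        apply hq
        exact mul_inv_eq_one.mp h2
  rw [h1]
  have h2 : ∀ χ : IrrCharacter G, ∑ c : G, ∑ d : G,
      (χ : G → ℂ) 1 * (χ : G → ℂ) ((c * x * c⁻¹) * (d * y * d⁻¹)⁻¹ * w⁻¹) =
      (Fintype.card G : ℂ) * (Fintype.card G : ℂ) *
        ((χ : G → ℂ) w⁻¹ * (χ : G → ℂ) x * (χ : G → ℂ) y⁻¹ / (χ : G → ℂ) 1) := by
    intro χ
    have hχ1 := irr_degree_ne_zero χ
    have h3 : ∀ c : G, ∑ d : G,
        (χ : G → ℂ) 1 * (χ : G → ℂ) ((c * x * c⁻¹) * (d * y * d⁻¹)⁻¹ * w⁻¹) =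
        (Fintype.card G : ℂ) * (χ : G → ℂ) (w⁻¹ * (c * x * c⁻¹)) * (χ : G → ℂ) y⁻¹ := by
      intro c
      rw [← Finset.mul_sum]
      have h4 : ∀ d : G, (χ : G → ℂ) ((c * x * c⁻¹) * (d * y * d⁻¹)⁻¹ * w⁻¹) =
          (χ : G → ℂ) ((w⁻¹ * (c * x * c⁻¹)) * (d * y⁻¹ * d⁻¹)) := by
        intro d
        rw [irr_mul_comm]
        congr 1
        group
      simp_rw [h4]
      rw [irr_sum_conj]
      field_simp
    simp_rw [h3]
    rw [← Finset.sum_mul, ← Finset.mul_sum, irr_sum_conj]
    field_simp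
  rw [Finset.sum_congr rfl (fun c _ => Finset.sum_comm), Finset.sum_comm]
  rw [Finset.sum_congr rfl (fun χ _ => h2 χ), ← Finset.mul_sum]
  ring

/-- Summing over a `p`-subgroup. -/
theorem sum_pair_identity (P : Subgroup G) [Fintype P] (x y : G)
    (hno : ∀ g h, IsConj x g → IsConj y h → g * h⁻¹ ∈ P → g * h⁻¹ = 1) :
    ∑ χ : IrrCharacter G, (∑ w : P, (χ : G → ℂ) (w : G)⁻¹) *
        ((χ : G → ℂ) x * (χ : G → ℂ) y⁻¹ / (χ : G → ℂ) 1) =
      ∑ χ : IrrCharacter G, (χ : G → ℂ) x * (χ : G → ℂ) y⁻¹ := by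
  classical
  have hG : (Fintype.card G : ℂ) ≠ 0 := by
    exact_mod_cast Fintype.card_ne_zero
  have h1 : ∑ w : P, (pairCount x y (w : G) : ℂ) = (pairCount x y 1 : ℂ) := by
    rw [Finset.sum_eq_single (1 : P)]
    · rfl
    · intro w _ hw
      have h2 : pairCount x y (w : G) = 0 := by
        rw [pairCount, Finset.card_eq_zero, Finset.filter_eq_empty_iff]
        rintro ⟨c, d⟩ _ h3
        simp only at h3
        have h4 := hno (c * x * c⁻¹) (d * y * d⁻¹) (isConj_iff.mpr ⟨c, rfl⟩)
          (isConj_iff.mpr ⟨d, rfl⟩) (by rw [h3]; exact w.2)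
        rw [h3] at h4
        exact hw (Subtype.ext h4)
      rw [h2]
      simp
    · intro h2
      exact absurd (Finset.mem_univ _) h2
  simp_rw [pairCount_cast] at h1
  rw [← Finset.mul_sum] at h1
  have h3 := mul_left_cancel₀ hG h1
  rw [Finset.sum_comm] at h3
  have e1 : ∑ χ : IrrCharacter G, (χ : G → ℂ) (1 : G)⁻¹ * (χ : G → ℂ) x * (χ : G → ℂ) y⁻¹ / (χ : G → ℂ) 1 =
      ∑ χ : IrrCharacter G, (χ : G → ℂ) x * (χ : G → ℂ) y⁻¹ := by
    refine Finset.sum_congr rfl fun χ _ => ?_
    have hχ1 := irr_degree_ne_zero χ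
    rw [inv_one]
    field_simp
  rw [e1] at h3
  rw [← h3]
  refine Finset.sum_congr rfl fun χ _ => ?_
  rw [Finset.sum_mul]
  refine Finset.sum_congr rfl fun w _ => ?_
  ring

end Pair

section Residue

variable {G : Type*} [Group G] [Fintype G] {p : ℕ} [hp : Fact p.Prime] {M : Ideal AlgInt}

/-- The central character at `g`, as an algebraic integer. -/
noncomputable def omI (χ : IrrCharacter G) (g : G) : AlgInt :=
  ⟨centralChar (χ : G → ℂ) g, isIntegral_centralChar χ.2 g⟩

@[simp] theorem omI_coe (χ : IrrCharacter G) (g : G) :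
    ((omI χ g : AlgInt) : ℂ) = centralChar (χ : G → ℂ) g := rfl

theorem centralizer_inv_eq (y : G) :
    Subgroup.centralizer ({y⁻¹} : Set G) = Subgroup.centralizer ({y} : Set G) := by
  ext u
  rw [Subgroup.mem_centralizer_singleton_iff, Subgroup.mem_centralizer_singleton_iff]
  constructor
  · intro h
    calc u * y = y * (y⁻¹ * u) * y := by group
      _ = y * (u * y⁻¹) * y := by rw [h]
      _ = y * u := by group
  · intro h
    calc u * y⁻¹ = y⁻¹ * (y * u) * y⁻¹ := by group
      _ = y⁻¹ * (u * y) * y⁻¹ := by rw [h]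
      _ = y⁻¹ * u := by group

/-- A quotient of natural numbers with the denominator having smaller `p`-part is in the ideal. -/
theorem memLocalIdeal_natCast_div (hM : IsPModular p M) {n₁ n₂ : ℕ} (h1 : n₁ ≠ 0) (h2 : n₂ ≠ 0)
    (h : n₂.factorization p < n₁.factorization p) :
    MemLocalIdeal M ((n₁ : ℂ) / (n₂ : ℂ)) := by
  have := isPModular_isPrime hM
  set e := n₂.factorization p with he
  have e2 : p ^ e * (n₂ / p ^ e) = n₂ := Nat.ordProj_mul_ordCompl_eq_self n₂ p
  have m2 : ¬ p ∣ n₂ / p ^ e := Nat.not_dvd_ordCompl hp.out h2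
  have hd : p ^ (e + 1) ∣ n₁ :=
    (hp.out.pow_dvd_iff_le_factorization h1).mpr h
  obtain ⟨t, ht⟩ := hd
  set b := n₂ / p ^ e
  have hp0 : ((p : ℂ) ^ e) ≠ 0 := pow_ne_zero _ (by exact_mod_cast hp.out.ne_zero)
  have hb0 : (b : ℂ) ≠ 0 := by
    intro h0
    have : b = 0 := by exact_mod_cast h0
    exact m2 (this ▸ dvd_zero p)
  have h3 : (n₁ : ℂ) / (n₂ : ℂ) = (p : ℂ) * ((t : ℂ) * (b : ℂ)⁻¹) := by
    rw [← e2, ht]
    push_cast
    rw [pow_succ]
    field_simp
  rw [h3]
  exact memLocalIdeal_mul_right (memLocalIdeal_p hM)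
    (memLocalRing_mul (memLocalRing_natCast _) (memLocalRing_natCast_inv hM m2))

/-- The residue identity. -/
theorem residue_identity (hM : IsPModular p M) (P : Subgroup G) [Fintype P]
    (hP : Nat.card P = p ^ (Nat.card G).factorization p) (n : IrrCharacter G → ℕ)
    (hn : ∀ χ : IrrCharacter G, ∑ w : P, (χ : G → ℂ) (w : G)⁻¹ = (Nat.card P : ℂ) * n χ)
    (d : ℕ) {x y : G} (hx : (Nat.card (Subgroup.centralizer ({x} : Set G))).factorization p = d)
    (hy : (Nat.card (Subgroup.centralizer ({y} : Set G))).factorization p = d)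
    (hno : ∀ g h, IsConj x g → IsConj y h → g * h⁻¹ ∈ P → g * h⁻¹ = 1) [Decidable (IsConj x y)] :
    (∑ χ ∈ Finset.univ.filter (fun χ : IrrCharacter G =>
        (charDegree (χ : G → ℂ)).factorization p = (Nat.card G).factorization p - d),
        (((n χ * (charDegree (χ : G → ℂ) / p ^ ((Nat.card G).factorization p - d)) : ℕ) : AlgInt) *
          omI χ x * omI χ y⁻¹)) -
      (((((Subgroup.centralizer ({x} : Set G)).index / p ^ ((Nat.card G).factorization p - d)) *
        ((Subgroup.centralizer ({y} : Set G)).index / p ^ ((Nat.card G).factorization p - d)) *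
        (if IsConj x y then Nat.card (Subgroup.centralizer ({y} : Set G)) / p ^ d else 0) : ℕ)) : AlgInt) ∈ M := by
  classical
  have hprime := isPModular_isPrime hM
  rw [← memLocalIdeal_algInt_iff]
  set a := (Nat.card G).factorization p with ha
  -- orders
  have hda : d ≤ a := by
    rw [← hx, ha]
    exact (Nat.factorization_le_iff_dvd Nat.card_pos.ne' Nat.card_pos.ne').mpr
      (Subgroup.card_subgroup_dvd_card _) p
  set q := p ^ (a - d) with hq
  have hq0 : (q : ℂ) ≠ 0 := by
    rw [hq]; push_cast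
    exact pow_ne_zero _ (by exact_mod_cast hp.out.ne_zero)
  have hpd0 : ((p : ℂ) ^ d) ≠ 0 := pow_ne_zero _ (by exact_mod_cast hp.out.ne_zero)
  have hindex : ∀ z : G, (Nat.card (Subgroup.centralizer ({z} : Set G))).factorization p = d →
      q ∣ (Subgroup.centralizer ({z} : Set G)).index := by
    intro z hz
    rw [hq, hp.out.pow_dvd_iff_le_factorization (Cfsg.Agent.Lib.Char.centralizer_index_pos z).ne']
    have h1 := Cfsg.Agent.Lib.Char.index_mul_card_centralizer z
    have h2 := congrArg (fun m => m.factorization p) h1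
    simp only [Nat.factorization_mul (Cfsg.Agent.Lib.Char.centralizer_index_pos z).ne' Nat.card_pos.ne',
      Finsupp.add_apply] at h2
    omega
  obtain ⟨kx, hkx⟩ := hindex x hx
  obtain ⟨ky, hky⟩ := hindex y hy
  have hyi : (Subgroup.centralizer ({y⁻¹} : Set G)).index = q * ky := by
    rw [centralizer_inv_eq, hky]
  have hq' : 0 < q := by rw [hq]; exact pow_pos hp.out.pos _
  have hkx' : (Subgroup.centralizer ({x} : Set G)).index / q = kx := by
    rw [hkx]; exact Nat.mul_div_cancel_left _ hq'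
  have hky' : (Subgroup.centralizer ({y} : Set G)).index / q = ky := by
    rw [hky]; exact Nat.mul_div_cancel_left _ hq'
  rw [hkx', hky']
  -- the centraliser order
  have hcy : p ^ d ∣ Nat.card (Subgroup.centralizer ({y} : Set G)) := by
    rw [hp.out.pow_dvd_iff_le_factorization Nat.card_pos.ne', hy]
  obtain ⟨cy, hcyy⟩ := hcy
  have hcy' : Nat.card (Subgroup.centralizer ({y} : Set G)) / p ^ d = cy := by
    rw [hcyy]; exact Nat.mul_div_cancel_left _ (pow_pos hp.out.pos _)
  rw [hcy']
  -- the identity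
  have hid := sum_pair_identity P x y hno
  have hso : ∑ χ : IrrCharacter G, (χ : G → ℂ) x * (χ : G → ℂ) y⁻¹ =
      if IsConj x y then (Nat.card (Subgroup.centralizer ({y} : Set G)) : ℂ) else 0 := by
    rw [← second_orthogonality' x y]
    refine Finset.sum_congr rfl fun χ _ => ?_
    rw [irr_map_inv]
  rw [hso] at hid
  have hpa : (Nat.card P : ℂ) = (p : ℂ) ^ d * (q : ℂ) := by
    rw [hP, hq]
    push_cast
    rw [← pow_add]
    congr 1
    omega
  set N : ℕ := kx * ky * (if IsConj x y then cy else 0) with hN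
  -- `L` and its sum
  let L : IrrCharacter G → ℂ := fun χ => (kx : ℂ) * (ky : ℂ) * (n χ : ℂ) * (q : ℂ) *
    ((χ : G → ℂ) x * (χ : G → ℂ) y⁻¹ / (χ : G → ℂ) 1)
  have hL : ∑ χ, L χ = (N : ℂ) := by
    have h1 : ∑ χ : IrrCharacter G, (n χ : ℂ) * (q : ℂ) *
        ((χ : G → ℂ) x * (χ : G → ℂ) y⁻¹ / (χ : G → ℂ) 1) = if IsConj x y then (cy : ℂ) else 0 := by
      apply mul_left_cancel₀ hpd0
      rw [Finset.mul_sum]
      have h2 : ∀ χ : IrrCharacter G, (p : ℂ) ^ d * ((n χ : ℂ) * (q : ℂ) *
          ((χ : G → ℂ) x * (χ : G → ℂ) y⁻¹ / (χ : G → ℂ) 1)) =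
          (∑ w : P, (χ : G → ℂ) (w : G)⁻¹) * ((χ : G → ℂ) x * (χ : G → ℂ) y⁻¹ / (χ : G → ℂ) 1) := by
        intro χ
        rw [hn, hpa]
        ring
      simp_rw [h2]
      rw [hid]
      split_ifs
      · rw [hcyy]; push_cast; ring
      · simp
    have h3 : ∑ χ, L χ = (kx : ℂ) * (ky : ℂ) * ∑ χ : IrrCharacter G, (n χ : ℂ) * (q : ℂ) *
        ((χ : G → ℂ) x * (χ : G → ℂ) y⁻¹ / (χ : G → ℂ) 1) := by
      rw [Finset.mul_sum]
      refine Finset.sum_congr rfl fun χ _ => ?_
      simp only [L]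
      ring
    rw [h3, h1, hN]
    split_ifs <;> simp
  -- characters with divisible degree
  have hf : ∀ χ : IrrCharacter G, (χ : G → ℂ) 1 = (charDegree (χ : G → ℂ) : ℂ) := fun χ =>
    Cfsg.Agent.Lib.Char.map_one_eq_charDegree (IsIrrCharacter.isCharacter χ.2)
  have hf0 : ∀ χ : IrrCharacter G, (charDegree (χ : G → ℂ) : ℂ) ≠ 0 := fun χ => by
    rw [← hf]; exact irr_degree_ne_zero χ
  have hLeq : ∀ χ : IrrCharacter G, q ∣ charDegree (χ : G → ℂ) →
      L χ = ((n χ * (charDegree (χ : G → ℂ) / q) : ℕ) : ℂ) * centralChar (χ : G → ℂ) x *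
        centralChar (χ : G → ℂ) y⁻¹ := by
    intro χ hd
    obtain ⟨t, ht⟩ := hd
    have ht' : charDegree (χ : G → ℂ) / q = t := by
      rw [ht]; exact Nat.mul_div_cancel_left _ hq'
    rw [ht']
    have h0 := hf0 χ
    simp only [L, centralChar]
    rw [hyi, hkx, hf χ]
    push_cast
    rw [ht] at h0 ⊢
    push_cast at h0 ⊢
    have h01 : (q : ℂ) ≠ 0 := left_ne_zero_of_mul h0
    have h02 : (t : ℂ) ≠ 0 := right_ne_zero_of_mul h0
    field_simp
  -- the other characters contribute to the ideal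
  have hLmem : ∀ χ : IrrCharacter G, (charDegree (χ : G → ℂ)).factorization p ≠ a - d → MemLocalIdeal M (L χ) := by
    intro χ hne
    rcases lt_or_gt_of_ne hne with hlt | hgt
    · have e : L χ = ((q : ℂ) / (charDegree (χ : G → ℂ) : ℂ)) *
          ((kx : ℂ) * (ky : ℂ) * (n χ : ℂ) * ((χ : G → ℂ) x * (χ : G → ℂ) y⁻¹)) := by
        simp only [L]
        rw [hf χ]
        ring
      rw [e]
      refine memLocalIdeal_mul_right (memLocalIdeal_natCast_div hM hq'.ne'
        (Cfsg.Agent.Lib.Char.charDegree_pos_of_irr χ.2).ne' ?_) ?_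
      · rw [hq, hp.out.factorization_pow]
        simpa using hlt
      · refine memLocalRing_mul (memLocalRing_mul (memLocalRing_mul (memLocalRing_natCast _)
          (memLocalRing_natCast _)) (memLocalRing_natCast _)) (memLocalRing_mul ?_ ?_) <;>
        exact memLocalRing_of_isIntegral (Cfsg.Agent.Lib.Char.IsCharacter.isIntegral'
          (IsIrrCharacter.isCharacter χ.2) _)
    · have hd : q ∣ charDegree (χ : G → ℂ) := by
        rw [hq, hp.out.pow_dvd_iff_le_factorization (Cfsg.Agent.Lib.Char.charDegree_pos_of_irr χ.2).ne']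
        exact hgt.le
      rw [hLeq χ hd]
      have hpd : p ∣ n χ * (charDegree (χ : G → ℂ) / q) := by
        apply Dvd.dvd.mul_left
        obtain ⟨t, ht⟩ := hd
        have ht' : charDegree (χ : G → ℂ) / q = t := by
          rw [ht]; exact Nat.mul_div_cancel_left _ hq'
        rw [ht']
        by_contra hcon
        have ht0 : t ≠ 0 := fun h0 => hcon (h0 ▸ dvd_zero p)
        have h4 : (charDegree (χ : G → ℂ)).factorization p = (a - d) + t.factorization p := by
          rw [ht, Nat.factorization_mul hq'.ne' ht0, hq, hp.out.factorization_pow]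
          simp
        have h5 := Nat.factorization_eq_zero_of_not_dvd hcon
        omega
      refine memLocalIdeal_mul_right (memLocalIdeal_mul_right
        ((memLocalIdeal_natCast_iff hM _).mpr hpd) ?_) ?_ <;>
      exact memLocalRing_of_isIntegral (isIntegral_centralChar χ.2 _)
  -- assemble
  have hsplit := Finset.sum_filter_add_sum_filter_not (Finset.univ : Finset (IrrCharacter G))
    (fun χ : IrrCharacter G => (charDegree (χ : G → ℂ)).factorization p = a - d) L
  rw [hL] at hsplit
  have hS : ∑ χ ∈ Finset.univ.filter (fun χ : IrrCharacter G =>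
      (charDegree (χ : G → ℂ)).factorization p = a - d), L χ =
      ∑ χ ∈ Finset.univ.filter (fun χ : IrrCharacter G =>
        (charDegree (χ : G → ℂ)).factorization p = a - d),
        ((n χ * (charDegree (χ : G → ℂ) / q) : ℕ) : ℂ) * centralChar (χ : G → ℂ) x *
          centralChar (χ : G → ℂ) y⁻¹ := by
    refine Finset.sum_congr rfl fun χ hχ => ?_
    apply hLeq
    rw [hq, hp.out.pow_dvd_iff_le_factorization (Cfsg.Agent.Lib.Char.charDegree_pos_of_irr χ.2).ne']
    exact (Finset.mem_filter.mp hχ).2.ge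
  rw [hS] at hsplit
  have hcoe : (((∑ χ ∈ Finset.univ.filter (fun χ : IrrCharacter G =>
        (charDegree (χ : G → ℂ)).factorization p = a - d),
        (((n χ * (charDegree (χ : G → ℂ) / q) : ℕ) : AlgInt) *
          omI χ x * omI χ y⁻¹)) -
      ((N : ℕ) : AlgInt) : AlgInt) : ℂ) =
      - ∑ χ ∈ Finset.univ.filter (fun χ : IrrCharacter G =>
        ¬ (charDegree (χ : G → ℂ)).factorization p = a - d), L χ := by
    push_cast
    simp only [omI_coe]
    rw [sub_eq_iff_eq_add]
    have h5 := hsplit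
    push_cast at h5
    rw [← h5]
    ring
  rw [hcoe]
  refine memLocalIdeal_neg (memLocalIdeal_sum _ _ fun χ hχ => hLmem χ (Finset.mem_filter.mp hχ).2)

end Residue

/-- Let p be a prime, M a maximal ideal of the algebraic integers containing p, and D a subgroup of the finite group G. Let x₁, …, x_r be pairwise non-conjugate elements of G such that D is a Sylow p-subgroup of the centralizer of each xᵢ, and such that for any conjugates g of some xᵢ and h of some xⱼ the element g h⁻¹ is never a non-identity p-element. Then there are r distinct p-blocks B₁, …, B_r of G, each having D as a defect group, such that for every choice of characters χᵢ ∈ Bᵢ of height zero the determinant of the r × r matrix (χᵢ(xⱼ)) does not lie in the local ideal at M. -/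
theorem result {G : Type*} [Group G] [Finite G] (p : ℕ) [Fact p.Prime] (M : Ideal Cfsg.AlgInt) (hM : Cfsg.IsPModular p M) (D : Subgroup G) {r : ℕ} (x : Fin r → G) (hx : ∀ i j : Fin r, IsConj (x i) (x j) → i = j) (hD : ∀ i : Fin r, ∃ S : Sylow p ↥(Subgroup.centralizer ({x i} : Set G)), (S : Subgroup ↥(Subgroup.centralizer ({x i} : Set G))).map (Subgroup.centralizer ({x i} : Set G)).subtype = D) (hsep : ∀ i j : Fin r, ∀ g h : G, IsConj (x i) g → IsConj (x j) h → ∀ k : ℕ, 0 < k → orderOf (g * h⁻¹) ≠ p ^ k) : ∃ B : Fin r → Set (Cfsg.IrrCharacter G), Function.Injective B ∧ (∀ i : Fin r, Cfsg.IsPBlock M (B i) ∧ Cfsg.IsDefectGroup p M (B i) D) ∧ ∀ χ : Fin r → Cfsg.IrrCharacter G, (∀ i : Fin r, χ i ∈ B i ∧ Cfsg.blockHeight p (B i) (χ i : G → ℂ) = 0) → ¬ Cfsg.MemLocalIdeal M (Matrix.det (Matrix.of fun i j : Fin r => (χ i : G → ℂ) (x j))) := by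

  classical
  have : Fintype G := Fintype.ofFinite G
  have hprime : M.IsPrime := isPModular_isPrime hM
  have hmax : M.IsMaximal := hM.2.1
  have hpp : p.Prime := Fact.out
  obtain ⟨P⟩ : Nonempty (Sylow p G) := inferInstance
  have : Fintype (P : Subgroup G) := Fintype.ofFinite _
  have hPc : Nat.card (P : Subgroup G) = p ^ (Nat.card G).factorization p := P.card_eq_multiplicity
  choose n hn using sum_irr_inv_eq_card_mul (P : Subgroup G)
  set a := (Nat.card G).factorization p with ha
  set d := (Nat.card D).factorization p with hd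
  have hDcard : ∀ i, Nat.card D = p ^ (Nat.card (Subgroup.centralizer ({x i} : Set G))).factorization p := by
    intro i
    obtain ⟨S, hS⟩ := hD i
    rw [← hS, card_map_sylow]
  have hdi : ∀ i, (Nat.card (Subgroup.centralizer ({x i} : Set G))).factorization p = d := by
    intro i
    rw [hd, hDcard i, hpp.factorization_pow]
    simp
  have hdiinv : ∀ i, (Nat.card (Subgroup.centralizer ({(x i)⁻¹} : Set G))).factorization p = d := by
    intro i
    rw [centralizer_inv_eq]
    exact hdi i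
  have hda : ∀ i : Fin r, d ≤ a := by
    intro i
    rw [← hdi i, ha]
    exact (Nat.factorization_le_iff_dvd Nat.card_pos.ne' Nat.card_pos.ne').mpr
      (Subgroup.card_subgroup_dvd_card _) p
  have hnoo : ∀ i j : Fin r, ∀ g h, IsConj (x i) g → IsConj (x j) h → g * h⁻¹ ∈ (P : Subgroup G) → g * h⁻¹ = 1 := by
    intro i j g h hg hh hmem
    have hpg : IsPGroup p (P : Subgroup G) := P.isPGroup'
    obtain ⟨k, hk⟩ := (IsPGroup.iff_orderOf.mp hpg) ⟨g * h⁻¹, hmem⟩
    have hk' : orderOf (g * h⁻¹) = p ^ k := by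
      rw [← hk]
      exact (Subgroup.orderOf_mk _ _).symm
    by_cases hk0 : k = 0
    · rw [hk0, pow_zero, orderOf_eq_one_iff] at hk'
      exact hk'
    · exact absurd hk' (hsep i j g h hg hh k (Nat.pos_of_ne_zero hk0))
  -- the residue field
  letI kF : Field (AlgInt ⧸ M) := Ideal.Quotient.field M
  let mk : AlgInt →+* (AlgInt ⧸ M) := Ideal.Quotient.mk M
  have hmk0 : ∀ z : AlgInt, mk z = 0 ↔ z ∈ M := fun z => Ideal.Quotient.eq_zero_iff_mem
  have hmkN : ∀ m : ℕ, ¬ p ∣ m → mk (m : AlgInt) ≠ 0 := by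
    intro m hm h0
    exact hm ((isPModular_natCast_mem_iff hM m).mp ((hmk0 _).mp h0))
  let S := {χ : IrrCharacter G // (charDegree (χ : G → ℂ)).factorization p = a - d}
  letI : Fintype S := Fintype.ofFinite _
  let β : S → ℕ := fun χ => n χ.1 * (charDegree (χ.1 : G → ℂ) / p ^ (a - d))
  let Ω : Matrix (Fin r) S (AlgInt ⧸ M) := fun i χ => mk (omI χ.1 (x i))
  let Ω' : Matrix S (Fin r) (AlgInt ⧸ M) := fun χ j => mk (β χ : AlgInt) * mk (omI χ.1 (x j)⁻¹)
  let u : Fin r → ℕ := fun j => ((Subgroup.centralizer ({x j} : Set G)).index / p ^ (a - d)) *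
    ((Subgroup.centralizer ({x j} : Set G)).index / p ^ (a - d)) *
    (Nat.card (Subgroup.centralizer ({x j} : Set G)) / p ^ d)
  have hu : ∀ j, ¬ p ∣ u j := by
    intro j hdvd
    have h1 : ¬ p ∣ Nat.card (Subgroup.centralizer ({x j} : Set G)) / p ^ d := by
      have := Nat.not_dvd_ordCompl hpp (Nat.card_pos (α := Subgroup.centralizer ({x j} : Set G))).ne'
      rwa [hdi j] at this
    have h2 : ¬ p ∣ (Subgroup.centralizer ({x j} : Set G)).index / p ^ (a - d) := by
      have h0 := (Cfsg.Agent.Lib.Char.centralizer_index_pos (x j)).ne'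
      have h3 := Nat.not_dvd_ordCompl hpp h0
      have h4 := Cfsg.Agent.Lib.Char.index_mul_card_centralizer (x j)
      have h5 := congrArg (fun m => m.factorization p) h4
      simp only [Nat.factorization_mul h0 Nat.card_pos.ne', Finsupp.add_apply] at h5
      rw [hdi j] at h5
      have h6 : (Subgroup.centralizer ({x j} : Set G)).index.factorization p = a - d := by
        have := hda j
        omega
      rwa [h6] at h3
    rcases (Nat.Prime.dvd_mul hpp).mp hdvd with h | h
    · rcases (Nat.Prime.dvd_mul hpp).mp h with h | h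
      · exact h2 h
      · exact h2 h
    · exact h1 h
  have hprod : Ω * Ω' = Matrix.diagonal (fun j => mk (u j : AlgInt)) := by
    ext i j
    have hr := residue_identity hM (P : Subgroup G) hPc n hn d (hdi i) (hdi j) (hnoo i j)
    have hr0 := (hmk0 _).mpr hr
    rw [map_sub, sub_eq_zero, map_sum] at hr0
    rw [Matrix.mul_apply]
    have e1 : ∑ χ : S, Ω i χ * Ω' χ j = ∑ χ ∈ Finset.univ.filter (fun χ : IrrCharacter G =>
        (charDegree (χ : G → ℂ)).factorization p = a - d),
        mk (((n χ * (charDegree (χ : G → ℂ) / p ^ (a - d)) : ℕ) : AlgInt) * omI χ (x i) * omI χ (x j)⁻¹) := by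
      rw [Finset.sum_subtype (Finset.univ.filter (fun χ : IrrCharacter G =>
        (charDegree (χ : G → ℂ)).factorization p = a - d)) (p := fun χ : IrrCharacter G =>
        (charDegree (χ : G → ℂ)).factorization p = a - d) (fun χ => by simp)]
      refine Finset.sum_congr rfl fun χ _ => ?_
      simp only [Ω, Ω', β, map_mul]
      ring
    rw [e1, hr0]
    by_cases hij : i = j
    · subst hij
      rw [Matrix.diagonal_apply_eq, if_pos (IsConj.refl _)]
    · rw [Matrix.diagonal_apply_ne _ hij, if_neg (fun h => hij (hx i j h)), mul_zero]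
      simp
  have hu0 : ∀ j, mk (u j : AlgInt) ≠ 0 := fun j => hmkN _ (hu j)
  have hsurj : Function.Surjective Ω.mulVecLin := by
    intro v
    refine ⟨Ω'.mulVec (fun j => v j / mk (u j : AlgInt)), ?_⟩
    rw [Matrix.mulVecLin_apply, Matrix.mulVec_mulVec, hprod]
    funext j
    rw [Matrix.mulVec_diagonal]
    exact mul_div_cancel₀ _ (hu0 j)
  have hspan : Submodule.span (AlgInt ⧸ M) (Set.range Ω.col) = ⊤ := by
    rw [← Matrix.range_mulVecLin, LinearMap.range_eq_top]
    exact hsurj
  obtain ⟨b, hbsub, hbspan, hbli⟩ := exists_linearIndependent (AlgInt ⧸ M) (Set.range Ω.col)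
  rw [hspan] at hbspan
  have hbfin : Finite b := ((Set.finite_range _).subset hbsub)
  letI : Fintype b := Fintype.ofFinite _
  have hcard : Fintype.card b = r := by
    have e := Module.finrank_eq_card_basis (Module.Basis.mk hbli (by rw [Subtype.range_coe]; exact hbspan.ge))
    rw [Module.finrank_fintype_fun_eq_card, Fintype.card_fin] at e
    exact e.symm
  let e : Fin r ≃ b := (Fintype.equivFinOfCardEq hcard).symm
  have hli : LinearIndependent (AlgInt ⧸ M) (fun l => ((e l : b) : Fin r → AlgInt ⧸ M)) :=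
    hbli.comp e e.injective
  have hex : ∀ l, ∃ χ : S, Ω.col χ = ((e l : b) : Fin r → AlgInt ⧸ M) := fun l => hbsub (e l).2
  choose χ₀ hχ₀ using hex
  let Δ : Matrix (Fin r) (Fin r) (AlgInt ⧸ M) := Matrix.of (fun l i => mk (omI (χ₀ l).1 (x i)))
  have hΔrow : Δ.row = fun l => ((e l : b) : Fin r → AlgInt ⧸ M) := by
    funext l i
    rw [← hχ₀ l]
    rfl
  have hdet : Δ.det ≠ 0 := by
    have h1 : LinearIndependent (AlgInt ⧸ M) Δ.row := by
      rw [hΔrow]
      exact hli
    have h2 := Matrix.linearIndependent_rows_iff_isUnit.mp h1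
    exact ((Matrix.isUnit_iff_isUnit_det _).mp h2).ne_zero
  -- blocks
  let B : Fin r → Set (IrrCharacter G) := fun l => blockOf M ((χ₀ l).1 : G → ℂ)
  have hmem : ∀ l, (χ₀ l).1 ∈ B l := fun l => mem_blockOf_self _
  have hsame : ∀ l (ψ : IrrCharacter G), ψ ∈ B l → ∀ g, mk (omI ψ g) = mk (omI (χ₀ l).1 g) := by
    intro l ψ hψ g
    have h1 := hψ g
    have h2 : omI (χ₀ l).1 g - omI ψ g ∈ M := by
      rw [← memLocalIdeal_algInt_iff]
      simpa using h1
    have h3 := (hmk0 _).mpr h2
    rw [map_sub, sub_eq_zero] at h3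
    exact h3.symm
  have hinj : Function.Injective B := by
    intro l l' h
    by_contra hne
    apply hdet
    have hrow : Δ l = Δ l' := by
      funext i
      show mk (omI (χ₀ l).1 (x i)) = mk (omI (χ₀ l').1 (x i))
      exact (hsame l (χ₀ l').1 (h ▸ hmem l') (x i)).symm
    exact Matrix.det_zero_of_row_eq hne hrow
  have hexi : ∀ l, ∃ i, mk (omI (χ₀ l).1 (x i)) ≠ 0 := by
    intro l
    by_contra hcon
    push Not at hcon
    exact hdet (Matrix.det_eq_zero_of_row_eq_zero l hcon)
  have hnotmem : ∀ l i, mk (omI (χ₀ l).1 (x i)) ≠ 0 → ∀ ψ ∈ B l,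
      ¬ MemLocalIdeal M (centralChar (ψ : G → ℂ) (x i)) := by
    intro l i hi ψ hψ h
    have h1 := (memLocalIdeal_algInt_iff (omI ψ (x i))).mp h
    apply hi
    rw [← hsame l ψ hψ]
    exact (hmk0 _).mpr h1
  have hmin : ∀ l, minExp p (B l) = a - d := by
    intro l
    obtain ⟨i, hi⟩ := hexi l
    apply le_antisymm
    · calc minExp p (B l) ≤ (charDegree ((χ₀ l).1 : G → ℂ)).factorization p := minExp_le (hmem l)
        _ = a - d := (χ₀ l).2
    · unfold minExp
      refine le_csInf (Set.Nonempty.image _ ⟨(χ₀ l).1, hmem l⟩) ?_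
      rintro _ ⟨ψ, hψ, rfl⟩
      have h1 := factorization_le_of_unit hM ψ.2 (hnotmem l i hi ψ hψ)
      rw [hdi i] at h1
      show a - d ≤ (charDegree (ψ : G → ℂ)).factorization p
      omega
  have hdefect : ∀ l, IsDefectGroup p M (B l) D := by
    intro l
    obtain ⟨i, hi⟩ := hexi l
    have hbl := isPBlock_blockOf (M := M) (χ₀ l).1
    obtain ⟨g, hg⟩ := exists_isDefectClass hbl
    obtain ⟨Pg⟩ : Nonempty (Sylow p (Subgroup.centralizer ({g} : Set G))) := inferInstance
    obtain ⟨Si, hSi⟩ := hD i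
    have hunit := hnotmem l i hi (χ₀ l).1 (hmem l)
    have hEp : IsPGroup p ((Pg : Subgroup (Subgroup.centralizer ({g} : Set G))).map
        (Subgroup.centralizer ({g} : Set G)).subtype) := Pg.isPGroup'.map _
    have hEle : (Pg : Subgroup (Subgroup.centralizer ({g} : Set G))).map
        (Subgroup.centralizer ({g} : Set G)).subtype ≤ Subgroup.centralizer ({g} : Set G) := by
      rintro _ ⟨u, _, rfl⟩
      exact u.2
    obtain ⟨y, hy⟩ := minmax_le hM hbl (hmem l) hunit hg.2.1 hEp hEle Si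
    rw [hSi] at hy
    have hcE : Nat.card ((Pg : Subgroup (Subgroup.centralizer ({g} : Set G))).map
        (Subgroup.centralizer ({g} : Set G)).subtype) = p ^ d := by
      rw [card_map_sylow, factorization_centralizer_of_defectClass hM hbl hg]
      have h1 := hmin l
      have h2 := hda i
      have h3 : minExp p (blockOf M ((χ₀ l).1 : G → ℂ)) = a - d := h1
      rw [h3]
      congr 1
      omega
    have hcD : Nat.card (D.map (MulAut.conj y).toMonoidHom) = p ^ d := by
      rw [Subgroup.card_map_of_injective (MulAut.conj y).injective, hDcard i, hdi i]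
    have heq := Subgroup.eq_of_le_of_card_ge hy (by rw [hcE, hcD])
    have hdg : IsDefectGroup p M (B l) (D.map (MulAut.conj y).toMonoidHom) := ⟨g, hg, Pg, heq.symm⟩
    have h2 := isDefectGroup_conj hdg y⁻¹
    have h3 : (D.map (MulAut.conj y).toMonoidHom).map (MulAut.conj y⁻¹).toMonoidHom = D := by
      ext u
      constructor
      · rintro ⟨_, ⟨v, hv, rfl⟩, rfl⟩
        have e : (MulAut.conj y⁻¹).toMonoidHom ((MulAut.conj y).toMonoidHom v) = v := by
          simp only [MulEquiv.coe_toMonoidHom, MulAut.conj_apply]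
          group
        rwa [e]
      · intro hu'
        refine ⟨y * u * y⁻¹, ⟨u, hu', by simp [MulAut.conj_apply]⟩, ?_⟩
        simp only [MulEquiv.coe_toMonoidHom, MulAut.conj_apply]
        group
    rwa [h3] at h2
  refine ⟨B, hinj, fun l => ⟨isPBlock_blockOf _, hdefect l⟩, ?_⟩
  intro χ hχ hdetmem
  have he : ∀ l, (charDegree (χ l : G → ℂ)).factorization p = a - d := fun l => by
    rw [factorization_eq_minExp_of_height (hχ l).1 (hχ l).2, hmin l]
  let W : Matrix (Fin r) (Fin r) AlgInt := Matrix.of (fun l j => omI (χ l) (x j))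
  let φ : AlgInt →+* ℂ := (AlgInt).val.toRingHom
  have hφ : φ.mapMatrix W = Matrix.of (fun l j => ((charDegree (χ l : G → ℂ) : ℂ))⁻¹ *
      (Matrix.of (fun l j => ((Subgroup.centralizer ({x j} : Set G)).index : ℂ) *
        (Matrix.of fun i j : Fin r => (χ i : G → ℂ) (x j)) l j)) l j) := by
    ext l j
    show centralChar (χ l : G → ℂ) (x j) = _
    unfold centralChar
    rw [Cfsg.Agent.Lib.Char.map_one_eq_charDegree (IsIrrCharacter.isCharacter (χ l).2)]
    simp only [Matrix.of_apply]
    ring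
  have hWdet : ((W.det : AlgInt) : ℂ) = (∏ l, (((Subgroup.centralizer ({x l} : Set G)).index : ℂ) /
      (charDegree (χ l : G → ℂ) : ℂ))) * Matrix.det (Matrix.of fun i j : Fin r => (χ i : G → ℂ) (x j)) := by
    have h1 : ((W.det : AlgInt) : ℂ) = (φ.mapMatrix W).det := RingHom.map_det φ W
    rw [h1, hφ, Matrix.det_mul_column, Matrix.det_mul_row, ← mul_assoc, ← Finset.prod_mul_distrib]
    congr 1
    refine Finset.prod_congr rfl fun l _ => ?_
    rw [div_eq_inv_mul]
  have hWmem : W.det ∈ M := by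
    rw [← memLocalIdeal_algInt_iff, hWdet]
    refine memLocalIdeal_mul_left ?_ hdetmem
    refine (localRing M).prod_mem fun l _ => ?_
    refine (localUnit_natCast_div hM (Cfsg.Agent.Lib.Char.centralizer_index_pos (x l)).ne'
      (Cfsg.Agent.Lib.Char.charDegree_pos_of_irr (χ l).2).ne' ?_).1
    rw [he l]
    have h0 := (Cfsg.Agent.Lib.Char.centralizer_index_pos (x l)).ne'
    have h4 := Cfsg.Agent.Lib.Char.index_mul_card_centralizer (x l)
    have h5 := congrArg (fun m => m.factorization p) h4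
    simp only [Nat.factorization_mul h0 Nat.card_pos.ne', Finsupp.add_apply] at h5
    rw [hdi l] at h5
    have := hda l
    omega
  apply hdet
  have h1 := (hmk0 _).mpr hWmem
  have h2 : mk W.det = (mk.mapMatrix W).det := RingHom.map_det mk W
  rw [h2] at h1
  rw [← h1]
  congr 1
  ext l j
  exact (hsame l (χ l) (hχ l).1 (x j)).symm

end Cfsg.Agent.S4741
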