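import Cfsg.Statements.S4742
import Mathlib
import Cfsg.Agent.Lib.Degree.ClassProd

set_option autoImplicit false
open Cfsg

namespace Cfsg.Agent.S4742

/-- Let p ≠ q be primes dividing the order of the finite group G, and suppose the centralizer of every non-identity p-element of G has order prime to q. Then either G has an irreducible character of p-defect zero, or for every non-identity q-element z of G there are conjugates g, h of z such that g h⁻¹ is a non-identity p-element. -/
theorem result {G : Type*} [Group G] [Finite G] (p q : ℕ) [Fact p.Prime] [Fact q.Prime] (hppq : p ≠ q) (hpG : p ∣ Nat.card G) (hqG : q ∣ Nat.card G) (hC : ∀ g : G, g ≠ 1 → (∃ k : ℕ, orderOf g = p ^ k) → ¬ q ∣ Nat.card ↥(Subgroup.centralizer ({g} : Set G))) : (∃ χ : Cfsg.IrrCharacter G, (Cfsg.charDegree (χ : G → ℂ)).factorization p = (Nat.card G).factorization p) ∨ ∀ z : G, z ≠ 1 → (∃ k : ℕ, orderOf z = q ^ k) → ∃ g h : G, IsConj z g ∧ IsConj z h ∧ g * h⁻¹ ≠ 1 ∧ ∃ k : ℕ, orderOf (g * h⁻¹) = p ^ k := by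
  classical
  have : Fintype G := Fintype.ofFinite G
  have hpp : p.Prime := Fact.out
  by_contra hcon
  push Not at hcon
  obtain ⟨hdef, z, hz1, ⟨k, hk⟩, hz⟩ := hcon
  obtain ⟨P⟩ : Nonempty (Sylow p G) := inferInstance
  have hcard : Nat.card (P : Subgroup G) = p ^ (Nat.card G).factorization p := P.card_eq_multiplicity
  obtain ⟨χ, hχ⟩ := Cfsg.Agent.Lib.Degree.exists_degree_dvd_of_no_diff (p := p) P hcard z (by
    intro g h hg hh hgh
    by_contra h1
    obtain ⟨j, hj⟩ := (IsPGroup.iff_orderOf.mp P.isPGroup') ⟨_, hgh⟩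
    exact hz g h hg hh h1 j (by rw [← hj, Subgroup.orderOf_mk]))
  -- the centralizer of `z` has order prime to `p`
  have hnd : ¬ p ∣ Nat.card (Subgroup.centralizer ({z} : Set G)) := by
    intro hd
    obtain ⟨u, hu⟩ := exists_prime_orderOf_dvd_card' (G := Subgroup.centralizer ({z} : Set G)) p hd
    have hu' : orderOf (u : G) = p := by rw [Subgroup.orderOf_coe, hu]
    have hu1 : (u : G) ≠ 1 := by
      intro h0
      rw [h0, orderOf_one] at hu'
      exact hpp.one_lt.ne hu'
    apply hC u hu1 ⟨1, by rw [hu', pow_one]⟩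
    have hk0 : k ≠ 0 := by
      rintro rfl
      apply hz1
      rw [pow_zero] at hk
      exact orderOf_eq_one_iff.mp hk
    have hzm : (⟨z, Subgroup.mem_centralizer_singleton_iff.mpr
        (Subgroup.mem_centralizer_singleton_iff.mp u.2).symm⟩ :
        Subgroup.centralizer ({(u : G)} : Set G)) ∈ (⊤ : Subgroup _) := trivial
    have h1 := orderOf_dvd_natCard (⟨z, Subgroup.mem_centralizer_singleton_iff.mpr
        (Subgroup.mem_centralizer_singleton_iff.mp u.2).symm⟩ :
        Subgroup.centralizer ({(u : G)} : Set G))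
    rw [Subgroup.orderOf_mk, hk] at h1
    exact (dvd_pow_self q hk0).trans h1
  have hv : (Nat.card (Subgroup.centralizer ({z} : Set G))).factorization p = 0 :=
    Nat.factorization_eq_zero_of_not_dvd hnd
  rw [hv, Nat.sub_zero] at hχ
  apply hdef χ
  have hχ0 : Cfsg.charDegree (χ : G → ℂ) ≠ 0 :=
    (Cfsg.Agent.Lib.Char.charDegree_dvd_card χ.2 |> fun h => ne_zero_of_dvd_ne_zero Nat.card_pos.ne' h)
  apply le_antisymm
  · exact (Nat.factorization_le_iff_dvd hχ0 Nat.card_pos.ne').mpr
      (Cfsg.Agent.Lib.Char.charDegree_dvd_card χ.2) p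
  · exact (hpp.pow_dvd_iff_le_factorization hχ0).mp hχ

end Cfsg.Agent.S4742
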