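import Cfsg.Statements.S4743
import Mathlib
import Cfsg.Agent.S4742

set_option autoImplicit false
open Cfsg

namespace Cfsg.Agent.S4743

theorem no_pq_symm {G : Type*} [Group G] [Finite G] (p q : ℕ) [hpf : Fact p.Prime] [hqf : Fact q.Prime]
    (hC : ∀ g : G, g ≠ 1 → (∃ k : ℕ, orderOf g = p ^ k) →
      ¬ q ∣ Nat.card ↥(Subgroup.centralizer ({g} : Set G)))
    (z : G) (hz1 : z ≠ 1) (hz : ∃ k : ℕ, orderOf z = q ^ k) :
    ¬ p ∣ Nat.card ↥(Subgroup.centralizer ({z} : Set G)) := by
  have hpp : p.Prime := hpf.out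
  obtain ⟨k, hk⟩ := hz
  intro hd
  obtain ⟨u, hu⟩ := exists_prime_orderOf_dvd_card' (G := Subgroup.centralizer ({z} : Set G)) p hd
  have hu' : orderOf (u : G) = p := by rw [Subgroup.orderOf_coe, hu]
  have hu1 : (u : G) ≠ 1 := by
    intro h0
    rw [h0, orderOf_one] at hu'
    exact hpp.one_lt.ne hu'
  apply hC u hu1 ⟨1, by rw [hu', pow_one]⟩
  have hk0 : k ≠ 0 := by
    rintro rfl
    apply hz1
    rw [pow_zero] at hk
    exact orderOf_eq_one_iff.mp hk
  have h1 := orderOf_dvd_natCard (⟨z, Subgroup.mem_centralizer_singleton_iff.mpr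
      (Subgroup.mem_centralizer_singleton_iff.mp u.2).symm⟩ :
      Subgroup.centralizer ({(u : G)} : Set G))
  rw [Subgroup.orderOf_mk, hk] at h1
  exact (dvd_pow_self q hk0).trans h1

theorem false_of_solvable {G : Type*} [Group G] [Finite G] (p q : ℕ) [hpf : Fact p.Prime]
    [hqf : Fact q.Prime] (hpq : p ≠ q) (hpG : p ∣ Nat.card G) (hsolv : Cfsg.IsPSolvable p G)
    (h1 : ∀ z : G, z ≠ 1 → (∃ k : ℕ, orderOf z = q ^ k) → ∃ g h : G, IsConj z g ∧ IsConj z h ∧
      g * h⁻¹ ≠ 1 ∧ ∃ k : ℕ, orderOf (g * h⁻¹) = p ^ k)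
    (h2 : ∀ z : G, z ≠ 1 → (∃ k : ℕ, orderOf z = p ^ k) → ∃ g h : G, IsConj z g ∧ IsConj z h ∧
      g * h⁻¹ ≠ 1 ∧ ∃ k : ℕ, orderOf (g * h⁻¹) = q ^ k) : False := by
  have hpp : p.Prime := hpf.out
  have hqp : q.Prime := hqf.out
  obtain ⟨n, H, h0, hlast, hmono, hnorm, hfac⟩ := hsolv
  have hex : ∃ i : Fin n, ¬ p ∣ Nat.card (H i.castSucc) ∧ p ∣ Nat.card (H i.succ) := by
    by_contra hno
    push Not at hno
    have hall : ∀ i : Fin (n + 1), ¬ p ∣ Nat.card (H i) := by
      intro i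
      induction i using Fin.induction with
      | zero =>
        rw [h0, Subgroup.card_bot]
        exact fun h3 => hpp.one_lt.ne' (Nat.dvd_one.mp h3)
      | succ i ih => exact hno i ih
    have h3 := hall (Fin.last n)
    rw [hlast, Subgroup.card_top] at h3
    exact h3 hpG
  obtain ⟨i, hiL, hiK⟩ := hex
  set L := H i.castSucc with hL
  set K := H i.succ with hK
  have hLK : L ≤ K := hmono (Fin.castSucc_le_succ i)
  have hLn : L.Normal := hnorm _
  have hKn : K.Normal := hnorm _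
  have hcard : Nat.card L * L.relIndex K = Nat.card K := by
    rw [← Subgroup.relIndex_bot_left, ← Subgroup.relIndex_bot_left,
      Subgroup.relIndex_mul_relIndex _ _ _ bot_le hLK]
  obtain ⟨m, hm⟩ : ∃ m, L.relIndex K = p ^ m := by
    rcases hfac i with h3 | h3
    · exact h3
    · exfalso
      rw [← hcard] at hiK
      rcases (Nat.Prime.dvd_mul hpp).mp hiK with h4 | h4
      · exact hiL h4
      · have h5 := Nat.dvd_gcd h4 (dvd_refl p)
        rw [h3] at h5
        exact hpp.one_lt.ne' (Nat.dvd_one.mp h5)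
  have hpow : ∀ {g : G} {r : ℕ}, r.Prime → g ≠ 1 → (∃ k : ℕ, orderOf g = r ^ k) → r ∣ orderOf g := by
    intro g r hr hg ⟨k, hk⟩
    have hk0 : k ≠ 0 := by
      rintro rfl
      apply hg
      rw [pow_zero] at hk
      exact orderOf_eq_one_iff.mp hk
    rw [hk]
    exact dvd_pow_self r hk0
  have hconjmem : ∀ (A : Subgroup G), A.Normal → ∀ {z g : G}, z ∈ A → IsConj z g → g ∈ A := by
    intro A hA z g hz hg
    obtain ⟨c, rfl⟩ := isConj_iff.mp hg
    exact hA.conj_mem z hz c
  have hord : ∀ (A : Subgroup G) {x : G}, x ∈ A → orderOf x ∣ Nat.card A := by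
    intro A x hx
    have := orderOf_dvd_natCard (⟨x, hx⟩ : A)
    rwa [Subgroup.orderOf_mk] at this
  -- `q` does not divide `|L|`
  have hqL : ¬ q ∣ Nat.card L := by
    intro hd
    obtain ⟨z, hz⟩ := exists_prime_orderOf_dvd_card' (G := L) q hd
    have hz' : orderOf (z : G) = q := by rw [Subgroup.orderOf_coe, hz]
    have hz1 : (z : G) ≠ 1 := by
      intro h3
      rw [h3, orderOf_one] at hz'
      exact hqp.one_lt.ne hz'
    obtain ⟨g, h, hg, hh, hne, hk⟩ := h1 z hz1 ⟨1, by rw [hz', pow_one]⟩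
    have hgL := hconjmem L hLn z.2 hg
    have hhL := hconjmem L hLn z.2 hh
    exact hiL ((hpow hpp hne hk).trans (hord L (L.mul_mem hgL (L.inv_mem hhL))))
  have hqK : ¬ q ∣ Nat.card K := by
    rw [← hcard, hm]
    intro hd
    rcases (Nat.Prime.dvd_mul hqp).mp hd with h3 | h3
    · exact hqL h3
    · exact hpq ((Nat.prime_dvd_prime_iff_eq hqp hpp).mp (hqp.dvd_of_dvd_pow h3)).symm
  obtain ⟨z, hz⟩ := exists_prime_orderOf_dvd_card' (G := K) p hiK
  have hz' : orderOf (z : G) = p := by rw [Subgroup.orderOf_coe, hz]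
  have hz1 : (z : G) ≠ 1 := by
    intro h3
    rw [h3, orderOf_one] at hz'
    exact hpp.one_lt.ne hz'
  obtain ⟨g, h, hg, hh, hne, hk⟩ := h2 z hz1 ⟨1, by rw [hz', pow_one]⟩
  have hgK := hconjmem K hKn z.2 hg
  have hhK := hconjmem K hKn z.2 hh
  exact hqK ((hpow hqp hne hk).trans (hord K (K.mul_mem hgK (K.inv_mem hhK))))

/-- Let p ≠ q be primes dividing the order of the finite group G, suppose the centralizer of every non-identity p-element has order prime to q, and suppose G is p-solvable or q-solvable. Then G has an irreducible character of p-defect zero or an irreducible character of q-defect zero. -/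
theorem result {G : Type*} [Group G] [Finite G] (p q : ℕ) [Fact p.Prime] [Fact q.Prime] (hppq : p ≠ q) (hpG : p ∣ Nat.card G) (hqG : q ∣ Nat.card G) (hC : ∀ g : G, g ≠ 1 → (∃ k : ℕ, orderOf g = p ^ k) → ¬ q ∣ Nat.card ↥(Subgroup.centralizer ({g} : Set G))) (hsolv : Cfsg.IsPSolvable p G ∨ Cfsg.IsPSolvable q G) : (∃ χ : Cfsg.IrrCharacter G, (Cfsg.charDegree (χ : G → ℂ)).factorization p = (Nat.card G).factorization p) ∨ (∃ χ : Cfsg.IrrCharacter G, (Cfsg.charDegree (χ : G → ℂ)).factorization q = (Nat.card G).factorization q) := by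
  have hC' := no_pq_symm p q hC
  by_contra hcon
  rw [not_or] at hcon
  obtain ⟨hn1, hn2⟩ := hcon
  have A := (Cfsg.Agent.S4742.result p q hppq hpG hqG hC).resolve_left hn1
  have B := (Cfsg.Agent.S4742.result q p hppq.symm hqG hpG hC').resolve_left hn2
  rcases hsolv with hs | hs
  · exact false_of_solvable p q hppq hpG hs A B
  · exact false_of_solvable q p hppq.symm hqG hs B A

end Cfsg.Agent.S4743
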