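import Cfsg.Statements.S4744
import Mathlib
import Cfsg.Agent.Lib.Degree.InvertPair

set_option autoImplicit false
open Cfsg

namespace Cfsg.Agent.S4744

/-- Let p be an odd prime and G a finite group of even order divisible by p in which the centralizer of every non-identity p-element has odd order. Then either G has an irreducible character of p-defect zero, or the normalizer of every Sylow p-subgroup P of G has even order and P is abelian. -/
theorem result {G : Type*} [Group G] [Finite G] (p : ℕ) [Fact p.Prime] (hp2 : p ≠ 2) (hpG : p ∣ Nat.card G) (h2G : 2 ∣ Nat.card G) (hC : ∀ g : G, g ≠ 1 → (∃ k : ℕ, orderOf g = p ^ k) → Odd (Nat.card ↥(Subgroup.centralizer ({g} : Set G)))) : (∃ χ : Cfsg.IrrCharacter G, (Cfsg.charDegree (χ : G → ℂ)).factorization p = (Nat.card G).factorization p) ∨ ∀ P : Sylow p G, Even (Nat.card ↥(Subgroup.normalizer ((P : Subgroup G) : Set G))) ∧ IsMulCommutative ↥(P : Subgroup G) := by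
  by_contra hcon
  rw [not_or] at hcon
  obtain ⟨hn1, hn2⟩ := hcon
  obtain ⟨g, u, hg, hg1, hu, hup, hinv⟩ :=
    Cfsg.Agent.Lib.Degree.exists_inverted_pair p hp2 hpG h2G hC hn1
  apply hn2
  intro P
  have hO : Cfsg.Agent.Lib.Degree.OddCent p G := hC
  obtain ⟨s, hs, hs1, hsn⟩ := hO.forall_sylow hp2 hg hg1 hu hup hinv P
  constructor
  · have h1 : s ∈ Subgroup.normalizer ((P : Subgroup G) : Set G) := by
      rw [Subgroup.mem_normalizer_iff]
      intro x
      refine ⟨fun hx => hsn x hx, fun hx => ?_⟩
      have h2 := hsn _ hx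
      have hsi : s⁻¹ = s := inv_eq_of_mul_eq_one_left hs
      have h3 : s * (s * x * s⁻¹) * s⁻¹ = x := by
        rw [hsi]
        calc s * (s * x * s) * s = (s * s) * x * (s * s) := by group
          _ = x := by rw [hs]; group
      rwa [h3] at h2
    have h2 := orderOf_dvd_natCard (⟨s, h1⟩ : Subgroup.normalizer ((P : Subgroup G) : Set G))
    rw [Subgroup.orderOf_mk, orderOf_eq_prime (p := 2) (by rw [pow_two, hs]) hs1] at h2
    exact even_iff_two_dvd.mpr h2
  · refine ⟨⟨fun a b => Subtype.ext ?_⟩⟩
    exact hO.commute_of_inverts P.isPGroup' hs hs1 hsn a.2 b.2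

end Cfsg.Agent.S4744
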