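import Cfsg.Statements.S4746
import Mathlib
import Cfsg.Agent.Lib.Degree.InvertPair
import Cfsg.Agent.Lib.Degree.OddDeg

set_option autoImplicit false
open Cfsg

namespace Cfsg.Agent.S4746

/-- Let p be an odd prime and G a finite group of even order divisible by p in which the centralizer of every non-identity p-element has odd order. Then G has an irreducible character of p-defect zero or an irreducible character of even degree. -/
theorem result {G : Type*} [Group G] [Finite G] (p : ℕ) [Fact p.Prime] (hp2 : p ≠ 2) (hpG : p ∣ Nat.card G) (h2G : 2 ∣ Nat.card G) (hC : ∀ g : G, g ≠ 1 → (∃ k : ℕ, orderOf g = p ^ k) → Odd (Nat.card ↥(Subgroup.centralizer ({g} : Set G)))) : (∃ χ : Cfsg.IrrCharacter G, (Cfsg.charDegree (χ : G → ℂ)).factorization p = (Nat.card G).factorization p) ∨ ∃ χ : Cfsg.IrrCharacter G, Even (Cfsg.charDegree (χ : G → ℂ)) := by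
  by_contra hcon
  rw [not_or] at hcon
  obtain ⟨hn1, hn2⟩ := hcon
  obtain ⟨g, u, hg, hg1, hu, hup, hinv⟩ :=
    Cfsg.Agent.Lib.Degree.exists_inverted_pair p hp2 hpG h2G hC hn1
  have : Fintype G := Fintype.ofFinite G
  exact hn2 (Cfsg.Agent.Lib.Degree.exists_even_degree_of_inverted hp2 hg hg1 hu hup hinv (hC u hu hup))

end Cfsg.Agent.S4746
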