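import Cfsg.Statements.S4750
import Mathlib
import Cfsg.Agent.Lib.Degree.TIDegree
import Cfsg.Agent.Lib.Char.Constituent
import Cfsg.Agent.Lib.Char.Ops
import Cfsg.Agent.Lib.Char.Decomp

set_option autoImplicit false
open scoped Pointwise
open Cfsg
open Cfsg.Agent.Lib.Char Cfsg.Agent.Lib.Degree

namespace Cfsg.Agent.S4750

/-- Let P be a Sylow p-subgroup of the finite group G that meets each conjugate g P g⁻¹ with g outside N_G(P) trivially, χ a character of G with χ(1)² ≤ |P|, and H a subgroup of G containing N_G(P). Then the inner product of χ with itself over G equals the inner product over H of the restriction of χ to H. -/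
theorem result {G : Type*} [Group G] [Fintype G] [DecidableEq G] (p : ℕ) [Fact p.Prime] (P : Sylow p G) (hTI : ∀ g : G, g ∉ Subgroup.normalizer ((P : Subgroup G) : Set G) → (P : Subgroup G) ⊓ (MulAut.conj g • (P : Subgroup G)) = ⊥) (χ : G → ℂ) (hχ : Cfsg.IsCharacter G χ) (hdeg : Cfsg.charDegree χ ^ 2 ≤ Nat.card ↥(P : Subgroup G)) (H : Subgroup G) [Fintype ↥H] (hH : Subgroup.normalizer ((P : Subgroup G) : Set G) ≤ H) : Cfsg.classInner χ χ = Cfsg.classInner (fun h : ↥H => χ h) (fun h : ↥H => χ h) := by

  classical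
  set τ : G → ℂ := fun g => χ g * (starRingEnd ℂ) (χ g) with hτdef
  have hτ : IsCharacter G τ := by
    have := IsCharacter.mul hχ (IsCharacter.conj_char hχ)
    exact this
  obtain ⟨c, hc⟩ := character_eq_sum_nat hτ
  have hτapp : ∀ g, τ g = ∑ ψ : IrrCharacter G, (c ψ : ℂ) * (ψ : G → ℂ) g := by
    intro g
    rw [hc, Finset.sum_apply]
    rfl
  -- sum over `G`.
  have hsumG : ∀ ψ : IrrCharacter G, (Nat.card G : ℂ)⁻¹ * ∑ g, (ψ : G → ℂ) g =
      if ψ = principal G then 1 else 0 := by
    intro ψ
    by_cases h : ψ = principal G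
    · subst h
      simp only [principal_apply, Finset.sum_const, Finset.card_univ, nsmul_eq_mul, mul_one, if_true]
      rw [Nat.card_eq_fintype_card]
      exact inv_mul_cancel₀ card_ne_zero_complex'
    · rw [if_neg h]
      have h2 := classInner_irr_of_ne ψ.2 (principal G).2 (fun h' => h (Subtype.ext h'))
      rw [classInner_def] at h2
      simpa only [principal_apply, map_one, mul_one] using h2
  have hLHS : classInner χ χ = (c (principal G) : ℂ) := by
    rw [classInner_def]
    have h1 : ∑ g, χ g * (starRingEnd ℂ) (χ g) = ∑ g, τ g := rfl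
    rw [h1]
    simp only [hτapp]
    rw [Finset.sum_comm, Finset.mul_sum]
    have h2 : ∀ ψ : IrrCharacter G, (Nat.card G : ℂ)⁻¹ * ∑ g, ((c ψ : ℂ) * (ψ : G → ℂ) g) =
        (c ψ : ℂ) * (if ψ = principal G then 1 else 0) := by
      intro ψ
      rw [← hsumG ψ, ← Finset.mul_sum]
      ring
    simp only [h2]
    simp
  -- degrees.
  have hdegsum : charDegree χ ^ 2 = ∑ ψ : IrrCharacter G, c ψ * charDegree (ψ : G → ℂ) := by
    have h1 : τ 1 = (charDegree χ : ℂ) ^ 2 := by
      simp only [hτdef]
      rw [map_one_eq_charDegree hχ]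
      simp [sq]
    have h2 := hτapp 1
    rw [h1] at h2
    have h3 : ∀ ψ : IrrCharacter G, (c ψ : ℂ) * (ψ : G → ℂ) 1 = ((c ψ * charDegree (ψ : G → ℂ) : ℕ) : ℂ) := by
      intro ψ
      rw [map_one_eq_charDegree (IsIrrCharacter.isCharacter ψ.2)]
      push_cast
      ring
    simp only [h3] at h2
    exact_mod_cast h2
  -- the principal multiplicity is positive if `χ ≠ 0`.
  have hc1 : charDegree χ ≠ 0 → c (principal G) ≠ 0 := by
    intro hd h0
    have h1 : classInner χ χ = 0 := by rw [hLHS, h0]; simp
    rw [classInner_def] at h1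
    have hcard : (Nat.card G : ℂ)⁻¹ ≠ 0 := inv_ne_zero (by exact_mod_cast Nat.card_pos.ne')
    have h2 := (mul_eq_zero.mp h1).resolve_left hcard
    simp only [Complex.mul_conj] at h2
    have h3 : ∑ g, Complex.normSq (χ g) = 0 := by
      exact_mod_cast h2
    have h4 := (Finset.sum_eq_zero_iff_of_nonneg (fun g _ => Complex.normSq_nonneg _)).mp h3 1
      (Finset.mem_univ _)
    rw [map_eq_zero, map_one_eq_charDegree hχ] at h4
    exact hd (by exact_mod_cast h4)
  -- sum over `H`.
  have hsumH : ∀ ψ : IrrCharacter G, (c ψ : ℂ) * ∑ h : H, (ψ : G → ℂ) h =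
      (c ψ : ℂ) * (if ψ = principal G then (Fintype.card H : ℂ) else 0) := by
    intro ψ
    by_cases h : ψ = principal G
    · subst h
      simp
    · rw [if_neg h]
      by_cases h0 : c ψ = 0
      · simp [h0]
      have h1 : c (principal G) * charDegree ((principal G : IrrCharacter G) : G → ℂ) + c ψ * charDegree (ψ : G → ℂ)
          ≤ charDegree χ ^ 2 := by
        rw [hdegsum]
        have := Finset.add_sum_erase (Finset.univ : Finset (IrrCharacter G))
          (fun ψ => c ψ * charDegree (ψ : G → ℂ)) (Finset.mem_univ (principal G))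
        rw [← this]
        refine Nat.add_le_add_left ?_ _
        exact Finset.single_le_sum (f := fun ψ : IrrCharacter G => c ψ * charDegree (ψ : G → ℂ))
          (fun _ _ => Nat.zero_le _) (Finset.mem_erase.mpr ⟨h, Finset.mem_univ _⟩)
      have hdp : 0 < charDegree (ψ : G → ℂ) := charDegree_pos_of_irr ψ.2
      have hdχ : charDegree χ ≠ 0 := by
        intro h2
        rw [h2] at h1
        have : 0 < c ψ * charDegree (ψ : G → ℂ) := Nat.mul_pos (Nat.pos_of_ne_zero h0) hdp
        simp at h1
        omega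
      have hc1' := hc1 hdχ
      have hone : charDegree ((principal G : IrrCharacter G) : G → ℂ) = 1 :=
        charDegree_natCast (χ := ((principal G : IrrCharacter G) : G → ℂ)) (n := 1) (by simp)
      rw [hone] at h1
      have hlt : charDegree (ψ : G → ℂ) < Nat.card (P : Subgroup G) := by
        have h3 : charDegree (ψ : G → ℂ) ≤ c ψ * charDegree (ψ : G → ℂ) :=
          Nat.le_mul_of_pos_left _ (Nat.pos_of_ne_zero h0)
        have h4 : 1 ≤ c (principal G) := Nat.pos_of_ne_zero hc1'
        omega
      rw [irr_sum_subgroup_eq_zero hTI hH ψ h hlt]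
  have hRHS : classInner (fun h : ↥H => χ h) (fun h : ↥H => χ h) = (c (principal G) : ℂ) := by
    rw [classInner_def]
    have h1 : ∑ h : H, χ h * (starRingEnd ℂ) (χ h) = ∑ h : H, τ h := rfl
    rw [h1]
    simp only [hτapp]
    rw [Finset.sum_comm]
    simp only [← Finset.mul_sum, hsumH]
    simp only [mul_ite, mul_zero, Finset.sum_ite_eq', Finset.mem_univ, if_true]
    rw [Nat.card_eq_fintype_card]
    have : (Fintype.card H : ℂ) ≠ 0 := by exact_mod_cast Fintype.card_ne_zero
    field_simp
  rw [hLHS, hRHS]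

end Cfsg.Agent.S4750
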