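import Cfsg.Statements.S4748
import Mathlib
import Cfsg.Agent.S4750
import Cfsg.Agent.Lib.Degree.TIDegree
import Cfsg.Agent.Lib.Char.Constituent
import Cfsg.Agent.Lib.Char.Ops
import Cfsg.Agent.Lib.Char.Decomp
import Cfsg.Agent.Lib.Char.Complete
import Cfsg.Agent.Lib.Char.Integral
import Cfsg.Agent.Lib.PSolv.Basic
import Cfsg.Agent.Lib.Core.Basic

set_option autoImplicit false
open scoped Pointwise
open Cfsg

namespace Cfsg.Agent.S4748


open Cfsg.Agent.Lib.Char Cfsg.Agent.Lib.Degree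

/-- A `p`-group acting on a set of size prime to `p` has a fixed point. -/
theorem exists_fixed_of_not_dvd {G : Type*} [Group G] [Finite G] {p : ℕ} [hp : Fact p.Prime]
    (Q : Subgroup G) (hQ : IsPGroup p Q) (Ω : Set G)
    (hΩ : ∀ q ∈ Q, ∀ x ∈ Ω, q * x * q⁻¹ ∈ Ω) (hcard : ¬ p ∣ Nat.card Ω) :
    ∃ c ∈ Ω, ∀ q ∈ Q, q * c * q⁻¹ = c := by
  letI : MulAction Q Ω :=
    { smul := fun q x => ⟨(q : G) * x * (q : G)⁻¹, hΩ q q.2 x x.2⟩
      one_smul := fun x => Subtype.ext (by
        show ((1 : Q) : G) * (x : G) * ((1 : Q) : G)⁻¹ = x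
        simp)
      mul_smul := fun a b x => Subtype.ext (by
        show ((a * b : Q) : G) * (x : G) * ((a * b : Q) : G)⁻¹ =
          (a : G) * ((b : G) * (x : G) * (b : G)⁻¹) * (a : G)⁻¹
        simp only [Subgroup.coe_mul, mul_inv_rev]
        group) }
  obtain ⟨c, hc⟩ := hQ.nonempty_fixed_point_of_prime_not_dvd_card Ω hcard
  refine ⟨c.1, c.2, fun q hq => ?_⟩
  have := hc ⟨q, hq⟩
  exact congrArg Subtype.val this

/-- Central elements of a group have maximal absolute value on irreducible characters. -/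
theorem norm_irr_of_central {A : Type*} [Group A] [Finite A] (β : A → ℂ) (hβ : IsIrrCharacter A β)
    (z : A) (hz : ∀ x, x * z = z * x) : ‖β z‖ = ‖β 1‖ := by
  obtain ⟨m, σ, hσ, rfl⟩ := hβ
  obtain ⟨c, hc⟩ := schur_scalar σ hσ (σ z) (fun g v => by
    have h1 : σ z (σ g v) = σ (z * g) v := by rw [map_mul]; rfl
    have h2 : σ g (σ z v) = σ (g * z) v := by rw [map_mul]; rfl
    rw [h1, h2, hz])
  have h1 : ‖σ.character z‖ = (Module.finrank ℂ (Fin m → ℂ) : ℝ) :=
    (norm_character_eq_iff σ z (isOfFinOrder_of_finite z)).mpr ⟨c, by rw [hc]; rfl⟩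
  rw [h1, Representation.char_one]
  simp

variable {p : ℕ} [hp : Fact p.Prime]

/-- The core: on `KP` with `P` a trivial intersection Sylow subgroup, irreducible characters of
small degree contain `[K, P]` in their kernels. -/
theorem core {A : Type*} [Group A] [Finite A] (P : Sylow p A)
    (hTI : ∀ g : A, g ∉ Subgroup.normalizer ((P : Subgroup A) : Set A) →
      (P : Subgroup A) ⊓ (MulAut.conj g • (P : Subgroup A)) = ⊥)
    (K : Subgroup A) (hK : K.Normal) (hKp : ¬ p ∣ Nat.card K)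
    (hsup : K ⊔ (P : Subgroup A) = ⊤) (hP : (P : Subgroup A) ≠ ⊥) (Ψ : IrrCharacter A)
    (hdeg : charDegree (Ψ : A → ℂ) ^ 2 ≤ Nat.card (P : Subgroup A))
    (u k : A) (hu : u ∈ (P : Subgroup A)) (hk : k ∈ K) :
    (Ψ : A → ℂ) (u * k * u⁻¹ * k⁻¹) = (Ψ : A → ℂ) 1 := by
  classical
  haveI := Fintype.ofFinite A
  set N : Subgroup A := Subgroup.normalizer ((P : Subgroup A) : Set A) with hN
  have hPK : ∀ x, x ∈ (P : Subgroup A) → x ∈ K → x = 1 := by
    intro x hxP hxK
    have h1 : IsPGroup p (P : Subgroup A) := P.isPGroup'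
    obtain ⟨n, hn⟩ := h1 ⟨x, hxP⟩
    have h2 : x ^ (p ^ n) = 1 := by
      have := congrArg Subtype.val hn
      simpa using this
    have h3 : orderOf x ∣ p ^ n := orderOf_dvd_of_pow_eq_one h2
    have h4 : orderOf x ∣ Nat.card K := by
      have := orderOf_dvd_natCard (⟨x, hxK⟩ : K)
      rwa [Subgroup.orderOf_mk] at this
    have h5 : Nat.Coprime (p ^ n) (Nat.card K) :=
      Nat.Coprime.pow_left _ ((Nat.Prime.coprime_iff_not_dvd hp.out).mpr hKp)
    have h6 : orderOf x = 1 := Nat.eq_one_of_dvd_coprimes h5 h3 h4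
    exact orderOf_eq_one_iff.mp h6
  have hcent : ∀ c ∈ K, c ∈ N → ∀ v ∈ (P : Subgroup A), v * c = c * v := by
    intro c hcK hcN v hv
    have h1 : v * c * v⁻¹ * c⁻¹ ∈ K :=
      K.mul_mem (hK.conj_mem c hcK v) (K.inv_mem hcK)
    have h2 : c * v⁻¹ * c⁻¹ ∈ (P : Subgroup A) :=
      (Subgroup.mem_normalizer_iff.mp hcN _).mp ((P : Subgroup A).inv_mem hv)
    have h3 : v * c * v⁻¹ * c⁻¹ ∈ (P : Subgroup A) := by
      have : v * c * v⁻¹ * c⁻¹ = v * (c * v⁻¹ * c⁻¹) := by group
      rw [this]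
      exact (P : Subgroup A).mul_mem hv h2
    have h4 := hPK _ h3 h1
    calc v * c = (v * c * v⁻¹ * c⁻¹) * (c * v) := by group
      _ = c * v := by rw [h4, one_mul]
  -- a central element of `P`
  haveI hnt : Nontrivial (P : Subgroup A) := (Subgroup.nontrivial_iff_ne_bot _).mpr hP
  haveI := P.isPGroup'.center_nontrivial
  obtain ⟨z', hz'⟩ := exists_ne (1 : Subgroup.center (P : Subgroup A))
  set z : A := ((z' : (P : Subgroup A)) : A) with hzdef
  have hzP : z ∈ (P : Subgroup A) := (z' : (P : Subgroup A)).2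
  have hz1 : z ≠ 1 := by
    intro h
    apply hz'
    apply Subtype.ext
    apply Subtype.ext
    exact h
  have hzcomm : ∀ v ∈ (P : Subgroup A), v * z = z * v := by
    intro v hv
    have := (Subgroup.mem_center_iff.mp z'.2) ⟨v, hv⟩
    exact congrArg Subtype.val this
  have hzN : ∀ n ∈ N, n * z = z * n := by
    intro n hn
    have hn' : n ∈ (K ⊔ (P : Subgroup A) : Subgroup A) := by rw [hsup]; trivial
    have h1 : n ∈ ((K ⊔ (P : Subgroup A) : Subgroup A) : Set A) := hn'
    rw [Subgroup.normal_mul] at h1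
    obtain ⟨k', hk', v, hv, rfl⟩ := h1
    have hk'N : k' ∈ N := by
      have h2 : k' = k' * v * v⁻¹ := by group
      rw [h2]
      exact N.mul_mem hn (N.inv_mem (Subgroup.le_normalizer hv))
    have h3 := hcent k' hk' hk'N z hzP
    calc k' * v * z = k' * (v * z) := by group
      _ = k' * (z * v) := by rw [hzcomm v hv]
      _ = (k' * z) * v := by group
      _ = (z * k') * v := by rw [h3]
      _ = z * (k' * v) := by group
  -- restriction to the normalizer is irreducible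
  haveI : Fintype N := Fintype.ofFinite N
  have hΨc : IsCharacter A (Ψ : A → ℂ) := IsIrrCharacter.isCharacter Ψ.2
  have h1 := Cfsg.Agent.S4750.result p P hTI (Ψ : A → ℂ) hΨc hdeg N le_rfl
  rw [classInner_irr_self Ψ.2] at h1
  have hβ : IsIrrCharacter N (fun h : N => (Ψ : A → ℂ) h) :=
    isIrr_of_character_norm_one (IsCharacter.restrict N hΨc) h1.symm
  have hzN' : z ∈ N := Subgroup.le_normalizer hzP
  have hnorm := norm_irr_of_central _ hβ ⟨z, hzN'⟩ (fun x => Subtype.ext (hzN x.1 x.2))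
  obtain ⟨Ψ, n, ρ, hρ, rfl⟩ := Ψ
  simp only [OneMemClass.coe_one] at hnorm
  have hnorm' : ‖ρ.character z‖ = (Module.finrank ℂ (Fin n → ℂ) : ℝ) := by
    rw [hnorm, Representation.char_one]
    simp
  obtain ⟨ω, hω⟩ := (norm_character_eq_iff ρ z (isOfFinOrder_of_finite z)).mp hnorm'
  have hzcomm' : ∀ x, ρ z * ρ x = ρ x * ρ z := by
    intro x
    rw [hω]
    ext v
    simp
  have hpow : ∀ (m : ℕ) (x : A), ρ (z ^ m) * ρ x = ρ x * ρ (z ^ m) := by
    intro m x
    rw [map_pow]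
    exact ((Commute.pow_left (show Commute (ρ z) (ρ x) from hzcomm' x) m))
  have hqconj : ∀ q ∈ Subgroup.zpowers z, ∀ x, ρ (q * x * q⁻¹) = ρ x := by
    intro q hq x
    obtain ⟨m, rfl⟩ := (mem_powers_iff_mem_zpowers).mpr hq
    show ρ (z ^ m * x * (z ^ m)⁻¹) = ρ x
    rw [map_mul, map_mul, hpow, mul_assoc, ← map_mul, mul_inv_cancel, map_one, mul_one]
  -- the coset of `ker ρ ∩ K` through `k`.
  set Ω : Set A := {x | x ∈ K ∧ ρ x = ρ k} with hΩdef
  let L : Subgroup A := K ⊓ ρ.ker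
  have hmemL : ∀ x, x ∈ L ↔ x ∈ K ∧ ρ x = 1 := by
    intro x
    exact Iff.rfl
  let e : Ω ≃ L :=
    { toFun := fun x => ⟨k⁻¹ * x.1, by
        rw [hmemL]
        refine ⟨K.mul_mem (K.inv_mem hk) x.2.1, ?_⟩
        rw [map_mul, x.2.2, ← map_mul, inv_mul_cancel, map_one]⟩
      invFun := fun l => ⟨k * l.1, by
        have h2 := (hmemL l.1).mp l.2
        refine ⟨K.mul_mem hk h2.1, ?_⟩
        rw [map_mul, h2.2, mul_one]⟩
      left_inv := fun x => Subtype.ext (by simp)
      right_inv := fun l => Subtype.ext (by simp) }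
  have hcardΩ : ¬ p ∣ Nat.card Ω := by
    rw [Nat.card_congr e]
    intro h
    exact hKp (h.trans (Subgroup.card_dvd_of_le inf_le_left))
  have hzpow : IsPGroup p (Subgroup.zpowers z) :=
    P.isPGroup'.to_le (Subgroup.zpowers_le.mpr hzP)
  obtain ⟨c, hc, hcfix⟩ := exists_fixed_of_not_dvd (Subgroup.zpowers z) hzpow Ω (by
    intro q hq x hx
    refine ⟨?_, ?_⟩
    · have hqK := hK.conj_mem x hx.1 q
      exact hqK
    · rw [hqconj q hq, hx.2]) hcardΩ
  have hczc : z * c * z⁻¹ = c := hcfix z (Subgroup.mem_zpowers z)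
  have hcN : c ∈ N := by
    by_contra hcn
    have h2 := hTI c hcn
    have h3 : z ∈ (P : Subgroup A) ⊓ (MulAut.conj c • (P : Subgroup A)) := by
      refine ⟨hzP, ?_⟩
      show z ∈ MulAut.conj c • (P : Subgroup A)
      rw [Subgroup.mem_pointwise_smul_iff_inv_smul_mem]
      have h4 : (MulAut.conj c)⁻¹ • z = z := by
        rw [MulAut.smul_def, MulAut.conj_inv_apply]
        calc c⁻¹ * z * c = c⁻¹ * (z * c * z⁻¹) * z := by group
          _ = z := by rw [hczc]; group
      rw [h4]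
      exact hzP
    rw [h2] at h3
    exact hz1 h3
  have hcu : u * c = c * u := hcent c hc.1 hcN u hu
  have hρc : ρ c = ρ k := hc.2
  have h5 : ρ (u * k * u⁻¹) = ρ k := by
    have h6 : u * k * u⁻¹ = c * (u * (c⁻¹ * k) * u⁻¹) := by
      have h7 : c * u = u * c := hcu.symm
      calc u * k * u⁻¹ = (u * c) * (c⁻¹ * k) * u⁻¹ := by group
        _ = (c * u) * (c⁻¹ * k) * u⁻¹ := by rw [hcu]
        _ = c * (u * (c⁻¹ * k) * u⁻¹) := by group
    have h8 : ρ (c⁻¹ * k) = 1 := by
      rw [map_mul, ← hρc, ← map_mul, inv_mul_cancel, map_one]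
    rw [h6, map_mul, map_mul, map_mul, h8, mul_one, ← map_mul, mul_inv_cancel, map_one, mul_one, hρc]
  have h9 : ρ (u * k * u⁻¹ * k⁻¹) = 1 := by
    rw [map_mul, h5, ← map_mul, mul_inv_cancel, map_one]
  show ρ.character _ = ρ.character 1
  rw [Representation.character, Representation.character, h9, map_one ρ]

/-- Restriction of a trivial intersection Sylow subgroup. -/
theorem hTI_restrict {G : Type*} [Group G] [Finite G] (P : Sylow p G)
    (hTI : ∀ g : G, g ∉ Subgroup.normalizer ((P : Subgroup G) : Set G) →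
      (P : Subgroup G) ⊓ (MulAut.conj g • (P : Subgroup G)) = ⊥)
    (H : Subgroup G) (hPH : (P : Subgroup G) ≤ H) :
    ∀ g : H, g ∉ Subgroup.normalizer (((P.subtype hPH : Sylow p H) : Subgroup H) : Set H) →
      ((P.subtype hPH : Sylow p H) : Subgroup H) ⊓
        (MulAut.conj g • ((P.subtype hPH : Sylow p H) : Subgroup H)) = ⊥ := by
  intro g hg
  have hmem : ∀ x : H, x ∈ ((P.subtype hPH : Sylow p H) : Subgroup H) ↔ (x : G) ∈ (P : Subgroup G) := by
    intro x
    rw [Sylow.coe_subtype, Subgroup.mem_subgroupOf]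
  have hgG : (g : G) ∉ Subgroup.normalizer ((P : Subgroup G) : Set G) := by
    intro h
    apply hg
    rw [Subgroup.mem_normalizer_iff]
    intro x
    simp only [SetLike.mem_coe, hmem, Subgroup.coe_mul, Subgroup.coe_inv]
    exact Subgroup.mem_normalizer_iff.mp h x
  rw [eq_bot_iff]
  rintro x ⟨hx1, hx2⟩
  have hx1' := (hmem x).mp hx1
  have hx2' : x ∈ MulAut.conj g • ((P.subtype hPH : Sylow p H) : Subgroup H) := hx2
  rw [Subgroup.mem_pointwise_smul_iff_inv_smul_mem] at hx2'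
  have h3 := (hmem _).mp hx2'
  have h4 : (x : G) ∈ (P : Subgroup G) ⊓ (MulAut.conj (g : G) • (P : Subgroup G)) := by
    refine ⟨hx1', ?_⟩
    show (x : G) ∈ MulAut.conj (g : G) • (P : Subgroup G)
    rw [Subgroup.mem_pointwise_smul_iff_inv_smul_mem]
    simpa [MulAut.smul_def] using h3
  rw [hTI _ hgG] at h4
  have h5 : (x : G) = 1 := h4
  exact Subtype.ext h5

/-- Let G be a finite p-solvable group whose Sylow p-subgroup P meets each conjugate g P g⁻¹ with g outside N_G(P) trivially, and let χ be a faithful character of G (χ g = χ 1 only for g = 1) whose degree d satisfies d² ≤ |P|. Then P is normal in G. -/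
theorem result {G : Type*} [Group G] [Finite G] (p : ℕ) [Fact p.Prime] (hsolv : Cfsg.IsPSolvable p G) (P : Sylow p G) (hTI : ∀ g : G, g ∉ Subgroup.normalizer ((P : Subgroup G) : Set G) → (P : Subgroup G) ⊓ (MulAut.conj g • (P : Subgroup G)) = ⊥) (χ : G → ℂ) (hχ : Cfsg.IsCharacter G χ) (hfaith : ∀ g : G, χ g = χ 1 → g = 1) (hdeg : Cfsg.charDegree χ ^ 2 ≤ Nat.card ↥(P : Subgroup G)) : (P : Subgroup G).Normal := by

  classical
  by_contra hnormal
  haveI := Fintype.ofFinite G
  set K : Subgroup G := Cfsg.pPrimeCore p G with hKdef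
  haveI hKn : K.Normal := Cfsg.Agent.Lib.Core.pPrimeCore_normal p G
  have hKp : ¬ p ∣ Nat.card K := Cfsg.Agent.Lib.Core.not_dvd_card_pPrimeCore
  have hPelt : ∀ x ∈ (P : Subgroup G), ∃ n : ℕ, x ^ (p ^ n) = 1 := by
    intro x hx
    obtain ⟨n, hn⟩ := P.isPGroup' ⟨x, hx⟩
    refine ⟨n, ?_⟩
    have := congrArg Subtype.val hn
    simpa using this
  have hKelt : ∀ c ∈ K, ∀ n : ℕ, c ^ (p ^ n) = 1 → c = 1 := by
    intro c hc n hn
    have h3 : orderOf c ∣ p ^ n := orderOf_dvd_of_pow_eq_one hn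
    have h4 : orderOf c ∣ Nat.card K := by
      have := orderOf_dvd_natCard (⟨c, hc⟩ : K)
      rwa [Subgroup.orderOf_mk] at this
    have h5 : Nat.Coprime (p ^ n) (Nat.card K) :=
      Nat.Coprime.pow_left _ ((Nat.Prime.coprime_iff_not_dvd (Fact.out : p.Prime)).mpr hKp)
    exact orderOf_eq_one_iff.mp (Nat.eq_one_of_dvd_coprimes h5 h3 h4)
  have hP1 : (P : Subgroup G) ≠ ⊥ := by
    intro h
    apply hnormal
    rw [h]
    infer_instance
  -- Step 1: `P` centralizes `K`.
  have hcomm : ∀ u ∈ (P : Subgroup G), ∀ k ∈ K, u * k * u⁻¹ * k⁻¹ = 1 := by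
    intro u hu k hk
    set H₀ : Subgroup G := K ⊔ (P : Subgroup G) with hH₀
    have hPH : (P : Subgroup G) ≤ H₀ := le_sup_right
    have hKH : K ≤ H₀ := le_sup_left
    let P₀ : Sylow p H₀ := P.subtype hPH
    have hmemP₀ : ∀ x : H₀, x ∈ (P₀ : Subgroup H₀) ↔ (x : G) ∈ (P : Subgroup G) := by
      intro x
      rw [Sylow.coe_subtype, Subgroup.mem_subgroupOf]
    have hcardP₀ : Nat.card (P₀ : Subgroup H₀) = Nat.card (P : Subgroup G) := by
      rw [Sylow.coe_subtype]
      exact Nat.card_congr (Subgroup.subgroupOfEquivOfLe hPH).toEquiv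
    let K₀ : Subgroup H₀ := K.subgroupOf H₀
    have hK₀n : K₀.Normal := Subgroup.Normal.subgroupOf hKn H₀
    have hK₀p : ¬ p ∣ Nat.card K₀ := by
      have : Nat.card K₀ = Nat.card K := Nat.card_congr (Subgroup.subgroupOfEquivOfLe hKH).toEquiv
      rwa [this]
    have hsup₀ : K₀ ⊔ (P₀ : Subgroup H₀) = ⊤ := by
      rw [eq_top_iff]
      intro x _
      have hx : (x : G) ∈ ((K ⊔ (P : Subgroup G) : Subgroup G) : Set G) := x.2
      rw [Subgroup.normal_mul] at hx
      obtain ⟨a, ha, b, hb, hab⟩ := hx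
      have hx' : x = (⟨a, hKH ha⟩ : H₀) * (⟨b, hPH hb⟩ : H₀) := Subtype.ext hab.symm
      rw [hx']
      exact Subgroup.mul_mem_sup (by exact ha) ((hmemP₀ _).mpr hb)
    have hP₀1 : (P₀ : Subgroup H₀) ≠ ⊥ := by
      intro h
      apply hP1
      rw [eq_bot_iff]
      intro x hx
      have : (⟨x, hPH hx⟩ : H₀) ∈ (P₀ : Subgroup H₀) := (hmemP₀ _).mpr hx
      rw [h] at this
      have h2 : (⟨x, hPH hx⟩ : H₀) = 1 := this
      exact congrArg Subtype.val h2
    have hTI₀ := hTI_restrict P hTI H₀ hPH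
    let χ₀ : H₀ → ℂ := fun h => χ h
    have hχ₀ : IsCharacter H₀ χ₀ := IsCharacter.restrict H₀ hχ
    have hdeg₀ : charDegree χ₀ = charDegree χ := by
      show ⌊(χ ((1 : H₀) : G)).re⌋₊ = ⌊(χ 1).re⌋₊
      rfl
    let y : H₀ := (⟨u, hPH hu⟩ : H₀) * ⟨k, hKH hk⟩ * (⟨u, hPH hu⟩ : H₀)⁻¹ * (⟨k, hKH hk⟩ : H₀)⁻¹
    have hy : ((y : H₀) : G) = u * k * u⁻¹ * k⁻¹ := rfl
    haveI : Fintype H₀ := Fintype.ofFinite H₀
    have hval : ∀ ψ : IrrCharacter H₀, classInner χ₀ (ψ : H₀ → ℂ) * (ψ : H₀ → ℂ) y =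
        classInner χ₀ (ψ : H₀ → ℂ) * (ψ : H₀ → ℂ) 1 := by
      intro ψ
      by_cases h0 : classInner χ₀ (ψ : H₀ → ℂ) = 0
      · rw [h0, zero_mul, zero_mul]
      obtain ⟨m, hm⟩ := classInner_isCharacter_nat hχ₀ (IsIrrCharacter.isCharacter ψ.2)
      have hm0 : m ≠ 0 := by
        rintro rfl
        apply h0
        rw [hm]
        simp
      have hle := mul_charDegree_le hχ₀ ψ.2 m hm
      have hle2 : charDegree (ψ : H₀ → ℂ) ≤ charDegree χ₀ :=
        (Nat.le_mul_of_pos_left _ (Nat.pos_of_ne_zero hm0)).trans hle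
      have hdψ : charDegree (ψ : H₀ → ℂ) ^ 2 ≤ Nat.card (P₀ : Subgroup H₀) := by
        rw [hcardP₀]
        refine le_trans (Nat.pow_le_pow_left ?_ 2) hdeg
        rwa [hdeg₀] at hle2
      have := core P₀ hTI₀ K₀ hK₀n hK₀p hsup₀ hP₀1 ψ hdψ ⟨u, hPH hu⟩ ⟨k, hKH hk⟩
        ((hmemP₀ _).mpr hu) (by exact hk)
      rw [show y = _ from rfl, this]
    have hfun := classFunction_eq_sum χ₀ (IsCharacter.isClassFunction hχ₀)
    have h1 : χ₀ y = χ₀ 1 := by
      rw [hfun, Finset.sum_apply, Finset.sum_apply]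
      refine Finset.sum_congr rfl fun ψ _ => ?_
      simp only [Pi.smul_apply, smul_eq_mul]
      exact hval ψ
    have h2 : χ (u * k * u⁻¹ * k⁻¹) = χ 1 := h1
    exact hfaith _ h2
  -- Step 2: `O_p(G) = 1`.
  have hnN : ∃ g : G, g ∉ Subgroup.normalizer ((P : Subgroup G) : Set G) := by
    by_contra h
    push Not at h
    apply hnormal
    rw [← Subgroup.normalizer_eq_top_iff, eq_top_iff]
    intro g _
    exact h g
  obtain ⟨g₀, hg₀⟩ := hnN
  have hnorm_bot : ∀ Q : Subgroup G, Q.Normal → Q ≤ (P : Subgroup G) → Q = ⊥ := by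
    intro Q hQ hQP
    rw [eq_bot_iff]
    intro x hx
    have h1 : x ∈ (P : Subgroup G) ⊓ (MulAut.conj g₀ • (P : Subgroup G)) := by
      refine ⟨hQP hx, ?_⟩
      show x ∈ MulAut.conj g₀ • (P : Subgroup G)
      rw [Subgroup.mem_pointwise_smul_iff_inv_smul_mem]
      apply hQP
      have h2 := hQ.conj_mem x hx g₀⁻¹
      simpa [MulAut.smul_def] using h2
    rwa [hTI g₀ hg₀] at h1
  -- Step 3: `K` is the whole group.
  have hKtop : K = ⊤ := by
    by_contra hne
    have hstep := Cfsg.Agent.Lib.PSolv.pStep_of_isPSolvable (Fact.out : p.Prime) hsolv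
    obtain ⟨D, hDn, hKD, hDtop, hD⟩ := hstep K ⊤ hKn inferInstance (lt_top_iff_ne_top.mpr hne)
    rcases hD with ⟨m, hm⟩ | hcop
    · -- `D / K` is a `p`-group.
      have hDmem : ∀ x ∈ D, ∃ v ∈ (P : Subgroup G), ∃ c ∈ K, x = v * c := by
        -- the image of `D` is a normal `p`-subgroup of the quotient
        let mk : G →* G ⧸ K := QuotientGroup.mk' K
        have hsurj : Function.Surjective mk := QuotientGroup.mk'_surjective K
        let Pbar : Sylow p (G ⧸ K) := P.mapSurjective hsurj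
        have hDimg : IsPGroup p (D.map mk) := by
          have hker : mk.ker = K := QuotientGroup.ker_mk' K
          have h1 : Nat.card (D.map mk) = p ^ m := by
            rw [← Subgroup.relIndex_ker, hker, hm]
          exact IsPGroup.of_card h1
        intro x hx
        have h1 : mk x ∈ D.map mk := ⟨x, hx, rfl⟩
        have h2 : (D.map mk) ≤ (Pbar : Subgroup (G ⧸ K)) := by
          haveI : (D.map mk).Normal := Subgroup.Normal.map hDn mk hsurj
          exact (Cfsg.Agent.Lib.Core.le_pCore inferInstance hDimg).trans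
            (Cfsg.Agent.Lib.Core.pCore_le_sylow Pbar)
        obtain ⟨v, hv, hvx⟩ := h2 h1
        refine ⟨v, hv, v⁻¹ * x, ?_, by group⟩
        have h3 : mk v = mk x := hvx
        have h4 := QuotientGroup.eq.mp h3
        exact h4
      have hKD' : K ≤ D := hKD.le
      let Q : Subgroup G := (P : Subgroup G) ⊓ D
      have hQn : Q.Normal := by
        constructor
        intro u hu g
        have hyD : g * u * g⁻¹ ∈ D := hDn.conj_mem u hu.2 g
        obtain ⟨v, hv, c, hc, hy⟩ := hDmem _ hyD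
        have hvD : v ∈ D := by
          have h2 : v = (g * u * g⁻¹) * c⁻¹ := by rw [hy]; group
          rw [h2]
          exact D.mul_mem hyD (hKD' (K.inv_mem hc))
        have hvc : Commute v c := by
          have h3 := hcomm v hv c hc
          show v * c = c * v
          calc v * c = (v * c * v⁻¹ * c⁻¹) * (c * v) := by group
            _ = c * v := by rw [h3, one_mul]
        obtain ⟨n₁, hn₁⟩ := hPelt u hu.1
        obtain ⟨n₂, hn₂⟩ := hPelt v hv
        have hc1 : c = 1 := by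
          apply hKelt c hc (n₁ + n₂)
          have h4 : (g * u * g⁻¹) ^ (p ^ (n₁ + n₂)) = 1 := by
            rw [conj_pow, pow_add, pow_mul, hn₁, one_pow, mul_one, mul_inv_cancel]
          rw [hy, hvc.mul_pow] at h4
          have h5 : v ^ (p ^ (n₁ + n₂)) = 1 := by
            rw [add_comm, pow_add, pow_mul, hn₂, one_pow]
          rwa [h5, one_mul] at h4
        rw [hy, hc1, mul_one]
        exact ⟨hv, hvD⟩
      have hQbot : Q = ⊥ := hnorm_bot Q hQn inf_le_left
      apply absurd hKD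
      apply not_lt_of_ge
      intro x hx
      obtain ⟨v, hv, c, hc, hxe⟩ := hDmem x hx
      have hvD : v ∈ D := by
        have h2 : v = x * c⁻¹ := by rw [hxe]; group
        rw [h2]
        exact D.mul_mem hx (hKD' (K.inv_mem hc))
      have hvQ : v ∈ Q := ⟨hv, hvD⟩
      rw [hQbot] at hvQ
      have hv1 : v = 1 := hvQ
      rw [hxe, hv1, one_mul]
      exact hc
    · -- `D` is a `p'`-group.
      apply absurd hKD
      apply not_lt_of_ge
      have h1 := Cfsg.Agent.Lib.PSolv.card_inf_mul_relIndex K D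
      rw [inf_eq_left.mpr hKD.le] at h1
      have h2 : (Nat.card D).Coprime p := by
        rw [← h1]
        exact Nat.Coprime.mul_left (Cfsg.Agent.Lib.Core.pPrimeCore_coprime p G) hcop
      exact Cfsg.Agent.Lib.Core.le_pPrimeCore hDn h2
  have hPbot : (P : Subgroup G) = ⊥ := by
    rw [eq_bot_iff]
    intro x hx
    obtain ⟨n, hn⟩ := hPelt x hx
    have h1 : x ∈ K := by rw [hKtop]; trivial
    exact hKelt x h1 n hn
  exact hP1 hPbot

end Cfsg.Agent.S4748
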