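import Cfsg.Statements.S4754
import Cfsg.Agent.Lib.Degree.Sums
import Mathlib

set_option autoImplicit false
open Cfsg

namespace Cfsg.Agent.S4754

/-- For elements x, y of a finite group G, the conjugacy class of x y equals the set of all products of a conjugate of x with a conjugate of y if and only if χ(1) χ(a x a⁻¹ b y b⁻¹) = χ(x) χ(y) for all a, b ∈ G and every irreducible character χ. -/
theorem result {G : Type*} [Group G] [Finite G] (x y : G) : (∀ z : G, IsConj (x * y) z ↔ ∃ a b : G, z = a * x * a⁻¹ * (b * y * b⁻¹)) ↔ ∀ (a b : G) (χ : Cfsg.IrrCharacter G), (χ : G → ℂ) 1 * (χ : G → ℂ) (a * x * a⁻¹ * (b * y * b⁻¹)) = (χ : G → ℂ) x * (χ : G → ℂ) y := by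
  classical
  cases nonempty_fintype G
  constructor
  · intro h a b χ
    have hconj : ∀ a b : G, IsConj (x * y) (a * x * a⁻¹ * (b * y * b⁻¹)) :=
      fun a b => (h _).2 ⟨a, b, rfl⟩
    have hval : ∀ a b : G, (χ : G → ℂ) (a * x * a⁻¹ * (b * y * b⁻¹)) = (χ : G → ℂ) (x * y) :=
      fun a b => (Lib.Degree.irr_map_isConj χ (hconj a b)).symm
    have hsum := Lib.Degree.irr_sum_conj χ x y
    have h1 : ∀ b : G, (χ : G → ℂ) (x * (b * y * b⁻¹)) = (χ : G → ℂ) (x * y) := by
      intro b
      have := hval 1 b
      simpa using this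
    simp only [h1, Finset.sum_const, Finset.card_univ, nsmul_eq_mul] at hsum
    have hcard := Lib.Degree.card_ne_zero_complex' (G := G)
    have hχ := Lib.Degree.irr_degree_ne_zero χ
    rw [hval a b]
    field_simp at hsum
    linear_combination hsum
  · intro h z
    constructor
    · intro hz
      obtain ⟨c, rfl⟩ := isConj_iff.mp hz
      refine ⟨c, c, ?_⟩
      group
    · rintro ⟨a, b, rfl⟩
      rw [Lib.Char.isConj_iff_forall_irr]
      intro χ
      have h1 := h 1 1 χ
      have h2 := h a b χ
      have hχ := Lib.Degree.irr_degree_ne_zero χ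
      simp only [one_mul, inv_one, mul_one] at h1
      exact mul_left_cancel₀ hχ (h1.trans h2.symm)

end Cfsg.Agent.S4754
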