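import Cfsg.Statements.S4755
import Cfsg.Agent.S4754
import Cfsg.Agent.Lib.Degree.Linear
import Mathlib

set_option autoImplicit false
open Cfsg

namespace Cfsg.Agent.S4755

/-- Let x, y be non-identity elements of the finite group G such that χ(x' y') = χ(x') χ(y') for all conjugates x' of x, y' of y and every irreducible character χ. Then the conjugacy class of x y is the set of all products of a conjugate of x with a conjugate of y; every irreducible character of degree greater than 1 vanishes at x y; and the conjugacy class of x y is the coset of the commutator subgroup containing x y. -/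
theorem result {G : Type*} [Group G] [Finite G] (x y : G) (hx : x ≠ 1) (hy : y ≠ 1) (h : ∀ (a b : G) (χ : Cfsg.IrrCharacter G), (χ : G → ℂ) (a * x * a⁻¹ * (b * y * b⁻¹)) = (χ : G → ℂ) (a * x * a⁻¹) * (χ : G → ℂ) (b * y * b⁻¹)) : (∀ z : G, IsConj (x * y) z ↔ ∃ a b : G, z = a * x * a⁻¹ * (b * y * b⁻¹)) ∧ (∀ χ : Cfsg.IrrCharacter G, (χ : G → ℂ) 1 ≠ 1 → (χ : G → ℂ) (x * y) = 0) ∧ (∀ z : G, IsConj (x * y) z ↔ (x * y)⁻¹ * z ∈ commutator G) := by
  classical
  cases nonempty_fintype G
  have hcard := Lib.Degree.card_ne_zero_complex' (G := G)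
  have hmain : ∀ χ : Cfsg.IrrCharacter G, (χ : G → ℂ) 1 ≠ 1 →
      (χ : G → ℂ) x * (χ : G → ℂ) y = 0 := by
    intro χ hχ1
    have hχ := Lib.Degree.irr_degree_ne_zero χ
    have hsum := Lib.Degree.irr_sum_conj χ x y
    have h1 : ∀ b : G, (χ : G → ℂ) (x * (b * y * b⁻¹)) = (χ : G → ℂ) x * (χ : G → ℂ) y := by
      intro b
      have := h 1 b χ
      simp only [one_mul, inv_one, mul_one] at this
      rw [this]
      congr 1
      exact (Lib.Degree.irr_map_isConj χ (isConj_iff.mpr ⟨b, rfl⟩)).symm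
    simp only [h1, Finset.sum_const, Finset.card_univ, nsmul_eq_mul] at hsum
    field_simp at hsum
    have h3 : (χ : G → ℂ) x * (χ : G → ℂ) y * ((χ : G → ℂ) 1 - 1) = 0 := by
      linear_combination hsum
    exact (mul_eq_zero.mp h3).resolve_right (sub_ne_zero.mpr hχ1)
  have hval : ∀ (a b : G) (χ : Cfsg.IrrCharacter G), (χ : G → ℂ) (a * x * a⁻¹ * (b * y * b⁻¹)) =
      (χ : G → ℂ) x * (χ : G → ℂ) y := by
    intro a b χ
    rw [h a b χ, ← Lib.Degree.irr_map_isConj χ (isConj_iff.mpr ⟨a, rfl⟩),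
      ← Lib.Degree.irr_map_isConj χ (isConj_iff.mpr ⟨b, rfl⟩)]
  have hvanish : ∀ χ : Cfsg.IrrCharacter G, (χ : G → ℂ) 1 ≠ 1 → (χ : G → ℂ) (x * y) = 0 := by
    intro χ hχ
    have := hval 1 1 χ
    simp only [one_mul, inv_one, mul_one] at this
    rw [this]
    exact hmain χ hχ
  refine ⟨?_, hvanish, ?_⟩
  · refine (Cfsg.Agent.S4754.result x y).2 ?_
    intro a b χ
    by_cases hχ : (χ : G → ℂ) 1 = 1
    · rw [hχ, one_mul, hval]
    · rw [hval, hmain χ hχ, mul_zero]
  · intro z
    constructor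
    · intro hz
      obtain ⟨c, rfl⟩ := isConj_iff.mp hz
      have h1 : (x * y)⁻¹ * (c * (x * y) * c⁻¹) = (x * y)⁻¹ * c * (x * y)⁻¹⁻¹ * c⁻¹ := by
        group
      rw [h1, commutator_def]
      exact Subgroup.commutator_mem_commutator (Subgroup.mem_top _) (Subgroup.mem_top _)
    · intro hz
      by_contra hnc
      have h1 := Lib.Char.second_orthogonality (x * y) z
      rw [if_neg hnc] at h1
      have h2 := Lib.Char.second_orthogonality (x * y) (x * y)
      rw [if_pos (IsConj.refl _)] at h2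
      have h3 : ∑ χ : Cfsg.IrrCharacter G, (χ : G → ℂ) (x * y) * (starRingEnd ℂ) ((χ : G → ℂ) z) =
          ∑ χ : Cfsg.IrrCharacter G, (χ : G → ℂ) (x * y) * (starRingEnd ℂ) ((χ : G → ℂ) (x * y)) := by
        refine Finset.sum_congr rfl fun χ _ => ?_
        by_cases hχ : (χ : G → ℂ) 1 = 1
        · rw [Lib.Degree.irr_linear_coset χ hχ hz]
        · rw [hvanish χ hχ, zero_mul, zero_mul]
      rw [h3, h2] at h1
      have h4 : (Nat.card (Subgroup.centralizer ({x * y} : Set G)) : ℂ) ≠ 0 := by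
        exact_mod_cast (Nat.card_pos (α := Subgroup.centralizer ({x * y} : Set G))).ne'
      exact h4 h1

end Cfsg.Agent.S4755
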