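import Cfsg.Statements.S4756
import Mathlib
import Cfsg.Agent.Lib.Degree.CaminaElt
import Cfsg.Agent.Lib.Degree.Camina
import Cfsg.Agent.Lib.Hall.FPFAction

set_option autoImplicit false
open Cfsg

namespace Cfsg.Agent.S4756


open Cfsg.Agent.Lib.Degree Subgroup
open scoped commutatorElement Pointwise

section
variable {G : Type*} [Group G]

/-- The hypothesis on the character table. -/
def Hyp (G : Type*) [Group G] [Finite G] : Prop :=
  ∀ (x y : G) (χ : Cfsg.IrrCharacter G), x ≠ 1 → y ≠ 1 →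
    (∃ p q a b : ℕ, p.Prime ∧ q.Prime ∧ p ≠ q ∧ orderOf x = p ^ a ∧ orderOf y = q ^ b) →
    (χ : G → ℂ) (x * y) = (χ : G → ℂ) x * (χ : G → ℂ) y

theorem key_vanish [Fintype G] (h : Hyp G) {x y : G} (hx : x ≠ 1) (hy : y ≠ 1)
    (hor : ∃ p q a b : ℕ, p.Prime ∧ q.Prime ∧ p ≠ q ∧ orderOf x = p ^ a ∧ orderOf y = q ^ b)
    (χ : Cfsg.IrrCharacter G) (hχ : (χ : G → ℂ) 1 ≠ 1) :
    (χ : G → ℂ) (x * y) = 0 ∧ (χ : G → ℂ) x * (χ : G → ℂ) y = 0 := by
  have h1 : ∀ g : G, (χ : G → ℂ) (x * (g * y * g⁻¹)) = (χ : G → ℂ) x * (χ : G → ℂ) y := by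
    intro g
    have hc : IsConj y (g * y * g⁻¹) := isConj_iff.2 ⟨g, rfl⟩
    have hne : g * y * g⁻¹ ≠ 1 := by
      intro h0
      have hc' := hc.symm
      rw [h0] at hc'
      exact hy (isConj_one_right.1 hc')
    rw [h x _ χ hx hne (by
      obtain ⟨p, q, a, b, hp, hq, hpq, hxo, hyo⟩ := hor
      exact ⟨p, q, a, b, hp, hq, hpq, hxo, by rw [← orderOf_eq_of_conj hc]; exact hyo⟩),
      irr_map_isConj χ hc.symm]
  have h2 := irr_sum_conj χ x y
  rw [Finset.sum_congr rfl (fun g _ => h1 g), Finset.sum_const, Finset.card_univ, nsmul_eq_mul] at h2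
  have hG : (Fintype.card G : ℂ) ≠ 0 := by exact_mod_cast Fintype.card_ne_zero
  have h3 : (χ : G → ℂ) x * (χ : G → ℂ) y = 0 := by
    by_contra hne
    apply hχ
    have h4 := irr_degree_ne_zero χ
    rw [mul_assoc, mul_div_assoc, mul_right_inj' hG] at h2
    rw [eq_div_iff h4] at h2
    exact mul_left_cancel₀ hne (by rw [h2, mul_one])
  exact ⟨by rw [h x y χ hx hy hor, h3], h3⟩

theorem prime_eq_of_pow {p q a b : ℕ} (hp : p.Prime) (hq : q.Prime) {n : ℕ} (hn : n ≠ 1) (h1 : n = p ^ a)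
    (h2 : n = q ^ b) : p = q := by
  have ha : a ≠ 0 := by
    rintro rfl
    exact hn (by simpa using h1)
  have h3 : p ∣ q ^ b := by
    rw [← h2, h1]
    exact dvd_pow_self p ha
  exact (Nat.prime_dvd_prime_iff_eq hp hq).1 (hp.dvd_of_dvd_pow h3)

/-- Elements of order not a `p`-power have a prime-order power with order prime to `p`. -/
theorem exists_pow_prime {p : ℕ} [hp : Fact p.Prime] [Finite G] (w : G) (hw : ¬ ∃ k, orderOf w = p ^ k) :
    ∃ (r : ℕ) (n : ℕ), r.Prime ∧ r ≠ p ∧ orderOf (w ^ n) = r := by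
  have h0 : orderOf w ≠ 0 := (orderOf_pos w).ne'
  by_contra hno
  apply hw
  refine ⟨_, Nat.eq_prime_pow_of_unique_prime_dvd h0 ?_⟩
  intro r hr hd
  by_contra hrp
  apply hno
  refine ⟨r, orderOf w / r, hr, hrp, orderOf_pow_orderOf_div h0 hd⟩

theorem forward [Fintype G] (h : Hyp G) (hnp : ¬ ∃ p : ℕ, p.Prime ∧ IsPGroup p G)
    (hnab : ¬ IsMulCommutative G) :
    ∃ (p : ℕ) (_ : Fact p.Prime) (P : Sylow p G) (A : Subgroup G), (P : Subgroup G).Normal ∧ IsCyclic ↥A ∧ A ≠ ⊥ ∧ (Nat.card ↥A).Coprime p ∧ A ⊔ (P : Subgroup G) = ⊤ ∧ IsMulCommutative ↥((P : Subgroup G) ⊓ Subgroup.centralizer (A : Set G)) ∧ (⁅A, (P : Subgroup G)⁆).Normal ∧ ((P : Subgroup G) ⊓ Subgroup.centralizer (A : Set G)) ⊔ ⁅A, (P : Subgroup G)⁆ = (P : Subgroup G) ∧ ((P : Subgroup G) ⊓ Subgroup.centralizer (A : Set G)) ⊓ ⁅A, (P : Subgroup G)⁆ = ⊥ ∧ ∀ a ∈ A, a ≠ 1 → ∀ d ∈ ⁅A, (P : Subgroup G)⁆, a * d = d * a → d = 1 := by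
  classical
  -- the Camina property of products
  have K : ∀ {x y : G}, x ≠ 1 → y ≠ 1 →
      (∃ p q a b : ℕ, p.Prime ∧ q.Prime ∧ p ≠ q ∧ orderOf x = p ^ a ∧ orderOf y = q ^ b) →
      ∀ c ∈ commutator G, IsConj (x * y) (x * y * c) := by
    intro x y hx hy hor c hc
    exact isConj_mul_of_vanish (fun χ hχ => (key_vanish h hx hy hor χ hχ).1) hc
  have hG'ne : commutator G ≠ ⊥ := by
    intro h0
    apply hnab
    refine ⟨⟨fun a b => ?_⟩⟩
    have h1 := Subgroup.commutator_mem_commutator (Subgroup.mem_top a) (Subgroup.mem_top b)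
    rw [← _root_.commutator_def, h0, Subgroup.mem_bot] at h1
    exact commutatorElement_eq_one_iff_mul_comm.1 h1
  obtain ⟨c₀, hc₀, hc₀1⟩ := (Subgroup.bot_or_exists_ne_one (commutator G)).resolve_left hG'ne
  have hoc₀ : orderOf c₀ ≠ 1 := fun h0 => hc₀1 (orderOf_eq_one_iff.1 h0)
  obtain ⟨p, hp, hpc⟩ := Nat.exists_prime_and_dvd hoc₀
  haveI hfp : Fact p.Prime := ⟨hp⟩
  have hpd : p ∣ Nat.card (commutator G) := by
    refine hpc.trans ?_
    have := orderOf_dvd_natCard (⟨c₀, hc₀⟩ : commutator G)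
    rwa [Subgroup.orderOf_mk] at this
  obtain ⟨x₀', hx₀'⟩ := exists_prime_orderOf_dvd_card' p hpd
  have hx₀o : orderOf (x₀' : G) = p := by rwa [Subgroup.orderOf_coe]
  set x₀ : G := (x₀' : G) with hx₀def
  have hx₀mem : x₀ ∈ commutator G := x₀'.2
  have hx₀1 : x₀ ≠ 1 := by
    intro h0
    rw [h0, orderOf_one] at hx₀o
    exact hp.one_lt.ne hx₀o
  -- `G'` is a `p`-group
  have hG'p : IsPGroup p (commutator G) := by
    apply IsPGroup.of_card (n := (Nat.primeFactorsList (Nat.card (commutator G))).length)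
    apply Nat.eq_prime_pow_of_unique_prime_dvd Nat.card_pos.ne'
    intro q hq hd
    by_contra hqp
    haveI : Fact q.Prime := ⟨hq⟩
    obtain ⟨y₀', hy₀'⟩ := exists_prime_orderOf_dvd_card' q hd
    have hy₀o : orderOf (y₀' : G) = q := by rwa [Subgroup.orderOf_coe]
    have hy₀1 : (y₀' : G) ≠ 1 := by
      intro h0
      rw [h0, orderOf_one] at hy₀o
      exact hq.one_lt.ne hy₀o
    have h1 := K hx₀1 hy₀1 ⟨p, q, 1, 1, hp, hq, Ne.symm hqp, by simpa using hx₀o, by simpa using hy₀o⟩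
      (x₀ * (y₀' : G))⁻¹ ((commutator G).inv_mem ((commutator G).mul_mem hx₀mem y₀'.2))
    rw [mul_inv_cancel] at h1
    have h2 : x₀ = (y₀' : G)⁻¹ := eq_inv_of_mul_eq_one_left (isConj_one_right.1 h1.symm)
    have h3 : p = q := by rw [← hx₀o, ← hy₀o, h2, orderOf_inv]
    exact hqp h3.symm
  have hdp : ∀ d ∈ commutator G, ∃ k, orderOf d = p ^ k := by
    intro d hd
    obtain ⟨k, hk⟩ := IsPGroup.iff_orderOf.1 hG'p ⟨d, hd⟩
    exact ⟨k, by rwa [Subgroup.orderOf_mk] at hk⟩
  -- prime power order elements act fixed point freely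
  have hfpq : ∀ y : G, ∀ q b : ℕ, q.Prime → q ≠ p → orderOf y = q ^ b → y ≠ 1 →
      ∀ d ∈ commutator G, d * y = y * d → d = 1 := by
    intro y q b hq hqp hy hy1 d hd hcomm
    have hor : ∃ p' q' a b' : ℕ, p'.Prime ∧ q'.Prime ∧ p' ≠ q' ∧ orderOf y = p' ^ a ∧ orderOf x₀ = q' ^ b' :=
      ⟨q, p, b, 1, hq, hp, hqp, hy, by simpa using hx₀o⟩
    have h1 := K hy1 hx₀1 hor x₀⁻¹ ((commutator G).inv_mem hx₀mem)
    have h2 := K hy1 hx₀1 hor (x₀⁻¹ * d) ((commutator G).mul_mem ((commutator G).inv_mem hx₀mem) hd)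
    rw [mul_inv_cancel_right] at h1
    have h3 : y * x₀ * (x₀⁻¹ * d) = y * d := by group
    rw [h3] at h2
    have h4 : IsConj y (y * d) := h1.symm.trans h2
    have h5 := orderOf_eq_of_conj h4
    obtain ⟨k, hk⟩ := hdp d hd
    have hcop : Nat.Coprime (orderOf y) (orderOf d) := by
      rw [hy, hk]
      exact Nat.Coprime.pow _ _ ((Nat.coprime_primes hq hp).2 hqp)
    have hc : Commute y d := hcomm.symm
    have h6 := hc.orderOf_mul_eq_mul_orderOf_of_coprime hcop
    rw [← h5] at h6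
    have h7 : orderOf d = 1 := by
      have h0 : 0 < orderOf y := orderOf_pos y
      exact Nat.eq_of_mul_eq_mul_left h0 (by rw [← h6, mul_one])
    exact orderOf_eq_one_iff.1 h7
  have hfp' : ∀ a : G, (¬ ∃ k, orderOf a = p ^ k) → ∀ d ∈ commutator G, a * d = d * a → d = 1 := by
    intro a ha d hd hcomm
    obtain ⟨r, n, hr, hrp, hor⟩ := exists_pow_prime a ha
    refine hfpq (a ^ n) r 1 hr hrp (by simpa using hor) ?_ d hd ?_
    · intro h0
      rw [h0, orderOf_one] at hor
      exact hr.one_lt.ne hor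
    · have hc : Commute a d := hcomm
      exact (hc.pow_left n).symm
  -- Sylow subgroup
  obtain ⟨P⟩ : Nonempty (Sylow p G) := inferInstance
  have hG'P : commutator G ≤ P := hG'p.le_sylow_of_normal P
  have hPn : (P : Subgroup G).Normal := by
    constructor
    intro n hn g
    have h1 : g * n * g⁻¹ = (g * n * g⁻¹ * n⁻¹) * n := by group
    rw [h1]
    refine (P : Subgroup G).mul_mem (hG'P ?_) hn
    have := Subgroup.commutator_mem_commutator (Subgroup.mem_top g) (Subgroup.mem_top n)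
    rwa [commutatorElement_def] at this
  obtain ⟨A, hA⟩ := Subgroup.exists_right_complement'_of_coprime P.card_coprime_index
  have hcardA : A.index = Nat.card P := hA.index_eq_card
  have hAcard : (Nat.card A) = (P : Subgroup G).index := hA.symm.index_eq_card.symm
  have hAcop : (Nat.card A).Coprime p := by
    rw [hAcard]
    exact ((Nat.Prime.coprime_iff_not_dvd hp).2 P.not_dvd_index).symm
  have hsupP : (P : Subgroup G) ⊔ A = ⊤ := hA.sup_eq_top
  have hdisj : Disjoint (P : Subgroup G) A := hA.disjoint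
  have hAne : A ≠ ⊥ := by
    intro h0
    apply hnp
    rw [h0, sup_bot_eq] at hsupP
    refine ⟨p, hp, fun g => ?_⟩
    have hg : g ∈ (P : Subgroup G) := by
      rw [hsupP]
      exact Subgroup.mem_top g
    obtain ⟨k, hk⟩ := P.isPGroup' ⟨g, hg⟩
    exact ⟨k, by simpa using congrArg Subtype.val hk⟩
  obtain ⟨a₀, ha₀, ha₀1⟩ := (Subgroup.bot_or_exists_ne_one A).resolve_left hAne
  have hAnp : ∀ a ∈ A, a ≠ 1 → ¬ ∃ k, orderOf a = p ^ k := by
    rintro a ha ha1 ⟨k, hk⟩
    have h1 : orderOf a ∣ Nat.card A := by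
      have := orderOf_dvd_natCard (⟨a, ha⟩ : A)
      rwa [Subgroup.orderOf_mk] at this
    have hk0 : k ≠ 0 := by
      rintro rfl
      rw [pow_zero] at hk
      exact ha1 (orderOf_eq_one_iff.1 hk)
    have h2 : p ∣ Nat.card A := (dvd_pow_self p hk0).trans (hk ▸ h1)
    exact hp.one_lt.ne' (Nat.eq_one_of_dvd_coprimes hAcop h2 dvd_rfl)
  have hfA : ∀ a ∈ A, a ≠ 1 → ∀ d ∈ commutator G, a * d = d * a → d = 1 :=
    fun a ha ha1 d hd hc => hfp' a (hAnp a ha ha1) d hd hc
  have hAcomm : ∀ a ∈ A, ∀ b ∈ A, a * b = b * a := by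
    intro a ha b hb
    have h1 := Subgroup.commutator_mem_commutator (Subgroup.mem_top a) (Subgroup.mem_top b)
    rw [← _root_.commutator_def] at h1
    have h2 : ⁅a, b⁆ ∈ A := by
      rw [commutatorElement_def]
      exact A.mul_mem (A.mul_mem (A.mul_mem ha hb) (A.inv_mem ha)) (A.inv_mem hb)
    have h3 : ⁅a, b⁆ ∈ (P : Subgroup G) ⊓ A := ⟨hG'P h1, h2⟩
    rw [hdisj.eq_bot, Subgroup.mem_bot] at h3
    exact commutatorElement_eq_one_iff_mul_comm.1 h3
  haveI hAab : IsMulCommutative A := ⟨⟨fun a b => Subtype.ext (hAcomm a a.2 b b.2)⟩⟩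
  have hDle : ⁅A, (P : Subgroup G)⁆ ≤ commutator G := Subgroup.commutator_mono le_top le_top
  -- cyclic
  have hcyc : IsCyclic A := by
    let V : Subgroup G := commutator G ⊓ Subgroup.centralizer (commutator G : Set G)
    haveI hVab : IsMulCommutative V := ⟨⟨fun a b => Subtype.ext
      (Subgroup.mem_centralizer_iff.1 b.2.2 a a.2.1)⟩⟩
    have hVne : V ≠ ⊥ := by
      haveI : Nontrivial (commutator G) :=
        ⟨⟨⟨x₀, hx₀mem⟩, 1, fun h0 => hx₀1 (congrArg Subtype.val h0)⟩⟩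
      haveI := hG'p.center_nontrivial
      obtain ⟨z, hz⟩ := exists_ne (1 : Subgroup.center (commutator G))
      intro h0
      have hzV : (z : commutator G).1 ∈ V := by
        refine ⟨(z : commutator G).2, Subgroup.mem_centralizer_iff.2 ?_⟩
        intro u hu
        have := (Subgroup.mem_center_iff.1 z.2) ⟨u, hu⟩
        exact congrArg Subtype.val this
      rw [h0, Subgroup.mem_bot] at hzV
      exact hz (Subtype.ext (Subtype.ext hzV))
    have hVn : V.Normal := by
      constructor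
      intro v hv g
      refine ⟨(inferInstance : (commutator G).Normal).conj_mem v hv.1 g, Subgroup.mem_centralizer_iff.2 ?_⟩
      intro u hu
      have h1 : g⁻¹ * u * g ∈ commutator G := by
        have := (inferInstance : (commutator G).Normal).conj_mem u hu g⁻¹
        simpa using this
      have h2 := Subgroup.mem_centralizer_iff.1 hv.2 _ h1
      calc u * (g * v * g⁻¹) = g * ((g⁻¹ * u * g) * v) * g⁻¹ := by group
        _ = g * (v * (g⁻¹ * u * g)) * g⁻¹ := by rw [h2]
        _ = (g * v * g⁻¹) * u := by group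
    refine Cfsg.Agent.Lib.Hall.isCyclic_of_fpf A V hVne ?_ ?_ (Or.inl hAab)
    · rw [Subgroup.normalizer_eq_top_iff.2 hVn]
      exact le_top
    · intro a ha ha1
      rw [eq_bot_iff]
      rintro d ⟨hdV, hdc⟩
      rw [Subgroup.mem_bot]
      refine hfA a ha ha1 d hdV.1 ?_
      exact (Subgroup.mem_centralizer_iff.1 hdc a rfl)
  refine ⟨p, hfp, P, A, hPn, hcyc, hAne, hAcop, by rw [sup_comm]; exact hsupP, ?_, ?_, ?_, ?_, ?_⟩
  · refine ⟨⟨fun u v => Subtype.ext ?_⟩⟩
    have h1 := Subgroup.commutator_mem_commutator (Subgroup.mem_top (u : G)) (Subgroup.mem_top (v : G))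
    rw [← _root_.commutator_def] at h1
    have hu := Subgroup.mem_centralizer_iff.1 u.2.2 a₀ ha₀
    have hv := Subgroup.mem_centralizer_iff.1 v.2.2 a₀ ha₀
    refine commutatorElement_eq_one_iff_mul_comm.1 (hfA a₀ ha₀ ha₀1 _ h1 ?_)
    rw [commutatorElement_def]
    have hcu : Commute a₀ (u : G) := hu
    have hcv : Commute a₀ (v : G) := hv
    exact (((hcu.mul_right hcv).mul_right hcu.inv_right).mul_right hcv.inv_right)
  · rw [← Subgroup.normalizer_eq_top_iff, eq_top_iff]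
    have h1 : A ⊔ (P : Subgroup G) = ⊤ := by rw [sup_comm]; exact hsupP
    rw [← h1]
    refine sup_le (Cfsg.Agent.Lib.Hall.le_normalizer_commutator_left _ _) ?_
    rw [Subgroup.commutator_comm]
    exact Cfsg.Agent.Lib.Hall.le_normalizer_commutator_left _ _
  · have h1 := Cfsg.Agent.Lib.Hall.commutator_sup_centralizer A (P : Subgroup G)
      (by rw [Subgroup.normalizer_eq_top_iff.2 hPn]; exact le_top)
      (by
        obtain ⟨n, hn⟩ := IsPGroup.iff_card.1 P.isPGroup'
        rw [hn]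
        exact Nat.Coprime.pow_right _ hAcop)
      (Or.inl (Group.isSolvable_of_comm (fun a b => Subtype.ext (hAcomm a a.2 b b.2))))
    rw [Subgroup.commutator_comm, sup_comm]
    exact h1
  · rw [eq_bot_iff]
    rintro d ⟨⟨_, hdc⟩, hdD⟩
    rw [Subgroup.mem_bot]
    exact hfA a₀ ha₀ ha₀1 d (hDle hdD) (Subgroup.mem_centralizer_iff.1 hdc a₀ ha₀)
  · intro a ha ha1 d hd hc
    exact hfA a ha ha1 d (hDle hd) hc

theorem backward [Fintype G] {p : ℕ} [hp : Fact p.Prime] (P : Sylow p G) (A : Subgroup G)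
    (hPn : (P : Subgroup G).Normal) (hcyc : IsCyclic ↥A) (hAcop : (Nat.card ↥A).Coprime p)
    (hsup : A ⊔ (P : Subgroup G) = ⊤)
    (hCab : IsMulCommutative ↥((P : Subgroup G) ⊓ Subgroup.centralizer (A : Set G)))
    (hDn : (⁅A, (P : Subgroup G)⁆).Normal)
    (hCD : ((P : Subgroup G) ⊓ Subgroup.centralizer (A : Set G)) ⊔ ⁅A, (P : Subgroup G)⁆ = (P : Subgroup G))
    (hf : ∀ a ∈ A, a ≠ 1 → ∀ d ∈ ⁅A, (P : Subgroup G)⁆, a * d = d * a → d = 1) : Hyp G := by
  classical
  set D := ⁅A, (P : Subgroup G)⁆ with hDdef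
  set C := (P : Subgroup G) ⊓ Subgroup.centralizer (A : Set G) with hCdef
  have hAcomm : ∀ a ∈ A, ∀ b ∈ A, a * b = b * a := by
    intro a ha b hb
    exact congrArg Subtype.val (hcyc.commGroup.mul_comm ⟨a, ha⟩ ⟨b, hb⟩)
  have hG'D : commutator G ≤ D := by
    rw [_root_.commutator_def, Subgroup.commutator_le]
    intro g _ h _
    -- decompositions
    have hdec : ∀ g : G, ∃ a ∈ A, ∃ c ∈ C, ∃ d ∈ D, g = a * (c * d) := by
      intro g
      have hg : g ∈ A ⊔ (P : Subgroup G) := by rw [hsup]; exact Subgroup.mem_top g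
      obtain ⟨a, ha, u, hu, rfl⟩ := Subgroup.mem_sup_of_normal_right.1 hg
      have hu' : u ∈ C ⊔ D := by rw [hCD]; exact hu
      obtain ⟨c, hc, d, hd, rfl⟩ := Subgroup.mem_sup_of_normal_right.1 hu'
      exact ⟨a, ha, c, hc, d, hd, rfl⟩
    obtain ⟨a, ha, c, hc, d, hd, rfl⟩ := hdec g
    obtain ⟨a', ha', c', hc', d', hd', rfl⟩ := hdec h
    let π := QuotientGroup.mk' D
    have hπd : ∀ d ∈ D, π d = 1 := fun d hd => (QuotientGroup.eq_one_iff d).2 hd
    have hc1 : π a * π a' = π a' * π a := by rw [← map_mul, ← map_mul, hAcomm a ha a' ha']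
    have hc2 : π c * π c' = π c' * π c := by
      have := hCab.is_comm.comm ⟨c, hc⟩ ⟨c', hc'⟩
      have h2 : c * c' = c' * c := congrArg Subtype.val this
      rw [← map_mul, ← map_mul, h2]
    have hc3 : π a * π c' = π c' * π a := by
      have h2 := Subgroup.mem_centralizer_iff.1 hc'.2 a ha
      rw [← map_mul, ← map_mul, h2]
    have hc4 : π c * π a' = π a' * π c := by
      have h2 := Subgroup.mem_centralizer_iff.1 hc.2 a' ha'
      rw [← map_mul, ← map_mul, ← h2]
    have : π ⁅a * (c * d), a' * (c' * d')⁆ = 1 := by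
      rw [commutatorElement_def]
      simp only [map_mul, map_inv, hπd d hd, hπd d' hd', mul_one, mul_inv_rev, inv_one, one_mul]
      have hA : Commute (π a) (π a') := hc1
      have hB : Commute (π c) (π c') := hc2
      have hE : Commute (π a) (π c') := hc3
      have hF : Commute (π c) (π a') := hc4
      have h3 : Commute (π a * π c) (π a' * π c') :=
        ((hA.mul_right hE).mul_left (hF.mul_right hB))
      have h4 := h3.eq
      calc π a * π c * (π a' * π c') * ((π c)⁻¹ * (π a)⁻¹) * ((π c')⁻¹ * (π a')⁻¹)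
          = (π a * π c * (π a' * π c')) * ((π a * π c)⁻¹ * (π a' * π c')⁻¹) := by group
        _ = (π a' * π c' * (π a * π c)) * ((π a * π c)⁻¹ * (π a' * π c')⁻¹) := by rw [h4]
        _ = 1 := by group
    exact (QuotientGroup.eq_one_iff _).1 this
  have hDP : D ≤ P := by
    rw [hDdef, Subgroup.commutator_comm]
    exact Cfsg.Agent.Lib.Hall.commutator_le_of_normalizes
      (by rw [Subgroup.normalizer_eq_top_iff.2 hPn]; exact le_top)
  -- elements outside `P`
  have hpel : ∀ w : G, (∃ k, orderOf w = p ^ k) → w ∈ (P : Subgroup G) := by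
    rintro w ⟨k, hk⟩
    have h1 : IsPGroup p (Subgroup.zpowers w) := by
      apply IsPGroup.of_card (n := k)
      rw [Nat.card_zpowers, hk]
    obtain ⟨Q, hQ⟩ := h1.exists_le_sylow
    obtain ⟨g, hg⟩ := MulAction.exists_smul_eq G P Q
    haveI : (P : Subgroup G).Normal := hPn
    have h3 : Q = P := by
      rw [← hg]
      exact Sylow.smul_eq_of_normal
    rw [← h3]
    exact hQ (Subgroup.mem_zpowers w)
  have hcardG : Nat.card A * Nat.card (P : Subgroup G) = Nat.card G := by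
    have h0 := (Subgroup.isComplement'_of_disjoint_and_mul_eq_univ (H := (P : Subgroup G)) (K := A) ?_ ?_).card_mul_card
    · rw [mul_comm]
      exact h0
    · rw [Subgroup.disjoint_def]
      intro x hx hxA
      obtain ⟨k, hk⟩ := IsPGroup.iff_orderOf.1 P.isPGroup' ⟨x, hx⟩
      rw [Subgroup.orderOf_mk] at hk
      have h1 : orderOf x ∣ Nat.card A := by
        have := orderOf_dvd_natCard (⟨x, hxA⟩ : A)
        rwa [Subgroup.orderOf_mk] at this
      have h2 : orderOf x = 1 := by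
        rw [hk] at h1 ⊢
        exact Nat.eq_one_of_dvd_coprimes (Nat.Coprime.pow_right _ hAcop) h1 dvd_rfl
      exact orderOf_eq_one_iff.1 h2
    · have h1 : ((P : Subgroup G) : Set G) * (A : Set G) = ((P : Subgroup G) ⊔ A : Subgroup G) :=
        (Subgroup.normal_mul _ _).symm
      rw [h1, sup_comm, hsup]
      rfl
  have hconjA : ∀ z : G, ∀ r : ℕ, r.Prime → r ≠ p → orderOf z = r → ∃ g : G, g⁻¹ * z * g ∈ A := by
    intro z r hr hrp hz
    haveI : Fact r.Prime := ⟨hr⟩
    obtain ⟨R₀⟩ : Nonempty (Sylow r A) := inferInstance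
    have hcardR : Nat.card (R₀.1.map A.subtype) = r ^ (Nat.card G).factorization r := by
      have h1 : Nat.card (R₀.1.map A.subtype) = Nat.card R₀.1 :=
        (Nat.card_congr (R₀.1.equivMapOfInjective A.subtype A.subtype_injective).toEquiv).symm
      rw [h1, Sylow.card_eq_multiplicity, ← hcardG]
      obtain ⟨n, hn⟩ := IsPGroup.iff_card.1 P.isPGroup'
      rw [hn, Nat.factorization_mul Nat.card_pos.ne' (pow_ne_zero _ hp.out.ne_zero)]
      simp [Nat.factorization_pow, Nat.Prime.factorization hp.out, hrp.symm]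
    let R : Sylow r G := Sylow.ofCard (R₀.1.map A.subtype) hcardR
    have hzr : IsPGroup r (Subgroup.zpowers z) := by
      apply IsPGroup.of_card (n := 1)
      rw [Nat.card_zpowers, hz, pow_one]
    obtain ⟨Q, hQ⟩ := hzr.exists_le_sylow
    obtain ⟨g, hg⟩ := MulAction.exists_smul_eq G R Q
    refine ⟨g, ?_⟩
    have h1 : z ∈ (Q : Subgroup G) := hQ (Subgroup.mem_zpowers z)
    rw [← hg, Sylow.coe_subgroup_smul, Subgroup.mem_pointwise_smul_iff_inv_smul_mem, MulAut.smul_def,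
      MulAut.conj_inv_apply] at h1
    obtain ⟨a, _, hae⟩ := h1
    rw [← hae]
    exact a.2
  have hw : ∀ w : G, w ∉ (P : Subgroup G) → ∀ d ∈ D, w * d = d * w → d = 1 := by
    intro w hw d hd hc
    have hnp : ¬ ∃ k, orderOf w = p ^ k := fun h => hw (hpel w h)
    obtain ⟨r, n, hr, hrp, hor⟩ := exists_pow_prime w hnp
    obtain ⟨g, hg⟩ := hconjA (w ^ n) r hr hrp hor
    have h1 : g⁻¹ * w ^ n * g ≠ 1 := by
      intro h0
      have h2 : w ^ n = 1 := by
        have h3 : w ^ n = g * (g⁻¹ * w ^ n * g) * g⁻¹ := by group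
        rw [h3, h0]
        group
      rw [h2, orderOf_one] at hor
      exact hr.one_lt.ne hor
    have hd' : g⁻¹ * d * g ∈ D := by
      have := hDn.conj_mem d hd g⁻¹
      simpa using this
    have hcw : Commute (w ^ n) d := (show Commute w d from hc).pow_left n
    have hcomm : (g⁻¹ * w ^ n * g) * (g⁻¹ * d * g) = (g⁻¹ * d * g) * (g⁻¹ * w ^ n * g) := by
      calc (g⁻¹ * w ^ n * g) * (g⁻¹ * d * g) = g⁻¹ * (w ^ n * d) * g := by group
        _ = g⁻¹ * (d * w ^ n) * g := by rw [hcw.eq]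
        _ = _ := by group
    have h2 := hf _ hg h1 _ hd' hcomm
    have h3 : d = g * (g⁻¹ * d * g) * g⁻¹ := by group
    rw [h3, h2]
    group
  have hvan : ∀ w : G, w ∉ (P : Subgroup G) → ∀ χ : Cfsg.IrrCharacter G, (χ : G → ℂ) 1 ≠ 1 →
      (χ : G → ℂ) w = 0 := by
    intro w hwP χ hχ
    refine vanish_of_card_centralizer_le ?_ χ hχ
    have hinj : Function.Injective (fun q : D × Subgroup.centralizer ({w} : Set G) => (q.1 : G) * (q.2 : G)) := by
      rintro ⟨d₁, c₁⟩ ⟨d₂, c₂⟩ he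
      simp only at he
      have h1 : (d₂ : G)⁻¹ * d₁ = c₂ * (c₁ : G)⁻¹ := by
        rw [inv_mul_eq_iff_eq_mul, ← mul_assoc, eq_mul_inv_iff_mul_eq]
        exact he
      have h2 : (d₂ : G)⁻¹ * d₁ ∈ D := D.mul_mem (D.inv_mem d₂.2) d₁.2
      have h3 : (d₂ : G)⁻¹ * d₁ ∈ Subgroup.centralizer ({w} : Set G) := by
        rw [h1]
        exact Subgroup.mul_mem _ c₂.2 (Subgroup.inv_mem _ c₁.2)
      have h4 := hw w hwP _ h2 (Subgroup.mem_centralizer_iff.1 h3 w rfl)
      have h5 : (d₁ : G) = d₂ := by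
        have : (d₂ : G) * ((d₂ : G)⁻¹ * d₁) = d₂ := by rw [h4, mul_one]
        simpa using this
      have h6 : (c₁ : G) = c₂ := by
        rw [h5] at he
        exact mul_left_cancel he
      exact Prod.ext (Subtype.ext h5) (Subtype.ext h6)
    have h1 := Nat.card_le_card_of_injective _ hinj
    rw [Nat.card_prod] at h1
    have h2 : Nat.card (commutator G) ≤ Nat.card D := Subgroup.card_le_of_le hG'D
    have h3 := Subgroup.card_mul_index (commutator G)
    have h4 : Nat.card (commutator G) * Nat.card (Subgroup.centralizer ({w} : Set G)) ≤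
        Nat.card (commutator G) * (commutator G).index := by
      rw [h3]
      exact (Nat.mul_le_mul_right _ h2).trans h1
    exact Nat.le_of_mul_le_mul_left h4 Nat.card_pos
  intro x y χ hx hy hor
  obtain ⟨p₁, q, a, b, hp₁, hq, hne, hxo, hyo⟩ := hor
  by_cases hχ : (χ : G → ℂ) 1 = 1
  · exact irr_linear_mul χ hχ x y
  have hoo : ∀ z ∈ (P : Subgroup G), ∃ k, orderOf z = p ^ k := by
    intro z hz
    obtain ⟨k, hk⟩ := IsPGroup.iff_orderOf.1 P.isPGroup' ⟨z, hz⟩
    exact ⟨k, by rwa [Subgroup.orderOf_mk] at hk⟩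
  have hone : x ∉ (P : Subgroup G) ∨ y ∉ (P : Subgroup G) := by
    by_contra hno
    push Not at hno
    obtain ⟨k₁, hk₁⟩ := hoo x hno.1
    obtain ⟨k₂, hk₂⟩ := hoo y hno.2
    have h1 := prime_eq_of_pow hp₁ hp.out (n := orderOf x) (fun h0 => hx (orderOf_eq_one_iff.1 h0)) hxo hk₁
    have h2 := prime_eq_of_pow hq hp.out (n := orderOf y) (fun h0 => hy (orderOf_eq_one_iff.1 h0)) hyo hk₂
    exact hne (h1.trans h2.symm)
  have hxy : x * y ∉ (P : Subgroup G) := by
    intro hin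
    haveI : (P : Subgroup G).Normal := hPn
    let π := QuotientGroup.mk' (P : Subgroup G)
    have h1 : π x * π y = 1 := by
      rw [← map_mul]
      exact (QuotientGroup.eq_one_iff _).2 hin
    have h2 : π x = (π y)⁻¹ := eq_inv_of_mul_eq_one_left h1
    have h3 : orderOf (π x) ∣ p₁ ^ a := hxo ▸ orderOf_map_dvd π x
    have h4 : orderOf (π x) ∣ q ^ b := by
      rw [h2, orderOf_inv]
      exact hyo ▸ orderOf_map_dvd π y
    have hcop : Nat.Coprime (p₁ ^ a) (q ^ b) := Nat.Coprime.pow _ _ ((Nat.coprime_primes hp₁ hq).2 hne)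
    have h5 : orderOf (π x) = 1 := Nat.eq_one_of_dvd_coprimes hcop h3 h4
    have h6 : π x = 1 := orderOf_eq_one_iff.1 h5
    have h7 : π y = 1 := by
      rw [h6, one_mul] at h1
      exact h1
    rcases hone with h | h
    · exact h ((QuotientGroup.eq_one_iff _).1 h6)
    · exact h ((QuotientGroup.eq_one_iff _).1 h7)
  rw [hvan _ hxy χ hχ]
  rcases hone with h | h
  · rw [hvan x h χ hχ, zero_mul]
  · rw [hvan y h χ hχ, mul_zero]
end

/-- For a finite group G the following are equivalent. (1) χ(x y) = χ(x) χ(y) for every irreducible character χ and all non-identity elements x, y of prime power orders for two different primes. (2) G is a p-group for some prime p, or G is abelian, or for some prime p: G = A P with P a normal Sylow p-subgroup and A a nontrivial cyclic subgroup of order prime to p such that, with C = C_P(A) and D = [A, P], one has P = C D, C abelian, D normal in G, C ∩ D = 1, and A acts fixed-point-freely on D (no non-identity element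 of A centralizes a non-identity element of D). -/
theorem result {G : Type*} [Group G] [Finite G] : (∀ (x y : G) (χ : Cfsg.IrrCharacter G), x ≠ 1 → y ≠ 1 → (∃ p q a b : ℕ, p.Prime ∧ q.Prime ∧ p ≠ q ∧ orderOf x = p ^ a ∧ orderOf y = q ^ b) → (χ : G → ℂ) (x * y) = (χ : G → ℂ) x * (χ : G → ℂ) y) ↔ ((∃ p : ℕ, p.Prime ∧ IsPGroup p G) ∨ IsMulCommutative G ∨ ∃ (p : ℕ) (_ : Fact p.Prime) (P : Sylow p G) (A : Subgroup G), (P : Subgroup G).Normal ∧ IsCyclic ↥A ∧ A ≠ ⊥ ∧ (Nat.card ↥A).Coprime p ∧ A ⊔ (P : Subgroup G) = ⊤ ∧ IsMulCommutative ↥((P : Subgroup G) ⊓ Subgroup.centralizer (A : Set G)) ∧ (⁅A, (P : Subgroup G)⁆).Normal ∧ ((P : Subgroup G) ⊓ Subgroup.centralizer (A : Set G)) ⊔ ⁅A, (P : Subgroup G)⁆ = (P : Subgroup G) ∧ ((P : Subgroup G) ⊓ Subgroup.centralizer (A : Set G)) ⊓ ⁅A, (P : Subgroup G)⁆ = ⊥ ∧ ∀ a ∈ A, a ≠ 1 → ∀ d ∈ ⁅A, (P : Subgroup G)⁆, a * d = d * a → d = 1) := by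
  classical
  haveI := Fintype.ofFinite G
  constructor
  · intro h
    by_cases h1 : ∃ p : ℕ, p.Prime ∧ IsPGroup p G
    · exact Or.inl h1
    by_cases h2 : IsMulCommutative G
    · exact Or.inr (Or.inl h2)
    exact Or.inr (Or.inr (forward h h1 h2))
  · rintro (⟨p, hp, hP⟩ | hab | ⟨p, hfp, P, A, hPn, hcyc, hAne, hAcop, hsup, hCab, hDn, hCD, hCinf, hf⟩)
    · rintro x y χ hx hy ⟨p₁, q, a, b, hp₁, hq, hne, hxo, hyo⟩
      exfalso
      haveI : Fact p.Prime := ⟨hp⟩
      obtain ⟨k₁, hk₁⟩ := IsPGroup.iff_orderOf.1 hP x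
      obtain ⟨k₂, hk₂⟩ := IsPGroup.iff_orderOf.1 hP y
      have h1 := prime_eq_of_pow hp₁ hp (n := orderOf x) (fun h0 => hx (orderOf_eq_one_iff.1 h0)) hxo hk₁
      have h2 := prime_eq_of_pow hq hp (n := orderOf y) (fun h0 => hy (orderOf_eq_one_iff.1 h0)) hyo hk₂
      exact hne (h1.trans h2.symm)
    · intro x y χ _ _ _
      have hc : commutator G = ⊥ := by
        rw [_root_.commutator_def, Subgroup.commutator_eq_bot_iff_le_centralizer]
        intro g _
        exact Subgroup.mem_centralizer_iff.2 fun h _ => hab.is_comm.comm h g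
      have h1 : (χ : G → ℂ) 1 = 1 := by
        by_contra hne
        refine irr_degree_ne_zero χ (vanish_of_card_centralizer_le ?_ χ hne)
        rw [hc, Subgroup.index_bot]
        exact Subgroup.card_le_card_group _
      exact irr_linear_mul χ h1 x y
    · exact backward P A hPn hcyc hAcop hsup hCab hDn hCD hf

end Cfsg.Agent.S4756
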