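import Cfsg.Statements.S4757
import Mathlib
import Cfsg.Agent.Lib.Char.Complete
import Cfsg.Agent.Lib.Char.Brauer
import Cfsg.Agent.Lib.Char.OddOrder
import Cfsg.Agent.Lib.Char.Constituent
import Cfsg.Agent.Lib.Degree.Linear
import Cfsg.Agent.Lib.Degree.Sums
import Cfsg.Agent.Lib.Core.Basic

set_option autoImplicit false
open Cfsg
open scoped ComplexConjugate
open Cfsg.Agent.Lib.Char Cfsg.Agent.Lib.Degree

namespace Cfsg.Agent.S4757


section

variable {G : Type*} [Group G] [Fintype G]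

noncomputable def one' : Cfsg.IrrCharacter G := ⟨fun _ => 1, isIrrCharacter_one⟩

theorem one'_coe : ((one' : Cfsg.IrrCharacter G) : G → ℂ) = fun _ => 1 := rfl

theorem linear_ne_zero (χ : Cfsg.IrrCharacter G) (h : (χ : G → ℂ) 1 = 1) (g : G) : (χ : G → ℂ) g ≠ 0 := by
  intro h0
  have := norm_linear_eq_one (IsIrrCharacter.isCharacter χ.2) h g
  rw [h0] at this
  simp at this

theorem mul_conj_linear (χ : Cfsg.IrrCharacter G) (h : (χ : G → ℂ) 1 = 1) (g : G) :
    (χ : G → ℂ) g * conj ((χ : G → ℂ) g) = 1 := by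
  rw [Complex.mul_conj, Complex.normSq_eq_norm_sq, norm_linear_eq_one (IsIrrCharacter.isCharacter χ.2) h g]
  simp

/-- The conjugate of a linear character. -/
noncomputable def conjL (χ : Cfsg.IrrCharacter G) : Cfsg.IrrCharacter G :=
  ⟨fun g => conj ((χ : G → ℂ) g), isIrr_conj χ.2⟩

theorem conjL_apply (χ : Cfsg.IrrCharacter G) (g : G) : ((conjL χ : Cfsg.IrrCharacter G) : G → ℂ) g = conj ((χ : G → ℂ) g) := rfl

theorem hsum (u : G) (hu : u ≠ 1) : ∑ χ : Cfsg.IrrCharacter G, (χ : G → ℂ) u * conj ((χ : G → ℂ) 1) = 0 := by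
  classical
  rw [second_orthogonality, if_neg]
  intro h
  exact hu (isConj_one_right.mp h.symm)

theorem c_ne_zero (u : G) (hu : u ≠ 1) (c : ℂ)
    (hyp : ∀ χ : Cfsg.IrrCharacter G, (χ : G → ℂ) ≠ (fun _ => (1 : ℂ)) → ((χ : G → ℂ) 1 - (χ : G → ℂ) u = c ∨ (χ : G → ℂ) u = 0)) :
    c ≠ 0 := by
  classical
  rintro rfl
  have h1 := congrArg Complex.re (hsum u hu)
  rw [Complex.re_sum, Complex.zero_re] at h1
  have hnn : ∀ χ : Cfsg.IrrCharacter G, 0 ≤ ((χ : G → ℂ) u * conj ((χ : G → ℂ) 1)).re := by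
    intro χ
    by_cases hχ : (χ : G → ℂ) = fun _ => (1 : ℂ)
    · rw [hχ]
      simp
    · obtain ⟨n, hn, hn'⟩ := irr_degree_natCast χ
      rcases hyp χ hχ with h | h
      · have : (χ : G → ℂ) u = (χ : G → ℂ) 1 := by linear_combination -h
        rw [this, hn']
        simp only [Complex.conj_natCast]
        have : ((n : ℂ) * (n : ℂ)).re = (n : ℝ) * n := by
          rw [← Complex.ofReal_natCast, ← Complex.ofReal_mul, Complex.ofReal_re]
        rw [this]
        positivity
      · rw [h]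
        simp
  have h2 := (Finset.sum_eq_zero_iff_of_nonneg (fun χ _ => hnn χ)).mp h1 one' (Finset.mem_univ _)
  simp [one'_coe] at h2

theorem b_to_c (u : G) (hu : u ≠ 1) (c : ℂ)
    (hyp : ∀ χ : Cfsg.IrrCharacter G, (χ : G → ℂ) ≠ (fun _ => (1 : ℂ)) → ((χ : G → ℂ) 1 - (χ : G → ℂ) u = c ∨ (χ : G → ℂ) u = 0))
    (hb : commutator G ≠ ⊤) : c = 2 := by
  classical
  have hc0 := c_ne_zero u hu c hyp
  have hex : ∃ l : Cfsg.IrrCharacter G, (l : G → ℂ) 1 = 1 ∧ (l : G → ℂ) ≠ fun _ => (1 : ℂ) := by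
    by_contra hcon
    push Not at hcon
    have h1 := card_linear_eq_index_commutator (G := G)
    have h2 : Nat.card {χ : Cfsg.IrrCharacter G // (χ : G → ℂ) 1 = 1} = 1 := by
      rw [Nat.card_eq_one_iff_unique]
      refine ⟨⟨fun a b => ?_⟩, ⟨⟨one', rfl⟩⟩⟩
      apply Subtype.ext
      apply Subtype.ext
      rw [hcon a.1 a.2, hcon b.1 b.2]
    rw [h2] at h1
    exact hb (Subgroup.index_eq_one.mp h1.symm)
  obtain ⟨l, hl1, hl2⟩ := hex
  have h1 : 1 - (l : G → ℂ) u = c := by
    rcases hyp l hl2 with h | h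
    · rwa [hl1] at h
    · exact absurd h (linear_ne_zero l hl1 u)
  have hconj1 : ((conjL l : Cfsg.IrrCharacter G) : G → ℂ) 1 = 1 := by
    rw [conjL_apply, hl1, map_one]
  have hconj2 : ((conjL l : Cfsg.IrrCharacter G) : G → ℂ) ≠ fun _ => (1 : ℂ) := by
    intro h
    apply hl2
    funext g
    have := congrFun h g
    rw [conjL_apply] at this
    have h3 := congrArg conj this
    rw [Complex.conj_conj, map_one] at h3
    exact h3
  have h2 : 1 - conj ((l : G → ℂ) u) = c := by
    rcases hyp (conjL l) hconj2 with h | h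
    · rwa [hconj1, conjL_apply] at h
    · exact absurd h (linear_ne_zero _ hconj1 u)
  have h3 := mul_conj_linear l hl1 u
  have h4 : conj ((l : G → ℂ) u) = (l : G → ℂ) u := by linear_combination -h2 + h1
  rw [h4] at h3
  have h5 : ((l : G → ℂ) u - 1) * ((l : G → ℂ) u + 1) = 0 := by linear_combination h3
  rcases mul_eq_zero.mp h5 with h6 | h6
  · exfalso
    apply hc0
    rw [← h1]
    linear_combination -h6
  · rw [← h1]
    linear_combination -h6

theorem structure_of_two (u : G) (hu : u ≠ 1)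
    (hyp : ∀ χ : Cfsg.IrrCharacter G, (χ : G → ℂ) ≠ (fun _ => (1 : ℂ)) → ((χ : G → ℂ) 1 - (χ : G → ℂ) u = 2 ∨ (χ : G → ℂ) u = 0)) :
    ∃ l : Cfsg.IrrCharacter G, (l : G → ℂ) 1 = 1 ∧ l ≠ one' ∧ (l : G → ℂ) u = -1 ∧
      (∀ μ : Cfsg.IrrCharacter G, (μ : G → ℂ) 1 = 1 → μ = one' ∨ μ = l) ∧
      (∀ χ : Cfsg.IrrCharacter G, (χ : G → ℂ) 1 ≠ 1 → (χ : G → ℂ) u = 0) := by
  classical
  have h_lin : ∀ μ : Cfsg.IrrCharacter G, (μ : G → ℂ) 1 = 1 → μ ≠ one' → (μ : G → ℂ) u = -1 := by
    intro μ h1 h2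
    have h3 : (μ : G → ℂ) ≠ fun _ => (1 : ℂ) := fun h => h2 (Subtype.ext h)
    rcases hyp μ h3 with h | h
    · rw [h1] at h
      linear_combination -h
    · exact absurd h (linear_ne_zero μ h1 u)
  have h_uniq : ∀ μ ν : Cfsg.IrrCharacter G, (μ : G → ℂ) 1 = 1 → (ν : G → ℂ) 1 = 1 → μ ≠ one' → ν ≠ one' → μ = ν := by
    intro μ ν hμ hν hμ' hν'
    have hconj1 : ((conjL ν : Cfsg.IrrCharacter G) : G → ℂ) 1 = 1 := by
      rw [conjL_apply, hν, map_one]
    let θ : Cfsg.IrrCharacter G := ⟨(μ : G → ℂ) * ((conjL ν : Cfsg.IrrCharacter G) : G → ℂ),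
      isIrr_mul_linear μ.2 (IsIrrCharacter.isCharacter (conjL ν).2) hconj1⟩
    have hθ : ∀ g, (θ : G → ℂ) g = (μ : G → ℂ) g * conj ((ν : G → ℂ) g) := fun g => rfl
    have hθ1 : (θ : G → ℂ) 1 = 1 := by
      rw [hθ, hμ, hν, map_one, one_mul]
    have hθu : (θ : G → ℂ) u = 1 := by
      rw [hθ, h_lin μ hμ hμ', h_lin ν hν hν']
      simp
    have hθone : θ = one' := by
      by_contra hne
      have := h_lin θ hθ1 hne
      rw [hθu] at this
      norm_num at this
    apply Subtype.ext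
    funext g
    have h1 : (θ : G → ℂ) g = 1 := by rw [hθone]; rfl
    rw [hθ] at h1
    have h2 := mul_conj_linear ν hν g
    have h3 : conj ((ν : G → ℂ) g) ≠ 0 := fun h0 => by
      rw [h0, mul_zero] at h2
      exact zero_ne_one h2
    exact mul_right_cancel₀ h3 (h1.trans h2.symm)
  have hnn : ∀ χ : Cfsg.IrrCharacter G, (χ : G → ℂ) 1 ≠ 1 →
      0 ≤ ((χ : G → ℂ) u * conj ((χ : G → ℂ) 1)).re ∧
      (((χ : G → ℂ) u * conj ((χ : G → ℂ) 1)).re = 0 → (χ : G → ℂ) u = 0) := by
    intro χ hχ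
    obtain ⟨n, hn, hn'⟩ := irr_degree_natCast χ
    have hχ' : (χ : G → ℂ) ≠ fun _ => (1 : ℂ) := fun h => hχ (by rw [h])
    have hn2 : n ≠ 1 := fun h => hχ (by rw [hn', h]; simp)
    rcases hyp χ hχ' with h | h
    · have h1 : (χ : G → ℂ) u = (n : ℂ) - 2 := by
        rw [hn'] at h
        linear_combination -h
      rw [h1, hn']
      simp only [map_natCast]
      have h3 : (((n : ℂ) - 2) * (n : ℂ)).re = ((n : ℝ) - 2) * n := by
        have : ((n : ℂ) - 2) * (n : ℂ) = (((n : ℝ) - 2) * (n : ℝ) : ℝ) := by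
          push_cast
          ring
        rw [this, Complex.ofReal_re]
      rw [h3]
      have hn3 : (2 : ℝ) ≤ n := by
        have : 2 ≤ n := by omega
        exact_mod_cast this
      constructor
      · have : 0 ≤ (n : ℝ) - 2 := by linarith
        positivity
      · intro h4
        have h5 : (n : ℝ) - 2 = 0 := by
          rcases mul_eq_zero.mp h4 with h6 | h6
          · exact h6
          · linarith
        have h6 : (n : ℂ) - 2 = 0 := by
          have : (n : ℝ) = 2 := by linarith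
          have h7 : n = 2 := by exact_mod_cast this
          rw [h7]
          norm_num
        exact h6
    · rw [h]
      simp
  have hs := congrArg Complex.re (hsum u hu)
  rw [Complex.re_sum, Complex.zero_re] at hs
  rw [← Finset.add_sum_erase _ _ (Finset.mem_univ (one' : Cfsg.IrrCharacter G))] at hs
  have hone : (((one' : Cfsg.IrrCharacter G) : G → ℂ) u * conj (((one' : Cfsg.IrrCharacter G) : G → ℂ) 1)).re = 1 := by
    simp [one'_coe]
  rw [hone] at hs
  -- existence of the nontrivial linear character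
  have hex : ∃ l : Cfsg.IrrCharacter G, (l : G → ℂ) 1 = 1 ∧ l ≠ one' := by
    by_contra hcon
    push Not at hcon
    have h1 : 0 ≤ ∑ χ ∈ Finset.univ.erase (one' : Cfsg.IrrCharacter G),
        ((χ : G → ℂ) u * conj ((χ : G → ℂ) 1)).re := by
      refine Finset.sum_nonneg fun χ hχ => ?_
      refine (hnn χ fun h => ?_).1
      exact Finset.ne_of_mem_erase hχ (hcon χ h)
    linarith
  obtain ⟨l, hl1, hl2⟩ := hex
  have hlu := h_lin l hl1 hl2
  have hlmem : l ∈ Finset.univ.erase (one' : Cfsg.IrrCharacter G) := by simp [hl2]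
  rw [← Finset.add_sum_erase _ _ hlmem] at hs
  have hlt : ((l : G → ℂ) u * conj ((l : G → ℂ) 1)).re = -1 := by
    rw [hlu, hl1]
    simp
  rw [hlt] at hs
  have hrest : ∑ χ ∈ (Finset.univ.erase (one' : Cfsg.IrrCharacter G)).erase l,
      ((χ : G → ℂ) u * conj ((χ : G → ℂ) 1)).re = 0 := by linarith
  have hnonlin : ∀ χ ∈ (Finset.univ.erase (one' : Cfsg.IrrCharacter G)).erase l, (χ : G → ℂ) 1 ≠ 1 := by
    intro χ hχ h
    have h1 := Finset.ne_of_mem_erase hχ
    have h2 := Finset.ne_of_mem_erase (Finset.mem_of_mem_erase hχ)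
    exact h1 (h_uniq χ l h hl1 h2 hl2)
  have hall := (Finset.sum_eq_zero_iff_of_nonneg (fun χ hχ => (hnn χ (hnonlin χ hχ)).1)).mp hrest
  refine ⟨l, hl1, hl2, hlu, ?_, ?_⟩
  · intro μ hμ
    by_cases h : μ = one'
    · exact Or.inl h
    · exact Or.inr (h_uniq μ l hμ hl1 h hl2)
  · intro χ hχ
    have h1 : χ ≠ one' := fun h => hχ (by rw [h]; rfl)
    have h2 : χ ≠ l := fun h => hχ (by rw [h]; exact hl1)
    have hmem : χ ∈ (Finset.univ.erase (one' : Cfsg.IrrCharacter G)).erase l := by simp [h1, h2]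
    exact (hnn χ hχ).2 (hall χ hmem)

theorem a_to_b (u : G) (h2 : orderOf u = 2) (h3 : Subgroup.zpowers u ⊔ Cfsg.oddCore G = ⊤) : commutator G ≠ ⊤ := by
  classical
  intro htop
  have hO : (Cfsg.oddCore G).Normal := inferInstance
  have hle : commutator G ≤ Cfsg.oddCore G := by
    rw [commutator_def, Subgroup.commutator_le]
    intro a _ b _
    -- the quotient is cyclic
    have hq : ∀ x : G, ∃ k : ℤ, (QuotientGroup.mk x : G ⧸ Cfsg.oddCore G) = (QuotientGroup.mk u) ^ k := by
      intro x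
      have hx : x ∈ Subgroup.zpowers u ⊔ Cfsg.oddCore G := by rw [h3]; trivial
      have hx' : x ∈ ((Subgroup.zpowers u ⊔ Cfsg.oddCore G : Subgroup G) : Set G) := hx
      rw [Subgroup.mul_normal] at hx'
      obtain ⟨y, hy, z, hz, rfl⟩ := Set.mem_mul.mp hx'
      obtain ⟨k, rfl⟩ := Subgroup.mem_zpowers_iff.mp hy
      refine ⟨k, ?_⟩
      rw [QuotientGroup.mk_mul, (QuotientGroup.eq_one_iff z).mpr hz, mul_one]
      simp
    obtain ⟨k, hk⟩ := hq a
    obtain ⟨m, hm⟩ := hq b
    rw [← QuotientGroup.eq_one_iff, commutatorElement_def]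
    simp only [QuotientGroup.mk_mul, QuotientGroup.mk_inv, hk, hm]
    have : Commute ((QuotientGroup.mk u : G ⧸ Cfsg.oddCore G) ^ k) ((QuotientGroup.mk u : G ⧸ Cfsg.oddCore G) ^ m) :=
      (Commute.refl _).zpow_zpow k m
    rw [this.eq]
    group
  rw [htop] at hle
  have hu : u ∈ Cfsg.oddCore G := hle (Subgroup.mem_top u)
  have hdvd := Subgroup.orderOf_dvd_natCard (Cfsg.oddCore G) hu
  rw [h2] at hdvd
  haveI : Fact (Nat.Prime 2) := ⟨Nat.prime_two⟩
  exact Cfsg.Agent.Lib.Core.not_dvd_card_pPrimeCore hdvd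

theorem c_to_a (u : G) (hu : u ≠ 1)
    (h : ∃ l : Cfsg.IrrCharacter G, (l : G → ℂ) 1 = 1 ∧ l ≠ one' ∧ (l : G → ℂ) u = -1 ∧
      (∀ μ : Cfsg.IrrCharacter G, (μ : G → ℂ) 1 = 1 → μ = one' ∨ μ = l) ∧
      (∀ χ : Cfsg.IrrCharacter G, (χ : G → ℂ) 1 ≠ 1 → (χ : G → ℂ) u = 0)) :
    orderOf u = 2 ∧ Subgroup.zpowers u ⊔ Cfsg.oddCore G = ⊤ ∧ Subgroup.centralizer ({u} : Set G) = Subgroup.zpowers u := by
  classical
  obtain ⟨l, hl1, hl2, hlu, hmu, hnl⟩ := h
  haveI : Fact (Nat.Prime 2) := ⟨Nat.prime_two⟩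
  -- centralizer has order two
  have hcard : Nat.card (Subgroup.centralizer ({u} : Set G)) = 2 := by
    have h1 := second_orthogonality u u
    rw [if_pos (IsConj.refl u)] at h1
    rw [← Finset.add_sum_erase _ _ (Finset.mem_univ (one' : Cfsg.IrrCharacter G))] at h1
    have hlmem : l ∈ Finset.univ.erase (one' : Cfsg.IrrCharacter G) := by simp [hl2]
    rw [← Finset.add_sum_erase _ _ hlmem] at h1
    rw [Finset.sum_eq_zero, hlu] at h1
    · simp only [one'_coe, map_one, mul_one, map_neg, add_zero] at h1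
      have h2 : ((2 : ℕ) : ℂ) = (Nat.card (Subgroup.centralizer ({u} : Set G)) : ℂ) := by
        rw [← h1]
        norm_num
      exact_mod_cast h2.symm
    · intro χ hχ
      have h1 := Finset.ne_of_mem_erase hχ
      have h2 := Finset.ne_of_mem_erase (Finset.mem_of_mem_erase hχ)
      have h3 : (χ : G → ℂ) 1 ≠ 1 := fun h => by
        rcases hmu χ h with h4 | h4
        · exact h2 h4
        · exact h1 h4
      rw [hnl χ h3, zero_mul]
  have humem : u ∈ Subgroup.centralizer ({u} : Set G) :=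
    Subgroup.mem_centralizer_singleton_iff.mpr rfl
  have hord : orderOf u = 2 := by
    have h1 := Subgroup.orderOf_dvd_natCard _ humem
    rw [hcard] at h1
    rcases (Nat.dvd_prime Nat.prime_two).mp h1 with h2 | h2
    · exact absurd (orderOf_eq_one_iff.mp h2) hu
    · exact h2
  have hzle : Subgroup.zpowers u ≤ Subgroup.centralizer ({u} : Set G) := by
    rw [Subgroup.zpowers_le]
    exact humem
  have hzeq : Subgroup.centralizer ({u} : Set G) = Subgroup.zpowers u := by
    symm
    apply Subgroup.eq_of_le_of_card_ge hzle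
    rw [hcard, Nat.card_zpowers, hord]
  -- the commutator has index 2
  have hidx : (commutator G).index = 2 := by
    rw [← card_linear_eq_index_commutator, Nat.card_eq_two_iff]
    refine ⟨⟨one', rfl⟩, ⟨l, hl1⟩, ?_, ?_⟩
    · intro h
      exact hl2 (congrArg Subtype.val h).symm
    · ext μ
      simp only [Set.mem_insert_iff, Set.mem_singleton_iff, Set.mem_univ, iff_true]
      rcases hmu μ.1 μ.2 with h | h
      · exact Or.inl (Subtype.ext h)
      · exact Or.inr (Subtype.ext h)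
  -- a Sylow 2-subgroup containing u has order 2
  have hpu : IsPGroup 2 (Subgroup.zpowers u) := by
    apply IsPGroup.of_card (n := 1)
    rw [Nat.card_zpowers, hord, pow_one]
  obtain ⟨T, hT⟩ := hpu.exists_le_sylow
  have huT : u ∈ (T : Subgroup G) := hT (Subgroup.mem_zpowers u)
  have hTcard : Nat.card (T : Subgroup G) = 2 := by
    haveI : Nontrivial (T : Subgroup G) := ⟨⟨⟨u, huT⟩, 1, fun h => hu (congrArg Subtype.val h)⟩⟩
    have hcen := T.isPGroup'.center_nontrivial
    obtain ⟨z, hz⟩ := exists_ne (1 : Subgroup.center (T : Subgroup G))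
    have hz1 : ((z : (T : Subgroup G)) : G) ≠ 1 := fun h => hz (Subtype.ext (Subtype.ext h))
    have hzc : ((z : (T : Subgroup G)) : G) ∈ Subgroup.centralizer ({u} : Set G) := by
      rw [Subgroup.mem_centralizer_singleton_iff]
      have := (Subgroup.mem_center_iff.mp z.2) ⟨u, huT⟩
      exact (congrArg Subtype.val this).symm
    rw [hzeq] at hzc
    have hzu : ((z : (T : Subgroup G)) : G) = u := by
      obtain ⟨k, hk⟩ := Subgroup.mem_zpowers_iff.mp hzc
      have h4 : k % 2 = 0 ∨ k % 2 = 1 := by omega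
      have h5 : u ^ (k % 2) = u ^ k := by
        have := zpow_mod_orderOf u k
        rw [hord] at this
        exact_mod_cast this
      rcases h4 with h4 | h4
      · rw [h4, zpow_zero] at h5
        exact absurd (by rw [← hk, ← h5]) hz1
      · rw [h4, zpow_one] at h5
        rw [← hk, ← h5]
    have hTle : (T : Subgroup G) ≤ Subgroup.centralizer ({u} : Set G) := by
      intro w hw
      rw [Subgroup.mem_centralizer_singleton_iff, ← hzu]
      have := (Subgroup.mem_center_iff.mp z.2) ⟨w, hw⟩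
      exact congrArg Subtype.val this
    have h1 := Subgroup.card_le_of_le hTle
    rw [hcard] at h1
    have h2 : Nat.card (Subgroup.zpowers u) ≤ Nat.card (T : Subgroup G) := Subgroup.card_le_of_le hT
    rw [Nat.card_zpowers, hord] at h2
    omega
  have hM : (Nat.card (commutator G)).Coprime 2 := by
    have h1 := Subgroup.index_mul_card (T : Subgroup G)
    have h2 := Subgroup.index_mul_card (commutator G)
    rw [hTcard] at h1
    rw [hidx] at h2
    have h3 : Nat.card (commutator G) = (T : Subgroup G).index := by omega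
    rw [h3, Nat.coprime_comm, Nat.Prime.coprime_iff_not_dvd Nat.prime_two]
    exact T.not_dvd_index
  have hMle : commutator G ≤ Cfsg.oddCore G :=
    Cfsg.Agent.Lib.Core.le_pPrimeCore inferInstance hM
  have hunot : u ∉ commutator G := by
    intro h
    have h1 := Subgroup.orderOf_dvd_natCard _ h
    rw [hord] at h1
    have := Nat.Coprime.eq_one_of_dvd hM.symm h1
    omega
  have hsup : Subgroup.zpowers u ⊔ commutator G = ⊤ := by
    have hle : commutator G ≤ Subgroup.zpowers u ⊔ commutator G := le_sup_right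
    have h1 := Subgroup.relIndex_mul_index hle
    rw [hidx] at h1
    rw [← Subgroup.index_eq_one]
    have h2 : (commutator G).relIndex (Subgroup.zpowers u ⊔ commutator G) ∣ 2 := Dvd.intro _ h1
    rcases (Nat.dvd_prime Nat.prime_two).mp h2 with h3 | h3
    · exfalso
      rw [Subgroup.relIndex_eq_one] at h3
      exact hunot (h3 (Subgroup.mem_sup_left (Subgroup.mem_zpowers u)))
    · rw [h3] at h1
      omega
  refine ⟨hord, ?_, hzeq⟩
  rw [eq_top_iff, ← hsup]
  exact sup_le_sup_left hMle _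

end

/-- Let u ≠ 1 be an element of the finite group G and c a complex number such that every non-principal irreducible character χ satisfies χ(1) − χ(u) = c or χ(u) = 0. Then the following are equivalent: (a) u has order 2, G is generated by u together with O(G), the largest normal subgroup of G of odd order, and the centralizer of u is {1, u}; (b) G is not perfect; (c) c = 2. -/
theorem result {G : Type*} [Group G] [Finite G] (u : G) (hu : u ≠ 1) (c : ℂ) (hyp : ∀ χ : Cfsg.IrrCharacter G, (χ : G → ℂ) ≠ (fun _ => (1 : ℂ)) → ((χ : G → ℂ) 1 - (χ : G → ℂ) u = c ∨ (χ : G → ℂ) u = 0)) : ((orderOf u = 2 ∧ Subgroup.zpowers u ⊔ Cfsg.oddCore G = ⊤ ∧ Subgroup.centralizer ({u} : Set G) = Subgroup.zpowers u) ↔ commutator G ≠ ⊤) ∧ (commutator G ≠ ⊤ ↔ c = 2) := by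

  classical
  have := Fintype.ofFinite G
  have hbc := b_to_c u hu c hyp
  refine ⟨⟨fun ha => a_to_b u ha.1 ha.2.1, fun hb => ?_⟩, ⟨hbc, fun hc => ?_⟩⟩
  · have hc := hbc hb
    subst hc
    exact c_to_a u hu (structure_of_two u hu hyp)
  · subst hc
    obtain ⟨l, hl1, hl2, -⟩ := structure_of_two u hu hyp
    intro htop
    apply hl2
    apply Subtype.ext
    funext g
    have h1 : g ∈ commutator G := by rw [htop]; exact Subgroup.mem_top g
    exact Cfsg.Agent.Lib.Degree.irr_linear_commutator l hl1 h1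

end Cfsg.Agent.S4757
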