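import Cfsg.Statements.S4762
import Mathlib
import Cfsg.Agent.Lib.Degree.UniqueDvd2
import Cfsg.Agent.Lib.Block.Jordan
import Cfsg.Agent.Lib.PGroup.MaxNormal

set_option autoImplicit false
open Cfsg
open Cfsg.Agent.Lib.Degree

namespace Cfsg.Agent.S4762

/-- Let p be a prime and G a finite nilpotent group. Then G has exactly one irreducible complex character of degree divisible by p if and only if p = 2 and G is an extraspecial 2-group. -/
theorem result {G : Type*} [Group G] [Finite G] [Group.IsNilpotent G] (p : ℕ) [Fact p.Prime] : Nat.card {χ : Cfsg.IrrCharacter G // p ∣ Cfsg.charDegree (χ : G → ℂ)} = 1 ↔ (p = 2 ∧ Cfsg.IsExtraspecial 2 G) := by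
  classical
  haveI := Fintype.ofFinite G
  letI : ∀ H : Subgroup G, Fintype H := fun H => Fintype.ofFinite H
  have hpp : p.Prime := Fact.out
  constructor
  · intro hone
    obtain ⟨hsub, ⟨⟨χ₀, h0⟩⟩⟩ := Nat.card_eq_one_iff_unique.mp hone
    have huniq : ∀ χ : Cfsg.IrrCharacter G, p ∣ Cfsg.charDegree (χ : G → ℂ) → χ = χ₀ := by
      intro χ hχ
      exact congrArg Subtype.val (hsub.elim ⟨χ, hχ⟩ ⟨χ₀, h0⟩)
    let N : Subgroup G := Cfsg.pPrimeCore p G
    let P : Subgroup G := Cfsg.pCore p G
    haveI hNn : N.Normal := Cfsg.Agent.Lib.Core.pPrimeCore_normal p G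
    haveI hPn : P.Normal := Cfsg.Agent.Lib.Core.pCore_normal p G
    have hPp : IsPGroup p P := Cfsg.Agent.Lib.Core.pCore_isPGroup p G
    have hNc : (Nat.card N).Coprime p := Cfsg.Agent.Lib.Core.pPrimeCore_coprime p G
    have hNp : ¬ p ∣ Nat.card N := fun h => by
      have := Nat.Coprime.eq_one_of_dvd hNc.symm h
      exact hpp.one_lt.ne' this
    have hdisj := disjoint_of_not_dvd N hPp hNp
    have hNP : N ⊔ P = ⊤ := by
      rw [eq_top_iff]
      intro g _
      obtain ⟨x, y, h1, h2, h3, h4, _, _⟩ := Cfsg.Agent.Lib.Block.exists_jordan (p := p) g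
      have hx : x ∈ P := by
        have hz : IsPGroup p (Subgroup.zpowers x) := by
          obtain ⟨k, hk⟩ := h3
          exact IsPGroup.iff_card.mpr ⟨k, by rw [Nat.card_zpowers, hk]⟩
        exact Cfsg.Agent.Lib.Core.subnormal_pgroup_le_pCore p _ (Cfsg.Agent.S0064.result.mp inferInstance _) hz
          (Subgroup.mem_zpowers x)
      have hy : y ∈ N := by
        have hc : (orderOf y).Coprime p := ((Nat.Prime.coprime_iff_not_dvd hpp).mpr h4).symm
        exact Cfsg.Agent.Lib.Core.subnormal_coprime_le_pPrimeCore p _ (Cfsg.Agent.S0064.result.mp inferInstance _)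
          (by rw [Nat.card_zpowers]; exact hc) (Subgroup.mem_zpowers y)
      rw [← h1, h2.eq]
      exact Subgroup.mul_mem_sup hy hx
    have hcomp : Subgroup.IsComplement' N P := by
      refine Subgroup.isComplement'_of_disjoint_and_mul_eq_univ (disjoint_iff.mpr hdisj) ?_
      rw [← Subgroup.normal_mul, hNP]
      rfl
    obtain ⟨k, hk⟩ := IsPGroup.iff_card.mp hPp
    have hidx : N.index = p ^ k := by rw [hcomp.symm.index_eq_card, hk]
    have hcent : ∀ x ∈ P, ∀ n ∈ N, x * n * x⁻¹ = n := by
      intro x hx n hn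
      have h1 := Subgroup.commute_of_normal_of_disjoint P N hPn hNn (by
        rw [disjoint_comm]
        exact disjoint_iff.mpr hdisj) x n hx hn
      rw [h1.eq]
      group
    have hbot := eq_bot_of_centralizes N hidx hNp P hPp hNP hcent χ₀ h0 huniq
    have hPtop : P = ⊤ := by
      have : N ⊔ P = P := by rw [hbot, bot_sup_eq]
      rw [← this, hNP]
    have hPG : IsPGroup p G := by
      have h1 : IsPGroup p (⊤ : Subgroup G) := hPtop ▸ hPp
      intro g
      obtain ⟨k, hk⟩ := h1 ⟨g, trivial⟩
      exact ⟨k, by simpa using congrArg Subtype.val hk⟩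
    exact extraspecial_of_unique hPG χ₀ h0 huniq
  · rintro ⟨rfl, hE⟩
    exact unique_of_extraspecial hE

end Cfsg.Agent.S4762
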