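import Cfsg.Statements.S4765
import Mathlib
import Cfsg.Agent.Lib.Degree.PSL2Deg

set_option autoImplicit false
open Cfsg
open Cfsg.Agent.Lib.Degree.PSL2Deg

namespace Cfsg.Agent.S4765

/-- Let F be a finite field of characteristic p with at least 4 elements. Then PSL(2,F) has exactly one irreducible complex character of degree divisible by p, and its degree is the order of F. -/
theorem result (p : ℕ) [Fact p.Prime] (F : Type*) [Field F] [Fintype F] [CharP F p] (hF : 4 ≤ Fintype.card F) : Nat.card {χ : Cfsg.IrrCharacter (Matrix.ProjectiveSpecialLinearGroup (Fin 2) F) // p ∣ Cfsg.charDegree (χ : Matrix.ProjectiveSpecialLinearGroup (Fin 2) F → ℂ)} = 1 ∧ ∀ χ : Cfsg.IrrCharacter (Matrix.ProjectiveSpecialLinearGroup (Fin 2) F), p ∣ Cfsg.charDegree (χ : Matrix.ProjectiveSpecialLinearGroup (Fin 2) F → ℂ) → Cfsg.charDegree (χ : Matrix.ProjectiveSpecialLinearGroup (Fin 2) F → ℂ) = Fintype.card F := by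
  classical
  letI : Fintype (Matrix.SpecialLinearGroup (Fin 2) F) := Fintype.ofFinite _
  obtain ⟨n, hp, hn⟩ := FiniteField.card F p
  have hpp : p.Prime := Fact.out
  have key : ∀ χ : Cfsg.IrrCharacter (Matrix.ProjectiveSpecialLinearGroup (Fin 2) F),
      p ∣ Cfsg.charDegree (χ : Matrix.ProjectiveSpecialLinearGroup (Fin 2) F → ℂ) →
      Cfsg.charDegree (χ : Matrix.ProjectiveSpecialLinearGroup (Fin 2) F → ℂ) = Fintype.card F := by
    intro χ hχ
    have hdvd : p ∣ Fintype.card F := by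
      rw [hn]
      exact dvd_pow_self p n.pos.ne'
    have hq : 2 ≤ Fintype.card F := Fintype.one_lt_card
    rcases DegList.cases (psl_deg_list χ) with h | h | h | h
    · rw [h] at hχ
      exact absurd (Nat.dvd_one.mp hχ) hpp.one_lt.ne'
    · exact h
    · exfalso
      have h1 : p ∣ Fintype.card F + 1 := hχ.trans h
      have h2 : p ∣ 1 := (Nat.dvd_add_right hdvd).mp h1
      exact absurd (Nat.dvd_one.mp h2) hpp.one_lt.ne'
    · exfalso
      have h1 : p ∣ Fintype.card F - 1 := hχ.trans h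
      have h3 : Fintype.card F = (Fintype.card F - 1) + 1 := by omega
      have h2 : p ∣ 1 := by
        have h4 : p ∣ (Fintype.card F - 1) + 1 := by rw [← h3]; exact hdvd
        exact (Nat.dvd_add_right h1).mp h4
      exact absurd (Nat.dvd_one.mp h2) hpp.one_lt.ne'
  refine ⟨?_, key⟩
  obtain ⟨ψ, hψ⟩ := psl_q_mem (F := F)
  have hdvd : p ∣ Cfsg.charDegree (ψ : Matrix.ProjectiveSpecialLinearGroup (Fin 2) F → ℂ) := by
    rw [hψ, hn]
    exact dvd_pow_self p n.pos.ne'
  rw [Nat.card_eq_one_iff_unique]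
  refine ⟨⟨?_⟩, ⟨⟨ψ, hdvd⟩⟩⟩
  rintro ⟨a, ha⟩ ⟨b, hb⟩
  exact Subtype.ext (psl_q_unique a b (key a ha) (key b hb))

end Cfsg.Agent.S4765
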