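import Cfsg.Statements.S4774
import Mathlib
import Cfsg.Agent.Lib.Degree.PSL2Deg

set_option autoImplicit false
open Cfsg
open Cfsg.Agent.Lib.Degree.PSL2Deg

namespace Cfsg.Agent.S4774

/-- Let F be a finite field of odd characteristic t with q > 5 elements and let S be isomorphic to PSL(2,F) or to SL(2,F). Then the vertices of the character degree graph of S are the primes dividing q(q²−1); the prime t is adjacent to no vertex; two distinct primes dividing q² − 1 are adjacent exactly when one of them is 2, or both divide q + 1, or both divide q − 1. -/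
theorem result (F : Type*) [Field F] [Fintype F] (t : ℕ) [Fact t.Prime] [CharP F t] (ht : t ≠ 2) (q : ℕ) (hq : Fintype.card F = q) (h5 : 5 < q) {S : Type*} [Group S] [Finite S] (hS : Nonempty (S ≃* Matrix.ProjectiveSpecialLinearGroup (Fin 2) F) ∨ Nonempty (S ≃* Matrix.SpecialLinearGroup (Fin 2) F)) : Cfsg.degreePrimes S = {r : ℕ | r.Prime ∧ r ∣ q * (q ^ 2 - 1)} ∧ ∀ r s : ℕ, (Cfsg.degreeGraph S).Adj r s ↔ (r ≠ s ∧ r.Prime ∧ s.Prime ∧ r ∣ q ^ 2 - 1 ∧ s ∣ q ^ 2 - 1 ∧ (r = 2 ∨ s = 2 ∨ (r ∣ q + 1 ∧ s ∣ q + 1) ∨ (r ∣ q - 1 ∧ s ∣ q - 1))) := by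
  classical
  letI : Fintype (Matrix.SpecialLinearGroup (Fin 2) F) := Fintype.ofFinite _
  subst hq
  obtain ⟨n, hp, hn⟩ := FiniteField.card F t
  have htp : t.Prime := Fact.out
  have hodd : Fintype.card F % 2 = 1 := by
    rw [hn]
    have h3 : Odd t := htp.odd_of_ne_two ht
    have := h3.pow (n := (n : ℕ))
    exact Nat.odd_iff.mp this
  obtain ⟨hd, h0, h1, h2⟩ := degs_of_iso (F := F) (S := S) (by omega) (by omega) (by omega) (by omega) hS
  have hcd : ∀ d ∈ Cfsg.charDegrees S, d = 1 ∨ d = Fintype.card F ∨ d ∣ Fintype.card F + 1 ∨ d ∣ Fintype.card F - 1 :=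
    fun d h => DegList.cases (hd d h)
  refine ⟨primes_eq (by omega) hcd h0 h1 h2, fun r s => ?_⟩
  have hadj := adj_iff (r := r) (s := s) hn htp hcd h1 h2
  refine Iff.trans hadj ?_
  have e : Fintype.card F ^ 2 - 1 = (Fintype.card F + 1) * (Fintype.card F - 1) := by
    have := Nat.sq_sub_sq (Fintype.card F) 1
    simpa using this
  have h2a : 2 ∣ Fintype.card F + 1 := by omega
  have h2b : 2 ∣ Fintype.card F - 1 := by omega
  constructor
  · rintro ⟨hrs, hr, hs, h⟩
    refine ⟨hrs, hr, hs, ?_, ?_, ?_⟩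
    · rw [e]
      rcases h with ⟨a, b⟩ | ⟨a, b⟩
      · exact a.trans (Nat.dvd_mul_right _ _)
      · exact a.trans (Nat.dvd_mul_left _ _)
    · rw [e]
      rcases h with ⟨a, b⟩ | ⟨a, b⟩
      · exact b.trans (Nat.dvd_mul_right _ _)
      · exact b.trans (Nat.dvd_mul_left _ _)
    · rcases h with h | h
      · exact Or.inr (Or.inr (Or.inl h))
      · exact Or.inr (Or.inr (Or.inr h))
  · rintro ⟨hrs, hr, hs, ha, hb, h⟩
    refine ⟨hrs, hr, hs, ?_⟩
    rw [e] at ha hb
    rcases h with rfl | rfl | h | h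
    · rcases hs.dvd_mul.mp hb with h | h
      · exact Or.inl ⟨h2a, h⟩
      · exact Or.inr ⟨h2b, h⟩
    · rcases hr.dvd_mul.mp ha with h | h
      · exact Or.inl ⟨h, h2a⟩
      · exact Or.inr ⟨h, h2b⟩
    · exact Or.inl h
    · exact Or.inr h

end Cfsg.Agent.S4774
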