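import Cfsg.Statements.S4784
import Cfsg.Agent.Lib.Degree.FSMore
import Mathlib

set_option autoImplicit false
open Cfsg

namespace Cfsg.Agent.S4784

/-- Let H be a subgroup of the finite group G and consider the permutation character of G on the cosets of H (the function induced from the principal character of H). Then exactly one irreducible constituent of it is real-valued with Frobenius–Schur indicator +1 (namely the principal character) if and only if the normal core of H has odd index in G. -/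
theorem result {G : Type*} [Group G] [Fintype G] (H : Subgroup G) : Nat.card {χ : Cfsg.IrrCharacter G // Cfsg.classInner (Cfsg.indFun H (fun _ : H => (1 : ℂ))) (χ : G → ℂ) ≠ 0 ∧ (∀ g : G, (starRingEnd ℂ) ((χ : G → ℂ) g) = (χ : G → ℂ) g) ∧ (Nat.card G : ℂ)⁻¹ * ∑ g : G, (χ : G → ℂ) (g * g) = 1} = 1 ↔ Odd H.normalCore.index := by
  classical
  set π : G → ℂ := Cfsg.indFun H (fun _ : H => (1 : ℂ)) with hπdef
  have hπ : Cfsg.IsCharacter G π := Lib.Char.indFun_isCharacter H Lib.Char.IsCharacter.one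
  have : Fintype H := Fintype.ofFinite H
  have hstab : MulAction.stabilizer G (((1 : G) : G ⧸ H)) = H := MulAction.stabilizer_quotient H
  have hfix : ∀ g : G, (Nat.card (MulAction.fixedBy (G ⧸ H) g) : ℂ) = π g := by
    intro g
    have h1 := Lib.Char.indFun_one_apply_eq_fixedBy (((1 : G) : G ⧸ H)) g
    rw [hstab] at h1
    exact h1
  set K := H.normalCore with hKdef
  have hKn : K.Normal := Subgroup.normalCore_normal H
  have hKmem : ∀ g : G, g ∈ K ↔ ∀ q : G ⧸ H, g • q = q := by
    intro g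
    rw [hKdef, Subgroup.normalCore_eq_ker, MonoidHom.mem_ker, Equiv.ext_iff]
    rfl
  have hfixK : ∀ g : G, g ∈ K → Nat.card (MulAction.fixedBy (G ⧸ H) g) = Nat.card (G ⧸ H) := by
    intro g hg
    have h1 : MulAction.fixedBy (G ⧸ H) g = Set.univ := by
      ext q
      simp [MulAction.mem_fixedBy, (hKmem g).mp hg q]
    rw [h1]
    exact Nat.card_congr (Equiv.Set.univ _)
  have hπK : ∀ k ∈ K, π k = π 1 := by
    intro k hk
    rw [← hfix, ← hfix, hfixK k hk, hfixK 1 K.one_mem]
  have hker : ∀ χ : Cfsg.IrrCharacter G, Cfsg.classInner π (χ : G → ℂ) ≠ 0 → ∀ k ∈ K,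
      (χ : G → ℂ) k = (χ : G → ℂ) 1 := fun χ hχ k hk =>
    Lib.Degree.map_eq_of_constituent hπ χ.2 hχ (hπK k hk)
  have hπ1 : Cfsg.classInner π ((Lib.Degree.principal G : Cfsg.IrrCharacter G) : G → ℂ) = 1 := by
    rw [hπdef, Lib.Char.frobenius_reciprocity H _ _ (Lib.Char.IsCharacter.isClassFunction
      (Lib.Char.IsIrrCharacter.isCharacter (Lib.Degree.principal G).2))]
    exact Lib.Char.classInner_irr_self (Lib.Degree.principal H).2
  have hprinc : Cfsg.classInner π ((Lib.Degree.principal G : Cfsg.IrrCharacter G) : G → ℂ) ≠ 0 ∧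
      (∀ g : G, (starRingEnd ℂ) (((Lib.Degree.principal G : Cfsg.IrrCharacter G) : G → ℂ) g) =
        ((Lib.Degree.principal G : Cfsg.IrrCharacter G) : G → ℂ) g) ∧
      (Nat.card G : ℂ)⁻¹ * ∑ g : G, ((Lib.Degree.principal G : Cfsg.IrrCharacter G) : G → ℂ) (g * g)
        = 1 := by
    refine ⟨by rw [hπ1]; exact one_ne_zero, fun g => by simp, ?_⟩
    exact Lib.Degree.fsInd_principal
  constructor
  · intro hone
    by_contra hodd
    have hsing : ∀ χ : Cfsg.IrrCharacter G, (Cfsg.classInner π (χ : G → ℂ) ≠ 0 ∧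
        (∀ g : G, (starRingEnd ℂ) ((χ : G → ℂ) g) = (χ : G → ℂ) g) ∧
        (Nat.card G : ℂ)⁻¹ * ∑ g : G, (χ : G → ℂ) (g * g) = 1) → χ = Lib.Degree.principal G := by
      intro χ hχ
      have hsub := (Nat.card_eq_one_iff_unique.mp hone).1
      have := hsub.elim ⟨χ, hχ⟩ ⟨Lib.Degree.principal G, hprinc⟩
      exact congrArg Subtype.val this
    have h2K : 2 ∣ K.index := by
      rw [← even_iff_two_dvd]
      exact Nat.not_odd_iff_even.mp hodd
    have h2K' : 2 ∣ Nat.card (G ⧸ K) := h2K
    obtain ⟨q, hq⟩ := exists_prime_orderOf_dvd_card' (G := G ⧸ K) 2 h2K'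
    obtain ⟨y, rfl⟩ := QuotientGroup.mk_surjective q
    have hyK : y ∉ K := by
      intro hy
      have h1 : ((y : G) : G ⧸ K) = 1 := (QuotientGroup.eq_one_iff y).mpr hy
      rw [h1, orderOf_one] at hq
      omega
    have hyyK : y * y ∈ K := by
      have h1 : ((y : G) : G ⧸ K) ^ 2 = 1 := by
        rw [← hq]; exact pow_orderOf_eq_one _
      rw [← QuotientGroup.eq_one_iff, QuotientGroup.mk_mul, ← pow_two]
      exact h1
    -- the bound from the decomposition
    have hT := Lib.Degree.fsInd_eq_sum π (Lib.Char.IsCharacter.isClassFunction hπ)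
    have hbound : ∀ χ : Cfsg.IrrCharacter G,
        (Cfsg.classInner π (χ : G → ℂ) * Lib.CharExtra.fsInd (χ : G → ℂ)).re ≤
          if χ = Lib.Degree.principal G then 1 else 0 := by
      intro χ
      split_ifs with hχ
      · rw [hχ, hπ1, Lib.Degree.fsInd_principal]
        simp
      · obtain ⟨n, hn⟩ := Lib.Char.classInner_isCharacter_nat hπ (Lib.Char.IsIrrCharacter.isCharacter χ.2)
        rw [hn]
        by_cases hn0 : n = 0
        · simp [hn0]
        by_cases hr : ∀ g : G, ((χ : G → ℂ) g).im = 0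
        · rcases Lib.CharExtra.fsInd_of_real χ hr with h1 | h1
          · exfalso
            apply hχ
            apply hsing χ
            refine ⟨by rw [hn]; exact_mod_cast hn0, ?_, h1⟩
            intro g
            exact Complex.conj_eq_iff_im.mpr (hr g)
          · rw [h1]
            simp
        · rw [Lib.CharExtra.fsInd_of_not_real χ hr]
          simp
    have hTre : (Lib.CharExtra.fsInd π).re ≤ 1 := by
      rw [hT, Complex.re_sum]
      refine (Finset.sum_le_sum fun χ _ => hbound χ).trans ?_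
      rw [Finset.sum_ite_eq' Finset.univ (Lib.Degree.principal G)]
      simp
    set f : G → ℕ := fun g => Nat.card (MulAction.fixedBy (G ⧸ H) g) with hf
    have hsum0 : ∑ g, f g = Nat.card G := by
      have h1 := hπ1
      rw [Lib.Char.classInner_def] at h1
      simp only [Lib.Degree.principal_apply, map_one, mul_one, ← hfix] at h1
      have h2 := Lib.Char.card_ne_zero_complex G
      have h3 : ((∑ g, f g : ℕ) : ℂ) = (Nat.card G : ℂ) := by
        push_cast
        field_simp at h1
        exact h1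
      exact_mod_cast h3
    have hle : ∀ g : G, f g ≤ f (g * g) := by
      intro g
      refine Nat.card_mono (Set.toFinite _) ?_
      intro q hq
      rw [MulAction.mem_fixedBy] at hq ⊢
      rw [mul_smul, hq, hq]
    have hlt : f y < f (y * y) := by
      have h1 : f (y * y) = Nat.card (G ⧸ H) := hfixK _ hyyK
      rw [h1]
      have h2 : ∃ q : G ⧸ H, y • q ≠ q := by
        by_contra hcon
        push Not at hcon
        exact hyK ((hKmem y).mpr hcon)
      obtain ⟨q, hq⟩ := h2
      have h3 : MulAction.fixedBy (G ⧸ H) y ⊂ Set.univ := by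
        rw [Set.ssubset_univ_iff]
        intro h4
        have h5 : q ∈ MulAction.fixedBy (G ⧸ H) y := by rw [h4]; exact Set.mem_univ q
        exact hq h5
      have h4 := Set.ncard_lt_ncard h3 (Set.toFinite _)
      rw [Set.ncard_univ] at h4
      show Nat.card (MulAction.fixedBy (G ⧸ H) y) < _
      rw [Nat.card_coe_set_eq]
      exact h4
    have hsumlt : ∑ g, f g < ∑ g, f (g * g) :=
      Finset.sum_lt_sum (fun g _ => hle g) ⟨y, Finset.mem_univ y, hlt⟩
    have hval : Lib.CharExtra.fsInd π = (((∑ g, f (g * g) : ℕ) : ℝ) / (Nat.card G : ℝ) : ℝ) := by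
      simp only [Lib.CharExtra.fsInd, ← hfix]
      push_cast
      rw [div_eq_inv_mul]
    rw [hval, Complex.ofReal_re] at hTre
    have hGpos : (0 : ℝ) < Nat.card G := by exact_mod_cast Nat.card_pos
    rw [div_le_one hGpos] at hTre
    have h5 : ((∑ g, f (g * g) : ℕ) : ℝ) ≤ ((∑ g, f g : ℕ) : ℝ) := by
      rw [hsum0]
      exact hTre
    have h6 : ∑ g, f (g * g) ≤ ∑ g, f g := by exact_mod_cast h5
    omega
  · intro hodd
    refine Nat.card_eq_one_iff_unique.mpr ⟨⟨?_⟩, ⟨⟨Lib.Degree.principal G, hprinc⟩⟩⟩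
    rintro ⟨χ, hχ1, hχ2, hχ3⟩ ⟨χ', hχ1', hχ2', hχ3'⟩
    have key : ∀ χ : Cfsg.IrrCharacter G, Cfsg.classInner π (χ : G → ℂ) ≠ 0 →
        (Nat.card G : ℂ)⁻¹ * ∑ g : G, (χ : G → ℂ) (g * g) = 1 → χ = Lib.Degree.principal G := by
      intro χ hχ1 hχ3
      obtain ⟨ψ, hψ⟩ := Lib.Degree.exists_inflate K (χ := χ) (hker χ hχ1)
      have : Fintype (G ⧸ K) := Fintype.ofFinite _
      subst hψ
      have h1 : Lib.CharExtra.fsInd (ψ : G ⧸ K → ℂ) = 1 := by
        rw [← Lib.Degree.fsInd_comp_mk K]
        exact hχ3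
      rw [Lib.Degree.fsInd_of_odd hodd] at h1
      have h2 : (ψ : G ⧸ K → ℂ) = ((Lib.Degree.principal (G ⧸ K) : Cfsg.IrrCharacter (G ⧸ K)) : G ⧸ K → ℂ) :=
        Lib.Char.eq_of_irr_of_constituent ψ.2 (Lib.Degree.principal _).2 (by rw [h1]; exact one_ne_zero)
      apply Subtype.ext
      funext g
      show (ψ : G ⧸ K → ℂ) g = 1
      rw [h2]
      rfl
    exact Subtype.ext ((key χ hχ1 hχ3).trans (key χ' hχ1' hχ3').symm)

end Cfsg.Agent.S4784
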