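import Cfsg.Statements.S4798
import Cfsg.Agent.Lib.Degree.Cod
import Mathlib

set_option autoImplicit false
open Cfsg

namespace Cfsg.Agent.S4798

/-- Let p be a prime and χ a faithful irreducible complex character of the finite group G (χ(g) = χ(1) only for g = 1), so that its codegree is #G / χ(1). Then #G / χ(1) is a power of p if and only if χ is induced from a character of a Sylow p-subgroup of G. -/
theorem result {G : Type*} [Group G] [Fintype G] (p : ℕ) [Fact p.Prime] (χ : Cfsg.IrrCharacter G) (hfaith : ∀ g : G, (χ : G → ℂ) g = (χ : G → ℂ) 1 → g = 1) : (∃ k : ℕ, Nat.card G = p ^ k * Cfsg.charDegree (χ : G → ℂ)) ↔ ∃ (P : Sylow p G) (θ : ↥(P : Subgroup G) → ℂ), Cfsg.IsCharacter ↥(P : Subgroup G) θ ∧ (χ : G → ℂ) = Cfsg.indFun (P : Subgroup G) θ := by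
  classical
  have hp : p.Prime := Fact.out
  have hχ := Lib.Char.IsIrrCharacter.isCharacter χ.2
  have hcls := Lib.Char.IsCharacter.isClassFunction hχ
  constructor
  · rintro ⟨k, hk⟩
    obtain ⟨P⟩ : Nonempty (Sylow p G) := inferInstance
    have : Fintype (P : Subgroup G) := Fintype.ofFinite _
    refine ⟨P, ?_⟩
    obtain ⟨a, ha⟩ : ∃ a, Nat.card (P : Subgroup G) = p ^ a := IsPGroup.iff_card.mp P.isPGroup'
    set m := (P : Subgroup G).index with hm
    have hmp : ¬ p ∣ m := P.not_dvd_index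
    have hmul : p ^ a * m = Nat.card G := by
      rw [← ha, mul_comm]
      exact (P : Subgroup G).index_mul_card
    have hcop : Nat.Coprime (p ^ k) m := Nat.Coprime.pow_left _ ((Nat.Prime.coprime_iff_not_dvd hp).mpr hmp)
    have hka : k ≤ a := by
      have h1 : p ^ k ∣ p ^ a * m := by rw [hmul, hk]; exact dvd_mul_right _ _
      have h2 : p ^ k ∣ p ^ a := hcop.dvd_of_dvd_mul_right h1
      exact (Nat.pow_dvd_pow_iff_le_right hp.one_lt).mp h2
    set d := Cfsg.charDegree (χ : G → ℂ) with hd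
    have hd' : d = p ^ (a - k) * m := by
      have h1 : p ^ k * d = p ^ k * (p ^ (a - k) * m) := by
        rw [← hk, ← mul_assoc, ← pow_add, Nat.add_sub_cancel' hka, hmul]
      exact Nat.eq_of_mul_eq_mul_left (pow_pos hp.pos k) h1
    have hres := Lib.Char.IsCharacter.restrict (P : Subgroup G) hχ
    have hdres : Cfsg.charDegree (fun h : (P : Subgroup G) => (χ : G → ℂ) h) = d := by
      apply Lib.Char.charDegree_natCast
      show (χ : G → ℂ) 1 = _
      exact Lib.Char.map_one_eq_charDegree hχ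
    have hndvd : ¬ p ^ (a - k + 1) ∣ Cfsg.charDegree (fun h : (P : Subgroup G) => (χ : G → ℂ) h) := by
      rw [hdres, hd', pow_succ]
      intro hdvd
      have := Nat.dvd_of_mul_dvd_mul_left (pow_pos hp.pos _) hdvd
      exact hmp this
    obtain ⟨μ, hμin, hμd⟩ := Lib.Degree.exists_constituent_not_dvd hres hndvd
    have hμc := Lib.Char.IsIrrCharacter.isCharacter μ.2
    have hμdvd : Cfsg.charDegree (μ : ↥(P : Subgroup G) → ℂ) ∣ p ^ a := by
      rw [← ha]
      exact Lib.Char.charDegree_dvd_card μ.2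
    obtain ⟨b, hb, hμb⟩ := (Nat.dvd_prime_pow hp).mp hμdvd
    have hble : b ≤ a - k := by
      by_contra hcon
      apply hμd
      rw [hμb]
      exact pow_dvd_pow _ (by omega)
    refine ⟨μ, hμc, ?_⟩
    symm
    apply Lib.Char.eq_of_constituent_of_degree_eq (Lib.Char.indFun_isCharacter _ hμc) χ.2
    · rw [Lib.Char.frobenius_reciprocity _ _ _ hcls]
      intro h0
      apply hμin
      rw [← Lib.Char.conj_classInner, h0, map_zero]
    · rw [Lib.Degree.charDegree_indFun _ hμc, hμb, ← hm, ← hd, hd', mul_comm]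
      exact Nat.mul_le_mul_right _ (Nat.pow_le_pow_right hp.pos hble)
  · rintro ⟨P, θ, hθ, heq⟩
    have : Fintype (P : Subgroup G) := Fintype.ofFinite _
    obtain ⟨a, ha⟩ : ∃ a, Nat.card (P : Subgroup G) = p ^ a := IsPGroup.iff_card.mp P.isPGroup'
    have hirr : Cfsg.IsIrrCharacter G (Cfsg.indFun (P : Subgroup G) θ) := heq ▸ χ.2
    have hθirr := Lib.Degree.isIrr_of_indFun_isIrr _ hθ hirr
    have hdvd : Cfsg.charDegree θ ∣ p ^ a := by
      rw [← ha]
      exact Lib.Char.charDegree_dvd_card hθirr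
    obtain ⟨b, hb, hθb⟩ := (Nat.dvd_prime_pow hp).mp hdvd
    refine ⟨a - b, ?_⟩
    rw [heq, Lib.Degree.charDegree_indFun _ hθ, hθb, mul_comm (P : Subgroup G).index, ← mul_assoc,
      ← pow_add, Nat.sub_add_cancel hb, ← ha, mul_comm]
    exact ((P : Subgroup G).index_mul_card).symm

end Cfsg.Agent.S4798
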