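import Cfsg.Statements.S4802
import Cfsg.Agent.Lib.Degree.Linear
import Mathlib

set_option autoImplicit false
open Cfsg

namespace Cfsg.Agent.S4802

/-- Let N < M be normal subgroups of the finite group G and g ∈ M ∖ N. Then the conjugacy class of g is exactly M ∖ N if and only if every irreducible complex character of G whose kernel contains N takes the same value at all elements of M ∖ N, and every irreducible complex character of G whose kernel does not contain N vanishes at g. -/
theorem result {G : Type*} [Group G] [Finite G] (N M : Subgroup G) [N.Normal] [M.Normal] (hNM : N < M) (g : G) (hgM : g ∈ M) (hgN : g ∉ N) : {h : G | IsConj g h} = (M : Set G) \ (N : Set G) ↔ ((∀ χ : Cfsg.IrrCharacter G, (∀ x ∈ N, (χ : G → ℂ) x = (χ : G → ℂ) 1) → ∀ x ∈ M, x ∉ N → ∀ y ∈ M, y ∉ N → (χ : G → ℂ) x = (χ : G → ℂ) y) ∧ (∀ χ : Cfsg.IrrCharacter G, (∃ x ∈ N, (χ : G → ℂ) x ≠ (χ : G → ℂ) 1) → (χ : G → ℂ) g = 0)) := by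
  classical
  cases nonempty_fintype G
  constructor
  · intro hset
    have hmem : ∀ x, x ∈ M → x ∉ N → IsConj g x := by
      intro x hxM hxN
      have : x ∈ {h : G | IsConj g h} := by
        rw [hset]
        exact ⟨hxM, hxN⟩
      exact this
    have hmem' : ∀ x, IsConj g x → x ∈ M ∧ x ∉ N := by
      intro x hx
      have : x ∈ (M : Set G) \ (N : Set G) := by
        rw [← hset]
        exact hx
      exact this
    refine ⟨?_, ?_⟩
    · intro χ _ x hxM hxN y hyM hyN
      rw [← Lib.Degree.irr_map_isConj χ (hmem x hxM hxN), Lib.Degree.irr_map_isConj χ (hmem y hyM hyN)]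
    · rintro χ ⟨x₀, hx₀, hne⟩
      have h1 := Lib.Degree.irr_sum_normal_eq_zero χ N hx₀ hne
      have h2 := Lib.Degree.irr_sum_normal_eq_zero χ M (hNM.le hx₀) hne
      have h3 : ∑ x, (if x ∈ M ∧ x ∉ N then (χ : G → ℂ) g else 0) = 0 := by
        have : ∑ x, (if x ∈ M ∧ x ∉ N then (χ : G → ℂ) g else 0) =
            ∑ x, (if x ∈ M then (χ : G → ℂ) x else 0) - ∑ x, (if x ∈ N then (χ : G → ℂ) x else 0) := by
          rw [← Finset.sum_sub_distrib]
          refine Finset.sum_congr rfl fun x _ => ?_
          by_cases hxN : x ∈ N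
          · have hxM : x ∈ M := hNM.le hxN
            simp [hxN, hxM]
          · by_cases hxM : x ∈ M
            · simp only [hxM, hxN, not_false_eq_true, and_self, if_true, if_false, sub_zero]
              exact Lib.Degree.irr_map_isConj χ (hmem x hxM hxN)
            · simp [hxN, hxM]
        rw [this, h1, h2, sub_zero]
      rw [Finset.sum_ite, Finset.sum_const_zero, add_zero, Finset.sum_const, nsmul_eq_mul] at h3
      have hcard : ((Finset.univ.filter (fun x => x ∈ M ∧ x ∉ N)).card : ℂ) ≠ 0 := by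
        have : 0 < (Finset.univ.filter (fun x => x ∈ M ∧ x ∉ N)).card :=
          Finset.card_pos.mpr ⟨g, by simp [hgM, hgN]⟩
        exact_mod_cast this.ne'
      exact (mul_eq_zero.mp h3).resolve_left hcard
  · rintro ⟨h1, h2⟩
    ext x
    constructor
    · intro hx
      obtain ⟨c, rfl⟩ := isConj_iff.mp hx
      refine ⟨Subgroup.Normal.conj_mem ‹M.Normal› _ hgM c, ?_⟩
      intro hc
      apply hgN
      have := Subgroup.Normal.conj_mem ‹N.Normal› _ hc c⁻¹
      simpa [mul_assoc] using this
    · rintro ⟨hxM, hxN⟩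
      show IsConj g x
      by_contra hnc
      have h3 := Lib.Char.second_orthogonality g x
      rw [if_neg hnc] at h3
      have h4 := Lib.Char.second_orthogonality g g
      rw [if_pos (IsConj.refl _)] at h4
      have h5 : ∑ χ : Cfsg.IrrCharacter G, (χ : G → ℂ) g * (starRingEnd ℂ) ((χ : G → ℂ) x) =
          ∑ χ : Cfsg.IrrCharacter G, (χ : G → ℂ) g * (starRingEnd ℂ) ((χ : G → ℂ) g) := by
        refine Finset.sum_congr rfl fun χ _ => ?_
        by_cases hχ : ∀ x ∈ N, (χ : G → ℂ) x = (χ : G → ℂ) 1
        · rw [h1 χ hχ x hxM hxN g hgM hgN]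
        · push_neg at hχ
          rw [h2 χ hχ, zero_mul, zero_mul]
      rw [h5, h4] at h3
      have h6 : (Nat.card (Subgroup.centralizer ({g} : Set G)) : ℂ) ≠ 0 := by
        exact_mod_cast (Nat.card_pos (α := Subgroup.centralizer ({g} : Set G))).ne'
      exact h6 h3

end Cfsg.Agent.S4802
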