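import Cfsg.Statements.S4808
import Cfsg.Agent.Lib.Degree.Cod
import Mathlib

set_option autoImplicit false
open Cfsg

namespace Cfsg.Agent.S4808

/-- The codegree of an irreducible complex character χ of a finite group G is [G : ker χ] / χ(1), where ker χ is the set of elements at which χ takes the value χ(1). A prime divides the order of G if and only if it divides the codegree of some irreducible complex character of G. -/
theorem result {G : Type*} [Group G] [Finite G] (p : ℕ) (hp : p.Prime) : p ∣ Nat.card G ↔ ∃ χ : Cfsg.IrrCharacter G, p ∣ (Nat.card G / (Nat.card {g : G // (χ : G → ℂ) g = (χ : G → ℂ) 1} * Cfsg.charDegree (χ : G → ℂ))) := by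
  constructor
  · intro h
    exact Lib.Degree.exists_prime_dvd_codeg p hp _ G rfl h
  · rintro ⟨χ, hχ⟩
    exact dvd_trans hχ (Lib.Degree.codeg_dvd_card χ.2)

end Cfsg.Agent.S4808
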