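import Cfsg.Statements.S4812
import Mathlib
import Cfsg.Agent.Lib.Degree.PSL2Deg

set_option autoImplicit false
open Cfsg
open Cfsg.Agent.Lib.Degree.PSL2Deg

namespace Cfsg.Agent.S4812

/-- Let F be a finite field of characteristic 2 with q ≥ 4 elements and let S be isomorphic to PSL(2,F) or to SL(2,F). Then the vertices of the character degree graph of S are the primes dividing q(q²−1), and two distinct primes are adjacent exactly when both divide q + 1 or both divide q − 1; so the graph has the three connected components {2}, the primes dividing q + 1 and the primes dividing q − 1, each complete. -/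
theorem result (F : Type*) [Field F] [Fintype F] [CharP F 2] (q : ℕ) (hq : Fintype.card F = q) (h4 : 4 ≤ q) {S : Type*} [Group S] [Finite S] (hS : Nonempty (S ≃* Matrix.ProjectiveSpecialLinearGroup (Fin 2) F) ∨ Nonempty (S ≃* Matrix.SpecialLinearGroup (Fin 2) F)) : Cfsg.degreePrimes S = {r : ℕ | r.Prime ∧ r ∣ q * (q ^ 2 - 1)} ∧ ∀ r s : ℕ, (Cfsg.degreeGraph S).Adj r s ↔ (r ≠ s ∧ r.Prime ∧ s.Prime ∧ ((r ∣ q + 1 ∧ s ∣ q + 1) ∨ (r ∣ q - 1 ∧ s ∣ q - 1))) := by
  classical
  letI : Fintype (Matrix.SpecialLinearGroup (Fin 2) F) := Fintype.ofFinite _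
  subst hq
  haveI : Fact (Nat.Prime 2) := ⟨Nat.prime_two⟩
  obtain ⟨n, hp, hn⟩ := FiniteField.card F 2
  have hn1 : 1 ≤ (n : ℕ) := n.pos
  have heven : Fintype.card F % 2 = 0 := by
    rw [hn]
    obtain ⟨m, hm⟩ : ∃ m, (n : ℕ) = m + 1 := ⟨n - 1, by omega⟩
    rw [hm, pow_succ]
    omega
  obtain ⟨hd, h0, h1, h2⟩ := degs_of_iso (F := F) (S := S) (by omega) (by omega) (by omega) h4 hS
  have hcd : ∀ d ∈ Cfsg.charDegrees S, d = 1 ∨ d = Fintype.card F ∨ d ∣ Fintype.card F + 1 ∨ d ∣ Fintype.card F - 1 :=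
    fun d h => DegList.cases (hd d h)
  refine ⟨primes_eq (by omega) hcd h0 h1 h2, fun r s => ?_⟩
  exact adj_iff hn hp hcd h1 h2

end Cfsg.Agent.S4812
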