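import Cfsg.Statements.S4814
import Cfsg.Agent.Lib.Degree.Sums
import Mathlib

set_option autoImplicit false
open Cfsg

namespace Cfsg.Agent.S4814

/-- Let G be a finite group such that the sum, over the irreducible complex characters χ of G, of 1/χ(1)² is less than 2. Then every element of G is a product of two commutators. -/
theorem result {G : Type*} [Group G] [Finite G]
    (h : ∑ᶠ χ : Cfsg.IrrCharacter G, 1 / ‖(χ : G → ℂ) 1‖ ^ 2 < (2 : ℝ)) (g : G) :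
    ∃ a b c d : G, (a * b * a⁻¹ * b⁻¹) * (c * d * c⁻¹ * d⁻¹) = g := by
  classical
  cases nonempty_fintype G
  by_contra hg
  rw [Lib.Char.finsum_irr_eq_sum] at h
  have hcard := Lib.Degree.card_ne_zero_complex' (G := G)
  have hzero : ∀ z : G, (Lib.Degree.commCount G z⁻¹ : ℂ) * (Lib.Degree.commCount G (g⁻¹ * z) : ℂ) = 0 := by
    intro z
    by_contra hne
    have h1 : Lib.Degree.commCount G z⁻¹ ≠ 0 := by
      intro h0
      apply hne
      rw [h0]
      simp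
    have h2 : Lib.Degree.commCount G (g⁻¹ * z) ≠ 0 := by
      intro h0
      apply hne
      rw [h0]
      simp
    rw [Lib.Degree.commCount_inv] at h1
    have e2 : Lib.Degree.commCount G (g⁻¹ * z) = Lib.Degree.commCount G (z⁻¹ * g) := by
      rw [← Lib.Degree.commCount_inv (g⁻¹ * z)]
      simp
    rw [e2] at h2
    unfold Lib.Degree.commCount at h1 h2
    have h1' := (Nat.card_ne_zero (α := _)).mp h1
    have h2' := (Nat.card_ne_zero (α := _)).mp h2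
    obtain ⟨⟨⟨⟨a, b⟩, hab⟩⟩, -⟩ := h1'
    obtain ⟨⟨⟨⟨c, d⟩, hcd⟩⟩, -⟩ := h2'
    apply hg
    refine ⟨a, b, c, d, ?_⟩
    simp only at hab hcd
    rw [hab, hcd]
    group
  have hsum := Lib.Degree.sum_commCount_mul g
  simp only [hzero, Finset.sum_const_zero] at hsum
  have hkey : ∑ ψ : Cfsg.IrrCharacter G, (ψ : G → ℂ) g⁻¹ / (ψ : G → ℂ) 1 ^ 3 = 0 :=
    (mul_eq_zero.mp hsum.symm).resolve_left (pow_ne_zero _ hcard)
  obtain ⟨P, hPv⟩ : ∃ P : Cfsg.IrrCharacter G, ∀ x, (P : G → ℂ) x = 1 :=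
    ⟨Lib.Degree.principal G, fun _ => rfl⟩
  have h1 := Finset.add_sum_erase (Finset.univ : Finset (Cfsg.IrrCharacter G))
    (fun ψ => (ψ : G → ℂ) g⁻¹ / (ψ : G → ℂ) 1 ^ 3) (Finset.mem_univ P)
  rw [hkey] at h1
  have h2 := Finset.add_sum_erase (Finset.univ : Finset (Cfsg.IrrCharacter G))
    (fun ψ => 1 / ‖(ψ : G → ℂ) 1‖ ^ 2) (Finset.mem_univ P)
  simp only [hPv, one_pow, div_one, norm_one] at h1 h2
  have h3 : ∑ ψ ∈ Finset.univ.erase P, 1 / ‖(ψ : G → ℂ) 1‖ ^ 2 < 1 := by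
    linarith
  have h4 : ∑ ψ ∈ Finset.univ.erase P, (ψ : G → ℂ) g⁻¹ / (ψ : G → ℂ) 1 ^ 3 = -1 := by
    linear_combination h1
  have h5 : ‖∑ ψ ∈ Finset.univ.erase P, (ψ : G → ℂ) g⁻¹ / (ψ : G → ℂ) 1 ^ 3‖ ≤
      ∑ ψ ∈ Finset.univ.erase P, 1 / ‖(ψ : G → ℂ) 1‖ ^ 2 := by
    refine (norm_sum_le _ _).trans (Finset.sum_le_sum fun ψ _ => ?_)
    have h6 := Lib.Degree.irr_norm_le ψ g⁻¹
    have h7 := Lib.Degree.irr_degree_norm_ge_one ψ
    rw [norm_div, norm_pow, div_le_div_iff₀ (by positivity) (by positivity)]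
    nlinarith [pow_pos (lt_of_lt_of_le one_pos h7) 2]
  rw [h4, norm_neg, norm_one] at h5
  linarith

end Cfsg.Agent.S4814
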