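import Cfsg.Statements.S4839
import Mathlib
import Cfsg.Agent.Lib.Degree.TwoClass
import Cfsg.Agent.Lib.Hall.Frobenius
import Cfsg.Agent.Lib.Core.Basic

set_option autoImplicit false
open Cfsg

namespace Cfsg.Agent.S4839

/-- Let G be a finite group of order greater than 2 with an irreducible character χ nonzero on exactly two conjugacy classes, and let N be the normal p-subgroup of elements where χ is nonzero. Then N is the whole p-core O_p(G) if and only if G is a doubly transitive Frobenius group with kernel N: G has a Frobenius complement H whose Frobenius kernel is N and whose order is one less than that of N. -/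
theorem result {G : Type*} [Group G] [Finite G] (hG : 2 < Nat.card G) (χ : Cfsg.IrrCharacter G) (hχ : Nat.card {C : ConjClasses G // ∃ g ∈ C.carrier, (χ : G → ℂ) g ≠ 0} = 2) (p : ℕ) [Fact p.Prime] (N : Subgroup G) [N.Normal] (hN : ∀ g : G, g ∈ N ↔ (χ : G → ℂ) g ≠ 0) (hNp : IsPGroup p N) (hN1 : N ≠ ⊥) :
    N = Cfsg.pCore p G ↔ ∃ H : Subgroup G, Cfsg.IsFrobeniusComplement H ∧ Cfsg.frobeniusKernel H = (N : Set G) ∧ Nat.card H + 1 = Nat.card N := by
  classical
  haveI := Fintype.ofFinite G
  constructor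
  · intro hcoreEq
    obtain ⟨hconj, hab, hexp, hcam⟩ := Cfsg.Agent.Lib.Degree.twoClass_data hG χ hχ N hN hNp hN1
    have hcore : ∀ M : Subgroup G, M.Normal → IsPGroup p M → M ≤ N := by
      intro M hM hMp
      rw [hcoreEq]
      exact Cfsg.Agent.Lib.Core.le_pCore hM hMp
    have hcen := Cfsg.Agent.Lib.Degree.camina_centralizer hcam hNp hN1 hcore
    obtain ⟨K, hK⟩ : ∃ K : Subgroup G, Subgroup.IsComplement' N K := by
      by_cases hp2 : p = 2
      · subst hp2
        have hodd := Cfsg.Agent.Lib.Degree.camina_two hcam hab hexp hcen hNp hcore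
        apply Subgroup.exists_right_complement'_of_coprime
        obtain ⟨k, hk⟩ := IsPGroup.iff_card.1 hNp
        rw [hk]
        exact Nat.Coprime.pow_left _ ((Nat.prime_two.coprime_iff_not_dvd).2 hodd)
      · exact Cfsg.Agent.Lib.Degree.camina_odd hp2 hcam hab hconj hexp hN1 hcen
    obtain ⟨x, hx, hx1⟩ : ∃ x ∈ N, x ≠ 1 := (Subgroup.bot_or_exists_ne_one N).resolve_left hN1
    have hcard := Cfsg.Agent.Lib.Degree.camina_card hcam hab hconj hK hx hx1
    have hfix : ∀ h ∈ K, h ≠ 1 → ∀ u ∈ N, h * u * h⁻¹ = u → u = 1 :=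
      fun h hh hh1 u hu hf => Cfsg.Agent.Lib.Degree.camina_fixed hcam hK hh hh1 hu hf
    obtain ⟨hti, hker⟩ := Cfsg.Agent.Lib.Degree.frobenius_of_fixedPointFree N K hK hfix
    refine ⟨K, ⟨?_, ?_, hti⟩, hker, hcard⟩
    · rintro rfl
      have h1 := hK.card_mul
      rw [Subgroup.card_bot, mul_one] at h1
      rw [Subgroup.card_bot] at hcard
      omega
    · rintro rfl
      apply hN1
      have h1 := hK.disjoint
      rw [disjoint_top] at h1
      exact h1
  · rintro ⟨H, hH, hkerH, hcardH⟩
    have h1 := Cfsg.Agent.Lib.Hall.card_frobeniusKernel hH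
    rw [hkerH] at h1
    have h1' : Nat.card N = H.index := h1
    have h2 := H.card_mul_index
    have h3 := N.card_mul_index
    have hidx : N.index = Nat.card H := by
      have h0 : 0 < Nat.card N := Nat.card_pos
      apply Nat.eq_of_mul_eq_mul_left h0
      rw [h3, h1', mul_comm, h2]
    obtain ⟨k, hk⟩ := IsPGroup.iff_card.1 (Cfsg.Agent.Lib.Core.pCore_isPGroup p G)
    obtain ⟨l, hl⟩ := IsPGroup.iff_card.1 hNp
    have hl0 : l ≠ 0 := by
      rintro rfl
      rw [pow_zero] at hl
      exact hN1 (Subgroup.eq_bot_of_card_eq N hl)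
    refine le_antisymm (Cfsg.Agent.Lib.Core.le_pCore inferInstance hNp) ?_
    rw [← Subgroup.relIndex_eq_one]
    by_contra hne
    have hq2 : N.relIndex (Cfsg.pCore p G) ∣ Nat.card (Cfsg.pCore p G) := Subgroup.relIndex_dvd_card _ _
    rw [hk] at hq2
    obtain ⟨j, -, hj⟩ := (Nat.dvd_prime_pow (Fact.out : p.Prime)).1 hq2
    have hj0 : j ≠ 0 := by
      rintro rfl
      rw [pow_zero] at hj
      exact hne hj
    have hq1 : N.relIndex (Cfsg.pCore p G) ∣ N.index := Subgroup.relIndex_dvd_index_of_normal _ _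
    have h4 : p ∣ Nat.card H := by
      rw [← hidx]
      refine dvd_trans ?_ hq1
      rw [hj]
      exact dvd_pow_self p hj0
    have h5 : p ∣ Nat.card N := by
      rw [hl]
      exact dvd_pow_self p hl0
    rw [← hcardH] at h5
    have h6 : p ∣ 1 := (Nat.dvd_add_right h4).1 h5
    exact (Fact.out : p.Prime).one_lt.ne' (Nat.dvd_one.1 h6)

end Cfsg.Agent.S4839
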