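import Cfsg.Statements.S4840
import Mathlib
import Cfsg.Agent.Lib.TwoNZ.Final
import Cfsg.Agent.Lib.Degree.Gagola2
import Cfsg.Agent.Lib.Degree.TwoClass

set_option autoImplicit false
open Cfsg

namespace Cfsg.Agent.S4840

/-- Let G be a finite solvable group of order greater than 2 with an irreducible character nonzero on exactly two conjugacy classes. Then there is exactly one prime p with O_p(G) ≠ 1, and the quotient G/O_p(G) has a normal p-complement and commutative Sylow p-subgroups. -/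
theorem result {G : Type*} [Group G] [Finite G] [hs : Group.IsSolvable G] (hG : 2 < Nat.card G) (χ : Cfsg.IrrCharacter G) (hχ : Nat.card {C : ConjClasses G // ∃ g ∈ C.carrier, (χ : G → ℂ) g ≠ 0} = 2) :
    ∃ p : ℕ, p.Prime ∧ (∀ q : ℕ, q.Prime → (Cfsg.pCore q G ≠ ⊥ ↔ q = p)) ∧
      Cfsg.HasNormalPComplement p (G ⧸ Cfsg.pCore p G) ∧ ∀ Q : Sylow p (G ⧸ Cfsg.pCore p G), IsMulCommutative (Q : Subgroup (G ⧸ Cfsg.pCore p G)) := by
  classical
  letI : Fintype G := Fintype.ofFinite G
  obtain ⟨N, x, a, h⟩ := Cfsg.Agent.Lib.Degree.exists_twoClass hG χ hχ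
  obtain ⟨p, hpp, hele, hNp⟩ := h.exists_prime_elementary
  haveI : Fact p.Prime := ⟨hpp⟩
  haveI hNn : N.Normal := h.normal
  have hN1 : N ≠ ⊥ := h.bot_ne
  obtain ⟨hconj, hab, hexp, -⟩ := Cfsg.Agent.Lib.Degree.twoClass_data hG χ hχ N h.mem_iff hNp hN1
  have hNQ : N ≤ Cfsg.pCore p G := Cfsg.Agent.Lib.Core.le_pCore hNn hNp
  have hQ1 : Cfsg.pCore p G ≠ ⊥ := by
    intro h0
    rw [h0] at hNQ
    exact hN1 (le_bot_iff.mp hNQ)
  have hcent : ∀ y ∈ N, y ≠ 1 → IsPGroup p (Subgroup.centralizer ({y} : Set G)) :=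
    fun y hy hy1 => h.centralizer_isPGroup hNp hy hy1
  have hQ : ∀ g : G, g ∈ Cfsg.pCore p G ↔ ∀ n ∈ N, g * n = n * g := by
    intro g
    constructor
    · intro hg n hn
      -- the centre of the core
      let Z : Subgroup G := Cfsg.pCore p G ⊓ Subgroup.centralizer ((Cfsg.pCore p G : Subgroup G) : Set G)
      haveI hZn : Z.Normal := inferInstance
      have hZ1 : Z ≠ ⊥ := by
        haveI : Nontrivial (Cfsg.pCore p G) := (Subgroup.nontrivial_iff_ne_bot _).mpr hQ1
        have h2 : Nontrivial (Subgroup.center (Cfsg.pCore p G)) :=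
          IsPGroup.center_nontrivial (Cfsg.Agent.Lib.Core.pCore_isPGroup p G)
        obtain ⟨z, hz⟩ := exists_ne (1 : Subgroup.center (Cfsg.pCore p G))
        intro h3
        apply hz
        have h4 : ((z : Cfsg.pCore p G) : G) ∈ Z := by
          refine ⟨(z : Cfsg.pCore p G).2, ?_⟩
          show ((z : Cfsg.pCore p G) : G) ∈ Subgroup.centralizer _
          rw [Subgroup.mem_centralizer_iff]
          intro u hu
          have h5 := (Subgroup.mem_center_iff.mp z.2) ⟨u, hu⟩
          exact congrArg Subtype.val h5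
        rw [h3, Subgroup.mem_bot] at h4
        apply Subtype.ext
        apply Subtype.ext
        exact h4
      have hNZ : N ≤ Z := h.le_of_normal Z hZn hZ1
      have h3 : n ∈ Subgroup.centralizer ((Cfsg.pCore p G : Subgroup G) : Set G) := (hNZ hn).2
      exact Subgroup.mem_centralizer_iff.mp h3 g hg
    · intro hg
      obtain ⟨y, hy, hy1⟩ : ∃ y ∈ N, y ≠ 1 := (Subgroup.bot_or_exists_ne_one N).resolve_left hN1
      have hle : Subgroup.centralizer ((N : Subgroup G) : Set G) ≤ Subgroup.centralizer ({y} : Set G) := by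
        apply Subgroup.centralizer_le
        simpa using hy
      have hC : Subgroup.centralizer ((N : Subgroup G) : Set G) ≤ Cfsg.pCore p G :=
        Cfsg.Agent.Lib.Core.le_pCore inferInstance ((hcent y hy hy1).to_le hle)
      apply hC
      rw [Subgroup.mem_centralizer_iff]
      intro n hn
      exact (hg n hn).symm
  refine ⟨p, hpp, ?_, ?_⟩
  · intro q hq
    constructor
    · intro hq1
      haveI : Fact q.Prime := ⟨hq⟩
      have h1 : N ≤ Cfsg.pCore q G := h.le_of_normal _ inferInstance hq1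
      have h2 : IsPGroup q N := (Cfsg.Agent.Lib.Core.pCore_isPGroup q G).to_le h1
      obtain ⟨y, hy, hy1⟩ : ∃ y ∈ N, y ≠ 1 := (Subgroup.bot_or_exists_ne_one N).resolve_left hN1
      obtain ⟨i, hi⟩ := (IsPGroup.iff_orderOf.mp h2) ⟨y, hy⟩
      obtain ⟨j, hj⟩ := (IsPGroup.iff_orderOf.mp hNp) ⟨y, hy⟩
      rw [Subgroup.orderOf_mk] at hi hj
      have hi0 : i ≠ 0 := by
        rintro rfl
        exact hy1 (orderOf_eq_one_iff.mp (by simpa using hi))
      have h3 : q ∣ p ^ j := by
        rw [← hj, hi]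
        exact dvd_pow_self _ hi0
      exact (Nat.prime_dvd_prime_iff_eq hq hpp).mp (hq.dvd_of_dvd_pow h3)
    · rintro rfl
      exact hQ1
  · exact Cfsg.Agent.Lib.TwoNZ.conj_action_conclusion N hN1 hab hexp hconj hcent hQ

end Cfsg.Agent.S4840
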