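import Cfsg.Statements.S4843
import Mathlib
import Cfsg.Agent.Lib.Degree.GaloisChar
import Cfsg.Agent.Lib.Char.Product
import Cfsg.Agent.Lib.Char.Iso
import Cfsg.Agent.Lib.Char.Integral
import Cfsg.Agent.Lib.Degree.Sums
import Cfsg.Agent.Lib.Core.Basic
import Cfsg.Agent.Lib.FStar.Layer

set_option autoImplicit false
open Cfsg

namespace Cfsg.Agent.S4843


section Aux
open Cfsg.Agent.Lib.Char Cfsg.Agent.Lib.Degree

variable {G : Type*} [Group G] [Fintype G]

theorem key_identity (χ : G → ℂ) {n : ℕ} (ρ : Representation ℂ (G × G) (Fin n → ℂ)) (k j : ℕ)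
    (hρ : ∀ x : G × G, ρ.character x = χ x.1 * χ (x.2 ^ k))
    (hirr : Representation.IsIrreducible (((ρ : G × G →* _).comp
      (MonoidHom.prod (MonoidHom.id G) (MonoidHom.id G))) : Representation ℂ G (Fin n → ℂ)))
    (hj : ∀ g : G, (g ^ j) ^ k = g⁻¹) (N : Subgroup G) [hN : N.Normal] [Fintype N] :
    ∃ c : ℂ, c * χ 1 ^ 2 = ∑ x : N, χ x * χ (x : G)⁻¹ ∧
      c ^ 2 * χ 1 ^ 2 = ∑ x : N, ∑ y : N, χ ((x : G) * y) * χ (((x : G) ^ j * (y : G) ^ j) ^ k) := by
  classical
  have htr : ∀ a : G × G, LinearMap.trace ℂ (Fin n → ℂ) (ρ a) = χ a.1 * χ (a.2 ^ k) := hρ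
  set J : Module.End ℂ (Fin n → ℂ) := ∑ x : N, ρ ((x : G), (x : G) ^ j) with hJ
  have h1 : ∀ g : G, J * ρ (g, g) = ρ (g, g) * J := by
    intro g
    rw [hJ, Finset.sum_mul, Finset.mul_sum]
    symm
    refine Fintype.sum_equiv (MulAut.conjNormal g : N ≃* N).toEquiv _ _ fun x => ?_
    rw [← map_mul, ← map_mul]
    congr 1
    have h2 : (((MulAut.conjNormal g : N ≃* N).toEquiv x : N) : G) = g * x * g⁻¹ := by
      simp [MulAut.conjNormal_apply]
    rw [h2]
    refine Prod.ext ?_ ?_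
    · simp
    · simp only [Prod.snd_mul, conj_pow]
      group
  obtain ⟨c, hc⟩ := schur_scalar _ hirr J (fun g v => by
    have := congrArg (fun T : Module.End ℂ (Fin n → ℂ) => T v) (h1 g)
    simpa using this)
  have hone : LinearMap.trace ℂ (Fin n → ℂ) 1 = χ 1 ^ 2 := by
    have := htr 1
    rw [map_one] at this
    rw [this]
    simp [sq]
  refine ⟨c, ?_, ?_⟩
  · have h2 : LinearMap.trace ℂ (Fin n → ℂ) J = ∑ x : N, χ x * χ (x : G)⁻¹ := by
      rw [hJ, map_sum]
      refine Finset.sum_congr rfl fun x _ => ?_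
      rw [htr]
      simp only [hj]
    rw [← h2, hc, map_smul, hone, smul_eq_mul]
  · have h2 : LinearMap.trace ℂ (Fin n → ℂ) (J * J) =
        ∑ x : N, ∑ y : N, χ ((x : G) * y) * χ (((x : G) ^ j * (y : G) ^ j) ^ k) := by
      rw [hJ, Finset.sum_mul_sum, map_sum]
      refine Finset.sum_congr rfl fun x _ => ?_
      rw [map_sum]
      refine Finset.sum_congr rfl fun y _ => ?_
      rw [← map_mul, htr]
      rfl
    rw [← h2, hc, smul_mul_smul_comm, one_mul, map_smul, hone, smul_eq_mul, sq]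

theorem central_scalar (χ : IrrCharacter G) (hfaith : ∀ g : G, (χ : G → ℂ) g = (χ : G → ℂ) 1 → g = 1)
    {u : G} (hu : u ∈ Subgroup.center G) :
    ∃ ω : ℂ, (∀ w : G, (χ : G → ℂ) (w * u) = ω * (χ : G → ℂ) w) ∧ (u ≠ 1 → ω ≠ 1) := by
  obtain ⟨χ, n, ρ, hρ, rfl⟩ := χ
  obtain ⟨ω, hω⟩ := schur_scalar ρ hρ (ρ u) (fun g v => by
    have h1 : g * u = u * g := (Subgroup.mem_center_iff.mp hu g)
    have h2 := congrArg (fun x => ρ x v) h1
    simpa using h2.symm)
  refine ⟨ω, fun w => ?_, fun hne h => hne (hfaith u ?_)⟩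
  · show LinearMap.trace ℂ _ (ρ (w * u)) = ω * LinearMap.trace ℂ _ (ρ w)
    rw [map_mul, hω, mul_smul_comm, mul_one, map_smul, smul_eq_mul]
  · show LinearMap.trace ℂ _ (ρ u) = LinearMap.trace ℂ _ (ρ 1)
    rw [hω, h, one_smul, map_one ρ]

theorem central_mul_inv (χ : IrrCharacter G) (hfaith : ∀ g : G, (χ : G → ℂ) g = (χ : G → ℂ) 1 → g = 1)
    {u : G} (hu : u ∈ Subgroup.center G) :
    (χ : G → ℂ) u * (χ : G → ℂ) u⁻¹ = (χ : G → ℂ) 1 ^ 2 := by
  obtain ⟨ω, h1, -⟩ := central_scalar χ hfaith hu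
  have h2 := h1 1
  have h3 := h1 u⁻¹
  rw [one_mul] at h2
  rw [inv_mul_cancel] at h3
  rw [h2, mul_comm ω, mul_assoc, ← h3, sq]

theorem vanish_of_commutator (χ : IrrCharacter G) (hfaith : ∀ g : G, (χ : G → ℂ) g = (χ : G → ℂ) 1 → g = 1)
    {x y : G} (hz : x * y * x⁻¹ * y⁻¹ ∈ Subgroup.center G) (hne : x * y * x⁻¹ * y⁻¹ ≠ 1) :
    (χ : G → ℂ) x = 0 := by
  obtain ⟨ω, h1, h2⟩ := central_scalar χ hfaith hz
  have h3 := h1 x⁻¹
  have h4 : x⁻¹ * (x * y * x⁻¹ * y⁻¹) = y * x⁻¹ * y⁻¹ := by group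
  rw [h4, irr_isClassFunction χ x⁻¹ y] at h3
  have h5 : (ω - 1) * (χ : G → ℂ) x⁻¹ = 0 := by rw [sub_mul, one_mul, ← h3, sub_self]
  have h6 : (χ : G → ℂ) x⁻¹ = 0 := by
    rcases mul_eq_zero.mp h5 with h | h
    · exact absurd (sub_eq_zero.mp h) (h2 hne)
    · exact h
  rw [irr_map_inv] at h6
  simpa using h6

theorem mem_center_of_norm (χ : IrrCharacter G) (hfaith : ∀ g : G, (χ : G → ℂ) g = (χ : G → ℂ) 1 → g = 1)
    {x : G} (hx : ‖(χ : G → ℂ) x‖ = ‖(χ : G → ℂ) 1‖) : x ∈ Subgroup.center G := by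
  obtain ⟨χ, n, ρ, hρ, rfl⟩ := χ
  have h1 : ‖ρ.character x‖ = (Module.finrank ℂ (Fin n → ℂ) : ℝ) := by
    have h2 : ρ.character 1 = (Module.finrank ℂ (Fin n → ℂ) : ℂ) := Representation.char_one ρ
    have h3 : ‖ρ.character 1‖ = (Module.finrank ℂ (Fin n → ℂ) : ℝ) := by
      rw [h2, Complex.norm_natCast]
    rw [← h3]
    exact hx
  obtain ⟨ω, hω⟩ := (norm_character_eq_iff ρ x (isOfFinOrder_of_finite x)).mp h1
  rw [Subgroup.mem_center_iff]
  intro g
  have h2 : ρ (g * x) = ρ (x * g) := by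
    rw [map_mul, map_mul, hω]
    ext v
    simp
  have h3 : ρ ((g * x) * (x * g)⁻¹) = 1 := by
    rw [map_mul, h2, ← map_mul, mul_inv_cancel, map_one]
  have h4 : (g * x) * (x * g)⁻¹ = 1 := by
    apply hfaith
    show LinearMap.trace ℂ _ (ρ _) = LinearMap.trace ℂ _ (ρ 1)
    rw [h3, map_one ρ]
  exact mul_inv_eq_one.mp h4

theorem abelian_central (χ : IrrCharacter G) (hfaith : ∀ g : G, (χ : G → ℂ) g = (χ : G → ℂ) 1 → g = 1)
    {n : ℕ} (ρ : Representation ℂ (G × G) (Fin n → ℂ)) (k j : ℕ)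
    (hρ : ∀ x : G × G, ρ.character x = (χ : G → ℂ) x.1 * (χ : G → ℂ) (x.2 ^ k))
    (hirr : Representation.IsIrreducible (((ρ : G × G →* _).comp
      (MonoidHom.prod (MonoidHom.id G) (MonoidHom.id G))) : Representation ℂ G (Fin n → ℂ)))
    (hj : ∀ g : G, (g ^ j) ^ k = g⁻¹) (N : Subgroup G) [hN : N.Normal]
    (hab : ∀ x ∈ N, ∀ y ∈ N, x * y = y * x) : N ≤ Subgroup.center G := by
  classical
  haveI : Fintype N := Fintype.ofFinite N
  obtain ⟨c, h1, h2⟩ := key_identity (χ : G → ℂ) ρ k j hρ hirr hj N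
  have hd : (χ : G → ℂ) 1 ≠ 0 := irr_degree_ne_zero χ
  have hd2 : (χ : G → ℂ) 1 ^ 2 ≠ 0 := pow_ne_zero 2 hd
  set S : ℂ := ∑ x : N, (χ : G → ℂ) x * (χ : G → ℂ) (x : G)⁻¹ with hS
  have h3 : ∑ x : N, ∑ y : N, (χ : G → ℂ) ((x : G) * y) * (χ : G → ℂ) (((x : G) ^ j * (y : G) ^ j) ^ k)
      = (Fintype.card N : ℂ) * S := by
    rw [hS, ← nsmul_eq_mul, ← Finset.card_univ, ← Finset.sum_const]
    refine Finset.sum_congr rfl fun x _ => ?_
    refine Fintype.sum_equiv (Equiv.mulLeft x) _ _ fun y => ?_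
    have h4 : (x : G) ^ j * (y : G) ^ j = (((x : G) * y)) ^ j := by
      rw [(show Commute (x : G) y from hab x x.2 y y.2).mul_pow]
    rw [h4, hj]
    rfl
  rw [h3, ← h1] at h2
  have hc0 : c ≠ 0 := by
    intro h0
    rw [h0, zero_mul] at h1
    -- `S` is a sum of squares with a positive term
    have h5 : ∀ x : N, (χ : G → ℂ) x * (χ : G → ℂ) (x : G)⁻¹ = ((‖(χ : G → ℂ) x‖ ^ 2 : ℝ) : ℂ) := by
      intro x
      rw [irr_map_inv, Complex.mul_conj, Complex.normSq_eq_norm_sq]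
    have h6 : (∑ x : N, ‖(χ : G → ℂ) x‖ ^ 2 : ℝ) = 0 := by
      have : ((∑ x : N, ‖(χ : G → ℂ) x‖ ^ 2 : ℝ) : ℂ) = 0 := by
        push_cast
        rw [h1, hS]
        refine Finset.sum_congr rfl fun x _ => ?_
        rw [h5]
        push_cast
        rfl
      exact_mod_cast this
    have h7 := (Finset.sum_eq_zero_iff_of_nonneg (fun x _ => by positivity)).mp h6 (1 : N) (Finset.mem_univ _)
    simp only [Subgroup.coe_one, ne_eq, OfNat.ofNat_ne_zero, not_false_eq_true, pow_eq_zero_iff,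
      norm_eq_zero] at h7
    exact hd h7
  have hc : c = (Fintype.card N : ℂ) := by
    have h8 : c * (c * (χ : G → ℂ) 1 ^ 2) = c * ((Fintype.card N : ℂ) * (χ : G → ℂ) 1 ^ 2) := by
      rw [← mul_assoc, ← sq, h2]
      ring
    have h9 := mul_left_cancel₀ hc0 h8
    exact mul_right_cancel₀ hd2 h9
  have hS2 : (∑ x : N, ‖(χ : G → ℂ) x‖ ^ 2 : ℝ) = (Fintype.card N : ℝ) * ‖(χ : G → ℂ) 1‖ ^ 2 := by
    have h5 : ∀ x : N, (χ : G → ℂ) x * (χ : G → ℂ) (x : G)⁻¹ = ((‖(χ : G → ℂ) x‖ ^ 2 : ℝ) : ℂ) := by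
      intro x
      rw [irr_map_inv, Complex.mul_conj, Complex.normSq_eq_norm_sq]
    have h6 : ((∑ x : N, ‖(χ : G → ℂ) x‖ ^ 2 : ℝ) : ℂ) = ((Fintype.card N : ℝ) * ‖(χ : G → ℂ) 1‖ ^ 2 : ℝ) := by
      push_cast
      have h10 := irr_degree_norm χ
      rw [h10, ← hc, h1, hS]
      refine Finset.sum_congr rfl fun x _ => ?_
      rw [h5]
      push_cast
      rfl
    exact_mod_cast h6
  have hle : ∀ x : N, ‖(χ : G → ℂ) x‖ ^ 2 ≤ ‖(χ : G → ℂ) 1‖ ^ 2 := fun x => by
    have := irr_norm_le χ (x : G)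
    gcongr
  have heq : ∀ x : N, ‖(χ : G → ℂ) x‖ ^ 2 = ‖(χ : G → ℂ) 1‖ ^ 2 := by
    have h11 : ∑ x : N, (‖(χ : G → ℂ) 1‖ ^ 2 - ‖(χ : G → ℂ) x‖ ^ 2) = 0 := by
      rw [Finset.sum_sub_distrib, hS2]
      simp
    intro x
    have h12 := (Finset.sum_eq_zero_iff_of_nonneg (fun x _ => sub_nonneg.mpr (hle x))).mp h11 x (Finset.mem_univ _)
    linarith
  intro x hx
  refine mem_center_of_norm χ hfaith ?_
  have := heq ⟨x, hx⟩
  have h13 := (sq_eq_sq₀ (norm_nonneg _) (norm_nonneg _)).mp this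
  exact h13

theorem classTwo_central (χ : IrrCharacter G) (hfaith : ∀ g : G, (χ : G → ℂ) g = (χ : G → ℂ) 1 → g = 1)
    {n : ℕ} (ρ : Representation ℂ (G × G) (Fin n → ℂ)) (k j : ℕ)
    (hρ : ∀ x : G × G, ρ.character x = (χ : G → ℂ) x.1 * (χ : G → ℂ) (x.2 ^ k))
    (hirr : Representation.IsIrreducible (((ρ : G × G →* _).comp
      (MonoidHom.prod (MonoidHom.id G) (MonoidHom.id G))) : Representation ℂ G (Fin n → ℂ)))
    (hj : ∀ g : G, (g ^ j) ^ k = g⁻¹) (N : Subgroup G) [hN : N.Normal]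
    (h2 : ∀ x ∈ N, ∀ y ∈ N, x * y * x⁻¹ * y⁻¹ ∈ Subgroup.center G)
    (hZ : ∀ x ∈ N, (∀ y ∈ N, x * y = y * x) → x ∈ Subgroup.center G) :
    N ≤ Subgroup.center G := by
  classical
  haveI : Fintype N := Fintype.ofFinite N
  obtain ⟨c, h3, h4⟩ := key_identity (χ : G → ℂ) ρ k j hρ hirr hj N
  have hd : (χ : G → ℂ) 1 ≠ 0 := irr_degree_ne_zero χ
  have hd2 : (χ : G → ℂ) 1 ^ 2 ≠ 0 := pow_ne_zero 2 hd
  have hvan : ∀ x ∈ N, x ∉ Subgroup.center G → (χ : G → ℂ) x = 0 := by
    intro x hx hxc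
    have h5 : ¬ ∀ y ∈ N, x * y = y * x := fun h => hxc (hZ x hx h)
    push Not at h5
    obtain ⟨y, hy, hne⟩ := h5
    refine vanish_of_commutator χ hfaith (y := y) (h2 x hx y hy) ?_
    intro h6
    apply hne
    have h7 : x * y * x⁻¹ = y := mul_inv_eq_one.mp h6
    exact mul_inv_eq_iff_eq_mul.mp h7
  let f : G → ℂ := fun u => if u ∈ Subgroup.center G then (χ : G → ℂ) 1 ^ 2 else 0
  let cnt : ℕ := (Finset.univ.filter (fun u : N => (u : G) ∈ Subgroup.center G)).card
  have hS : ∑ u : N, f u = (cnt : ℂ) * (χ : G → ℂ) 1 ^ 2 := by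
    simp only [f]
    rw [Finset.sum_ite, Finset.sum_const_zero, add_zero, Finset.sum_const, nsmul_eq_mul]
  have h5 : ∑ x : N, (χ : G → ℂ) x * (χ : G → ℂ) (x : G)⁻¹ = (cnt : ℂ) * (χ : G → ℂ) 1 ^ 2 := by
    rw [← hS]
    refine Finset.sum_congr rfl fun x _ => ?_
    by_cases hx : (x : G) ∈ Subgroup.center G
    · simp only [f, hx, if_true]
      exact central_mul_inv χ hfaith hx
    · simp only [f, hx, if_false]
      rw [hvan x x.2 hx, zero_mul]
  have h6 : ∑ x : N, ∑ y : N, (χ : G → ℂ) ((x : G) * y) * (χ : G → ℂ) (((x : G) ^ j * (y : G) ^ j) ^ k)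
      = (Fintype.card N : ℂ) * ((cnt : ℂ) * (χ : G → ℂ) 1 ^ 2) := by
    rw [← hS, ← nsmul_eq_mul, ← Finset.card_univ, ← Finset.sum_const]
    refine Finset.sum_congr rfl fun x _ => ?_
    refine Fintype.sum_equiv (Equiv.mulLeft x) _ _ fun y => ?_
    have hco : ((Equiv.mulLeft x y : N) : G) = (x : G) * y := rfl
    rw [hco]
    by_cases hx : (x : G) * y ∈ Subgroup.center G
    · simp only [f, hx, if_true]
      have h7 : (y : G) = (x : G)⁻¹ * ((x : G) * y) := by group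
      have h8 : (y : G) ^ j = ((x : G)⁻¹) ^ j * ((x : G) * y) ^ j := by
        conv_lhs => rw [h7]
        exact (show Commute (x : G)⁻¹ ((x : G) * y) from
          ((Subgroup.mem_center_iff.mp hx _))).mul_pow j
      have h9 : (x : G) ^ j * (y : G) ^ j = ((x : G) * y) ^ j := by
        rw [h8, ← mul_assoc, inv_pow, mul_inv_cancel, one_mul]
      rw [h9, hj]
      exact central_mul_inv χ hfaith hx
    · simp only [f, hx, if_false]
      rw [hvan _ (N.mul_mem x.2 y.2) hx, zero_mul]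
  rw [h5] at h3
  rw [h6] at h4
  have hc : c = (cnt : ℂ) := mul_right_cancel₀ hd2 h3
  rw [hc] at h4
  have h7 : (cnt : ℂ) ^ 2 = (Fintype.card N : ℂ) * (cnt : ℂ) := by
    apply mul_right_cancel₀ hd2
    rw [h4]
    ring
  have h8 : cnt ^ 2 = Fintype.card N * cnt := by exact_mod_cast h7
  have hpos : 0 < cnt := by
    refine Finset.card_pos.mpr ⟨1, ?_⟩
    simp [Subgroup.one_mem]
  have h9 : cnt = Fintype.card N := by
    have : cnt * cnt = Fintype.card N * cnt := by rw [← h8, sq]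
    exact Nat.eq_of_mul_eq_mul_right hpos this
  have h10 : Finset.univ.filter (fun u : N => (u : G) ∈ Subgroup.center G) = Finset.univ := by
    apply Finset.eq_univ_of_card
    exact h9
  intro x hx
  have := Finset.mem_univ (⟨x, hx⟩ : N)
  rw [← h10] at this
  exact (Finset.mem_filter.mp this).2

end Aux

/-- Let G be a finite group with a faithful irreducible character χ (taking the value χ(1) only at the identity) and let k be prime to the order of G, so that g ↦ χ(g^k) is a Galois conjugate of χ. If the pointwise product g ↦ χ(g)·χ(g^k) is again an irreducible character, then the Fitting subgroup of G equals its centre. -/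
theorem result {G : Type*} [Group G] [Finite G] (χ : Cfsg.IrrCharacter G) (hfaith : ∀ g : G, (χ : G → ℂ) g = (χ : G → ℂ) 1 → g = 1) (k : ℕ) (hk : Nat.Coprime k (Nat.card G)) (hirr : Cfsg.IsIrrCharacter G (fun g => (χ : G → ℂ) g * (χ : G → ℂ) (g ^ k))) : Cfsg.fittingSubgroup G = Subgroup.center G := by
  classical
  haveI : Fintype G := Fintype.ofFinite G
  apply le_antisymm
  swap
  · refine Cfsg.Agent.Lib.Core.le_fittingSubgroup inferInstance ?_
    exact Cfsg.Agent.Lib.FStar.isNilpotent_center G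
  obtain ⟨j, hj⟩ := Cfsg.Agent.Lib.Degree.exists_pow_inv G hk
  have hθ : IsIrrCharacter G (fun g => (χ : G → ℂ) (g ^ k)) :=
    Cfsg.Agent.Lib.Degree.galois_isIrr χ.2 hk
  obtain ⟨n, ρ, hρc⟩ := Cfsg.Agent.Lib.Char.isCharacter_prod
    (Cfsg.Agent.Lib.Char.IsIrrCharacter.isCharacter χ.2)
    (Cfsg.Agent.Lib.Char.IsIrrCharacter.isCharacter hθ)
  have hρ : ∀ x : G × G, ρ.character x = (χ : G → ℂ) x.1 * (χ : G → ℂ) (x.2 ^ k) := fun x => by
    rw [hρc]
  have hirr' : Representation.IsIrreducible (((ρ : G × G →* _).comp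
      (MonoidHom.prod (MonoidHom.id G) (MonoidHom.id G))) : Representation ℂ G (Fin n → ℂ)) := by
    obtain ⟨m, σ, hσ, hσc⟩ := hirr
    have h1 : σ.character = Representation.character (((ρ : G × G →* _).comp
      (MonoidHom.prod (MonoidHom.id G) (MonoidHom.id G))) : Representation ℂ G (Fin n → ℂ)) := by
      rw [hσc]
      funext g
      exact (hρ (g, g)).symm
    obtain ⟨e⟩ := Cfsg.Agent.Lib.Char.nonempty_equiv_of_character_eq _ _ _ σ _ rfl h1
    exact Cfsg.Agent.Lib.Char.isIrreducible_of_equiv e hσ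
  have hA := fun (N : Subgroup G) (hN : N.Normal) (hab : ∀ x ∈ N, ∀ y ∈ N, x * y = y * x) =>
    abelian_central χ hfaith ρ k j hρ hirr' hj N hab
  have hB := fun (N : Subgroup G) (hN : N.Normal)
    (h2 : ∀ x ∈ N, ∀ y ∈ N, x * y * x⁻¹ * y⁻¹ ∈ Subgroup.center G)
    (hZ : ∀ x ∈ N, (∀ y ∈ N, x * y = y * x) → x ∈ Subgroup.center G) =>
    classTwo_central χ hfaith ρ k j hρ hirr' hj N h2 hZ
  have hsq : ∀ N : Subgroup G, N.Normal →
      (∀ x ∈ N, ∀ y ∈ N, x * y * x⁻¹ * y⁻¹ ∈ Subgroup.center G) → N ≤ Subgroup.center G := by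
    intro N hN h2
    refine hB N hN h2 fun x hx hxc => ?_
    let A : Subgroup G := N ⊓ Subgroup.centralizer (N : Set G)
    haveI : (Subgroup.centralizer (N : Set G)).Normal := Subgroup.normal_centralizer (H := N)
    have hAn : A.Normal := Subgroup.normal_inf_normal _ _
    have hAab : ∀ a ∈ A, ∀ b ∈ A, a * b = b * a := fun a ha b hb => by
      have := Subgroup.mem_centralizer_iff.mp ha.2 b hb.1
      exact this.symm
    refine hA A hAn hAab ⟨hx, ?_⟩
    show x ∈ Subgroup.centralizer (N : Set G)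
    rw [Subgroup.mem_centralizer_iff]
    intro y hy
    exact (hxc y hy).symm
  let F := fittingSubgroup G
  haveI hFn : F.Normal := by
    show (fittingSubgroup G).Normal
    exact Cfsg.Agent.Lib.Core.fittingSubgroup_normal G
  have hnil : Group.IsNilpotent F := Cfsg.Agent.Lib.Core.isNilpotent_fittingSubgroup G
  obtain ⟨m, hm⟩ := hnil.nilpotent'
  have hstep : ∀ m : ℕ, ∀ x : F, x ∈ Subgroup.upperCentralSeries F m → (x : G) ∈ Subgroup.center G := by
    intro m
    induction m with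
    | zero =>
      intro x hx
      have : x = 1 := by simpa [Subgroup.upperCentralSeries_zero] using hx
      rw [this]
      exact Subgroup.one_mem _
    | succ m ih =>
      intro x hx
      let π := QuotientGroup.mk' (Subgroup.center G)
      let C : Subgroup (G ⧸ Subgroup.center G) := Subgroup.centralizer ((F.map π : Subgroup _) : Set _)
      haveI : (F.map π).Normal := Subgroup.Normal.map hFn π (QuotientGroup.mk'_surjective _)
      haveI hCn : C.Normal := Subgroup.normal_centralizer (H := F.map π)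
      let K : Subgroup G := F ⊓ C.comap π
      have hKn : K.Normal := Subgroup.normal_inf_normal _ _
      have hmemK : ∀ a : G, a ∈ K ↔ a ∈ F ∧ ∀ y ∈ F, a * y * a⁻¹ * y⁻¹ ∈ Subgroup.center G := by
        intro a
        refine and_congr_right fun _ => ?_
        show a ∈ Subgroup.comap π C ↔ _
        rw [Subgroup.mem_comap, Subgroup.mem_centralizer_iff]
        constructor
        · intro h y hy
          have h1 := h (π y) ⟨y, hy, rfl⟩
          have h2 : π (y * a) = π (a * y) := by rw [map_mul, map_mul]; exact h1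
          have h3 := (QuotientGroup.eq_iff_div_mem (N := Subgroup.center G)).mp h2
          have h4 : y * a / (a * y) ∈ Subgroup.center G := h3
          have h5 : (y * a / (a * y))⁻¹ ∈ Subgroup.center G := Subgroup.inv_mem _ h4
          convert h5 using 1
          simp only [div_eq_mul_inv]
          group
        · rintro h _ ⟨y, hy, rfl⟩
          have h1 := h y hy
          have h2 : π (a * y) = π (y * a) := by
            refine (QuotientGroup.eq_iff_div_mem (N := Subgroup.center G)).mpr ?_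
            convert h1 using 1
            simp only [div_eq_mul_inv]
            group
          rw [map_mul, map_mul] at h2
          exact h2.symm
      have hxK : (x : G) ∈ K := by
        rw [hmemK]
        refine ⟨x.2, fun y hy => ?_⟩
        have h1 := Subgroup.mem_upperCentralSeries_succ_iff.mp hx ⟨y, hy⟩
        exact ih _ h1
      refine hsq K hKn (fun a ha b hb => ?_) hxK
      exact ((hmemK a).mp ha).2 b ((hmemK b).mp hb).1
  intro x hx
  have := hstep m ⟨x, hx⟩ (by rw [hm]; exact Subgroup.mem_top _)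
  exact this

end Cfsg.Agent.S4843
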