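import Cfsg.Statements.S4864
import Mathlib
import Cfsg.Agent.Lib.Degree.RealSylow
import Cfsg.Agent.Lib.Degree.RealCentral2

set_option autoImplicit false
open Cfsg
open Cfsg.Agent.Lib.Degree

namespace Cfsg.Agent.S4864

/-- Let p be a prime and G a finite group such that the subgroup generated by the p-elements of G is solvable and every real-valued irreducible complex character of G has degree prime to p. Then the normalizer of a Sylow p-subgroup of G contains an element of every real conjugacy class of G: every element conjugate to its inverse is conjugate to an element of that normalizer. -/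
theorem result {G : Type*} [Group G] [Finite G] (p : ℕ) [Fact p.Prime] (hsolv : Group.IsSolvable ↥(Subgroup.closure {g : G | ∃ k : ℕ, orderOf g = p ^ k})) (hreal : ∀ χ : Cfsg.IrrCharacter G, (∀ g : G, ((χ : G → ℂ) g).im = 0) → ¬ p ∣ Cfsg.charDegree (χ : G → ℂ)) (P : Sylow p G) (x : G) (hx : IsConj x x⁻¹) : ∃ y ∈ Subgroup.normalizer ((P : Subgroup G) : Set G), IsConj x y := by
  classical
  letI : Fintype G := Fintype.ofFinite G
  have hH : RealDegHyp p G := ⟨hsolv, hreal⟩
  have hKn : (powGen 2 G).Normal := powGen_normal 2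
  have hodd : Odd (powGen 2 G).index := odd_index_of_le _ hKn le_rfl
  -- `x` lies in `K`
  have hxK : x ∈ powGen 2 G := by
    obtain ⟨c, hc⟩ := isConj_iff.mp hx
    have h1 : ((c : G) : G ⧸ powGen 2 G) * (x : G ⧸ powGen 2 G) * ((c : G) : G ⧸ powGen 2 G)⁻¹ =
        (x : G ⧸ powGen 2 G)⁻¹ := by
      rw [← QuotientGroup.mk_inv, ← QuotientGroup.mk_inv, ← QuotientGroup.mk_mul, ← QuotientGroup.mk_mul, hc]
    have h2 := eq_one_of_conj_inv_of_odd (Q := G ⧸ powGen 2 G) hodd h1
    exact (QuotientGroup.eq_one_iff x).mp h2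
  have hKQ := sylow_normal_main _ _ rfl (hH.subgroup _ hKn le_rfl) ⟨0, by
    rw [powGen_self_eq_top, Subgroup.index_top, pow_zero]⟩
  obtain ⟨Q⟩ : Nonempty (Sylow p (powGen 2 G)) := inferInstance
  have hQn := hKQ Q
  haveI hQc : (Q : Subgroup (powGen 2 G)).Characteristic := Sylow.characteristic_of_normal Q hQn
  let Q' : Subgroup G := (Q : Subgroup (powGen 2 G)).map (powGen 2 G).subtype
  haveI hQ'n : Q'.Normal := Cfsg.Agent.Lib.Core.normal_map_of_characteristic _ _
  have hQ'p : IsPGroup p Q' := Q.isPGroup'.map _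
  have hQ'P : Q' ≤ (P : Subgroup G) := by
    have h1 : IsPGroup p ((P : Subgroup G) ⊔ Q' : Subgroup G) :=
      IsPGroup.to_sup_of_normal_right P.isPGroup' hQ'p
    have h2 := P.is_maximal' h1 le_sup_left
    rw [← h2]
    exact le_sup_right
  let π : G →* G ⧸ Q' := QuotientGroup.mk' Q'
  have hπs : Function.Surjective π := QuotientGroup.mk'_surjective Q'
  have hπ : ∀ c : G, π c = 1 ↔ c ∈ Q' := fun c => QuotientGroup.eq_one_iff c
  let Kb : Subgroup (G ⧸ Q') := (powGen 2 G).map π
  have hKb : Kb.Normal := hKn.map π hπs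
  letI : Fintype (G ⧸ Q') := Fintype.ofFinite _
  letI : Fintype Kb := Fintype.ofFinite _
  have hoddb : Odd Kb.index := Odd.of_dvd_nat hodd (Subgroup.index_map_dvd _ hπs)
  have hcopb : ¬ p ∣ Nat.card Kb := by
    have h1 : (π.comp (powGen 2 G).subtype).ker = (Q : Subgroup (powGen 2 G)) := by
      ext c
      rw [MonoidHom.mem_ker]
      show π (c : G) = 1 ↔ _
      rw [hπ]
      constructor
      · rintro ⟨d, hd, hdc⟩
        have : d = c := Subtype.ext hdc
        rwa [← this]
      · intro hc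
        exact ⟨c, hc, rfl⟩
    have h2 := Subgroup.index_ker (π.comp (powGen 2 G).subtype)
    rw [h1] at h2
    have h3 : (π.comp (powGen 2 G).subtype).range = Kb := by
      rw [MonoidHom.range_comp, Subgroup.range_subtype]
    rw [h3] at h2
    rw [← h2]
    exact Q.not_dvd_index
  let Pb : Sylow p (G ⧸ Q') := P.mapSurjective hπs
  have hxb : π x ∈ Kb := ⟨x, hxK, rfl⟩
  have hxr : IsConj (π x) (π x)⁻¹ := by
    obtain ⟨c, hc⟩ := isConj_iff.mp hx
    refine isConj_iff.mpr ⟨π c, ?_⟩
    rw [← map_inv, ← map_inv, ← map_mul, ← map_mul, hc]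
  obtain ⟨gb, hgb⟩ := real_class_meets_centralizer hKb Pb hoddb hcopb (hH.quotient Q').deg hxb hxr
  obtain ⟨g, rfl⟩ := hπs gb
  refine ⟨g * x * g⁻¹, ?_, isConj_iff.mpr ⟨g, rfl⟩⟩
  have hy : π (g * x * g⁻¹) = π g * π x * (π g)⁻¹ := by simp only [map_mul, map_inv]
  have hyb : ∀ u ∈ (P : Subgroup G), π (g * x * g⁻¹) * π u * (π (g * x * g⁻¹))⁻¹ = π u := by
    intro u hu
    have h1 : π u * π (g * x * g⁻¹) * (π u)⁻¹ = π (g * x * g⁻¹) := by
      rw [hy]
      exact hgb (π u) ⟨u, hu, rfl⟩
    have h2 : π u * π (g * x * g⁻¹) = π (g * x * g⁻¹) * π u := by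
      calc π u * π (g * x * g⁻¹) = (π u * π (g * x * g⁻¹) * (π u)⁻¹) * π u := by group
        _ = π (g * x * g⁻¹) * π u := by rw [h1]
    rw [← h2]
    group
  have hmem : ∀ z u : G, u ∈ (P : Subgroup G) → π z = π u → z ∈ (P : Subgroup G) := by
    intro z u hu hzu
    have h1 : π (u⁻¹ * z) = 1 := by
      rw [map_mul, map_inv, hzu]
      group
    have h2 := hQ'P ((hπ _).mp h1)
    have h3 : z = u * (u⁻¹ * z) := by group
    rw [h3]
    exact (P : Subgroup G).mul_mem hu h2
  rw [Subgroup.mem_normalizer_iff]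
  intro u
  constructor
  · intro hu
    refine hmem _ u hu ?_
    rw [← hyb u hu]
    simp only [map_mul, map_inv]
  · intro hv
    have h1 := hyb _ hv
    refine hmem _ _ hv ?_
    have h2 : π (g * x * g⁻¹ * u * (g * x * g⁻¹)⁻¹) =
        π (g * x * g⁻¹) * π u * (π (g * x * g⁻¹))⁻¹ := by
      simp only [map_mul, map_inv]
    rw [h2] at h1 ⊢
    set a := π (g * x * g⁻¹)
    set w := a * π u * a⁻¹ with hw
    calc π u = a⁻¹ * w * a := by rw [hw]; group
      _ = a⁻¹ * (a * w * a⁻¹) * a := by rw [h1]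
      _ = w := by group

end Cfsg.Agent.S4864
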