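import Cfsg.Statements.S4866
import Cfsg.Agent.Lib.Degree.RealOrbits
import Mathlib

set_option autoImplicit false
open Cfsg

namespace Cfsg.Agent.S4866

/-- Let K be a normal subgroup of odd index in the finite group G. Then G has as many orbits on the real-valued irreducible complex characters of K (acting by conjugation) as it has orbits on the conjugacy classes of K that are real in K; equivalently, the number of G-orbits of real-valued irreducible characters of K equals the number of G-conjugacy classes of elements of K that are conjugate in K to their inverses. -/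
theorem result {G : Type*} [Group G] [Finite G] (K : Subgroup G) [K.Normal] (hodd : Odd K.index) : Nat.card (Quot (fun θ η : {θ : Cfsg.IrrCharacter ↥K // (∀ k : ↥K, ((θ : ↥K → ℂ) k).im = 0)} => ∃ g : G, ∀ k k' : ↥K, (k' : G) = g * (k : G) * g⁻¹ → (η.1 : ↥K → ℂ) k' = (θ.1 : ↥K → ℂ) k)) = Nat.card (Quot (fun x y : {x : ↥K // IsConj x x⁻¹} => ∃ g : G, (y.1 : G) = g * x.1 * g⁻¹)) := by
  classical
  cases nonempty_fintype G
  have : Fintype K := Fintype.ofFinite K
  have hN : K.Normal := inferInstance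
  have hmain := Lib.Degree.card_real_orbits hN hodd
  let _ := Lib.Degree.realIrrAct hN
  let _ := Lib.Degree.realEltAct hN
  have h1 := Lib.Degree.card_quot_eq_card_orbits (α := G)
    (fun θ η : {θ : Cfsg.IrrCharacter ↥K // (∀ k : ↥K, ((θ : ↥K → ℂ) k).im = 0)} =>
      ∃ g : G, ∀ k k' : ↥K, (k' : G) = g * (k : G) * g⁻¹ → (η.1 : ↥K → ℂ) k' = (θ.1 : ↥K → ℂ) k) (by
    intro θ η
    constructor
    · rintro ⟨g, hg⟩
      refine ⟨g, Subtype.ext (Subtype.ext ?_)⟩
      funext k'
      have hk : g⁻¹ * (k' : G) * g ∈ K := by simpa using hN.conj_mem _ k'.2 g⁻¹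
      have h2 := hg ⟨g⁻¹ * (k' : G) * g, hk⟩ k' (by simp [mul_assoc])
      rw [h2]
      exact (congrArg (θ.1 : ↥K → ℂ) (Subtype.ext (by simp))).symm
    · rintro ⟨g, rfl⟩
      refine ⟨g, fun k k' hk => ?_⟩
      exact congrArg (θ.1 : ↥K → ℂ) (Subtype.ext (by simp [hk, mul_assoc])))
  have h2 := Lib.Degree.card_quot_eq_card_orbits (α := G)
    (fun x y : {x : ↥K // IsConj x x⁻¹} => ∃ g : G, (y.1 : G) = g * x.1 * g⁻¹) (by
    intro x y
    constructor
    · rintro ⟨g, hg⟩
      exact ⟨g, Subtype.ext (Subtype.ext hg)⟩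
    · rintro ⟨g, rfl⟩
      exact ⟨g, rfl⟩)
  rw [h1, h2]
  exact hmain

end Cfsg.Agent.S4866
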