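import Cfsg.Statements.S4870
import Mathlib
import Cfsg.Agent.Lib.Degree.CliffordFibre

set_option autoImplicit false
open Cfsg
open Cfsg.Agent.Lib.Degree Cfsg.Agent.Lib.Char

namespace Cfsg.Agent.S4870


/-- A non-abelian minimal normal subgroup lies in the derived subgroup. -/
theorem le_commutator_of_min {G : Type*} [Group G] (N : Subgroup G) (hN : N.Normal)
    (hmin : ∀ M : Subgroup G, M.Normal → M ≤ N → M = ⊥ ∨ M = N) (hna : ¬ IsMulCommutative ↥N) :
    N ≤ commutator G := by
  have h1 : ⁅N, N⁆ ≤ N := Subgroup.commutator_le_left N N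
  haveI := hN
  have h2 : (⁅N, N⁆ : Subgroup G).Normal := inferInstance
  rcases hmin _ h2 h1 with h | h
  · exfalso
    apply hna
    refine ⟨⟨fun a b => Subtype.ext ?_⟩⟩
    have h3 : (a : G) * b * (a : G)⁻¹ * (b : G)⁻¹ ∈ (⊥ : Subgroup G) := by
      rw [← h]
      have := Subgroup.commutator_mem_commutator a.2 b.2
      rwa [commutatorElement_def] at this
    rw [Subgroup.mem_bot] at h3
    show (a : G) * b = (b : G) * a
    calc (a : G) * b = ((a : G) * b * (a : G)⁻¹ * (b : G)⁻¹) * (b * a) := by group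
      _ = _ := by rw [h3, one_mul]
  · rw [← h]
    exact Subgroup.commutator_mono le_top le_top

/-- Let G be a finite group with a non-abelian minimal normal subgroup N, and let φ be an irreducible complex character of N with stabilizer I in G (the elements g with φ(g n g⁻¹) = φ(n) for all n ∈ N) such that φ extends to an irreducible character of I. Put d = φ(1)·[G : I]. Then the number of linear characters of G is at most [G : I] times the number of irreducible characters of G of degree d. -/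
theorem result {G : Type*} [Group G] [Finite G] (N : Subgroup G) (hN : N.Normal) (hN1 : N ≠ ⊥) (hmin : ∀ M : Subgroup G, M.Normal → M ≤ N → M = ⊥ ∨ M = N) (hna : ¬ IsMulCommutative ↥N) (φ : Cfsg.IrrCharacter ↥N) (I : Subgroup G) (hI : ∀ g : G, g ∈ I ↔ ∀ n n' : ↥N, (n' : G) = g * (n : G) * g⁻¹ → (φ : ↥N → ℂ) n' = (φ : ↥N → ℂ) n) (hNI : N ≤ I) (hext : ∃ ψ : Cfsg.IrrCharacter ↥I, ∀ n : ↥N, (ψ : ↥I → ℂ) (Subgroup.inclusion hNI n) = (φ : ↥N → ℂ) n) : Nat.card {χ : Cfsg.IrrCharacter G // Cfsg.charDegree (χ : G → ℂ) = 1} ≤ I.index * Nat.card {χ : Cfsg.IrrCharacter G // Cfsg.charDegree (χ : G → ℂ) = Cfsg.charDegree (φ : ↥N → ℂ) * I.index} := by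
  classical
  haveI := Fintype.ofFinite G
  letI : ∀ H : Subgroup G, Fintype H := fun H => Fintype.ofFinite H
  obtain ⟨ψ, hψ⟩ := hext
  have hIeq : I = inertia hN (φ : ↥N → ℂ) := by
    ext g
    rw [hI, mem_inertia_iff]
    constructor
    · intro h n
      exact h n _ rfl
    · intro h n n' hn'
      have h1 := h n
      have h2 : (⟨g * n * g⁻¹, hN.conj_mem (n : G) n.2 g⟩ : ↥N) = n' := Subtype.ext hn'.symm
      rwa [h2] at h1
  have hHG := le_commutator_of_min N hN hmin hna
  have hΞ : IsIrrCharacter G (indFun I (ψ : ↥I → ℂ)) := by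
    refine indFun_isIrr_of_over hN φ.2 hIeq hNI ψ.2 ?_
    have h3 : (fun n : ↥N => (ψ : ↥I → ℂ) ⟨n, hNI n.2⟩) = (φ : ↥N → ℂ) := by
      funext n
      exact hψ n
    rw [h3, classInner_irr_self φ.2]
    exact one_ne_zero
  have hdeg : charDegree (indFun I (ψ : ↥I → ℂ)) = charDegree (φ : ↥N → ℂ) * I.index := by
    apply charDegree_natCast
    rw [indFun_one]
    have h1 : (ψ : ↥I → ℂ) 1 = (φ : ↥N → ℂ) 1 := by
      have := hψ 1
      simpa using this
    rw [h1, map_one_eq_charDegree (IsIrrCharacter.isCharacter φ.2)]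
    push_cast
    ring
  let s := Finset.univ.filter (fun χ : IrrCharacter G => charDegree (χ : G → ℂ) = 1)
  let t := Finset.univ.filter (fun χ : IrrCharacter G => charDegree (χ : G → ℂ) = charDegree (φ : ↥N → ℂ) * I.index)
  have hone : ∀ l : IrrCharacter G, charDegree (l : G → ℂ) = 1 ↔ (l : G → ℂ) 1 = 1 := by
    intro l
    rw [map_one_eq_charDegree (IsIrrCharacter.isCharacter l.2)]
    constructor
    · intro h
      rw [h]
      simp
    · intro h
      exact_mod_cast h
  have hs : ∀ l ∈ s, (l : G → ℂ) 1 = 1 := fun l hl => (hone l).mp (Finset.mem_filter.mp hl).2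
  have hst : ∀ l ∈ s, ∃ χ ∈ t, (χ : G → ℂ) = indFun I (ψ : ↥I → ℂ) * (l : G → ℂ) := by
    intro l hl
    have hl1 := hs l hl
    refine ⟨⟨_, isIrr_mul_linear hΞ (IsIrrCharacter.isCharacter l.2) hl1⟩, ?_, rfl⟩
    refine Finset.mem_filter.mpr ⟨Finset.mem_univ _, ?_⟩
    rw [← hdeg]
    apply charDegree_natCast
    show indFun I (ψ : ↥I → ℂ) 1 * (l : G → ℂ) 1 = _
    rw [hl1, mul_one]
    exact map_one_eq_charDegree (IsIrrCharacter.isCharacter hΞ)
  have hmain := card_le_mul_card_of_mul_ind hN φ hIeq hNI ψ hψ hHG s t hs hst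
  have e1 : Nat.card {χ : IrrCharacter G // charDegree (χ : G → ℂ) = 1} = s.card := by
    rw [Nat.card_eq_fintype_card, Fintype.card_subtype]
  have e2 : Nat.card {χ : IrrCharacter G // charDegree (χ : G → ℂ) = charDegree (φ : ↥N → ℂ) * I.index} = t.card := by
    rw [Nat.card_eq_fintype_card, Fintype.card_subtype]
  rw [e1, e2]
  exact hmain

end Cfsg.Agent.S4870
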