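import Cfsg.Statements.S4871
import Mathlib
import Cfsg.Agent.Lib.Degree.OddTwo

set_option autoImplicit false
open Cfsg
open Cfsg.Agent.Lib.Degree Cfsg.Agent.Lib.Char Cfsg.Agent.Lib.CharExtra

namespace Cfsg.Agent.S4871


theorem linear_sq_of_fsInd {G : Type*} [Group G] [Fintype G] (l : IrrCharacter G) (hl1 : (l : G → ℂ) 1 = 1)
    (hfs : fsInd (l : G → ℂ) = 1) (g : G) : (l : G → ℂ) (g * g) = 1 := by
  have hβ := Cfsg.Agent.Lib.Char.isIrr_mul_linear l.2 (IsIrrCharacter.isCharacter l.2) hl1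
  let β : IrrCharacter G := ⟨_, hβ⟩
  have hβv : ∀ x, (β : G → ℂ) x = (l : G → ℂ) (x * x) := by
    intro x
    rw [Cfsg.Agent.Lib.Degree.irr_linear_mul l hl1]
    rfl
  by_cases hb : β = Cfsg.Agent.Lib.Degree.principal G
  · rw [← hβv, hb]
    simp
  · exfalso
    have h1 := classInner_irr_of_ne β.2 (Cfsg.Agent.Lib.Degree.principal G).2 (fun h => hb (Subtype.ext h))
    rw [classInner_def] at h1
    simp only [Cfsg.Agent.Lib.Degree.principal_apply, map_one, mul_one] at h1
    simp only [hβv] at h1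
    have h2 : fsInd (l : G → ℂ) = 0 := by
      unfold fsInd
      exact h1
    rw [h2] at hfs
    exact zero_ne_one hfs

/-- Let G be a finite group that is the semidirect product of a normal elementary abelian subgroup N of odd order by a non-trivial 2-subgroup P, with N the unique minimal normal subgroup of G. Consider the strongly real irreducible complex characters of G (Frobenius–Schur indicator +1) whose degree is 1 or even. Then their average degree is at least 4/3: four times their number is at most three times the sum of their degrees. -/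
theorem result {G : Type*} [Group G] [Finite G] (N P : Subgroup G) (hN : N.Normal) (q : ℕ) [Fact q.Prime] (hq : q ≠ 2) (hNel : Cfsg.IsElementaryAbelian q N) (hP : IsPGroup 2 ↥P) (hP1 : P ≠ ⊥) (hdisj : N ⊓ P = ⊥) (hprod : N ⊔ P = ⊤) (hmin : N ≠ ⊥ ∧ ∀ M : Subgroup G, M.Normal → M ≠ ⊥ → N ≤ M) : 4 * Nat.card {χ : Cfsg.IrrCharacter G // (Cfsg.charDegree (χ : G → ℂ) = 1 ∨ 2 ∣ Cfsg.charDegree (χ : G → ℂ)) ∧ (Nat.card G : ℂ)⁻¹ * ∑ᶠ g : G, (χ : G → ℂ) (g * g) = 1} ≤ 3 * (∑ᶠ χ : {χ : Cfsg.IrrCharacter G // (Cfsg.charDegree (χ : G → ℂ) = 1 ∨ 2 ∣ Cfsg.charDegree (χ : G → ℂ)) ∧ (Nat.card G : ℂ)⁻¹ * ∑ᶠ g : G, (χ : G → ℂ) (g * g) = 1}, Cfsg.charDegree (χ.1 : G → ℂ)) := by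
  classical
  haveI := Fintype.ofFinite G
  letI : ∀ H : Subgroup G, Fintype H := fun H => Fintype.ofFinite H
  haveI := hN
  have hNab : ∀ a ∈ N, ∀ b ∈ N, a * b = b * a := by
    intro a ha b hb
    haveI := hNel.1
    have := mul_comm' (⟨a, ha⟩ : N) ⟨b, hb⟩
    exact congrArg Subtype.val this
  obtain ⟨z, hzP, hz1, hzz, hzc, hz⟩ := exists_inverting N P hNab hP hP1 hdisj hprod hmin
  have hqodd : Odd q := (Fact.out : q.Prime).odd_of_ne_two hq
  have hHG : N ≤ commutator G := le_commutator_of_inverting N hqodd hNel.2 hz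
  -- a nontrivial character of `N`
  haveI : Nontrivial N := by
    by_contra hnt
    rw [not_nontrivial_iff_subsingleton] at hnt
    exact hmin.1 (Subgroup.eq_bot_of_subsingleton N)
  haveI : Nontrivial (IrrCharacter N) := by
    have h1 : 1 < Nat.card (IrrCharacter N) := by
      rw [card_irr_eq_card_conjClasses]
      obtain ⟨x, hx⟩ := exists_ne (1 : N)
      have hne' : ConjClasses.mk x ≠ ConjClasses.mk (1 : N) := by
        intro h
        have := ConjClasses.mk_eq_mk_iff_isConj.mp h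
        exact hx (isConj_one_right.mp this.symm)
      haveI : Nontrivial (ConjClasses N) := ⟨⟨_, _, hne'⟩⟩
      exact Finite.one_lt_card
    exact (Finite.one_lt_card_iff_nontrivial).mp h1
  obtain ⟨φ, hφne⟩ := exists_ne (principal N)
  have hφ1 : (φ : N → ℂ) 1 = 1 := by
    rw [← kerContains_commutator_iff]
    intro n hn
    have hbot : commutator N = ⊥ := by
      rw [commutator_eq_bot_iff_center_eq_top, Subgroup.eq_top_iff']
      intro x
      rw [Subgroup.mem_center_iff]
      intro y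
      exact Subtype.ext (hNab _ y.2 _ x.2)
    rw [hbot, Subgroup.mem_bot] at hn
    rw [hn]
  let I : Subgroup G := inertia hN (φ : N → ℂ)
  have hNI : N ≤ I := le_inertia hN (IsCharacter.isClassFunction (IsIrrCharacter.isCharacter φ.2))
  obtain ⟨ψ, hψN, hψP, hψmul⟩ := exists_ext_trivial N P hdisj hprod φ hφ1 I rfl hNI
  have hFS := fs_of_inverting N P hdisj hprod φ hφ1 I rfl hNI ψ hψN hψP hψmul hzP hzz hzc hz
  have hΞ : IsIrrCharacter G (indFun I (ψ : ↥I → ℂ)) := by
    refine indFun_isIrr_of_over hN φ.2 rfl hNI ψ.2 ?_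
    have h3 : (fun n : ↥N => (ψ : ↥I → ℂ) ⟨n, hNI n.2⟩) = (φ : ↥N → ℂ) := by
      funext n
      exact hψN n
    rw [h3, classInner_irr_self φ.2]
    exact one_ne_zero
  have hdeg : charDegree (indFun I (ψ : ↥I → ℂ)) = I.index := by
    apply charDegree_natCast
    rw [indFun_one]
    have h1 : (ψ : ↥I → ℂ) 1 = 1 := hψP 1 P.one_mem
    rw [h1, mul_one]
  -- `z` does not stabilize `φ`
  have hzI : z ∉ I := by
    intro hzI
    have h1 := (mem_inertia_iff hN (φ : N → ℂ) z).mp hzI
    have hall : ∀ n : N, (φ : N → ℂ) n = 1 := by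
      intro n
      have h2 := h1 n
      have h3 : (⟨z * n * z⁻¹, hN.conj_mem (n : G) n.2 z⟩ : N) = n⁻¹ := Subtype.ext (hz n n.2)
      rw [h3] at h2
      have h4 : (φ : N → ℂ) n * (φ : N → ℂ) n = 1 := by
        nth_rewrite 2 [← h2]
        rw [← irr_linear_mul φ hφ1, mul_inv_cancel, hφ1]
      obtain ⟨k, hk⟩ := hqodd
      have h5 : n ^ q = 1 := Subtype.ext (by
        have := hNel.2 n n.2
        simpa using this)
      have h6 : ∀ j : ℕ, (φ : N → ℂ) (n ^ j) = (φ : N → ℂ) n ^ j := by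
        intro j
        induction j with
        | zero => simp [hφ1]
        | succ j ih => rw [pow_succ, irr_linear_mul φ hφ1, ih, pow_succ]
      have h7 : (φ : N → ℂ) n ^ q = 1 := by rw [← h6, h5, hφ1]
      rw [hk, pow_succ, pow_mul, sq, h4, one_pow, one_mul] at h7
      exact h7
    apply hφne
    apply Subtype.ext
    funext n
    rw [hall n]
    simp
  have hcomp : Subgroup.IsComplement' N P := by
    refine Subgroup.isComplement'_of_disjoint_and_mul_eq_univ (disjoint_iff.mpr hdisj) ?_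
    rw [← Subgroup.normal_mul, hprod]
    rfl
  have hm2 : 2 ∣ I.index := by
    have h1 : I.index ∣ N.index := Subgroup.index_dvd_of_le hNI
    obtain ⟨k, hk⟩ := IsPGroup.iff_card.mp hP
    have h2 : N.index = 2 ^ k := by rw [hcomp.symm.index_eq_card, hk]
    rw [h2] at h1
    obtain ⟨j, -, hj⟩ := (Nat.dvd_prime_pow Nat.prime_two).mp h1
    rw [hj]
    have hj0 : j ≠ 0 := by
      rintro rfl
      have h3 : I = ⊤ := Subgroup.index_eq_one.mp (by simpa using hj)
      apply hzI
      rw [h3]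
      trivial
    exact dvd_pow_self 2 hj0
  have hm2' : 2 ≤ I.index := Nat.le_of_dvd (Nat.pos_of_ne_zero Subgroup.index_ne_zero_of_finite) hm2
  have hfsE : ∀ (f : G → ℂ), (Nat.card G : ℂ)⁻¹ * ∑ᶠ g : G, f (g * g) = fsInd f := by
    intro f
    rw [finsum_eq_sum_of_fintype]
    rfl
  let s := Finset.univ.filter (fun χ : IrrCharacter G => charDegree (χ : G → ℂ) = 1 ∧ fsInd (χ : G → ℂ) = 1)
  let t := Finset.univ.filter (fun χ : IrrCharacter G => charDegree (χ : G → ℂ) = I.index ∧ fsInd (χ : G → ℂ) = 1)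
  let B := Finset.univ.filter (fun χ : IrrCharacter G => 2 ∣ charDegree (χ : G → ℂ) ∧ fsInd (χ : G → ℂ) = 1)
  let A := Finset.univ.filter (fun χ : IrrCharacter G => (charDegree (χ : G → ℂ) = 1 ∨ 2 ∣ charDegree (χ : G → ℂ)) ∧
    fsInd (χ : G → ℂ) = 1)
  have hone : ∀ l : IrrCharacter G, charDegree (l : G → ℂ) = 1 ↔ (l : G → ℂ) 1 = 1 := by
    intro l
    rw [map_one_eq_charDegree (IsIrrCharacter.isCharacter l.2)]
    constructor
    · intro h
      rw [h]
      simp
    · intro h
      exact_mod_cast h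
  have hs : ∀ l ∈ s, (l : G → ℂ) 1 = 1 := fun l hl => (hone l).mp (Finset.mem_filter.mp hl).2.1
  have hst : ∀ l ∈ s, ∃ χ ∈ t, (χ : G → ℂ) = indFun I (ψ : ↥I → ℂ) * (l : G → ℂ) := by
    intro l hl
    have hl1 := hs l hl
    have hlfs : fsInd (l : G → ℂ) = 1 := (Finset.mem_filter.mp hl).2.2
    refine ⟨⟨_, isIrr_mul_linear hΞ (IsIrrCharacter.isCharacter l.2) hl1⟩, ?_, rfl⟩
    refine Finset.mem_filter.mpr ⟨Finset.mem_univ _, ?_, ?_⟩
    · rw [← hdeg]
      apply charDegree_natCast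
      show indFun I (ψ : ↥I → ℂ) 1 * (l : G → ℂ) 1 = _
      rw [hl1, mul_one]
      exact map_one_eq_charDegree (IsIrrCharacter.isCharacter hΞ)
    · rw [← hFS]
      unfold fsInd
      congr 1
      refine Finset.sum_congr rfl fun g _ => ?_
      show indFun I (ψ : ↥I → ℂ) (g * g) * (l : G → ℂ) (g * g) = _
      rw [linear_sq_of_fsInd l hl1 hlfs g, mul_one]
  have hmain := card_le_mul_card_of_mul_ind hN φ rfl hNI ψ hψN hHG s t hs hst
  -- arithmetic
  have hAsplit : A = s ∪ B := by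
    ext χ
    simp only [A, s, B, Finset.mem_filter, Finset.mem_univ, true_and, Finset.mem_union]
    tauto
  have hdisjSB : Disjoint s B := by
    rw [Finset.disjoint_left]
    intro χ h1 h2
    have h3 := (Finset.mem_filter.mp h1).2.1
    have h4 := (Finset.mem_filter.mp h2).2.1
    rw [h3] at h4
    omega
  have htB : t ⊆ B := by
    intro χ h
    obtain ⟨-, h1, h2⟩ := Finset.mem_filter.mp h
    exact Finset.mem_filter.mpr ⟨Finset.mem_univ _, by rw [h1]; exact hm2, h2⟩
  have hcardA : A.card = s.card + B.card := by rw [hAsplit, Finset.card_union_of_disjoint hdisjSB]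
  have hsumA : ∑ χ ∈ A, charDegree (χ : G → ℂ) = s.card + ∑ χ ∈ B, charDegree (χ : G → ℂ) := by
    rw [hAsplit, Finset.sum_union hdisjSB]
    congr 1
    rw [Finset.card_eq_sum_ones]
    exact Finset.sum_congr rfl fun χ h => (Finset.mem_filter.mp h).2.1
  have hsumB : I.index * t.card + 2 * (B.card - t.card) ≤ ∑ χ ∈ B, charDegree (χ : G → ℂ) := by
    rw [← Finset.sum_sdiff htB, add_comm]
    refine add_le_add ?_ ?_
    · rw [← Finset.card_sdiff_of_subset htB, mul_comm, Finset.card_eq_sum_ones, Finset.sum_mul]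
      refine Finset.sum_le_sum fun χ h => ?_
      have h1 := (Finset.mem_filter.mp (Finset.mem_sdiff.mp h).1).2.1
      have h2 := charDegree_pos_of_irr χ.2
      rw [one_mul]
      exact Nat.le_of_dvd h2 h1
    · rw [mul_comm]
      rw [Finset.card_eq_sum_ones, Finset.sum_mul]
      refine le_of_eq (Finset.sum_congr rfl fun χ h => ?_)
      rw [(Finset.mem_filter.mp h).2.1, one_mul]
  have htcard : t.card ≤ B.card := Finset.card_le_card htB
  have hmu : 2 * t.card ≤ I.index * t.card := Nat.mul_le_mul_right _ hm2'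
  have hfinal : 4 * A.card ≤ 3 * ∑ χ ∈ A, charDegree (χ : G → ℂ) := by
    rw [hcardA, hsumA]
    have key : ∀ S b u D X : ℕ, S ≤ X → X + 2 * (b - u) ≤ D → u ≤ b → 2 * u ≤ X →
        4 * (S + b) ≤ 3 * (S + D) := by
      intros
      omega
    exact key _ _ _ _ _ hmain hsumB htcard hmu
  have e1 : Nat.card {χ : IrrCharacter G // (charDegree (χ : G → ℂ) = 1 ∨ 2 ∣ charDegree (χ : G → ℂ)) ∧
      (Nat.card G : ℂ)⁻¹ * ∑ᶠ g : G, (χ : G → ℂ) (g * g) = 1} = A.card := by
    rw [Nat.card_eq_fintype_card, Fintype.card_subtype]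
    congr 1
    ext χ
    simp only [A, Finset.mem_filter, Finset.mem_univ, true_and, hfsE]
  have e2 : (∑ᶠ χ : {χ : IrrCharacter G // (charDegree (χ : G → ℂ) = 1 ∨ 2 ∣ charDegree (χ : G → ℂ)) ∧
      (Nat.card G : ℂ)⁻¹ * ∑ᶠ g : G, (χ : G → ℂ) (g * g) = 1}, charDegree (χ.1 : G → ℂ)) =
      ∑ χ ∈ A, charDegree (χ : G → ℂ) := by
    rw [finsum_eq_sum_of_fintype]
    refine (Finset.sum_subtype A (fun χ => ?_) (fun χ : IrrCharacter G => charDegree (χ : G → ℂ))).symm
    simp only [A, Finset.mem_filter, Finset.mem_univ, true_and, hfsE]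
  rw [e1, e2]
  exact hfinal

end Cfsg.Agent.S4871
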