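import Cfsg.Statements.S4873
import Cfsg.Agent.Lib.Degree.OddIndex
import Mathlib

set_option autoImplicit false
open Cfsg

namespace Cfsg.Agent.S4873

/-- Let N be a normal subgroup of odd index in the finite group G. Then every irreducible complex character of N with Frobenius–Schur indicator +1 lies under exactly one irreducible character of G with Frobenius–Schur indicator +1. -/
theorem result {G : Type*} [Group G] [Finite G] (N : Subgroup G) [N.Normal] (hodd : Odd N.index) (φ : Cfsg.IrrCharacter ↥N) (hφ : (Nat.card ↥N : ℂ)⁻¹ * ∑ᶠ g : ↥N, (φ : ↥N → ℂ) (g * g) = 1) : ∃! χ : Cfsg.IrrCharacter G, (Nat.card G : ℂ)⁻¹ * ∑ᶠ g : G, (χ : G → ℂ) (g * g) = 1 ∧ (∑ᶠ n : ↥N, (χ : G → ℂ) n * (starRingEnd ℂ) ((φ : ↥N → ℂ) n)) ≠ 0 := by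
  classical
  cases nonempty_fintype G
  have : Fintype N := Fintype.ofFinite N
  simp only [finsum_eq_sum_of_fintype] at hφ ⊢
  have hcardN : (Nat.card N : ℂ) ≠ 0 := Lib.Char.card_subgroup_ne_zero N
  have hiff : ∀ χ : Cfsg.IrrCharacter G, (∑ n : ↥N, (χ : G → ℂ) n * (starRingEnd ℂ) ((φ : ↥N → ℂ) n)) ≠ 0 ↔
      Cfsg.classInner (fun n : ↥N => (χ : G → ℂ) n) (φ : ↥N → ℂ) ≠ 0 := by
    intro χ
    rw [Lib.Char.classInner_def, mul_ne_zero_iff]
    simp [hcardN]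
  obtain ⟨χ, ⟨h1, h2⟩, h3⟩ := Lib.Degree.exists_unique_fsInd_over N hodd φ hφ
  refine ⟨χ, ⟨h1, (hiff χ).mpr h2⟩, ?_⟩
  rintro χ' ⟨h1', h2'⟩
  exact h3 χ' ⟨h1', (hiff χ').mp h2'⟩

end Cfsg.Agent.S4873
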