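import Cfsg.Statements.S4885
import Mathlib
import Cfsg.Agent.Lib.TwoPrimes.Final
import Cfsg.Agent.S4736

set_option autoImplicit false
open Cfsg

namespace Cfsg.Agent.S4885

/-- Let p and q be primes dividing the order of the finite group G, and suppose G is p-solvable and q-solvable. Fix maximal ideals of the algebraic integers containing p and q, defining the principal p-block and the principal q-block. If the irreducible characters of degree prime to p in the principal p-block are exactly the irreducible characters of degree prime to q in the principal q-block, then p = q. -/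
theorem result {G : Type*} [Group G] [Finite G] (p q : ℕ) [Fact p.Prime] [Fact q.Prime] (hp : p ∣ Nat.card G) (hq : q ∣ Nat.card G) (hps : Cfsg.IsPSolvable p G) (hqs : Cfsg.IsPSolvable q G) (Mp Mq : Ideal Cfsg.AlgInt) (hMp : Cfsg.IsPModular p Mp) (hMq : Cfsg.IsPModular q Mq) (h : ∀ χ : Cfsg.IrrCharacter G, (χ ∈ Cfsg.principalBlock Mp G ∧ ¬ p ∣ Cfsg.charDegree (χ : G → ℂ)) ↔ (χ ∈ Cfsg.principalBlock Mq G ∧ ¬ q ∣ Cfsg.charDegree (χ : G → ℂ))) : p = q := by
  classical
  by_contra hpq
  letI : Fintype G := Fintype.ofFinite G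
  have hpS := Cfsg.Agent.Lib.PSolv.pStep_of_isPSolvable (Fact.out : p.Prime) hps
  have hqS := Cfsg.Agent.Lib.PSolv.pStep_of_isPSolvable (Fact.out : q.Prime) hqs
  have mp := Cfsg.Agent.S4736.mem_principalBlock_iff_of_psolvable hMp hps
  have mq := Cfsg.Agent.S4736.mem_principalBlock_iff_of_psolvable hMq hqs
  have hB' : Cfsg.Agent.Lib.TwoPrimes.KerHyp q p G := fun χ h1 h2 => ((h χ).2 ⟨(mq χ).2 h1, h2⟩).2
  obtain ⟨P⟩ : Nonempty (Sylow p G) := inferInstance
  have hPL := Cfsg.Agent.Lib.TwoPrimes.sylow_le_of_not_dvd_index _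
    (Cfsg.Agent.Lib.TwoPrimes.not_dvd_quot (Ne.symm hpq) hqS hpS hB') P
  obtain ⟨χ, h1, h2, h3⟩ := Cfsg.Agent.Lib.TwoPrimes.exists_irr_not_ker hp P
  have h4 := (h χ).1 ⟨(mp χ).2 h1, h2⟩
  exact h3 fun x hx => (mq χ).1 h4.1 x (hPL hx)

end Cfsg.Agent.S4885
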