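import Cfsg.Statements.S4888
import Mathlib
import Cfsg.Agent.Lib.Degree.ExtendLinear
import Cfsg.Agent.Lib.Block.Kernel
import Cfsg.Agent.Lib.CharExtra.DefectClass
import Cfsg.Agent.Lib.Degree.Sums
import Cfsg.Agent.Lib.Block.Height

set_option autoImplicit false
open Cfsg
open scoped ComplexConjugate
open Cfsg.Agent.Lib.Block Cfsg.Agent.Lib.CharExtra Cfsg.Agent.Lib.Char

namespace Cfsg.Agent.S4888


section

variable {G : Type*} [Group G] [Fintype G] {p : ℕ} [Fact p.Prime] {M : Ideal AlgInt}

open Classical in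
/-- Sum over the principal block of degrees times multiplicities in the restriction. -/
theorem sum_block_sylow (hM : IsPModular p M) (P : Sylow p G) [Fintype ↥(P : Subgroup G)] (θ : IrrCharacter (P : Subgroup G))
    (hθ : (θ : ↥(P : Subgroup G) → ℂ) 1 = 1) :
    (∑ χ : IrrCharacter G, if χ ∈ principalBlock M G then
      (χ : G → ℂ) 1 * classInner (fun u : (P : Subgroup G) => (χ : G → ℂ) u) (θ : ↥(P : Subgroup G) → ℂ) else 0) =
    (Nat.card (P : Subgroup G) : ℂ)⁻¹ * ∑ χ : IrrCharacter G, if χ ∈ principalBlock M G then (χ : G → ℂ) 1 * (χ : G → ℂ) 1 else 0 := by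
  have hp : p.Prime := Fact.out
  have := isPModular_isPrime hM
  have hB : IsBlockUnion M (principalBlock M G) := isBlockUnion_of_isPBlock isPBlock_principalBlock
  have hinner : ∀ u : (P : Subgroup G), u ≠ 1 →
      (∑ χ : IrrCharacter G, if χ ∈ principalBlock M G then (χ : G → ℂ) 1 * (χ : G → ℂ) u else 0) = 0 := by
    intro u hu
    have hord : p ∣ orderOf (u : G) := by
      obtain ⟨k, hk⟩ := P.isPGroup' u
      have h1 : orderOf u ∣ p ^ k := orderOf_dvd_of_pow_eq_one hk
      obtain ⟨j, -, hj⟩ := (Nat.dvd_prime_pow hp).mp h1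
      have hj0 : j ≠ 0 := by
        rintro rfl
        rw [pow_zero, orderOf_eq_one_iff] at hj
        exact hu hj
      rw [Subgroup.orderOf_coe, hj]
      exact dvd_pow_self p hj0
    have h1 := sum_block_eq_zero hM hB (x := (1 : G)) (y := (u : G)) (by simpa using hp.one_lt.ne') hord
    have h2 := congrArg (starRingEnd ℂ) h1
    rw [map_sum, map_zero] at h2
    refine Eq.trans ?_ h2
    refine Finset.sum_congr rfl fun χ _ => ?_
    split_ifs
    · rw [map_mul, Complex.conj_conj, mul_comm]
      congr 1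
      obtain ⟨n, hn, hn'⟩ := Cfsg.Agent.Lib.Degree.irr_degree_natCast χ
      rw [hn', Complex.conj_natCast]
    · simp
  have h1 : ∀ χ : IrrCharacter G, (if χ ∈ principalBlock M G then
      (χ : G → ℂ) 1 * classInner (fun u : (P : Subgroup G) => (χ : G → ℂ) u) (θ : ↥(P : Subgroup G) → ℂ) else 0) =
      (Nat.card (P : Subgroup G) : ℂ)⁻¹ * ∑ u : (P : Subgroup G), conj ((θ : ↥(P : Subgroup G) → ℂ) u) *
        (if χ ∈ principalBlock M G then (χ : G → ℂ) 1 * (χ : G → ℂ) u else 0) := by
    intro χ
    split_ifs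
    · unfold classInner
      rw [Finset.mul_sum, Finset.mul_sum, Finset.mul_sum]
      refine Finset.sum_congr rfl fun u _ => ?_
      ring
    · simp
  simp_rw [h1]
  rw [← Finset.mul_sum]
  congr 1
  rw [Finset.sum_comm, Finset.sum_eq_single (1 : (P : Subgroup G))]
  · rw [← Finset.mul_sum, hθ]
    simp
  · intro u _ hu
    rw [← Finset.mul_sum, hinner u hu, mul_zero]
  · simp

/-- The linear characters of the principal block trivial on `P`. -/
def K1 (M : Ideal AlgInt) [M.IsPrime] (P : Subgroup G) : Subgroup (G →* ℂˣ) where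
  carrier := {ν | (∀ g : G, MemLocalIdeal M (((Subgroup.centralizer ({g} : Set G)).index : ℂ) * (1 - (ν g : ℂ)))) ∧
    ∀ u ∈ P, ν u = 1}
  one_mem' := by
    refine ⟨fun g => ?_, fun u _ => rfl⟩
    simpa using memLocalIdeal_zero
  mul_mem' := by
    rintro ν μ ⟨h1, h2⟩ ⟨h3, h4⟩
    refine ⟨fun g => ?_, fun u hu => ?_⟩
    · have hint : IsIntegral ℤ (ν g : ℂ) := by
        refine IsIntegral.of_pow (orderOf_pos g) ?_
        rw [← Units.val_pow_eq_pow_val, ← map_pow, pow_orderOf_eq_one, map_one]
        exact isIntegral_one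
      have h5 := memLocalIdeal_add (h1 g) (memLocalIdeal_mul_left (memLocalRing_of_isIntegral hint) (h3 g))
      convert h5 using 1
      simp only [MonoidHom.mul_apply, Units.val_mul]
      ring
    · rw [MonoidHom.mul_apply, h2 u hu, h4 u hu, one_mul]
  inv_mem' := by
    rintro ν ⟨h1, h2⟩
    refine ⟨fun g => ?_, fun u hu => ?_⟩
    · have hint : IsIntegral ℤ ((ν g)⁻¹ : ℂˣ).val := by
        refine IsIntegral.of_pow (orderOf_pos g) ?_
        have h0 : ((ν g)⁻¹ : ℂˣ) ^ orderOf g = 1 := by
          rw [inv_pow, ← map_pow, pow_orderOf_eq_one, map_one, inv_one]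
        rw [← Units.val_pow_eq_pow_val, h0, Units.val_one]
        exact isIntegral_one
      have h5 := memLocalIdeal_neg (memLocalIdeal_mul_left (memLocalRing_of_isIntegral hint) (h1 g))
      convert h5 using 1
      simp only [MonoidHom.inv_apply]
      have h6 : ((ν g)⁻¹ : ℂˣ).val * (ν g : ℂ) = 1 := by
        rw [← Units.val_mul, inv_mul_cancel, Units.val_one]
      linear_combination (-((Subgroup.centralizer ({g} : Set G)).index : ℂ)) * h6
    · rw [MonoidHom.inv_apply, h2 u hu, inv_one]

theorem not_dvd_card_K1 (M : Ideal AlgInt) [M.IsPrime] (P : Sylow p G) [Finite (K1 (G := G) M (P : Subgroup G))] :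
    ¬ p ∣ Nat.card (K1 (G := G) M (P : Subgroup G)) := by
  intro hd
  have hp : p.Prime := Fact.out
  obtain ⟨x, hx⟩ := exists_prime_orderOf_dvd_card' p hd
  have hν : (x : G →* ℂˣ) = 1 := by
    ext g
    have hle : (P : Subgroup G) ≤ (x : G →* ℂˣ).ker := fun u hu => x.2.2 u hu
    have hnd : ¬ p ∣ ((x : G →* ℂˣ).ker).index := fun h =>
      P.not_dvd_index (h.trans (Subgroup.index_dvd_of_le hle))
    have h1 : (x : G →* ℂˣ) g ^ ((x : G →* ℂˣ).ker).index = 1 := by
      rw [← map_pow]
      exact Subgroup.pow_index_mem (x : G →* ℂˣ).ker g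
    have h2 : (x : G →* ℂˣ) g ^ p = 1 := by
      have h3 : x ^ p = 1 := by
        have := pow_orderOf_eq_one x
        rw [hx] at this
        exact this
      have h4 : (x : G →* ℂˣ) ^ p = 1 := by
        have := congrArg (Subtype.val) h3
        simpa using this
      rw [← MonoidHom.pow_apply, h4]
      rfl
    have h3 : orderOf ((x : G →* ℂˣ) g) ∣ Nat.gcd p ((x : G →* ℂˣ).ker).index :=
      Nat.dvd_gcd (orderOf_dvd_of_pow_eq_one h2) (orderOf_dvd_of_pow_eq_one h1)
    rw [(Nat.Prime.coprime_iff_not_dvd hp).mpr hnd, Nat.dvd_one, orderOf_eq_one_iff] at h3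
    rw [h3]
    rfl
  have h5 : x = 1 := Subtype.ext hν
  rw [h5, orderOf_one] at hx
  exact hp.one_lt.ne hx

/-- Every linear character of a Sylow subgroup extends. -/
theorem extend_all (hM : IsPModular p M)
    (hlin : ∀ χ ∈ principalBlock M G, ¬ p ∣ charDegree (χ : G → ℂ) → charDegree (χ : G → ℂ) = 1)
    (P : Sylow p G) (l : (P : Subgroup G) →* ℂˣ) :
    ∃ ν : G →* ℂˣ, ∀ u : (P : Subgroup G), ν u = l u := by
  classical
  have hprime := isPModular_isPrime hM
  have hp : p.Prime := Fact.out
  have : Fintype ↥(P : Subgroup G) := Fintype.ofFinite _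
  -- the count
  let c : IrrCharacter (P : Subgroup G) → ℕ := fun θ =>
    (Finset.univ.filter (fun χ : IrrCharacter G => χ ∈ principalBlock M G ∧ (χ : G → ℂ) 1 = 1 ∧
      ∀ u : (P : Subgroup G), (χ : G → ℂ) u = (θ : ↥(P : Subgroup G) → ℂ) u)).card
  have hres : ∀ χ : IrrCharacter G, IsCharacter (P : Subgroup G) (fun u : (P : Subgroup G) => (χ : G → ℂ) u) :=
    fun χ => IsCharacter.restrict _ (IsIrrCharacter.isCharacter χ.2)
  -- multiplicities
  have hmult : ∀ (χ : IrrCharacter G) (θ : IrrCharacter (P : Subgroup G)), ∃ n : ℕ,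
      classInner (fun u : (P : Subgroup G) => (χ : G → ℂ) u) (θ : ↥(P : Subgroup G) → ℂ) = (n : ℂ) ∧
      ((χ : G → ℂ) 1 = 1 → n = if ∀ u : (P : Subgroup G), (χ : G → ℂ) u = (θ : ↥(P : Subgroup G) → ℂ) u then 1 else 0) := by
    intro χ θ
    obtain ⟨n, hn⟩ := classInner_isCharacter_nat (hres χ) (IsIrrCharacter.isCharacter θ.2)
    refine ⟨n, hn, fun h1 => ?_⟩
    obtain ⟨lam, hlam⟩ := exists_hom_of_character_one (IsIrrCharacter.isCharacter χ.2) h1
    have hirr : IsIrrCharacter (P : Subgroup G) (fun u : (P : Subgroup G) => (χ : G → ℂ) u) := by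
      have := isIrrCharacter_of_hom (lam.comp (P : Subgroup G).subtype)
      convert this using 2 with u
      rw [hlam]
      rfl
    split_ifs with heq
    · have h2 : (fun u : (P : Subgroup G) => (χ : G → ℂ) u) = (θ : ↥(P : Subgroup G) → ℂ) := funext heq
      rw [← h2, classInner_irr_self hirr] at hn
      exact_mod_cast hn.symm
    · have h2 : (fun u : (P : Subgroup G) => (χ : G → ℂ) u) ≠ (θ : ↥(P : Subgroup G) → ℂ) := fun h =>
        heq (fun u => congrFun h u)
      rw [classInner_irr_of_ne hirr θ.2 h2] at hn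
      exact_mod_cast hn.symm
  choose n hn hn' using hmult
  let T : IrrCharacter (P : Subgroup G) → ℕ := fun θ => ∑ χ : IrrCharacter G,
    if χ ∈ principalBlock M G then charDegree (χ : G → ℂ) * n χ θ else 0
  have hTcast : ∀ θ : IrrCharacter (P : Subgroup G), (θ : ↥(P : Subgroup G) → ℂ) 1 = 1 →
      (T θ : ℂ) = (Nat.card (P : Subgroup G) : ℂ)⁻¹ * ∑ χ : IrrCharacter G, if χ ∈ principalBlock M G then (χ : G → ℂ) 1 * (χ : G → ℂ) 1 else 0 := by
    intro θ hθ
    rw [← sum_block_sylow hM P θ hθ]
    simp only [T]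
    push_cast
    refine Finset.sum_congr rfl fun χ _ => ?_
    split_ifs
    · rw [hn χ θ, map_one_eq_charDegree (IsIrrCharacter.isCharacter χ.2)]
    · rfl
  have hTmod : ∀ θ : IrrCharacter (P : Subgroup G), ((T θ : ℕ) : ZMod p) = ((c θ : ℕ) : ZMod p) := by
    intro θ
    simp only [T, c]
    rw [Finset.card_filter]
    push_cast
    refine Finset.sum_congr rfl fun χ _ => ?_
    by_cases hχ : χ ∈ principalBlock M G
    · rw [if_pos hχ]
      by_cases hd : p ∣ charDegree (χ : G → ℂ)
      · have h1 : ((charDegree (χ : G → ℂ) : ℕ) : ZMod p) = 0 := (ZMod.natCast_eq_zero_iff _ _).mpr hd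
        rw [h1, zero_mul, if_neg]
        rintro ⟨-, h2, -⟩
        have h3 : charDegree (χ : G → ℂ) = 1 := charDegree_natCast (n := 1) (by rw [h2]; simp)
        rw [h3] at hd
        exact hp.one_lt.ne' (Nat.dvd_one.mp hd)
      · have h1 := hlin χ hχ hd
        have h2 : (χ : G → ℂ) 1 = 1 := by
          rw [map_one_eq_charDegree (IsIrrCharacter.isCharacter χ.2), h1]
          simp
        rw [h1, hn' χ θ h2]
        split_ifs with h3 h4 h4
        · simp
        · exact absurd ⟨hχ, h2, h3⟩ h4
        · exact absurd h4.2.2 h3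
        · simp
    · rw [if_neg hχ, if_neg (fun h => hχ h.1)]
  -- the trivial character
  let one₀ : IrrCharacter (P : Subgroup G) := ⟨fun _ => 1, isIrrCharacter_one⟩
  let θ : IrrCharacter (P : Subgroup G) := ⟨fun u => (l u : ℂ), isIrrCharacter_of_hom l⟩
  have hθ1 : (θ : ↥(P : Subgroup G) → ℂ) 1 = 1 := by
    show ((l 1 : ℂˣ) : ℂ) = 1
    simp
  have hcmod : ((c θ : ℕ) : ZMod p) = ((c one₀ : ℕ) : ZMod p) := by
    rw [← hTmod, ← hTmod]
    congr 1
    have h1 := (hTcast θ hθ1).trans (hTcast one₀ rfl).symm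
    exact_mod_cast h1
  -- `c one₀` is not divisible by `p`
  have hfin : Finite (G →* ℂˣ) := Finite.of_equiv _ (linearEquivHom G)
  have hcard : c one₀ = Nat.card (K1 (G := G) M (P : Subgroup G)) := by
    have hf : ∀ ν : K1 (G := G) M (P : Subgroup G), (⟨fun g => (((ν : G →* ℂˣ) g : ℂˣ) : ℂ), isIrrCharacter_of_hom (ν : G →* ℂˣ)⟩ : IrrCharacter G) ∈
        Finset.univ.filter (fun χ : IrrCharacter G => χ ∈ principalBlock M G ∧ (χ : G → ℂ) 1 = 1 ∧
          ∀ u : (P : Subgroup G), (χ : G → ℂ) u = (one₀ : ↥(P : Subgroup G) → ℂ) u) := by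
      intro ν
      rw [Finset.mem_filter]
      refine ⟨Finset.mem_univ _, ?_, ?_, ?_⟩
      · intro g
        have h1 := ν.2.1 g
        convert h1 using 1
        unfold centralChar
        simp
        ring
      · simp
      · intro u
        show (((ν : G →* ℂˣ) u : ℂˣ) : ℂ) = 1
        rw [ν.2.2 u u.2]
        rfl
    let f : K1 (G := G) M (P : Subgroup G) → ↥(Finset.univ.filter (fun χ : IrrCharacter G => χ ∈ principalBlock M G ∧ (χ : G → ℂ) 1 = 1 ∧
          ∀ u : (P : Subgroup G), (χ : G → ℂ) u = (one₀ : ↥(P : Subgroup G) → ℂ) u)) := fun ν => ⟨_, hf ν⟩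
    have hbij : Function.Bijective f := by
      constructor
      · intro ν μ h
        apply Subtype.ext
        ext g
        have h1 := congrArg (fun χ => ((χ : IrrCharacter G) : G → ℂ) g) (congrArg Subtype.val h)
        exact h1
      · rintro ⟨χ, hχ⟩
        rw [Finset.mem_filter] at hχ
        obtain ⟨-, h1, h2, h3⟩ := hχ
        obtain ⟨lam, hlam⟩ := exists_hom_of_character_one (IsIrrCharacter.isCharacter χ.2) h2
        have hval : ∀ g, (χ : G → ℂ) g = (lam g : ℂ) := fun g => by rw [hlam]
        refine ⟨⟨lam, ?_, ?_⟩, ?_⟩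
        · intro g
          have h4 := h1 g
          convert h4 using 1
          unfold centralChar
          rw [h2, hval]
          simp
          ring
        · intro u hu
          apply Units.ext
          have h4 := h3 ⟨u, hu⟩
          rw [hval] at h4
          exact h4
        · apply Subtype.ext
          apply Subtype.ext
          funext g
          exact (hval g).symm
    have h1 := Nat.card_congr (Equiv.ofBijective f hbij)
    rw [h1, Nat.card_eq_fintype_card, Fintype.card_coe]
  have hnd := not_dvd_card_K1 (p := p) M P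
  rw [← hcard] at hnd
  have hc0 : c θ ≠ 0 := by
    intro h0
    rw [h0, Nat.cast_zero, eq_comm, ZMod.natCast_eq_zero_iff] at hcmod
    exact hnd hcmod
  obtain ⟨χ, hχ⟩ := Finset.card_pos.mp (Nat.pos_of_ne_zero hc0)
  rw [Finset.mem_filter] at hχ
  obtain ⟨-, -, h2, h3⟩ := hχ
  obtain ⟨lam, hlam⟩ := exists_hom_of_character_one (IsIrrCharacter.isCharacter χ.2) h2
  refine ⟨lam, fun u => ?_⟩
  apply Units.ext
  have h4 := h3 u
  rw [hlam] at h4
  exact h4

end

/-- Let G be a finite group, p a prime and M a maximal ideal of the algebraic integers containing p. Then all height-zero irreducible characters of the principal p-block of G (equivalently, all its characters of degree prime to p) have the same degree if and only if G has a normal p-complement. -/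
theorem result {G : Type*} [Group G] [Finite G] (p : ℕ) [Fact p.Prime] (M : Ideal Cfsg.AlgInt) (hM : Cfsg.IsPModular p M) : (∃ d : ℕ, ∀ χ : Cfsg.IrrCharacter G, χ ∈ (Cfsg.principalBlock M G) → Cfsg.blockHeight p (Cfsg.principalBlock M G) (χ : G → ℂ) = 0 → Cfsg.charDegree (χ : G → ℂ) = d) ↔ Cfsg.HasNormalPComplement p G := by

  classical
  have := Fintype.ofFinite G
  have hprime := isPModular_isPrime hM
  have hone := oneIrr_mem_principalBlock (G := G) (M := M)
  have hinf : sInf ((fun χ : IrrCharacter G => (charDegree (χ : G → ℂ)).factorization p) '' principalBlock M G) = 0 := by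
    apply Nat.eq_zero_of_le_zero
    refine Nat.sInf_le ⟨oneIrr G, hone, ?_⟩
    simp [charDegree_oneIrr]
  have hheight : ∀ χ : IrrCharacter G, blockHeight p (principalBlock M G) (χ : G → ℂ) = (charDegree (χ : G → ℂ)).factorization p := by
    intro χ
    unfold blockHeight
    rw [hinf, Nat.sub_zero]
  constructor
  · rintro ⟨d, hd⟩
    have hd1 : d = 1 := by
      rw [← hd (oneIrr G) hone (by rw [hheight, charDegree_oneIrr]; simp), charDegree_oneIrr]
    subst hd1
    have hlin : ∀ χ ∈ principalBlock M G, ¬ p ∣ charDegree (χ : G → ℂ) → charDegree (χ : G → ℂ) = 1 := by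
      intro χ hχ hnd
      exact hd χ hχ (by rw [hheight]; exact Nat.factorization_eq_zero_of_not_dvd hnd)
    obtain ⟨P⟩ : Nonempty (Sylow p G) := inferInstance
    apply Cfsg.Agent.Lib.Degree.hasNormalPComplement_of_extend P
    exact extend_all hM hlin P
  · rintro ⟨P, K, hK, hc⟩
    have hcardK : Nat.card K * Nat.card (P : Subgroup G) = Nat.card G := hc.card_mul_card
    have hcardP := P.card_eq_multiplicity
    have hp : p.Prime := Fact.out
    have hnd : ¬ p ∣ Nat.card K := by
      have h1 : Nat.card K = Nat.card G / p ^ (Nat.card G).factorization p := by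
        rw [← hcardP, ← hcardK]
        exact (Nat.mul_div_cancel _ Nat.card_pos).symm
      rw [h1]
      exact Nat.not_dvd_ordCompl hp Nat.card_pos.ne'
    have hidx : K.index = Nat.card (P : Subgroup G) := by
      have h1 := Subgroup.index_mul_card K
      have h2 : Nat.card K ≠ 0 := Nat.card_pos.ne'
      rw [← hcardK, mul_comm] at h1
      exact Nat.eq_of_mul_eq_mul_left (Nat.pos_of_ne_zero h2) h1
    have hB := principal_of_pNilpotent K hM hnd ⟨_, hidx.trans hcardP⟩
    refine ⟨1, fun χ hχ h0 => ?_⟩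
    rw [hheight] at h0
    have hχ' : ∀ n ∈ K, (χ : G → ℂ) n = (χ : G → ℂ) 1 := by
      rw [hB] at hχ
      exact hχ
    obtain ⟨ψ, hψ⟩ := Cfsg.Agent.Lib.Degree.exists_inflate K hχ'
    have hdeg : charDegree (χ : G → ℂ) = charDegree (ψ : G ⧸ K → ℂ) := by
      unfold charDegree
      rw [← hψ]
      rfl
    have hdvd : charDegree (χ : G → ℂ) ∣ p ^ (Nat.card G).factorization p := by
      rw [hdeg, ← hcardP, ← hidx]
      exact Cfsg.Agent.Lib.Char.charDegree_dvd_card ψ.2
    obtain ⟨k, -, hk⟩ := (Nat.dvd_prime_pow hp).mp hdvd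
    rw [hk, hp.factorization_pow] at h0
    simp at h0
    rw [hk, h0, pow_zero]

end Cfsg.Agent.S4888
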