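import Cfsg.Statements.S4911
import Mathlib
import Cfsg.Agent.Lib.Coprime.GlauberP
import Cfsg.Agent.Lib.Char.OddOrder
import Cfsg.Agent.Lib.Char.PermLemma

set_option autoImplicit false
open Cfsg

namespace Cfsg.Agent.S4911


universe u

open scoped ComplexConjugate
open Cfsg Cfsg.Agent.Lib.Char Cfsg.Agent.Lib.Coprime

section Conj

variable {X : Type u} [Group X] [Finite X]

/-- The conjugate of an irreducible character. -/
noncomputable def conjIrr (χ : IrrCharacter X) : IrrCharacter X := ⟨fun g => conj ((χ : X → ℂ) g), isIrr_conj χ.2⟩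

@[simp] theorem conjIrr_conjIrr (χ : IrrCharacter X) : conjIrr (conjIrr χ) = χ := by
  apply Subtype.ext
  funext g
  simp [conjIrr]

theorem real_iff (χ : IrrCharacter X) : (∀ k, ((χ : X → ℂ) k).im = 0) ↔ conjIrr χ = χ := by
  constructor
  · intro h
    apply Subtype.ext
    funext g
    exact Complex.conj_eq_iff_im.mpr (h g)
  · intro h k
    have h1 := congrFun (congrArg Subtype.val h) k
    exact Complex.conj_eq_iff_im.mp h1

/-- Inversion on the classes. -/
noncomputable def invCl : ConjClasses X → ConjClasses X :=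
  Quotient.lift (fun g : X => ConjClasses.mk g⁻¹) (by
    intro a b h
    apply ConjClasses.mk_eq_mk_iff_isConj.mpr
    obtain ⟨c, hc⟩ := isConj_iff.mp h
    refine isConj_iff.mpr ⟨c, ?_⟩
    rw [← hc]
    group)

@[simp] theorem invCl_mk (g : X) : invCl (ConjClasses.mk g) = ConjClasses.mk g⁻¹ := rfl

theorem invCl_invCl (c : ConjClasses X) : invCl (invCl c) = c := by
  obtain ⟨g, rfl⟩ := ConjClasses.mk_surjective c
  simp

theorem card_real_eq : Nat.card {χ : IrrCharacter X // conjIrr χ = χ} = Nat.card {c : ConjClasses X // invCl c = c} := by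
  let π : Equiv.Perm (IrrCharacter X) :=
    { toFun := conjIrr, invFun := conjIrr, left_inv := conjIrr_conjIrr, right_inv := conjIrr_conjIrr }
  let τ : Equiv.Perm (ConjClasses X) :=
    { toFun := invCl, invFun := invCl, left_inv := invCl_invCl, right_inv := invCl_invCl }
  refine brauer_perm_lemma π τ ?_
  intro χ g g' h
  have h1 : IsConj g' g⁻¹ := ConjClasses.mk_eq_mk_iff_isConj.mp h
  have hc := IsIrrCharacter.isCharacter χ.2
  have h2 := IsClassFunction_map_isConj (IsCharacter.isClassFunction hc) h1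
  show conj ((χ : X → ℂ) g') = _
  rw [h2, IsCharacter.map_inv' hc, Complex.conj_conj]

end Conj

section Gen

variable {P Y C : Type u} [Group P] [Group Y] [Group C] [Finite P] [Fintype Y] [Fintype C]
  {φ : P →* MulAut Y} {j : C →* Y} {p : ℕ}

theorem classInner_conj {X : Type u} [Group X] [Fintype X] (f f' : X → ℂ) :
    classInner (fun c => conj (f c)) (fun c => conj (f' c)) = conj (classInner f f') := by
  simp [classInner_def, map_sum, map_mul]

theorem IsGlauber.conj' {χ : Y → ℂ} {β : IrrCharacter C} (h : IsGlauber p j χ β) :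
    IsGlauber p j (fun y => conj (χ y)) (conjIrr β) := by
  have hz : ∀ β' : IrrCharacter C, classInner (fun c => conj (χ (j c))) (β' : C → ℂ) =
      conj (classInner (fun c => χ (j c)) (conjIrr β' : C → ℂ)) := by
    intro β'
    rw [← classInner_conj]
    simp [conjIrr]
  refine ⟨?_, fun β' hne => ?_⟩
  · rw [hz, conjIrr_conjIrr]
    obtain ⟨t, ε, hε, h1⟩ := h.unit
    refine ⟨t, ε, hε, ?_⟩
    rw [h1]
    simp
  · rw [hz]
    have h1 : conjIrr β' ≠ β := by
      intro h2
      apply hne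
      rw [← h2, conjIrr_conjIrr]
    obtain ⟨t, h2⟩ := h.dvd _ h1
    refine ⟨t, ?_⟩
    rw [h2]
    simp

/-- The correspondence respects reality. -/
theorem real_corr (hp : p.Prime) (hP : IsPGroup p P) (hcop : (Nat.card Y).Coprime (Nat.card P))
    (hj : Function.Injective j) (hr : ∀ y, y ∈ j.range ↔ ∀ a, φ a y = y) :
    Nat.card {θ : IrrInv φ // conjIrr θ.1 = θ.1} = Nat.card {β : IrrCharacter C // conjIrr β = β} := by
  classical
  obtain ⟨f, hf⟩ := pgroup_corr_coprime hp φ hP hcop hj hr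
  have hconj : ∀ θ : IrrInv φ, IsInv φ ((conjIrr θ.1 : IrrCharacter Y) : Y → ℂ) := by
    intro θ a y
    show conj _ = conj _
    rw [θ.2 a y]
  have hcomm : ∀ θ : IrrInv φ, f ⟨conjIrr θ.1, hconj θ⟩ = conjIrr (f θ) := by
    intro θ
    exact IsGlauber.unique hp (hf _) (IsGlauber.conj' (hf θ))
  refine Nat.card_congr (f.subtypeEquiv fun θ => ?_)
  constructor
  · intro h
    rw [← hcomm θ]
    congr 1
    exact Subtype.ext h
  · intro h
    rw [← hcomm θ] at h
    have h1 := f.injective h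
    exact congrArg Subtype.val h1

variable {p : ℕ}

/-- The real classes of the fixed points. -/
theorem real_classes (hcop : (Nat.card P).Coprime (Nat.card Y)) (hsol : Group.IsSolvable P ∨ Group.IsSolvable Y)
    (hj : Function.Injective j) (hr : ∀ y, y ∈ j.range ↔ ∀ a, φ a y = y) :
    Nat.card {c : ConjClasses C // invCl c = c} = Nat.card {c : ConjClasses Y // invCl c = c ∧ IsFixCl φ c} := by
  classical
  have hfix : ∀ c a, φ a (j c) = j c := fun c => (hr (j c)).mp ⟨c, rfl⟩
  have hK : ∀ K : ConjClasses C, invCl K = K → invCl (ConjClasses.map j K) = ConjClasses.map j K ∧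
      IsFixCl φ (ConjClasses.map j K) := by
    intro K hK
    obtain ⟨c, rfl⟩ := ConjClasses.mk_surjective K
    refine ⟨?_, ?_⟩
    · have h1 : IsConj c⁻¹ c := ConjClasses.mk_eq_mk_iff_isConj.mp hK
      show ConjClasses.mk (j c)⁻¹ = ConjClasses.mk (j c)
      rw [← map_inv]
      obtain ⟨d, hd⟩ := isConj_iff.mp h1
      refine ConjClasses.mk_eq_mk_iff_isConj.mpr (isConj_iff.mpr ⟨j d, ?_⟩)
      rw [← map_inv, ← map_mul, ← map_mul, hd]
    · intro a g hg
      have h1 : IsConj g (j c) := ConjClasses.mk_eq_mk_iff_isConj.mp hg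
      have h2 := isConj_map_of_isConj (φ := φ) h1 a
      rw [hfix] at h2
      exact ConjClasses.mk_eq_mk_iff_isConj.mpr h2
  let F : {c : ConjClasses C // invCl c = c} → {c : ConjClasses Y // invCl c = c ∧ IsFixCl φ c} :=
    fun K => ⟨_, hK K.1 K.2⟩
  have hF : Function.Bijective F := by
    constructor
    · rintro ⟨K, hK₁⟩ ⟨K', hK₂⟩ h
      obtain ⟨c, rfl⟩ := ConjClasses.mk_surjective K
      obtain ⟨c', rfl⟩ := ConjClasses.mk_surjective K'
      have h1 : ConjClasses.mk (j c) = ConjClasses.mk (j c') := congrArg Subtype.val h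
      have h2 := ConjClasses.mk_eq_mk_iff_isConj.mp h1
      obtain ⟨d, hd, hd2⟩ := exists_fixed_conj_of_conj hcop hsol (hfix c) (hfix c') h2
      obtain ⟨d₀, rfl⟩ := (hr d).mpr hd
      apply Subtype.ext
      apply ConjClasses.mk_eq_mk_iff_isConj.mpr
      refine isConj_iff.mpr ⟨d₀, hj ?_⟩
      simpa using hd2
    · rintro ⟨K, hK₁, hKf⟩
      obtain ⟨g, rfl⟩ := ConjClasses.mk_surjective K
      have hg : ∀ a, IsConj g (φ a g) := fun a =>
        (ConjClasses.mk_eq_mk_iff_isConj.mp (hKf a g rfl)).symm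
      obtain ⟨w, hw1, hw2⟩ := exists_fixed_of_conj hcop hsol g hg
      obtain ⟨c, rfl⟩ := (hr w).mpr hw2
      have hmk : ConjClasses.mk c⁻¹ = ConjClasses.mk c := by
        apply ConjClasses.mk_eq_mk_iff_isConj.mpr
        have h1 : IsConj g g⁻¹ := (ConjClasses.mk_eq_mk_iff_isConj.mp hK₁).symm
        have h2 : IsConj (j c) (j c)⁻¹ :=
          (hw1.symm.trans h1).trans (isConj_iff.mpr (by
            obtain ⟨d, hd⟩ := isConj_iff.mp hw1
            refine ⟨d, ?_⟩
            rw [← hd]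
            group))
        obtain ⟨d, hd, hd2⟩ := exists_fixed_conj_of_conj hcop hsol (hfix c) (g' := (j c)⁻¹)
          (fun a => by rw [map_inv, hfix]) h2
        obtain ⟨d₀, rfl⟩ := (hr d).mpr hd
        symm
        refine isConj_iff.mpr ⟨d₀, hj ?_⟩
        simpa using hd2
      refine ⟨⟨ConjClasses.mk c, hmk⟩, Subtype.ext ?_⟩
      exact (ConjClasses.mk_eq_mk_iff_isConj.mpr hw1).symm
  exact Nat.card_congr (Equiv.ofBijective F hF)

end Gen

/-- Let P and K be subgroups of a finite group with P a p-group normalizing K and K of order prime to p. Then the number of P-invariant real-valued irreducible complex characters of K equals the number of conjugacy classes of K that are real (closed under inversion) and P-invariant. Moreover, if every real-valued irreducible character of K is P-invariant, then every real element of K (one conjugate in K to its inverse) is conjugate in K to an element centralized by P. -/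
theorem result {G : Type*} [Group G] [Finite G] (p : ℕ) [Fact p.Prime] (P K : Subgroup G) (hP : IsPGroup p ↥P) (hK : ¬ p ∣ Nat.card ↥K) (hPK : P ≤ Subgroup.normalizer (K : Set G)) : Nat.card {θ : Cfsg.IrrCharacter ↥K // (∀ k : ↥K, ((θ : ↥K → ℂ) k).im = 0) ∧ (∀ x ∈ P, ∀ k k' : ↥K, (k' : G) = x * (k : G) * x⁻¹ → (θ : ↥K → ℂ) k' = (θ : ↥K → ℂ) k)} = Nat.card {c : ConjClasses ↥K // (∀ k : ↥K, ConjClasses.mk k = c → IsConj k k⁻¹) ∧ ∀ k : ↥K, ConjClasses.mk k = c → ∀ x ∈ P, ∀ k' : ↥K, (k' : G) = x * (k : G) * x⁻¹ → ConjClasses.mk k' = c} ∧ ((∀ θ : Cfsg.IrrCharacter ↥K, (∀ k : ↥K, ((θ : ↥K → ℂ) k).im = 0) → (∀ x ∈ P, ∀ k k' : ↥K, (k' : G) = x * (k : G) * x⁻¹ → (θ : ↥K → ℂ) k' = (θ : ↥K → ℂ) k)) → ∀ k : ↥K, IsConj k k⁻¹ → ∃ k' : ↥K, IsConj k k' ∧ ∀ x ∈ P, x * (k' : G) * x⁻¹ = (k' : G)) := by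
  classical
  have hp : p.Prime := Fact.out
  have hnorm : ∀ s ∈ P, ∀ g ∈ K, s * g * s⁻¹ ∈ K := fun x hx k hk =>
    (Subgroup.mem_normalizer_iff.mp (hPK hx) k).mp hk
  letI : Fintype K := Fintype.ofFinite _
  let C : Subgroup G := K ⊓ Subgroup.centralizer (P : Set G)
  letI : Fintype C := Fintype.ofFinite _
  have hCK : C ≤ K := inf_le_left
  let φ := conjAct K P hnorm
  let j : C →* K := Subgroup.inclusion hCK
  have hj : Function.Injective j := Subgroup.inclusion_injective hCK
  have hr : ∀ y, y ∈ j.range ↔ ∀ a, φ a y = y := by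
    intro y
    constructor
    · rintro ⟨c, rfl⟩ a
      apply Subtype.ext
      show (a : G) * (c : G) * (a : G)⁻¹ = c
      have h1 : (a : G) * (c : G) = c * a := (Subgroup.mem_centralizer_iff.mp c.2.2 a a.2)
      rw [h1]
      group
    · intro h
      have hy : (y : G) ∈ C := by
        refine ⟨y.2, Subgroup.mem_centralizer_iff.mpr fun s hs => ?_⟩
        have h1 := congrArg Subtype.val (h ⟨s, hs⟩)
        have h2 : s * (y : G) * s⁻¹ = y := h1
        calc s * (y : G) = s * (y : G) * s⁻¹ * s := by group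
          _ = y * s := by rw [h2]
      exact ⟨⟨y, hy⟩, Subtype.ext rfl⟩
  have hcop₁ : (Nat.card K).Coprime (Nat.card P) := by
    obtain ⟨n, hn⟩ := IsPGroup.iff_card.mp hP
    rw [hn]
    exact Nat.Coprime.pow_right n (((Nat.Prime.coprime_iff_not_dvd hp).mpr hK).symm)
  have hcop₂ := hcop₁.symm
  have hsol : Group.IsSolvable P ∨ Group.IsSolvable K := by
    left
    haveI := hP.isNilpotent
    infer_instance
  have hmain : Nat.card {θ : IrrInv φ // conjIrr θ.1 = θ.1} =
      Nat.card {c : ConjClasses K // invCl c = c ∧ IsFixCl φ c} :=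
    (real_corr hp hP hcop₁ hj hr).trans ((card_real_eq (X := C)).trans (real_classes hcop₂ hsol hj hr))
  have hL : Nat.card {θ : Cfsg.IrrCharacter ↥K // (∀ k : ↥K, ((θ : ↥K → ℂ) k).im = 0) ∧
      (∀ x ∈ P, ∀ k k' : ↥K, (k' : G) = x * (k : G) * x⁻¹ → (θ : ↥K → ℂ) k' = (θ : ↥K → ℂ) k)} =
      Nat.card {θ : IrrInv φ // conjIrr θ.1 = θ.1} := by
    refine Nat.card_congr
      { toFun := fun θ => ⟨⟨θ.1, (isInv_conjAct_iff K P hnorm _).mpr θ.2.2⟩, (real_iff θ.1).mp θ.2.1⟩
        invFun := fun θ => ⟨θ.1.1, (real_iff θ.1.1).mpr θ.2, (isInv_conjAct_iff K P hnorm _).mp θ.1.2⟩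
        left_inv := fun θ => rfl
        right_inv := fun θ => rfl }
  have hR : Nat.card {c : ConjClasses ↥K // (∀ k : ↥K, ConjClasses.mk k = c → IsConj k k⁻¹) ∧
      ∀ k : ↥K, ConjClasses.mk k = c → ∀ x ∈ P, ∀ k' : ↥K, (k' : G) = x * (k : G) * x⁻¹ → ConjClasses.mk k' = c} =
      Nat.card {c : ConjClasses K // invCl c = c ∧ IsFixCl φ c} := by
    refine Nat.card_congr (Equiv.subtypeEquivRight fun c => ?_)
    obtain ⟨g, rfl⟩ := ConjClasses.mk_surjective c
    constructor
    · rintro ⟨h1, h2⟩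
      refine ⟨?_, ?_⟩
      · show ConjClasses.mk g⁻¹ = ConjClasses.mk g
        exact ConjClasses.mk_eq_mk_iff_isConj.mpr (h1 g rfl).symm
      · intro a g' hg'
        exact h2 g' hg' a a.2 (φ a g') rfl
    · rintro ⟨h1, h2⟩
      refine ⟨?_, ?_⟩
      · intro k hk
        have h3 : IsConj k g := ConjClasses.mk_eq_mk_iff_isConj.mp hk
        have h4 : IsConj g⁻¹ g := ConjClasses.mk_eq_mk_iff_isConj.mp h1
        have h5 : IsConj g⁻¹ k⁻¹ := by
          obtain ⟨d, hd⟩ := isConj_iff.mp h3.symm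
          refine isConj_iff.mpr ⟨d, ?_⟩
          rw [← hd]
          group
        exact (h3.trans h4.symm).trans h5
      · intro k hk x hx k' hk'
        have h3 := h2 ⟨x, hx⟩ k hk
        have h4 : φ ⟨x, hx⟩ k = k' := Subtype.ext hk'.symm
        rwa [h4] at h3
  refine ⟨hL.trans (hmain.trans hR.symm), ?_⟩
  intro hall k hk
  have hc1 : Nat.card {θ : IrrCharacter K // conjIrr θ = θ} = Nat.card {θ : IrrInv φ // conjIrr θ.1 = θ.1} := by
    refine Nat.card_congr
      { toFun := fun θ => ⟨⟨θ.1, (isInv_conjAct_iff K P hnorm _).mpr (hall θ.1 ((real_iff θ.1).mpr θ.2))⟩, θ.2⟩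
        invFun := fun θ => ⟨θ.1.1, θ.2⟩
        left_inv := fun θ => rfl
        right_inv := fun θ => rfl }
  have hc2 : Nat.card {c : ConjClasses K // invCl c = c} = Nat.card {c : ConjClasses K // invCl c = c ∧ IsFixCl φ c} :=
    (card_real_eq (X := K)).symm.trans (hc1.trans hmain)
  let ι : {c : ConjClasses K // invCl c = c ∧ IsFixCl φ c} → {c : ConjClasses K // invCl c = c} :=
    fun c => ⟨c.1, c.2.1⟩
  have hι : Function.Injective ι := by
    intro a b h
    have h1 : a.1 = b.1 := congrArg (fun t : {c : ConjClasses K // invCl c = c} => t.1) h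
    exact Subtype.ext h1
  have hιb := hι.bijective_of_nat_card_le hc2.le
  obtain ⟨d, hd⟩ := hιb.2 ⟨ConjClasses.mk k, ConjClasses.mk_eq_mk_iff_isConj.mpr hk.symm⟩
  have hfix : IsFixCl φ (ConjClasses.mk k) := by
    have h1 : d.1 = ConjClasses.mk k := congrArg Subtype.val hd
    rw [← h1]
    exact d.2.2
  have hg : ∀ a, IsConj k (φ a k) := fun a =>
    (ConjClasses.mk_eq_mk_iff_isConj.mp (hfix a k rfl)).symm
  obtain ⟨w, hw1, hw2⟩ := exists_fixed_of_conj hcop₂ hsol k hg
  exact ⟨w, hw1, fun x hx => congrArg Subtype.val (hw2 ⟨x, hx⟩)⟩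

end Cfsg.Agent.S4911
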