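import Cfsg.Statements.S4914
import Mathlib
import Cfsg.Agent.Lib.Coprime.PCorr

set_option autoImplicit false
open Cfsg

namespace Cfsg.Agent.S4914


universe u

open scoped ComplexConjugate
open Cfsg Cfsg.Agent.Lib.Char Cfsg.Agent.Lib.Coprime

section Generic

variable {P Y C : Type u} [Group P] [Group Y] [Group C] [Fintype Y] [Fintype C]

theorem exists_mn (j : C →* Y) (χ : IrrCharacter Y) (ξ : IrrCharacter C) :
    ∃ m : ℕ, classInner (fun c => (χ : Y → ℂ) (j c)) (ξ : C → ℂ) = m :=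
  classInner_isCharacter_nat (IsCharacter.comp j (IsIrrCharacter.isCharacter χ.2))
    (IsIrrCharacter.isCharacter ξ.2)

/-- The multiplicity as a natural number. -/
noncomputable def mn (j : C →* Y) (χ : IrrCharacter Y) (ξ : IrrCharacter C) : ℕ := (exists_mn j χ ξ).choose

theorem mn_spec (j : C →* Y) (χ : IrrCharacter Y) (ξ : IrrCharacter C) :
    classInner (fun c => (χ : Y → ℂ) (j c)) (ξ : C → ℂ) = mn j χ ξ := (exists_mn j χ ξ).choose_spec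

theorem mn_eq {j : C →* Y} {χ : IrrCharacter Y} {ξ : IrrCharacter C} {m : ℕ}
    (h : classInner (fun c => (χ : Y → ℂ) (j c)) (ξ : C → ℂ) = m) : mn j χ ξ = m := by
  have h1 := mn_spec j χ ξ
  rw [h] at h1
  exact_mod_cast h1.symm

variable (φ : P →* MulAut Y) (φ₁ : P →* MulAut C) {j : C →* Y}

theorem mn_perm (hcompat : ∀ a c, j (φ₁ a c) = φ a (j c)) (x : P) (χ : IrrCharacter Y) (ξ : IrrCharacter C) :
    mn j (irrPerm φ x χ) (irrPerm φ₁ x ξ) = mn j χ ξ := by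
  apply mn_eq
  have h1 : (fun c => ((irrPerm φ x χ : IrrCharacter Y) : Y → ℂ) (j c)) =
      (fun c => (χ : Y → ℂ) (j c)) ∘ φ₁ x⁻¹ := by
    funext c
    show (χ : Y → ℂ) (φ x⁻¹ (j c)) = (χ : Y → ℂ) (j (φ₁ x⁻¹ c))
    rw [hcompat]
  have h2 : ((irrPerm φ₁ x ξ : IrrCharacter C) : C → ℂ) = (ξ : C → ℂ) ∘ φ₁ x⁻¹ := rfl
  rw [h1, h2, classInner_comp_equiv]
  exact mn_spec j χ ξ

variable {p : ℕ} [Fact p.Prime]

theorem fixed_below (hP : IsPGroup p P) (hcompat : ∀ a c, j (φ₁ a c) = φ a (j c)) (s : P)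
    (χ : IrrCharacter Y) (hχ : ∀ x, irrPerm φ x χ = χ) (ξ₀ : IrrCharacter C) (h₀ : ¬ p ∣ mn j χ ξ₀)
    (hs : irrPerm φ₁ s ξ₀ = ξ₀) (huniq : ∀ ξ, irrPerm φ₁ s ξ = ξ → ¬ p ∣ mn j χ ξ → ξ = ξ₀) (x : P) :
    irrPerm φ₁ x ξ₀ = ξ₀ := by
  let S : IrrCharacter C → Prop := fun ξ => ¬ p ∣ mn j χ ξ
  have hS : ∀ x ξ, S ξ → S (irrPerm φ₁ x ξ) := by
    intro x ξ h
    show ¬ p ∣ mn j χ (irrPerm φ₁ x ξ)
    have h1 := mn_perm φ φ₁ hcompat x χ ξ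
    rw [hχ x] at h1
    rwa [h1]
  have h2 := fixed_of_unique_fixed hP (subtypeHom (irrPerm φ₁) S hS) s ⟨ξ₀, h₀⟩ (by
    intro a
    constructor
    · intro h3
      apply Subtype.ext
      exact huniq a.1 (congrArg Subtype.val h3) a.2
    · rintro rfl
      exact Subtype.ext hs) x
  exact congrArg Subtype.val h2

theorem fixed_above (hP : IsPGroup p P) (hcompat : ∀ a c, j (φ₁ a c) = φ a (j c)) (s : P)
    (ξ : IrrCharacter C) (hξ : ∀ x, irrPerm φ₁ x ξ = ξ) (χ₀ : IrrCharacter Y) (h₀ : ¬ p ∣ mn j χ₀ ξ)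
    (hs : irrPerm φ s χ₀ = χ₀) (huniq : ∀ χ, irrPerm φ s χ = χ → ¬ p ∣ mn j χ ξ → χ = χ₀) (x : P) :
    irrPerm φ x χ₀ = χ₀ := by
  let S : IrrCharacter Y → Prop := fun χ => ¬ p ∣ mn j χ ξ
  have hS : ∀ x χ, S χ → S (irrPerm φ x χ) := by
    intro x χ h
    show ¬ p ∣ mn j (irrPerm φ x χ) ξ
    have h1 := mn_perm φ φ₁ hcompat x χ ξ
    rw [hξ x] at h1
    rwa [h1]
  have h2 := fixed_of_unique_fixed hP (subtypeHom (irrPerm φ) S hS) s ⟨χ₀, h₀⟩ (by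
    intro a
    constructor
    · intro h3
      apply Subtype.ext
      exact huniq a.1 (congrArg Subtype.val h3) a.2
    · rintro rfl
      exact Subtype.ext hs) x
  exact congrArg Subtype.val h2

end Generic

section Comp

variable {P Y C₁ C : Type u} [Group P] [Group Y] [Group C₁] [Group C] [Fintype Y] [Fintype C₁] [Fintype C]

/-- The multiplicities multiply along a tower. -/
theorem mn_comp (j₁ : C₁ →* Y) (j₂ : C →* C₁) (χ : IrrCharacter Y) (η : IrrCharacter C) :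
    mn (j₁.comp j₂) χ η = ∑ ξ : IrrCharacter C₁, mn j₁ χ ξ * mn j₂ ξ η := by
  have hχ : IsCharacter C₁ (fun c => (χ : Y → ℂ) (j₁ c)) := IsCharacter.comp j₁ (IsIrrCharacter.isCharacter χ.2)
  have h1 := classFunction_eq_sum _ (IsCharacter.isClassFunction hχ)
  have h2 : classInner (fun c => (χ : Y → ℂ) ((j₁.comp j₂) c)) (η : C → ℂ) =
      ((∑ ξ : IrrCharacter C₁, mn j₁ χ ξ * mn j₂ ξ η : ℕ) : ℂ) := by
    have h3 : (fun c => (χ : Y → ℂ) ((j₁.comp j₂) c)) =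
        ∑ ξ : IrrCharacter C₁, (mn j₁ χ ξ : ℂ) • (fun c => (ξ : C₁ → ℂ) (j₂ c)) := by
      funext c
      have h4 := congrFun h1 (j₂ c)
      simp only [Finset.sum_apply, Pi.smul_apply, mn_spec] at h4 ⊢
      exact h4
    rw [h3, classInner_sum_left]
    simp only [classInner_smul_left, mn_spec]
    push_cast
    rfl
  exact mn_eq h2

variable {p : ℕ} [Fact p.Prime]

/-- Modulo `p`, only the invariant characters count along a tower. -/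
theorem mn_comp_modEq (hP : IsPGroup p P) (φ : P →* MulAut Y) (φ₁ : P →* MulAut C₁) (φ₂ : P →* MulAut C)
    {j₁ : C₁ →* Y} {j₂ : C →* C₁} (h₁ : ∀ a c, j₁ (φ₁ a c) = φ a (j₁ c)) (h₂ : ∀ a c, j₂ (φ₂ a c) = φ₁ a (j₂ c))
    (χ : IrrCharacter Y) (hχ : ∀ x, irrPerm φ x χ = χ) (η : IrrCharacter C) (hη : ∀ x, irrPerm φ₂ x η = η)
    (ξ₁ : IrrCharacter C₁) (hξ₁ : ∀ x, irrPerm φ₁ x ξ₁ = ξ₁)
    (hother : ∀ ξ, (∀ x, irrPerm φ₁ x ξ = ξ) → ξ ≠ ξ₁ → p ∣ mn j₁ χ ξ) :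
    mn (j₁.comp j₂) χ η ≡ mn j₁ χ ξ₁ * mn j₂ ξ₁ η [MOD p] := by
  classical
  rw [mn_comp]
  let w : IrrCharacter C₁ → ℕ := fun ξ => mn j₁ χ ξ * mn j₂ ξ η
  have hw : ∀ x ξ, w (irrPerm φ₁ x ξ) = w ξ := by
    intro x ξ
    show mn j₁ χ (irrPerm φ₁ x ξ) * mn j₂ (irrPerm φ₁ x ξ) η = mn j₁ χ ξ * mn j₂ ξ η
    have h3 := mn_perm φ φ₁ h₁ x χ ξ
    rw [hχ x] at h3
    have h4 := mn_perm φ₁ φ₂ h₂ x ξ η
    rw [hη x] at h4
    rw [h3, h4]
  letI : Fintype {a // ∀ x, irrPerm φ₁ x a = a} := Fintype.ofFinite _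
  have h5 := sum_modEq_sum_fixed hP (irrPerm φ₁) w hw
  refine h5.trans ?_
  let a₁ : {a // ∀ x, irrPerm φ₁ x a = a} := ⟨ξ₁, hξ₁⟩
  rw [← Finset.add_sum_erase _ _ (Finset.mem_univ a₁)]
  have h6 : p ∣ ∑ a ∈ Finset.univ.erase a₁, w a.1 := by
    refine Finset.dvd_sum fun a ha => ?_
    have h7 : a.1 ≠ ξ₁ := fun h => Finset.ne_of_mem_erase ha (Subtype.ext h)
    exact Dvd.dvd.mul_right (hother a.1 a.2 h7) _
  have h8 : ∑ a ∈ Finset.univ.erase a₁, w a.1 ≡ 0 [MOD p] := (Nat.modEq_zero_iff_dvd).mpr h6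
  simpa [w, a₁] using h8.add_left (w ξ₁)

end Comp


section Sub

variable {G : Type u} [Group G] [Finite G]

noncomputable local instance finSub (K : Subgroup G) : Fintype K := Fintype.ofFinite _

/-- The invariant irreducible characters. -/
abbrev IrrP (P K : Subgroup G) :=
  {χ : IrrCharacter K // ∀ x ∈ P, ∀ k k' : K, (k' : G) = x * (k : G) * x⁻¹ → (χ : K → ℂ) k' = (χ : K → ℂ) k}

theorem fix_iff_zpowers (P X : Subgroup G) (hPX : ∀ x ∈ P, ∀ k ∈ X, x * k * x⁻¹ ∈ X) {s : G} (hs : s ∈ P)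
    (hA : ∀ a ∈ Subgroup.zpowers s, ∀ k ∈ X, a * k * a⁻¹ ∈ X) (ξ : IrrCharacter X) :
    irrPerm (conjAct X P hPX) ⟨s, hs⟩ ξ = ξ ↔ IsInv (conjAct X (Subgroup.zpowers s) hA) (ξ : X → ℂ) := by
  have h0 : irrPerm (conjAct X (Subgroup.zpowers s) hA) ⟨s, Subgroup.mem_zpowers s⟩ ξ =
      irrPerm (conjAct X P hPX) ⟨s, hs⟩ ξ := by
    apply Subtype.ext
    funext g
    show (ξ : X → ℂ) _ = (ξ : X → ℂ) _
    congr 1
  constructor
  · intro h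
    rw [← irrPerm_eq_iff]
    rintro ⟨a, ha⟩
    obtain ⟨n, rfl⟩ := Subgroup.mem_zpowers_iff.mp ha
    have h1 : (⟨s ^ n, ha⟩ : Subgroup.zpowers s) = (⟨s, Subgroup.mem_zpowers s⟩ : Subgroup.zpowers s) ^ n :=
      Subtype.ext (by simp)
    rw [h1, map_zpow]
    exact Equiv.Perm.zpow_apply_eq_self_of_apply_eq_self (h0.trans h) n
  · intro h
    rw [← h0]
    exact (irrPerm_eq_iff _ _).mpr h _

variable {p : ℕ} [Fact p.Prime]

/-- The step for one element. -/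
theorem step_one (P K C₁ Q : Subgroup G) (hP : IsPGroup p P) (hPK : ∀ x ∈ P, ∀ k ∈ K, x * k * x⁻¹ ∈ K)
    (hPC : ∀ x ∈ P, ∀ k ∈ C₁, x * k * x⁻¹ ∈ C₁) (hC₁K : C₁ ≤ K) (hQK : Q ≤ K)
    (hQn : ∀ k ∈ K, ∀ q ∈ Q, k * q * k⁻¹ ∈ Q) (hQinv : ∀ x ∈ P, ∀ q ∈ Q, x * q * x⁻¹ ∈ Q)
    (hQidx : ¬ p ∣ Q.relIndex K) {s : G} (hs : s ∈ P) (hs1 : s ≠ 1)
    (hC₁ : ∀ k, k ∈ C₁ ↔ k ∈ K ∧ s * k * s⁻¹ * k⁻¹ ∈ Q) :
    ∃ f : IrrP P K → IrrP P C₁, Function.Bijective f ∧ ∀ χ,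
      (∀ ξ : IrrP P C₁, ∃ m : ℕ, classInner (fun c : C₁ => (χ.1 : K → ℂ) (Subgroup.inclusion hC₁K c)) (ξ.1 : C₁ → ℂ) = m ∧
        (ξ = f χ → ((m : ZMod p) = 1 ∨ (m : ZMod p) = -1)) ∧ (ξ ≠ f χ → p ∣ m)) ∧
      ((charDegree ((f χ).1 : C₁ → ℂ) : ZMod p) = (charDegree (χ.1 : K → ℂ) : ZMod p) ∨
        (charDegree ((f χ).1 : C₁ → ℂ) : ZMod p) = -(charDegree (χ.1 : K → ℂ) : ZMod p)) := by
  classical
  have hp : p.Prime := Fact.out
  set A : Subgroup G := Subgroup.zpowers s with hAdef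
  have hAP : A ≤ P := (Subgroup.zpowers_le).mpr hs
  have hAK : ∀ a ∈ A, ∀ k ∈ K, a * k * a⁻¹ ∈ K := fun a ha => hPK a (hAP ha)
  have hAC : ∀ a ∈ A, ∀ k ∈ C₁, a * k * a⁻¹ ∈ C₁ := fun a ha => hPC a (hAP ha)
  let φ : A →* MulAut K := conjAct K A hAK
  let φ₁ : A →* MulAut C₁ := conjAct C₁ A hAC
  let j : C₁ →* K := Subgroup.inclusion hC₁K
  let Q' : Subgroup K := Q.subgroupOf K
  have hQ'inv : ∀ a, ∀ y ∈ Q', φ a y ∈ Q' := by
    intro a y hy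
    exact hQinv a (hAP a.2) y hy
  let a₀ : A := ⟨s, Subgroup.mem_zpowers s⟩
  have hgen : ∀ a : A, a ∈ Subgroup.zpowers a₀ := by
    rintro ⟨a, ha⟩
    obtain ⟨n, rfl⟩ := Subgroup.mem_zpowers_iff.mp ha
    exact Subgroup.mem_zpowers_iff.mpr ⟨n, Subtype.ext (by simp [a₀])⟩
  have D : PData φ φ₁ j Q' p :=
    { j_inj := Subgroup.inclusion_injective hC₁K
      compat := fun a c => Subtype.ext rfl
      Q_normal := ⟨fun q hq g => hQn g g.2 q hq⟩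
      Q_inv := hQ'inv
      not_dvd := hQidx
      range := by
        intro y
        constructor
        · rintro ⟨c, rfl⟩
          refine fix_all_of_gen hQ'inv hgen ?_
          exact ((hC₁ c).mp c.2).2
        · intro h
          have h1 : φ a₀ y * y⁻¹ ∈ Q' := h a₀
          have h2 : s * (y : G) * s⁻¹ * (y : G)⁻¹ ∈ Q := h1
          exact ⟨⟨y, (hC₁ y).mpr ⟨y.2, h2⟩⟩, rfl⟩ }
  have hAp : IsPGroup p A := hP.to_le hAP
  obtain ⟨k, hk⟩ : ∃ k, orderOf a₀ = p * p ^ k := by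
    obtain ⟨n, hn⟩ := (IsPGroup.iff_orderOf.mp hAp) a₀
    rcases n with _ | n
    · exfalso
      rw [pow_zero, orderOf_eq_one_iff] at hn
      exact hs1 (congrArg Subtype.val hn)
    · exact ⟨n, by rw [hn, pow_succ']⟩
  obtain ⟨fs, hfs, hcorr⟩ := D.corr hp (m := p ^ k) (e := k) rfl hgen hk
  have hχA : ∀ χ : IrrP P K, IsInv φ (χ.1 : K → ℂ) := fun χ =>
    (isInv_conjAct_iff K A hAK _).mpr (fun a ha => χ.2 a (hAP ha))
  have hξA : ∀ ξ : IrrP P C₁, IsInv φ₁ (ξ.1 : C₁ → ℂ) := fun ξ =>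
    (isInv_conjAct_iff C₁ A hAC _).mpr (fun a ha => ξ.2 a (hAP ha))
  have hcompatP : ∀ a c, j (conjAct C₁ P hPC a c) = conjAct K P hPK a (j c) := fun a c => Subtype.ext rfl
  have hnd : ∀ χ : IrrInv φ, ¬ p ∣ mn j χ.1 (fs χ).1 := by
    intro χ hdvd
    obtain ⟨m, hm, h1, -⟩ := hcorr χ (fs χ)
    rw [mn_eq hm] at hdvd
    have h4 : (m : ZMod p) = 0 := (ZMod.natCast_eq_zero_iff m p).mpr hdvd
    rcases h1 rfl with h5 | h5
    · rw [h4] at h5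
      exact zero_ne_one h5
    · rw [h4] at h5
      have h6 : (1 : ZMod p) = 0 := by
        have := congrArg Neg.neg h5
        simpa using this.symm
      exact one_ne_zero h6
  have hd : ∀ (χ : IrrInv φ) (ξ : IrrInv φ₁), ξ ≠ fs χ → p ∣ mn j χ.1 ξ.1 := by
    intro χ ξ hne
    obtain ⟨m, hm, -, h1⟩ := hcorr χ ξ
    rw [mn_eq hm]
    exact h1 hne
  have hfixC : ∀ ξ : IrrCharacter C₁, irrPerm (conjAct C₁ P hPC) ⟨s, hs⟩ ξ = ξ ↔ IsInv φ₁ (ξ : C₁ → ℂ) :=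
    fix_iff_zpowers P C₁ hPC hs hAC
  have hfixK : ∀ χ : IrrCharacter K, irrPerm (conjAct K P hPK) ⟨s, hs⟩ χ = χ ↔ IsInv φ (χ : K → ℂ) :=
    fix_iff_zpowers P K hPK hs hAK
  have hinvB : ∀ (χ : IrrP P K) (x : P), irrPerm (conjAct C₁ P hPC) x (fs ⟨χ.1, hχA χ⟩).1 = (fs ⟨χ.1, hχA χ⟩).1 := by
    intro χ x
    refine fixed_below (conjAct K P hPK) (conjAct C₁ P hPC) hP hcompatP ⟨s, hs⟩ χ.1 ?_ _
      (hnd ⟨χ.1, hχA χ⟩) ((hfixC _).mpr (fs ⟨χ.1, hχA χ⟩).2) ?_ x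
    · exact (irrPerm_eq_iff _ _).mpr ((isInv_conjAct_iff K P hPK _).mpr χ.2)
    · intro ξ hξ hndiv
      by_contra hne
      exact hndiv (hd ⟨χ.1, hχA χ⟩ ⟨ξ, (hfixC ξ).mp hξ⟩ (fun h => hne (congrArg Subtype.val h)))
  let f : IrrP P K → IrrP P C₁ := fun χ =>
    ⟨(fs ⟨χ.1, hχA χ⟩).1, (isInv_conjAct_iff C₁ P hPC _).mp ((irrPerm_eq_iff _ _).mp (hinvB χ))⟩
  refine ⟨f, ⟨?_, ?_⟩, ?_⟩
  · intro χ χ' h
    have h0 : (f χ).1 = (f χ').1 := congrArg Subtype.val h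
    have h1 : fs ⟨χ.1, hχA χ⟩ = fs ⟨χ'.1, hχA χ'⟩ := Subtype.ext h0
    have h2 := hfs.1 h1
    have h3 : χ.1 = χ'.1 := congrArg (fun t : IrrInv φ => t.1) h2
    exact Subtype.ext h3
  · intro ξ
    obtain ⟨χ₀, hχ₀⟩ := hfs.2 ⟨ξ.1, hξA ξ⟩
    have h1 : ∀ x, irrPerm (conjAct K P hPK) x χ₀.1 = χ₀.1 := by
      intro x
      refine fixed_above (conjAct K P hPK) (conjAct C₁ P hPC) hP hcompatP ⟨s, hs⟩ ξ.1 ?_ χ₀.1 ?_
        ((hfixK _).mpr χ₀.2) ?_ x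
      · exact (irrPerm_eq_iff _ _).mpr ((isInv_conjAct_iff C₁ P hPC _).mpr ξ.2)
      · have := hnd χ₀
        rw [hχ₀] at this
        exact this
      · intro χ hχ hndiv
        by_contra hne
        have h2 : fs ⟨χ, (hfixK χ).mp hχ⟩ = ⟨ξ.1, hξA ξ⟩ := by
          by_contra h3
          exact hndiv (hd ⟨χ, (hfixK χ).mp hχ⟩ ⟨ξ.1, hξA ξ⟩ (fun h => h3 h.symm))
        have h3 := hfs.1 (h2.trans hχ₀.symm)
        exact hne (congrArg Subtype.val h3)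
    refine ⟨⟨χ₀.1, (isInv_conjAct_iff K P hPK _).mp ((irrPerm_eq_iff _ _).mp h1)⟩, ?_⟩
    apply Subtype.ext
    exact congrArg (fun t : IrrInv φ₁ => t.1) hχ₀
  · intro χ
    have hc := hcorr ⟨χ.1, hχA χ⟩
    refine ⟨?_, ?_⟩
    · intro ξ
      obtain ⟨m, hm, h1, h2⟩ := hc ⟨ξ.1, hξA ξ⟩
      refine ⟨m, hm, ?_, ?_⟩
      · intro h3
        have h4 : ξ.1 = (f χ).1 := congrArg (fun t : IrrP P C₁ => t.1) h3
        exact h1 (Subtype.ext h4)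
      · intro h3
        refine h2 (fun h4 => h3 (Subtype.ext ?_))
        exact congrArg (fun t : IrrInv φ₁ => t.1) h4
    · exact IsPCorr.degree D hp hAp ⟨χ.1, hχA χ⟩ hc


/-- The elements of `P` acting trivially on `K` modulo `Q`. -/
def P0 (P K Q : Subgroup G) (hPK : ∀ x ∈ P, ∀ k ∈ K, x * k * x⁻¹ ∈ K)
    (hQinv : ∀ x ∈ P, ∀ q ∈ Q, x * q * x⁻¹ ∈ Q) : Subgroup P where
  carrier := {x | ∀ k ∈ K, (x : G) * k * (x : G)⁻¹ * k⁻¹ ∈ Q}
  one_mem' := by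
    intro k _
    simp [Q.one_mem]
  mul_mem' := by
    intro x y hx hy k hk
    have h1 := hy k hk
    have h2 := hQinv x x.2 _ h1
    have h3 := hx k hk
    have h4 := Q.mul_mem h2 h3
    convert h4 using 1
    push_cast
    group
  inv_mem' := by
    intro x hx k hk
    have hk' : (x : G)⁻¹ * k * x ∈ K := by
      simpa using hPK _ (P.inv_mem x.2) k hk
    have h1 := hx _ hk'
    have h2 := Q.inv_mem h1
    convert h2 using 1
    push_cast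
    group

theorem P0_normal (P K Q : Subgroup G) (hPK : ∀ x ∈ P, ∀ k ∈ K, x * k * x⁻¹ ∈ K)
    (hQinv : ∀ x ∈ P, ∀ q ∈ Q, x * q * x⁻¹ ∈ Q) : (P0 P K Q hPK hQinv).Normal := by
  refine ⟨fun x hx g k hk => ?_⟩
  have hk' : (g : G)⁻¹ * k * g ∈ K := by
    simpa using hPK _ (P.inv_mem g.2) k hk
  have h1 := hx _ hk'
  have h2 := hQinv g g.2 _ h1
  convert h2 using 1
  push_cast
  group

/-- An element central modulo a proper normal subgroup of a `p`-group. -/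
theorem exists_central_lift {R : Type*} [Group R] [Finite R] (hP : IsPGroup p R) (N : Subgroup R) [N.Normal]
    (hN : N ≠ ⊤) : ∃ s : R, s ∉ N ∧ ∀ g : R, s⁻¹ * g⁻¹ * s * g ∈ N := by
  haveI : Nontrivial (R ⧸ N) := by
    by_contra hcon
    rw [not_nontrivial_iff_subsingleton] at hcon
    exact hN (QuotientGroup.subgroup_eq_top_of_subsingleton N hcon)
  have hR : IsPGroup p (R ⧸ N) := hP.to_quotient N
  haveI := hR.center_nontrivial
  obtain ⟨z, hz⟩ := exists_ne (1 : Subgroup.center (R ⧸ N))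
  obtain ⟨s, hs⟩ := QuotientGroup.mk_surjective (z : R ⧸ N)
  refine ⟨s, ?_, ?_⟩
  · intro h
    apply hz
    apply Subtype.ext
    rw [← hs]
    exact (QuotientGroup.eq_one_iff s).mpr h
  · intro g
    have h1 : (g : R ⧸ N) * (s : R ⧸ N) = (s : R ⧸ N) * g := by
      rw [hs]
      exact (Subgroup.mem_center_iff.mp z.2 g)
    have h2 : ((s * g : R) : R ⧸ N) = ((g * s : R) : R ⧸ N) := by
      rw [QuotientGroup.mk_mul, QuotientGroup.mk_mul, h1]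
    have h3 := QuotientGroup.eq.mp h2.symm
    have h4 : s⁻¹ * g⁻¹ * s * g = (g * s)⁻¹ * (s * g) := by group
    rw [h4]
    exact h3

/-- The preimage of the fixed points of `s` on `K/Q`. -/
def comSub (K Q : Subgroup G) (hQn : ∀ k ∈ K, ∀ q ∈ Q, k * q * k⁻¹ ∈ Q) (s : G) : Subgroup G where
  carrier := {k | k ∈ K ∧ s * k * s⁻¹ * k⁻¹ ∈ Q}
  one_mem' := by
    refine ⟨K.one_mem, ?_⟩
    simp [Q.one_mem]
  mul_mem' := by
    rintro a b ⟨ha, ha'⟩ ⟨hb, hb'⟩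
    refine ⟨K.mul_mem ha hb, ?_⟩
    have h1 := Q.mul_mem ha' (hQn a ha _ hb')
    convert h1 using 1
    group
  inv_mem' := by
    rintro a ⟨ha, ha'⟩
    refine ⟨K.inv_mem ha, ?_⟩
    have h1 := Q.inv_mem (hQn _ (K.inv_mem ha) _ ha')
    convert h1 using 1
    group

theorem mem_comSub {K Q : Subgroup G} {hQn : ∀ k ∈ K, ∀ q ∈ Q, k * q * k⁻¹ ∈ Q} {s k : G} :
    k ∈ comSub K Q hQn s ↔ k ∈ K ∧ s * k * s⁻¹ * k⁻¹ ∈ Q := Iff.rfl

/-- **Main induction.** -/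
theorem main (P Q : Subgroup G) (hP : IsPGroup p P) (hQinv : ∀ x ∈ P, ∀ q ∈ Q, x * q * x⁻¹ ∈ Q) :
    ∀ (n : ℕ) (K C : Subgroup G), Nat.card K = n → ∀ (_ : ∀ x ∈ P, ∀ k ∈ K, x * k * x⁻¹ ∈ K), Q ≤ K →
      (∀ k ∈ K, ∀ q ∈ Q, k * q * k⁻¹ ∈ Q) → ¬ p ∣ Q.relIndex K → ∀ (hCK : C ≤ K),
      (∀ k : G, k ∈ C ↔ (k ∈ K ∧ ∀ x ∈ P, x * k * x⁻¹ * k⁻¹ ∈ Q)) →
      ∃ f : IrrP P K → IrrP P C, Function.Bijective f ∧ ∀ χ,
        (∀ ξ : IrrP P C, ∃ m : ℕ, classInner (fun c : C => (χ.1 : K → ℂ) (Subgroup.inclusion hCK c)) (ξ.1 : C → ℂ) = m ∧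
          (ξ = f χ → ((m : ZMod p) = 1 ∨ (m : ZMod p) = -1)) ∧ (ξ ≠ f χ → p ∣ m)) ∧
        ((charDegree ((f χ).1 : C → ℂ) : ZMod p) = (charDegree (χ.1 : K → ℂ) : ZMod p) ∨
          (charDegree ((f χ).1 : C → ℂ) : ZMod p) = -(charDegree (χ.1 : K → ℂ) : ZMod p)) := by
  intro n
  induction n using Nat.strong_induction_on with
  | _ n ih =>
  intro K C hn hPK hQK hQn hQidx hCK hC
  by_cases htriv : ∀ k ∈ K, ∀ x ∈ P, x * k * x⁻¹ * k⁻¹ ∈ Q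
  · have hCeq : C = K := le_antisymm hCK (fun k hk => (hC k).mpr ⟨hk, fun x hx => htriv k hk x hx⟩)
    subst hCeq
    refine ⟨id, Function.bijective_id, fun χ => ⟨fun ξ => ?_, Or.inl rfl⟩⟩
    have hfun : (fun c : C => (χ.1 : C → ℂ) (Subgroup.inclusion hCK c)) = (χ.1 : C → ℂ) := by
      funext c
      rfl
    rw [hfun]
    by_cases hξ : ξ = χ
    · refine ⟨1, ?_, fun _ => Or.inl (by simp), fun h => absurd hξ h⟩
      subst hξ
      simpa using classInner_irr_self ξ.1.2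
    · refine ⟨0, ?_, fun h => absurd h hξ, fun _ => dvd_zero _⟩
      have h1 : (χ.1 : C → ℂ) ≠ (ξ.1 : C → ℂ) := by
        intro h
        exact hξ (Subtype.ext (Subtype.ext h.symm))
      simpa using classInner_irr_of_ne χ.1.2 ξ.1.2 h1
  · -- the inductive step
    haveI := P0_normal P K Q hPK hQinv
    have hP₀ : P0 P K Q hPK hQinv ≠ ⊤ := by
      intro htop
      apply htriv
      intro k hk x hx
      have h1 : (⟨x, hx⟩ : P) ∈ P0 P K Q hPK hQinv := by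
        rw [htop]
        exact Subgroup.mem_top _
      exact h1 k hk
    obtain ⟨s', hs', hcentral⟩ := exists_central_lift hP (P0 P K Q hPK hQinv) hP₀
    have hs : (s' : G) ∈ P := s'.2
    have hs1 : (s' : G) ≠ 1 := by
      intro h
      apply hs'
      have h1 : s' = 1 := Subtype.ext h
      rw [h1]
      exact Subgroup.one_mem _
    -- the next subgroup
    let C₁ : Subgroup G := comSub K Q hQn s'
    have hC₁K : C₁ ≤ K := fun k hk => hk.1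
    have hC₁mem : ∀ k, k ∈ C₁ ↔ k ∈ K ∧ (s' : G) * k * (s' : G)⁻¹ * k⁻¹ ∈ Q := fun k => Iff.rfl
    have hQC₁ : Q ≤ C₁ := by
      intro q hq
      refine ⟨hQK hq, Q.mul_mem (hQinv _ hs q hq) (Q.inv_mem hq)⟩
    have hCC₁ : C ≤ C₁ := by
      intro k hk
      obtain ⟨h1, h2⟩ := (hC k).mp hk
      exact ⟨h1, h2 _ hs⟩
    have hPC₁ : ∀ x ∈ P, ∀ k ∈ C₁, x * k * x⁻¹ ∈ C₁ := by
      intro x hx k hk
      refine ⟨hPK x hx k hk.1, ?_⟩
      -- the commutator condition, moved along `x`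
      have hw : ((s' : G)⁻¹ * x⁻¹ * s' * x) * k * ((s' : G)⁻¹ * x⁻¹ * s' * x)⁻¹ * k⁻¹ ∈ Q :=
        hcentral ⟨x, hx⟩ k hk.1
      have h1 := hQinv x hx _ (Q.mul_mem (hQinv _ hs _ hw) hk.2)
      convert h1 using 1
      group
    have hltC : Nat.card C₁ < n := by
      rw [← hn]
      by_contra hle
      have h1 : C₁ = K := Subgroup.eq_of_le_of_card_ge hC₁K (not_lt.mp hle)
      apply hs'
      intro k hk
      have h2 : k ∈ C₁ := by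
        rw [h1]
        exact hk
      exact h2.2
    have hQidxC₁ : ¬ p ∣ Q.relIndex C₁ := by
      intro h
      apply hQidx
      rw [← Subgroup.relIndex_mul_relIndex Q C₁ K hQC₁ hC₁K]
      exact Dvd.dvd.mul_right h _
    have hCmem : ∀ k : G, k ∈ C ↔ (k ∈ C₁ ∧ ∀ x ∈ P, x * k * x⁻¹ * k⁻¹ ∈ Q) := by
      intro k
      constructor
      · intro hk
        exact ⟨hCC₁ hk, ((hC k).mp hk).2⟩
      · rintro ⟨h1, h2⟩
        exact (hC k).mpr ⟨hC₁K h1, h2⟩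
    obtain ⟨f₁, hf₁, hcorr₁⟩ := step_one P K C₁ Q hP hPK hPC₁ hC₁K hQK hQn hQinv hQidx hs hs1 hC₁mem
    obtain ⟨f₂, hf₂, hcorr₂⟩ := ih _ hltC C₁ C rfl hPC₁ hQC₁
      (fun k hk q hq => hQn k (hC₁K hk) q hq) hQidxC₁ hCC₁ hCmem
    have hPC : ∀ x ∈ P, ∀ k ∈ C, x * k * x⁻¹ ∈ C := by
      intro x hx k hk
      obtain ⟨h1, h2⟩ := (hC k).mp hk
      refine (hC _).mpr ⟨hPK x hx k h1, ?_⟩
      intro y hy
      have h3 := h2 (x⁻¹ * y * x) (P.mul_mem (P.mul_mem (P.inv_mem hx) hy) hx)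
      have h4 := hQinv x hx _ h3
      convert h4 using 1
      group
    refine ⟨f₂ ∘ f₁, hf₂.comp hf₁, fun χ => ⟨fun η => ?_, ?_⟩⟩
    · -- the multiplicities
      let j₁ : C₁ →* K := Subgroup.inclusion hC₁K
      let j₂ : C →* C₁ := Subgroup.inclusion hCC₁
      have hval : classInner (fun c : C => (χ.1 : K → ℂ) (Subgroup.inclusion hCK c)) (η.1 : C → ℂ) =
          mn (j₁.comp j₂) χ.1 η.1 := mn_spec (j₁.comp j₂) χ.1 η.1
      refine ⟨mn (j₁.comp j₂) χ.1 η.1, hval, ?_⟩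
      have hm₁ := hcorr₁ χ |>.1
      have hinv : ∀ (X : Subgroup G) (hX : ∀ x ∈ P, ∀ k ∈ X, x * k * x⁻¹ ∈ X) (ξ : IrrP P X),
          ∀ x, irrPerm (conjAct X P hX) x ξ.1 = ξ.1 := fun X hX ξ =>
        (irrPerm_eq_iff _ _).mpr ((isInv_conjAct_iff X P hX _).mpr ξ.2)
      have hmod := mn_comp_modEq hP (conjAct K P hPK) (conjAct C₁ P hPC₁) (conjAct C P hPC)
        (j₁ := j₁) (j₂ := j₂) (fun a c => Subtype.ext rfl) (fun a c => Subtype.ext rfl)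
        χ.1 (hinv K hPK χ) η.1 (hinv C hPC η) (f₁ χ).1 (hinv C₁ hPC₁ (f₁ χ)) (by
          intro ξ hξ hne
          have hξ' : ∀ x ∈ P, ∀ k k' : C₁, (k' : G) = x * (k : G) * x⁻¹ → (ξ : C₁ → ℂ) k' = (ξ : C₁ → ℂ) k :=
            (isInv_conjAct_iff C₁ P hPC₁ _).mp ((irrPerm_eq_iff _ _).mp hξ)
          obtain ⟨m, hm, -, h2⟩ := hm₁ ⟨ξ, hξ'⟩
          rw [mn_eq hm]
          refine h2 (fun h => hne ?_)
          exact congrArg (fun t : IrrP P C₁ => t.1) h)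
      obtain ⟨a, ha, ha₁, -⟩ := hm₁ (f₁ χ)
      obtain ⟨b, hb, hb₁, hb₂⟩ := (hcorr₂ (f₁ χ)).1 η
      have hA := mn_eq ha
      have hB := mn_eq hb
      have hmod' : ((mn (j₁.comp j₂) χ.1 η.1 : ℕ) : ZMod p) = (a : ZMod p) * (b : ZMod p) := by
        have := (ZMod.natCast_eq_natCast_iff _ _ p).mpr hmod
        rw [this]
        simp only [Nat.cast_mul]
        rw [show mn j₁ χ.1 (f₁ χ).1 = a from hA, show mn j₂ (f₁ χ).1 η.1 = b from hB]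
      refine ⟨?_, ?_⟩
      · intro hη
        rw [hmod']
        rcases ha₁ rfl with h1 | h1 <;> rcases hb₁ hη with h2 | h2 <;> rw [h1, h2] <;> simp
      · intro hη
        have h3 : (b : ZMod p) = 0 := (ZMod.natCast_eq_zero_iff b p).mpr (hb₂ hη)
        refine (ZMod.natCast_eq_zero_iff _ p).mp ?_
        rw [hmod', h3, mul_zero]
    · have h1 := (hcorr₁ χ).2
      have h2 := (hcorr₂ (f₁ χ)).2
      show (charDegree ((f₂ (f₁ χ)).1 : C → ℂ) : ZMod p) = _ ∨ (charDegree ((f₂ (f₁ χ)).1 : C → ℂ) : ZMod p) = _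
      rcases h1 with h1 | h1 <;> rcases h2 with h2 | h2 <;> rw [h2, h1] <;> simp

end Sub

/-- Let P and K be subgroups of a finite group G with P a p-group normalizing K, and suppose K has a normal Sylow p-subgroup Q. Let C be the subgroup of those k ∈ K whose commutator with every element of P lies in Q (so that C/Q is the fixed-point subgroup of P on K/Q). Then there is a bijection f from the P-invariant irreducible complex characters of K onto the P-invariant irreducible complex characters of C such that, for every P-invariant irreducible character χ of K, the multiplicity of f(χ) in the restriction of χ to C is a natural number congruent to 1 or to −1 modulo p, every other P-invariant irreducible character of C occurs in that restriction with multiplicity divisible by p, and the degrees of χ and f(χ) are congruent modulo p up to sign. -/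
theorem result {G : Type*} [Group G] [Finite G] (p : ℕ) [Fact p.Prime] (P K Q C : Subgroup G) (hP : IsPGroup p ↥P) (hPK : P ≤ Subgroup.normalizer (K : Set G)) (hQK : Q ≤ K) (hQn : ∀ k ∈ K, ∀ q ∈ Q, k * q * k⁻¹ ∈ Q) (hQp : ∃ a : ℕ, Nat.card ↥Q = p ^ a) (hQsyl : ¬ p ∣ Q.relIndex K) (hCK : C ≤ K) (hC : ∀ k : G, k ∈ C ↔ (k ∈ K ∧ ∀ x ∈ P, x * k * x⁻¹ * k⁻¹ ∈ Q)) : ∃ f : {χ : Cfsg.IrrCharacter ↥K // (∀ x ∈ P, ∀ k k' : ↥K, (k' : G) = x * (k : G) * x⁻¹ → (χ : ↥K → ℂ) k' = (χ : ↥K → ℂ) k)} → {ξ : Cfsg.IrrCharacter ↥C // (∀ x ∈ P, ∀ k k' : ↥C, (k' : G) = x * (k : G) * x⁻¹ → (ξ : ↥C → ℂ) k' = (ξ : ↥C → ℂ) k)}, Function.Bijective f ∧ ∀ χ, (∀ ξ : {ξ : Cfsg.IrrCharacter ↥C // (∀ x ∈ P, ∀ k k' : ↥C, (k' : G) = x * (k : G) * x⁻¹ → (ξ : ↥C → ℂ) k' = (ξ : ↥C → ℂ) k)}, ∃ m : ℕ, (Nat.card ↥C : ℂ)⁻¹ * ∑ᶠ c : ↥C, (χ.1 : ↥K → ℂ) (Subgroup.inclusion hCK c) * (starRingEnd ℂ) ((ξ.1 : ↥C → ℂ)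 c) = (m : ℂ) ∧ (ξ = f χ → ((m : ZMod p) = 1 ∨ (m : ZMod p) = -1)) ∧ (ξ ≠ f χ → p ∣ m)) ∧ ((Cfsg.charDegree ((f χ).1 : ↥C → ℂ) : ZMod p) = (Cfsg.charDegree (χ.1 : ↥K → ℂ) : ZMod p) ∨ (Cfsg.charDegree ((f χ).1 : ↥C → ℂ) : ZMod p) = -(Cfsg.charDegree (χ.1 : ↥K → ℂ) : ZMod p)) := by
  classical
  have hPK' : ∀ x ∈ P, ∀ k ∈ K, x * k * x⁻¹ ∈ K := fun x hx k hk =>
    (Subgroup.mem_normalizer_iff.mp (hPK hx) k).mp hk
  have hQinv : ∀ x ∈ P, ∀ q ∈ Q, x * q * x⁻¹ ∈ Q := by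
    intro x hx q hq
    have hy : x * q * x⁻¹ ∈ K := hPK' x hx q (hQK hq)
    obtain ⟨a, ha⟩ := hQp
    haveI : (Q.subgroupOf K).Normal := ⟨fun q hq g => hQn g g.2 q hq⟩
    let y : K := ⟨x * q * x⁻¹, hy⟩
    have hq1 : q ^ (p ^ a) = 1 := by
      have h1 : (⟨q, hq⟩ : Q) ^ (p ^ a) = 1 := by
        rw [← ha]
        exact pow_card_eq_one'
      exact congrArg Subtype.val h1
    have hy1 : y ^ (p ^ a) = 1 := by
      apply Subtype.ext
      show (x * q * x⁻¹) ^ (p ^ a) = 1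
      rw [conj_pow, hq1]
      group
    have hy2 : orderOf y ∣ p ^ a := orderOf_dvd_of_pow_eq_one hy1
    have hcop : (Q.subgroupOf K).index.Coprime (orderOf y) := by
      have hc1 : Nat.Coprime (Q.subgroupOf K).index p :=
        ((Nat.Prime.coprime_iff_not_dvd Fact.out).mpr hQsyl).symm
      exact Nat.Coprime.coprime_dvd_right hy2 (Nat.Coprime.pow_right a hc1)
    obtain ⟨m, hm⟩ := exists_pow_eq_self_of_coprime hcop
    have hmem : y ∈ Q.subgroupOf K := by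
      rw [← hm]
      exact Subgroup.pow_mem _ (Subgroup.pow_index_mem _ y) m
    exact hmem
  obtain ⟨f, hf, hcorr⟩ := main P Q hP hQinv _ K C rfl hPK' hQK hQn hQsyl hCK hC
  refine ⟨f, hf, fun χ => ⟨fun ξ => ?_, (hcorr χ).2⟩⟩
  obtain ⟨m, hm, h1, h2⟩ := (hcorr χ).1 ξ
  refine ⟨m, ?_, h1, h2⟩
  letI : Fintype C := finSub C
  rw [← hm, classInner_def, finsum_eq_sum_of_fintype]

end Cfsg.Agent.S4914
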