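import Cfsg.Statements.S4916
import Mathlib
import Cfsg.Agent.Lib.Block.Kernel
import Cfsg.Agent.Lib.CharExtra.DefectClass
import Cfsg.Agent.Lib.Degree.Sums

set_option autoImplicit false
open Cfsg

namespace Cfsg.Agent.S4916

/-- Let G be a finite group, p a prime and M a maximal ideal of the algebraic integers containing p. Then the principal character is the only irreducible character of degree prime to p in the principal p-block of G if and only if p does not divide the order of G. -/
theorem result {G : Type*} [Group G] [Finite G] (p : ℕ) [Fact p.Prime] (M : Ideal Cfsg.AlgInt) (hM : Cfsg.IsPModular p M) : (∀ χ : Cfsg.IrrCharacter G, χ ∈ Cfsg.principalBlock M G → ¬ p ∣ Cfsg.charDegree (χ : G → ℂ) → (χ : G → ℂ) = fun _ => (1 : ℂ)) ↔ ¬ p ∣ Nat.card G := by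

  classical
  have : Fintype G := Fintype.ofFinite G
  have := Cfsg.Agent.Lib.Block.isPModular_isPrime hM
  constructor
  · intro h hdvd
    have hp : p.Prime := Fact.out
    haveI : Fact p.Prime := ⟨hp⟩
    obtain ⟨x, hx⟩ := exists_prime_orderOf_dvd_card' p hdvd
    have hB : Cfsg.Agent.Lib.Block.IsBlockUnion M (Cfsg.principalBlock M G) :=
      Cfsg.Agent.Lib.Block.isBlockUnion_of_isPBlock Cfsg.Agent.Lib.CharExtra.isPBlock_principalBlock
    have h1 := Cfsg.Agent.Lib.Block.sum_block_eq_zero hM hB (x := (1 : G)) (y := x)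
      (by simpa using hp.one_lt.ne') (by rw [hx])
    have hone := Cfsg.Agent.Lib.CharExtra.oneIrr_mem_principalBlock (G := G) (M := M)
    rw [← Finset.add_sum_erase _ _ (Finset.mem_univ (Cfsg.Agent.Lib.Block.oneIrr G))] at h1
    rw [if_pos hone] at h1
    have h2 : ∃ a : ℂ, IsIntegral ℤ a ∧
        ∑ χ ∈ Finset.univ.erase (Cfsg.Agent.Lib.Block.oneIrr G), (if χ ∈ Cfsg.principalBlock M G then
          starRingEnd ℂ ((χ : G → ℂ) x) * (χ : G → ℂ) 1 else 0) = (p : ℂ) * a := by
      have hterm : ∀ χ ∈ Finset.univ.erase (Cfsg.Agent.Lib.Block.oneIrr G), ∃ a : ℂ, IsIntegral ℤ a ∧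
          (if χ ∈ Cfsg.principalBlock M G then
          starRingEnd ℂ ((χ : G → ℂ) x) * (χ : G → ℂ) 1 else 0) = (p : ℂ) * a := by
        intro χ hχ
        have hχ1 : χ ≠ Cfsg.Agent.Lib.Block.oneIrr G := by simpa using hχ
        split_ifs with hχB
        · have hd : p ∣ Cfsg.charDegree (χ : G → ℂ) := by
            by_contra hnd
            exact hχ1 (Subtype.ext (h χ hχB hnd))
          obtain ⟨m, hm⟩ := hd
          have hdeg : (χ : G → ℂ) 1 = (Cfsg.charDegree (χ : G → ℂ) : ℂ) :=
            (Cfsg.Agent.Lib.Char.map_one_eq_charDegree (Cfsg.Agent.Lib.Char.IsIrrCharacter.isCharacter χ.2))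
          refine ⟨starRingEnd ℂ ((χ : G → ℂ) x) * (m : ℂ), ?_, ?_⟩
          · refine IsIntegral.mul ?_ (isIntegral_natCast _)
            rw [← Cfsg.Agent.Lib.Degree.irr_map_inv χ x]
            exact Cfsg.Agent.Lib.Char.IsCharacter.isIntegral' (Cfsg.Agent.Lib.Char.IsIrrCharacter.isCharacter χ.2) x⁻¹
          · rw [hdeg, hm]
            push_cast
            ring
        · exact ⟨0, isIntegral_zero, by simp⟩
      choose! a ha ha' using hterm
      refine ⟨∑ χ ∈ Finset.univ.erase (Cfsg.Agent.Lib.Block.oneIrr G), a χ, IsIntegral.sum _ ha, ?_⟩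
      rw [Finset.mul_sum]
      exact Finset.sum_congr rfl ha'
    obtain ⟨a, ha, ha'⟩ := h2
    rw [ha'] at h1
    simp only [Cfsg.Agent.Lib.Block.oneIrr_coe, map_one, mul_one] at h1
    have hp0 : (p : ℂ) ≠ 0 := by exact_mod_cast hp.ne_zero
    have h3 : ((1 : ℕ) : ℂ) / (p : ℂ) = -a := by
      field_simp
      push_cast
      linear_combination h1
    have h4 : IsIntegral ℤ (((1 : ℕ) : ℂ) / (p : ℂ)) := by
      rw [h3]
      exact ha.neg
    have h5 := Cfsg.Agent.Lib.Char.nat_dvd_of_isIntegral_div hp.ne_zero h4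
    exact hp.one_lt.ne' (Nat.dvd_one.mp h5)
  · intro hnd χ hχ _
    have h1 := Cfsg.Agent.Lib.Block.ker_of_principal (⊤ : Subgroup G) hM (by simpa using hnd) hχ
    have h2 : ∀ g : G, (χ : G → ℂ) g = (χ : G → ℂ) 1 := fun g => h1 g trivial
    have h3 := Cfsg.Agent.Lib.Char.classInner_irr_self χ.2
    unfold Cfsg.classInner at h3
    simp only [h2, Finset.sum_const, Finset.card_univ, nsmul_eq_mul] at h3
    obtain ⟨n, hn, hn'⟩ := Cfsg.Agent.Lib.Degree.irr_degree_natCast χ
    rw [hn'] at h3 h2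
    have hc : (Nat.card G : ℂ) ≠ 0 := by exact_mod_cast Nat.card_pos.ne'
    rw [← Nat.card_eq_fintype_card] at h3
    rw [← mul_assoc, inv_mul_cancel₀ hc, one_mul, Complex.conj_natCast] at h3
    have h4 : n * n = 1 := by exact_mod_cast h3
    have h5 : n = 1 := by nlinarith
    funext g
    rw [h2 g, h5]
    simp

end Cfsg.Agent.S4916
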