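import Cfsg.Statements.S4923
import Cfsg.Agent.Lib.CharExtra.SylowFour

set_option autoImplicit false
open Cfsg

namespace Cfsg.Agent.S4923

/-- Let G be a finite group with Sylow 2-subgroup P of order 2^n ≥ 8, and let ζ be a primitive 2^(n−1)-th root of unity in ℂ. Then the commutator subgroup of P has index 4 in P if and only if there is an element g of P whose conjugacy class in G has even size and such that the field generated over ℚ by the values at g of all irreducible complex characters of G equals ℚ(ζ + ζ⁻¹) or ℚ(ζ − ζ⁻¹). -/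
theorem result {G : Type*} [Group G] [Finite G] (P : Sylow 2 G) (n : ℕ) (hn : 3 ≤ n) (hP : Nat.card P = 2 ^ n) (ζ : ℂ) (hζ : IsPrimitiveRoot ζ (2 ^ (n - 1))) :
    (commutator ↥P).index = 4 ↔
      ∃ g : G, g ∈ (P : Subgroup G) ∧ 2 ∣ (Subgroup.centralizer ({g} : Set G)).index ∧
        (IntermediateField.adjoin ℚ {z : ℂ | ∃ χ : Cfsg.IrrCharacter G, (χ : G → ℂ) g = z} = IntermediateField.adjoin ℚ ({ζ + ζ⁻¹} : Set ℂ) ∨
          IntermediateField.adjoin ℚ {z : ℂ | ∃ χ : Cfsg.IrrCharacter G, (χ : G → ℂ) g = z} = IntermediateField.adjoin ℚ ({ζ - ζ⁻¹} : Set ℂ)) := by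
  constructor
  · intro h
    exact Cfsg.Agent.Lib.CharExtra.SylowFour.forward P n hn hP ζ hζ h
  · rintro ⟨g, hgP, h2, h | h⟩
    · refine Cfsg.Agent.Lib.CharExtra.SylowFour.backward P n hn hP ζ hζ hgP h2 (t := ζ + ζ⁻¹) (c := 1) (Or.inl rfl) (by simp) ?_
      rw [h]
      exact IntermediateField.subset_adjoin _ _ rfl
    · refine Cfsg.Agent.Lib.CharExtra.SylowFour.backward P n hn hP ζ hζ hgP h2 (t := ζ - ζ⁻¹) (c := -1) (Or.inr rfl) (by ring) ?_
      rw [h]
      exact IntermediateField.subset_adjoin _ _ rfl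

end Cfsg.Agent.S4923
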