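import Cfsg.Statements.S4930
import Cfsg.Agent.Lib.Block.OddSum2

set_option autoImplicit false
open Cfsg

namespace Cfsg.Agent.S4930

/-- Let G be a finite group, P a Sylow 2-subgroup of G with normalizer N, and P′ the commutator subgroup of P. Then the sum of the squares of the degrees of the irreducible complex characters of G of odd degree is at least the index of P′ in N (the order of N divided by the order of P′), and equality holds if and only if N has a normal complement in G: a normal subgroup K of G with K ∩ N = 1 and KN = G. -/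
theorem result {G : Type*} [Group G] [Finite G] (P : Sylow 2 G) :
    Nat.card (Subgroup.normalizer ((P : Subgroup G) : Set G)) ≤ Nat.card (commutator ↥P) * (∑ᶠ χ : {χ : Cfsg.IrrCharacter G // ¬ 2 ∣ Cfsg.charDegree (χ : G → ℂ)}, Cfsg.charDegree (χ.1 : G → ℂ) ^ 2) ∧
    (Nat.card (Subgroup.normalizer ((P : Subgroup G) : Set G)) = Nat.card (commutator ↥P) * (∑ᶠ χ : {χ : Cfsg.IrrCharacter G // ¬ 2 ∣ Cfsg.charDegree (χ : G → ℂ)}, Cfsg.charDegree (χ.1 : G → ℂ) ^ 2) ↔
      ∃ K : Subgroup G, K.Normal ∧ K ⊓ Subgroup.normalizer ((P : Subgroup G) : Set G) = ⊥ ∧ K ⊔ Subgroup.normalizer ((P : Subgroup G) : Set G) = ⊤) := by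
  classical
  haveI : Fintype G := Fintype.ofFinite G
  haveI : Fact (Nat.Prime 2) := ⟨Nat.prime_two⟩
  obtain ⟨N, hN⟩ : ∃ N : Subgroup G, N = Subgroup.normalizer ((P : Subgroup G) : Set G) := ⟨_, rfl⟩
  rw [← hN]
  haveI : Fintype N := Fintype.ofFinite N
  have hPN : (P : Subgroup G) ≤ N := by
    rw [hN]
    exact Subgroup.le_normalizer
  have hidx : ¬ 2 ∣ N.index := by
    intro hd
    exact P.not_dvd_index (hd.trans (Subgroup.index_dvd_of_le hPN))
  rw [Lib.Block.OddSum.finsum_odd, Lib.Block.OddSum.card_normalizer_eq P N hN]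
  have hle := Lib.Block.OddSum.sum_sq_le' N hidx
  have hpos : 0 < Nat.card (commutator ↥P) := Nat.card_pos
  refine ⟨Nat.mul_le_mul_left _ hle, ?_⟩
  constructor
  · intro h
    have h1 := Nat.eq_of_mul_eq_mul_left hpos h
    have h2 := Lib.Block.OddSum.exists_extension_of_eq N hidx h1
    have h3 := (Cfsg.Agent.S4931.result 2 P).mp (by
      subst hN
      exact h2)
    obtain ⟨K, hK, hsup, hinf⟩ := h3
    exact ⟨K, hK, hN ▸ hinf, hN ▸ hsup⟩
  · rintro ⟨K, hK, hinf, hsup⟩
    have h1 := Lib.Block.OddSum.sum_le_of_complement P N hN K hK hinf hsup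
    rw [le_antisymm hle h1]

end Cfsg.Agent.S4930
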