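import Cfsg.Statements.S4937
import Mathlib
import Cfsg.Agent.Lib.Degree.RelExt2

set_option autoImplicit false
open Cfsg

namespace Cfsg.Agent.S4937

/-- Let G be a finite group, p a prime, M a maximal ideal of the algebraic integers containing p, N a normal subgroup of G and P a Sylow p-subgroup of N such that G = N·C_G(P). Let θ be an irreducible character in the principal p-block of N that is the restriction of some irreducible character of G. Then θ is the restriction of an irreducible character χ of G lying in the principal p-block of G such that, for every subgroup J of G containing N, the restriction of χ to J is an irreducible character of J lying in the principal p-block of J. -/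
theorem result {G : Type*} [Group G] [Finite G] (p : ℕ) [Fact p.Prime] (M : Ideal Cfsg.AlgInt) (hM : Cfsg.IsPModular p M) (N : Subgroup G) [N.Normal] (P : Sylow p ↥N)
    (hcov : N ⊔ Subgroup.centralizer (((P : Subgroup ↥N).map N.subtype : Subgroup G) : Set G) = ⊤)
    (θ : Cfsg.IrrCharacter ↥N) (hθ : θ ∈ Cfsg.principalBlock M ↥N)
    (hext : ∃ ψ : Cfsg.IrrCharacter G, ∀ x : ↥N, (ψ : G → ℂ) x = (θ : ↥N → ℂ) x) :
    ∃ χ : Cfsg.IrrCharacter G, χ ∈ Cfsg.principalBlock M G ∧ (∀ x : ↥N, (χ : G → ℂ) x = (θ : ↥N → ℂ) x) ∧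
      ∀ J : Subgroup G, N ≤ J → ∃ ξ : Cfsg.IrrCharacter ↥J, ξ ∈ Cfsg.principalBlock M ↥J ∧ ∀ y : ↥J, (ξ : ↥J → ℂ) y = (χ : G → ℂ) y := by
  classical
  haveI : Fintype G := Fintype.ofFinite G
  haveI : Fintype N := Fintype.ofFinite N
  haveI := Cfsg.Agent.Lib.Block.isPModular_isPrime hM
  obtain ⟨ψ, hψ⟩ := hext
  have hcov' : ∀ g : G, ∃ c ∈ Cfsg.Agent.Lib.Degree.sylC P, c⁻¹ * g ∈ N := by
    intro g
    have h1 : g ∈ N ⊔ Subgroup.centralizer (((P : Subgroup ↥N).map N.subtype : Subgroup G) : Set G) := by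
      rw [hcov]
      exact Subgroup.mem_top g
    rw [← SetLike.mem_coe, Subgroup.normal_mul, Set.mem_mul] at h1
    obtain ⟨n, hn, c, hc, e⟩ := h1
    refine ⟨c, hc, ?_⟩
    have e2 : c⁻¹ * g = c⁻¹ * n * c := by
      rw [← e]
      group
    rw [e2]
    have := (inferInstance : N.Normal).conj_mem n hn c⁻¹
    simpa using this
  have H : Cfsg.Agent.Lib.Degree.RelHyp p M N P θ := ⟨hM, hθ, hcov'⟩
  obtain ⟨χ, hχN, hχU⟩ := H.exists_U ψ hψ
  have hχc := Cfsg.Agent.Lib.Char.IsIrrCharacter.isCharacter χ.2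
  refine ⟨χ, H.sameBlock_top hχc hχN hχU, hχN, fun J hNJ => ?_⟩
  haveI : Fintype J := Fintype.ofFinite J
  have hirr : Cfsg.IsIrrCharacter J (fun y : J => (χ : G → ℂ) y) := by
    refine Cfsg.Agent.Lib.Char.isIrr_of_restrict_isIrr (N.subgroupOf J) (Cfsg.Agent.Lib.Char.IsCharacter.restrict J hχc) ?_
    have e : (fun k : N.subgroupOf J => (χ : G → ℂ) (k : J)) = (θ : N → ℂ) ∘ (Subgroup.subgroupOfEquivOfLe hNJ) := by
      funext k
      exact hχN (Subgroup.subgroupOfEquivOfLe hNJ k)
    rw [e]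
    exact Cfsg.Agent.Lib.Char.isIrr_comp_equiv _ θ.2
  exact ⟨⟨_, hirr⟩, H.sameBlock_sub hχc hχN hχU hNJ, fun y => rfl⟩

end Cfsg.Agent.S4937
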