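import Cfsg.Statements.S4969
import Cfsg.Agent.Lib.Degree.Sums
import Mathlib

set_option autoImplicit false
open Cfsg

namespace Cfsg.Agent.S4969

/-- Let G be a finite group with k conjugacy classes, g ∈ G, and N > 0. Then the sum over the irreducible complex characters χ of G with χ(1) ≥ N of |χ(g)|/χ(1) is at most √(k · #C_G(g)) / N. -/
theorem result {G : Type*} [Group G] [Finite G] (g : G) (N : ℝ) (hN : 0 < N) :
    ∑ᶠ χ : Cfsg.IrrCharacter G, (if N ≤ ‖(χ : G → ℂ) 1‖ then ‖(χ : G → ℂ) g‖ / ‖(χ : G → ℂ) 1‖ else 0) ≤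
      Real.sqrt ((Nat.card (ConjClasses G) : ℝ) * (Nat.card ↥(Subgroup.centralizer ({g} : Set G)) : ℝ)) / N := by
  classical
  cases nonempty_fintype G
  rw [Lib.Char.finsum_irr_eq_sum]
  have h1 : ∀ χ : Cfsg.IrrCharacter G,
      (if N ≤ ‖(χ : G → ℂ) 1‖ then ‖(χ : G → ℂ) g‖ / ‖(χ : G → ℂ) 1‖ else 0) ≤
        ‖(χ : G → ℂ) g‖ / N := by
    intro χ
    split_ifs with h
    · exact div_le_div_of_nonneg_left (norm_nonneg _) hN h
    · positivity
  have h2 := Finset.sum_le_sum (s := Finset.univ) (fun χ _ => h1 χ)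
  refine h2.trans ?_
  rw [← Finset.sum_div]
  refine div_le_div_of_nonneg_right ?_ hN.le
  apply Real.le_sqrt_of_sq_le
  have h3 := sq_sum_le_card_mul_sum_sq (s := (Finset.univ : Finset (Cfsg.IrrCharacter G)))
    (f := fun χ => ‖(χ : G → ℂ) g‖)
  refine h3.trans (le_of_eq ?_)
  rw [Finset.card_univ, ← Nat.card_eq_fintype_card, Lib.Char.card_irr_eq_card_conjClasses]
  congr 1
  have h4 := Lib.Char.second_orthogonality g g
  rw [if_pos (IsConj.refl _)] at h4
  have h5 : ∑ χ : Cfsg.IrrCharacter G, ((‖(χ : G → ℂ) g‖ ^ 2 : ℝ) : ℂ) =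
      (Nat.card (Subgroup.centralizer ({g} : Set G)) : ℂ) := by
    rw [← h4]
    refine Finset.sum_congr rfl fun χ _ => ?_
    rw [Complex.mul_conj, Complex.normSq_eq_norm_sq]
  exact_mod_cast h5

end Cfsg.Agent.S4969
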