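import Cfsg.Statements.S4989
import Cfsg.Agent.Lib.Degree.Burnside
import Mathlib

set_option autoImplicit false
open Cfsg

namespace Cfsg.Agent.S4989

/-- Let H be a subgroup of the finite group G and χ an irreducible complex character of G. Then the inner product of the restriction of χ to H with itself, (1/#H)·Σ_{h ∈ H} |χ(h)|², is at most 1 + #(Z ∖ H)/#H, where Z is the set of zeros of χ in G. -/
theorem result {G : Type*} [Group G] [Finite G] (H : Subgroup G) (χ : Cfsg.IrrCharacter G) : (Nat.card ↥H : ℝ)⁻¹ * ∑ᶠ h : ↥H, ‖(χ : G → ℂ) h‖ ^ 2 ≤ 1 + (Set.ncard ({x : G | (χ : G → ℂ) x = 0} \ (H : Set G)) : ℝ) / (Nat.card ↥H : ℝ) := by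
  classical
  cases nonempty_fintype G
  have : Fintype H := Fintype.ofFinite H
  have hHpos : (0 : ℝ) < (Nat.card H : ℝ) := by
    exact_mod_cast Nat.card_pos
  have hχc := Lib.Char.IsIrrCharacter.isCharacter χ.2
  set S : Finset G := Finset.univ.filter (fun g => g ∉ H) with hS
  have hclosed : ∀ g ∈ S, ∀ k : ℕ, k.Coprime (Nat.card G) → g ^ k ∈ S := by
    intro g hg k hk
    rw [hS, Finset.mem_filter] at hg ⊢
    refine ⟨Finset.mem_univ _, fun hgk => hg.2 ?_⟩
    obtain ⟨m, hm⟩ : ∃ m : ℕ, (g ^ k) ^ m = g := exists_pow_eq_self_of_coprime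
      (Nat.Coprime.coprime_dvd_right (orderOf_dvd_natCard g) hk)
    rw [← hm]
    exact H.pow_mem hgk m
  have hB := Lib.Degree.card_support_le_sum_norm_sq hχc S hclosed
  have hA := Lib.Degree.irr_sum_norm_sq χ
  have hsplit : ∑ g, ‖(χ : G → ℂ) g‖ ^ 2 = ∑ h : H, ‖(χ : G → ℂ) h‖ ^ 2 + ∑ g ∈ S, ‖(χ : G → ℂ) g‖ ^ 2 := by
    rw [← Finset.sum_filter_add_sum_filter_not Finset.univ (fun g => g ∈ H)]
    congr 1
    refine Finset.sum_subtype _ (fun g => ?_) _
    simp
  rw [finsum_eq_sum_of_fintype]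
  set c : ℕ := Set.ncard ({x : G | (χ : G → ℂ) x = 0} \ (H : Set G)) with hc
  have hcS : c = (S.filter (fun g => (χ : G → ℂ) g = 0)).card := by
    rw [hc, ← Set.ncard_coe_finset]
    congr 1
    ext x
    simp [hS, and_comm]
  have hScard : (S.card : ℝ) + (Nat.card H : ℝ) = (Nat.card G : ℝ) := by
    have h1 : S.card + Nat.card H = Nat.card G := by
      rw [Nat.card_eq_fintype_card (α := G), ← Finset.card_univ,
        ← Finset.card_filter_add_card_filter_not (s := Finset.univ) (fun g => g ∉ H), ← hS]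
      congr 1
      simp only [not_not]
      rw [Nat.card_eq_fintype_card, Fintype.card_subtype]
    exact_mod_cast h1
  have hSsplit : ((S.filter (fun g => (χ : G → ℂ) g ≠ 0)).card : ℝ) + (c : ℝ) = (S.card : ℝ) := by
    rw [hcS]
    have := Finset.card_filter_add_card_filter_not (s := S) (fun g => (χ : G → ℂ) g ≠ 0)
    simp only [not_not] at this
    exact_mod_cast this
  have hmain : ∑ h : H, ‖(χ : G → ℂ) h‖ ^ 2 ≤ (Nat.card H : ℝ) + c := by
    linarith
  rw [inv_mul_le_iff₀ hHpos, mul_add, mul_one, mul_div_cancel₀ _ hHpos.ne']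
  exact hmain

end Cfsg.Agent.S4989
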