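import Cfsg.Statements.S5001
import Mathlib
import Cfsg.Agent.Lib.Block.Height
import Cfsg.Agent.Lib.Block.Local
import Cfsg.Agent.Lib.Char.Constituent
import Cfsg.Agent.Lib.Char.Ops
import Cfsg.Agent.Lib.Char.Complete
import Cfsg.Agent.Lib.Char.Basic

set_option autoImplicit false
open Cfsg

namespace Cfsg.Agent.S5001


open Cfsg.Agent.Lib.Char Cfsg.Agent.Lib.Block

/-- If a character takes the value `λ φ(1)` at `a` with `|λ| = 1`, so do its constituents. -/
theorem constituent_scalar {A : Type*} [Group A] [Fintype A] {φ : A → ℂ}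
    (c : IrrCharacter A → ℕ) (hφ : φ = ∑ ψ, (c ψ : ℂ) • (ψ : A → ℂ)) (a : A) (l : ℂ) (hl : ‖l‖ = 1)
    (h : φ a = l * φ 1) (ψ : IrrCharacter A) (hψ : c ψ ≠ 0) : (ψ : A → ℂ) a = l * (ψ : A → ℂ) 1 := by
  classical
  have hl0 : l ≠ 0 := by
    intro h0
    rw [h0] at hl
    simp at hl
  -- values at `1` are natural numbers
  have hone : ∀ ψ : IrrCharacter A, (ψ : A → ℂ) 1 = (charDegree (ψ : A → ℂ) : ℂ) := fun ψ =>
    map_one_eq_charDegree (IsIrrCharacter.isCharacter ψ.2)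
  have hle : ∀ ψ : IrrCharacter A, ‖(ψ : A → ℂ) a‖ ≤ (charDegree (ψ : A → ℂ) : ℝ) := by
    intro ψ
    have := IsCharacter.norm_le' (IsIrrCharacter.isCharacter ψ.2) a
    rw [hone ψ] at this
    simpa using this
  have happ : ∀ x, φ x = ∑ ψ : IrrCharacter A, (c ψ : ℂ) * (ψ : A → ℂ) x := by
    intro x
    rw [hφ, Finset.sum_apply]
    rfl
  rw [happ, happ] at h
  set w : IrrCharacter A → ℂ := fun ψ => l⁻¹ * (ψ : A → ℂ) a with hw
  have hconj : ∑ ψ : IrrCharacter A, (c ψ : ℂ) * w ψ = ∑ ψ : IrrCharacter A, (c ψ : ℂ) * (charDegree (ψ : A → ℂ) : ℂ) := by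
    calc ∑ ψ : IrrCharacter A, (c ψ : ℂ) * w ψ = l⁻¹ * ∑ ψ : IrrCharacter A, (c ψ : ℂ) * (ψ : A → ℂ) a := by
          rw [Finset.mul_sum]
          refine Finset.sum_congr rfl fun ψ _ => ?_
          simp only [hw]
          ring
      _ = l⁻¹ * (l * ∑ ψ : IrrCharacter A, (c ψ : ℂ) * (ψ : A → ℂ) 1) := by rw [h]
      _ = ∑ ψ : IrrCharacter A, (c ψ : ℂ) * (ψ : A → ℂ) 1 := by
          rw [← mul_assoc, inv_mul_cancel₀ hl0, one_mul]
      _ = _ := by simp only [hone]
  have hnormw : ∀ ψ : IrrCharacter A, ‖w ψ‖ ≤ (charDegree (ψ : A → ℂ) : ℝ) := by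
    intro ψ
    simp only [hw, norm_mul, norm_inv, hl, inv_one, one_mul]
    exact hle ψ
  have hre : ∑ ψ : IrrCharacter A, (c ψ : ℝ) * ((charDegree (ψ : A → ℂ) : ℝ) - (w ψ).re) = 0 := by
    have h1 := congrArg Complex.re hconj
    have hreal : ∀ (n : ℕ) (z : ℂ), ((n : ℂ) * z).re = (n : ℝ) * z.re := by
      intro n z
      simp
    simp only [Complex.re_sum, hreal, Complex.natCast_re] at h1
    simp only [mul_sub, Finset.sum_sub_distrib]
    linarith
  have hnn : ∀ ψ ∈ (Finset.univ : Finset (IrrCharacter A)), 0 ≤ (c ψ : ℝ) * ((charDegree (ψ : A → ℂ) : ℝ) - (w ψ).re) := by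
    intro ψ _
    refine mul_nonneg (Nat.cast_nonneg _) (sub_nonneg.mpr ?_)
    exact (Complex.re_le_norm _).trans (hnormw ψ)
  have h0 := (Finset.sum_eq_zero_iff_of_nonneg hnn).mp hre ψ (Finset.mem_univ _)
  have hcne : (c ψ : ℝ) ≠ 0 := by exact_mod_cast hψ
  have h1 := (mul_eq_zero.mp h0).resolve_left hcne
  have h2 : (w ψ).re = (charDegree (ψ : A → ℂ) : ℝ) := by linarith
  have h3 : w ψ = (charDegree (ψ : A → ℂ) : ℂ) := by
    have hn := hnormw ψ
    rw [← h2] at hn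
    have h4 : (w ψ).im = 0 := by
      have h5 := Complex.sq_norm_sub_sq_re (w ψ)
      have h6 : ‖w ψ‖ = (w ψ).re := le_antisymm hn (Complex.re_le_norm _)
      rw [h6] at h5
      have h7 : (w ψ).im * (w ψ).im = 0 := by
        have : (w ψ).re ^ 2 - (w ψ).re ^ 2 = (w ψ).im * (w ψ).im := by linarith
        linarith
      exact mul_self_eq_zero.mp h7
    apply Complex.ext
    · simpa using h2
    · simpa using h4
  have h4 : l⁻¹ * (ψ : A → ℂ) a = (ψ : A → ℂ) 1 := by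
    rw [hone ψ]
    exact h3
  calc (ψ : A → ℂ) a = l * (l⁻¹ * (ψ : A → ℂ) a) := by
        rw [← mul_assoc, mul_inv_cancel₀ hl0, one_mul]
    _ = l * (ψ : A → ℂ) 1 := by rw [h4]

/-- A central element acts on an irreducible character by a root of unity times its degree. -/
theorem irr_central_value {A : Type*} [Group A] [Finite A] (ψ : IrrCharacter A) (a : A)
    (ha : ∀ x, x * a = a * x) : ∃ ω : ℂ, IsIntegral ℤ ω ∧ (ψ : A → ℂ) a = ω * (charDegree (ψ : A → ℂ) : ℂ) := by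
  classical
  obtain ⟨ψ, n, ρ, hρ, rfl⟩ := ψ
  obtain ⟨c, hc⟩ := schur_scalar ρ hρ (ρ a) (fun g v => by
    have h1 : ρ a (ρ g v) = ρ (a * g) v := by rw [map_mul]; rfl
    have h2 : ρ g (ρ a v) = ρ (g * a) v := by rw [map_mul]; rfl
    rw [h1, h2, ha])
  have hd : charDegree ρ.character = n := charDegree_natCast (by rw [Representation.char_one]; simp)
  have hn : 0 < n := by
    have := charDegree_pos_of_irr (χ := ρ.character) ⟨n, ρ, hρ, rfl⟩
    rwa [hd] at this
  haveI : Nontrivial (Fin n → ℂ) := by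
    haveI : Nonempty (Fin n) := ⟨⟨0, hn⟩⟩
    infer_instance
  refine ⟨c, ?_, ?_⟩
  · have h1 : c ^ orderOf a = 1 := by
      have h2 : (ρ a) ^ orderOf a = 1 := by
        rw [← map_pow, pow_orderOf_eq_one, map_one]
      rw [hc, smul_pow, one_pow] at h2
      have h3 : (c ^ orderOf a) • (1 : Module.End ℂ (Fin n → ℂ)) = (1 : ℂ) • 1 := by
        rw [h2, one_smul]
      exact smul_left_injective ℂ (one_ne_zero (α := Module.End ℂ (Fin n → ℂ))) h3
    exact IsIntegral.of_pow (orderOf_pos a) (by rw [h1]; exact isIntegral_one)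
  · show ρ.character a = _
    rw [hd, Representation.character, hc]
    simp [LinearMap.trace_one]

/-- Let p be a prime, G a finite group and B a p-block of G (relative to a maximal ideal M of the algebraic integers containing p) with defect group D. Let Z be a central p-subgroup of G contained in D and λ a linear character of Z (a homomorphism to the nonzero complex numbers). Say an irreducible character χ of G lies over λ when χ(z) = χ(1)λ(z) for all z ∈ Z. If some irreducible character in B lying over λ has height zero, then λ extends to a linear character of D. -/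
theorem result {G : Type*} [Group G] [Finite G] (p : ℕ) [Fact p.Prime] (M : Ideal Cfsg.AlgInt) (hM : Cfsg.IsPModular p M) (B : Set (Cfsg.IrrCharacter G)) (hB : Cfsg.IsPBlock M B) (D : Subgroup G) (hD : Cfsg.IsDefectGroup p M B D) (Z : Subgroup G) (hZc : Z ≤ Subgroup.center G) (hZp : IsPGroup p ↥Z) (hZD : Z ≤ D) (lam : ↥Z →* ℂˣ) (χ : Cfsg.IrrCharacter G) (hχ : χ ∈ B) (hover : (∀ z : ↥Z, (χ : G → ℂ) z = (χ : G → ℂ) 1 * (lam z : ℂ))) (h0 : Cfsg.blockHeight p B (χ : G → ℂ) = 0) : (∃ μ : ↥D →* ℂˣ, ∀ z : ↥Z, μ ⟨(z : G), hZD z.2⟩ = lam z) := by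

  classical
  haveI := Fintype.ofFinite G
  have hprime := isPModular_isPrime hM
  obtain ⟨g, hg, S, rfl⟩ := hD
  have hunit : ¬ MemLocalIdeal M ((χ : G → ℂ) g) :=
    not_memLocalIdeal_char_defect hM hB hg hχ (factorization_eq_minExp_of_height hχ h0)
  let C : Subgroup G := Subgroup.centralizer ({g} : Set G)
  haveI : Fintype C := Fintype.ofFinite C
  have hgC : g ∈ C := Subgroup.mem_centralizer_singleton_iff.mpr rfl
  let ĝ : C := ⟨g, hgC⟩
  have hĝ : ∀ x : C, x * ĝ = ĝ * x := by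
    intro x
    apply Subtype.ext
    exact Subgroup.mem_centralizer_singleton_iff.mp x.2
  let χC : C → ℂ := fun x => (χ : G → ℂ) x
  have hχC : IsCharacter C χC := IsCharacter.restrict C (IsIrrCharacter.isCharacter χ.2)
  obtain ⟨c, hc⟩ := character_eq_sum_nat hχC
  have hcapp : ∀ x : C, χC x = ∑ τ : IrrCharacter C, (c τ : ℂ) * (τ : C → ℂ) x := by
    intro x
    rw [hc, Finset.sum_apply]
    rfl
  -- a constituent of degree prime to `p`
  obtain ⟨τ, hτc, hτp⟩ : ∃ τ : IrrCharacter C, c τ ≠ 0 ∧ ¬ p ∣ charDegree (τ : C → ℂ) := by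
    by_contra hno
    push Not at hno
    apply hunit
    have h1 : (χ : G → ℂ) g = χC ĝ := rfl
    rw [h1, hcapp]
    refine memLocalIdeal_sum _ _ fun τ _ => ?_
    by_cases h0 : c τ = 0
    · rw [h0]
      simpa using memLocalIdeal_zero
    obtain ⟨k, hk⟩ := hno τ h0
    obtain ⟨ω, hω, hval⟩ := irr_central_value τ ĝ hĝ
    rw [hval, hk]
    have h2 : (c τ : ℂ) * (ω * ((p * k : ℕ) : ℂ)) = (p : ℂ) * ((c τ : ℂ) * ω * (k : ℂ)) := by
      push_cast
      ring
    rw [h2]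
    refine memLocalIdeal_mul_right (memLocalIdeal_p hM) (memLocalRing_of_isIntegral ?_)
    exact IsIntegral.mul (IsIntegral.mul (isIntegral_natCast _) hω) (isIntegral_natCast _)
  -- pass to the Sylow subgroup
  let S₀ : Subgroup C := (S : Subgroup C)
  haveI : Fintype S₀ := Fintype.ofFinite S₀
  let τS : S₀ → ℂ := fun x => (τ : C → ℂ) x
  have hτS : IsCharacter S₀ τS := IsCharacter.restrict S₀ (IsIrrCharacter.isCharacter τ.2)
  obtain ⟨d, hd⟩ := character_eq_sum_nat hτS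
  have hdapp : ∀ x : S₀, τS x = ∑ β : IrrCharacter S₀, (d β : ℂ) * (β : S₀ → ℂ) x := by
    intro x
    rw [hd, Finset.sum_apply]
    rfl
  have hdeg : charDegree (τ : C → ℂ) = ∑ β : IrrCharacter S₀, d β * charDegree (β : S₀ → ℂ) := by
    have h1 : (τ : C → ℂ) 1 = τS 1 := rfl
    have h2 := hdapp 1
    rw [← h1, map_one_eq_charDegree (IsIrrCharacter.isCharacter τ.2)] at h2
    have h3 : ∀ β : IrrCharacter S₀, (d β : ℂ) * (β : S₀ → ℂ) 1 = ((d β * charDegree (β : S₀ → ℂ) : ℕ) : ℂ) := by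
      intro β
      rw [map_one_eq_charDegree (IsIrrCharacter.isCharacter β.2)]
      push_cast
      ring
    simp only [h3] at h2
    exact_mod_cast h2
  obtain ⟨β, hβd, hβp⟩ : ∃ β : IrrCharacter S₀, d β ≠ 0 ∧ ¬ p ∣ charDegree (β : S₀ → ℂ) := by
    by_contra hno
    push Not at hno
    apply hτp
    rw [hdeg]
    refine Finset.dvd_sum fun β _ => ?_
    by_cases h0 : d β = 0
    · simp [h0]
    exact Dvd.dvd.mul_left (hno β h0) _
  have hβ1 : charDegree (β : S₀ → ℂ) = 1 := by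
    have hdvd := charDegree_dvd_card β.2
    obtain ⟨k, hk⟩ := IsPGroup.iff_card.mp S.isPGroup'
    have hk' : charDegree (β : S₀ → ℂ) ∣ p ^ k := by
      rw [← hk]
      exact hdvd
    obtain ⟨j, -, hj⟩ := (Nat.dvd_prime_pow (Fact.out : p.Prime)).mp hk'
    rw [hj] at hβp ⊢
    cases j with
    | zero => simp
    | succ j => exact absurd (dvd_pow_self p (Nat.succ_ne_zero j)) hβp
  have hβval : (β : S₀ → ℂ) 1 = 1 := by
    rw [map_one_eq_charDegree (IsIrrCharacter.isCharacter β.2), hβ1]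
    simp
  obtain ⟨μ₀, hμ₀⟩ := exists_hom_of_character_one (IsIrrCharacter.isCharacter β.2) hβval
  -- `Z` acts by `lam`.
  have hnorm : ∀ z : ↥Z, ‖(lam z : ℂ)‖ = 1 := by
    intro z
    have h1 : (lam z : ℂ) ^ orderOf z = 1 := by
      rw [← Units.val_pow_eq_pow_val, ← map_pow, pow_orderOf_eq_one, map_one, Units.val_one]
    exact Complex.norm_eq_one_of_pow_eq_one h1 (orderOf_pos z).ne'
  have hZC : ∀ z : ↥Z, (z : G) ∈ C := by
    intro z
    exact Subgroup.mem_centralizer_singleton_iff.mpr ((Subgroup.mem_center_iff.mp (hZc z.2)) g).symm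
  have hZS : ∀ z : ↥Z, (⟨(z : G), hZC z⟩ : C) ∈ S₀ := by
    intro z
    have h1 := hZD z.2
    obtain ⟨a, ha, ha'⟩ := h1
    have h2 : a = ⟨(z : G), hZC z⟩ := Subtype.ext ha'
    rw [← h2]
    exact ha
  have hτz : ∀ z : ↥Z, (τ : C → ℂ) ⟨(z : G), hZC z⟩ = (lam z : ℂ) * (τ : C → ℂ) 1 := by
    intro z
    refine constituent_scalar c hc ⟨(z : G), hZC z⟩ (lam z : ℂ) (hnorm z) ?_ τ hτc
    show (χ : G → ℂ) z = (lam z : ℂ) * (χ : G → ℂ) 1
    rw [hover z, mul_comm]
  have hβz : ∀ z : ↥Z, (β : S₀ → ℂ) ⟨⟨(z : G), hZC z⟩, hZS z⟩ = (lam z : ℂ) := by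
    intro z
    have := constituent_scalar d hd ⟨⟨(z : G), hZC z⟩, hZS z⟩ (lam z : ℂ) (hnorm z) (by
      show (τ : C → ℂ) ⟨(z : G), hZC z⟩ = (lam z : ℂ) * (τ : C → ℂ) 1
      exact hτz z) β hβd
    rw [this, hβval, mul_one]
  -- transfer to `D`.
  let e : S₀ ≃* ↥((S : Subgroup C).map C.subtype) :=
    Subgroup.equivMapOfInjective S₀ C.subtype C.subtype_injective
  refine ⟨μ₀.comp e.symm.toMonoidHom, fun z => ?_⟩
  have hez : e ⟨⟨(z : G), hZC z⟩, hZS z⟩ = ⟨(z : G), hZD z.2⟩ := rfl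
  have h1 : e.symm ⟨(z : G), hZD z.2⟩ = ⟨⟨(z : G), hZC z⟩, hZS z⟩ := by
    rw [← hez, MulEquiv.symm_apply_apply]
  apply Units.ext
  show ((μ₀ (e.symm ⟨(z : G), hZD z.2⟩) : ℂˣ) : ℂ) = _
  rw [h1]
  have h2 := congrFun hμ₀ ⟨⟨(z : G), hZC z⟩, hZS z⟩
  rw [← hβz z]
  exact h2.symm

end Cfsg.Agent.S5001
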