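import Cfsg.Statements.S5011
import Mathlib

set_option autoImplicit false
open Cfsg

namespace Cfsg.Agent.S5011

/-- Let G be a finite non-abelian simple group and ρ an irreducible complex representation of G on a space of dimension greater than one (irreducible in the sense that the only subspaces invariant under every ρ(x) are 0 and the whole space). Then for every non-identity element g of G, the centralizer of g does not act irreducibly: there is a non-zero proper subspace invariant under ρ(c) for every c commuting with g. -/
theorem result {G : Type*} [Group G] [Finite G] [IsSimpleGroup G]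
    (hG : ¬ IsMulCommutative G) {V : Type*} [AddCommGroup V] [Module ℂ V] [FiniteDimensional ℂ V]
    (ρ : Representation ℂ G V)
    (hirr : ∀ W : Submodule ℂ V, (∀ x : G, ∀ v ∈ W, ρ x v ∈ W) → W = ⊥ ∨ W = ⊤)
    (hdim : 1 < Module.finrank ℂ V) (g : G) (hg : g ≠ 1) :
    ∃ W : Submodule ℂ V, W ≠ ⊥ ∧ W ≠ ⊤ ∧ ∀ c ∈ Subgroup.centralizer ({g} : Set G), ∀ v ∈ W, ρ c v ∈ W := by
  classical
  have hnt : Nontrivial V := Module.nontrivial_of_finrank_pos (R := ℂ) (by omega)
  obtain ⟨μ, hμ⟩ := Module.End.exists_eigenvalue (ρ g)
  have hne : Module.End.eigenspace (ρ g) μ ≠ ⊥ := hμ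
  have hinv : ∀ c ∈ Subgroup.centralizer ({g} : Set G), ∀ v ∈ Module.End.eigenspace (ρ g) μ,
      ρ c v ∈ Module.End.eigenspace (ρ g) μ := by
    intro c hc v hv
    rw [Module.End.mem_eigenspace_iff] at hv ⊢
    have hcg : g * c = c * g := by
      have := Subgroup.mem_centralizer_iff.mp hc g (by simp)
      exact this
    have h1 : ρ g (ρ c v) = ρ c (ρ g v) := by
      rw [← Module.End.mul_apply, ← map_mul, hcg, map_mul, Module.End.mul_apply]
    rw [h1, hv, map_smul]
  by_cases htop : Module.End.eigenspace (ρ g) μ = ⊤
  · -- `ρ g` is a scalar
    exfalso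
    have hscal : ∀ v, ρ g v = μ • v := by
      intro v
      have : v ∈ Module.End.eigenspace (ρ g) μ := by rw [htop]; trivial
      exact Module.End.mem_eigenspace_iff.mp this
    have hker := (inferInstance : (ρ.ker).Normal).eq_bot_or_eq_top
    rcases hker with h0 | h1
    · -- faithful: then `g` is central
      have hinj : Function.Injective ρ := (MonoidHom.ker_eq_bot_iff ρ).mp h0
      have hcentral : ∀ x, x * g = g * x := by
        intro x
        apply hinj
        ext v
        simp only [map_mul, Module.End.mul_apply]
        rw [hscal v, hscal (ρ x v), map_smul]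
      have hZ : g ∈ Subgroup.center G := by
        rw [Subgroup.mem_center_iff]
        exact hcentral
      have hZtop : Subgroup.center G = ⊤ := by
        rcases (inferInstance : (Subgroup.center G).Normal).eq_bot_or_eq_top with h | h
        · rw [h, Subgroup.mem_bot] at hZ
          exact absurd hZ hg
        · exact h
      apply hG
      refine ⟨⟨fun a b => ?_⟩⟩
      have : a ∈ Subgroup.center G := by rw [hZtop]; trivial
      exact (Subgroup.mem_center_iff.mp this b).symm
    · -- trivial: then a line is invariant
      have htriv : ∀ x v, ρ x v = v := by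
        intro x v
        have : x ∈ ρ.ker := by rw [h1]; trivial
        rw [MonoidHom.mem_ker.mp this]
        rfl
      obtain ⟨v, hv⟩ := exists_ne (0 : V)
      have hline := hirr (Submodule.span ℂ {v}) (by
        intro x u hu
        rw [htriv]
        exact hu)
      rcases hline with h | h
      · rw [Submodule.span_singleton_eq_bot] at h
        exact hv h
      · have h2 : Module.finrank ℂ (Submodule.span ℂ {v}) = 1 := finrank_span_singleton hv
        rw [h, finrank_top] at h2
        omega
  · exact ⟨_, hne, htop, hinv⟩

end Cfsg.Agent.S5011
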