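import Cfsg.Statements.S5148
import Cfsg.Agent.Lib.Fusion.Abelian
import Cfsg.Agent.Lib.Fusion.Factor
import Mathlib

set_option autoImplicit false
open Cfsg

namespace Cfsg.Agent.S5148

open Cfsg.Agent.Lib.Fusion Cfsg.FusionSystem


/-- A quasisimple fusion system over a finite p-group S (saturated, equal to its p-residual subsystem, with simple — in particular nontrivial — factor system modulo its centre) has S nonabelian. -/
theorem result {Ω : Type*} [Group Ω] {S : Subgroup Ω} [Finite S] (p : ℕ) [Fact p.Prime] (hS : IsPGroup p S) (F : Cfsg.FusionSystem S) (hq : F.Quasisimple p) : ¬ IsMulCommutative S := by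
  classical
  intro hcomm
  have hab : ∀ x ∈ S, ∀ y ∈ S, x * y = y * x := fun x hx y hy =>
    congrArg Subtype.val (hcomm.is_comm.comm ⟨x, hx⟩ ⟨y, hy⟩)
  obtain ⟨hF, -, hsimple⟩ := hq
  have hcen : F.IsCentral F.center := isCentral_center
  have hZS : F.center ≤ S := hcen.1
  -- the centre is strongly closed
  have hsc : F.StronglyClosed F.center := by
    refine ⟨hZS, fun R hR φ hφ x => ?_⟩
    have h1 := ((isCentral_iff hS hF).1 hcen).2 x (hR x.2)
    have hres : φ.comp (Subgroup.inclusion (Subgroup.zpowers_le.2 x.2)) ∈ F.Hom (Subgroup.zpowers (x : Ω)) :=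
      res_mem F hφ _
    rw [show φ x = x from h1 _ ⟨_, hres, rfl⟩]
    exact hR x.2
  set Z : Subgroup S := (F.center).subgroupOf S with hZ
  let θ : S →* S ⧸ Z := QuotientGroup.mk' Z
  have hker : ∀ s : S, θ s = 1 ↔ (s : Ω) ∈ F.center := by
    intro s
    rw [show (θ s = 1) ↔ s ∈ Z from QuotientGroup.eq_one_iff s]
    exact Subgroup.mem_subgroupOf
  have hran : θ.range = ⊤ := MonoidHom.range_eq_top.2 (QuotientGroup.mk'_surjective Z)
  obtain ⟨E, hE⟩ := exists_factorSystem (F := F) (θ := θ) hsc hker hran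
  have hEs := hsimple E hE
  have hQp : IsPGroup p (S ⧸ Z) := hS.to_quotient Z
  have hTopp : IsPGroup p (⊤ : Subgroup (S ⧸ Z)) := IsPGroup.of_injective hQp (⊤ : Subgroup (S ⧸ Z)).subtype (Subgroup.subtype_injective _)
  haveI : Finite (⊤ : Subgroup (S ⧸ Z)) := inferInstance
  have habQ : ∀ x ∈ (⊤ : Subgroup (S ⧸ Z)), ∀ y ∈ (⊤ : Subgroup (S ⧸ Z)), x * y = y * x := by
    intro x _ y _
    obtain ⟨a, rfl⟩ := QuotientGroup.mk'_surjective Z x
    obtain ⟨b, rfl⟩ := QuotientGroup.mk'_surjective Z y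
    rw [← map_mul, ← map_mul]
    congr 1
    exact Subtype.ext (hab _ a.2 _ b.2)
  obtain ⟨-, hinner⟩ := (abelian_simple_iff hTopp hEs.1 habQ).1 hEs
  -- `Aut_F(S)` acts trivially on `S / Z`
  have htriv : ∀ α ∈ F.autGroup S, ∀ x : S, x⁻¹ * α x ∈ Z := by
    intro α hα x
    have hαi := (mem_autGroup_iff le_rfl).1 hα
    have hαZ : ∀ z ∈ Z, α.toMonoidHom z ∈ Z.comap (MonoidHom.id S) := by
      intro z hz
      have hz' := (abelian_mem_center_iff hS hF hab).1 (Subgroup.mem_subgroupOf.1 hz)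
      obtain ⟨hzS, hfix⟩ := hz'
      have : α z = z := hfix α hα
      show α z ∈ Z
      rw [this]
      exact hz
    let φ' : (⊤ : Subgroup (S ⧸ Z)) →* (S ⧸ Z) := (QuotientGroup.map Z Z α.toMonoidHom hαZ).comp (Subgroup.subtype _)
    have hpre : preimageAlong θ ⊤ ≤ S := fun x hx => (mem_preimageAlong.1 hx).1
    have hφ' : φ' ∈ E.Hom ⊤ := by
      refine (hE.2.2.2 ⊤ φ').2 ⟨le_rfl, S.subtype.comp α.toMonoidHom |>.comp (Subgroup.inclusion hpre), ?_, ?_⟩
      · exact res_mem F hαi hpre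
      · refine ⟨hpre, fun y => (α _).2, fun y => trivial, fun y => ?_⟩
        rfl
    rw [hinner] at hφ'
    obtain ⟨-, g, -, hg⟩ := hφ'
    have h1 := hg ⟨θ x, trivial⟩
    have h2 : φ' ⟨θ x, trivial⟩ = θ (α x) := rfl
    rw [h2] at h1
    have h3 : g * θ x * g⁻¹ = θ x := by
      rw [habQ g trivial (θ x) trivial]
      simp
    change θ (α x) = g * θ x * g⁻¹ at h1
    rw [h3] at h1
    have h4 : θ (x⁻¹ * α x) = 1 := by rw [map_mul, map_inv, h1]; simp
    exact (QuotientGroup.eq_one_iff _).1 h4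
  -- hence trivially on `S`
  have hcop := abelian_coprime hS hF hab
  have hall : ∀ α ∈ F.autGroup S, α = 1 := by
    intro α hα
    have hfixZ : ∀ z ∈ Z, (α ^ (p ^ 0)) z = z := by
      intro z hz
      have hz' := (abelian_mem_center_iff hS hF hab).1 (Subgroup.mem_subgroupOf.1 hz)
      obtain ⟨hzS, hfix⟩ := hz'
      simpa using hfix α hα
    obtain ⟨N, hN⟩ := pow_fix_step hS α (le_top : Z ≤ ⊤) (fun x _ => htriv α hα x) hfixZ
    have hp1 : α ^ (p ^ N) = 1 := by
      ext x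
      simpa using congrArg Subtype.val (hN x trivial)
    have hfinA := finite_autGroup F (le_refl S)
    have h2 : (⟨α, hα⟩ : F.autGroup S) ^ (p ^ N) = 1 := Subtype.ext hp1
    have h3 : orderOf (⟨α, hα⟩ : F.autGroup S) ∣ p ^ N := orderOf_dvd_of_pow_eq_one h2
    have h4 : orderOf (⟨α, hα⟩ : F.autGroup S) ∣ Nat.card (F.autGroup S) := orderOf_dvd_natCard _
    have h5 : orderOf (⟨α, hα⟩ : F.autGroup S) = 1 :=
      Nat.eq_one_of_dvd_coprimes (Nat.Coprime.pow_right N hcop) h4 h3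
    have h6 := orderOf_eq_one_iff.1 h5
    exact congrArg Subtype.val h6
  -- so `Z(F) = S`, a contradiction
  have hZtop : Z = ⊤ := by
    rw [eq_top_iff]
    intro x _
    refine Subgroup.mem_subgroupOf.2 ((abelian_mem_center_iff hS hF hab).2 ⟨x.2, fun α hα => ?_⟩)
    rw [hall α hα]
    rfl
  apply hEs.2.1
  rw [eq_bot_iff]
  intro y _
  obtain ⟨a, rfl⟩ := QuotientGroup.mk'_surjective Z y
  have : a ∈ Z := by rw [hZtop]; trivial
  exact Subgroup.mem_bot.2 ((QuotientGroup.eq_one_iff a).2 this)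

end Cfsg.Agent.S5148
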