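import Cfsg.Statements.S5150
import Cfsg.Agent.Lib.Layer.Main
import Mathlib

set_option autoImplicit false
open Cfsg

namespace Cfsg.Agent.S5150

/-- Let F be a saturated fusion system over a finite p-group S and E its layer (over T). Then O_p(F), the largest subgroup normal in F, centralizes E: every map of E extends to a map of F on the subgroup generated by its source and O_p(F) that fixes O_p(F) elementwise (so E is a subsystem of the centralizer system of O_p(F), and T commutes with O_p(F)). -/
theorem result {Ω : Type*} [Group Ω] {S : Subgroup Ω} [Finite S] (p : ℕ) [Fact p.Prime] (hS : IsPGroup p S) (F : Cfsg.FusionSystem S) (hF : F.IsSaturated p) {T : Subgroup Ω} (E : Cfsg.FusionSystem T) (hE : E.IsLayerOf F p) (P : Subgroup Ω) : E.Hom P ⊆ F.centralizerHom F.core P := by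
  have hN : F.IsNormal F.core := Cfsg.Agent.Lib.Fusion.isNormal_core
  obtain ⟨G, hG⟩ := Cfsg.Agent.S5097.result F F.core hN.1
  have hGn := Cfsg.Agent.Lib.Layer.cent_normal hS hF hN hG
  have hsub := hE.2.2 _ G hGn (fun U C hC P φ hφ => by
    rw [hG P]
    exact Cfsg.Agent.Lib.Layer.sub_central hC.1 (Fact.out : p.Prime) inferInstance hS hF hC.2 _ hN P hφ)
  intro φ hφ
  have := hsub P hφ
  rwa [hG P] at this

end Cfsg.Agent.S5150
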