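import Cfsg.Statements.S5193
import Cfsg.Agent.Lib.Fusion.GlaubMain
import Mathlib

set_option autoImplicit false
open Cfsg

namespace Cfsg.Agent.S5193

open Cfsg.Agent.Lib.Fusion Cfsg.FusionSystem


/-- Glauberman's Theorem for fusion systems. Let F be a saturated fusion system over a finite p-group S, let J(S) be the subgroup generated by the abelian subgroups of S of largest order, and let N be the normalizer fusion system of J(S) in F (a fusion system over N_S(J(S)) = S). Then every p-th power of an element of Z(S) that lies in the centre of N lies in the centre of F; and if p is odd, or if the symmetric group of degree 4 is not involved in any model of the normalizer system of a fully normalized F-centric subgroup (F is S₄-free), then the centre of N equals the centre of F. -/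
theorem result {Ω : Type*} [Group Ω] {S : Subgroup Ω} [Finite S] (p : ℕ) [Fact p.Prime] (hS : IsPGroup p S) (F : Cfsg.FusionSystem S) (hF : F.IsSaturated p) (N : Cfsg.FusionSystem (Cfsg.FusionSystem.normalizerIn S (Cfsg.thompsonSubgroupAOf S))) (hN : F.IsNormalizerSystem (Cfsg.thompsonSubgroupAOf S) N) : Subgroup.closure ((fun z : Ω => z ^ p) '' ((S ⊓ Subgroup.centralizer (S : Set Ω) : Subgroup Ω) : Set Ω)) ⊓ N.center ≤ F.center ∧ (p ≠ 2 ∨ F.IsSectionFree p (Equiv.Perm (Fin 4)) → N.center = F.center) := by
  refine ⟨center_of_chain (W := thompsonSubgroupA) hS hF localCond_thompson_pow thompsonSubgroupA_inv (fun Q _ _ _ => center_le_thompsonA Q) hN inf_le_right fun w hw => powAdm_of_mem_closure hw.1, ?_⟩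
  intro h
  by_cases hp : p = 2
  · subst hp
    rcases h with h | h
    · exact absurd rfl h
    · exact center_eq_of_free hS hF h hN
  · exact center_eq_of_odd hS hF hp hN

end Cfsg.Agent.S5193
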