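import Cfsg.Statements.S5199
import Cfsg.Agent.Lib.Fusion.Closed
import Mathlib

set_option autoImplicit false
open Cfsg

namespace Cfsg.Agent.S5199

open Cfsg.Agent.Lib.Fusion Cfsg.FusionSystem


/-- Let F be a saturated fusion system over a finite p-group S, E a normal subsystem of F over T, and F₀ a normal subsystem of F over a subgroup U containing both T and the hyperfocal subgroup of F, such that F₀ has p-power index in F. Then E is a subsystem of F₀. -/
theorem result {Ω : Type*} [Group Ω] {S : Subgroup Ω} [Finite S] (p : ℕ) [Fact p.Prime] (hS : IsPGroup p S) (F : Cfsg.FusionSystem S) (hF : F.IsSaturated p) {T U : Subgroup Ω} (E : Cfsg.FusionSystem T) (hE : E.IsNormalIn F p) (F₀ : Cfsg.FusionSystem U) (hF₀ : F₀.IsNormalIn F p) (hU : T ⊔ F.hyperfocalSubgroup p ≤ U) (hidx : F₀.HasPPowerIndexIn F p) : E.IsSubsystemOf F₀ := by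
  have hE1 : E.IsSaturated p := hE.1.1
  have hEsub : E.IsSubsystemOf F := hE.1.2.2.1
  have hT : T ≤ S := hE.1.2.2.2.1.1
  have hTU : T ≤ U := le_sup_left.trans hU
  have : Finite T := finite_of_le hT
  have hTp : IsPGroup p T := hS.to_le hT
  have hcl : ClosedClass E (fun P φ => φ ∈ F₀.Hom P) := by
    refine ⟨fun P g hP hg => F₀.conj_mem (hP.trans hTU) (hTU hg),
      fun P Q φ ψ _ _ hφ hψ hm => F₀.comp_mem hφ hψ hm, ?_⟩
    intro P φ ψ _ hφ _ hv
    obtain ⟨ψ', hψ', hv'⟩ := F₀.inv_mem hφ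
    have e : ψ = ψ' := by
      ext ⟨_, x, rfl⟩
      exact (hv x).trans (hv' x).symm
    exact e ▸ hψ'
  intro P φ hφ
  refine hcl.fn_induction hTp hE1 ?_ P φ hφ
  intro R hR _ α hα
  have hRT : R ≤ T := hR.1
  have hRS : R ≤ S := hRT.trans hT
  obtain ⟨s, hs, β, hβ, e⟩ := exists_conj_mul_residual hTp hE1 hR ⟨α, hα⟩
  have hβF : ((β : E.autGroup R) : MulAut R) ∈ (pResidual p (F.autGroup R)).map (F.autGroup R).subtype := by
    have hle : E.autGroup R ≤ F.autGroup R := by
      intro γ hγ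
      exact (mem_autGroup_iff hRS).2 (hEsub R ((mem_autGroup_iff hRT).1 hγ))
    have hmap : (pResidual p (E.autGroup R)).map (E.autGroup R).subtype ≤
        (pResidual p (F.autGroup R)).map (F.autGroup R).subtype := by
      rw [pResidual, MonoidHom.map_closure, Subgroup.closure_le]
      rintro _ ⟨g, hg, rfl⟩
      refine ⟨⟨(g : MulAut R), hle g.2⟩, Subgroup.subset_closure ?_, rfl⟩
      have : orderOf (⟨(g : MulAut R), hle g.2⟩ : F.autGroup R) = orderOf g := by
        rw [← Subgroup.orderOf_coe, ← Subgroup.orderOf_coe]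
      show Nat.Coprime _ p
      rw [this]
      exact hg
    exact hmap ⟨β, hβ, rfl⟩
  have hβ0 : ((β : E.autGroup R) : MulAut R) ∈ F₀.autGroup R :=
    hidx.2.2 R (hRT.trans hTU) hβF
  have hβ1 := (mem_autGroup_iff (hRT.trans hTU)).1 hβ0
  have hs' : s ∈ T := (mem_normalizerIn.1 hs).1
  have hc : conjHom R s ∈ F₀.Hom R := F₀.conj_mem (hRT.trans hTU) (hTU hs')
  have := F₀.comp_mem (P := R) (Q := R) hβ1 hc (fun x => ((β : MulAut R) x).2)
  refine hom_congr F₀ this (fun x => ?_)
  show ((α x : R) : Ω) = s * (((β : MulAut R) x : R) : Ω) * s⁻¹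
  exact e x

end Cfsg.Agent.S5199
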