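import Cfsg.Statements.S5219
import Cfsg.Agent.Lib.Fusion.UpperExp
import Mathlib

set_option autoImplicit false
open Cfsg

namespace Cfsg.Agent.S5219

open Cfsg.Agent.Lib.Fusion Cfsg.FusionSystem


/-- Let p be a prime, n a natural number, S a nontrivial finite p-group of nilpotence class at most n(p−1)+1, and F a saturated fusion system over S with no nontrivial normal subgroup (O_p(F) = 1). Then S has exponent dividing p^(n²(p−1)+n). -/
theorem result {Ω : Type*} [Group Ω] {S : Subgroup Ω} [Finite S] (p : ℕ) [Fact p.Prime] (hS : IsPGroup p S) (F : Cfsg.FusionSystem S) (hF : F.IsSaturated p) (n : ℕ) (hS1 : S ≠ ⊥) (hcl : Subgroup.lowerCentralSeries S (n * (p - 1) + 1) = ⊥) (hcore : F.core = ⊥) : Monoid.exponent ↥S ∣ p ^ (n ^ 2 * (p - 1) + n) := by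
  have hN : F.IsNormal (powZ p n S) := isNormal_powZ hS hF hcl
  have hle : powZ p n S ≤ F.core := le_sSup hN
  rw [hcore] at hle
  have hZ : ∀ z : S, z ∈ Subgroup.center S → z ^ (p ^ n) = 1 := by
    intro z hz
    have h1 : (z : Ω) ^ (p ^ n) ∈ powZ p n S := by
      refine pow_mem_powZ z.2 fun t ht => ?_
      have := (Subgroup.mem_center_iff.1 hz) ⟨t, ht⟩
      exact congrArg Subtype.val this
    have h2 := hle h1
    rw [Subgroup.mem_bot] at h2
    exact Subtype.ext (by simpa using h2)
  have hcl₀ : (⊤ : Subgroup S).lowerCentralSeries (n * (p - 1) + 1) = ⊥ := by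
    have h1 := Subgroup.top_subtype_lowerCentralSeries S (n * (p - 1) + 1)
    rw [hcl] at h1
    exact (Subgroup.map_eq_bot_iff_of_injective _ S.subtype_injective).1 h1
  have h := exponent_dvd_of_center hZ hcl₀
  have heq : (p ^ n) ^ (n * (p - 1) + 1) = p ^ (n ^ 2 * (p - 1) + n) := by
    rw [← pow_mul]
    congr 1
    ring
  rwa [heq] at h

end Cfsg.Agent.S5219
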