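import Cfsg.Statements.S5220
import Cfsg.Agent.Lib.GenJ.Constrained
import Mathlib

set_option autoImplicit false
open Cfsg

namespace Cfsg.Agent.S5220

/-- Let F be a saturated fusion system over a nontrivial finite p-group S, let J(S) be the subgroup generated by the abelian subgroups of S of largest order, and let V be the subgroup generated by the p-th powers of the elements of Z(S). Then F is generated by the centralizer fusion system of V and the normalizer fusion system of J(S): every fusion system over S containing the maps of both contains every map of F. -/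
theorem result {Ω : Type*} [Group Ω] {S : Subgroup Ω} [Finite S] (p : ℕ) [Fact p.Prime] (hS : IsPGroup p S) (F : Cfsg.FusionSystem S) (hF : F.IsSaturated p) (hS1 : S ≠ ⊥) (C : Cfsg.FusionSystem (Cfsg.FusionSystem.centralizerIn S (Cfsg.powerClosure p 1 (S ⊓ Subgroup.centralizer (S : Set Ω))))) (hC : F.IsCentralizerSystem (Cfsg.powerClosure p 1 (S ⊓ Subgroup.centralizer (S : Set Ω))) C) (N : Cfsg.FusionSystem (Cfsg.FusionSystem.normalizerIn S (Cfsg.thompsonSubgroupAOf S))) (hN : F.IsNormalizerSystem (Cfsg.thompsonSubgroupAOf S) N) (E : Cfsg.FusionSystem S) (hCE : C.IsSubsystemOf E) (hNE : N.IsSubsystemOf E) : F.IsSubsystemOf E := by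
  classical
  let E₀ : Cfsg.FusionSystem S := Cfsg.Agent.Lib.GenJ.classSys F E le_rfl Set.univ (fun _ _ _ _ => trivial) (fun _ _ _ hQ => absurd trivial hQ)
  have hy : Cfsg.Agent.Lib.GenJ.GenHyp p F E₀ := by
    refine ⟨fun P φ h => h.1, fun P φ h => ⟨h.1, fun _ => ?_⟩, fun P φ h => ⟨h.1, fun _ => ?_⟩⟩
    · refine hCE P ?_
      rw [hC P]
      exact h
    · refine hNE P ?_
      rw [hN P]
      exact h
  intro P φ hφ
  exact (Cfsg.Agent.Lib.GenJ.genIH_all p Ω (2 * Nat.card S - Nat.card F.core + 1) S hS F hF (Nat.lt_succ_self _) E₀ hy P hφ).2 trivial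

end Cfsg.Agent.S5220
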