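import Cfsg.Statements.S5221
import Cfsg.Agent.Lib.Fusion.Sparse
import Mathlib

set_option autoImplicit false
open Cfsg

namespace Cfsg.Agent.S5221

open Cfsg.Agent.Lib.Fusion Cfsg.FusionSystem


/-- Let F be a sparse fusion system over a finite p-group S: a saturated fusion system, not the inner fusion system of S, whose only saturated fusion systems over S contained in it are F itself and the inner one. If p is odd, or F is S₄-free (the symmetric group of degree 4 is not involved in any model of the normalizer system of a fully normalized F-centric subgroup), then F is constrained. -/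
theorem result {Ω : Type*} [Group Ω] {S : Subgroup Ω} [Finite S] (p : ℕ) [Fact p.Prime] (hS : IsPGroup p S) (F : Cfsg.FusionSystem S) (hF : F.IsSaturated p) (hsp : ¬ (∀ P : Subgroup Ω, F.Hom P = (Cfsg.innerFusionSystem S).Hom P) ∧ ∀ E : Cfsg.FusionSystem S, E.IsSaturated p → E.IsSubsystemOf F → (∀ P : Subgroup Ω, E.Hom P = F.Hom P) ∨ (∀ P : Subgroup Ω, E.Hom P = (Cfsg.innerFusionSystem S).Hom P)) (hp : p ≠ 2 ∨ F.IsSectionFree p (Equiv.Perm (Fin 4))) : F.IsConstrained p := by
  obtain ⟨hne, hsp⟩ := hsp
  refine constrained_of_no_larger hS hF hp fun X hlt hXS hXN N hN hnon => ?_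
  have hnorm : normalizerIn S X = S := le_antisymm (normalizerIn_le _) fun g hg => mem_normalizerIn.2 ⟨hg, hXN hg⟩
  have hfn : F.IsFullyNormalized X := isFullyNormalized_of_normalizerIn_eq hXS hnorm
  have hNs := isSaturated_normalizerSystem hS hF hfn hN
  obtain ⟨E, hEhom, hEs⟩ := exists_transport_system (p := p) hnorm N
  have hsub : ∀ P, E.Hom P ⊆ F.Hom P := fun P φ hφ => by
    rw [hEhom, hN P] at hφ
    exact hφ.1
  rcases hsp E (hEs hNs) hsub with h | h
  · have hXnorm : F.IsNormal X := isNormal_of_hom_eq hnorm (fun P => by rw [← h, hEhom]) (isNormal_normalizerSystem hXS hN)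
    exact hlt.not_ge (le_sSup hXnorm)
  · refine not_nonInner_of_eq_inner hS (F := E) h ?_
    exact NonInner.mono (fun P => by rw [hEhom]) hnorm.le hnon

end Cfsg.Agent.S5221
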