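import Cfsg.Statements.S5222
import Cfsg.Agent.Lib.Fusion.BisetTate3
import Mathlib
-- import your own Cfsg.Agent.* helpers here

set_option autoImplicit false
open Cfsg

namespace Cfsg.Agent.S5222

open Cfsg.Agent.Lib.Fusion.Biset Cfsg.Agent.Lib.Fusion Cfsg.FusionSystem

open scoped commutatorElement


/-- Let F be a saturated fusion system over a finite p-group S whose normalizer fusion system of S is the inner fusion system of S (Aut_F(S) is a p-group). Then for every subgroup Q of S with [S, S] ≤ Q ≤ Φ(S), the normalizer fusion system of Q in F is the inner fusion system of N_S(Q) = S. -/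
theorem result {Ω : Type*} [Group Ω] {S : Subgroup Ω} [Finite S] (p : ℕ) [Fact p.Prime] (hS : IsPGroup p S) (F : Cfsg.FusionSystem S) (hF : F.IsSaturated p) (hN : ∀ N : Cfsg.FusionSystem (Cfsg.FusionSystem.normalizerIn S S), F.IsNormalizerSystem S N → ∀ P : Subgroup Ω, N.Hom P = (Cfsg.innerFusionSystem (Cfsg.FusionSystem.normalizerIn S S)).Hom P) (Q : Subgroup Ω) (h1 : (commutator ↥S).map S.subtype ≤ Q) (h2 : Q ≤ (frattini ↥S).map S.subtype) : ∀ N : Cfsg.FusionSystem (Cfsg.FusionSystem.normalizerIn S Q), F.IsNormalizerSystem Q N → ∀ P : Subgroup Ω, N.Hom P = (Cfsg.innerFusionSystem (Cfsg.FusionSystem.normalizerIn S Q)).Hom P := by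
  have hQS : Q ≤ S := by
    intro x hx
    obtain ⟨y, -, rfl⟩ := h2 hx
    exact y.2
  have hc : ⁅(S : Subgroup Ω), (S : Subgroup Ω)⁆ ≤ Q := by
    rw [← Subgroup.map_subtype_commutator]
    exact h1
  have := finite_of_le hQS
  have hSn : S ≤ Subgroup.normalizer (Q : Set Ω) := by
    intro g hg
    refine mem_normalizer_of_forall fun x hx => ?_
    have h3 : ⁅g, x⁆ ∈ Q := hc (Subgroup.commutator_mem_commutator hg (hQS hx))
    have h4 := Q.mul_mem h3 hx
    simpa [commutatorElement_def, mul_assoc] using h4
  have hT : normalizerIn S Q = S := inf_eq_left.2 hSn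
  have hfn : F.IsFullyNormalized Q := by
    refine ⟨hQS, fun Q' _ => ?_⟩
    rw [hT]
    exact Nat.card_le_card_of_injective (Subgroup.inclusion (normalizerIn_le Q')) (Subgroup.inclusion_injective _)
  intro N hE P
  have hsat := isSaturated_normalizerSystem hS hF hfn hE
  have hNF : N.IsSubsystemOf F := by
    intro R φ hφ
    rw [hE R] at hφ
    exact hφ.1
  have hC : N.StronglyClosed Q := IsNormal.stronglyClosed (isNormal_normalizerSystem hQS hE)
  have := eq_inner_aux hT hS hsat hNF hC hc h2 (fun α hα => aut_conj_of_normalizer_inner hN hα)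
  rw [this]

end Cfsg.Agent.S5222
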