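import Cfsg.Statements.S5223
import Cfsg.Agent.Lib.Fusion.PElt
import Mathlib

set_option autoImplicit false
open Cfsg

namespace Cfsg.Agent.S5223

open Cfsg.Agent.Lib.Fusion Cfsg.FusionSystem


/-- Let F be a saturated fusion system over a finite p-group S. Suppose there are subgroups Q₀ = S, Q₁, …, Qₙ = 1 (not required to be nested) such that for each i < n the focal subgroup of Qᵢ (generated by the elements x⁻¹φ(x), x ∈ Qᵢ, φ a map of F defined on the cyclic group generated by x) lies in Qᵢ₊₁. Then F is the inner fusion system of S. -/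
theorem result {Ω : Type*} [Group Ω] {S : Subgroup Ω} [Finite S] (p : ℕ) [Fact p.Prime] (hS : IsPGroup p S) (F : Cfsg.FusionSystem S) (hF : F.IsSaturated p) (n : ℕ) (Q : Fin (n + 1) → Subgroup Ω) (hQ0 : Q 0 = S) (hQn : Q (Fin.last n) = ⊥) (hstep : ∀ i : Fin n, Subgroup.closure {y : Ω | ∃ x ∈ Q i.castSucc, ∃ φ ∈ F.Hom (Subgroup.zpowers x), y = x⁻¹ * φ ⟨x, Subgroup.mem_zpowers x⟩} ≤ Q i.succ) : ∀ P : Subgroup Ω, F.Hom P = (Cfsg.innerFusionSystem S).Hom P := by
  have key : ∀ R, F.IsFullyNormalized R → IsPGroup p (F.autGroup R) := by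
    intro R hR
    have hRS := hR.1
    haveI : Finite R := finite_of_le hRS
    have hRp : IsPGroup p R := hS.to_le hRS
    rintro ⟨α, hα⟩
    have hαi := (mem_autGroup_iff hRS).1 hα
    have hmem : ∀ i : Fin (n + 1), ∀ x ∈ iterComm α i.val, (x : Ω) ∈ Q i := by
      intro i
      induction i using Fin.induction with
      | zero =>
        intro x _
        rw [hQ0]
        exact hRS x.2
      | succ i ih =>
        intro x hx
        have hle : iterComm α (i.val + 1) ≤ (Q i.succ).comap R.subtype := by
          refine (Subgroup.closure_le _).2 ?_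
          rintro _ ⟨y, hy, rfl⟩
          have hyQ := ih y hy
          have hres : (R.subtype.comp α.toMonoidHom).comp
              (Subgroup.inclusion (Subgroup.zpowers_le.2 y.2)) ∈ F.Hom (Subgroup.zpowers (y : Ω)) :=
            res_mem F hαi _
          have := hstep i (Subgroup.subset_closure ⟨y, hyQ, _, hres, rfl⟩)
          exact this
        exact hle hx
    have hbot : iterComm α n = ⊥ := by
      rw [eq_bot_iff]
      intro x hx
      have := hmem (Fin.last n) x hx
      rw [hQn, Subgroup.mem_bot] at this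
      exact Subgroup.mem_bot.2 (Subtype.ext this)
    obtain ⟨N, hN⟩ := exists_pow_eq_one_of_iterComm hRp α hbot
    exact ⟨N, Subtype.ext hN⟩
  rw [eq_inner_of_isPGroup hS hF key]
  simp

end Cfsg.Agent.S5223
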