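import Cfsg.Statements.S5245
import Cfsg.Agent.Lib.Fusion.TopSys
import Cfsg.Agent.Lib.Fusion.SmallExp
import Cfsg.Agent.Lib.Fusion.Stable
import Mathlib

set_option autoImplicit false
open Cfsg

namespace Cfsg.Agent.S5245

open Cfsg.Agent.Lib.Fusion Cfsg.FusionSystem Cfsg.Agent.Lib.Fusion.SmallExp


/-- Let F be an extremely sparse fusion system over a finite p-group S (saturated, not the inner system, and every saturated fusion system over any subgroup T of S contained in F is F itself or the inner system of T). Then S is normal in F, the focal and hyperfocal subgroups of F are both S, and Aut_F(S) is generated by the inner automorphisms of S together with a single automorphism of prime order q ≠ p (F is the fusion system of the semidirect product of S by a cyclic group of prime order). -/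
theorem result {Ω : Type*} [Group Ω] {S : Subgroup Ω} [Finite S] (p : ℕ) [Fact p.Prime] (hS : IsPGroup p S) (F : Cfsg.FusionSystem S) (hF : F.IsSaturated p) (hxs : ¬ (∀ P : Subgroup Ω, F.Hom P = (Cfsg.innerFusionSystem S).Hom P) ∧ ∀ (T : Subgroup Ω) (E : Cfsg.FusionSystem T), E.IsSaturated p → E.IsSubsystemOf F → (T = S ∧ ∀ P : Subgroup Ω, E.Hom P = F.Hom P) ∨ (∀ P : Subgroup Ω, E.Hom P = (Cfsg.innerFusionSystem T).Hom P)) : F.IsNormal S ∧ F.focalSubgroup = S ∧ F.hyperfocalSubgroup p = S ∧ ∃ (q : ℕ) (β : MulAut ↥S), q.Prime ∧ q ≠ p ∧ β ∈ F.autGroup S ∧ orderOf β = q ∧ (F.autGroup S : Subgroup (MulAut ↥S)) = Cfsg.Inn ↥S ⊔ Subgroup.zpowers β := by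
  obtain ⟨hne, hsp⟩ := hxs
  have hp := (Fact.out : p.Prime)
  -- the basic step
  have key : ∀ (T : Subgroup Ω) (hTS : T ≤ S) (β : MulAut T), β ∈ F.autGroup T → ∀ q : ℕ, q.Prime → q ≠ p → orderOf β = q →
      T = S ∧ ∃ hI : Inn T ≤ Inn T ⊔ Subgroup.zpowers β, ∀ P : Subgroup Ω, (topSystem T (Inn T ⊔ Subgroup.zpowers β) hI).Hom P = F.Hom P := by
    intro T hTS β hβ q hq hqp hord
    have := finite_of_le hTS
    have hTp : IsPGroup p T := hS.to_le hTS
    have hI : Inn T ≤ Inn T ⊔ Subgroup.zpowers β := le_sup_left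
    haveI hN : (Inn T).Normal := inferInstance
    have hsat : (topSystem T (Inn T ⊔ Subgroup.zpowers β) hI).IsSaturated p := by
      refine isSaturated_topSystem hTp hI fun a ha => ⟨q, ?_, ?_⟩
      · intro hd
        exact hqp ((Nat.prime_dvd_prime_iff_eq hp hq).1 hd).symm
      · obtain ⟨n, hn, z, hz, rfl⟩ := Subgroup.mem_sup_of_normal_left.1 ha
        obtain ⟨k, rfl⟩ := Subgroup.mem_zpowers_iff.1 hz
        rw [← QuotientGroup.eq_one_iff, QuotientGroup.mk_pow, QuotientGroup.mk_mul, (QuotientGroup.eq_one_iff n).2 hn, one_mul, ← QuotientGroup.mk_pow]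
        have h1 : (β ^ k) ^ q = 1 := by
          rw [← zpow_natCast, ← zpow_mul, mul_comm, zpow_mul, zpow_natCast, ← hord, pow_orderOf_eq_one, one_zpow]
        rw [h1]
        rfl
    have hle : (topSystem T (Inn T ⊔ Subgroup.zpowers β) hI).IsSubsystemOf F := by
      rintro P φ ⟨h, α, hα, hv⟩
      have hαF : α ∈ F.autGroup T := by
        have h2 : Inn T ⊔ Subgroup.zpowers β ≤ F.autGroup T :=
          sup_le (inn_le_autGroup F hTS) (Subgroup.zpowers_le.2 hβ)
        exact h2 hα
      have h3 := res_mem F ((mem_autGroup_iff hTS).1 hαF) h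
      exact hom_congr F h3 hv
    rcases hsp T _ hsat hle with ⟨h1, h2⟩ | h1
    · exact ⟨h1, hI, h2⟩
    · exfalso
      have h2 : β ∈ (topSystem T (Inn T ⊔ Subgroup.zpowers β) hI).autGroup T :=
        mem_autGroup_topSystem.2 (Subgroup.mem_sup_right (Subgroup.mem_zpowers β))
      have h3 := (mem_autGroup_iff le_rfl).1 h2
      rw [IsIso, h1] at h3
      obtain ⟨-, g, hg, hv⟩ := h3
      have h4 : β = MulAut.conj (⟨g, hg⟩ : T) := by
        ext x
        exact hv x
      obtain ⟨k, hk⟩ := hTp ⟨g, hg⟩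
      have h5 : β ^ p ^ k = 1 := by
        rw [h4, ← map_pow, hk, map_one]
      have h6 : q ∣ p ^ k := by
        rw [← hord]
        exact orderOf_dvd_of_pow_eq_one h5
      exact hqp ((Nat.prime_dvd_prime_iff_eq hq hp).1 (hq.dvd_of_dvd_pow h6))
  -- a nontrivial coprime automorphism exists
  have hex : ∃ (T : Subgroup Ω) (hTS : T ≤ S) (β : MulAut T) (q : ℕ), β ∈ F.autGroup T ∧ q.Prime ∧ q ≠ p ∧ orderOf β = q := by
    by_contra hno
    apply hne
    have hin : F = innerFusionSystem S := by
      refine eq_inner_of_coprime_trivial hS hF fun P hPn α hα hco => ?_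
      by_contra hα1
      apply hno
      have h1 : orderOf α ≠ 1 := fun h => hα1 (orderOf_eq_one_iff.1 h)
      have hfin : Finite P := finite_of_le hPn.1
      have : Finite (MulAut P) := finite_mulAut P
      have hq := Nat.minFac_prime h1
      have hd := Nat.minFac_dvd (orderOf α)
      refine ⟨P, hPn.1, α ^ (orderOf α / (orderOf α).minFac), (orderOf α).minFac, Subgroup.pow_mem _ hα _, hq, ?_, orderOf_pow_orderOf_div (orderOf_pos α).ne' hd⟩
      intro he
      rw [he] at hd
      exact hp.one_lt.ne' (Nat.Coprime.eq_one_of_dvd hco.symm hd)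
    intro P
    rw [hin]
  obtain ⟨T, hTS, β, q, hβ, hq, hqp, hord⟩ := hex
  obtain ⟨rfl, hI, hE⟩ := key T hTS β hβ q hq hqp hord
  have hA : F.autGroup T = Inn T ⊔ Subgroup.zpowers β := by
    apply le_antisymm
    · intro α hα
      have h1 := (mem_autGroup_iff le_rfl).1 hα
      rw [IsIso, ← hE] at h1
      exact mem_autGroup_topSystem.1 ((mem_autGroup_iff le_rfl).2 h1)
    · exact sup_le (inn_le_autGroup F le_rfl) (Subgroup.zpowers_le.2 hβ)
  have hnorm : F.IsNormal T := by
    refine ⟨le_rfl, fun P φ hφ => ?_⟩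
    rw [← hE] at hφ
    obtain ⟨h, α, hα, hv⟩ := hφ
    have hsup : P ⊔ T ≤ T := sup_le h le_rfl
    have hαF : α ∈ F.autGroup T := hA ▸ hα
    refine ⟨(T.subtype.comp α.toMonoidHom).comp (Subgroup.inclusion hsup), res_mem F ((mem_autGroup_iff le_rfl).1 hαF) hsup, fun x => ?_, ?_⟩
    · exact (hv x).symm
    · ext y
      rw [mem_subgroupOf_map_iff]
      constructor
      · rintro ⟨x, hxH, hx, rfl⟩
        exact (α _).2
      · intro hy
        refine ⟨_, Subgroup.mem_sup_right (α⁻¹ ⟨y, hy⟩).2, (α⁻¹ ⟨y, hy⟩).2, ?_⟩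
        show ((α _ : T) : Ω) = y
        have : Subgroup.inclusion hsup ⟨((α⁻¹ ⟨y, hy⟩ : T) : Ω), Subgroup.mem_sup_right (α⁻¹ ⟨y, hy⟩).2⟩ = α⁻¹ ⟨y, hy⟩ := rfl
        rw [this]
        simp
  have hco : Nat.Coprime (orderOf β) p := by
    rw [hord]
    exact (Nat.coprime_primes hq hp).2 hqp
  have hHT : F.hyperfocalSubgroup p ≤ T := hyperfocal_le hS
  have hHeq : F.hyperfocalSubgroup p = T := by
    have hsc := hyperfocal_stronglyClosed (F := F) hS hF
    have hφ := res_mem F ((mem_autGroup_iff le_rfl).1 hβ) hHT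
    have hv : ∀ x : ↥(F.hyperfocalSubgroup p), ((T.subtype.comp β.toMonoidHom).comp (Subgroup.inclusion hHT)) x ∈ F.hyperfocalSubgroup p :=
      fun x => hsc.2 _ le_rfl _ hφ x
    obtain ⟨b, hb, hbv⟩ := exists_aut_of_map hφ hv
    have hbpow : ∀ (n : ℕ) (x : ↥(F.hyperfocalSubgroup p)), (((b ^ n) x : ↥(F.hyperfocalSubgroup p)) : Ω) = (((β ^ n) (Subgroup.inclusion hHT x) : T) : Ω) := by
      intro n
      induction n with
      | zero => intro x; rfl
      | succ n ih =>
        intro x
        rw [pow_succ, MulAut.mul_apply, ih, pow_succ, MulAut.mul_apply]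
        have h1 : Subgroup.inclusion hHT (b x) = β (Subgroup.inclusion hHT x) := Subtype.ext (hbv x)
        rw [h1]
    have hbne : b ≠ 1 := by
      intro hb1
      have hfix : ∀ x : ↥(F.hyperfocalSubgroup p), β (Subgroup.inclusion hHT x) = Subgroup.inclusion hHT x := by
        intro x
        apply Subtype.ext
        have := hbv x
        rw [hb1] at this
        exact this.symm
      have hβ1 : β = 1 := by
        ext x
        have hres : (⟨β, hβ⟩ : F.autGroup T) ∈ pResidual p (F.autGroup T) := by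
          refine Subgroup.subset_closure ?_
          show (orderOf (⟨β, hβ⟩ : F.autGroup T)).Coprime p
          rw [Subgroup.orderOf_mk]
          exact hco
        have hmem := mem_hyperfocal le_rfl ⟨β, hβ⟩ hres x
        have h2 := hfix ⟨_, hmem⟩
        have h3 := Cfsg.Agent.Lib.Transfer.fix_of_step hS β hco x h2
        rw [h3]
        rfl
      rw [hβ1, orderOf_one] at hord
      exact hq.one_lt.ne hord
    have hbq : b ^ q = 1 := by
      ext x
      rw [hbpow, ← hord, pow_orderOf_eq_one]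
      rfl
    haveI : Fact q.Prime := ⟨hq⟩
    exact (key _ hHT b hb q hq hqp (orderOf_eq_prime hbq hbne)).1
  refine ⟨hnorm, le_antisymm focal_le ?_, hHeq, q, β, hq, hqp, hβ, hord, hA⟩
  rw [focal_eq hS hF, hHeq]
  exact le_sup_left


end Cfsg.Agent.S5245
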