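import Cfsg.Statements.S5246
import Cfsg.Agent.Lib.Fusion.Stable
import Cfsg.Agent.Lib.Fusion.Group
import Cfsg.Agent.Lib.Amalgam.Vertex
import Mathlib

set_option autoImplicit false
open Cfsg

namespace Cfsg.Agent.S5246

open Cfsg.Agent.Lib.Fusion Cfsg.FusionSystem


open scoped commutatorElement

theorem quad_conj_iff {Ω : Type*} [Group Ω] {Q : Subgroup Ω} {g : Ω} (hg : g ∈ Subgroup.normalizer (Q : Set Ω)) :
    QuadAut (conjAut Q g hg) ↔ ∀ a ∈ Q, ⁅⁅a, g⁆, g⁆ = 1 := by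
  have key : ∀ a : Q, ⁅⁅(a : Ω), g⁆, g⁆ = (g * (a : Ω)⁻¹ * g⁻¹)⁻¹ * (g * (a : Ω)⁻¹ * g⁻¹ * a * (g * (a : Ω)⁻¹ * g⁻¹) *
      (g * (g * a * g⁻¹) * g⁻¹)) * (g * (a : Ω)⁻¹ * g⁻¹) := by
    intro a
    simp only [commutatorElement_def]
    group
  constructor
  · intro h a ha
    have h1 := congrArg Subtype.val (h ⟨a, ha⟩)
    simp only [Subgroup.coe_mul, conjAut_coe, Subgroup.coe_inv, OneMemClass.coe_one] at h1
    rw [key ⟨a, ha⟩]
    simp only []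
    rw [h1, mul_one, inv_mul_cancel]
  · intro h a
    apply Subtype.ext
    simp only [Subgroup.coe_mul, conjAut_coe, Subgroup.coe_inv, OneMemClass.coe_one]
    have h2 := h a a.2
    rw [key a] at h2
    have h3 := congrArg (fun y => (g * (a : Ω)⁻¹ * g⁻¹) * y * (g * (a : Ω)⁻¹ * g⁻¹)⁻¹) h2
    simpa [mul_assoc] using h3

theorem comm_bot_of_quad {Ω : Type*} [Group Ω] {Q : Subgroup Ω} {g : Ω} (h : ∀ a ∈ Q, ⁅⁅a, g⁆, g⁆ = 1) :
    ⁅⁅Q, Subgroup.zpowers g⁆, Subgroup.zpowers g⁆ = ⊥ := by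
  rw [Subgroup.commutator_eq_bot_iff_le_centralizer, Subgroup.commutator_le]
  rintro a ha _ ⟨i, rfl⟩
  have c : Commute ⁅a, g⁆ g := commutatorElement_eq_one_iff_commute.1 (h a ha)
  have e : ⁅a, g ^ i⁆ = ⁅a, g⁆ ^ i := by
    have e1 : a * g ^ i * a⁻¹ = (⁅a, g⁆ * g) ^ i := by
      have : ⁅a, g⁆ * g = a * g * a⁻¹ := by simp [commutatorElement_def]
      rw [this, conj_zpow]
    have e2 : (⁅a, g⁆ * g) ^ i = ⁅a, g⁆ ^ i * g ^ i := c.mul_zpow i
    show a * g ^ i * a⁻¹ * (g ^ i)⁻¹ = _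
    rw [e1, e2]
    simp
  show ⁅a, g ^ i⁆ ∈ _
  rw [e, Subgroup.mem_centralizer_iff]
  rintro _ ⟨j, rfl⟩
  exact ((c.symm).zpow_zpow j i)

/-- The map `N_G(X) → Aut(Q)` with `Q = X^h`. -/
theorem conj_mem_normalizer {Ω : Type*} [Group Ω] {X Q : Subgroup Ω} {h : Ω} (hXQ : ∀ x, x ∈ Q ↔ h⁻¹ * x * h ∈ X)
    {g : Ω} (hg : g ∈ Subgroup.normalizer (X : Set Ω)) : h * g * h⁻¹ ∈ Subgroup.normalizer (Q : Set Ω) := by
  rw [Subgroup.mem_normalizer_iff] at hg ⊢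
  intro y
  rw [hXQ, hXQ]
  have := hg (h⁻¹ * y * h)
  have e : h⁻¹ * (h * g * h⁻¹ * y * (h * g * h⁻¹)⁻¹) * h = g * (h⁻¹ * y * h) * g⁻¹ := by group
  rw [e]
  exact this

noncomputable def piHom {Ω : Type*} [Group Ω] {X Q : Subgroup Ω} {h : Ω} (hXQ : ∀ x, x ∈ Q ↔ h⁻¹ * x * h ∈ X) :
    Subgroup.normalizer (X : Set Ω) →* MulAut Q :=
  MonoidHom.mk' (fun g => conjAut Q (h * g * h⁻¹) (conj_mem_normalizer hXQ g.2)) (by
    intro a b
    ext x
    simp [MulAut.mul_apply]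
    group)

theorem piHom_ker {Ω : Type*} [Group Ω] {X Q : Subgroup Ω} {h : Ω} (hXQ : ∀ x, x ∈ Q ↔ h⁻¹ * x * h ∈ X) :
    (piHom hXQ).ker = (Subgroup.centralizer (X : Set Ω)).subgroupOf (Subgroup.normalizer (X : Set Ω)) := by
  ext ⟨g, hg⟩
  rw [MonoidHom.mem_ker, Subgroup.mem_subgroupOf, Subgroup.mem_centralizer_iff]
  constructor
  · intro h1 x hx
    have hm : h * x * h⁻¹ ∈ Q := by
      rw [hXQ]
      simpa [mul_assoc] using hx
    have h2 := congrArg (fun α : MulAut Q => ((α ⟨_, hm⟩ : Q) : Ω)) h1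
    have h3 : h * g * h⁻¹ * (h * x * h⁻¹) * (h * g * h⁻¹)⁻¹ = h * x * h⁻¹ := h2
    have h4 : g * x * g⁻¹ = x := by
      have e : g * x * g⁻¹ = h⁻¹ * (h * g * h⁻¹ * (h * x * h⁻¹) * (h * g * h⁻¹)⁻¹) * h := by group
      rw [e, h3]
      group
    have h5 : g * x = x * g := by
      calc g * x = g * x * g⁻¹ * g := by group
        _ = x * g := by rw [h4]
    exact h5.symm
  · intro h1
    ext y
    show h * g * h⁻¹ * (y : Ω) * (h * g * h⁻¹)⁻¹ = y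
    have hy : h⁻¹ * (y : Ω) * h ∈ X := (hXQ y).1 y.2
    have h2 := h1 _ hy
    have e : h * g * h⁻¹ * (y : Ω) * (h * g * h⁻¹)⁻¹ = h * (g * (h⁻¹ * (y : Ω) * h) * g⁻¹) * h⁻¹ := by group
    rw [e, ← h2]
    simp [mul_assoc]

theorem piHom_range {Ω : Type*} [Group Ω] [Finite Ω] {P X Q : Subgroup Ω} {h : Ω} (hXQ : ∀ x, x ∈ Q ↔ h⁻¹ * x * h ∈ X)
    (hQP : Q ≤ P) : (piHom hXQ).range = (groupFusionSystem P).autGroup Q := by
  ext α
  rw [mem_autGroup_iff hQP]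
  constructor
  · rintro ⟨⟨g, hg⟩, rfl⟩
    refine ⟨hQP, fun x => hQP (((piHom hXQ) ⟨g, hg⟩) x).2, h * g * h⁻¹, fun x => rfl⟩
  · rintro ⟨-, -, g, hv⟩
    have hv' : ∀ x : Q, ((α x : Q) : Ω) = g * (x : Ω) * g⁻¹ := hv
    have hgN := mem_normalizer_of_conj hv'
    have hg₀ : h⁻¹ * g * h ∈ Subgroup.normalizer (X : Set Ω) := by
      rw [Subgroup.mem_normalizer_iff] at hgN ⊢
      intro x
      have h1 := hgN (h * x * h⁻¹)
      rw [hXQ, hXQ] at h1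
      have e1 : h⁻¹ * (h * x * h⁻¹) * h = x := by group
      have e2 : h⁻¹ * (g * (h * x * h⁻¹) * g⁻¹) * h = h⁻¹ * g * h * x * (h⁻¹ * g * h)⁻¹ := by group
      rw [e1, e2] at h1
      exact h1
    refine ⟨⟨_, hg₀⟩, ?_⟩
    ext y
    show h * (h⁻¹ * g * h) * h⁻¹ * (y : Ω) * (h * (h⁻¹ * g * h) * h⁻¹)⁻¹ = _
    rw [hv']
    group

noncomputable def quotEquiv {Ω : Type*} [Group Ω] [Finite Ω] {P X Q : Subgroup Ω} {h : Ω}
    (hXQ : ∀ x, x ∈ Q ↔ h⁻¹ * x * h ∈ X) (hQP : Q ≤ P) :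
    (↥(Subgroup.normalizer (X : Set Ω)) ⧸ (Subgroup.centralizer (X : Set Ω)).subgroupOf (Subgroup.normalizer (X : Set Ω))) ≃*
      (groupFusionSystem P).autGroup Q :=
  (QuotientGroup.quotientMulEquivOfEq (piHom_ker hXQ)).symm.trans
    ((QuotientGroup.quotientKerEquivRange (piHom hXQ)).trans (MulEquiv.subgroupCongr (piHom_range hXQ hQP)))

theorem mem_pCore_iff_conj {Ω : Type*} [Group Ω] [Finite Ω] {p : ℕ} {P X Q : Subgroup Ω} {h : Ω}
    (hXQ : ∀ x, x ∈ Q ↔ h⁻¹ * x * h ∈ X) (hQP : Q ≤ P) {g : Ω} (hg : g ∈ Subgroup.normalizer (X : Set Ω)) :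
    (QuotientGroup.mk (s := (Subgroup.centralizer (X : Set Ω)).subgroupOf (Subgroup.normalizer (X : Set Ω))) (⟨g, hg⟩ : ↥(Subgroup.normalizer (X : Set Ω))) ∈
        pCore p (↥(Subgroup.normalizer (X : Set Ω)) ⧸ (Subgroup.centralizer (X : Set Ω)).subgroupOf (Subgroup.normalizer (X : Set Ω)))) ↔
      conjAut Q (h * g * h⁻¹) (conj_mem_normalizer hXQ hg) ∈
        (pCore p ((groupFusionSystem P).autGroup Q)).map ((groupFusionSystem P).autGroup Q).subtype := by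
  have e1 := Cfsg.Agent.Lib.Amalgam.mem_pCore_equiv (p := p) (quotEquiv hXQ hQP) (QuotientGroup.mk ⟨g, hg⟩)
  rw [← e1]
  constructor
  · intro h1
    exact ⟨_, h1, rfl⟩
  · rintro ⟨a, ha, hav⟩
    have : a = quotEquiv hXQ hQP (QuotientGroup.mk ⟨g, hg⟩) := Subtype.ext hav
    rwa [← this]


/-- Let p be an odd prime, G a finite group and P a Sylow p-subgroup. Call a fusion system F p-stable when, for every fully normalized subgroup Q and every χ ∈ Aut_F(Q) acting quadratically on Q (that is, χ fixes a⁻¹χ(a) for every a ∈ Q; equivalently χ(a⁻¹)·a·χ(a⁻¹)·χ(χ(a)) = 1), χ lies in O_p(Aut_F(Q)). Then G is p-stable in the normalizer form (for every p-subgroup Q and x ∈ N_G(Q) with [Q, x, x] = 1, the image of x lies in O_p(N_G(Q)/C_G(Q))) if and only if the fusion system of G on P is p-stable. -/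
theorem result {Ω : Type*} [Group Ω] [Finite Ω] {p : ℕ} [Fact p.Prime] (hp : p ≠ 2) (P : Sylow p Ω) : Cfsg.IsNormalizerPStable p Ω ↔ (∀ Q : Subgroup Ω, (Cfsg.groupFusionSystem (P : Subgroup Ω)).IsFullyNormalized Q → ∀ χ : MulAut ↥Q, χ ∈ (Cfsg.groupFusionSystem (P : Subgroup Ω)).autGroup Q → (∀ a : ↥Q, (χ a⁻¹) * a * (χ a⁻¹) * (χ (χ a)) = 1) → χ ∈ ((Cfsg.pCore p ↥((Cfsg.groupFusionSystem (P : Subgroup Ω)).autGroup Q)).map ((Cfsg.groupFusionSystem (P : Subgroup Ω)).autGroup Q).subtype : Subgroup (MulAut ↥Q))) := by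
  set F := groupFusionSystem (P : Subgroup Ω) with hFd
  constructor
  · intro hst Q hQ χ hχ hq
    have hQP : Q ≤ (P : Subgroup Ω) := hQ.1
    have hm := (mem_autGroup_iff hQP).1 hχ
    obtain ⟨-, -, g, hv⟩ := hm
    have hv' : ∀ x : Q, ((χ x : Q) : Ω) = g * (x : Ω) * g⁻¹ := hv
    have hgN := mem_normalizer_of_conj hv'
    have hχc : χ = conjAut Q g hgN := by
      ext y
      exact hv' y
    have hqq : QuadAut (conjAut Q g hgN) := hχc ▸ hq
    have hc := comm_bot_of_quad ((quad_conj_iff hgN).1 hqq)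
    have h1 := hst Q (P.isPGroup'.to_le hQP) g hgN hc
    have hXQ : ∀ x, x ∈ Q ↔ (1 : Ω)⁻¹ * x * 1 ∈ Q := fun x => by simp
    have h2 := (mem_pCore_iff_conj (P := (P : Subgroup Ω)) hXQ hQP hgN).1 h1
    have e : conjAut Q (1 * g * 1⁻¹) (conj_mem_normalizer hXQ hgN) = χ := by
      rw [hχc]
      ext y
      simp
    rwa [e] at h2
  · intro hst X hX g hg hc
    obtain ⟨T, hT⟩ := hX.exists_le_sylow
    obtain ⟨k, hk⟩ := MulAction.exists_smul_eq Ω T P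
    -- `X₁ ≤ P`
    set X₁ := conjSub k X with hX₁
    have hX₁P : X₁ ≤ (P : Subgroup Ω) := by
      intro y hy
      have hy' : k⁻¹ * y * k ∈ X := mem_conjSub.1 hy
      have h1 : k⁻¹ * y * k ∈ (T : Subgroup Ω) := hT hy'
      have h2 : y ∈ ((k • T : Sylow p Ω) : Subgroup Ω) := by
        rw [Sylow.coe_subgroup_smul, Subgroup.mem_smul_pointwise_iff_exists]
        refine ⟨_, h1, ?_⟩
        simp [MulAut.smul_def, MulAut.conj_apply]
        group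
      rwa [hk] at h2
    obtain ⟨Q, hc₁, hQ⟩ := exists_fullyNormalized_conj (F := F) hX₁P
    have hQP : Q ≤ (P : Subgroup Ω) := hQ.1
    obtain ⟨φ, hφ, hr⟩ := hc₁
    obtain ⟨-, -, k₂, hk₂⟩ := hφ
    have hXQ : ∀ x, x ∈ Q ↔ (k₂ * k)⁻¹ * x * (k₂ * k) ∈ X := by
      intro x
      constructor
      · intro hx
        rw [← hr] at hx
        obtain ⟨y, rfl⟩ := hx
        rw [hk₂]
        have hy : k⁻¹ * (y : Ω) * k ∈ X := mem_conjSub.1 y.2
        have e : (k₂ * k)⁻¹ * (k₂ * (y : Ω) * k₂⁻¹) * (k₂ * k) = k⁻¹ * (y : Ω) * k := by group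
        rw [e]
        exact hy
      · intro hx
        rw [← hr]
        have hy : k₂⁻¹ * x * k₂ ∈ X₁ := by
          refine mem_conjSub.2 ?_
          have e : k⁻¹ * (k₂⁻¹ * x * k₂) * k = (k₂ * k)⁻¹ * x * (k₂ * k) := by group
          rw [e]
          exact hx
        refine ⟨⟨_, hy⟩, ?_⟩
        rw [hk₂]
        group
    have hgN := conj_mem_normalizer hXQ hg
    rw [mem_pCore_iff_conj (P := (P : Subgroup Ω)) hXQ hQP hg]
    refine hst Q hQ _ ?_ ?_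
    · rw [← piHom_range hXQ hQP]
      exact ⟨⟨g, hg⟩, rfl⟩
    · refine (quad_conj_iff _).2 fun a ha => ?_
      have hax := (hXQ a).1 ha
      have h1 := Subgroup.commutator_mem_commutator (Subgroup.commutator_mem_commutator hax (Subgroup.mem_zpowers g)) (Subgroup.mem_zpowers g)
      rw [hc, Subgroup.mem_bot] at h1
      have e : ⁅⁅a, k₂ * k * g * (k₂ * k)⁻¹⁆, k₂ * k * g * (k₂ * k)⁻¹⁆ =
          (k₂ * k) * ⁅⁅(k₂ * k)⁻¹ * a * (k₂ * k), g⁆, g⁆ * (k₂ * k)⁻¹ := by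
        simp only [commutatorElement_def]
        group
      rw [e, h1]
      simp

end Cfsg.Agent.S5246
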