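import Cfsg.Statements.S5253
import Cfsg.Agent.Lib.Fusion.ChainLocal
import Mathlib

set_option autoImplicit false
universe u
open Cfsg

namespace Cfsg.Agent.S5253

open Cfsg.Agent.Lib.Fusion Cfsg.FusionSystem


/-- Let p be a prime and W a positive characteristic p-functor with Z(Q) ≤ W(Q): W assigns to every finite p-group Q (in a fixed universe) a subgroup W(Q), nontrivial when Q is, carried to W(R) by every isomorphism Q ≅ R, and containing the centre of Q. Suppose that for every finite group G with Sylow p-subgroup P in which W(P) is not normal there is g ∈ P outside O_p(G) with [Z(O_p(G)), g, g] = 1. Then for every saturated fusion system F over a finite p-group S and every normalizer fusion system N of W(S) in F, every p-th power of an element of Z(S) that lies in the centre of N lies in the centre of F. -/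
theorem result {p : ℕ} [Fact p.Prime] (W : ∀ (Q : Type u) [Group Q], Subgroup Q) (hW1 : ∀ (Q : Type u) [Group Q] [Finite Q], IsPGroup p Q → Nontrivial Q → W Q ≠ ⊥) (hW2 : ∀ (Q R : Type u) [Group Q] [Group R] [Finite Q], IsPGroup p Q → ∀ φ : Q ≃* R, (W Q).map φ.toMonoidHom = W R) (hWZ : ∀ (Q : Type u) [Group Q] [Finite Q], IsPGroup p Q → Subgroup.center Q ≤ W Q) (hq : ∀ (G : Type u) [Group G] [Finite G] (P : Sylow p G), ¬ (((W ↥(P : Subgroup G)).map (P : Subgroup G).subtype : Subgroup G)).Normal → ∃ g : G, g ∈ (P : Subgroup G) ∧ g ∉ Cfsg.pCore p G ∧ ⁅⁅Subgroup.center ↥(Cfsg.pCore p G) |>.map (Cfsg.pCore p G).subtype, Subgroup.zpowers g⁆, Subgroup.zpowers g⁆ = ⊥) {Ω : Type u} [Group Ω] {S : Subgroup Ω} [Finite S] (hS : IsPGroup p S) (F : Cfsg.FusionSystem S) (hF : F.IsSaturated p) (N : Cfsg.FusionSystem (Cfsg.FusionSystem.normalizerIn S ((W ↥S).map S.subtype))) (hN : F.IsNormalizerSystem ((W ↥S).map S.subtype) N) : Subgroup.closure ((fun z => z ^ p) '' ((S ⊓ Subgroup.centralizer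 (S : Set Ω) : Subgroup Ω) : Set Ω)) ⊓ N.center ≤ F.center := by
  have key : ∀ w ∈ Subgroup.closure ((fun z => z ^ p) '' ((S ⊓ Subgroup.centralizer (S : Set Ω) : Subgroup Ω) : Set Ω)),
      PowAdm p S w := by
    intro w hw
    induction hw using Subgroup.closure_induction with
    | mem x hx =>
      obtain ⟨z, hz, rfl⟩ := hx
      exact ⟨z, hz.1, fun t ht => (Subgroup.mem_centralizer_iff.1 hz.2 t ht), rfl⟩
    | one => exact ⟨1, S.one_mem, fun t _ => by simp, one_pow p⟩
    | mul x y _ _ ihx ihy =>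
      obtain ⟨z₁, h₁, c₁, rfl⟩ := ihx
      obtain ⟨z₂, h₂, c₂, rfl⟩ := ihy
      refine ⟨z₁ * z₂, S.mul_mem h₁ h₂, fun t ht => ?_, ?_⟩
      · rw [← mul_assoc, c₁ t ht, mul_assoc, c₂ t ht, mul_assoc]
      · exact (Commute.mul_pow (c₂ z₁ h₁) p)
    | inv x _ ih =>
      obtain ⟨z, h, c, rfl⟩ := ih
      refine ⟨z⁻¹, S.inv_mem h, fun t ht => ?_, inv_pow z p⟩
      have := c t⁻¹ (S.inv_mem ht)
      calc t * z⁻¹ = (z * t⁻¹)⁻¹ := by group
        _ = (t⁻¹ * z)⁻¹ := by rw [this]
        _ = z⁻¹ * t := by group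
  exact center_of_chain hS hF (localCond_of_quadratic hW2 hq) hW2 hWZ hN inf_le_right fun w hw => key w hw.1

end Cfsg.Agent.S5253
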