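import Cfsg.Statements.S5276
import Cfsg.Agent.Lib.Fusion.BisetTate3
import Mathlib
-- import your own Cfsg.Agent.* helpers here

set_option autoImplicit false
open Cfsg

namespace Cfsg.Agent.S5276

open Cfsg.Agent.Lib.Fusion.Biset Cfsg.Agent.Lib.Fusion Cfsg.FusionSystem


/-- Let p be a prime and F a saturated fusion system over a finite p-group S. Then F is the inner fusion system of S if and only if the normalizer fusion system of S itself in F is the inner fusion system (equivalently, Aut_F(S) is induced by S) and the Frattini subgroup Φ(S) is strongly closed in F. -/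
theorem result {Ω : Type*} [Group Ω] {S : Subgroup Ω} [Finite S] (p : ℕ) [Fact p.Prime] (hS : IsPGroup p ↥S) (F : Cfsg.FusionSystem S) (hF : F.IsSaturated p) : (∀ P : Subgroup Ω, F.Hom P = (Cfsg.innerFusionSystem S).Hom P) ↔ (∀ N : Cfsg.FusionSystem (Cfsg.FusionSystem.normalizerIn S S), F.IsNormalizerSystem S N → ∀ P : Subgroup Ω, N.Hom P = (Cfsg.innerFusionSystem (Cfsg.FusionSystem.normalizerIn S S)).Hom P) ∧ F.StronglyClosed ((frattini ↥S).map S.subtype) := by
  have hΦc : ⁅(S : Subgroup Ω), (S : Subgroup Ω)⁆ ≤ (frattini ↥S).map S.subtype := commutator_le_frattini_map hS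
  have hSN : normalizerIn S S = S := inf_eq_left.2 (fun x hx => mem_normalizer_of_forall fun y hy => S.mul_mem (S.mul_mem hx hy) (S.inv_mem hx))
  constructor
  · intro h
    have hFi : F = Cfsg.innerFusionSystem S := fusion_ext h
    refine ⟨fun N hN P => ?_, ?_, fun R hR φ hφ x => ?_⟩
    · apply Set.Subset.antisymm
      · intro φ hφ
        have h1 := hN P
        rw [h1] at hφ
        have h2 := hφ.1
        rw [h P] at h2
        obtain ⟨h3, g, hg, hv⟩ := mem_inner_hom.1 h2
        exact mem_inner_hom.2 ⟨h3.trans hSN.ge, g, hSN.ge hg, hv⟩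
      · exact fun φ hφ => inner_le N P hφ
    · rintro _ ⟨x, -, rfl⟩
      exact x.2
    · have h2 := hφ
      rw [h R] at h2
      obtain ⟨h3, g, hg, hv⟩ := mem_inner_hom.1 h2
      rw [hv]
      obtain ⟨f, hf, hfe⟩ := hR x.2
      have h4 : (frattini ↥S).Normal := inferInstance
      have h5 := h4.conj_mem f hf ⟨g, hg⟩
      refine ⟨_, h5, ?_⟩
      rw [← hfe]
      rfl
  · rintro ⟨hN, hC⟩
    have hFi : F = Cfsg.innerFusionSystem S :=
      eq_inner_aux rfl hS hF (fun _ _ h => h) hC hΦc le_rfl (fun α hα => aut_conj_of_normalizer_inner hN hα)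
    rw [hFi]
    exact fun _ => rfl

end Cfsg.Agent.S5276
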