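import Cfsg.Statements.S5290
import Cfsg.Agent.Lib.Fusion.Inner
import Mathlib

set_option autoImplicit false
open Cfsg

namespace Cfsg.Agent.S5290

open Cfsg.Agent.Lib.Fusion Cfsg.FusionSystem


/-- Let F be a saturated fusion system over a finite p-group S and Q a subgroup of S. Then Q is normal in F (F = N_F(Q)) if and only if the inner fusion system of Q, consisting of the conjugations by elements of Q on subgroups of Q, is a weakly normal subsystem of F (both saturated, Q strongly closed, invariant under F-conjugation, with the Frattini property). -/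
theorem result {Ω : Type*} [Group Ω] {S : Subgroup Ω} [Finite S] (p : ℕ) [Fact p.Prime] (hS : IsPGroup p S)
    (F : Cfsg.FusionSystem S) (hF : F.IsSaturated p)
    (Q : Subgroup Ω) (hQ : Q ≤ S) :
    F.IsNormal Q ↔ (Cfsg.innerFusionSystem Q).IsWeaklyNormalIn F p := by
  classical
  haveI : Finite Q := finite_of_le hQ
  have hQp : IsPGroup p Q := hS.to_le hQ
  constructor
  · intro hN
    have hsc := IsNormal.stronglyClosed hN
    refine ⟨isSaturated_inner hQp, hF, ?_, hsc, ?_, ?_⟩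
    · intro P
      exact inner_le_of_le hQ F P
    · rintro P hPQ φ ⟨-, q, hq, hφ⟩ α hα
      have hαQ : ((α ⟨q, hq⟩ : Q) : Ω) ∈ Q := (α ⟨q, hq⟩).2
      refine ⟨conjHom _ ((α ⟨q, hq⟩ : Q) : Ω), (innerFusionSystem Q).conj_mem ?_ hαQ, ?_⟩
      · rintro _ ⟨x, -, rfl⟩
        exact (α x).2
      · intro x hφx hαx
        have h1 : (⟨φ x, hφx⟩ : Q) = ⟨q, hq⟩ * ⟨x, hPQ x.2⟩ * ⟨q, hq⟩⁻¹ := Subtype.ext (hφ x)
        rw [h1, map_mul, map_mul, map_inv]
        rfl
    · intro P hPQ φ hφ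
      obtain ⟨α, hα, hαv⟩ := (isNormal_iff_extends hS hF hQ).1 hN P hPQ φ hφ
      refine ⟨α, hα, P.subtype, (innerFusionSystem Q).conj_mem hPQ Q.one_mem |> fun h => ?_, ?_⟩
      · exact hom_congr _ h fun x => by simp [conjHom]
      · intro x hx
        exact (hαv x).symm
  · rintro ⟨-, -, -, hsc, -, hfr⟩
    refine (isNormal_iff_extends hS hF hQ).2 fun P hPQ φ hφ => ?_
    obtain ⟨α, hα, φ₀, ⟨-, q, hq, hφ₀⟩, hv⟩ := hfr P hPQ φ hφ
    have hinn : MulAut.conj (⟨q, hq⟩ : Q) ∈ F.autGroup Q := inn_le_autGroup F hQ ⟨⟨q, hq⟩, rfl⟩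
    refine ⟨α * MulAut.conj (⟨q, hq⟩ : Q), Subgroup.mul_mem _ hα hinn, fun x => ?_⟩
    have hx₀ : φ₀ x ∈ Q := by
      rw [hφ₀]
      exact Q.mul_mem (Q.mul_mem hq (hPQ x.2)) (Q.inv_mem hq)
    rw [hv x hx₀]
    simp only [MulAut.mul_apply]
    congr 2
    apply Subtype.ext
    simp [hφ₀, MulAut.conj_apply]

end Cfsg.Agent.S5290
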