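import Cfsg.Statements.S5291
import Cfsg.Agent.Lib.Fusion.Join
import Cfsg.Agent.Lib.Fusion.Inner
import Mathlib

set_option autoImplicit false
open Cfsg

namespace Cfsg.Agent.S5291

open Cfsg.Agent.Lib.Fusion Cfsg.FusionSystem


/-- Let F be a saturated fusion system over a finite p-group S and E a weakly normal subsystem of F over a subgroup T. Suppose a subgroup R of T is normal in E (E = N_E(R)), and let R* be the subgroup of T generated by the images of R under all maps of F with source R. Then R* is normal in F (F = N_F(R*)). -/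
theorem result {Ω : Type*} [Group Ω] {S : Subgroup Ω} [Finite S] (p : ℕ) [Fact p.Prime] (hS : IsPGroup p S)
    (F : Cfsg.FusionSystem S) (hF : F.IsSaturated p)
    {T : Subgroup Ω} (E : Cfsg.FusionSystem T) (hE : E.IsWeaklyNormalIn F p)
    (R : Subgroup Ω) (hR : E.IsNormal R) :
    F.IsNormal (Subgroup.closure {x : Ω | ∃ φ ∈ F.Hom R, ∃ r : R, x = φ r}) := by
  classical
  obtain ⟨hEs, -, hsub, hsc, hinv, hfr⟩ := hE
  have hTS : T ≤ S := hsc.1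
  haveI : Finite T := finite_of_le hTS
  have hTp : IsPGroup p T := hS.to_le hTS
  have hRT : R ≤ T := hR.1
  -- the conjugates `α(R)` are normal in `E`
  let RR : MulAut T → Subgroup Ω := fun α => (R.subgroupOf T).map (T.subtype.comp α.toMonoidHom)
  have hRRmem : ∀ (α : MulAut T) (r : R), ((α ⟨r, hRT r.2⟩ : T) : Ω) ∈ RR α := fun α r =>
    ⟨⟨r, hRT r.2⟩, Subgroup.mem_subgroupOf.2 r.2, rfl⟩
  have hRRT : ∀ α : MulAut T, RR α ≤ T := by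
    rintro α _ ⟨x, -, rfl⟩
    exact (α x).2
  have hnormal : ∀ α ∈ F.autGroup T, E.IsNormal (RR α) := by
    intro α hα
    refine (isNormal_iff_extends hTp hEs (hRRT α)).2 fun P hPR ψ hψ => ?_
    have hPT : P ≤ T := hPR.trans (hRRT α)
    have hαi : α⁻¹ ∈ F.autGroup T := Subgroup.inv_mem _ hα
    set P₀ := (P.subgroupOf T).map (T.subtype.comp (α⁻¹).toMonoidHom) with hP₀
    obtain ⟨χ₀, hχ₀, hχ₀v⟩ := hinv P hPT ψ hψ α⁻¹ hαi
    have hP₀R : P₀ ≤ R := by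
      rintro _ ⟨x, hx, rfl⟩
      obtain ⟨y, hy, hyx⟩ := hPR (Subgroup.mem_subgroupOf.1 hx)
      have hyr : y = α⁻¹ x := by
        have : α y = x := Subtype.ext hyx
        rw [← this]
        simp
      show ((α⁻¹ x : T) : Ω) ∈ R
      rw [← hyr]
      exact Subgroup.mem_subgroupOf.1 hy
    obtain ⟨γ, hγ, hγv⟩ := (isNormal_iff_extends hTp hEs hRT).1 hR P₀ hP₀R χ₀ hχ₀
    have hγi := (mem_autGroup_iff hRT).1 hγ
    obtain ⟨χ₁, hχ₁, hχ₁v⟩ := hinv R hRT _ hγi α hα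
    -- `χ₁` is onto `α(R)`
    have hχ₁r : χ₁.range = RR α := by
      ext y
      constructor
      · rintro ⟨⟨_, x, hx, rfl⟩, rfl⟩
        have hxR : (x : Ω) ∈ R := Subgroup.mem_subgroupOf.1 hx
        have := hχ₁v ⟨x, hxR⟩ (hRT (γ ⟨x, hxR⟩).2) (⟨x, hx, rfl⟩)
        have h2 : (χ₁ ⟨(T.subtype.comp α.toMonoidHom) x, ⟨x, hx, rfl⟩⟩ : Ω) = _ := this
        rw [h2]
        exact hRRmem α (γ ⟨x, hxR⟩)
      · rintro ⟨x, hx, rfl⟩
        have hxR : (x : Ω) ∈ R := Subgroup.mem_subgroupOf.1 hx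
        refine ⟨⟨(α ⟨(γ⁻¹ ⟨x, hxR⟩ : R), hRT (γ⁻¹ ⟨x, hxR⟩).2⟩ : T), hRRmem α _⟩, ?_⟩
        have := hχ₁v (γ⁻¹ ⟨x, hxR⟩) (hRT (γ (γ⁻¹ ⟨x, hxR⟩)).2) (hRRmem α _)
        refine this.trans ?_
        simp
    obtain ⟨e, he, hev⟩ := exists_isIso_of_mem hχ₁ hχ₁r
    refine ⟨e, (mem_autGroup_iff (hRRT α)).2 he, fun x => ?_⟩
    rw [hev]
    -- `x = α y`
    have hy₀ : ((α⁻¹ ⟨x, hPT x.2⟩ : T) : Ω) ∈ P₀ := ⟨⟨x, hPT x.2⟩, Subgroup.mem_subgroupOf.2 x.2, rfl⟩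
    have hyR := hP₀R hy₀
    have h1 := hχ₁v ⟨_, hyR⟩ (hRT (γ ⟨_, hyR⟩).2) (hRRmem α _)
    have h2 := hγv ⟨_, hy₀⟩
    have h3 := hχ₀v x (hom_val E hψ x) hy₀
    have h4 : (⟨(α ⟨(⟨_, hyR⟩ : R), hRT hyR⟩ : T), hRRmem α _⟩ : RR α) = Subgroup.inclusion hPR x := by
      apply Subtype.ext
      simp
    rw [h4] at h1
    rw [h1]
    have h5 : ∀ (h : (R.subtype.comp γ.toMonoidHom) ⟨_, hyR⟩ ∈ T), (⟨(R.subtype.comp γ.toMonoidHom) ⟨_, hyR⟩, h⟩ : T) = α⁻¹ ⟨ψ x, hom_val E hψ x⟩ := by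
      intro h
      apply Subtype.ext
      refine Eq.trans ?_ h3
      exact h2
    rw [h5]
    simp
  -- the join
  set Rs : Subgroup Ω := Subgroup.closure {x : Ω | ∃ φ ∈ F.Hom R, ∃ r : R, x = φ r} with hRs
  -- Frattini: images of `R` are images under `Aut_F(T)`
  have hRnorm : ∀ φ₀ ∈ E.Hom R, ∀ r : R, φ₀ r ∈ R := fun φ₀ hφ₀ r =>
    (IsNormal.stronglyClosed hR).2 R le_rfl φ₀ hφ₀ r
  have himg : ∀ φ ∈ F.Hom R, ∃ α ∈ F.autGroup T, ∀ r : R, φ r ∈ RR α := by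
    intro φ hφ
    obtain ⟨α, hα, φ₀, hφ₀, hv⟩ := hfr R hRT φ hφ
    refine ⟨α, hα, fun r => ?_⟩
    rw [hv r (hRT (hRnorm φ₀ hφ₀ r))]
    exact hRRmem α ⟨_, hRnorm φ₀ hφ₀ r⟩
  have hRRle : ∀ α ∈ F.autGroup T, RR α ≤ Rs := by
    rintro α hα _ ⟨x, hx, rfl⟩
    have hxR : (x : Ω) ∈ R := Subgroup.mem_subgroupOf.1 hx
    have hαi := (mem_autGroup_iff hTS).1 hα
    have hres := res_mem F hαi hRT
    exact Subgroup.subset_closure ⟨_, hres, ⟨x, hxR⟩, rfl⟩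
  have hRsT : Rs ≤ T := by
    refine (Subgroup.closure_le _).2 ?_
    rintro _ ⟨φ, hφ, r, rfl⟩
    exact hsc.2 R hRT φ hφ r
  -- `R*` is normal in `E`
  have hRsE : E.IsNormal Rs := by
    let C : Set (Subgroup Ω) := {Q | E.IsNormal Q ∧ Q ≤ Rs}
    have hCne : C.Nonempty := ⟨⊥, isNormal_bot (F := E), bot_le⟩
    have hsup := sSup_mem_of_sup_closed (S := T) C hCne (fun Q hQ => hQ.1.1)
      (fun Q₁ h₁ Q₂ h₂ => ⟨IsNormal.sup h₁.1 h₂.1, sup_le h₁.2 h₂.2⟩)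
    have hle : Rs ≤ sSup C := by
      refine (Subgroup.closure_le _).2 ?_
      rintro _ ⟨φ, hφ, r, rfl⟩
      obtain ⟨α, hα, h⟩ := himg φ hφ
      have hmemC : RR α ∈ C := ⟨hnormal α hα, hRRle α hα⟩
      exact (le_sSup hmemC) (h r)
    have : Rs = sSup C := le_antisymm hle hsup.2
    rw [this]
    exact hsup.1
  -- `Aut_F(T)` preserves `R*`
  have hαRs : ∀ α ∈ F.autGroup T, ∀ x : T, (x : Ω) ∈ Rs → ((α x : T) : Ω) ∈ Rs := by
    intro α hα x hx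
    have h : Rs ≤ (Rs.comap (T.subtype.comp α.toMonoidHom)).map T.subtype := by
      refine (Subgroup.closure_le _).2 ?_
      rintro _ ⟨φ, hφ, r, rfl⟩
      have hv : φ r ∈ T := hsc.2 R hRT φ hφ r
      refine ⟨⟨φ r, hv⟩, ?_, rfl⟩
      have hαi := (mem_autGroup_iff hTS).1 hα
      have hc := F.comp_mem hφ hαi (fun y => hsc.2 R hRT φ hφ y)
      exact Subgroup.subset_closure ⟨_, hc, r, rfl⟩
    obtain ⟨y, hy, hyx⟩ := h hx
    have : y = x := Subtype.ext hyx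
    subst this
    exact hy
  -- `R*` is strongly closed in `F`
  have hRsc : F.StronglyClosed Rs := by
    refine ⟨hRsT.trans hTS, fun Q hQ φ hφ x => ?_⟩
    obtain ⟨α, hα, φ₀, hφ₀, hv⟩ := hfr Q (hQ.trans hRsT) φ hφ
    have hx₀ : φ₀ x ∈ Rs := (IsNormal.stronglyClosed hRsE).2 Q hQ φ₀ hφ₀ x
    rw [hv x (hRsT hx₀)]
    exact hαRs α hα ⟨_, hRsT hx₀⟩ hx₀
  refine (isNormal_iff_extends hS hF (hRsT.trans hTS)).2 fun P hPR φ hφ => ?_
  obtain ⟨α, hα, φ₀, hφ₀, hv⟩ := hfr P (hPR.trans hRsT) φ hφ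
  obtain ⟨β₀, hβ₀, hβ₀v⟩ := (isNormal_iff_extends hTp hEs hRsT).1 hRsE P hPR φ₀ hφ₀
  obtain ⟨α', hα', hα'v⟩ := exists_res_aut hRsc hRsT hTS hα
  have hβ₀F : β₀ ∈ F.autGroup Rs := (mem_autGroup_iff (hRsT.trans hTS)).2 (hsub _ ((mem_autGroup_iff hRsT).1 hβ₀))
  refine ⟨α' * β₀, Subgroup.mul_mem _ hα' hβ₀F, fun x => ?_⟩
  have hx₀ := hβ₀v x
  rw [hv x (by rw [← hx₀]; exact hRsT (β₀ _).2), MulAut.mul_apply, hα'v]
  congr 2
  exact Subtype.ext hx₀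

end Cfsg.Agent.S5291
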