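import Cfsg.Statements.S5297
import Cfsg.Agent.Lib.Fusion.SmallGroup
import Mathlib

set_option autoImplicit false
universe u
open Cfsg

namespace Cfsg.Agent.S5297

open Cfsg.Agent.Lib.Fusion.SmallExp Cfsg.Agent.Lib.Fusion.SmallGroup Cfsg.Agent.Lib.Fusion Cfsg.FusionSystem


/-- Let F be a saturated fusion system over a finite p-group S. If every map of F between cyclic subgroups of the hyperfocal subgroup of F of order p or 4 is a map of the normalizer system of S (it extends to a map of F defined on all of S), then S is normal in F. -/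
theorem result {Ω : Type u} [Group Ω] {S : Subgroup Ω} [Finite S] (p : ℕ) [Fact p.Prime] (hS : IsPGroup p S)
    (F : Cfsg.FusionSystem S) (hF : F.IsSaturated p)
    (h : ∀ A B : Subgroup Ω, A ≤ (F.hyperfocalSubgroup p) → B ≤ (F.hyperfocalSubgroup p) → IsCyclic ↥A → (Nat.card ↥A = p ∨ Nat.card ↥A = 4) → IsCyclic ↥B → (Nat.card ↥B = p ∨ Nat.card ↥B = 4) →
      F.homSet A B ⊆ F.normalizerHom S A) :
    F.IsNormal S := by
  have hsc := hyperfocal_stronglyClosed (F := F) hS hF
  refine isNormal_of_autGroup hS hF (Subgroup.le_normalizer) le_rfl (fun P hP => ?_)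
  have hPS : P = S := hP.elim id (fun he => by
    refine (false_of_chain hS hF he fun β x i hx hsm hz => ?_).elim
    have hPS := he.1.1
    have hφ := (mem_autGroup_iff hPS).1 β.2
    by_cases hne : (x : Ω) = 1
    · have : x = 1 := Subtype.ext hne
      rw [this, map_one]
      exact Subgroup.one_mem _
    have hA : Subgroup.zpowers (x : Ω) ≤ P := by
      rw [Subgroup.zpowers_le]
      exact x.2
    have hφA := res_mem F hφ hA
    have hxy : (((β : MulAut P) x : P) : Ω) ∈ F.hyperfocalSubgroup p :=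
      hsc.2 _ (Subgroup.zpowers_le.2 hx) _ hφA ⟨x, Subgroup.mem_zpowers _⟩
    have hord : orderOf (((β : MulAut P) x : P) : Ω) = orderOf (x : Ω) := by
      rw [Subgroup.orderOf_coe, Subgroup.orderOf_coe, MulEquiv.orderOf_eq]
    have hsmB : Nat.card (Subgroup.zpowers (((β : MulAut P) x : P) : Ω)) = p ∨ Nat.card (Subgroup.zpowers (((β : MulAut P) x : P) : Ω)) = 4 := by
      have := card_zpowers_of_small hsm hne
      rwa [Nat.card_zpowers, ← hord, ← Nat.card_zpowers] at this
    have hmem := h _ _ (Subgroup.zpowers_le.2 hx) (Subgroup.zpowers_le.2 hxy) inferInstance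
      (card_zpowers_of_small hsm hne) inferInstance hsmB ⟨hφA, fun y => by
        obtain ⟨y, hy⟩ := y
        obtain ⟨k, rfl⟩ := Subgroup.mem_zpowers_iff.1 hy
        refine Subgroup.mem_zpowers_iff.2 ⟨k, ?_⟩
        have e : (⟨(x : Ω) ^ k, hy⟩ : Subgroup.zpowers (x : Ω)) = (⟨x, Subgroup.mem_zpowers _⟩ : Subgroup.zpowers (x : Ω)) ^ k :=
          Subtype.ext (by simp)
        rw [e, map_zpow]
        rfl⟩
    obtain ⟨-, -, -, ψ, hψ, hψv, hψm⟩ := hmem
    have hle : S ≤ Subgroup.zpowers (x : Ω) ⊔ S := le_sup_right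
    have hxS : (x : Ω) ∈ S := hPS x.2
    have hψ' := res_mem F hψ hle
    have hvS : ∀ y : S, (ψ.comp (Subgroup.inclusion hle)) y ∈ S := by
      intro y
      have hyy : (ψ.comp (Subgroup.inclusion hle)) y ∈ (S.subgroupOf (Subgroup.zpowers (x : Ω) ⊔ S)).map ψ :=
        ⟨Subgroup.inclusion hle y, Subgroup.mem_subgroupOf.2 y.2, rfl⟩
      exact hψm.le hyy
    have hres := map_zetaS (F := F) hψ' hvS (y := ⟨x, hxS⟩) (i := i) hz
    have hval := hψv ⟨x, Subgroup.mem_zpowers _⟩
    have : (ψ.comp (Subgroup.inclusion hle)) ⟨x, hxS⟩ = ψ (Subgroup.inclusion le_sup_left (⟨x, Subgroup.mem_zpowers _⟩ : Subgroup.zpowers (x : Ω))) := rfl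
    rw [this, hval] at hres
    exact hres)
  subst hPS
  refine ⟨le_rfl, fun α _ => ?_⟩
  rw [Subgroup.subgroupOf_self]
  exact Subgroup.map_top_of_surjective _ α.surjective


end Cfsg.Agent.S5297
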