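import Cfsg.Statements.S5301
import Cfsg.Agent.Lib.Fusion.NormalSub
import Mathlib

set_option autoImplicit false
universe u
open Cfsg

namespace Cfsg.Agent.S5301

open Cfsg.Agent.Lib.Fusion Cfsg.FusionSystem


/-- Let F be a saturated fusion system over a finite p-group S. If for every subgroup P of S that is fully normalized, centric and radical in F the automorphism group that F induces on P has a normal Sylow p-subgroup, then S is normal in F. -/
theorem result {Ω : Type u} [Group Ω] {S : Subgroup Ω} [Finite S] (p : ℕ) [Fact p.Prime] (hS : IsPGroup p S)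
    (F : Cfsg.FusionSystem S) (hF : F.IsSaturated p)
    (hcl : ∀ P : Subgroup Ω, F.IsFullyNormalized P → F.IsCentric P → F.IsRadical p P →
      ∃ R : Sylow p ↥(F.autGroup P), (R : Subgroup ↥(F.autGroup P)).Normal) :
    F.IsNormal S := by
  classical
  rw [isNormal_iff_aut hS hF]
  have key : ∀ T : Subgroup Ω, (T = S ∨ F.IsEssential p T) → S ≤ T := by
    rintro T (rfl | hT)
    · exact le_rfl
    · have hTc := hT.1
      have hTn := hT.2.1
      have hTr := isRadical_of_essential hS hT
      obtain ⟨R, hR⟩ := hcl T hTn hTc hTr
      have hfin := finite_autGroup F hTc.1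
      have hTS := hTc.1
      refine le_of_normal_pSubgroup hS (Q := S) (T := T) ?_ le_rfl hTc hTr
        (D := (R : Subgroup (F.autGroup T)).map (F.autGroup T).subtype) (Subgroup.map_subtype_le _)
        (R.isPGroup'.map _) ?_ ?_
      · intro s hs
        exact Subgroup.mem_normalizer_iff.2 fun x => ⟨fun hx => Subgroup.mul_mem _ (Subgroup.mul_mem _ hs hx) (Subgroup.inv_mem _ hs),
          fun hx => by
            have := Subgroup.mul_mem _ (Subgroup.mul_mem _ (Subgroup.inv_mem _ hs) hx) hs
            simpa [mul_assoc] using this⟩
      · rintro α hα _ ⟨δ, hδ, rfl⟩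
        exact ⟨⟨α, hα⟩ * δ * ⟨α, hα⟩⁻¹, hR.conj_mem _ hδ _, rfl⟩
      · intro g hg
        have hgS := (mem_normalizerIn.1 hg).1
        have hgN := (mem_normalizerIn.1 hg).2
        have hmem : conjAut T g hgN ∈ F.autGroup T :=
          autInducedBy_le_autGroup F hTS (conjAut_mem hgS hgN)
        -- `conjAut` has `p`-power order in `Aut_F(T)`
        have hU : IsPGroup p (Subgroup.zpowers (⟨conjAut T g hgN, hmem⟩ : F.autGroup T)) := by
          obtain ⟨k, hk⟩ := hS ⟨g, hgS⟩
          refine isPGroup_zpowers (k := k) ?_
          have h1 : (conjAut T g hgN) ^ (p ^ k) = 1 := by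
            have hpow : ∀ n : ℕ, ∃ h : g ^ n ∈ Subgroup.normalizer (T : Set Ω), (conjAut T g hgN) ^ n = conjAut T (g ^ n) h := by
              intro n
              induction n with
              | zero => exact ⟨by simp [Subgroup.one_mem], by simpa using (conjAut_one T).symm⟩
              | succ n ih =>
                obtain ⟨h, e⟩ := ih
                refine ⟨by rw [pow_succ]; exact Subgroup.mul_mem _ h hgN, ?_⟩
                rw [pow_succ, e]
                have := conjAut_mul T h hgN
                rw [← this]
                congr 1
                rw [pow_succ]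
            obtain ⟨h, e⟩ := hpow (p ^ k)
            rw [e]
            have hg1 : g ^ (p ^ k) = 1 := by
              have := congrArg Subtype.val hk
              simpa using this
            ext x
            simp [conjAut, hg1]
          exact Subtype.ext h1
        obtain ⟨R', hR'⟩ := hU.exists_le_sylow
        letI := Sylow.unique_of_normal R hR
        have hRR : R' = R := Subsingleton.elim _ _
        subst hRR
        exact ⟨_, hR' (Subgroup.mem_zpowers _), rfl⟩
  intro T hT
  have hST := key T hT
  have hTS : T ≤ S := by
    rcases hT with rfl | hT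
    · exact le_rfl
    · exact hT.1.1
  have hTS' : T = S := le_antisymm hTS hST
  subst hTS'
  refine ⟨le_rfl, fun α hα => ?_⟩
  have : T.subgroupOf T = ⊤ := Subgroup.subgroupOf_self T
  rw [this]
  exact Subgroup.map_top_of_surjective _ α.surjective

end Cfsg.Agent.S5301
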