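import Cfsg.Statements.S5328
import Cfsg.Agent.Lib.Fusion.BisetGroup
import Mathlib

set_option autoImplicit false
universe u
open Cfsg

namespace Cfsg.Agent.S5328

open Cfsg.Agent.Lib.Fusion.Biset Cfsg.Agent.Lib.Fusion Cfsg.FusionSystem


/-- Every fusion system over a finite p-group S, saturated or not, is realized inside some finite group: there is a finite group G and an injective homomorphism ι of S into G such that the maps of the system are exactly the homomorphisms between subgroups of S that become conjugations by elements of G (the image of S need not be a Sylow p-subgroup of G). -/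
theorem result {Ω : Type u} [Group Ω] {S : Subgroup Ω} [Finite S] (p : ℕ) [Fact p.Prime] (hS : IsPGroup p S) (F : Cfsg.FusionSystem S) : ∃ (G : Type u) (_ : Group G) (_ : Finite G) (ι : ↥S →* G), F.IsRealizedBy ι := by
  obtain ⟨X, i1, i2, h1, h2, h3⟩ := exists_stable_of_any F
  obtain ⟨ω₀, hω₀⟩ := mark_pos_iff.mp h3
  refine ⟨permR S X, inferInstance, inferInstance, leftHom S X, leftHom_injective h1 ⟨ω₀⟩, ?_⟩
  intro P hP φ hφ
  constructor
  · intro hm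
    obtain ⟨f, hf, hfv⟩ := exists_intertwiner h1 h2 hm
    refine ⟨⟨f, hf⟩, fun x => ?_⟩
    apply Subtype.ext
    ext y
    have := hfv x (f⁻¹ y)
    show ((⟨φ x, hφ x⟩, 1) : S × S) • y = f (((⟨x, hP x.2⟩, 1) : S × S) • (f⁻¹ y))
    rw [this]
    simp
  · rintro ⟨g, hg⟩
    have hfix : ∀ x : P, (((⟨φ x, hφ x⟩, ⟨x, hP x.2⟩) : S × S)) • ((g : Equiv.Perm X) ω₀) = (g : Equiv.Perm X) ω₀ := by
      intro x
      have h1' := hg x
      have h2' := congrArg (fun f : permR S X => (f : Equiv.Perm X) ((g : Equiv.Perm X) (((⟨x, hP x.2⟩, 1) : S × S)⁻¹ • ω₀))) h1'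
      have h3' : ((1, (⟨x, hP x.2⟩ : S)) : S × S) • ω₀ = (((⟨x, hP x.2⟩, 1) : S × S))⁻¹ • ω₀ := by
        rw [eq_inv_smul_iff, smul_smul]
        have : ((⟨x, hP x.2⟩, 1) : S × S) * ((1, (⟨x, hP x.2⟩ : S)) : S × S) = (⟨x, hP x.2⟩, ⟨x, hP x.2⟩) := by
          simp
        rw [this]
        exact hω₀ _ (mem_diag.mpr ⟨hP x.2, rfl⟩)
      have h4' : ((⟨φ x, hφ x⟩, ⟨x, hP x.2⟩) : S × S) = ((⟨φ x, hφ x⟩, 1) : S × S) * ((1, (⟨x, hP x.2⟩ : S)) : S × S) := by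
        simp
      rw [h4', mul_smul, ← g.2 _ ω₀, h3']
      refine Eq.trans h2' ?_
      show (g : Equiv.Perm X) (((⟨x, hP x.2⟩, 1) : S × S) • ((g : Equiv.Perm X)⁻¹ ((g : Equiv.Perm X) (((⟨x, hP x.2⟩, 1) : S × S)⁻¹ • ω₀)))) = _
      have h7 : ∀ y : X, (g : Equiv.Perm X)⁻¹ ((g : Equiv.Perm X) y) = y := fun y => by simp
      rw [h7, smul_inv_smul]
    obtain ⟨Q, ψ, hψ, hQ⟩ := h1 ((g : Equiv.Perm X) ω₀)
    have hstab : ∀ x : P, ((⟨φ x, hφ x⟩, ⟨x, hP x.2⟩) : S × S) ∈ graph S Q ψ := by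
      intro x
      rw [← hQ]
      exact hfix x
    have hrQ : φ.range ≤ Q := by
      rintro _ ⟨x, rfl⟩
      exact (hstab x).1
    have hψ' := res_mem F hψ hrQ
    obtain ⟨ρ, hρ, hρv⟩ := F.inv_mem hψ'
    have hv : ∀ x : P, (ψ.comp (Subgroup.inclusion hrQ)) ⟨φ x, ⟨x, rfl⟩⟩ = x := by
      intro x
      exact (hstab x).2
    have hrange : (ψ.comp (Subgroup.inclusion hrQ)).range = P := by
      ext y
      constructor
      · rintro ⟨⟨_, x, rfl⟩, rfl⟩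
        rw [hv]; exact x.2
      · intro hy
        exact ⟨⟨φ ⟨y, hy⟩, ⟨_, rfl⟩⟩, hv ⟨y, hy⟩⟩
    refine hom_of_eq F hρ hrange ?_
    intro x hx1 hx2
    have h5 := hρv ⟨φ ⟨x, hx2⟩, ⟨_, rfl⟩⟩
    have h6 : (⟨(ψ.comp (Subgroup.inclusion hrQ)) ⟨φ ⟨x, hx2⟩, ⟨_, rfl⟩⟩, ⟨_, rfl⟩⟩ : (ψ.comp (Subgroup.inclusion hrQ)).range) = ⟨x, hx1⟩ :=
      Subtype.ext (hv ⟨x, hx2⟩)
    rw [h6] at h5
    exact h5.symm

end Cfsg.Agent.S5328
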