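import Cfsg.Statements.S5331
import Cfsg.Agent.Lib.Fusion.Abelian
import Mathlib

set_option autoImplicit false
open Cfsg

namespace Cfsg.Agent.S5331

open Cfsg.Agent.Lib.Fusion Cfsg.FusionSystem


theorem zmod_two_mul_eq_zero {a : ℕ} (ha : 1 ≤ a) {t : ZMod (2 ^ a)} (h : 2 * t = 0) :
    t = 0 ∨ t = (2 ^ (a - 1) : ZMod (2 ^ a)) := by
  obtain ⟨b, rfl⟩ : ∃ b, a = b + 1 := ⟨a - 1, by omega⟩
  haveI : NeZero (2 ^ (b + 1)) := ⟨by positivity⟩
  have hv : (t.val : ZMod (2 ^ (b + 1))) = t := ZMod.natCast_zmod_val t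
  have h1 : ((2 * t.val : ℕ) : ZMod (2 ^ (b + 1))) = 0 := by
    push_cast
    rw [hv, h]
  rw [ZMod.natCast_eq_zero_iff] at h1
  have h1' : 2 * 2 ^ b ∣ 2 * t.val := (dvd_of_eq (pow_succ' 2 b).symm).trans h1
  have h2 : 2 ^ b ∣ t.val := Nat.dvd_of_mul_dvd_mul_left (by norm_num) h1'
  obtain ⟨c, hc⟩ := h2
  have hlt : t.val < 2 ^ (b + 1) := ZMod.val_lt t
  have hc2 : c < 2 := by
    rw [hc, pow_succ] at hlt
    exact Nat.lt_of_mul_lt_mul_left (a := 2 ^ b) hlt
  interval_cases c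
  · left
    rw [← hv, hc]
    simp
  · right
    rw [← hv, hc]
    simp

theorem zmod_pow_mul_ne {a k : ℕ} {y : ZMod (2 ^ a)} (h : (2 : ZMod (2 ^ a)) ^ k * y ≠ 0) : k < a := by
  by_contra hle
  apply h
  have h1 : (2 : ZMod (2 ^ a)) ^ a = 0 := by
    have := ZMod.natCast_self (2 ^ a)
    push_cast at this
    exact this
  have h2 : (2 : ZMod (2 ^ a)) ^ k = 0 := by
    obtain ⟨m, rfl⟩ := Nat.exists_eq_add_of_le (not_lt.1 hle)
    rw [pow_add, h1, zero_mul]
  rw [h2, zero_mul]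

theorem zmod_exists_pow_mul {a k : ℕ} (hk : k < a) {t : ZMod (2 ^ a)} (h : 2 * t = 0) :
    ∃ y : ZMod (2 ^ a), (2 : ZMod (2 ^ a)) ^ k * y = t := by
  rcases zmod_two_mul_eq_zero (by omega) h with rfl | rfl
  · exact ⟨0, by simp⟩
  · refine ⟨2 ^ (a - 1 - k), ?_⟩
    rw [← pow_add]
    congr 2
    omega

section
variable {n : ℕ} {a : Fin n → ℕ}

/-- `Ω₁ ∩ 2^k G`. -/
def WW (k : ℕ) : Subgroup (Multiplicative ((i : Fin n) → ZMod (2 ^ a i))) where
  carrier := {x | x ^ 2 = 1 ∧ ∃ y : Multiplicative ((i : Fin n) → ZMod (2 ^ a i)), x = y ^ (2 ^ k)}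
  mul_mem' := by
    rintro x x' ⟨h1, y, rfl⟩ ⟨h1', y', rfl⟩
    exact ⟨by rw [mul_pow, h1, h1', one_mul], y * y', by rw [mul_pow]⟩
  one_mem' := ⟨one_pow _, 1, by simp⟩
  inv_mem' := by
    rintro x ⟨h1, y, rfl⟩
    exact ⟨by rw [inv_pow, h1, inv_one], y⁻¹, by rw [inv_pow]⟩

theorem mem_WW_iff (ha1 : ∀ i, 1 ≤ a i) {k : ℕ} {x : Multiplicative ((i : Fin n) → ZMod (2 ^ a i))} :
    x ∈ WW (a := a) k ↔ ∀ i, 2 * (Multiplicative.toAdd x) i = 0 ∧ ((Multiplicative.toAdd x) i = 0 ∨ k < a i) := by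
  have hsq : ∀ x : Multiplicative ((i : Fin n) → ZMod (2 ^ a i)), x ^ 2 = 1 ↔ ∀ i, 2 * (Multiplicative.toAdd x) i = 0 := by
    intro x
    constructor
    · intro h i
      have h1 := congrArg (fun z => (Multiplicative.toAdd z) i) h
      simpa [toAdd_pow, two_mul, two_nsmul] using h1
    · intro h
      apply Multiplicative.toAdd.injective
      funext i
      simpa [toAdd_pow, two_mul, two_nsmul] using h i
  constructor
  · rintro ⟨h1, y, hy⟩ i
    refine ⟨(hsq _).1 h1 i, ?_⟩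
    by_cases h0 : (Multiplicative.toAdd x) i = 0
    · exact Or.inl h0
    · right
      refine zmod_pow_mul_ne (y := (Multiplicative.toAdd y) i) ?_
      rw [hy] at h0
      simpa [toAdd_pow] using h0
  · intro h
    refine ⟨(hsq _).2 fun i => (h i).1, ?_⟩
    have hex : ∀ i, ∃ y : ZMod (2 ^ a i), (2 : ZMod (2 ^ a i)) ^ k * y = (Multiplicative.toAdd x) i := by
      intro i
      rcases (h i).2 with h0 | hlt
      · exact ⟨0, by rw [h0, mul_zero]⟩
      · exact zmod_exists_pow_mul hlt (h i).1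
    choose y hy using hex
    refine ⟨Multiplicative.ofAdd y, ?_⟩
    apply Multiplicative.toAdd.injective
    funext i
    simp [toAdd_pow, hy]

/-- The factors of the chain have order at most two. -/
theorem WW_step (ha : StrictMono a) (ha1 : ∀ i, 1 ≤ a i) {k : ℕ} {x x' : Multiplicative ((i : Fin n) → ZMod (2 ^ a i))}
    (hx : x ∈ WW (a := a) k) (hx' : x' ∈ WW (a := a) k) (hn : x ∉ WW (a := a) (k + 1)) (hn' : x' ∉ WW (a := a) (k + 1)) :
    x⁻¹ * x' ∈ WW (a := a) (k + 1) := by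
  rw [mem_WW_iff ha1] at hx hx' ⊢
  rw [mem_WW_iff ha1] at hn hn'
  push_neg at hn hn'
  obtain ⟨i, hi⟩ := hn
  obtain ⟨i', hi'⟩ := hn'
  have hi1 := hi (hx i).1
  have hi1' := hi' (hx' i').1
  have hai : a i = k + 1 := by
    have := (hx i).2.resolve_left hi1.1
    omega
  have hai' : a i' = k + 1 := by
    have := (hx' i').2.resolve_left hi1'.1
    omega
  have hii : i = i' := ha.injective (hai.trans hai'.symm)
  subst hii
  have hxi := (zmod_two_mul_eq_zero (ha1 i) (hx i).1).resolve_left hi1.1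
  have hxi' := (zmod_two_mul_eq_zero (ha1 i) (hx' i).1).resolve_left hi1'.1
  intro j
  have hcoord : (Multiplicative.toAdd (x⁻¹ * x')) j = -(Multiplicative.toAdd x) j + (Multiplicative.toAdd x') j := by
    simp
  rw [hcoord]
  refine ⟨?_, ?_⟩
  · rw [mul_add, mul_neg, (hx j).1, (hx' j).1]
    simp
  · by_cases hj : j = i
    · subst hj
      left
      rw [hxi, hxi']
      simp
    · have hne : a j ≠ k + 1 := fun h => hj (ha.injective (h.trans hai.symm))
      by_cases h0 : (Multiplicative.toAdd x) j = 0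
      · by_cases h0' : (Multiplicative.toAdd x') j = 0
        · left
          rw [h0, h0']
          simp
        · right
          have := (hx' j).2.resolve_left h0'
          omega
      · right
        have := (hx j).2.resolve_left h0
        omega

theorem WW_top_pow (y : Multiplicative ((i : Fin n) → ZMod (2 ^ a i))) : y ^ (2 ^ (∑ i, a i)) = 1 := by
  apply Multiplicative.toAdd.injective
  funext i
  simp only [toAdd_pow, Pi.smul_apply, toAdd_one, Pi.zero_apply, nsmul_eq_mul]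
  have h1 : (2 : ZMod (2 ^ a i)) ^ a i = 0 := by
    have := ZMod.natCast_self (2 ^ a i)
    push_cast at this
    exact this
  have hle : a i ≤ ∑ i, a i := Finset.single_le_sum (fun _ _ => Nat.zero_le _) (Finset.mem_univ i)
  obtain ⟨m, hm⟩ := Nat.exists_eq_add_of_le hle
  push_cast
  rw [hm, pow_add, h1]
  simp

/-- The automorphism group fixes `Ω₁` up to a two-power. -/
theorem exists_two_pow_fix (ha : StrictMono a) (ha1 : ∀ i, 1 ≤ a i) (γ : MulAut (Multiplicative ((i : Fin n) → ZMod (2 ^ a i)))) :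
    ∃ N : ℕ, ∀ x : Multiplicative ((i : Fin n) → ZMod (2 ^ a i)), x ^ 2 = 1 → (γ ^ (2 ^ N)) x = x := by
  haveI : Fact (Nat.Prime 2) := ⟨Nat.prime_two⟩
  have hG : IsPGroup 2 (Multiplicative ((i : Fin n) → ZMod (2 ^ a i))) := fun y => ⟨_, WW_top_pow y⟩
  have hinv : ∀ (γ : MulAut (Multiplicative ((i : Fin n) → ZMod (2 ^ a i)))) (k : ℕ) x, x ∈ WW (a := a) k → γ x ∈ WW (a := a) k := by
    rintro γ k x ⟨h1, y, rfl⟩
    exact ⟨by rw [← map_pow, h1, map_one], γ y, by rw [map_pow]⟩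
  have hle : ∀ k, WW (a := a) (k + 1) ≤ WW (a := a) k := by
    rintro k x ⟨h1, y, rfl⟩
    exact ⟨h1, y ^ 2, by rw [pow_succ 2 k, pow_mul]; rw [pow_right_comm]⟩
  have key : ∀ d k, (∑ i, a i) - k = d → ∃ N : ℕ, ∀ x ∈ WW (a := a) k, (γ ^ (2 ^ N)) x = x := by
    intro d
    induction d with
    | zero =>
      intro k hk
      refine ⟨0, ?_⟩
      rintro x ⟨-, y, rfl⟩
      have h1 : y ^ 2 ^ k = 1 := by
        obtain ⟨m, hm⟩ := Nat.exists_eq_add_of_le (show (∑ i, a i) ≤ k by omega)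
        rw [hm, pow_add, pow_mul, WW_top_pow, one_pow]
      rw [h1, map_one]
    | succ d ih =>
      intro k hk
      obtain ⟨N, hN⟩ := ih (k + 1) (by omega)
      refine pow_fix_step (p := 2) hG γ (hle k) (fun x hx => ?_) hN
      by_cases hx1 : x ∈ WW (a := a) (k + 1)
      · exact Subgroup.mul_mem _ (Subgroup.inv_mem _ hx1) (hinv γ _ x hx1)
      · refine WW_step ha ha1 hx (hinv γ k x hx) hx1 fun h => hx1 ?_
        simpa using hinv γ⁻¹ _ _ h
  obtain ⟨N, hN⟩ := key _ 0 rfl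
  exact ⟨N, fun x hx => hN x ⟨hx, x, by simp⟩⟩

end


/-- Let S be a finite abelian 2-group that is a direct product of cyclic groups of pairwise distinct orders 2^{a_1} < 2^{a_2} < ⋯ < 2^{a_n} (all a_i ≥ 1). Then every saturated fusion system over S is the inner one: its maps are exactly the conjugations by elements of S. -/
theorem result {Ω : Type*} [Group Ω] {S : Subgroup Ω} [Finite S] (n : ℕ) (a : Fin n → ℕ) (ha : StrictMono a) (ha1 : ∀ i, 1 ≤ a i) (e : ↥S ≃* Multiplicative ((i : Fin n) → ZMod (2 ^ a i))) (F : Cfsg.FusionSystem S) (hF : F.IsSaturated 2) (P : Subgroup Ω) : F.Hom P = (Cfsg.innerFusionSystem S).Hom P := by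
  haveI : Fact (Nat.Prime 2) := ⟨Nat.prime_two⟩
  have hcommG : ∀ u v : Multiplicative ((i : Fin n) → ZMod (2 ^ a i)), u * v = v * u := mul_comm
  have hab : ∀ x ∈ S, ∀ y ∈ S, x * y = y * x := by
    intro x hx y hy
    have h1 := hcommG (e ⟨x, hx⟩) (e ⟨y, hy⟩)
    rw [← map_mul, ← map_mul] at h1
    exact congrArg Subtype.val (e.injective h1)
  have hS : IsPGroup 2 S := fun y => ⟨_, e.injective (by rw [map_pow, map_one]; exact WW_top_pow (a := a) (e y))⟩
  have hodd := abelian_coprime hS hF hab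
  -- elements of `Ω₁(S)` are fixed by `Aut_F(S)`
  have hfix : ∀ α ∈ F.autGroup S, ∀ x : S, x ^ 2 = 1 → α x = x := by
    intro α hα x hx
    obtain ⟨N, hN⟩ := exists_two_pow_fix ha ha1 (autTransport e α)
    have hx' : (e x) ^ 2 = 1 := by rw [← map_pow, hx, map_one]
    have h1 := hN (e x) hx'
    rw [← map_pow, autTransport_apply'] at h1
    have h2 : (α ^ (2 ^ N)) x = x := e.injective h1
    have hcop : Nat.Coprime (2 ^ N) (orderOf α) := by
      refine Nat.Coprime.pow_left N ?_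
      have hdvd : orderOf α ∣ Nat.card (F.autGroup S) := by
        have h3 : orderOf α = orderOf (⟨α, hα⟩ : F.autGroup S) := (Subgroup.orderOf_mk α hα).symm
        rw [h3]
        exact orderOf_dvd_natCard _
      exact (Nat.Coprime.coprime_dvd_left hdvd hodd).symm
    obtain ⟨m, hm⟩ := exists_pow_eq_self_of_coprime hcop
    have h4 : ∀ u : ℕ, ((α ^ (2 ^ N)) ^ u) x = x := by
      intro u
      induction u with
      | zero => simp
      | succ u ih =>
        rw [pow_succ, MulAut.mul_apply, h2, ih]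
    rw [← hm]
    exact h4 m
  -- the focal subgroup is trivial
  have hfoc : F.focalSubgroup = ⊥ := by
    by_contra hne
    have hfocS : F.focalSubgroup ≤ S := focal_le
    haveI := finite_of_le hfocS
    have hp : IsPGroup 2 F.focalSubgroup := hS.to_le hfocS
    have hdvd : 2 ∣ Nat.card F.focalSubgroup := by
      rcases hp.card_eq_or_dvd with h1 | h1
      · exact absurd (Subgroup.card_eq_one.1 h1) hne
      · exact h1
    obtain ⟨x, hx⟩ := exists_prime_orderOf_dvd_card' 2 hdvd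
    have hx1 : (x : Ω) ∈ F.center := by
      refine (abelian_mem_center_iff hS hF hab).2 ⟨hfocS x.2, fun α hα => hfix α hα _ ?_⟩
      have h2 : x ^ 2 = 1 := by rw [← hx]; exact pow_orderOf_eq_one x
      have h3 := congrArg Subtype.val h2
      exact Subtype.ext h3
    have h5 : (x : Ω) ∈ F.center ⊓ F.focalSubgroup := ⟨hx1, x.2⟩
    rw [(abelian_center_inf_focal hS hF hab).1, Subgroup.mem_bot] at h5
    have h6 : x = 1 := Subtype.ext h5
    rw [h6, orderOf_one] at hx
    omega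
  ext φ
  constructor
  · intro hφ
    have hP := hom_le F hφ
    refine ⟨hP, 1, S.one_mem, fun x => ?_⟩
    have h1 : (x : Ω)⁻¹ * φ x ∈ F.focalSubgroup := Subgroup.subset_closure ⟨P, φ, x, hφ, rfl⟩
    rw [hfoc, Subgroup.mem_bot] at h1
    have h2 : φ x = x := by
      have := mul_eq_one_iff_eq_inv'.1 h1
      simpa using this
    rw [h2]
    simp
  · rintro ⟨hP, g, hg, hv⟩
    exact conj_val F hP hg hv

end Cfsg.Agent.S5331
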