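import Cfsg.Statements.S5332
import Cfsg.Agent.Lib.Fusion.Sparse
import Mathlib

set_option autoImplicit false
open Cfsg

namespace Cfsg.Agent.S5332

open Cfsg.Agent.Lib.Fusion Cfsg.FusionSystem


/-- Let p be odd and F a saturated fusion system over a finite p-group S that is not the inner system of S. Then F contains a saturated constrained subsystem over S that is itself not the inner system. -/
theorem result {Ω : Type*} [Group Ω] {S : Subgroup Ω} [Finite S] (p : ℕ) [Fact p.Prime] (hS : IsPGroup p S) (F : Cfsg.FusionSystem S) (hF : F.IsSaturated p) (hp : p ≠ 2) (hne : ∃ P : Subgroup Ω, F.Hom P ≠ (Cfsg.innerFusionSystem S).Hom P) : ∃ E : Cfsg.FusionSystem S, E ≤ F ∧ E.IsConstrained p ∧ ∃ P : Subgroup Ω, E.Hom P ≠ (Cfsg.innerFusionSystem S).Hom P := by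
  have hF0 : NonInner p F := by
    by_contra h
    obtain ⟨P, hP⟩ := hne
    exact hP (by rw [eq_inner_of_not_nonInner hS hF h])
  obtain ⟨E, ⟨hEs, hEF, hEn⟩, hmax⟩ := exists_max_of_bdd (C := {E : FusionSystem S | E.IsSaturated p ∧ E ≤ F ∧ NonInner p E})
    ⟨F, hF, fun _ => le_rfl, hF0⟩ (fun E => Nat.card E.core) (Nat.card S)
    (fun E _ => card_le_of_le le_rfl (isNormal_core (F := E)).1)
  refine ⟨E, hEF, ?_, ?_⟩
  · refine constrained_of_no_larger hS hEs (Or.inl hp) fun X hlt hXS hXN N hN hnon => ?_
    have hnorm : normalizerIn S X = S := le_antisymm (normalizerIn_le _) fun g hg => mem_normalizerIn.2 ⟨hg, hXN hg⟩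
    have hfn : E.IsFullyNormalized X := isFullyNormalized_of_normalizerIn_eq hXS hnorm
    have hNs := isSaturated_normalizerSystem hS hEs hfn hN
    obtain ⟨E', hEhom, hE's⟩ := exists_transport_system (p := p) hnorm N
    have hsub : E' ≤ E := fun P φ hφ => by
      rw [hEhom, hN P] at hφ
      exact hφ.1
    have hE'n : NonInner p E' := NonInner.mono (fun P => by rw [hEhom]) hnorm.le hnon
    have h1 := hmax E' ⟨hE's hNs, fun P => (hsub P).trans (hEF P), hE'n⟩
    have hXnorm : E'.IsNormal X := isNormal_of_hom_eq hnorm hEhom (isNormal_normalizerSystem hXS hN)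
    have h2 : X ≤ E'.core := le_sSup hXnorm
    have h3 := card_le_of_le (isNormal_core (F := E')).1 h2
    have h4 := card_lt_of_lt hXS hlt
    omega
  · by_contra h
    push_neg at h
    exact not_nonInner_of_eq_inner hS (F := E) h hEn

end Cfsg.Agent.S5332
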