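import Cfsg.Statements.S5396
import Cfsg.Agent.Lib.LargeES.Rank

set_option autoImplicit false
open Cfsg

namespace Cfsg.Agent.S5396

/-- For every n ≥ 1 there exist finite extraspecial 2-groups of order 2^(2n+1) whose 2-rank (the largest rank of an elementary abelian subgroup) is n, and ones whose 2-rank is n + 1 (so for each such order there are two non-isomorphic extraspecial 2-groups, told apart by their 2-rank). -/
theorem result (n : ℕ) (hn : 1 ≤ n) : ∀ r ∈ ({n, n + 1} : Set ℕ), ∃ (E : Type) (_ : Group E) (_ : Finite E), Cfsg.IsExtraspecial 2 E ∧ Nat.card E = 2 ^ (2 * n + 1) ∧ sSup {k : ℕ | ∃ A : Subgroup E, Cfsg.IsElementaryAbelian 2 A ∧ Nat.card A = 2 ^ k} = r := by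
  classical
  intro r hr
  have hn0 : 0 < n := hn
  rcases hr with rfl | hr
  · -- minus type
    let i₀ : Fin r := ⟨0, hn0⟩
    refine ⟨Lib.LargeES.Rank.CG r (fun i => if i = i₀ then 1 else 0), inferInstance, inferInstance,
      Lib.LargeES.Rank.CG.isExtraspecial hn, Lib.LargeES.Rank.CG.card_eq, ?_⟩
    apply IsGreatest.csSup_eq
    refine ⟨⟨Lib.LargeES.Rank.CG.sub (fun i => i ≠ i₀), Lib.LargeES.Rank.CG.sub_elem ?_, ?_⟩, ?_⟩
    · intro i hi
      simp [hi]
    · rw [Lib.LargeES.Rank.CG.card_sub _ (m := r - 1)]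
      · congr 1
        omega
      · rw [Nat.card_eq_fintype_card, Fintype.card_subtype_compl]
        simp
    · rintro k ⟨A, hA, hk⟩
      have h1 := Lib.LargeES.Rank.rank_le (Lib.LargeES.Rank.CG.isExtraspecial hn) Lib.LargeES.Rank.CG.card_eq hA hk
      by_contra hcon
      have h2 : k = r + 1 := by omega
      rw [h2] at hk
      exact Lib.LargeES.Rank.no_large hn i₀ hA hk
  · -- plus type
    rw [Set.mem_singleton_iff] at hr
    subst hr
    refine ⟨Lib.LargeES.Rank.CG n 0, inferInstance, inferInstance,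
      Lib.LargeES.Rank.CG.isExtraspecial hn, Lib.LargeES.Rank.CG.card_eq, ?_⟩
    apply IsGreatest.csSup_eq
    refine ⟨⟨Lib.LargeES.Rank.CG.sub (fun _ => True), Lib.LargeES.Rank.CG.sub_elem ?_, ?_⟩, ?_⟩
    · intro i _
      rfl
    · apply Lib.LargeES.Rank.CG.card_sub
      rw [Nat.card_eq_fintype_card]
      simp
    · rintro k ⟨A, hA, hk⟩
      exact Lib.LargeES.Rank.rank_le (Lib.LargeES.Rank.CG.isExtraspecial hn) Lib.LargeES.Rank.CG.card_eq hA hk

end Cfsg.Agent.S5396
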