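import Cfsg.Statements.S5422
import Cfsg.Agent.Lib.LargeES.Mk

set_option autoImplicit false
open Cfsg

namespace Cfsg.Agent.S5422

/-- Let Q be an extraspecial 2-subgroup of the finite group G whose centralizer in G is its centre Z and which is normal in the centralizer of Z; suppose Q has width at least 2 (order 2^(2w+1) with w ≥ 2) and g is an element of G not normalizing Z with g Z g⁻¹ inside Q. Then Z lies inside g Q g⁻¹; writing V for the subgroup generated by Z and g Z g⁻¹ (a four-group), the normalizer of V induces on V its full automorphism group, that is, the centralizer of V has index 6 in the normalizer of V; and Q is a large extraspecial 2-subgroup of G. -/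
theorem result {G : Type*} [Group G] [Finite G] (Q : Subgroup G) (hL1 : Cfsg.IsExtraspecial 2 ↥Q) (hL2 : Subgroup.centralizer (Q : Set G) = ((Subgroup.center ↥Q).map Q.subtype)) (hL3 : Subgroup.centralizer (((Subgroup.center ↥Q).map Q.subtype) : Set G) ≤ Subgroup.normalizer (Q : Set G)) (w : ℕ) (hw : 2 ≤ w) (hcard : Nat.card ↥Q = 2 ^ (2 * w + 1)) (g : G) (hg : g ∉ Subgroup.normalizer (((Subgroup.center ↥Q).map Q.subtype) : Set G)) (hZg : (((Subgroup.center ↥Q).map Q.subtype)).map (MulAut.conj g).toMonoidHom ≤ Q) : ((Subgroup.center ↥Q).map Q.subtype) ≤ (Q).map (MulAut.conj g).toMonoidHom ∧ (Subgroup.centralizer ((((Subgroup.center ↥Q).map Q.subtype) ⊔ (((Subgroup.center ↥Q).map Q.subtype)).map (MulAut.conj g).toMonoidHom : Subgroup G) : Set G)).relIndex (Subgroup.normalizer ((((Subgroup.center ↥Q).map Q.subtype) ⊔ (((Subgroup.center ↥Q).map Q.subtype)).map (MulAut.conj g).toMonoidHom : Subgroup G) : Set G)) = 6 ∧ Cfsg.IsLargeExtraspecial Q := by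
  classical
  obtain ⟨z, hz2, hZ⟩ := Cfsg.Agent.Lib.LargeES.exists_center_gen hL1
  have L := Cfsg.Agent.Lib.LargeES.largeHyp_of hL1 hz2 hZ hL2 hL3
  have hbig : 8 < Nat.card ↥Q := by
    rw [hcard]
    calc 8 < 2 ^ (2 * 2 + 1) := by norm_num
      _ ≤ 2 ^ (2 * w + 1) := Nat.pow_le_pow_right (by norm_num) (by omega)
  rw [hZ] at hg hZg ⊢
  have hxQ : g * z * g⁻¹ ∈ Q := hZg ⟨z, Subgroup.mem_zpowers z, rfl⟩
  have hne : g * z * g⁻¹ ≠ z := by
    intro h
    apply hg
    rw [Subgroup.mem_normalizer_iff]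
    have hcomm : ∀ k : ℤ, g * z ^ k * g⁻¹ = z ^ k := by
      intro k
      have h1 : g * z = z * g := by
        calc g * z = (g * z * g⁻¹) * g := by group
          _ = z * g := by rw [h]
      have : Commute g (z ^ k) := Commute.zpow_right h1 k
      rw [this.eq]; group
    intro y
    constructor
    · rintro ⟨k, rfl⟩
      simp only [hcomm]
      exact ⟨k, rfl⟩
    · rintro ⟨k, hk⟩
      refine ⟨k, ?_⟩
      simp only at hk ⊢
      have h2 := hcomm k
      rw [hk] at h2
      have h3 : g * (g * y * g⁻¹) * g⁻¹ = g * y * g⁻¹ := h2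
      have h4 : g * y * g⁻¹ = y := by
        have h5 := mul_left_cancel (mul_right_cancel h3)
        exact h5
      rw [hk, h4]
  have S := L.pair hbig hxQ hne
  obtain ⟨q, hq, hqx, hqz⟩ := S.exists_q
  obtain ⟨q', hq', hq'z, hq'x⟩ := S.symm.exists_q
  have hc := S.xz_comm
  have hV : (Subgroup.zpowers z ⊔ (Subgroup.zpowers z).map (MulAut.conj g).toMonoidHom : Subgroup G) =
      Subgroup.closure ({z, g * z * g⁻¹} : Set G) := by
    rw [MonoidHom.map_zpowers, Subgroup.zpowers_eq_closure, Subgroup.zpowers_eq_closure, ← Subgroup.closure_union]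
    rfl
  refine ⟨?_, ?_, ?_⟩
  · rw [Subgroup.zpowers_le]
    exact S.hzQ'
  · rw [hV]
    exact S.relIndex_six hq hq' hqx hqz hq'z hq'x
  · refine ⟨hL1, hL2, hL3, ?_⟩
    intro K hK hQK
    exact S.eq_bot_of_odd L.hC K hK (fun u hu k hk => (Subgroup.mem_normalizer_iff.mp (hQK hu) k).mp hk)

end Cfsg.Agent.S5422
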