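import Cfsg.Statements.S5423
import Cfsg.Agent.Lib.LargeES.Holomorph

set_option autoImplicit false
open Cfsg

namespace Cfsg.Agent.S5423

/-- Let G be a finite group that is the split extension of an elementary abelian normal subgroup U of order 2^(n+1), n ≥ 1, by its full automorphism group: U has a complement M in G whose conjugation action on U is faithful and realizes every automorphism of U. Let Z be a subgroup of U of order 2 and Q the largest normal 2-subgroup of the centralizer C of Z. Then Q is extraspecial of order 2^(2n+1) with an elementary abelian subgroup of order 2^(n+1) (plus type), Q is a large extraspecial 2-subgroup of G, and C is the split extension of Q by the general linear group of degree n over the field with two elements. -/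
theorem result {G : Type*} [Group G] [Finite G] (n : ℕ) (hn : 1 ≤ n) (U M : Subgroup G) [U.Normal] (hU : Cfsg.IsElementaryAbelian 2 U) (hUcard : Nat.card ↥U = 2 ^ (n + 1)) (hUM : U ⊓ M = ⊥) (hUM' : U ⊔ M = ⊤) (hfaith : ∀ m ∈ M, (∀ u ∈ U, m * u * m⁻¹ = u) → m = 1) (hfull : ∀ φ : ↥U ≃* ↥U, ∃ m ∈ M, ∀ u : ↥U, ((φ u : ↥U) : G) = m * u * m⁻¹) (Z : Subgroup G) (hZU : Z ≤ U) (hZ : Nat.card ↥Z = 2) (Q : Subgroup G) (hQ : Q = (Cfsg.pCore 2 ↥(Subgroup.centralizer (Z : Set G))).map (Subgroup.centralizer (Z : Set G)).subtype) : Cfsg.IsExtraspecial 2 ↥Q ∧ Nat.card ↥Q = 2 ^ (2 * n + 1) ∧ (∃ E : Subgroup G, E ≤ Q ∧ Cfsg.IsElementaryAbelian 2 E ∧ Nat.card ↥E = 2 ^ (n + 1)) ∧ Cfsg.IsLargeExtraspecial Q ∧ ∃ K : Subgroup G, K ≤ Subgroup.centralizer (Z : Set G) ∧ Q ⊓ K = ⊥ ∧ Q ⊔ K = Subgroup.centralizer (Z : Set G) ∧ Nonempty (↥K ≃* Matrix.GeneralLinearGroup (Fin n) (ZMod 2)) := by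
  classical
  open Cfsg.Agent.Lib.LargeES.Holo in
  have : Fact (Nat.Prime 2) := ⟨Nat.prime_two⟩
  obtain ⟨z, hz1, hzne, hzall⟩ : ∃ z ∈ Z, z ≠ 1 ∧ ∀ c ∈ Z, c = 1 ∨ c = z := by
    obtain ⟨y, hy1, hy⟩ := (Nat.card_eq_two_iff' (1 : Z)).mp hZ
    refine ⟨y.1, y.2, fun h => hy1 (Subtype.ext h), fun c hc => ?_⟩
    by_cases hc1 : (⟨c, hc⟩ : Z) = 1
    · exact Or.inl (congrArg Subtype.val hc1)
    · exact Or.inr (congrArg Subtype.val (hy _ hc1))
  obtain ⟨ψ, hψ⟩ := Cfsg.Agent.Lib.LargeES.Holo.exists_coords' (n := n) hU hUcard (hZU hz1) hzne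
  obtain ⟨D, hD⟩ := Cfsg.Agent.Lib.LargeES.Holo.exists_data ψ hUM' hfaith hfull
  have hDz : D.z = z := by
    rw [← hψ]
    show D.ι _ = _
    rw [hD]
  have hcent : Subgroup.centralizer (Z : Set G) = Subgroup.centralizer ({D.z} : Set G) := by
    ext x
    rw [Subgroup.mem_centralizer_singleton_iff, Subgroup.mem_centralizer_iff, hDz]
    constructor
    · intro h
      exact (h z hz1).symm
    · intro h c hc
      rcases hzall c hc with rfl | rfl
      · simp
      · exact h.symm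
  have hn' := hn
  obtain ⟨h1, h2⟩ := D.main hn
  have hQ' : Q = D.Q := by
    rw [hQ, h1]
    congr 2
    all_goals first | rw [hcent] | skip
  subst hQ'
  refine ⟨D.isExtra hn, D.card_Q, ⟨U, ?_, hU, hUcard⟩, h2, D.K, ?_, D.inf_eq, ?_,
    ⟨(MonoidHom.ofInjective D.ess_injective).symm⟩⟩
  · intro u hu
    obtain ⟨v, rfl⟩ := Cfsg.Agent.Lib.LargeES.Holo.exists_iota ψ hu
    rw [← hD]
    exact D.ι_mem_Q v
  · rw [hcent]
    exact D.K_le
  · rw [hcent]
    exact D.sup_eq

end Cfsg.Agent.S5423
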