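import Cfsg.Statements.S5426
import Cfsg.Agent.Lib.LargeES.Struct4

set_option autoImplicit false
open Cfsg

namespace Cfsg.Agent.S5426

/-- Let Q be a large extraspecial 2-subgroup of the finite group G (extraspecial; centralizer equal to its centre; normal in the centralizer of its centre; normalizing no non-trivial subgroup of odd order) with centre generated by z, and let M be the normal closure of z in G. Then one of the following holds: Q is normal in G; or M is abelian and the generalized Fitting subgroup of G is its largest normal 2-subgroup; or M is the generalized Fitting subgroup of G and is a non-abelian simple group; or M is the generalized Fitting subgroup of G and is the direct product of a non-abelian simple subgroup L and its conjugate u L u⁻¹ by some u in Q (the two meet trivially and commute elementwise), with z = z₁ (u z₁ u⁻¹) for some z₁ in L whose centralizer in L is a Sylow 2-subgroup of L with Frattini subgroup inside the subgroup generated by z₁, and Q is not the largest normal 2-subgroup of the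 centralizer of z. -/
theorem result {G : Type*} [Group G] [Finite G] (Q : Subgroup G) (hQ : Cfsg.IsLargeExtraspecial Q) (z : G) (hz : ((Subgroup.center ↥Q).map Q.subtype) = Subgroup.zpowers z) (M : Subgroup G) (hM : M = Subgroup.normalClosure ({z} : Set G)) : Q.Normal ∨ (IsMulCommutative ↥M ∧ Cfsg.generalizedFittingSubgroup G = Cfsg.pCore 2 G) ∨ (M = Cfsg.generalizedFittingSubgroup G ∧ IsSimpleGroup ↥M ∧ ¬ IsMulCommutative ↥M) ∨ (M = Cfsg.generalizedFittingSubgroup G ∧ ∃ (L : Subgroup G) (u : G), u ∈ Q ∧ IsSimpleGroup ↥L ∧ ¬ IsMulCommutative ↥L ∧ L ⊓ (L).map (MulAut.conj u).toMonoidHom = ⊥ ∧ (∀ x ∈ L, ∀ y ∈ (L).map (MulAut.conj u).toMonoidHom, x * y = y * x) ∧ L ⊔ (L).map (MulAut.conj u).toMonoidHom = M ∧ ∃ z₁ ∈ L, z = z₁ * (u * z₁ * u⁻¹) ∧ (∃ R : Sylow 2 ↥L, (R : Subgroup ↥L) = (Subgroup.centralizer ({z₁} : Set G)).subgroupOf L ∧ (frattini ↥(R : Subgroup ↥L)).map ((L.subtype).comp (R : Subgroup ↥L).subtype) ≤ Subgroup.zpowers z₁) ∧ Q ≠ (Cfsg.pCore 2 ↥(Subgroup.centralizer ({z} : Set G))).map (Subgroup.centralizer ({z}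 : Set G)).subtype) := by
  subst hM
  have hE := hQ.1
  obtain ⟨z', hz'2, hz'⟩ := Cfsg.Agent.Lib.LargeES.exists_center_gen hE
  have hz2 : orderOf z = 2 := by
    have h1 : Subgroup.zpowers z = Subgroup.zpowers z' := by rw [← hz, hz']
    have h2 := congrArg (fun H : Subgroup G => Nat.card H) h1
    simp only [Nat.card_zpowers] at h2
    rw [h2, hz'2]
  have L := Cfsg.Agent.Lib.LargeES.largeHyp_of hE hz2 hz hQ.2.1 hQ.2.2.1
  have c : Cfsg.Agent.Lib.LargeES.Struct.Ctx Q z := ⟨L, Cfsg.Agent.Lib.LargeES.odd_of_isLarge hQ⟩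
  right
  by_cases hcomm : IsMulCommutative ↥(Subgroup.normalClosure ({z} : Set G))
  · left
    exact ⟨hcomm, c.gen_of_comm hcomm⟩
  right
  have hnc := hcomm
  -- a component
  obtain ⟨T, hT⟩ : ∃ T : Subgroup G, Cfsg.IsComponent T := by
    by_contra hno
    push Not at hno
    apply c.layer_ne_bot hnc
    rw [eq_bot_iff]
    exact sSup_le fun K hK => absurd hK (hno K)
  by_cases h1 : ∀ q ∈ Q, Cfsg.Agent.Lib.Fusion.conjSub q T = T
  · left
    have hMT : Subgroup.normalClosure ({z} : Set G) = T := by
      rw [← c.layer_eq hnc]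
      apply le_antisymm
      · refine sSup_le fun K hK => ?_
        obtain ⟨q, hq, rfl⟩ := c.transitive hnc hT hK
        rw [h1 q hq]
      · exact le_sSup hT
    refine ⟨c.gen_eq hnc, ?_, hcomm⟩
    rw [hMT]
    exact c.comp_simple hnc hT
  · right
    push Not at h1
    obtain ⟨u, hu, hu1⟩ := h1
    refine ⟨c.gen_eq hnc, T, u, hu, ?_⟩
    apply c.size_two hnc hT hu hu1
    intro x hx
    by_contra hcon
    push Not at hcon
    exact c.not_three hnc hT hu hx hu1 hcon.1 hcon.2

end Cfsg.Agent.S5426
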