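import Cfsg.Statements.S5427
import Cfsg.Agent.Lib.LargeES.Simple

set_option autoImplicit false
open Cfsg

namespace Cfsg.Agent.S5427

/-- Let z be an involution of the finite group G whose centralizer C has generalized Fitting subgroup Q, an extraspecial 2-group of width at least 2 (order 2^(2w+1), w ≥ 2). Let K be a subgroup of G such that the subgroup U generated by the K-conjugates of z is abelian and C is generated by the C-conjugates of U. Suppose that either some K-conjugate of z other than z lies in Q, or some element u of U ∩ Q outside the subgroup generated by z has z in the largest normal 2-subgroup of its centralizer. Then G is simple and Q is a large extraspecial 2-subgroup of G. -/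
theorem result {G : Type*} [Group G] [Finite G] (z : G) (hz : orderOf z = 2) (Q : Subgroup G) (hQC : Q ≤ Subgroup.centralizer ({z} : Set G)) (hF : (Cfsg.generalizedFittingSubgroup ↥(Subgroup.centralizer ({z} : Set G))).map (Subgroup.centralizer ({z} : Set G)).subtype = Q) (hQ : Cfsg.IsExtraspecial 2 ↥Q) (w : ℕ) (hw : 2 ≤ w) (hcard : Nat.card ↥Q = 2 ^ (2 * w + 1)) (K U : Subgroup G) (hU : U = Subgroup.closure {x : G | ∃ k ∈ K, x = k * z * k⁻¹}) (hUab : IsMulCommutative ↥U) (hgen : Subgroup.closure {x : G | ∃ c ∈ Subgroup.centralizer ({z} : Set G), ∃ u ∈ U, x = c * u * c⁻¹} = Subgroup.centralizer ({z} : Set G)) (h3 : (∃ k ∈ K, k * z * k⁻¹ ∈ Q ∧ k * z * k⁻¹ ≠ z) ∨ ∃ u ∈ U ⊓ Q, u ∉ Subgroup.zpowers z ∧ (∃ hz' : z ∈ Subgroup.centralizer ({u} : Set G), (⟨z, hz'⟩ : ↥(Subgroup.centralizer ({u} : Set G))) ∈ Cfsg.pCore 2 ↥(Subgroup.centralizer ({u} : Set G)))) : IsSimpleGroup G ∧ Cfsg.IsLargeExtraspecial Q := by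
  classical
  obtain ⟨L, hZ⟩ := Cfsg.Agent.Lib.LargeES.fstar_facts hz hF hQ
  have hbig : 8 < Nat.card ↥Q := by
    rw [hcard]
    calc 8 < 2 ^ (2 * 2 + 1) := by norm_num
      _ ≤ 2 ^ (2 * w + 1) := Nat.pow_le_pow_right (by norm_num) (by omega)
  have hn : (Subgroup.normalClosure ({z} : Set G)).Normal := Subgroup.normalClosure_normal
  have hUN : U ≤ Subgroup.normalClosure ({z} : Set G) := by
    rw [hU, Subgroup.closure_le]
    rintro _ ⟨k, -, rfl⟩
    exact hn.conj_mem z (Subgroup.subset_normalClosure (Set.mem_singleton z)) k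
  have hM : Subgroup.centralizer ({z} : Set G) ≤ Subgroup.normalClosure ({z} : Set G) := by
    rw [← hgen, Subgroup.closure_le]
    rintro _ ⟨c, -, u, hu, rfl⟩
    exact hn.conj_mem u (hUN hu) c
  have hzz : z * z = 1 := L.sq_z
  -- `U` has exponent two
  have hUexp : ∀ u ∈ U, u * u = 1 := by
    have hcomm : ∀ a ∈ U, ∀ b ∈ U, a * b = b * a := by
      intro a ha b hb
      have := hUab.is_comm.comm (⟨a, ha⟩ : U) ⟨b, hb⟩
      exact congrArg Subtype.val this
    intro u hu
    have hu' := hu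
    rw [hU] at hu' hcomm
    induction hu' using Subgroup.closure_induction with
    | mem x hx =>
      obtain ⟨k, -, rfl⟩ := hx
      calc k * z * k⁻¹ * (k * z * k⁻¹) = k * (z * z) * k⁻¹ := by group
        _ = 1 := by rw [hzz]; group
    | one => simp
    | mul a b ha hb h1 h2 =>
      have h3 := hcomm a ha b hb
      calc a * b * (a * b) = a * (b * a) * b := by group
        _ = a * (a * b) * b := by rw [h3]
        _ = (a * a) * (b * b) := by group
        _ = 1 := by rw [h1 (hU ▸ ha), h2 (hU ▸ hb), one_mul]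
    | inv a ha h1 =>
      calc a⁻¹ * a⁻¹ = (a * a)⁻¹ := by group
        _ = 1 := by rw [h1 (hU ▸ ha), inv_one]
  have hodd : ∀ K : Subgroup G, Odd (Nat.card K) → (∀ u ∈ Q, ∀ k ∈ K, u * k * u⁻¹ ∈ K) → K = ⊥ := by
    rcases h3 with ⟨k, -, hkQ, hkne⟩ | ⟨u, ⟨huU, huQ⟩, huz, hz', hzO⟩
    · exact L.odd_of_conj hbig hkQ hkne
    · have hu2 : u * u = 1 := hUexp u huU
      have hu1 : u ≠ 1 := fun h => huz (h ▸ Subgroup.one_mem _)
      have huord : orderOf u = 2 := orderOf_eq_prime (by rw [pow_two, hu2]) hu1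
      apply Cfsg.Agent.Lib.LargeES.odd_of_isLarge
      refine Cfsg.Agent.S5421.result Q hQ (L.centralizer_eq hZ) (L.centralizer_center_le hZ) u huQ
        (by rw [hZ]; exact huz) huord ?_
      rw [hZ, Subgroup.zpowers_le]
      exact ⟨_, hzO, rfl⟩
  exact ⟨L.isSimple hodd hM, L.isLarge hQ hZ hodd⟩

end Cfsg.Agent.S5427
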