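import Cfsg.Statements.S5428
import Cfsg.Agent.Lib.LargeES.QuotOdd
import Cfsg.Agent.Lib.FStar.Basic

set_option autoImplicit false
open Cfsg

namespace Cfsg.Agent.S5428


open Subgroup Cfsg.Agent.Lib.Cl Cfsg.Agent.Lib.ThreeT Cfsg.Agent.Lib.LargeES
open scoped commutatorElement

theorem facts_subgroupOf {G : Type*} [Group G] [Finite G] {R M : Subgroup G} {z : G} (hf : ExtraFacts R z)
    (hRM : R ≤ M) (hzM : z ∈ M) : ExtraFacts (R.subgroupOf M) (⟨z, hzM⟩ : M) := by
  have hzp : ∀ c : M, (c : G) ∈ zpowers z → c ∈ zpowers (⟨z, hzM⟩ : M) := by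
    intro c hc
    rcases hf.eq_one_or hc with h | h
    · rw [show c = 1 from Subtype.ext h]; exact one_mem _
    · rw [show c = ⟨z, hzM⟩ from Subtype.ext h]; exact mem_zpowers _
  have hzpb : ∀ c : M, c ∈ zpowers (⟨z, hzM⟩ : M) → (c : G) ∈ zpowers z := by
    rintro c ⟨k, rfl⟩
    exact ⟨k, rfl⟩
  refine ⟨by rw [← hf.hz]; exact Subgroup.orderOf_mk z hzM, hf.hzQ, ?_, ?_, ?_⟩
  · apply le_antisymm
    · rintro c ⟨hc1, hc2⟩
      apply hzp
      rw [← hf.hcent]
      refine ⟨hc1, Subgroup.mem_centralizer_iff.mpr ?_⟩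
      intro r hr
      exact congrArg Subtype.val (Subgroup.mem_centralizer_iff.mp hc2 ⟨r, hRM hr⟩ hr)
    · intro c hc
      have h1 := hzpb c hc
      rw [← hf.hcent] at h1
      refine ⟨h1.1, Subgroup.mem_centralizer_iff.mpr ?_⟩
      intro r hr
      exact Subtype.ext (Subgroup.mem_centralizer_iff.mp h1.2 r.1 hr)
  · intro a ha b hb
    apply hzp
    exact hf.hcom a.1 ha b.1 hb
  · intro a ha
    apply hzp
    exact hf.hsq a.1 ha

theorem main {G : Type*} [Group G] [Finite G] {z : G} {Q : Subgroup G} (L : LargeHyp Q z)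
    (hQ : Cfsg.IsExtraspecial 2 ↥Q) (hZ : (Subgroup.center ↥Q).map Q.subtype = zpowers z)
    {A : Subgroup G} (hA : A ≤ Subgroup.centralizer ({z} : Set G)) (hAodd : Odd (Nat.card ↥A))
    (hR32 : 32 ≤ Nat.card ↥(Q ⊓ Subgroup.centralizer (A : Set G)))
    (hO : (Cfsg.oddCore ↥(Subgroup.centralizer ((A ⊔ (Q ⊓ Subgroup.centralizer (A : Set G)) : Subgroup G) : Set G))).map (Subgroup.centralizer ((A ⊔ (Q ⊓ Subgroup.centralizer (A : Set G)) : Subgroup G) : Set G)).subtype ≤ A)
    (h4 : ¬ 4 ∣ Nat.card ↥(Subgroup.centralizer ((A ⊔ (Q ⊓ Subgroup.centralizer (A : Set G)) : Subgroup G) : Set G)))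
    {g : G} (hgR : g * z * g⁻¹ ∈ Q ⊓ Subgroup.centralizer (A : Set G)) (hgZ : g * z * g⁻¹ ∉ zpowers z)
    {M : Subgroup G} (hM : M = Subgroup.centralizer (A : Set G) ⊔ A) [hn : (A.subgroupOf M).Normal] :
    (M ⊓ Subgroup.centralizer ((A ⊔ (Q ⊓ Subgroup.centralizer (A : Set G)) : Subgroup G) : Set G)) ⊔ A = A ⊔ zpowers z ∧ Cfsg.IsLargeExtraspecial (((Q ⊓ Subgroup.centralizer (A : Set G)).subgroupOf M).map (QuotientGroup.mk' (A.subgroupOf M))) ∧ ∃ x ∈ (Q ⊓ Subgroup.centralizer (A : Set G)) ⊔ ((Q).map (MulAut.conj g).toMonoidHom ⊓ Subgroup.centralizer (A : Set G)), x * (g * z * g⁻¹) * x⁻¹ = z := by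
  classical
  have hzz : z * z = 1 := L.sq_z
  have hAz : ∀ a ∈ A, a * z = z * a := fun a ha => Subgroup.mem_centralizer_singleton_iff.mp (hA ha)
  -- the subgroup `R`
  obtain ⟨R, hRdef⟩ : ∃ R : Subgroup G, R = Q ⊓ Subgroup.centralizer (A : Set G) := ⟨_, rfl⟩
  rw [← hRdef] at hR32 hO h4 hgR ⊢
  have hfR : ExtraFacts R z := by
    rcases L.part hAz hAodd with h | h
    · exfalso
      rw [← hRdef, ] at h
      rw [h, Nat.card_zpowers, L.hQ.hz] at hR32
      omega
    · rwa [← hRdef] at h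
  have hRQ : R ≤ Q := hRdef ▸ inf_le_left
  have hRC : R ≤ Subgroup.centralizer (A : Set G) := hRdef ▸ inf_le_right
  have hRmem : ∀ y, y ∈ Q → y ∈ Subgroup.centralizer (A : Set G) → y ∈ R := fun y h1 h2 => hRdef ▸ ⟨h1, h2⟩
  have hbig : 8 < Nat.card ↥Q := by
    have := Subgroup.card_le_of_le hRQ
    omega
  have hne : g * z * g⁻¹ ≠ z := fun h => hgZ (by rw [h]; exact mem_zpowers z)
  have S := L.pair hbig (hRQ hgR) hne
  set x := g * z * g⁻¹ with hxdef
  obtain ⟨q, hq, hqx⟩ := exists_conj_eq hfR hgR hgZ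
  have hAx : ∀ a ∈ A, a * x = x * a := fun a ha => (Subgroup.mem_centralizer_iff.mp (hRC hgR) a ha)
  have hzCA : z ∈ Subgroup.centralizer (A : Set G) := Subgroup.mem_centralizer_iff.mpr fun a ha => hAz a ha
  have hfR' : ExtraFacts (Q.map (MulAut.conj g).toMonoidHom ⊓ Subgroup.centralizer (A : Set G)) x := by
    rcases (L.conj g).part hAx hAodd with h | h
    · exfalso
      have h1 : z ∈ Q.map (MulAut.conj g).toMonoidHom ⊓ Subgroup.centralizer (A : Set G) := ⟨S.hzQ', hzCA⟩
      rw [h] at h1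
      exact S.symm.x_notMem h1
    · exact h
  have hzR' : z ∈ Q.map (MulAut.conj g).toMonoidHom ⊓ Subgroup.centralizer (A : Set G) := ⟨S.hzQ', hzCA⟩
  obtain ⟨q', hq', hq'z⟩ := exists_conj_eq hfR' hzR' S.symm.x_notMem
  have hq'x : q' * x * q'⁻¹ = x := by
    rw [← (hfR'.central (mem_zpowers x) hq')]; group
  have hfx : (q' * q) * x * (q' * q)⁻¹ = z := by
    calc (q' * q) * x * (q' * q)⁻¹ = q' * (q * x * q⁻¹) * q'⁻¹ := by group
      _ = (q' * x * q'⁻¹) * (q' * z * q'⁻¹) := by rw [hqx]; group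
      _ = x * (z * x) := by rw [hq'x, hq'z]
      _ = z := by rw [← S.xz_comm, ← mul_assoc, S.xx, one_mul]
  have hCM : Subgroup.centralizer (A : Set G) ≤ M := hM ▸ le_sup_left
  have hAM : A ≤ M := hM ▸ le_sup_right
  have hRM : R ≤ M := hRC.trans hCM
  have hzR : z ∈ R := hfR.hzQ
  have hzM : z ∈ M := hRM hzR
  -- the group `Y`
  have hmemY : ∀ y, (∀ a ∈ A, a * y = y * a) → (∀ r ∈ R, r * y = y * r) →
      y ∈ Subgroup.centralizer ((A ⊔ R : Subgroup G) : Set G) := by
    intro y h1 h2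
    have hle : A ⊔ R ≤ Subgroup.centralizer ({y} : Set G) := by
      apply sup_le
      · intro a ha
        exact Subgroup.mem_centralizer_singleton_iff.mpr (h1 a ha)
      · intro r hr
        exact Subgroup.mem_centralizer_singleton_iff.mpr (h2 r hr)
    exact Subgroup.mem_centralizer_iff.mpr fun c hc => Subgroup.mem_centralizer_singleton_iff.mp (hle hc)
  have hzY : z ∈ Subgroup.centralizer ((A ⊔ R : Subgroup G) : Set G) :=
    hmemY z hAz fun r hr => (hfR.central (mem_zpowers z) hr).symm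
  have hYA : ∀ y ∈ Subgroup.centralizer ((A ⊔ R : Subgroup G) : Set G), y ∈ A ∨ z * y ∈ A := by
    intro y hy
    obtain ⟨H, hHn, hHo, hH⟩ := exists_normal_complement (Y := ↥(Subgroup.centralizer ((A ⊔ R : Subgroup G) : Set G)))
      (z := ⟨z, hzY⟩) (by rw [← L.hQ.hz]; exact Subgroup.orderOf_mk z hzY)
      (fun u => Subtype.ext (Subgroup.mem_centralizer_iff.mp u.2 z (Subgroup.mem_sup_right hzR))) h4
    have hHle : H ≤ Cfsg.oddCore _ := Cfsg.Agent.Lib.Core.le_pPrimeCore hHn (Nat.coprime_two_right.mpr hHo)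
    rcases hH ⟨y, hy⟩ with h | h
    · exact Or.inl (hO ⟨_, hHle h, rfl⟩)
    · exact Or.inr (hO ⟨_, hHle h, rfl⟩)
  refine ⟨?_, ?_, ⟨q' * q, Subgroup.mul_mem _ (Subgroup.mem_sup_right hq') (Subgroup.mem_sup_left hq), hfx⟩⟩
  · apply le_antisymm
    · apply sup_le _ le_sup_left
      rintro y ⟨-, hy⟩
      rcases hYA y hy with h | h
      · exact Subgroup.mem_sup_left h
      · have e : y = z * (z * y) := by rw [← mul_assoc, hzz, one_mul]
        rw [e]
        exact Subgroup.mul_mem _ (Subgroup.mem_sup_right (mem_zpowers z)) (Subgroup.mem_sup_left h)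
    · apply sup_le le_sup_right
      rw [Subgroup.zpowers_le]
      exact Subgroup.mem_sup_left ⟨hzM, hzY⟩
  · -- the quotient
    have hker : ∀ a : M, QuotientGroup.mk' (A.subgroupOf M) a = 1 ↔ (a : G) ∈ A := by
      intro a
      rw [show QuotientGroup.mk' (A.subgroupOf M) a = 1 ↔ a ∈ A.subgroupOf M from QuotientGroup.eq_one_iff a,
        Subgroup.mem_subgroupOf]
    have hRp : IsPGroup 2 R := isPGroup_of_facts hfR
    have D : QuotOdd (QuotientGroup.mk' (A.subgroupOf M)) (R.subgroupOf M) (⟨z, hzM⟩ : M) := by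
      refine ⟨QuotientGroup.mk'_surjective _, facts_subgroupOf hfR hRM hzM, ?_, ?_⟩
      · intro r hr h
        exact Subtype.ext (eq_one_of_odd_of_pgroup hAodd hRp ((hker r).1 h) hr)
      · intro c hc
        have hc2 : c.1 ∈ Subgroup.centralizer (A : Set G) ⊔ A := by
          rw [← hM]; exact c.2
        obtain ⟨u, hu, a, ha, hua⟩ := Cfsg.Agent.Lib.FStar.mem_sup_of_commuting
          (A := Subgroup.centralizer (A : Set G)) (B := A)
          (fun u hu a ha => (Subgroup.mem_centralizer_iff.mp hu a ha).symm) hc2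
        have hcu : QuotientGroup.mk' (A.subgroupOf M) (⟨u, hCM hu⟩ : M) = QuotientGroup.mk' (A.subgroupOf M) c := by
          apply QuotientGroup.eq.mpr
          show ((⟨u, hCM hu⟩ : M)⁻¹ * c : M).1 ∈ A
          show u⁻¹ * c.1 ∈ A
          rw [← hua, inv_mul_cancel_left]
          exact ha
        refine ⟨⟨u, hCM hu⟩, hcu, ?_, ?_⟩
        · -- `u` commutes with `z`
          have h1 : QuotientGroup.mk' (A.subgroupOf M) ((⟨u, hCM hu⟩ : M) * ⟨z, hzM⟩ * (⟨u, hCM hu⟩ : M)⁻¹ * (⟨z, hzM⟩ : M)⁻¹) = 1 := by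
            simp only [map_mul, map_inv, hcu]
            rw [hc]
            group
          have h2 : u * z * u⁻¹ * z⁻¹ ∈ A := (hker _).1 h1
          have hzi : z⁻¹ = z := inv_eq_of_mul_eq_one_left hzz
          have h3 : (u * z * u⁻¹ * z⁻¹) * (u * z * u⁻¹ * z⁻¹) = 1 := by
            have h4 := hAz _ h2
            rw [hzi] at h4 ⊢
            calc (u * z * u⁻¹ * z) * (u * z * u⁻¹ * z) = (u * z * u⁻¹ * z) * ((u * z * u⁻¹ * z) * z) * z := by
                  simp [mul_assoc, hzz]
              _ = (u * z * u⁻¹ * z) * (z * (u * z * u⁻¹ * z)) * z := by rw [h4]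
              _ = (u * z * u⁻¹) * (z * z) * (u * z * u⁻¹) * (z * z) := by group
              _ = 1 := by
                rw [hzz]
                simp only [mul_one]
                calc u * z * u⁻¹ * (u * z * u⁻¹) = u * (z * z) * u⁻¹ := by group
                  _ = 1 := by rw [hzz]; group
          have h5 := eq_one_of_odd_of_sq hAodd h2 h3
          have huz : u * z = z * u := by
            have h6 : u * z * u⁻¹ = z := by
              have := mul_inv_eq_one.mp h5
              exact this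
            calc u * z = (u * z * u⁻¹) * u := by group
              _ = z * u := by rw [h6]
          rintro ⟨r, hr⟩ hr'
          have hrR : r ∈ R := hr'
          have e : ((⟨u, hCM hu⟩ : M) * ⟨r, hr⟩ * (⟨u, hCM hu⟩ : M)⁻¹ : M).1 = u * r * u⁻¹ := rfl
          show ((⟨u, hCM hu⟩ : M) * ⟨r, hr⟩ * (⟨u, hCM hu⟩ : M)⁻¹ : M).1 ∈ R
          rw [e]
          apply hRmem
          · exact L.hN u huz r (hRQ hrR)
          · exact Subgroup.mul_mem _ (Subgroup.mul_mem _ hu (hRC hrR)) (Subgroup.inv_mem _ hu)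
        · intro h
          have huY : u ∈ Subgroup.centralizer ((A ⊔ R : Subgroup G) : Set G) := by
            apply hmemY u
            · intro a ha
              exact Subgroup.mem_centralizer_iff.mp hu a ha
            · intro r hr
              have := h ⟨r, hRM hr⟩ hr
              exact (congrArg Subtype.val this).symm
          rcases hYA u huY with h1 | h1
          · have : QuotientGroup.mk' (A.subgroupOf M) (⟨u, hCM hu⟩ : M) = 1 := (hker _).2 h1
            rw [this]
            exact one_mem _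
          · have h2 : QuotientGroup.mk' (A.subgroupOf M) ((⟨z, hzM⟩ : M) * ⟨u, hCM hu⟩) = 1 := (hker _).2 h1
            rw [map_mul] at h2
            have h3 : QuotientGroup.mk' (A.subgroupOf M) (⟨u, hCM hu⟩ : M) =
                (QuotientGroup.mk' (A.subgroupOf M) (⟨z, hzM⟩ : M))⁻¹ := (eq_inv_of_mul_eq_one_right h2)
            rw [h3]
            exact Subgroup.inv_mem _ ⟨_, hzR, rfl⟩
    have hqM : q ∈ M := hRM hq
    have hxM : x ∈ M := hRM hgR
    have hq'M : q' ∈ M := hCM hq'.2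
    refine D.isLarge (q := ⟨q, hqM⟩) (x := ⟨x, hxM⟩) (f := (⟨q', hq'M⟩ * ⟨q, hqM⟩ : M)⁻¹) hq hgR ?_ ?_ ?_ ?_
    · apply Subtype.ext
      show ⁅q, x⁆ = z
      rw [commutatorElement_def, hqx, S.xz_comm]
      group
    · have h1 : Nat.card ↥(R.subgroupOf M) = Nat.card ↥R :=
        Nat.card_congr (Subgroup.subgroupOfEquivOfLe hRM).toEquiv
      omega
    · apply Subtype.ext
      show (q' * q)⁻¹ * z * ((q' * q)⁻¹)⁻¹ = x
      rw [← hfx]
      group
    · exact fun h => S.hne (congrArg Subtype.val h)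

/-- Let z be an involution of the finite group G whose centralizer C has generalized Fitting subgroup Q extraspecial (as a 2-group), let A be a subgroup of C of odd order, and let R be the centralizer of A in Q; suppose R has order at least 32, the largest normal subgroup of odd order of the centralizer of the subgroup generated by A and R lies in A, the order of that centralizer is not divisible by 4, and g is an element of G with g z g⁻¹ in R but outside the centre Z of Q. Let M be the subgroup generated by A and the centralizer of A (A is normal in it). Then: the centralizer in M of the subgroup generated by R and A, joined with A, equals the subgroup generated by A and Z; the image of R in M/A is a large extraspecial 2-subgroup of M/A; and g z g⁻¹ is conjugate to z inside the subgroup generated by R and the centralizer of A in g Q g⁻¹. -/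
theorem result {G : Type*} [Group G] [Finite G] (z : G) (hz : orderOf z = 2) (Q : Subgroup G) (hQC : Q ≤ Subgroup.centralizer ({z} : Set G)) (hF : (Cfsg.generalizedFittingSubgroup ↥(Subgroup.centralizer ({z} : Set G))).map (Subgroup.centralizer ({z} : Set G)).subtype = Q) (hQ : Cfsg.IsExtraspecial 2 ↥Q) (A : Subgroup G) (hA : A ≤ Subgroup.centralizer ({z} : Set G)) (hAodd : Odd (Nat.card ↥A)) (R : Subgroup G) (hR : R = Q ⊓ Subgroup.centralizer (A : Set G)) (hR32 : 32 ≤ Nat.card ↥R) (hO : (Cfsg.oddCore ↥(Subgroup.centralizer ((A ⊔ R : Subgroup G) : Set G))).map (Subgroup.centralizer ((A ⊔ R : Subgroup G) : Set G)).subtype ≤ A) (h4 : ¬ 4 ∣ Nat.card ↥(Subgroup.centralizer ((A ⊔ R : Subgroup G) : Set G))) (g : G) (hgR : g * z * g⁻¹ ∈ R) (hgZ : g * z * g⁻¹ ∉ ((Subgroup.center ↥Q).map Q.subtype)) (M : Subgroup G) (hM : M = Subgroup.centralizer (A : Set G) ⊔ A) [hn : (A.subgroupOf M).Normal] : (M ⊓ Subgroup.centralizer ((R ⊔ A : Subgroup G) : Set G)) ⊔ A = A ⊔ ((Subgroup.center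 ↥Q).map Q.subtype) ∧ Cfsg.IsLargeExtraspecial ((R.subgroupOf M).map (QuotientGroup.mk' (A.subgroupOf M))) ∧ ∃ x ∈ R ⊔ ((Q).map (MulAut.conj g).toMonoidHom ⊓ Subgroup.centralizer (A : Set G)), x * (g * z * g⁻¹) * x⁻¹ = z := by
  classical
  subst hR
  obtain ⟨L, hZ⟩ := Cfsg.Agent.Lib.LargeES.fstar_facts hz hF hQ
  rw [hZ] at hgZ ⊢
  rw [sup_comm (Q ⊓ Subgroup.centralizer (A : Set G)) A]
  exact main L hQ hZ hA hAodd hR32 hO h4 hgR hgZ hM

end Cfsg.Agent.S5428
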