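import Cfsg.Statements.S5429
import Cfsg.Agent.Lib.LargeES.Quot

set_option autoImplicit false
open Cfsg

namespace Cfsg.Agent.S5429


open Subgroup Cfsg.Agent.Lib.Cl Cfsg.Agent.Lib.ThreeT Cfsg.Agent.Lib.LargeES
open scoped commutatorElement

/-- An element of `Q` outside `⟨t, z⟩` moved by an element of `C_Q(t)`. -/
theorem exists_sep {G : Type*} [Group G] [Finite G] {Q : Subgroup G} {z t w : G} (hf : ExtraFacts Q z)
    (htQ : t ∈ Q) (ht2 : t * t = 1) (hw : w ∈ Q) (h1 : w ≠ 1) (h2 : w ≠ t) (h3 : w ≠ z) (h4 : w ≠ t * z) :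
    ∃ q ∈ Q, q * t = t * q ∧ q * w * q⁻¹ = w * z := by
  have hzz : z * z = 1 := by
    have := pow_orderOf_eq_one z
    rwa [hf.hz, pow_two] at this
  have hc : t * z = z * t := (hf.central (mem_zpowers z) htQ).symm
  have hzX : zpowers z ≤ kleinSub t z ht2 hzz hc := by
    rw [Subgroup.zpowers_le]
    exact Or.inr (Or.inr (Or.inl rfl))
  have hXQ : kleinSub t z ht2 hzz hc ≤ Q := by
    rintro a (rfl | rfl | rfl | rfl)
    · exact one_mem _
    · exact htQ
    · exact hf.hzQ
    · exact Q.mul_mem htQ hf.hzQ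
  have hwX : w ∉ kleinSub t z ht2 hzz hc := by
    rintro (h | h | h | h)
    · exact h1 h
    · exact h2 h
    · exact h3 h
    · exact h4 h
  obtain ⟨q, hq, hqC, hqne⟩ := exists_separate hf hzX hXQ hw hwX
  refine ⟨q, hq, (Subgroup.mem_centralizer_iff.mp hqC t (Or.inr (Or.inl rfl))).symm, conj_eq_of_ne hf hq hw hqne⟩

theorem main {G : Type*} [Group G] [Finite G] {z : G} {Q : Subgroup G} (L : LargeHyp Q z)
    (hQ : Cfsg.IsExtraspecial 2 ↥Q) (hZ : (Subgroup.center ↥Q).map Q.subtype = zpowers z) {g : G}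
    (S : OrthoPair Q (Q.map (MulAut.conj g).toMonoidHom) z (g * z * g⁻¹)) {w : ℕ}
    (hcard : Nat.card ↥Q = 2 ^ (2 * w + 1)) (hw : 3 ≤ w) (hgQ : g * z * g⁻¹ ∈ Q) (hgZ : g * z * g⁻¹ ∉ zpowers z)
    {t : G} (ht : orderOf t = 2) (htQ : t ∈ Q) (htQ' : t ∈ Q.map (MulAut.conj g).toMonoidHom)
    (htz : ¬ IsConj z t)
    (hCP : ∀ c ∈ Subgroup.centralizer ({z} : Set G), (∀ x ∈ Q ⊓ Subgroup.centralizer ({t} : Set G),
      ∃ y ∈ Subgroup.closure ({t, z} : Set G), c * x * c⁻¹ = x * y) ↔ c ∈ Q)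
    [hn : ((Subgroup.zpowers t).subgroupOf (Subgroup.centralizer ({t} : Set G))).Normal] :
    Cfsg.IsLargeExtraspecial (((Q ⊓ Subgroup.centralizer ({t} : Set G)).subgroupOf (Subgroup.centralizer ({t} : Set G))).map (QuotientGroup.mk' ((Subgroup.zpowers t).subgroupOf (Subgroup.centralizer ({t} : Set G))))) ∧ ∃ x ∈ (Q ⊓ Subgroup.centralizer ({t} : Set G)) ⊔ ((Q).map (MulAut.conj g).toMonoidHom ⊓ Subgroup.centralizer ({t} : Set G)), x * (g * z * g⁻¹) * x⁻¹ = z := by
  classical
  set x := g * z * g⁻¹ with hx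
  set Q' := Q.map (MulAut.conj g).toMonoidHom with hQ'def
  have hfQ := S.hQ
  have hfQ' := S.hQ'
  have hzz := S.zz
  have hxx := S.xx
  have htt : t * t = 1 := by
    have := pow_orderOf_eq_one t
    rwa [ht, pow_two] at this
  have ht1 : t ≠ 1 := by
    intro h
    rw [h, orderOf_one] at ht
    omega
  have hxconj : IsConj z x := isConj_iff.mpr ⟨g, rfl⟩
  have hxt : x ≠ t := fun h => htz (h ▸ hxconj)
  have hzt : z ≠ t := fun h => htz (h ▸ IsConj.refl z)
  have htzc : t * z = z * t := (hfQ.central (mem_zpowers z) htQ).symm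
  have htxc : t * x = x * t := (hfQ'.central (mem_zpowers x) htQ').symm
  -- `t` is not central in `Q`
  have htnz : t ∉ zpowers z := fun h => by
    rcases hfQ.eq_one_or h with h | h
    · exact ht1 h
    · exact hzt h.symm
  have htnx : t ∉ zpowers x := fun h => by
    rcases hfQ'.eq_one_or h with h | h
    · exact ht1 h
    · exact hxt h.symm
  obtain ⟨q₀, hq₀, hq₀t⟩ := exists_conj_eq hfQ htQ htnz
  obtain ⟨q₁, hq₁, hq₁t⟩ := exists_conj_eq hfQ' htQ' htnx
  have hxtz : x ≠ t * z := fun h => htz (by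
    have h1 : IsConj t (t * z) := isConj_iff.mpr ⟨q₀, hq₀t⟩
    exact hxconj.trans ((h ▸ h1).symm))
  have hztx : z ≠ t * x := fun h => htz (by
    have h1 : IsConj t (t * x) := isConj_iff.mpr ⟨q₁, hq₁t⟩
    exact (h ▸ h1).symm)
  have hz1 : z ≠ 1 := hfQ.z_ne_one
  have hx1 : x ≠ 1 := hfQ'.z_ne_one
  -- the elements of `P` and `P'`
  obtain ⟨q, hq, hqt, hqx⟩ := exists_sep hfQ htQ htt hgQ hx1 hxt S.hne hxtz
  obtain ⟨q', hq', hq't, hq'z⟩ := exists_sep hfQ' htQ' htt S.hzQ' hz1 hzt S.hne.symm hztx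
  have hq'x : q' * x * q'⁻¹ = x := by
    rw [← (hfQ'.central (mem_zpowers x) hq')]; group
  have hfx : (q' * q) * x * (q' * q)⁻¹ = z := by
    calc (q' * q) * x * (q' * q)⁻¹ = q' * (q * x * q⁻¹) * q'⁻¹ := by group
      _ = (q' * x * q'⁻¹) * (q' * z * q'⁻¹) := by rw [hqx]; group
      _ = x * (z * x) := by rw [hq'x, hq'z]
      _ = z := by rw [← S.xz_comm, ← mul_assoc, hxx, one_mul]
  have hmemt : ∀ c : G, c * t = t * c → c ∈ Subgroup.centralizer ({t} : Set G) := fun c hc =>
    Subgroup.mem_centralizer_singleton_iff.mpr hc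
  refine ⟨?_, ⟨q' * q, Subgroup.mul_mem _ (Subgroup.mem_sup_right ⟨hq', hmemt _ hq't⟩)
    (Subgroup.mem_sup_left ⟨hq, hmemt _ hqt⟩), hfx⟩⟩
  -- the quotient
  have hCt : ∀ c : Subgroup.centralizer ({t} : Set G), (c : G) * t = t * c := fun c =>
    Subgroup.mem_centralizer_singleton_iff.mp c.2
  have hzC : z ∈ Subgroup.centralizer ({t} : Set G) := hmemt z htzc.symm
  have hxC : x ∈ Subgroup.centralizer ({t} : Set G) := hmemt x htxc.symm
  have htC : t ∈ Subgroup.centralizer ({t} : Set G) := hmemt t rfl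
  have hzpt : ∀ c ∈ zpowers t, c = 1 ∨ c = t := by
    intro c hc
    have hcard2 : Nat.card (zpowers t) = 2 := by rw [Nat.card_zpowers, ht]
    exact eq_one_or_of_card_two hcard2 (mem_zpowers t) ht1 hc
  have hPmem : ∀ p : Subgroup.centralizer ({t} : Set G),
      p ∈ (Q ⊓ Subgroup.centralizer ({t} : Set G)).subgroupOf (Subgroup.centralizer ({t} : Set G)) ↔ (p : G) ∈ Q :=
    fun p => ⟨fun h => h.1, fun h => ⟨h, p.2⟩⟩
  have D : QuotTwo (QuotientGroup.mk' ((Subgroup.zpowers t).subgroupOf (Subgroup.centralizer ({t} : Set G))))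
      (⟨t, htC⟩ : Subgroup.centralizer ({t} : Set G))
      ((Q ⊓ Subgroup.centralizer ({t} : Set G)).subgroupOf (Subgroup.centralizer ({t} : Set G)))
      (⟨z, hzC⟩ : Subgroup.centralizer ({t} : Set G)) := by
    refine ⟨QuotientGroup.mk'_surjective _, ?_, Subtype.ext hzz, fun h => hz1 (congrArg Subtype.val h),
      fun h => hzt (congrArg Subtype.val h), (hPmem _).2 hfQ.hzQ, ?_, ?_, ?_, ?_, ?_, ?_, ?_⟩
    · intro a
      rw [show QuotientGroup.mk' ((Subgroup.zpowers t).subgroupOf (Subgroup.centralizer ({t} : Set G))) a = 1 ↔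
        a ∈ (Subgroup.zpowers t).subgroupOf (Subgroup.centralizer ({t} : Set G)) from QuotientGroup.eq_one_iff a]
      rw [Subgroup.mem_subgroupOf]
      constructor
      · intro h
        rcases hzpt _ h with h | h
        · exact Or.inl (Subtype.ext h)
        · exact Or.inr (Subtype.ext h)
      · rintro (rfl | rfl)
        · exact one_mem _
        · exact mem_zpowers t
    · rintro ⟨p, hp⟩ hp'
      exact Subtype.ext (hfQ.central (mem_zpowers z) hp'.1).symm
    · rintro ⟨a, ha⟩ ha' ⟨b, hb⟩ hb'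
      rcases hfQ.eq_one_or (hfQ.hcom a ha'.1 b hb'.1) with h | h
      · exact Or.inl (Subtype.ext h)
      · exact Or.inr (Subtype.ext h)
    · rintro ⟨a, ha⟩ ha'
      rcases hfQ.eq_one_or (hfQ.hsq a ha'.1) with h | h
      · exact Or.inl (Subtype.ext h)
      · exact Or.inr (Subtype.ext h)
    · rintro ⟨a, ha⟩ ha' h
      by_contra hcon
      push Not at hcon
      obtain ⟨h1, h2, h3, h4⟩ := hcon
      obtain ⟨c, hc, hct, hca⟩ := exists_sep hfQ htQ htt ha'.1 (fun h => h1 (Subtype.ext h))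
        (fun h => h2 (Subtype.ext h)) (fun h => h3 (Subtype.ext h)) (fun h => h4 (Subtype.ext h))
      have hcmem : (⟨c, hmemt c hct⟩ : Subgroup.centralizer ({t} : Set G)) ∈
          (Q ⊓ Subgroup.centralizer ({t} : Set G)).subgroupOf (Subgroup.centralizer ({t} : Set G)) := (hPmem _).2 hc
      have h5 : a * c = c * a := congrArg Subtype.val (h _ hcmem)
      have h6 : c * a * c⁻¹ = a := by rw [← h5]; group
      have hca' : c * a * c⁻¹ = a * z := hca
      rw [h6] at hca'
      exact hz1 (mul_eq_left.mp hca'.symm)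
    · rintro ⟨c, hc⟩ h
      have h1 : c * z * c⁻¹ = z * t := congrArg Subtype.val h
      have h2 : q₀⁻¹ * c * z * (q₀⁻¹ * c)⁻¹ = t := by
        have h3 : q₀⁻¹ * c * z * (q₀⁻¹ * c)⁻¹ = q₀⁻¹ * (c * z * c⁻¹) * q₀ := by group
        rw [h3, h1, ← htzc, ← hq₀t]
        group
      exact htz (isConj_iff.mpr ⟨_, h2⟩)
    · rintro ⟨c, hc⟩ hcz ⟨p, hp⟩ hp'
      have hcz' : c * z = z * c := congrArg Subtype.val hcz
      exact (hPmem _).2 (L.hN c hcz' p hp'.1)
    · rintro ⟨c, hc⟩ hcz h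
      have hcz' : c * z = z * c := congrArg Subtype.val hcz
      apply (hPmem _).2
      apply (hCP c (Subgroup.mem_centralizer_singleton_iff.mpr hcz')).1
      intro y hy
      rcases h ⟨y, hy.2⟩ ((hPmem _).2 hy.1) with h1 | h1
      · refine ⟨1, one_mem _, ?_⟩
        have h2 : c * y * c⁻¹ = y := congrArg Subtype.val h1
        rw [h2, mul_one]
      · refine ⟨t, Subgroup.subset_closure (Or.inl rfl), ?_⟩
        exact congrArg Subtype.val h1
  -- the size
  have hbig : 16 < Nat.card ↥((Q ⊓ Subgroup.centralizer ({t} : Set G)).subgroupOf (Subgroup.centralizer ({t} : Set G))) := by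
    have h1 : Nat.card ↥((Q ⊓ Subgroup.centralizer ({t} : Set G)).subgroupOf (Subgroup.centralizer ({t} : Set G)))
        = Nat.card ↥(Q ⊓ Subgroup.centralizer ({t} : Set G)) :=
      Nat.card_congr (Subgroup.subgroupOfEquivOfLe inf_le_right).toEquiv
    rw [h1]
    have hX : kleinSub t z htt hzz htzc ≤ Q := by
      rintro a (rfl | rfl | rfl | rfl)
      · exact one_mem _
      · exact htQ
      · exact hfQ.hzQ
      · exact Q.mul_mem htQ hfQ.hzQ
    have hzX : zpowers z ≤ kleinSub t z htt hzz htzc := by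
      rw [Subgroup.zpowers_le]
      exact Or.inr (Or.inr (Or.inl rfl))
    have hri := hfQ.relIndex_centralizer hzX hX
    have hle : Q ⊓ Subgroup.centralizer ((kleinSub t z htt hzz htzc : Subgroup G) : Set G) ≤
        Q ⊓ Subgroup.centralizer ({t} : Set G) := by
      rintro a ⟨h1, h2⟩
      refine ⟨h1, Subgroup.mem_centralizer_iff.mpr ?_⟩
      intro y hy
      rw [Set.mem_singleton_iff] at hy
      rw [hy]
      exact Subgroup.mem_centralizer_iff.mp h2 t (Or.inr (Or.inl rfl))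
    have h2 := relIndex_mul_card' (H := Q ⊓ Subgroup.centralizer ((kleinSub t z htt hzz htzc : Subgroup G) : Set G))
      (K := Q) inf_le_left
    have h3 := relIndex_mul_card' hzX
    have h4 := card_kleinSub_le t htt hzz htzc
    rw [hfQ.card_zpowers] at h3
    have h5 : (zpowers z).relIndex (kleinSub t z htt hzz htzc) ≤ 2 := by omega
    rw [hri] at h2
    have h6 := Subgroup.card_le_of_le hle
    have h7 : 2 ^ 7 ≤ Nat.card ↥Q := by
      rw [hcard]
      exact Nat.pow_le_pow_right (by norm_num) (by omega)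
    have h8 : 128 ≤ 2 * Nat.card ↥(Q ⊓ Subgroup.centralizer ((kleinSub t z htt hzz htzc : Subgroup G) : Set G)) := by
      calc 128 = 2 ^ 7 := by norm_num
        _ ≤ Nat.card ↥Q := h7
        _ = (zpowers z).relIndex (kleinSub t z htt hzz htzc) * _ := h2.symm
        _ ≤ _ := Nat.mul_le_mul_right _ h5
    omega
  have hfz : (⟨(q' * q)⁻¹, Subgroup.inv_mem _ (Subgroup.mul_mem _ (hmemt _ hq't) (hmemt _ hqt))⟩ : Subgroup.centralizer ({t} : Set G)) *
      (⟨z, hzC⟩ : Subgroup.centralizer ({t} : Set G)) *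
      (⟨(q' * q)⁻¹, Subgroup.inv_mem _ (Subgroup.mul_mem _ (hmemt _ hq't) (hmemt _ hqt))⟩ : Subgroup.centralizer ({t} : Set G))⁻¹ =
      (⟨x, hxC⟩ : Subgroup.centralizer ({t} : Set G)) := by
    apply Subtype.ext
    show (q' * q)⁻¹ * z * ((q' * q)⁻¹)⁻¹ = x
    rw [← hfx]
    group
  have hqcomm : ⁅(⟨q, hmemt _ hqt⟩ : Subgroup.centralizer ({t} : Set G)), (⟨x, hxC⟩ : Subgroup.centralizer ({t} : Set G))⁆ =
      (⟨z, hzC⟩ : Subgroup.centralizer ({t} : Set G)) := by
    apply Subtype.ext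
    show ⁅q, x⁆ = z
    rw [commutatorElement_def, hqx, S.xz_comm]
    group
  refine D.isLarge ((hPmem _).2 hq) ((hPmem _).2 hgQ) hqcomm hbig hfz ?_ ?_
  · exact fun h => S.hne (congrArg Subtype.val h)
  · intro h
    have h1 : x = z * t := congrArg Subtype.val h
    exact hxtz (h1.trans htzc.symm)

/-- Let z be an involution of the finite group G with centralizer C whose generalized Fitting subgroup Q is extraspecial of width at least 3 (order 2^(2w+1), w ≥ 3); let g be an element of G with g z g⁻¹ in Q but outside the centre Z of Q, and t an involution lying in both Q and g Q g⁻¹ that is not conjugate to z; write P for the centralizer of t in Q and suppose that the elements of C acting trivially by conjugation on P modulo the subgroup generated by t and z are exactly the elements of Q. Then the image of P in the centralizer of t modulo the subgroup generated by t is a large extraspecial 2-subgroup there, and g z g⁻¹ is conjugate to z inside the subgroup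 generated by P and the centralizer of t in g Q g⁻¹. -/
theorem result {G : Type*} [Group G] [Finite G] (z : G) (hz : orderOf z = 2) (Q : Subgroup G) (hQC : Q ≤ Subgroup.centralizer ({z} : Set G)) (hF : (Cfsg.generalizedFittingSubgroup ↥(Subgroup.centralizer ({z} : Set G))).map (Subgroup.centralizer ({z} : Set G)).subtype = Q) (hQ : Cfsg.IsExtraspecial 2 ↥Q) (w : ℕ) (hw : 3 ≤ w) (hcard : Nat.card ↥Q = 2 ^ (2 * w + 1)) (g : G) (hgQ : g * z * g⁻¹ ∈ Q) (hgZ : g * z * g⁻¹ ∉ ((Subgroup.center ↥Q).map Q.subtype)) (t : G) (ht : orderOf t = 2) (htQ : t ∈ Q ⊓ (Q).map (MulAut.conj g).toMonoidHom) (htz : ¬ IsConj z t) (P : Subgroup G) (hP : P = Q ⊓ Subgroup.centralizer ({t} : Set G)) (hCP : ∀ c ∈ Subgroup.centralizer ({z} : Set G), (∀ x ∈ P, ∃ y ∈ Subgroup.closure ({t, z} : Set G), c * x * c⁻¹ = x * y) ↔ c ∈ Q) [hn : ((Subgroup.zpowers t).subgroupOf (Subgroup.centralizer ({t} : Set G))).Normal] : Cfsg.IsLargeExtraspecial ((P.subgroupOf (Subgroup.centralizer ({t} :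 Set G))).map (QuotientGroup.mk' ((Subgroup.zpowers t).subgroupOf (Subgroup.centralizer ({t} : Set G))))) ∧ ∃ x ∈ P ⊔ ((Q).map (MulAut.conj g).toMonoidHom ⊓ Subgroup.centralizer ({t} : Set G)), x * (g * z * g⁻¹) * x⁻¹ = z := by
  classical
  subst hP
  obtain ⟨L, hZ⟩ := Cfsg.Agent.Lib.LargeES.fstar_facts hz hF hQ
  have hbig8 : 8 < Nat.card ↥Q := by
    rw [hcard]
    calc 8 < 2 ^ (2 * 3 + 1) := by norm_num
      _ ≤ 2 ^ (2 * w + 1) := Nat.pow_le_pow_right (by norm_num) (by omega)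
  rw [hZ] at hgZ
  have hne : g * z * g⁻¹ ≠ z := fun h => hgZ (by rw [h]; exact Subgroup.mem_zpowers z)
  have S := L.pair hbig8 hgQ hne
  obtain ⟨htQ, htQ'⟩ := htQ
  exact main L hQ hZ S hcard hw hgQ hgZ ht htQ htQ' htz hCP

end Cfsg.Agent.S5429
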