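import Cfsg.Statements.S5430
import Cfsg.Agent.Lib.LargeES.Mk

set_option autoImplicit false
open Cfsg

namespace Cfsg.Agent.S5430

/-- Let Q be a large extraspecial 2-subgroup of the finite group G (extraspecial; centralizer equal to its centre; normal in the centralizer of its centre; normalizing no non-trivial subgroup of odd order) with centre generated by z, an involution, of width w ≥ 2 (order 2^(2w+1)); let g be an element outside the centralizer H of z with g z g⁻¹ in Q; write V for the subgroup generated by z and g z g⁻¹, X for the subgroup generated by Q and g Q g⁻¹, R for the subgroup generated by the centralizer of z in g Q g⁻¹ and the centralizer of g z g⁻¹ in Q, and E for the intersection of Q and g Q g⁻¹. Then R is the centralizer of V in X and is the largest normal 2-subgroup of X, and X/R is isomorphic to the symmetric group of degree 3; moreover the normalizer of V is the product of X and the centralizer of V in H, X is normal in it, and modulo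 R it is the direct product of X/R and of the centralizer of V in H modulo R. -/
theorem result {G : Type*} [Group G] [Finite G] (Q : Subgroup G) (hQ : Cfsg.IsLargeExtraspecial Q) (z : G) (hz : ((Subgroup.center ↥Q).map Q.subtype) = Subgroup.zpowers z) (hz2 : orderOf z = 2) (w : ℕ) (hw : 2 ≤ w) (hcard : Nat.card ↥Q = 2 ^ (2 * w + 1)) (g : G) (hgH : g ∉ Subgroup.centralizer ({z} : Set G)) (hgQ : g * z * g⁻¹ ∈ Q) (V X R E : Subgroup G) (hV : V = Subgroup.closure ({z, g * z * g⁻¹} : Set G)) (hX : X = Q ⊔ (Q).map (MulAut.conj g).toMonoidHom) (hR : R = ((Q).map (MulAut.conj g).toMonoidHom ⊓ Subgroup.centralizer ({z} : Set G)) ⊔ (Q ⊓ Subgroup.centralizer ({g * z * g⁻¹} : Set G))) (hE : E = Q ⊓ (Q).map (MulAut.conj g).toMonoidHom) : R = X ⊓ Subgroup.centralizer (V : Set G) ∧ R = (Cfsg.pCore 2 ↥X).map X.subtype ∧ (∃ h : (R.subgroupOf X).Normal, Nonempty (↥X ⧸ R.subgroupOf X ≃* Equiv.Perm (Fin 3))) ∧ Subgroup.normalizer (V : Set G) = X ⊔ (Subgroup.centralizer ({z} :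 Set G) ⊓ Subgroup.centralizer (V : Set G)) ∧ (∀ y ∈ Subgroup.normalizer (V : Set G), ∀ x ∈ X, y * x * y⁻¹ ∈ X) ∧ R ≤ Subgroup.centralizer ({z} : Set G) ⊓ Subgroup.centralizer (V : Set G) ∧ (∀ x ∈ X, ∀ c ∈ Subgroup.centralizer ({z} : Set G) ⊓ Subgroup.centralizer (V : Set G), x * c * x⁻¹ * c⁻¹ ∈ R) ∧ X ⊓ (Subgroup.centralizer ({z} : Set G) ⊓ Subgroup.centralizer (V : Set G)) = R := by
  classical
  obtain ⟨hE', hL2, hL3, hLo⟩ := hQ
  have L := Cfsg.Agent.Lib.LargeES.largeHyp_of hE' hz2 hz hL2 hL3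
  have hbig : 8 < Nat.card ↥Q := by
    rw [hcard]
    calc 8 < 2 ^ (2 * 2 + 1) := by norm_num
      _ ≤ 2 ^ (2 * w + 1) := Nat.pow_le_pow_right (by norm_num) (by omega)
  have hne : g * z * g⁻¹ ≠ z := by
    intro h
    apply hgH
    refine Subgroup.mem_centralizer_iff.mpr ?_
    intro y hy
    rw [Set.mem_singleton_iff.mp hy]
    calc z * g = (g * z * g⁻¹) * g := by rw [h]
      _ = g * z := by group
  have S := L.pair hbig hgQ hne
  obtain ⟨q, hq, hqx, hqz⟩ := S.exists_q
  obtain ⟨q', hq', hq'z, hq'x⟩ := S.symm.exists_q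
  subst hV hX hR hE
  haveI hN := S.N_normal
  have hRe : (Q.map (MulAut.conj g).toMonoidHom ⊓ Subgroup.centralizer ({z} : Set G)) ⊔
      (Q ⊓ Subgroup.centralizer ({g * z * g⁻¹} : Set G)) = Cfsg.Agent.Lib.LargeES.Rg Q (Q.map (MulAut.conj g).toMonoidHom) z (g * z * g⁻¹) :=
    sup_comm _ _
  rw [hRe]
  set x := g * z * g⁻¹ with hx
  set Q' := Q.map (MulAut.conj g).toMonoidHom with hQ'
  have h1 : Cfsg.Agent.Lib.LargeES.Rg Q Q' z x = (Q ⊔ Q') ⊓ Subgroup.centralizer ((Subgroup.closure ({z, x} : Set G) : Subgroup G) : Set G) := by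
    apply le_antisymm
    · intro r hr
      exact ⟨S.R_le_X hr, S.mem_centralizer_V.mpr (S.R_comm hr)⟩
    · rintro w ⟨hw, hwC⟩
      obtain ⟨h2, h3⟩ := S.mem_centralizer_V.mp hwC
      exact S.mem_R_of_comm hq hq' hqx hqz hq'z hq'x hw h2 h3
  have hCV : ∀ c : G, c ∈ Subgroup.centralizer ((Subgroup.closure ({z, x} : Set G) : Subgroup G) : Set G) → c ∈ Subgroup.centralizer ({z} : Set G) := by
    intro c hc
    exact Subgroup.centralizer_le (by simpa using Subgroup.subset_closure (Set.mem_insert z _)) hc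
  have h2 : Cfsg.Agent.Lib.LargeES.Rg Q Q' z x = (Cfsg.pCore 2 ↥(Q ⊔ Q')).map (Q ⊔ Q').subtype :=
    S.eq_pCore hq hq' hqx hqz hq'z hq'x
  refine ⟨h1, h2, ⟨hN, S.quot_iso hq hq' hqx hqz hq'z hq'x⟩, S.normalizer_eq hq hq' hqx hqz hq'z hq'x, ?_, ?_, ?_, ?_⟩
  · intro y hy w hw
    exact S.normalizer_conj_X hq hq' hqx hqz hq'z hq'x hy hw
  · intro r hr
    have h3 := S.mem_centralizer_V.mpr (S.R_comm hr)
    exact ⟨hCV r h3, h3⟩
  · rintro w hw c ⟨-, hc⟩
    exact S.comm_X_C hq hq' hqx hqz hq'z hq'x hw hc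
  · apply le_antisymm
    · rintro w ⟨hw, -, hc⟩
      rw [h1]
      exact ⟨hw, hc⟩
    · intro r hr
      have h3 := S.mem_centralizer_V.mpr (S.R_comm hr)
      exact ⟨S.R_le_X hr, hCV r h3, h3⟩

end Cfsg.Agent.S5430
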