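import Cfsg.Statements.S5431
import Cfsg.Agent.Lib.LargeES.Mk

set_option autoImplicit false
open Cfsg

namespace Cfsg.Agent.S5431

/-- Let Q be a large extraspecial 2-subgroup of the finite group G (extraspecial; centralizer equal to its centre; normal in the centralizer of its centre; normalizing no non-trivial subgroup of odd order) with centre generated by z, an involution, of width w ≥ 2 (order 2^(2w+1)); let g be an element outside the centralizer H of z with g z g⁻¹ in Q; write V for the subgroup generated by z and g z g⁻¹, X for the subgroup generated by Q and g Q g⁻¹, R for the subgroup generated by the centralizer of z in g Q g⁻¹ and the centralizer of g z g⁻¹ in Q, and E for the intersection of Q and g Q g⁻¹. Then V is the centre of R, E lies in the second centre of R, R is nilpotent of class at most 3, E and R/E are elementary abelian, R/E is the direct product of the images of the centralizer of g z g⁻¹ in Q and of the centralizer of z in g Q g⁻¹ (R is their product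 and they meet in E), and the commutator subgroup of X and E lies in V. -/
theorem result {G : Type*} [Group G] [Finite G] (Q : Subgroup G) (hQ : Cfsg.IsLargeExtraspecial Q) (z : G) (hz : ((Subgroup.center ↥Q).map Q.subtype) = Subgroup.zpowers z) (hz2 : orderOf z = 2) (w : ℕ) (hw : 2 ≤ w) (hcard : Nat.card ↥Q = 2 ^ (2 * w + 1)) (g : G) (hgH : g ∉ Subgroup.centralizer ({z} : Set G)) (hgQ : g * z * g⁻¹ ∈ Q) (V X R E : Subgroup G) (hV : V = Subgroup.closure ({z, g * z * g⁻¹} : Set G)) (hX : X = Q ⊔ (Q).map (MulAut.conj g).toMonoidHom) (hR : R = ((Q).map (MulAut.conj g).toMonoidHom ⊓ Subgroup.centralizer ({z} : Set G)) ⊔ (Q ⊓ Subgroup.centralizer ({g * z * g⁻¹} : Set G))) (hE : E = Q ⊓ (Q).map (MulAut.conj g).toMonoidHom) : (Subgroup.center ↥R).map R.subtype = V ∧ E ≤ (Subgroup.upperCentralSeries ↥R 2).map R.subtype ∧ Subgroup.upperCentralSeries ↥R 3 = ⊤ ∧ Cfsg.IsElementaryAbelian 2 E ∧ (∀ x ∈ R, ∀ y ∈ R, x * y * x⁻¹ * y⁻¹ ∈ E ∧ x ^ 2 ∈ E) ∧ ((Q).map (MulAut.conj g).toMonoidHom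 ⊓ Subgroup.centralizer ({z} : Set G)) ⊓ (Q ⊓ Subgroup.centralizer ({g * z * g⁻¹} : Set G)) = E ∧ ⁅X, E⁆ ≤ V := by
  classical
  obtain ⟨hE', hL2, hL3, hLo⟩ := hQ
  have L := Cfsg.Agent.Lib.LargeES.largeHyp_of hE' hz2 hz hL2 hL3
  have hbig : 8 < Nat.card ↥Q := by
    rw [hcard]
    calc 8 < 2 ^ (2 * 2 + 1) := by norm_num
      _ ≤ 2 ^ (2 * w + 1) := Nat.pow_le_pow_right (by norm_num) (by omega)
  have hne : g * z * g⁻¹ ≠ z := by
    intro h
    apply hgH
    refine Subgroup.mem_centralizer_iff.mpr ?_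
    intro y hy
    rw [Set.mem_singleton_iff.mp hy]
    calc z * g = (g * z * g⁻¹) * g := by rw [h]
      _ = g * z := by group
  have S := L.pair hbig hgQ hne
  subst hV hX hE
  have hRe : (Q.map (MulAut.conj g).toMonoidHom ⊓ Subgroup.centralizer ({z} : Set G)) ⊔
      (Q ⊓ Subgroup.centralizer ({g * z * g⁻¹} : Set G)) = Cfsg.Agent.Lib.LargeES.Rg Q (Q.map (MulAut.conj g).toMonoidHom) z (g * z * g⁻¹) :=
    sup_comm _ _
  rw [hRe] at hR
  subst hR
  have hInf := S.E_eq_inf
  set x := g * z * g⁻¹ with hx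
  set Q' := Q.map (MulAut.conj g).toMonoidHom with hQ'
  set R := Cfsg.Agent.Lib.LargeES.Rg Q Q' z x with hRdef
  have hVR : ∀ v ∈ Subgroup.closure ({z, x} : Set G), v ∈ R := by
    intro v hv
    have h1 := S.V_le_E hv
    have h2 : v ∈ Subgroup.centralizer ((Subgroup.closure ({z, x} : Set G) : Subgroup G) : Set G) := by
      rw [Subgroup.mem_centralizer_iff]
      intro w hw
      exact S.E_comm (S.V_le_E hw) h1
    exact S.P_le_R h1.1 (S.mem_centralizer_V.mp h2).2
  have hER : ∀ e ∈ Q ⊓ Q', e ∈ R := fun e he => S.P_le_R he.1 (S.Q'_comm_x he.2)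
  have hRV : ∀ r ∈ R, ∀ v ∈ Subgroup.closure ({z, x} : Set G), r * v = v * r := by
    intro r hr v hv
    exact (Subgroup.mem_centralizer_iff.mp (S.mem_centralizer_V.mpr (S.R_comm hr)) v hv).symm
  have hZ1 : ∀ c : ↥R, (c : G) ∈ Subgroup.closure ({z, x} : Set G) → c ∈ Subgroup.upperCentralSeries ↥R 1 := by
    intro c hc
    rw [Subgroup.mem_upperCentralSeries_succ_iff]
    intro y
    rw [Subgroup.upperCentralSeries_zero, Subgroup.mem_bot]
    apply Subtype.ext
    have h1 := hRV y y.2 c hc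
    show (c : G) * y * (c : G)⁻¹ * (y : G)⁻¹ = 1
    rw [← h1]; group
  have hZ2 : ∀ c : ↥R, (c : G) ∈ Q ⊓ Q' → c ∈ Subgroup.upperCentralSeries ↥R 2 := by
    intro c hc
    rw [Subgroup.mem_upperCentralSeries_succ_iff]
    intro y
    apply hZ1
    exact S.comm_E_R hc y.2
  refine ⟨?_, ?_, ?_, S.E_elem, ?_, hInf, ?_⟩
  · apply le_antisymm
    · rintro _ ⟨y, hy, rfl⟩
      apply S.center_R_le L.hC y.2
      intro r hr
      have := Subgroup.mem_center_iff.mp hy ⟨r, hr⟩
      exact congrArg Subtype.val this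
    · intro v hv
      refine ⟨⟨v, hVR v hv⟩, Subgroup.mem_center_iff.mpr ?_, rfl⟩
      intro y
      apply Subtype.ext
      exact hRV y y.2 v hv
  · intro e he
    exact ⟨⟨e, hER e he⟩, hZ2 ⟨e, hER e he⟩ he, rfl⟩
  · rw [eq_top_iff]
    rintro c -
    rw [Subgroup.mem_upperCentralSeries_succ_iff]
    intro y
    apply hZ2
    exact S.comm_R_mem c.2 y.2
  · intro a ha b hb
    refine ⟨S.comm_R_mem ha hb, ?_⟩
    rw [pow_two]
    exact S.sq_R_mem ha
  · rw [Subgroup.commutator_le]
    intro w hw e he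
    exact S.comm_X_E hw e he

end Cfsg.Agent.S5431
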