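import Cfsg.Statements.S5436
import Cfsg.Agent.Lib.LargeES.Simple

set_option autoImplicit false
open Cfsg

namespace Cfsg.Agent.S5436

/-- Let z be an involution of the finite group G with centralizer H whose generalized Fitting subgroup Q is extraspecial of width at least 2 (order 2^(2w+1), w ≥ 2); suppose some conjugate of z other than z lies in Q, H/Q is a non-abelian simple group, H acts irreducibly by conjugation on Q modulo the subgroup generated by z (the only H-invariant subgroups of Q containing z are that subgroup and Q), and Q is not the subgroup generated by the conjugates of z lying in H. Then G is simple. -/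
theorem result {G : Type*} [Group G] [Finite G] (z : G) (hz : orderOf z = 2) (Q : Subgroup (Subgroup.centralizer ({z} : Set G))) [Q.Normal] (hF : Cfsg.generalizedFittingSubgroup ↥(Subgroup.centralizer ({z} : Set G)) = Q) (hQ : Cfsg.IsExtraspecial 2 ↥Q) (w : ℕ) (hw : 2 ≤ w) (hcard : Nat.card ↥Q = 2 ^ (2 * w + 1)) (hnwc : ∃ g : G, (∃ hq : g * z * g⁻¹ ∈ Subgroup.centralizer ({z} : Set G), (⟨g * z * g⁻¹, hq⟩ : Subgroup.centralizer ({z} : Set G)) ∈ Q) ∧ g * z * g⁻¹ ≠ z) (hsimp : IsSimpleGroup (↥(Subgroup.centralizer ({z} : Set G)) ⧸ Q)) (hna : ¬ IsMulCommutative (↥(Subgroup.centralizer ({z} : Set G)) ⧸ Q)) (hirr : ∀ W : Subgroup (Subgroup.centralizer ({z} : Set G)), W.Normal → W ≤ Q → (W = Q ∨ ∀ x ∈ W, (x : G) ∈ Subgroup.zpowers z)) (hwcl : Subgroup.closure {x : Subgroup.centralizer ({z} : Set G) | IsConj z (x : G)} ≠ Q) : IsSimpleGroup G := by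
  classical
  have hzz : z * z = 1 := by
    have := pow_orderOf_eq_one z
    rwa [hz, pow_two] at this
  obtain ⟨Q₀, hQ₀⟩ : ∃ Q₀ : Subgroup G, Q₀ = Q.map (Subgroup.centralizer ({z} : Set G)).subtype := ⟨_, rfl⟩
  have hF' : (Cfsg.generalizedFittingSubgroup ↥(Subgroup.centralizer ({z} : Set G))).map (Subgroup.centralizer ({z} : Set G)).subtype = Q₀ := by rw [hF, hQ₀]
  have hE₀ : Cfsg.IsExtraspecial 2 ↥Q₀ := hQ₀ ▸ Cfsg.Agent.Lib.LargeES.isExtraspecial_map_subtype hQ
  obtain ⟨L, hZ⟩ := Cfsg.Agent.Lib.LargeES.fstar_facts hz hF' hE₀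
  have hcard₀ : Nat.card ↥Q₀ = 2 ^ (2 * w + 1) := by
    rw [hQ₀, Subgroup.card_map_of_injective (Subgroup.centralizer ({z} : Set G)).subtype_injective, hcard]
  have hbig : 8 < Nat.card ↥Q₀ := by
    rw [hcard₀]
    calc 8 < 2 ^ (2 * 2 + 1) := by norm_num
      _ ≤ 2 ^ (2 * w + 1) := Nat.pow_le_pow_right (by norm_num) (by omega)
  obtain ⟨g, ⟨hq, hqQ⟩, hne⟩ := hnwc
  have hx₀ : g * z * g⁻¹ ∈ Q₀ := hQ₀ ▸ ⟨_, hqQ, rfl⟩
  have hodd := L.odd_of_conj hbig hx₀ hne
  refine L.isSimple hodd ?_
  -- the subgroup generated by the conjugates of `z`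
  set T : Subgroup (Subgroup.centralizer ({z} : Set G)) := Subgroup.closure {x : (Subgroup.centralizer ({z} : Set G)) | IsConj z (x : G)} with hT
  have hTN : T.Normal := by
    refine ⟨fun n hn c => ?_⟩
    induction hn using Subgroup.closure_induction with
    | mem y hy =>
      apply Subgroup.subset_closure
      have h1 : IsConj z (y : G) := hy
      show IsConj z ((c : G) * (y : G) * (c : G)⁻¹)
      exact h1.trans (isConj_iff.mpr ⟨c, rfl⟩)
    | one => simp
    | mul a b _ _ ha hb =>
      have e : c * (a * b) * c⁻¹ = (c * a * c⁻¹) * (c * b * c⁻¹) := by group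
      rw [e]
      exact T.mul_mem ha hb
    | inv a _ ha =>
      have e : c * a⁻¹ * c⁻¹ = (c * a * c⁻¹)⁻¹ := by group
      rw [e]
      exact T.inv_mem ha
  have hWN : (T ⊓ Q).Normal := Subgroup.normal_inf_normal _ _
  have hxT : (⟨g * z * g⁻¹, hq⟩ : (Subgroup.centralizer ({z} : Set G))) ∈ T := Subgroup.subset_closure (isConj_iff.mpr ⟨g, rfl⟩)
  have hQT : Q ≤ T := by
    rcases hirr (T ⊓ Q) hWN inf_le_right with h | h
    · rw [← h]
      exact inf_le_left
    · exfalso
      have h1 := h _ ⟨hxT, hqQ⟩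
      rcases L.hQ.eq_one_or h1 with h2 | h2
      · have h3 : z = 1 := by
          have h2' : g * z * g⁻¹ = 1 := h2
          have : z = g⁻¹ * (g * z * g⁻¹) * g := by group
          rw [this, h2']; group
        exact L.hQ.z_ne_one h3
      · exact hne h2
  have hTmap : (T.map (QuotientGroup.mk' Q)).Normal := hTN.map _ (QuotientGroup.mk'_surjective Q)
  have hTtop : T = ⊤ := by
    rcases hsimp.eq_bot_or_eq_top_of_normal _ hTmap with h | h
    · exfalso
      apply hwcl
      apply le_antisymm _ hQT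
      intro t ht
      have h1 : QuotientGroup.mk' Q t ∈ T.map (QuotientGroup.mk' Q) := ⟨t, ht, rfl⟩
      rw [h, Subgroup.mem_bot] at h1
      exact (QuotientGroup.eq_one_iff t).mp h1
    · rw [eq_top_iff]
      intro c _
      have h1 : QuotientGroup.mk' Q c ∈ T.map (QuotientGroup.mk' Q) := by
        rw [h]; exact Subgroup.mem_top _
      obtain ⟨t, ht, hte⟩ := h1
      have h2 : t⁻¹ * c ∈ Q := by
        have : QuotientGroup.mk' Q t = QuotientGroup.mk' Q c := hte
        exact QuotientGroup.eq.mp this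
      have h3 := T.mul_mem ht (hQT h2)
      rwa [mul_inv_cancel_left] at h3
  -- conclusion
  intro c hc
  have h1 : (⟨c, hc⟩ : (Subgroup.centralizer ({z} : Set G))) ∈ T := by rw [hTtop]; exact Subgroup.mem_top _
  have h2 : T ≤ (Subgroup.normalClosure ({z} : Set G)).comap (Subgroup.centralizer ({z} : Set G)).subtype := by
    rw [hT, Subgroup.closure_le]
    intro y hy
    obtain ⟨u, hu⟩ := isConj_iff.mp (show IsConj z (y : G) from hy)
    show (y : G) ∈ Subgroup.normalClosure ({z} : Set G)
    rw [← hu]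
    have hn : (Subgroup.normalClosure ({z} : Set G)).Normal := Subgroup.normalClosure_normal
    exact hn.conj_mem z (Subgroup.subset_normalClosure (Set.mem_singleton z)) u
  exact h2 h1

end Cfsg.Agent.S5436
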