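import Cfsg.Statements.S5521
import Mathlib
import Cfsg.Agent.Lib.M24.Six

set_option autoImplicit false
open Cfsg Cfsg.Agent.Lib.M24 Cfsg.Agent.Lib.Golay Cfsg.Agent.Lib.Compute

namespace Cfsg.Agent.S5521

/-- The Mathieu group M₂₄ in its natural action on the 24 coordinate positions of the binary Golay code has minimal base size exactly 7: every set of at most 6 positions is fixed pointwise by some non-identity element of M₂₄, while some set of 7 positions is fixed pointwise only by the identity. -/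
theorem result :
    (∀ B : Finset Cfsg.GolayPt, B.card ≤ 6 → ∃ g ∈ Cfsg.M24, g ≠ 1 ∧ ∀ b ∈ B, g b = b) ∧
    (∃ B : Finset Cfsg.GolayPt, B.card = 7 ∧ ∀ g ∈ Cfsg.M24, (∀ b ∈ B, g b = b) → g = 1) := by
  constructor
  · intro B hB
    obtain ⟨E, hBE, hE⟩ := Finset.exists_superset_card_eq hB (by simp)
    obtain ⟨c, hc, x, hx, hcE⟩ := exists_normal_six hE
    have hcard : 1 < Nat.card (Fixer E) := by
      rcases hx with rfl | rfl
      · rw [card_fixer_four hc hcE]; norm_num
      · rw [card_fixer_five hc hcE]; norm_num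
    have : Nontrivial (Fixer E) := Finite.one_lt_card_iff_nontrivial.1 hcard
    obtain ⟨⟨g, hg, hgE⟩, ⟨h, hh, hhE⟩, hne⟩ := exists_pair_ne (Fixer E)
    have hne' : g ≠ h := fun e => hne (Subtype.ext e)
    refine ⟨h⁻¹ * g, M24.mul_mem (M24.inv_mem hh) hg, fun e => hne' ?_, fun b hb => ?_⟩
    · rw [inv_mul_eq_one] at e
      exact e.symm
    · rw [Equiv.Perm.mul_apply, hgE b (hBE hb), Equiv.Perm.inv_eq_iff_eq, hhE b (hBE hb)]
  · refine ⟨([5, 4, 3, 2, 1, 0, 23].map pt).toFinset, by decide +kernel, fun g hg h => ?_⟩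
    exact eq_one_of_fix7 hg fun i hi => h _ (by
      rw [List.mem_toFinset]
      exact List.mem_map_of_mem hi)

end Cfsg.Agent.S5521
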