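import Cfsg.Statements.S5562
import Cfsg.Agent.Lib.ThreeT.Elem
import Mathlib

set_option autoImplicit false
open Cfsg

namespace Cfsg.Agent.S5562

open Cfsg.Agent.Lib.ThreeT

/-- Let G be a finite group, d an involution of G whose conjugates pairwise have products of odd order, and x any involution of G. Then the conjugacy class of d is the disjoint union, over the conjugates a of d commuting with x, of the sets of conjugates of d commuting with ax: every conjugate of d commutes with ax for exactly one conjugate a of d that commutes with x. -/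
theorem result {G : Type*} [Group G] [Finite G] (d : G) (hd : orderOf d = 2)
    (hodd : ∀ a ∈ conjugatesOf d, ∀ b ∈ conjugatesOf d, Odd (orderOf (a * b)))
    (x : G) (hx : orderOf x = 2) :
    ∀ e ∈ conjugatesOf d,
      ∃! a : G, a ∈ conjugatesOf d ∧ Commute a x ∧ Commute e (a * x) := by
  intro e he
  have hxx := mul_self_of_orderOf hx
  have hxi : x⁻¹ = x := inv_eq_of_mul_eq_one_left hxx
  have hinv : ∀ a ∈ conjugatesOf d, a * a = 1 := by
    intro a ha
    have : orderOf a = 2 := by rw [← orderOf_eq_of_isConj ha, hd]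
    exact mul_self_of_orderOf this
  have hee := hinv e he
  have hei : e⁻¹ = e := inv_eq_of_mul_eq_one_left hee
  obtain ⟨u, hu⟩ : ∃ u, u = e * x := ⟨_, rfl⟩
  -- x and e invert u
  have hxu : x * u * x = u⁻¹ := by
    rw [hu, mul_inv_rev, hxi, hei]
    calc x * (e * x) * x = x * e * (x * x) := by group
      _ = x * e := by rw [hxx, mul_one]
  have heu : e * u * e = u⁻¹ := by
    rw [hu, mul_inv_rev, hxi, hei]
    calc e * (e * x) * e = (e * e) * x * e := by group
      _ = x * e := by rw [hee, one_mul]
  have hxpow : ∀ k : ℕ, x * u ^ k * x = (u ^ k)⁻¹ := by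
    intro k
    induction k with
    | zero => simp [hxx]
    | succ k ih =>
      have : x * u ^ (k + 1) * x = (x * u ^ k * x) * (x * u * x) := by
        rw [pow_succ]
        calc x * (u ^ k * u) * x = x * u ^ k * 1 * u * x := by group
          _ = x * u ^ k * (x * x) * u * x := by rw [hxx]
          _ = _ := by group
      rw [this, ih, hxu, pow_succ]
      group
  have hepow : ∀ k : ℕ, e * u ^ k * e = (u ^ k)⁻¹ := by
    intro k
    induction k with
    | zero => simp [hee]
    | succ k ih =>
      have : e * u ^ (k + 1) * e = (e * u ^ k * e) * (e * u * e) := by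
        rw [pow_succ]
        calc e * (u ^ k * u) * e = e * u ^ k * 1 * u * e := by group
          _ = e * u ^ k * (e * e) * u * e := by rw [hee]
          _ = _ := by group
      rw [this, ih, heu, pow_succ]
      group
  -- the odd number n
  have hxex : x * e * x⁻¹ ∈ conjugatesOf d := conj_mem_conjugatesOf he x
  have hsq : e * (x * e * x⁻¹) = u ^ 2 := by
    rw [hxi, hu, pow_two]; group
  have hoddn := hodd e he _ hxex
  rw [hsq] at hoddn
  obtain ⟨k, hk⟩ := hoddn
  obtain ⟨n, hn⟩ : ∃ n, n = 2 * k + 1 := ⟨_, rfl⟩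
  rw [← hn] at hk
  have hun : (u ^ n) * (u ^ n) = 1 := by
    rw [← pow_add, show n + n = 2 * n by ring, pow_mul, ← hk, pow_orderOf_eq_one]
  have huni : (u ^ n)⁻¹ = u ^ n := inv_eq_of_mul_eq_one_left hun
  have hcomm_u : x * u ^ n = u ^ n * x := by
    have := hxpow n
    rw [huni] at this
    calc x * u ^ n = x * u ^ n * x * x := by rw [mul_assoc (x * u ^ n), hxx, mul_one]
      _ = _ := by rw [this]
  refine ⟨x * u ^ n, ⟨?_, ?_, ?_⟩, ?_⟩
  · -- membership
    have : x * u ^ n = (u ^ k)⁻¹ * (x * e * x⁻¹) * ((u ^ k)⁻¹)⁻¹ := by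
      have h1 : x * u ^ k = (u ^ k)⁻¹ * x := by
        have := hxpow k
        calc x * u ^ k = x * u ^ k * x * x := by rw [mul_assoc (x * u ^ k), hxx, mul_one]
          _ = _ := by rw [this]
      have h2 : u ^ n = u ^ k * u * u ^ k := by
        rw [hn, ← pow_succ, ← pow_add]; congr 1; ring
      rw [h2, inv_inv, hxi]
      calc x * (u ^ k * u * u ^ k) = (x * u ^ k) * u * u ^ k := by group
        _ = (u ^ k)⁻¹ * x * u * u ^ k := by rw [h1]
        _ = (u ^ k)⁻¹ * (x * (e * x)) * u ^ k := by rw [hu]; group
        _ = _ := by group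
    rw [this]
    exact conj_mem_conjugatesOf hxex _
  · -- commute with x
    show x * u ^ n * x = x * (x * u ^ n)
    rw [hxpow, huni, ← mul_assoc, hxx, one_mul]
  · -- e commutes with a x
    have h1 : x * u ^ n * x = u ^ n := by rw [hxpow, huni]
    show e * (x * u ^ n * x) = x * u ^ n * x * e
    rw [h1]
    have := hepow n
    rw [huni] at this
    calc e * u ^ n = e * u ^ n * e * e := by rw [mul_assoc (e * u ^ n), hee, mul_one]
      _ = _ := by rw [this]
  · -- uniqueness
    rintro a' ⟨ha', hcx', hce'⟩
    obtain ⟨ha, hcx, hce⟩ : x * u ^ n ∈ conjugatesOf d ∧ Commute (x * u ^ n) x ∧ Commute e (x * u ^ n * x) := by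
      refine ⟨?_, ?_, ?_⟩
      · have : x * u ^ n = (u ^ k)⁻¹ * (x * e * x⁻¹) * ((u ^ k)⁻¹)⁻¹ := by
          have h1 : x * u ^ k = (u ^ k)⁻¹ * x := by
            have := hxpow k
            calc x * u ^ k = x * u ^ k * x * x := by rw [mul_assoc (x * u ^ k), hxx, mul_one]
              _ = _ := by rw [this]
          have h2 : u ^ n = u ^ k * u * u ^ k := by
            rw [hn, ← pow_succ, ← pow_add]; congr 1; ring
          rw [h2, inv_inv, hxi]
          calc x * (u ^ k * u * u ^ k) = (x * u ^ k) * u * u ^ k := by group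
            _ = (u ^ k)⁻¹ * x * u * u ^ k := by rw [h1]
            _ = (u ^ k)⁻¹ * (x * (e * x)) * u ^ k := by rw [hu]; group
            _ = _ := by group
        rw [this]
        exact conj_mem_conjugatesOf hxex _
      · show x * u ^ n * x = x * (x * u ^ n)
        rw [hxpow, huni, ← mul_assoc, hxx, one_mul]
      · have h1 : x * u ^ n * x = u ^ n := by rw [hxpow, huni]
        show e * (x * u ^ n * x) = x * u ^ n * x * e
        rw [h1]
        have := hepow n
        rw [huni] at this
        calc e * u ^ n = e * u ^ n * e * e := by rw [mul_assoc (e * u ^ n), hee, mul_one]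
          _ = _ := by rw [this]
    obtain ⟨a, haeq⟩ : ∃ a, a = x * u ^ n := ⟨_, rfl⟩
    rw [← haeq] at ha hcx hce ⊢
    -- y = a' * a
    have ha'a' := hinv a' ha'
    have haa := hinv a ha
    have ha'i : a'⁻¹ = a' := inv_eq_of_mul_eq_one_left ha'a'
    have hai : a⁻¹ = a := inv_eq_of_mul_eq_one_left haa
    obtain ⟨y, hy⟩ : ∃ y, y = a' * a := ⟨_, rfl⟩
    have hyprod : (a' * x) * (a * x) = y := by
      rw [hy]
      calc a' * x * (a * x) = a' * (x * a) * x := by group
        _ = a' * (a * x) * x := by rw [hcx.eq.symm]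
        _ = a' * a * (x * x) := by group
        _ = a' * a := by rw [hxx, mul_one]
    have hey : Commute e y := by
      rw [← hyprod]
      exact hce'.mul_right hce
    -- a' inverts y
    have hinvy : a' * y * a'⁻¹ = y⁻¹ := by
      rw [hy, mul_inv_rev, ha'i, hai]
      calc a' * (a' * a) * a' = (a' * a') * a * a' := by group
        _ = a * a' := by rw [ha'a', one_mul]
    -- e a' inverts y
    have hinvy2 : (e * a') * y * (e * a')⁻¹ = y⁻¹ := by
      have h3 : (e * a') * y * (e * a')⁻¹ = e * (a' * y * a'⁻¹) * e⁻¹ := by group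
      rw [h3, hinvy, hei]
      have h4 : e * y⁻¹ = y⁻¹ * e := (hey.inv_right).eq
      rw [h4, mul_assoc, hee, mul_one]
    have hoddc := hodd e he a' ha'
    have hy2 := sq_eq_one_of_inverted_by_odd hoddc hinvy2 hoddc.pos
    have hoddy := hodd a' ha' a ha
    rw [← hy] at hoddy
    have hy1 : y = 1 := by
      obtain ⟨s, hs⟩ := hoddy
      have : orderOf y ∣ 2 := orderOf_dvd_of_pow_eq_one hy2
      have h5 : orderOf y = 1 := by
        rcases (Nat.dvd_prime Nat.prime_two).1 this with h | h
        · exact h
        · omega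
      exact orderOf_eq_one_iff.1 h5
    rw [hy] at hy1
    have : a' = a⁻¹ := eq_inv_of_mul_eq_one_left hy1
    rwa [hai] at this

end Cfsg.Agent.S5562
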