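import Cfsg.Statements.S5713
import Mathlib
import Cfsg.Agent.Lib.MinDeg.Main

set_option autoImplicit false

namespace Cfsg.Agent.S5713



theorem result {G Ω : Type*} [Group G] [Finite G] [MulAction G Ω] [FaithfulSMul G Ω] [Fintype Ω] [DecidableEq Ω]
    (hprim : MulAction.IsPreprimitive G Ω)
    (hA : ¬ alternatingGroup Ω ≤ (MulAction.toPermHom G Ω).range)
    (g : G) (hg : g ≠ 1) :
    (Real.sqrt (Fintype.card Ω) - 1) / 2 ≤ (Fintype.card Ω : ℝ) - Nat.card (MulAction.fixedBy Ω g) := by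
  haveI := hprim
  have h1 := Cfsg.Agent.Lib.MinDeg.min_degree hA g hg
  have h2 : (Fintype.card Ω : ℝ) - Nat.card (MulAction.fixedBy Ω g) = ({ω : Ω | g • ω ≠ ω}.ncard : ℕ) := by
    have h3 := Set.ncard_add_ncard_compl {ω : Ω | g • ω ≠ ω}
    have h4 : {ω : Ω | g • ω ≠ ω}ᶜ = MulAction.fixedBy Ω g := by
      ext ω
      simp [MulAction.mem_fixedBy]
    have h5 : (MulAction.fixedBy Ω g).ncard = Nat.card (MulAction.fixedBy Ω g) :=
      (Nat.card_coe_set_eq _).symm
    have h6 : Nat.card Ω = Fintype.card Ω := Nat.card_eq_fintype_card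
    rw [h4, h5, h6] at h3
    rw [← h3]
    push_cast
    ring
  rw [h2]
  have h3 : Real.sqrt (Fintype.card Ω) ≤ 2 * ({ω : Ω | g • ω ≠ ω}.ncard : ℝ) + 1 := by
    rw [Nat.card_eq_fintype_card] at h1
    apply Real.sqrt_le_iff.mpr
    refine ⟨by positivity, ?_⟩
    exact_mod_cast h1
  linarith

end Cfsg.Agent.S5713
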