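import Cfsg.Statements.S5722
import Mathlib
import Cfsg.Agent.Lib.CompLen.Main

set_option autoImplicit false

namespace Cfsg.Agent.S5722



theorem result {G Ω : Type*} [Group G] [Finite G] [MulAction G Ω] [FaithfulSMul G Ω] [Fintype Ω]
    (l : ℕ) (H : Fin (l + 1) → Subgroup G) (h0 : H 0 = ⊥) (hl : H (Fin.last l) = ⊤)
    (hchain : ∀ i : Fin l, H i.castSucc < H i.succ ∧ ((H i.castSucc).subgroupOf (H i.succ)).Normal) :
    3 * l ≤ 4 * (Fintype.card Ω - Nat.card (Quotient (MulAction.orbitRel G Ω))) := by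
  have h1 := Cfsg.Agent.Lib.CompLen.Ch.of_fin H h0 hl hchain
  have h2 := Cfsg.Agent.Lib.CompLen.main (Ω := Ω) h1
  rw [Nat.card_eq_fintype_card (α := Ω)] at h2
  omega

end Cfsg.Agent.S5722
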