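import Cfsg.Statements.S5729
import Mathlib

set_option autoImplicit false

namespace Cfsg.Agent.S5729

open MulAction

variable {G Ω : Type*} [Group G] [Fintype G] [MulAction G Ω] [Fintype Ω] [DecidableEq Ω]

/-- Number of fixed points. -/
noncomputable def fixCount (G : Type*) {Ω : Type*} [Group G] [MulAction G Ω] [Fintype Ω]
    [DecidableEq Ω] (g : G) : ℕ := (Finset.univ.filter fun x : Ω => g • x = x).card

theorem sum_fix (htr : IsPretransitive G Ω) [Nonempty Ω] :
    ∑ g : G, fixCount G (Ω := Ω) g = Fintype.card G := by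
  classical
  have : ∀ g : G, Fintype (fixedBy Ω g) := fun g => Fintype.ofFinite _
  have : Fintype (orbitRel.Quotient G Ω) := Fintype.ofFinite _
  have h := MulAction.sum_card_fixedBy_eq_card_orbits_mul_card_group G Ω
  have h1 : Fintype.card (orbitRel.Quotient G Ω) = 1 := by
    have : IsPretransitive G Ω := htr
    obtain ⟨a⟩ := ‹Nonempty Ω›
    refine Fintype.card_eq_one_iff.2 ⟨Quotient.mk _ a, ?_⟩
    intro y
    induction y using Quotient.inductionOn with
    | _ b =>
      apply Quotient.sound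
      exact MulAction.orbitRel_apply.2 (by rw [MulAction.orbit_eq_univ]; trivial)
  rw [h1, one_mul] at h
  rw [← h]
  apply Finset.sum_congr rfl
  intro g _
  symm
  exact Fintype.card_of_subtype _ (by simp [MulAction.mem_fixedBy])

theorem sum_fix_sq (a b : Ω) (hab : a ≠ b) :
    ∃ O : ℕ, 2 ≤ O ∧ ∑ g : G, (fixCount G (Ω := Ω) g) ^ 2 = O * Fintype.card G := by
  classical
  have : ∀ g : G, Fintype (fixedBy (Ω × Ω) g) := fun g => Fintype.ofFinite _
  have : Fintype (orbitRel.Quotient G (Ω × Ω)) := Fintype.ofFinite _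
  have h := MulAction.sum_card_fixedBy_eq_card_orbits_mul_card_group G (Ω × Ω)
  refine ⟨Fintype.card (orbitRel.Quotient G (Ω × Ω)), ?_, ?_⟩
  · have : (Quotient.mk _ (a, a) : orbitRel.Quotient G (Ω × Ω)) ≠ Quotient.mk _ (a, b) := by
      intro h
      have h2 := Quotient.exact h
      change (a, a) ∈ orbit G (a, b) at h2
      obtain ⟨g, hg⟩ := h2
      have h3 : (g • a, g • b) = (a, a) := hg
      rw [Prod.mk.injEq] at h3
      exact hab (smul_left_cancel g (h3.2.trans h3.1.symm)).symm
    exact Fintype.one_lt_card_iff.2 ⟨_, _, this⟩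
  · rw [← h]
    apply Finset.sum_congr rfl
    intro g _
    symm
    have h1 : Fintype.card (fixedBy (Ω × Ω) g) =
        ((Finset.univ.filter fun x : Ω => g • x = x) ×ˢ (Finset.univ.filter fun x : Ω => g • x = x)).card := by
      apply Fintype.card_of_subtype
      rintro ⟨x, y⟩
      simp [MulAction.mem_fixedBy, Prod.ext_iff]
    rw [h1, Finset.card_product, fixCount, sq]

/-- Pointwise inequality between the key quantity and the derangement contribution. -/
theorem key_pointwise (n F : ℤ) (hF0 : 0 ≤ F) (hFn : F ≤ n) (hn : 0 ≤ n) :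
    0 ≤ (if F = 0 then n else 0) - (F - 1) * (F - n) := by
  split_ifs with h
  · subst h; simp
  · have h1 : 1 ≤ F := by omega
    have : 0 ≤ (F - 1) * (n - F) := mul_nonneg (by omega) (by omega)
    linarith

theorem main [FaithfulSMul G Ω] (htr : IsPretransitive G Ω) (hn : 3 ≤ Fintype.card Ω) :
    ((IsPretransitive G Ω ∧ (∃ g : G, g ≠ 1 ∧ ∃ ω : Ω, g • ω = ω) ∧
      ∀ g : G, g ≠ 1 → Nat.card (fixedBy Ω g) ≤ 1) ∧
      Nat.card G = Fintype.card Ω * (Fintype.card Ω - 1) ∧
      Fintype.card Ω * Nat.card {g : G // ∀ ω : Ω, g • ω ≠ ω} = Nat.card G) ∨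
    Nat.card G < Fintype.card Ω * Nat.card {g : G // ∀ ω : Ω, g • ω ≠ ω} := by
  classical
  set n := Fintype.card Ω with hndef
  obtain ⟨a, b, hab⟩ := Fintype.exists_pair_of_one_lt_card (by omega : 1 < n)
  have : Nonempty Ω := ⟨a⟩
  have hs1 := sum_fix (G := G) htr
  obtain ⟨O, hO, hs2⟩ := sum_fix_sq (G := G) a b hab
  set F : G → ℕ := fixCount G (Ω := Ω) with hF
  have hFle : ∀ g, F g ≤ n := fun g => by
    rw [hF, fixCount, hndef, ← Finset.card_univ]
    exact Finset.card_le_card (Finset.filter_subset _ _)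
  have hF0 : ∀ g, F g = 0 ↔ ∀ ω : Ω, g • ω ≠ ω := by
    intro g
    rw [hF, fixCount, Finset.card_eq_zero, Finset.filter_eq_empty_iff]
    simp
  have hFn : ∀ g, F g = n → g = 1 := by
    intro g hg
    have h1 : (Finset.univ.filter fun x : Ω => g • x = x) = Finset.univ := by
      exact Finset.eq_univ_of_card _ hg
    apply FaithfulSMul.eq_of_smul_eq_smul (α := Ω)
    intro x
    have : x ∈ (Finset.univ.filter fun x : Ω => g • x = x) := by rw [h1]; exact Finset.mem_univ x
    rw [one_smul]
    exact (Finset.mem_filter.1 this).2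
  have hF1 : F 1 = n := by
    rw [hF, fixCount]; simp [hndef]
  set D := (Finset.univ.filter fun g : G => F g = 0).card with hD
  have hDcard : Nat.card {g : G // ∀ ω : Ω, g • ω ≠ ω} = D := by
    rw [Nat.card_eq_fintype_card, hD]
    apply Fintype.card_of_subtype
    intro g
    simp [hF0]
  have hcardG : Nat.card G = Fintype.card G := Nat.card_eq_fintype_card
  rw [hDcard, hcardG]
  -- the sum identity over the integers
  have hsum : ∑ g : G, ((F g : ℤ) - 1) * ((F g : ℤ) - n) = ((O : ℤ) - 1) * Fintype.card G := by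
    have h1 : ∀ g : G, ((F g : ℤ) - 1) * ((F g : ℤ) - n) = (F g : ℤ) ^ 2 - (n + 1) * F g + n := by
      intro g; ring
    simp only [h1]
    rw [Finset.sum_add_distrib, Finset.sum_sub_distrib, ← Finset.mul_sum]
    have h2 : ∑ g : G, (F g : ℤ) ^ 2 = O * Fintype.card G := by exact_mod_cast hs2
    have h3 : ∑ g : G, (F g : ℤ) = Fintype.card G := by exact_mod_cast hs1
    rw [h2, h3, Finset.sum_const, Finset.card_univ, nsmul_eq_mul]
    ring
  have hder : ∑ g : G, (if (F g : ℤ) = 0 then (n : ℤ) else 0) = n * D := by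
    rw [Finset.sum_ite, Finset.sum_const, Finset.sum_const_zero, add_zero, nsmul_eq_mul, hD]
    have : (Finset.univ.filter fun g : G => (F g : ℤ) = 0) = Finset.univ.filter fun g : G => F g = 0 := by
      ext g; simp
    rw [this, mul_comm]
  have hnonneg : ∀ g ∈ (Finset.univ : Finset G),
      0 ≤ (if (F g : ℤ) = 0 then (n : ℤ) else 0) - ((F g : ℤ) - 1) * ((F g : ℤ) - n) := fun g _ =>
    key_pointwise n (F g) (by positivity) (by exact_mod_cast hFle g) (by positivity)
  have hsumdiff : ∑ g : G, ((if (F g : ℤ) = 0 then (n : ℤ) else 0) - ((F g : ℤ) - 1) * ((F g : ℤ) - n))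
      = n * D - ((O : ℤ) - 1) * Fintype.card G := by
    rw [Finset.sum_sub_distrib, hder, hsum]
  have hge : 0 ≤ (n : ℤ) * D - ((O : ℤ) - 1) * Fintype.card G := by
    rw [← hsumdiff]; exact Finset.sum_nonneg hnonneg
  have hGpos : (0 : ℤ) < Fintype.card G := by exact_mod_cast Fintype.card_pos
  have hO' : (2 : ℤ) ≤ O := by exact_mod_cast hO
  have hle : (Fintype.card G : ℤ) ≤ n * D := by nlinarith
  rcases hle.lt_or_eq with hlt | heq
  · right
    exact_mod_cast hlt
  left
  have heq' : n * D = Fintype.card G := by exact_mod_cast heq.symm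
  have hO2 : O = 2 := by
    have : (O : ℤ) - 1 ≤ 1 := by
      by_contra hcon
      push Not at hcon
      have : (2 : ℤ) * Fintype.card G ≤ ((O : ℤ) - 1) * Fintype.card G := by
        apply mul_le_mul_of_nonneg_right _ hGpos.le
        omega
      nlinarith
    omega
  have hzero : ∑ g : G, ((if (F g : ℤ) = 0 then (n : ℤ) else 0) - ((F g : ℤ) - 1) * ((F g : ℤ) - n)) = 0 := by
    rw [hsumdiff, hO2, heq]; push_cast; ring
  have hall := (Finset.sum_eq_zero_iff_of_nonneg hnonneg).1 hzero
  have hFone : ∀ g : G, g ≠ 1 → F g ≤ 1 := by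
    intro g hg
    by_contra hcon
    push Not at hcon
    have h1 := hall g (Finset.mem_univ g)
    have h2 : (F g : ℤ) ≠ 0 := by
      have : F g ≠ 0 := by omega
      exact_mod_cast this
    rw [if_neg h2] at h1
    have h3 : ((F g : ℤ) - 1) * ((F g : ℤ) - n) = 0 := by linarith
    rcases mul_eq_zero.1 h3 with h4 | h4
    · have : F g = 1 := by omega
      omega
    · have : F g = n := by omega
      exact hg (hFn g this)
  have hFsq : ∀ g : G, g ≠ 1 → (F g) ^ 2 = F g := by
    intro g hg
    have := hFone g hg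
    interval_cases (F g) <;> simp
  -- split off the identity
  have hs1' : n + ∑ g ∈ Finset.univ.erase (1 : G), F g = Fintype.card G := by
    rw [← hs1, ← Finset.add_sum_erase _ _ (Finset.mem_univ (1 : G)), hF1]
  have hs2' : n ^ 2 + ∑ g ∈ Finset.univ.erase (1 : G), F g = 2 * Fintype.card G := by
    rw [hO2] at hs2
    rw [← hs2, ← Finset.add_sum_erase _ (fun g => (F g) ^ 2) (Finset.mem_univ (1 : G)), hF1]
    congr 1
    exact Finset.sum_congr rfl fun g hg => (hFsq g (Finset.ne_of_mem_erase hg)).symm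
  have hcard : Fintype.card G = n * (n - 1) := by
    have h6 : n * (n - 1) + n = n ^ 2 := by
      obtain ⟨m, hm⟩ : ∃ m, n = m + 1 := ⟨n - 1, by omega⟩
      rw [hm, Nat.add_sub_cancel]
      ring
    linarith
  refine ⟨⟨htr, ?_, ?_⟩, hcard, heq'⟩
  · by_contra hcon
    push Not at hcon
    have hz : ∑ g ∈ Finset.univ.erase (1 : G), F g = 0 := by
      apply Finset.sum_eq_zero
      intro g hg
      rw [hF0]
      intro ω
      exact hcon g (Finset.ne_of_mem_erase hg) ω
    rw [hz] at hs1' hs2'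
    nlinarith
  · intro g hg
    have := hFone g hg
    have h2 : Nat.card (fixedBy Ω g) = F g := by
      rw [Nat.card_eq_fintype_card]
      exact Fintype.card_of_subtype _ (by simp [MulAction.mem_fixedBy])
    rwa [h2]

theorem result {G Ω : Type*} [Group G] [Finite G] [MulAction G Ω] [FaithfulSMul G Ω] [Fintype Ω] (htr : MulAction.IsPretransitive G Ω) (hn : 3 ≤ Fintype.card Ω) :
    ((MulAction.IsPretransitive G Ω ∧ (∃ g : G, g ≠ 1 ∧ ∃ ω : Ω, g • ω = ω) ∧ ∀ g : G, g ≠ 1 → Nat.card (MulAction.fixedBy Ω g) ≤ 1) ∧ Nat.card G = Fintype.card Ω * (Fintype.card Ω - 1) ∧ Fintype.card Ω * Nat.card {g : G // ∀ ω : Ω, g • ω ≠ ω} = Nat.card G) ∨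
    Nat.card G < Fintype.card Ω * Nat.card {g : G // ∀ ω : Ω, g • ω ≠ ω} := by
  classical
  have : Fintype G := Fintype.ofFinite G
  exact main htr hn

end Cfsg.Agent.S5729
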