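import Cfsg.Statements.S5738
import Mathlib
import Cfsg.Agent.Lib.Geo.Singer

set_option autoImplicit false

namespace Cfsg.Agent.S5738

theorem result {F K : Type*} [Field F] [Fintype F] [Field K] [Fintype K] [Algebra F K] (n : ℕ) (hn : 2 ≤ n) (hdim : Module.finrank F K = n) :
    Nat.card (Subgroup.normalizer (((Units.map ((Algebra.lmul F K : K →ₐ[F] Module.End F K) : K →* Module.End F K)).range : Subgroup (Module.End F K)ˣ) : Set (Module.End F K)ˣ)) = n * (Fintype.card K - 1) := by
  rw [← hdim]
  exact Lib.Geo.Singer.card_normalizer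

end Cfsg.Agent.S5738
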