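import Cfsg.Statements.S5739
import Mathlib
import Cfsg.Agent.Lib.Geo.Singer

set_option autoImplicit false

namespace Cfsg.Agent.S5739

open Cfsg.Agent.Lib.Geo.Singer

theorem result {F K : Type*} [Field F] [Fintype F] [Field K] [Fintype K] [Algebra F K] (n : ℕ) (hn : 2 ≤ n) (hdim : Module.finrank F K = n)
    (g : (Module.End F K)ˣ) (hg : ((Units.map ((Algebra.lmul F K : K →ₐ[F] Module.End F K) : K →* Module.End F K)).range).map (MulAut.conj g).toMonoidHom ≠ (Units.map ((Algebra.lmul F K : K →ₐ[F] Module.End F K) : K →* Module.End F K)).range) :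
    ∃ r : ℕ, 1 ≤ r ∧ r ∣ n ∧ r < n ∧ Nat.card ↥(((Units.map ((Algebra.lmul F K : K →ₐ[F] Module.End F K) : K →* Module.End F K)).range).map (MulAut.conj g).toMonoidHom ⊓ (Units.map ((Algebra.lmul F K : K →ₐ[F] Module.End F K) : K →* Module.End F K)).range) ∣ Fintype.card F ^ r - 1 := by
  classical
  have hfd : FiniteDimensional F K := Module.Finite.of_finite
  set I : Subgroup (Module.End F K)ˣ := (MM F K).map (MulAut.conj g).toMonoidHom ⊓ MM F K with hI
  let S : Set K := {x : K | ∃ a : Kˣ, (a : K) = x ∧ mu a ∈ I}
  let L : IntermediateField F K := IntermediateField.adjoin F S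
  refine ⟨Module.finrank F L, Module.finrank_pos, ?_, ?_, ?_⟩
  · rw [← hdim, ← Module.finrank_mul_finrank F L K]
    exact dvd_mul_right _ _
  · have hle : Module.finrank F L ≤ n := by
      rw [← hdim, ← Module.finrank_mul_finrank F L K]
      exact Nat.le_mul_of_pos_right _ Module.finrank_pos
    refine lt_of_le_of_ne hle fun heq => hg ?_
    apply map_conj_eq_of_adjoin_eq_top
    apply IntermediateField.eq_of_le_of_finrank_eq le_top
    rw [IntermediateField.finrank_top']
    rw [hdim]
    exact heq
  · let J : Subgroup Kˣ := I.comap (Units.map (lm F K))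
    let LL : Subgroup Kˣ := (Units.map ((L.val : L →ₐ[F] K) : L →* K)).range
    have hJL : J ≤ LL := by
      intro a ha
      have h1 : (a : K) ∈ L := IntermediateField.subset_adjoin F S ⟨a, rfl, ha⟩
      have h2 : (⟨(a : K), h1⟩ : L) ≠ 0 := by
        intro h
        exact a.ne_zero (congrArg Subtype.val h)
      exact ⟨Units.mk0 _ h2, Units.ext rfl⟩
    have hIJ : Nat.card I = Nat.card J := by
      symm
      apply Nat.card_eq_of_bijective (fun a : J => (⟨mu a.1, a.2⟩ : I))
      constructor
      · intro a b h
        exact Subtype.ext (mu_injective (congrArg Subtype.val h))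
      · rintro ⟨u, hu⟩
        obtain ⟨a, rfl⟩ := hu.2
        exact ⟨⟨a, hu⟩, rfl⟩
    have hLL : Nat.card LL = Fintype.card F ^ Module.finrank F L - 1 := by
      have hLfin : Fintype L := Fintype.ofFinite L
      have h1 : Nat.card LL = Nat.card Lˣ := by
        symm
        apply Nat.card_eq_of_bijective
          (fun a : Lˣ => (⟨Units.map ((L.val : L →ₐ[F] K) : L →* K) a, a, rfl⟩ : LL))
        constructor
        · intro a b h
          have h2 := congrArg Subtype.val h
          exact Units.map_injective (f := ((L.val : L →ₐ[F] K) : L →* K))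
            (fun x y hxy => Subtype.ext hxy) h2
        · rintro ⟨_, a, rfl⟩
          exact ⟨a, rfl⟩
      rw [h1, card_units_K, Module.card_eq_pow_finrank (K := F) (V := L)]
    rw [hIJ, ← hLL]
    exact Subgroup.card_dvd_of_le hJL

end Cfsg.Agent.S5739
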