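import Cfsg.Statements.S5747
import Mathlib

set_option autoImplicit false

namespace Cfsg.Agent.S5747

variable (G : Type*) {Ω : Type*} [Group G] [MulAction G Ω]

/-- base: trivial pointwise stabilizer -/
abbrev Base {t : ℕ} (f : Fin t → Ω) : Prop := ∀ g : G, (∀ i : Fin t, g • f i = f i) → g = 1

/-- each point is moved by the pointwise stabilizer of the previous ones -/
abbrev Irr {t : ℕ} (f : Fin t → Ω) : Prop :=
  ∀ i : Fin t, ∃ g : G, (∀ j : Fin t, j < i → g • f j = f j) ∧ g • f i ≠ f i

/-- snoc for sequences of points -/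
abbrev sn {t : ℕ} (f : Fin t → Ω) (y : Ω) : Fin (t + 1) → Ω := Fin.snoc (α := fun _ => Ω) f y

variable {G}

theorem irr_snoc {t : ℕ} (f : Fin t → Ω) (y : Ω) :
    Irr G (sn f y) ↔ Irr G f ∧ ∃ g : G, (∀ i, g • f i = f i) ∧ g • y ≠ y := by
  constructor
  · intro h
    refine ⟨fun i => ?_, ?_⟩
    · obtain ⟨g, h1, h2⟩ := h i.castSucc
      refine ⟨g, fun j hj => ?_, ?_⟩
      · have := h1 j.castSucc (Fin.castSucc_lt_castSucc_iff.2 hj)
        simpa [sn] using this
      · simpa [sn] using h2
    · obtain ⟨g, h1, h2⟩ := h (Fin.last t)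
      refine ⟨g, fun i => ?_, ?_⟩
      · have := h1 i.castSucc (Fin.castSucc_lt_last i)
        simpa [sn] using this
      · simpa [sn] using h2
  · rintro ⟨h1, g, hg1, hg2⟩ i
    refine Fin.lastCases ?_ (fun i => ?_) i
    · refine ⟨g, fun j hj => ?_, ?_⟩
      · revert hj
        refine Fin.lastCases ?_ (fun j => ?_) j
        · intro hj
          exact absurd hj (lt_irrefl _)
        · intro _
          simpa [sn] using hg1 j
      · simpa [sn] using hg2
    · obtain ⟨g', h2, h3⟩ := h1 i
      refine ⟨g', fun j hj => ?_, ?_⟩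
      · revert hj
        refine Fin.lastCases ?_ (fun j => ?_) j
        · intro hj
          exact absurd hj (not_lt_of_ge (Fin.le_last _))
        · intro hj
          have := h2 j (Fin.castSucc_lt_castSucc_iff.1 hj)
          simpa [sn] using this
      · simpa [sn] using h3

theorem base_snoc {t : ℕ} (f : Fin t → Ω) (y : Ω) :
    Base G (sn f y) ↔ ∀ g : G, (∀ i, g • f i = f i) → g • y = y → g = 1 := by
  constructor
  · intro h g h1 h2
    apply h g
    intro i
    refine Fin.lastCases ?_ (fun i => ?_) i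
    · simpa [sn] using h2
    · simpa [sn] using h1 i
  · intro h g h1
    apply h g
    · intro i
      simpa [sn] using h1 i.castSucc
    · simpa [sn] using h1 (Fin.last t)

/-- Reordering property. -/
abbrev Reord (G : Type*) (Ω : Type*) [Group G] [MulAction G Ω] : Prop :=
  ∀ (t : ℕ) (f : Fin t → Ω) (σ : Equiv.Perm (Fin t)), (Base G f ∧ Irr G f) → (Base G (f ∘ σ) ∧ Irr G (f ∘ σ))

theorem snoc_swap_last {t : ℕ} (f : Fin t → Ω) (x y : Ω) :
    (sn (sn f y) x) ∘ (Equiv.swap (Fin.last (t + 1)) (Fin.last t).castSucc) = sn (sn f x) y := by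
  classical
  funext i
  refine Fin.lastCases ?_ (fun i => ?_) i
  · simp [sn]
  · refine Fin.lastCases ?_ (fun i => ?_) i
    · simp [sn]
    · have h1 : i.castSucc.castSucc ≠ Fin.last (t + 1) := by
        exact (Fin.castSucc_lt_last _).ne
      have h2 : i.castSucc.castSucc ≠ (Fin.last t).castSucc := by
        intro h
        exact (Fin.castSucc_lt_last i).ne (Fin.castSucc_injective _ h)
      simp only [Function.comp_apply, Equiv.swap_apply_of_ne_of_ne h1 h2]
      simp [sn]

/-- Exchange of the last point, under the reordering property. -/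
theorem exchange (hR : Reord G Ω) {t : ℕ} {f : Fin t → Ω} {x y : Ω} (hirr : Irr G f)
    (hy : ∃ g : G, (∀ i, g • f i = f i) ∧ g • y ≠ y) (hbase : Base G (sn f x)) :
    Base G (sn f y) := by
  by_contra hcon
  rw [base_snoc] at hcon
  push Not at hcon
  obtain ⟨h, h1, h2, h3⟩ := hcon
  have hb := (base_snoc f x).1 hbase
  have hx : h • x ≠ x := fun h4 => h3 (hb h h1 h4)
  have hirr2 : Irr G (sn (sn f y) x) := by
    rw [irr_snoc, irr_snoc]
    refine ⟨⟨hirr, hy⟩, h, fun i => ?_, hx⟩
    refine Fin.lastCases ?_ (fun i => ?_) i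
    · simpa [sn] using h2
    · simpa [sn] using h1 i
  have hbase2 : Base G (sn (sn f y) x) := by
    rw [base_snoc]
    intro g hg1 hg2
    exact hb g (fun i => by simpa [sn] using hg1 i.castSucc) hg2
  have := (hR _ _ (Equiv.swap (Fin.last (t + 1)) (Fin.last t).castSucc) ⟨hbase2, hirr2⟩).2
  rw [snoc_swap_last, irr_snoc] at this
  obtain ⟨-, g, hg1, hg2⟩ := this
  apply hg2
  have : g = 1 := hbase g hg1
  rw [this, one_smul]

/-- An irredundant base is injective. -/
theorem irr_injective {t : ℕ} {f : Fin t → Ω} (h : Irr G f) : Function.Injective f := by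
  intro i j hij
  by_contra hne
  rcases lt_or_gt_of_ne hne with hlt | hlt
  · obtain ⟨g, h1, h2⟩ := h j
    exact h2 (by rw [← hij]; exact h1 i hlt)
  · obtain ⟨g, h1, h2⟩ := h i
    exact h2 (by rw [hij]; exact h1 j hlt)

/-- Main induction: under the reordering property, `s ≤ t` for irredundant bases. -/
theorem le_of_reord [DecidableEq Ω] (hR : Reord G Ω) {t : ℕ} {C : Fin t → Ω} (hC : Base G C) (hC' : Irr G C) :
    ∀ (n s : ℕ) (f : Fin s → Ω), Base G f → Irr G f →
      ((Finset.univ.image f) \ (Finset.univ.image C)).card ≤ n → s ≤ t := by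
  intro n
  induction n with
  | zero =>
    intro s f hf hf' hn
    have hsub : ∀ i, ∃ j, C j = f i := by
      intro i
      have h1 : f i ∉ (Finset.univ.image f) \ (Finset.univ.image C) := by
        have : (Finset.univ.image f) \ (Finset.univ.image C) = ∅ := Finset.card_eq_zero.1 (by omega)
        rw [this]; simp
      simp only [Finset.mem_sdiff, Finset.mem_image, Finset.mem_univ, true_and, not_and, not_not] at h1
      exact h1 ⟨i, rfl⟩
    choose e he using hsub
    have hinj : Function.Injective e := by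
      intro i j hij
      apply irr_injective hf'
      rw [← he, ← he, hij]
    simpa using Fintype.card_le_of_injective e hinj
  | succ n ih =>
    intro s f hf hf' hn
    by_cases hall : ∀ i, f i ∈ Finset.univ.image C
    · refine ih s f hf hf' ?_
      have : (Finset.univ.image f) \ (Finset.univ.image C) = ∅ := by
        rw [Finset.sdiff_eq_empty_iff_subset]
        intro x hx
        obtain ⟨i, -, rfl⟩ := Finset.mem_image.1 hx
        exact hall i
      rw [this]; simp
    · push Not at hall
      obtain ⟨i, hi⟩ := hall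
      obtain ⟨s', rfl⟩ : ∃ s', s = s' + 1 := by
        exact ⟨s - 1, by have := i.2; omega⟩
      -- move `i` to the end
      let σ : Equiv.Perm (Fin (s' + 1)) := Equiv.swap i (Fin.last s')
      have hf1 := hR _ f σ ⟨hf, hf'⟩
      let f₁ := f ∘ σ
      let f₀ : Fin s' → Ω := Fin.init (α := fun _ => Ω) f₁
      let x := f i
      have hf₁ : f₁ = sn f₀ x := by
        have : f₁ (Fin.last s') = x := by
          simp [f₁, σ, x]
        rw [← this]
        exact (Fin.snoc_init_self (α := fun _ => Ω) f₁).symm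
      rw [show f ∘ σ = f₁ from rfl, hf₁] at hf1
      obtain ⟨hb, hir⟩ := hf1
      obtain ⟨hir0, g, hg1, hg2⟩ := (irr_snoc f₀ x).1 hir
      -- some point of `C` is moved by the stabilizer of `f₀`
      have hg : g ≠ 1 := by
        rintro rfl
        exact hg2 (one_smul _ _)
      have hex : ∃ j, g • C j ≠ C j := by
        by_contra hcon
        push Not at hcon
        exact hg (hC g hcon)
      obtain ⟨j, hj⟩ := hex
      have hb2 : Base G (sn f₀ (C j)) := exchange hR hir0 ⟨g, hg1, hj⟩ hb
      have hir2 : Irr G (sn f₀ (C j)) := (irr_snoc f₀ (C j)).2 ⟨hir0, g, hg1, hj⟩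
      refine ih _ _ hb2 hir2 ?_
      -- the measure drops
      have himg : Finset.univ.image f = Finset.univ.image (sn f₀ x) := by
        rw [← hf₁]
        ext y
        simp only [Finset.mem_image, Finset.mem_univ, true_and, f₁, Function.comp_apply]
        constructor
        · rintro ⟨k, rfl⟩
          exact ⟨σ⁻¹ k, by simp⟩
        · rintro ⟨k, rfl⟩
          exact ⟨σ k, rfl⟩
      have himg2 : ∀ z, Finset.univ.image (sn f₀ z) = insert z (Finset.univ.image f₀) := by
        intro z
        ext y
        simp only [Finset.mem_image, Finset.mem_univ, true_and, Finset.mem_insert]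
        constructor
        · rintro ⟨k, rfl⟩
          revert k
          intro k
          refine Fin.lastCases ?_ (fun k => ?_) k
          · left; simp [sn]
          · right; exact ⟨k, by simp [sn]⟩
        · rintro (rfl | ⟨k, rfl⟩)
          · exact ⟨Fin.last _, by simp [sn]⟩
          · exact ⟨k.castSucc, by simp [sn]⟩
      rw [himg, himg2] at hn
      rw [himg2]
      have hxnot : x ∉ Finset.univ.image f₀ := by
        intro hx
        obtain ⟨k, -, hk⟩ := Finset.mem_image.1 hx
        apply hg2
        rw [← hk]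
        exact hg1 k
      have hsub : insert (C j) (Finset.univ.image f₀) \ Finset.univ.image C
          ⊆ (insert x (Finset.univ.image f₀) \ Finset.univ.image C).erase x := by
        intro y hy
        simp only [Finset.mem_sdiff, Finset.mem_insert, Finset.mem_image, Finset.mem_univ, true_and,
          Finset.mem_erase] at hy ⊢
        obtain ⟨hy1, hy2⟩ := hy
        rcases hy1 with rfl | ⟨k, rfl⟩
        · exact absurd ⟨j, rfl⟩ hy2
        · refine ⟨?_, Or.inr ⟨k, rfl⟩, hy2⟩
          rintro hk
          exact hxnot (Finset.mem_image.2 ⟨k, Finset.mem_univ _, hk⟩)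
      have h1 := Finset.card_le_card hsub
      have hxmem : x ∈ insert x (Finset.univ.image f₀) \ Finset.univ.image C := by
        simp only [Finset.mem_sdiff, Finset.mem_insert, true_or, true_and]
        exact hi
      rw [Finset.card_erase_of_mem hxmem] at h1
      omega

/-- Deleting a redundant point gives a shorter base. -/
theorem base_delete {t : ℕ} {f : Fin (t + 1) → Ω} (hf : Base G f) (hirr : ¬ Irr G f) :
    ∃ f' : Fin t → Ω, Base G f' := by
  obtain ⟨i, hi⟩ := not_forall.1 hirr
  push Not at hi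
  refine ⟨f ∘ i.succAbove, fun g hg => hf g fun j => ?_⟩
  by_cases hj : j = i
  · subst hj
    apply hi
    intro k hk
    obtain ⟨k', rfl⟩ := Fin.exists_succAbove_eq hk.ne
    exact hg k'
  · obtain ⟨k, rfl⟩ := Fin.exists_succAbove_eq hj
    exact hg k

/-- Every base sequence contains an irredundant base, of at most the same length. -/
theorem exists_irr_of_base :
    ∀ (t : ℕ) (f : Fin t → Ω), Base G f → ∃ (t' : ℕ) (f' : Fin t' → Ω), t' ≤ t ∧ Base G f' ∧ Irr G f' := by
  intro t
  induction t with
  | zero =>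
    intro f hf
    exact ⟨0, f, le_rfl, hf, fun i => i.elim0⟩
  | succ t ih =>
    intro f hf
    by_cases hirr : Irr G f
    · exact ⟨t + 1, f, le_rfl, hf, hirr⟩
    · obtain ⟨f', hf'⟩ := base_delete hf hirr
      obtain ⟨t', f'', h1, h2, h3⟩ := ih _ hf'
      exact ⟨t', f'', by omega, h2, h3⟩

/-- Deleting a redundant point gives a shorter irredundant base. -/
theorem shorter_of_not_irr {t : ℕ} {f : Fin t → Ω} (hf : Base G f) (hirr : ¬ Irr G f) :
    ∃ (t' : ℕ) (f' : Fin t' → Ω), t' < t ∧ Base G f' ∧ Irr G f' := by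
  cases t with
  | zero => exact absurd (fun i => i.elim0) hirr
  | succ t =>
    obtain ⟨f', hf'⟩ := base_delete hf hirr
    obtain ⟨t', f'', h1, h2, h3⟩ := exists_irr_of_base _ f' hf'
    exact ⟨t', f'', by omega, h2, h3⟩

theorem result {G Ω : Type*} [Group G] [Finite G] [MulAction G Ω] [Fintype Ω] :
    (∀ (t t' : ℕ) (f : Fin t → Ω) (f' : Fin t' → Ω), ((∀ g : G, (∀ i : Fin t, g • f i = f i) → g = 1) ∧ ∀ i : Fin t, ∃ g : G, (∀ j : Fin t, j < i → g • f j = f j) ∧ g • f i ≠ f i) → ((∀ g : G, (∀ i : Fin t', g • f' i = f' i) → g = 1) ∧ ∀ i : Fin t', ∃ g : G, (∀ j : Fin t', j < i → g • f' j = f' j) ∧ g • f' i ≠ f' i) → t = t') ↔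
    (∀ (t : ℕ) (f : Fin t → Ω) (σ : Equiv.Perm (Fin t)), ((∀ g : G, (∀ i : Fin t, g • f i = f i) → g = 1) ∧ ∀ i : Fin t, ∃ g : G, (∀ j : Fin t, j < i → g • f j = f j) ∧ g • f i ≠ f i) → ((∀ g : G, (∀ i : Fin t, g • (f ∘ σ) i = (f ∘ σ) i) → g = 1) ∧ ∀ i : Fin t, ∃ g : G, (∀ j : Fin t, j < i → g • (f ∘ σ) j = (f ∘ σ) j) ∧ g • (f ∘ σ) i ≠ (f ∘ σ) i)) := by
  classical
  constructor
  · intro hall t f σ ⟨hb, hi⟩
    have hbase : Base G (f ∘ σ) := by
      intro g hg
      apply hb g
      intro i
      simpa using hg (σ⁻¹ i)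
    refine ⟨hbase, ?_⟩
    by_contra hcon
    obtain ⟨t', f', h1, h2, h3⟩ := shorter_of_not_irr hbase hcon
    have := hall t t' f f' ⟨hb, hi⟩ ⟨h2, h3⟩
    omega
  · intro hR t t' f f' ⟨hb, hi⟩ ⟨hb', hi'⟩
    apply le_antisymm
    · exact le_of_reord hR hb' hi' _ t f hb hi le_rfl
    · exact le_of_reord hR hb hi _ t' f' hb' hi' le_rfl

end Cfsg.Agent.S5747
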