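import Cfsg.Statements.S5748
import Mathlib
import Cfsg.Agent.Lib.InvCent.Final
import Cfsg.Agent.S0183
import Cfsg.Agent.S0219

set_option autoImplicit false
open Cfsg

namespace Cfsg.Agent.S5748

open Cfsg.Agent.Lib.InvCent

/-- A finite non-abelian simple group in which commuting is a transitive relation on the non-identity elements (equivalently, every non-identity element has abelian centraliser) is isomorphic to PSL₂ over a field with 2^f elements for some f ≥ 2; conversely these groups have that property. -/
theorem result {G : Type*} [Group G] [Finite G] [IsSimpleGroup G] (hG : ¬ IsMulCommutative G) :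
    (∀ a b c : G, a ≠ 1 → b ≠ 1 → c ≠ 1 → Commute a b → Commute b c → Commute a c) ↔
    ∃ (F : Type) (_ : Field F) (_ : Fintype F) (f : ℕ), 2 ≤ f ∧ Fintype.card F = 2 ^ f ∧ Nonempty (G ≃* Matrix.ProjectiveSpecialLinearGroup (Fin 2) F) := by
  classical
  constructor
  · intro htr
    have hcent : ∀ t : G, t ≠ 1 → IsMulCommutative (Subgroup.centralizer ({t} : Set G)) := by
      intro t ht
      refine ⟨⟨?_⟩⟩
      rintro ⟨x, hx⟩ ⟨y, hy⟩
      apply Subtype.ext
      show x * y = y * x
      by_cases hx1 : x = 1
      · simp [hx1]
      by_cases hy1 : y = 1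
      · simp [hy1]
      exact (htr x t y hx1 ht hy1 (mem_cent.1 hx) (mem_cent.1 hy).symm).eq
    have heven : Even (Nat.card G) := by
      by_contra hodd
      rw [Nat.not_even_iff_odd] at hodd
      have hCN : Cfsg.IsCNGroup G := by
        intro g hg
        haveI := hcent g hg
        letI : CommGroup (Subgroup.centralizer ({g} : Set G)) :=
          { (inferInstance : Group (Subgroup.centralizer ({g} : Set G))) with
            mul_comm := fun a b => mul_comm' a b }
        infer_instance
      have hsol := Cfsg.Agent.S0183.result hodd hCN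
      exact hG ⟨⟨(IsSimpleGroup.comm_iff_isSolvable).2 hsol⟩⟩
    have hinv : ∀ t : G, orderOf t = 2 → IsMulCommutative (Subgroup.centralizer ({t} : Set G)) := by
      intro t ht
      apply hcent
      rintro rfl
      simp at ht
    haveI : Fact (Nat.Prime 2) := ⟨Nat.prime_two⟩
    obtain ⟨P⟩ : Nonempty (Sylow 2 G) := inferInstance
    rcases hyp_or heven hinv with h1 | h1 | h1
    · exfalso
      obtain ⟨H, hH⟩ := Cfsg.Agent.S0219.result heven P (h1 P)
      haveI : H.Normal := Subgroup.normal_of_index_eq_two hH
      rcases IsSimpleGroup.eq_bot_or_eq_top_of_normal H ‹_› with h2 | h2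
      · rw [h2, Subgroup.index_bot] at hH
        haveI : Fact (Nat.Prime (Nat.card G)) := ⟨by rw [hH]; exact Nat.prime_two⟩
        haveI : IsCyclic G := isCyclic_of_prime_card rfl
        exact hG IsCyclic.commutative
      · rw [h2, Subgroup.index_top] at hH
        omega
    · exfalso
      have hne : (P : Subgroup G) ≠ ⊥ := P.ne_bot_of_dvd_card heven.two_dvd
      haveI := h1 P
      rcases IsSimpleGroup.eq_bot_or_eq_top_of_normal (P : Subgroup G) ‹_› with h2 | h2
      · exact hne h2
      · have hp : IsPGroup 2 G := by
          intro g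
          obtain ⟨k, hk⟩ := P.isPGroup' ⟨g, by rw [h2]; trivial⟩
          exact ⟨k, congrArg Subtype.val hk⟩
        haveI : Nontrivial (Subgroup.center G) := hp.center_nontrivial
        have hc : Subgroup.center G ≠ ⊥ := (Subgroup.nontrivial_iff_ne_bot _).1 inferInstance
        rcases IsSimpleGroup.eq_bot_or_eq_top_of_normal (Subgroup.center G) inferInstance with h3 | h3
        · exact hc h3
        · apply hG
          refine ⟨⟨fun a b => ?_⟩⟩
          have h4 : a ∈ Subgroup.center G := by rw [h3]; trivial
          exact (Subgroup.mem_center_iff.1 h4 b).symm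
    · obtain ⟨F, iF, iT, f, A, iA, iFA, hf, hF, hc, hodd, ⟨φ⟩⟩ := h1.main
      haveI := hc
      let ρ : G →* Matrix.SpecialLinearGroup (Fin 2) F := (MonoidHom.fst _ _).comp φ.toMonoidHom
      haveI : ρ.ker.Normal := inferInstance
      rcases IsSimpleGroup.eq_bot_or_eq_top_of_normal ρ.ker inferInstance with h2 | h2
      · have hbij : Function.Bijective ρ := by
          constructor
          · rw [← MonoidHom.ker_eq_bot_iff]
            exact h2
          · intro y
            refine ⟨φ.symm (y, 1), ?_⟩
            show (φ (φ.symm (y, 1))).1 = y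
            rw [MulEquiv.apply_symm_apply]
        exact ⟨F, iF, iT, f, hf, hF, ⟨(MulEquiv.ofBijective ρ hbij).trans equivPSL⟩⟩
      · exfalso
        apply hG
        refine ⟨⟨fun a b => ?_⟩⟩
        have ha : ρ a = 1 := by
          have : a ∈ ρ.ker := by rw [h2]; trivial
          exact this
        have hb : ρ b = 1 := by
          have : b ∈ ρ.ker := by rw [h2]; trivial
          exact this
        apply φ.injective
        rw [map_mul, map_mul]
        apply Prod.ext
        · show (φ a).1 * (φ b).1 = (φ b).1 * (φ a).1
          have ha' : (φ a).1 = 1 := ha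
          have hb' : (φ b).1 = 1 := hb
          rw [ha', hb']
        · show (φ a).2 * (φ b).2 = (φ b).2 * (φ a).2
          exact mul_comm _ _
  · rintro ⟨F, iF, iT, f, hf, hF, ⟨φ⟩⟩
    have hchar : CharP F 2 := by
      obtain ⟨p, hp⟩ := CharP.exists F
      haveI := hp
      haveI : Fact p.Prime := ⟨CharP.char_is_prime F p⟩
      obtain ⟨n, hpp, hn⟩ := FiniteField.card F p
      rw [hF] at hn
      have h1 : p ∣ 2 ^ f := by
        rw [hn]
        exact dvd_pow_self p n.ne_zero
      have h2 := (Nat.prime_dvd_prime_iff_eq hpp Nat.prime_two).1 (hpp.dvd_of_dvd_pow h1)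
      rwa [h2] at hp
    haveI := hchar
    let θ : G ≃* Matrix.SpecialLinearGroup (Fin 2) F := φ.trans (equivPSL (F := F)).symm
    intro a b c _ hb _ hab hbc
    have hb' : θ b ≠ 1 := by
      intro h0
      apply hb
      apply θ.injective
      rw [h0, map_one]
    have h1 : Commute (θ a) (θ c) := commute_trans_SL hb' (hab.map θ) (hbc.map θ)
    show a * c = c * a
    apply θ.injective
    rw [map_mul, map_mul]
    exact h1.eq

end Cfsg.Agent.S5748
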