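import Cfsg.Statements.S5754
import Mathlib

set_option autoImplicit false

namespace Cfsg.Agent.S5754

variable {F V : Type*} [Field F] [AddCommGroup V] [Module F V]

/-- `Q (x - y)` via the polar form. -/
theorem map_sub_eq (Q : QuadraticForm F V) (x y : V) :
    Q (x - y) = Q x + Q y - QuadraticMap.polar Q x y := by
  have h : QuadraticMap.polar Q x (-y) = - QuadraticMap.polar Q x y := by
    simp [QuadraticMap.polar_neg_right]
  rw [QuadraticMap.polar, QuadraticMap.map_neg, ← sub_eq_add_neg] at h
  linear_combination h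

/-- The reflection along an anisotropic vector, as a linear map. -/
noncomputable def reflL (Q : QuadraticForm F V) (w : V) : V →ₗ[F] V where
  toFun x := x - (QuadraticMap.polar Q x w / Q w) • w
  map_add' x y := by
    rw [QuadraticMap.polar_add_left, add_div, add_smul]; abel
  map_smul' c x := by
    rw [QuadraticMap.polar_smul_left, smul_eq_mul, mul_div_assoc, mul_smul, RingHom.id_apply,
      smul_sub]

theorem reflL_apply (Q : QuadraticForm F V) (w x : V) :
    reflL Q w x = x - (QuadraticMap.polar Q x w / Q w) • w := rfl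

theorem polar_reflL (Q : QuadraticForm F V) (w x : V) (hw : Q w ≠ 0) :
    QuadraticMap.polar Q (reflL Q w x) w = - QuadraticMap.polar Q x w := by
  rw [reflL_apply, QuadraticMap.polar_sub_left, QuadraticMap.polar_smul_left,
    QuadraticMap.polar_self, smul_eq_mul, nsmul_eq_mul]
  field_simp
  push_cast
  ring

theorem reflL_invol (Q : QuadraticForm F V) (w : V) (hw : Q w ≠ 0) :
    Function.Involutive (reflL Q w) := by
  intro x
  rw [reflL_apply _ _ (reflL Q w x), polar_reflL Q w x hw, reflL_apply, neg_div, neg_smul]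
  abel

theorem map_reflL (Q : QuadraticForm F V) (w x : V) (hw : Q w ≠ 0) :
    Q (reflL Q w x) = Q x := by
  rw [reflL_apply, map_sub_eq, QuadraticMap.map_smul, QuadraticMap.polar_smul_right, smul_eq_mul,
    smul_eq_mul]
  field_simp
  ring

/-- The reflection as an isometry. -/
noncomputable def reflI (Q : QuadraticForm F V) (w : V) (hw : Q w ≠ 0) : Q.IsometryEquiv Q where
  toLinearEquiv := LinearEquiv.ofInvolutive (reflL Q w) (reflL_invol Q w hw)
  map_app' x := map_reflL Q w x hw

theorem reflI_apply (Q : QuadraticForm F V) (w : V) (hw : Q w ≠ 0) (x : V) :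
    reflI Q w hw x = reflL Q w x := rfl

/-- The reflection along `x - y` swaps `x` to `y` when `Q x = Q y`. -/
theorem reflL_sub (Q : QuadraticForm F V) (x y : V) (hw : Q (x - y) ≠ 0) (h : Q x = Q y) :
    reflL Q (x - y) x = y := by
  have h1 : QuadraticMap.polar Q x (x - y) = Q (x - y) := by
    rw [QuadraticMap.polar_sub_right, QuadraticMap.polar_self, map_sub_eq, ← h, nsmul_eq_mul]
    push_cast
    ring
  rw [reflL_apply, h1, div_self hw, one_smul]
  abel

/-- The reflection along `x - y` fixes points equidistant from `x` and `y`. -/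
theorem reflL_fix (Q : QuadraticForm F V) (x y z : V) (h : Q x = Q y)
    (hz : Q (z - x) = Q (z - y)) : reflL Q (x - y) z = z := by
  have h1 : QuadraticMap.polar Q z (x - y) = 0 := by
    rw [QuadraticMap.polar_sub_right]
    rw [map_sub_eq, map_sub_eq, h] at hz
    linear_combination -hz
  rw [reflL_apply, h1, zero_div, zero_smul, sub_zero]

theorem result {F V : Type*} [Field F] [Finite F] [AddCommGroup V] [Module F V] [Module.Finite F V]
    (Q : QuadraticForm F V) (hQ : Q.Anisotropic) (n : ℕ) (hn : 2 ≤ n) (u u' : Fin n → V)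
    (h2 : ∀ i j : Fin n, i ≠ j → ∃ (φ : Q.IsometryEquiv Q) (c : V), φ (u i) + c = u' i ∧ φ (u j) + c = u' j) :
    ∃ (φ : Q.IsometryEquiv Q) (c : V), ∀ i, φ (u i) + c = u' i := by
  classical
  let i0 : Fin n := ⟨0, by omega⟩
  have hQ2 : ∀ i j, Q (u i - u j) = Q (u' i - u' j) := by
    intro i j
    by_cases h : i = j
    · subst h; simp
    · obtain ⟨φ, c, h1, h2⟩ := h2 i j h
      rw [← h1, ← h2]
      have : φ (u i) + c - (φ (u j) + c) = φ (u i - u j) := by
        rw [map_sub]; abel
      rw [this]
      exact (φ.map_app _).symm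
  let v : Fin n → V := fun i => u i - u i0
  let v' : Fin n → V := fun i => u' i - u' i0
  have hv : ∀ i j, v i - v j = u i - u j := fun i j => by simp [v]
  have hv' : ∀ i j, v' i - v' j = u' i - u' j := fun i j => by simp [v']
  have key : ∀ s : Finset (Fin n), ∃ φ : Q.IsometryEquiv Q, ∀ i ∈ s, φ (v i) = v' i := by
    intro s
    induction s using Finset.induction_on with
    | empty => exact ⟨QuadraticMap.IsometryEquiv.refl Q, by simp⟩
    | insert k s _ ih =>
      obtain ⟨φ, hφ⟩ := ih
      by_cases hxy : φ (v k) = v' k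
      · refine ⟨φ, fun i hi => ?_⟩
        rcases Finset.mem_insert.1 hi with rfl | hi
        · exact hxy
        · exact hφ i hi
      have hw : Q (φ (v k) - v' k) ≠ 0 := by
        intro h
        exact hxy (sub_eq_zero.1 (hQ _ h))
      have hQxy : Q (φ (v k)) = Q (v' k) := by
        rw [φ.map_app]
        exact hQ2 k i0
      refine ⟨φ.trans (reflI Q _ hw), fun i hi => ?_⟩
      change reflL Q (φ (v k) - v' k) (φ (v i)) = v' i
      rcases Finset.mem_insert.1 hi with rfl | hi
      · exact reflL_sub Q _ _ hw hQxy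
      · rw [hφ i hi]
        apply reflL_fix Q _ _ _ hQxy
        rw [← hφ i hi, ← map_sub, φ.map_app, hφ i hi, hv, hv']
        exact hQ2 i k
  obtain ⟨φ, hφ⟩ := key Finset.univ
  refine ⟨φ, u' i0 - φ (u i0), fun i => ?_⟩
  have := hφ i (Finset.mem_univ _)
  simp only [v, v', map_sub] at this
  rw [← sub_eq_zero] at this ⊢
  rw [← this]
  abel

end Cfsg.Agent.S5754
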