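import Cfsg.Statements.S5763
import Mathlib

set_option autoImplicit false

namespace Cfsg.Agent.S5763

open Equiv

abbrev F8 := Fin 8

def pa : F8 → F8 := ![1, 0, 3, 2, 5, 4, 7, 6]

def bl (i : F8) : Bool := decide (4 ≤ i.val)

def tabs : List (F8 → F8) :=
  [![1, 0, 3, 2, 5, 4, 7, 6], ![1, 0, 3, 2, 6, 7, 4, 5], ![1, 0, 3, 2, 7, 6, 5, 4],
   ![0, 1, 2, 3, 4, 5, 7, 6], ![0, 1, 2, 3, 5, 4, 6, 7], ![0, 1, 3, 2, 4, 5, 6, 7],
   ![1, 0, 2, 3, 4, 5, 6, 7], ![4, 5, 6, 7, 0, 1, 2, 3], ![4, 5, 7, 6, 0, 1, 3, 2],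
   ![5, 4, 6, 7, 1, 0, 2, 3], ![5, 4, 7, 6, 1, 0, 3, 2], ![6, 7, 4, 5, 2, 3, 0, 1],
   ![6, 7, 5, 4, 3, 2, 0, 1], ![7, 6, 4, 5, 2, 3, 1, 0], ![7, 6, 5, 4, 3, 2, 1, 0]]

/-- membership condition as a function. -/
def isP (s : F8 → F8) : Bool :=
  decide (∀ i : F8, s (pa i) = pa (s i)) &&
    decide (∀ i : F8, xor (bl (s i)) (bl i) = xor (bl (s 0)) (bl 0))

def ainv (a : F8 → F8) (u : F8) : F8 :=
  if a 0 = u then 0 else if a 1 = u then 1 else if a 2 = u then 2 else if a 3 = u then 3 else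
  if a 4 = u then 4 else if a 5 = u then 5 else if a 6 = u then 6 else 7

def chk (t a : F8 → F8) : Bool := isP (fun i => ainv a (t (a i)))

set_option maxRecDepth 100000 in
theorem leaf : ∀ a1 : F8, a1 ≠ 0 → ∀ a2 : F8, (a2 ≠ 0 ∧ a2 ≠ a1) →
    ∀ a3 : F8, (a2 < a3 ∧ a3 ≠ a1) → ∀ a4 : F8, (a4 ≠ 0 ∧ a4 ≠ a1 ∧ a4 ≠ a2 ∧ a4 ≠ a3) →
    ∀ a5 : F8, (a4 < a5 ∧ a5 ≠ a1 ∧ a5 ≠ a2 ∧ a5 ≠ a3) →
    ∀ a6 : F8, (a4 < a6 ∧ a6 ≠ a1 ∧ a6 ≠ a2 ∧ a6 ≠ a3 ∧ a6 ≠ a5) →
    ∀ a7 : F8, (a6 < a7 ∧ a7 ≠ a1 ∧ a7 ≠ a2 ∧ a7 ≠ a3 ∧ a7 ≠ a5) →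
    tabs.any (fun f => chk f ![0, a1, a2, a3, a4, a5, a6, a7]) = true := by
  decide +kernel

theorem xor_trans (a b c : Bool) : xor (xor a b) (xor b c) = xor a c := by
  cases a <;> cases b <;> cases c <;> rfl

/-- the tree stabiliser as a submonoid. -/
def P0m : Submonoid (Perm F8) where
  carrier := {g | (∀ i, g (pa i) = pa (g i)) ∧ ∀ i, xor (bl (g i)) (bl i) = xor (bl (g 0)) (bl 0)}
  one_mem' := ⟨fun _ => rfl, fun i => by
    show xor (bl i) (bl i) = xor (bl 0) (bl 0)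
    simp⟩
  mul_mem' := by
    rintro g h ⟨hg1, hg2⟩ ⟨hh1, hh2⟩
    refine ⟨fun i => ?_, fun i => ?_⟩
    · show g (h (pa i)) = pa (g (h i))
      rw [hh1, hg1]
    · show xor (bl (g (h i))) (bl i) = xor (bl (g (h 0))) (bl 0)
      rw [← xor_trans (bl (g (h i))) (bl (h i)) (bl i), ← xor_trans (bl (g (h 0))) (bl (h 0)) (bl 0),
        hg2 (h i), hh2 i, hg2 (h 0)]

/-- the tree stabiliser. -/
def P0 : Subgroup (Perm F8) where
  toSubmonoid := P0m
  inv_mem' := by
    intro g hg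
    have h1 : g⁻¹ = g ^ (orderOf g - 1) := by
      apply inv_eq_of_mul_eq_one_right
      rw [← pow_succ', Nat.sub_add_cancel (orderOf_pos g), pow_orderOf_eq_one]
    rw [h1]
    exact P0m.pow_mem hg _

theorem mem_P0 {g : Perm F8} : g ∈ P0 ↔
    (∀ i, g (pa i) = pa (g i)) ∧ ∀ i, xor (bl (g i)) (bl i) = xor (bl (g 0)) (bl 0) := Iff.rfl

theorem isP_iff (s : F8 → F8) : isP s = true ↔
    (∀ i, s (pa i) = pa (s i)) ∧ ∀ i, xor (bl (s i)) (bl i) = xor (bl (s 0)) (bl 0) := by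
  simp [isP]

def tab (a b c d : F8) : F8 → F8 := ![a, pa a, b, pa b, c, pa c, d, pa d]

theorem tab_iter : ∀ a b c d : F8, b ≠ a → b ≠ pa a → bl b = bl a → bl c ≠ bl a → d ≠ c → d ≠ pa c →
    bl d = bl c → ∀ i, (tab a b c d) ((tab a b c d) ((tab a b c d) ((tab a b c d) ((tab a b c d)
      ((tab a b c d) ((tab a b c d) ((tab a b c d) i))))))) = i := by
  decide +kernel

theorem P0_pgroup : IsPGroup 2 P0 := by
  rintro ⟨g, hg1, hg2⟩
  refine ⟨3, ?_⟩
  apply Subtype.ext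
  have hfun : ∀ i, g i = tab (g 0) (g 2) (g 4) (g 6) i := by
    have h1 : g 1 = pa (g 0) := hg1 0
    have h3 : g 3 = pa (g 2) := hg1 2
    have h5 : g 5 = pa (g 4) := hg1 4
    have h7 : g 7 = pa (g 6) := hg1 6
    intro i
    fin_cases i
    · rfl
    · exact h1
    · rfl
    · exact h3
    · rfl
    · exact h5
    · rfl
    · exact h7
  have hne : ∀ i j : F8, i ≠ j → g i ≠ g j := fun i j h h' => h (g.injective h')
  have h2 := hg2 2
  have h4 := hg2 4
  have h6 := hg2 6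
  have hb2 : bl 2 = false := rfl
  have hb4 : bl 4 = true := rfl
  have hb6 : bl 6 = true := rfl
  have hb0 : bl 0 = false := rfl
  rw [hb2, hb0] at h2
  rw [hb4, hb0] at h4
  rw [hb6, hb0] at h6
  have hiter := tab_iter (g 0) (g 2) (g 4) (g 6) (hne _ _ (by decide))
    (by rw [← (hg1 0 : g 1 = pa (g 0))]; exact hne _ _ (by decide))
    (by simpa using h2)
    (by
      intro h
      simp only [Bool.xor_false, Bool.xor_true] at h4
      rw [h] at h4
      simp at h4)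
    (hne _ _ (by decide))
    (by rw [← (hg1 4 : g 5 = pa (g 4))]; exact hne _ _ (by decide))
    (by
      simp only [Bool.xor_false, Bool.xor_true] at h4 h6
      have h9 := h6.trans h4.symm
      simpa using h9)
  generalize tab (g 0) (g 2) (g 4) (g 6) = T at hfun hiter
  refine Equiv.ext fun i => ?_
  have h8 : ((g ^ 2 ^ 3) i) = g (g (g (g (g (g (g (g i))))))) := by
    have : (g ^ 2 ^ 3 : Perm F8) = g * g * g * g * g * g * g * g := by
      simp [pow_succ]
    rw [this]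
    rfl
  show ((g ^ 2 ^ 3) i) = i
  rw [h8]
  simp only [hfun]
  exact hiter i

def g1 : Perm F8 := swap 0 1
def g2 : Perm F8 := swap 2 3
def g3 : Perm F8 := swap 4 5
def g4 : Perm F8 := swap 6 7
def g5 : Perm F8 := swap 0 2 * swap 1 3
def g6 : Perm F8 := swap 4 6 * swap 5 7
def g7 : Perm F8 := swap 0 4 * swap 1 5 * swap 2 6 * swap 3 7

theorem g1_mem : g1 ∈ P0 := (isP_iff _).1 (by decide +kernel)
theorem g2_mem : g2 ∈ P0 := (isP_iff _).1 (by decide +kernel)
theorem g3_mem : g3 ∈ P0 := (isP_iff _).1 (by decide +kernel)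
theorem g4_mem : g4 ∈ P0 := (isP_iff _).1 (by decide +kernel)
theorem g5_mem : g5 ∈ P0 := (isP_iff _).1 (by decide +kernel)
theorem g6_mem : g6 ∈ P0 := (isP_iff _).1 (by decide +kernel)
theorem g7_mem : g7 ∈ P0 := (isP_iff _).1 (by decide +kernel)

/-- the potential -/
def phi (z : Perm F8) : ℕ :=
  (z 0).val * 8 ^ 7 + (z 1).val * 8 ^ 6 + (z 2).val * 8 ^ 5 + (z 3).val * 8 ^ 4 +
    (z 4).val * 8 ^ 3 + (z 5).val * 8 ^ 2 + (z 6).val * 8 + (z 7).val

theorem phi_mul (z g : Perm F8) (a b c d e f u v : F8) (h0 : g 0 = a) (h1 : g 1 = b) (h2 : g 2 = c)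
    (h3 : g 3 = d) (h4 : g 4 = e) (h5 : g 5 = f) (h6 : g 6 = u) (h7 : g 7 = v) :
    phi (z * g) = (z a).val * 8 ^ 7 + (z b).val * 8 ^ 6 + (z c).val * 8 ^ 5 + (z d).val * 8 ^ 4 +
      (z e).val * 8 ^ 3 + (z f).val * 8 ^ 2 + (z u).val * 8 + (z v).val := by
  simp only [phi, Perm.mul_apply, h0, h1, h2, h3, h4, h5, h6, h7]

theorem canon (y : Perm F8) : ∃ p ∈ P0, (y * p) 0 < (y * p) 1 ∧ (y * p) 2 < (y * p) 3 ∧
    (y * p) 4 < (y * p) 5 ∧ (y * p) 6 < (y * p) 7 ∧ (y * p) 0 < (y * p) 2 ∧ (y * p) 4 < (y * p) 6 ∧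
    (y * p) 0 < (y * p) 4 := by
  classical
  obtain ⟨p, hp, hmin⟩ : ∃ p ∈ (P0 : Set (Perm F8)), ∀ q ∈ (P0 : Set (Perm F8)), phi (y * p) ≤ phi (y * q) := by
    have hne : (Finset.univ.filter (· ∈ P0)).Nonempty := ⟨1, by simp [P0.one_mem]⟩
    obtain ⟨p, hp, hmin⟩ := Finset.exists_min_image _ (fun q => phi (y * q)) hne
    exact ⟨p, by simpa using hp, fun q hq => hmin q (by simpa using hq)⟩
  set z := y * p with hz
  have hzinj : ∀ i j : F8, i ≠ j → (z i).val ≠ (z j).val := fun i j h h' =>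
    h (z.injective (Fin.ext h'))
  have hlt : ∀ i : F8, (z i).val < 8 := fun i => (z i).2
  have hq : ∀ g ∈ P0, phi z ≤ phi (z * g) := by
    intro g hg
    have := hmin (p * g) (P0.mul_mem hp hg)
    rwa [← mul_assoc] at this
  have hphi : phi z = (z 0).val * 8 ^ 7 + (z 1).val * 8 ^ 6 + (z 2).val * 8 ^ 5 + (z 3).val * 8 ^ 4 +
      (z 4).val * 8 ^ 3 + (z 5).val * 8 ^ 2 + (z 6).val * 8 + (z 7).val := rfl
  have b0 := hlt 0
  have b1 := hlt 1
  have b2 := hlt 2
  have b3 := hlt 3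
  have b4 := hlt 4
  have b5 := hlt 5
  have b6 := hlt 6
  have b7 := hlt 7
  refine ⟨p, hp, ?_, ?_, ?_, ?_, ?_, ?_, ?_⟩
  · by_contra h
    have h0 := hq g1 g1_mem
    rw [phi_mul z g1 1 0 2 3 4 5 6 7 (by decide) (by decide) (by decide) (by decide) (by decide)
      (by decide) (by decide) (by decide), hphi] at h0
    have h1 := hzinj 0 1 (by decide)
    have h2 : (z 1).val ≤ (z 0).val := not_lt.1 h
    omega
  · by_contra h
    have h0 := hq g2 g2_mem
    rw [phi_mul z g2 0 1 3 2 4 5 6 7 (by decide) (by decide) (by decide) (by decide) (by decide)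
      (by decide) (by decide) (by decide), hphi] at h0
    have h1 := hzinj 2 3 (by decide)
    have h2 : (z 3).val ≤ (z 2).val := not_lt.1 h
    omega
  · by_contra h
    have h0 := hq g3 g3_mem
    rw [phi_mul z g3 0 1 2 3 5 4 6 7 (by decide) (by decide) (by decide) (by decide) (by decide)
      (by decide) (by decide) (by decide), hphi] at h0
    have h1 := hzinj 4 5 (by decide)
    have h2 : (z 5).val ≤ (z 4).val := not_lt.1 h
    omega
  · by_contra h
    have h0 := hq g4 g4_mem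
    rw [phi_mul z g4 0 1 2 3 4 5 7 6 (by decide) (by decide) (by decide) (by decide) (by decide)
      (by decide) (by decide) (by decide), hphi] at h0
    have h1 := hzinj 6 7 (by decide)
    have h2 : (z 7).val ≤ (z 6).val := not_lt.1 h
    omega
  · by_contra h
    have h0 := hq g5 g5_mem
    rw [phi_mul z g5 2 3 0 1 4 5 6 7 (by decide) (by decide) (by decide) (by decide) (by decide)
      (by decide) (by decide) (by decide), hphi] at h0
    have h1 := hzinj 0 2 (by decide)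
    have h2 : (z 2).val ≤ (z 0).val := not_lt.1 h
    omega
  · by_contra h
    have h0 := hq g6 g6_mem
    rw [phi_mul z g6 0 1 2 3 6 7 4 5 (by decide) (by decide) (by decide) (by decide) (by decide)
      (by decide) (by decide) (by decide), hphi] at h0
    have h1 := hzinj 4 6 (by decide)
    have h2 : (z 6).val ≤ (z 4).val := not_lt.1 h
    omega
  · by_contra h
    have h0 := hq g7 g7_mem
    rw [phi_mul z g7 4 5 6 7 0 1 2 3 (by decide) (by decide) (by decide) (by decide) (by decide)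
      (by decide) (by decide) (by decide), hphi] at h0
    have h1 := hzinj 0 4 (by decide)
    have h2 : (z 4).val ≤ (z 0).val := not_lt.1 h
    omega

theorem tabs_good0 : tabs.all (fun f => decide (∀ i, f (f i) = i) && decide (∃ i, f i ≠ i) && isP f) = true := by
  decide +kernel

theorem tabs_good : ∀ f ∈ tabs, (∀ i, f (f i) = i) ∧ (∃ i, f i ≠ i) ∧ isP f = true := by
  intro f hf
  have h := List.all_eq_true.1 tabs_good0 f hf
  simp only [Bool.and_eq_true, decide_eq_true_eq] at h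
  exact ⟨h.1.1, h.1.2, h.2⟩

theorem ainv_apply (y : Perm F8) (i : F8) : ainv y (y i) = i := by
  fin_cases i <;> simp [ainv, y.injective.eq_iff]

/-- the core statement: for every `y` there is a nontrivial element of `P0` conjugated by `y` into
`P0`. -/
theorem core (y : Perm F8) : ∃ t ∈ P0, t ≠ 1 ∧ y⁻¹ * t * y ∈ P0 := by
  obtain ⟨p, hp, h1, h2, h3, h4, h5, h6, h7⟩ := canon y
  set z := y * p with hz
  have hz0 : z 0 = 0 := by
    obtain ⟨k, hk⟩ := z.surjective 0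
    by_contra hne
    have hk0 : k ≠ 0 := by
      rintro rfl
      exact hne hk
    have hlt : z 0 < z k := by
      fin_cases k
      · exact absurd rfl hk0
      · exact h1
      · exact h5
      · exact h5.trans h2
      · exact h7
      · exact h7.trans h3
      · exact h7.trans h6
      · exact (h7.trans h6).trans h4
    rw [hk] at hlt
    exact absurd hlt (Fin.not_lt_zero _)
  have hne : ∀ i j : F8, i ≠ j → z i ≠ z j := fun i j h h' => h (z.injective h')
  have hleaf := leaf (z 1) (by rw [← hz0]; exact hne _ _ (by decide)) (z 2)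
    ⟨by rw [← hz0]; exact hne _ _ (by decide), hne _ _ (by decide)⟩
    (z 3) ⟨h2, hne _ _ (by decide)⟩ (z 4)
    ⟨by rw [← hz0]; exact hne _ _ (by decide), hne _ _ (by decide), hne _ _ (by decide),
      hne _ _ (by decide)⟩
    (z 5) ⟨h3, hne _ _ (by decide), hne _ _ (by decide), hne _ _ (by decide)⟩
    (z 6) ⟨h6, hne _ _ (by decide), hne _ _ (by decide), hne _ _ (by decide), hne _ _ (by decide)⟩
    (z 7) ⟨h4, hne _ _ (by decide), hne _ _ (by decide), hne _ _ (by decide), hne _ _ (by decide)⟩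
  have hfun : ![0, z 1, z 2, z 3, z 4, z 5, z 6, z 7] = (z : F8 → F8) := by
    funext i
    fin_cases i
    · exact hz0.symm
    all_goals rfl
  rw [hfun, List.any_eq_true] at hleaf
  obtain ⟨f, hf, hchk⟩ := hleaf
  obtain ⟨hinv, ⟨i₀, hi₀⟩, hP⟩ := tabs_good f hf
  let t : Perm F8 := Function.Involutive.toPerm f hinv
  have htv : ∀ i, t i = f i := fun _ => rfl
  refine ⟨t, (isP_iff _).1 hP, ?_, ?_⟩
  · intro h
    apply hi₀
    rw [← htv, h]
    rfl
  · -- the conjugate by `z` lies in `P0`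
    have hs : z⁻¹ * t * z ∈ P0 := by
      have h3 : (fun i => ainv z (f (z i))) = ((z⁻¹ * t * z : Perm F8) : F8 → F8) := by
        funext i
        obtain ⟨k, hk⟩ := z.surjective (f (z i))
        show ainv z (f (z i)) = z⁻¹ (t (z i))
        rw [htv, ← hk, ainv_apply]
        simp
      have h4 : isP ((z⁻¹ * t * z : Perm F8) : F8 → F8) = true := by
        rw [← h3]
        exact hchk
      exact (isP_iff _).1 h4
    have h5 : y⁻¹ * t * y = p * (z⁻¹ * t * z) * p⁻¹ := by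
      rw [hz]
      group
    rw [h5]
    exact P0.mul_mem (P0.mul_mem hp hs) (P0.inv_mem hp)

theorem result (H : Sylow 2 (Equiv.Perm (Fin 8))) (x : Equiv.Perm (Fin 8)) :
    (H : Subgroup (Equiv.Perm (Fin 8))) ⊓ (H : Subgroup (Equiv.Perm (Fin 8))).map (MulAut.conj x).toMonoidHom ≠ ⊥ := by
  obtain ⟨Q, hQ⟩ := P0_pgroup.exists_le_sylow
  obtain ⟨g, hg⟩ := MulAction.exists_smul_eq (Perm F8) Q H
  have hH : ∀ a ∈ P0, g * a * g⁻¹ ∈ (H : Subgroup (Perm F8)) := by
    intro a ha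
    rw [← hg, Sylow.coe_subgroup_smul]
    exact ⟨a, hQ ha, rfl⟩
  obtain ⟨t, ht, ht1, hs⟩ := core (g⁻¹ * x * g)
  intro hbot
  have hu : g * t * g⁻¹ ∈ (H : Subgroup (Perm F8)) ⊓
      (H : Subgroup (Perm F8)).map (MulAut.conj x).toMonoidHom := by
    refine ⟨hH t ht, ?_⟩
    refine ⟨_, hH _ hs, ?_⟩
    show x * (g * ((g⁻¹ * x * g)⁻¹ * t * (g⁻¹ * x * g)) * g⁻¹) * x⁻¹ = g * t * g⁻¹
    group
  rw [hbot, Subgroup.mem_bot] at hu
  apply ht1
  have : t = g⁻¹ * (g * t * g⁻¹) * g := by group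
  rw [this, hu]
  group

end Cfsg.Agent.S5763
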