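import Cfsg.Statements.S5885
import Mathlib
import Cfsg.Agent.Lib.Geo.EvenPerm

set_option autoImplicit false

namespace Cfsg.Agent.S5885

open Cfsg.Agent.Lib.Geo Equiv

theorem core {G Ω : Type*} [Group G] [Finite G] [MulAction G Ω] [Fintype Ω] [DecidableEq Ω]
    (hodd : Odd (Fintype.card Ω))
    (lift : ∀ σ : Perm Ω, Perm.sign σ = 1 → ∃ g : G, ∀ ω, g • ω = σ ω)
    (a : Ω) (M H K L : Subgroup G) (hMa : ∀ g : G, g • a = a ↔ g ∈ M) (hHM : H ≤ M)
    (hmax : ∀ S : Subgroup G, H ≤ S → S ≤ M → S = H ∨ S = M)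
    (hKM : ∀ x ∈ K, x ∈ M → x ∈ H) (hHL : H ≤ L) (hLK : L ≤ K) (hne1 : H ≠ L) (hne2 : L ≠ K) :
    False := by
  classical
  have hpairle : ∀ x y : Ω, ({x, y} : Set Ω).ncard ≤ 2 := fun x y => by
    have := Set.ncard_insert_le x ({y} : Set Ω)
    rwa [Set.ncard_singleton] at this
  set Γ : Set Ω := MulAction.orbit L a with hΓdef
  set Δ : Set Ω := MulAction.orbit K a with hΔdef
  have memΓ : ∀ x, x ∈ Γ ↔ ∃ l ∈ L, l • a = x := by
    intro x
    constructor
    · rintro ⟨⟨l, hl⟩, rfl⟩; exact ⟨l, hl, rfl⟩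
    · rintro ⟨l, hl, rfl⟩; exact ⟨⟨l, hl⟩, rfl⟩
  have memΔ : ∀ x, x ∈ Δ ↔ ∃ l ∈ K, l • a = x := by
    intro x
    constructor
    · rintro ⟨⟨l, hl⟩, rfl⟩; exact ⟨l, hl, rfl⟩
    · rintro ⟨l, hl, rfl⟩; exact ⟨⟨l, hl⟩, rfl⟩
  have haΓ : a ∈ Γ := MulAction.mem_orbit_self a
  have hΓΔ : Γ ⊆ Δ := by
    intro x hx
    obtain ⟨l, hl, rfl⟩ := (memΓ x).1 hx
    exact (memΔ _).2 ⟨l, hLK hl, rfl⟩
  have hΓcard : Γ.ncard = H.relIndex L := by
    rw [hΓdef, ← MulAction.index_stabilizer, Subgroup.relIndex]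
    congr 1
    ext ⟨l, hl⟩
    simp only [MulAction.mem_stabilizer_iff, Subgroup.mem_subgroupOf, Subgroup.smul_def, hMa]
    exact ⟨fun h => hKM l (hLK hl) h, fun h => hHM h⟩
  have hΔcard : Δ.ncard = H.relIndex K := by
    rw [hΔdef, ← MulAction.index_stabilizer, Subgroup.relIndex]
    congr 1
    ext ⟨l, hl⟩
    simp only [MulAction.mem_stabilizer_iff, Subgroup.mem_subgroupOf, Subgroup.smul_def, hMa]
    exact ⟨fun h => hKM l hl h, fun h => hHM h⟩
  have hmul : Γ.ncard * L.relIndex K = Δ.ncard := by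
    rw [hΓcard, hΔcard]; exact Subgroup.relIndex_mul_relIndex H L K hHL hLK
  have hc2 : 2 ≤ Γ.ncard := by
    rw [hΓcard]
    have h0 : H.relIndex L ≠ 0 := Subgroup.index_ne_zero_of_finite
    have h1 : H.relIndex L ≠ 1 := by
      intro h
      rw [Subgroup.relIndex_eq_one] at h
      exact hne1 (le_antisymm hHL h)
    omega
  have hr2 : 2 ≤ L.relIndex K := by
    have h0 : L.relIndex K ≠ 0 := Subgroup.index_ne_zero_of_finite
    have h1 : L.relIndex K ≠ 1 := by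
      intro h
      rw [Subgroup.relIndex_eq_one] at h
      exact hne2 (le_antisymm hLK h)
    omega
  have hΔle : Δ.ncard ≤ Fintype.card Ω := by
    rw [← Nat.card_eq_fintype_card, ← Set.ncard_univ]
    exact Set.ncard_le_ncard (Set.subset_univ _) Set.finite_univ
  have h4 : 4 ≤ Γ.ncard * L.relIndex K := Nat.mul_le_mul hc2 hr2
  have hn5 : 5 ≤ Fintype.card Ω := by
    obtain ⟨t, ht⟩ := hodd
    omega
  have hc_lt : Γ.ncard < Δ.ncard := by
    rw [← hmul]
    have : 0 < Γ.ncard := by omega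
    nlinarith
  have pick : ∀ T : Set Ω, T.ncard < Fintype.card Ω → ∃ z, z ∉ T := by
    intro T hT
    by_contra hcon
    push Not at hcon
    have : T = Set.univ := Set.eq_univ_of_forall hcon
    rw [this, Set.ncard_univ, Nat.card_eq_fintype_card] at hT
    exact lt_irrefl _ hT
  -- `L` preserves `Γ`
  have hLΓ : ∀ g ∈ L, ∀ x, g • x ∈ Γ ↔ x ∈ Γ := by
    intro g hg x
    rw [memΓ, memΓ]
    constructor
    · rintro ⟨l, hl, h⟩
      refine ⟨g⁻¹ * l, L.mul_mem (L.inv_mem hg) hl, ?_⟩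
      rw [mul_smul, h, inv_smul_smul]
    · rintro ⟨l, hl, rfl⟩
      exact ⟨g * l, L.mul_mem hg hl, mul_smul _ _ _⟩
  have hKΔ : ∀ g ∈ K, ∀ x, x ∈ Δ → g • x ∈ Δ := by
    intro g hg x hx
    obtain ⟨l, hl, rfl⟩ := (memΔ x).1 hx
    exact (memΔ _).2 ⟨g * l, K.mul_mem hg hl, mul_smul _ _ _⟩
  -- block property
  have hblock : ∀ k ∈ K, ∀ x ∈ Γ, k • x ∈ Γ → k ∈ L := by
    intro k hk x hx hkx
    obtain ⟨l, hl, rfl⟩ := (memΓ x).1 hx
    obtain ⟨l', hl', h⟩ := (memΓ _).1 hkx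
    have h1 : (l'⁻¹ * k * l) • a = a := by
      rw [mul_smul, mul_smul, ← h, inv_smul_smul]
    have h2 : l'⁻¹ * k * l ∈ H :=
      hKM _ (K.mul_mem (K.mul_mem (K.inv_mem (hLK hl')) hk) (hLK hl)) ((hMa _).1 h1)
    have h3 := hHL h2
    have h4 : k = l' * (l'⁻¹ * k * l) * l⁻¹ := by group
    rw [h4]
    exact L.mul_mem (L.mul_mem hl' h3) (L.inv_mem hl)
  -- the setwise stabilizer in `M`
  let St : Subgroup G :=
    { carrier := {g | g ∈ M ∧ ∀ x, g • x ∈ Γ ↔ x ∈ Γ}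
      one_mem' := ⟨M.one_mem, fun x => by simp⟩
      mul_mem' := by
        rintro g h ⟨hg, hg'⟩ ⟨hh, hh'⟩
        exact ⟨M.mul_mem hg hh, fun x => by rw [mul_smul, hg', hh']⟩
      inv_mem' := by
        rintro g ⟨hg, hg'⟩
        refine ⟨M.inv_mem hg, fun x => ?_⟩
        rw [← hg' (g⁻¹ • x), smul_inv_smul] }
  have hSt : H ≤ St := fun h hh => ⟨hHM hh, hLΓ h (hHL hh)⟩
  have hStM : St ≤ M := fun h hh => hh.1
  have hne3 : St ≠ M := by
    intro hS
    have hlt : Γ.ncard < Fintype.card Ω := lt_of_lt_of_le hc_lt hΔle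
    obtain ⟨y, hy⟩ := pick Γ hlt
    obtain ⟨x, hx, hxa⟩ := Set.exists_ne_of_one_lt_ncard (by omega : 1 < Γ.ncard) a
    have hT : ({a, x, y} : Set Ω).ncard < Fintype.card Ω := by
      have := Set.ncard_insert_le a ({x, y} : Set Ω)
      have := hpairle x y
      omega
    obtain ⟨w, hw⟩ := pick _ hT
    simp only [Set.mem_insert_iff, Set.mem_singleton_iff, not_or] at hw
    have hxy : x ≠ y := fun h => hy (h ▸ hx)
    have hay : a ≠ y := fun h => hy (h ▸ haΓ)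
    obtain ⟨σ, hσ, h1, -, -, h4⟩ := exists_three_cycle hxy (Ne.symm hw.2.1) (Ne.symm hw.2.2)
    obtain ⟨m, hm⟩ := lift σ hσ
    have hma : m • a = a := by
      rw [hm]; exact h4 a (Ne.symm hxa) hay (Ne.symm hw.1)
    have hmS : m ∈ St := hS ▸ (hMa m).1 hma
    have := (hmS.2 x).2 hx
    rw [hm, h1] at this
    exact hy this
  have hStH : St = H := (hmax St hSt hStM).resolve_right hne3
  have key : ∀ σ : Perm Ω, Perm.sign σ = 1 → σ a = a → (∀ x, σ x ∈ Γ ↔ x ∈ Γ) →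
      ∃ m ∈ K, ∀ ω, m • ω = σ ω := by
    intro σ hσ h1 h2
    obtain ⟨m, hm⟩ := lift σ hσ
    refine ⟨m, ?_, hm⟩
    have : m ∈ St := ⟨(hMa m).1 (by rw [hm, h1]), fun x => by rw [hm, h2]⟩
    rw [hStH] at this
    exact hLK (hHL this)
  have fixΓ : ∀ σ : Perm Ω, (∀ x ∈ Γ, σ x = x) → ∀ x, σ x ∈ Γ ↔ x ∈ Γ := by
    intro σ h x
    constructor
    · intro hx
      have := h _ hx
      rwa [σ.injective this] at hx
    · intro hx
      rwa [h x hx]
  -- `Δ` is everything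
  have hΔuniv : ∀ z, z ∈ Δ := by
    intro z
    by_contra hz
    obtain ⟨y, hyΔ, hyΓ⟩ := Set.exists_mem_notMem_of_ncard_lt_ncard hc_lt
    have hzΓ : z ∉ Γ := fun h => hz (hΓΔ h)
    have hyz : y ≠ z := fun h => hz (h ▸ hyΔ)
    by_cases hc3 : 3 ≤ Γ.ncard
    · obtain ⟨x, hx, hxa⟩ := Set.exists_ne_of_one_lt_ncard (by omega : 1 < Γ.ncard) a
      have hpair : ({a, x} : Set Ω).ncard < Γ.ncard := by
        have := hpairle a x
        omega
      obtain ⟨x', hx', hx'T⟩ := Set.exists_mem_notMem_of_ncard_lt_ncard hpair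
      simp only [Set.mem_insert_iff, Set.mem_singleton_iff, not_or] at hx'T
      have n1 : y ≠ x := fun h => hyΓ (h ▸ hx)
      have n2 : y ≠ x' := fun h => hyΓ (h ▸ hx')
      have n3 : z ≠ x := fun h => hzΓ (h ▸ hx)
      have n4 : z ≠ x' := fun h => hzΓ (h ▸ hx')
      have n5 : y ≠ a := fun h => hyΓ (h ▸ haΓ)
      have n6 : z ≠ a := fun h => hzΓ (h ▸ haΓ)
      obtain ⟨σ, hσ, h1, h2, h3, h4, h5⟩ :=
        exists_double_transposition hyz (Ne.symm hx'T.2) n1 n2 n3 n4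
      have hσa : σ a = a := h5 a (Ne.symm n5) (Ne.symm n6) (Ne.symm hxa) (Ne.symm hx'T.1)
      have hpres : ∀ t, σ t ∈ Γ ↔ t ∈ Γ := by
        intro t
        by_cases t1 : t = y
        · subst t1; rw [h1]; exact ⟨fun h => absurd h hzΓ, fun h => absurd h hyΓ⟩
        by_cases t2 : t = z
        · subst t2; rw [h2]; exact ⟨fun h => absurd h hyΓ, fun h => absurd h hzΓ⟩
        by_cases t3 : t = x
        · subst t3; rw [h3]; exact ⟨fun _ => hx, fun _ => hx'⟩
        by_cases t4 : t = x'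
        · subst t4; rw [h4]; exact ⟨fun _ => hx', fun _ => hx⟩
        rw [h5 t t1 t2 t3 t4]
      obtain ⟨m, hm, hm'⟩ := key σ hσ hσa hpres
      have := hKΔ m hm y hyΔ
      rw [hm', h1] at this
      exact hz this
    · have hT : (Γ ∪ {y, z}).ncard < Fintype.card Ω := by
        have := Set.ncard_union_le Γ ({y, z} : Set Ω)
        have := hpairle y z
        omega
      obtain ⟨w, hw⟩ := pick _ hT
      simp only [Set.mem_union, Set.mem_insert_iff, Set.mem_singleton_iff, not_or] at hw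
      obtain ⟨σ, hσ, h1, -, -, h4⟩ := exists_three_cycle hyz (Ne.symm hw.2.1) (Ne.symm hw.2.2)
      have hfix : ∀ x ∈ Γ, σ x = x := by
        intro x hx
        exact h4 x (fun h => hyΓ (h ▸ hx)) (fun h => hzΓ (h ▸ hx)) (fun h => hw.1 (h ▸ hx))
      obtain ⟨m, hm, hm'⟩ := key σ hσ (hfix a haΓ) (fixΓ σ hfix)
      have := hKΔ m hm y hyΔ
      rw [hm', h1] at this
      exact hz this
  -- so the numbers are odd
  have hΔn : Δ.ncard = Fintype.card Ω := by
    have : Δ = Set.univ := Set.eq_univ_of_forall hΔuniv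
    rw [this, Set.ncard_univ, Nat.card_eq_fintype_card]
  have hodd' : Odd (Γ.ncard * L.relIndex K) := by rw [hmul, hΔn]; exact hodd
  have hcodd := (Nat.odd_mul.1 hodd').1
  have hrodd := (Nat.odd_mul.1 hodd').2
  have hc3 : 3 ≤ Γ.ncard := by
    obtain ⟨t, ht⟩ := hcodd; omega
  have hr3 : 3 ≤ L.relIndex K := by
    obtain ⟨t, ht⟩ := hrodd; omega
  have hlt : Γ.ncard < Fintype.card Ω := lt_of_lt_of_le hc_lt hΔle
  obtain ⟨y, hy⟩ := pick Γ hlt
  obtain ⟨k, hk, rfl⟩ := (memΔ y).1 (hΔuniv y)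
  -- the translate
  set Γ' : Set Ω := (fun x => k • x) '' Γ with hΓ'def
  have hΓ'card : Γ'.ncard = Γ.ncard :=
    Set.ncard_image_of_injective _ (MulAction.injective k)
  have hdisj : ∀ t ∈ Γ', t ∉ Γ := by
    rintro _ ⟨x, hx, rfl⟩ ht
    exact hy ((hLΓ k (hblock k hk x hx ht) a).2 haΓ)
  obtain ⟨y', hy', hyy'⟩ := Set.exists_ne_of_one_lt_ncard
    (by rw [hΓ'card]; omega : 1 < Γ'.ncard) (k • a)
  have hT : (Γ ∪ Γ').ncard < Fintype.card Ω := by
    have := Set.ncard_union_le Γ Γ'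
    rw [← hΔn, ← hmul]
    have : 3 * Γ.ncard ≤ Γ.ncard * L.relIndex K := by nlinarith
    omega
  obtain ⟨z, hz⟩ := pick _ hT
  simp only [Set.mem_union, not_or] at hz
  have hyΓ' : k • a ∈ Γ' := ⟨a, haΓ, rfl⟩
  have n1 : k • a ≠ z := fun h => hz.2 (h ▸ hyΓ')
  have n2 : y' ≠ z := fun h => hz.2 (h ▸ hy')
  obtain ⟨σ, hσ, h1, h2, -, h4⟩ := exists_three_cycle (Ne.symm hyy') n1 n2
  have hfix : ∀ x ∈ Γ, σ x = x := by
    intro x hx
    exact h4 x (fun h => hy (h ▸ hx)) (fun h => hdisj _ hy' (h ▸ hx)) (fun h => hz.1 (h ▸ hx))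
  obtain ⟨m, hm, hm'⟩ := key σ hσ (hfix a haΓ) (fixΓ σ hfix)
  obtain ⟨x', hx', rfl⟩ := hy'
  have hg : k⁻¹ * m * k ∈ K := K.mul_mem (K.mul_mem (K.inv_mem hk) hm) hk
  have hgL : k⁻¹ * m * k ∈ L := by
    apply hblock _ hg a haΓ
    rw [mul_smul, mul_smul, hm', h1, inv_smul_smul]
    exact hx'
  have h5 := (hLΓ _ hgL x').2 hx'
  rw [mul_smul, mul_smul, hm', h2] at h5
  exact hz.2 ⟨_, h5, smul_inv_smul k z⟩

open Cfsg

theorem result {G : Type*} [Group G]
    [Finite G] (n : ℕ) (hodd : Odd n)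
    (hA : ∀ P : Subgroup (Equiv.Perm (Fin n)), MulAction.IsPreprimitive P (Fin n) → alternatingGroup (Fin n) ≤ P)
    (M : Subgroup G) (hM : IsCoatom M) (hn : M.index = n) (H : Subgroup G) (hHM : H ≤ M)
    (hmax : IsCoatom (H.subgroupOf M)) (K : Subgroup G) (hK : IsCoatom K) (hHK : H ≤ K) :
    IsCoatom (H.subgroupOf K) := by
  classical
  by_cases hKM : K = M
  · subst hKM; exact hmax
  have hMtop : M ≠ ⊤ := hM.1
  have hMK : ¬ M ≤ K := fun h => hKM ((hM.le_iff.1 h).resolve_left hK.1)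
  have hKle : ¬ K ≤ M := fun h => hKM ((hK.le_iff.1 h).resolve_left hMtop).symm
  -- intermediate subgroups
  have hmax' : ∀ S : Subgroup G, H ≤ S → S ≤ M → S = H ∨ S = M := by
    intro S hHS hSM
    have h1 : H.subgroupOf M ≤ S.subgroupOf M := fun x hx => hHS hx
    rcases hmax.le_iff.1 h1 with h2 | h2
    · right
      refine le_antisymm hSM ?_
      exact Subgroup.subgroupOf_eq_top.1 h2
    · left
      refine le_antisymm ?_ hHS
      intro x hx
      have : (⟨x, hSM hx⟩ : M) ∈ S.subgroupOf M := hx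
      rw [h2] at this
      exact this
  have hKMH : ∀ x ∈ K, x ∈ M → x ∈ H := by
    rcases hmax' (K ⊓ M) (le_inf hHK hHM) inf_le_right with h | h
    · intro x hxK hxM
      rw [← h]; exact ⟨hxK, hxM⟩
    · exact absurd (h ▸ inf_le_left : M ≤ K) hMK
  refine ⟨?_, ?_⟩
  · intro h
    have : K ≤ H := Subgroup.subgroupOf_eq_top.1 h
    exact hKle (this.trans hHM)
  intro b hb
  by_contra hbtop
  let L : Subgroup G := b.map K.subtype
  have hLK : L ≤ K := by
    rintro _ ⟨x, -, rfl⟩; exact x.2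
  have hHL : H ≤ L := by
    intro x hx
    exact ⟨⟨x, hHK hx⟩, hb.le hx, rfl⟩
  have hne1 : H ≠ L := by
    intro h
    apply hb.not_ge
    intro x hx
    have : (x : G) ∈ L := ⟨x, hx, rfl⟩
    rw [← h] at this
    exact this
  have hne2 : L ≠ K := by
    intro h
    apply hbtop
    rw [eq_top_iff]
    intro x _
    have hxL : (x : G) ∈ L := by rw [h]; exact x.2
    obtain ⟨y, hy, hyx⟩ := hxL
    have : y = x := Subtype.ext hyx
    rw [← this]; exact hy
  let Ω := G ⧸ M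
  have : Finite Ω := inferInstance
  have : Fintype Ω := Fintype.ofFinite Ω
  have hcard : Nat.card Ω = n := hn
  have hodd' : Odd (Fintype.card Ω) := by
    rw [← Nat.card_eq_fintype_card, hcard]; exact hodd
  let a : Ω := ((1 : G) : G ⧸ M)
  have hstab : MulAction.stabilizer G a = M := MulAction.stabilizer_quotient M
  have : Nontrivial Ω := by
    rw [← Finite.one_lt_card_iff_nontrivial]
    have h0 : M.index ≠ 0 := Subgroup.index_ne_zero_of_finite
    have h1 : M.index ≠ 1 := fun h => hMtop (Subgroup.index_eq_one.1 h)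
    change 1 < M.index
    omega
  have hprim : MulAction.IsPreprimitive G Ω :=
    (MulAction.isCoatom_stabilizer_iff_preprimitive G a).1 (by rw [hstab]; exact hM)
  have e : Ω ≃ Fin n := Finite.equivFinOfCardEq hcard
  refine core hodd' (lift_even_of_preprimitive e hprim hA) a M H K L ?_ hHM hmax' hKMH hHL hLK hne1 hne2
  intro g
  rw [← MulAction.mem_stabilizer_iff, hstab]

end Cfsg.Agent.S5885
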