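import Cfsg.Statements.S5887
import Mathlib
import Cfsg.Agent.Lib.Geo.FieldNorm

set_option autoImplicit false

namespace Cfsg.Agent.S5887

open Cfsg.Agent.Lib.Geo

variable {ι : Type} [Fintype ι] [DecidableEq ι] {F : Type*} [Field F] [Fintype F]

/-- the Frobenius-fixed subalgebra of `K`. -/
theorem exists_fix [Nonempty ι] (K : Subalgebra F (Matrix ι ι F))
    (hcomm : ∀ x ∈ K, ∀ y ∈ K, x * y = y * x) (s : ℕ) :
    ∃ L : Subalgebra F (Matrix ι ι F), ∀ x, x ∈ L ↔ x ∈ K ∧ x ^ (Fintype.card F ^ s) = x := by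
  obtain ⟨p, hp⟩ := CharP.exists F
  haveI := hp
  obtain ⟨f, hpp, hq⟩ := FiniteField.card F p
  haveI : Fact p.Prime := ⟨hpp⟩
  haveI : CharP (Matrix ι ι F) p := Matrix.charP p
  let L : Subalgebra F (Matrix ι ι F) :=
    { carrier := {x | x ∈ K ∧ x ^ (Fintype.card F ^ s) = x}
      mul_mem' := by
        rintro a b ⟨ha, ha'⟩ ⟨hb, hb'⟩
        refine ⟨K.mul_mem ha hb, ?_⟩
        have hc : Commute a b := hcomm a ha b hb
        rw [hc.mul_pow, ha', hb']
      add_mem' := by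
        rintro a b ⟨ha, ha'⟩ ⟨hb, hb'⟩
        refine ⟨K.add_mem ha hb, ?_⟩
        have hc : Commute a b := hcomm a ha b hb
        rw [hq, ← pow_mul]
        rw [hq, ← pow_mul] at ha' hb'
        rw [add_pow_char_pow_of_commute p _ hc, ha', hb']
      algebraMap_mem' := by
        intro c
        refine ⟨K.algebraMap_mem c, ?_⟩
        rw [← map_pow, FiniteField.pow_card_pow] }
  exact ⟨L, fun x => Iff.rfl⟩

theorem normalizer_le {K L : Subalgebra F (Matrix ι ι F)} {m : ℕ}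
    (hL : ∀ x, x ∈ L ↔ x ∈ K ∧ x ^ m = x) :
    Cfsg.Geo.subalgebraNormalizer K ≤ Cfsg.Geo.subalgebraNormalizer L := by
  intro g hg k
  have hpow : ∀ x : Matrix ι ι F,
      ((g : Matrix ι ι F) * x * ((g⁻¹ : GL ι F) : Matrix ι ι F)) ^ m =
      (g : Matrix ι ι F) * x ^ m * ((g⁻¹ : GL ι F) : Matrix ι ι F) := fun x =>
    Units.conj_pow g x m
  rw [hL, hL, hpow]
  constructor
  · rintro ⟨h1, h2⟩
    exact ⟨(hg k).1 h1, by rw [h2]⟩
  · rintro ⟨h1, h2⟩
    refine ⟨(hg k).2 h1, ?_⟩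
    exact (Units.mul_right_inj g).1 ((Units.mul_left_inj g⁻¹).1 h2)

theorem result {F : Type*} [Field F]
    [Fintype F] (n r : ℕ) (hr1 : 1 < r) (hrp : ¬ r.Prime) (hrn : r ∣ n) (hlt : r < n)
    (K : Subalgebra F (Matrix (Fin n) (Fin n) F)) (hK : Cfsg.Geo.IsFieldSubalgebra r K) :
    ¬ IsCoatom (Cfsg.Geo.subalgebraNormalizer K) ∧
      ¬ Cfsg.Geo.IsMaximalIn (Cfsg.Geo.specialLinear (Fin n) F)
        (Cfsg.Geo.subalgebraNormalizer K ⊓ Cfsg.Geo.specialLinear (Fin n) F) := by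
  haveI : Nonempty (Fin n) := ⟨⟨0, by omega⟩⟩
  have hq2 : 2 ≤ Fintype.card F := Fintype.one_lt_card
  set q := Fintype.card F with hq
  let s := r.minFac
  have hs : s.Prime := Nat.minFac_prime (by omega)
  have hsr : s ∣ r := Nat.minFac_dvd r
  have hs1 : 1 < s := hs.one_lt
  have hslt : s < r := by
    refine lt_of_le_of_ne (Nat.le_of_dvd (by omega) hsr) fun h => hrp ?_
    rw [← h]
    exact hs
  obtain ⟨L, hL⟩ := exists_fix K hK.comm s
  have hLK : L ≤ K := fun x hx => ((hL x).1 hx).1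
  obtain ⟨w, hwK, hw⟩ := exists_gen K hK.comm hK.inv
  rw [hK.finrank_eq, ← hq] at hw
  have hqs : q ^ s < q ^ r := Nat.pow_lt_pow_right (by omega) hslt
  have hq2s : q < q ^ s := by
    calc q = q ^ 1 := (pow_one q).symm
      _ < q ^ s := Nat.pow_lt_pow_right (by omega) hs1
  -- `w ∉ L`
  have h1 : ∃ k ∈ K, k ∉ L := by
    refine ⟨w, hwK, fun hwL => ?_⟩
    have h2 : w ^ (q ^ s) = w ^ 1 := by
      rw [pow_one]
      exact ((hL w).1 hwL).2
    have h3 := (hw _ _).1 h2
    have h4 := (Nat.modEq_iff_dvd' (by omega)).1 h3.symm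
    have := Nat.le_of_dvd (by omega) h4
    omega
  -- an element of `L` outside the scalars
  have hdvd : q ^ s - 1 ∣ q ^ r - 1 := by
    exact Nat.pow_sub_one_dvd_pow_sub_one q hsr
  obtain ⟨d, hd⟩ := hdvd
  have hdpos : 0 < d := by
    rcases Nat.eq_zero_or_pos d with h | h
    · rw [h, mul_zero] at hd
      omega
    · exact h
  have hwB : w ^ (q ^ r - 1) = 1 := by
    have : w ^ (q ^ r - 1) = w ^ 0 := (hw _ _).2 (by simp [Nat.ModEq])
    simpa using this
  have h2 : ∃ k ∈ L, k ∉ (⊥ : Subalgebra F (Matrix (Fin n) (Fin n) F)) := by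
    refine ⟨w ^ d, (hL _).2 ⟨K.pow_mem hwK d, ?_⟩, ?_⟩
    · rw [← pow_mul]
      have h3 : d * q ^ s = (q ^ r - 1) + d := by
        rw [hd]
        have : q ^ s = (q ^ s - 1) + 1 := by omega
        calc d * q ^ s = d * ((q ^ s - 1) + 1) := by rw [← this]
          _ = _ := by ring
      rw [h3, pow_add, hwB, one_mul]
    · intro hbot
      obtain ⟨c, hc⟩ := Algebra.mem_bot.1 hbot
      have h3 : (w ^ d) ^ q = w ^ d := by
        rw [← hc, ← map_pow, FiniteField.pow_card]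
      rw [← pow_mul] at h3
      have h4 := (hw _ _).1 h3
      have h5 := (Nat.modEq_iff_dvd' (by nlinarith)).1 h4.symm
      rw [hd] at h5
      have h6 : d * q - d = d * (q - 1) := by
        rw [Nat.mul_sub, mul_one]
      rw [h6] at h5
      rw [mul_comm d (q - 1)] at h5
      have h7 := Nat.dvd_of_mul_dvd_mul_right hdpos h5
      have := Nat.le_of_dvd (by omega) h7
      omega
  have hLcomm : ∀ x ∈ L, ∀ y ∈ L, x * y = y * x := fun x hx y hy => hK.comm x (hLK hx) y (hLK hy)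
  have hLinv : ∀ x ∈ L, x ≠ 0 → ∃ y ∈ L, x * y = 1 := by
    intro x hx hx0
    obtain ⟨y, hy, hxy⟩ := hK.inv x (hLK hx) hx0
    refine ⟨y, (hL y).2 ⟨hy, ?_⟩, hxy⟩
    have hxm := ((hL x).1 hx).2
    have hc : Commute x y := hK.comm x (hLK hx) y hy
    have h3 : x * y ^ (q ^ s) = 1 := by
      have := congrArg (fun z => z ^ (q ^ s)) hxy
      simp only [one_pow] at this
      rwa [hc.mul_pow, hxm] at this
    have hyx : y * x = 1 := by rw [← hc.eq, hxy]
    calc y ^ (q ^ s) = (y * x) * y ^ (q ^ s) := by rw [hyx, one_mul]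
      _ = y * (x * y ^ (q ^ s)) := mul_assoc _ _ _
      _ = y := by rw [h3, mul_one]
  have hcard : Fintype.card (Fin n) = n := Fintype.card_fin n
  -- the two transvections
  obtain ⟨t, htS, htL, htK⟩ := exists_transv L K hLK hK.comm hK.inv hLinv h1
    (by rw [hK.finrank_eq, hcard]; exact hlt)
  have hfL : Module.finrank F L ≤ Module.finrank F K := by
    exact LinearMap.finrank_le_finrank_of_injective
      (f := (Subalgebra.inclusion hLK).toLinearMap) (Subalgebra.inclusion_injective hLK)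
  have hbotinv : ∀ x ∈ (⊥ : Subalgebra F (Matrix (Fin n) (Fin n) F)), x ≠ 0 →
      ∃ y ∈ (⊥ : Subalgebra F (Matrix (Fin n) (Fin n) F)), x * y = 1 := by
    intro x hx hx0
    obtain ⟨c, rfl⟩ := Algebra.mem_bot.1 hx
    have hc : c ≠ 0 := by
      rintro rfl
      exact hx0 (map_zero _)
    refine ⟨algebraMap F _ c⁻¹, Algebra.mem_bot.2 ⟨_, rfl⟩, ?_⟩
    rw [← map_mul, mul_inv_cancel₀ hc, map_one]
  obtain ⟨τ, hτS, -, hτL⟩ := exists_transv ⊥ L bot_le hLcomm hLinv hbotinv h2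
    (by rw [hcard]; rw [hK.finrank_eq] at hfL; omega)
  have hNN := normalizer_le hL
  constructor
  · intro hco
    have hlt : Cfsg.Geo.subalgebraNormalizer K < Cfsg.Geo.subalgebraNormalizer L :=
      lt_of_le_of_ne hNN fun h => htK (by rw [h]; exact htL)
    have := hco.2 _ hlt
    exact hτL (by rw [this]; exact Subgroup.mem_top _)
  · rintro ⟨-, hmax⟩
    rcases hmax (Cfsg.Geo.subalgebraNormalizer L ⊓ Cfsg.Geo.specialLinear (Fin n) F)
      (inf_le_inf_right _ hNN) inf_le_right with h | h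
    · have : t ∈ Cfsg.Geo.subalgebraNormalizer K ⊓ Cfsg.Geo.specialLinear (Fin n) F := by
        rw [← h]
        exact ⟨htL, htS⟩
      exact htK this.1
    · have : τ ∈ Cfsg.Geo.subalgebraNormalizer L ⊓ Cfsg.Geo.specialLinear (Fin n) F := by
        rw [h]
        exact hτS
      exact hτL this.1

end Cfsg.Agent.S5887
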