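import Cfsg.Statements.S5891
import Mathlib
import Cfsg.Agent.Lib.Classical.Dick.Pgl5

set_option autoImplicit false
open Cfsg

namespace Cfsg.Agent.S5891

open Cfsg.Agent.Lib.Classical.Dick Cfsg.Agent.Lib.KS2.SL2 in

/-- Let F be a finite field of odd order q > 3 and characteristic p, and let M be a maximal subgroup of PGL₂(F) not containing the image L of SL₂(F) (a copy of PSL₂(F) of index 2). Then one of the following holds: |M| = q(q − 1) (M is the stabiliser of a point of the projective line); q ≠ 5 and M is dihedral of order 2(q − 1); M is dihedral of order 2(q + 1); q = p ≡ ±3 (mod 8) and M ≅ S₄; or q = q₀^r for an odd prime r and M ≅ PGL₂(F₀) with |F₀| = q₀. -/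
theorem result {F : Type*} [Field F] [Fintype F]
    (hodd : Odd (Fintype.card F)) (h3 : 3 < Fintype.card F) (M : Subgroup (Matrix.ProjGenLinGroup (Fin 2) F)) (hM : IsCoatom M)
    (hML : ¬ (Matrix.ProjGenLinGroup.mk.comp Matrix.SpecialLinearGroup.toGL).range ≤ M) :
    Nat.card M = Fintype.card F * (Fintype.card F - 1) ∨
    (Fintype.card F ≠ 5 ∧ Nonempty (M ≃* DihedralGroup (Fintype.card F - 1))) ∨
    Nonempty (M ≃* DihedralGroup (Fintype.card F + 1)) ∨
    ((Fintype.card F).Prime ∧ (Fintype.card F % 8 = 3 ∨ Fintype.card F % 8 = 5) ∧ Nonempty (M ≃* Equiv.Perm (Fin 4))) ∨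
    (∃ (F₀ : Type) (_ : Field F₀) (_ : Fintype F₀) (r : ℕ), r.Prime ∧ Odd r ∧ Fintype.card F = Fintype.card F₀ ^ r ∧
        Nonempty (M ≃* Matrix.ProjGenLinGroup (Fin 2) F₀)) := by
  classical
  obtain ⟨p, hp⟩ := CharP.exists F
  haveI : Fact p.Prime := ⟨CharP.char_is_prime F p⟩
  have h2 := two_ne_zero_of_odd_card F hodd
  have hch : ringChar F ≠ 2 := by
    intro h5
    apply h2
    have h6 := ringChar.Nat.cast_ringChar (R := F)
    rw [h5] at h6
    exact_mod_cast h6
  have hq1 : 1 < Fintype.card F := Fintype.one_lt_card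
  have hqodd : Fintype.card F % 2 = 1 := Nat.odd_iff.mp hodd
  have hcard := two_card_comap h2 hM hML
  rcases pgl2_struct p hodd h3 hM hML with ⟨y, hy1, hτ, he⟩ | ⟨x, hτ, he, h3', ⟨i⟩⟩ | ⟨h1, h8, -, ⟨i⟩⟩ |
    ⟨E₁, f, r, hf, hr, hro, hc, hs, he, F₀, _, _, hF₀, ⟨i⟩⟩
  · left
    have hns : ¬ IsScalar (lf y) := not_scalar_of_ne_one (by rwa [pi_lf])
    have h5 := card_normalizer_unip (lf y) hns hτ
    rw [pi_lf, ← he, card_roots1_odd hch, ← hcard] at h5
    rw [h5, mul_comm]
  · have hgcd : Nat.gcd 2 (Fintype.card F - 1) = 2 := by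
      apply Nat.gcd_eq_left
      omega
    rcases (CP_ss x hτ).2 with h | h
    · right; left
      rw [hgcd] at h
      have h5 : Nat.card (CP (pi x)) = (Fintype.card F - 1) / 2 := h
      have h6 : 2 * Nat.card (CP (pi x)) = Fintype.card F - 1 := by omega
      rw [h6] at i
      exact ⟨by omega, ⟨i⟩⟩
    · right; right; left
      rw [hgcd] at h
      have h5 : Nat.card (CP (pi x)) = (Fintype.card F + 1) / 2 := h
      have h6 : 2 * Nat.card (CP (pi x)) = Fintype.card F + 1 := by omega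
      rw [h6] at i
      exact ⟨i⟩
  · right; right; right; left
    rw [h1]
    exact ⟨Fact.out, h8, ⟨i⟩⟩
  · right; right; right; right
    exact ⟨F₀, _, _, r, hr, hro, by rw [hF₀, hc], ⟨i⟩⟩

end Cfsg.Agent.S5891
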