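import Cfsg.Statements.S5893
import Mathlib
import Cfsg.Agent.Lib.Classical.Dick.Coat3

set_option autoImplicit false
open Cfsg

namespace Cfsg.Agent.S5893

open Cfsg.Agent.Lib.Classical.Dick

open Cfsg.Agent.Lib.KS2.SL2 in
private theorem good_branch {F : Type*} [Field F] [Fintype F] (hch : ringChar F = 2)
    (M : Subgroup (Matrix.ProjectiveSpecialLinearGroup (Fin 2) F)) (hM : IsCoatom M) (s : ℕ) (hs : 4 ≤ s) (hG : Good M s) :
    ∃ (F₀ : Type) (_ : Field F₀) (_ : Fintype F₀) (r : ℕ), r.Prime ∧ Fintype.card F₀ ≠ 2 ∧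
        Fintype.card F = Fintype.card F₀ ^ r ∧ Nonempty (M ≃* Matrix.ProjectiveSpecialLinearGroup (Fin 2) F₀) := by
  classical
  obtain ⟨-, -, htop⟩ := good_facts hG
  obtain ⟨E, f, hE, -, hu, hl, -, hiso⟩ := hG
  haveI : Fintype E := Fintype.ofFinite _
  haveI : CharP F 2 := by
    rw [← hch]
    exact ringChar.charP F
  haveI : CharP E 2 := RingHom.charP E.subtype E.subtype.injective 2
  have hEch : ringChar E = 2 := ringChar.eq E 2
  have hcPSL : Nat.card (Matrix.ProjectiveSpecialLinearGroup (Fin 2) E) = Nat.card E * (Nat.card E ^ 2 - 1) := by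
    have := card_PSL2' E
    rw [card_roots1_two hEch, one_mul, ← Nat.card_eq_fintype_card] at this
    exact this
  have hcPGL : Nat.card (Matrix.ProjGenLinGroup (Fin 2) E) = Nat.card E * (Nat.card E ^ 2 - 1) := by
    have := card_PGL2 E
    rw [← Nat.card_eq_fintype_card] at this
    exact this
  have hc : Nat.card M ≤ Nat.card (Matrix.ProjectiveSpecialLinearGroup (Fin 2) E) := by
    rcases hiso with (⟨⟨i⟩⟩ | ⟨⟨i⟩⟩)
    · rw [Nat.card_congr i.toEquiv]
    · rw [Nat.card_congr i.toEquiv, hcPGL, hcPSL]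
  obtain ⟨-, ⟨i⟩⟩ := good_iso_psl M E f hu hl hc
  have hm : Nat.card E ^ Module.finrank E F = Fintype.card F := by
    rw [Nat.card_eq_fintype_card]
    exact (Module.card_eq_pow_finrank (K := E) (V := F)).symm
  set m := Module.finrank E F with hmdef
  have hm1 : m ≠ 1 := by
    intro h
    rw [h, pow_one] at hm
    exact hM.1 (htop (by rw [← hE, hm]))
  have hm0 : m ≠ 0 := Module.finrank_pos.ne'
  have hprime : m.Prime := by
    by_contra hnp
    obtain ⟨a, b, ha, hb, hab⟩ := exists_mul_of_not_prime m (by omega) hnp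
    exact good_composite M hM E f hu hl hc (by omega) a b ha hb (by rw [hab, hm])
  obtain ⟨K, _, _, ⟨r⟩⟩ := exists_type0_copy E
  have hKc : Fintype.card K = s := by
    rw [← Fintype.card_congr r.toEquiv, ← Nat.card_eq_fintype_card, hE]
  refine ⟨K, inferInstance, inferInstance, m, hprime, by omega, ?_, ⟨i.trans (Cfsg.Agent.Lib.Classical.RC.pslCongr r)⟩⟩
  rw [hKc, ← hE, hm]

open Cfsg.Agent.Lib.KS2.SL2 in
private theorem main_aux {F : Type*} [Field F] [Fintype F]
    (heven : Even (Fintype.card F)) (h4 : 4 ≤ Fintype.card F) (M : Subgroup (Matrix.ProjectiveSpecialLinearGroup (Fin 2) F)) (hM : IsCoatom M) :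
    Nat.card M = Fintype.card F * (Fintype.card F - 1) ∨
    Nonempty (M ≃* DihedralGroup (Fintype.card F - 1)) ∨
    Nonempty (M ≃* DihedralGroup (Fintype.card F + 1)) ∨
    (∃ (F₀ : Type) (_ : Field F₀) (_ : Fintype F₀) (r : ℕ), r.Prime ∧ Fintype.card F₀ ≠ 2 ∧
        Fintype.card F = Fintype.card F₀ ^ r ∧ Nonempty (M ≃* Matrix.ProjectiveSpecialLinearGroup (Fin 2) F₀)) := by
  classical
  haveI : Fact (Nat.Prime 2) := ⟨Nat.prime_two⟩
  obtain ⟨p, hp⟩ := CharP.exists F
  haveI : Fact p.Prime := ⟨CharP.char_is_prime F p⟩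
  have hp2 : p = 2 := by
    obtain ⟨n, -, hn⟩ := FiniteField.card F p
    have h2 : 2 ∣ p ^ (n : ℕ) := by
      rw [← hn]
      exact heven.two_dvd
    exact ((Nat.prime_dvd_prime_iff_eq Nat.prime_two Fact.out).mp (Nat.prime_two.dvd_of_dvd_pow h2)).symm
  subst hp2
  have hch : ringChar F = 2 := ringChar.eq F 2
  have hg : Nat.gcd 2 (Fintype.card F - 1) = 1 := by
    have h6 : Nat.Coprime 2 (Fintype.card F - 1) := (Nat.Prime.coprime_iff_not_dvd Nat.prime_two).mpr (by
      obtain ⟨u, hu⟩ := heven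
      omega)
    exact h6
  have hq : 1 < Fintype.card F := Fintype.one_lt_card
  have hBorel : Nat.card (Roots1 F) * Nat.card M = (Fintype.card F - 1) * Fintype.card F →
      Nat.card M = Fintype.card F * (Fintype.card F - 1) := by
    intro h
    rw [card_roots1_two hch, one_mul] at h
    rw [h, mul_comm]
  rcases coatom_cases h4 2 M hM with h | ⟨x, hτ, e⟩ | ⟨⟨i⟩⟩ | ⟨⟨i⟩⟩ | ⟨⟨i⟩⟩ | ⟨S, hS4, hS⟩
  · exact Or.inl (hBorel h)
  · right
    obtain ⟨j⟩ := normalizer_dihedral x hτ
    rcases (CP_ss x hτ).2 with h | h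
    · left
      rw [hg, Nat.div_one] at h
      rw [h] at j
      rw [e]
      exact ⟨j⟩
    · right; left
      rw [hg, Nat.div_one] at h
      rw [h] at j
      rw [e]
      exact ⟨j⟩
  · obtain ⟨Q, hQ⟩ := exists_normalizer_of_A4 M i
    exact Or.inl (hBorel (borel_coatom 2 M hM Q hQ))
  · exfalso
    have h1 := sq_mod_of_S4 M i
    obtain ⟨u, hu⟩ := heven
    rw [hu] at h1
    have e2 : (u + u) ^ 2 = 2 * (2 * u ^ 2) := by ring
    rw [e2] at h1
    omega
  · right; right; right
    obtain ⟨S⟩ : Nonempty (Sylow 2 M) := inferInstance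
    have hc60 : Nat.card M = 60 := by rw [Nat.card_congr i.toEquiv, card_A5]
    have hS4 : Nat.card (S : Subgroup M) = 4 := by
      rw [Sylow.card_eq_multiplicity, hc60]
      have : (60 : ℕ) = 2 ^ 2 * 15 := by norm_num
      rw [this, Nat.factorization_mul (by norm_num) (by norm_num), Nat.Prime.factorization_pow Nat.prime_two]
      have h3 : (15 : ℕ).factorization 2 = 0 := Nat.factorization_eq_zero_of_not_dvd (by norm_num)
      simp [h3]
    exact good_branch hch M hM _ (by omega) (good_of_A5 2 M i S (by omega))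
  · right; right; right
    exact good_branch hch M hM _ hS4 hS

/-- Let F be a finite field of even order q ≥ 4 and let M be a maximal subgroup of PSL₂(F) (= SL₂(F) = PGL₂(F)). Then one of the following holds: |M| = q(q − 1) (the stabiliser of a point of the projective line, elementary abelian of order q extended by a cyclic group of order q − 1); M is dihedral of order 2(q − 1); M is dihedral of order 2(q + 1); or q = q₀^r for a prime r with q₀ ≠ 2 and M ≅ PSL₂(F₀) with |F₀| = q₀. -/
theorem result {F : Type*} [Field F] [Fintype F]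
    (heven : Even (Fintype.card F)) (h4 : 4 ≤ Fintype.card F) (M : Subgroup (Matrix.ProjectiveSpecialLinearGroup (Fin 2) F)) (hM : IsCoatom M) :
    Nat.card M = Fintype.card F * (Fintype.card F - 1) ∨
    Nonempty (M ≃* DihedralGroup (Fintype.card F - 1)) ∨
    Nonempty (M ≃* DihedralGroup (Fintype.card F + 1)) ∨
    (∃ (F₀ : Type) (_ : Field F₀) (_ : Fintype F₀) (r : ℕ), r.Prime ∧ Fintype.card F₀ ≠ 2 ∧
        Fintype.card F = Fintype.card F₀ ^ r ∧ Nonempty (M ≃* Matrix.ProjectiveSpecialLinearGroup (Fin 2) F₀)) := by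
  exact main_aux heven h4 M hM

end Cfsg.Agent.S5893
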