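import Cfsg.Statements.S5894
import Mathlib
import Cfsg.Agent.Lib.Geo.Partition

set_option autoImplicit false

namespace Cfsg.Agent.S5894

open Equiv Equiv.Perm MulAction Cfsg.Agent.Lib.Geo
open scoped Pointwise

theorem mem_stab_iff {α : Type*} {s : Set α} {g : Equiv.Perm α} :
    g ∈ stabilizer (Equiv.Perm α) s ↔ ∀ x, g x ∈ s ↔ x ∈ s := by
  rw [MulAction.mem_stabilizer_iff]
  constructor
  · intro h x
    have := Set.smul_mem_smul_set_iff (a := g) (x := x) (s := s)
    rw [h] at this
    exact this
  · intro h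
    ext x
    rw [Set.mem_smul_set_iff_inv_smul_mem]
    have := h (g⁻¹ x)
    simpa using this.symm

/-- The subgroup of permutations fixing `x₀` is the range of `ofSubtype`. -/
noncomputable def stabEquiv {α : Type*} [DecidableEq α] (x₀ : α) :
    Equiv.Perm {x // x ≠ x₀} ≃* stabilizer (Equiv.Perm α) x₀ := by
  have hrange : (ofSubtype : Equiv.Perm {x // x ≠ x₀} →* Equiv.Perm α).range
      = stabilizer (Equiv.Perm α) x₀ := by
    ext g
    rw [MonoidHom.mem_range, MulAction.mem_stabilizer_iff]
    constructor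
    · rintro ⟨σ, rfl⟩
      exact ofSubtype_apply_of_not_mem σ (by simp)
    · intro hg
      have hg' : g x₀ = x₀ := hg
      have h1 : ∀ x, x ≠ x₀ → g x ≠ x₀ := by
        intro x hx h
        exact hx (g.injective (h.trans hg'.symm))
      have h2 : ∀ x, x ≠ x₀ → g⁻¹ x ≠ x₀ := by
        intro x hx h
        apply hx
        have := congrArg g h
        simpa [hg'] using this
      refine ⟨⟨fun x => ⟨g x, h1 x x.2⟩, fun x => ⟨g⁻¹ x, h2 x x.2⟩, fun x => by simp,
        fun x => by simp⟩, ?_⟩
      ext x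
      by_cases hx : x = x₀
      · subst hx
        rw [ofSubtype_apply_of_not_mem _ (by simp)]
        exact hg'.symm
      · rw [ofSubtype_apply_of_mem (p := fun x => x ≠ x₀) _ hx]
        rfl
  exact (MonoidHom.ofInjective ofSubtype_injective).trans (MulEquiv.subgroupCongr hrange)

theorem stabEquiv_apply {α : Type*} [DecidableEq α] (x₀ : α) (σ : Equiv.Perm {x // x ≠ x₀}) :
    ((stabEquiv x₀ σ : stabilizer (Equiv.Perm α) x₀) : Equiv.Perm α) = ofSubtype σ := rfl

theorem result (m : ℕ) (hm : 2 ≤ m) :
    ∃ M H K : Subgroup (Equiv.Perm (Fin (2 * m))), IsCoatom M ∧ M.index = 2 * m ∧ H ≤ M ∧ IsCoatom (H.subgroupOf M) ∧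
      IsCoatom K ∧ H ≤ K ∧ ¬ IsCoatom (H.subgroupOf K) := by
  classical
  let Ω := Fin (2 * m)
  let x₀ : Ω := ⟨0, by omega⟩
  let x₁ : Ω := ⟨1, by omega⟩
  let x₂ : Ω := ⟨m, by omega⟩
  let A : Set Ω := {x | x.val < m}
  let f : Ω → Fin 2 := fun x => if x.val < m then 0 else 1
  have hfA : ∀ x, x ∈ A ↔ f x = 0 := by
    intro x
    simp only [f, A, Set.mem_setOf_eq]
    split_ifs with h <;> simp [h]
  have hfA' : ∀ x, x ∉ A ↔ f x = 1 := by
    intro x
    simp only [f, A, Set.mem_setOf_eq]
    split_ifs with h <;> simp [h]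
  have hf : ∀ i : Fin 2, Nat.card {x : Ω // f x = i} = m := by
    intro i
    rw [← Nat.card_fin m]
    fin_cases i
    · apply Nat.card_congr
      refine ⟨fun x => ⟨x.1.val, ?_⟩, fun y => ⟨⟨y.val, by omega⟩, ?_⟩, fun x => ?_, fun y => ?_⟩
      · have := x.2
        by_contra h
        simp [f, h] at this
      · simp [f]
      · rfl
      · rfl
    · apply Nat.card_congr
      refine ⟨fun x => ⟨x.1.val - m, ?_⟩, fun y => ⟨⟨y.val + m, by omega⟩, ?_⟩, fun x => ?_, fun y => ?_⟩
      · have := x.2
        have h2 := x.1.2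
        by_cases h : x.1.val < m
        · simp [f, h] at this
        · omega
      · simp [f]
      · have := x.2
        by_cases h : x.1.val < m
        · simp [f, h] at this
        · apply Subtype.ext
          apply Fin.ext
          simp only
          omega
      · apply Fin.ext
        simp
  let M : Subgroup (Equiv.Perm Ω) := stabilizer (Equiv.Perm Ω) x₀
  let L : Subgroup (Equiv.Perm Ω) := stabilizer (Equiv.Perm Ω) A
  let K : Subgroup (Equiv.Perm Ω) := partStab f
  let H : Subgroup (Equiv.Perm Ω) := M ⊓ L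
  have hKco : IsCoatom K := isCoatom_partStab m hm (by norm_num) f hf
  have hLK : L ≤ K := by
    intro g hg
    have hg' := mem_stab_iff.1 hg
    have hgf : ∀ x, f (g x) = f x := by
      intro x
      by_cases hx : x ∈ A
      · rw [(hfA x).1 hx, (hfA _).1 ((hg' x).2 hx)]
      · rw [(hfA' x).1 hx, (hfA' _).1 (fun h => hx ((hg' x).1 h))]
    intro x y
    rw [hgf, hgf]
  have hHL : H ≤ L := inf_le_right
  refine ⟨M, H, K, ?_, ?_, inf_le_left, ?_, hKco, hHL.trans hLK, ?_⟩
  · have hcard : Nat.card Ω = 2 * m := by simp [Ω]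
    have hnt : Nontrivial Ω := by
      rw [← Finite.one_lt_card_iff_nontrivial, hcard]; omega
    exact IsPreprimitive.isCoatom_stabilizer_of_isPreprimitive (Equiv.Perm Ω) x₀
  · rw [MulAction.index_stabilizer, MulAction.orbit_eq_univ]
    simp [Ω]
  · have hsco : IsCoatom (stabilizer (Equiv.Perm {x : Ω // x ≠ x₀}) {y : {x : Ω // x ≠ x₀} | y.1 ∈ A}) := by
      apply Equiv.Perm.isCoatom_stabilizer
      · refine ⟨⟨x₁, fun h => ?_⟩, ?_⟩
        · have := congrArg Fin.val h
          simp [x₀, x₁] at this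
        · show x₁.val < m
          simp only [x₁]
          omega
      · refine ⟨⟨x₂, fun h => ?_⟩, ?_⟩
        · have := congrArg Fin.val h
          simp only [x₀, x₂] at this
          omega
        · show ¬ (x₂.val < m)
          simp [x₂]
      · have : Nat.card {x : Ω // x ≠ x₀} = 2 * m - 1 := by
          simp [Nat.card_eq_fintype_card, Fintype.card_subtype_compl, Ω]
        rw [this]
        omega
    have hmap : (stabEquiv x₀).mapSubgroup (stabilizer (Equiv.Perm {x : Ω // x ≠ x₀}) {y : {x : Ω // x ≠ x₀} | y.1 ∈ A})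
        = H.subgroupOf M := by
      ext ⟨g, hg⟩
      have hg0 : g x₀ = x₀ := hg
      have key : ∀ σ : Equiv.Perm {x : Ω // x ≠ x₀}, ((stabEquiv x₀ σ : M) : Equiv.Perm Ω) = g →
          (σ ∈ stabilizer (Equiv.Perm {x : Ω // x ≠ x₀}) {y : {x : Ω // x ≠ x₀} | y.1 ∈ A} ↔ g ∈ L) := by
        intro σ hσ
        rw [mem_stab_iff, mem_stab_iff]
        constructor
        · intro h x
          by_cases hx : x = x₀
          · subst hx; rw [hg0]
          · have := h ⟨x, hx⟩
            rw [← hσ, stabEquiv_apply, ofSubtype_apply_of_mem (p := fun x => x ≠ x₀) _ hx]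
            exact this
        · intro h y
          have := h y.1
          rw [← hσ, stabEquiv_apply, ofSubtype_apply_of_mem (p := fun x => x ≠ x₀) _ y.2] at this
          exact this
      constructor
      · rintro ⟨σ, hσ, hσg⟩
        have h1 : ((stabEquiv x₀ σ : M) : Equiv.Perm Ω) = g := congrArg Subtype.val hσg
        have h2 := (key σ h1).1 hσ
        exact ⟨hg, h2⟩
      · intro hmem
        have h2 : g ∈ L := inf_le_right (a := M) (b := L) hmem
        let σ := (stabEquiv x₀).symm ⟨g, hg⟩
        have h1 : stabEquiv x₀ σ = ⟨g, hg⟩ := (stabEquiv x₀).apply_symm_apply _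
        refine ⟨σ, (key σ (congrArg Subtype.val h1)).2 h2, h1⟩
    rw [← hmap]
    exact (OrderIso.isCoatom_iff _ _).2 hsco
  · intro hco
    have hle : H.subgroupOf K ≤ L.subgroupOf K := fun x hx => hHL hx
    have hne : H.subgroupOf K ≠ L.subgroupOf K := by
      intro heq
      have hsw : Equiv.swap x₀ x₁ ∈ L := by
        rw [mem_stab_iff]
        intro x
        have hx0 : x₀ ∈ A := by
          show x₀.val < m
          simp only [x₀]
          omega
        have hx1 : x₁ ∈ A := by
          show x₁.val < m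
          simp only [x₁]
          omega
        by_cases h1 : x = x₀
        · subst h1; rw [Equiv.swap_apply_left]; exact ⟨fun _ => hx0, fun _ => hx1⟩
        by_cases h2 : x = x₁
        · subst h2; rw [Equiv.swap_apply_right]; exact ⟨fun _ => hx1, fun _ => hx0⟩
        rw [Equiv.swap_apply_of_ne_of_ne h1 h2]
      have hswK : Equiv.swap x₀ x₁ ∈ K := hLK hsw
      have h1 : (⟨Equiv.swap x₀ x₁, hswK⟩ : K) ∈ L.subgroupOf K := hsw
      rw [← heq] at h1
      have h2 : Equiv.swap x₀ x₁ ∈ M := inf_le_left (a := M) (b := L) h1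
      have h3 : Equiv.swap x₀ x₁ x₀ = x₀ := h2
      rw [Equiv.swap_apply_left] at h3
      have := congrArg Fin.val h3
      simp [x₀, x₁] at this
    have htop : L.subgroupOf K = ⊤ := by
      rcases hco.le_iff.1 hle with h | h
      · exact h
      · exact absurd h.symm hne
    obtain ⟨h, hhK, hh1, -⟩ := exists_lift m f hf (Equiv.swap 0 1)
    have h4 : (⟨h, hhK⟩ : K) ∈ L.subgroupOf K := by rw [htop]; trivial
    have h5 : h ∈ L := h4
    have h6 := (mem_stab_iff.1 h5) x₀
    have h7 : x₀ ∈ A := by
      show x₀.val < m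
      simp only [x₀]
      omega
    have h8 := (hfA _).1 (h6.2 h7)
    rw [hh1, (hfA _).1 h7] at h8
    simp at h8

end Cfsg.Agent.S5894
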