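import Cfsg.Statements.S5895
import Mathlib
import Cfsg.Agent.Lib.Affine.Closure

set_option autoImplicit false

namespace Cfsg.Agent.S5895

open Cfsg.Agent.Lib.Affine SemidirectProduct

section Lin

variable {K V : Type*} [Field K] [AddCommGroup V] [Module K V] [FiniteDimensional K V]

/-- the stabiliser of a line. -/
def lineStab (w : V) : Subgroup (V ≃ₗ[K] V) where
  carrier := {a | ∀ x, x ∈ Submodule.span K {w} ↔ a x ∈ Submodule.span K {w}}
  one_mem' := fun _ => Iff.rfl
  mul_mem' := by
    intro a b ha hb x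
    rw [hb x, ha (b x)]
    rfl
  inv_mem' := by
    intro a ha x
    have : a (a⁻¹ x) = x := LinearEquiv.apply_symm_apply a x
    rw [ha (a⁻¹ x), this]

theorem mem_lineStab {w : V} {a : V ≃ₗ[K] V} :
    a ∈ lineStab w ↔ ∀ x, x ∈ Submodule.span K {w} ↔ a x ∈ Submodule.span K {w} := Iff.rfl

theorem mem_lineStab_of {w : V} (hw : w ≠ 0) {a : V ≃ₗ[K] V} (h : a w ∈ Submodule.span K {w}) :
    a ∈ lineStab w := by
  obtain ⟨c, hc⟩ := Submodule.mem_span_singleton.1 h
  have hc0 : c ≠ 0 := by
    rintro rfl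
    rw [zero_smul] at hc
    exact hw (a.injective (by rw [← hc, map_zero]))
  intro x
  constructor
  · intro hx
    obtain ⟨t, rfl⟩ := Submodule.mem_span_singleton.1 hx
    rw [map_smul, ← hc, smul_smul]
    exact Submodule.smul_mem _ _ (Submodule.mem_span_singleton_self w)
  · intro hx
    obtain ⟨t, ht⟩ := Submodule.mem_span_singleton.1 hx
    have : x = (t * c⁻¹) • w := by
      apply a.injective
      rw [← ht, map_smul, ← hc, smul_smul, mul_assoc, inv_mul_cancel₀ hc0, mul_one]
    rw [this]
    exact Submodule.smul_mem _ _ (Submodule.mem_span_singleton_self w)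

theorem exists_single {u u' : V} (hu : u ≠ 0) (hu' : u' ≠ 0) : ∃ a : V ≃ₗ[K] V, a u = u' := by
  obtain ⟨a, ha⟩ := exists_equiv_of_li (K := K) (fun _ : Unit => u) (fun _ : Unit => u')
    (LinearIndependent.of_subsingleton () (by simpa using hu))
    (LinearIndependent.of_subsingleton () (by simpa using hu'))
  exact ⟨a, ha ()⟩

theorem exists_pair {w x y : V} (hw : w ≠ 0) (hx : x ∉ Submodule.span K {w})
    (hy : y ∉ Submodule.span K {w}) : ∃ a : V ≃ₗ[K] V, a w = w ∧ a x = y := by
  have h1 : LinearIndependent K ![w, x] := by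
    rw [LinearIndependent.pair_iff' hw]
    intro c hc
    exact hx (hc ▸ Submodule.smul_mem _ _ (Submodule.mem_span_singleton_self w))
  have h2 : LinearIndependent K ![w, y] := by
    rw [LinearIndependent.pair_iff' hw]
    intro c hc
    exact hy (hc ▸ Submodule.smul_mem _ _ (Submodule.mem_span_singleton_self w))
  obtain ⟨a, ha⟩ := exists_equiv_of_li (K := K) _ _ h1 h2
  exact ⟨a, by simpa using ha 0, by simpa using ha 1⟩

theorem lineStab_coatom {w v : V} (hw : w ≠ 0) (hv : v ∉ Submodule.span K {w}) :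
    IsCoatom (lineStab (K := K) w) := by
  have hv0 : v ≠ 0 := fun h => hv (h ▸ Submodule.zero_mem _)
  refine ⟨?_, fun L hL => ?_⟩
  · intro htop
    obtain ⟨a, ha⟩ := exists_single (K := K) hw hv0
    have h1 : a ∈ lineStab (K := K) w := by
      rw [htop]
      exact Subgroup.mem_top _
    exact hv (ha ▸ (h1 w).1 (Submodule.mem_span_singleton_self w))
  -- an element of `L` moving `w` out of the line
  obtain ⟨g, hgL, hg⟩ : ∃ g ∈ L, g w ∉ Submodule.span K {w} := by
    obtain ⟨g, hgL, hgS⟩ := SetLike.exists_of_lt hL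
    by_contra hcon
    push Not at hcon
    apply hgS
    have h1 := hcon g hgL
    exact mem_lineStab_of hw h1
  rw [eq_top_iff]
  intro h _
  by_cases hh : h w ∈ Submodule.span K {w}
  · exact hL.le (mem_lineStab_of hw hh)
  obtain ⟨a, ha1, ha2⟩ := exists_pair hw hg hh
  have ha : a ∈ L := hL.le (mem_lineStab_of hw (by rw [ha1]; exact Submodule.mem_span_singleton_self w))
  have h2 : (a * g)⁻¹ * h ∈ lineStab (K := K) w := by
    apply mem_lineStab_of hw
    have : ((a * g)⁻¹ * h) w = w := by
      have h3 : (a * g) w = h w := ha2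
      show (a * g)⁻¹ (h w) = w
      rw [← h3]
      exact LinearEquiv.symm_apply_apply (a * g) w
    rw [this]
    exact Submodule.mem_span_singleton_self w
  have h4 := L.mul_mem (L.mul_mem ha hgL) (hL.le h2)
  rwa [mul_inv_cancel_left] at h4

end Lin

section Main

variable (p d : ℕ) [Fact p.Prime]

/-- the vector space. -/
abbrev VV : Type := Fin d → ZMod p

/-- the linear group. -/
abbrev AA : Type := VV p d ≃ₗ[ZMod p] VV p d

/-- the action on the additive group, written multiplicatively. -/
def act : AA p d →* MulAut (Multiplicative (VV p d)) where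
  toFun a :=
    { toFun := fun x => Multiplicative.ofAdd (a x.toAdd)
      invFun := fun x => Multiplicative.ofAdd (a.symm x.toAdd)
      left_inv := fun x => by simp
      right_inv := fun x => by simp
      map_mul' := fun x y => by simp }
  map_one' := by
    ext x
    rfl
  map_mul' a b := by
    ext x
    rfl

/-- the affine group. -/
abbrev GG : Type := Multiplicative (VV p d) ⋊[act p d] AA p d

variable {p d}

theorem act_apply (a : AA p d) (x : Multiplicative (VV p d)) :
    (act p d a x).toAdd = a x.toAdd := rfl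

instance finite_AA : Finite (AA p d) :=
  Finite.of_injective (fun a : AA p d => (a : VV p d → VV p d)) DFunLike.coe_injective

instance finite_GG : Finite (GG p d) := Finite.of_equiv _ SemidirectProduct.equivProd.symm

theorem card_V : Nat.card (Multiplicative (VV p d)) = p ^ d := by
  show Nat.card (VV p d) = p ^ d
  rw [Nat.card_eq_fintype_card, Fintype.card_fun, ZMod.card, Fintype.card_fin]

/-- the point stabiliser `GL(V)`. -/
def MM : Subgroup (GG p d) := (inr : AA p d →* GG p d).range

theorem mem_MM {x : GG p d} : x ∈ MM ↔ x.left = 1 := by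
  constructor
  · rintro ⟨a, rfl⟩
    rfl
  · intro h
    refine ⟨x.right, ?_⟩
    ext
    · rw [h]; rfl
    · rfl

theorem MM_coatom (hd : 2 ≤ d) : IsCoatom (MM : Subgroup (GG p d)) := by
  haveI : Nontrivial (VV p d) := by
    haveI : Nonempty (Fin d) := ⟨⟨0, by omega⟩⟩
    infer_instance
  obtain ⟨v, hv⟩ := exists_ne (0 : VV p d)
  refine ⟨?_, fun L hL => ?_⟩
  · intro h
    have : (inl (Multiplicative.ofAdd v) : GG p d) ∈ (MM : Subgroup (GG p d)) := by
      rw [h]
      exact Subgroup.mem_top _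
    rw [mem_MM] at this
    exact hv (Multiplicative.ofAdd.injective this)
  obtain ⟨x, hxL, hxM⟩ := SetLike.exists_of_lt hL
  have hx1 : x.left ≠ 1 := fun h => hxM (mem_MM.2 h)
  have hinr : ∀ a : AA p d, (inr a : GG p d) ∈ L := fun a => hL.le ⟨a, rfl⟩
  have hinl : (inl x.left : GG p d) ∈ L := by
    have h1 := L.mul_mem hxL (L.inv_mem (hinr x.right))
    have h2 : x * (inr x.right)⁻¹ = inl x.left := by
      rw [mul_inv_eq_iff_eq_mul, inl_left_mul_inr_right]
    rwa [h2] at h1
  have hall : ∀ n : Multiplicative (VV p d), (inl n : GG p d) ∈ L := by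
    intro n
    by_cases hn : n = 1
    · rw [hn, map_one]
      exact L.one_mem
    have hu : x.left.toAdd ≠ 0 := hx1
    have hn' : n.toAdd ≠ 0 := hn
    obtain ⟨a, ha⟩ := exists_single (K := ZMod p) hu hn'
    have h3 : act p d a x.left = n := by
      apply Multiplicative.toAdd.injective
      rw [act_apply, ha]
    rw [← h3, inl_aut]
    exact L.mul_mem (L.mul_mem (hinr a) hinl) (hinr _)
  rw [eq_top_iff]
  intro y _
  rw [← inl_left_mul_inr_right y]
  exact L.mul_mem (hall _) (hinr _)

theorem MM_index (hd : 2 ≤ d) : (MM : Subgroup (GG p d)).index = p ^ d := by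
  have h1 := Subgroup.card_mul_index (MM : Subgroup (GG p d))
  have h2 : Nat.card (MM : Subgroup (GG p d)) = Nat.card (AA p d) :=
    Nat.card_congr (MonoidHom.ofInjective (inr_injective (φ := act p d))).toEquiv.symm
  rw [h2, SemidirectProduct.card, card_V, mul_comm (p ^ d)] at h1
  exact Nat.eq_of_mul_eq_mul_left Nat.card_pos h1

/-- the subgroup `W ⋊ S` -/
def TT (w : VV p d) : Subgroup (GG p d) where
  carrier := {x | x.left.toAdd ∈ Submodule.span (ZMod p) {w} ∧ x.right ∈ lineStab (K := ZMod p) w}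
  one_mem' := ⟨Submodule.zero_mem _, Subgroup.one_mem _⟩
  mul_mem' := by
    rintro x y ⟨hx1, hx2⟩ ⟨hy1, hy2⟩
    refine ⟨?_, Subgroup.mul_mem _ hx2 hy2⟩
    exact Submodule.add_mem _ hx1 ((hx2 _).1 hy1)
  inv_mem' := by
    rintro x ⟨hx1, hx2⟩
    refine ⟨?_, Subgroup.inv_mem _ hx2⟩
    have h : x.right⁻¹ ∈ lineStab (K := ZMod p) w := Subgroup.inv_mem _ hx2
    exact (h _).1 (Submodule.neg_mem _ hx1)

end Main

theorem result (p d : ℕ) (hp : p.Prime)
    (hd : 2 ≤ d) :
    ∃ (G : Type) (_ : Group G) (_ : Finite G) (M H K : Subgroup G), IsCoatom M ∧ M.index = p ^ d ∧ H ≤ M ∧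
      IsCoatom (H.subgroupOf M) ∧ IsCoatom K ∧ H ≤ K ∧ ¬ IsCoatom (H.subgroupOf K) := by
  haveI : Fact p.Prime := ⟨hp⟩
  -- the vectors
  let i₀ : Fin d := ⟨0, by omega⟩
  let i₁ : Fin d := ⟨1, by omega⟩
  have hi : i₀ ≠ i₁ := by
    intro h
    have := congrArg Fin.val h
    simp [i₀, i₁] at this
  let w : VV p d := Pi.single i₀ 1
  let v : VV p d := Pi.single i₁ 1
  have hw : w ≠ 0 := by
    intro h
    have := congrFun h i₀
    simp [w] at this
  have hv : v ∉ Submodule.span (ZMod p) {w} := by
    intro h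
    obtain ⟨c, hc⟩ := Submodule.mem_span_singleton.1 h
    have h0 := congrFun hc i₀
    have h1 := congrFun hc i₁
    simp [v, w, hi, Ne.symm hi] at h0 h1
  have hS := lineStab_coatom (K := ZMod p) hw hv
  let S := lineStab (K := ZMod p) w
  let Hh : Subgroup (GG p d) := S.map (inr : AA p d →* GG p d)
  let Kk : Subgroup (GG p d) := S.comap (rightHom : GG p d →* AA p d)
  have hHK : Hh ≤ Kk := by
    rintro _ ⟨a, ha, rfl⟩
    exact ha
  have hHT : Hh ≤ TT w := by
    rintro _ ⟨a, ha, rfl⟩
    exact ⟨Submodule.zero_mem _, ha⟩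
  have hTK : TT w ≤ Kk := fun x hx => hx.2
  refine ⟨GG p d, inferInstance, inferInstance, MM, Hh, Kk, MM_coatom hd, MM_index hd, ?_, ?_, ?_, hHK, ?_⟩
  · rintro _ ⟨a, -, rfl⟩
    exact ⟨a, rfl⟩
  · let e : AA p d ≃* (MM : Subgroup (GG p d)) := MonoidHom.ofInjective inr_injective
    have : Hh.subgroupOf MM = S.map (e : AA p d →* (MM : Subgroup (GG p d))) := by
      ext ⟨x, hx⟩
      rw [Subgroup.mem_subgroupOf, Subgroup.mem_map]
      constructor
      · rintro ⟨a, ha, rfl⟩
        exact ⟨a, ha, rfl⟩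
      · rintro ⟨a, ha, h⟩
        refine ⟨a, ha, ?_⟩
        exact congrArg Subtype.val h
    rw [this]
    exact (OrderIso.isCoatom_iff e.mapSubgroup S).2 hS
  · exact Subgroup.isCoatom_comap_of_surjective rightHom_surjective hS
  · intro hco
    have hw1 : (inl (Multiplicative.ofAdd w) : GG p d) ∈ TT w :=
      ⟨Submodule.mem_span_singleton_self w, Subgroup.one_mem _⟩
    have hv1 : (inl (Multiplicative.ofAdd v) : GG p d) ∈ Kk := by
      show (inl (Multiplicative.ofAdd v) : GG p d).right ∈ S
      exact Subgroup.one_mem _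
    have hlt : Hh.subgroupOf Kk < (TT w).subgroupOf Kk := by
      rw [SetLike.lt_iff_le_and_exists]
      refine ⟨fun x hx => hHT hx, ⟨_, hTK hw1⟩, hw1, ?_⟩
      rintro hmem
      rw [Subgroup.mem_subgroupOf] at hmem
      obtain ⟨a, -, ha⟩ := hmem
      have := congrArg SemidirectProduct.left ha
      exact hw (Multiplicative.ofAdd.injective this.symm)
    have htop := hco.2 _ hlt
    have h3 : (⟨_, hv1⟩ : Kk) ∈ (TT w).subgroupOf Kk := by
      rw [htop]
      exact Subgroup.mem_top _
    rw [Subgroup.mem_subgroupOf] at h3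
    exact hv h3.1


end Cfsg.Agent.S5895
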