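import Cfsg.Statements.S5896
import Mathlib
import Cfsg.Agent.Lib.Char.Burnside
import Cfsg.Agent.Lib.PGroup.Basic

set_option autoImplicit false

namespace Cfsg.Agent.S5896

open SemidirectProduct
open scoped commutatorElement

abbrev A5 : Type := alternatingGroup (Fin 5)

section Perfect

instance : IsSimpleGroup A5 := alternatingGroup.isSimpleGroup (by simp)

theorem commutator_A5 : commutator A5 = ⊤ := by
  rcases IsSimpleGroup.eq_bot_or_eq_top_of_normal (commutator A5) inferInstance with h | h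
  · exfalso
    have hc : ∀ a b : A5, a * b = b * a := by
      intro a b
      have : ⁅a, b⁆ ∈ commutator A5 := Subgroup.commutator_mem_commutator (Subgroup.mem_top a)
        (Subgroup.mem_top b)
      rw [h, Subgroup.mem_bot, commutatorElement_eq_one_iff_mul_comm] at this
      exact this
    have := (hc ⟨Equiv.swap 0 1 * Equiv.swap 0 2, by rw [Equiv.Perm.mem_alternatingGroup]; decide⟩
      ⟨Equiv.swap 0 1 * Equiv.swap 0 3, by rw [Equiv.Perm.mem_alternatingGroup]; decide⟩)
    have h2 := congrArg Subtype.val this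
    revert h2
    decide
  · exact h

theorem derivedSeries_A5 (n : ℕ) : derivedSeries A5 n = ⊤ := by
  induction n with
  | zero => rfl
  | succ n ih =>
    rw [derivedSeries_succ, ih]
    exact commutator_A5

end Perfect

section Wr

variable (S : Type) [Group S]

/-- the coordinate action. -/
def φ : A5 →* MulAut (Fin 5 → S) where
  toFun a :=
    { toFun := fun f i => f ((a⁻¹ : A5).1 i)
      invFun := fun f i => f (a.1 i)
      left_inv := fun f => by
        ext i
        simp
      right_inv := fun f => by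
        ext i
        simp
      map_mul' := fun f g => rfl }
  map_one' := by
    ext f i
    rfl
  map_mul' a b := by
    ext f i
    rfl

abbrev WW : Type := (Fin 5 → S) ⋊[φ S] A5

variable {S}

/-- the coordinate embedding. -/
def sg (i : Fin 5) : S →* WW S := (inl : (Fin 5 → S) →* WW S).comp (MonoidHom.mulSingle (fun _ => S) i)

theorem sg_apply (i : Fin 5) (s : S) : sg i s = inl (Pi.mulSingle i s) := rfl

theorem sg_injective (i : Fin 5) : Function.Injective (sg (S := S) i) := by
  intro s t h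
  have h1 := inl_injective h
  have := congrFun h1 i
  simpa using this

theorem conj_sg (a : A5) (i : Fin 5) (s : S) : inr a * sg i s * (inr a)⁻¹ = sg (a.1 i) s := by
  rw [sg_apply, sg_apply, ← map_inv, ← inl_aut]
  congr 1
  ext j
  show (Pi.mulSingle i s : Fin 5 → S) ((a⁻¹ : A5).1 j) = (Pi.mulSingle (a.1 i) s : Fin 5 → S) j
  by_cases h : j = a.1 i
  · subst h
    simp
  · rw [Pi.mulSingle_eq_of_ne h, Pi.mulSingle_eq_of_ne]
    intro h2
    apply h
    rw [← h2]
    simp

theorem sg_comm {i j : Fin 5} (h : i ≠ j) (s t : S) : sg i s * sg j t = sg j t * sg i s := by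
  rw [sg_apply, sg_apply, ← map_mul, ← map_mul]
  congr 1
  exact (Pi.mulSingle_commute (f := fun _ : Fin 5 => S) h s t)

/-- two opposite coordinates -/
def dd (i j : Fin 5) (s : S) : WW S := sg i s * (sg j s)⁻¹

theorem comm_sg_inr (a : A5) (i : Fin 5) (s : S) : ⁅sg i s, inr a⁆ = dd i (a.1 i) s := by
  rw [commutatorElement_def, dd, mul_assoc, mul_assoc, ← conj_sg a i s]
  simp [mul_assoc]

theorem conj_dd (a : A5) (i j : Fin 5) (s : S) :
    inr a * dd i j s * (inr a)⁻¹ = dd (a.1 i) (a.1 j) s := by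
  rw [dd, dd, ← conj_sg, ← conj_sg]
  simp [mul_assoc]

theorem comm_dd_inr (a : A5) (i j : Fin 5) (s : S) :
    ⁅dd i j s, inr a⁆ = dd i j s * (dd (a.1 i) (a.1 j) s)⁻¹ := by
  rw [commutatorElement_def, mul_assoc, mul_assoc, ← conj_dd a i j s]
  simp [mul_assoc]

/-- the derived subgroup of the wreath product. -/
abbrev NN (S : Type) [Group S] : Subgroup (WW S) := commutator (WW S)

/-- the second derived subgroup -/
abbrev RR (S : Type) [Group S] : Subgroup (WW S) := ⁅NN S, NN S⁆

instance : (RR S).Normal := by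
  show (⁅NN S, NN S⁆ : Subgroup (WW S)).Normal
  infer_instance

theorem inr_mem_R (a : A5) : (inr a : WW S) ∈ RR S := by
  have h1 := map_derivedSeries_le_derivedSeries (inr : A5 →* WW S) 2
  have h2 : derivedSeries (WW S) 2 = RR S := by
    rw [derivedSeries_succ, derivedSeries_one]
  rw [h2, derivedSeries_A5] at h1
  exact h1 ⟨a, Subgroup.mem_top a, rfl⟩

theorem R_le_N : RR S ≤ NN S := Subgroup.commutator_le_left _ _

theorem inr_mem_N (a : A5) : (inr a : WW S) ∈ NN S := R_le_N (inr_mem_R a)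

theorem exists_move : ∀ i j : Fin 5, ∃ a : A5, a.1 i = j := by
  decide

theorem exists_move_fix : ∀ i j k : Fin 5, i ≠ j → i ≠ k → j ≠ k → ∃ a : A5, a.1 k = k ∧ a.1 i = j := by
  decide

theorem exists_third : ∀ i j : Fin 5, ∃ k : Fin 5, k ≠ i ∧ k ≠ j := by
  decide

theorem exists_pair_ne_of : ∀ i : Fin 5, ∃ j k : Fin 5, j ≠ i ∧ k ≠ i ∧ j ≠ k := by
  decide

theorem dd_mem_N (i j : Fin 5) (s : S) : dd i j s ∈ NN S := by
  obtain ⟨a, rfl⟩ := exists_move i j
  rw [← comm_sg_inr]
  exact Subgroup.commutator_mem_commutator (Subgroup.mem_top _) (Subgroup.mem_top _)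

theorem dd_mem_R {i j : Fin 5} (hij : i ≠ j) (s : S) : dd i j s ∈ RR S := by
  obtain ⟨k, hki, hkj⟩ := exists_third i j
  obtain ⟨c, hc1, hc2⟩ := exists_move_fix i j k hij (Ne.symm hki) (Ne.symm hkj)
  have h1 := comm_dd_inr c i k s
  rw [hc1, hc2] at h1
  have h2 : dd i k s * (dd j k s)⁻¹ = dd i j s := by
    simp [dd, mul_assoc]
  rw [← h2, ← h1]
  exact Subgroup.commutator_mem_commutator (dd_mem_N i k s) (inr_mem_N c)

theorem comm_sg_same_mem (i : Fin 5) (s t : S) : ⁅sg i s, sg i t⁆ ∈ RR S := by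
  obtain ⟨j, k, hj, hk, hjk⟩ := exists_pair_ne_of i
  have h : ⁅dd i j s, dd i k t⁆ = ⁅sg i s, sg i t⁆ := by
    have e1 : dd i j s = inl (Pi.mulSingle i s * (Pi.mulSingle j s)⁻¹) := by
      rw [dd, sg_apply, sg_apply, map_mul, map_inv]
    have e2 : dd i k t = inl (Pi.mulSingle i t * (Pi.mulSingle k t)⁻¹) := by
      rw [dd, sg_apply, sg_apply, map_mul, map_inv]
    rw [e1, e2, sg_apply, sg_apply, ← map_commutatorElement, ← map_commutatorElement]
    congr 1
    ext l
    simp only [commutatorElement_def, Pi.mul_apply, Pi.inv_apply]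
    by_cases hl : l = i
    · subst hl
      simp [Pi.mulSingle_eq_of_ne (Ne.symm hj), Pi.mulSingle_eq_of_ne (Ne.symm hk)]
    by_cases hl2 : l = j
    · subst hl2
      simp [Pi.mulSingle_eq_of_ne hl, Pi.mulSingle_eq_of_ne hjk]
    by_cases hl3 : l = k
    · subst hl3
      simp [Pi.mulSingle_eq_of_ne hl, Pi.mulSingle_eq_of_ne (Ne.symm hjk)]
    simp [Pi.mulSingle_eq_of_ne hl, Pi.mulSingle_eq_of_ne hl2, Pi.mulSingle_eq_of_ne hl3]
  rw [← h]
  exact Subgroup.commutator_mem_commutator (dd_mem_N i j s) (dd_mem_N i k t)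

theorem closure_gens :
    Subgroup.closure ({x : WW S | ∃ i s, x = sg i s} ∪ {x : WW S | ∃ a : A5, x = inr a}) = ⊤ := by
  rw [eq_top_iff]
  intro x _
  rw [← inl_left_mul_inr_right x]
  refine Subgroup.mul_mem _ ?_ (Subgroup.subset_closure (Or.inr ⟨_, rfl⟩))
  have hf : x.left = Pi.mulSingle 0 (x.left 0) * Pi.mulSingle 1 (x.left 1) *
      Pi.mulSingle 2 (x.left 2) * Pi.mulSingle 3 (x.left 3) * Pi.mulSingle 4 (x.left 4) := by
    ext i
    fin_cases i <;> simp [Pi.mul_apply, Pi.mulSingle_apply]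
  have hgen : ∀ i : Fin 5, (inl (Pi.mulSingle i (x.left i)) : WW S) ∈ Subgroup.closure
      ({x : WW S | ∃ i s, x = sg i s} ∪ {x : WW S | ∃ a : A5, x = inr a}) := fun i =>
    Subgroup.subset_closure (Or.inl ⟨i, x.left i, rfl⟩)
  rw [hf, map_mul, map_mul, map_mul, map_mul]
  exact Subgroup.mul_mem _ (Subgroup.mul_mem _ (Subgroup.mul_mem _ (Subgroup.mul_mem _ (hgen 0)
    (hgen 1)) (hgen 2)) (hgen 3)) (hgen 4)

theorem gens_comm (x y : WW S)
    (hx : x ∈ ({x : WW S | ∃ i s, x = sg i s} ∪ {x : WW S | ∃ a : A5, x = inr a}))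
    (hy : y ∈ ({x : WW S | ∃ i s, x = sg i s} ∪ {x : WW S | ∃ a : A5, x = inr a})) :
    ⁅x, y⁆ ∈ RR S := by
  have hsr : ∀ (i : Fin 5) (s : S) (a : A5), ⁅sg i s, (inr a : WW S)⁆ ∈ RR S := by
    intro i s a
    rw [comm_sg_inr]
    by_cases h : i = a.1 i
    · rw [← h, dd, mul_inv_cancel]
      exact Subgroup.one_mem _
    · exact dd_mem_R h s
  rcases hx with ⟨i, s, rfl⟩ | ⟨a, rfl⟩ <;> rcases hy with ⟨j, t, rfl⟩ | ⟨b, rfl⟩
  · by_cases h : i = j
    · subst h
      exact comm_sg_same_mem i s t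
    · rw [commutatorElement_eq_one_iff_mul_comm.2 (sg_comm h s t)]
      exact Subgroup.one_mem _
  · exact hsr i s b
  · rw [← commutatorElement_inv]
    exact Subgroup.inv_mem _ (hsr j t a)
  · rw [commutatorElement_def]
    exact Subgroup.mul_mem _ (Subgroup.mul_mem _ (Subgroup.mul_mem _ (inr_mem_R a) (inr_mem_R b))
      (Subgroup.inv_mem _ (inr_mem_R a))) (Subgroup.inv_mem _ (inr_mem_R b))

theorem N_le_R : NN S ≤ RR S := by
  set T : Set (WW S) := ({x : WW S | ∃ i s, x = sg i s} ∪ {x : WW S | ∃ a : A5, x = inr a}) with hT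
  let π : WW S →* (WW S ⧸ RR S) := QuotientGroup.mk' (RR S)
  have hcomm : ∀ u ∈ π '' T, ∀ v ∈ π '' T, u * v = v * u := by
    rintro _ ⟨x, hx, rfl⟩ _ ⟨y, hy, rfl⟩
    have h1 := gens_comm x y hx hy
    have h2 : π ⁅x, y⁆ = 1 := (QuotientGroup.eq_one_iff _).2 h1
    rw [map_commutatorElement, commutatorElement_eq_one_iff_mul_comm] at h2
    exact h2
  have hclosure : Subgroup.closure (π '' T) = ⊤ := by
    rw [← MonoidHom.map_closure, closure_gens, ← MonoidHom.range_eq_map, MonoidHom.range_eq_top]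
    exact QuotientGroup.mk'_surjective _
  haveI hMC := Subgroup.isMulCommutative_closure hcomm
  have hall : ∀ u v : WW S ⧸ RR S, u * v = v * u := by
    intro u v
    have hu : u ∈ Subgroup.closure (π '' T) := by rw [hclosure]; trivial
    have hv : v ∈ Subgroup.closure (π '' T) := by rw [hclosure]; trivial
    have := mul_comm' (⟨u, hu⟩ : Subgroup.closure (π '' T)) ⟨v, hv⟩
    exact congrArg Subtype.val this
  show commutator (WW S) ≤ RR S
  rw [commutator_def, Subgroup.commutator_le]
  intro x _ y _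
  have h3 : π ⁅x, y⁆ = 1 := by
    rw [map_commutatorElement, commutatorElement_eq_one_iff_mul_comm]
    exact hall _ _
  exact (QuotientGroup.eq_one_iff _).1 h3

theorem perfect_N : commutator (NN S) = ⊤ := by
  rw [eq_top_iff]
  intro x _
  have h1 : x.1 ∈ (⁅NN S, NN S⁆ : Subgroup (WW S)) := N_le_R x.2
  rw [← Subgroup.map_subtype_commutator] at h1
  obtain ⟨y, hy, hyx⟩ := h1
  have : y = x := Subtype.ext hyx
  rwa [← this]

end Wr

section Point

instance : MulAction.IsPretransitive A5 (Fin 5) :=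
  ⟨fun i j => by
    obtain ⟨a, ha⟩ := exists_move i j
    exact ⟨a, ha⟩⟩

/-- the point stabiliser in `A₅`. -/
abbrev PP : Subgroup A5 := MulAction.stabilizer A5 (4 : Fin 5)

theorem PP_index : PP.index = 5 := by
  rw [MulAction.index_stabilizer_of_transitive]
  simp

theorem PP_coatom : IsCoatom PP :=
  Cfsg.Agent.Lib.PGroup.isCoatom_of_index_prime (by rw [PP_index]; norm_num)

theorem PP_solvable : Group.IsSolvable PP := by
  have h1 := Subgroup.card_mul_index PP
  rw [PP_index] at h1
  have h2 : Nat.card A5 = 60 := by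
    rw [Nat.card_eq_fintype_card]
    decide
  rw [h2] at h1
  have h3 : Nat.card PP = 2 ^ 2 * 3 ^ 1 := by omega
  exact Cfsg.Agent.Lib.Char.isSolvable_of_card 2 3 2 1 (by norm_num) (by norm_num) h3

end Point

theorem solvable_pi (ι S : Type) [Group S] [Group.IsSolvable S] : Group.IsSolvable (ι → S) := by
  obtain ⟨n, hn⟩ := ‹Group.IsSolvable S›
  refine ⟨n, ?_⟩
  rw [eq_bot_iff]
  intro f hf
  rw [Subgroup.mem_bot]
  ext i
  have h1 := map_derivedSeries_le_derivedSeries (Pi.evalMonoidHom (fun _ : ι => S) i) n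
  rw [hn] at h1
  have h2 := h1 ⟨f, hf, rfl⟩
  exact (Subgroup.mem_bot.1 h2)

theorem main (S : Type) [Group S] [Finite S] [Group.IsSolvable S] (d : ℕ)
    (hd : derivedSeries (commutator S) d ≠ ⊥) :
    ∃ (G : Type) (_ : Group G) (_ : Finite G) (H : Subgroup G), commutator G = ⊤ ∧ IsCoatom H ∧
      Group.IsSolvable H ∧ derivedSeries H d ≠ ⊥ := by
  haveI : Finite (WW S) := Finite.of_equiv _ SemidirectProduct.equivProd.symm
  let ρ : NN S →* A5 := (rightHom : WW S →* A5).comp (NN S).subtype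
  have hρ : Function.Surjective ρ := fun a => ⟨⟨inr a, inr_mem_N a⟩, rfl⟩
  let H : Subgroup (NN S) := PP.comap ρ
  refine ⟨NN S, inferInstance, inferInstance, H, perfect_N,
    Subgroup.isCoatom_comap_of_surjective hρ PP_coatom, ?_, ?_⟩
  · -- solvability
    haveI := PP_solvable
    let g : H →* PP := (ρ.comp H.subtype).codRestrict PP (fun x => x.2)
    let K := g.ker
    let θ : K →* (Fin 5 → S) :=
      { toFun := fun x => x.1.1.1.left
        map_one' := rfl
        map_mul' := fun x y => by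
          have hx : x.1.1.1.right = 1 := by
            have := congrArg Subtype.val (MonoidHom.mem_ker.1 x.2)
            exact this
          show (x.1.1.1 * y.1.1.1).left = _
          rw [SemidirectProduct.mul_left, hx, map_one]
          rfl }
    have hθ : Function.Injective θ := by
      intro x y h
      have hx : x.1.1.1.right = 1 := by
        have := congrArg Subtype.val (MonoidHom.mem_ker.1 x.2)
        exact this
      have hy : y.1.1.1.right = 1 := by
        have := congrArg Subtype.val (MonoidHom.mem_ker.1 y.2)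
        exact this
      apply Subtype.ext
      apply Subtype.ext
      apply Subtype.ext
      exact SemidirectProduct.ext h (hx.trans hy.symm)
    haveI := solvable_pi (Fin 5) S
    haveI : Group.IsSolvable K := Group.isSolvable_of_isSolvable_injective hθ
    exact Group.isSolvable_of_ker_le_range K.subtype g (by rw [Subgroup.range_subtype])
  · -- derived length
    have hsg : ∀ s : commutator S, sg (0 : Fin 5) s.1 ∈ NN S := by
      intro s
      have h1 := map_derivedSeries_le_derivedSeries (sg (S := S) (0 : Fin 5)) 1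
      rw [derivedSeries_one, derivedSeries_one] at h1
      exact h1 ⟨s.1, s.2, rfl⟩
    let j₁ : commutator S →* NN S :=
      ((sg (S := S) (0 : Fin 5)).comp (commutator S).subtype).codRestrict (NN S) hsg
    have hj : ∀ s : commutator S, j₁ s ∈ H := by
      intro s
      show ρ (j₁ s) ∈ PP
      have : ρ (j₁ s) = 1 := rfl
      rw [this]
      exact Subgroup.one_mem _
    let j : commutator S →* H := j₁.codRestrict H hj
    have hjinj : Function.Injective j := by
      intro x y h
      have h1 : sg (S := S) (0 : Fin 5) x.1 = sg 0 y.1 :=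
        congrArg (fun z : H => z.1.1) h
      exact Subtype.ext (sg_injective 0 h1)
    obtain ⟨⟨x, hx⟩, hx1'⟩ := Subgroup.ne_bot_iff_exists_ne_one.1 hd
    have hx1 : x ≠ 1 := fun h => hx1' (Subtype.ext h)
    intro hbot
    have h2 := map_derivedSeries_le_derivedSeries j d
    rw [hbot] at h2
    have h3 := h2 ⟨x, hx, rfl⟩
    rw [Subgroup.mem_bot] at h3
    apply hx1
    apply hjinj
    rw [h3, map_one]

section Uni

open Matrix

variable {n : ℕ}

/-- upper unitriangular -/
def UTm (A : Matrix (Fin n) (Fin n) (ZMod 2)) : Prop :=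
  (∀ i j : Fin n, j < i → A i j = 0) ∧ ∀ i : Fin n, A i i = 1

theorem UTm_one : UTm (1 : Matrix (Fin n) (Fin n) (ZMod 2)) :=
  ⟨fun i j h => Matrix.one_apply_ne (ne_of_gt h), fun i => Matrix.one_apply_eq i⟩

theorem UTm_mul {A B : Matrix (Fin n) (Fin n) (ZMod 2)} (hA : UTm A) (hB : UTm B) :
    UTm (A * B) := by
  constructor
  · intro i j hji
    rw [Matrix.mul_apply]
    apply Finset.sum_eq_zero
    intro l _
    by_cases hl : l < i
    · rw [hA.1 i l hl, zero_mul]
    · rw [hB.1 l j (lt_of_lt_of_le hji (not_lt.1 hl)), mul_zero]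
  · intro i
    rw [Matrix.mul_apply, Finset.sum_eq_single i]
    · rw [hA.2, hB.2, one_mul]
    · intro l _ hl
      rcases lt_or_gt_of_ne hl with h | h
      · rw [hA.1 i l h, zero_mul]
      · rw [hB.1 l i h, mul_zero]
    · intro h
      exact absurd (Finset.mem_univ i) h

theorem UTm_pow {A : Matrix (Fin n) (Fin n) (ZMod 2)} (hA : UTm A) (m : ℕ) : UTm (A ^ m) := by
  induction m with
  | zero => simpa using UTm_one
  | succ m ih =>
    rw [pow_succ]
    exact UTm_mul ih hA

variable (n) in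
/-- the unitriangular group. -/
def UU : Subgroup (GL (Fin n) (ZMod 2)) where
  carrier := {g | UTm (g : Matrix (Fin n) (Fin n) (ZMod 2))}
  mul_mem' := fun ha hb => UTm_mul ha hb
  one_mem' := UTm_one
  inv_mem' := by
    intro g hg
    have h1 : g⁻¹ = g ^ (orderOf g - 1) := by
      apply inv_eq_of_mul_eq_one_right
      rw [← pow_succ', Nat.sub_add_cancel (orderOf_pos g), pow_orderOf_eq_one]
    show UTm ((g⁻¹ : GL (Fin n) (ZMod 2)) : Matrix (Fin n) (Fin n) (ZMod 2))
    rw [h1]
    have := UTm_pow hg (orderOf g - 1)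
    simpa using this

theorem nil_entries {N : Matrix (Fin n) (Fin n) (ZMod 2)}
    (hN : ∀ i j : Fin n, j ≤ i → N i j = 0) (k : ℕ) :
    ∀ i j : Fin n, (j : ℕ) < i + k → (N ^ k) i j = 0 := by
  induction k with
  | zero =>
    intro i j h
    rw [pow_zero]
    apply Matrix.one_apply_ne
    rintro rfl
    simp at h
  | succ k ih =>
    intro i j h
    rw [pow_succ, Matrix.mul_apply]
    apply Finset.sum_eq_zero
    intro l _
    by_cases hl : (l : ℕ) < i + k
    · rw [ih i l hl, zero_mul]
    · rw [hN l j (by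
        rw [Fin.le_def]
        omega), mul_zero]

theorem UU_pgroup [NeZero n] : IsPGroup 2 (UU n) := by
  intro g
  haveI : Fact (Nat.Prime 2) := ⟨Nat.prime_two⟩
  haveI : Nonempty (Fin n) := ⟨⟨0, Nat.pos_of_ne_zero (NeZero.ne n)⟩⟩
  haveI : CharP (Matrix (Fin n) (Fin n) (ZMod 2)) 2 := Matrix.charP 2
  refine ⟨n, ?_⟩
  let G : Matrix (Fin n) (Fin n) (ZMod 2) := (g.1 : GL (Fin n) (ZMod 2))
  have hG : UTm G := g.2
  let N := G - 1
  have hN : ∀ i j : Fin n, j ≤ i → N i j = 0 := by
    intro i j h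
    rcases eq_or_lt_of_le h with h | h
    · subst h
      simp [N, hG.2]
    · simp [N, hG.1 i j h, Matrix.one_apply_ne (ne_of_gt h)]
  have hNn : N ^ n = 0 := by
    ext i j
    exact nil_entries hN n i j (by have := j.2; omega)
  have hG2 : G = 1 + N := by simp [N]
  have h1 : G ^ 2 ^ n = 1 := by
    rw [hG2, add_pow_char_pow_of_commute 2 n (Commute.one_left N), one_pow]
    have : N ^ 2 ^ n = 0 := by
      obtain ⟨m, hm⟩ : ∃ m, 2 ^ n = n + m := ⟨2 ^ n - n, by have := Nat.lt_two_pow_self (n := n); omega⟩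
      rw [hm, pow_add, hNn, zero_mul]
    rw [this, add_zero]
  apply Subtype.ext
  apply Units.ext
  exact h1

theorem add_self_mat (A : Matrix (Fin n) (Fin n) (ZMod 2)) : A + A = 0 := by
  ext i j
  exact CharTwo.add_self_eq_zero (A i j)

theorem one_add_sq (X : Matrix (Fin n) (Fin n) (ZMod 2)) :
    (1 + X) * (1 + X) = 1 + (X + X) + X * X := by
  rw [add_mul, mul_add, mul_add, one_mul, one_mul, mul_one]
  abel

theorem sm {a b c d : Fin n} (h : b ≠ c) :
    (Matrix.single a b (1 : ZMod 2) * Matrix.single c d (1 : ZMod 2)) = 0 :=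
  Matrix.single_mul_single_of_ne 1 a b c h 1

theorem key_mat {A B C : Matrix (Fin n) (Fin n) (ZMod 2)} (hAA : A * A = 0) (hBB : B * B = 0)
    (hAB : A * B = C) (hBA : B * A = 0) (hAC : A * C = 0) (hCA : C * A = 0) (hBC : B * C = 0)
    (hCB : C * B = 0) (hCC : C * C = 0) :
    (1 + A) * (1 + B) * (1 + A) * (1 + B) = 1 + C := by
  have h1 : (1 + A) * (1 + B) = 1 + (A + B + C) := by
    rw [add_mul, mul_add, mul_add, one_mul, one_mul, mul_one, hAB]
    abel
  have h2 : (A + B + C) * (A + B + C) = C := by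
    simp only [add_mul, mul_add, hAA, hBB, hAB, hBA, hAC, hCA, hBC, hCB, hCC, add_zero, zero_add]
  rw [mul_assoc ((1 + A) * (1 + B)), h1, one_add_sq, h2, add_self_mat, add_zero]

theorem el_inv {i j : Fin n} (hij : i ≠ j) {a : GL (Fin n) (ZMod 2)}
    (ha : (a : Matrix (Fin n) (Fin n) (ZMod 2)) = 1 + Matrix.single i j 1) : a⁻¹ = a := by
  apply inv_eq_of_mul_eq_one_left
  apply Units.ext
  rw [Units.val_mul, ha, Units.val_one, one_add_sq, sm (Ne.symm hij), add_self_mat, add_zero,
    add_zero]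

theorem comm_val {i j k : Fin n} (hij : i ≠ j) (hjk : j ≠ k) (hik : i ≠ k)
    {a b : GL (Fin n) (ZMod 2)}
    (ha : (a : Matrix (Fin n) (Fin n) (ZMod 2)) = 1 + Matrix.single i j 1)
    (hb : (b : Matrix (Fin n) (Fin n) (ZMod 2)) = 1 + Matrix.single j k 1) :
    ((⁅a, b⁆ : GL (Fin n) (ZMod 2)) : Matrix (Fin n) (Fin n) (ZMod 2)) =
      1 + Matrix.single i k 1 := by
  rw [commutatorElement_def, el_inv hij ha, el_inv hjk hb, Units.val_mul, Units.val_mul,
    Units.val_mul, ha, hb]
  apply key_mat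
  · exact sm (Ne.symm hij)
  · exact sm (Ne.symm hjk)
  · rw [Matrix.single_mul_single_same, one_mul]
  · exact sm (Ne.symm hik)
  · exact sm (Ne.symm hij)
  · exact sm (Ne.symm hik)
  · exact sm (Ne.symm hik)
  · exact sm (Ne.symm hjk)
  · exact sm (Ne.symm hik)

/-- the transvection as an element of the unitriangular group. -/
def uel (i j : Fin n) (hij : i < j) : UU n :=
  ⟨⟨1 + Matrix.single i j 1, 1 + Matrix.single i j 1, by
      rw [one_add_sq, sm (ne_of_gt hij), add_self_mat, add_zero, add_zero], by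
      rw [one_add_sq, sm (ne_of_gt hij), add_self_mat, add_zero, add_zero]⟩, by
    constructor
    · intro a b hab
      show (1 + Matrix.single i j 1 : Matrix (Fin n) (Fin n) (ZMod 2)) a b = 0
      rw [Matrix.add_apply, Matrix.one_apply_ne (ne_of_gt hab), zero_add]
      rw [Matrix.single_apply]
      rw [if_neg]
      rintro ⟨rfl, rfl⟩
      exact absurd hij (not_lt.2 hab.le)
    · intro a
      show (1 + Matrix.single i j 1 : Matrix (Fin n) (Fin n) (ZMod 2)) a a = 1
      rw [Matrix.add_apply, Matrix.one_apply_eq, Matrix.single_apply, if_neg, add_zero]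
      rintro ⟨rfl, rfl⟩
      exact absurd hij (lt_irrefl _)⟩

theorem uel_val (i j : Fin n) (hij : i < j) :
    (((uel i j hij : UU n) : GL (Fin n) (ZMod 2)) : Matrix (Fin n) (Fin n) (ZMod 2)) =
      1 + Matrix.single i j 1 := rfl

theorem exists_level (k : ℕ) : ∀ i j : Fin n, (i : ℕ) + 2 ^ (k + 1) ≤ j →
    ∃ x : commutator (UU n), (((x.1 : UU n) : GL (Fin n) (ZMod 2)) : Matrix (Fin n) (Fin n) (ZMod 2)) =
      1 + Matrix.single i j 1 ∧ x ∈ derivedSeries (commutator (UU n)) k := by
  induction k with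
  | zero =>
    intro i j h
    simp only [zero_add, pow_one] at h
    let l : Fin n := ⟨i + 1, by have := j.2; omega⟩
    have hil : i < l := by
      rw [Fin.lt_def]
      show (i : ℕ) < i + 1
      omega
    have hlj : l < j := by
      rw [Fin.lt_def]
      show (i : ℕ) + 1 < j
      omega
    refine ⟨⟨⁅uel i l hil, uel l j hlj⁆, Subgroup.commutator_mem_commutator (Subgroup.mem_top _)
      (Subgroup.mem_top _)⟩, ?_, Subgroup.mem_top _⟩
    exact comm_val (ne_of_lt hil) (ne_of_lt hlj) (ne_of_lt (hil.trans hlj)) (uel_val _ _ _)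
      (uel_val _ _ _)
  | succ k ih =>
    intro i j h
    have h2 : 2 ^ (k + 1 + 1) = 2 ^ (k + 1) + 2 ^ (k + 1) := by ring
    rw [h2] at h
    let l : Fin n := ⟨i + 2 ^ (k + 1), by have := j.2; omega⟩
    have hl1 : (i : ℕ) + 2 ^ (k + 1) ≤ l := le_refl _
    have hl2 : (l : ℕ) + 2 ^ (k + 1) ≤ j := by
      show (i : ℕ) + 2 ^ (k + 1) + 2 ^ (k + 1) ≤ j
      omega
    have hpos : 0 < 2 ^ (k + 1) := by positivity
    obtain ⟨x₁, hx₁, hm₁⟩ := ih i l hl1
    obtain ⟨x₂, hx₂, hm₂⟩ := ih l j hl2
    refine ⟨⁅x₁, x₂⁆, ?_, ?_⟩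
    · have hil : i ≠ l := by
        intro h
        have := congrArg Fin.val h
        simp [l] at this
      have hlj : l ≠ j := by
        intro h
        have := congrArg Fin.val h
        omega
      have hij : i ≠ j := by
        intro h
        have := congrArg Fin.val h
        omega
      exact comm_val hil hlj hij hx₁ hx₂
    · rw [derivedSeries_succ]
      exact Subgroup.commutator_mem_commutator hm₁ hm₂

theorem derived_ne_bot (d : ℕ) :
    derivedSeries (commutator (UU (2 ^ (d + 1) + 1))) d ≠ ⊥ := by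
  let n := 2 ^ (d + 1) + 1
  let i : Fin n := ⟨0, by positivity⟩
  let j : Fin n := ⟨2 ^ (d + 1), by simp [n]⟩
  obtain ⟨x, hx, hm⟩ := exists_level (n := n) d i j (by simp [i, j])
  intro hbot
  rw [hbot, Subgroup.mem_bot] at hm
  rw [hm] at hx
  have hij : i ≠ j := by
    intro h
    have h0 := congrArg Fin.val h
    have h00 : (i : ℕ) = 0 := rfl
    have h01 : (j : ℕ) = 2 ^ (d + 1) := rfl
    have h02 : 0 < 2 ^ (d + 1) := by positivity
    omega
  have h1 := congrFun (congrFun hx i) j
  have h2 : ((1 : commutator (UU n)).1 : UU n).1.val i j = (1 : Matrix (Fin n) (Fin n) (ZMod 2)) i j := rfl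
  rw [h2, Matrix.add_apply, Matrix.one_apply_ne hij, Matrix.single_apply_same] at h1
  simp at h1

end Uni

theorem result (d : ℕ) :
    ∃ (G : Type) (_ : Group G) (_ : Finite G) (H : Subgroup G), commutator G = ⊤ ∧ IsCoatom H ∧ Group.IsSolvable H ∧
      derivedSeries H d ≠ ⊥ := by
  haveI : Fact (Nat.Prime 2) := ⟨Nat.prime_two⟩
  haveI : NeZero (2 ^ (d + 1) + 1) := ⟨by positivity⟩
  have hP := UU_pgroup (n := 2 ^ (d + 1) + 1)
  haveI := hP.isNilpotent
  exact main (UU (2 ^ (d + 1) + 1)) d (derived_ne_bot d)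

end Cfsg.Agent.S5896
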