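import Cfsg.Statements.S5901
import Mathlib

set_option autoImplicit false

namespace Cfsg.Agent.S5901

theorem result {G : Type*} [Group G] [Finite G] (T X M : Subgroup G)
    (hTX : T ≤ X) (hX : X ≠ ⊤)
    (hint : ∀ Y : Subgroup G, T ≤ Y → Y ≤ X → ∃ C : Subgroup G, T ≤ C ∧ C ≤ X ∧ Y ⊔ C = X ∧ Y ⊓ C = T)
    (hM : IsCoatom M) (hXM : X ≤ M) (huniq : ∀ M' : Subgroup G, IsCoatom M' → X ≤ M' → M' = M)
    (H : Subgroup G) (hH : ¬ H ≤ M) (hHT : H ⊓ T = ⊥) :
    ∃ C : Subgroup G, H ⊔ C = ⊤ ∧ H ⊓ C = ⊥ := by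
  obtain ⟨C, hTC, hCX, hsup, hinf⟩ := hint ((H ⊔ T) ⊓ X) (le_inf le_sup_right hTX) inf_le_right
  refine ⟨C, ?_, ?_⟩
  · rcases eq_top_or_exists_le_coatom (H ⊔ C) with h | ⟨M', hM', hle⟩
    · exact h
    · exfalso
      have hXle : X ≤ H ⊔ C := by
        rw [← hsup]
        refine sup_le (inf_le_left.trans (sup_le le_sup_left (hTC.trans le_sup_right))) le_sup_right
      have := huniq M' hM' (hXle.trans hle)
      rw [this] at hle
      exact hH (le_sup_left.trans hle)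
  · have h1 : H ⊓ C ≤ T := by
      rw [← hinf]
      refine le_inf (le_inf (inf_le_left.trans le_sup_left) (inf_le_right.trans hCX)) inf_le_right
    have h2 : H ⊓ C ≤ H ⊓ T := le_inf inf_le_left h1
    rw [hHT] at h2
    exact le_bot_iff.1 h2

end Cfsg.Agent.S5901
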