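import Cfsg.Statements.S5902
import Mathlib
import Cfsg.Agent.S5901

set_option autoImplicit false

namespace Cfsg.Agent.S5902

/-- Conjugation transfers complements. -/
theorem exists_compl_of_conj {G : Type*} [Group G] (H : Subgroup G) (g : G)
    (h : ∃ C : Subgroup G, H.map (MulAut.conj g).toMonoidHom ⊔ C = ⊤ ∧
      H.map (MulAut.conj g).toMonoidHom ⊓ C = ⊥) :
    ∃ C : Subgroup G, H ⊔ C = ⊤ ∧ H ⊓ C = ⊥ := by
  obtain ⟨C, h1, h2⟩ := h
  let f := (MulAut.conj g).mapSubgroup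
  obtain ⟨C', rfl⟩ := f.surjective C
  refine ⟨C', ?_, ?_⟩
  · apply f.injective
    rw [f.map_sup, f.map_top]
    exact h1
  · apply f.injective
    rw [f.map_inf, f.map_bot]
    exact h2

theorem result {G : Type*} [Group G] [Finite G] (X M : Subgroup G)
    (hK : ComplementedLattice (Subgroup X))
    (hM : IsCoatom M) (hXM : X ≤ M) (huniq : ∀ M' : Subgroup G, IsCoatom M' → X ≤ M' → M' = M) :
    (∀ H : Subgroup G, ¬ H ≤ M.normalCore → ∃ C : Subgroup G, H ⊔ C = ⊤ ∧ H ⊓ C = ⊥) ∧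
    ComplementedLattice (Subgroup (G ⧸ M.normalCore)) := by
  have key : ∀ H : Subgroup G, ¬ H ≤ M.normalCore → ∃ C : Subgroup G, H ⊔ C = ⊤ ∧ H ⊓ C = ⊥ := by
    intro H hH
    obtain ⟨x, hx, hxN⟩ := SetLike.not_le_iff_exists.1 hH
    have : ∃ b : G, b * x * b⁻¹ ∉ M := by
      by_contra hcon
      push Not at hcon
      exact hxN hcon
    obtain ⟨b, hb⟩ := this
    apply exists_compl_of_conj H b
    have hX : X ≠ ⊤ := fun h => hM.1 (top_le_iff.1 (h ▸ hXM))
    refine S5901.result ⊥ X M bot_le hX ?_ hM hXM huniq _ ?_ (inf_bot_eq _)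
    · intro Y _ hYX
      obtain ⟨D, hD⟩ := exists_isCompl (Y.subgroupOf X)
      refine ⟨D.map X.subtype, bot_le, ?_, ?_, ?_⟩
      · rintro _ ⟨d, -, rfl⟩; exact d.2
      · have h1 := congrArg (Subgroup.map X.subtype) hD.codisjoint.eq_top
        rw [Subgroup.map_sup, Subgroup.map_subgroupOf_eq_of_le hYX, ← MonoidHom.range_eq_map,
          Subgroup.range_subtype] at h1
        exact h1
      · rw [eq_bot_iff]
        rintro _ ⟨hy, ⟨d, hd, rfl⟩⟩
        have h2 : d ∈ Y.subgroupOf X ⊓ D := ⟨hy, hd⟩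
        rw [hD.disjoint.eq_bot] at h2
        have h3 : d = 1 := h2
        simp [h3]
    · intro hle
      apply hb
      apply hle
      exact ⟨x, hx, rfl⟩
  refine ⟨key, ?_⟩
  rw [complementedLattice_iff]
  intro A
  let π : G →* G ⧸ M.normalCore := QuotientGroup.mk' M.normalCore
  by_cases hA : A = ⊥
  · subst hA
    exact ⟨⊤, isCompl_bot_top⟩
  have hH : ¬ A.comap π ≤ M.normalCore := by
    intro hle
    apply hA
    rw [eq_bot_iff]
    intro a ha
    obtain ⟨g, rfl⟩ := QuotientGroup.mk'_surjective M.normalCore a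
    have : g ∈ M.normalCore := hle ha
    rw [Subgroup.mem_bot]
    exact (QuotientGroup.eq_one_iff g).2 this
  obtain ⟨C, h1, h2⟩ := key _ hH
  refine ⟨C.map π, ?_, ?_⟩
  · rw [disjoint_iff, eq_bot_iff]
    rintro _ ⟨hy, ⟨c, hc, rfl⟩⟩
    have : c ∈ A.comap π ⊓ C := ⟨hy, hc⟩
    rw [h2] at this
    have h3 : c = 1 := this
    simp [h3]
  · rw [codisjoint_iff]
    have h3 : (A.comap π ⊔ C).map π = ⊤ := by
      rw [h1, ← MonoidHom.range_eq_map, MonoidHom.range_eq_top]
      exact QuotientGroup.mk'_surjective _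
    rw [Subgroup.map_sup, Subgroup.map_comap_eq_self_of_surjective (QuotientGroup.mk'_surjective _)] at h3
    exact h3

end Cfsg.Agent.S5902
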