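import Cfsg.Statements.S5903
import Mathlib
import Cfsg.Agent.S5901
import Cfsg.Agent.S5902

set_option autoImplicit false

namespace Cfsg.Agent.S5903

theorem mem_normalizer_of_comm {G : Type*} [Group G] {H : Subgroup G} {x : G}
    (hcomm : ∀ h ∈ H, x * h = h * x) : x ∈ Subgroup.normalizer (H : Set G) := by
  rw [Subgroup.mem_normalizer_iff]
  intro h
  constructor
  · intro hh
    rw [hcomm h hh, mul_inv_cancel_right]
    exact hh
  · intro hh
    have h2 := hcomm _ hh
    rw [inv_mul_cancel_right] at h2
    rwa [mul_left_cancel h2] at hh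

theorem result {G : Type*} [Group G] [Finite G] [IsSimpleGroup G] (X M N : Subgroup G)
    (hM : IsCoatom M) (hXM : X ≤ M) (huniq : ∀ M' : Subgroup G, IsCoatom M' → X ≤ M' → M' = M)
    (hNX : N ≤ X) (hN : (Nat.card N).Prime) (hcen : ∀ n ∈ N, ∀ m ∈ M, m * n = n * m)
    [(N.subgroupOf X).Normal] (hK : ComplementedLattice (Subgroup (X ⧸ N.subgroupOf X))) :
    ComplementedLattice (Subgroup G) := by
  have hX : X ≠ ⊤ := fun h => hM.1 (top_le_iff.1 (h ▸ hXM))
  -- the interval `[N, X]` is complemented
  have hint : ∀ Y : Subgroup G, N ≤ Y → Y ≤ X →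
      ∃ C : Subgroup G, N ≤ C ∧ C ≤ X ∧ Y ⊔ C = X ∧ Y ⊓ C = N := by
    intro Y hNY hYX
    let π : X →* X ⧸ N.subgroupOf X := QuotientGroup.mk' (N.subgroupOf X)
    have hπ : Function.Surjective π := QuotientGroup.mk'_surjective _
    obtain ⟨D, hD⟩ := exists_isCompl ((Y.subgroupOf X).map π)
    have hker : ∀ x : X, π x = 1 ↔ (x : G) ∈ N := by
      intro x
      exact (QuotientGroup.eq_one_iff x).trans Iff.rfl
    refine ⟨(D.comap π).map X.subtype, ?_, ?_, ?_, ?_⟩
    · intro n hn
      refine ⟨⟨n, hNX hn⟩, ?_, rfl⟩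
      change π ⟨n, hNX hn⟩ ∈ D
      rw [(hker ⟨n, hNX hn⟩).2 hn]
      exact D.one_mem
    · rintro _ ⟨d, -, rfl⟩; exact d.2
    · have h2 : Y.subgroupOf X ⊔ D.comap π = ⊤ := by
        rw [eq_top_iff]
        intro x _
        have h3 : π x ∈ (Y.subgroupOf X ⊔ D.comap π).map π := by
          rw [Subgroup.map_sup, Subgroup.map_comap_eq_self_of_surjective hπ,
            hD.codisjoint.eq_top]
          trivial
        obtain ⟨z, hz, hzx⟩ := h3
        have h4 : π (z⁻¹ * x) = 1 := by
          rw [map_mul, map_inv, hzx, inv_mul_cancel]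
        have h5 : z⁻¹ * x ∈ Y.subgroupOf X := hNY ((hker _).1 h4)
        have h6 := Subgroup.mul_mem _ hz (le_sup_left (b := D.comap π) h5 :
          z⁻¹ * x ∈ Y.subgroupOf X ⊔ D.comap π)
        simpa using h6
      have h7 := congrArg (Subgroup.map X.subtype) h2
      rw [Subgroup.map_sup, Subgroup.map_subgroupOf_eq_of_le hYX, ← MonoidHom.range_eq_map,
        Subgroup.range_subtype] at h7
      exact h7
    · apply le_antisymm
      · rintro x ⟨hxY, ⟨d, hd, rfl⟩⟩
        have h1 : π d ∈ (Y.subgroupOf X).map π ⊓ D := ⟨⟨d, hxY, rfl⟩, hd⟩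
        rw [hD.disjoint.eq_bot] at h1
        exact (hker d).1 h1
      · intro n hn
        refine ⟨hNY hn, ⟨n, hNX hn⟩, ?_, rfl⟩
        change π ⟨n, hNX hn⟩ ∈ D
        rw [(hker ⟨n, hNX hn⟩).2 hn]
        exact D.one_mem
  rw [complementedLattice_iff]
  intro H
  have : ∃ C : Subgroup G, H ⊔ C = ⊤ ∧ H ⊓ C = ⊥ := by
    by_cases hex : ∃ g : G, ¬ H.map (MulAut.conj g).toMonoidHom ≤ M ∧
        H.map (MulAut.conj g).toMonoidHom ⊓ N = ⊥
    · obtain ⟨g, h1, h2⟩ := hex
      exact S5902.exists_compl_of_conj H g
        (S5901.result N X M hNX hX hint hM hXM huniq _ h1 h2)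
    · push Not at hex
      -- `H` is normal
      have hnorm : Subgroup.normalizer (H : Set G) = ⊤ := by
        have hNnt : N ≠ ⊥ := by
          intro h
          rw [h] at hN
          simp at hN
          exact Nat.not_prime_one hN
        have hcl : Subgroup.normalClosure (N : Set G) = ⊤ := by
          refine (IsSimpleGroup.eq_bot_or_eq_top_of_normal _ Subgroup.normalClosure_normal).resolve_left ?_
          intro h
          apply hNnt
          rw [eq_bot_iff, ← h]
          exact Subgroup.le_normalClosure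
        rw [eq_top_iff, ← hcl, Subgroup.normalClosure, Subgroup.closure_le]
        intro x hx
        obtain ⟨n, hn, hnx⟩ := Group.mem_conjugatesOfSet_iff.1 hx
        obtain ⟨c, rfl⟩ := isConj_iff.1 hnx
        by_cases hle : H.map (MulAut.conj c⁻¹).toMonoidHom ≤ M
        · -- the conjugate centralises `H`
          have hcomm : ∀ h ∈ H, (c * n * c⁻¹) * h = h * (c * n * c⁻¹) := by
            intro h hh
            have hmem : c⁻¹ * h * c ∈ M := by
              have := hle ⟨h, hh, rfl⟩
              simpa using this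
            have := hcen n hn _ hmem
            calc (c * n * c⁻¹) * h = c * (n * (c⁻¹ * h * c)) * c⁻¹ := by group
              _ = c * ((c⁻¹ * h * c) * n) * c⁻¹ := by rw [this]
              _ = h * (c * n * c⁻¹) := by group
          exact mem_normalizer_of_comm hcomm
        · have hne := hex c⁻¹ hle
          have hle2 : N ≤ H.map (MulAut.conj c⁻¹).toMonoidHom := by
            set L := H.map (MulAut.conj c⁻¹).toMonoidHom with hL
            have : Fact (Nat.card N).Prime := ⟨hN⟩
            rcases Subgroup.eq_bot_or_eq_top_of_prime_card (L.subgroupOf N) with h | h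
            · exfalso
              apply hne
              rw [eq_bot_iff]
              rintro y ⟨hy1, hy2⟩
              have : (⟨y, hy2⟩ : N) ∈ L.subgroupOf N := hy1
              rw [h] at this
              have h3 : (⟨y, hy2⟩ : N) = 1 := this
              exact congrArg Subtype.val h3
            · exact Subgroup.subgroupOf_eq_top.1 h
          obtain ⟨h, hh, hhn⟩ := hle2 hn
          have : c * n * c⁻¹ = h := by
            rw [← hhn]
            simp [mul_assoc]
          rw [this]
          exact Subgroup.le_normalizer hh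
      have hHn : H.Normal := Subgroup.normalizer_eq_top_iff.1 hnorm
      rcases IsSimpleGroup.eq_bot_or_eq_top_of_normal H hHn with rfl | rfl
      · exact ⟨⊤, by simp, by simp⟩
      · exact ⟨⊥, by simp, by simp⟩
  obtain ⟨C, h1, h2⟩ := this
  exact ⟨C, disjoint_iff.2 h2, codisjoint_iff.2 h1⟩

end Cfsg.Agent.S5903
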