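import Cfsg.Statements.S5904
import Mathlib

set_option autoImplicit false
open scoped Pointwise

namespace Cfsg.Agent.S5904

theorem result {Ω : Type*} [Fintype Ω] [DecidableEq Ω] (hΩ : 2 < Fintype.card Ω)
    (O : Set Ω) (hO : Nat.card O = Nat.card ↥Oᶜ) :
    ¬ IsCoatom (MulAction.stabilizer (Equiv.Perm Ω) O) := by
  classical
  intro hco
  -- the stabilizer of the partition
  let P : Subgroup (Equiv.Perm Ω) :=
    { carrier := {g | g • O = O ∨ g • O = Oᶜ}
      one_mem' := Or.inl (one_smul _ _)
      mul_mem' := by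
        rintro g h (hg | hg) (hh | hh)
        · left; change (g * h) • O = O; rw [mul_smul, hh, hg]
        · right; change (g * h) • O = Oᶜ; rw [mul_smul, hh, Set.smul_set_compl, hg]
        · right; change (g * h) • O = Oᶜ; rw [mul_smul, hh, hg]
        · left; change (g * h) • O = O; rw [mul_smul, hh, Set.smul_set_compl, hg, compl_compl]
      inv_mem' := by
        rintro g (hg | hg)
        · left; change g⁻¹ • O = O; rw [inv_smul_eq_iff, hg]
        · right; change g⁻¹ • O = Oᶜ; rw [inv_smul_eq_iff, Set.smul_set_compl, hg, compl_compl] }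
  have hle : MulAction.stabilizer (Equiv.Perm Ω) O ≤ P := fun g hg => Or.inl hg
  -- an element swapping `O` and its complement
  have hcard : Fintype.card O = Fintype.card ↥Oᶜ := by
    rwa [← Nat.card_eq_fintype_card, ← Nat.card_eq_fintype_card]
  let e : O ≃ ↥Oᶜ := Fintype.equivOfCardEq hcard
  let σ : Equiv.Perm Ω := Equiv.extendSubtype (p := fun x => x ∈ O) (q := fun x => x ∈ Oᶜ) e
  have hσ1 : ∀ x ∈ O, σ x ∉ O := fun x hx =>
    Equiv.extendSubtype_mem (p := fun x => x ∈ O) (q := fun x => x ∈ Oᶜ) e x hx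
  have hσ2 : ∀ x, x ∉ O → σ x ∈ O := fun x hx => by
    have := Equiv.extendSubtype_not_mem (p := fun x => x ∈ O) (q := fun x => x ∈ Oᶜ) e x hx
    simpa using this
  have hσO : σ • O = Oᶜ := by
    ext y
    rw [Set.mem_smul_set]
    constructor
    · rintro ⟨x, hx, rfl⟩
      exact hσ1 x hx
    · intro hy
      refine ⟨σ⁻¹ y, ?_, by simp⟩
      by_contra h
      have := hσ2 _ h
      have h2 : σ (σ⁻¹ y) = y := by simp
      rw [h2] at this
      exact hy this
  have hcardsum := Set.ncard_add_ncard_compl O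
  rw [Nat.card_coe_set_eq, Nat.card_coe_set_eq] at hO
  have hk : 1 < O.ncard := by
    rw [Nat.card_eq_fintype_card] at hcardsum
    omega
  obtain ⟨a, b, ha, hb, hab⟩ := (Set.one_lt_ncard_iff).1 hk
  obtain ⟨c, hc⟩ : (Oᶜ).Nonempty := by
    rw [← Set.ncard_pos (Set.toFinite _)]
    omega
  have hbc : b ≠ c := fun h => hc (h ▸ hb)
  have hac : a ≠ c := fun h => hc (h ▸ ha)
  have hτ : Equiv.swap b c ∉ P := by
    rintro (h | h)
    · apply hc
      rw [← h]
      exact ⟨b, hb, by simp⟩
    · have : a ∈ Equiv.swap b c • O := ⟨a, ha, by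
        change Equiv.swap b c a = a
        exact Equiv.swap_apply_of_ne_of_ne hab hac⟩
      rw [h] at this
      exact this ha
  have hlt : MulAction.stabilizer (Equiv.Perm Ω) O < P := by
    refine lt_of_le_of_ne hle fun h => ?_
    have h1 : σ ∈ P := Or.inr hσO
    rw [← h] at h1
    have h2 : σ • O = O := h1
    rw [hσO] at h2
    have : a ∈ Oᶜ := by rw [h2]; exact ha
    exact this ha
  have := hco.2 P hlt
  exact hτ (this ▸ Subgroup.mem_top _)

end Cfsg.Agent.S5904
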