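import Cfsg.Statements.S5908
import Mathlib
import Cfsg.Agent.Lib.Classical.UnitaryCenter
import Cfsg.Agent.Lib.Classical.RingCongr

set_option autoImplicit false

namespace Cfsg.Agent.S5908

open scoped Matrix

def F4 : Type := Fin 4

instance : DecidableEq F4 := inferInstanceAs (DecidableEq (Fin 4))
instance : Fintype F4 := inferInstanceAs (Fintype (Fin 4))

def add4 (a b : F4) : F4 := (⟨Nat.mod (Nat.xor a.1 b.1) 4, Nat.mod_lt _ (by norm_num)⟩ : Fin 4)
-- 4*a+b -> entry (2 bits); table rows 0: 0 0 0 0 ; 1: 0 1 2 3 ; 2: 0 2 3 1; 3: 0 3 1 2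
def mul4 (a b : F4) : F4 :=
  (⟨Nat.mod (Nat.shiftRight 2625168384 (Nat.mul 2 (Nat.add (Nat.mul 4 a.1) b.1))) 4, Nat.mod_lt _ (by norm_num)⟩ : Fin 4)
def z4 : F4 := (0 : Fin 4)
def o4 : F4 := (1 : Fin 4)
def inv4 (a : F4) : F4 := mul4 a a


theorem add_assoc4 : ∀ a b c : F4, add4 (add4 a b) c = add4 a (add4 b c) := by decide
theorem zero_add4 : ∀ a : F4, add4 z4 a = a := by decide
theorem add_zero4 : ∀ a : F4, add4 a z4 = a := by decide
theorem add_self4 : ∀ a : F4, add4 a a = z4 := by decide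
theorem add_comm4 : ∀ a b : F4, add4 a b = add4 b a := by decide
theorem mul_assoc4 : ∀ a b c : F4, mul4 (mul4 a b) c = mul4 a (mul4 b c) := by decide
theorem one_mul4 : ∀ a : F4, mul4 o4 a = a := by decide
theorem mul_one4 : ∀ a : F4, mul4 a o4 = a := by decide
theorem zero_mul4 : ∀ a : F4, mul4 z4 a = z4 := by decide
theorem mul_zero4 : ∀ a : F4, mul4 a z4 = z4 := by decide
theorem mul_comm4 : ∀ a b : F4, mul4 a b = mul4 b a := by decide
theorem distrib4 : ∀ a b c : F4, mul4 a (add4 b c) = add4 (mul4 a b) (mul4 a c) := by decide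
theorem mul_inv4 : ∀ a : F4, a ≠ z4 → mul4 a (inv4 a) = o4 := by decide

instance : Add F4 := ⟨add4⟩
instance : Mul F4 := ⟨mul4⟩
instance : Zero F4 := ⟨z4⟩
instance : One F4 := ⟨o4⟩
instance : Neg F4 := ⟨id⟩
instance : Inv F4 := ⟨inv4⟩

instance instF4 : Field F4 where
  add_assoc := add_assoc4
  zero_add := zero_add4
  add_zero := add_zero4
  nsmul := nsmulRec
  zsmul := zsmulRec
  neg_add_cancel := add_self4
  add_comm := add_comm4
  left_distrib := distrib4
  right_distrib := fun a b c => by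
    show mul4 (add4 a b) c = add4 (mul4 a c) (mul4 b c)
    rw [mul_comm4, distrib4, mul_comm4 c a, mul_comm4 c b]
  zero_mul := zero_mul4
  mul_zero := mul_zero4
  mul_assoc := mul_assoc4
  one_mul := one_mul4
  mul_one := mul_one4
  mul_comm := mul_comm4
  exists_pair_ne := ⟨z4, o4, by decide⟩
  mul_inv_cancel := mul_inv4
  inv_zero := by decide
  nnqsmul := _
  qsmul := _

theorem card_F4 : Fintype.card F4 = 4 := by
  show Fintype.card (Fin 4) = 4
  simp


def n3 (a b c : F4) : F4 :=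
  add4 (add4 (mul4 a (mul4 a a)) (mul4 b (mul4 b b))) (mul4 c (mul4 c c))

def h3 (a b c x y z : F4) : F4 :=
  add4 (add4 (mul4 a (mul4 x x)) (mul4 b (mul4 y y))) (mul4 c (mul4 z z))

def P3 (a b c : F4) : F4 := mul4 (mul4 a b) c

def m3 (a b c x y z : F4) : F4 := add4 (add4 (mul4 a x) (mul4 b y)) (mul4 c z)

/-- determinant; columns `(a,b,c),(d,e,f),(k,l,m)`. -/
def det3 (a b c d e f k l m : F4) : F4 :=
  add4 (add4 (add4 (add4 (add4 (mul4 a (mul4 e m)) (mul4 a (mul4 l f))) (mul4 d (mul4 b m)))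
    (mul4 d (mul4 l c))) (mul4 k (mul4 b f))) (mul4 k (mul4 e c))

theorem L1 : ∀ a b c : F4, n3 a b c = o4 → ∀ d e f : F4, n3 d e f = o4 → h3 a b c d e f = z4 →
    ∀ k l m : F4, n3 k l m = o4 → h3 a b c k l m = z4 → h3 d e f k l m = z4 →
    det3 a b c d e f k l m = o4 → ∀ x y z : F4, n3 x y z = o4 →
    P3 (m3 a d k x y z) (m3 b e l x y z) (m3 c f m x y z) = add4 (P3 x y z) (P3 a b c) := by
  decide +kernel

def offd (a b c d e f k l m : F4) : Bool :=
  decide (m3 b e l a b c = z4) && decide (m3 c f m a b c = z4) && decide (m3 a d k d e f = z4) &&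
    decide (m3 c f m d e f = z4) && decide (m3 a d k k l m = z4) && decide (m3 b e l k l m = z4)

theorem L2 : ∀ a b c : F4, n3 a b c = o4 → ∀ d e f : F4, n3 d e f = o4 → h3 a b c d e f = z4 →
    ∀ k l m : F4, n3 k l m = o4 → h3 a b c k l m = z4 → h3 d e f k l m = z4 →
    offd a b c d e f k l m = true → P3 a b c = z4 := by
  decide +kernel

abbrev SU3 := Cfsg.SU 3 F4 2

/-- matrix entries of an element of `SU₃(2)` -/
def ent (g : SU3) (i j : Fin 3) : F4 :=
  ((g : Matrix.SpecialLinearGroup (Fin 3) F4) : Matrix (Fin 3) (Fin 3) F4) i j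

theorem ent_mul (g h : SU3) (i j : Fin 3) :
    ent (g * h) i j = m3 (ent g i 0) (ent g i 1) (ent g i 2) (ent h 0 j) (ent h 1 j) (ent h 2 j) := by
  show (((g : Matrix.SpecialLinearGroup (Fin 3) F4) : Matrix (Fin 3) (Fin 3) F4) *
    ((h : Matrix.SpecialLinearGroup (Fin 3) F4) : Matrix (Fin 3) (Fin 3) F4)) i j = _
  rw [Matrix.mul_apply, Fin.sum_univ_three]
  rfl

theorem sq_eq (x : F4) : x ^ 2 = mul4 x x := pow_two x

theorem basis_form : ∀ i j : Fin 3,
    add4 (add4 (mul4 ((Pi.single i 1 : Fin 3 → F4) 0) (mul4 ((Pi.single j 1 : Fin 3 → F4) 0) ((Pi.single j 1 : Fin 3 → F4) 0)))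
      (mul4 ((Pi.single i 1 : Fin 3 → F4) 1) (mul4 ((Pi.single j 1 : Fin 3 → F4) 1) ((Pi.single j 1 : Fin 3 → F4) 1))))
      (mul4 ((Pi.single i 1 : Fin 3 → F4) 2) (mul4 ((Pi.single j 1 : Fin 3 → F4) 2) ((Pi.single j 1 : Fin 3 → F4) 2))) =
      if i = j then o4 else z4 := by
  decide +kernel

theorem orth (g : SU3) (i j : Fin 3) :
    h3 (ent g 0 i) (ent g 1 i) (ent g 2 i) (ent g 0 j) (ent g 1 j) (ent g 2 j) =
      if i = j then o4 else z4 := by
  have h := g.2 (Pi.single i 1) (Pi.single j 1)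
  rw [Matrix.mulVec_single_one, Matrix.mulVec_single_one] at h
  simp only [Cfsg.hermForm, Fin.sum_univ_three, Matrix.col_apply, sq_eq] at h
  rw [← basis_form i j]
  exact h

theorem det_eq (g : SU3) : det3 (ent g 0 0) (ent g 1 0) (ent g 2 0) (ent g 0 1) (ent g 1 1) (ent g 2 1)
    (ent g 0 2) (ent g 1 2) (ent g 2 2) = o4 := by
  have h := (g : Matrix.SpecialLinearGroup (Fin 3) F4).2
  rw [Matrix.det_fin_three] at h
  have hneg : ∀ x : F4, -x = x := fun _ => rfl
  simp only [sub_eq_add_neg, hneg] at h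
  have key : ∀ a b c d e f k l m : F4, det3 a b c d e f k l m =
      a * (e * m) + a * (l * f) + d * (b * m) + d * (l * c) + k * (b * f) + k * (e * c) :=
    fun _ _ _ _ _ _ _ _ _ => rfl
  rw [key]
  change _ = (1 : F4)
  simp only [ent]
  linear_combination h

/-- the homomorphism to the additive group of the field -/
def chi (g : SU3) : F4 := P3 (ent g 0 0) (ent g 1 0) (ent g 2 0)

theorem chi_mul (g h : SU3) : chi (g * h) = add4 (chi h) (chi g) := by
  have h00 := orth g 0 0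
  have h01 := orth g 0 1
  have h02 := orth g 0 2
  have h11 := orth g 1 1
  have h12 := orth g 1 2
  have h22 := orth g 2 2
  have hh := orth h 0 0
  simp only [Fin.isValue, if_true, Fin.reduceEq, if_false] at h00 h01 h02 h11 h12 h22 hh
  have e0 : h3 (ent g 0 0) (ent g 1 0) (ent g 2 0) (ent g 0 0) (ent g 1 0) (ent g 2 0) =
    n3 (ent g 0 0) (ent g 1 0) (ent g 2 0) := rfl
  have := L1 _ _ _ h00 _ _ _ h11 h01 _ _ _ h22 h02 h12 (det_eq g) _ _ _ hh
  simp only [chi, ent_mul]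
  exact this


theorem chi_one : chi (1 : SU3) = z4 := by
  have h := chi_mul 1 1
  rw [mul_one, add_self4] at h
  exact h

theorem add_eq_z4 : ∀ x y : F4, add4 x y = z4 → x = y := by decide

theorem chi_inv (g : SU3) : chi g⁻¹ = chi g := by
  have h := chi_mul g⁻¹ g
  rw [inv_mul_cancel, chi_one] at h
  exact (add_eq_z4 _ _ h.symm).symm

theorem closed4 : ∀ x y : F4, mul4 x x = x → mul4 y y = y → mul4 (add4 y x) (add4 y x) = add4 y x := by
  decide

/-- index-two-like subgroup of elements with `chi` in the prime field -/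
def Hp : Subgroup SU3 where
  carrier := {g | mul4 (chi g) (chi g) = chi g}
  mul_mem' := by
    intro a b ha hb
    show mul4 (chi (a * b)) (chi (a * b)) = chi (a * b)
    rw [chi_mul]
    exact closed4 _ _ ha hb
  one_mem' := by
    show mul4 (chi 1) (chi 1) = chi 1
    rw [chi_one]
    decide
  inv_mem' := by
    intro a ha
    show mul4 (chi a⁻¹) (chi a⁻¹) = chi a⁻¹
    rw [chi_inv]
    exact ha

theorem mem_Hp_of_chi (g : SU3) (h : chi g = z4) : g ∈ Hp := by
  show mul4 (chi g) (chi g) = chi g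
  rw [h]
  decide

theorem sq_mem (g : SU3) : g * g ∈ Hp := by
  apply mem_Hp_of_chi
  rw [chi_mul, add_self4]

theorem P3_zero : ∀ a c : F4, P3 a z4 c = z4 := by decide

theorem scalar_off (g : SU3) (hg : g ∈ Subgroup.center SU3) (i j : Fin 3) (hij : i ≠ j) :
    ent g i j = z4 := by
  obtain ⟨c, hc⟩ := Cfsg.Agent.Lib.Classical.center_scalar (q := 2) (n := 3)
    (by rw [card_F4]; norm_num) g hg
  rcases hc with hc | hc
  · unfold ent
    rw [hc]
    simp [Matrix.one_apply, hij]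
    rfl
  · omega

theorem chi_center (g : SU3) (hg : g ∈ Subgroup.center SU3) : chi g = z4 := by
  unfold chi
  rw [scalar_off g hg 1 0 (by decide)]
  exact P3_zero _ _

theorem center_le : Subgroup.center SU3 ≤ Hp := fun g hg => mem_Hp_of_chi g (chi_center g hg)

/-- `g² ` central implies `chi g = 0`. -/
theorem chi_of_sq_center (g : SU3) (hg : g * g ∈ Subgroup.center SU3) : chi g = z4 := by
  have h00 := orth g 0 0
  have h01 := orth g 0 1
  have h02 := orth g 0 2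
  have h11 := orth g 1 1
  have h12 := orth g 1 2
  have h22 := orth g 2 2
  simp only [Fin.isValue, if_true, Fin.reduceEq, if_false] at h00 h01 h02 h11 h12 h22
  refine L2 _ _ _ h00 _ _ _ h11 h01 _ _ _ h22 h02 h12 ?_
  have e := fun i j hij => scalar_off (g * g) hg i j hij
  simp only [ent_mul] at e
  unfold offd
  simp only [Bool.and_eq_true, decide_eq_true_eq]
  refine ⟨⟨⟨⟨⟨?_, ?_⟩, ?_⟩, ?_⟩, ?_⟩, ?_⟩
  · exact e 1 0 (by decide)
  · exact e 2 0 (by decide)
  · exact e 0 1 (by decide)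
  · exact e 2 1 (by decide)
  · exact e 0 2 (by decide)
  · exact e 1 2 (by decide)

/-- explicit element with `chi ≠ 0, 1`; rows (1,1,3),(1,2,2),(2,1,2) -/
def A0 : Matrix (Fin 3) (Fin 3) F4 := fun i j =>
  (⟨Nat.mod (Nat.shiftRight 158325 (Nat.mul 2 (Nat.add (Nat.mul 3 i.1) j.1))) 4, Nat.mod_lt _ (by norm_num)⟩ : Fin 4)

theorem A0_pres : ∀ u0 u1 u2 v0 v1 v2 : F4,
    h3 (m3 (A0 0 0) (A0 0 1) (A0 0 2) u0 u1 u2) (m3 (A0 1 0) (A0 1 1) (A0 1 2) u0 u1 u2)
       (m3 (A0 2 0) (A0 2 1) (A0 2 2) u0 u1 u2)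
       (m3 (A0 0 0) (A0 0 1) (A0 0 2) v0 v1 v2) (m3 (A0 1 0) (A0 1 1) (A0 1 2) v0 v1 v2)
       (m3 (A0 2 0) (A0 2 1) (A0 2 2) v0 v1 v2) = h3 u0 u1 u2 v0 v1 v2 := by
  decide +kernel

theorem A0_det : det3 (A0 0 0) (A0 1 0) (A0 2 0) (A0 0 1) (A0 1 1) (A0 2 1) (A0 0 2) (A0 1 2) (A0 2 2) = o4 := by
  decide +kernel

theorem A0_det' : A0.det = 1 := by
  rw [Matrix.det_fin_three]
  have hneg : ∀ x : F4, -x = x := fun _ => rfl
  simp only [sub_eq_add_neg, hneg]
  have key : ∀ a b c d e f k l m : F4, det3 a b c d e f k l m =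
      a * (e * m) + a * (l * f) + d * (b * m) + d * (l * c) + k * (b * f) + k * (e * c) :=
    fun _ _ _ _ _ _ _ _ _ => rfl
  have h := A0_det
  rw [key] at h
  change _ = (1 : F4) at h
  linear_combination h

def g0 : SU3 := Cfsg.Agent.Lib.Classical.mkSU A0 A0_det' (by
  intro u v
  simp only [Cfsg.hermForm, Fin.sum_univ_three, Matrix.mulVec, dotProduct, sq_eq]
  exact A0_pres (u 0) (u 1) (u 2) (v 0) (v 1) (v 2))

theorem g0_not_mem : g0 ∉ Hp := by
  intro h
  have h' : mul4 (chi g0) (chi g0) = chi g0 := h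
  have e : chi g0 = P3 (A0 0 0) (A0 1 0) (A0 2 0) := rfl
  rw [e] at h'
  revert h'
  decide +kernel

abbrev Z3 := Subgroup.center SU3

/-- the image of `Hp` in the quotient -/
def Hq : Subgroup (SU3 ⧸ Z3) := Hp.map (QuotientGroup.mk' Z3)

theorem mem_Hq (g : SU3) : (g : SU3 ⧸ Z3) ∈ Hq ↔ g ∈ Hp := by
  constructor
  · rintro ⟨g', hg', e⟩
    have e' : (g' : SU3 ⧸ Z3) = (g : SU3 ⧸ Z3) := e
    rw [QuotientGroup.eq] at e'
    have := Hp.mul_mem hg' (center_le e')
    simpa using this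
  · intro h
    exact ⟨g, h, rfl⟩

theorem not_complemented_F4 : ¬ ComplementedLattice (Subgroup (SU3 ⧸ Z3)) := by
  intro hc
  obtain ⟨X, hX⟩ := hc.exists_isCompl Hq
  have hne : X ≠ ⊥ := by
    rintro rfl
    have h2 : Hq ⊔ ⊥ = ⊤ := hX.sup_eq_top
    rw [sup_bot_eq] at h2
    have : (g0 : SU3 ⧸ Z3) ∈ Hq := by rw [h2]; trivial
    exact g0_not_mem ((mem_Hq g0).mp this)
  obtain ⟨x, hxX, hx1⟩ := (Subgroup.bot_or_exists_ne_one X).resolve_left hne
  obtain ⟨g, rfl⟩ := QuotientGroup.mk_surjective x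
  have hbot : ∀ y, y ∈ Hq → y ∈ X → y = 1 := by
    intro y h1 h2
    have : y ∈ Hq ⊓ X := ⟨h1, h2⟩
    rw [hX.inf_eq_bot] at this
    exact this
  have h2 : ((g * g : SU3) : SU3 ⧸ Z3) = 1 := by
    apply hbot
    · exact (mem_Hq _).mpr (sq_mem g)
    · have := X.mul_mem hxX hxX
      exact this
  have h3 : g * g ∈ Z3 := (QuotientGroup.eq_one_iff _).mp h2
  have h4 := chi_of_sq_center g h3
  exact hx1 (hbot _ ((mem_Hq g).mpr (mem_Hp_of_chi g h4)) hxX)

section transport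

variable {F K : Type*} [Field F] [Field K]

lemma herm_congr (e : F ≃+* K) (n q : ℕ) (u v : Fin n → F) :
    Cfsg.hermForm n K q (Cfsg.Agent.Lib.Classical.RC.vecCongr e u)
      (Cfsg.Agent.Lib.Classical.RC.vecCongr e v) = e (Cfsg.hermForm n F q u v) := by
  simp [Cfsg.hermForm, map_sum, Cfsg.Agent.Lib.Classical.RC.vecCongr]

/-- `SU` along a field isomorphism -/
def suCongr (e : F ≃+* K) (n q : ℕ) : Cfsg.SU n F q ≃* Cfsg.SU n K q := by
  refine MulEquiv.subgroupMap (Cfsg.Agent.Lib.Classical.RC.slCongr e) _ |>.trans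
    (MulEquiv.subgroupCongr ?_)
  ext g
  constructor
  · rintro ⟨A, hA, rfl⟩ u v
    obtain ⟨u', rfl⟩ : ∃ u', Cfsg.Agent.Lib.Classical.RC.vecCongr e u' = u :=
      ⟨Cfsg.Agent.Lib.Classical.RC.vecCongr e.symm u, by
        funext i; simp [Cfsg.Agent.Lib.Classical.RC.vecCongr]⟩
    obtain ⟨v', rfl⟩ : ∃ v', Cfsg.Agent.Lib.Classical.RC.vecCongr e v' = v :=
      ⟨Cfsg.Agent.Lib.Classical.RC.vecCongr e.symm v, by
        funext i; simp [Cfsg.Agent.Lib.Classical.RC.vecCongr]⟩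
    have e1 : ∀ w, Cfsg.slToMat n K (Cfsg.Agent.Lib.Classical.RC.slCongr e A) *ᵥ
        Cfsg.Agent.Lib.Classical.RC.vecCongr e w =
        Cfsg.Agent.Lib.Classical.RC.vecCongr e (Cfsg.slToMat n F A *ᵥ w) := by
      intro w
      rw [Cfsg.Agent.Lib.Classical.RC.vecCongr_mulVec]
      rfl
    change Cfsg.hermForm n K q (Cfsg.slToMat n K (Cfsg.Agent.Lib.Classical.RC.slCongr e A) *ᵥ
        Cfsg.Agent.Lib.Classical.RC.vecCongr e u')
      (Cfsg.slToMat n K (Cfsg.Agent.Lib.Classical.RC.slCongr e A) *ᵥ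
        Cfsg.Agent.Lib.Classical.RC.vecCongr e v') = _
    rw [e1, e1, herm_congr, herm_congr, hA u' v']
  · intro hg
    refine ⟨(Cfsg.Agent.Lib.Classical.RC.slCongr e).symm g, ?_, by simp⟩
    intro u v
    have e1 : ∀ w, Cfsg.Agent.Lib.Classical.RC.vecCongr e
        (Cfsg.slToMat n F ((Cfsg.Agent.Lib.Classical.RC.slCongr e).symm g) *ᵥ w) =
        Cfsg.slToMat n K g *ᵥ Cfsg.Agent.Lib.Classical.RC.vecCongr e w := by
      intro w
      rw [Cfsg.Agent.Lib.Classical.RC.vecCongr_mulVec]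
      congr 1
      ext i j
      simp [Cfsg.slToMat]
    apply e.injective
    rw [← herm_congr, ← herm_congr, e1, e1]
    exact hg _ _

end transport

theorem result {F : Type*} [Field F] [Fintype F] (hF : Fintype.card F = 4) :
    ¬ ComplementedLattice (Subgroup (Cfsg.PSU 3 F 2)) := by
  intro hc
  have e : F ≃+* F4 := FiniteField.ringEquivOfCardEq (by rw [hF, card_F4])
  let φ := suCongr e 3 2
  let ψ : Cfsg.PSU 3 F 2 ≃* (SU3 ⧸ Z3) :=
    QuotientGroup.congr _ _ φ (Cfsg.Agent.Lib.Classical.RC.map_center_eq φ)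
  exact not_complemented_F4 (ψ.mapSubgroup.complementedLattice)

end Cfsg.Agent.S5908
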