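import Cfsg.Statements.S5909
import Mathlib
import Cfsg.Agent.Lib.Geo.PartitionAlt

set_option autoImplicit false

namespace Cfsg.Agent.S5909

theorem result {Ω : Type*} [Fintype Ω] [DecidableEq Ω] (h8 : Fintype.card Ω ≠ 8) (a b : ℕ) (ha : 2 ≤ a) (hb : 2 ≤ b)
    (f : Ω → Fin b) (hf : ∀ i : Fin b, Nat.card {x : Ω // f x = i} = a) :
    IsCoatom ((Subgroup.closure {g : Equiv.Perm Ω | ∀ x y : Ω, f x = f y ↔ f (g x) = f (g y)} ⊓ alternatingGroup Ω).subgroupOf (alternatingGroup Ω)) := by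
  rw [Lib.Geo.closure_eq_partStab]
  exact Lib.Geo.isCoatom_evenStab h8 ha hb hf

end Cfsg.Agent.S5909
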