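import Cfsg.Statements.S5910
import Mathlib
import Cfsg.Agent.Lib.Geo.PartitionAlt

set_option autoImplicit false

namespace Cfsg.Agent.S5910

open Equiv Equiv.Perm Cfsg.Agent.Lib.Geo

abbrev X := Fin 4 × Fin 2

/-- four labels summing to zero in the Klein four group -/
def pat (i j k l : Fin 4) : Prop :=
  (i = j ∧ k = l) ∨ (i = k ∧ j = l) ∨ (i = l ∧ j = k) ∨
    (i ≠ j ∧ i ≠ k ∧ i ≠ l ∧ j ≠ k ∧ j ≠ l ∧ k ≠ l)

instance (i j k l : Fin 4) : Decidable (pat i j k l) := by unfold pat; infer_instance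

/-- four points summing to zero in the affine space of dimension three -/
def Q (p q r s : X) : Prop := pat p.1 q.1 r.1 s.1 ∧ p.2 + q.2 + r.2 + s.2 = 0

instance (p q r s : X) : Decidable (Q p q r s) := by unfold Q; infer_instance

/-- the affine group, as the stabilizer of `Q` -/
def qS : Subgroup (Equiv.Perm X) where
  carrier := {g | ∀ p q r s, Q p q r s ↔ Q (g p) (g q) (g r) (g s)}
  one_mem' := fun _ _ _ _ => Iff.rfl
  mul_mem' := by
    intro g h hg hh p q r s
    rw [hh p q r s, hg (h p) (h q) (h r) (h s)]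
    rfl
  inv_mem' := by
    intro g hg p q r s
    have := hg (g⁻¹ p) (g⁻¹ q) (g⁻¹ r) (g⁻¹ s)
    simpa using this.symm

/-- `(i₁, i₂, t) ↦ (t, i₂, i₁)` -/
def y : Equiv.Perm X := Equiv.swap (0, 1) (2, 0) * Equiv.swap (1, 1) (3, 0)

/-- a 3-cycle -/
def c : Equiv.Perm X := Equiv.swap (1, 1) (2, 0) * Equiv.swap (1, 1) (2, 1)

set_option maxRecDepth 100000 in
theorem y_mem : y ∈ qS := by
  show ∀ p q r s : X, Q p q r s ↔ Q (y p) (y q) (y r) (y s)
  decide +kernel

theorem c_not_mem : c ∉ qS := by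
  intro h
  have h1 := (h (0, 0) (0, 1) (1, 0) (1, 1)).1 (by decide)
  revert h1
  decide

theorem y_not_mem : (y (0, 0)).1 = (y (0, 1)).1 → False := by decide

theorem pat_map (π : Equiv.Perm (Fin 4)) {i j k l : Fin 4} (h : pat i j k l) :
    pat (π i) (π j) (π k) (π l) := by
  rcases h with ⟨rfl, rfl⟩ | ⟨rfl, rfl⟩ | ⟨rfl, rfl⟩ | ⟨h1, h2, h3, h4, h5, h6⟩
  · exact Or.inl ⟨rfl, rfl⟩
  · exact Or.inr (Or.inl ⟨rfl, rfl⟩)
  · exact Or.inr (Or.inr (Or.inl ⟨rfl, rfl⟩))
  · exact Or.inr (Or.inr (Or.inr ⟨π.injective.ne h1, π.injective.ne h2, π.injective.ne h3,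
      π.injective.ne h4, π.injective.ne h5, π.injective.ne h6⟩))

theorem sum_pat_aux : ∀ (a b c d : Fin 2) (i j k l : Fin 4), pat i j k l → a + b + c + d = 0 →
    (![a, b, c, d] : Fin 4 → Fin 2) i + (![a, b, c, d] : Fin 4 → Fin 2) j +
      (![a, b, c, d] : Fin 4 → Fin 2) k + (![a, b, c, d] : Fin 4 → Fin 2) l = 0 := by
  decide +kernel

theorem sum_pat (ε : Fin 4 → Fin 2) (hε : ε 0 + ε 1 + ε 2 + ε 3 = 0) {i j k l : Fin 4}
    (h : pat i j k l) : ε i + ε j + ε k + ε l = 0 := by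
  have h1 : ε = ![ε 0, ε 1, ε 2, ε 3] := by
    funext x; fin_cases x <;> rfl
  rw [h1]
  exact sum_pat_aux _ _ _ _ _ _ _ _ h hε

theorem prod_sign_aux : ∀ a b c d : Fin 2,
    sign (Equiv.addRight a) * sign (Equiv.addRight b) * sign (Equiv.addRight c) * sign (Equiv.addRight d) = 1 →
    a + b + c + d = 0 := by
  decide +kernel

/-- An even permutation of `Fin 4 × Fin 2` preserving the first coordinate structure preserves `Q`. -/
theorem preserves {g : Equiv.Perm X} (h1 : ∀ p q : X, p.1 = q.1 ↔ (g p).1 = (g q).1)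
    (h2 : sign g = 1) {p q r s : X} (h : Q p q r s) : Q (g p) (g q) (g r) (g s) := by
  classical
  -- the permutation of the labels
  let π₀ : Fin 4 → Fin 4 := fun i => (g (i, 0)).1
  have hπ₀ : Function.Injective π₀ := by
    intro i j hij
    have := (h1 (i, 0) (j, 0)).2 hij
    exact this
  let π : Equiv.Perm (Fin 4) := Equiv.ofBijective π₀ (Finite.injective_iff_bijective.1 hπ₀)
  have hπ : ∀ i t, (g (i, t)).1 = π i := by
    intro i t
    exact (h1 (i, t) (i, 0)).1 rfl
  let ε : Fin 4 → Fin 2 := fun i => (g (i, 0)).2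
  have hinj : ∀ i (t t' : Fin 2), (g (i, t)).2 = (g (i, t')).2 → t = t' := by
    intro i t t' h3
    have : g (i, t) = g (i, t') := Prod.ext (by rw [hπ, hπ]) h3
    exact congrArg Prod.snd (g.injective this)
  have hε : ∀ i t, (g (i, t)).2 = t + ε i := by
    intro i t
    have h0 : (g (i, 1)).2 ≠ ε i := fun h3 => absurd (hinj i 1 0 h3) (by decide)
    have haux : ∀ a b : Fin 2, a ≠ b → a = 1 + b := by decide
    fin_cases t
    · simp [ε]
    · exact haux _ _ h0
  -- decomposition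
  let ε' : Fin 4 → Fin 2 := fun i => ε (π⁻¹ i)
  have hdec : g = (Equiv.prodCongrRight (fun i => Equiv.addRight (ε' i)) : Equiv.Perm X) *
      (Equiv.prodCongrLeft (fun _ => π) : Equiv.Perm X) := by
    ext1 ⟨i, t⟩
    apply Prod.ext
    · simp [hπ]
    · simp [hε, ε']
  have hsign : ε' 0 + ε' 1 + ε' 2 + ε' 3 = 0 := by
    apply prod_sign_aux
    rw [hdec, map_mul, sign_prodCongrRight, sign_prodCongrLeft] at h2
    simp only [Fin.prod_univ_four, Fin.prod_univ_two] at h2
    have h3 : sign π * sign π = 1 := by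
      rcases Int.units_eq_one_or (sign π) with h | h <;> rw [h] <;> decide
    rwa [h3, mul_one] at h2
  have hsum : ε 0 + ε 1 + ε 2 + ε 3 = 0 := by
    have h3 : ∑ i, ε' i = ∑ i, ε i := by
      apply Equiv.sum_comp (π⁻¹) ε
    rw [Fin.sum_univ_four, Fin.sum_univ_four, hsign] at h3
    exact h3.symm
  obtain ⟨h3, h4⟩ := h
  refine ⟨?_, ?_⟩
  · have := pat_map π h3
    rcases p with ⟨i₁, t₁⟩
    rcases q with ⟨i₂, t₂⟩
    rcases r with ⟨i₃, t₃⟩
    rcases s with ⟨i₄, t₄⟩
    simpa [hπ] using this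
  · have h5 := sum_pat ε hsum h3
    rcases p with ⟨i₁, t₁⟩
    rcases q with ⟨i₂, t₂⟩
    rcases r with ⟨i₃, t₃⟩
    rcases s with ⟨i₄, t₄⟩
    simp only [hε] at h5 h4 ⊢
    have haux : ∀ a b c d e f g h : Fin 2, a + b + c + d = 0 → e + f + g + h = 0 →
        (a + e) + (b + f) + (c + g) + (d + h) = 0 := by decide
    exact haux _ _ _ _ _ _ _ _ h4 h5

theorem result {Ω : Type*} [Fintype Ω] [DecidableEq Ω] (h8 : Fintype.card Ω = 8)
    (f : Ω → Fin 4) (hf : ∀ i : Fin 4, Nat.card {x : Ω // f x = i} = 2) :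
    ¬ IsCoatom ((Subgroup.closure {g : Equiv.Perm Ω | ∀ x y : Ω, f x = f y ↔ f (g x) = f (g y)} ⊓ alternatingGroup Ω).subgroupOf (alternatingGroup Ω)) := by
  classical
  rw [closure_eq_partStab]
  obtain ⟨E, hE⟩ := exists_coord 2 f hf
  let Φ : Equiv.Perm Ω ≃* Equiv.Perm X := E.permCongrHom
  have hΦ : ∀ g x, Φ g x = E (g (E.symm x)) := fun _ _ => rfl
  have hsignΦ : ∀ g, sign (Φ g) = sign g := fun g => sign_permCongr E g
  let K : Subgroup (Equiv.Perm Ω) := (qS ⊓ alternatingGroup X).comap Φ.toMonoidHom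
  have hKA : K ≤ alternatingGroup Ω := by
    intro g hg
    have h1 : Φ g ∈ alternatingGroup X := hg.2
    rw [mem_alternatingGroup, hsignΦ] at h1
    exact h1
  have hTK : evenStab f ≤ K := by
    intro g hg
    have hs : sign g = 1 := hg.2
    have hgW := hg.1
    have hs' : sign (Φ g) = 1 := by rw [hsignΦ, hs]
    have h1 : ∀ p q : X, p.1 = q.1 ↔ (Φ g p).1 = (Φ g q).1 := by
      intro p q
      have := hgW (E.symm p) (E.symm q)
      rw [← hE, ← hE, ← hE, ← hE] at this
      simpa [hΦ] using this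
    have h1' : ∀ p q : X, p.1 = q.1 ↔ ((Φ g)⁻¹ p).1 = ((Φ g)⁻¹ q).1 := by
      intro p q
      have := h1 ((Φ g)⁻¹ p) ((Φ g)⁻¹ q)
      simpa using this.symm
    have hs'' : sign ((Φ g)⁻¹) = 1 := by rw [sign_inv, hs']
    refine ⟨fun p q r s => ⟨fun h => preserves h1 hs' h, fun h => ?_⟩, hs'⟩
    have := preserves h1' hs'' h
    simpa using this
  have hTne : evenStab f ≠ K := by
    intro h
    have hyK : Φ.symm y ∈ K := by
      refine ⟨?_, ?_⟩
      · have : Φ (Φ.symm y) = y := Φ.apply_symm_apply y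
        show Φ (Φ.symm y) ∈ qS
        rw [this]; exact y_mem
      · have : Φ (Φ.symm y) = y := Φ.apply_symm_apply y
        show Φ (Φ.symm y) ∈ alternatingGroup X
        rw [this]
        exact swap_mul_swap_mem_alt (by decide) (by decide)
    rw [← h] at hyK
    have h1 := (hyK.1 (E.symm (0, 0)) (E.symm (0, 1))).1 (by rw [← hE, ← hE]; simp)
    rw [← hE, ← hE] at h1
    have h2 : ∀ x, E (Φ.symm y (E.symm x)) = y x := by
      intro x
      have := hΦ (Φ.symm y) x
      rw [Φ.apply_symm_apply] at this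
      exact this.symm
    rw [h2, h2] at h1
    exact y_not_mem h1
  have hKne : K ≠ alternatingGroup Ω := by
    intro h
    have hcA : Φ.symm c ∈ alternatingGroup Ω := by
      rw [mem_alternatingGroup, ← hsignΦ, Φ.apply_symm_apply]
      exact swap_mul_swap_mem_alt (by decide) (by decide)
    rw [← h] at hcA
    have : Φ (Φ.symm c) ∈ qS := hcA.1
    rw [Φ.apply_symm_apply] at this
    exact c_not_mem this
  intro hco
  have hle : (evenStab f).subgroupOf (alternatingGroup Ω) ≤ K.subgroupOf (alternatingGroup Ω) :=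
    fun x hx => hTK hx
  rcases hco.le_iff.1 hle with h | h
  · apply hKne
    apply le_antisymm hKA
    intro x hx
    have : (⟨x, hx⟩ : alternatingGroup Ω) ∈ K.subgroupOf (alternatingGroup Ω) := by rw [h]; trivial
    exact this
  · apply hTne
    apply le_antisymm hTK
    intro x hx
    have h1 : (⟨x, hKA hx⟩ : alternatingGroup Ω) ∈ K.subgroupOf (alternatingGroup Ω) := hx
    rw [h] at h1
    exact h1

end Cfsg.Agent.S5910
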