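import Cfsg.Statements.S5912
import Mathlib
import Cfsg.Agent.Lib.Geo.S6Index

set_option autoImplicit false

namespace Cfsg.Agent.S5912

open Cfsg.Agent.Lib.Geo.S6Index

lemma conj_transport {A B : Type*} [Group A] [Group B] (ψ : A ≃* B) (K L : Subgroup B) (g : B)
    (h : K.map (MulAut.conj g).toMonoidHom = L) :
    (K.comap ψ.toMonoidHom).map (MulAut.conj (ψ.symm g)).toMonoidHom = L.comap ψ.toMonoidHom := by
  subst h
  ext x
  rw [Subgroup.mem_map_equiv, Subgroup.mem_comap, Subgroup.mem_comap, Subgroup.mem_map_equiv]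
  have e1 : ψ.toMonoidHom ((MulAut.conj (ψ.symm g)).symm x) = (MulAut.conj g).symm (ψ.toMonoidHom x) := by
    simp [MulAut.conj_symm_apply]
  rw [e1]

theorem result {Ω : Type*} [Fintype Ω] [DecidableEq Ω] (h6 : Fintype.card Ω = 6) :
    ∃ H₁ H₂ : Subgroup (Equiv.Perm Ω), H₁.index = 6 ∧ H₂.index = 6 ∧
      (¬ ∃ g : Equiv.Perm Ω, Subgroup.map (MulAut.conj g).toMonoidHom H₁ = H₂) ∧
      ∀ H : Subgroup (Equiv.Perm Ω), H.index = 6 →
        ∃ g : Equiv.Perm Ω, Subgroup.map (MulAut.conj g).toMonoidHom H₁ = H ∨ Subgroup.map (MulAut.conj g).toMonoidHom H₂ = H := by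
  have e : Ω ≃ Fin 6 := Fintype.equivFinOfCardEq h6
  let ψ : Equiv.Perm Ω ≃* G6 := Equiv.permCongrHom e
  have hsurj : Function.Surjective ψ.toMonoidHom := ψ.surjective
  refine ⟨(MulAction.stabilizer G6 (0 : Fin 6)).comap ψ.toMonoidHom, (St (fc 0)).comap ψ.toMonoidHom, ?_, ?_, ?_, ?_⟩
  · rw [Subgroup.index_comap_of_surjective _ hsurj]
    exact index_stab 0
  · rw [Subgroup.index_comap_of_surjective _ hsurj]
    exact index_St 0
  · rintro ⟨g, hg⟩
    apply not_conj (ψ g)
    ext x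
    obtain ⟨y, rfl⟩ := ψ.surjective x
    have h1 := SetLike.ext_iff.1 hg y
    rw [Subgroup.mem_comap] at h1
    change _ ↔ ψ y ∈ St (fc 0) at h1
    rw [← h1, Subgroup.mem_map_equiv, Subgroup.mem_map_equiv, Subgroup.mem_comap]
    have e1 : ψ ((MulAut.conj g).symm y) = (MulAut.conj (ψ g)).symm (ψ y) := by
      simp [MulAut.conj_symm_apply]
    rw [← e1]
    rfl
  · intro H hH
    have hH' : (H.comap ψ.symm.toMonoidHom).index = 6 := by
      rw [Subgroup.index_comap_of_surjective _ ψ.symm.surjective]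
      exact hH
    obtain ⟨g, hg⟩ := conj_classes _ hH'
    have hback : (H.comap ψ.symm.toMonoidHom).comap ψ.toMonoidHom = H := by
      ext x
      simp [Subgroup.mem_comap]
    refine ⟨ψ.symm g, ?_⟩
    rcases hg with hg | hg
    · left
      have := conj_transport ψ _ _ g hg
      rwa [hback] at this
    · right
      have := conj_transport ψ _ _ g hg
      rwa [hback] at this

end Cfsg.Agent.S5912
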