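import Cfsg.Statements.S5913
import Mathlib

set_option autoImplicit false

namespace Cfsg.Agent.S5913

open scoped commutatorElement

theorem result {S : Type*} [Group S] [IsSimpleGroup S] (hS : ¬ IsMulCommutative S) (n : ℕ)
    (N : Subgroup (Fin n → S)) [N.Normal] :
    ∃ T : Finset (Fin n), ∀ x : Fin n → S, x ∈ N ↔ ∀ i, i ∉ T → x i = 1 := by
  classical
  -- the center of `S` is trivial
  have hcenter : ∀ a : S, a ≠ 1 → ∃ s : S, ⁅a, s⁆ ≠ 1 := by
    intro a ha
    by_contra hcon
    push Not at hcon
    have hz : a ∈ Subgroup.center S := by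
      rw [Subgroup.mem_center_iff]
      intro s
      have := hcon s
      rw [commutatorElement_eq_one_iff_commute] at this
      exact this.symm.eq
    have htop : Subgroup.center S = ⊤ := by
      rcases (inferInstance : (Subgroup.center S).Normal).eq_bot_or_eq_top with h | h
      · rw [h] at hz; exact absurd (Subgroup.mem_bot.1 hz) ha
      · exact h
    apply hS
    refine ⟨⟨fun u v => ?_⟩⟩
    have : u ∈ Subgroup.center S := by rw [htop]; trivial
    exact ((Subgroup.mem_center_iff.1 this) v).symm
  have key : ∀ i : Fin n, (∃ y ∈ N, y i ≠ 1) → ∀ s : S, Pi.mulSingle i s ∈ N := by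
    rintro i ⟨y, hy, hyi⟩ s
    let φ : S →* (Fin n → S) := MonoidHom.mulSingle (fun _ => S) i
    have hcomap : (N.comap φ).Normal := inferInstance
    obtain ⟨t, ht⟩ := hcenter (y i) hyi
    have hmem : ⁅y i, t⁆ ∈ N.comap φ := by
      rw [Subgroup.mem_comap]
      have h1 : φ ⁅y i, t⁆ = ⁅y, φ t⁆ := by
        funext j
        by_cases hj : j = i
        · subst hj
          simp [φ, commutatorElement_def]
        · simp [φ, commutatorElement_def, Pi.mulSingle_eq_of_ne hj]
      rw [h1, commutatorElement_def]
      have h2 : y * φ t * y⁻¹ ∈ (N : Subgroup _) ∨ True := Or.inr trivial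
      have h3 : y * φ t * y⁻¹ * (φ t)⁻¹ = y * (φ t * y⁻¹ * (φ t)⁻¹) := by group
      rw [h3]
      exact N.mul_mem hy ((inferInstance : N.Normal).conj_mem _ (N.inv_mem hy) _)
    have htop : N.comap φ = ⊤ := by
      rcases hcomap.eq_bot_or_eq_top with h | h
      · rw [h] at hmem; exact absurd (Subgroup.mem_bot.1 hmem) ht
      · exact h
    have : s ∈ N.comap φ := by rw [htop]; trivial
    exact this
  refine ⟨Finset.univ.filter (fun i => ∃ y ∈ N, y i ≠ 1), fun x => ⟨fun hx i hi => ?_, fun hx => ?_⟩⟩
  · by_contra h
    exact hi (by simpa using ⟨x, hx, h⟩)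
  · -- induct on the finite support
    have hind : ∀ A : Finset (Fin n), ∀ z : Fin n → S,
        (∀ i, i ∉ A → z i = 1) → (∀ i ∈ A, z i ≠ 1 → ∃ y ∈ N, y i ≠ 1) → z ∈ N := by
      intro A
      induction A using Finset.induction_on with
      | empty =>
        intro z hz _
        have : z = 1 := by
          funext i; exact hz i (by simp)
        rw [this]; exact N.one_mem
      | insert a A ha ih =>
        intro z hz hzA
        have hdecomp : z = Function.update z a 1 * Pi.mulSingle a (z a) := by
          funext j
          by_cases hj : j = a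
          · subst hj; simp
          · simp [hj, Pi.mulSingle_eq_of_ne hj]
        rw [hdecomp]
        refine N.mul_mem (ih _ ?_ ?_) ?_
        · intro i hi
          by_cases hia : i = a
          · subst hia; simp
          · rw [Function.update_of_ne hia]
            exact hz i (by simp [hia, hi])
        · intro i hi hne
          have hia : i ≠ a := fun h => ha (h ▸ hi)
          rw [Function.update_of_ne hia] at hne
          exact hzA i (by simp [hi]) hne
        · by_cases hza : z a = 1
          · rw [hza]; simp [N.one_mem]
          · exact key a (hzA a (by simp) hza) _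
    refine hind (Finset.univ.filter (fun i => ∃ y ∈ N, y i ≠ 1)) x hx ?_
    intro i hi _
    simpa using hi

end Cfsg.Agent.S5913
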