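import Cfsg.Statements.S5939
import Mathlib
import Cfsg.Agent.Lib.Classical.Dick.Excl

set_option autoImplicit false
open Cfsg

namespace Cfsg.Agent.S5939

private lemma five_dvd (q : ℕ) (h : q % 5 = 1 ∨ q % 5 = 4) : 5 ∣ q ^ 2 - 1 := by
  have h1 : q ^ 2 % 5 = 1 := by
    rw [Nat.pow_mod]
    rcases h with h | h <;> rw [h]
  have h2 : 1 ≤ q ^ 2 := by
    apply Nat.one_le_pow
    rcases h with h | h <;> omega
  omega

private lemma not_five_dvd (p : ℕ) (h : p % 5 = 2 ∨ p % 5 = 3) : ¬ 5 ∣ p * (p ^ 2 - 1) := by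
  have h1 : p ^ 2 % 5 = 4 := by
    rw [Nat.pow_mod]
    rcases h with h | h <;> rw [h]
  have h2 : 1 ≤ p ^ 2 := by
    apply Nat.one_le_pow
    rcases h with h | h <;> omega
  intro hd
  rcases (by norm_num : Nat.Prime 5).dvd_mul.mp hd with h3 | h3
  · omega
  · omega

open Cfsg.Agent.Lib.Classical.Dick in
open Cfsg.Agent.Lib.KS2.SL2 in
private theorem main_aux {F : Type*} [Field F] [Fintype F] (p : ℕ) [Fact p.Prime] [CharP F p] (h : (Fintype.card F = p ∧ (p % 10 = 1 ∨ p % 10 = 9)) ∨ (Fintype.card F = p ^ 2 ∧ (p % 10 = 3 ∨ p % 10 = 7))) : ∃ H : Subgroup (Matrix.ProjectiveSpecialLinearGroup (Fin 2) F), IsCoatom H ∧ Nonempty (H ≃* alternatingGroup (Fin 5)) := by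
  classical
  have hpp : p.Prime := Fact.out
  have hp3 : 3 ≤ p := by
    have := hpp.two_le
    rcases h with ⟨-, h⟩ | ⟨-, h⟩ <;> omega
  have hp2 : p ≠ 2 := by omega
  have hq9 : 9 ≤ Fintype.card F := by
    rcases h with ⟨h1, h2⟩ | ⟨h1, h2⟩
    · rw [h1]
      by_contra hlt
      have : p < 9 := by omega
      interval_cases p <;> omega
    · rw [h1]
      nlinarith
  have h5 : 5 ∣ Fintype.card F * (Fintype.card F ^ 2 - 1) := by
    apply Dvd.dvd.mul_left
    apply five_dvd
    rcases h with ⟨h1, h2⟩ | ⟨h1, h2⟩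
    · rw [h1]
      omega
    · rw [h1, Nat.pow_mod]
      have : p % 5 = 3 ∨ p % 5 = 2 := by omega
      rcases this with h | h <;> rw [h] <;> norm_num
  obtain ⟨H, ⟨i⟩⟩ := exists_A5 h5
  have hc : Nat.card H = 60 := by rw [Nat.card_congr i.toEquiv, card_A5]
  refine ⟨H, ?_, ⟨i⟩⟩
  apply coatom_of_small p hp2 H
  · intro htop
    have h1 : Nat.card H = Nat.card (Matrix.ProjectiveSpecialLinearGroup (Fin 2) F) := by
      rw [htop]
      exact Nat.card_congr Subgroup.topEquiv.toEquiv
    have h2 := card_PP_eq (F := F)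
    rw [← h1, hc] at h2
    have h3 : Nat.card (Roots1 F) ≤ 2 := by
      rw [card_roots1_eq_gcd]
      exact Nat.le_of_dvd (by norm_num) (Nat.gcd_dvd_left _ _)
    have h4 : 81 ≤ Fintype.card F ^ 2 := by nlinarith
    have h5 : 80 ≤ Fintype.card F ^ 2 - 1 := by omega
    have h6 : 9 * 80 ≤ Fintype.card F * (Fintype.card F ^ 2 - 1) := Nat.mul_le_mul hq9 h5
    omega
  · exact a4Data_A5.of_injective i.symm.toMonoidHom i.symm.injective
  · intro M hM hMt hi
    have h1 : 60 ∣ Nat.card M := by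
      rw [← hc]
      exact Subgroup.card_dvd_of_le hM
    rcases hi with ⟨⟨j⟩⟩ | ⟨⟨j⟩⟩ | ⟨⟨j⟩⟩
    · rw [Nat.card_congr j.toEquiv, card_A4] at h1
      norm_num at h1
    · rw [Nat.card_congr j.toEquiv, card_S4] at h1
      norm_num at h1
    · symm
      apply Subgroup.eq_of_le_of_card_ge hM
      rw [hc, Nat.card_congr j.toEquiv, card_A5]
  · intro M E hM hE4 hEq hi
    exfalso
    haveI : Fintype E := Fintype.ofFinite _
    have hpow : Nat.card E ^ Module.finrank E F = Fintype.card F := by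
      rw [Nat.card_eq_fintype_card]
      exact (Module.card_eq_pow_finrank (K := E) (V := F)).symm
    have h1 : Nat.card E ∣ Fintype.card F := by
      rw [← hpow]
      exact dvd_pow_self _ Module.finrank_pos.ne'
    have hE : Nat.card E = p ∧ (p % 10 = 3 ∨ p % 10 = 7) := by
      rcases h with ⟨h2, h3⟩ | ⟨h2, h3⟩
      · rw [h2] at h1
        rcases (Nat.dvd_prime hpp).mp h1 with h4 | h4
        · omega
        · exact absurd (by rw [h4, h2]) hEq
      · rw [h2] at h1 hEq
        obtain ⟨k, hk, h4⟩ := (Nat.dvd_prime_pow hpp).mp h1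
        interval_cases k
        · rw [pow_zero] at h4
          omega
        · rw [pow_one] at h4
          exact ⟨h4, h3⟩
        · exact absurd h4 hEq
    obtain ⟨hE1, hE2⟩ := hE
    have h2 : Nat.card M ∣ p * (p ^ 2 - 1) := by
      rcases hi with ⟨⟨j⟩⟩ | ⟨⟨j⟩⟩
      · rw [Nat.card_congr j.toEquiv]
        have := card_PSL2' E
        rw [← Nat.card_eq_fintype_card, hE1] at this
        rw [← this]
        exact dvd_mul_left _ _
      · rw [Nat.card_congr j.toEquiv]
        have := card_PGL2 E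
        rw [← Nat.card_eq_fintype_card, hE1] at this
        rw [this]
    have h3 : 60 ∣ Nat.card M := by
      rw [← hc]
      exact Subgroup.card_dvd_of_le hM
    apply not_five_dvd p (by omega)
    exact ((by norm_num : 5 ∣ 60).trans h3).trans h2

/-- Let p be a prime and F a finite field of characteristic p such that either F has p elements and p ≡ ±1 (mod 10), or F has p² elements and p ≡ ±3 (mod 10). Then PSL_2(F) has a maximal subgroup isomorphic to the alternating group A_5. -/
theorem result {F : Type*} [Field F] [Fintype F] (p : ℕ) [Fact p.Prime] [CharP F p] (h : (Fintype.card F = p ∧ (p % 10 = 1 ∨ p % 10 = 9)) ∨ (Fintype.card F = p ^ 2 ∧ (p % 10 = 3 ∨ p % 10 = 7))) : ∃ H : Subgroup (Matrix.ProjectiveSpecialLinearGroup (Fin 2) F), IsCoatom H ∧ Nonempty (H ≃* alternatingGroup (Fin 5)) := by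
  exact main_aux p h

end Cfsg.Agent.S5939
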