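import Cfsg.Statements.S5940
import Mathlib
import Cfsg.Agent.Lib.Classical.Dick.NV2

set_option autoImplicit false
open Cfsg

namespace Cfsg.Agent.S5940

open Cfsg.Agent.Lib.Classical.Dick in
open Cfsg.Agent.Lib.KS2.SL2 in
private theorem main_aux {F : Type*} [Field F] [Fintype F] (p : ℕ) [hpf : Fact p.Prime] (hF : Fintype.card F = p) (h5 : 5 ≤ p) (h8 : p % 8 = 3 ∨ p % 8 = 5) (h10 : p % 10 ≠ 1 ∧ p % 10 ≠ 9) : ∃ H : Subgroup (Matrix.ProjectiveSpecialLinearGroup (Fin 2) F), IsCoatom H ∧ Nonempty (H ≃* alternatingGroup (Fin 4)) := by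
  classical
  have hpp : p.Prime := Fact.out
  haveI hc : CharP F p := by
    obtain ⟨r, hr⟩ := CharP.exists F
    haveI : Fact r.Prime := ⟨CharP.char_is_prime F r⟩
    obtain ⟨m, -, hm⟩ := FiniteField.card F r
    rw [hF] at hm
    have h1 : r = p := by
      have h2 : r ∣ p := by
        rw [hm]
        exact dvd_pow_self _ m.ne_zero
      exact (Nat.prime_dvd_prime_iff_eq Fact.out hpp).mp h2
    rwa [h1] at hr
  have hp2 : p ≠ 2 := by omega
  have h2 : (2 : F) ≠ 0 := by
    intro h20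
    have h3 : ((2 : ℕ) : F) = 0 := by exact_mod_cast h20
    have h4 : p ∣ 2 := (CharP.cast_eq_zero_iff F p 2).mp h3
    exact hp2 ((Nat.prime_dvd_prime_iff_eq hpp Nat.prime_two).mp h4)
  have hch : ringChar F ≠ 2 := by
    intro h
    apply hp2
    have := ringChar.eq F p
    omega
  obtain ⟨H, ⟨i⟩⟩ := exists_A4_odd (F := F) h2
  have hcH : Nat.card H = 12 := by rw [Nat.card_congr i.toEquiv, card_A4]
  have hPP : 2 * Nat.card (Matrix.ProjectiveSpecialLinearGroup (Fin 2) F) = p * (p ^ 2 - 1) := by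
    have h3 := card_PP_eq (F := F)
    rwa [card_roots1_odd hch, hF] at h3
  have hsq1 : 1 ≤ p ^ 2 := Nat.one_le_pow _ _ (by omega)
  refine ⟨H, ?_, ⟨i⟩⟩
  apply coatom_of_small p hp2 H
  · intro htop
    have h1 : Nat.card H = Nat.card (Matrix.ProjectiveSpecialLinearGroup (Fin 2) F) := by
      rw [htop]
      exact Nat.card_congr Subgroup.topEquiv.toEquiv
    rw [← h1, hcH] at hPP
    have h4 : 25 ≤ p ^ 2 := by nlinarith
    have h5' : 24 ≤ p ^ 2 - 1 := by omega
    have h6 : 5 * 24 ≤ p * (p ^ 2 - 1) := Nat.mul_le_mul h5 h5'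
    omega
  · exact a4Data_A4.of_injective i.symm.toMonoidHom i.symm.injective
  · intro M hM hMt hi
    have h1 : 12 ∣ Nat.card M := by
      rw [← hcH]
      exact Subgroup.card_dvd_of_le hM
    have h3 : Nat.card M ∣ Nat.card (Matrix.ProjectiveSpecialLinearGroup (Fin 2) F) := Subgroup.card_subgroup_dvd_card M
    rcases hi with ⟨⟨j⟩⟩ | ⟨⟨j⟩⟩ | ⟨⟨j⟩⟩
    · symm
      apply Subgroup.eq_of_le_of_card_ge hM
      rw [hcH, Nat.card_congr j.toEquiv, card_A4]
    · exfalso
      have h4 := sq_mod_of_S4 M j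
      rw [hF] at h4
      have h6 : p % 16 = 3 ∨ p % 16 = 5 ∨ p % 16 = 11 ∨ p % 16 = 13 := by omega
      have h7 : p ^ 2 % 16 = (p % 16) ^ 2 % 16 := Nat.pow_mod _ _ _
      rw [h4] at h7
      rcases h6 with h6 | h6 | h6 | h6 <;> rw [h6] at h7 <;> norm_num at h7
    · exfalso
      apply hMt
      apply Subgroup.eq_top_of_card_eq
      rw [Nat.card_congr j.toEquiv, card_A5] at h3 ⊢
      -- `5 ∣ p (p² - 1)`
      have h6 : 5 ∣ p * (p ^ 2 - 1) := by
        rw [← hPP]
        obtain ⟨c, hc'⟩ := h3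
        rw [hc']
        exact ⟨24 * c, by ring⟩
      have h7 : p = 5 := by
        rcases (by norm_num : Nat.Prime 5).dvd_mul.mp h6 with h | h
        · exact ((Nat.prime_dvd_prime_iff_eq (by norm_num) hpp).mp h).symm
        · exfalso
          have h8' : p % 5 = 0 ∨ p % 5 = 1 ∨ p % 5 = 2 ∨ p % 5 = 3 ∨ p % 5 = 4 := by omega
          have h9 : p ^ 2 % 5 = (p % 5) ^ 2 % 5 := Nat.pow_mod _ _ _
          have hodd : p % 2 = 1 := by
            rcases hpp.eq_two_or_odd with h | h
            · omega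
            · exact h
          rcases h8' with h8' | h8' | h8' | h8' | h8' <;> rw [h8'] at h9 <;> norm_num at h9 <;> omega
      subst h7
      have e : (5 : ℕ) * (5 ^ 2 - 1) = 120 := by norm_num
      rw [e] at hPP
      omega
  · intro M E hM hE4 hEq hi
    exfalso
    haveI : Fintype E := Fintype.ofFinite _
    have hpow : Nat.card E ^ Module.finrank E F = Fintype.card F := by
      rw [Nat.card_eq_fintype_card]
      exact (Module.card_eq_pow_finrank (K := E) (V := F)).symm
    have h1 : Nat.card E ∣ Fintype.card F := by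
      rw [← hpow]
      exact dvd_pow_self _ Module.finrank_pos.ne'
    rw [hF] at h1 hEq
    rcases (Nat.dvd_prime hpp).mp h1 with h4 | h4
    · omega
    · exact hEq h4

/-- Let p ≥ 5 be a prime with p ≡ ±3 (mod 8) and p ≢ ±1 (mod 10), and F a field with p elements. Then PSL_2(F) has a maximal subgroup isomorphic to the alternating group A_4. -/
theorem result {F : Type*} [Field F] [Fintype F] (p : ℕ) [Fact p.Prime] (hF : Fintype.card F = p) (h5 : 5 ≤ p) (h8 : p % 8 = 3 ∨ p % 8 = 5) (h10 : p % 10 ≠ 1 ∧ p % 10 ≠ 9) : ∃ H : Subgroup (Matrix.ProjectiveSpecialLinearGroup (Fin 2) F), IsCoatom H ∧ Nonempty (H ≃* alternatingGroup (Fin 4)) := by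
  exact main_aux p hF h5 h8 h10

end Cfsg.Agent.S5940
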