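import Cfsg.Statements.S5945
import Mathlib
import Cfsg.Agent.Lib.Geo.S6Index

set_option autoImplicit false

namespace Cfsg.Agent.S5945

open Cfsg.Agent.Lib.Geo.S6Index

theorem result : Nat.card {H : Subgroup (Equiv.Perm (Fin 6)) // H.index = 6} = 12 ∧ (∀ H : Subgroup (Equiv.Perm (Fin 6)), H.index = 6 → Nonempty (H ≃* Equiv.Perm (Fin 5))) ∧ ∃ H : Subgroup (Equiv.Perm (Fin 6)), H.index = 6 ∧ ∀ a : Fin 6, H ≠ MulAction.stabilizer (Equiv.Perm (Fin 6)) a := by
  refine ⟨card_index_six, iso_S5, St (fc 0), index_St 0, fun a h => ?_⟩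
  exact stab_ne_St a 0 h.symm

end Cfsg.Agent.S5945
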