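import Cfsg.Statements.S5946
import Mathlib

set_option autoImplicit false

namespace Cfsg.Agent.S5946

theorem result {F K : Type*} [Field F] [Fintype F] [Field K] [Fintype K] [Algebra F K] (n : ℕ) (hn : 2 ≤ n) (hdim : Module.finrank F K = n) :
    Subgroup.centralizer (((Units.map ((Algebra.lmul F K : K →ₐ[F] Module.End F K) : K →* Module.End F K)).range : Subgroup (Module.End F K)ˣ) : Set (Module.End F K)ˣ) = (Units.map ((Algebra.lmul F K : K →ₐ[F] Module.End F K) : K →* Module.End F K)).range := by
  apply le_antisymm
  · intro g hg
    rw [Subgroup.mem_centralizer_iff] at hg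
    have h1 : ∀ x y : K, x ≠ 0 → (g : Module.End F K) (x * y) = x * (g : Module.End F K) y := by
      intro x y hx
      have := hg (Units.map ((Algebra.lmul F K : K →ₐ[F] Module.End F K) : K →* Module.End F K) (Units.mk0 x hx)) ⟨_, rfl⟩
      have h2 := congrArg (fun u : (Module.End F K)ˣ => (u : Module.End F K) y) this
      simpa [Module.End.mul_apply] using h2.symm
    have h2 : ∀ x : K, (g : Module.End F K) x = x * (g : Module.End F K) 1 := by
      intro x
      by_cases hx : x = 0
      · simp [hx]
      · have := h1 x 1 hx
        simpa using this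
    have h3 : (g : Module.End F K) 1 ≠ 0 := by
      intro h0
      have h4 : (g : Module.End F K) = 0 := by
        ext x
        rw [h2 x, h0]; simp
      have h5 : (1 : Module.End F K) = 0 := by
        have := g.inv_mul
        rw [h4, mul_zero] at this
        exact this.symm
      have h6 := congrArg (fun f : Module.End F K => f 1) h5
      simp at h6
    refine ⟨Units.mk0 _ h3, ?_⟩
    ext x
    simp [h2 x, mul_comm]
  · rintro _ ⟨u, rfl⟩
    rw [Subgroup.mem_centralizer_iff]
    rintro _ ⟨v, rfl⟩
    ext x
    simp [Module.End.mul_apply, mul_left_comm]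

end Cfsg.Agent.S5946
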